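import Cfsg.Statements.S5251
import Cfsg.Agent.Lib.Helper89Fusion2

set_option autoImplicit false
open Cfsg

namespace Cfsg.Agent.S5251

open Cfsg Cfsg.FusionSystem Cfsg.Agent.Lib.Helper87Fusion Cfsg.Agent.Lib.Helper86Group
  Cfsg.Agent.Lib.Helper86Fusion Cfsg.Agent.Lib.Helper86Fusion2 Cfsg.Agent.Lib.Helper86Fusion3
  Cfsg.Agent.Lib.Helper86Series Cfsg.Agent.Lib.Helper89Fusion2
open Cfsg.Agent.Lib.Helper87Fusion3 hiding pCore_normal pCore_isPGroup le_pCore

/-- Let F be a saturated fusion system over a finite p-group S, E a normal subsystem of F over T, and P an F-centric subgroup of S such that P ∩ T is not E-centric. Then some F-conjugate P* of P satisfies Out_S(P*) ∩ O_p(Out_F(P*)) ≠ 1: there is an element of N_S(P*) outside P* whose conjugation action on P* lies in O_p(Aut_F(P*)). In particular P is not both centric and radical in F. -/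
theorem result {Ω : Type*} [Group Ω] {S : Subgroup Ω} [Finite S] (p : ℕ) [Fact p.Prime] (hS : IsPGroup p S) (F : Cfsg.FusionSystem S) (hF : F.IsSaturated p) {T : Subgroup Ω} (E : Cfsg.FusionSystem T) (hE : E.IsNormalIn F p) (P : Subgroup Ω) (hP : F.IsCentric P) (hPT : ¬ E.IsCentric (P ⊓ T)) : (∃ φ ∈ F.Hom P, ∃ x ∈ S ⊓ Subgroup.normalizer (φ.range : Set Ω), x ∉ φ.range ∧ ∃ α ∈ ((Cfsg.pCore p ↥(F.autGroup φ.range)).map (F.autGroup φ.range).subtype : Subgroup (MulAut ↥φ.range)), ∀ y : ↥φ.range, ((α y : ↥φ.range) : Ω) = x * (y : Ω) * x⁻¹) ∧ ¬ F.IsRadical p P := by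
  obtain ⟨⟨-, -, hsub, hT, -, -⟩, -⟩ := hE
  have hPS := hP.1
  have hTS := hT.1
  have hRS : P ⊓ T ≤ S := inf_le_left.trans hPS
  obtain ⟨Q₀, hQ₀, hcQ₀⟩ : ∃ Q₀, E.IsConj (P ⊓ T) Q₀ ∧ ¬ centralizerIn T Q₀ ≤ Q₀ := by
    by_contra hcon
    push Not at hcon
    exact hPT ⟨inf_le_right, hcon⟩
  have hQ₀F : F.IsConj (P ⊓ T) Q₀ := by
    obtain ⟨ψ, hψ, hψr⟩ := hQ₀
    exact ⟨ψ, hsub _ hψ, hψr⟩
  obtain ⟨R₀, hRR₀, hR₀⟩ := exists_fullyNormalized_conj F hRS
  obtain ⟨-, h₁, h₂⟩ := saturated_fullyNormalized hS hF hR₀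
  obtain ⟨χ, hχ, hχR, -⟩ := exists_normalizer_map hS F R₀ (P ⊓ T) h₁ h₂ hRR₀
  obtain ⟨χ', hχ', hχ'Q, -⟩ := exists_normalizer_map hS F R₀ Q₀ h₁ h₂
    (isConj_trans (isConj_symm hQ₀F) hRR₀)
  obtain ⟨c, hc, hcQ⟩ := SetLike.not_le_iff_exists.1 hcQ₀
  obtain ⟨hcT, hcc⟩ := mem_centralizerIn.1 hc
  have hQ₀S : Q₀ ≤ S := isConj_le_right hQ₀F
  have hcN : c ∈ normalizerIn S Q₀ :=
    centralizerIn_le_normalizerIn S Q₀ (mem_centralizerIn.2 ⟨hTS hcT, hcc⟩)
  have hQ₀N : Q₀ ≤ normalizerIn S Q₀ := le_normalizerIn hQ₀S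
  have hR₀T : R₀ ≤ T := by
    intro y hy
    obtain ⟨x, hx, rfl⟩ := IsMap.exists_of_mem_image hχR hy
    exact StronglyClosed_mem hT hχ (le_normalizerIn hRS hx) hx.2
  -- the element d₀
  have hd₀T : χ' c ∈ T := StronglyClosed_mem hT hχ' hcN hcT
  have hd₀c : ∀ r ∈ R₀, r * χ' c = χ' c * r := by
    intro r hr
    obtain ⟨q, hq, rfl⟩ := IsMap.exists_of_mem_image hχ'Q hr
    rw [← hχ'.map_mul (hQ₀N hq) hcN, ← hχ'.map_mul hcN (hQ₀N hq), hcc q hq]
  have hd₀R : χ' c ∉ R₀ := by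
    intro h
    obtain ⟨q, hq, hqc⟩ := IsMap.exists_of_mem_image hχ'Q h
    exact hcQ (hχ'.inj (hQ₀N hq) hcN hqc ▸ hq)
  have hPN : P ≤ normalizerIn S (P ⊓ T) := by
    intro x hx
    rw [mem_normalizerIn]
    refine ⟨hPS hx, ?_⟩
    apply mem_normalizer_of_conj_mem
    · intro y hy
      exact ⟨P.mul_mem (P.mul_mem hx hy.1) (P.inv_mem hx),
        StronglyClosed_conj_mem hT (hPS hx) hy.2⟩
    · intro y hy
      refine ⟨P.mul_mem (P.mul_mem (P.inv_mem hx) hy.1) hx, ?_⟩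
      have := StronglyClosed_conj_mem hT (S.inv_mem (hPS hx)) hy.2
      rwa [inv_inv] at this
  obtain ⟨φ, hφ, hφχ⟩ := hχ.restrict hPN
  have hconj : F.IsConj P φ.range := ⟨φ, hφ, rfl⟩
  have hPsS : φ.range ≤ S := isConj_le_right hconj
  have hmemPs : ∀ y, y ∈ φ.range ↔ ∃ x ∈ P, χ x = y := by
    intro y
    constructor
    · rintro ⟨x, rfl⟩
      exact ⟨x, x.2, (hφχ x).symm⟩
    · rintro ⟨x, hx, rfl⟩
      exact ⟨⟨x, hx⟩, hφχ ⟨x, hx⟩⟩
  have hPsT : ∀ y ∈ φ.range, y ∈ T → y ∈ R₀ := by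
    intro y hy hyT
    obtain ⟨x, hx, rfl⟩ := (hmemPs y).1 hy
    exact IsMap.mem_image hχR ⟨hx, (StronglyClosed_mem_iff hT hχ (hPN hx)).1 hyT⟩
  have hR₀Ps : R₀ ≤ φ.range := by
    intro y hy
    obtain ⟨x, hx, rfl⟩ := IsMap.exists_of_mem_image hχR hy
    exact (hmemPs _).2 ⟨x, hx.1, rfl⟩
  have hd₀D : χ' c ∈ centralizerIn T R₀ := mem_centralizerIn.2 ⟨hd₀T, hd₀c⟩
  have hd₀Ps : χ' c ∉ φ.range := fun h => hd₀R (hPsT _ h hd₀T)
  have hDS : centralizerIn T R₀ ≤ S := (centralizerIn_le T R₀).trans hTS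
  have hPDS : φ.range ⊔ centralizerIn T R₀ ≤ S := sup_le hPsS hDS
  have : Finite (φ.range ⊔ centralizerIn T R₀ : Subgroup Ω) := finite_of_le hPDS
  have hlt : φ.range < φ.range ⊔ centralizerIn T R₀ :=
    lt_of_le_of_ne le_sup_left (fun h => hd₀Ps (h ▸ (Subgroup.mem_sup_right hd₀D)))
  obtain ⟨g, hg, hgN, hgP⟩ := exists_mem_normalizer_not_mem _ φ.range (hS.to_le hPDS) hlt
  obtain ⟨y, hy, d, hd, rfl⟩ := mem_sup_of_normalizes (fun y hy d hd => by
    obtain ⟨hdT, hdc⟩ := mem_centralizerIn.1 hd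
    rw [mem_centralizerIn]
    have h1 := StronglyClosed_conj_mem hT (S.inv_mem (hPsS hy)) hdT
    rw [inv_inv] at h1
    refine ⟨h1, fun r hr => ?_⟩
    have h2 : y * r * y⁻¹ ∈ R₀ :=
      hPsT _ (Subgroup.mul_mem _ (Subgroup.mul_mem _ hy (hR₀Ps hr)) (Subgroup.inv_mem _ hy))
        (StronglyClosed_conj_mem hT (hPsS hy) (hR₀T hr))
    have h3 := hdc _ h2
    calc r * (y⁻¹ * d * y) = y⁻¹ * ((y * r * y⁻¹) * d) * y := by group
      _ = y⁻¹ * (d * (y * r * y⁻¹)) * y := by rw [h3]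
      _ = y⁻¹ * d * y * r := by group) g hg
  have hdN : d ∈ Subgroup.normalizer (φ.range : Set Ω) := by
    have := Subgroup.mul_mem _ (Subgroup.inv_mem _ (Subgroup.le_normalizer hy)) hgN
    rwa [inv_mul_cancel_left] at this
  have hdP : d ∉ φ.range := fun h => hgP (Subgroup.mul_mem _ hy h)
  obtain ⟨hdT, hdc⟩ := mem_centralizerIn.1 hd
  have hdS : d ∈ S := hTS hdT
  obtain ⟨r, hr', hgr⟩ := exists_conjAut hdS hdN
  have hrA := autInducedBy_le_autGroup F hPsS hr'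
  have hrcore : r ∈ (pCore p (F.autGroup φ.range)).map (F.autGroup φ.range).subtype := by
    refine mem_pCore_of_stabChain hS hPsS
      (fun j => if j = 0 then ⊥ else if j = 1 then T.subgroupOf φ.range else ⊤) (by simp) 2
      (by simp) ?_ hrA ?_
    · intro γ hγ j x hx
      have hg : IsMap F φ.range (tot (φ.range.subtype.comp γ.toMonoidHom)) :=
        isMap_tot ((mem_autGroup_iff F hPsS γ).1 hγ)
      by_cases h0 : j = 0
      · subst h0
        simp only [if_true, Subgroup.mem_bot] at hx ⊢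
        rw [hx, map_one]
      · by_cases h1 : j = 1
        · subst h1
          simp only [one_ne_zero, if_false, if_true, Subgroup.mem_subgroupOf] at hx ⊢
          have := StronglyClosed_mem hT hg x.2 hx
          rwa [tot_apply] at this
        · simp only [if_neg h0, if_neg h1]; trivial
    · intro j x hx
      by_cases h0 : j = 0
      · subst h0
        simp only [zero_add, one_ne_zero, if_false, if_true, Subgroup.mem_subgroupOf,
          Subgroup.mem_bot] at hx ⊢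
        apply Subtype.ext
        show (x : Ω)⁻¹ * ((r x : φ.range) : Ω) = 1
        rw [hgr, ← hdc _ (hPsT _ x.2 hx)]
        group
      · by_cases h1 : j = 1
        · subst h1
          simp only [one_ne_zero, if_false, if_true, Subgroup.mem_subgroupOf]
          show (x : Ω)⁻¹ * ((r x : φ.range) : Ω) ∈ T
          rw [hgr]
          have h2 := StronglyClosed_conj_mem hT (S.inv_mem (hPsS x.2)) hdT
          rw [inv_inv] at h2
          have := T.mul_mem h2 (T.inv_mem hdT)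
          simpa [mul_assoc] using this
        · simp only [if_neg h0, if_neg h1]; trivial
  refine ⟨⟨φ, hφ, d, ⟨hdS, hdN⟩, hdP, r, hrcore, hgr⟩, fun hrad => ?_⟩
  exact conjAut_not_mem_inn (hP.2 _ hconj) hdS hdP hPsS hgr
    (mem_inn_of_mem_pCore_of_radical hrad hconj hrcore)

end Cfsg.Agent.S5251
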