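import Cfsg.Statements.S1780
-- import your own Cfsg.Agent.* helpers here

set_option autoImplicit false
open Cfsg

namespace Cfsg.Agent.S1780

variable {A : Type*} [CommGroup A]

theorem pow_fix (t : MulAut A) (x : A) (h : t x = x) (n : ℕ) : (t ^ n) x = x := by
  induction n with
  | zero => simp
  | succ n ih => rw [pow_succ, MulAut.mul_apply, h, ih]

theorem comm_apply (t : MulAut A) (n : ℕ) (x : A) : (t ^ n) (t x) = t ((t ^ n) x) := by
  have h : t ^ n * t = t * t ^ n := ((Commute.refl t).pow_left n).eq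
  have := congrArg (fun f : MulAut A => f x) h
  simpa [MulAut.mul_apply] using this

/-- the common final step -/
theorem stepF (t s : MulAut A) (hC : ∀ a : A, t (t a) = a → t a = a)
    (hP : ∀ a : A, s a = a → t a = a) (x : A) (h2 : t (x ^ 2) = x ^ 2)
    (he : s (t x * x⁻¹) = t x * x⁻¹) : t x = x := by
  have hte : t (t x * x⁻¹) = t x * x⁻¹ := hP _ he
  have he2 : (t x * x⁻¹) ^ 2 = 1 := by
    rw [mul_pow, ← map_pow, h2, inv_pow, mul_inv_cancel]
  apply hC
  have h3 : t (t x) = t (t x * x⁻¹) * t x := by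
    rw [← map_mul]; congr 1; simp
  rw [h3, hte]
  have : t x * x⁻¹ * t x = (t x * x⁻¹) ^ 2 * x := by
    rw [pow_two]; simp [mul_assoc]
  rw [this, he2, one_mul]

theorem stepD4 (t : MulAut A) (n : ℕ) (hC : ∀ a : A, t (t a) = a → t a = a)
    (hP : ∀ a : A, (t ^ n) a = a → t a = a) (x : A) (hs : (t ^ n) x = x⁻¹) (h4 : x ^ 4 = 1) :
    x ^ 2 = 1 := by
  have hx2 : (t ^ n) (x ^ 2) = x ^ 2 := by
    rw [map_pow, hs, inv_pow]
    rw [inv_eq_iff_mul_eq_one, ← pow_add]
    exact h4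
  have ht2 : t (x ^ 2) = x ^ 2 := hP _ hx2
  have he2 : (t x * x⁻¹) ^ 2 = 1 := by
    rw [mul_pow, ← map_pow, ht2, inv_pow, mul_inv_cancel]
  have he : (t ^ n) (t x * x⁻¹) = t x * x⁻¹ := by
    rw [map_mul, comm_apply, map_inv, hs, map_inv, inv_inv]
    -- (t x)⁻¹ * x = t x * x⁻¹
    have : (t x)⁻¹ * x = (t x * x⁻¹)⁻¹ := by simp [mul_comm]
    rw [this, inv_eq_iff_mul_eq_one, ← pow_two]
    exact he2
  have htx : t x = x := stepF t (t ^ n) hC hP x ht2 he
  have hsx : (t ^ n) x = x := pow_fix t x htx n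
  rw [hs] at hsx
  rw [pow_two]
  calc x * x = x * x⁻¹ := by rw [hsx]
    _ = 1 := mul_inv_cancel x

theorem stepD (t : MulAut A) (n : ℕ) (hC : ∀ a : A, t (t a) = a → t a = a)
    (hP : ∀ a : A, (t ^ n) a = a → t a = a) (j : ℕ) :
    ∀ x : A, (t ^ n) x = x⁻¹ → x ^ (2 ^ j) = 1 → x ^ 2 = 1 := by
  induction j with
  | zero =>
    intro x _ h
    simp at h
    simp [h]
  | succ j ih =>
    intro x hs h
    have h1 : (x ^ 2) ^ 2 = 1 := by
      apply ih (x ^ 2)
      · rw [map_pow, hs, inv_pow]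
      · rw [← pow_mul, ← pow_succ']; exact h
    apply stepD4 t n hC hP x hs
    rw [← h1, ← pow_mul]

theorem main (hA : IsPGroup 2 A) (t : MulAut A) (hC : ∀ a : A, t (t a) = a → t a = a) (k : ℕ) :
    ∀ a : A, (t ^ (2 ^ k)) a = a → t a = a := by
  induction k with
  | zero => intro a h; simpa using h
  | succ k ih =>
    intro a h
    set n := 2 ^ k with hn
    have hss : (t ^ n) ((t ^ n) a) = a := by
      rw [← MulAut.mul_apply, ← pow_add]
      have : n + n = 2 ^ (k + 1) := by rw [hn, pow_succ]; ring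
      rw [this]; exact h
    set sa := (t ^ n) a with hsa
    -- c = a⁻¹ * s a
    have hc : (t ^ n) (a⁻¹ * sa) = (a⁻¹ * sa)⁻¹ := by
      rw [map_mul, map_inv, hss, ← hsa]; simp [mul_comm]
    obtain ⟨j, hj⟩ := hA (a⁻¹ * sa)
    have hc2 : (a⁻¹ * sa) ^ 2 = 1 := stepD t n hC ih j _ hc hj
    have hcinv : (a⁻¹ * sa)⁻¹ = a⁻¹ * sa := by
      rw [inv_eq_iff_mul_eq_one, ← pow_two]; exact hc2
    have htc : t (a⁻¹ * sa) = a⁻¹ * sa := ih _ (by rw [hc, hcinv])
    have htb : t (a * sa) = a * sa := by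
      apply ih
      rw [map_mul, hss, ← hsa, mul_comm]
    have ha2 : a ^ 2 = (a * sa) * (a⁻¹ * sa)⁻¹ := by
      rw [pow_two]; simp [mul_comm, mul_assoc, mul_left_comm]
    have hta2 : t (a ^ 2) = a ^ 2 := by
      rw [ha2, map_mul, map_inv, htb, htc]
    have hsa' : sa = a * (a⁻¹ * sa) := by simp
    have he : (t ^ n) (t a * a⁻¹) = t a * a⁻¹ := by
      rw [map_mul, comm_apply, map_inv, ← hsa]
      have h1 : t sa = t a * (a⁻¹ * sa) := by
        conv_lhs => rw [hsa']
        rw [map_mul, htc]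
      rw [h1]
      simp [mul_comm, mul_assoc, mul_left_comm]
    exact stepF t (t ^ n) hC ih a hta2 he

/-- Let A be a finite abelian 2-group and t an automorphism of A whose order is a power of 2. If every element of A fixed by t² is fixed by t, then t fixes every element of A. -/
theorem result {A : Type*} [CommGroup A] [Finite A]
    (hA : IsPGroup 2 A) (t : MulAut A) (ht : ∃ k : ℕ, orderOf t = 2 ^ k) (hC : ∀ a : A, t (t a) = a → t a = a) :
    ∀ a : A, t a = a := by
  obtain ⟨k, hk⟩ := ht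
  intro a
  apply main hA t hC k a
  rw [← hk, pow_orderOf_eq_one]
  rfl

end Cfsg.Agent.S1780
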