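import Cfsg.Statements.S0548
-- import your own Cfsg.Agent.* helpers here
import Mathlib
import Cfsg.Agent.S0547

set_option autoImplicit false
open Cfsg

namespace Cfsg.Agent.S0548

open Pointwise


/-- Let a finite solvable group G act faithfully and primitively on a set, let M be a minimal normal subgroup and H the stabilizer of a point. Then H is a complement to M, no non-identity element of H centralizes M, and the only subgroups of M normalized by H are the trivial subgroup and M. -/
theorem result {G : Type*} [Group G] [Finite G] [Group.IsSolvable G] {Ω : Type*} [MulAction G Ω] [FaithfulSMul G Ω] (hprim : MulAction.IsPreprimitive G Ω) (M : Subgroup G) [M.Normal] (hM : M ≠ ⊥) (hmin : ∀ K : Subgroup G, K.Normal → K ≤ M → K = ⊥ ∨ K = M) (ω : Ω) : Subgroup.IsComplement' M (MulAction.stabilizer G ω) ∧ MulAction.stabilizer G ω ⊓ Subgroup.centralizer (M : Set G) = ⊥ ∧ ∀ K : Subgroup G, K ≤ M → MulAction.stabilizer G ω ≤ Subgroup.normalizer (K : Set G) → K = ⊥ ∨ K = M := by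
  have htr := Cfsg.Agent.S0547.trans hprim M hM
  obtain ⟨-, hab⟩ := Cfsg.Agent.S0547.pgroup_abelian M hM hmin
  have hdec : ∀ g : G, ∃ m ∈ M, ∃ h ∈ MulAction.stabilizer G ω, g = m * h := by
    intro g
    obtain ⟨m, hm⟩ := MulAction.exists_smul_eq M ω (g • ω)
    refine ⟨m, m.2, (m : G)⁻¹ * g, ?_, by group⟩
    rw [MulAction.mem_stabilizer_iff, mul_smul, ← hm, Subgroup.smul_def, inv_smul_smul]
  refine ⟨?_, ?_, ?_⟩
  · apply Subgroup.isComplement'_of_disjoint_and_mul_eq_univ
    · rw [Subgroup.disjoint_def]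
      intro x hxM hx
      exact Cfsg.Agent.S0547.eq_one_of_fix M htr ω x hx (fun n hn => hab _ hxM _ hn)
    · apply Set.eq_univ_of_forall
      intro g
      obtain ⟨m, hm, h, hh, rfl⟩ := hdec g
      exact ⟨m, hm, h, hh, rfl⟩
  · rw [Subgroup.eq_bot_iff_forall]
    rintro x ⟨hx, hxc⟩
    apply Cfsg.Agent.S0547.eq_one_of_fix M htr ω x hx
    intro n hn
    exact ((Subgroup.mem_centralizer_iff.1 hxc) n hn).symm
  · intro K hKM hK
    apply hmin K _ hKM
    constructor
    intro k hk g
    obtain ⟨m, hm, h, hh, rfl⟩ := hdec g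
    have h1 : h * k * h⁻¹ ∈ K := (Subgroup.mem_normalizer_iff.1 (hK hh) k).1 hk
    have h2 : m * h * k * (m * h)⁻¹ = h * k * h⁻¹ := by
      have h3 := hab m hm _ (hKM h1)
      calc m * h * k * (m * h)⁻¹ = (m * (h * k * h⁻¹)) * m⁻¹ := by group
        _ = ((h * k * h⁻¹) * m) * m⁻¹ := by rw [h3]
        _ = h * k * h⁻¹ := by group
    rw [h2]
    exact h1

end Cfsg.Agent.S0548
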