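import Cfsg.Statements.S4058
import Cfsg.Agent.S0159
import Cfsg.Agent.Lib.Helper83FS
import Cfsg.Agent.Lib.Helper4Char3
import Cfsg.Agent.Lib.Helper4Char4
import Cfsg.Agent.Lib.Helper19Lin
import Cfsg.Agent.Lib.Helper3PGroup
import Mathlib

set_option autoImplicit false
open Cfsg

namespace Cfsg.Agent.S4058

open Cfsg.Agent.Lib.Helper4Char Cfsg.Agent.Lib.Helper4Char4 Cfsg.Agent.Lib.Helper19Lin
open scoped ComplexConjugate

section Twist

variable {G : Type*} [Group G] [Finite G]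

theorem hom_mul_conj (μ : G →* ℂˣ) (g : G) : ((μ g : ℂˣ) : ℂ) * conj ((μ g : ℂˣ) : ℂ) = 1 := by
  have h1 : ((μ g : ℂˣ) : ℂ) ^ (orderOf g) = 1 := by
    rw [← Units.val_pow_eq_pow_val, ← map_pow, pow_orderOf_eq_one, map_one, Units.val_one]
  have h2 : ‖((μ g : ℂˣ) : ℂ)‖ = 1 :=
    Complex.norm_eq_one_of_pow_eq_one h1 (orderOf_pos g).ne'
  rw [Complex.mul_conj, Complex.normSq_eq_norm_sq, h2]
  simp

theorem twist_irr (μ : G →* ℂˣ) {χ : G → ℂ} (hχ : IsIrrCharacter G χ) :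
    IsIrrCharacter G (fun g => ((μ g : ℂˣ) : ℂ) * χ g) := by
  classical
  have := Fintype.ofFinite G
  rw [isIrrCharacter_iff] at hχ ⊢
  refine ⟨IsCharacter.mul (isCharacter_homFun μ) hχ.1, ?_⟩
  rw [← hχ.2]
  unfold classInner
  congr 1
  apply Finset.sum_congr rfl
  intro g _
  rw [map_mul]
  have := hom_mul_conj μ g
  calc ((μ g : ℂˣ) : ℂ) * χ g * (conj ((μ g : ℂˣ) : ℂ) * conj (χ g))
      = (((μ g : ℂˣ) : ℂ) * conj ((μ g : ℂˣ) : ℂ)) * (χ g * conj (χ g)) := by ring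
    _ = χ g * conj (χ g) := by rw [this, one_mul]

noncomputable instance actIrr : MulAction (G →* ℂˣ) (IrrCharacter G) where
  smul μ χ := ⟨fun g => ((μ g : ℂˣ) : ℂ) * (χ : G → ℂ) g, twist_irr μ χ.2⟩
  one_smul χ := by
    apply Subtype.ext
    funext g
    show (((1 : G →* ℂˣ) g : ℂˣ) : ℂ) * (χ : G → ℂ) g = (χ : G → ℂ) g
    simp
  mul_smul μ ν χ := by
    apply Subtype.ext
    funext g
    show (((μ * ν) g : ℂˣ) : ℂ) * (χ : G → ℂ) g = ((μ g : ℂˣ) : ℂ) * (((ν g : ℂˣ) : ℂ) * (χ : G → ℂ) g)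
    simp [mul_assoc]

theorem smul_apply (μ : G →* ℂˣ) (χ : IrrCharacter G) (g : G) :
    ((μ • χ : IrrCharacter G) : G → ℂ) g = ((μ g : ℂˣ) : ℂ) * (χ : G → ℂ) g := rfl

theorem card_stabilizer_le (χ : IrrCharacter G) (n : ℕ) (hn : (χ : G → ℂ) 1 = n) :
    Nat.card (MulAction.stabilizer (G →* ℂˣ) χ) ≤ n ^ 2 := by
  classical
  have := Fintype.ofFinite G
  have hχc : IsCharacter G (χ : G → ℂ) := IsIrrCharacter.isCharacter χ.2
  have hθ : IsCharacter G ((χ : G → ℂ) * fun g => conj ((χ : G → ℂ) g)) :=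
    IsCharacter.mul hχc (IsCharacter.conj hχc)
  obtain ⟨m, hm, hm'⟩ := IsCharacter.eq_sum_nat hθ
  choose d hd0 hd using fun ψ : IrrCharacter G =>
    Cfsg.Agent.Lib.Helper4Char2.IsIrrCharacter.exists_degree ψ.2
  have h1 : n ^ 2 = ∑ ψ : IrrCharacter G, m ψ * d ψ := by
    have h2 := congrFun hm 1
    simp only [Pi.mul_apply, Complex.conj_natCast, Finset.sum_apply, Pi.smul_apply, hd,
      smul_eq_mul] at h2
    have h3 : ((n ^ 2 : ℕ) : ℂ) = ((∑ ψ : IrrCharacter G, m ψ * d ψ : ℕ) : ℂ) := by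
      push_cast
      rw [← h2, ← hd, hn]; ring
    exact_mod_cast h3
  let j : MulAction.stabilizer (G →* ℂˣ) χ → IrrCharacter G :=
    fun μ => ⟨homFun (μ : G →* ℂˣ), isIrrCharacter_homFun _⟩
  have hj : Function.Injective j := by
    intro μ ν h
    apply Subtype.ext
    apply homFun_injective
    exact congrArg Subtype.val h
  have hmj : ∀ μ, m (j μ) = 1 := by
    intro μ
    have h4 := hm' (j μ)
    have h5 : classInner ((χ : G → ℂ) * fun g => conj ((χ : G → ℂ) g)) (j μ : G → ℂ)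
        = classInner (χ : G → ℂ) (((μ : G →* ℂˣ) • χ : IrrCharacter G) : G → ℂ) := by
      unfold classInner
      congr 1
      apply Finset.sum_congr rfl
      intro g _
      rw [smul_apply, map_mul]
      show (χ : G → ℂ) g * conj ((χ : G → ℂ) g) * conj (((μ : G →* ℂˣ) g : ℂˣ) : ℂ) = _
      ring
    rw [h5, MulAction.mem_stabilizer_iff.mp μ.2, classInner_irr_self χ.2] at h4
    exact_mod_cast h4.symm
  have := Fintype.ofFinite (MulAction.stabilizer (G →* ℂˣ) χ)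
  rw [h1, Nat.card_eq_fintype_card, ← Finset.card_univ,
    ← Finset.card_image_of_injective Finset.univ hj, Finset.card_eq_sum_ones]
  refine le_trans (Finset.sum_le_sum ?_) (Finset.sum_le_sum_of_subset (Finset.subset_univ _))
  intro ψ hψ
  obtain ⟨μ, -, rfl⟩ := Finset.mem_image.mp hψ
  rw [hmj, one_mul]
  exact hd0 _

end Twist


theorem dvd_sum_of_orbit {Λ X : Type*} [Group Λ] [MulAction Λ X] [Fintype X] (F : X → ℤ)
    (hF : ∀ (l : Λ) (x : X), F (l • x) = F x) (m : ℤ)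
    (h : ∀ x, m ∣ (Nat.card (MulAction.orbit Λ x) : ℤ) * F x) : m ∣ ∑ x, F x := by
  classical
  rw [Finset.sum_partition (MulAction.orbitRel Λ X)]
  apply Finset.dvd_sum
  intro q _
  induction q using Quotient.inductionOn with
  | h x =>
    have h1 : ∀ y ∈ Finset.univ.filter (fun y : X => (Quotient.mk (MulAction.orbitRel Λ X) y) = Quotient.mk _ x), F y = F x := by
      intro y hy
      have h2 := Quotient.exact (Finset.mem_filter.mp hy).2
      obtain ⟨l, rfl⟩ := (MulAction.orbitRel_apply.mp h2)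
      exact hF l x
    rw [Finset.sum_congr rfl h1, Finset.sum_const, nsmul_eq_mul]
    have h3 : (Finset.univ.filter (fun y : X => (Quotient.mk (MulAction.orbitRel Λ X) y) = Quotient.mk _ x)).card
        = Nat.card (MulAction.orbit Λ x) := by
      rw [Nat.card_eq_fintype_card, Fintype.card_subtype]
      congr 1
      ext y
      simp only [Finset.mem_filter, Finset.mem_univ, true_and]
      rw [Quotient.eq]
      exact MulAction.orbitRel_apply
    rw [h3]
    exact h x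

/-- Let G be a finite 2-group with #(G/Φ(G)) ≥ 2^(2k+1). Then the number of elements x of G with x² = 1 is divisible by 2^(k+1). -/
theorem result {G : Type*} [Group G] [Finite G] (hG : IsPGroup 2 G) (k : ℕ)
    (hgen : 2 ^ (2 * k + 1) ≤ Nat.card (G ⧸ frattini G)) :
    2 ^ (k + 1) ∣ Nat.card {x : G // x ^ 2 = 1} := by
  classical
  have := Fintype.ofFinite G
  have : Fact (Nat.Prime 2) := ⟨Nat.prime_two⟩
  have hcomm : IsMulCommutative (G ⧸ frattini G) :=
    (Subgroup.Normal.quotient_commutative_iff_commutator_le).mpr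
      (Cfsg.Agent.Lib.Helper3PGroup.commutator_le_frattini hG)
  let _ : CommGroup (G ⧸ frattini G) :=
    { (inferInstance : Group (G ⧸ frattini G)) with mul_comm := fun a b => hcomm.is_comm.comm a b }
  let φ : ((G ⧸ frattini G) →* ℂˣ) →* (G →* ℂˣ) :=
    MonoidHom.compHom' (QuotientGroup.mk' (frattini G))
  have hφ : Function.Injective φ := by
    intro a b hab
    ext x
    exact congrArg Units.val (DFunLike.congr_fun hab x)
  let Λ : Subgroup (G →* ℂˣ) := φ.range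
  have hΛcard : Nat.card Λ = Nat.card (G ⧸ frattini G) := by
    rw [← CommGroup.card_monoidHom_of_hasEnoughRootsOfUnity (G ⧸ frattini G) ℂ]
    exact (Nat.card_congr (MonoidHom.ofInjective hφ).toEquiv).symm
  have hΛsq : ∀ l ∈ Λ, ∀ s : G, l (s * s) = 1 := by
    rintro l ⟨a, rfl⟩ s
    show a (QuotientGroup.mk' (frattini G) (s * s)) = 1
    have h1 : QuotientGroup.mk' (frattini G) (s * s) = 1 := by
      rw [QuotientGroup.mk'_apply, QuotientGroup.eq_one_iff, ← pow_two]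
      exact Cfsg.Agent.Lib.Helper3PGroup.pow_mem_frattini hG s
    rw [h1, map_one]
  obtain ⟨a, ha⟩ := IsPGroup.iff_card.mp hG
  obtain ⟨d, hd⟩ : ∃ d, Nat.card Λ = 2 ^ d := by
    rw [hΛcard]
    have h1 : Nat.card (G ⧸ frattini G) ∣ 2 ^ a := by
      rw [← ha]; exact Subgroup.card_quotient_dvd_card _
    obtain ⟨d, -, hd⟩ := (Nat.dvd_prime_pow Nat.prime_two).mp h1
    exact ⟨d, hd⟩
  have hdk : 2 * k + 1 ≤ d := by
    rw [← hΛcard, hd] at hgen
    exact (Nat.pow_le_pow_iff_right (by norm_num)).mp hgen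
  -- the integer valued function
  have hF : ∀ χ : IrrCharacter G, ∃ z : ℤ,
      (z : ℂ) = ((Nat.card G : ℂ)⁻¹ * ∑ s : G, (χ : G → ℂ) (s * s)) * (χ : G → ℂ) 1 ∧
      ∃ e : ℕ, (χ : G → ℂ) 1 = ((2 ^ e : ℕ) : ℂ) ∧ ((2 ^ e : ℕ) : ℤ) ∣ z := by
    intro χ
    have hfs := (Cfsg.Agent.Lib.Helper83FS.irr_fs χ.2).1
    obtain ⟨n, ρ, hρ, hχ⟩ := χ.2
    have h1 : (χ : G → ℂ) 1 = (n : ℂ) := by
      rw [← hχ]; simp
    have h2 : n ∣ 2 ^ a := by
      have := Cfsg.Agent.Lib.Helper4Char3.finrank_dvd_card ρ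
      rwa [Module.finrank_fin_fun, ha] at this
    obtain ⟨e, -, rfl⟩ := (Nat.dvd_prime_pow Nat.prime_two).mp h2
    rcases hfs with h | h | h
    · exact ⟨0, by rw [h]; simp, e, h1, dvd_zero _⟩
    · exact ⟨((2 ^ e : ℕ) : ℤ), by rw [h, h1]; simp, e, h1, dvd_refl _⟩
    · exact ⟨-((2 ^ e : ℕ) : ℤ), by rw [h, h1]; simp, e, h1, (dvd_neg).mpr (dvd_refl _)⟩
  choose F hF1 hF2 using hF
  have hinv : ∀ (l : Λ) (χ : IrrCharacter G), F (l • χ) = F χ := by
    intro l χ
    have h1 : ((F (l • χ) : ℤ) : ℂ) = ((F χ : ℤ) : ℂ) := by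
      rw [hF1, hF1]
      have h2 : ∀ s : G, ((l • χ : IrrCharacter G) : G → ℂ) (s * s) = (χ : G → ℂ) (s * s) := by
        intro s
        show (((l : G →* ℂˣ) (s * s) : ℂˣ) : ℂ) * (χ : G → ℂ) (s * s) = _
        rw [hΛsq l l.2 s]; simp
      have h3 : ((l • χ : IrrCharacter G) : G → ℂ) 1 = (χ : G → ℂ) 1 := by
        show (((l : G →* ℂˣ) 1 : ℂˣ) : ℂ) * (χ : G → ℂ) 1 = _
        rw [map_one]; simp
      simp only [h2, h3]
    exact_mod_cast h1
  have hmain : ((2 ^ (k + 1) : ℕ) : ℤ) ∣ ∑ χ : IrrCharacter G, F χ := by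
    apply dvd_sum_of_orbit (Λ := Λ) F hinv
    intro χ
    obtain ⟨e, he1, he2⟩ := hF2 χ
    have h1 : Nat.card (MulAction.orbit Λ χ) * Nat.card (MulAction.stabilizer Λ χ) = 2 ^ d := by
      rw [← hd, Nat.card_congr (MulAction.orbitEquivQuotientStabilizer Λ χ)]
      exact (Subgroup.card_eq_card_quotient_mul_card_subgroup _).symm
    obtain ⟨o, -, ho⟩ := (Nat.dvd_prime_pow Nat.prime_two).mp (Dvd.intro _ h1)
    obtain ⟨s, -, hs⟩ := (Nat.dvd_prime_pow Nat.prime_two).mp (Dvd.intro_left _ h1)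
    have h2 : o + s = d := by
      rw [ho, hs, ← pow_add] at h1
      exact Nat.pow_right_injective (le_refl 2) h1
    have h3 : Nat.card (MulAction.stabilizer Λ χ) ≤ (2 ^ e) ^ 2 := by
      refine le_trans ?_ (card_stabilizer_le χ (2 ^ e) he1)
      refine Nat.card_le_card_of_injective
        (fun μ => (⟨(μ : Λ), MulAction.mem_stabilizer_iff.mp μ.2⟩ :
          MulAction.stabilizer (G →* ℂˣ) χ)) ?_
      intro μ ν h
      apply Subtype.ext
      apply Subtype.ext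
      exact congrArg (fun x : MulAction.stabilizer (G →* ℂˣ) χ => (x : G →* ℂˣ)) h
    have h4 : s ≤ e * 2 := by
      rw [hs, ← pow_mul] at h3
      exact (Nat.pow_le_pow_iff_right (by norm_num)).mp h3
    have h5 : k + 1 ≤ o + e := by omega
    rw [ho]
    have h6 : ((2 ^ (k + 1) : ℕ) : ℤ) ∣ ((2 ^ o : ℕ) : ℤ) * ((2 ^ e : ℕ) : ℤ) := by
      rw [← Nat.cast_mul, ← pow_add]
      exact_mod_cast pow_dvd_pow 2 h5
    exact h6.trans (mul_dvd_mul_left _ he2)
  have hcount : ((Nat.card {x : G // x ^ 2 = 1} : ℕ) : ℤ) = ∑ χ : IrrCharacter G, F χ := by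
    have h1 := Cfsg.Agent.S0159.result (G := G)
    rw [finsum_eq_sum_of_fintype] at h1
    simp only [← hF1] at h1
    simp only [← pow_two] at h1
    exact_mod_cast h1
  rw [← hcount] at hmain
  exact_mod_cast hmain

end Cfsg.Agent.S4058
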