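import Cfsg.Statements.S4477
import Cfsg.Agent.S4058
import Mathlib

set_option autoImplicit false
open Cfsg

namespace Cfsg.Agent.S4477

open Cfsg.Agent.S4058
open Cfsg.Agent.Lib.Helper4Char Cfsg.Agent.Lib.Helper4Char4 Cfsg.Agent.Lib.Helper19Lin
open scoped ComplexConjugate

theorem isCyclic_of_quotient_frattini {G : Type*} [Group G] [Finite G]
    (h : IsCyclic (G ⧸ frattini G)) : IsCyclic G := by
  obtain ⟨x, hx⟩ := h.exists_generator
  obtain ⟨g, rfl⟩ := QuotientGroup.mk_surjective x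
  have h1 : Subgroup.zpowers g ⊔ frattini G = ⊤ := by
    rw [eq_top_iff]
    intro y _
    obtain ⟨n, hn⟩ := Subgroup.mem_zpowers_iff.mp (hx (y : G ⧸ frattini G))
    have h2 : (g ^ n)⁻¹ * y ∈ frattini G := QuotientGroup.eq.mp (by simpa using hn)
    have h3 : y = g ^ n * ((g ^ n)⁻¹ * y) := by group
    rw [h3]
    exact Subgroup.mul_mem_sup (Subgroup.zpow_mem_zpowers g n) h2
  have h4 := frattini_nongenerating h1
  refine ⟨g, fun y => ?_⟩
  have h5 : y ∈ Subgroup.zpowers g := by rw [h4]; exact Subgroup.mem_top y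
  exact h5

section

variable {G : Type*} [Group G] [Finite G]

theorem card_orbit_mul (H : Subgroup (G →* ℂˣ)) (χ : IrrCharacter G) :
    Nat.card (MulAction.orbit H χ) * Nat.card (MulAction.stabilizer H χ) = Nat.card H := by
  rw [Nat.card_congr (MulAction.orbitEquivQuotientStabilizer H χ)]
  exact (Subgroup.card_eq_card_quotient_mul_card_subgroup _).symm

theorem card_stab_le (H : Subgroup (G →* ℂˣ)) (χ : IrrCharacter G) (n : ℕ)
    (hn : (χ : G → ℂ) 1 = n) : Nat.card (MulAction.stabilizer H χ) ≤ n ^ 2 := by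
  refine le_trans ?_ (card_stabilizer_le χ n hn)
  refine Nat.card_le_card_of_injective
    (fun μ => (⟨(μ : H), MulAction.mem_stabilizer_iff.mp μ.2⟩ :
      MulAction.stabilizer (G →* ℂˣ) χ)) ?_
  intro μ ν h
  apply Subtype.ext
  apply Subtype.ext
  exact congrArg (fun x : MulAction.stabilizer (G →* ℂˣ) χ => (x : G →* ℂˣ)) h

theorem smul_smul_comm' (μ l : G →* ℂˣ) (χ : IrrCharacter G) : l • μ • χ = μ • l • χ := by
  apply Subtype.ext
  funext g
  simp only [S4058.smul_apply]
  ring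

theorem inv_smul_smul' (μ : G →* ℂˣ) (χ : IrrCharacter G) : μ⁻¹ • μ • χ = χ := by
  apply Subtype.ext
  funext g
  simp [S4058.smul_apply]

theorem card_hom_eq_index : Nat.card (G →* ℂˣ) = (commutator G).index := by
  rw [Nat.card_congr (Abelianization.lift (G := G) (A := ℂˣ)),
    CommGroup.card_monoidHom_of_hasEnoughRootsOfUnity (Abelianization G) ℂ]
  rfl

end

theorem card_sq_eq_one {G : Type*} [Group G] [Finite G] :
    Nat.card {x : G // x ^ 2 = 1} = Nat.card {x : G // orderOf x = 2} + 1 := by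
  classical
  have := Fintype.ofFinite G
  have : Fact (Nat.Prime 2) := ⟨Nat.prime_two⟩
  rw [Nat.card_eq_fintype_card, Nat.card_eq_fintype_card, Fintype.card_subtype,
    Fintype.card_subtype]
  have h1 : (Finset.univ.filter fun x : G => orderOf x = 2)
      = (Finset.univ.filter fun x : G => x ^ 2 = 1).erase 1 := by
    ext x
    simp only [Finset.mem_filter, Finset.mem_univ, true_and, Finset.mem_erase]
    rw [orderOf_eq_prime_iff]
    tauto
  have h2 : (1 : G) ∈ Finset.univ.filter fun x : G => x ^ 2 = 1 := by simp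
  rw [h1, Finset.card_erase_of_mem h2]
  have := Finset.card_pos.mpr ⟨1, h2⟩
  omega

/-- Let G be a finite 2-group whose number of involutions is congruent to 1 modulo 4. Then G is cyclic or its commutator subgroup has index 4. -/
theorem result {G : Type*} [Group G] [Finite G] (hG : IsPGroup 2 G) (ht : Nat.card {x : G // orderOf x = 2} % 4 = 1) : IsCyclic G ∨ (commutator G).index = 4 := by
  classical
  have := Fintype.ofFinite G
  have : Fact (Nat.Prime 2) := ⟨Nat.prime_two⟩
  have ht' : Nat.card {x : G // x ^ 2 = 1} % 4 = 2 := by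
    rw [card_sq_eq_one]; omega
  by_contra hcon
  push Not at hcon
  obtain ⟨hnc, hidx⟩ := hcon
  obtain ⟨a, ha⟩ := IsPGroup.iff_card.mp hG
  -- the Frattini quotient has order 4
  have hΦ : Nat.card (G ⧸ frattini G) = 4 := by
    have h1 : Nat.card (G ⧸ frattini G) ∣ 2 ^ a := by
      rw [← ha]; exact Subgroup.card_quotient_dvd_card _
    obtain ⟨d, -, hd⟩ := (Nat.dvd_prime_pow Nat.prime_two).mp h1
    have h2 : d < 3 := by
      by_contra h3
      have h4 : 2 ^ (2 * 1 + 1) ≤ Nat.card (G ⧸ frattini G) := by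
        rw [hd]; exact Nat.pow_le_pow_right (by norm_num) (by omega)
      have h5 := Cfsg.Agent.S4058.result hG 1 h4
      omega
    have h3 : d ≠ 0 := by
      rintro rfl
      apply hnc
      apply isCyclic_of_quotient_frattini
      have : Subsingleton (G ⧸ frattini G) := (Nat.card_eq_one_iff_unique.mp (by simpa using hd)).1
      exact isCyclic_of_subsingleton
    have h4 : d ≠ 1 := by
      rintro rfl
      apply hnc
      apply isCyclic_of_quotient_frattini
      exact isCyclic_of_prime_card (p := 2) (by simpa using hd)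
    have h5 : d = 2 := by omega
    rw [hd, h5]; norm_num
  have hcomm : IsMulCommutative (G ⧸ frattini G) :=
    (Subgroup.Normal.quotient_commutative_iff_commutator_le).mpr
      (Cfsg.Agent.Lib.Helper3PGroup.commutator_le_frattini hG)
  let _ : CommGroup (G ⧸ frattini G) :=
    { (inferInstance : Group (G ⧸ frattini G)) with mul_comm := fun a b => hcomm.is_comm.comm a b }
  let φ : ((G ⧸ frattini G) →* ℂˣ) →* (G →* ℂˣ) :=
    MonoidHom.compHom' (QuotientGroup.mk' (frattini G))
  have hφ : Function.Injective φ := by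
    intro a b hab
    ext x
    exact congrArg Units.val (DFunLike.congr_fun hab x)
  let Λ : Subgroup (G →* ℂˣ) := φ.range
  have hΛcard : Nat.card Λ = 4 := by
    rw [← hΦ, ← CommGroup.card_monoidHom_of_hasEnoughRootsOfUnity (G ⧸ frattini G) ℂ]
    exact (Nat.card_congr (MonoidHom.ofInjective hφ).toEquiv).symm
  have hΛsq : ∀ l ∈ Λ, ∀ s : G, l (s * s) = 1 := by
    rintro l ⟨a, rfl⟩ s
    show a (QuotientGroup.mk' (frattini G) (s * s)) = 1
    have h1 : QuotientGroup.mk' (frattini G) (s * s) = 1 := by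
      rw [QuotientGroup.mk'_apply, QuotientGroup.eq_one_iff, ← pow_two]
      exact Cfsg.Agent.Lib.Helper3PGroup.pow_mem_frattini hG s
    rw [h1, map_one]
  -- the group `M`
  let M : Subgroup (G →* ℂˣ) := Λ.comap (powMonoidHom 2)
  have hMmem : ∀ μ : G →* ℂˣ, μ ∈ M ↔ μ ^ 2 ∈ Λ := fun μ => Iff.rfl
  have hLcard : ∃ c, Nat.card (G →* ℂˣ) = 2 ^ c := by
    have h1 : Nat.card (G →* ℂˣ) ∣ 2 ^ a := by
      rw [card_hom_eq_index, ← ha]; exact Subgroup.index_dvd_card _
    obtain ⟨c, -, hc⟩ := (Nat.dvd_prime_pow Nat.prime_two).mp h1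
    exact ⟨c, hc⟩
  obtain ⟨c, hc⟩ := hLcard
  have hΛM : Λ ≤ M := by
    intro l hl
    exact Λ.pow_mem hl 2
  have hMcard : ∃ m, 3 ≤ m ∧ Nat.card M = 2 ^ m := by
    have h1 : Nat.card M ∣ 2 ^ c := by rw [← hc]; exact Subgroup.card_subgroup_dvd_card _
    obtain ⟨m, -, hm⟩ := (Nat.dvd_prime_pow Nat.prime_two).mp h1
    refine ⟨m, ?_, hm⟩
    -- an element of order two in the quotient
    have h2 : Nat.card ((G →* ℂˣ) ⧸ Λ) * 4 = 2 ^ c := by
      rw [← hc, ← hΛcard]; exact (Subgroup.card_eq_card_quotient_mul_card_subgroup _).symm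
    obtain ⟨j, -, hj⟩ := (Nat.dvd_prime_pow Nat.prime_two).mp (Dvd.intro _ h2)
    have hj0 : j ≠ 0 := by
      rintro rfl
      apply hidx
      rw [← card_hom_eq_index, hc, ← h2, hj]; norm_num
    have h3 : 2 ∣ Nat.card ((G →* ℂˣ) ⧸ Λ) := by
      rw [hj]; exact dvd_pow_self 2 hj0
    obtain ⟨x, hx⟩ := exists_prime_orderOf_dvd_card' 2 h3
    obtain ⟨μ, rfl⟩ := QuotientGroup.mk_surjective x
    have h4 := (orderOf_eq_prime_iff.mp hx)
    have hΛn : Λ.Normal := ⟨fun n hn g => by
      have h0 : g * n * g⁻¹ = n := by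
        apply MonoidHom.ext
        intro x
        simp
      rwa [h0]⟩
    have h5 : μ ∈ M := by
      rw [hMmem, ← QuotientGroup.eq_one_iff]
      exact h4.1
    have h6 : μ ∉ Λ := by
      rw [← QuotientGroup.eq_one_iff]
      exact h4.2
    have h7 : Nat.card Λ < Nat.card M := by
      by_contra h8
      have h9 := Subgroup.eq_of_le_of_card_ge hΛM (not_lt.mp h8)
      exact h6 (h9 ▸ h5)
    rw [hΛcard, hm] at h7
    by_contra h9
    have h10 : m ≤ 2 := by omega
    have h11 : 2 ^ m ≤ 2 ^ 2 := Nat.pow_le_pow_right (by norm_num) h10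
    omega
  obtain ⟨m, hm3, hm⟩ := hMcard
  -- the integer valued function
  have hF : ∀ χ : IrrCharacter G, ∃ z : ℤ,
      (z : ℂ) = ((Nat.card G : ℂ)⁻¹ * ∑ s : G, (χ : G → ℂ) (s * s)) * (χ : G → ℂ) 1 ∧
      ∃ e : ℕ, (χ : G → ℂ) 1 = ((2 ^ e : ℕ) : ℂ) ∧
        ((z = 0 ∧ ∃ s : G, ((χ : G → ℂ) s).im ≠ 0) ∨
          ((z = ((2 ^ e : ℕ) : ℤ) ∨ z = -((2 ^ e : ℕ) : ℤ)) ∧ ∀ s : G, ((χ : G → ℂ) s).im = 0)) := by
    intro χ
    have hfs := (Cfsg.Agent.Lib.Helper83FS.irr_fs χ.2)
    obtain ⟨n, ρ, hρ, hχ⟩ := χ.2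
    have h1 : (χ : G → ℂ) 1 = (n : ℂ) := by
      rw [← hχ]; simp
    have h2 : n ∣ 2 ^ a := by
      have := Cfsg.Agent.Lib.Helper4Char3.finrank_dvd_card ρ
      rwa [Module.finrank_fin_fun, ha] at this
    obtain ⟨e, -, rfl⟩ := (Nat.dvd_prime_pow Nat.prime_two).mp h2
    obtain ⟨hfs1, hfs2⟩ := hfs
    rcases hfs1 with h | h | h
    · exact ⟨0, by rw [h]; simp, e, h1, Or.inl ⟨rfl, hfs2.mp h⟩⟩
    · refine ⟨((2 ^ e : ℕ) : ℤ), by rw [h, h1]; simp, e, h1, Or.inr ⟨Or.inl rfl, ?_⟩⟩
      by_contra h3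
      push Not at h3
      rw [hfs2.mpr h3] at h
      exact zero_ne_one h
    · refine ⟨-((2 ^ e : ℕ) : ℤ), by rw [h, h1]; simp, e, h1, Or.inr ⟨Or.inr rfl, ?_⟩⟩
      by_contra h3
      push Not at h3
      rw [hfs2.mpr h3] at h
      have : (1 : ℂ) = 0 := by linear_combination h
      exact one_ne_zero this
  choose F hF1 hF2 using hF
  have hinv : ∀ (l : Λ) (χ : IrrCharacter G), F (l • χ) = F χ := by
    intro l χ
    have h1 : ((F (l • χ) : ℤ) : ℂ) = ((F χ : ℤ) : ℂ) := by
      rw [hF1, hF1]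
      have h2 : ∀ s : G, ((l • χ : IrrCharacter G) : G → ℂ) (s * s) = (χ : G → ℂ) (s * s) := by
        intro s
        show (((l : G →* ℂˣ) (s * s) : ℂˣ) : ℂ) * (χ : G → ℂ) (s * s) = _
        rw [hΛsq l l.2 s]; simp
      have h3 : ((l • χ : IrrCharacter G) : G → ℂ) 1 = (χ : G → ℂ) 1 := by
        show (((l : G →* ℂˣ) 1 : ℂˣ) : ℂ) * (χ : G → ℂ) 1 = _
        rw [map_one]; simp
      simp only [h2, h3]
    exact_mod_cast h1
  have hcount : ((Nat.card {x : G // x ^ 2 = 1} : ℕ) : ℤ) = ∑ χ : IrrCharacter G, F χ := by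
    have h1 := Cfsg.Agent.S0159.result (G := G)
    rw [finsum_eq_sum_of_fintype] at h1
    simp only [← hF1] at h1
    simp only [← pow_two] at h1
    exact_mod_cast h1
  -- fixed points of `Λ`
  let P : IrrCharacter G → Prop := fun χ => ∀ l : G →* ℂˣ, l ∈ Λ → l • χ = χ
  have hPsmul : ∀ (μ : G →* ℂˣ) (χ : IrrCharacter G), P χ → P (μ • χ) := by
    intro μ χ hχ l hl
    rw [smul_smul_comm', hχ l hl]
  have hPsmul' : ∀ (μ : G →* ℂˣ) (χ : IrrCharacter G), P (μ • χ) ↔ P χ := by
    intro μ χ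
    refine ⟨fun h => ?_, hPsmul μ χ⟩
    have := hPsmul μ⁻¹ _ h
    rwa [inv_smul_smul'] at this
  have hsum1 : (4 : ℤ) ∣ ∑ χ : IrrCharacter G, (if P χ then 0 else F χ) := by
    apply dvd_sum_of_orbit (Λ := Λ)
    · intro l χ
      have h1 : P (l • χ) ↔ P χ := hPsmul' (l : G →* ℂˣ) χ
      simp only [h1, hinv]
    · intro χ
      by_cases hP : P χ
      · simp [hP]
      · simp only [hP, if_false]
        obtain ⟨e, he1, he2⟩ := hF2 χ
        have h1 := card_orbit_mul Λ χ
        rw [hΛcard] at h1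
        have h2 := card_stab_le Λ χ (2 ^ e) he1
        have h3 : Nat.card (MulAction.stabilizer Λ χ) ≠ 4 := by
          intro h4
          apply hP
          have h5 : MulAction.stabilizer Λ χ = ⊤ :=
            (Subgroup.card_eq_iff_eq_top _).mp (by rw [h4, hΛcard])
          intro l hl
          have h6 : (⟨l, hl⟩ : Λ) ∈ MulAction.stabilizer Λ χ := by
            rw [h5]; exact Subgroup.mem_top _
          exact MulAction.mem_stabilizer_iff.mp h6
        have hFdvd : ((2 ^ e : ℕ) : ℤ) ∣ F χ := by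
          rcases he2 with ⟨h, -⟩ | ⟨h | h, -⟩ <;> rw [h] <;> simp
        generalize Nat.card (MulAction.orbit Λ χ) = o at h1 ⊢
        generalize Nat.card (MulAction.stabilizer Λ χ) = s at h1 h2 h3
        have hs : s ≤ 4 := Nat.le_of_dvd (by norm_num) (Dvd.intro_left _ h1)
        rcases Nat.eq_zero_or_pos e with rfl | he
        · have hs1 : s = 1 := by
            simp only [pow_zero, one_pow] at h2
            interval_cases s <;> omega
          subst hs1
          have ho : o = 4 := by omega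
          subst ho
          exact Dvd.intro _ rfl
        · have h2F : (2 : ℤ) ∣ F χ :=
            dvd_trans (by exact_mod_cast dvd_pow_self 2 he.ne') hFdvd
          have h2o : (2 : ℤ) ∣ (o : ℤ) := by
            interval_cases s <;> omega
          have := mul_dvd_mul h2o h2F
          norm_num at this
          exact this
  -- real fixed characters of degree two
  let Q : IrrCharacter G → Prop := fun χ =>
    P χ ∧ (χ : G → ℂ) 1 = 2 ∧ ∀ s : G, ((χ : G → ℂ) s).im = 0
  have hQsmul : ∀ (μ : G →* ℂˣ), μ ∈ M → ∀ (χ : IrrCharacter G), Q χ → Q (μ • χ) := by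
    rintro μ hμ χ ⟨h1, h2, h3⟩
    refine ⟨hPsmul μ χ h1, ?_, ?_⟩
    · rw [S4058.smul_apply, map_one, h2]; simp
    · intro s
      rw [← Complex.conj_eq_iff_im, S4058.smul_apply, map_mul, Complex.conj_eq_iff_im.mpr (h3 s)]
      have h4 := congrArg (fun ψ : IrrCharacter G => (ψ : G → ℂ) s) (h1 (μ ^ 2) hμ)
      simp only [S4058.smul_apply, MonoidHom.pow_apply, Units.val_pow_eq_pow_val] at h4
      have h5 := hom_mul_conj μ s
      linear_combination (-(conj ((μ s : ℂˣ) : ℂ))) * h4 + ((μ s : ℂˣ) : ℂ) * (χ : G → ℂ) s * h5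
  have hQsmul' : ∀ (μ : G →* ℂˣ), μ ∈ M → ∀ (χ : IrrCharacter G), Q (μ • χ) ↔ Q χ := by
    intro μ hμ χ
    refine ⟨fun h => ?_, hQsmul μ hμ χ⟩
    have := hQsmul μ⁻¹ (M.inv_mem hμ) _ h
    rwa [inv_smul_smul'] at this
  have hsumI : (2 : ℤ) ∣ ∑ χ : IrrCharacter G, (if Q χ then 1 else 0) := by
    apply dvd_sum_of_orbit (Λ := M)
    · intro l χ
      have h1 : Q (l • χ) ↔ Q χ := hQsmul' (l : G →* ℂˣ) l.2 χ
      simp only [h1]
    · intro χ
      by_cases hQ : Q χ
      · simp only [hQ, if_true, mul_one]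
        have h1 := card_orbit_mul M χ
        rw [hm] at h1
        have h2 := card_stab_le M χ 2 (by rw [hQ.2.1]; norm_num)
        obtain ⟨o, -, ho⟩ := (Nat.dvd_prime_pow Nat.prime_two).mp (Dvd.intro _ h1)
        obtain ⟨s, -, hs⟩ := (Nat.dvd_prime_pow Nat.prime_two).mp (Dvd.intro_left _ h1)
        have h3 : o + s = m := by
          rw [ho, hs, ← pow_add] at h1
          exact Nat.pow_right_injective (le_refl 2) h1
        have h4 : s ≤ 2 := by
          rw [hs] at h2
          exact (Nat.pow_le_pow_iff_right (by norm_num)).mp h2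
        rw [ho]
        exact_mod_cast dvd_pow_self 2 (by omega : o ≠ 0)
      · simp [hQ]
  have hdiff : ∀ χ : IrrCharacter G,
      (4 : ℤ) ∣ (if P χ then F χ else 0) - 2 * (if Q χ then 1 else 0) := by
    intro χ
    by_cases hP : P χ
    · simp only [hP, if_true]
      obtain ⟨e, he1, he2⟩ := hF2 χ
      have h2 := card_stab_le Λ χ (2 ^ e) he1
      have h5 : MulAction.stabilizer Λ χ = ⊤ := by
        rw [eq_top_iff]
        intro l _
        exact MulAction.mem_stabilizer_iff.mpr (hP l l.2)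
      rw [h5, Subgroup.card_top, hΛcard] at h2
      have he0 : e ≠ 0 := by
        rintro rfl
        norm_num at h2
      by_cases he : e = 1
      · subst he
        rcases he2 with ⟨h, s, hs⟩ | ⟨h, hr⟩
        · have hQ : ¬ Q χ := fun hQ => hs (hQ.2.2 s)
          simp [hQ, h]
        · have hQ : Q χ := ⟨hP, by rw [he1]; norm_num, hr⟩
          simp only [hQ, if_true]
          rcases h with h | h <;> rw [h] <;> norm_num
      · have hQ : ¬ Q χ := by
          intro hQ
          have h6 := hQ.2.1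
          rw [he1] at h6
          have h7 : 2 ^ e = 2 := by exact_mod_cast h6
          have h8 : e = 1 := Nat.pow_right_injective (le_refl 2) (by simpa using h7)
          exact he h8
        simp only [hQ, if_false, mul_zero, sub_zero]
        have hFdvd : ((2 ^ e : ℕ) : ℤ) ∣ F χ := by
          rcases he2 with ⟨h, -⟩ | ⟨h | h, -⟩ <;> rw [h] <;> simp
        refine dvd_trans ?_ hFdvd
        have : (2 : ℕ) ^ 2 ∣ 2 ^ e := pow_dvd_pow 2 (by omega)
        exact_mod_cast this
    · have hQ : ¬ Q χ := fun hQ => hP hQ.1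
      simp [hP, hQ]
  have hfinal : (4 : ℤ) ∣ ∑ χ : IrrCharacter G, F χ := by
    have h1 : ∑ χ : IrrCharacter G, F χ
        = ∑ χ : IrrCharacter G, (if P χ then 0 else F χ)
          + ∑ χ : IrrCharacter G, ((if P χ then F χ else 0) - 2 * (if Q χ then 1 else 0))
          + 2 * ∑ χ : IrrCharacter G, (if Q χ then 1 else 0) := by
      rw [Finset.mul_sum, ← Finset.sum_add_distrib, ← Finset.sum_add_distrib]
      apply Finset.sum_congr rfl
      intro χ _
      by_cases hP : P χ <;> simp [hP]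
    rw [h1]
    refine dvd_add (dvd_add hsum1 (Finset.dvd_sum fun χ _ => hdiff χ)) ?_
    have := mul_dvd_mul_left (2 : ℤ) hsumI
    norm_num at this
    exact this
  rw [← hcount] at hfinal
  omega

end Cfsg.Agent.S4477
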