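import Cfsg.Statements.S0799
import Mathlib
import Cfsg.Agent.Lib.Helper41Dk14
import Cfsg.Agent.Lib.Helper6DkT3

set_option autoImplicit false
open Cfsg

namespace Cfsg.Agent.S0799

open Cfsg.Agent.Lib.Helper41Dk

/-- Dickson's classification of the subgroups of PSL_2(q), q a power of the prime p, d = gcd(2, q − 1): every subgroup H is (a) cyclic or dihedral with k dividing (q+1)/d or (q−1)/d (cyclic of order k, or dihedral of order 2k), (b) isomorphic to a subgroup of the normaliser of a Sylow p-subgroup, (c) isomorphic to A_4, S_4 or A_5, or (d) isomorphic to PSL_2(K) or PGL_2(K) for a finite field K with |K|^m = q. -/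
theorem result {F : Type*} [Field F] [Fintype F] {q : ℕ} (hF : Fintype.card F = q) (p : ℕ) [Fact p.Prime] [CharP F p] (H : Subgroup (Matrix.ProjectiveSpecialLinearGroup (Fin 2) F)) : (∃ k : ℕ, (k ∣ (q + 1) / Nat.gcd 2 (q - 1) ∨ k ∣ (q - 1) / Nat.gcd 2 (q - 1)) ∧ ((IsCyclic H ∧ Nat.card H = k) ∨ Nonempty (H ≃* DihedralGroup k))) ∨ (∃ (P : Sylow p (Matrix.ProjectiveSpecialLinearGroup (Fin 2) F)) (K : Subgroup (Matrix.ProjectiveSpecialLinearGroup (Fin 2) F)), K ≤ Subgroup.normalizer ((P : Subgroup (Matrix.ProjectiveSpecialLinearGroup (Fin 2) F)) : Set (Matrix.ProjectiveSpecialLinearGroup (Fin 2) F)) ∧ Nonempty (H ≃* K)) ∨ Nonempty (H ≃* alternatingGroup (Fin 4)) ∨ Nonempty (H ≃* Equiv.Perm (Fin 4)) ∨ Nonempty (H ≃* alternatingGroup (Fin 5)) ∨ (∃ (K : Type) (_ : Field K) (_ : Fintype K) (m : ℕ), Fintype.card K ^ m = q ∧ (Nonempty (H ≃* Matrix.ProjectiveSpecialLinearGroup (Fin 2) K) ∨ Nonempty (H ≃* Matrix.ProjGenLinGroup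 (Fin 2) K))) := by
  subst hF
  obtain ⟨ψ, hψ⟩ := dickson_PSL2 H
  have e0 : H ≃* H.map ψ.toMonoidHom := H.equivMapOfInjective _ ψ.injective
  set H' := H.map ψ.toMonoidHom with hH'
  have hcard : Nat.card H = Nat.card H' := Nat.card_congr e0.toEquiv
  rw [← ee_eq_gcd]
  rcases hψ with (h | ⟨x, -, ht, h⟩ | ⟨x, hx, ht, h, y, hy, hyx⟩ | ⟨h, hnc⟩ |
    ⟨h, hnc, x, -, hxZ, hA, hN⟩ | h) | h | h
  · -- trivial
    left
    have h1 : Nat.card H' = 1 := by
      apply card_of_card_pre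
      rw [h, mul_one]; rfl
    have h2 : Nat.card H = 1 := by rw [hcard, h1]
    refine ⟨1, Or.inl (one_dvd _), Or.inl ⟨?_, h2⟩⟩
    have : Subsingleton H := (Nat.card_eq_one_iff_unique.mp h2).1
    exact isCyclic_of_subsingleton
  · left
    obtain ⟨h1, h2⟩ := cyclic_of_AA ht h
    exact ⟨Nat.card H', h2, Or.inl ⟨isCyclic_of_surjective e0.symm e0.symm.surjective, hcard⟩⟩
  · left
    obtain ⟨a, -, h1, -, ⟨e1⟩⟩ := dihedral_of_NN ht hx h hy hyx
    exact ⟨a, h1, Or.inr ⟨e0.trans e1⟩⟩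
  · right; right; left
    obtain ⟨e1⟩ := A4_outcome h hnc
    exact ⟨e0.trans e1⟩
  · right; right; right; left
    obtain ⟨e1⟩ := S4_outcome h hnc hxZ hA hN
    exact ⟨e0.trans e1⟩
  · right; right; right; right; left
    obtain ⟨e1⟩ := Cfsg.Agent.Lib.Helper6DkT.A5_outcome h
    exact ⟨e0.trans e1⟩
  · right; left
    obtain ⟨P, hP⟩ := borel_outcome p h
    exact ⟨P, H', hP, ⟨e0⟩⟩
  · right; right; right; right; right
    obtain ⟨K, i1, i2, m, hm, h1⟩ := sub_outcome h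
    refine ⟨K, i1, i2, m, hm, ?_⟩
    rcases h1 with h1 | h1
    · obtain ⟨e1⟩ := h1
      exact Or.inl ⟨e0.trans e1⟩
    · obtain ⟨e1⟩ := h1
      exact Or.inr ⟨e0.trans e1⟩

end Cfsg.Agent.S0799
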