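import Mathlib
import Cfsg.Statements.S3917

set_option autoImplicit false
open Cfsg

namespace Cfsg.Agent.S3917

open Subgroup

theorem card_dvd_of_cyclic {G : Type*} [Group G] (H : Subgroup G) (hH : IsCyclic H) (n : ℕ)
    (h : ∀ x ∈ H, x ^ n = 1) : Nat.card H ∣ n := by
  rw [← IsCyclic.exponent_eq_card]
  exact Monoid.exponent_dvd_of_forall_pow_eq_one (fun x => Subtype.ext (h x x.2))

/-- Say that a group has self-centralizing non-cyclic subgroups when every non-cyclic subgroup H satisfies C_G(H) ≤ H. A finite abelian group with self-centralizing non-cyclic subgroups is cyclic or elementary abelian of order p² for a prime p. -/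
theorem result {G : Type*} [CommGroup G] [Finite G] (hX : (∀ H : Subgroup G, ¬ IsCyclic ↥H → Subgroup.centralizer (H : Set G) ≤ H)) :
    IsCyclic G ∨ ∃ p : ℕ, p.Prime ∧ Nat.card G = p ^ 2 ∧ Monoid.exponent G = p := by
  by_cases hc : IsCyclic G
  · exact Or.inl hc
  right
  have hprop : ∀ H : Subgroup G, H ≠ ⊤ → IsCyclic H := by
    intro H hH
    by_contra hn
    apply hH
    have := hX H hn
    rw [centralizer_eq_top_iff_subset.mpr (by simp [CommGroup.center_eq_top])] at this
    exact top_le_iff.mp this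
  set e := Monoid.exponent G with he
  have hecard : e ≠ Nat.card G := fun h => hc (IsCyclic.iff_exponent_eq_card.mpr h)
  have hed : e ∣ Nat.card G := Group.exponent_dvd_nat_card
  have he0 : e ≠ 0 := Monoid.exponent_ne_zero_of_finite
  have helt : e < Nat.card G := lt_of_le_of_ne (Nat.le_of_dvd Nat.card_pos hed) hecard
  have he1 : e ≠ 1 := by
    intro h
    have : Subsingleton G := Monoid.exp_eq_one_iff.mp h
    exact hc inferInstance
  obtain ⟨p, hp, m, hpm⟩ := Nat.exists_prime_and_dvd he1
  have hm0 : 0 < m := Nat.pos_of_ne_zero (fun h => he0 (by rw [hpm, h, mul_zero]))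
  let φ : G →* G := powMonoidHom p
  have hcardφ : Nat.card φ.ker * Nat.card φ.range = Nat.card G := by
    rw [← index_ker]; exact φ.ker.card_mul_index
  have hker : ∀ x ∈ φ.ker, x ^ p = 1 := fun x hx => hx
  have hrange : ∀ x ∈ φ.range, x ^ m = 1 := by
    rintro _ ⟨y, rfl⟩
    show (y ^ p) ^ m = 1
    rw [← pow_mul, ← hpm]
    exact Monoid.pow_exponent_eq_one y
  have hRne : φ.range ≠ ⊤ := by
    intro h
    have : e ∣ m := Monoid.exponent_dvd_of_forall_pow_eq_one (fun x => hrange x (h ▸ mem_top x))
    have h2 := Nat.le_of_dvd hm0 this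
    rw [hpm] at h2
    nlinarith [hp.two_le]
  have hKtop : φ.ker = ⊤ := by
    by_contra hK
    have h1 := card_dvd_of_cyclic _ (hprop _ hK) p hker
    have h2 := card_dvd_of_cyclic _ (hprop _ hRne) m hrange
    have h3 : Nat.card G ∣ e := by
      rw [← hcardφ, hpm]; exact Nat.mul_dvd_mul h1 h2
    exact absurd (Nat.le_of_dvd (Nat.pos_of_ne_zero he0) h3) (not_le.mpr helt)
  have hall : ∀ x : G, x ^ p = 1 := fun x => hker x (hKtop ▸ mem_top x)
  have hep : e = p := by
    have : e ∣ p := Monoid.exponent_dvd_of_forall_pow_eq_one hall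
    exact ((Nat.dvd_prime hp).mp this).resolve_left he1
  refine ⟨p, hp, ?_, hep⟩
  haveI : Fact p.Prime := ⟨hp⟩
  obtain ⟨x, hx⟩ : ∃ x : G, x ≠ 1 := by
    by_contra hcon
    push Not at hcon
    have : Subsingleton G := ⟨fun a b => by rw [hcon a, hcon b]⟩
    exact hc inferInstance
  have hxo : orderOf x = p := orderOf_eq_prime (hall x) hx
  have hzx : zpowers x ≠ ⊤ := by
    intro h
    have := Nat.card_zpowers x
    rw [h, Subgroup.card_top, hxo] at this
    omega
  obtain ⟨y, hy⟩ : ∃ y : G, y ∉ zpowers x := by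
    by_contra hcon
    push Not at hcon
    exact hzx (eq_top_iff.mpr (fun z _ => hcon z))
  have hy1 : y ≠ 1 := fun h => hy (h ▸ one_mem _)
  have hyo : orderOf y = p := orderOf_eq_prime (hall y) hy1
  have hsup : zpowers x ⊔ zpowers y = ⊤ := by
    by_contra hne
    have h1 := card_dvd_of_cyclic _ (hprop _ hne) p (fun z _ => hall z)
    have h2 : Nat.card (zpowers x) ∣ Nat.card ↥(zpowers x ⊔ zpowers y) :=
      card_dvd_of_le le_sup_left
    rw [Nat.card_zpowers, hxo] at h2
    have h3 : Nat.card ↥(zpowers x ⊔ zpowers y) = Nat.card (zpowers x) := by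
      rw [Nat.card_zpowers, hxo]; exact Nat.dvd_antisymm h1 h2
    have h4 : zpowers x = zpowers x ⊔ zpowers y :=
      Subgroup.eq_of_le_of_card_ge le_sup_left h3.le
    apply hy
    rw [h4]
    exact le_sup_right (a := zpowers x) (mem_zpowers y)
  have hdisj : Disjoint (zpowers x) (zpowers y) := by
    rw [disjoint_iff]
    by_contra hne
    have h1 : Nat.card ↥(zpowers x ⊓ zpowers y) ∣ p := by
      have := card_dvd_of_le (inf_le_right : zpowers x ⊓ zpowers y ≤ zpowers y)
      rwa [Nat.card_zpowers, hyo] at this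
    rcases (Nat.dvd_prime hp).mp h1 with h | h
    · exact hne (Subgroup.card_eq_one.mp h)
    · have h4 : zpowers x ⊓ zpowers y = zpowers y :=
        Subgroup.eq_of_le_of_card_ge inf_le_right (by rw [h, Nat.card_zpowers, hyo])
      apply hy
      have : y ∈ zpowers x ⊓ zpowers y := by rw [h4]; exact mem_zpowers y
      exact this.1
  have hcompl : IsComplement' (zpowers x) (zpowers y) := by
    apply isComplement'_of_disjoint_and_mul_eq_univ hdisj
    rw [← Subgroup.normal_mul, hsup, coe_top]
  have := hcompl.card_mul_card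
  rw [Nat.card_zpowers, Nat.card_zpowers, hxo, hyo] at this
  rw [← this, sq]

end Cfsg.Agent.S3917
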