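import Cfsg.Statements.S3918
import Cfsg.Agent.Lib.Helper3RankTwo
import Cfsg.Agent.Lib.Helper3Chain
import Cfsg.Agent.Lib.Helper89PCube

set_option autoImplicit false
open Cfsg

namespace Cfsg.Agent.S3918

open Cfsg.Agent.Lib

/-- an elementary abelian group of order `p ^ 2` is not cyclic -/
theorem not_cyclic_sq {G : Type*} [Group G] [Finite G] {p : ℕ} [Fact p.Prime] {A : Subgroup G}
    (hexp : ∀ a ∈ A, a ^ p = 1) (hc : Nat.card A = p ^ 2) : ¬ IsCyclic A := by
  have hp : p.Prime := Fact.out
  intro hcyc
  obtain ⟨g, hg⟩ := hcyc.exists_generator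
  have h1 : orderOf g = Nat.card A := orderOf_eq_card_of_forall_mem_zpowers hg
  have h2 : g ^ p = 1 := Subtype.ext (hexp g g.2)
  have h3 := orderOf_dvd_of_pow_eq_one h2
  rw [h1, hc] at h3
  have h4 := Nat.le_of_dvd hp.pos h3
  have h5 : p < p ^ 2 := by
    calc p = p ^ 1 := (pow_one p).symm
      _ < p ^ 2 := Nat.pow_lt_pow_right hp.one_lt (by norm_num)
  omega

/-- Say that a group has self-centralizing non-cyclic subgroups when every non-cyclic subgroup H satisfies C_G(H) ≤ H. For an odd prime p, a finite non-abelian p-group has self-centralizing non-cyclic subgroups if and only if it has order p³. -/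
theorem result {G : Type*} [Group G] [Finite G] {p : ℕ} [Fact p.Prime] (hp : p ≠ 2) (hG : IsPGroup p G) (hna : ¬ IsMulCommutative G) :
    (∀ H : Subgroup G, ¬ IsCyclic ↥H → Subgroup.centralizer (H : Set G) ≤ H) ↔ Nat.card G = p ^ 3 := by
  have hpp : p.Prime := Fact.out
  have hnc : ∃ a b : G, a * b ≠ b * a := by
    by_contra hcon
    push Not at hcon
    exact hna ⟨⟨hcon⟩⟩
  constructor
  · intro h
    have hncyc : ¬ IsCyclic G := fun hc => hna IsCyclic.isMulCommutative
    obtain ⟨A, hAn, hAe, hAc⟩ := Helper3RankTwo.main hp (Nat.card G) G le_rfl hG hncyc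
    have hCA := h A (not_cyclic_sq hAe.2 hAc)
    have hidx := Helper3Chain.index_centralizer_normal_le hG A 2 hAc
    norm_num at hidx
    have hcard := (Subgroup.centralizer (A : Set G)).card_mul_index
    have hle : Nat.card (Subgroup.centralizer (A : Set G)) ≤ p ^ 2 :=
      hAc ▸ Subgroup.card_le_of_le hCA
    have hle3 : Nat.card G ≤ p ^ 3 := by
      rw [← hcard]
      calc Nat.card (Subgroup.centralizer (A : Set G)) * (Subgroup.centralizer (A : Set G)).index
          ≤ p ^ 2 * p := Nat.mul_le_mul hle hidx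
        _ = p ^ 3 := by ring
    obtain ⟨n, hn⟩ := hG.exists_card_eq
    rw [hn] at hle3 ⊢
    have hn3 : n ≤ 3 := (Nat.pow_le_pow_iff_right hpp.one_lt).1 hle3
    have hn2 : ¬ n ≤ 2 := by
      intro h2
      obtain ⟨a, b, hab⟩ := hnc
      exact hab (Helper89PCube.comm_of_card_dvd_sq (p := p) (by rw [hn]; exact pow_dvd_pow p h2) a b)
    have : n = 3 := by omega
    rw [this]
  · intro hcard H hH x hx
    by_contra hxH
    have hZ := Helper89PCube.card_center_of_card_cube hcard hnc
    have hd : Nat.card H ∣ p ^ 3 := hcard ▸ Subgroup.card_subgroup_dvd_card H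
    obtain ⟨i, hi, hHi⟩ := (Nat.dvd_prime_pow hpp).1 hd
    have hi0 : i ≠ 0 := by
      rintro rfl
      rw [pow_zero] at hHi
      apply hH
      have : Subsingleton H := (Nat.card_eq_one_iff_unique.1 hHi).1
      infer_instance
    have hi1 : i ≠ 1 := by
      rintro rfl
      rw [pow_one] at hHi
      exact hH (isCyclic_of_prime_card hHi)
    have hi3 : i ≠ 3 := by
      rintro rfl
      have : H = ⊤ := Subgroup.eq_top_of_card_eq H (by rw [hHi, hcard])
      exact hxH (this ▸ Subgroup.mem_top x)
    have hi2 : i = 2 := by omega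
    rw [hi2] at hHi
    -- `H ⊔ ⟨x⟩ = ⊤`
    have hlt : H < H ⊔ Subgroup.zpowers x :=
      lt_of_le_of_ne le_sup_left (fun h0 => hxH (by
        rw [h0]; exact Subgroup.mem_sup_right (Subgroup.mem_zpowers x)))
    have htop : H ⊔ Subgroup.zpowers x = ⊤ := by
      have hd' : Nat.card ↥(H ⊔ Subgroup.zpowers x) ∣ p ^ 3 :=
        hcard ▸ Subgroup.card_subgroup_dvd_card _
      obtain ⟨j, hj, hKj⟩ := (Nat.dvd_prime_pow hpp).1 hd'
      have hj2 : ¬ j ≤ 2 := by
        intro h2
        apply hlt.ne
        apply Subgroup.eq_of_le_of_card_ge hlt.le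
        rw [hKj, hHi]
        exact Nat.pow_le_pow_right hpp.pos h2
      have hj3 : j = 3 := by omega
      exact Subgroup.eq_top_of_card_eq _ (by rw [hKj, hj3, hcard])
    have hHab := (IsPGroup.isMulCommutative_of_card_eq_prime_sq (G := H) hHi).is_comm.comm
    have hHZ : H ≤ Subgroup.center G := by
      intro y hy
      have hle : H ⊔ Subgroup.zpowers x ≤ Subgroup.centralizer ({y} : Set G) := by
        apply sup_le
        · intro w hw
          rw [Subgroup.mem_centralizer_singleton_iff]
          exact congrArg Subtype.val (hHab ⟨w, hw⟩ ⟨y, hy⟩)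
        · rw [Subgroup.zpowers_le, Subgroup.mem_centralizer_singleton_iff]
          exact ((Subgroup.mem_centralizer_iff.1 hx) y hy).symm
      rw [htop] at hle
      rw [Subgroup.mem_center_iff]
      intro g
      exact Subgroup.mem_centralizer_singleton_iff.1 (hle (Subgroup.mem_top g))
    have := Subgroup.card_le_of_le hHZ
    rw [hZ, hHi] at this
    have h5 : p < p ^ 2 := by
      calc p = p ^ 1 := (pow_one p).symm
        _ < p ^ 2 := Nat.pow_lt_pow_right hpp.one_lt (by norm_num)
    omega

end Cfsg.Agent.S3918
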