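import Cfsg.Statements.S0250
import Cfsg.Agent.S0243
import Cfsg.Agent.Lib.Helper6Perm

set_option autoImplicit false
open Cfsg

namespace Cfsg.Agent.S0250

open scoped LinearAlgebra.Projectivization

/-- SL_2(2) is isomorphic to S_3. -/
theorem result {F : Type*} [Field F] [Fintype F] (hF : Fintype.card F = 2) : Nonempty (Matrix.SpecialLinearGroup (Fin 2) F ≃* Equiv.Perm (Fin 3)) := by
  have hX : Nat.card (ℙ F (Fin 2 → F)) = 3 := by
    rw [Projectivization.card_of_finrank_two F (Fin 2 → F) (by simp), Nat.card_eq_fintype_card, hF]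
  have hfin : Finite (ℙ F (Fin 2 → F)) := Nat.finite_of_card_ne_zero (by rw [hX]; norm_num)
  have hcard := Cfsg.Agent.S0242.result hF 2 (by norm_num)
  simp only [Fin.prod_univ_two] at hcard
  norm_num at hcard
  have hc := Cfsg.Agent.S0243.card_center_SL (F := F) 2 (by norm_num)
  rw [hF] at hc
  norm_num at hc
  refine Cfsg.Agent.Lib.Helper6Perm.mulEquiv_perm_of_injective hX
    (MulAction.toPermHom (Matrix.SpecialLinearGroup (Fin 2) F) (ℙ F (Fin 2 → F))) ?_ ?_
  · rw [← MonoidHom.ker_eq_bot_iff, Projectivization.SL_mulAction_ker]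
    exact hc
  · rw [hcard]; rfl

end Cfsg.Agent.S0250
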