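import Cfsg.Statements.S0251
import Cfsg.Agent.S0243
import Cfsg.Agent.Lib.Helper6Perm

set_option autoImplicit false
open Cfsg

namespace Cfsg.Agent.S0251

open scoped LinearAlgebra.Projectivization

/-- PSL_2(3) is isomorphic to A_4. -/
theorem result {F : Type*} [Field F] [Fintype F] (hF : Fintype.card F = 3) : Nonempty (Matrix.ProjectiveSpecialLinearGroup (Fin 2) F ≃* alternatingGroup (Fin 4)) := by
  have hX : Nat.card (ℙ F (Fin 2 → F)) = 4 := by
    rw [Projectivization.card_of_finrank_two F (Fin 2 → F) (by simp), Nat.card_eq_fintype_card, hF]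
  have hfin : Finite (ℙ F (Fin 2 → F)) := Nat.finite_of_card_ne_zero (by rw [hX]; norm_num)
  have hcard := Cfsg.Agent.S0243.result hF 2 le_rfl
  simp only [Fin.prod_univ_two] at hcard
  norm_num at hcard
  refine Cfsg.Agent.Lib.Helper6Perm.mulEquiv_alternating_of_injective hX
    Projectivization.PSLAction.toPermHom
    Matrix.ProjectiveSpecialLinearGroup.toPermHom_injective ?_
  have : Nat.factorial 4 = 24 := rfl
  omega

end Cfsg.Agent.S0251
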