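import Cfsg.Statements.S0840
import Cfsg.Agent.Lib.Helper4Char2
import Cfsg.Agent.Lib.Helper83Char

set_option autoImplicit false
open scoped ComplexConjugate
open Cfsg

namespace Cfsg.Agent.S0840

open Cfsg.Agent.Lib.Helper4Char Cfsg.Agent.Lib.Helper4Char2 Cfsg.Agent.Lib.Helper83Char

theorem ind_class {G : Type*} [Group G] (a : G) [DecidablePred (IsConj a)] :
    Cfsg.IsClassFunction G (fun x => if IsConj a x then (1 : ℂ) else 0) := by
  intro x y
  have : IsConj a (y * x * y⁻¹) ↔ IsConj a x := by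
    constructor
    · intro h; exact h.trans (isConj_iff.2 ⟨y⁻¹, by group⟩)
    · intro h; exact h.trans (isConj_iff.2 ⟨y, rfl⟩)
  simp only [this]

theorem sum_ind {G : Type*} [Group G] [Fintype G] (a : G) [DecidablePred (IsConj a)]
    {χ : G → ℂ} (hχ : Cfsg.IsIrrCharacter G χ) :
    ∑ x : G, (if IsConj a x then (1 : ℂ) else 0) * χ x = (Nat.card {x : G // IsConj a x} : ℂ) * χ a := by
  have h1 : ∀ x : G, (if IsConj a x then (1 : ℂ) else 0) * χ x =
      (if IsConj a x then (1 : ℂ) else 0) * χ a := by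
    intro x
    split_ifs with h
    · obtain ⟨c, hc⟩ := isConj_iff.1 h
      rw [← hc, irr_class hχ]
    · simp
  simp_rw [h1]
  rw [← Finset.sum_mul, Finset.sum_boole, Nat.card_eq_fintype_card, Fintype.card_subtype]

theorem sum_ind_mul {G : Type*} [Group G] [Fintype G] (a : G) [DecidablePred (IsConj a)]
    {χ : G → ℂ} (hχ : Cfsg.IsIrrCharacter G χ) (w : G) :
    ∑ x : G, (if IsConj a x then (1 : ℂ) else 0) * χ (x * w) =
      (Nat.card {x : G // IsConj a x} : ℂ) * χ a * χ w / χ 1 := by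
  rw [irr_key hχ _ (ind_class a), sum_ind a hχ]

theorem comm_char {G : Type*} [Group G] {χ : G → ℂ} (hχ : Cfsg.IsIrrCharacter G χ) (x y : G) :
    χ (x * y) = χ (y * x) := by
  have := irr_class hχ (x * y) y
  rw [← this]
  congr 1
  group

theorem main {G : Type*} [Group G] [Fintype G] (a b c : G) :
    (Nat.card {p : G × G // IsConj a p.1 ∧ IsConj b p.2 ∧ p.1 * p.2 = c} : ℂ) =
    (Nat.card {x : G // IsConj a x} : ℂ) * (Nat.card {x : G // IsConj b x} : ℂ) / (Nat.card G : ℂ) *
      ∑ χ : Cfsg.IrrCharacter G, (χ : G → ℂ) a * (χ : G → ℂ) b * conj ((χ : G → ℂ) c) / (χ : G → ℂ) 1 := by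
  classical
  have hG : (Nat.card G : ℂ) ≠ 0 := by exact_mod_cast Nat.card_pos.ne'
  have h1 : (Nat.card {p : G × G // IsConj a p.1 ∧ IsConj b p.2 ∧ p.1 * p.2 = c} : ℂ) =
      ∑ x : G, ∑ y : G, (if IsConj a x then (1 : ℂ) else 0) * ((if IsConj b y then (1 : ℂ) else 0) *
        (if x * y * c⁻¹ = 1 then (1 : ℂ) else 0)) := by
    rw [Nat.card_eq_fintype_card, Fintype.card_subtype, ← Finset.sum_boole, Fintype.sum_prod_type]
    refine Finset.sum_congr rfl fun x _ => Finset.sum_congr rfl fun y _ => ?_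
    have e : x * y * c⁻¹ = 1 ↔ x * y = c := mul_inv_eq_one
    simp only [e]
    by_cases h1 : IsConj a x <;> by_cases h2 : IsConj b y <;> by_cases h3 : x * y = c <;>
      simp only [h1, h2, h3, and_self, and_true, and_false, if_true, if_false, mul_one, mul_zero]
  have h2 : ∀ x y : G, (if x * y * c⁻¹ = 1 then (1 : ℂ) else 0) =
      (Nat.card G : ℂ)⁻¹ * ∑ χ : Cfsg.IrrCharacter G, (χ : G → ℂ) 1 * (χ : G → ℂ) (x * y * c⁻¹) := by
    intro x y
    rw [sum_degree_mul]
    split_ifs
    · rw [inv_mul_cancel₀ hG]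
    · rw [mul_zero]
  rw [h1]
  simp_rw [h2]
  have h3 : ∀ χ : Cfsg.IrrCharacter G, ∑ x : G, ∑ y : G, (if IsConj a x then (1 : ℂ) else 0) *
      ((if IsConj b y then (1 : ℂ) else 0) * (χ : G → ℂ) (x * y * c⁻¹)) =
      (Nat.card {x : G // IsConj a x} : ℂ) * (Nat.card {x : G // IsConj b x} : ℂ) *
        ((χ : G → ℂ) a * (χ : G → ℂ) b * conj ((χ : G → ℂ) c)) / ((χ : G → ℂ) 1 * (χ : G → ℂ) 1) := by
    intro χ
    have e1 : ∀ x : G, ∑ y : G, (if IsConj a x then (1 : ℂ) else 0) *
      ((if IsConj b y then (1 : ℂ) else 0) * (χ : G → ℂ) (x * y * c⁻¹)) =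
      (if IsConj a x then (1 : ℂ) else 0) * (χ : G → ℂ) (x * c⁻¹) *
        ((Nat.card {x : G // IsConj b x} : ℂ) * (χ : G → ℂ) b / (χ : G → ℂ) 1) := by
      intro x
      rw [← Finset.mul_sum]
      have : ∀ y : G, (χ : G → ℂ) (x * y * c⁻¹) = (χ : G → ℂ) (y * (c⁻¹ * x)) := by
        intro y
        rw [mul_assoc, comm_char χ.2, mul_assoc]
      simp_rw [this]
      rw [sum_ind_mul b χ.2, comm_char χ.2 c⁻¹ x]
      ring
    simp_rw [e1]
    rw [← Finset.sum_mul, sum_ind_mul a χ.2, irr_inv χ.2]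
    have := irr_one_ne_zero χ.2
    field_simp
  calc _ = (Nat.card G : ℂ)⁻¹ * ∑ χ : Cfsg.IrrCharacter G, (χ : G → ℂ) 1 *
        ∑ x : G, ∑ y : G, (if IsConj a x then (1 : ℂ) else 0) *
      ((if IsConj b y then (1 : ℂ) else 0) * (χ : G → ℂ) (x * y * c⁻¹)) := by
        have step : ∀ F : G → G → Cfsg.IrrCharacter G → ℂ,
            ∑ x, ∑ y, ∑ χ, F x y χ = ∑ χ, ∑ x, ∑ y, F x y χ := by
          intro F
          calc _ = ∑ x, ∑ χ, ∑ y, F x y χ := Finset.sum_congr rfl fun x _ => Finset.sum_comm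
            _ = _ := Finset.sum_comm
        simp only [Finset.mul_sum]
        rw [step]
        refine Finset.sum_congr rfl fun χ _ => ?_
        refine Finset.sum_congr rfl fun x _ => ?_
        refine Finset.sum_congr rfl fun y _ => ?_
        ring
    _ = _ := by
      simp_rw [h3]
      rw [Finset.mul_sum, Finset.mul_sum]
      refine Finset.sum_congr rfl fun χ _ => ?_
      have := irr_one_ne_zero χ.2
      field_simp


/-- Class multiplication coefficients from the character table: for elements a, b, c of a finite group G, the number of ordered pairs (x, y) with x conjugate to a, y conjugate to b and x * y = c equals the product of the sizes of the conjugacy classes of a and b, divided by the order of G, times the sum over the irreducible characters χ of χ a * χ b * conj (χ c) / χ 1. -/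
theorem result {G : Type*} [Group G] [Finite G] (a b c : G) : (Nat.card {p : G × G // IsConj a p.1 ∧ IsConj b p.2 ∧ p.1 * p.2 = c} : ℂ) = (Nat.card {x : G // IsConj a x} : ℂ) * (Nat.card {x : G // IsConj b x} : ℂ) / (Nat.card G : ℂ) * ∑ᶠ χ : Cfsg.IrrCharacter G, (χ : G → ℂ) a * (χ : G → ℂ) b * conj ((χ : G → ℂ) c) / (χ : G → ℂ) 1 := by
  have := Fintype.ofFinite G
  rw [finsum_eq_sum_of_fintype]
  exact main a b c

end Cfsg.Agent.S0840
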