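import Cfsg.Statements.S3278
import Cfsg.Agent.Lib.Helper26V4b
import Cfsg.Agent.Lib.Helper26V4c
import Cfsg.Agent.Lib.Helper26Four
import Cfsg.Agent.Lib.Helper78Klein5
import Cfsg.Agent.Lib.Helper81ClassMul
import Cfsg.Agent.Lib.Helper6Simple
import Cfsg.Agent.Lib.Helper6Perm
import Cfsg.Agent.Lib.Helper21Simple

set_option autoImplicit false
open Cfsg

namespace Cfsg.Agent.S3278


open Subgroup Cfsg.Agent.Lib.Helper26V4a Cfsg.Agent.Lib.Helper26V4b Cfsg.Agent.Lib.Helper26V4c
  Cfsg.Agent.Lib.Helper81Base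

/-- Nontrivial irreducible characters with value `±1` at `x` have degree at least three. -/
theorem deg_ge_three {G : Type*} [Group G] [Fintype G] (htop : commutator G = ⊤) {x : G}
    (hoddm : Odd (centralizer ({x} : Set G)).index) (χ : IrrCharacter G)
    (hne : (χ : G → ℂ) ≠ (fun _ => 1)) (hv : (χ : G → ℂ) x = 1 ∨ (χ : G → ℂ) x = -1) :
    3 ≤ charDegree (χ : G → ℂ) := by
  have h1 := Cfsg.Agent.Lib.Helper78Klein5.deg_dvd_index χ hv
  have h2 : Odd (charDegree (χ : G → ℂ)) := Odd.of_dvd_nat hoddm h1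
  have h3 := charDegree_pos χ
  have h4 : charDegree (χ : G → ℂ) ≠ 1 := by
    intro h
    apply hne
    have h5 : (χ : G → ℂ) 1 = 1 := by rw [← charDegree_eq χ, h]; simp
    funext g
    exact Cfsg.Agent.Lib.Helper82Linear.irr_linear_eq_one_of_mem_commutator χ h5
      (by rw [htop]; trivial)
  obtain ⟨k, hk⟩ := h2
  omega


/-- Let G be a finite simple group with an involution x such that a Sylow 2-subgroup of C_G(x) is a Klein four-group which is normal in C_G(x). Then G is isomorphic to the alternating group of degree 5 (that is, to PSL(2, 5)). -/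
theorem result {G : Type*} [Group G] [Finite G] [IsSimpleGroup G] (x : G) (hx : orderOf x = 2)
    (S₀ : Subgroup G) (hle : S₀ ≤ Subgroup.centralizer ({x} : Set G)) (hK : IsKleinFour ↥S₀)
    (hodd : ¬ 2 ∣ S₀.relIndex (Subgroup.centralizer ({x} : Set G))) (hn : (S₀.subgroupOf (Subgroup.centralizer ({x} : Set G))).Normal) :
    Nonempty (G ≃* ↥(alternatingGroup (Fin 5))) := by
  classical
  have : Fact (Nat.Prime 2) := ⟨Nat.prime_two⟩
  have := Fintype.ofFinite G
  obtain ⟨P, hP⟩ := exists_sylow_eq hx hle hK hodd hn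
  have hKP : IsKleinFour (P : Subgroup G) := by rw [hP]; exact hK
  have hcent : centralizer ((P : Subgroup G) : Set G) = centralizer ({x} : Set G) := by
    rw [hP]; exact centralizer_eq hx hle hK hodd hn
  have hxP : x ∈ (P : Subgroup G) := by rw [hP]; exact x_mem hx hodd hn
  have h4 : Nat.card (P : Subgroup G) = 4 := hKP.card_four
  have hsq := sq_of_klein hKP
  have hx1 : x ≠ 1 := by
    rintro rfl
    simp at hx
  have hnab : ¬ IsMulCommutative G := by
    intro hc
    have hnorm : (zpowers x).Normal := ⟨fun n hn g => by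
      have : g * n * g⁻¹ = n := by rw [hc.is_comm.comm g n]; group
      rwa [this]⟩
    rcases hnorm.eq_bot_or_eq_top with h | h
    · have : x ∈ zpowers x := mem_zpowers x
      rw [h, mem_bot] at this
      exact hx1 this
    · have h1 : Nat.card (zpowers x) = 2 := by rw [Nat.card_zpowers, hx]
      have h2 : (P : Subgroup G) ≤ zpowers x := by rw [h]; exact le_top
      have := Subgroup.card_le_of_le h2
      omega
  have hodd0 : Odd (P : Subgroup G).index := by
    rw [← Nat.not_even_iff_odd, even_iff_two_dvd]; exact P.not_dvd_index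
  have hG : Nat.card G = 4 * (P : Subgroup G).index := by
    rw [← h4]; exact ((P : Subgroup G).card_mul_index).symm
  have hnc : ¬ ∃ N : Subgroup G, N.Normal ∧ Nat.card N = (P : Subgroup G).index := by
    rintro ⟨N, hN, hNc⟩
    rcases hN.eq_bot_or_eq_top with h | h
    · rw [h, Subgroup.card_bot] at hNc
      have htop : (P : Subgroup G) = ⊤ := Subgroup.index_eq_one.1 hNc.symm
      apply hnab
      exact ⟨⟨fun a b => comm_of_sq hsq (by rw [htop]; trivial) (by rw [htop]; trivial)⟩⟩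
    · rw [h, Subgroup.card_top, hG] at hNc
      obtain ⟨k, hk⟩ := hodd0
      omega
  obtain ⟨-, hone⟩ := Cfsg.Agent.Lib.Helper78Klein4.klein_of_no_compl _ hodd0 hG hnc P
  have hcomm : commutator G = ⊤ := by
    rcases (inferInstance : (commutator G).Normal).eq_bot_or_eq_top with h | h
    · exfalso
      apply hnab
      rw [commutator_eq_bot_iff_center_eq_top] at h
      exact ⟨⟨fun a b => (mem_center_iff.1 (show b ∈ center G by rw [h]; trivial) a)⟩⟩
    · exact h
  -- indices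
  have hPC : (P : Subgroup G) ≤ centralizer ({x} : Set G) := by rw [hP]; exact hle
  have hoddm : Odd (centralizer ({x} : Set G)).index :=
    Odd.of_dvd_nat hodd0 (Subgroup.index_dvd_of_le hPC)
  have hCN : centralizer ((P : Subgroup G) : Set G) ≤ normalizer ((P : Subgroup G) : Set G) :=
    centralizer_le_normalizer _
  have hjN := Subgroup.relIndex_mul_index hCN
  rw [hcent] at hjN
  have hj6 := Cfsg.Agent.Lib.Helper26Four.relIndex_dvd (P : Subgroup G) hKP
  rw [hcent] at hj6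
  have hjodd : Odd ((centralizer ({x} : Set G)).relIndex (normalizer ((P : Subgroup G) : Set G))) :=
    Odd.of_dvd_nat hoddm (Dvd.intro _ hjN)
  have hNodd : Odd (normalizer ((P : Subgroup G) : Set G)).index :=
    Odd.of_dvd_nat hoddm (Dvd.intro_left _ hjN)
  have h2G : 2 ∣ Nat.card G := by rw [hG]; omega
  have hj1 : (centralizer ({x} : Set G)).relIndex (normalizer ((P : Subgroup G) : Set G)) ≠ 1 := by
    intro h
    rw [Subgroup.relIndex_eq_one, ← hcent] at h
    exact Cfsg.Agent.Lib.Helper21Simple.not_normalizer_le_centralizer hnab P h2G h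
  have hj3 : (centralizer ({x} : Set G)).relIndex (normalizer ((P : Subgroup G) : Set G)) = 3 := by
    have hle6 := Nat.le_of_dvd (by norm_num) hj6
    obtain ⟨k, hk⟩ := hjodd
    have : k ≤ 2 := by omega
    interval_cases k
    · omega
    · omega
    · rw [hk] at hj6; norm_num at hj6
  rw [hj3] at hjN
  have hNtop : normalizer ((P : Subgroup G) : Set G) ≠ ⊤ := by
    intro h
    have h1 := Cfsg.Agent.Lib.Helper21Simple.card_sylow_ne_one hnab (p := 2) h2G
    rw [P.card_eq_index_normalizer] at h1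
    have h2 : (normalizer ((P : Subgroup G) : Set G)).index = 1 := by rw [h, Subgroup.index_top]
    exact h1 h2
  have hgt : 2 < Nat.card G := by
    obtain ⟨k, hk⟩ := hodd0
    omega
  have hfac := Cfsg.Agent.Lib.Helper6Simple.two_mul_card_dvd_factorial hgt _ hNtop
  have hN5 : 5 ≤ (normalizer ((P : Subgroup G) : Set G)).index := by
    by_contra hcon
    obtain ⟨k, hk⟩ := hNodd
    have hk1 : k ≤ 1 := by omega
    interval_cases k
    · exact hNtop (Subgroup.index_eq_one.1 (by omega))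
    · rw [hk, hG] at hfac
      have : 2 * (4 * (P : Subgroup G).index) ≤ 6 := Nat.le_of_dvd (by decide) hfac
      obtain ⟨k', hk'⟩ := hodd0
      omega
  -- characters
  obtain ⟨M, hM⟩ := Cfsg.Agent.Lib.Helper81ClassMul.exists_modular Nat.prime_two
  have hMp := hM.2.1.isPrime
  obtain ⟨hc4, hval⟩ := Cfsg.Agent.Lib.Helper78Klein.klein_structure hM P hKP hxP hx
  have h1mem : Cfsg.Agent.Lib.Helper82Linear.irrOne G ∈
      Finset.univ.filter (· ∈ principalBlock M G) := by
    rw [Finset.mem_filter]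
    exact ⟨Finset.mem_univ _, Cfsg.Agent.Lib.Helper78Klein.irrOne_mem_principal⟩
  have hc3 : ((Finset.univ.filter (· ∈ principalBlock M G)).erase
      (Cfsg.Agent.Lib.Helper82Linear.irrOne G)).card = 3 := by
    rw [Finset.card_erase_of_mem h1mem, hc4]
  obtain ⟨χ₁, χ₂, χ₃, d12, d13, d23, hF⟩ := Finset.card_eq_three.1 hc3
  have hmem : ∀ χ : IrrCharacter G, χ ∈ principalBlock M G ↔
      (χ = Cfsg.Agent.Lib.Helper82Linear.irrOne G ∨ χ = χ₁ ∨ χ = χ₂ ∨ χ = χ₃) := by
    intro χ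
    have h1 : χ ∈ ((Finset.univ.filter (· ∈ principalBlock M G)).erase
      (Cfsg.Agent.Lib.Helper82Linear.irrOne G)) ↔ (χ = χ₁ ∨ χ = χ₂ ∨ χ = χ₃) := by
      rw [hF]; simp
    rw [Finset.mem_erase, Finset.mem_filter] at h1
    constructor
    · intro h
      by_cases h0 : χ = Cfsg.Agent.Lib.Helper82Linear.irrOne G
      · exact Or.inl h0
      · exact Or.inr (h1.1 ⟨h0, Finset.mem_univ _, h⟩)
    · rintro (h | h)
      · rw [h]; exact Cfsg.Agent.Lib.Helper78Klein.irrOne_mem_principal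
      · exact (h1.2 h).2.2
  have hne1 : ∀ χ : IrrCharacter G, (χ = χ₁ ∨ χ = χ₂ ∨ χ = χ₃) →
      (χ : G → ℂ) ≠ (fun _ => 1) := by
    intro χ h h0
    have h1 : χ ∈ ((Finset.univ.filter (· ∈ principalBlock M G)).erase
      (Cfsg.Agent.Lib.Helper82Linear.irrOne G)) := by
      rw [hF]; simpa using h
    exact (Finset.mem_erase.1 h1).1 (Subtype.ext h0)
  have hB : principalBlock M G = {χ : IrrCharacter G | (χ : G → ℂ) = (fun _ => 1) ∨ χ = χ₁ ∨
      χ = χ₂ ∨ χ = χ₃} := by
    ext χ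
    rw [hmem χ, Set.mem_ofPred_eq]
    have : χ = Cfsg.Agent.Lib.Helper82Linear.irrOne G ↔ (χ : G → ℂ) = fun _ => 1 :=
      Subtype.ext_iff
    rw [this]
  have hsign : ∀ χ : IrrCharacter G, (χ = χ₁ ∨ χ = χ₂ ∨ χ = χ₃) →
      ∃ ε : ℤ, (ε = 1 ∨ ε = -1) ∧ (χ : G → ℂ) x = ε := by
    intro χ h
    rcases hval χ ((hmem χ).2 (Or.inr h)) with h1 | h1
    · exact ⟨1, Or.inl rfl, by rw [h1]; simp⟩
    · exact ⟨-1, Or.inr rfl, by rw [h1]; simp⟩
  obtain ⟨ε₁, hε₁, hv₁⟩ := hsign χ₁ (Or.inl rfl)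
  obtain ⟨ε₂, hε₂, hv₂⟩ := hsign χ₂ (Or.inr (Or.inl rfl))
  obtain ⟨ε₃, hε₃, hv₃⟩ := hsign χ₃ (Or.inr (Or.inr rfl))
  obtain ⟨r1, r2⟩ := Cfsg.Agent.Lib.Helper78Klein4.klein_relations hM P hKP hone hxP hx χ₁ χ₂ χ₃
    ε₁ ε₂ ε₃ hB ⟨hne1 χ₁ (Or.inl rfl), hne1 χ₂ (Or.inr (Or.inl rfl)),
      hne1 χ₃ (Or.inr (Or.inr rfl)), d12, d13, d23⟩ ⟨hε₁, hε₂, hε₃⟩ ⟨hv₁, hv₂, hv₃⟩
  have g1 := deg_ge_three hcomm hoddm χ₁ (hne1 χ₁ (Or.inl rfl))
    (hval χ₁ ((hmem χ₁).2 (Or.inr (Or.inl rfl))))
  have g2 := deg_ge_three hcomm hoddm χ₂ (hne1 χ₂ (Or.inr (Or.inl rfl)))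
    (hval χ₂ ((hmem χ₂).2 (Or.inr (Or.inr (Or.inl rfl)))))
  have g3 := deg_ge_three hcomm hoddm χ₃ (hne1 χ₃ (Or.inr (Or.inr rfl)))
    (hval χ₃ ((hmem χ₃).2 (Or.inr (Or.inr (Or.inr rfl)))))
  rw [hcent] at r2
  have hcm := (centralizer ({x} : Set G)).card_mul_index
  have hcpos : 0 < Nat.card (centralizer ({x} : Set G)) := Nat.card_pos
  have h4c : 4 ∣ Nat.card (centralizer ({x} : Set G)) := by
    rw [← h4]; exact Subgroup.card_dvd_of_le hPC
  generalize charDegree (χ₁ : G → ℂ) = f₁ at *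
  generalize charDegree (χ₂ : G → ℂ) = f₂ at *
  generalize charDegree (χ₃ : G → ℂ) = f₃ at *
  generalize Nat.card (centralizer ({x} : Set G)) = c at *
  generalize (centralizer ({x} : Set G)).index = m at *
  generalize hNdef : (normalizer ((P : Subgroup G) : Set G)).index = N at *
  have hm15 : (m : ℤ) = 15 := by
    apply arith_main f₁ f₂ f₃ ε₁ ε₂ ε₃ m (by exact_mod_cast g1) (by exact_mod_cast g2)
      (by exact_mod_cast g3) ⟨hε₁, hε₂, hε₃⟩ r1 (by exact_mod_cast (by omega : 15 ≤ m))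
    rw [← hcm] at r2
    push_cast at r2
    have hc0 : (c : ℤ) ^ 3 ≠ 0 := by positivity
    apply mul_left_cancel₀ hc0
    linear_combination r2
  have hm15' : m = 15 := by exact_mod_cast hm15
  have hN : N = 5 := by omega
  rw [hN, ← hcm, hm15'] at hfac
  have hc4' : c = 4 := by
    obtain ⟨k, rfl⟩ := h4c
    have h5 : 2 * (4 * k * 15) ≤ 120 := Nat.le_of_dvd (by decide) hfac
    omega
  obtain ⟨f, hf⟩ := Cfsg.Agent.Lib.Helper6Simple.exists_embedding _ hNtop
  refine Cfsg.Agent.Lib.Helper6Perm.mulEquiv_alternating_of_injective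
    (X := Fin (normalizer ((P : Subgroup G) : Set G)).index) (n := 5) ?_ f hf ?_
  · rw [Nat.card_eq_fintype_card, Fintype.card_fin, hNdef, hN]
  · rw [← hcm, hc4', hm15']
    decide

end Cfsg.Agent.S3278
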