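import Cfsg.Statements.S3742

set_option autoImplicit false
open Cfsg

namespace Cfsg.Agent.S3742

open QuaternionGroup Equiv

abbrev Q := QuaternionGroup 2
abbrev S4 := Equiv.Perm (Fin 4)

def u : Fin 4 → Fin 4 → Q :=
  ![![a 0, a 1, xa 0, xa 3], ![a 1, a 0, xa 1, xa 2], ![xa 0, xa 1, a 0, a 3],
    ![xa 3, xa 2, a 3, a 0]]

def sg (σ : S4) : Q := if Equiv.Perm.sign σ = 1 then a 0 else a 2

def A (σ : S4) : Q := sg σ * u (σ 0) (σ 1)
def X (σ : S4) : Q := sg σ * u (σ 0) (σ 2)

def img (σ : S4) : Q → Q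
  | .a i => A σ ^ i.val
  | .xa i => X σ * A σ ^ i.val

theorem img_mul : ∀ (σ : S4) (x y : Q), img σ (x * y) = img σ x * img σ y := by
  decide +kernel

theorem img_comp : ∀ (σ τ : S4) (x : Q), img (σ * τ) x = img σ (img τ x) := by
  decide +kernel

theorem img_one : ∀ x : Q, img 1 x = x := by
  decide +kernel

theorem img_inj : ∀ σ : S4, (∀ x : Q, img σ x = x) → σ = 1 := by
  decide +kernel

theorem img_surj : ∀ p q : Q, p ^ 2 ≠ 1 → q ^ 2 ≠ 1 → q ≠ p → q ≠ p⁻¹ →
    ∃ σ : S4, A σ = p ∧ X σ = q := by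
  decide +kernel

def Φ : S4 →* MulAut Q where
  toFun σ :=
    { toFun := img σ
      invFun := img σ⁻¹
      left_inv := fun x => by rw [← img_comp, inv_mul_cancel, img_one]
      right_inv := fun x => by rw [← img_comp, mul_inv_cancel, img_one]
      map_mul' := img_mul σ }
  map_one' := by
    ext x
    exact img_one x
  map_mul' σ τ := by
    ext x
    exact img_comp σ τ x

theorem Φ_apply (σ : S4) (x : Q) : Φ σ x = img σ x := rfl

theorem a_eq (i : ZMod 4) : (a i : Q) = a 1 ^ i.val := by
  revert i; decide +kernel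

theorem xa_eq (i : ZMod 4) : (xa i : Q) = xa 0 * a 1 ^ i.val := by
  revert i; decide +kernel

theorem result : Nonempty (MulAut (QuaternionGroup 2) ≃* Equiv.Perm (Fin 4)) := by
  have hinj : Function.Injective Φ := by
    rw [injective_iff_map_eq_one]
    intro σ hσ
    apply img_inj
    intro x
    rw [← Φ_apply, hσ]
    rfl
  have hsurj : Function.Surjective Φ := by
    intro φ
    have h1 : (φ (a 1)) ^ 2 ≠ 1 := by
      rw [← map_pow]
      intro h
      have := φ.injective (h.trans (map_one φ).symm)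
      exact absurd this (by decide)
    have h2 : (φ (xa 0)) ^ 2 ≠ 1 := by
      rw [← map_pow]
      intro h
      have := φ.injective (h.trans (map_one φ).symm)
      exact absurd this (by decide)
    have h3 : φ (xa 0) ≠ φ (a 1) := by
      intro h
      exact absurd (φ.injective h) (by decide)
    have h4 : φ (xa 0) ≠ (φ (a 1))⁻¹ := by
      rw [← map_inv]
      intro h
      exact absurd (φ.injective h) (by decide)
    obtain ⟨σ, hA, hX⟩ := img_surj _ _ h1 h2 h3 h4
    refine ⟨σ, ?_⟩
    ext x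
    rw [Φ_apply]
    cases x with
    | a i =>
      change A σ ^ i.val = φ (a i)
      rw [a_eq i, map_pow, hA]
    | xa i =>
      change X σ * A σ ^ i.val = φ (xa i)
      rw [xa_eq i, map_mul, map_pow, hA, hX]
  exact ⟨(MulEquiv.ofBijective Φ ⟨hinj, hsurj⟩).symm⟩

end Cfsg.Agent.S3742
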