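import Cfsg.Statements.S0184
import Mathlib
import Cfsg.Agent.Lib.Helper4Char4
import Cfsg.Agent.Lib.Helper82Linear
import Cfsg.Agent.Lib.Helper29Basic
import Cfsg.Agent.Lib.Helper67PGroup

set_option autoImplicit false
open Cfsg

namespace Cfsg.Agent.S0184

open Module Representation

theorem smul_id_inj {V : Type*} [AddCommGroup V] [Module ℂ V] [Nontrivial V] {c c' : ℂ}
    (h : c • (LinearMap.id : V →ₗ[ℂ] V) = c' • LinearMap.id) : c = c' := by
  obtain ⟨v, hv⟩ := exists_ne (0 : V)
  have h2 := congrArg (fun T : V →ₗ[ℂ] V => T v) h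
  simp only [LinearMap.smul_apply, LinearMap.id_apply] at h2
  have h3 : (c - c') • v = 0 := by rw [sub_smul, h2, sub_self]
  rcases smul_eq_zero.mp h3 with h4 | h4
  · exact sub_eq_zero.mp h4
  · exact absurd h4 hv

theorem center_cyclic_of_faithful {G : Type*} [Group G] [Finite G] {V : Type*} [AddCommGroup V]
    [Module ℂ V] [FiniteDimensional ℂ V] (ρ : Representation ℂ G V) [ρ.IsIrreducible]
    (hinj : Function.Injective ρ) : IsCyclic (Subgroup.center G) := by
  haveI hnt : Nontrivial V := Lib.Helper4Char.nontrivial_of_irreducible ρ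
  have hscal : ∀ z : Subgroup.center G, ∃ c : ℂ, ρ z = c • LinearMap.id := by
    intro z
    apply Lib.Helper82Schur.schur_scalar ρ
    intro g
    rw [← Module.End.mul_eq_comp, ← Module.End.mul_eq_comp, ← map_mul, ← map_mul,
      (Subgroup.mem_center_iff.mp z.2 g)]
  choose c hc using hscal
  let f : Subgroup.center G →* ℂ :=
    { toFun := c
      map_one' := by
        apply smul_id_inj (V := V)
        rw [← hc, one_smul]
        simp
        rfl
      map_mul' := by
        intro a b
        apply smul_id_inj (V := V)
        rw [← hc, Subgroup.coe_mul, map_mul, hc, hc]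
        ext v
        simp [mul_smul, smul_comm (c a) (c b)] }
  apply isCyclic_of_injective_ringHom f
  intro a b hab
  apply Subtype.ext
  apply hinj
  rw [hc, hc]
  change c a = c b at hab
  rw [hab]

/-- A finite p-group admits a faithful irreducible complex representation if and only if its centre is cyclic. -/
theorem result {G : Type*} [Group G] [Finite G] (p : ℕ) [Fact p.Prime] (hG : IsPGroup p G) : (∃ (n : ℕ) (ρ : Representation ℂ G (Fin n → ℂ)), ρ.IsIrreducible ∧ Function.Injective ρ) ↔ IsCyclic (Subgroup.center G) := by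
  classical
  haveI : Fintype G := Fintype.ofFinite G
  constructor
  · rintro ⟨n, ρ, hρ, hinj⟩
    exact center_cyclic_of_faithful ρ hinj
  · intro hcyc
    by_cases hG1 : Subsingleton G
    · refine ⟨1, Lib.Helper82Linear.repOfHom 1,
        Lib.Helper82Linear.irreducible_of_finrank_eq_one _ (by simp), ?_⟩
      intro a b _
      exact Subsingleton.elim a b
    · rw [not_subsingleton_iff_nontrivial] at hG1
      haveI := hG.center_nontrivial
      have hpZ : p ∣ Nat.card (Subgroup.center G) := by
        rcases (hG.to_subgroup (Subgroup.center G)).card_eq_or_dvd with h | h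
        · exfalso
          have := Finite.one_lt_card (α := Subgroup.center G)
          omega
        · exact h
      obtain ⟨z₀, hz₀⟩ := exists_prime_orderOf_dvd_card' p hpZ
      have hz₀' : orderOf (z₀ : G) = p := by rw [Subgroup.orderOf_coe]; exact hz₀
      have hz1 : (z₀ : G) ≠ 1 := by
        intro h
        rw [h, orderOf_one] at hz₀'
        exact (Fact.out : p.Prime).one_lt.ne hz₀'
      have hnc : ¬ IsConj (z₀ : G) 1 := by
        intro h
        exact hz1 (isConj_one_left.mp h)
      rw [Lib.Helper4Char2.isConj_iff_irr] at hnc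
      push Not at hnc
      obtain ⟨⟨χ, n, ρ, hρ, rfl⟩, hχ⟩ := hnc
      refine ⟨n, ρ, hρ, ?_⟩
      rw [← MonoidHom.ker_eq_bot_iff]
      by_contra hker
      have h1 := Lib.Helper67PGroup.normal_inf_center_ne_bot hG ρ.ker hker
      have hpK : p ∣ Nat.card (ρ.ker ⊓ Subgroup.center G : Subgroup G) := by
        rcases (hG.to_subgroup (ρ.ker ⊓ Subgroup.center G)).card_eq_or_dvd with h | h
        · exact absurd (Subgroup.card_eq_one.mp h) h1
        · exact h
      obtain ⟨w, hw⟩ := exists_prime_orderOf_dvd_card' p hpK
      have hw' : orderOf (w : G) = p := by rw [Subgroup.orderOf_coe]; exact hw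
      have heq : Subgroup.zpowers (w : G) = Subgroup.zpowers (z₀ : G) := by
        apply Lib.Helper29Basic.eq_of_card_eq_of_le_cyclic hcyc
        · rw [Subgroup.zpowers_le]; exact w.2.2
        · rw [Subgroup.zpowers_le]; exact z₀.2
        · rw [Nat.card_zpowers, Nat.card_zpowers, hw', hz₀']
      have hz₀K : (z₀ : G) ∈ ρ.ker := by
        have h2 : (z₀ : G) ∈ Subgroup.zpowers (w : G) := by rw [heq]; exact Subgroup.mem_zpowers _
        have h3 : Subgroup.zpowers (w : G) ≤ ρ.ker := by
          rw [Subgroup.zpowers_le]; exact w.2.1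
        exact h3 h2
      apply hχ
      change ρ.character z₀ = ρ.character 1
      rw [Representation.character, Representation.character, MonoidHom.mem_ker.mp hz₀K, map_one ρ]

end Cfsg.Agent.S0184
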