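import Cfsg.Statements.S3976
import Cfsg.Agent.S3975

set_option autoImplicit false
open Cfsg

namespace Cfsg.Agent.S3976

open Pointwise MulAction

/-- Let `p` be a prime and `G` a group of order `p ^ m`. For every `s ≤ m` the number of normal subgroups of `G` of order `p ^ s` is congruent to `1` modulo `p`. -/
theorem result {G : Type*} [Group G] [Finite G] (p m s : ℕ) (hp : p.Prime) (hG : Nat.card G = p ^ m) (hs : s ≤ m) : Nat.card {H : Subgroup G // H.Normal ∧ Nat.card H = p ^ s} ≡ 1 [MOD p] := by
  have : Fact p.Prime := ⟨hp⟩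
  have hP : IsPGroup p (ConjAct G) := IsPGroup.of_card (n := m) hG
  let Y : SubMulAction (ConjAct G) (Subgroup G) := ⟨{H | Nat.card H = p ^ s}, fun g H hH => by
    show Nat.card (g • H : Subgroup G) = p ^ s
    rw [← Nat.card_congr (Subgroup.equivSMul g H).toEquiv]; exact hH⟩
  have h1 := hP.card_modEq_card_fixedPoints Y
  have h2 : Nat.card Y ≡ 1 [MOD p] :=
    Cfsg.Agent.S3975.result p s hp (by rw [hG]; exact pow_dvd_pow p hs)
  have h3 : Nat.card (fixedPoints (ConjAct G) Y) =
      Nat.card {H : Subgroup G // H.Normal ∧ Nat.card H = p ^ s} := by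
    apply Nat.card_congr
    refine ⟨fun H => ⟨H.1.1, ?_, H.1.2⟩, fun H => ⟨⟨H.1, H.2.2⟩, ?_⟩, fun _ => rfl, fun _ => rfl⟩
    · constructor
      intro x hx g
      have h0 := H.2 (ConjAct.toConjAct g)
      have h4 : ConjAct.toConjAct g • H.1.1 = H.1.1 := congrArg Subtype.val h0
      rw [← h4]
      have h5 := Subgroup.smul_mem_pointwise_smul x (ConjAct.toConjAct g) H.1.1 hx
      rwa [ConjAct.toConjAct_smul] at h5
    · intro g
      apply Subtype.ext
      have := H.2.1
      exact Subgroup.Normal.conjAct this g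
  rw [← h3]
  exact h1.symm.trans h2

end Cfsg.Agent.S3976
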