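import Cfsg.Statements.S2326
import Cfsg.Agent.Lib.Helper46ChevFacts
-- import your own Cfsg.Agent.* helpers here

set_option autoImplicit false
open Cfsg

namespace Cfsg.Agent.S2326

/-- In a Chevalley group of type G₂, B₂, D₄, F₄, E₆, E₇ or E₈ over a finite field of characteristic p, the subgroup U generated by the positive root elements is a Sylow p-subgroup. -/
theorem result {F : Type*} [Field F] [Fintype F] (p : ℕ) [Fact p.Prime] [CharP F p] (D : Cfsg.Lie.ChevalleyDatum) (hD : D ∈ [Cfsg.Lie.chevG2, Cfsg.Lie.chevB2, Cfsg.Lie.chevD4, Cfsg.Lie.chevF4, Cfsg.Lie.chevE6, Cfsg.Lie.chevE7, Cfsg.Lie.chevE8]) :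
    ∃ P : Sylow p ↥(D.group F), (P : Subgroup ↥(D.group F)) = (D.posUnipotent F).subgroupOf (D.group F) := by
  obtain ⟨k, hk⟩ := Cfsg.Agent.Lib.Helper46ChevFacts.exists_card_U (F := F) p hD
  have hF := Cfsg.Agent.Lib.Helper46ChevFacts.facts (F := F) hD
  have hU : IsPGroup p (D.posUnipotent F) := IsPGroup.of_card hk
  have hUG : D.posUnipotent F ≤ D.group F := le_trans le_sup_left hF.BG
  have hU' : IsPGroup p ((D.posUnipotent F).subgroupOf (D.group F)) :=
    hU.of_equiv (Subgroup.subgroupOfEquivOfLe hUG).symm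
  exact ⟨hU'.toSylow (Cfsg.Agent.Lib.Helper46ChevSt.not_dvd_index hF p hU
    (Cfsg.Agent.Lib.Helper46ChevFacts.not_dvd_card_H p hD)), IsPGroup.toSylow_coe _ _⟩

end Cfsg.Agent.S2326
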