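import Cfsg.Statements.S2624
import Cfsg.Agent.Lib.Helper42Quad

set_option autoImplicit false
open Cfsg

namespace Cfsg.Agent.S2624

open QuadraticMap Cfsg.Agent.Lib.Helper42Quad in
theorem sim_of {F V : Type*} [Field F] [AddCommGroup V] [Module F V] (Q : QuadraticForm F V)
    {k : ℕ} (e f : Fin k → V) (h : Hyp Q e f) {ι : Type*} (a a' : ι → V)
    (ha : ∀ j, Perp Q e f (a j)) (ha' : ∀ j, Perp Q e f (a' j))
    (b : Module.Basis ((Fin k ⊕ Fin k) ⊕ ι) F V) (hb1 : ∀ i, b (Sum.inl (Sum.inl i)) = e i)
    (hb2 : ∀ i, b (Sum.inl (Sum.inr i)) = f i) (hb3 : ∀ j, b (Sum.inr j) = a j) (c : F)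
    (h1 : ∀ j, Q (a' j) = c * Q (a j))
    (h2 : ∀ i j, polar Q (a' i) (a' j) = c * polar Q (a i) (a j)) :
    ∃ g : V →ₗ[F] V, ∀ v, Q (g v) = c * Q v := by
  obtain ⟨k1, k2, k3, k4, k5⟩ := h
  refine ⟨b.constr F (Sum.elim (Sum.elim (fun i => c • e i) f) a'), ?_⟩
  have hg : ∀ i, b.constr F (Sum.elim (Sum.elim (fun i => c • e i) f) a') (b i)
      = (Sum.elim (Sum.elim (fun i => c • e i) f) a') i := fun i => b.constr_basis F _ i
  have key : Q.comp (b.constr F (Sum.elim (Sum.elim (fun i => c • e i) f) a')) = c • Q := by
    apply ext_of_basis b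
    · rintro ((i | i) | i)
      · rw [QuadraticMap.comp_apply, hg, hb1]
        simp [QuadraticMap.map_smul, k1]
      · rw [QuadraticMap.comp_apply, hg, hb2]
        simp [k2]
      · rw [QuadraticMap.comp_apply, hg, hb3]
        simp [h1]
    · intro i j
      have e1 : polar (Q.comp (b.constr F (Sum.elim (Sum.elim (fun i => c • e i) f) a'))) (b i) (b j)
          = polar Q ((Sum.elim (Sum.elim (fun i => c • e i) f) a') i)
            ((Sum.elim (Sum.elim (fun i => c • e i) f) a') j) := by
        rw [← hg, ← hg]
        simp [polar]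
      have e2 : polar (c • Q) (b i) (b j) = c * polar Q (b i) (b j) := by
        simp [polar]; ring
      rw [e1, e2]
      rcases i with (i | i) | i <;> rcases j with (j | j) | j <;>
        simp only [Sum.elim_inl, Sum.elim_inr, hb1, hb2, hb3, polar_smul_left, polar_smul_right,
          smul_eq_mul, k3, k4, k5, (ha _ _).1, (ha _ _).2, (ha' _ _).1, (ha' _ _).2, mul_zero, h2,
          polar_comm Q (a _) (e _), polar_comm Q (a _) (f _), polar_comm Q (a' _) (e _),
          polar_comm Q (a' _) (f _)]
  intro v
  have := congrArg (fun q : QuadraticForm F V => q v) key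
  simpa using this

open QuadraticMap Cfsg.Agent.Lib.Helper42Quad in
theorem sim_lin {F V : Type*} [Field F] [Finite F] [AddCommGroup V] [Module F V]
    [FiniteDimensional F V] (Q : QuadraticForm F V) (hQ : (polarBilin Q).Nondegenerate)
    (he : Even (Module.finrank F V)) (c : F) :
    ∃ g : V →ₗ[F] V, ∀ v, Q (g v) = c * Q v := by
  classical
  have hstd := std (F := F) _ Q hQ rfl
  rcases hstd with ⟨k, hk, e, f, h⟩ | ⟨k, hk, -⟩ | ⟨k, hk, e, f, x, y, h, hx, hy, hx1, hxy, ht⟩
  · obtain ⟨b, hb1, hb2, hb3⟩ := exists_basis_sum Q e f h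
      (fun i : Fin 0 => i.elim0) (fun i => i.elim0) (linearIndependent_empty_type)
      (by simp [hk])
    exact sim_of Q e f h _ (fun i : Fin 0 => i.elim0) (fun i => i.elim0) (fun i => i.elim0) b
      hb1 hb2 hb3 c (fun i => i.elim0) (fun i => i.elim0)
  · exfalso
    rw [hk] at he
    rcases he with ⟨r, hr⟩
    omega
  · have hperp : ∀ j, Perp Q e f (![x, y] j) := fun j => by
      refine Fin.cases ?_ (fun j' => ?_) j
      · simpa using hx
      · have : j' = 0 := Subsingleton.elim _ _
        subst this
        simpa using hy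
    obtain ⟨b, hb1, hb2, hb3⟩ := exists_basis_sum Q e f h ![x, y] hperp
      (li_pair Q x y hx1 hxy ht) (by simp [hk])
    have hval : ∀ s t : F, Q (s • x + t • y) = s ^ 2 + s * t + t ^ 2 * Q y := by
      intro s t
      rw [map_add_polar, QuadraticMap.map_smul, QuadraticMap.map_smul, polar_smul_left,
        polar_smul_right, hx1, hxy]
      simp only [smul_eq_mul, mul_one]
      ring
    -- c is represented by the plane
    obtain ⟨a0, b0, hab⟩ : ∃ a0 b0 : F, a0 ^ 2 + a0 * b0 + b0 ^ 2 * Q y = c := by
      obtain ⟨⟨a0, b0⟩, hv⟩ := represents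
        (Q.comp ((LinearMap.toSpanSingleton F V x).coprod (LinearMap.toSpanSingleton F V y)))
        (by rw [Module.finrank_prod, Module.finrank_self]) (by
          rintro ⟨s, t⟩ hst
          have hst' : Q (s • x + t • y) = 0 := by simpa using hst
          rw [hval] at hst'
          by_cases ht0 : t = 0
          · subst ht0
            have : s ^ 2 = 0 := by linear_combination hst'
            have hs : s = 0 := by simpa using this
            rw [hs]; rfl
          · exfalso
            apply ht (s / t)
            field_simp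
            linear_combination hst') c
      refine ⟨a0, b0, ?_⟩
      have hv' : Q (a0 • x + b0 • y) = c := by simpa using hv
      rw [← hv', hval]
    have hperp2 : ∀ s t : F, Perp Q e f (s • x + t • y) := by
      intro s t i
      rw [polar_add_right, polar_add_right, polar_smul_right, polar_smul_right, polar_smul_right,
        polar_smul_right, (hx i).1, (hx i).2, (hy i).1, (hy i).2]
      simp
    have hyx : polar Q y x = 1 := by rw [polar_comm]; exact hxy
    have hpol : ∀ s t s' t' : F, polar Q (s • x + t • y) (s' • x + t' • y)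
        = 2 * s * s' + s * t' + t * s' + 2 * t * t' * Q y := by
      intro s t s' t'
      simp only [polar_add_left, polar_add_right, polar_smul_left, polar_smul_right, polar_self,
        hx1, hxy, hyx, smul_eq_mul, nsmul_eq_mul, Nat.cast_ofNat]
      ring
    refine sim_of Q e f h ![x, y] ![a0 • x + b0 • y, (-(Q y * b0)) • x + (a0 + b0) • y] hperp ?_ b
      hb1 hb2 hb3 c ?_ ?_
    · intro j
      refine Fin.cases ?_ (fun j' => ?_) j
      · exact hperp2 _ _
      · have : j' = 0 := Subsingleton.elim _ _
        subst this
        exact hperp2 _ _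
    · intro j
      refine Fin.cases ?_ (fun j' => ?_) j
      · simp only [Matrix.cons_val_zero]
        rw [hval, hx1, hab, mul_one]
      · have : j' = 0 := Subsingleton.elim _ _
        subst this
        simp only [Matrix.cons_val_succ, Matrix.cons_val_zero]
        rw [hval, ← hab]
        ring
    · have hx' : x = (1 : F) • x + (0 : F) • y := by simp
      have hy' : y = (0 : F) • x + (1 : F) • y := by simp
      intro i j
      refine Fin.cases ?_ (fun i' => ?_) i <;> refine Fin.cases ?_ (fun j' => ?_) j
      · simp only [Matrix.cons_val_zero]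
        rw [hpol, polar_self, hx1, ← hab]
        simp only [nsmul_eq_mul, Nat.cast_ofNat]
        ring
      · have : j' = 0 := Subsingleton.elim _ _
        subst this
        simp only [Matrix.cons_val_succ, Matrix.cons_val_zero]
        rw [hpol, hxy, ← hab]
        ring
      · have : i' = 0 := Subsingleton.elim _ _
        subst this
        simp only [Matrix.cons_val_succ, Matrix.cons_val_zero]
        rw [hpol, hyx, ← hab]
        ring
      · have : i' = 0 := Subsingleton.elim _ _
        subst this
        have : j' = 0 := Subsingleton.elim _ _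
        subst this
        simp only [Matrix.cons_val_succ, Matrix.cons_val_zero]
        rw [hpol, polar_self, ← hab]
        simp only [nsmul_eq_mul, Nat.cast_ofNat]
        ring


/-- For a quadratic form Q on F^n with non-degenerate polar form, F finite and n ≥ 2 even, every non-zero scalar c is the multiplier of some similarity: there is an invertible linear map g with Q(g v) = c·Q(v) for all v. -/
theorem result {F : Type*} [Field F] [Fintype F] {n : ℕ} (hn : 2 ≤ n) (he : Even n) (Q : QuadraticForm F (Fin n → F)) (hQ : (QuadraticMap.polarBilin Q).Nondegenerate) (c : F) (hc : c ≠ 0) : ∃ g : (Fin n → F) ≃ₗ[F] (Fin n → F), ∀ v, Q (g v) = c * Q v := by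
  classical
  obtain ⟨g, hg⟩ := sim_lin Q hQ (by simpa using he) c
  have hinj : Function.Injective g := by
    rw [← LinearMap.ker_eq_bot, LinearMap.ker_eq_bot']
    intro u hu
    apply (Cfsg.Agent.Lib.Helper42Quad.nondeg_iff Q).mp hQ
    intro v
    have h1 : QuadraticMap.polar Q (g u) (g v) = c * QuadraticMap.polar Q u v := by
      simp only [QuadraticMap.polar]
      rw [← map_add, hg, hg, hg]
      ring
    rw [hu] at h1
    have h2 : c * QuadraticMap.polar Q u v = 0 := by
      rw [← h1]; simp [QuadraticMap.polar]
    rcases mul_eq_zero.mp h2 with h3 | h3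
    · exact absurd h3 hc
    · exact h3
  exact ⟨LinearEquiv.ofInjectiveEndo g hinj, fun v => by
    rw [LinearEquiv.coe_ofInjectiveEndo]; exact hg v⟩

end Cfsg.Agent.S2624
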