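import Cfsg.Statements.S4452
import Cfsg.Agent.Lib.Helper77Glaub4

set_option autoImplicit false
open Cfsg

namespace Cfsg.Agent.S4452


open Cfsg.Agent.Lib.Helper77Glaub Cfsg.Agent.Lib.Helper77Glaub2 Cfsg.Agent.Lib.Helper77Glaub3
  Cfsg.Agent.Lib.Helper77Glaub4


/-- Let the finite group G be the product of a normal subgroup K and a solvable subgroup H of coprime orders, and let N = N_G(H). Then the number of irreducible characters of G of degree coprime to the order of H equals the number of irreducible characters of N of degree coprime to the order of H. (The two sets are in fact in a canonical bijection; only the equality of their sizes is stated here.) -/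
theorem result {G : Type*} [Group G] [Finite G] (K H : Subgroup G) [K.Normal] (hKH : K ⊔ H = ⊤) (hcop : (Nat.card K).Coprime (Nat.card H)) (hsolv : Group.IsSolvable H) : Nat.card {χ : Cfsg.IrrCharacter G // (Cfsg.charDegree (χ : G → ℂ)).Coprime (Nat.card H)} = Nat.card {η : Cfsg.IrrCharacter (Subgroup.normalizer (H : Set G)) // (Cfsg.charDegree (η : Subgroup.normalizer (H : Set G) → ℂ)).Coprime (Nat.card H)} := by
  have h1 := card_coprime_degree_eq_mul K H hKH hcop
  rw [card_inv_irr_eq_card_irr_fix (conjAct K H (conj_mem_of_normal K H)) hcop] at h1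
  set N := Subgroup.normalizer (H : Set G) with hN
  have hHN : H ≤ N := Subgroup.le_normalizer
  set K' := K.subgroupOf N with hK'
  set H' := H.subgroupOf N with hH'
  have hK'H' : K' ⊔ H' = ⊤ := by
    rw [eq_top_iff]
    intro n _
    obtain ⟨k, hk, h, hh, e⟩ := exists_mul_of_sup_eq_top K H hKH (n : G)
    have hkN : k ∈ N := by
      have : k = n * h⁻¹ := by rw [← e]; group
      rw [this]
      exact N.mul_mem n.2 (N.inv_mem (hHN hh))
    have e2 : n = (⟨k, hkN⟩ : N) * (⟨h, hHN hh⟩ : N) := Subtype.ext e.symm
    rw [e2]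
    exact Subgroup.mul_mem_sup (Subgroup.mem_subgroupOf.mpr hk) (Subgroup.mem_subgroupOf.mpr hh)
  have hcardH : Nat.card H' = Nat.card H := Cfsg.Agent.Lib.Helper1Basic.card_subgroupOf_of_le hHN
  have hcardK : Nat.card K' ∣ Nat.card K := by
    let f : K' →* K := (N.subtype.comp K'.subtype).codRestrict K
      (fun x => Subgroup.mem_subgroupOf.mp x.2)
    refine Subgroup.card_dvd_of_injective f ?_
    intro x y hxy
    apply Subtype.ext
    apply Subtype.ext
    exact congrArg (fun z : K => (z : G)) hxy
  have hcop' : (Nat.card K').Coprime (Nat.card H') := by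
    rw [hcardH]
    exact hcop.coprime_dvd_left hcardK
  have hsolv' : Group.IsSolvable H' :=
    Group.isSolvable_of_isSolvable_injective (f := (Subgroup.subgroupOfEquivOfLe hHN).toMonoidHom)
      (Subgroup.subgroupOfEquivOfLe hHN).injective
  have h2 := card_coprime_degree_eq_mul K' H' hK'H' hcop'
  rw [card_inv_irr_eq_card_irr_fix (conjAct K' H' (conj_mem_of_normal K' H')) hcop', hcardH] at h2
  rw [h1, h2]
  congr 1
  · refine card_irr_congr (MulEquiv.symm
      { toFun := fun x => ⟨⟨x.1.1.1, Subgroup.mem_subgroupOf.mp x.1.2⟩, fun s => ?_⟩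
        invFun := fun y => ⟨⟨⟨y.1.1, ?_⟩, Subgroup.mem_subgroupOf.mpr y.1.2⟩, fun s => ?_⟩
        left_inv := fun x => rfl
        right_inv := fun y => rfl
        map_mul' := fun x y => rfl })
    · apply Subtype.ext
      have := x.2 ⟨⟨s.1, hHN s.2⟩, Subgroup.mem_subgroupOf.mpr s.2⟩
      exact congrArg (fun z : K' => ((z : N) : G)) this
    · rw [hN, Subgroup.mem_normalizer_iff]
      intro h
      have key : ∀ h ∈ H, y.1.1 * h * y.1.1⁻¹ = h := by
        intro h hh
        have := congrArg (fun z : K => (z : G)) (y.2 ⟨h, hh⟩)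
        change h * y.1.1 * h⁻¹ = y.1.1 at this
        calc y.1.1 * h * y.1.1⁻¹ = (h * y.1.1 * h⁻¹) * h * y.1.1⁻¹ := by rw [this]
          _ = h := by group
      constructor
      · intro hh
        rw [key h hh]; exact hh
      · intro hh
        have := key _ hh
        have e5 : y.1.1 * h * y.1.1⁻¹ = h := conj_injective (x := y.1.1) this
        rw [← e5]; exact hh
    · apply Subtype.ext
      apply Subtype.ext
      have := congrArg (fun z : K => (z : G)) (y.2 ⟨s.1.1, Subgroup.mem_subgroupOf.mp s.2⟩)
      exact this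
  · refine Nat.card_congr (Equiv.subtypeEquiv
      (Cfsg.Agent.Lib.Helper82Quot.irrCongr (Subgroup.subgroupOfEquivOfLe hHN).symm) (fun l => ?_))
    rw [Cfsg.Agent.Lib.Helper82Quot.irrCongr_apply, map_one]

end Cfsg.Agent.S4452
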