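import Cfsg.Statements.S0969
import Cfsg.Agent.Lib.Helper81Reg
import Cfsg.Agent.Lib.Helper78Solomon
import Cfsg.Agent.Lib.Helper82Schur
import Cfsg.Agent.Lib.Helper20Brauer
import Cfsg.Agent.Lib.Helper20DefCard
import Cfsg.Agent.Lib.Helper83Char

set_option autoImplicit false
open Cfsg

namespace Cfsg.Agent.S0969


open Cfsg.Agent.Lib
open scoped ComplexConjugate

section aux
variable {G : Type*} [Group G] [Fintype G]

theorem central_mul (χ : IrrCharacter G) {z : G} (hz : z ∈ Subgroup.center G) (a : G) :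
    (χ : G → ℂ) (a * z) * (χ : G → ℂ) 1 = (χ : G → ℂ) a * (χ : G → ℂ) z := by
  have h := Helper82Schur.irr_sum_mul_conj χ a z
  have h1 : ∀ x : G, x * z * x⁻¹ = z := by
    intro x
    rw [Subgroup.mem_center_iff.mp hz x]; group
  simp only [h1, Finset.sum_const, Finset.card_univ, nsmul_eq_mul, ← Nat.card_eq_fintype_card] at h
  have hG : (Nat.card G : ℂ) ≠ 0 := by exact_mod_cast Nat.card_pos.ne'
  have h2 := Helper83Char.irr_one_ne_zero χ.2
  field_simp at h
  linear_combination h

theorem normSq_central (χ : IrrCharacter G) {z : G} (hz : z ∈ Subgroup.center G) (a : G) :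
    Complex.normSq ((χ : G → ℂ) (z * a)) = Complex.normSq ((χ : G → ℂ) a) := by
  have h2 := Helper83Char.irr_one_ne_zero χ.2
  have e1 := central_mul χ hz a
  have e2 := central_mul χ hz z⁻¹
  rw [inv_mul_cancel, Helper83Char.irr_inv χ.2] at e2
  have e3 : Complex.normSq ((χ : G → ℂ) z) = Complex.normSq ((χ : G → ℂ) 1) := by
    have := congrArg Complex.normSq e2
    rw [map_mul, map_mul, Complex.normSq_conj] at this
    have h3 : Complex.normSq ((χ : G → ℂ) 1) ≠ 0 := by simpa using h2
    nlinarith [Complex.normSq_nonneg ((χ : G → ℂ) 1), Complex.normSq_nonneg ((χ : G → ℂ) z),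
      mul_self_eq_mul_self_iff.mp this]
  have e4 := congrArg Complex.normSq e1
  rw [map_mul, map_mul, e3] at e4
  have h3 : Complex.normSq ((χ : G → ℂ) 1) ≠ 0 := by simpa using h2
  rw [Subgroup.mem_center_iff.mp hz a] at *
  exact mul_right_cancel₀ h3 e4

theorem sum_normSq (χ : IrrCharacter G) :
    ∑ g : G, Complex.normSq ((χ : G → ℂ) g) = (Nat.card G : ℝ) := by
  have h := Helper83Char.classInner_irr_self χ.2
  have hG : (Nat.card G : ℂ) ≠ 0 := by exact_mod_cast Nat.card_pos.ne'
  rw [Cfsg.classInner, inv_mul_eq_one₀ hG] at h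
  have : ((∑ g : G, Complex.normSq ((χ : G → ℂ) g) : ℝ) : ℂ) = ((Nat.card G : ℝ) : ℂ) := by
    push_cast
    rw [h]
    apply Finset.sum_congr rfl
    intro g _
    rw [Complex.mul_conj]
  exact_mod_cast this

open scoped Classical in
/-- the regular norm -/
noncomputable def regS (p : ℕ) (χ : IrrCharacter G) : ℝ :=
  ∑ g : G, if p ∣ orderOf g then 0 else Complex.normSq ((χ : G → ℂ) g)

theorem creg_eq (p : ℕ) (χ : IrrCharacter G) :
    Helper81Reg.creg p (χ : G → ℂ) (χ : G → ℂ) * (χ : G → ℂ) 1 = (regS p χ : ℂ) := by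
  classical
  have h2 := Helper83Char.irr_one_ne_zero χ.2
  unfold Helper81Reg.creg Helper20Center.om Helper81Reg.areg regS
  rw [div_mul_cancel₀ _ h2]
  push_cast
  apply Finset.sum_congr rfl
  intro g _
  by_cases h1 : p ∣ orderOf g
  · simp [h1]
  · simp only [h1, not_false_eq_true, if_true, if_false]
    rw [mul_comm, Complex.mul_conj]

theorem regS_pos (p : ℕ) [Fact p.Prime] (χ : IrrCharacter G) : 0 < regS p χ := by
  classical
  unfold regS
  apply Finset.sum_pos'
  · intro g _
    split_ifs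
    · exact le_rfl
    · exact Complex.normSq_nonneg _
  · refine ⟨1, Finset.mem_univ _, ?_⟩
    have hp : p.Prime := Fact.out
    have h1 : ¬ p ∣ orderOf (1 : G) := by
      rw [orderOf_one]; exact hp.one_lt.ne' ∘ Nat.dvd_one.mp
    rw [if_neg h1]
    exact Complex.normSq_pos.mpr (Helper83Char.irr_one_ne_zero χ.2)

theorem regS_int (p : ℕ) [Fact p.Prime] (χ : IrrCharacter G) :
    ∃ n : ℕ, n ≠ 0 ∧ (p : ℝ) ^ (Nat.card G).factorization p * regS p χ = (Nat.card G : ℝ) * n := by
  classical
  have hp : p.Prime := Fact.out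
  have hc := Helper83Char.isCharacter_of_irr χ.2
  obtain ⟨z, hz⟩ := Helper78Solomon.regular_mul_inner_int hp hc hc
  have hG : (Nat.card G : ℂ) ≠ 0 := by exact_mod_cast Nat.card_pos.ne'
  rw [Cfsg.classInner, inv_mul_eq_iff_eq_mul₀ hG] at hz
  have h1 : (((p : ℝ) ^ (Nat.card G).factorization p * regS p χ : ℝ) : ℂ)
      = (((Nat.card G : ℝ) * (z : ℝ) : ℝ) : ℂ) := by
    push_cast
    rw [← hz]
    unfold regS
    push_cast
    rw [Finset.mul_sum]
    apply Finset.sum_congr rfl
    intro g _
    split_ifs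
    · simp
    · rw [mul_assoc, Complex.mul_conj]
  have h2 : (p : ℝ) ^ (Nat.card G).factorization p * regS p χ = (Nat.card G : ℝ) * (z : ℝ) := by
    exact_mod_cast h1
  have hpos : 0 < (p : ℝ) ^ (Nat.card G).factorization p * regS p χ :=
    mul_pos (pow_pos (by exact_mod_cast hp.pos) _) (regS_pos p χ)
  have hzpos : 0 < z := by
    rw [h2] at hpos
    have hGr : (0 : ℝ) < Nat.card G := by exact_mod_cast Nat.card_pos
    have := (mul_pos_iff_of_pos_left hGr).mp hpos
    exact_mod_cast this
  refine ⟨z.toNat, by omega, ?_⟩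
  rw [h2]
  congr 1
  have : ((z.toNat : ℤ) : ℝ) = (z : ℝ) := by rw [Int.toNat_of_nonneg hzpos.le]
  exact_mod_cast this.symm

theorem regS_ge {p : ℕ} [Fact p.Prime] {M : Ideal AlgInt} (hM : IsPModular p M)
    (χ : IrrCharacter G) {d : ℕ}
    (hdeg : (charDegree (χ : G → ℂ)).factorization p + d = (Nat.card G).factorization p) :
    (Nat.card G : ℝ) ≤ (p : ℝ) ^ d * regS p χ := by
  have hp : p.Prime := Fact.out
  have hPr := hM.2.1.isPrime
  obtain ⟨n, hn0, hn⟩ := regS_int p χ
  have hc := creg_eq p χ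
  have hmem : MemLocalRing M (Helper81Reg.creg p (χ : G → ℂ) (χ : G → ℂ)) :=
    Helper81Reg.creg_mem χ χ
  have hdc := Helper83Char.charDegree_cast χ.2
  have hdpos := Helper83Char.charDegree_pos χ.2
  set a := (Nat.card G).factorization p with ha
  set e := (charDegree (χ : G → ℂ)).factorization p with he
  have h1 : ((Nat.card G * n : ℕ) : ℂ) = ((p ^ a * charDegree (χ : G → ℂ) : ℕ) : ℂ)
      * Helper81Reg.creg p (χ : G → ℂ) (χ : G → ℂ) := by
    have : (((p : ℝ) ^ a * regS p χ : ℝ) : ℂ) = (((Nat.card G : ℝ) * n : ℝ) : ℂ) := by rw [hn]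
    push_cast at this ⊢
    rw [← this, ← hc, hdc]
    ring
  have h2 := Helper81Local.factorization_le_of_eq_mul hM
    (Nat.mul_ne_zero Nat.card_pos.ne' hn0) hmem h1
  rw [Nat.factorization_mul (pow_ne_zero _ hp.ne_zero) hdpos.ne',
    Nat.factorization_mul Nat.card_pos.ne' hn0, hp.factorization_pow] at h2
  simp only [Finsupp.coe_add, Pi.add_apply, Finsupp.single_eq_same] at h2
  have h3 : e ≤ n.factorization p := by omega
  have h4 : p ^ e ∣ n := (hp.pow_dvd_iff_le_factorization hn0).mpr h3
  have h5 : p ^ e ≤ n := Nat.le_of_dvd (Nat.pos_of_ne_zero hn0) h4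
  have h6 : ((p : ℝ) ^ e) ≤ n := by exact_mod_cast h5
  have hpe : (0 : ℝ) < (p : ℝ) ^ e := pow_pos (by exact_mod_cast hp.pos) _
  have hGr : (0 : ℝ) < Nat.card G := by exact_mod_cast Nat.card_pos
  have h7 : (p : ℝ) ^ e * ((p : ℝ) ^ d * regS p χ) = (Nat.card G : ℝ) * n := by
    rw [← hn, ← hdeg, pow_add]; ring
  by_contra hlt
  push Not at hlt
  have h8 : (p : ℝ) ^ e * ((p : ℝ) ^ d * regS p χ) < (p : ℝ) ^ e * (Nat.card G : ℝ) :=
    mul_lt_mul_of_pos_left hlt hpe
  have h9 : (Nat.card G : ℝ) * (p : ℝ) ^ e ≤ (Nat.card G : ℝ) * n :=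
    mul_le_mul_of_nonneg_left h6 hGr.le
  linarith

theorem eq_one_of_reg {p : ℕ} [Fact p.Prime] {w y : G} {k : ℕ} (hw : w ^ (p ^ k) = 1)
    (hc : Commute w y) (hy : ¬ p ∣ orderOf y) (hwy : ¬ p ∣ orderOf (w * y)) : w = 1 := by
  by_contra h1
  exact hwy (Helper20DefCard.dvd_orderOf_mul h1 hw hc hy)

open scoped Classical in
theorem sum_prod {p : ℕ} [Fact p.Prime] (χ : IrrCharacter G) (D : Subgroup G) (hD : IsPGroup p D)
    (hDZ : D ≤ Subgroup.center G) (s : Finset G)
    (hs : ∀ g ∈ s, ∀ z ∈ D, ∀ y : G, ¬ p ∣ orderOf y → g ≠ z * y) :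
    (Nat.card D : ℝ) * regS p χ + ∑ g ∈ s, Complex.normSq ((χ : G → ℂ) g) ≤ (Nat.card G : ℝ) := by
  have : Fintype D := Fintype.ofFinite _
  set T : Finset (D × G) := Finset.univ.filter (fun zy => ¬ p ∣ orderOf zy.2) with hT
  set φ : D × G → G := fun zy => (zy.1 : G) * zy.2 with hφ
  have hinj : Set.InjOn φ T := by
    rintro ⟨z, y⟩ h1 ⟨z', y'⟩ h2 h
    simp only [hT, Finset.coe_filter, Finset.mem_univ, true_and, Set.mem_setOf_eq] at h1 h2
    simp only [hφ] at h
    obtain ⟨k, hk⟩ := hD (z'⁻¹ * z)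
    have hk' : ((z' : G)⁻¹ * z) ^ (p ^ k) = 1 := by
      have := congrArg (Subtype.val) hk
      simpa using this
    have hcen : ((z' : G)⁻¹ * z) ∈ Subgroup.center G := hDZ (D.mul_mem (D.inv_mem z'.2) z.2)
    have hcm : Commute ((z' : G)⁻¹ * z) y := (Subgroup.mem_center_iff.mp hcen y).symm
    have hy' : ((z' : G)⁻¹ * z) * y = y' := by
      rw [mul_assoc, h]; group
    have hw := eq_one_of_reg hk' hcm h1 (by rw [hy']; exact h2)
    have hzz : (z : G) = z' := by
      have := congrArg (fun t => (z' : G) * t) hw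
      simpa using this
    have hyy : y = y' := by rw [← hy', hw, one_mul]
    exact Prod.ext (Subtype.ext hzz) hyy
  have h1 : ∑ g ∈ T.image φ, Complex.normSq ((χ : G → ℂ) g) = (Nat.card D : ℝ) * regS p χ := by
    rw [Finset.sum_image hinj, hT, Finset.sum_filter, Fintype.sum_prod_type]
    have : ∀ z : D, (∑ y : G, if ¬ p ∣ orderOf y then Complex.normSq ((χ : G → ℂ) (φ (z, y))) else 0)
        = regS p χ := by
      intro z
      unfold regS
      apply Finset.sum_congr rfl
      intro y _
      by_cases h : p ∣ orderOf y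
      · simp [h]
      · simp only [h, not_false_eq_true, if_true, if_false, hφ]
        exact normSq_central χ (hDZ z.2) y
    simp only [this, Finset.sum_const, Finset.card_univ, nsmul_eq_mul, Nat.card_eq_fintype_card]
  have hdisj : Disjoint (T.image φ) s := by
    rw [Finset.disjoint_left]
    intro g hg hgs
    obtain ⟨⟨z, y⟩, hzy, rfl⟩ := Finset.mem_image.mp hg
    simp only [hT, Finset.mem_filter, Finset.mem_univ, true_and] at hzy
    exact hs _ hgs z z.2 y hzy rfl
  rw [← h1, ← Finset.sum_union hdisj, ← sum_normSq χ]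
  apply Finset.sum_le_sum_of_subset_of_nonneg (Finset.subset_univ _)
  intro g _ _
  exact Complex.normSq_nonneg _

end aux

theorem main {G : Type*} [Group G] [Finite G] (p : ℕ) [Fact p.Prime] (M : Ideal Cfsg.AlgInt)
    (hM : Cfsg.IsPModular p M) (D : Subgroup G) (hD : IsPGroup p D)
    (hDZ : D ≤ Subgroup.center G) (χ : Cfsg.IrrCharacter G)
    (hdeg : (Cfsg.charDegree (χ : G → ℂ)).factorization p = D.index.factorization p) :
    Cfsg.IsDefectGroup p M (Cfsg.blockOf M (χ : G → ℂ)) D ∧
      ∀ g x : G, Cfsg.IsPPart p g x → x ∉ D → (χ : G → ℂ) g = 0 := by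
  classical
  have := Fintype.ofFinite G
  have hp : p.Prime := Fact.out
  have hPr := hM.2.1.isPrime
  obtain ⟨d, hd⟩ := IsPGroup.iff_card.mp hD
  have hmul := D.card_mul_index
  have hidx : D.index ≠ 0 := Subgroup.index_ne_zero_of_finite
  have hfac : d + D.index.factorization p = (Nat.card G).factorization p := by
    rw [← hmul, Nat.factorization_mul Nat.card_pos.ne' hidx, hd, hp.factorization_pow]; simp
  have hdeg' : (charDegree (χ : G → ℂ)).factorization p + d = (Nat.card G).factorization p := by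
    omega
  have hge := regS_ge hM χ hdeg'
  have hcardD : (Nat.card D : ℝ) = (p : ℝ) ^ d := by rw [hd]; push_cast; rfl
  refine ⟨?_, ?_⟩
  · have heq : (p : ℝ) ^ d * regS p χ = Nat.card G := by
      apply le_antisymm _ hge
      have := sum_prod χ D hD hDZ ∅ (by simp)
      rw [Finset.sum_empty, add_zero, hcardD] at this
      exact this
    have hc := creg_eq p χ
    have hdc := Helper83Char.charDegree_cast χ.2
    have hdpos := Helper83Char.charDegree_pos χ.2
    set c := Helper81Reg.creg p (χ : G → ℂ) (χ : G → ℂ) with hcdef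
    have hunit : ¬ MemLocalIdeal M c := by
      intro hmem
      have e1 := Nat.ordProj_mul_ordCompl_eq_self (Nat.card G) p
      have e2 := Nat.ordProj_mul_ordCompl_eq_self (charDegree (χ : G → ℂ)) p
      have e3 := Nat.not_dvd_ordCompl hp (Nat.card_pos (α := G)).ne'
      set a := (Nat.card G).factorization p
      set e := (charDegree (χ : G → ℂ)).factorization p
      set g0 := Nat.card G / p ^ a
      set m := charDegree (χ : G → ℂ) / p ^ e
      apply e3
      rw [← Helper81Local.memLocalIdeal_natCast_iff hM]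
      have h1 : (g0 : ℂ) = (m : ℂ) * c := by
        have hpa : (p : ℂ) ^ a ≠ 0 := pow_ne_zero _ (by exact_mod_cast hp.ne_zero)
        apply mul_left_cancel₀ hpa
        have e1' : (p : ℂ) ^ a * g0 = (Nat.card G : ℂ) := by exact_mod_cast e1
        have e2' : (p : ℂ) ^ e * m = (χ : G → ℂ) 1 := by rw [← hdc]; exact_mod_cast e2
        have heq' : (p : ℂ) ^ d * (regS p χ : ℂ) = (Nat.card G : ℂ) := by exact_mod_cast heq
        rw [e1', ← heq', ← hc, ← e2', ← hdeg', pow_add]
        ring
      rw [h1]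
      exact Helper81Local.memLocalIdeal_mul (Helper81Local.memLocalRing_natCast m) hmem
    have hB := Helper20Block.isPBlock_blockOf (M := M) χ
    have hχB := Helper20Block.mem_blockOf_self hPr χ
    have hall : ∀ ψ ∈ blockOf M (χ : G → ℂ), (charDegree (χ : G → ℂ)).factorization p
        ≤ (charDegree (ψ : G → ℂ)).factorization p := by
      intro ψ hψ
      have hs : SameBlock M (ψ : G → ℂ) (χ : G → ℂ) := Helper20Block.sameBlock_symm hψ
      have h1 := Helper81Reg.creg_congr (p := p) χ hs
      have h2 : ¬ MemLocalIdeal M (Helper81Reg.creg p (ψ : G → ℂ) (χ : G → ℂ)) := by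
        intro h
        apply hunit
        have := Helper81Local.memLocalIdeal_sub h h1
        simpa using this
      have h3 := Helper81Reg.creg_symm (p := p) ψ χ
      have h4 : Helper81Reg.creg p (ψ : G → ℂ) (χ : G → ℂ) ≠ 0 := by
        intro h
        rw [h] at h2
        exact h2 Helper81Local.memLocalIdeal_zero
      have h5 : MemLocalRing M (Helper81Reg.creg p (χ : G → ℂ) (ψ : G → ℂ)
          * (Helper81Reg.creg p (ψ : G → ℂ) (χ : G → ℂ))⁻¹) :=
        Helper81Local.memLocalRing_mul (Helper81Reg.creg_mem χ ψ)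
          (Helper81Local.memLocalRing_inv (Helper81Reg.creg_mem ψ χ) h2)
      apply Helper81Local.factorization_le_of_eq_mul hM (Helper83Char.charDegree_pos ψ.2).ne' h5
      rw [Helper83Char.charDegree_cast ψ.2, hdc, ← mul_assoc, ← h3]
      field_simp
    have hdef : blockDefect p (blockOf M (χ : G → ℂ)) = d := by
      rw [Helper81Defect.blockDefect_def]
      obtain ⟨ψ, hψ, hmin⟩ := Helper81Defect.exists_minVal (p := p) ⟨χ, hχB⟩
      have h1 := hall ψ hψ
      have h2 := Helper81Defect.minVal_le (p := p) hχB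
      omega
    obtain ⟨Q, hQ⟩ := Helper20Induced.exists_defectGroup hM hB
    have hn : D.Normal := ⟨fun n hn g => by
      rw [Subgroup.mem_center_iff.mp (hDZ hn) g, mul_inv_cancel_right]; exact hn⟩
    have hle := Helper20Brauer.le_defectGroup_of_normal hM D hD hB hQ
    have hcQ := Helper20DefCard.card_defectGroup hM hB hQ
    rw [hdef, ← hd] at hcQ
    have : D = Q := Subgroup.eq_of_le_of_card_ge hle hcQ.le
    rw [this]
    exact hQ
  · intro g x hx hxD
    have h := sum_prod χ D hD hDZ {g} ?_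
    · rw [Finset.sum_singleton, hcardD] at h
      have : Complex.normSq ((χ : G → ℂ) g) ≤ 0 := by linarith
      exact Complex.normSq_eq_zero.mp (le_antisymm this (Complex.normSq_nonneg _))
    · intro g' hg' z hz y hy hgz
      rw [Finset.mem_singleton] at hg'
      subst hg'
      obtain ⟨y0, hxy, hcomm, ⟨k, hk⟩, hy0⟩ := hx
      obtain ⟨k2, hk2⟩ := hD ⟨z, hz⟩
      have hk2' : z ^ (p ^ k2) = 1 := by
        have := congrArg (Subtype.val) hk2
        simpa using this
      have hzc : ∀ t : G, Commute z t := fun t => (Subgroup.mem_center_iff.mp (hDZ hz) t).symm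
      have hw : (z⁻¹ * x) ^ (p ^ (k + k2)) = 1 := by
        have hx1 : x ^ (p ^ k) = 1 := by rw [← hk, pow_orderOf_eq_one]
        rw [((hzc x).inv_left).mul_pow, inv_pow, pow_add, pow_mul' z, pow_mul x, hk2', hx1]
        simp
      have hcm : Commute (z⁻¹ * x) y0 := ((hzc y0).inv_left).mul_left hcomm
      have hwy : (z⁻¹ * x) * y0 = y := by
        rw [mul_assoc, hxy, hgz]; group
      have h1 := eq_one_of_reg hw hcm hy0 (by rw [hwy]; exact hy)
      apply hxD
      have : x = z := by
        have := congrArg (fun t => z * t) h1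
        simpa using this
      rw [this]; exact hz


/-- Let D be a central p-subgroup of the finite group G and χ an irreducible character with the exponent of p in χ(1) equal to the exponent of p in the index of D; fix a maximal ideal M of the algebraic integers containing p. Then D is a defect group of the block of χ, and χ g = 0 whenever the p-part of g does not lie in D. -/
theorem result {G : Type*} [Group G] [Finite G] (p : ℕ) [Fact p.Prime] (M : Ideal Cfsg.AlgInt) (hM : Cfsg.IsPModular p M) (D : Subgroup G) (hD : IsPGroup p D) (hDZ : D ≤ Subgroup.center G) (χ : Cfsg.IrrCharacter G) (hdeg : (Cfsg.charDegree (χ : G → ℂ)).factorization p = D.index.factorization p) : Cfsg.IsDefectGroup p M (Cfsg.blockOf M (χ : G → ℂ)) D ∧ ∀ g x : G, Cfsg.IsPPart p g x → x ∉ D → (χ : G → ℂ) g = 0 := by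
  exact main p M hM D hD hDZ χ hdeg

end Cfsg.Agent.S0969
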