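import Cfsg.Statements.S1280
import Cfsg.Agent.Lib.Helper27Coprime

set_option autoImplicit false
open Cfsg

namespace Cfsg.Agent.S1280

/-- Let θ be a solvable A-signalizer functor (A a noncyclic elementary abelian p-subgroup of the finite group G), and X, Y members of its family with Y ≤ N_G(X). Then X ⊔ Y (= XY) is again in the family. -/
theorem result {G : Type*} [Group G] [Finite G] (p : ℕ) [Fact p.Prime] (A : Subgroup G) (hA : Cfsg.IsElementaryAbelian p A) (hA2 : p ^ 2 ≤ Nat.card ↥A) (θ : G → Subgroup G) (hθ : Cfsg.IsSolvableSignalizerFunctor p A θ) (X Y : Subgroup G) (hX : X ∈ Cfsg.signalizerFamily p A θ) (hY : Y ∈ Cfsg.signalizerFamily p A θ) (hn : Y ≤ Subgroup.normalizer (X : Set G)) : X ⊔ Y ∈ Cfsg.signalizerFamily p A θ := by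
  open Cfsg.Agent.Lib.Helper27Coprime Cfsg.Agent.Lib.Helper27Core in
  obtain ⟨hX1, hX2, hX3, hX4⟩ := hX
  obtain ⟨hY1, hY2, hY3, hY4⟩ := hY
  have hAX : A ≤ Subgroup.normalizer (X : Set G) := Subgroup.le_normalizer_iff.mpr hX3
  have hAY : A ≤ Subgroup.normalizer (Y : Set G) := Subgroup.le_normalizer_iff.mpr hY3
  have hpp : p.Prime := Fact.out
  refine ⟨isSolvable_sup hX1 hY1 hn, ?_, ?_, ?_⟩
  · intro h
    rcases (Nat.Prime.dvd_mul hpp).mp (h.trans (card_sup_dvd hn)) with h | h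
    · exact hX2 h
    · exact hY2 h
  · have : A ≤ Subgroup.normalizer ((X ⊔ Y : Subgroup G) : Set G) :=
      (le_inf hAX hAY).trans (Subgroup.normalizer_inf_normalizer_le_normalizer_sup X Y)
    exact Subgroup.le_normalizer_iff.mp this
  · intro a ha ha1 g hg
    rw [Subgroup.mem_inf] at hg
    have hB : IsPGroup p (Subgroup.zpowers a) := isPGroup_zpowers_of_pow_eq_one (hA.2 a ha)
    have hBA : Subgroup.zpowers a ≤ A := Subgroup.zpowers_le.mpr ha
    have hXY : ¬ p ∣ Nat.card (X ⊓ Y : Subgroup G) :=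
      fun h => hX2 (h.trans (Subgroup.card_dvd_of_le inf_le_left))
    have hfix : ∀ c ∈ Subgroup.zpowers a, c * g * c⁻¹ = g := by
      rintro _ ⟨k, rfl⟩
      exact conj_zpow_eq (mem_centralizer_singleton_iff.mp hg.2) k
    obtain ⟨y, hy, x, hx, rfl, hfy, hfx⟩ :=
      fixed_mem_sup hB hXY hn (hBA.trans hAX) (hBA.trans hAY) hg.1 hfix
    apply mul_mem
    · apply hY4 a ha ha1
      rw [Subgroup.mem_inf]
      exact ⟨hy, mem_centralizer_singleton_iff.mpr (hfy a (Subgroup.mem_zpowers a))⟩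
    · apply hX4 a ha ha1
      rw [Subgroup.mem_inf]
      exact ⟨hx, mem_centralizer_singleton_iff.mpr (hfx a (Subgroup.mem_zpowers a))⟩

end Cfsg.Agent.S1280
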