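import Cfsg.Statements.S1465
import Cfsg.Agent.Lib.Helper31PConstr

set_option autoImplicit false
open Cfsg

namespace Cfsg.Agent.S1465

open scoped commutatorElement
open Cfsg.Agent.Lib.Helper31PConstr

/-- Let p be an odd prime, G a solvable group of odd order, P a normal p-subgroup of G, and X the subgroup generated by a family of abelian p-subgroups of G each normalized by P. Then the image of X in G/C_G(P) lies in O_p(G/C_G(P)); and if O_{p'}(G) = 1 and O_p(G) ∩ C_G(P) ≤ P then X ≤ O_p(G). -/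
theorem result {G : Type*} [Group G] [Finite G] [Group.IsSolvable G] (hodd : Odd (Nat.card G)) (p : ℕ) [Fact p.Prime] (hp : p ≠ 2) (P : Subgroup G) [P.Normal] (hP : IsPGroup p P)
    (S : Set (Subgroup G)) (hS : ∀ B ∈ S, IsMulCommutative B ∧ IsPGroup p B ∧ P ≤ Subgroup.normalizer (B : Set G)) :
    (sSup S).map (QuotientGroup.mk' (Subgroup.centralizer (P : Set G))) ≤ Cfsg.pCore p (G ⧸ Subgroup.centralizer (P : Set G)) ∧
      (Cfsg.pPrimeCore p G = ⊥ → Cfsg.pCore p G ⊓ Subgroup.centralizer (P : Set G) ≤ P → sSup S ≤ Cfsg.pCore p G) := by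
  have part1 : (sSup S).map (QuotientGroup.mk' (Subgroup.centralizer (P : Set G))) ≤
      Cfsg.pCore p (G ⧸ Subgroup.centralizer (P : Set G)) := by
    have key := Cfsg.Agent.Lib.Helper31PStable.map_le_pCore hodd p hp P hP (MonoidHom.id G)
      (fun n => by
        rw [Subgroup.normalizer_eq_top]; exact Subgroup.mem_top _)
      (QuotientGroup.mk' (Subgroup.centralizer (P : Set G))) (QuotientGroup.mk'_surjective _) ?_
      {x | ∃ B ∈ S, x ∈ B} ?_
    · refine le_trans (Subgroup.map_mono ?_) key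
      apply sSup_le
      intro B hB x hx
      exact Subgroup.subset_closure ⟨B, hB, hx⟩
    · intro n hn
      rw [QuotientGroup.mk'_apply, QuotientGroup.eq_one_iff, Subgroup.mem_centralizer_iff]
      intro u hu
      exact (hn u hu).symm
    · rintro x ⟨B, hB, hx⟩ u hu
      obtain ⟨hBc, -, hBn⟩ := hS B hB
      have h1 : ⁅u, x⁆ ∈ B := by
        rw [commutatorElement_def]
        exact B.mul_mem ((Subgroup.mem_normalizer_iff.1 (hBn hu) x).1 hx) (B.inv_mem hx)
      rw [MonoidHom.id_apply, commutatorElement_eq_one_iff_mul_comm]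
      have := hBc.is_comm.comm ⟨_, h1⟩ ⟨x, hx⟩
      exact congrArg Subtype.val this
  refine ⟨part1, fun hO hle => ?_⟩
  have hTn : (Cfsg.pCore p G).Normal := Cfsg.Agent.Lib.Helper1Fitting.pCore_normal p
  have hTp : IsPGroup p (Cfsg.pCore p G) := Cfsg.Agent.Lib.Helper1Fitting.pCore_isPGroup p
  have hCn : (Subgroup.centralizer (P : Set G)).Normal := inferInstance
  have hC : IsPGroup p (Subgroup.centralizer (P : Set G)) := by
    apply isPGroup_of_no_pPrime
    intro k hk hkp
    have hkT : k ∈ Subgroup.centralizer (Cfsg.pCore p G : Set G) := by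
      rw [Subgroup.mem_centralizer_iff]
      intro t ht
      have hcT : k * t * k⁻¹ * t⁻¹ ∈ Cfsg.pCore p G :=
        Subgroup.mul_mem _ (hTn.conj_mem t ht k) (Subgroup.inv_mem _ ht)
      have hcC : k * t * k⁻¹ * t⁻¹ ∈ Subgroup.centralizer (P : Set G) := by
        have : k * t * k⁻¹ * t⁻¹ = k * (t * k⁻¹ * t⁻¹) := by group
        rw [this]
        exact Subgroup.mul_mem _ hk (hCn.conj_mem _ (Subgroup.inv_mem _ hk) t)
      have hcP : k * t * k⁻¹ * t⁻¹ ∈ P := hle ⟨hcT, hcC⟩
      obtain ⟨j, hj⟩ := hTp ⟨_, hcT⟩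
      have hj' : (k * t * k⁻¹ * t⁻¹) ^ p ^ j = 1 := congrArg Subtype.val hj
      exact (commute_of_coprime_comm ((Subgroup.mem_centralizer_iff.1 hk _ hcP).symm) hj'
        (Nat.Coprime.pow_right _ hkp)).symm
    have hkT' := centralizer_pCore_le p hO hkT
    obtain ⟨j, hj⟩ := hTp ⟨k, hkT'⟩
    have hj' : k ^ p ^ j = 1 := congrArg Subtype.val hj
    have d := orderOf_dvd_of_pow_eq_one hj'
    have := Nat.Coprime.eq_one_of_dvd (Nat.Coprime.pow_right j hkp) d
    exact orderOf_eq_one_iff.1 this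
  have hLn : ((Cfsg.pCore p (G ⧸ Subgroup.centralizer (P : Set G))).comap
      (QuotientGroup.mk' (Subgroup.centralizer (P : Set G)))).Normal :=
    (Cfsg.Agent.Lib.Helper1Fitting.pCore_normal p).comap _
  have hLp : IsPGroup p ((Cfsg.pCore p (G ⧸ Subgroup.centralizer (P : Set G))).comap
      (QuotientGroup.mk' (Subgroup.centralizer (P : Set G)))) := by
    apply IsPGroup.comap_of_ker_isPGroup (Cfsg.Agent.Lib.Helper1Fitting.pCore_isPGroup p)
    rw [QuotientGroup.ker_mk']
    exact hC
  exact le_trans (Subgroup.map_le_iff_le_comap.1 part1)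
    (Cfsg.Agent.Lib.Helper1Fitting.le_pCore hLn hLp)

end Cfsg.Agent.S1465
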