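import Cfsg.Statements.S1467

set_option autoImplicit false
open Cfsg

namespace Cfsg.Agent.S1467

theorem puigStep_anti {G : Type*} [Group G] {X Y : Subgroup G} (h : X ≤ Y) :
    Cfsg.puigStep Y ≤ Cfsg.puigStep X := by
  unfold Cfsg.puigStep
  apply sSup_le_sSup
  rintro A ⟨hA, hY⟩
  exact ⟨hA, h.trans hY⟩

theorem puigStep_bot {G : Type*} [Group G] : Cfsg.puigStep (⊥ : Subgroup G) = ⊤ := by
  rw [eq_top_iff]
  intro g _
  have : Subgroup.zpowers g ≤ Cfsg.puigStep (⊥ : Subgroup G) := by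
    unfold Cfsg.puigStep
    apply le_sSup
    refine ⟨?_, bot_le⟩
    infer_instance
  exact this (Subgroup.mem_zpowers g)

theorem seq_succ {G : Type*} [Group G] (n : ℕ) :
    Cfsg.puigSeq G (n + 1) = Cfsg.puigStep (Cfsg.puigSeq G n) := rfl

/-- even terms are below all later terms, odd terms are above all later terms -/
theorem key {G : Type*} [Group G] (n : ℕ) :
    (∀ j, Cfsg.puigSeq G (2 * n) ≤ Cfsg.puigSeq G (2 * n + j)) ∧
    (∀ j, Cfsg.puigSeq G (2 * n + 1 + j) ≤ Cfsg.puigSeq G (2 * n + 1)) := by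
  induction n with
  | zero =>
    refine ⟨fun j => ?_, fun j => ?_⟩
    · show (⊥ : Subgroup G) ≤ _
      exact bot_le
    · have : Cfsg.puigSeq G (2 * 0 + 1) = ⊤ := by
        show Cfsg.puigStep (⊥ : Subgroup G) = ⊤
        exact puigStep_bot
      rw [this]; exact le_top
  | succ n ih =>
    have h1 : ∀ j, Cfsg.puigSeq G (2 * (n + 1)) ≤ Cfsg.puigSeq G (2 * (n + 1) + j) := by
      intro j
      have := puigStep_anti (ih.2 j)
      have e1 : 2 * (n + 1) = (2 * n + 1) + 1 := by ring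
      have e2 : 2 * (n + 1) + j = (2 * n + 1 + j) + 1 := by ring
      rw [e2, e1, seq_succ, seq_succ]
      exact this
    refine ⟨h1, fun j => ?_⟩
    have := puigStep_anti (h1 j)
    have e2 : 2 * (n + 1) + 1 + j = (2 * (n + 1) + j) + 1 := by ring
    rw [e2, seq_succ, seq_succ]
    exact this

theorem even_mono {G : Type*} [Group G] : Monotone (fun n => Cfsg.puigSeq G (2 * n)) := by
  intro a b hab
  obtain ⟨k, rfl⟩ := Nat.exists_eq_add_of_le hab
  have := (key (G := G) a).1 (2 * k)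
  have e : 2 * (a + k) = 2 * a + 2 * k := by ring
  show Cfsg.puigSeq G (2 * a) ≤ Cfsg.puigSeq G (2 * (a + k))
  rw [e]; exact this

theorem odd_anti {G : Type*} [Group G] : Antitone (fun n => Cfsg.puigSeq G (2 * n + 1)) := by
  intro a b hab
  obtain ⟨k, rfl⟩ := Nat.exists_eq_add_of_le hab
  have := (key (G := G) a).2 (2 * k)
  have e : 2 * (a + k) + 1 = 2 * a + 1 + 2 * k := by ring
  show Cfsg.puigSeq G (2 * (a + k) + 1) ≤ Cfsg.puigSeq G (2 * a + 1)
  rw [e]; exact this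

theorem even_le_odd {G : Type*} [Group G] (n m : ℕ) :
    Cfsg.puigSeq G (2 * n) ≤ Cfsg.puigSeq G (2 * m + 1) := by
  rcases le_or_gt (2 * n) (2 * m + 1) with h | h
  · obtain ⟨k, hk⟩ := Nat.exists_eq_add_of_le h
    rw [hk]; exact (key n).1 k
  · obtain ⟨k, hk⟩ := Nat.exists_eq_add_of_le h.le
    rw [hk]; exact (key m).2 k

theorem stab {G : Type*} [Group G] [Finite G] :
    ∃ k : ℕ, ∀ n : ℕ, k ≤ n → Cfsg.puigSeq G (2 * n) = Cfsg.puigLower G ∧
      Cfsg.puigSeq G (2 * n + 1) = Cfsg.puigSubgroup G := by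
  obtain ⟨k, hk⟩ := WellFoundedGT.monotone_chain_condition
    (⟨fun n => Cfsg.puigSeq G (2 * n), even_mono⟩ : ℕ →o Subgroup G)
  have hk' : ∀ n, k ≤ n → Cfsg.puigSeq G (2 * k) = Cfsg.puigSeq G (2 * n) := hk
  have hodd : ∀ n, k ≤ n → Cfsg.puigSeq G (2 * k + 1) = Cfsg.puigSeq G (2 * n + 1) := by
    intro n hn
    rw [seq_succ, seq_succ, hk' n hn]
  have hL : Cfsg.puigLower G = Cfsg.puigSeq G (2 * k) := by
    unfold Cfsg.puigLower
    apply le_antisymm
    · apply iSup_le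
      intro n
      rcases le_total n k with h | h
      · exact even_mono h
      · exact (hk' n h).ge
    · exact le_iSup (fun n => Cfsg.puigSeq G (2 * n)) k
  have hU : Cfsg.puigSubgroup G = Cfsg.puigSeq G (2 * k + 1) := by
    unfold Cfsg.puigSubgroup
    apply le_antisymm
    · exact iInf_le (fun n => Cfsg.puigSeq G (2 * n + 1)) k
    · apply le_iInf
      intro n
      rcases le_total n k with h | h
      · exact odd_anti h
      · exact (hodd n h).le
  refine ⟨k, fun n hn => ⟨?_, ?_⟩⟩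
  · rw [hL, hk' n hn]
  · rw [hU, hodd n hn]

/-- Let G be a finite group with Puig series L_n(G). Then L_0 = 1, L_1 = G; L_{2n} ≤ L_{2n+2} ≤ L_{2m+3} ≤ L_{2m+1} for all n, m; there is k with L_{2n}(G) = L_*(G) and L_{2n+1}(G) = L(G) for all n ≥ k; L_*(G) ≤ L(G); and applying one Puig step to L_*(G) gives L(G) and to L(G) gives L_*(G). -/
theorem result {G : Type*} [Group G] [Finite G] :
    Cfsg.puigSeq G 0 = ⊥ ∧ Cfsg.puigSeq G 1 = ⊤ ∧
      (∀ n m : ℕ, Cfsg.puigSeq G (2 * n) ≤ Cfsg.puigSeq G (2 * n + 2) ∧ Cfsg.puigSeq G (2 * n) ≤ Cfsg.puigSeq G (2 * m + 1) ∧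
        Cfsg.puigSeq G (2 * m + 3) ≤ Cfsg.puigSeq G (2 * m + 1)) ∧
      (∃ k : ℕ, ∀ n : ℕ, k ≤ n → Cfsg.puigSeq G (2 * n) = Cfsg.puigLower G ∧ Cfsg.puigSeq G (2 * n + 1) = Cfsg.puigSubgroup G) ∧
      Cfsg.puigLower G ≤ Cfsg.puigSubgroup G ∧
      Cfsg.puigStep (Cfsg.puigLower G) = Cfsg.puigSubgroup G ∧ Cfsg.puigStep (Cfsg.puigSubgroup G) = Cfsg.puigLower G := by
  obtain ⟨k, hk⟩ := stab (G := G)
  refine ⟨rfl, puigStep_bot, fun n m => ⟨(key n).1 2, even_le_odd n m, (key m).2 2⟩, ⟨k, hk⟩, ?_, ?_, ?_⟩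
  · rw [← (hk k le_rfl).1, ← (hk k le_rfl).2]
    exact even_le_odd k k
  · rw [← (hk k le_rfl).1, ← (hk k le_rfl).2]
    rfl
  · rw [← (hk k le_rfl).2, ← (hk (k + 1) (Nat.le_succ k)).1]
    rfl

end Cfsg.Agent.S1467
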