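import Cfsg.Statements.S2680
import Cfsg.Agent.Lib.Helper42CentSp

set_option autoImplicit false
open Cfsg

namespace Cfsg.Agent.S2680

open Cfsg.Agent.Lib.Helper17Symp Cfsg.Agent.Lib.Helper42Inv Cfsg.Agent.Lib.Helper42SpInv
  Cfsg.Agent.Lib.Helper42Cent Cfsg.Agent.Lib.Helper42CentSp Cfsg.Agent.Lib.Helper42ON in
/-- Centraliser order of an involution t of Sp_2m(q), q even, with s = rank(t − 1) odd (type b_s): |C(t)| = q^(2ms − (3s² − s)/2) · |Sp_(s−1)(q)| · |Sp_(2m−2s)(q)|, where |Sp_2k(q)| = q^(k²) Π_(i=1)^k (q^(2i) − 1). -/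
theorem result {F : Type*} [Field F] [Fintype F] [CharP F 2] {q : ℕ} (hF : Fintype.card F = q) {m s : ℕ} (t : Matrix.symplecticGroup (Fin m) F) (ht : t ^ 2 = 1) (hs : ((t : Matrix (Fin m ⊕ Fin m) (Fin m ⊕ Fin m) F) - 1).rank = s) (hodd : Odd s) : Nat.card ↥(Subgroup.centralizer ({t} : Set ↥(Matrix.symplecticGroup (Fin m) F))) = q ^ (2 * m * s - (3 * s ^ 2 - s) / 2) * ((q : ℕ) ^ (((s - 1) / 2) ^ 2) * ∏ i : Fin ((s - 1) / 2), (q ^ (2 * ((i : ℕ) + 1)) - 1)) * ((q : ℕ) ^ ((m - s) ^ 2) * ∏ i : Fin (m - s), (q ^ (2 * ((i : ℕ) + 1)) - 1)) := by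
  classical
  have ht' : t * t = 1 := by rw [← pow_two]; exact ht
  have hrank : Module.finrank F (LinearMap.range (NN t)) = s := by rw [← rank_eq]; exact hs
  have hsm : s ≤ m := by rw [← hrank]; exact rank_le t ht'
  have hna : ∃ v, sB m v (NN t v) ≠ 0 := by
    by_contra hh
    push Not at hh
    have := even_rank_of_alt t ht' hh
    rw [hrank] at this
    exact (Nat.not_even_iff_odd.mpr hodd) this
  obtain ⟨l, u, h⟩ := exists_dat_O (sB m) sB_nondeg sB_alt (NN t) (NN_sa t ht') hna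
  have hl : Fintype.card (Fin l) = s := by rw [← h.finrank_range (fun i => rfl), hrank]
  have hl' : l = s := by simpa using hl
  subst hl'
  rw [card_cent_formula hF t ht' id (fun i => rfl) u h l hl, card_matrix_id, hF, exp_eq m l hsm]
  obtain ⟨k, rfl⟩ := hodd
  have e1 : (2 * k + 1 - 1) / 2 = k := by omega
  rw [aa_odd, e1, Finset.prod_range, Finset.prod_range]
  ring

end Cfsg.Agent.S2680
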