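import Cfsg.Statements.S2681
import Cfsg.Agent.Lib.Helper42CentSp

set_option autoImplicit false
open Cfsg

namespace Cfsg.Agent.S2681

open Cfsg.Agent.Lib.Helper17Symp Cfsg.Agent.Lib.Helper42Inv Cfsg.Agent.Lib.Helper42SpInv
  Cfsg.Agent.Lib.Helper42Cent Cfsg.Agent.Lib.Helper42CentSp Cfsg.Agent.Lib.Helper42ON in
/-- Centraliser order of an involution t of Sp_2m(q), q even, with s = rank(t − 1) even and f(v, tv) = 0 for every v, f the symplectic form (type a_s): |C(t)| = q^(2ms − (3s² − s)/2) · |Sp_s(q)| · |Sp_(2m−2s)(q)|. -/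
theorem result {F : Type*} [Field F] [Fintype F] [CharP F 2] {q : ℕ} (hF : Fintype.card F = q) {m s : ℕ} (t : Matrix.symplecticGroup (Fin m) F) (ht : t ^ 2 = 1) (ht1 : t ≠ 1) (hs : ((t : Matrix (Fin m ⊕ Fin m) (Fin m ⊕ Fin m) F) - 1).rank = s) (heven : Even s) (halt : ∀ v : Fin m ⊕ Fin m → F, Cfsg.sympForm m F v ((t : Matrix (Fin m ⊕ Fin m) (Fin m ⊕ Fin m) F).mulVec v) = 0) : Nat.card ↥(Subgroup.centralizer ({t} : Set ↥(Matrix.symplecticGroup (Fin m) F))) = q ^ (2 * m * s - (3 * s ^ 2 - s) / 2) * ((q : ℕ) ^ ((s / 2) ^ 2) * ∏ i : Fin (s / 2), (q ^ (2 * ((i : ℕ) + 1)) - 1)) * ((q : ℕ) ^ ((m - s) ^ 2) * ∏ i : Fin (m - s), (q ^ (2 * ((i : ℕ) + 1)) - 1)) := by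
  classical
  have ht' : t * t = 1 := by rw [← pow_two]; exact ht
  have hrank : Module.finrank F (LinearMap.range (NN t)) = s := by rw [← rank_eq]; exact hs
  have hsm : s ≤ m := by rw [← hrank]; exact rank_le t ht'
  have hA : ∀ v, sB m v (NN t v) = 0 := by
    intro v
    rw [gamma_eq]; exact halt v
  obtain ⟨k, u, h⟩ := exists_dat_A (sB m) sB_nondeg (NN t) (NN_sa t ht') hA
  have hl : Fintype.card (Fin k ⊕ Fin k) = s := by
    rw [← h.finrank_range (fun i => Sum.swap_swap i), hrank]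
  have hl' : s = 2 * k := by
    rw [← hl]; simp; ring
  rw [card_cent_formula hF t ht' Sum.swap (fun i => Sum.swap_swap i) u h s hl, card_matrix_swap,
    Cfsg.Agent.S0245.result hF k, exp_eq m s hsm]
  have e1 : s / 2 = k := by omega
  rw [e1, Finset.prod_range, Finset.prod_range]
  ring

end Cfsg.Agent.S2681
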