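import Cfsg.Statements.S2682
import Cfsg.Agent.Lib.Helper42CentSp

set_option autoImplicit false
open Cfsg

namespace Cfsg.Agent.S2682

open Cfsg.Agent.Lib.Helper17Symp Cfsg.Agent.Lib.Helper42Inv Cfsg.Agent.Lib.Helper42SpInv
  Cfsg.Agent.Lib.Helper42Cent Cfsg.Agent.Lib.Helper42CentSp Cfsg.Agent.Lib.Helper42ON in
/-- Centraliser order of an involution t of Sp_2m(q), q even, with s = rank(t − 1) even and f(v, tv) ≠ 0 for some v, f the symplectic form (type c_s): |C(t)| = q^(2ms − (3s² − 3s)/2 − 1) · |Sp_(s−2)(q)| · |Sp_(2m−2s)(q)|. -/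
theorem result {F : Type*} [Field F] [Fintype F] [CharP F 2] {q : ℕ} (hF : Fintype.card F = q) {m s : ℕ} (t : Matrix.symplecticGroup (Fin m) F) (ht : t ^ 2 = 1) (hs : ((t : Matrix (Fin m ⊕ Fin m) (Fin m ⊕ Fin m) F) - 1).rank = s) (heven : Even s) (hna : ∃ v : Fin m ⊕ Fin m → F, Cfsg.sympForm m F v ((t : Matrix (Fin m ⊕ Fin m) (Fin m ⊕ Fin m) F).mulVec v) ≠ 0) : Nat.card ↥(Subgroup.centralizer ({t} : Set ↥(Matrix.symplecticGroup (Fin m) F))) = q ^ (2 * m * s - (3 * s ^ 2 - 3 * s) / 2 - 1) * ((q : ℕ) ^ (((s - 2) / 2) ^ 2) * ∏ i : Fin ((s - 2) / 2), (q ^ (2 * ((i : ℕ) + 1)) - 1)) * ((q : ℕ) ^ ((m - s) ^ 2) * ∏ i : Fin (m - s), (q ^ (2 * ((i : ℕ) + 1)) - 1)) := by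
  classical
  have ht' : t * t = 1 := by rw [← pow_two]; exact ht
  have hrank : Module.finrank F (LinearMap.range (NN t)) = s := by rw [← rank_eq]; exact hs
  have hsm : s ≤ m := by rw [← hrank]; exact rank_le t ht'
  have hna' : ∃ v, sB m v (NN t v) ≠ 0 := by
    obtain ⟨v, hv⟩ := hna
    exact ⟨v, by rw [gamma_eq]; exact hv⟩
  have hs0 : s ≠ 0 := by
    intro h0
    rw [h0, Submodule.finrank_eq_zero, LinearMap.range_eq_bot] at hrank
    obtain ⟨v, hv⟩ := hna'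
    apply hv
    rw [hrank]
    simp
  obtain ⟨l, u, h⟩ := exists_dat_O (sB m) sB_nondeg sB_alt (NN t) (NN_sa t ht') hna'
  have hl : Fintype.card (Fin l) = s := by rw [← h.finrank_range (fun i => rfl), hrank]
  have hl' : l = s := by simpa using hl
  subst hl'
  rw [card_cent_formula hF t ht' id (fun i => rfl) u h l hl, card_matrix_id, hF,
    ← exp_eq' m l hsm (by omega)]
  obtain ⟨k, hk⟩ : ∃ k, l = 2 * k + 2 := by
    obtain ⟨r, hr⟩ := heven
    exact ⟨r - 1, by omega⟩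
  subst hk
  have e1 : (2 * k + 2 - 2) / 2 = k := by omega
  have e2 : 2 * k + 2 - 1 = 2 * k + 1 := by omega
  rw [aa_even, e1, e2, Finset.prod_range, Finset.prod_range, pow_add _ _ (2 * k + 1)]
  ring

end Cfsg.Agent.S2682
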