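import Cfsg.Statements.S2589
import Cfsg.Agent.Lib.Helper48Good
import Cfsg.Agent.Lib.Helper48AltCongr
import Cfsg.Agent.Lib.Helper48SpRegConj

set_option autoImplicit false
open Cfsg

namespace Cfsg.Agent.S2589

open Matrix Cfsg.Agent.Lib.Helper48SpReg Cfsg.Agent.Lib.Helper48SpRegConj
  Cfsg.Agent.Lib.Helper48Good Cfsg.Agent.Lib.Helper48AltCongr

section
variable {F : Type*} [Field F] {m : ℕ}

theorem J_alt (y : Fin m ⊕ Fin m → F) : y ⬝ᵥ (Matrix.J (Fin m) F).mulVec y = 0 := by
  have h : (Matrix.J (Fin m) F).mulVec y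
      = Sum.elim (fun i => - y (Sum.inr i)) (fun i => y (Sum.inl i)) := by
    rw [Matrix.J]
    ext (i | i)
    · simp [Matrix.fromBlocks_mulVec, Matrix.neg_mulVec]
    · simp [Matrix.fromBlocks_mulVec]
  rw [h, dotProduct, Fintype.sum_sum_type]
  simp only [Sum.elim_inl, Sum.elim_inr, mul_neg, Finset.sum_neg_distrib]
  rw [neg_add_eq_zero]
  exact Finset.sum_congr rfl fun i _ => mul_comm _ _

theorem alt_conj (X : Matrix (Fin m ⊕ Fin m) (Fin m ⊕ Fin m) F) (y : Fin m ⊕ Fin m → F) :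
    y ⬝ᵥ (Xᵀ * Matrix.J (Fin m) F * X).mulVec y = 0 := by
  rw [← Matrix.mulVec_mulVec, ← Matrix.mulVec_mulVec, Matrix.dotProduct_mulVec,
    Matrix.vecMul_transpose]
  exact J_alt _

theorem J_mul_st (X : Matrix (Fin m ⊕ Fin m) (Fin m ⊕ Fin m) F) :
    Matrix.J (Fin m) F * st X = Xᵀ * Matrix.J (Fin m) F := by
  rw [st_apply, ← Matrix.mul_assoc, ← Matrix.mul_assoc, Matrix.mul_neg, Matrix.J_squared, neg_neg,
    Matrix.one_mul]

theorem neg_J_mul_J : -Matrix.J (Fin m) F * Matrix.J (Fin m) F = 1 := by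
  rw [Matrix.neg_mul, Matrix.J_squared, neg_neg]

/-- the `±1`-eigenspaces: uniqueness of alternating forms -/
theorem bad_part (P H H' e : Matrix (Fin m ⊕ Fin m) (Fin m ⊕ Fin m) F) (hH : H = st P * P)
    (hHH' : H * H' = 1) (hee : e * e = e) (hste : st e = e) (heH : e * H = H * e) :
    ∃ Z, e * Z = Z ∧ Z * e = Z ∧ st Z * Z = H * e := by
  have h1 : Matrix.J (Fin m) F * e = eᵀ * Matrix.J (Fin m) F * e := by
    rw [← J_mul_st, hste, Matrix.mul_assoc, hee]
  have h2 : Matrix.J (Fin m) F * e * H = (P * e)ᵀ * Matrix.J (Fin m) F * (P * e) := by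
    rw [← J_mul_st, st_mul, hste, Matrix.mul_assoc, Matrix.mul_assoc]
    congr 1
    calc e * H = e * (e * H) := by rw [← Matrix.mul_assoc, hee]
      _ = e * (H * e) := by rw [heH]
      _ = e * st P * (P * e) := by rw [hH]; simp only [Matrix.mul_assoc]
  obtain ⟨Q, hQ⟩ := matrix_congr (Matrix.J (Fin m) F * e) H H' hHH'
    (fun x => by rw [h1]; exact alt_conj e x) (fun x => by rw [h2]; exact alt_conj _ x)
  have h3 : st Q * e * Q = e * H := by
    rw [st_apply]
    calc -Matrix.J (Fin m) F * Qᵀ * Matrix.J (Fin m) F * e * Q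
        = -Matrix.J (Fin m) F * (Qᵀ * (Matrix.J (Fin m) F * e) * Q) := by
          simp only [Matrix.mul_assoc]
      _ = (-Matrix.J (Fin m) F * Matrix.J (Fin m) F) * (e * H) := by
          rw [hQ]; simp only [Matrix.mul_assoc]
      _ = e * H := by rw [neg_J_mul_J, Matrix.one_mul]
  refine ⟨e * Q * e, ?_, ?_, ?_⟩
  · rw [← Matrix.mul_assoc, ← Matrix.mul_assoc, hee]
  · rw [Matrix.mul_assoc, hee]
  · rw [st_mul, st_mul, hste]
    calc e * (st Q * e) * (e * Q * e) = e * (st Q * (e * e) * Q) * e := by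
          simp only [Matrix.mul_assoc]
      _ = e * (e * H) * e := by rw [hee, h3]
      _ = H * e := by rw [← Matrix.mul_assoc, hee, heH, Matrix.mul_assoc, hee]

/-- semisimple elements of `Sp` conjugate under an invertible matrix are conjugate in `Sp` -/
theorem conj_of_semiconj [Finite F] (k : ℕ) (hk : (k : F) ≠ 0)
    (A B : Matrix.symplecticGroup (Fin m) F) (hAk : A ^ k = 1)
    (X X' : Matrix (Fin m ⊕ Fin m) (Fin m ⊕ Fin m) F) (hXX' : X * X' = 1) (hX'X : X' * X = 1)
    (hconj : X * A.1 = B.1 * X) : IsConj A B := by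
  set a : Matrix (Fin m ⊕ Fin m) (Fin m ⊕ Fin m) F := A.1 with ha
  set a' : Matrix (Fin m ⊕ Fin m) (Fin m ⊕ Fin m) F := (A⁻¹).1 with ha'
  set b : Matrix (Fin m ⊕ Fin m) (Fin m ⊕ Fin m) F := B.1 with hb
  have haa' : a * a' = 1 := coe_mul_inv A
  have ha'a : a' * a = 1 := coe_inv_mul A
  have hsta : st a = a' := st_coe A
  have hstb : st b * b = 1 := by rw [hb, st_coe]; exact coe_inv_mul B
  have hak : a ^ k = 1 := by
    have := congrArg Subtype.val hAk
    simpa using this
  set H := st X * X with hH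
  set H' := X' * st X' with hH'
  have hHH' : H * H' = 1 := by
    calc st X * X * (X' * st X') = st X * (X * X') * st X' := by simp only [Matrix.mul_assoc]
      _ = 1 := by rw [hXX', Matrix.mul_one, ← st_mul, hX'X, st_one]
  have hH'H : H' * H = 1 := by
    calc X' * st X' * (st X * X) = X' * (st X' * st X) * X := by simp only [Matrix.mul_assoc]
      _ = 1 := by rw [← st_mul, hXX', st_one, Matrix.mul_one, hX'X]
  have hstH : st H = H := by rw [hH, st_mul, st_st]
  have h1 : a * st X = st X * b := by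
    have h2 := congrArg st hconj
    rw [st_mul, st_mul] at h2
    calc a * st X = a * (st X * (st b * b)) := by rw [hstb, Matrix.mul_one]
      _ = a * (st X * st b) * b := by simp only [Matrix.mul_assoc]
      _ = a * (st a * st X) * b := by rw [h2]
      _ = (a * st a) * st X * b := by simp only [Matrix.mul_assoc]
      _ = st X * b := by rw [hsta, haa', Matrix.one_mul]
  have hc : a * H = H * a := by
    rw [hH, ← Matrix.mul_assoc, h1, Matrix.mul_assoc, ← hconj, Matrix.mul_assoc]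
  have _ : Finite (Matrix (Fin m ⊕ Fin m) (Fin m ⊕ Fin m) F) :=
    inferInstanceAs (Finite (Fin m ⊕ Fin m → Fin m ⊕ Fin m → F))
  obtain ⟨Z, hZ, hZa⟩ := exists_sqrt (F := F) (st (F := F) (m := m)).toAddMonoidHom
    st_mul st_one st_st (fun c x => map_smul st c x) k hk a a' H H' hak haa' ha'a hsta hstH
    hHH' hH'H hc (fun e hee hste heH => bad_part X H H' e hH hHH' hee hste heH)
  change st Z * Z = H at hZ
  set Z' := H' * st Z with hZ'
  have hZ'Z : Z' * Z = 1 := by rw [hZ', Matrix.mul_assoc, hZ, hH'H]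
  have hZZ' : Z * Z' = 1 := mul_eq_one_comm.1 hZ'Z
  have hy : st (X * Z') * (X * Z') = 1 := by
    rw [st_mul]
    calc st Z' * st X * (X * Z') = st Z' * (st X * X) * Z' := by simp only [Matrix.mul_assoc]
      _ = (st Z' * st Z) * (Z * Z') := by rw [← hH, ← hZ]; simp only [Matrix.mul_assoc]
      _ = 1 := by rw [← st_mul, hZZ', st_one, Matrix.mul_one]
  have hZ'a : a * Z' = Z' * a :=
    (commute_inv_right a Z Z' hZZ' hZ'Z hZa).eq
  rw [isConj_iff]
  refine ⟨⟨X * Z', (mem_iff_st _).2 hy⟩, ?_⟩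
  rw [mul_inv_eq_iff_eq_mul]
  apply Subtype.ext
  change X * Z' * a = b * (X * Z')
  calc X * Z' * a = X * (a * Z') := by rw [hZ'a, Matrix.mul_assoc]
    _ = b * (X * Z') := by rw [← Matrix.mul_assoc, hconj, Matrix.mul_assoc]

end

/-- Two semisimple elements of the finite symplectic group Sp_2m(F) (elements of order prime to the characteristic) are conjugate in Sp_2m(F) if and only if they are conjugate in GL_2m(F). -/
theorem result {F : Type*} [Field F] [Fintype F] {p : ℕ} [Fact p.Prime] [CharP F p] {m : ℕ} (A B : Matrix.symplecticGroup (Fin m) F) (hA : (orderOf A).Coprime p) : IsConj A B ↔ IsConj (A : Matrix (Fin m ⊕ Fin m) (Fin m ⊕ Fin m) F) (B : Matrix (Fin m ⊕ Fin m) (Fin m ⊕ Fin m) F) := by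
  constructor
  · intro h
    exact (Matrix.symplecticGroup (Fin m) F).subtype.map_isConj h
  · rintro ⟨c, hc⟩
    have hk : ((orderOf A : ℕ) : F) ≠ 0 := by
      intro h0
      rw [CharP.cast_eq_zero_iff F p] at h0
      have h1 : p ∣ 1 := by
        rw [← hA]
        exact Nat.dvd_gcd h0 dvd_rfl
      exact (Fact.out : p.Prime).one_lt.ne' (Nat.dvd_one.1 h1)
    exact conj_of_semiconj (orderOf A) hk A B (pow_orderOf_eq_one A) c.1 c.2 c.3 c.4 hc

end Cfsg.Agent.S2589
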