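import Cfsg.Statements.S0756
import Cfsg.Agent.Lib.Helper17SymmForm

set_option autoImplicit false
open Cfsg Cfsg.Agent.Lib.Helper17SymmForm

namespace Cfsg.Agent.S0756

/-- Classification of symmetric bilinear forms over finite fields of odd characteristic: if B is non-degenerate symmetric on V of dimension n + 1 and α is a fixed non-square of F, there is an orthogonal basis b_0, ..., b_n with B(b_i, b_i) = 1 for i < n and B(b_n, b_n) ∈ {1, α}. -/
theorem result {F V : Type*} [Field F] [Finite F] [AddCommGroup V] [Module F V] [FiniteDimensional F V] (h2 : (2 : F) ≠ 0) (B : LinearMap.BilinForm F V) (hS : B.IsSymm) (hB : B.Nondegenerate) {n : ℕ} (hn : Module.finrank F V = n + 1) (α : F) (hα : ¬ IsSquare α) : ∃ b : Module.Basis (Fin (n + 1)) F V, (∀ i j, i ≠ j → B (b i) (b j) = 0) ∧ (∀ i, i ≠ Fin.last n → B (b i) (b i) = 1) ∧ (B (b (Fin.last n)) (b (Fin.last n)) = 1 ∨ B (b (Fin.last n)) (b (Fin.last n)) = α) := by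
  have hP : ∀ k, k ≤ n → ∃ e : Fin k → V, (∀ i j, i ≠ j → B (e i) (e j) = 0) ∧
      ∀ i, B (e i) (e i) = 1 := by
    intro k
    induction k with
    | zero => intro _; exact ⟨Fin.elim0, fun i => i.elim0, fun i => i.elim0⟩
    | succ k ih =>
      intro hk
      obtain ⟨e, he1, he2⟩ := ih (by omega)
      have hOG : OG B e := ⟨he1, fun i => by rw [he2 i]; exact one_ne_zero⟩
      obtain ⟨v, hv, hvv⟩ := exists_perp_norm h2 hS hB hOG (by omega) 1 one_ne_zero
      have hOG' := hOG.snoc hS v hv (by rw [hvv]; exact one_ne_zero)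
      refine ⟨Fin.snoc e v, hOG'.1, ?_⟩
      intro i
      refine Fin.lastCases ?_ (fun i => ?_) i
      · simpa using hvv
      · simpa using he2 i
  obtain ⟨e, he1, he2⟩ := hP n le_rfl
  have hOG : OG B e := ⟨he1, fun i => by rw [he2 i]; exact one_ne_zero⟩
  obtain ⟨v, hv, hvv⟩ := hOG.exists_perp h2 hS hB (by omega)
  obtain ⟨v', hv', hvv'⟩ : ∃ v', (∀ i, B (e i) v' = 0) ∧ (B v' v' = 1 ∨ B v' v' = α) := by
    by_cases hsq : IsSquare (B v v)
    · obtain ⟨s, hs⟩ := hsq
      have hs0 : s ≠ 0 := by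
        rintro rfl
        simp at hs
        exact hvv hs
      refine ⟨s⁻¹ • v, fun i => by simp [hv], Or.inl ?_⟩
      simp only [map_smul, LinearMap.smul_apply, smul_eq_mul, hs]
      field_simp
    · obtain ⟨c, hc⟩ := isSquare_mul_of_not h2 α (B v v) hα hsq
      refine ⟨(c / B v v) • v, fun i => by simp [hv], Or.inr ?_⟩
      simp only [map_smul, LinearMap.smul_apply, smul_eq_mul]
      field_simp
      linear_combination -hc
  have hα0 : α ≠ 0 := by rintro rfl; exact hα ⟨0, by simp⟩
  have hne : B v' v' ≠ 0 := by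
    rcases hvv' with h | h <;> rw [h]
    · exact one_ne_zero
    · exact hα0
  have hOG' := hOG.snoc hS v' hv' hne
  let b : Module.Basis (Fin (n + 1)) F V := Module.Basis.mk hOG'.linearIndependent
    (le_of_eq (hOG'.linearIndependent.span_eq_top_of_card_eq_finrank' (by simp [hn])).symm)
  have hb : ∀ i, b i = (Fin.snoc e v' : Fin (n + 1) → V) i := by
    intro i; simp [b]
  refine ⟨b, ?_, ?_, ?_⟩
  · intro i j hij
    rw [hb, hb]
    exact hOG'.1 i j hij
  · intro i
    rw [hb]
    refine Fin.lastCases ?_ (fun i => ?_) i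
    · intro h; exact absurd rfl h
    · intro _; simpa using he2 i
  · rw [hb]
    simpa using hvv'

end Cfsg.Agent.S0756
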