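import Cfsg.Statements.S2287
import Cfsg.Agent.Lib.Helper43P3I

set_option autoImplicit false
open Cfsg

namespace Cfsg.Agent.S2287

open Cfsg.Agent.Lib.Helper43Pres Cfsg.Agent.Lib.Helper43P3 Matrix

theorem pres_iso_inj {α : Type} [DecidableEq α] {G : Type*} [Group G]
    (Lw : List (FreeGroup α))
    (f : FreeGroup α →* G) (hf : ∀ r ∈ Lw, f r = 1) (hsurj : Function.Surjective f)
    (hinj : ∀ (Γ : Type) [Group Γ] (π₀ : FreeGroup α →* Γ), Function.Surjective π₀ →
      (∀ r ∈ Lw, π₀ r = 1) → ∀ F' : Γ →* G, (∀ w, F' (π₀ w) = f w) → Function.Injective F') :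
    ∃ rels : Finset (FreeGroup α), rels.card ≤ Lw.length ∧
      Nonempty (PresentedGroup (↑rels : Set (FreeGroup α)) ≃* G) := by
  classical
  refine ⟨Lw.toFinset, Lw.toFinset_card_le, ?_⟩
  set rels : Set (FreeGroup α) := ↑Lw.toFinset with hrels
  have hmem : ∀ r, r ∈ rels ↔ r ∈ Lw := by intro r; simp [hrels]
  have hker : Subgroup.normalClosure rels ≤ f.ker := by
    apply Subgroup.normalClosure_le_normal
    intro r hr
    exact hf r ((hmem r).mp hr)
  let F' : PresentedGroup rels →* G := QuotientGroup.lift (Subgroup.normalClosure rels) f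
    (fun x hx => hker hx)
  have hF' : Function.Surjective F' := by
    intro g
    obtain ⟨w, rfl⟩ := hsurj g
    exact ⟨PresentedGroup.mk rels w, rfl⟩
  have hi := hinj (PresentedGroup rels) (PresentedGroup.mk rels)
    (PresentedGroup.mk_surjective rels)
    (fun r hr => PresentedGroup.one_of_mem ((hmem r).mpr hr)) F' (fun w => rfl)
  exact ⟨MulEquiv.ofBijective F' ⟨hi, hF'⟩⟩

local notation "X0" => (FreeGroup.of 0 : FreeGroup (Fin 4))
local notation "X1" => (FreeGroup.of 1 : FreeGroup (Fin 4))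
local notation "X2" => (FreeGroup.of 2 : FreeGroup (Fin 4))
local notation "X3" => (FreeGroup.of 3 : FreeGroup (Fin 4))

theorem closure_of_surj4 {Γ : Type*} [Group Γ] (π : FreeGroup (Fin 4) →* Γ)
    (hπ : Function.Surjective π) :
    Subgroup.closure ({π X0, π X1, π X2, π X3} : Set Γ) = ⊤ := by
  have h1 : Subgroup.closure (Set.range (FreeGroup.of : Fin 4 → FreeGroup (Fin 4))) = ⊤ :=
    FreeGroup.closure_range_of (Fin 4)
  have h2 := congrArg (Subgroup.map π) h1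
  rw [MonoidHom.map_closure, Subgroup.map_top_of_surjective π hπ] at h2
  rw [← h2]
  congr 1
  ext x
  simp only [Set.mem_insert_iff, Set.mem_singleton_iff, Set.mem_image, Set.mem_range,
    exists_exists_eq_and]
  constructor
  · rintro (rfl | rfl | rfl | rfl)
    exacts [⟨0, rfl⟩, ⟨1, rfl⟩, ⟨2, rfl⟩, ⟨3, rfl⟩]
  · rintro ⟨i, rfl⟩
    fin_cases i
    · left; rfl
    · right; left; rfl
    · right; right; left; rfl
    · right; right; right; rfl

theorem lift_surj4 {G : Type*} [Group G] (u h t c : G)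
    (hgen : Subgroup.closure ({u, h, t, c} : Set G) = ⊤) :
    Function.Surjective (FreeGroup.lift ![u, h, t, c]) := by
  rw [← MonoidHom.range_eq_top, FreeGroup.range_lift_eq_closure, ← hgen]
  congr 1
  ext x
  simp only [Set.mem_range, Set.mem_insert_iff, Set.mem_singleton_iff]
  constructor
  · rintro ⟨i, rfl⟩
    fin_cases i
    · left; rfl
    · right; left; rfl
    · right; right; left; rfl
    · right; right; right; rfl
  · rintro (rfl | rfl | rfl | rfl)
    exacts [⟨0, rfl⟩, ⟨1, rfl⟩, ⟨2, rfl⟩, ⟨3, rfl⟩]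

theorem rC_gen {Γ : Type*} [Group Γ] {u g : Γ} {k : ℕ}
    (r2 : u * (g * u * g⁻¹) * (g * u * g⁻¹ * u)⁻¹ = 1)
    (r3 : g ^ k * u * (g ^ k)⁻¹ * (u ^ 1 * (g * u * g⁻¹) ^ 1)⁻¹ = 1) (j : ℕ) :
    Commute u (g ^ j * u * (g ^ j)⁻¹) := by
  rw [mul_inv_eq_one] at r2 r3
  rw [pow_one, pow_one] at r3
  have h1 : CC u g (1 : ℤ) := by
    unfold CC; rw [zpow_one]; exact r2
  have h2 := CC_row (u := u) (h := g) (k := (k : ℤ)) (l := (1 : ℤ))
    (by rw [zpow_natCast, zpow_one]; exact r3) h1 j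
  unfold CC at h2
  rwa [mul_one, zpow_natCast] at h2

theorem rC_exc {Γ : Type*} [Group Γ] {u g : Γ} {m : ℕ}
    (r3 : g ^ 1 * u * (g ^ 1)⁻¹ * (u ^ m * (g * u * g⁻¹) ^ 0)⁻¹ = 1) (j : ℕ) :
    Commute u (g ^ j * u * (g ^ j)⁻¹) := by
  rw [mul_inv_eq_one, pow_zero, mul_one, pow_one] at r3
  have key : ∀ j : ℕ, ∃ n : ℕ, g ^ j * u * (g ^ j)⁻¹ = u ^ n := by
    intro j
    induction j with
    | zero => exact ⟨1, by simp⟩
    | succ j ih =>
      obtain ⟨n, hn⟩ := ih
      refine ⟨m * n, ?_⟩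
      have : g ^ (j + 1) * u * (g ^ (j + 1))⁻¹ = g * (g ^ j * u * (g ^ j)⁻¹) * g⁻¹ := by
        rw [pow_succ']; group
      rw [this, hn, ← conj_pow, r3, ← pow_mul]
  obtain ⟨n, hn⟩ := key j
  rw [hn]
  exact (Commute.refl u).pow_right n

variable {F : Type*} [Field F] [Fintype F]

theorem assemble (p : ℕ) [Fact p.Prime] [CharP F p] [Algebra (ZMod p) F] {ζ : F} (hζ : ζ ≠ 0)
    (hgenζ : ∀ b : F, b ≠ 0 → ∃ j : ℕ, ζ ^ j = b) (ha : Algebra.adjoin (ZMod p) {ζ} = ⊤)
    {k c0 d0 : ℕ} (hk : ζ ^ k = (c0 : F) + (d0 : F) * ζ)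
    (rCh : ∀ (Γ : Type) [Group Γ] (u g : Γ),
      u * (g * u * g⁻¹) * (g * u * g⁻¹ * u)⁻¹ = 1 →
      g ^ k * u * (g ^ k)⁻¹ * (u ^ c0 * (g * u * g⁻¹) ^ d0)⁻¹ = 1 →
      ∀ j : ℕ, Commute u (g ^ j * u * (g ^ j)⁻¹)) :
    ∃ rels : Finset (FreeGroup (Fin 4)), rels.card ≤ 14 ∧
      Nonempty (PresentedGroup (↑rels : Set (FreeGroup (Fin 4))) ≃*
        Matrix.SpecialLinearGroup (Fin 3) F) := by
  obtain ⟨e, he⟩ := hgenζ (-1) (neg_ne_zero.mpr one_ne_zero)
  obtain ⟨Lm, hLm⟩ := exists_pL p (minpoly (ZMod p) ζ)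
  set z : Fˣ := Units.mk0 ζ hζ with hz
  have SM : S3 (M12 : F → _) (MD 1 z⁻¹) MT MC ζ e := sl3_S3 z e he
  obtain ⟨rels, h5, hiso⟩ := pres_iso_inj (G := Matrix.SpecialLinearGroup (Fin 3) F)
    (rels3 p k c0 d0 e Lm X0 X1 X2 X3) (FreeGroup.lift ![M12 (1 : F), MD 1 z⁻¹, MT, MC])
    (by
      rw [forall_map_one, rels3_map]
      simp only [FreeGroup.lift_apply_of, Matrix.cons_val_zero, Matrix.cons_val_one,
        Matrix.cons_val]
      exact rels3_of_S3 SM hk hLm)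
    (lift_surj4 _ _ _ _ (sl3_gen p z ha))
    (by
      intro Γ _ π₀ hπ hrel F' hF'
      rw [forall_map_one, rels3_map] at hrel
      have hrC : ∀ j : ℕ, Commute (π₀ X0) (π₀ X1 ^ j * π₀ X0 * (π₀ X1 ^ j)⁻¹) := by
        have hrel' := hrel
        simp only [rels3, List.mem_cons, List.not_mem_nil, or_false, forall_eq_or_imp, forall_eq]
          at hrel'
        exact rCh Γ _ _ hrel'.2.1 hrel'.2.2.1
      obtain ⟨φ, hφ1, S⟩ := S3_of_rels3 hζ he ha hLm hrel hrC
      have hΓ := closure_of_surj4 π₀ hπ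
      rw [← hφ1] at hΓ
      have f0 : F' (π₀ X0) = M12 1 := by rw [hF']; simp
      have f1 : F' (π₀ X1) = MD 1 z⁻¹ := by rw [hF']; simp
      have f2 : F' (π₀ X2) = MT := by rw [hF']; simp
      have f3 : F' (π₀ X3) = MC := by rw [hF']; simp
      refine S.injective hgenζ z rfl hΓ F' ?_ f1 f2 f3
      intro a
      obtain ⟨L, rfl⟩ := exists_evL p ha a
      have e1 := W_phi S.add S.hg 1 L
      have e2 := W_phi SM.add SM.hg 1 L
      rw [mul_one] at e1 e2
      rw [← e1, ← e2, map_W, hφ1, f0, f1])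
  exact ⟨rels, h5.trans (by simp [rels3]), hiso⟩

/-- For every finite field F other than the field with 9 elements, SL_3(F) has a presentation with 4 generators and at most 14 relations. -/
theorem result {F : Type*} [Field F] [Fintype F] (hq9 : Fintype.card F ≠ 9) : ∃ rels : Finset (FreeGroup (Fin 4)), rels.card ≤ 14 ∧ Nonempty (PresentedGroup (↑rels : Set (FreeGroup (Fin 4))) ≃* Matrix.SpecialLinearGroup (Fin 3) F) := by
  obtain ⟨p, hp⟩ := CharP.exists F
  haveI : Fact p.Prime := ⟨CharP.char_is_prime F p⟩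
  letI : Algebra (ZMod p) F := ZMod.algebra F p
  obtain ⟨ζ, hζ, hgenζ, hord⟩ := exists_zeta (F := F)
  have ha : Algebra.adjoin (ZMod p) {ζ} = ⊤ := by
    rw [eq_top_iff, ← adjoin_zeta_sq p hζ hord]
    apply Algebra.adjoin_le
    intro y hy
    rw [Set.mem_singleton_iff] at hy
    subst hy
    exact pow_mem (Algebra.subset_adjoin (Set.mem_singleton _)) 2
  by_cases h1 : 1 + ζ = 0
  · have hp1 : 1 ≤ p := (Fact.out : p.Prime).one_lt.le
    refine assemble p hζ hgenζ ha (k := 1) (c0 := p - 1) (d0 := 0) ?_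
      (fun Γ _ u g _ r3 => rC_exc r3)
    rw [Nat.cast_sub hp1, CharP.cast_eq_zero, Nat.cast_one, zero_sub, pow_one, Nat.cast_zero,
      zero_mul, add_zero]
    exact eq_neg_of_add_eq_zero_right h1
  · obtain ⟨k, hk⟩ := hgenζ _ h1
    exact assemble p hζ hgenζ ha (k := k) (c0 := 1) (d0 := 1) (by simpa using hk)
      (fun Γ _ u g r2 r3 => rC_gen r2 r3)

end Cfsg.Agent.S2287
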