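import Cfsg.Statements.S0775
import Cfsg.Agent.S0245
import Cfsg.Agent.Lib.Helper17SpCount
import Cfsg.Agent.Lib.Helper17Stab

set_option autoImplicit false
open Cfsg

namespace Cfsg.Agent.S0775

open Matrix Cfsg.Agent.Lib.Helper17Symp Cfsg.Agent.Lib.Helper17Symp2 Cfsg.Agent.Lib.Helper17SpCount
  Cfsg.Agent.Lib.Helper17Stab

/-- Linearly independent families inside a subspace. -/
noncomputable def equivLI {K V : Type*} [Field K] [AddCommGroup V] [Module K V] (W : Submodule K V) (k : ℕ) :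
    {x : Fin k → V | LinearIndependent K x ∧ ∀ i, x i ∈ W} ≃
      {s : Fin k → W // LinearIndependent K s} where
  toFun x := ⟨fun i => ⟨x.1 i, x.2.2 i⟩, LinearIndependent.of_comp W.subtype x.2.1⟩
  invFun s := ⟨fun i => (s.1 i : V), s.2.map' W.subtype (Submodule.ker_subtype W),
    fun i => (s.1 i).2⟩
  left_inv _ := rfl
  right_inv _ := rfl

/-- Maximal parabolics of the symplectic group: if W is a k-dimensional subspace of F^(2m) on which the symplectic form vanishes identically, its stabiliser in Sp_2m(q) has order q^(k(k+1)/2 + 2k(m−k)) · |Sp_(2m−2k)(q)| · |GL_k(q)|. -/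
theorem result {F : Type*} [Field F] [Fintype F] {q : ℕ} (hF : Fintype.card F = q) (m k : ℕ) (hk : k ≤ m) (W : Submodule F (Fin m ⊕ Fin m → F)) (hWk : Module.finrank F W = k) (hW : ∀ u ∈ W, ∀ v ∈ W, Cfsg.sympForm m F u v = 0) : Nat.card ↥(Cfsg.stabilizing (Cfsg.spToMat m F) (W : Set (Fin m ⊕ Fin m → F))) = q ^ (k * (k + 1) / 2 + 2 * k * (m - k)) * (q ^ ((m - k) ^ 2) * ∏ i ∈ Finset.range (m - k), (q ^ (2 * (i + 1)) - 1)) * ∏ i : Fin k, (q ^ k - q ^ (i : ℕ)) := by
  set b := Module.finBasisOfFinrankEq F W hWk with hb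
  set x0 : Fin k → (Fin m ⊕ Fin m → F) := fun i => (b i : Fin m ⊕ Fin m → F) with hx0
  have hx0W : ∀ i, x0 i ∈ W := fun i => (b i).2
  have hLI : LinearIndependent F x0 := b.linearIndependent.map' W.subtype (Submodule.ker_subtype W)
  have hspan : Submodule.span F (Set.range x0) = W := by
    have h1 : Set.range x0 = W.subtype '' (Set.range b) := by
      rw [← Set.range_comp]; rfl
    rw [h1, ← Submodule.map_span, b.span_eq, Submodule.map_subtype_top]
  have hmem : x0 ∈ IsoFam (sB (F := F) m) k :=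
    ⟨hLI, fun i j => by rw [sB_apply]; exact hW _ (hx0W i) _ (hx0W j)⟩
  have hstab : ∀ g : Matrix.symplecticGroup (Fin m) F,
      (∀ i, (g : Matrix (Fin m ⊕ Fin m) (Fin m ⊕ Fin m) F) *ᵥ x0 i ∈ W) →
      g ∈ Cfsg.stabilizing (Cfsg.spToMat m F) (W : Set (Fin m ⊕ Fin m → F)) := by
    intro g hg
    rw [mem_stabilizing_iff]
    intro v hv
    rw [← hspan] at hv
    change (g : Matrix (Fin m ⊕ Fin m) (Fin m ⊕ Fin m) F) *ᵥ v ∈ W
    induction hv using Submodule.span_induction with
    | mem x hx =>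
      obtain ⟨i, rfl⟩ := hx
      exact hg i
    | zero => rw [Matrix.mulVec_zero]; exact W.zero_mem
    | add x y _ _ hx hy => rw [Matrix.mulVec_add]; exact W.add_mem hx hy
    | smul a x _ hx => rw [Matrix.mulVec_smul]; exact W.smul_mem a hx
  have key := card_mul_prod m k (Cfsg.stabilizing (Cfsg.spToMat m F) (W : Set (Fin m ⊕ Fin m → F)))
    x0 hmem (fun g hg => hstab g (fun i => by rw [hg i]; exact hx0W i))
    {x : Fin k → (Fin m ⊕ Fin m → F) | LinearIndependent F x ∧ ∀ i, x i ∈ W} (by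
      intro x
      constructor
      · rintro ⟨hx1, hx2⟩
        obtain ⟨g, hg⟩ := witt_fam m x0 x hLI hx1 (by
          intro i j
          rw [hW _ (hx0W i) _ (hx0W j), hW _ (hx2 i) _ (hx2 j)])
        exact ⟨g, hstab g (fun i => by rw [hg i]; exact hx2 i), hg⟩
      · rintro ⟨g, hg, hx⟩
        have hx' : x = fun i => (g : Matrix (Fin m ⊕ Fin m) (Fin m ⊕ Fin m) F) *ᵥ x0 i :=
          funext fun i => (hx i).symm
        rw [hx']
        refine ⟨linearIndependent_map m g x0 hLI, fun i => ?_⟩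
        exact ((mem_stabilizing_iff _ _ _).1 hg) _ (hx0W i))
  rw [← Nat.card_coe_set_eq, Nat.card_congr (equivLI W k), card_linearIndependent (by rw [hWk]),
    hWk, Cfsg.Agent.S0245.result hF m, hF, arith q m k hk] at key
  have hpos : 0 < ∏ i ∈ Finset.range k, (q ^ (2 * m - i) - q ^ i) := by
    apply Finset.prod_pos
    intro i hi
    rw [Finset.mem_range] at hi
    have hq : 1 < q := by rw [← hF]; exact Fintype.one_lt_card
    have : q ^ i < q ^ (2 * m - i) := Nat.pow_lt_pow_right hq (by omega)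
    omega
  apply Nat.eq_of_mul_eq_mul_left hpos
  rw [mul_comm, key]
  ring

end Cfsg.Agent.S0775
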