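import Cfsg.Statements.S4127
import Cfsg.Agent.Lib.Helper72Class

set_option autoImplicit false
open Cfsg

namespace Cfsg.Agent.S4127

open Cfsg.Agent.Lib.Helper72Pi Cfsg.Agent.Lib.Helper72Class

theorem isComplement'_of_index_pow {G : Type*} [Group G] [Finite G] (p : ℕ) [Fact p.Prime]
    (K : Subgroup G) (h1 : (Nat.card K).Coprime p) (m : ℕ) (h2 : K.index = p ^ m) (P : Sylow p G) :
    K.IsComplement' (P : Subgroup G) := by
  have hp : p.Prime := Fact.out
  have hcard : Nat.card G = Nat.card K * p ^ m := by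
    rw [← h2, Subgroup.card_mul_index]
  have hK0 : Nat.card K ≠ 0 := Nat.card_pos.ne'
  have hnd : ¬ p ∣ Nat.card K := by
    rw [← Nat.Prime.coprime_iff_not_dvd hp]; exact h1.symm
  have hPcard : Nat.card P = p ^ m := by
    rw [Sylow.card_eq_multiplicity, hcard, Nat.factorization_mul hK0 (pow_ne_zero _ hp.ne_zero)]
    simp [Nat.factorization_eq_zero_of_not_dvd hnd, hp.factorization_self]
  apply Subgroup.isComplement'_of_coprime
  · rw [hPcard, hcard]
  · rw [hPcard]
    exact Nat.Coprime.pow_right _ h1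


/-- Let G be a finite group, p a prime and p^a the largest power of p dividing the size of any conjugacy class of G. If some element of p-power order has a conjugacy class of size exactly p^a, then G has a normal p-complement. -/
theorem result {G : Type*} [Group G] [Finite G] (p : ℕ) [Fact p.Prime]
    (a : ℕ) (hmax : ∀ y : G, ¬ p ^ (a + 1) ∣ (Subgroup.centralizer ({y} : Set G)).index)
    (hx : ∃ x : G, (∃ k : ℕ, orderOf x = p ^ k) ∧ (Subgroup.centralizer ({x} : Set G)).index = p ^ a) :
    Cfsg.HasNormalPComplement p G := by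
  have hp : p.Prime := Fact.out
  obtain ⟨x, ⟨k0, hxord⟩, hxidx⟩ := hx
  set C := Subgroup.centralizer ({x} : Set G) with hC
  have hA : ∀ y : C, (orderOf y).Coprime p →
      ¬ p ∣ (Subgroup.centralizer ({y} : Set C)).index := by
    intro y hy hdvd
    have hy' : (orderOf (y : G)).Coprime p := by rwa [Subgroup.orderOf_coe]
    have hcomm : Commute x (y : G) := (Subgroup.mem_centralizer_singleton_iff.mp y.2).symm
    have hcop : (orderOf x).Coprime (orderOf (y : G)) := by
      rw [hxord]; exact Nat.Coprime.pow_left _ hy'.symm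
    have e1 := centralizer_mul_of_coprime hcomm hcop
    have e2 : (Subgroup.centralizer ({y} : Set C)) =
        (Subgroup.centralizer ({(y : G)} : Set G)).subgroupOf C := by
      ext g
      simp [Subgroup.mem_subgroupOf, Subgroup.mem_centralizer_singleton_iff, Subtype.ext_iff]
    have e3 : (Subgroup.centralizer ({y} : Set C)).index =
        (Subgroup.centralizer ({x * (y : G)} : Set G)).relIndex C := by
      rw [e2, e1, ← hC, Subgroup.inf_relIndex_left]
      rfl
    have hle : Subgroup.centralizer ({x * (y : G)} : Set G) ≤ C := by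
      rw [e1]; exact inf_le_left
    have e4 := Subgroup.relIndex_mul_index hle
    apply hmax (x * (y : G))
    rw [← e4, hxidx, ← e3, pow_succ, mul_comm]
    exact mul_dvd_mul_right hdvd _
  obtain ⟨KL, hKmem, ⟨n, hKidx⟩, hKcop, -⟩ := exists_pPrime_subgroup p hA
  set K := KL.map C.subtype with hK
  have hKmemG : ∀ y : G, y ∈ K ↔ y ∈ C ∧ (orderOf y).Coprime p := by
    intro y
    constructor
    · rintro ⟨w, hw, rfl⟩
      refine ⟨w.2, ?_⟩
      have := (hKmem w).mp hw
      rwa [← Subgroup.orderOf_coe] at this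
    · rintro ⟨hyC, hy⟩
      refine ⟨⟨y, hyC⟩, (hKmem _).mpr ?_, rfl⟩
      rwa [Subgroup.orderOf_mk]
  have hKcard : (Nat.card K).Coprime p := by
    have : Nat.card K = Nat.card KL :=
      Subgroup.card_map_of_injective (Subgroup.subtype_injective C)
    rw [this]; exact hKcop
  have hKindex : K.index = p ^ (n + a) := by
    rw [hK, Subgroup.index_map_subtype, hKidx, hxidx, pow_add]
  -- a Sylow subgroup containing x
  have hxZ : IsPGroup p (Subgroup.zpowers x) := by
    rw [IsPGroup.iff_card, Nat.card_zpowers]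
    exact ⟨k0, hxord⟩
  obtain ⟨P, hP⟩ := hxZ.exists_le_sylow
  have hxP : x ∈ (P : Subgroup G) := hP (Subgroup.mem_zpowers x)
  have hcompl := isComplement'_of_index_pow p K hKcard _ hKindex P
  set D := Subgroup.normalClosure ({x} : Set G) with hD
  have hDP : D ≤ P := by
    rw [hD, Subgroup.normalClosure, Subgroup.closure_le]
    intro w hw
    obtain ⟨x', hx', hconj⟩ := Group.mem_conjugatesOfSet_iff.mp hw
    rw [Set.mem_singleton_iff] at hx'
    rw [hx'] at hconj
    obtain ⟨g, rfl⟩ := isConj_iff.mp hconj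
    obtain ⟨⟨⟨u, hu⟩, ⟨k, hk⟩⟩, huk, -⟩ := hcompl.symm.existsUnique g
    have huk' : u * k = g := huk
    have hkx : k * x = x * k := Subgroup.mem_centralizer_singleton_iff.mp ((hKmemG k).mp hk).1
    have : g * x * g⁻¹ = u * x * u⁻¹ := by
      rw [← huk']
      calc u * k * x * (u * k)⁻¹ = u * (k * x) * k⁻¹ * u⁻¹ := by group
        _ = u * (x * k) * k⁻¹ * u⁻¹ := by rw [hkx]
        _ = u * x * u⁻¹ := by group
    rw [this]
    exact (P : Subgroup G).mul_mem ((P : Subgroup G).mul_mem hu hxP) ((P : Subgroup G).inv_mem hu)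
  have hDp : IsPGroup p D := P.isPGroup'.to_le hDP
  have hxD : x ∈ D := Subgroup.subset_normalClosure (Set.mem_singleton x)
  have hDn : D.Normal := Subgroup.normalClosure_normal
  have hKD : ∀ z : G, z ∈ K → z ∈ D → z = 1 := by
    intro z hzK hzD
    obtain ⟨j, hj⟩ := (IsPGroup.iff_orderOf.mp hDp) ⟨z, hzD⟩
    rw [Subgroup.orderOf_mk] at hj
    have h1 := ((hKmemG z).mp hzK).2
    rw [hj] at h1
    rw [← orderOf_eq_one_iff, hj]
    rcases Nat.eq_zero_or_pos j with rfl | hjpos
    · simp
    · exfalso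
      have h2 : Nat.Coprime p p := Nat.Coprime.coprime_dvd_left (dvd_pow_self p hjpos.ne') h1
      rw [Nat.coprime_self] at h2
      exact hp.ne_one h2
  -- D centralises K
  haveI : Group.IsNilpotent D := hDp.isNilpotent
  have hnc : NormalizerCondition D := Group.normalizerCondition_of_isNilpotent
  rw [normalizerCondition_iff_only_full_group_self_normalizing] at hnc
  set W : Subgroup D := (Subgroup.centralizer (K : Set G)).subgroupOf D with hW
  have hxW : (⟨x, hxD⟩ : D) ∈ W := by
    rw [hW, Subgroup.mem_subgroupOf, Subgroup.mem_centralizer_iff]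
    intro k hk
    exact Subgroup.mem_centralizer_singleton_iff.mp ((hKmemG k).mp hk).1
  have hWtop : W = ⊤ := by
    apply hnc
    apply le_antisymm _ Subgroup.le_normalizer
    intro u hu
    have h1 : u * ⟨x, hxD⟩ * u⁻¹ ∈ W := (Subgroup.mem_normalizer_iff.mp hu _).mp hxW
    rw [hW, Subgroup.mem_subgroupOf, Subgroup.mem_centralizer_iff] at h1
    rw [hW, Subgroup.mem_subgroupOf, Subgroup.mem_centralizer_iff]
    intro k hk
    have h2 : k * ((u : G) * x * (u : G)⁻¹) = ((u : G) * x * (u : G)⁻¹) * k := h1 k hk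
    have h3 : (u : G)⁻¹ * k * u ∈ K := by
      rw [hKmemG]
      constructor
      · rw [hC, Subgroup.mem_centralizer_singleton_iff]
        calc (u : G)⁻¹ * k * u * x = (u : G)⁻¹ * (k * ((u : G) * x * (u : G)⁻¹)) * u := by group
          _ = (u : G)⁻¹ * (((u : G) * x * (u : G)⁻¹) * k) * u := by rw [h2]
          _ = x * ((u : G)⁻¹ * k * u) := by group
      · have := orderOf_conj (u : G)⁻¹ k
        rw [inv_inv] at this
        rw [this]
        exact ((hKmemG k).mp hk).2
    have h4 : (u : G)⁻¹ * k * u * k⁻¹ = 1 := by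
      apply hKD
      · exact K.mul_mem h3 (K.inv_mem hk)
      · have : (u : G)⁻¹ * k * u * k⁻¹ = (u : G)⁻¹ * (k * u * k⁻¹) := by group
        rw [this]
        exact D.mul_mem (D.inv_mem u.2) (hDn.conj_mem _ u.2 k)
    calc k * (u : G) = u * ((u : G)⁻¹ * k * u * k⁻¹) * k := by group
      _ = u * k := by rw [h4]; group
  have hDK : ∀ d ∈ D, ∀ k ∈ K, k * d = d * k := by
    intro d hd k hk
    have : (⟨d, hd⟩ : D) ∈ W := by rw [hWtop]; exact Subgroup.mem_top _
    rw [hW, Subgroup.mem_subgroupOf, Subgroup.mem_centralizer_iff] at this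
    exact this k hk
  have hKn : K.Normal := by
    refine ⟨fun k hk g => ?_⟩
    rw [hKmemG]
    constructor
    · rw [hC, Subgroup.mem_centralizer_singleton_iff]
      have h1 := hDK (g⁻¹ * x * g) (hDn.conj_mem' x hxD g) k hk
      calc g * k * g⁻¹ * x = g * (k * (g⁻¹ * x * g)) * g⁻¹ := by group
        _ = g * ((g⁻¹ * x * g) * k) * g⁻¹ := by rw [h1]
        _ = x * (g * k * g⁻¹) := by group
    · rw [orderOf_conj]
      exact ((hKmemG k).mp hk).2
  exact ⟨P, K, hKn, hcompl⟩

end Cfsg.Agent.S4127
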