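import Cfsg.Statements.S1491
import Mathlib
import Cfsg.Agent.S1490
import Cfsg.Agent.S0867
import Cfsg.Agent.Lib.Helper4Char3

set_option autoImplicit false
open Cfsg

namespace Cfsg.Agent.S1491

open Lib.Helper4Char Lib.Helper4Char2 Lib.Helper4Char4 Lib.Helper19Ind Lib.Helper5Ind
  Lib.Helper19Cliff Lib.Helper5Cliff2 Lib.Helper5Abel Lib.Helper19Lin

theorem detOrder_dvd_card {K : Type*} [Group K] [Finite K] {θ : K → ℂ}
    (hθ : Cfsg.IsCharacter K θ) : Cfsg.detOrder θ ∣ Nat.card K := by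
  obtain ⟨f, hf⟩ := Cfsg.Agent.Lib.Helper19Det.exists_detHom hθ
  unfold Cfsg.detOrder
  apply orderOf_dvd_of_pow_eq_one
  rw [hf, ← map_pow]
  have : f ^ Nat.card K = 1 := by
    ext k
    rw [MonoidHom.pow_apply, ← map_pow, pow_card_eq_one', map_one]
    rfl
  rw [this, map_one]

theorem degree_dvd_card {K : Type*} [Group K] [Finite K] {θ : K → ℂ}
    (hθ : Cfsg.IsIrrCharacter K θ) (d : ℕ) (hd : θ 1 = d) : d ∣ Nat.card K := by
  obtain ⟨n, ρ, hρ, rfl⟩ := hθ
  have h1 := Lib.Helper4Char3.finrank_dvd_card ρ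
  rw [Representation.char_one] at hd
  have : Module.finrank ℂ (Fin n → ℂ) = d := by exact_mod_cast hd
  rwa [this] at h1

/-- Let H be a normal subgroup of the finite group G and θ an irreducible character of H with inertia group T, where T/H is abelian (commutators of T lie in H) and the index of H in T is coprime to the order of H. Then the function induced from θ is the sum of a set of exactly [T:H] irreducible characters of G, each of degree [G:T] * θ(1). -/
theorem result {G : Type*} [Group G] [Fintype G] (H T : Subgroup G) [hN : H.Normal] (θ : H → ℂ) (hθ : Cfsg.IsIrrCharacter H θ) (hT : ∀ g : G, g ∈ T ↔ ∀ h : H, θ ⟨g * h * g⁻¹, hN.conj_mem h h.2 g⟩ = θ h) (hab : ∀ x ∈ T, ∀ y ∈ T, x * y * x⁻¹ * y⁻¹ ∈ H) (hcop : Nat.Coprime (Nat.card H) (H.relIndex T)) : ∃ C : Finset (G → ℂ), (∀ χ ∈ C, Cfsg.IsIrrCharacter G χ) ∧ C.card = H.relIndex T ∧ Cfsg.indFun H θ = ∑ χ ∈ C, χ ∧ ∀ χ ∈ C, χ 1 = (T.index : ℂ) * θ 1 := by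
  classical
  have hθcl := IsIrrCharacter.isClassFunction hθ
  have hHT : H ≤ T := by
    intro x hx
    rw [hT]
    intro h
    exact hθcl h ⟨x, hx⟩
  have hι₁ := Subgroup.inclusion_injective hHT
  have hcc : ∀ (g : G) (n : H), T.subtype (Subgroup.inclusion hHT (MulAut.conjNormal g n)) =
      g * T.subtype (Subgroup.inclusion hHT n) * g⁻¹ := fun g n => MulAut.conjNormal_apply g n
  have hT' : ∀ g : G, g ∈ T.subtype.range ↔ ∀ n : H, θ (MulAut.conjNormal g n) = θ n := by
    intro g
    rw [Subgroup.range_subtype]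
    exact hT g
  -- the extension
  have hcardK : Nat.card (H.subgroupOf T) = Nat.card H :=
    Nat.card_congr (Subgroup.subgroupOfEquivOfLe hHT).toEquiv
  have hϑ' : Cfsg.IsIrrCharacter (H.subgroupOf T)
      (fun x : H.subgroupOf T => θ (Subgroup.subgroupOfEquivOfLe hHT x)) :=
    Lib.Helper82Quot.isIrrCharacter_comp hθ (Subgroup.subgroupOfEquivOfLe hHT).toMonoidHom
      (Subgroup.subgroupOfEquivOfLe hHT).surjective
  obtain ⟨d, -, hd⟩ := IsIrrCharacter.exists_degree hϑ'
  obtain ⟨⟨χ₀, ⟨hχ₀, hext, -⟩, -⟩⟩ : Nonempty (∃ χ : T → ℂ, (Cfsg.IsIrrCharacter T χ ∧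
      (∀ n : H.subgroupOf T, χ n = θ (Subgroup.subgroupOfEquivOfLe hHT n)) ∧ _) ∧ _) :=
    ⟨S0867.result (H.subgroupOf T) _ hϑ' (by
      intro g n
      exact (hT g).mp g.2 (Subgroup.subgroupOfEquivOfLe hHT n)) d hd (by
      have h1 : Cfsg.detOrder (fun x : H.subgroupOf T => θ (Subgroup.subgroupOfEquivOfLe hHT x)) * d
          ∣ Nat.card H * Nat.card H := by
        rw [← hcardK]
        exact Nat.mul_dvd_mul (detOrder_dvd_card (IsIrrCharacter.isCharacter hϑ'))
          (degree_dvd_card hϑ' d hd)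
      have h2 : Nat.Coprime (H.relIndex T) (Nat.card H * Nat.card H) :=
        Nat.Coprime.mul_right hcop.symm hcop.symm
      exact h2.coprime_dvd_right h1)⟩
  have hres0 : (fun n : H => χ₀ (Subgroup.inclusion hHT n)) = θ := by
    funext n
    have := hext ((Subgroup.subgroupOfEquivOfLe hHT).symm n)
    rw [MulEquiv.apply_symm_apply] at this
    rw [← this]
    rfl
  obtain ⟨e, C, he, hirr, hcard, hind, hdeg⟩ := S1490.result H T θ hθ hT hab
  have hne0 : Cfsg.classInner (fun n : H => χ₀ (Subgroup.inclusion hHT n)) θ ≠ 0 := by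
    rw [hres0, classInner_irr_self hθ]; exact one_ne_zero
  have hirr1 : Cfsg.IsIrrCharacter G (Cfsg.indFun T χ₀) := by
    rw [← ind_subtype]
    exact ind_inertia_isIrr T.subtype T.subtype_injective (Subgroup.inclusion hHT) hι₁
      MulAut.conjNormal hcc hθ hT' hχ₀ hne0
  have h1 : Cfsg.classInner (Cfsg.indFun H θ) (Cfsg.indFun T χ₀) = 1 := by
    rw [Lib.Helper32Ind.frobenius H θ _ (IsIrrCharacter.isClassFunction hirr1),
      ← classInner_conj_symm]
    have h2 := classInner_res_ind_inertia T.subtype T.subtype_injective (Subgroup.inclusion hHT)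
      hι₁ MulAut.conjNormal hcc hθ hT' hχ₀ hne0
    rw [ind_subtype, hres0, classInner_irr_self hθ] at h2
    have h3 : Cfsg.classInner (fun h : H => Cfsg.indFun T χ₀ h) θ = 1 := h2
    rw [h3, map_one]
  have h2 : Cfsg.classInner (Cfsg.indFun H θ) (Cfsg.indFun T χ₀) =
      (e : ℂ) * (if Cfsg.indFun T χ₀ ∈ C then 1 else 0) := by
    rw [hind, classInner_smul_left, classInner_sum_left]
    congr 1
    rw [Finset.sum_congr rfl (fun χ hχ => classInner_irr (hirr χ hχ) hirr1)]
    rw [Finset.sum_ite_eq']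
  have he1 : e = 1 := by
    rw [h1] at h2
    split_ifs at h2 with hmem
    · have : (e : ℂ) = 1 := by rw [h2]; ring
      exact_mod_cast this
    · simp at h2
  subst he1
  refine ⟨C, hirr, ?_, ?_, ?_⟩
  · have h3 : Nat.card (H.subgroupOf T) * H.relIndex T = Nat.card T :=
      (H.subgroupOf T).card_mul_index
    rw [hcardK] at h3
    have h4 : C.card * Nat.card H = H.relIndex T * Nat.card H := by
      rw [mul_comm (H.relIndex T), h3, ← hcard]; ring
    exact Nat.eq_of_mul_eq_mul_right Nat.card_pos h4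
  · rw [hind]; simp
  · intro χ hχ
    rw [hdeg χ hχ]; simp

end Cfsg.Agent.S1491
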