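import Cfsg.Statements.S3377
import Mathlib

set_option autoImplicit false
open Cfsg

namespace Cfsg.Agent.S3377

/-- closure step of a coset enumeration with two generators -/
theorem orbit_closed {P X : Type*} [Group P] [MulAction P X] (x y : P)
    (hgen : Subgroup.closure {x, y} = ⊤) (n : ℕ) (cv : Fin n → X)
    (σx τx σy τy : Fin n → Fin n)
    (hx : ∀ i, x • cv i = cv (σx i)) (hτx : ∀ i, σx (τx i) = i)
    (hy : ∀ i, y • cv i = cv (σy i)) (hτy : ∀ i, σy (τy i) = i) :
    ∀ g : P, ∀ i, ∃ j, g • cv i = cv j := by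
  suffices h : ∀ g : P, (∀ i, ∃ j, g • cv i = cv j) ∧ (∀ i, ∃ j, g⁻¹ • cv i = cv j) from
    fun g => (h g).1
  intro g
  have hg : g ∈ Subgroup.closure {x, y} := by rw [hgen]; exact Subgroup.mem_top g
  induction hg using Subgroup.closure_induction with
  | mem a ha =>
    simp only [Set.mem_insert_iff, Set.mem_singleton_iff] at ha
    rcases ha with rfl | rfl
    · refine ⟨fun i => ⟨_, hx i⟩, fun i => ⟨τx i, ?_⟩⟩
      rw [inv_smul_eq_iff, hx, hτx]
    · refine ⟨fun i => ⟨_, hy i⟩, fun i => ⟨τy i, ?_⟩⟩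
      rw [inv_smul_eq_iff, hy, hτy]
  | one => exact ⟨fun i => ⟨i, one_smul _ _⟩, fun i => ⟨i, by simp⟩⟩
  | mul a b _ _ iha ihb =>
    constructor
    · intro i
      obtain ⟨j, hj⟩ := ihb.1 i
      obtain ⟨k, hk⟩ := iha.1 j
      exact ⟨k, by rw [mul_smul, hj, hk]⟩
    · intro i
      obtain ⟨j, hj⟩ := iha.2 i
      obtain ⟨k, hk⟩ := ihb.2 j
      exact ⟨k, by rw [mul_inv_rev, mul_smul, hj, hk]⟩
  | inv a _ iha => exact ⟨iha.2, by simpa using iha.1⟩

/-- A group generated by `x, y` with `x³ = y⁵ = (xy)² = 1` has at most 60 elements. -/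
theorem card_le {P : Type*} [Group P] (x y : P) (hx : x ^ 3 = 1) (hy : y ^ 5 = 1)
    (hxy : (x * y) ^ 2 = 1) (hgen : Subgroup.closure {x, y} = ⊤) :
    Finite P ∧ Nat.card P ≤ 60 := by
  set H := Subgroup.zpowers y with hH
  let X := P ⧸ H
  have rx : ∀ c : X, x • x • x • c = c := by
    intro c
    have h : x * x * x = 1 := by rw [← hx]; simp [pow_succ]
    rw [smul_smul, smul_smul, h, one_smul]
  have ry : ∀ c : X, y • y • y • y • y • c = c := by
    intro c
    have h : y * y * y * y * y = 1 := by rw [← hy]; simp [pow_succ]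
    rw [smul_smul, smul_smul, smul_smul, smul_smul, h, one_smul]
  have rxy : ∀ c : X, x • y • x • y • c = c := by
    intro c
    have h : x * y * x * y = 1 := by rw [← hxy]; simp [pow_succ, mul_assoc]
    rw [smul_smul, smul_smul, smul_smul, h, one_smul]
  have ryx : ∀ c : X, y • x • y • x • c = c := by
    intro c
    have h : x * y * x * y = 1 := by rw [← hxy]; simp [pow_succ, mul_assoc]
    have h' : y * x * y * x = 1 := by
      calc y * x * y * x = x⁻¹ * (x * y * x * y) * x := by group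
        _ = 1 := by rw [h]; group
    rw [smul_smul, smul_smul, smul_smul, h', one_smul]
  obtain ⟨c0, hc0⟩ : ∃ c : X, c = ((1 : P) : P ⧸ H) := ⟨_, rfl⟩
  have hy0 : y • c0 = c0 := by
    rw [hc0]
    show ((y * 1 : P) : P ⧸ H) = ((1 : P) : P ⧸ H)
    rw [QuotientGroup.eq]
    have : (y * 1)⁻¹ * 1 = y⁻¹ := by group
    rw [this]
    exact Subgroup.inv_mem _ (Subgroup.mem_zpowers y)
  have fy0 : y • c0 = c0 := hy0
  obtain ⟨c1, fx0⟩ : ∃ c : X, x • c0 = c := ⟨_, rfl⟩
  obtain ⟨c2, fx1⟩ : ∃ c : X, x • c1 = c := ⟨_, rfl⟩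
  have fx2 : x • c2 = c0 := by
    have h := rx c0
    rw [fx0, fx1] at h
    exact h
  have fy1 : y • c1 = c2 := by
    have h := ryx c2
    rw [fx2, fy0, fx0] at h
    exact h
  obtain ⟨c3, fy2⟩ : ∃ c : X, y • c2 = c := ⟨_, rfl⟩
  obtain ⟨c4, fx3⟩ : ∃ c : X, x • c3 = c := ⟨_, rfl⟩
  have fy4 : y • c4 = c1 := by
    have h := ryx c1
    rw [fx1, fy2, fx3] at h
    exact h
  obtain ⟨c5, fy3⟩ : ∃ c : X, y • c3 = c := ⟨_, rfl⟩
  have fy5 : y • c5 = c4 := by
    have h := ry c4
    rw [fy4, fy1, fy2, fy3] at h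
    exact h
  obtain ⟨c6, fx4⟩ : ∃ c : X, x • c4 = c := ⟨_, rfl⟩
  have fx6 : x • c6 = c3 := by
    have h := rx c3
    rw [fx3, fx4] at h
    exact h
  obtain ⟨c7, fx5⟩ : ∃ c : X, x • c5 = c := ⟨_, rfl⟩
  have fy7 : y • c7 = c6 := by
    have h := ryx c6
    rw [fx6, fy3, fx5] at h
    exact h
  obtain ⟨c8, fy6⟩ : ∃ c : X, y • c6 = c := ⟨_, rfl⟩
  have fx8 : x • c8 = c5 := by
    have h := rxy c5
    rw [fy5, fx4, fy6] at h
    exact h
  have fx7 : x • c7 = c8 := by
    have h := rx c8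
    rw [fx8, fx5] at h
    exact h
  obtain ⟨c9, fy8⟩ : ∃ c : X, y • c8 = c := ⟨_, rfl⟩
  obtain ⟨c10, fx9⟩ : ∃ c : X, x • c9 = c := ⟨_, rfl⟩
  have fy10 : y • c10 = c7 := by
    have h := ryx c7
    rw [fx7, fy8, fx9] at h
    exact h
  have fy9 : y • c9 = c10 := by
    have h := ry c10
    rw [fy10, fy7, fy6, fy8] at h
    exact h
  obtain ⟨c11, fx10⟩ : ∃ c : X, x • c10 = c := ⟨_, rfl⟩
  have fx11 : x • c11 = c9 := by
    have h := rx c9
    rw [fx9, fx10] at h
    exact h
  have fy11 : y • c11 = c11 := by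
    have h := ryx c11
    rw [fx11, fy9, fx10] at h
    exact h
  let cv : Fin 12 → X := ![c0, c1, c2, c3, c4, c5, c6, c7, c8, c9, c10, c11]
  have key := orbit_closed x y hgen 12 cv
    ![1, 2, 0, 4, 6, 7, 3, 8, 5, 10, 11, 9] ![2, 0, 1, 6, 3, 8, 4, 5, 7, 11, 9, 10]
    ![0, 2, 3, 5, 1, 4, 8, 6, 9, 10, 7, 11] ![0, 4, 1, 2, 5, 3, 7, 10, 6, 8, 9, 11]
    (by
      intro i
      fin_cases i
      · exact fx0
      · exact fx1
      · exact fx2
      · exact fx3
      · exact fx4
      · exact fx5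
      · exact fx6
      · exact fx7
      · exact fx8
      · exact fx9
      · exact fx10
      · exact fx11)
    (by decide)
    (by
      intro i
      fin_cases i
      · exact fy0
      · exact fy1
      · exact fy2
      · exact fy3
      · exact fy4
      · exact fy5
      · exact fy6
      · exact fy7
      · exact fy8
      · exact fy9
      · exact fy10
      · exact fy11)
    (by decide)
  have hsurj : Function.Surjective cv := by
    intro c
    induction c using QuotientGroup.induction_on with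
    | H g =>
    obtain ⟨j, hj⟩ := key g 0
    refine ⟨j, ?_⟩
    rw [← hj]
    show g • c0 = _
    rw [hc0]
    show ((g * 1 : P) : P ⧸ H) = _
    rw [mul_one]
  have hXfin : Finite X := Finite.of_surjective cv hsurj
  have hXcard : Nat.card X ≤ 12 := by
    have := Nat.card_le_card_of_surjective cv hsurj
    simpa using this
  have hyo : orderOf y ∣ 5 := orderOf_dvd_of_pow_eq_one hy
  have hyle : orderOf y ≤ 5 := Nat.le_of_dvd (by norm_num) hyo
  have hypos : 0 < orderOf y := Nat.pos_of_dvd_of_pos hyo (by norm_num)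
  have hHcard : Nat.card H = orderOf y := Nat.card_zpowers y
  have hmul : Nat.card H * H.index = Nat.card P := H.card_mul_index
  have hidx : H.index = Nat.card X := rfl
  have hXpos : 0 < Nat.card X := Nat.card_pos_iff.mpr ⟨⟨c0⟩, hXfin⟩
  constructor
  · apply Nat.finite_of_card_ne_zero
    rw [← hmul, hHcard, hidx]
    positivity
  · rw [← hmul, hHcard, hidx]
    calc orderOf y * Nat.card X ≤ 5 * 12 := Nat.mul_le_mul hyle hXcard
      _ = 60 := by norm_num

def a5 : alternatingGroup (Fin 5) := ⟨Equiv.swap 1 4 * Equiv.swap 4 2,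
  Equiv.Perm.mem_alternatingGroup.mpr (by
    rw [Equiv.Perm.sign_mul, Equiv.Perm.sign_swap (by decide), Equiv.Perm.sign_swap (by decide)]; rfl)⟩
def b5 : alternatingGroup (Fin 5) :=
  ⟨Equiv.swap 0 1 * Equiv.swap 1 2 * Equiv.swap 2 3 * Equiv.swap 3 4,
  Equiv.Perm.mem_alternatingGroup.mpr (by
    rw [Equiv.Perm.sign_mul, Equiv.Perm.sign_mul, Equiv.Perm.sign_mul, Equiv.Perm.sign_swap (by decide),
      Equiv.Perm.sign_swap (by decide), Equiv.Perm.sign_swap (by decide),
      Equiv.Perm.sign_swap (by decide)]; rfl)⟩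

theorem a5_pow : a5 ^ 3 = 1 := by decide +kernel
theorem b5_pow : b5 ^ 5 = 1 := by decide +kernel
theorem ab5_pow : (a5 * b5) ^ 2 = 1 := by decide +kernel
theorem a5_ne : a5 ≠ 1 := by decide +kernel
theorem b5_ne : b5 ≠ 1 := by decide +kernel
theorem ab5_ne : a5 * b5 ≠ 1 := by decide +kernel

theorem card_A5 : Nat.card (alternatingGroup (Fin 5)) = 60 := by
  rw [nat_card_alternatingGroup]
  simp [Nat.factorial]

theorem eq_top_of_mem (R : Subgroup (alternatingGroup (Fin 5))) (ha : a5 ∈ R) (hb : b5 ∈ R) : R = ⊤ := by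
  have : Fact (Nat.Prime 5) := ⟨by norm_num⟩
  have o3 : orderOf a5 = 3 := orderOf_eq_prime a5_pow a5_ne
  have o5 : orderOf b5 = 5 := orderOf_eq_prime b5_pow b5_ne
  have o2 : orderOf (a5 * b5) = 2 := orderOf_eq_prime ab5_pow ab5_ne
  have d3 : 3 ∣ Nat.card R := by
    have := Subgroup.orderOf_dvd_natCard R ha
    rwa [o3] at this
  have d5 : 5 ∣ Nat.card R := by
    have := Subgroup.orderOf_dvd_natCard R hb
    rwa [o5] at this
  have d2 : 2 ∣ Nat.card R := by
    have := Subgroup.orderOf_dvd_natCard R (R.mul_mem ha hb)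
    rwa [o2] at this
  have d30 : 30 ∣ Nat.card R := by omega
  have hmul : Nat.card R * R.index = 60 := by rw [R.card_mul_index, card_A5]
  obtain ⟨k, hk⟩ := d30
  have hidx : R.index = 1 ∨ R.index = 2 := by
    rw [hk] at hmul
    have h1 : k * R.index = 2 := by nlinarith
    have h2 : R.index ∣ 2 := ⟨k, by rw [← h1, mul_comm]⟩
    have h3 : R.index ≤ 2 := Nat.le_of_dvd (by norm_num) h2
    have h4 : R.index ≠ 0 := by
      intro h0; rw [h0] at h1; omega
    omega
  rcases hidx with h | h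
  · exact Subgroup.index_eq_one.mp h
  · have hn : R.Normal := Subgroup.normal_of_index_eq_two h
    rcases hn.eq_bot_or_eq_top with h' | h'
    · exfalso
      rw [h', Subgroup.mem_bot] at ha
      exact absurd ha a5_ne
    · exact h'

theorem result :
    Nonempty (PresentedGroup ({FreeGroup.of (0 : Fin 2) ^ 3, FreeGroup.of (1 : Fin 2) ^ 5,
        (FreeGroup.of (0 : Fin 2) * FreeGroup.of 1) ^ 2} : Set (FreeGroup (Fin 2))) ≃* alternatingGroup (Fin 5)) := by
  set rels : Set (FreeGroup (Fin 2)) := {FreeGroup.of (0 : Fin 2) ^ 3, FreeGroup.of (1 : Fin 2) ^ 5,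
        (FreeGroup.of (0 : Fin 2) * FreeGroup.of 1) ^ 2} with hrels
  let f : Fin 2 → alternatingGroup (Fin 5) := ![a5, b5]
  have hf : ∀ r ∈ rels, FreeGroup.lift f r = 1 := by
    intro r hr
    simp only [hrels, Set.mem_insert_iff, Set.mem_singleton_iff] at hr
    rcases hr with rfl | rfl | rfl
    · simpa [f] using a5_pow
    · simpa [f] using b5_pow
    · simpa [f] using ab5_pow
  let φ : PresentedGroup rels →* alternatingGroup (Fin 5) := PresentedGroup.toGroup hf
  let x : PresentedGroup rels := PresentedGroup.of 0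
  let y : PresentedGroup rels := PresentedGroup.of 1
  have hφx : φ x = a5 := PresentedGroup.toGroup.of hf
  have hφy : φ y = b5 := PresentedGroup.toGroup.of hf
  have hx : x ^ 3 = 1 := by
    have : PresentedGroup.mk rels (FreeGroup.of (0 : Fin 2) ^ 3) = 1 :=
      PresentedGroup.one_of_mem (by simp [hrels])
    rw [map_pow] at this
    exact this
  have hy : y ^ 5 = 1 := by
    have : PresentedGroup.mk rels (FreeGroup.of (1 : Fin 2) ^ 5) = 1 :=
      PresentedGroup.one_of_mem (by simp [hrels])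
    rw [map_pow] at this
    exact this
  have hxy : (x * y) ^ 2 = 1 := by
    have : PresentedGroup.mk rels ((FreeGroup.of (0 : Fin 2) * FreeGroup.of 1) ^ 2) = 1 :=
      PresentedGroup.one_of_mem (by simp [hrels])
    rw [map_pow, map_mul] at this
    exact this
  have hgen : Subgroup.closure {x, y} = ⊤ := by
    rw [← PresentedGroup.closure_range_of rels]
    congr 1
    ext g
    simp only [Set.mem_insert_iff, Set.mem_singleton_iff, Set.mem_range]
    constructor
    · rintro (rfl | rfl)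
      · exact ⟨0, rfl⟩
      · exact ⟨1, rfl⟩
    · rintro ⟨i, rfl⟩
      fin_cases i
      · left; rfl
      · right; rfl
  obtain ⟨hfin, hcard⟩ := card_le x y hx hy hxy hgen
  have hsurj : Function.Surjective φ := by
    rw [← MonoidHom.range_eq_top]
    apply eq_top_of_mem
    · exact ⟨x, hφx⟩
    · exact ⟨y, hφy⟩
  have hcard' : Nat.card (PresentedGroup rels) = Nat.card (alternatingGroup (Fin 5)) := by
    apply le_antisymm
    · rw [card_A5]; exact hcard
    · exact Nat.card_le_card_of_surjective φ hsurj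
  have hbij : Function.Bijective φ := (Nat.bijective_iff_surjective_and_card φ).mpr ⟨hsurj, hcard'⟩
  exact ⟨MulEquiv.ofBijective φ hbij⟩

end Cfsg.Agent.S3377
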