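import Cfsg.Statements.S0660
import Mathlib

set_option autoImplicit false
open Cfsg

namespace Cfsg.Agent.S0660

theorem exists_proj {V : Type*} [CommGroup V] (U W : Subgroup V) (hd : U ⊓ W = ⊥)
    (hs : U ⊔ W = ⊤) : ∃ π : V →* V, (∀ v, π v ∈ U) ∧ ∀ u ∈ U, π u = u := by
  let c : U × W →* V := MonoidHom.coprod U.subtype W.subtype
  have hc : ∀ z : U × W, c z = z.1.1 * z.2.1 := fun z => rfl
  have hbij : Function.Bijective c := by
    constructor
    · rw [injective_iff_map_eq_one]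
      rintro ⟨u, w⟩ h
      rw [hc] at h
      simp only at h
      have hu : u.1 ∈ U ⊓ W := by
        rw [Subgroup.mem_inf]
        refine ⟨u.2, ?_⟩
        rw [eq_inv_of_mul_eq_one_left h]
        exact W.inv_mem w.2
      rw [hd, Subgroup.mem_bot] at hu
      rw [hu, one_mul] at h
      exact Prod.ext (Subtype.ext hu) (Subtype.ext h)
    · intro v
      have hv : v ∈ U ⊔ W := by rw [hs]; trivial
      obtain ⟨u, hu, w, hw, rfl⟩ := Subgroup.mem_sup.1 hv
      exact ⟨(⟨u, hu⟩, ⟨w, hw⟩), rfl⟩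
  let e : U × W ≃* V := MulEquiv.ofBijective c hbij
  refine ⟨U.subtype.comp ((MonoidHom.fst U W).comp e.symm.toMonoidHom), fun v => ?_, fun u hu => ?_⟩
  · exact (e.symm v).1.2
  · have : e.symm u = (⟨u, hu⟩, 1) := by
      rw [MulEquiv.symm_apply_eq]
      change u = c _
      rw [hc]; simp
    change ((e.symm u).1 : V) = u
    rw [this]

theorem abs {V A : Type*} [CommGroup V] [Finite V] [Group A] [Finite A] (ρ : A →* MulAut V)
    (hcop : (Nat.card A).Coprime (Nat.card V)) (U W : Subgroup V)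
    (hU : ∀ a, ∀ u ∈ U, ρ a u ∈ U) (hd : U ⊓ W = ⊥) (hs : U ⊔ W = ⊤) :
    ∃ W' : Subgroup V, (∀ a, ∀ w ∈ W', ρ a w ∈ W') ∧ U ⊓ W' = ⊥ ∧ U ⊔ W' = ⊤ := by
  classical
  have : Fintype A := Fintype.ofFinite A
  obtain ⟨π, hπU, hπ⟩ := exists_proj U W hd hs
  let φ : V →* V := ∏ a : A, (ρ a).toMonoidHom.comp (π.comp (ρ a⁻¹).toMonoidHom)
  have hφ : ∀ v, φ v = ∏ a : A, ρ a (π (ρ a⁻¹ v)) := by
    intro v
    simp [φ]
  have hφU : ∀ v, φ v ∈ U := by
    intro v
    rw [hφ]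
    exact Subgroup.prod_mem _ (fun a _ => hU a _ (hπU _))
  have hφu : ∀ u ∈ U, φ u = u ^ Nat.card A := by
    intro u hu
    rw [hφ]
    have : ∀ a : A, ρ a (π (ρ a⁻¹ u)) = u := by
      intro a
      rw [hπ _ (hU _ _ hu)]
      simp
    rw [Finset.prod_congr rfl (fun a _ => this a), Finset.prod_const, Finset.card_univ,
      Nat.card_eq_fintype_card]
  have hequiv : ∀ b v, φ (ρ b v) = ρ b (φ v) := by
    intro b v
    rw [hφ, hφ, map_prod]
    refine (Fintype.prod_equiv (Equiv.mulLeft b) _ _ ?_).symm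
    intro a
    simp [map_mul]
  refine ⟨φ.ker, ?_, ?_, ?_⟩
  · intro a w hw
    rw [MonoidHom.mem_ker] at hw ⊢
    rw [hequiv, hw, map_one]
  · rw [Subgroup.eq_bot_iff_forall]
    intro u hu
    rw [Subgroup.mem_inf, MonoidHom.mem_ker] at hu
    have h1 : u ^ Nat.card A = 1 := by rw [← hφu u hu.1]; exact hu.2
    have h2 : u ^ Nat.card V = 1 := pow_card_eq_one'
    have h3 := pow_gcd_eq_one.2 ⟨h1, h2⟩
    rwa [Nat.Coprime.gcd_eq_one hcop, pow_one] at h3
  · rw [eq_top_iff]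
    intro v _
    have hcU : (Nat.card U).Coprime (Nat.card A) :=
      (Nat.Coprime.coprime_dvd_right (Subgroup.card_subgroup_dvd_card U) hcop).symm
    obtain ⟨u', hu'⟩ := (powCoprime hcU).surjective ⟨φ v, hφU v⟩
    have hu'' : u'.1 ^ Nat.card A = φ v := congrArg Subtype.val hu'
    have : v = u'.1 * (u'.1⁻¹ * v) := by simp
    rw [this]
    refine Subgroup.mul_mem_sup u'.2 ?_
    rw [MonoidHom.mem_ker, map_mul, map_inv, hφu _ u'.2, hu'']
    simp

theorem le_normalizer_of {G : Type*} [Group G] (A M : Subgroup G)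
    (h : ∀ a ∈ A, ∀ m ∈ M, a * m * a⁻¹ ∈ M) : A ≤ Subgroup.normalizer (M : Set G) := by
  intro a ha
  rw [Subgroup.mem_normalizer_iff]
  intro m
  refine ⟨h a ha m, fun hm => ?_⟩
  have := h a⁻¹ (A.inv_mem ha) _ hm
  simpa [mul_assoc] using this

open scoped IsMulCommutative in
/-- Under a coprime action on an abelian group, an invariant subgroup that is complemented admits an invariant complement. -/
theorem result {G : Type*} [Group G] [Finite G] (V A U : Subgroup G) (hVab : IsMulCommutative V) (hAV : A ≤ Subgroup.normalizer (V : Set G)) (hcop : (Nat.card A).Coprime (Nat.card V)) (hUV : U ≤ V) (hAU : A ≤ Subgroup.normalizer (U : Set G)) (W : Subgroup G) (hWV : W ≤ V) (hUW : U ⊓ W = ⊥) (hUWV : U ⊔ W = V) : ∃ W' : Subgroup G, W' ≤ V ∧ A ≤ Subgroup.normalizer (W' : Set G) ∧ U ⊓ W' = ⊥ ∧ U ⊔ W' = V := by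
  let ρ : A →* MulAut V := V.normalizerMonoidHom.comp (Subgroup.inclusion hAV)
  have hρ : ∀ (f : A) (v : V), ((ρ f v : V) : G) = f.1 * v.1 * f.1⁻¹ := fun f v => rfl
  have key := abs ρ hcop (U.subgroupOf V) (W.subgroupOf V) ?_ ?_ ?_
  · obtain ⟨W', h1, h2, h3⟩ := key
    refine ⟨W'.map V.subtype, Subgroup.map_subtype_le _, ?_, ?_, ?_⟩
    · apply le_normalizer_of
      rintro a ha _ ⟨w, hw, rfl⟩
      exact ⟨ρ ⟨a, ha⟩ w, h1 _ _ hw, rfl⟩
    · rw [← Subgroup.map_subgroupOf_eq_of_le hUV, ← Subgroup.map_inf _ _ _ V.subtype_injective, h2,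
        Subgroup.map_bot]
    · rw [← Subgroup.map_subgroupOf_eq_of_le hUV, ← Subgroup.map_sup, h3, ← MonoidHom.range_eq_map,
        Subgroup.range_subtype]
  · intro a u hu
    rw [Subgroup.mem_subgroupOf] at hu ⊢
    rw [hρ]
    exact ((Subgroup.mem_normalizer_iff.1 (hAU a.2)) _).1 hu
  · rw [Subgroup.eq_bot_iff_forall]
    intro x hx
    rw [Subgroup.mem_inf, Subgroup.mem_subgroupOf, Subgroup.mem_subgroupOf] at hx
    have : x.1 ∈ U ⊓ W := Subgroup.mem_inf.2 hx
    rw [hUW, Subgroup.mem_bot] at this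
    exact Subtype.ext this
  · rw [← Subgroup.subgroupOf_sup hUV hWV, hUWV, Subgroup.subgroupOf_self]

end Cfsg.Agent.S0660
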