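import Cfsg.Statements.S3954
import Cfsg.Agent.Lib.Helper69Schur

set_option autoImplicit false
open Cfsg

namespace Cfsg.Agent.S3954

open Cfsg.Agent.Lib.Helper69Schur

/-- a quotient of a finite abelian group embeds in it -/
theorem exists_injective_of_surjective {B : Type*} [CommGroup B] [Finite B] {D : Type*} [Group D]
    (f : B →* D) (hf : Function.Surjective f) : ∃ i : D →* B, Function.Injective i := by
  let _ : CommGroup D :=
    { (inferInstance : Group D) with
      mul_comm := fun a b => by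
        obtain ⟨a, rfl⟩ := hf a
        obtain ⟨b, rfl⟩ := hf b
        rw [← map_mul, ← map_mul, mul_comm] }
  have : Finite D := Finite.of_surjective f hf
  have : NeZero (Monoid.exponent D) := ⟨Monoid.exponent_ne_zero_of_finite⟩
  have : NeZero (Monoid.exponent B) := ⟨Monoid.exponent_ne_zero_of_finite⟩
  obtain ⟨e1⟩ := CommGroup.monoidHom_mulEquiv_of_hasEnoughRootsOfUnity D ℂ
  obtain ⟨e2⟩ := CommGroup.monoidHom_mulEquiv_of_hasEnoughRootsOfUnity B ℂ
  refine ⟨(e2.toMonoidHom.comp (MonoidHom.compHom' f)).comp e1.symm.toMonoidHom, ?_⟩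
  refine (e2.injective.comp ?_).comp e1.symm.injective
  intro χ χ' h
  ext d
  obtain ⟨b, rfl⟩ := hf d
  have := congrArg (fun k : B →* ℂˣ => k b) h
  exact congrArg Units.val this

/-- in a stem extension, `index`-th powers of kernel elements are commutators of the preimage -/
theorem pow_index_mem {Γ : Type*} [Group Γ] (H : Subgroup Γ) [H.FiniteIndex] (k : Γ)
    (hk : k ∈ Subgroup.center Γ) (hk' : k ∈ commutator Γ) :
    ∃ h : k ^ H.index ∈ H, (⟨k ^ H.index, h⟩ : H) ∈ commutator H := by
  have key : ∀ (j : ℕ) (g₀ : Γ), g₀⁻¹ * k ^ j * g₀ ∈ H → g₀⁻¹ * k ^ j * g₀ = k ^ j := by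
    intro j g₀ _
    have := Subgroup.mem_center_iff.1 (Subgroup.pow_mem _ hk j) g₀
    rw [mul_assoc, ← this]; group
  have h1 := MonoidHom.transfer_eq_pow (Abelianization.of : H →* Abelianization H) k key
  have h2 : MonoidHom.transfer (Abelianization.of : H →* Abelianization H) k = 1 :=
    Abelianization.commutator_subset_ker _ hk'
  rw [h2] at h1
  refine ⟨MonoidHom.transfer_eq_pow_aux k key, ?_⟩
  rw [← Abelianization.ker_of, MonoidHom.mem_ker]
  exact h1.symm

/-- Let `U` be a subgroup of index `m` in the finite group `G`, let `A` be the Schur multiplier of `G` and `B` that of `U`. Then the subgroup of `m`-th powers of `A` is isomorphic to a subgroup of `B`. -/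
theorem result {G : Type*} [Group G] [Finite G] (U : Subgroup G) {A B : Type*} [CommGroup A] [CommGroup B] (hA : Cfsg.HasSchurMultiplier G A) (hB : Cfsg.HasSchurMultiplier U B) : ∃ C : Subgroup B, Nonempty ((powMonoidHom U.index : A →* A).range ≃* C) := by
  obtain ⟨Γ, _, _, σ, hσ, ⟨e⟩⟩ := hA.1
  have hfB := finite_of_hasSchurMultiplier hB
  let σU : U.comap σ →* U := σ.subgroupComap U
  have hσUs : Function.Surjective σU := σ.subgroupComap_surjective_of_surjective U hσ.1
  have hkU : ∀ x : U.comap σ, x ∈ σU.ker ↔ (x : Γ) ∈ σ.ker := by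
    intro x
    rw [MonoidHom.mem_ker, MonoidHom.mem_ker, Subtype.ext_iff]; rfl
  have hσUc : σU.ker ≤ Subgroup.center (U.comap σ) := by
    intro a ha
    rw [Subgroup.mem_center_iff]
    intro g
    exact Subtype.ext (Subgroup.mem_center_iff.1 (hσ.2.1 ((hkU a).1 ha)) g)
  obtain ⟨fB, hfB'⟩ := exists_surj_of_hasSchurMultiplier hB σU hσUs hσUc
  obtain ⟨i, hi⟩ := exists_injective_of_surjective fB hfB'
  have hidx : (U.comap σ).index = U.index := Subgroup.index_comap_of_surjective U hσ.1
  -- the map from the range of the power map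
  have hmem : ∀ x : (powMonoidHom U.index : A →* A).range,
      ∃ h : ((e.symm x.1 : σ.ker) : Γ) ∈ U.comap σ,
        (⟨((e.symm x.1 : σ.ker) : Γ), h⟩ : U.comap σ) ∈ σU.ker ⊓ commutator (U.comap σ) := by
    rintro ⟨_, a, rfl⟩
    obtain ⟨h, h'⟩ := pow_index_mem (U.comap σ) ((e.symm a : σ.ker) : Γ) (hσ.2.1 (e.symm a).2)
      (hσ.2.2 (e.symm a).2)
    have heq : ((e.symm ((powMonoidHom U.index : A →* A) a) : σ.ker) : Γ) =
        ((e.symm a : σ.ker) : Γ) ^ (U.comap σ).index := by
      rw [hidx, powMonoidHom_apply, map_pow]; rfl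
    simp only [heq]
    refine ⟨h, Subgroup.mem_inf.2 ⟨?_, h'⟩⟩
    rw [hkU]
    exact Subgroup.pow_mem _ (e.symm a).2 _
  let j : (powMonoidHom U.index : A →* A).range →* ↥(σU.ker ⊓ commutator (U.comap σ)) :=
    { toFun := fun x => ⟨⟨((e.symm x.1 : σ.ker) : Γ), (hmem x).choose⟩, (hmem x).choose_spec⟩
      map_one' := by
        apply Subtype.ext; apply Subtype.ext
        simp
      map_mul' := fun x y => by
        apply Subtype.ext; apply Subtype.ext
        simp }
  have hj : Function.Injective j := by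
    intro x y hxy
    have h1 : ((e.symm x.1 : σ.ker) : Γ) = ((e.symm y.1 : σ.ker) : Γ) :=
      congrArg (fun z : ↥(σU.ker ⊓ commutator (U.comap σ)) => ((z : U.comap σ) : Γ)) hxy
    exact Subtype.ext (e.symm.injective (Subtype.ext h1))
  exact ⟨(i.comp j).range, ⟨MonoidHom.ofInjective (hi.comp hj)⟩⟩

end Cfsg.Agent.S3954
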