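import Cfsg.Statements.S4010
-- import your own Cfsg.Agent.* helpers here
import Mathlib

set_option autoImplicit false
open Cfsg

namespace Cfsg.Agent.S4010


open scoped commutatorElement

universe u v w

section general
variable {P : Type u} [Group P] {K : Type w} [Field K] {V : Type v} [AddCommGroup V] [Module K V]

/-- restriction of a representation to an invariant subspace -/
def resRep (ρ : P →* Module.End K V) (W : Submodule K V) (hW : ∀ g, ∀ v ∈ W, ρ g v ∈ W) :
    P →* Module.End K W where
  toFun g := (ρ g).restrict (hW g)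
  map_one' := by ext v; simp
  map_mul' a b := by ext v; simp

/-- quotient of a representation by an invariant subspace -/
def quotRep (ρ : P →* Module.End K V) (W : Submodule K V) (hW : ∀ g, ∀ v ∈ W, ρ g v ∈ W) :
    P →* Module.End K (V ⧸ W) where
  toFun g := W.mapQ W (ρ g) (fun v hv => hW g v hv)
  map_one' := by ext v; simp
  map_mul' a b := by ext v; simp

theorem derived_add (H : Subgroup P) (j : ℕ) (h : derivedSeries P j ≤ H) (m : ℕ) :
    derivedSeries P (j + m) ≤ (derivedSeries H m).map H.subtype := by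
  induction m with
  | zero =>
    rw [derivedSeries_zero, ← MonoidHom.range_eq_map, Subgroup.range_subtype]
    simpa using h
  | succ m ih =>
    rw [← add_assoc, derivedSeries_succ, derivedSeries_succ, Subgroup.map_commutator]
    exact Subgroup.commutator_mono ih ih

theorem le_ker_of_iSup {ι : Type*} (W : ι → Submodule K V) (hW : ⨆ i, W i = ⊤)
    (ρ : P →* Module.End K V) (H : Subgroup P)
    (h : ∀ i, ∀ x ∈ H, ∀ v ∈ W i, ρ x v = v) : H ≤ ρ.ker := by
  intro x hx
  rw [MonoidHom.mem_ker]
  have h1 : ⨆ i, W i ≤ LinearMap.ker (ρ x - 1) := by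
    apply iSup_le
    intro i v hv
    rw [LinearMap.mem_ker]
    simp [h i x hx v hv]
  rw [hW] at h1
  ext v
  have := h1 (Submodule.mem_top (x := v))
  rw [LinearMap.mem_ker] at this
  simpa [sub_eq_zero] using this

theorem rho_inv_apply (ρ : P →* Module.End K V) (g : P) (v : V) : ρ g⁻¹ (ρ g v) = v := by
  rw [← Module.End.mul_apply, ← map_mul]; simp

theorem rho_apply_inv (ρ : P →* Module.End K V) (g : P) (v : V) : ρ g (ρ g⁻¹ v) = v := by
  rw [← Module.End.mul_apply, ← map_mul]; simp

theorem rho_mul_apply (ρ : P →* Module.End K V) (g h : P) (v : V) : ρ (g * h) v = ρ g (ρ h v) := by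
  rw [map_mul]; rfl

theorem rho_injective (ρ : P →* Module.End K V) (g : P) : Function.Injective (ρ g) := by
  intro a b hab
  rw [← rho_inv_apply ρ g a, hab, rho_inv_apply]

end general

section caseB
variable {P : Type u} [Group P] {K : Type w} [Field K] {V : Type v} [AddCommGroup V]
  [Module K V]

theorem exists_fixed_aux [Finite P] (p : ℕ) [Fact p.Prime] (hP : IsPGroup p P)
    [Module (ZMod p) V]
    [Nontrivial V] (ρ : P →* Module.End K V) : ∃ v : V, v ≠ 0 ∧ ∀ g, ρ g v = v := by
  obtain ⟨u, hu⟩ := exists_ne (0 : V)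
  let S : Submodule (ZMod p) V := Submodule.span (ZMod p) (Set.range fun g => ρ g u)
  haveI : Module.Finite (ZMod p) ↥S := Module.Finite.span_of_finite (ZMod p) (Set.finite_range _)
  haveI : Finite S := Module.finite_of_finite (ZMod p)
  have hinv : ∀ g, ∀ s ∈ S, ρ g s ∈ S := by
    intro g s hs
    induction hs using Submodule.span_induction with
    | mem x hx =>
      obtain ⟨h, rfl⟩ := hx
      apply Submodule.subset_span
      exact ⟨g * h, by simp [rho_mul_apply]⟩
    | zero => simp
    | add x y _ _ hx hy => rw [map_add]; exact S.add_mem hx hy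
    | smul c x _ hx =>
      rw [ZMod.map_smul]
      exact S.smul_mem c hx
  letI : MulAction P S :=
    { smul := fun g s => ⟨ρ g s, hinv g s s.2⟩
      one_smul := fun s => by
        apply Subtype.ext
        change ρ 1 (s : V) = s
        simp
      mul_smul := fun a b s => by
        apply Subtype.ext
        change ρ (a * b) (s : V) = ρ a (ρ b s)
        exact rho_mul_apply ρ a b s }
  have huS : u ∈ S := Submodule.subset_span ⟨1, by simp⟩
  haveI : Nontrivial S := ⟨⟨⟨u, huS⟩, 0, fun h => hu (congrArg Subtype.val h)⟩⟩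
  have hcard : p ∣ Nat.card S := by
    rw [Module.natCard_eq_pow_finrank (K := ZMod p), Nat.card_zmod]
    exact dvd_pow_self p (Module.finrank_pos (R := ZMod p) (M := S)).ne'
  have h0 : (0 : S) ∈ MulAction.fixedPoints P S := by
    intro g
    apply Subtype.ext
    change ρ g ((0 : S) : V) = ((0 : S) : V)
    simp
  obtain ⟨b, hb, hb0⟩ := hP.exists_fixed_point_of_prime_dvd_card_of_fixed_point S hcard h0
  refine ⟨b, fun h => hb0 (Subtype.ext h.symm), fun g => ?_⟩
  exact congrArg Subtype.val (hb g)

theorem exists_fixed [Finite P] (p : ℕ) [Fact p.Prime] (hP : IsPGroup p P) (hpK : (p : K) = 0)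
    [Nontrivial V] (ρ : P →* Module.End K V) : ∃ v : V, v ≠ 0 ∧ ∀ g, ρ g v = v := by
  letI : Module (ZMod p) V := AddCommGroup.zmodModule (n := p) (fun x => by
     rw [← Nat.cast_smul_eq_nsmul K, hpK, zero_smul])
  exact exists_fixed_aux p hP ρ

/-- the socle-like series -/
def U (ρ : P →* Module.End K V) : ℕ → Submodule K V
  | 0 => ⊥
  | (j + 1) => ⨅ g, (U ρ j).comap (ρ g - 1)

theorem mem_U_succ (ρ : P →* Module.End K V) (j : ℕ) (v : V) :
    v ∈ U ρ (j + 1) ↔ ∀ g, ρ g v - v ∈ U ρ j := by
  simp [U, Submodule.mem_iInf]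

theorem U_inv (ρ : P →* Module.End K V) (j : ℕ) (g : P) (v : V) (hv : v ∈ U ρ j) :
    ρ g v ∈ U ρ j := by
  cases j with
  | zero =>
    have : v = 0 := by simpa [U] using hv
    simp [this]
  | succ j =>
    rw [mem_U_succ] at hv ⊢
    intro h
    have := (U ρ j).sub_mem (hv (h * g)) (hv g)
    rw [rho_mul_apply] at this
    simpa using this

theorem U_le_succ (ρ : P →* Module.End K V) (j : ℕ) : U ρ j ≤ U ρ (j + 1) := by
  intro v hv
  rw [mem_U_succ]
  intro g
  exact (U ρ j).sub_mem (U_inv ρ j g v hv) hv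

theorem U_mono (ρ : P →* Module.End K V) : Monotone (U ρ) :=
  monotone_nat_of_le_succ (U_le_succ ρ)

theorem U_lt [Finite P] (p : ℕ) [Fact p.Prime] (hP : IsPGroup p P) (hpK : (p : K) = 0)
    (ρ : P →* Module.End K V) (j : ℕ) (h : U ρ j ≠ ⊤) : U ρ j < U ρ (j + 1) := by
  haveI : Nontrivial (V ⧸ U ρ j) := Submodule.Quotient.nontrivial_iff.2 h
  obtain ⟨w, hw, hfix⟩ := exists_fixed p hP hpK (quotRep ρ (U ρ j) (U_inv ρ j))
  obtain ⟨v, rfl⟩ := Submodule.Quotient.mk_surjective _ w
  refine lt_of_le_of_ne (U_le_succ ρ j) (fun he => hw ?_)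
  rw [Submodule.Quotient.mk_eq_zero, he, mem_U_succ]
  intro g
  have := hfix g
  change Submodule.Quotient.mk (ρ g v) = Submodule.Quotient.mk v at this
  rwa [Submodule.Quotient.eq] at this

theorem U_top [Finite P] [FiniteDimensional K V] (p : ℕ) [Fact p.Prime] (hP : IsPGroup p P)
    (hpK : (p : K) = 0) (ρ : P →* Module.End K V) (j : ℕ) (hj : Module.finrank K V ≤ j) :
    U ρ j = ⊤ := by
  have key : ∀ j, j ≤ Module.finrank K (U ρ j) ∨ U ρ j = ⊤ := by
    intro j
    induction j with
    | zero => left; exact Nat.zero_le _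
    | succ j ih =>
      by_cases h : U ρ j = ⊤
      · right
        exact top_le_iff.1 (h ▸ U_le_succ ρ j)
      · left
        have h1 := ih.resolve_right h
        have h2 := Submodule.finrank_lt_finrank_of_lt (U_lt p hP hpK ρ j h)
        omega
  rcases key j with h | h
  · apply Submodule.eq_top_of_finrank_eq
    have := Submodule.finrank_le (U ρ j)
    omega
  · exact h

/-- the filtration of the group -/
def Pfil (ρ : P →* Module.End K V) (i : ℕ) : Subgroup P where
  carrier := {g | ∀ j, ∀ v ∈ U ρ (j + i), ρ g v - v ∈ U ρ j}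
  one_mem' := by
    intro j v _
    simp
  mul_mem' := by
    intro a b ha hb j v hv
    have h1 := U_inv ρ j a _ (hb j v hv)
    have h2 := ha j v hv
    have := (U ρ j).add_mem h1 h2
    rw [rho_mul_apply]
    simpa using this
  inv_mem' := by
    intro a ha j v hv
    have h1 := U_inv ρ j a⁻¹ _ (ha j v hv)
    have := (U ρ j).neg_mem h1
    rw [map_sub, rho_inv_apply] at this
    simpa using this

theorem mem_Pfil (ρ : P →* Module.End K V) (i : ℕ) (g : P) :
    g ∈ Pfil ρ i ↔ ∀ j, ∀ v ∈ U ρ (j + i), ρ g v - v ∈ U ρ j := Iff.rfl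

theorem Pfil_comm (ρ : P →* Module.End K V) (i i' : ℕ) :
    ⁅Pfil ρ i, Pfil ρ i'⁆ ≤ Pfil ρ (i + i') := by
  rw [Subgroup.commutator_le]
  intro x hx y hy
  rw [mem_Pfil] at hx hy ⊢
  intro j v hv
  set u := ρ (y * x)⁻¹ v with hu
  have hu' : u ∈ U ρ (j + (i + i')) := U_inv ρ _ _ _ hv
  have hv' : v = ρ y (ρ x u) := by
    rw [hu, ← rho_mul_apply, rho_apply_inv]
  have e1 : ρ ⁅x, y⁆ v = ρ x (ρ y u) := by
    rw [hu, ← rho_mul_apply, ← rho_mul_apply]
    congr 2
    simp [commutatorElement_def, mul_assoc]
  have hY : ρ y u - u ∈ U ρ (j + i) := hy (j + i) u (by rwa [add_assoc])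
  have hX : ρ x u - u ∈ U ρ (j + i') := hx (j + i') u (by
    rwa [add_assoc, add_comm i' i])
  have h1 := hx j _ hY
  have h2 := hy j _ hX
  have := (U ρ j).sub_mem h1 h2
  rw [e1]
  have e2 : ρ x (ρ y u) - ρ y (ρ x u)
      = (ρ x (ρ y u - u) - (ρ y u - u)) - (ρ y (ρ x u - u) - (ρ x u - u)) := by
    simp only [map_sub]; abel
  have e3 : ρ x (ρ y u) - v = ρ x (ρ y u) - ρ y (ρ x u) := by rw [← hv']
  rw [e3, e2]
  exact this

theorem derived_le_Pfil (ρ : P →* Module.End K V) (k : ℕ) :
    derivedSeries P k ≤ Pfil ρ (2 ^ k) := by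
  induction k with
  | zero =>
    intro g _
    rw [mem_Pfil]
    intro j v hv
    rw [pow_zero, mem_U_succ] at hv
    exact hv g
  | succ k ih =>
    rw [derivedSeries_succ, pow_succ, mul_two]
    exact (Subgroup.commutator_mono ih ih).trans (Pfil_comm ρ _ _)

theorem caseB [Finite P] [FiniteDimensional K V] (p : ℕ) [Fact p.Prime] (hP : IsPGroup p P)
    (hpK : (p : K) = 0) (ρ : P →* Module.End K V) (k : ℕ) (hk : Module.finrank K V ≤ 2 ^ k) :
    derivedSeries P k ≤ ρ.ker := by
  intro g hg
  have h1 := derived_le_Pfil ρ k hg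
  rw [mem_Pfil] at h1
  rw [MonoidHom.mem_ker]
  ext v
  have h2 := h1 0 v (by rw [U_top p hP hpK ρ _ (by omega)]; trivial)
  have : ρ g v - v = 0 := by simpa [U] using h2
  simpa [sub_eq_zero] using this

end caseB

section caseA
variable {K : Type w} [Field K]

theorem iSup_eig [IsAlgClosed K] {V : Type v} [AddCommGroup V] [Module K V] [FiniteDimensional K V]
    (f : Module.End K V) (m : ℕ) (hm : (m : K) ≠ 0) (hf : f ^ m = 1) :
    ⨆ μ, Module.End.eigenspace f μ = ⊤ := by
  apply Module.End.IsSemisimple.iSup_eigenspace_eq_top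
  apply Module.End.isSemisimple_of_squarefree_aeval_eq_zero
    (p := Polynomial.X ^ m - Polynomial.C 1)
  · exact (Polynomial.separable_X_pow_sub_C (1 : K) hm one_ne_zero).squarefree
  · simp [hf]

/-- the inductive statement -/
def Goal (K : Type w) [Field K] (p : ℕ) (n : ℕ) : Prop :=
  ∀ (P : Type u) [Group P] [Finite P] (_ : IsPGroup p P) (V : Type v) [AddCommGroup V]
    [Module K V] [FiniteDimensional K V] (_ : Module.finrank K V = n)
    (ρ : P →* Module.End K V), derivedSeries P (Nat.log 2 n + 1) ≤ ρ.ker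

theorem key (p n : ℕ) (IH : ∀ m < n, Goal.{u, v, w} K p m) {Q : Type u} [Group Q] [Finite Q]
    (hQ : IsPGroup p Q) {V : Type v} [AddCommGroup V] [Module K V] [FiniteDimensional K V]
    (σ : Q →* Module.End K V) (W : Submodule K V) (hW : ∀ g, ∀ v ∈ W, σ g v ∈ W) (k : ℕ)
    (hk : Module.finrank K W = 0 ∨
      (Module.finrank K W < n ∧ Nat.log 2 (Module.finrank K W) + 1 ≤ k)) :
    ∀ x ∈ derivedSeries Q k, ∀ v ∈ W, σ x v = v := by
  intro x hx v hv
  rcases hk with h0 | ⟨h1, h2⟩
  · have hb : W = ⊥ := Submodule.finrank_eq_zero.1 h0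
    rw [hb, Submodule.mem_bot] at hv
    simp [hv]
  · have h3 := IH _ h1 Q hQ W rfl (resRep σ W hW) (derivedSeries_antitone Q h2 hx)
    rw [MonoidHom.mem_ker] at h3
    have h4 := congrArg (fun f : Module.End K W => ((f ⟨v, hv⟩ : W) : V)) h3
    simpa [resRep] using h4

theorem exists_N (p : ℕ) [Fact p.Prime] {P : Type u} [Group P] [Finite P] (hP : IsPGroup p P)
    (hc : ¬ Subgroup.center P = ⊤) :
    ∃ (a : P) (N : Subgroup P), a ∉ Subgroup.center P ∧
      (∀ g, a * g * a⁻¹ * g⁻¹ ∈ Subgroup.center P) ∧ (∀ x ∈ N, a * x = x * a) ∧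
      derivedSeries P 1 ≤ N := by
  haveI : Nontrivial (P ⧸ Subgroup.center P) := by
    by_contra hh
    rw [not_nontrivial_iff_subsingleton] at hh
    exact hc (QuotientGroup.subgroup_eq_top_of_subsingleton _ hh)
  have hPq : IsPGroup p (P ⧸ Subgroup.center P) := hP.to_quotient _
  haveI := hPq.center_nontrivial
  obtain ⟨⟨abar, habar⟩, hne⟩ := exists_ne (1 : Subgroup.center (P ⧸ Subgroup.center P))
  obtain ⟨a, rfl⟩ := QuotientGroup.mk_surjective abar
  have ha1 : a ∉ Subgroup.center P := fun h =>
    hne (Subtype.ext ((QuotientGroup.eq_one_iff a).2 h))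
  have ha2 : ∀ g, a * g * a⁻¹ * g⁻¹ ∈ Subgroup.center P := by
    intro g
    rw [← QuotientGroup.eq_one_iff]
    have h1 := Subgroup.mem_center_iff.1 habar (g : P ⧸ Subgroup.center P)
    rw [QuotientGroup.mk_mul, QuotientGroup.mk_mul, QuotientGroup.mk_mul, QuotientGroup.mk_inv,
      QuotientGroup.mk_inv, ← h1]
    group
  let φ : P →* Subgroup.center P :=
    { toFun := fun g => ⟨a * g * a⁻¹ * g⁻¹, ha2 g⟩
      map_one' := by apply Subtype.ext; simp
      map_mul' := fun g h => by
        apply Subtype.ext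
        change a * (g * h) * a⁻¹ * (g * h)⁻¹ = (a * g * a⁻¹ * g⁻¹) * (a * h * a⁻¹ * h⁻¹)
        calc a * (g * h) * a⁻¹ * (g * h)⁻¹
            = a * g * a⁻¹ * ((a * h * a⁻¹ * h⁻¹) * g⁻¹) := by group
          _ = a * g * a⁻¹ * (g⁻¹ * (a * h * a⁻¹ * h⁻¹)) := by
            rw [Subgroup.mem_center_iff.1 (ha2 h) g⁻¹]
          _ = _ := by group }
  have hN : ∀ x ∈ φ.ker, a * x = x * a := by
    intro x hx
    rw [MonoidHom.mem_ker] at hx
    have h1 : a * x * a⁻¹ * x⁻¹ = 1 := congrArg Subtype.val hx
    calc a * x = (a * x * a⁻¹ * x⁻¹) * (x * a) := by group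
      _ = x * a := by rw [h1, one_mul]
  have hcomm : derivedSeries P 1 ≤ φ.ker := by
    rw [derivedSeries_one, commutator_def, Subgroup.commutator_le]
    intro g _ h _
    rw [MonoidHom.mem_ker, map_commutatorElement, commutatorElement_eq_one_iff_mul_comm]
    apply Subtype.ext
    exact (Subgroup.mem_center_iff.1 (φ h).2 (φ g).1)
  exact ⟨a, φ.ker, ha1, ha2, hN, hcomm⟩

theorem faithful_step [IsAlgClosed K] (p : ℕ) [Fact p.Prime] (hpK : (p : K) ≠ 0) (n : ℕ)
    (IH : ∀ m < n, Goal.{u, v, w} K p m)
    (P : Type u) [Group P] [Finite P] (hP : IsPGroup p P) (V : Type v) [AddCommGroup V]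
    [Module K V] [FiniteDimensional K V] (hV : Module.finrank K V = n)
    (ρ : P →* Module.End K V) (hρ : Function.Injective ρ) :
    derivedSeries P (Nat.log 2 n + 1) ≤ ρ.ker := by
  by_cases hc : Subgroup.center P = ⊤
  · have h1 : derivedSeries P 1 = ⊥ := by
      rw [derivedSeries_one, commutator_eq_bot_iff_center_eq_top]; exact hc
    calc derivedSeries P (Nat.log 2 n + 1) ≤ derivedSeries P 1 :=
          derivedSeries_antitone P (by omega)
      _ = ⊥ := h1
      _ ≤ _ := bot_le
  have heig : ∀ g : P, ⨆ μ, Module.End.eigenspace (ρ g) μ = ⊤ := by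
    intro g
    obtain ⟨k, hk⟩ := hP g
    apply iSup_eig (ρ g) (p ^ k) (by rw [Nat.cast_pow]; exact pow_ne_zero _ hpK)
    rw [← map_pow, hk, map_one]
  by_cases hs : ∀ z ∈ Subgroup.center P, ∃ c : K, ρ z = c • 1
  · -- all central elements are scalar
    obtain ⟨a, N, ha1, ha2, hN, hcomm⟩ := exists_N p hP hc
    obtain ⟨g0, hg0⟩ : ∃ g0, g0 * a ≠ a * g0 := by
      by_contra hh
      push Not at hh
      exact ha1 (Subgroup.mem_center_iff.2 hh)
    obtain ⟨c, hcz⟩ := hs _ (ha2 g0)
    have hc1 : c ≠ 1 := by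
      rintro rfl
      rw [one_smul, ← map_one ρ] at hcz
      have h1 := hρ hcz
      apply hg0
      calc g0 * a = (a * g0 * a⁻¹ * g0⁻¹)⁻¹ * (a * g0) := by group
        _ = a * g0 := by rw [h1]; simp
    have hrel : ∀ v, ρ a (ρ g0 v) = c • ρ g0 (ρ a v) := by
      intro v
      have e : a * g0 = (a * g0 * a⁻¹ * g0⁻¹) * (g0 * a) := by group
      rw [← rho_mul_apply, e, rho_mul_apply, hcz, rho_mul_apply]
      simp
    have hN2 : derivedSeries N (Nat.log 2 n) ≤ (ρ.comp N.subtype).ker := by
      apply le_ker_of_iSup _ (heig a)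
      intro μ
      apply key p n IH (hP.to_subgroup N) (ρ.comp N.subtype)
        (Module.End.eigenspace (ρ a) μ)
      · intro x v hv
        rw [Module.End.mem_eigenspace_iff] at hv ⊢
        change ρ a (ρ x v) = μ • ρ x v
        rw [← rho_mul_apply, hN x x.2, rho_mul_apply, hv, map_smul]
      · by_cases h0 : Module.finrank K (Module.End.eigenspace (ρ a) μ) = 0
        · left; exact h0
        · right
          have hμ : μ ≠ 0 := by
            rintro rfl
            apply h0
            rw [Submodule.finrank_eq_zero, eq_bot_iff]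
            intro v hv
            rw [Module.End.mem_eigenspace_iff, zero_smul] at hv
            have := rho_injective ρ a (hv.trans (map_zero _).symm)
            simpa using this
          have hmaps : ∀ v ∈ Module.End.eigenspace (ρ a) μ,
              ρ g0 v ∈ Module.End.eigenspace (ρ a) (c * μ) := by
            intro v hv
            rw [Module.End.mem_eigenspace_iff] at hv ⊢
            rw [hrel, hv, map_smul, smul_smul]
          have hle : Module.finrank K (Module.End.eigenspace (ρ a) μ)
              ≤ Module.finrank K (Module.End.eigenspace (ρ a) (c * μ)) := by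
            apply LinearMap.finrank_le_finrank_of_injective (f := (ρ g0).restrict hmaps)
            intro x y hxy
            apply Subtype.ext
            apply rho_injective ρ g0
            exact congrArg Subtype.val hxy
          have hdisj : Module.End.eigenspace (ρ a) μ ⊓ Module.End.eigenspace (ρ a) (c * μ)
              = ⊥ := by
            rw [eq_bot_iff]
            rintro v ⟨h1, h2⟩
            rw [SetLike.mem_coe, Module.End.mem_eigenspace_iff] at h1 h2
            rw [h1] at h2
            have h3 : (μ - c * μ) • v = 0 := by rw [sub_smul, h2, sub_self]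
            rcases smul_eq_zero.1 h3 with h4 | h4
            · exfalso
              have : (1 - c) * μ = 0 := by rw [← h4]; ring
              rcases mul_eq_zero.1 this with h5 | h5
              · exact hc1 (sub_eq_zero.1 h5).symm
              · exact hμ h5
            · simpa using h4
          have hsum := Submodule.finrank_sup_add_finrank_inf_eq
            (Module.End.eigenspace (ρ a) μ) (Module.End.eigenspace (ρ a) (c * μ))
          rw [hdisj, finrank_bot] at hsum
          have hle2 := Submodule.finrank_le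
            (Module.End.eigenspace (ρ a) μ ⊔ Module.End.eigenspace (ρ a) (c * μ))
          rw [hV] at hle2
          refine ⟨by omega, ?_⟩
          calc _ = Nat.log 2 (Module.finrank K (Module.End.eigenspace (ρ a) μ) * 2) :=
                (Nat.log_mul_base (by norm_num) h0).symm
            _ ≤ Nat.log 2 n := Nat.log_mono_right (by omega)
    intro x hx
    have hx' : x ∈ derivedSeries P (1 + Nat.log 2 n) := by rwa [add_comm]
    obtain ⟨y, hy, rfl⟩ := derived_add N 1 hcomm (Nat.log 2 n) hx'
    exact hN2 hy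
  · -- a non-scalar central element
    push Not at hs
    obtain ⟨z, hz, hns⟩ := hs
    apply le_ker_of_iSup _ (heig z)
    intro μ
    apply key p n IH hP ρ (Module.End.eigenspace (ρ z) μ)
    · intro g v hv
      rw [Module.End.mem_eigenspace_iff] at hv ⊢
      rw [← rho_mul_apply, ← Subgroup.mem_center_iff.1 hz g, rho_mul_apply, hv, map_smul]
    · right
      have hlt : Module.finrank K (Module.End.eigenspace (ρ z) μ) < n := by
        rw [← hV]
        apply Submodule.finrank_lt
        intro htop
        apply hns μ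
        ext v
        have hv : v ∈ Module.End.eigenspace (ρ z) μ := htop ▸ Submodule.mem_top
        rw [Module.End.mem_eigenspace_iff] at hv
        simpa using hv
      exact ⟨hlt, by have := Nat.log_mono_right (b := 2) hlt.le; omega⟩

theorem caseA [IsAlgClosed K] (p : ℕ) [Fact p.Prime] (hpK : (p : K) ≠ 0) (n : ℕ) :
    Goal.{u, v, w} K p n := by
  induction n using Nat.strong_induction_on with
  | _ n IH =>
    intro P _ _ hP V _ _ _ hV ρ
    have hinj : Function.Injective (QuotientGroup.lift ρ.ker ρ (fun x hx => hx)) := by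
      intro a b
      induction a using QuotientGroup.induction_on with
      | H a =>
        induction b using QuotientGroup.induction_on with
        | H b =>
          intro hab
          rw [QuotientGroup.lift_mk, QuotientGroup.lift_mk] at hab
          rw [QuotientGroup.eq, MonoidHom.mem_ker, map_mul, ← hab, ← map_mul]
          simp
    have h1 := faithful_step p hpK n IH (P ⧸ ρ.ker) (hP.to_quotient _) V hV
      (QuotientGroup.lift ρ.ker ρ (fun x hx => hx)) hinj
    intro x hx
    have h2 : (QuotientGroup.mk' ρ.ker) x ∈ derivedSeries (P ⧸ ρ.ker) (Nat.log 2 n + 1) :=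
      map_derivedSeries_le_derivedSeries (QuotientGroup.mk' ρ.ker) _
        (Subgroup.mem_map_of_mem _ hx)
    have h3 := h1 h2
    rw [MonoidHom.mem_ker] at h3 ⊢
    simpa using h3

end caseA


/-- Let F be a field, n ≥ 1, and P a finite p-group (p a prime) admitting an injective homomorphism into the general linear group of degree n over F. Then the derived length of P is at most ⌊log₂ n⌋ + 1: that term of the derived series of P is trivial. -/
theorem result {P : Type*} [Group P] [Finite P] (p : ℕ) [Fact p.Prime] (hP : IsPGroup p P) (F : Type*) [Field F] (n : ℕ) (hn : 1 ≤ n) (ρ : P →* Matrix.GeneralLinearGroup (Fin n) F) (hρ : Function.Injective ρ) : derivedSeries P (Nat.log 2 n + 1) = ⊥ := by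
  classical
  let K := AlgebraicClosure F
  let ρ' : P →* Module.End K (Fin n → K) :=
    ((Matrix.toLinAlgEquiv' : Matrix (Fin n) (Fin n) K ≃ₐ[K] _) : _ →* _).comp
      ((Units.coeHom _).comp ((Matrix.GeneralLinearGroup.map (algebraMap F K)).comp ρ))
  have hinj : ρ'.ker = ⊥ := by
    rw [eq_bot_iff]
    intro g hg
    rw [MonoidHom.mem_ker] at hg
    have h1 : ((ρ g).val.map (algebraMap F K)) = 1 := by
      apply (Matrix.toLinAlgEquiv' : Matrix (Fin n) (Fin n) K ≃ₐ[K] _).injective
      rw [map_one]
      exact hg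
    have h2 : (ρ g).val = 1 := by
      apply Matrix.map_injective (algebraMap F K).injective
      change (ρ g).val.map (algebraMap F K) = (1 : Matrix (Fin n) (Fin n) F).map (algebraMap F K)
      rw [h1]
      simp
    rw [Subgroup.mem_bot]
    apply hρ
    rw [map_one]
    exact Units.ext h2
  rw [eq_bot_iff, ← hinj]
  have hfr : Module.finrank K (Fin n → K) = n := by simp
  by_cases hpK : (p : K) = 0
  · apply caseB p hP hpK ρ'
    rw [hfr]
    exact (Nat.lt_pow_succ_log_self (by norm_num) n).le
  · exact caseA p hpK n P hP (Fin n → K) hfr ρ'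

end Cfsg.Agent.S4010
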