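import Cfsg.Statements.S4558
import Cfsg.Agent.Lib.Helper4Eigen
-- import your own Cfsg.Agent.* helpers here

set_option autoImplicit false
open Cfsg

namespace Cfsg.Agent.S4558

open Polynomial in
theorem dvd_of_sum_roots_eq_zero (p : ℕ) [hp : Fact p.Prime] (j n : ℕ) (μ : Fin n → ℂ)
    (hμ : ∀ i, μ i ^ (p ^ j) = 1) (h0 : ∑ i, μ i = 0) : p ∣ n := by
  rcases Nat.eq_zero_or_pos j with rfl | hj
  · have : ∀ i, μ i = 1 := fun i => by simpa using hμ i
    simp only [this, Finset.sum_const, Finset.card_univ, Fintype.card_fin, nsmul_eq_mul,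
      mul_one] at h0
    have : n = 0 := by exact_mod_cast h0
    rw [this]; exact dvd_zero p
  · obtain ⟨k, rfl⟩ : ∃ k, j = k + 1 := ⟨j - 1, by omega⟩
    have hpos : 0 < p ^ (k + 1) := pow_pos hp.out.pos _
    have hζ := Complex.isPrimitiveRoot_exp (p ^ (k + 1)) hpos.ne'
    set ζ := Complex.exp (2 * Real.pi * Complex.I / ((p ^ (k + 1) : ℕ) : ℂ)) with hζdef
    have hex : ∀ i, ∃ a : ℕ, ζ ^ a = μ i := by
      intro i
      obtain ⟨a, -, ha⟩ := hζ.eq_pow_of_pow_eq_one (hμ i)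
      exact ⟨a, ha⟩
    choose a ha using hex
    let f : ℤ[X] := ∑ i, X ^ (a i)
    have hf0 : aeval ζ f = 0 := by
      simp only [f, map_sum, map_pow, aeval_X, ha, h0]
    have hdvd : cyclotomic (p ^ (k + 1)) ℤ ∣ f := by
      rw [cyclotomic_eq_minpoly hζ hpos]
      exact minpoly.isIntegrallyClosed_dvd (hζ.isIntegral hpos) hf0
    have h1 : (cyclotomic (p ^ (k + 1)) ℤ).eval 1 ∣ f.eval 1 := eval_dvd hdvd
    rw [eval_one_cyclotomic_prime_pow] at h1
    have h2 : f.eval 1 = (n : ℤ) := by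
      simp [f, eval_finsetSum]
    rw [h2] at h1
    exact_mod_cast h1

/-- Let χ be a character of the finite group G and g an element of p-power order for the prime p. If χ g = 0, then p divides the degree of χ. -/
theorem result {G : Type*} [Group G] [Finite G] (p : ℕ) [Fact p.Prime] (χ : G → ℂ) (hχ : Cfsg.IsCharacter G χ) (g : G) (hg : ∃ j : ℕ, orderOf g = p ^ j) (h0 : χ g = 0) : p ∣ Cfsg.charDegree χ := by
  obtain ⟨n, ρ, rfl⟩ := hχ
  obtain ⟨j, hj⟩ := hg
  obtain ⟨μ, h1, -, -, h4, -⟩ := Cfsg.Agent.Lib.Helper4Eigen.exists_eigenvalues ρ g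
  rw [hj] at h1
  rw [h4] at h0
  have h5 := dvd_of_sum_roots_eq_zero p j _ μ h1 h0
  have h6 : Cfsg.charDegree ρ.character = Module.finrank ℂ (Fin n → ℂ) := by
    unfold Cfsg.charDegree
    rw [Representation.char_one]
    simp
  rw [h6]
  exact h5

end Cfsg.Agent.S4558
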