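import Cfsg.Statements.S1634
import Cfsg.Agent.Lib.Helper33LM2025
import Cfsg.Agent.Lib.Helper33LHS2

set_option autoImplicit false
open Cfsg
open Cfsg.Agent.Lib.Helper33LFrame Cfsg.Agent.Lib.Helper33LMcL Cfsg.Agent.Lib.Helper33LCo0 Cfsg.Agent.Lib.Helper33LHS Cfsg.Agent.Lib.Helper33LHS2 Cfsg.Agent.Lib.Helper33LPair Cfsg.Agent.Lib.Helper33LBase Cfsg.Agent.Lib.Helper33LM2025

namespace Cfsg.Agent.S1634

theorem pick (F : List LV) (ks : List ℤ) (n : ℕ) (h : (C F ks).ncard = n) (hn : n ≠ 0) :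
    ∃ y, y ∈ C F ks := Set.nonempty_of_ncard_ne_zero (by rw [h]; exact hn)

theorem set2025 (v w : LV) :
    {x : ↥Cfsg.leechLattice | Cfsg.sqNorm (x : Cfsg.GolayPt → ℤ) = 32 ∧ Cfsg.dotInt (v : Cfsg.GolayPt → ℤ) (x : Cfsg.GolayPt → ℤ) = 0 ∧ Cfsg.dotInt (w : Cfsg.GolayPt → ℤ) (x : Cfsg.GolayPt → ℤ) = 16} = C [v + w, v] [16, 0] := by
  ext x
  simp only [C, dots, Set.mem_ofPred_eq, List.map_cons, List.map_nil, List.cons.injEq, and_true]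
  rw [AddSubgroup.coe_add, dot_add_left]
  constructor
  · rintro ⟨h1, h2, h3⟩; exact ⟨h1, by omega, h2⟩
  · rintro ⟨h1, h2, h3⟩; exact ⟨h1, h3, by omega⟩

theorem fix_vw (k : ↥Cfsg.Co0) (v w : LV) : (k • (v + w) = v + w ∧ k • v = v) ↔ (k • v = v ∧ k • w = w) := by
  rw [smul_add']
  constructor
  · rintro ⟨h1, h2⟩
    rw [h2] at h1
    exact ⟨h2, add_left_cancel h1⟩
  · rintro ⟨h1, h2⟩
    exact ⟨by rw [h1, h2], h1⟩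

/-- The McLaughlin group acts on 2025 points (minimal vectors orthogonal to v with customary inner product 2 with w) transitively with rank 4 and subdegrees 1, 330, 462, 1232. -/
theorem result (v w : ↥Cfsg.leechLattice) (hv : Cfsg.sqNorm (v : Cfsg.GolayPt → ℤ) = 32) (hw : Cfsg.sqNorm (w : Cfsg.GolayPt → ℤ) = 32) (hvw : Cfsg.dotInt (v : Cfsg.GolayPt → ℤ) (w : Cfsg.GolayPt → ℤ) = -8) : {x : ↥Cfsg.leechLattice | Cfsg.sqNorm (x : Cfsg.GolayPt → ℤ) = 32 ∧ Cfsg.dotInt (v : Cfsg.GolayPt → ℤ) (x : Cfsg.GolayPt → ℤ) = 0 ∧ Cfsg.dotInt (w : Cfsg.GolayPt → ℤ) (x : Cfsg.GolayPt → ℤ) = 16}.ncard = 2025 ∧ (∀ x ∈ {x : ↥Cfsg.leechLattice | Cfsg.sqNorm (x : Cfsg.GolayPt → ℤ) = 32 ∧ Cfsg.dotInt (v : Cfsg.GolayPt → ℤ) (x : Cfsg.GolayPt → ℤ) = 0 ∧ Cfsg.dotInt (w : Cfsg.GolayPt → ℤ) (x : Cfsg.GolayPt → ℤ) = 16}, ∀ x' ∈ {x : ↥Cfsg.leechLattice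 | Cfsg.sqNorm (x : Cfsg.GolayPt → ℤ) = 32 ∧ Cfsg.dotInt (v : Cfsg.GolayPt → ℤ) (x : Cfsg.GolayPt → ℤ) = 0 ∧ Cfsg.dotInt (w : Cfsg.GolayPt → ℤ) (x : Cfsg.GolayPt → ℤ) = 16}, ∃ g : ↥Cfsg.Co0, g • v = v ∧ g • w = w ∧ g • x = x') ∧ ∀ x ∈ {x : ↥Cfsg.leechLattice | Cfsg.sqNorm (x : Cfsg.GolayPt → ℤ) = 32 ∧ Cfsg.dotInt (v : Cfsg.GolayPt → ℤ) (x : Cfsg.GolayPt → ℤ) = 0 ∧ Cfsg.dotInt (w : Cfsg.GolayPt → ℤ) (x : Cfsg.GolayPt → ℤ) = 16}, ∃ y₁ ∈ {x : ↥Cfsg.leechLattice | Cfsg.sqNorm (x : Cfsg.GolayPt → ℤ) = 32 ∧ Cfsg.dotInt (v : Cfsg.GolayPt → ℤ) (x : Cfsg.GolayPt → ℤ) = 0 ∧ Cfsg.dotInt (w : Cfsg.GolayPt → ℤ) (x : Cfsg.GolayPt → ℤ) = 16}, ∃ y₂ ∈ {x : ↥Cfsg.leechLattice | Cfsg.sqNorm (x : Cfsg.GolayPt → ℤ) = 32 ∧ Cfsg.dotInt (v : Cfsg.GolayPt → ℤ) (x : Cfsg.GolayPt → ℤ) = 0 ∧ Cfsg.dotInt (w : Cfsg.GolayPt → ℤ) (x : Cfsg.GolayPt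 → ℤ) = 16}, ∃ y₃ ∈ {x : ↥Cfsg.leechLattice | Cfsg.sqNorm (x : Cfsg.GolayPt → ℤ) = 32 ∧ Cfsg.dotInt (v : Cfsg.GolayPt → ℤ) (x : Cfsg.GolayPt → ℤ) = 0 ∧ Cfsg.dotInt (w : Cfsg.GolayPt → ℤ) (x : Cfsg.GolayPt → ℤ) = 16}, (MulAction.orbit ↥(MulAction.stabilizer ↥Cfsg.Co0 v ⊓ MulAction.stabilizer ↥Cfsg.Co0 w ⊓ MulAction.stabilizer ↥Cfsg.Co0 x) y₁).ncard = 330 ∧ (MulAction.orbit ↥(MulAction.stabilizer ↥Cfsg.Co0 v ⊓ MulAction.stabilizer ↥Cfsg.Co0 w ⊓ MulAction.stabilizer ↥Cfsg.Co0 x) y₂).ncard = 462 ∧ (MulAction.orbit ↥(MulAction.stabilizer ↥Cfsg.Co0 v ⊓ MulAction.stabilizer ↥Cfsg.Co0 w ⊓ MulAction.stabilizer ↥Cfsg.Co0 x) y₃).ncard = 1232 := by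
  have hu : Cfsg.sqNorm ((v + w : LV) : Cfsg.GolayPt → ℤ) = 48 := by
    rw [AddSubgroup.coe_add, sqNorm_add, hv, hw, hvw]; norm_num
  have hv' : v ∈ C [v + w] [24] := by
    refine ⟨hv, ?_⟩
    simp only [dots, List.map_cons, List.map_nil, List.cons.injEq, and_true]
    rw [AddSubgroup.coe_add, dot_add_left, dot_self, hv, dot_comm, hvw]; norm_num
  rw [set2025 v w]
  obtain ⟨g, hg⟩ := mvUV (v + w) v hu hv'
  refine ⟨by rw [ncard_mv g, hg, n2025], ?_, ?_⟩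
  · intro x hx x' hx'
    obtain ⟨k, hk, hkx⟩ := trans_mv g [v + w, v] [16, 0] (hg ▸ T2025) x hx x' hx'
    obtain ⟨e1, e2⟩ := (fix_vw k v w).1 ⟨hk _ (by simp), hk _ (by simp)⟩
    exact ⟨k, e1, e2, hkx⟩
  · intro x hx
    obtain ⟨g, hg⟩ := mvUVM (v + w) v x hu hv' hx
    have hH : ∀ k, k ∈ MulAction.stabilizer ↥Cfsg.Co0 v ⊓ MulAction.stabilizer ↥Cfsg.Co0 w ⊓
        MulAction.stabilizer ↥Cfsg.Co0 x ↔ Fixes k [v + w, v, x] := by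
      intro k
      have := fix_vw k v w
      simp only [Fixes, Subgroup.mem_inf, MulAction.mem_stabilizer_iff, List.mem_cons,
        List.not_mem_nil, or_false, forall_eq_or_imp, forall_eq]
      rw [← this, and_assoc]
    have T : ∀ k, Trans [v + w, v, x] [16, 0, k] := fun k => trans_mv g _ _ (hg ▸ TM k)
    have N : ∀ (s n : ℕ) (k : ℤ), 4 * (s : ℤ) - 128 = k →
        (Cfsg.Agent.Lib.Helper33LL2025.lst.filter (cM s)).length = n →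
        (C [v + w, v, x] [16, 0, k]).ncard = n := by
      intro s n k h hl
      rw [ncard_mv g, hg]; exact nM s n k h hl
    have sub : ∀ k y, y ∈ C [v + w, v, x] [16, 0, k] → y ∈ C [v + w, v] [16, 0] :=
      fun k y hy => ((mem_C_append [v + w, v] [16, 0] x y k rfl).1 hy).1
    have n1 := N 32 330 0 (by norm_num) len330
    have n2 := N 36 462 16 (by norm_num) len462
    have n3 := N 34 1232 8 (by norm_num) len1232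
    obtain ⟨y1, h1⟩ := pick _ _ _ n1 (by norm_num)
    obtain ⟨y2, h2⟩ := pick _ _ _ n2 (by norm_num)
    obtain ⟨y3, h3⟩ := pick _ _ _ n3 (by norm_num)
    refine ⟨y1, sub _ _ h1, y2, sub _ _ h2, y3, sub _ _ h3, ?_⟩
    rw [orbit_eq _ _ y1 h1 (T _) _ hH, orbit_eq _ _ y2 h2 (T _) _ hH, orbit_eq _ _ y3 h3 (T _) _ hH]
    exact ⟨n1, n2, n3⟩

end Cfsg.Agent.S1634
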