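import Cfsg.Statements.S0404
import Cfsg.Agent.Lib.Helper33LOrders
import Cfsg.Agent.S1634

set_option autoImplicit false
open Cfsg
open Cfsg.Agent.Lib.Helper33LFrame Cfsg.Agent.Lib.Helper33LMcL Cfsg.Agent.Lib.Helper33LCo0 Cfsg.Agent.Lib.Helper33LHS Cfsg.Agent.Lib.Helper33LHS2 Cfsg.Agent.Lib.Helper33LPair Cfsg.Agent.Lib.Helper33LBase Cfsg.Agent.Lib.Helper33LGood Cfsg.Agent.Lib.Helper33LOrders

namespace Cfsg.Agent.S0404


/-- Joint stabiliser of two minimal vectors with coordinate dot product −8 is simple of order 898128000. -/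
theorem result (v w : Cfsg.leechLattice) (hv : Cfsg.sqNorm (v : Cfsg.GolayPt → ℤ) = 32) (hw : Cfsg.sqNorm (w : Cfsg.GolayPt → ℤ) = 32) (hvw : Cfsg.dotInt (v : Cfsg.GolayPt → ℤ) (w : Cfsg.GolayPt → ℤ) = -8) : Cfsg.IsMcL ↥(MulAction.stabilizer Cfsg.Co0 v ⊓ MulAction.stabilizer Cfsg.Co0 w) := by
  have hu : Cfsg.sqNorm ((v + w : LV) : Cfsg.GolayPt → ℤ) = 48 := by
    rw [AddSubgroup.coe_add, sqNorm_add, hv, hw, hvw]; norm_num
  have hv' : v ∈ C [v + w] [24] := by
    refine ⟨hv, ?_⟩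
    simp only [dots, List.map_cons, List.map_nil, List.cons.injEq, and_true]
    rw [AddSubgroup.coe_add, dot_add_left, dot_self, hv, dot_comm, hvw]; norm_num
  obtain ⟨g, hg⟩ := mvUV (v + w) v hu hv'
  have hG : Good [v + w, v] 898128000 := good_mv g _ _ (hg ▸ goodMcL)
  have heq : MulAction.stabilizer Cfsg.Co0 v ⊓ MulAction.stabilizer Cfsg.Co0 w = fixG [v + w, v] := by
    ext k
    rw [Subgroup.mem_inf, MulAction.mem_stabilizer_iff, MulAction.mem_stabilizer_iff, mem_fixG,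
      ← S1634.fix_vw]
    simp only [Fixes, List.mem_cons, List.not_mem_nil, or_false, forall_eq_or_imp, forall_eq]
  rw [heq]
  exact hG

end Cfsg.Agent.S0404
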