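import Cfsg.Statements.S3883
import Cfsg.Agent.Lib.Helper98MetaD

set_option autoImplicit false
open Cfsg

namespace Cfsg.Agent.S3883

open Cfsg.Agent.Lib.Helper98MetaA Cfsg.Agent.Lib.Helper98MetaB Cfsg.Agent.Lib.Helper98MetaC
  Cfsg.Agent.Lib.Helper98MetaD in
/-- The Frattini subgroup of a metacyclic `p`-group is generated by the `p`-th powers. -/
theorem frattini_eq_agemo {G : Type*} [Group G] [Finite G] {p : ℕ} [Fact p.Prime]
    (hG : IsPGroup p G) (hmc : Cfsg.IsMetacyclic G) : frattini G = agemo G p := by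
  apply le_antisymm
  · apply Cfsg.Agent.Lib.Helper3PGroup.frattini_le_of_elementary (p := p)
    · obtain ⟨a, b, hN, hgen⟩ := exists_gens hmc
      rw [commutator_eq_zpowers hN hgen, Subgroup.zpowers_le]
      obtain ⟨ρ, hρ1, hρ⟩ := exists_rho hG (Subgroup.zpowers a) b
      rw [hρ a (Subgroup.mem_zpowers a)]
      have h1 : ρ = p * (ρ / p) + 1 := by
        have := Nat.div_add_mod ρ p
        omega
      rw [h1, pow_succ, mul_assoc, mul_inv_cancel, mul_one, mul_comm, pow_mul]
      exact pow_mem_agemo p _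
    · exact fun x => pow_mem_agemo p x
  · unfold agemo
    rw [Subgroup.closure_le]
    rintro _ ⟨y, rfl⟩
    exact Cfsg.Agent.Lib.Helper3PGroup.pow_mem_frattini hG y

/-- Let p be an odd prime and G a finite metacyclic p-group (G has a cyclic normal subgroup with cyclic quotient). Suppose G is non-abelian. Then an element g of G lies outside the Frattini subgroup if and only if its centralizer C_G(g) is abelian. -/
theorem result {G : Type*} [Group G] [Finite G] {p : ℕ} [Fact p.Prime] (hp : p ≠ 2) (hG : IsPGroup p G) (hmc : Cfsg.IsMetacyclic G) (hna : ¬ IsMulCommutative G) (g : G) :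
    g ∉ frattini G ↔ IsMulCommutative ↥(Subgroup.centralizer ({g} : Set G)) := by
  have hpr : p.Prime := Fact.out
  obtain ⟨n, hn⟩ := IsPGroup.iff_card.mp (hG.to_subgroup (commutator G))
  have hn0 : n ≠ 0 := by
    rintro rfl
    rw [pow_zero, ← Cfsg.Agent.Lib.Helper98MetaD.isMulCommutative_iff] at hn
    exact hna hn
  obtain ⟨u, hu⟩ := hG.index (Subgroup.centralizer ({g} : Set G))
  have hA := (Cfsg.Agent.Lib.Helper98MetaC.agemo_main hp hG hmc n hn 1 (by omega)).2 g
  rw [pow_one] at hA
  rw [frattini_eq_agemo hG hmc, hA, hu,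
    Cfsg.Agent.Lib.Helper98MetaD.isMulCommutative_subgroup_iff hp hG hmc n hn _ u hu,
    Nat.pow_le_pow_iff_right hpr.one_lt]
  omega

end Cfsg.Agent.S3883
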