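import Cfsg.Statements.S0007
import Mathlib

set_option autoImplicit false
open Cfsg

namespace Cfsg.Agent.S0007

open Subgroup

/-- Subgroups of coprime index: the intersection has index equal to the product of the indices, and every element is a product of an element of the first subgroup and an element of the second. -/
theorem result {G : Type*} [Group G] [Finite G] (H K : Subgroup G)
    (h : H.index.Coprime K.index) :
    (H ⊓ K).index = H.index * K.index ∧ ∀ g : G, ∃ x ∈ H, ∃ y ∈ K, g = x * y := by
  have h1 : (H ⊓ K).index = H.index * K.index := by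
    apply Nat.le_antisymm index_inf_le
    apply Nat.le_of_dvd (Nat.pos_of_ne_zero index_ne_zero_of_finite)
    exact Nat.Coprime.mul_dvd_of_dvd_of_dvd h (index_dvd_of_le inf_le_left) (index_dvd_of_le inf_le_right)
  refine ⟨h1, ?_⟩
  have h2 : K.relIndex H = K.index := by
    have h3 := relIndex_mul_index (inf_le_left : H ⊓ K ≤ H)
    rw [h1, inf_comm, inf_relIndex_right, mul_comm H.index] at h3
    exact Nat.eq_of_mul_eq_mul_right (Nat.pos_of_ne_zero index_ne_zero_of_finite) h3
  have hstab : MulAction.stabilizer H ((1 : G) : G ⧸ K) = K.subgroupOf H := by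
    ext x
    rw [MulAction.mem_stabilizer_iff, mem_subgroupOf]
    change (((x : G) * 1 : G) : G ⧸ K) = ((1 : G) : G ⧸ K) ↔ _
    rw [mul_one, eq_comm, QuotientGroup.eq, inv_one, one_mul]
  have h4 : (MulAction.orbit H ((1 : G) : G ⧸ K)).ncard = Nat.card (G ⧸ K) := by
    rw [← MulAction.index_stabilizer, hstab, ← index_eq_card]
    exact h2
  have h5 : MulAction.orbit H ((1 : G) : G ⧸ K) = Set.univ := by
    rw [← Set.ncard_univ] at h4
    exact Set.eq_of_subset_of_ncard_le (Set.subset_univ _) h4.ge
  intro g
  have h6 : (g : G ⧸ K) ∈ MulAction.orbit H ((1 : G) : G ⧸ K) := by rw [h5]; trivial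
  obtain ⟨x, hx⟩ := h6
  have hx' : (((x : G) * 1 : G) : G ⧸ K) = (g : G ⧸ K) := hx
  rw [mul_one, QuotientGroup.eq] at hx'
  exact ⟨x, x.2, _, hx', by group⟩

end Cfsg.Agent.S0007
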