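import Cfsg.Statements.S0019
import Cfsg.Agent.Lib.Helper1Hall

set_option autoImplicit false
open Cfsg

namespace Cfsg.Agent.S0019

open Subgroup Cfsg.Agent.Lib.Helper1Basic Cfsg.Agent.Lib.Helper1Hall

universe u

theorem core_step {G : Type*} [Group G] [Finite G] (p : ℕ) [Fact p.Prime] (H₁ H N : Subgroup G)
    (hN : IsPGroup p N) (hNne : N ≠ ⊥) (hNn : ∀ h ∈ H₁, ∀ x ∈ N, h * x * h⁻¹ ∈ N)
    (hfac : ∀ g : G, ∃ x ∈ H₁, ∃ y ∈ H, g = x * y) (hp : ¬ p ∣ H.index) (hsol : Group.IsSolvable H) :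
    ∃ R : Subgroup G, R.Normal ∧ R ≠ ⊥ ∧ Group.IsSolvable R := by
  obtain ⟨g, hg⟩ := exists_conj_mem_of_isPGroup_of_not_dvd_index p hN hp
  obtain ⟨x₁, hx₁, y, hy, rfl⟩ := hfac g
  have hNH : N ≤ H := by
    intro x hx
    have h1 := hg _ (hNn x₁ hx₁ x hx)
    have h2 : y * ((x₁ * y)⁻¹ * (x₁ * x * x₁⁻¹) * (x₁ * y)) * y⁻¹ ∈ H :=
      H.mul_mem (H.mul_mem hy h1) (H.inv_mem hy)
    have e : y * ((x₁ * y)⁻¹ * (x₁ * x * x₁⁻¹) * (x₁ * y)) * y⁻¹ = x := by group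
    rwa [e] at h2
  have hNcore : N ≤ H.normalCore := by
    intro x hx b
    obtain ⟨x', hx', y', hy', e⟩ := hfac b⁻¹
    have hb : b = y'⁻¹ * x'⁻¹ := by
      rw [← inv_inv b, e]; group
    have h1 : x'⁻¹ * x * x'⁻¹⁻¹ ∈ N := hNn _ (H₁.inv_mem hx') x hx
    have e2 : b * x * b⁻¹ = y'⁻¹ * (x'⁻¹ * x * x'⁻¹⁻¹) * y'⁻¹⁻¹ := by rw [hb]; group
    rw [e2]
    exact H.mul_mem (H.mul_mem (H.inv_mem hy') (hNH h1)) (H.inv_mem (H.inv_mem hy'))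
  refine ⟨H.normalCore, inferInstance, ?_, isSolvable_of_le H.normalCore_le⟩
  intro h
  rw [h, le_bot_iff] at hNcore
  exact hNne hNcore

theorem aux (n : ℕ) : ∀ (G : Type u) [Group G] [Finite G], Nat.card G = n →
    ∀ (H₁ H₂ H₃ : Subgroup G), Group.IsSolvable H₁ → Group.IsSolvable H₂ → Group.IsSolvable H₃ →
    (∀ g : G, ∃ x ∈ H₁, ∃ y ∈ H₂, g = x * y) → (∀ g : G, ∃ x ∈ H₁, ∃ y ∈ H₃, g = x * y) →
    H₂.index.Coprime H₃.index → Group.IsSolvable G := by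
  induction n using Nat.strong_induction_on with
  | _ n ih =>
  intro G _ _ hn H₁ H₂ H₃ h₁ h₂ h₃ h12 h13 hcop
  by_cases hbot : H₁ = ⊥
  · have htop : H₂ = ⊤ := by
      rw [eq_top_iff]
      intro g _
      obtain ⟨x, hx, y, hy, rfl⟩ := h12 g
      rw [hbot, mem_bot] at hx
      rw [hx, one_mul]; exact hy
    subst htop
    exact Group.isSolvable_of_surjective (f := (⊤ : Subgroup G).subtype)
      (fun g => ⟨⟨g, mem_top g⟩, rfl⟩)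
  have : Nontrivial H₁ := (nontrivial_iff_ne_bot H₁).mpr hbot
  obtain ⟨p, M, hp, hMn, hMne, hMp, -⟩ := Cfsg.Agent.S0001.exists_normal_pgroup H₁
  have : Fact p.Prime := ⟨hp⟩
  set N : Subgroup G := M.map H₁.subtype with hN
  have hNne : N ≠ ⊥ := by
    rw [hN, Ne, Subgroup.map_eq_bot_iff, ker_subtype, le_bot_iff]; exact hMne
  have hNp : IsPGroup p N := hMp.map H₁.subtype
  have hNn : ∀ h ∈ H₁, ∀ x ∈ N, h * x * h⁻¹ ∈ N := by
    rintro h hh _ ⟨x, hx, rfl⟩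
    exact ⟨⟨h, hh⟩ * x * ⟨h, hh⟩⁻¹, hMn.conj_mem x hx _, rfl⟩
  have hR : ∃ R : Subgroup G, R.Normal ∧ R ≠ ⊥ ∧ Group.IsSolvable R := by
    by_cases h2 : p ∣ H₂.index
    · have h3 : ¬ p ∣ H₃.index := fun h3 => hp.one_lt.ne' (Nat.eq_one_of_dvd_coprimes hcop h2 h3)
      exact core_step p H₁ H₃ N hNp hNne hNn h13 h3 h₃
    · exact core_step p H₁ H₂ N hNp hNne hNn h12 h2 h₂
  obtain ⟨R, hRn, hRne, hRs⟩ := hR
  let π := QuotientGroup.mk' R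
  have hπ : Function.Surjective π := QuotientGroup.mk'_surjective R
  have hfac : ∀ H : Subgroup G, (∀ g : G, ∃ x ∈ H₁, ∃ y ∈ H, g = x * y) →
      ∀ g : G ⧸ R, ∃ x ∈ H₁.map π, ∃ y ∈ H.map π, g = x * y := by
    intro H hH g
    obtain ⟨g, rfl⟩ := hπ g
    obtain ⟨x, hx, y, hy, rfl⟩ := hH g
    exact ⟨π x, mem_map_of_mem π hx, π y, mem_map_of_mem π hy, map_mul π x y⟩
  have hQ : Group.IsSolvable (G ⧸ R) :=
    ih _ (hn ▸ card_quotient_lt_of_ne_bot hRne) (G ⧸ R) rfl (H₁.map π) (H₂.map π) (H₃.map π)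
      (isSolvable_map π H₁) (isSolvable_map π H₂) (isSolvable_map π H₃) (hfac H₂ h12) (hfac H₃ h13)
      (Nat.Coprime.of_dvd (index_map_dvd H₂ hπ) (index_map_dvd H₃ hπ) hcop)
  exact (Group.isSolvable_iff_subgroup_quotient R).mpr ⟨hRs, hQ⟩

/-- A finite group that factorises as H₁H₂ and as H₁H₃ with all three subgroups solvable and the indices of H₂ and H₃ coprime is solvable. -/
theorem result {G : Type*} [Group G] [Finite G] (H₁ H₂ H₃ : Subgroup G)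
    (h₁ : Group.IsSolvable H₁) (h₂ : Group.IsSolvable H₂) (h₃ : Group.IsSolvable H₃)
    (h12 : ∀ g : G, ∃ x ∈ H₁, ∃ y ∈ H₂, g = x * y) (h13 : ∀ g : G, ∃ x ∈ H₁, ∃ y ∈ H₃, g = x * y)
    (hcop : H₂.index.Coprime H₃.index) : Group.IsSolvable G := by
  exact aux _ G rfl H₁ H₂ H₃ h₁ h₂ h₃ h12 h13 hcop

end Cfsg.Agent.S0019
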