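import Cfsg.Statements.S0006
import Cfsg.Agent.S0007
import Cfsg.Agent.S0019
import Cfsg.Agent.S0144

set_option autoImplicit false
open Cfsg

namespace Cfsg.Agent.S0006

open Subgroup Cfsg.Agent.Lib.Helper1Basic

universe u

theorem inherit {G : Type*} [Group G] [Finite G]
    (h : ∀ p : ℕ, p.Prime → ∃ H : Subgroup G, H.index = p ^ (Nat.card G).factorization p)
    (p : ℕ) (hp : p.Prime) (H : Subgroup G) (hH : H.index = p ^ (Nat.card G).factorization p) :
    ∀ q : ℕ, q.Prime → ∃ K : Subgroup H, K.index = q ^ (Nat.card H).factorization q := by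
  have hcard : Nat.card G = Nat.card H * p ^ (Nat.card G).factorization p := by
    rw [← hH, card_mul_index]
  have hfac : ∀ q, (Nat.card G).factorization q = (Nat.card H).factorization q +
      (if p = q then (Nat.card G).factorization p else 0) := by
    intro q
    conv_lhs => rw [hcard]
    rw [Nat.factorization_mul Nat.card_pos.ne' (pow_pos hp.pos _).ne', hp.factorization_pow,
      Finsupp.add_apply, Finsupp.single_apply]
  intro q hq
  by_cases hpq : p = q
  · subst hpq
    refine ⟨⊤, ?_⟩
    have := hfac p
    rw [if_pos rfl] at this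
    have h0 : (Nat.card H).factorization p = 0 := by omega
    rw [h0, pow_zero, index_top]
  · obtain ⟨Hq, hHq⟩ := h q hq
    refine ⟨Hq.subgroupOf H, ?_⟩
    have hcop : H.index.Coprime Hq.index := by
      rw [hH, hHq]
      exact Nat.Coprime.pow _ _ ((Nat.coprime_primes hp hq).mpr hpq)
    have h1 := (Cfsg.Agent.S0007.result H Hq hcop).1
    have h2 := relIndex_mul_index (inf_le_left : H ⊓ Hq ≤ H)
    rw [h1, inf_comm, inf_relIndex_right, mul_comm H.index] at h2
    have h3 : Hq.relIndex H = Hq.index :=
      Nat.eq_of_mul_eq_mul_right (Nat.pos_of_ne_zero index_ne_zero_of_finite) h2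
    change Hq.relIndex H = _
    have := hfac q
    rw [if_neg hpq, add_zero] at this
    rw [h3, hHq, this]

theorem aux (n : ℕ) : ∀ (G : Type u) [Group G] [Finite G], Nat.card G = n →
    (∀ p : ℕ, p.Prime → ∃ H : Subgroup G, H.index = p ^ (Nat.card G).factorization p) →
    Group.IsSolvable G := by
  induction n using Nat.strong_induction_on with
  | _ n ih =>
  intro G _ _ hn h
  have hn0 : Nat.card G ≠ 0 := Nat.card_pos.ne'
  have hprod : ∏ r ∈ (Nat.card G).primeFactors, r ^ (Nat.card G).factorization r = Nat.card G := by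
    have := Nat.prod_factorization_pow_eq_self hn0
    rwa [Finsupp.prod, Nat.support_factorization] at this
  by_cases h3 : 2 < (Nat.card G).primeFactors.card
  · obtain ⟨p₁, p₂, p₃, h₁, h₂, h₃, h12, h13, h23⟩ := Finset.two_lt_card_iff.mp h3
    have key : ∀ p ∈ (Nat.card G).primeFactors, ∃ H : Subgroup G,
        H.index = p ^ (Nat.card G).factorization p ∧ Group.IsSolvable H := by
      intro p hp
      have hpp := Nat.prime_of_mem_primeFactors hp
      obtain ⟨H, hH⟩ := h p hpp
      refine ⟨H, hH, ?_⟩
      have hne : H ≠ ⊤ := by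
        intro htop
        rw [htop, index_top] at hH
        have hpos : (Nat.card G).factorization p ≠ 0 := by
          rw [← Finsupp.mem_support_iff, Nat.support_factorization]; exact hp
        exact (Nat.one_lt_pow hpos hpp.one_lt).ne hH
      exact ih _ (hn ▸ card_lt_card_of_ne_top hne) H rfl (inherit h p hpp H hH)
    obtain ⟨H₁, hi₁, hs₁⟩ := key p₁ h₁
    obtain ⟨H₂, hi₂, hs₂⟩ := key p₂ h₂
    obtain ⟨H₃, hi₃, hs₃⟩ := key p₃ h₃
    have hc : ∀ {p q : ℕ}, p ∈ (Nat.card G).primeFactors → q ∈ (Nat.card G).primeFactors → p ≠ q →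
        (p ^ (Nat.card G).factorization p).Coprime (q ^ (Nat.card G).factorization q) :=
      fun hp hq hpq => Nat.Coprime.pow _ _ ((Nat.coprime_primes (Nat.prime_of_mem_primeFactors hp)
        (Nat.prime_of_mem_primeFactors hq)).mpr hpq)
    exact Cfsg.Agent.S0019.result H₁ H₂ H₃ hs₁ hs₂ hs₃
      (Cfsg.Agent.S0007.result H₁ H₂ (by rw [hi₁, hi₂]; exact hc h₁ h₂ h12)).2
      (Cfsg.Agent.S0007.result H₁ H₃ (by rw [hi₁, hi₃]; exact hc h₁ h₃ h13)).2
      (by rw [hi₂, hi₃]; exact hc h₂ h₃ h23)
  · have hle : (Nat.card G).primeFactors.card ≤ 2 := by omega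
    rcases Nat.lt_or_ge (Nat.card G).primeFactors.card 2 with hlt | hge
    · rcases Nat.lt_or_ge (Nat.card G).primeFactors.card 1 with hlt1 | hge1
      · have h0 : (Nat.card G).primeFactors = ∅ := Finset.card_eq_zero.mp (by omega)
        rw [h0, Finset.prod_empty] at hprod
        exact Cfsg.Agent.S0144.result 2 3 0 0 Nat.prime_two Nat.prime_three (by simp [← hprod])
      · obtain ⟨p, hp⟩ := Finset.card_eq_one.mp (show (Nat.card G).primeFactors.card = 1 by omega)
        have hpp : p.Prime := Nat.prime_of_mem_primeFactors (hp ▸ Finset.mem_singleton_self p)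
        rw [hp, Finset.prod_singleton] at hprod
        exact Cfsg.Agent.S0144.result p 2 ((Nat.card G).factorization p) 0 hpp Nat.prime_two (by rw [pow_zero, mul_one]; exact hprod.symm)
    · obtain ⟨p, q, hpq, hs⟩ := Finset.card_eq_two.mp (show (Nat.card G).primeFactors.card = 2 by omega)
      have hpp : p.Prime := Nat.prime_of_mem_primeFactors (hs ▸ Finset.mem_insert_self p _)
      have hqq : q.Prime := Nat.prime_of_mem_primeFactors
        (hs ▸ Finset.mem_insert_of_mem (Finset.mem_singleton_self q))
      rw [hs, Finset.prod_pair hpq] at hprod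
      exact Cfsg.Agent.S0144.result p q _ _ hpp hqq hprod.symm

/-- Converse of Hall's Theorem: if for every prime p a finite group has a subgroup of index equal to the p-part of the group order (a Hall p-complement), then the group is solvable. -/
theorem result {G : Type*} [Group G] [Finite G]
    (h : ∀ p : ℕ, p.Prime → ∃ H : Subgroup G, H.index = p ^ (Nat.card G).factorization p) :
    Group.IsSolvable G := by
  exact aux _ G rfl h

end Cfsg.Agent.S0006
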