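import Cfsg.Statements.S0048
import Cfsg.Agent.Lib.Helper12Card

set_option autoImplicit false
open Cfsg
open scoped commutatorElement

namespace Cfsg.Agent.S0048

open Subgroup Pointwise in
theorem aux {G : Type*} [Group G] [Finite G] [Group.IsSolvable G]
    (M : Subgroup G) (hM : IsCoatom M) : IsPrimePow M.index := by
  obtain ⟨N, ⟨hNn, hNM⟩, hmin⟩ := WellFounded.has_min
    (wellFounded_lt : WellFounded ((· < ·) : Subgroup G → Subgroup G → Prop))
    {N | N.Normal ∧ ¬ N ≤ M} ⟨⊤, inferInstance, fun h => hM.1 (top_le_iff.1 h)⟩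
  have hmin' : ∀ L : Subgroup G, L.Normal → L < N → L ≤ M := by
    intro L hL hlt
    by_contra h
    exact hmin L ⟨hL, h⟩ hlt
  have hNbot : N ≠ ⊥ := by
    rintro rfl
    exact hNM bot_le
  have hCn : (⁅N, N⁆ : Subgroup G).Normal := inferInstance
  have hCN : ⁅N, N⁆ ≤ N := commutator_le_self N
  have hcomm : ⁅N, N⁆ ≤ M := hmin' _ hCn (Group.IsSolvable.commutator_lt_of_ne_bot hNbot)
  have hsup : M ⊔ N = ⊤ := hM.2 _ (lt_of_le_of_ne le_sup_left (fun h => hNM (h ▸ le_sup_right)))
  have hidx : M.index = M.relIndex N := by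
    rw [Cfsg.Agent.Lib.Helper12Card.relIndex_eq_relIndex_sup, hsup, relIndex_top_right]
  have hne1 : M.index ≠ 1 := by
    rw [Ne, index_eq_one]; exact hM.1
  have hp : (M.index).minFac.Prime := Nat.minFac_prime hne1
  set p := (M.index).minFac with hpdef
  have hpM : p ∣ M.index := Nat.minFac_dvd _
  have := Fact.mk hp
  let P : Sylow p N := default
  set P0 : Subgroup G := (P : Subgroup N).map N.subtype with hP0
  have hP0N : P0 ≤ N := map_subtype_le _
  set L : Subgroup G := P0 ⊔ ⁅N, N⁆ with hL
  have hLN : L ≤ N := sup_le hP0N hCN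
  have hLn : L.Normal := by
    rw [← normalizer_eq_top_iff, eq_top_iff, ← Sylow.normalizer_sup_eq_top P]
    apply sup_le
    · exact normalizer_le_normalizer_sup_normal
    · rw [le_normalizer_iff]
      intro n hn x hx
      have : n * x * n⁻¹ = ⁅n, x⁆ * x := by rw [commutatorElement_def]; group
      rw [this]
      exact mul_mem (mem_sup_right (commutator_mem_commutator hn (hLN hx))) hx
  have hLM : ¬ L ≤ M := by
    intro h
    have h1 : P0 ≤ M ⊓ N := le_inf (le_sup_left.trans h) hP0N
    have h2 : M.relIndex N ∣ P0.relIndex N := by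
      rw [← inf_relIndex_right]
      exact relIndex_dvd_of_le_left N h1
    have h3 : P0.relIndex N = (P : Subgroup N).index := by
      rw [relIndex, hP0]
      congr 1
      exact comap_map_eq_self_of_injective N.subtype_injective _
    exact P.not_dvd_index (h3 ▸ ((hidx ▸ hpM).trans h2))
  have hLeq : L = N := by
    by_contra hne
    exact hLM (hmin' L hLn (lt_of_le_of_ne hLN hne))
  have huniv : (P0 : Set G) * (M : Set G) = Set.univ := by
    rw [Set.eq_univ_iff_forall]
    intro g
    have hg : g ∈ N ⊔ M := by rw [sup_comm, hsup]; exact mem_top g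
    rw [← SetLike.mem_coe, normal_mul] at hg
    obtain ⟨n, hn, m, hm, rfl⟩ := hg
    have hn' : n ∈ P0 ⊔ ⁅N, N⁆ := by rw [← hL, hLeq]; exact hn
    rw [← SetLike.mem_coe, mul_normal] at hn'
    obtain ⟨x, hx, c, hc, rfl⟩ := hn'
    exact ⟨x, hx, c * m, mul_mem (hcomm hc) hm, by group⟩
  have hcard := Cfsg.Agent.Lib.Helper12Card.card_mul_set P0 M
  rw [huniv, Nat.card_coe_set_eq, Set.ncard_univ, ← M.card_mul_index] at hcard
  have hidx2 : M.index = M.relIndex P0 := Nat.eq_of_mul_eq_mul_left Nat.card_pos hcard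
  obtain ⟨k, hk⟩ := (P.2.map N.subtype).exists_card_eq
  have hdvd : M.index ∣ p ^ k := by
    rw [hidx2, ← hk]; exact relIndex_dvd_card ..
  obtain ⟨j, -, hj⟩ := (Nat.dvd_prime_pow hp).1 hdvd
  rw [hj]
  apply hp.isPrimePow.pow
  rintro rfl
  exact hne1 (by rw [hj, pow_zero])

/-- In a finite solvable group every maximal subgroup has index a prime power. -/
theorem result {G : Type*} [Group G] [Finite G] [Group.IsSolvable G]
    (M : Subgroup G) (hM : IsCoatom M) : IsPrimePow M.index := by
  exact aux M hM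

end Cfsg.Agent.S0048
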