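import Cfsg.Statements.S0056
import Cfsg.Agent.Lib.Helper2Coprime
import Mathlib.GroupTheory.Perm.Cycle.Type

set_option autoImplicit false
open Cfsg

namespace Cfsg.Agent.S0056

/-- A coprime action on an abelian group that fixes all elements of prime order is trivial. -/
theorem result {G : Type*} [Group G] [Finite G] (A V : Subgroup G) [IsMulCommutative V]
    (hAV : A ≤ Subgroup.normalizer (V : Set G)) (hcop : (Nat.card A).Coprime (Nat.card V))
    (hΩ : ∀ v ∈ V, (orderOf v).Prime → ∀ a ∈ A, a * v = v * a) : A ≤ Subgroup.centralizer (V : Set G) := by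
  obtain ⟨h1, h2⟩ := Cfsg.Agent.Lib.Helper2Coprime.abelian_decomposition A V hAV hcop
  rw [← Subgroup.commutator_eq_bot_iff_le_centralizer, Subgroup.commutator_comm]
  by_contra hne
  have hcard : Nat.card (⁅V, A⁆ : Subgroup G) ≠ 1 := by
    rwa [Ne, Subgroup.card_eq_one]
  have hp := Nat.minFac_prime hcard
  have := Fact.mk hp
  obtain ⟨w, hw⟩ := exists_prime_orderOf_dvd_card' (G := (⁅V, A⁆ : Subgroup G)) _ (Nat.minFac_dvd _)
  have hle : ⁅V, A⁆ ≤ V := le_sup_right.trans h2.le
  have hwV : (w : G) ∈ V := hle w.2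
  have hord : orderOf (w : G) = (Nat.card (⁅V, A⁆ : Subgroup G)).minFac := by
    rw [Subgroup.orderOf_coe, hw]
  have hwC : (w : G) ∈ Subgroup.centralizer (A : Set G) := by
    intro a ha
    exact hΩ w hwV (hord ▸ hp) a ha
  have : (w : G) ∈ (V ⊓ Subgroup.centralizer (A : Set G)) ⊓ ⁅V, A⁆ := ⟨⟨hwV, hwC⟩, w.2⟩
  rw [h1, Subgroup.mem_bot] at this
  rw [this, orderOf_one] at hord
  exact hp.one_lt.ne hord

end Cfsg.Agent.S0056
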