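import Cfsg.Statements.S0064

set_option autoImplicit false
open Cfsg

namespace Cfsg.Agent.S0064

theorem isSubnormal_of_normalizerCondition {G : Type*} [Group G] [Finite G]
    (h : NormalizerCondition G) (H : Subgroup G) : H.IsSubnormal := by
  induction H using WellFoundedGT.induction with
  | ind H ih =>
    by_cases hH : H = ⊤
    · rw [hH]; exact Subgroup.IsSubnormal.top
    · have hlt : H < Subgroup.normalizer (H : Set G) := h H (lt_top_iff_ne_top.2 hH)
      exact Subgroup.IsSubnormal.step H _ hlt.le (ih _ hlt) Subgroup.normal_in_normalizer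

/-- A finite group is nilpotent exactly when each of its subgroups is subnormal. -/
theorem result {G : Type*} [Group G] [Finite G] :
    Group.IsNilpotent G ↔ ∀ H : Subgroup G, H.IsSubnormal := by
  have q := (Group.isNilpotent_of_finite_tfae (G := G)).out 0 1
  rw [q]
  constructor
  · exact isSubnormal_of_normalizerCondition
  · intro h H hH
    rcases Subgroup.IsSubnormal.iff_eq_top_or_exists.1 (h H) with h1 | ⟨K, hHK, -, hn⟩
    · exact absurd h1 hH.ne
    · exact lt_of_lt_of_le hHK ((Subgroup.normal_subgroupOf_iff_le_normalizer hHK.le).1 hn)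

end Cfsg.Agent.S0064
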