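import Cfsg.Statements.S0065

set_option autoImplicit false
open Cfsg
open scoped commutatorElement

namespace Cfsg.Agent.S0065

theorem aux {G : Type*} [Group G] (N : Subgroup G) [N.Normal] (n : ℕ) :
    N ⊓ Subgroup.upperCentralSeries G n ≠ ⊥ → N ⊓ Subgroup.center G ≠ ⊥ := by
  induction n with
  | zero => intro h; simp at h
  | succ n ih =>
    intro h
    by_cases h0 : N ⊓ Subgroup.upperCentralSeries G n = ⊥
    · obtain ⟨⟨x, hx⟩, hx1'⟩ := Subgroup.ne_bot_iff_exists_ne_one.1 h
      have hx1 : x ≠ 1 := fun h => hx1' (Subtype.ext h)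
      intro hbot
      apply hx1
      have hxc : x ∈ Subgroup.center G := by
        rw [Subgroup.mem_center_iff]
        intro g
        have h1 : ⁅x, g⁆ ∈ Subgroup.upperCentralSeries G n :=
          Subgroup.mem_upperCentralSeries_succ_iff.1 hx.2 g
        have h2 : ⁅x, g⁆ ∈ N := by
          rw [commutatorElement_def]
          have := ‹N.Normal›.conj_mem x⁻¹ (inv_mem hx.1) g
          have h3 := mul_mem hx.1 this
          simpa [mul_assoc] using h3
        have h3 : ⁅x, g⁆ ∈ N ⊓ Subgroup.upperCentralSeries G n := ⟨h2, h1⟩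
        rw [h0, Subgroup.mem_bot, commutatorElement_eq_one_iff_mul_comm] at h3
        exact h3.symm
      have : x ∈ N ⊓ Subgroup.center G := ⟨hx.1, hxc⟩
      rwa [hbot, Subgroup.mem_bot] at this
    · exact ih h0

/-- A nontrivial normal subgroup of a nilpotent group intersects the centre nontrivially. -/
theorem result {G : Type*} [Group G] [Finite G] [Group.IsNilpotent G]
    (N : Subgroup G) [N.Normal] (hN : N ≠ ⊥) : N ⊓ Subgroup.center G ≠ ⊥ := by
  obtain ⟨n, hn⟩ := Group.IsNilpotent.nilpotent G
  apply aux N n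
  rw [hn, inf_top_eq]
  exact hN

end Cfsg.Agent.S0065
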