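import Cfsg.Statements.S0069
import Cfsg.Agent.S0039
import Cfsg.Agent.S0040
import Cfsg.Agent.S0041
import Cfsg.Agent.S0056
import Cfsg.Agent.S0068
import Cfsg.Agent.Lib.Helper1SylowInv
import Cfsg.Agent.Lib.Helper1Frob
import Cfsg.Agent.Lib.Helper29Basic

set_option autoImplicit false
open Cfsg

namespace Cfsg.Agent.S0069

open Subgroup
open scoped commutatorElement Pointwise

theorem orderOf_conj' {H : Type*} [Group H] (g v : H) : orderOf (g * v * g⁻¹) = orderOf v := by
  have := (MulAut.conj g).orderOf_eq v
  simpa using this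

/-- A nontrivial Z-group in which all subgroups of order `pq` are cyclic has nontrivial centre. -/
theorem zgroup_center {H : Type*} [Group H] [Finite H] [IsZGroup H] [Nontrivial H]
    (hpq : ∀ A : Subgroup H, (∃ p q : ℕ, p.Prime ∧ q.Prime ∧ Nat.card A = p * q) → IsCyclic A) :
    center H ≠ ⊥ := by
  classical
  set N : Subgroup H := commutator H with hN
  have hcop : (Nat.card N).Coprime N.index := IsZGroup.coprime_commutator_index H
  obtain ⟨B, hB⟩ := N.exists_right_complement'_of_coprime hcop
  have hNcyc : IsCyclic N := IsZGroup.isCyclic_commutator H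
  have hNB : N ⊓ B = ⊥ := hB.disjoint.eq_bot
  have hBcard : Nat.card B = N.index := by
    have h1 := hB.card_mul_card
    have h2 := N.card_mul_index
    have : 0 < Nat.card N := Nat.card_pos
    exact Nat.eq_of_mul_eq_mul_left this (h1.trans h2.symm)
  have hBne : B ≠ ⊥ := by
    intro h
    have h1 : N.index = 1 := by rw [← hBcard, h]; simp
    have h2 : N = ⊤ := index_eq_one.1 h1
    exact (IsZGroup.commutator_lt H).ne h2
  have hBcomm : ∀ x ∈ B, ∀ y ∈ B, x * y = y * x := by
    intro x hx y hy
    have h1 : ⁅x, y⁆ ∈ N ⊓ B := mem_inf.2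
      ⟨commutator_mem_commutator (mem_top x) (mem_top y),
        by rw [commutatorElement_def]; exact B.mul_mem (B.mul_mem (B.mul_mem hx hy) (B.inv_mem hx)) (B.inv_mem hy)⟩
    rw [hNB, mem_bot, commutatorElement_eq_one_iff_mul_comm] at h1
    exact h1
  have hBnt : Nat.card B ≠ 1 := by
    intro h
    exact hBne ((card_eq_one).1 h)
  obtain ⟨q, hq, hqB⟩ := Nat.exists_prime_and_dvd hBnt
  have : Fact q.Prime := ⟨hq⟩
  obtain ⟨b', hb'⟩ := exists_prime_orderOf_dvd_card' (G := B) q hqB
  set b : H := (b' : H) with hb
  have hbB : b ∈ B := b'.2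
  have hbo : orderOf b = q := by rw [hb, orderOf_coe]; exact hb'
  have hb1 : b ≠ 1 := by
    intro h; rw [h, orderOf_one] at hbo; exact hq.one_lt.ne hbo
  have : IsMulCommutative N := ⟨⟨fun x y => by
    obtain ⟨g, hg⟩ := hNcyc.exists_generator
    obtain ⟨i, rfl⟩ := hg x
    obtain ⟨j, rfl⟩ := hg y
    exact (Commute.zpow_zpow_self g i j)⟩⟩
  have hqN : (Nat.card (zpowers b)).Coprime (Nat.card N) := by
    rw [Nat.card_zpowers, hbo]
    exact (Nat.Coprime.coprime_dvd_right (hBcard ▸ hqB) hcop).symm
  have hcent : zpowers b ≤ centralizer (N : Set H) := by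
    refine Cfsg.Agent.S0056.result (zpowers b) N ?_ hqN ?_
    · rw [normalizer_eq_top]; exact le_top
    · intro v hv hvp a ha
      -- zpowers v is normalised by b
      have hconj : ∀ g : H, g * v * g⁻¹ ∈ zpowers v := by
        intro g
        have h1 : zpowers (g * v * g⁻¹) = zpowers v := by
          apply Cfsg.Agent.Lib.Helper29Basic.eq_of_card_eq_of_le_cyclic hNcyc
          · rw [zpowers_le]
            exact (inferInstance : N.Normal).conj_mem v hv g
          · rw [zpowers_le]; exact hv
          · rw [Nat.card_zpowers, Nat.card_zpowers, orderOf_conj']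
        rw [← h1]; exact mem_zpowers _
      have hvn : (zpowers v).Normal := by
        constructor
        intro x hx g
        obtain ⟨i, rfl⟩ := hx
        show g * v ^ i * g⁻¹ ∈ zpowers v
        rw [← conj_zpow]
        exact (zpowers v).zpow_mem (hconj g) i
      have hvN : zpowers v ≤ N := by rw [zpowers_le]; exact hv
      have hcop2 : (Nat.card (zpowers v)).Coprime (Nat.card (zpowers b)) :=
        (Nat.Coprime.coprime_dvd_right (card_dvd_of_le hvN) hqN).symm
      have hcard : Nat.card (zpowers v ⊔ zpowers b : Subgroup H) = orderOf v * q := by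
        have h1 := Cfsg.Agent.Lib.Helper29Basic.card_sup_dvd (zpowers v) (zpowers b)
        have h2 : Nat.card (zpowers v) * Nat.card (zpowers b) ∣
            Nat.card (zpowers v ⊔ zpowers b : Subgroup H) :=
          Nat.Coprime.mul_dvd_of_dvd_of_dvd hcop2 (card_dvd_of_le le_sup_left)
            (card_dvd_of_le le_sup_right)
        have h3 := Nat.dvd_antisymm h1 h2
        rw [h3, Nat.card_zpowers, Nat.card_zpowers, hbo]
      have hcyc := hpq (zpowers v ⊔ zpowers b) ⟨orderOf v, q, hvp, hq, hcard⟩
      obtain ⟨g, hg⟩ := hcyc.exists_generator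
      obtain ⟨i, hi⟩ := hg ⟨a, (le_sup_right : zpowers b ≤ _) ha⟩
      obtain ⟨j, hj⟩ := hg ⟨v, (le_sup_left : zpowers v ≤ _) (mem_zpowers v)⟩
      have h3 := congrArg Subtype.val hi
      have h4 := congrArg Subtype.val hj
      simp only [coe_zpow] at h3 h4
      have h5 : (g : H) ^ i * (g : H) ^ j = (g : H) ^ j * (g : H) ^ i :=
        (Commute.zpow_zpow_self (g : H) i j)
      rw [h3, h4] at h5
      exact h5
  intro hbot
  have hbc : b ∈ center H := by
    rw [mem_center_iff]
    intro h
    have h1 : h ∈ (N : Set H) * (B : Set H) := by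
      rw [hB.mul_eq]; exact Set.mem_univ h
    obtain ⟨n, hn, c, hc, rfl⟩ := h1
    have h2 : n * b = b * n := (mem_centralizer_iff.1 (hcent (mem_zpowers b))) n hn
    have h3 := hBcomm c hc b hbB
    rw [mul_assoc, h3, ← mul_assoc, h2, mul_assoc]
  rw [hbot, mem_bot] at hbc
  exact hb1 hbc

/-- A Frobenius complement has nontrivial centre: if H ≠ 1 complements a nontrivial normal subgroup K and every nonidentity element of H has trivial centraliser in K, then the centre of H is nontrivial. -/
theorem result {G : Type*} [Group G] [Finite G] (K H : Subgroup G) [K.Normal]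
    (hc : Subgroup.IsComplement' K H) (hK : K ≠ ⊥) (hH : H ≠ ⊥) (hfpf : ∀ h ∈ H, h ≠ 1 → K ⊓ Subgroup.centralizer {h} = ⊥) :
    Subgroup.center H ≠ ⊥ := by
  classical
  by_cases heven : 2 ∣ Nat.card H
  · obtain ⟨⟨s, hsH, hs2, huniq, -⟩, -⟩ := Cfsg.Agent.S0068.result K H hc hK hfpf heven
    intro hbot
    have h1 : (⟨s, hsH⟩ : H) ∈ center H := by
      rw [mem_center_iff]
      intro h
      have h2 := huniq ((h : G) * s * (h : G)⁻¹) (H.mul_mem (H.mul_mem h.2 hsH) (H.inv_mem h.2))
        (by rw [orderOf_conj']; exact hs2)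
      apply Subtype.ext
      show (h : G) * s = s * h
      calc (h : G) * s = ((h : G) * s * (h : G)⁻¹) * h := by group
        _ = s * h := by rw [h2]
    rw [hbot, mem_bot] at h1
    have h3 : s = 1 := congrArg Subtype.val h1
    rw [h3, orderOf_one] at hs2
    omega
  · have hZ : IsZGroup H := by
      constructor
      intro p hp P
      have : Fact p.Prime := ⟨hp⟩
      rcases Cfsg.Agent.S0040.result K H hc hK hfpf p P with h | ⟨n, ⟨e⟩⟩
      · exact h
      · exfalso
        apply heven
        have h1 : Nat.card P = 4 * 2 ^ n := by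
          have : NeZero (2 ^ n) := ⟨by positivity⟩
          rw [Nat.card_congr e.toEquiv, Nat.card_eq_fintype_card, QuaternionGroup.card]
        have h2 : Nat.card P ∣ Nat.card H := card_subgroup_dvd_card _
        exact Dvd.dvd.trans ⟨2 * 2 ^ n, by rw [h1]; ring⟩ h2
    have hnt : Nontrivial H := (nontrivial_iff_ne_bot H).2 hH
    apply zgroup_center
    rintro A' ⟨p, q, hp, hq, hcard⟩
    set A : Subgroup G := A'.map H.subtype with hA
    have hAH : A ≤ H := map_subtype_le A'
    have e : A' ≃* A := A'.equivMapOfInjective H.subtype H.subtype_injective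
    have hFrob : Cfsg.IsFrobeniusComplement H := (Cfsg.Agent.S0039.result K H hc hK hH).2 hfpf
    have hidx : H.index = Nat.card K := by
      have h1 := hc.card_mul_card
      have h2 := H.card_mul_index
      have : 0 < Nat.card H := Nat.card_pos
      apply Nat.eq_of_mul_eq_mul_left this
      rw [h2, ← h1, mul_comm]
    have hcopHK : (Nat.card H).Coprime (Nat.card K) := by
      have h1 := Cfsg.Agent.Lib.Helper1Frob.card_dvd_index_sub_one hFrob
      rw [hidx] at h1
      have hpos : 0 < Nat.card K := Nat.card_pos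
      obtain ⟨c, hc'⟩ := h1
      have h2 : Nat.card K = Nat.card H * c + 1 := by omega
      rw [h2]
      simp
    have hcopAK : (Nat.card A).Coprime (Nat.card K) :=
      Nat.Coprime.coprime_dvd_left (card_dvd_of_le hAH) hcopHK
    have hKnt : Nat.card K ≠ 1 := fun h => hK (card_eq_one.1 h)
    obtain ⟨r, hr, hrK⟩ := Nat.exists_prime_and_dvd hKnt
    have : Fact r.Prime := ⟨hr⟩
    have hAsolv : Group.IsSolvable A := by
      have : Group.IsSolvable A' := inferInstance
      exact Group.isSolvable_of_surjective (f := e.toMonoidHom) e.surjective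
    obtain ⟨R, hR⟩ := Cfsg.Agent.Lib.Helper1SylowInv.exists_invariant_sylow A K
      (by rw [normalizer_eq_top]; exact le_top) hcopAK (Or.inl hAsolv) r
    set R' : Subgroup G := (R : Subgroup K).map K.subtype with hR'
    have hR'K : R' ≤ K := map_subtype_le _
    have eR : (R : Subgroup K) ≃* R' :=
      (R : Subgroup K).equivMapOfInjective K.subtype K.subtype_injective
    have hR'p : IsPGroup r R' := R.2.map K.subtype
    have hRnt : Nontrivial R' := by
      have h1 : r ∣ Nat.card (R : Subgroup K) := by
        exact R.dvd_card_of_dvd_card hrK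
      rw [Nat.card_congr eR.toEquiv] at h1
      rw [← Finite.one_lt_card_iff_nontrivial]
      exact lt_of_lt_of_le hr.one_lt (Nat.le_of_dvd Nat.card_pos h1)
    set V : Subgroup G := R' ⊓ centralizer (R' : Set G) with hV
    have hVne : V ≠ ⊥ := by
      have h1 : Nontrivial (center R') := hR'p.center_nontrivial
      obtain ⟨z, hz⟩ := exists_ne (1 : center R')
      intro hbot
      have h2 : ((z : R') : G) ∈ V := by
        refine mem_inf.2 ⟨(z : R').2, ?_⟩
        rw [mem_centralizer_iff]
        intro x hx
        have h3 := (mem_center_iff.1 z.2) ⟨x, hx⟩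
        exact congrArg Subtype.val h3
      rw [hbot, mem_bot] at h2
      apply hz
      apply Subtype.ext
      apply Subtype.ext
      exact h2
    have hVcomm : IsMulCommutative V := ⟨⟨fun x y => by
      apply Subtype.ext
      have hx := mem_inf.1 x.2
      have hy := mem_inf.1 y.2
      exact ((mem_centralizer_iff.1 hx.2) y hy.1).symm⟩⟩
    have hAV : A ≤ normalizer (V : Set G) := by
      intro a ha
      have h1 := hR ha
      have h2 : ∀ a ∈ normalizer (R' : Set G), ∀ x ∈ V, a * x * a⁻¹ ∈ V := by
        intro a h1 x hx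
        have hx' := mem_inf.1 hx
        refine mem_inf.2 ⟨(mem_normalizer_iff.1 h1 x).1 hx'.1, ?_⟩
        rw [mem_centralizer_iff]
        intro y hy
        have h3 : a⁻¹ * y * a ∈ R' := by
          have := (mem_normalizer_iff.1 ((normalizer (R' : Set G)).inv_mem h1) y).1 hy
          simpa using this
        have h4 := (mem_centralizer_iff.1 hx'.2) _ h3
        calc y * (a * x * a⁻¹) = a * ((a⁻¹ * y * a) * x) * a⁻¹ := by group
          _ = a * (x * (a⁻¹ * y * a)) * a⁻¹ := by rw [h4]
          _ = a * x * a⁻¹ * y := by group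
      rw [mem_normalizer_iff]
      intro x
      constructor
      · exact h2 a h1 x
      · intro hx
        have := h2 a⁻¹ ((normalizer (R' : Set G)).inv_mem h1) _ hx
        simpa [mul_assoc] using this
    have hfpf' : ∀ a ∈ A, a ≠ 1 → V ⊓ centralizer {a} = ⊥ := by
      intro a ha ha1
      rw [eq_bot_iff, ← hfpf a (hAH ha) ha1]
      exact inf_le_inf_right _ (inf_le_left.trans hR'K)
    have hcyc := Cfsg.Agent.S0041.result A V hVne hAV hfpf'
      (Or.inr ⟨p, q, hp, hq, by rw [← Nat.card_congr e.toEquiv]; exact hcard⟩)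
    exact isCyclic_of_surjective e.symm e.symm.surjective

end Cfsg.Agent.S0069
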