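import Cfsg.Statements.S0338
import Cfsg.Agent.Lib.Helper15Zass
import Mathlib

set_option autoImplicit false
open Cfsg

namespace Cfsg.Agent.S0338

open MulAction Cfsg.Agent.Lib.Helper15Zass Cfsg.Agent.Lib.Helper15TwoTrans

theorem odd_fix {G Ω : Type*} [Group G] [MulAction G Ω] [Finite Ω] (hodd : Odd (Nat.card Ω))
    (g : G) (k : ℕ) (hg : g ^ (2 ^ k) = 1) : Odd {x : Ω | g • x = x}.ncard := by
  have hpg : IsPGroup 2 (Subgroup.zpowers g) := by
    rintro ⟨z, hz⟩
    obtain ⟨i, rfl⟩ := Subgroup.mem_zpowers_iff.mp hz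
    refine ⟨k, Subtype.ext ?_⟩
    change (g ^ i) ^ (2 ^ k) = 1
    rw [← zpow_natCast, ← zpow_mul, mul_comm, zpow_mul, zpow_natCast, hg, one_zpow]
  have h1 := hpg.card_modEq_card_fixedPoints Ω
  have h2 : fixedPoints (Subgroup.zpowers g) Ω = {x : Ω | g • x = x} := by
    ext x
    simp only [mem_fixedPoints, Set.mem_ofPred_eq]
    constructor
    · intro h
      exact h ⟨g, Subgroup.mem_zpowers g⟩
    · rintro h ⟨z, hz⟩
      obtain ⟨i, rfl⟩ := Subgroup.mem_zpowers_iff.mp hz
      have : g ∈ stabilizer G x := h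
      exact (stabilizer G x).zpow_mem this i
  rw [h2, Nat.card_coe_set_eq] at h1
  rw [Nat.odd_iff] at hodd ⊢
  rw [← hodd]
  exact h1.symm

theorem pow_swap {G Ω : Type*} [Group G] [MulAction G Ω] (x : G) (a b : Ω) (h1 : x • a = b)
    (h2 : x • b = a) (m : ℕ) (hm : Odd m) : x ^ m • a = b ∧ x ^ m • b = a := by
  obtain ⟨j, rfl⟩ := hm
  have h3 : ∀ j : ℕ, (x ^ (2 * j)) • a = a ∧ (x ^ (2 * j)) • b = b := by
    intro j
    induction j with
    | zero => simp
    | succ j ih =>
      rw [Nat.mul_succ, pow_add, pow_two]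
      simp only [mul_smul]
      rw [h1, h2, h1]
      exact ih
  rw [pow_succ']
  simp only [mul_smul]
  rw [(h3 j).1, (h3 j).2]
  exact ⟨h1, h2⟩

/-- A Zassenhaus group of odd degree is a simple group. -/
theorem result {G Ω : Type*} [Group G] [MulAction G Ω] [Fintype Ω]
    (hZ : Cfsg.IsZassenhausGroup G Ω) (hodd : Odd (Fintype.card Ω)) : IsSimpleGroup G := by
  classical
  have hZ' := hZ
  obtain ⟨hf, h2t, h3, ⟨g0, hg0, a, b, hab, -, -⟩, h5⟩ := hZ
  have hfin : Finite G := finite_of_faithful G Ω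
  rw [← Nat.card_eq_fintype_card] at hodd
  have : Nontrivial G := ⟨g0, 1, hg0⟩
  refine ⟨fun N hN => ?_⟩
  by_cases hNb : N = ⊥
  · exact Or.inl hNb
  right
  have h2N := normal_two_trans hZ' N hNb
  -- 2-elements fixing two points are trivial
  have hA : ∀ (g : G) (k : ℕ), g ^ (2 ^ k) = 1 → ∀ c d : Ω, c ≠ d → g • c = c → g • d = d → g = 1 := by
    intro g k hg c d hcd hc hd
    have ho := odd_fix hodd g k hg
    by_cases hex : ∃ e, g • e = e ∧ e ≠ c ∧ e ≠ d
    · obtain ⟨e, he, hec, hed⟩ := hex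
      exact h3 g c d e hcd hed.symm hec.symm hc hd he
    · exfalso
      push Not at hex
      have : {x : Ω | g • x = x} = {c, d} := by
        ext x
        simp only [Set.mem_ofPred_eq, Set.mem_insert_iff, Set.mem_singleton_iff]
        constructor
        · intro hx
          by_contra hh
          push Not at hh
          exact hh.2 (hex x hx hh.1)
        · rintro (rfl | rfl)
          · exact hc
          · exact hd
      rw [this, Set.ncard_pair hcd] at ho
      exact absurd ho (by decide)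
  obtain ⟨x, hxN, hxa, hxb⟩ := h2N a b b a hab hab.symm
  obtain ⟨k, m, hm, hkm⟩ := Nat.exists_eq_two_pow_mul_odd (orderOf_pos x).ne'
  set t := x ^ m with ht
  have htN : t ∈ N := N.pow_mem hxN m
  obtain ⟨hta, htb⟩ := pow_swap x a b hxa hxb m hm
  rw [← ht] at hta htb
  have ht2k : t ^ (2 ^ k) = 1 := by
    rw [ht, ← pow_mul, mul_comm, ← hkm, pow_orderOf_eq_one]
  have ht2 : t * t = 1 := by
    apply hA (t * t) k _ a b hab
    · rw [mul_smul, hta, htb]
    · rw [mul_smul, htb, hta]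
    · rw [(Commute.refl t).mul_pow, ht2k, one_mul]
  have htinv : t⁻¹ = t := inv_eq_of_mul_eq_one_left ht2
  have ht1 : t ≠ 1 := by
    intro e
    rw [e, one_smul] at hta
    exact hab hta
  obtain ⟨c, hc⟩ : ∃ c : Ω, t • c = c := by
    have ho := odd_fix hodd t k ht2k
    have : {x : Ω | t • x = x}.Nonempty := by
      rw [Set.nonempty_iff_ne_empty]
      intro e
      rw [e, Set.ncard_empty] at ho
      exact absurd ho (by decide)
    exact this
  have hca : c ≠ a := by
    rintro rfl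
    exact hab (hc.symm.trans hta)
  have hcb : c ≠ b := by
    rintro rfl
    exact hab (htb.symm.trans hc)
  have hcu : ∀ d : Ω, t • d = d → d = c := by
    intro d hd
    by_contra hdc
    exact ht1 (hA t k ht2k d c hdc hd hc)
  set H : Subgroup G := stabilizer G a ⊓ stabilizer G b with hH
  have hHmem : ∀ h, h ∈ H ↔ h • a = a ∧ h • b = b := by
    intro h
    rw [hH, Subgroup.mem_inf, mem_stabilizer_iff, mem_stabilizer_iff]
  have hφ : ∀ h ∈ H, h⁻¹ * (t * h * t⁻¹) ∈ H ⊓ N := by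
    intro h hh
    have hh' := (hHmem h).1 hh
    refine ⟨?_, ?_⟩
    · apply H.mul_mem (H.inv_mem hh)
      rw [hHmem, htinv]
      simp only [mul_smul]
      rw [hta, hh'.2, htb, hh'.1, hta]
      exact ⟨rfl, rfl⟩
    · have e : h⁻¹ * (t * h * t⁻¹) = (h⁻¹ * t * h⁻¹⁻¹) * t⁻¹ := by group
      rw [e]
      exact N.mul_mem (hN.conj_mem t htN h⁻¹) (N.inv_mem htN)
  have hinj : Function.Injective
      (fun h : H => (⟨(h : G)⁻¹ * (t * h * t⁻¹), hφ h h.2⟩ : (H ⊓ N : Subgroup G))) := by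
    rintro ⟨h, hh⟩ ⟨u, hu⟩ e
    have e1 : h⁻¹ * (t * h * t⁻¹) = u⁻¹ * (t * u * t⁻¹) := congrArg Subtype.val e
    have e2 : (u * h⁻¹) * t = t * (u * h⁻¹) := by
      have e3 : h⁻¹ * t * h = u⁻¹ * t * u := by
        have := congrArg (· * t) e1
        simpa [mul_assoc] using this
      calc (u * h⁻¹) * t = u * (h⁻¹ * t * h) * h⁻¹ := by group
        _ = u * (u⁻¹ * t * u) * h⁻¹ := by rw [e3]
        _ = t * (u * h⁻¹) := by group
    have hw : u * h⁻¹ ∈ H := H.mul_mem hu (H.inv_mem hh)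
    have hw' := (hHmem _).1 hw
    have hwc : (u * h⁻¹) • c = c := by
      apply hcu
      rw [← mul_smul, ← e2, mul_smul, hc]
    have := h3 (u * h⁻¹) a b c hab hcb.symm hca.symm hw'.1 hw'.2 hwc
    apply Subtype.ext
    exact (mul_inv_eq_one.1 this).symm
  have hHN : H ≤ N := by
    have hle : Nat.card H ≤ Nat.card (H ⊓ N : Subgroup G) := Nat.card_le_card_of_injective _ hinj
    have := Subgroup.eq_of_le_of_card_ge (inf_le_left : H ⊓ N ≤ H) hle
    rw [← this]
    exact inf_le_right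
  rw [eq_top_iff]
  intro g _
  have hne : g • a ≠ g • b := fun e => hab (smul_left_cancel g e)
  obtain ⟨ν, hν, h1, h2⟩ := h2N a b (g • a) (g • b) hab hne
  have : ν⁻¹ * g ∈ H := by
    rw [hHmem, mul_smul, mul_smul, ← h1, ← h2, inv_smul_smul, inv_smul_smul]
    exact ⟨rfl, rfl⟩
  have h4 := N.mul_mem hν (hHN this)
  rwa [mul_inv_cancel_left] at h4

end Cfsg.Agent.S0338
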