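import Cfsg.Statements.S0436

set_option autoImplicit false
open Cfsg

namespace Cfsg.Agent.S0436

theorem sq_one {G : Type*} [Group G] {E : Set G} (hE : Cfsg.IsThreeTranspositionSet E) {a : G}
    (ha : a ∈ E) : a * a = 1 := by
  have := pow_orderOf_eq_one a
  rw [hE.1 a ha, pow_two] at this
  exact this

theorem comm_or_braid {G : Type*} [Group G] {E : Set G} (hE : Cfsg.IsThreeTranspositionSet E)
    {a e : G} (ha : a ∈ E) (he : e ∈ E) : Commute e a ∨ e * a * e = a * e * a := by
  have haa := sq_one hE ha
  have hee := sq_one hE he
  rcases hE.2 e he a ha with h | h
  · left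
    show e * a = a * e
    have h1 : e * a * (e * a) = 1 := by rw [← pow_two]; exact h
    calc e * a = e * a * (e * a * (a * e)) := by
            rw [mul_assoc e a (a * e), ← mul_assoc a a e, haa, one_mul, hee, mul_one]
      _ = (e * a * (e * a)) * (a * e) := by rw [mul_assoc (e * a)]
      _ = a * e := by rw [h1, one_mul]
  · right
    have h1 : e * a * (e * a) * (e * a) = 1 := by rw [← pow_two, ← pow_succ]; exact h
    calc e * a * e = e * a * e * (a * e * a * (a * e * a)) := by
            have : a * e * a * (a * e * a) = 1 := by
              calc a * e * a * (a * e * a) = a * (e * (a * a) * e) * a := by group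
                _ = 1 := by rw [haa, mul_one, hee, mul_one, haa]
            rw [this, mul_one]
      _ = (e * a * (e * a) * (e * a)) * (a * e * a) := by group
      _ = a * e * a := by rw [h1, one_mul]

/-- For distinct commuting members a, b of a set of 3-transpositions E, a member e of E centralises the product a * b if and only if it centralises both a and b. -/
theorem result {G : Type*} [Group G] {E : Set G} (hE : Cfsg.IsThreeTranspositionSet E) {a b e : G} (ha : a ∈ E) (hb : b ∈ E) (he : e ∈ E) (hab : a ≠ b) (hcomm : Commute a b) : Commute e (a * b) ↔ (Commute e a ∧ Commute e b) := by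
  constructor
  · intro h
    have haa := sq_one hE ha
    have hbb := sq_one hE hb
    have hee := sq_one hE he
    have key : Commute e a ↔ Commute e b := by
      constructor
      · intro h1
        have : Commute e (a⁻¹ * (a * b)) := h1.inv_right.mul_right h
        rwa [inv_mul_cancel_left] at this
      · intro h1
        have : Commute e ((a * b) * b⁻¹) := h.mul_right h1.inv_right
        rwa [mul_inv_cancel_right] at this
    rcases comm_or_braid hE ha he with h1 | h1
    · exact ⟨h1, key.mp h1⟩
    rcases comm_or_braid hE hb he with h2 | h2
    · exact ⟨key.mpr h2, h2⟩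
    exfalso
    apply hab
    have h3 : e * (a * b) * e = a * b := by
      have : e * (a * b) = a * b * e := h
      rw [this, mul_assoc, hee, mul_one]
    have h4 : (e * a * e) * (e * b * e) = a * b := by
      calc (e * a * e) * (e * b * e) = e * a * (e * e) * b * e := by group
        _ = e * (a * b) * e := by rw [hee]; group
        _ = a * b := h3
    rw [h1, h2] at h4
    have h5 : e * (a * b) * e = 1 := by
      have : a * (e * (a * b) * e) * b = a * 1 * b := by
        rw [mul_one]
        refine Eq.trans ?_ h4
        group
      exact mul_left_cancel (mul_right_cancel this)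
    rw [h3] at h5
    calc a = a * (b * b) := by rw [hbb, mul_one]
      _ = (a * b) * b := by rw [mul_assoc]
      _ = b := by rw [h5, one_mul]
  · rintro ⟨h1, h2⟩
    exact h1.mul_right h2

end Cfsg.Agent.S0436
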