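import Cfsg.Statements.S0437
import Cfsg.Agent.S0436

set_option autoImplicit false
open Cfsg

namespace Cfsg.Agent.S0437

/-- For three distinct, pairwise commuting members a, b, c of a set of 3-transpositions E, a member e of E centralises a * b * c if and only if it centralises each of a, b and c. -/
theorem result {G : Type*} [Group G] {E : Set G} (hE : Cfsg.IsThreeTranspositionSet E) {a b c e : G} (ha : a ∈ E) (hb : b ∈ E) (hc : c ∈ E) (he : e ∈ E) (hab : a ≠ b) (hac : a ≠ c) (hbc : b ≠ c) (h₁ : Commute a b) (h₂ : Commute a c) (h₃ : Commute b c) : Commute e (a * b * c) ↔ (Commute e a ∧ Commute e b ∧ Commute e c) := by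
  constructor
  · intro h
    have haa := S0436.sq_one hE ha
    have hbb := S0436.sq_one hE hb
    have hcc := S0436.sq_one hE hc
    have hee := S0436.sq_one hE he
    have hainv : a⁻¹ = a := inv_eq_of_mul_eq_one_left haa
    have hbinv : b⁻¹ = b := inv_eq_of_mul_eq_one_left hbb
    have hcinv : c⁻¹ = c := inv_eq_of_mul_eq_one_left hcc
    have heinv : e⁻¹ = e := inv_eq_of_mul_eq_one_left hee
    rcases S0436.comm_or_braid hE ha he with h1 | h1
    · have : Commute e (a⁻¹ * (a * b * c)) := h1.inv_right.mul_right h
      rw [mul_assoc a b c, inv_mul_cancel_left] at this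
      have := (S0436.result hE hb hc he hbc h₃).mp this
      exact ⟨h1, this.1, this.2⟩
    rcases S0436.comm_or_braid hE hc he with h3 | h3
    · have : Commute e ((a * b * c) * c⁻¹) := h.mul_right h3.inv_right
      rw [mul_inv_cancel_right] at this
      have := (S0436.result hE ha hb he hab h₁).mp this
      exact ⟨this.1, this.2, h3⟩
    rcases S0436.comm_or_braid hE hb he with h2 | h2
    · have : Commute e (b⁻¹ * (a * b * c)) := h2.inv_right.mul_right h
      have e1 : b⁻¹ * (a * b * c) = a * c := by
        rw [h₁.eq, mul_assoc b a c, inv_mul_cancel_left]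
      rw [e1] at this
      have := (S0436.result hE ha hc he hac h₂).mp this
      exact ⟨this.1, h2, this.2⟩
    exfalso
    have s0 : e * (a * b * c) * e⁻¹ = a * b * c := by
      rw [h.eq, mul_inv_cancel_right]
    have s1 : (e * a * e⁻¹) * (e * b * e⁻¹) * (e * c * e⁻¹) = a * b * c := by
      rw [← s0]; group
    rw [heinv, h1, h2, h3] at s1
    have s2 : e * a * b * e * b * c * e = b := by
      have : a * (e * a * b * e * b * c * e) * c = a * b * c := by
        rw [← s1]; group
      exact mul_left_cancel (mul_right_cancel this)
    have s3 : e * a * b * e = b * e * b * c := by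
      calc e * a * b * e = (e * a * b * e * b * c * e) * (e⁻¹ * c⁻¹ * b⁻¹) := by group
        _ = b * (e * c * b) := by rw [s2, heinv, hcinv, hbinv]
        _ = b * e * b * c := by rw [mul_assoc e c b, ← h₃.eq]; group
    rw [← h2] at s3
    have s4 : a * e = e * c := by
      have : e * b * (a * e) = e * b * (e * c) := by
        calc e * b * (a * e) = e * (b * a) * e := by group
          _ = e * a * b * e := by rw [← h₁.eq]; group
          _ = e * b * e * c := s3
          _ = e * b * (e * c) := by group
      exact mul_left_cancel this
    have s5 : a * e * a = c := by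
      rw [← h1, mul_assoc, s4, ← mul_assoc, hee, one_mul]
    have s6 : e = c := by
      calc e = a⁻¹ * (a * e * a) * a⁻¹ := by group
        _ = a * c * a := by rw [s5, hainv]
        _ = c := by rw [h₂.eq, mul_assoc, haa, mul_one]
    apply hac
    have s7 : a * c = c * c := by rw [s6] at s4; exact s4
    exact mul_right_cancel s7
  · rintro ⟨h1, h2, h3⟩
    exact (h1.mul_right h2).mul_right h3

end Cfsg.Agent.S0437
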