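import Cfsg.Statements.S0444
import Cfsg.Agent.S0436

set_option autoImplicit false
open Cfsg

namespace Cfsg.Agent.S0444

open DihedralGroup

section
variable {G : Type*} [Group G] (d e : G)

/-- the candidate map from the dihedral group of order six -/
def toG : DihedralGroup 3 → G
  | r i => (d * e) ^ i.val
  | sr i => d * (d * e) ^ i.val

variable {d e}

theorem conj_pow_inv (ha : d * d = 1) (hc : e * e = 1) (m : ℕ) :
    d * (d * e) ^ m * d = ((d * e) ^ m)⁻¹ := by
  have hainv : d⁻¹ = d := inv_eq_of_mul_eq_one_left ha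
  have hcinv : e⁻¹ = e := inv_eq_of_mul_eq_one_left hc
  have h1 : d * (d * e) ^ m * d = (d * (d * e) * d⁻¹) ^ m := by
    rw [_root_.conj_pow, hainv]
  rw [h1, ← inv_pow]
  congr 1
  rw [mul_inv_rev, hainv, hcinv, ← mul_assoc, ha, one_mul]

theorem P_add (h3 : (d * e) ^ 3 = 1) (i j : ZMod 3) :
    (d * e) ^ (i + j).val = (d * e) ^ i.val * (d * e) ^ j.val := by
  rw [ZMod.val_add, ← pow_add, ← pow_eq_pow_mod _ h3]

theorem P_sub (h3 : (d * e) ^ 3 = 1) (i j : ZMod 3) :
    (d * e) ^ (j - i).val = ((d * e) ^ i.val)⁻¹ * (d * e) ^ j.val := by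
  have := P_add h3 i (j - i)
  rw [add_sub_cancel] at this
  rw [this, inv_mul_cancel_left]

theorem toG_mul (hd : d * d = 1) (he : e * e = 1) (h3 : (d * e) ^ 3 = 1) (x y : DihedralGroup 3) :
    toG d e (x * y) = toG d e x * toG d e y := by
  rcases x with i | i <;> rcases y with j | j
  · simp only [r_mul_r, toG]; exact P_add h3 i j
  · simp only [r_mul_sr, toG]
    rw [P_sub h3, ← conj_pow_inv hd he]
    generalize (d * e) ^ i.val = x
    generalize (d * e) ^ j.val = y
    rw [← mul_assoc, ← mul_assoc, ← mul_assoc, hd, one_mul, mul_assoc x d y]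
  · simp only [sr_mul_r, toG]
    rw [P_add h3, mul_assoc]
  · simp only [sr_mul_sr, toG]
    rw [P_sub h3, ← conj_pow_inv hd he]
    generalize (d * e) ^ i.val = x
    generalize (d * e) ^ j.val = y
    rw [mul_assoc (d * x)]

/-- the candidate map as a homomorphism -/
def toGHom (hd : d * d = 1) (he : e * e = 1) (h3 : (d * e) ^ 3 = 1) : DihedralGroup 3 →* G :=
  MonoidHom.mk' (toG d e) (toG_mul hd he h3)

theorem toGHom_injective (hd : d * d = 1) (he : e * e = 1) (h3 : (d * e) ^ 3 = 1)
    (h : ¬ Commute d e) : Function.Injective (toGHom hd he h3) := by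
  rw [injective_iff_map_eq_one]
  intro x hx
  change toG d e x = 1 at hx
  rcases x with i | i
  · simp only [toG] at hx
    have hne : d * e ≠ 1 := by
      intro h1
      apply h
      have : d = e := by
        calc d = d * (e * e) := by rw [he, mul_one]
          _ = (d * e) * e := by rw [mul_assoc]
          _ = e := by rw [h1, one_mul]
      rw [this]
    have : Fact (Nat.Prime 3) := ⟨Nat.prime_three⟩
    have ho : orderOf (d * e) = 3 := orderOf_eq_prime h3 hne
    have hdvd := orderOf_dvd_of_pow_eq_one hx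
    rw [ho] at hdvd
    have hlt : i.val < 3 := ZMod.val_lt i
    have h0 : i.val = 0 := by omega
    rw [ZMod.val_eq_zero] at h0
    rw [h0, r_zero]
  · exfalso
    simp only [toG] at hx
    apply h
    have h1 : d = ((d * e) ^ i.val)⁻¹ := eq_inv_of_mul_eq_one_left hx
    have h2 : Commute d (d * e) := by
      have h4 : Commute ((d * e) ^ i.val)⁻¹ (d * e) := ((Commute.refl (d * e)).pow_left _).inv_left
      rwa [← h1] at h4
    have h3 : Commute d (d⁻¹ * (d * e)) := (Commute.refl d).inv_right.mul_right h2
    rwa [inv_mul_cancel_left] at h3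

theorem toGHom_range (hd : d * d = 1) (he : e * e = 1) (h3 : (d * e) ^ 3 = 1) :
    (toGHom hd he h3).range = Subgroup.closure ({d, e} : Set G) := by
  have hdm : d ∈ Subgroup.closure ({d, e} : Set G) := Subgroup.subset_closure (by simp)
  have hem : e ∈ Subgroup.closure ({d, e} : Set G) := Subgroup.subset_closure (by simp)
  apply le_antisymm
  · rintro _ ⟨x, rfl⟩
    change toG d e x ∈ _
    rcases x with i | i
    · exact pow_mem (mul_mem hdm hem) _
    · exact mul_mem hdm (pow_mem (mul_mem hdm hem) _)
  · rw [Subgroup.closure_le]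
    rintro x (rfl | rfl)
    · refine ⟨sr 0, ?_⟩
      change toG x e (sr 0) = x
      simp [toG]
    · refine ⟨sr 1, ?_⟩
      change toG d x (sr 1) = x
      have : (1 : ZMod 3).val = 1 := rfl
      simp only [toG, this, pow_one]
      rw [← mul_assoc, hd, one_mul]

/-- the dihedral group of order six is the subgroup generated by `d` and `e` -/
noncomputable def equivClosure (hd : d * d = 1) (he : e * e = 1) (h3 : (d * e) ^ 3 = 1)
    (h : ¬ Commute d e) : DihedralGroup 3 ≃* Subgroup.closure ({d, e} : Set G) :=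
  (MonoidHom.ofInjective (toGHom_injective hd he h3 h)).trans
    (MulEquiv.subgroupCongr (toGHom_range hd he h3))

end

theorem dihedral_equiv_perm : Nonempty (DihedralGroup 3 ≃* Equiv.Perm (Fin 3)) := by
  have hd : (Equiv.swap (0 : Fin 3) 1) * (Equiv.swap (0 : Fin 3) 1) = 1 := by decide
  have he : (Equiv.swap (1 : Fin 3) 2) * (Equiv.swap (1 : Fin 3) 2) = 1 := by decide
  have h3 : ((Equiv.swap (0 : Fin 3) 1) * (Equiv.swap (1 : Fin 3) 2)) ^ 3 = 1 := by decide
  have h : ¬ Commute (Equiv.swap (0 : Fin 3) 1) (Equiv.swap (1 : Fin 3) 2) := by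
    unfold Commute SemiconjBy; decide
  have hinj := toGHom_injective hd he h3 h
  have hbij : Function.Bijective (toGHom hd he h3) := by
    rw [Fintype.bijective_iff_injective_and_card]
    refine ⟨hinj, ?_⟩
    rw [DihedralGroup.card, Fintype.card_perm, Fintype.card_fin]
    rfl
  exact ⟨MulEquiv.ofBijective _ hbij⟩

/-- Two members of a set of 3-transpositions which do not commute generate a subgroup isomorphic to the symmetric group on three letters. -/
theorem result {G : Type*} [Group G] {E : Set G} (hE : Cfsg.IsThreeTranspositionSet E) {d e : G} (hd : d ∈ E) (he : e ∈ E) (h : ¬ Commute d e) : Nonempty (Subgroup.closure ({d, e} : Set G) ≃* Equiv.Perm (Fin 3)) := by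
  have hdd := S0436.sq_one hE hd
  have hee := S0436.sq_one hE he
  have h3 : (d * e) ^ 3 = 1 := by
    rcases hE.2 d hd e he with h2 | h2
    · exfalso
      apply h
      show d * e = e * d
      have h1 : d * e * (d * e) = 1 := by rw [← pow_two]; exact h2
      calc d * e = d * e * (d * e * (e * d)) := by
              rw [mul_assoc d e (e * d), ← mul_assoc e e d, hee, one_mul, hdd, mul_one]
        _ = (d * e * (d * e)) * (e * d) := by rw [mul_assoc (d * e)]
        _ = e * d := by rw [h1, one_mul]
    · exact h2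
  obtain ⟨f⟩ := dihedral_equiv_perm
  exact ⟨(equivClosure hdd hee h3 h).symm.trans f⟩

end Cfsg.Agent.S0444
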