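import Mathlib
import Cfsg.Statements.S0445

set_option autoImplicit false
open Cfsg

namespace Cfsg.Agent.S0445

open Matrix

theorem card_SL3 : Fintype.card (Matrix.SpecialLinearGroup (Fin 3) (ZMod 2)) = 168 := by
  decide +kernel

theorem det_col {R : Type*} [CommRing R] {n : ℕ} (M : Matrix (Fin (n + 1)) (Fin (n + 1)) R)
    (h : ∀ i : Fin n, M i.succ 0 = 0) : M.det = M 0 0 * (M.submatrix Fin.succ Fin.succ).det := by
  rw [Matrix.det_succ_column_zero, Fin.sum_univ_succ]
  simp [h]

theorem det_row {R : Type*} [CommRing R] {n : ℕ} (M : Matrix (Fin (n + 1)) (Fin (n + 1)) R)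
    (h : ∀ j : Fin n, M 0 j.succ = 0) : M.det = M 0 0 * (M.submatrix Fin.succ Fin.succ).det := by
  rw [Matrix.det_succ_row_zero, Fin.sum_univ_succ]
  simp [h]

/-- the shape of the matrices commuting with the transvection -/
def mk (r : Fin 4 → ZMod 2) (c : Fin 3 → ZMod 2) (A : Matrix (Fin 3) (Fin 3) (ZMod 2)) :
    Matrix (Fin 5) (Fin 5) (ZMod 2) := fun i j =>
  Fin.cases (Fin.cases 1 r j)
    (fun i' : Fin 4 => Fin.cases
      (Fin.cases 0 (fun j' : Fin 4 => Fin.cases 1 (fun _ => 0) j') j)
      (fun i'' : Fin 3 => Fin.cases 0 (fun j' : Fin 4 => Fin.cases (c i'') (fun j'' => A i'' j'') j') j)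
      i') i

theorem comm_iff (g : Matrix (Fin 5) (Fin 5) (ZMod 2)) :
    g * transvection 0 1 1 = transvection 0 1 1 * g ↔
      (g 0 0 = g 1 1 ∧ (∀ b, b ≠ 1 → g 1 b = 0) ∧ (∀ a, a ≠ 0 → g a 0 = 0)) := by
  constructor
  · intro h
    refine ⟨?_, ?_, ?_⟩
    · have := congrFun (congrFun h 0) 1
      rw [mul_transvection_apply_same, transvection_mul_apply_same] at this
      simpa using this
    · intro b hb
      have := congrFun (congrFun h 0) b
      rw [mul_transvection_apply_of_ne _ _ _ _ hb, transvection_mul_apply_same] at this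
      simpa using this.symm
    · intro a ha
      have := congrFun (congrFun h a) 1
      rw [mul_transvection_apply_same, transvection_mul_apply_of_ne _ _ _ _ ha] at this
      simpa using this
  · rintro ⟨h1, h2, h3⟩
    ext a b
    by_cases ha : a = 0 <;> by_cases hb : b = 1
    · subst ha; subst hb
      rw [mul_transvection_apply_same, transvection_mul_apply_same, h1]
    · subst ha
      rw [mul_transvection_apply_of_ne _ _ _ _ hb, transvection_mul_apply_same, h2 b hb]
      simp
    · subst hb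
      rw [mul_transvection_apply_same, transvection_mul_apply_of_ne _ _ _ _ ha, h3 a ha]
      simp
    · rw [mul_transvection_apply_of_ne _ _ _ _ hb, transvection_mul_apply_of_ne _ _ _ _ ha]

theorem det_of_shape (g : Matrix (Fin 5) (Fin 5) (ZMod 2)) (h2 : ∀ b, b ≠ 1 → g 1 b = 0)
    (h3 : ∀ a, a ≠ 0 → g a 0 = 0) :
    g.det = g 0 0 * (g 1 1 * (g.submatrix (fun i : Fin 3 => i.succ.succ)
      (fun i : Fin 3 => i.succ.succ)).det) := by
  rw [det_col g (fun i => h3 _ (Fin.succ_ne_zero i))]
  rw [det_row (g.submatrix Fin.succ Fin.succ) (fun j => by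
    have := h2 j.succ.succ (by
      intro h
      have : j.succ.succ = (0 : Fin 4).succ := h
      exact Fin.succ_ne_zero j (Fin.succ_injective _ this))
    exact this)]
  rfl

theorem mk_comm (r : Fin 4 → ZMod 2) (c : Fin 3 → ZMod 2) (A : Matrix (Fin 3) (Fin 3) (ZMod 2)) :
    (mk r c A 0 0 = mk r c A 1 1 ∧ (∀ b, b ≠ 1 → mk r c A 1 b = 0) ∧
      (∀ a, a ≠ 0 → mk r c A a 0 = 0)) := by
  refine ⟨rfl, ?_, ?_⟩
  · intro b
    refine Fin.cases ?_ (fun b' => ?_) b
    · intro _; rfl
    · refine Fin.cases ?_ (fun b'' => ?_) b'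
      · intro h; exact absurd rfl h
      · intro _; rfl
  · intro a
    refine Fin.cases ?_ (fun a' => ?_) a
    · intro h; exact absurd rfl h
    · refine Fin.cases ?_ (fun a'' => ?_) a'
      · intro _; rfl
      · intro _; rfl

theorem det_mk (r : Fin 4 → ZMod 2) (c : Fin 3 → ZMod 2) (A : Matrix (Fin 3) (Fin 3) (ZMod 2)) :
    (mk r c A).det = A.det := by
  obtain ⟨-, h2, h3⟩ := mk_comm r c A
  rw [det_of_shape _ h2 h3]
  have e : (mk r c A).submatrix (fun i : Fin 3 => i.succ.succ) (fun i : Fin 3 => i.succ.succ) = A := by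
    ext i j; rfl
  rw [e]
  have e0 : mk r c A 0 0 = 1 := rfl
  have e1 : mk r c A 1 1 = 1 := rfl
  rw [e0, e1, one_mul, one_mul]

theorem eq_mk (g : Matrix (Fin 5) (Fin 5) (ZMod 2)) (h0 : g 0 0 = 1) (h1 : g 1 1 = 1)
    (h2 : ∀ b, b ≠ 1 → g 1 b = 0) (h3 : ∀ a, a ≠ 0 → g a 0 = 0) :
    g = mk (fun j => g 0 j.succ) (fun i => g i.succ.succ 1)
      (g.submatrix (fun i : Fin 3 => i.succ.succ) (fun i : Fin 3 => i.succ.succ)) := by
  ext i j
  refine Fin.cases ?_ (fun i' => ?_) i
  · refine Fin.cases ?_ (fun j' => ?_) j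
    · exact h0
    · rfl
  · refine Fin.cases ?_ (fun i'' => ?_) i'
    · refine Fin.cases ?_ (fun j' => ?_) j
      · exact h2 0 (by decide)
      · refine Fin.cases ?_ (fun j'' => ?_) j'
        · exact h1
        · exact h2 j''.succ.succ (by
            intro h
            have : j''.succ.succ = (0 : Fin 4).succ := h
            exact Fin.succ_ne_zero j'' (Fin.succ_injective _ this))
    · refine Fin.cases ?_ (fun j' => ?_) j
      · exact h3 _ (Fin.succ_ne_zero _)
      · refine Fin.cases ?_ (fun j'' => ?_) j'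
        · rfl
        · rfl

/-- In the special linear group of dimension 5 over the field with two elements, the centraliser of a transvection has order 21504 = 2 ^ 7 · 168 (it is an extension of an extraspecial group of order 2 ^ 7 by the simple group of order 168). -/
theorem result (s : Matrix.SpecialLinearGroup (Fin 5) (ZMod 2)) (hs : (s : Matrix (Fin 5) (Fin 5) (ZMod 2)) = Matrix.transvection 0 1 1) : Nat.card (Subgroup.centralizer ({s} : Set (Matrix.SpecialLinearGroup (Fin 5) (ZMod 2)))) = 21504 := by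
  have hmem : ∀ g : Matrix.SpecialLinearGroup (Fin 5) (ZMod 2),
      g ∈ Subgroup.centralizer ({s} : Set (Matrix.SpecialLinearGroup (Fin 5) (ZMod 2))) ↔
        (g : Matrix (Fin 5) (Fin 5) (ZMod 2)) * transvection 0 1 1 =
          transvection 0 1 1 * (g : Matrix (Fin 5) (Fin 5) (ZMod 2)) := by
    intro g
    rw [Subgroup.mem_centralizer_singleton_iff, ← hs, ← Matrix.SpecialLinearGroup.coe_mul,
      ← Matrix.SpecialLinearGroup.coe_mul]
    exact ⟨fun h => congrArg _ h, fun h => Subtype.ext h⟩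
  let Φ : (Fin 4 → ZMod 2) × (Fin 3 → ZMod 2) × Matrix.SpecialLinearGroup (Fin 3) (ZMod 2) →
      Subgroup.centralizer ({s} : Set (Matrix.SpecialLinearGroup (Fin 5) (ZMod 2))) :=
    fun x => ⟨⟨mk x.1 x.2.1 (x.2.2 : Matrix (Fin 3) (Fin 3) (ZMod 2)), by
      rw [det_mk]; exact x.2.2.det_coe⟩,
      (hmem _).mpr ((comm_iff _).mpr (mk_comm _ _ _))⟩
  have hΦ : Function.Bijective Φ := by
    constructor
    · rintro ⟨r, c, A⟩ ⟨r', c', A'⟩ h
      have h1 : mk r c (A : Matrix (Fin 3) (Fin 3) (ZMod 2)) =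
          mk r' c' (A' : Matrix (Fin 3) (Fin 3) (ZMod 2)) := by
        have h0 := congrArg (fun z : Subgroup.centralizer
          ({s} : Set (Matrix.SpecialLinearGroup (Fin 5) (ZMod 2))) =>
            ((z : Matrix.SpecialLinearGroup (Fin 5) (ZMod 2)) :
          Matrix (Fin 5) (Fin 5) (ZMod 2))) h
        exact h0
      have hr : r = r' := by
        funext j
        exact congrFun (congrFun h1 0) j.succ
      have hc : c = c' := by
        funext i
        exact congrFun (congrFun h1 i.succ.succ) 1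
      have hA : A = A' := by
        apply Subtype.ext
        ext i j
        exact congrFun (congrFun h1 i.succ.succ) j.succ.succ
      rw [hr, hc, hA]
    · rintro ⟨g, hg⟩
      rw [hmem, comm_iff] at hg
      obtain ⟨h1, h2, h3⟩ := hg
      have hdet := det_of_shape _ h2 h3
      rw [g.2] at hdet
      have key : ∀ a b c : ZMod 2, 1 = a * (b * c) → a = 1 ∧ b = 1 ∧ c = 1 := by decide
      obtain ⟨k0, k1, k2⟩ := key _ _ _ hdet
      refine ⟨⟨fun j => g.1 0 j.succ, fun i => g.1 i.succ.succ 1,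
        ⟨g.1.submatrix (fun i : Fin 3 => i.succ.succ) (fun i : Fin 3 => i.succ.succ), k2⟩⟩, ?_⟩
      apply Subtype.ext
      apply Subtype.ext
      exact (eq_mk g.1 k0 k1 h2 h3).symm
  rw [← Nat.card_congr (Equiv.ofBijective Φ hΦ), Nat.card_eq_fintype_card, Fintype.card_prod,
    Fintype.card_prod, card_SL3]
  simp [ZMod.card]

end Cfsg.Agent.S0445
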