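import Cfsg.Statements.S0498
import Cfsg.Agent.Lib.Helper63RecG

set_option autoImplicit false
open Cfsg

namespace Cfsg.Agent.S0498

theorem e1 : (2 : ZMod 13) ^ 6 = -1 := by decide
theorem e2 : ((2 : ZMod 13) - 1) ^ 6 = 1 := by decide

/-- A simple group of order 660, respectively 1092, is isomorphic to the projective special linear group of dimension 2
over the field with 11, respectively 13, elements. -/
theorem result {G : Type*} [Group G] [Finite G] [IsSimpleGroup G] (p : ℕ)
    (hp : p = 11 ∨ p = 13) (h : 2 * Nat.card G = p * (p ^ 2 - 1)) {F : Type*} [Field F] [Fintype F]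
    (hF : Fintype.card F = p) : Nonempty (G ≃* Matrix.ProjectiveSpecialLinearGroup (Fin 2) F) := by
  rcases hp with rfl | rfl
  · haveI : Fact (Nat.Prime 11) := ⟨by norm_num⟩
    haveI : Fact (Nat.Prime 5) := ⟨by norm_num⟩
    have hc : Nat.card G = 660 := by omega
    have hn : Nat.card (Sylow 11 G) = 11 + 1 :=
      Cfsg.Agent.Lib.Helper63RecD.card_sylow_of 60 12 (by rw [hc]) (by norm_num) (by norm_num) (by
        intro d hd h1
        have hle : d ≤ 60 := Nat.le_of_dvd (by norm_num) hd
        have key : ∀ d ∈ Finset.range 61, d ∣ 60 → d % 11 = 1 → d = 1 ∨ d = 12 := by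
          set_option maxRecDepth 100000 in decide
        exact key d (Finset.mem_range.mpr (by omega)) hd h1)
    exact Cfsg.Agent.Lib.Helper63RecD.of_sylow' 5 5 1 (by norm_num) (by decide) (by norm_num)
      (by norm_num) (by rw [hc]) hn hF
  · haveI : Fact (Nat.Prime 13) := ⟨by norm_num⟩
    have hc : Nat.card G = 1092 := by omega
    have hn : Nat.card (Sylow 13 G) = 13 + 1 :=
      Cfsg.Agent.Lib.Helper63RecD.card_sylow_of 84 14 (by rw [hc]) (by norm_num) (by norm_num) (by
        intro d hd h1
        have hle : d ≤ 84 := Nat.le_of_dvd (by norm_num) hd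
        have key : ∀ d ∈ Finset.range 85, d ∣ 84 → d % 13 = 1 → d = 1 ∨ d = 14 := by
          set_option maxRecDepth 100000 in decide
        exact key d (Finset.mem_range.mpr (by omega)) hd h1)
    exact Cfsg.Agent.Lib.Helper63RecG.of_sylow1 6 (by norm_num) (by decide) (by norm_num)
      (by rw [hc]) hn 2 e1 e2 hF

end Cfsg.Agent.S0498
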