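import Cfsg.Statements.S0549
import Mathlib

set_option autoImplicit false
open Cfsg

namespace Cfsg.Agent.S0549

theorem sup_eq_top {G : Type*} [Group G] (U : Subgroup G) (hU : IsCoatom U)
    (hcore : U.normalCore = ⊥) (K : Subgroup G) [K.Normal] (hK : K ≠ ⊥) : U ⊔ K = ⊤ := by
  apply hU.2
  refine lt_of_le_of_ne le_sup_left ?_
  intro h
  have h1 : K ≤ U := by
    rw [h]; exact le_sup_right
  have h2 : K ≤ U.normalCore := Subgroup.normal_le_normalCore.mpr h1
  rw [hcore] at h2
  exact hK (le_bot_iff.mp h2)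

theorem exists_mul {G : Type*} [Group G] (U : Subgroup G) (hU : IsCoatom U)
    (hcore : U.normalCore = ⊥) (K : Subgroup G) [K.Normal] (hK : K ≠ ⊥) (g : G) :
    ∃ u ∈ U, ∃ k ∈ K, g = u * k := by
  have h : g ∈ U ⊔ K := by rw [sup_eq_top U hU hcore K hK]; trivial
  rw [← SetLike.mem_coe, Subgroup.mul_normal] at h
  obtain ⟨u, hu, k, hk, rfl⟩ := h
  exact ⟨u, hu, k, hk, rfl⟩

theorem centralizer_inf_eq_bot {G : Type*} [Group G] (U : Subgroup G) (hU : IsCoatom U)
    (hcore : U.normalCore = ⊥) (N : Subgroup G) [N.Normal] (hN : N ≠ ⊥) :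
    Subgroup.centralizer (N : Set G) ⊓ U = ⊥ := by
  have hn : (Subgroup.centralizer (N : Set G) ⊓ U).Normal := by
    constructor
    intro x hx g
    obtain ⟨u, hu, n, hn, rfl⟩ := exists_mul U hU hcore N hN g
    have hxc : n * x = x * n := (Subgroup.mem_centralizer_iff.mp hx.1 n hn)
    have : u * n * x * (u * n)⁻¹ = u * x * u⁻¹ := by
      rw [mul_assoc u n x, hxc]; group
    rw [this]
    refine ⟨?_, U.mul_mem (U.mul_mem hu hx.2) (U.inv_mem hu)⟩
    exact (inferInstance : (Subgroup.centralizer (N : Set G)).Normal).conj_mem x hx.1 u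
  have h2 : Subgroup.centralizer (N : Set G) ⊓ U ≤ U.normalCore :=
    Subgroup.normal_le_normalCore.mpr inf_le_right
  rw [hcore] at h2
  exact le_bot_iff.mp h2

/-- Let U be a maximal subgroup of a finite group G whose normal core is trivial, and N a nontrivial normal subgroup with centralizer C. Then C ∩ U = 1, and either C = 1 or C is a minimal normal subgroup of G. -/
theorem result {G : Type*} [Group G] [Finite G] (U : Subgroup G) (hU : IsCoatom U) (hcore : U.normalCore = ⊥) (N : Subgroup G) [N.Normal] (hN : N ≠ ⊥) : Subgroup.centralizer (N : Set G) ⊓ U = ⊥ ∧ (Subgroup.centralizer (N : Set G) = ⊥ ∨ (Subgroup.centralizer (N : Set G) ≠ ⊥ ∧ ∀ K : Subgroup G, K.Normal → K ≤ Subgroup.centralizer (N : Set G) → K = ⊥ ∨ K = Subgroup.centralizer (N : Set G))) := by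
  have h1 := centralizer_inf_eq_bot U hU hcore N hN
  refine ⟨h1, ?_⟩
  by_cases hC : Subgroup.centralizer (N : Set G) = ⊥
  · exact Or.inl hC
  · refine Or.inr ⟨hC, ?_⟩
    intro K hKn hKC
    by_cases hK : K = ⊥
    · exact Or.inl hK
    · refine Or.inr (le_antisymm hKC ?_)
      intro c hc
      obtain ⟨u, hu, k, hk, rfl⟩ := exists_mul U hU hcore K hK c
      have hu' : u ∈ Subgroup.centralizer (N : Set G) ⊓ U := by
        refine ⟨?_, hu⟩
        have := (Subgroup.centralizer (N : Set G)).mul_mem hc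
          ((Subgroup.centralizer (N : Set G)).inv_mem (hKC hk))
        simpa using this
      rw [h1, Subgroup.mem_bot] at hu'
      rw [hu', one_mul]; exact hk

end Cfsg.Agent.S0549
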