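import Cfsg.Statements.S0550
import Cfsg.Agent.S0549

set_option autoImplicit false
open Cfsg

namespace Cfsg.Agent.S0550

theorem nonempty_mulEquiv_of_compl {G : Type*} [Group G] (N H K : Subgroup G) [N.Normal]
    (hH : H ⊓ N = ⊥) (hK : K ⊓ N = ⊥) (h : H ⊔ N = K ⊔ N) : Nonempty (H ≃* K) := by
  have key : ∀ L : Subgroup G, L ⊓ N = ⊥ →
      Nonempty (L ≃* (L.map (QuotientGroup.mk' N) : Subgroup (G ⧸ N))) := by
    intro L hL
    have hinj : Function.Injective ((QuotientGroup.mk' N).comp L.subtype) := by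
      rw [injective_iff_map_eq_one]
      intro x hx
      have hx' : (x : G) ∈ N := by
        simpa using hx
      have : (x : G) ∈ L ⊓ N := ⟨x.2, hx'⟩
      rw [hL, Subgroup.mem_bot] at this
      exact Subtype.ext this
    have e1 := MonoidHom.ofInjective hinj
    have e2 : ((QuotientGroup.mk' N).comp L.subtype).range = L.map (QuotientGroup.mk' N) := by
      rw [MonoidHom.range_comp, Subgroup.range_subtype]
    exact ⟨e1.trans (MulEquiv.subgroupCongr e2)⟩
  obtain ⟨eH⟩ := key H hH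
  obtain ⟨eK⟩ := key K hK
  have e : H.map (QuotientGroup.mk' N) = K.map (QuotientGroup.mk' N) := by
    rw [Subgroup.map_eq_map_iff, QuotientGroup.ker_mk', h]
  exact ⟨eH.trans ((MulEquiv.subgroupCongr e).trans eK.symm)⟩

theorem half {G : Type*} [Group G] [Finite G] (U : Subgroup G) (hU : IsCoatom U)
    (hcore : U.normalCore = ⊥) (A B : Subgroup G) [A.Normal] [B.Normal] (hA : A ≠ ⊥) (hB : B ≠ ⊥)
    (hAmin : ∀ K : Subgroup G, K.Normal → K ≤ A → K = ⊥ ∨ K = A)
    (hBmin : ∀ K : Subgroup G, K.Normal → K ≤ B → K = ⊥ ∨ K = B) (hAB : A ≠ B) :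
    A ⊓ B = ⊥ ∧ Subgroup.centralizer (B : Set G) = A ∧ Subgroup.IsComplement' A U ∧
      Nonempty (A ≃* ↥((A ⊔ B) ⊓ U)) := by
  have hdisj : A ⊓ B = ⊥ := by
    rcases hAmin (A ⊓ B) inferInstance inf_le_left with h | h
    · exact h
    · exfalso
      have hle : A ≤ B := by rw [← h]; exact inf_le_right
      rcases hBmin A inferInstance hle with h' | h'
      · exact hA h'
      · exact hAB h'
  have hAC : A ≤ Subgroup.centralizer (B : Set G) := by
    intro a ha
    rw [Subgroup.mem_centralizer_iff]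
    intro b hb
    exact (Subgroup.commute_of_normal_of_disjoint A B inferInstance inferInstance
      (disjoint_iff.mpr hdisj) a b ha hb).symm
  obtain ⟨h1, h2⟩ := Cfsg.Agent.S0549.result U hU hcore B hB
  have hC : Subgroup.centralizer (B : Set G) = A := by
    rcases h2 with h2 | ⟨-, h2⟩
    · exfalso; rw [h2] at hAC; exact hA (le_bot_iff.mp hAC)
    · rcases h2 A inferInstance hAC with h3 | h3
      · exact absurd h3 hA
      · exact h3.symm
  have hAU : A ⊓ U = ⊥ := by rw [← hC]; exact h1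
  refine ⟨hdisj, hC, ?_, ?_⟩
  · apply Subgroup.isComplement'_of_disjoint_and_mul_eq_univ (disjoint_iff.mpr hAU)
    rw [← Subgroup.normal_mul, sup_comm, Cfsg.Agent.S0549.sup_eq_top U hU hcore A hA]
    rfl
  · apply nonempty_mulEquiv_of_compl B A ((A ⊔ B) ⊓ U) hdisj
    · have hBU : Subgroup.centralizer (A : Set G) ⊓ U = ⊥ :=
        Cfsg.Agent.S0549.centralizer_inf_eq_bot U hU hcore A hA
      have hBC : B ≤ Subgroup.centralizer (A : Set G) := by
        intro b hb
        rw [Subgroup.mem_centralizer_iff]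
        intro a ha
        exact (Subgroup.commute_of_normal_of_disjoint A B inferInstance inferInstance
          (disjoint_iff.mpr hdisj) a b ha hb)
      apply le_bot_iff.mp
      rw [← hBU]
      exact le_inf (inf_le_right.trans hBC) (inf_le_left.trans inf_le_right)
    · apply le_antisymm
      · intro x hx
        obtain ⟨u, hu, b, hb, rfl⟩ := Cfsg.Agent.S0549.exists_mul U hU hcore B hB x
        have hb' : b ∈ A ⊔ B := (le_sup_right : B ≤ A ⊔ B) hb
        have hu' : u ∈ A ⊔ B := by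
          have := (A ⊔ B).mul_mem hx ((A ⊔ B).inv_mem hb')
          simpa using this
        exact Subgroup.mul_mem _ ((le_sup_left : (A ⊔ B) ⊓ U ≤ (A ⊔ B) ⊓ U ⊔ B) ⟨hu', hu⟩)
          ((le_sup_right : B ≤ (A ⊔ B) ⊓ U ⊔ B) hb)
      · exact sup_le inf_le_left le_sup_right

/-- Let U be a maximal subgroup with trivial normal core in a finite group G, and A ≠ B two minimal normal subgroups. Then A is the centralizer of B and B that of A, U complements each of them, A and B are non-abelian, and A, B and (A ⊔ B) ∩ U are pairwise isomorphic. -/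
theorem result {G : Type*} [Group G] [Finite G] (U : Subgroup G) (hU : IsCoatom U) (hcore : U.normalCore = ⊥) (A B : Subgroup G) [A.Normal] [B.Normal] (hA : A ≠ ⊥) (hB : B ≠ ⊥) (hAmin : ∀ K : Subgroup G, K.Normal → K ≤ A → K = ⊥ ∨ K = A) (hBmin : ∀ K : Subgroup G, K.Normal → K ≤ B → K = ⊥ ∨ K = B) (hAB : A ≠ B) : Subgroup.centralizer (B : Set G) = A ∧ Subgroup.centralizer (A : Set G) = B ∧ Subgroup.IsComplement' A U ∧ Subgroup.IsComplement' B U ∧ ¬ IsMulCommutative A ∧ Nonempty (A ≃* B) ∧ Nonempty (A ≃* ↥((A ⊔ B) ⊓ U)) := by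
  obtain ⟨hd, a1, a2, ⟨a3⟩⟩ := half U hU hcore A B hA hB hAmin hBmin hAB
  obtain ⟨-, b1, b2, ⟨b3⟩⟩ := half U hU hcore B A hB hA hBmin hAmin hAB.symm
  have e : (B ⊔ A) ⊓ U = (A ⊔ B) ⊓ U := by rw [sup_comm]
  refine ⟨a1, b1, a2, b2, ?_, ⟨a3.trans ((MulEquiv.subgroupCongr e).symm.trans b3.symm)⟩, ⟨a3⟩⟩
  intro hcomm
  apply hA
  apply le_bot_iff.mp
  rw [← hd]
  refine le_inf le_rfl ?_
  rw [← b1]
  intro a ha
  rw [Subgroup.mem_centralizer_iff]
  intro a' ha'
  have := mul_comm' (⟨a', ha'⟩ : A) ⟨a, ha⟩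
  exact congrArg Subtype.val this

end Cfsg.Agent.S0550
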