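import Cfsg.Statements.S0563
import Cfsg.Agent.Lib.Helper2KWd

set_option autoImplicit false
open Pointwise
open Cfsg

namespace Cfsg.Agent.S0563

/-- If a finite group G is the product AB of two nilpotent subgroups of coprime orders, then G is solvable, and for every Sylow p-subgroup P of A and Sylow q-subgroup Q of B the product set PQ is a subgroup. -/
theorem result {G : Type*} [Group G] [Finite G] (A B : Subgroup G) (hA : Group.IsNilpotent A) (hB : Group.IsNilpotent B) (hcop : (Nat.card A).Coprime (Nat.card B)) (hAB : ∀ g : G, ∃ a ∈ A, ∃ b ∈ B, g = a * b) : Group.IsSolvable G ∧ ∀ (p q : ℕ) [Fact p.Prime] [Fact q.Prime] (P : Sylow p A) (Q : Sylow q B), ∃ S : Subgroup G, (S : Set G) = (((P : Subgroup A).map A.subtype : Subgroup G) : Set G) * (((Q : Subgroup B).map B.subtype : Subgroup G) : Set G) := by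
  have hsol := Cfsg.Agent.Lib.Helper2KWd.wielandt A B hA hB hcop hAB
  refine ⟨hsol, ?_⟩
  intro p q _ _ P Q
  have c : Cfsg.Agent.Lib.Helper2KWb.Fac A B := ⟨hA, hB, hcop, hAB⟩
  have hPn : (((P : Subgroup A).map A.subtype).subgroupOf A).Normal := by
    have : ((P : Subgroup A).map A.subtype).subgroupOf A = P :=
      Subgroup.comap_map_eq_self_of_injective A.subtype_injective _
    rw [this]
    infer_instance
  have hQn : (((Q : Subgroup B).map B.subtype).subgroupOf B).Normal := by
    have : ((Q : Subgroup B).map B.subtype).subgroupOf B = Q :=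
      Subgroup.comap_map_eq_self_of_injective B.subtype_injective _
    rw [this]
    infer_instance
  obtain ⟨S, hS⟩ := Cfsg.Agent.S0561.result A B ((P : Subgroup A).map A.subtype)
    ((Q : Subgroup B).map B.subtype) hAB (Subgroup.map_subtype_le _) hPn
    (Subgroup.map_subtype_le _) hQn (Cfsg.Agent.Lib.Helper2KWd.hall_sylow c P)
    (Cfsg.Agent.Lib.Helper2KWd.hall_sylow c.symm Q) 1 1
  simp only [map_one, one_smul] at hS
  exact ⟨S, hS⟩

end Cfsg.Agent.S0563
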