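import Cfsg.Statements.S0666
import Cfsg.Agent.S0035
import Mathlib

set_option autoImplicit false
open Cfsg
open scoped Pointwise

namespace Cfsg.Agent.S0666

theorem fixed_prod {V F : Type*} [CommGroup V] [Group F] (ρ : F →* MulAut V) (X : Subgroup F)
    [Fintype X] (v : V) (x : F) (hx : x ∈ X) : ρ x (∏ y : X, ρ y v) = ∏ y : X, ρ y v := by
  rw [map_prod]
  refine Fintype.prod_equiv (Equiv.mulLeft (⟨x, hx⟩ : X)) _ _ ?_
  intro y
  simp [map_mul]

theorem abs {V F : Type*} [CommGroup V] [Group F] [Finite F] (ρ : F →* MulAut V)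
    (H K : Subgroup F) (hcompl : Subgroup.IsComplement' K H)
    (hKset : (K : Set F) = frobeniusKernel H) (hH : IsFrobeniusComplement H)
    (hCK : ∀ v, (∀ x ∈ K, ρ x v = v) → v = 1)
    (hCH : ∀ v, (∀ h ∈ H, ρ h v = v) → v = 1) (v : V) : v ^ Nat.card K = 1 := by
  classical
  have : Fintype F := Fintype.ofFinite F
  have TK : ∀ v, ∏ y : K, ρ y v = 1 := fun v => hCK _ (fun x hx => fixed_prod ρ K v x hx)
  have TH : ∀ v, ∏ y : H, ρ y v = 1 := fun v => hCH _ (fun x hx => fixed_prod ρ H v x hx)
  have hF : ∏ f : F, ρ f v = 1 := by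
    rw [← Fintype.prod_equiv (Equiv.ofBijective _ hcompl) (fun z : K × H => ρ (z.1.1 * z.2.1) v)
      (fun f => ρ f v) (fun z => rfl), Fintype.prod_prod_type]
    have : ∀ x : K, ∏ y : H, ρ (x.1 * y.1) v = 1 := by
      intro x
      have := congrArg (ρ x.1) (TH v)
      rw [map_prod, map_one] at this
      simpa [map_mul] using this
    exact Finset.prod_eq_one (fun x _ => this x)
  have hsplit : (∏ f ∈ Finset.univ.filter (fun f : F => f ∈ K), ρ f v) *
      (∏ f ∈ Finset.univ.filter (fun f : F => f ∉ K), ρ f v) = ∏ f : F, ρ f v :=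
    Finset.prod_filter_mul_prod_filter_not _ _ _
  have hK1 : (∏ f ∈ Finset.univ.filter (fun f : F => f ∈ K), ρ f v) = 1 := by
    rw [← TK v]
    exact (Finset.prod_subtype (Finset.univ.filter (fun f : F => f ∈ K)) (by simp)
      (fun f => ρ f v))
  have hP : (∏ f ∈ Finset.univ.filter (fun f : F => f ∉ K), ρ f v) = 1 := by
    rw [hK1, hF, one_mul] at hsplit
    exact hsplit
  have hconj : ∏ x : K, ∏ h : H, ρ (x.1 * h.1 * x.1⁻¹) v = 1 := by
    have : ∀ x : K, ∏ y : H, ρ (x.1 * y.1 * x.1⁻¹) v = 1 := by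
      intro x
      have := congrArg (ρ x.1) (TH (ρ x.1⁻¹ v))
      rw [map_prod, map_one] at this
      simpa [map_mul] using this
    exact Finset.prod_eq_one (fun x _ => this x)
  have hsp : ∀ x : K, ∏ h : H, ρ (x.1 * h.1 * x.1⁻¹) v =
      v * ∏ h ∈ Finset.univ.erase (1 : H), ρ (x.1 * h.1 * x.1⁻¹) v := by
    intro x
    rw [← Finset.mul_prod_erase Finset.univ _ (Finset.mem_univ (1 : H))]
    simp
  have hbij : ∏ x : K, ∏ h ∈ Finset.univ.erase (1 : H), ρ (x.1 * h.1 * x.1⁻¹) v =
      ∏ f ∈ Finset.univ.filter (fun f : F => f ∉ K), ρ f v := by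
    rw [← Finset.prod_product']
    have hmemK : ∀ f : F, f ∈ K ↔ (f = 1 ∨ ∀ g : F, f ∉ MulAut.conj g • H) := by
      intro f
      rw [← SetLike.mem_coe, hKset]; rfl
    refine Finset.prod_bij (fun z _ => z.1.1 * z.2.1 * z.1.1⁻¹) ?_ ?_ ?_ ?_
    · rintro ⟨x, h⟩ hz
      simp only [Finset.mem_product, Finset.mem_univ, Finset.mem_erase, true_and, and_true] at hz
      simp only [Finset.mem_filter, Finset.mem_univ, true_and, hmemK]
      push Not
      refine ⟨?_, x.1, ?_⟩
      · intro h1
        apply hz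
        have : h.1 = 1 := by
          have := congrArg (fun t => x.1⁻¹ * t * x.1) h1
          simpa [mul_assoc] using this
        exact Subtype.ext this
      · rw [Subgroup.mem_pointwise_smul_iff_inv_smul_mem]
        simp [mul_assoc]
    · rintro ⟨x, h⟩ hz ⟨x', h'⟩ hz' heq
      simp only [Finset.mem_product, Finset.mem_univ, Finset.mem_erase, true_and, and_true] at hz hz'
      simp only at heq
      have hg : x.1⁻¹ * x'.1 ∈ H := by
        by_contra hg
        have h0 := hH.2.2 _ hg
        have hm : h.1 ∈ H ⊓ (MulAut.conj (x.1⁻¹ * x'.1) • H) := by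
          rw [Subgroup.mem_inf]
          refine ⟨h.2, ?_⟩
          rw [Subgroup.mem_pointwise_smul_iff_inv_smul_mem]
          have : (MulAut.conj (x.1⁻¹ * x'.1))⁻¹ • h.1 = h'.1 := by
            have e : h.1 = x.1⁻¹ * (x'.1 * h'.1 * x'.1⁻¹) * x.1 := by
              rw [← heq]; group
            rw [e]
            simp [MulAut.smul_def]
            group
          rw [this]; exact h'.2
        rw [h0, Subgroup.mem_bot] at hm
        exact hz (Subtype.ext hm)
      have hg' : x.1⁻¹ * x'.1 ∈ K := K.mul_mem (K.inv_mem x.2) x'.2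
      have h1 : x.1⁻¹ * x'.1 = 1 := by
        have := hcompl.disjoint.le_bot ⟨hg', hg⟩
        simpa using this
      have hxx : x = x' := Subtype.ext (inv_mul_eq_one.1 h1)
      subst hxx
      have : h.1 = h'.1 := by simpa using heq
      rw [Subtype.ext this]
    · intro f hf
      simp only [Finset.mem_filter, Finset.mem_univ, true_and, hmemK] at hf
      push Not at hf
      obtain ⟨hf1, g, hg⟩ := hf
      rw [Subgroup.mem_pointwise_smul_iff_inv_smul_mem] at hg
      obtain ⟨⟨x, h₁⟩, hxh⟩ := hcompl.2 g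
      simp only at hxh
      refine ⟨(x, ⟨h₁.1 * ((MulAut.conj g)⁻¹ • f) * h₁.1⁻¹,
        H.mul_mem (H.mul_mem h₁.2 hg) (H.inv_mem h₁.2)⟩), ?_, ?_⟩
      · simp only [Finset.mem_product, Finset.mem_univ, Finset.mem_erase, true_and, and_true]
        intro h0
        apply hf1
        have := congrArg Subtype.val h0
        simp [MulAut.smul_def] at this
        have := congrArg (fun t => g * t * g⁻¹) this
        simpa [mul_assoc] using this
      · simp only [MulAut.smul_def, MulAut.conj_inv_apply, ← hxh]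
        group
    · intro z _
      rfl
  simp_rw [hsp] at hconj
  rw [Finset.prod_mul_distrib, hbij, hP, mul_one, Finset.prod_const, Finset.card_univ,
    ← Nat.card_eq_fintype_card] at hconj
  exact hconj

open scoped IsMulCommutative in
/-- A Frobenius group acting on a nontrivial abelian group of order prime to that of its kernel, with the kernel acting without nontrivial fixed points, has a complement with a nontrivial fixed point. -/
theorem result {G : Type*} [Group G] [Finite G] (V F : Subgroup G) (hVab : IsMulCommutative V) (hV1 : V ≠ ⊥) (hFV : F ≤ Subgroup.normalizer (V : Set G)) (H : Subgroup ↥F) (hH : Cfsg.IsFrobeniusComplement H) (hcop : (Nat.card V).Coprime (Nat.card (Cfsg.frobeniusKernel H))) (hCK : V ⊓ Subgroup.centralizer (Subtype.val '' Cfsg.frobeniusKernel H : Set G) = ⊥) : V ⊓ Subgroup.centralizer ((H.map F.subtype : Subgroup G) : Set G) ≠ ⊥ := by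
  intro hCH
  obtain ⟨K, hKset, -, hcompl⟩ := Cfsg.Agent.S0035.result H hH
  let ρ : F →* MulAut V := V.normalizerMonoidHom.comp (Subgroup.inclusion hFV)
  have hρ : ∀ (f : F) (v : V), ((ρ f v : V) : G) = f.1 * v.1 * f.1⁻¹ := fun f v => rfl
  have key := abs ρ H K hcompl hKset hH ?_ ?_
  · apply hV1
    rw [Subgroup.eq_bot_iff_forall]
    intro v hv
    have h1 := key ⟨v, hv⟩
    have h2 : (⟨v, hv⟩ : V) ^ Nat.card V = 1 := pow_card_eq_one'
    have hc : Nat.card K = Nat.card (frobeniusKernel H) := by rw [← hKset]; rfl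
    rw [← hc] at hcop
    have h3 := pow_gcd_eq_one.2 ⟨h2, h1⟩
    rw [Nat.Coprime.gcd_eq_one hcop, pow_one] at h3
    exact congrArg Subtype.val h3
  · intro v hv
    have hm : v.1 ∈ V ⊓ Subgroup.centralizer (Subtype.val '' Cfsg.frobeniusKernel H : Set G) := by
      rw [Subgroup.mem_inf]
      refine ⟨v.2, ?_⟩
      rw [Subgroup.mem_centralizer_iff]
      rintro _ ⟨x, hx, rfl⟩
      have h1 := hv x (by rw [← SetLike.mem_coe, hKset]; exact hx)
      have h2 := congrArg Subtype.val h1
      rw [hρ] at h2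
      exact mul_inv_eq_iff_eq_mul.1 h2
    rw [hCK, Subgroup.mem_bot] at hm
    exact Subtype.ext hm
  · intro v hv
    have hm : v.1 ∈ V ⊓ Subgroup.centralizer ((H.map F.subtype : Subgroup G) : Set G) := by
      rw [Subgroup.mem_inf]
      refine ⟨v.2, ?_⟩
      rw [Subgroup.mem_centralizer_iff]
      rintro _ ⟨x, hx, rfl⟩
      have h1 := hv x hx
      have h2 := congrArg Subtype.val h1
      rw [hρ] at h2
      exact mul_inv_eq_iff_eq_mul.1 h2
    rw [hCH, Subgroup.mem_bot] at hm
    exact Subtype.ext hm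

end Cfsg.Agent.S0666
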