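import Cfsg.Statements.S0721
import Cfsg.Agent.Lib.Helper16Sylow
import Mathlib

set_option autoImplicit false
open Cfsg

namespace Cfsg.Agent.S0721

open Cfsg.Agent.Lib.Helper16Sylow

variable {H : Type*} [Group H]

/-- `K` is a subgroup of `N` normalized by `N`. -/
def NN (N K : Subgroup H) : Prop := K ≤ N ∧ N ≤ Subgroup.normalizer (K : Set H)

theorem NN.inf {N A B : Subgroup H} (hA : NN N A) (hB : NN N B) : NN N (A ⊓ B) := by
  refine ⟨inf_le_left.trans hA.1, ?_⟩
  intro n hn
  have h1 := Subgroup.mem_normalizer_iff.1 (hA.2 hn)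
  have h2 := Subgroup.mem_normalizer_iff.1 (hB.2 hn)
  rw [Subgroup.mem_normalizer_iff]
  intro x
  rw [Subgroup.mem_inf, Subgroup.mem_inf, h1 x, h2 x]

theorem NN.sup {N A B : Subgroup H} (hA : NN N A) (hB : NN N B) : NN N (A ⊔ B) :=
  ⟨sup_le hA.1 hB.1,
    (le_inf hA.2 hB.2).trans (Subgroup.normalizer_inf_normalizer_le_normalizer_sup A B)⟩

theorem cj_normal (N : Subgroup H) [hN : N.Normal] (h : H) : cj h N = N := by
  rw [← mem_normalizer_iff_cj, Subgroup.normalizer_eq_top]
  trivial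

theorem NN.conj {N K : Subgroup H} [N.Normal] (hK : NN N K) (h : H) :
    NN N (cj h K) := by
  constructor
  · have := cj_mono (g := h) hK.1
    rwa [cj_normal N] at this
  · rw [normalizer_cj]
    have := cj_mono (g := h) hK.2
    rwa [cj_normal N] at this

theorem NN.commute {N A B : Subgroup H} (hA : NN N A) (hB : NN N B) (hAB : A ⊓ B = ⊥) :
    ∀ a ∈ A, ∀ b ∈ B, a * b = b * a := by
  intro a ha b hb
  have h1 : a * b * a⁻¹ ∈ B := (Subgroup.mem_normalizer_iff.1 (hB.2 (hA.1 ha)) b).1 hb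
  have h2 : b * a⁻¹ * b⁻¹ ∈ A :=
    (Subgroup.mem_normalizer_iff.1 (hA.2 (hB.1 hb)) a⁻¹).1 (A.inv_mem ha)
  have h3 : a * b * a⁻¹ * b⁻¹ ∈ A ⊓ B := by
    refine Subgroup.mem_inf.2 ⟨?_, B.mul_mem h1 (B.inv_mem hb)⟩
    have := A.mul_mem ha h2
    have e : a * (b * a⁻¹ * b⁻¹) = a * b * a⁻¹ * b⁻¹ := by group
    rwa [e] at this
  rw [hAB, Subgroup.mem_bot] at h3
  have e : a * b = (a * b * a⁻¹ * b⁻¹) * (b * a) := by group
  rw [e, h3, one_mul]

theorem prod_equiv (A B : Subgroup H) (hc : ∀ a ∈ A, ∀ b ∈ B, a * b = b * a) (hAB : A ⊓ B = ⊥) :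
    Nonempty ((A ⊔ B : Subgroup H) ≃* A × B) := by
  have comm : ∀ (a : A) (b : B), Commute (A.subtype a) (B.subtype b) :=
    fun a b => hc a a.2 b b.2
  have hinj : Function.Injective (MonoidHom.noncommCoprod A.subtype B.subtype comm) := by
    rw [MonoidHom.noncommCoprod_injective]
    refine ⟨A.subtype_injective, B.subtype_injective, ?_⟩
    rw [Subgroup.range_subtype, Subgroup.range_subtype, disjoint_iff]
    exact hAB
  have hrange : (MonoidHom.noncommCoprod A.subtype B.subtype comm).range = A ⊔ B := by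
    rw [MonoidHom.noncommCoprod_range, Subgroup.range_subtype, Subgroup.range_subtype]
  exact ⟨((MonoidHom.ofInjective hinj).trans (MulEquiv.subgroupCongr hrange)).symm⟩

theorem pow_succ_equiv (T : Type*) [Group T] (m : ℕ) :
    Nonempty ((Fin m → T) × T ≃* (Fin (m + 1) → T)) := by
  refine ⟨{ (Equiv.prodComm _ _).trans (Fin.consEquiv (fun _ => T)) with map_mul' := ?_ }⟩
  intro a b
  ext i
  refine Fin.cases ?_ (fun j => ?_) i <;> simp

theorem closure_le_of_conj (T0 M : Subgroup H) (h : ∀ g, cj g T0 ≤ M) :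
    Subgroup.normalClosure (T0 : Set H) ≤ M := by
  unfold Subgroup.normalClosure
  rw [Subgroup.closure_le]
  intro x hx
  rw [Group.mem_conjugatesOfSet_iff] at hx
  obtain ⟨a, ha, hax⟩ := hx
  rw [isConj_iff] at hax
  obtain ⟨c, rfl⟩ := hax
  exact h c (conj_mem_cj ha)

/-- A minimal normal subgroup of a finite group is isomorphic to a direct power `T ^ m` of a simple group `T` (possibly of prime order). -/
theorem result {H : Type*} [Group H] [Finite H] (N : Subgroup H) [N.Normal] (hN : N ≠ ⊥) (hmin : ∀ M : Subgroup H, M.Normal → M ≤ N → M = ⊥ ∨ M = N) : ∃ (T : Type) (_ : Group T) (m : ℕ), IsSimpleGroup T ∧ 0 < m ∧ Nonempty (N ≃* (Fin m → T)) := by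
  classical
  -- minimal T0
  obtain ⟨T0, ⟨hT0, hT0ne⟩, hT0min⟩ := Set.exists_min_image {K : Subgroup H | NN N K ∧ K ≠ ⊥}
    (fun K => Nat.card K) (Set.toFinite _) ⟨N, ⟨le_rfl, Subgroup.le_normalizer⟩, hN⟩
  have hmin0 : ∀ K, NN N K → K ≤ T0 → K = ⊥ ∨ K = T0 := by
    intro K hK hle
    by_cases hb : K = ⊥
    · exact Or.inl hb
    · exact Or.inr (Subgroup.eq_of_le_of_card_ge hle (hT0min K ⟨hK, hb⟩))
  have hdich : ∀ M, NN N M → ∀ h, cj h T0 ≤ M ∨ cj h T0 ⊓ M = ⊥ := by
    intro M hM h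
    have h1 : NN N (cj h T0 ⊓ M) := (hT0.conj h).inf hM
    have h2 : cj h⁻¹ (cj h T0 ⊓ M) ≤ T0 := by
      have := cj_mono (g := h⁻¹) (inf_le_left : cj h T0 ⊓ M ≤ cj h T0)
      rwa [cj_inv_cj] at this
    rcases hmin0 _ (h1.conj h⁻¹) h2 with h3 | h3
    · right
      have := congrArg (cj h) h3
      rw [cj_cj_inv] at this
      rw [this]
      exact Subgroup.map_bot _
    · left
      have := congrArg (cj h) h3
      rw [cj_cj_inv] at this
      rw [← this]
      exact inf_le_right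
  have hNcl : Subgroup.normalClosure (T0 : Set H) = N := by
    rcases hmin _ inferInstance (Subgroup.normalClosure_le_normal hT0.1) with h | h
    · exfalso
      apply hT0ne
      rw [eq_bot_iff, ← h]
      exact Subgroup.le_normalClosure
    · exact h
  -- T0 is simple
  have hsimple : IsSimpleGroup T0 := by
    have : Nontrivial T0 := (Subgroup.nontrivial_iff_ne_bot T0).2 hT0ne
    refine ⟨fun L hL => ?_⟩
    have hL'le : L.map T0.subtype ≤ T0 := Subgroup.map_subtype_le L
    have hnorm : ∀ h, cj h T0 ≤ Subgroup.normalizer ((L.map T0.subtype : Subgroup H) : Set H) := by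
      intro h c hc
      rw [mem_normalizer_iff_cj]
      apply cj_eq_of_le
      intro y hy
      rw [mem_cj] at hy
      obtain ⟨z, hz, hzy⟩ := hy
      have hy' : y = c * (z : H) * c⁻¹ := by
        have : (z : H) = c⁻¹ * y * c := hzy
        rw [this]; group
      rcases hdich T0 hT0 h with h1 | h1
      · have hcT : c ∈ T0 := h1 hc
        refine ⟨⟨c, hcT⟩ * z * ⟨c, hcT⟩⁻¹, hL.conj_mem z hz _, ?_⟩
        rw [hy']
        rfl
      · have := (hT0.conj h).commute hT0 h1 c hc z z.2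
        refine ⟨z, hz, ?_⟩
        rw [hy', this]
        simp
    have hNN : NN N (L.map T0.subtype) := by
      refine ⟨hL'le.trans hT0.1, ?_⟩
      rw [← hNcl]
      exact closure_le_of_conj _ _ hnorm
    rcases hmin0 _ hNN hL'le with h | h
    · left
      exact (Subgroup.map_eq_bot_iff_of_injective L T0.subtype_injective).1 h
    · right
      rw [eq_top_iff]
      intro x _
      have hx : (x : H) ∈ L.map T0.subtype := by rw [h]; exact x.2
      obtain ⟨z, hz, hzx⟩ := hx
      have : z = x := Subtype.ext hzx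
      rwa [← this]
  -- maximal product
  obtain ⟨M, ⟨hM, m, ⟨eM⟩⟩, hMmax⟩ := Set.exists_max_image
    {M : Subgroup H | NN N M ∧ ∃ m : ℕ, Nonempty (M ≃* (Fin m → T0))}
    (fun K => Nat.card K) (Set.toFinite _)
    ⟨⊥, ⟨bot_le, by rw [Subgroup.normalizer_eq_top]; exact le_top⟩, 0, ⟨MulEquiv.ofUnique⟩⟩
  have hall : ∀ h, cj h T0 ≤ M := by
    intro h
    rcases hdich M hM h with h1 | h1
    · exact h1
    · exfalso
      have hc := hM.commute (hT0.conj h) (by rw [inf_comm]; exact h1)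
      obtain ⟨e1⟩ := prod_equiv M (cj h T0) hc (by rw [inf_comm]; exact h1)
      obtain ⟨e2⟩ := pow_succ_equiv T0 m
      have e3 : T0 ≃* cj h T0 := T0.equivMapOfInjective _ (MulAut.conj h).injective
      have e4 : (M ⊔ cj h T0 : Subgroup H) ≃* (Fin (m + 1) → T0) :=
        (e1.trans (MulEquiv.prodCongr eM e3.symm)).trans e2
      have h2 := hMmax (M ⊔ cj h T0) ⟨hM.sup (hT0.conj h), m + 1, ⟨e4⟩⟩
      have h3 : M = M ⊔ cj h T0 := Subgroup.eq_of_le_of_card_ge le_sup_left h2
      have h4 : cj h T0 ≤ M := by rw [h3]; exact le_sup_right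
      have h5 : cj h T0 = ⊥ := by rw [← h1]; exact (inf_eq_left.2 h4).symm
      apply hT0ne
      have := congrArg (cj h⁻¹) h5
      rw [cj_inv_cj] at this
      rw [this]
      exact Subgroup.map_bot _
  have hMN : M = N := le_antisymm hM.1 (by rw [← hNcl]; exact closure_le_of_conj _ _ hall)
  subst hMN
  obtain ⟨T, gT, _, ⟨e⟩⟩ := Finite.exists_type_univ_nonempty_mulEquiv.{_, 0} T0
  refine ⟨T, gT, m, e.symm.isSimpleGroup, ?_, ⟨eM.trans (MulEquiv.piCongrRight fun _ => e)⟩⟩
  rcases Nat.eq_zero_or_pos m with h0 | h0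
  · exfalso
    subst h0
    apply hN
    have : Subsingleton M := eM.toEquiv.subsingleton
    exact Subgroup.eq_bot_of_subsingleton M
  · exact h0

end Cfsg.Agent.S0721
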