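import Cfsg.Statements.S0824
import Mathlib
import Cfsg.Agent.Lib.Helper18Transfer
import Cfsg.Agent.Lib.Helper49Forms

set_option autoImplicit false
open Cfsg

namespace Cfsg.Agent.S0824

open Matrix Cfsg.Agent.Lib.Helper49Orth Cfsg.Agent.Lib.Helper49Forms

abbrev I := (Fin 1 ⊕ Fin 1) ⊕ Fin 2

abbrev V := I → ZMod 2

abbrev q0 : V → ZMod 2 := Cfsg.quadFormMinus 1 (ZMod 2) 1 1

set_option maxRecDepth 100000 in
theorem F2 : Fintype.card {v : V // v ≠ 0 ∧ q0 v = 0} = 5 := by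
  decide +kernel

set_option maxRecDepth 100000 in
set_option synthInstance.maxHeartbeats 400000 in
set_option synthInstance.maxSize 1000 in
theorem F1 : ∀ x y : V, (x ≠ 0 ∧ q0 x = 0 ∧ y ≠ 0 ∧ q0 y = 0 ∧ x ≠ y) →
    q0 (x + y) = 1 ∧ q0 (x - y) = 1 := by
  decide +kernel

set_option maxRecDepth 100000 in
theorem F3 : ∀ j : (Fin 1 ⊕ Fin 1) ⊕ Fin 2, ∃ a b c : V, (q0 a = 0 ∧ q0 b = 0 ∧ q0 c = 0) ∧
    (Pi.single j 1 : V) = a + b + c := by
  decide +kernel

/-- the nonzero singular vectors -/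
abbrev S := {v : V // v ≠ 0 ∧ q0 v = 0}

abbrev G := ↥(Cfsg.isometryGroup (ZMod 2) q0)

theorem mulVec_ne_zero (g : G) (v : V) (hv : v ≠ 0) :
    ((g : Matrix.GeneralLinearGroup I (ZMod 2)) : Matrix I I (ZMod 2)) *ᵥ v ≠ 0 := by
  intro h
  apply hv
  have := congrArg (fun w => (((g⁻¹ : G) : Matrix.GeneralLinearGroup I (ZMod 2)) : Matrix I I (ZMod 2)) *ᵥ w) h
  simpa [Matrix.mulVec_mulVec] using this

instance actS : MulAction G S where
  smul g v := ⟨((g : Matrix.GeneralLinearGroup I (ZMod 2)) : Matrix I I (ZMod 2)) *ᵥ v.1,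
    mulVec_ne_zero g v.1 v.2.1, by rw [iso_apply g v.1]; exact v.2.2⟩
  one_smul v := Subtype.ext (by
    change ((((1 : G) : Matrix.GeneralLinearGroup I (ZMod 2)) : Matrix I I (ZMod 2)) *ᵥ v.1) = v.1
    simp)
  mul_smul g h v := Subtype.ext (by
    change ((((g * h : G) : Matrix.GeneralLinearGroup I (ZMod 2)) : Matrix I I (ZMod 2)) *ᵥ v.1)
      = ((g : Matrix.GeneralLinearGroup I (ZMod 2)) : Matrix I I (ZMod 2)) *ᵥ
        (((h : Matrix.GeneralLinearGroup I (ZMod 2)) : Matrix I I (ZMod 2)) *ᵥ v.1)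
    simp [Matrix.mulVec_mulVec])

theorem smul_coe (g : G) (v : S) :
    ((g • v : S) : V) = ((g : Matrix.GeneralLinearGroup I (ZMod 2)) : Matrix I I (ZMod 2)) *ᵥ v.1 := rfl

theorem psi_injective : Function.Injective (MulAction.toPermHom G S) := by
  rw [injective_iff_map_eq_one]
  intro g hg
  have h1 : ∀ v : V, q0 v = 0 →
      ((g : Matrix.GeneralLinearGroup I (ZMod 2)) : Matrix I I (ZMod 2)) *ᵥ v = v := by
    intro v hv
    by_cases h0 : v = 0
    · subst h0; simp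
    · have := congrArg (fun σ : Equiv.Perm S => ((σ ⟨v, h0, hv⟩ : S) : V)) hg
      simpa [smul_coe] using this
  apply iso_ext
  apply Matrix.ext_of_mulVec_single
  intro j
  obtain ⟨a, b, c, ⟨ha, hb, hc⟩, habc⟩ := F3 j
  rw [habc, Matrix.mulVec_add, Matrix.mulVec_add, h1 a ha, h1 b hb, h1 c hc]
  simp

theorem psi_surjective : Function.Surjective (MulAction.toPermHom G S) := by
  rw [← MonoidHom.range_eq_top, eq_top_iff, ← Equiv.Perm.closure_isSwap, Subgroup.closure_le]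
  rintro σ ⟨x, y, hxy, rfl⟩
  have hQ : ⇑(QMinus 1 (ZMod 2) 1 1) = q0 := coe_QMinus 1 1 1
  have hxy' : x.1 ≠ y.1 := fun h => hxy (Subtype.ext h)
  have h1 := F1 x.1 y.1 ⟨x.2.1, x.2.2, y.2.1, y.2.2, hxy'⟩
  have hu : QMinus 1 (ZMod 2) 1 1 (x.1 - y.1) ≠ 0 := by
    rw [hQ, h1.2]; exact one_ne_zero
  have hxQ : QMinus 1 (ZMod 2) 1 1 x.1 = 0 := by rw [hQ]; exact x.2.2
  have hyQ : QMinus 1 (ZMod 2) 1 1 y.1 = 0 := by rw [hQ]; exact y.2.2
  have hpol : ∀ a b : S, a ≠ b → QuadraticMap.polar ⇑(QMinus 1 (ZMod 2) 1 1) a.1 b.1 = 1 := by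
    intro a b hab
    have := F1 a.1 b.1 ⟨a.2.1, a.2.2, b.2.1, b.2.2, fun h => hab (Subtype.ext h)⟩
    rw [QuadraticMap.polar, hQ, this.1, a.2.2, b.2.2]
    simp
  refine ⟨⟨reflGL (QMinus 1 (ZMod 2) 1 1) hu, mem_iso.2 (fun v => ?_)⟩, ?_⟩
  · have := Q_refl _ hu v
    rw [congrFun hQ, congrFun hQ] at this
    exact this
  · refine Equiv.ext fun t => Subtype.ext ?_
    rw [MulAction.toPermHom_apply, MulAction.toPerm_apply, smul_coe]
    change Cfsg.reflectionMatrix ⇑(QMinus 1 (ZMod 2) 1 1) (x.1 - y.1) *ᵥ t.1 = _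
    have hx : Cfsg.reflectionMatrix ⇑(QMinus 1 (ZMod 2) 1 1) (x.1 - y.1) *ᵥ x.1 = y.1 :=
      refl_sub_apply _ (by rw [hxQ, hyQ]) hu
    by_cases htx : t = x
    · subst htx
      rw [Equiv.swap_apply_left, hx]
    · by_cases hty : t = y
      · subst hty
        rw [Equiv.swap_apply_right]
        have h2 := congrArg (fun w => Cfsg.reflectionMatrix ⇑(QMinus 1 (ZMod 2) 1 1) (x.1 - t.1) *ᵥ w) hx
        simp only [Matrix.mulVec_mulVec, refl_mul_self _ hu, Matrix.one_mulVec] at h2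
        exact h2.symm
      · rw [Equiv.swap_apply_of_ne_of_ne htx hty]
        apply refl_of_polar_eq_zero
        rw [QuadraticMap.polar_sub_left, hpol x t (Ne.symm htx), hpol y t (Ne.symm hty), sub_self]

/-- O⁻_4(2) ≅ S_5: the isometry group of the form x y + z_1² + z_1 z_2 + z_2² over the field with 2 elements is isomorphic to the symmetric group on 5 letters. -/
theorem result {F : Type*} [Field F] [Fintype F] (hF : Fintype.card F = 2) : Nonempty (↥(Cfsg.isometryGroup F (Cfsg.quadFormMinus 1 F 1 1)) ≃* Equiv.Perm (Fin 5)) := by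
  have : Fact (Nat.Prime 2) := ⟨Nat.prime_two⟩
  obtain ⟨e⟩ := Cfsg.Agent.Lib.Helper18Transfer.exists_ringEquiv_zmod (F := F) 2 hF
  have E1 := Cfsg.Agent.Lib.Helper18Transfer.isoEquiv e (Cfsg.quadFormMinus 1 F 1 1) q0 (by
    intro v
    simp [Cfsg.quadFormMinus])
  have E2 : G ≃* Equiv.Perm S := MulEquiv.ofBijective _ ⟨psi_injective, psi_surjective⟩
  have E3 : S ≃ Fin 5 := Fintype.equivFinOfCardEq F2
  exact ⟨E1.trans (E2.trans E3.permCongrHom)⟩

end Cfsg.Agent.S0824
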