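import Cfsg.Statements.S0894
import Cfsg.Agent.Lib.Helper83Extra

set_option autoImplicit false
open Cfsg

namespace Cfsg.Agent.S0894

open scoped ComplexConjugate

open Cfsg.Agent.Lib.Helper4Char Cfsg.Agent.Lib.Helper4Char2 Cfsg.Agent.Lib.Helper4Char4
open Cfsg.Agent.Lib.Helper83Char Cfsg.Agent.Lib.Helper83Extra

theorem main {P : Type*} [Group P] [Fintype P] (p n : ℕ) [Fact p.Prime]
    (hP : Cfsg.IsExtraspecial p P) (hcard : Nat.card P = p ^ (2 * n + 1)) :
    (∀ χ : Cfsg.IrrCharacter P, (χ : P → ℂ) 1 = 1 ∨ (χ : P → ℂ) 1 = (p : ℂ) ^ n) ∧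
      Nat.card {χ : Cfsg.IrrCharacter P // (χ : P → ℂ) 1 = (p : ℂ) ^ n} = p - 1 := by
  classical
  have : Fintype (Subgroup.center P) := Fintype.ofFinite _
  have dich := fun χ : Cfsg.IrrCharacter P => irr_normal_dichotomy χ.2 (Subgroup.center P)
  have hne := pow_ne_one hP hcard
  have hp : 0 < p := (Fact.out : p.Prime).pos
  refine ⟨fun χ => ?_, ?_⟩
  · rcases dich χ with h | h
    · exact Or.inl (typeA_linear hP χ.2 h)
    · exact Or.inr (typeB_degree hP hcard χ.2 h)
  have key : ∑ χ : Cfsg.IrrCharacter P, (χ : P → ℂ) 1 * ∑ z : Subgroup.center P, (χ : P → ℂ) z =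
      (Nat.card P : ℂ) := by
    simp_rw [Finset.mul_sum]
    rw [Finset.sum_comm]
    simp_rw [sum_degree_mul]
    rw [Finset.sum_eq_single (1 : Subgroup.center P)]
    · simp
    · intro z _ hz
      rw [if_neg]
      intro h
      exact hz (Subtype.ext h)
    · simp
  have h1 : ∀ χ : Cfsg.IrrCharacter P, (χ : P → ℂ) 1 * ∑ z : Subgroup.center P, (χ : P → ℂ) z =
      if (χ : P → ℂ) 1 = (p : ℂ) ^ n then 0 else (p : ℂ) := by
    intro χ
    split_ifs with hB
    · rcases dich χ with h | h
      · exact absurd (hB.symm.trans (typeA_linear hP χ.2 h)) hne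
      · have := h 1
        simp only [mul_one] at this
        rw [this, mul_zero]
    · rcases dich χ with h | h
      · have e : ∀ z : Subgroup.center P, (χ : P → ℂ) z = 1 := by
          intro z
          have := h z z.2 1
          rw [mul_one] at this
          rw [this, typeA_linear hP χ.2 h]
        simp_rw [e]
        rw [typeA_linear hP χ.2 h, Finset.sum_const, Finset.card_univ, nsmul_eq_mul,
          ← Nat.card_eq_fintype_card, card_center hP]
        ring
      · exact absurd (typeB_degree hP hcard χ.2 h) hB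
  have h2 : ∀ χ : Cfsg.IrrCharacter P, (χ : P → ℂ) 1 ^ 2 =
      if (χ : P → ℂ) 1 = (p : ℂ) ^ n then (p : ℂ) ^ (2 * n) else 1 := by
    intro χ
    split_ifs with hB
    · rw [hB]; ring
    · rcases dich χ with h | h
      · rw [typeA_linear hP χ.2 h]; ring
      · exact absurd (typeB_degree hP hcard χ.2 h) hB
  have hsq := sum_degree_sq (G := P)
  simp_rw [h1] at key
  simp_rw [h2] at hsq
  rw [Finset.sum_ite, Finset.sum_const_zero, zero_add, Finset.sum_const, nsmul_eq_mul] at key
  rw [Finset.sum_ite, Finset.sum_const, Finset.sum_const, nsmul_eq_mul, nsmul_eq_mul] at hsq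
  set b := (Finset.univ.filter fun χ : Cfsg.IrrCharacter P => (χ : P → ℂ) 1 = (p : ℂ) ^ n).card
    with hb
  set a := (Finset.univ.filter fun χ : Cfsg.IrrCharacter P => ¬ (χ : P → ℂ) 1 = (p : ℂ) ^ n).card
    with ha
  rw [hcard] at key hsq
  have k1 : a * p = p ^ (2 * n + 1) := by exact_mod_cast key
  have k2 : b * p ^ (2 * n) + a * 1 = p ^ (2 * n + 1) := by exact_mod_cast hsq
  have k3 : a = p ^ (2 * n) := by
    apply Nat.eq_of_mul_eq_mul_right hp
    rw [k1]; ring
  have k4 : b + 1 = p := by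
    have hpp : 0 < p ^ (2 * n) := pow_pos hp _
    apply Nat.eq_of_mul_eq_mul_right hpp
    rw [k3] at k2
    calc (b + 1) * p ^ (2 * n) = b * p ^ (2 * n) + p ^ (2 * n) * 1 := by ring
      _ = p ^ (2 * n + 1) := k2
      _ = p * p ^ (2 * n) := by ring
  rw [Nat.card_eq_fintype_card, Fintype.card_subtype, ← hb]
  omega


/-- Let P be an extraspecial p-group of order p ^ (2 * n + 1). Then every irreducible character of P has degree 1 or p ^ n, and exactly p - 1 of them have degree p ^ n. -/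
theorem result {P : Type*} [Group P] [Finite P] (p n : ℕ) [Fact p.Prime] (hP : Cfsg.IsExtraspecial p P) (hcard : Nat.card P = p ^ (2 * n + 1)) : (∀ χ : Cfsg.IrrCharacter P, (χ : P → ℂ) 1 = 1 ∨ (χ : P → ℂ) 1 = (p : ℂ) ^ n) ∧ Nat.card {χ : Cfsg.IrrCharacter P // (χ : P → ℂ) 1 = (p : ℂ) ^ n} = p - 1 := by
  have := Fintype.ofFinite P
  exact main p n hP hcard

end Cfsg.Agent.S0894
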