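import Cfsg.Statements.S0899
import Cfsg.Agent.S0898
import Cfsg.Agent.Lib.Helper82Ito
import Cfsg.Agent.Lib.Helper82Linear

set_option autoImplicit false
set_option linter.unusedSectionVars false
set_option linter.unusedVariables false
open Cfsg

namespace Cfsg.Agent.S0899

open Cfsg.Agent.Lib.Helper4Char Cfsg.Agent.Lib.Helper4Char2 Cfsg.Agent.Lib.Helper4Char3
  Cfsg.Agent.Lib.Helper4Char4
open Cfsg.Agent.Lib.Helper82Irr Cfsg.Agent.Lib.Helper82Mult Cfsg.Agent.Lib.Helper82Quot
open scoped Pointwise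

/-- all Sylow `p`-subgroups are normal. -/
def NS (p : ℕ) (X : Type*) [Group X] : Prop := ∀ Q : Sylow p X, (Q : Subgroup X).Normal

theorem NS_congr {X Y : Type*} [Group X] [Group Y] (p : ℕ) (e : X ≃* Y) (h : NS p X) :
    NS p Y := by
  intro Q
  have hr : (Q : Subgroup Y) ≤ e.toMonoidHom.range := by
    rw [MonoidHom.range_eq_top.2 e.surjective]; exact le_top
  have h1 : ((Q : Subgroup Y).comap e.toMonoidHom).Normal :=
    h (Q.comapOfInjective e.toMonoidHom e.injective hr)
  have h2 := h1.map e.toMonoidHom e.surjective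
  rwa [Subgroup.map_comap_eq_self_of_surjective e.surjective] at h2

section

variable {G : Type*} [Group G] [Finite G] (p : ℕ) [Fact p.Prime]

open scoped IsMulCommutative in
/-- for an abelian Sylow subgroup `P`, `P ∩ Z(G) ∩ G' = 1`. -/
theorem transfer_trivial (P : Sylow p G) (hab : ∀ a ∈ P, ∀ b ∈ P, a * b = b * a) {z : G}
    (hzP : z ∈ P) (hzZ : z ∈ Subgroup.center G) (hzC : z ∈ commutator G) : z = 1 := by
  have : IsMulCommutative (P : Subgroup G) := ⟨⟨fun a b => Subtype.ext (hab a a.2 b b.2)⟩⟩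
  have key : ∀ (k : ℕ) (g₀ : G), g₀⁻¹ * z ^ k * g₀ ∈ (P : Subgroup G) →
      g₀⁻¹ * z ^ k * g₀ = z ^ k := by
    intro k g₀ _
    have := Subgroup.mem_center_iff.1 ((Subgroup.center G).pow_mem hzZ k) g₀
    rw [mul_assoc, ← this]; group
  have h1 := MonoidHom.transfer_eq_pow (MonoidHom.id (P : Subgroup G)) z key
  have h2 : MonoidHom.transfer (MonoidHom.id (P : Subgroup G)) z = 1 := by
    have : z ∈ (MonoidHom.transfer (MonoidHom.id (P : Subgroup G))).ker :=
      Abelianization.commutator_subset_ker _ hzC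
    exact this
  rw [h2] at h1
  have h3 : z ^ (P : Subgroup G).index = 1 := (congrArg Subtype.val h1).symm
  obtain ⟨s, hs⟩ := (IsPGroup.iff_orderOf.1 P.2) ⟨z, hzP⟩
  rw [Subgroup.orderOf_mk] at hs
  have h4 : orderOf z ∣ (P : Subgroup G).index := orderOf_dvd_of_pow_eq_one h3
  have hs0 : s = 0 := by
    by_contra hne
    apply P.not_dvd_index
    refine dvd_trans ?_ h4
    rw [hs]
    exact dvd_pow_self p hne
  rw [hs0, pow_zero, orderOf_eq_one_iff] at hs
  exact hs

/-- two Sylow subgroups inside a subgroup with a normal Sylow subgroup coincide. -/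
theorem eq_of_le_of_NS {K : Subgroup G} (hK : NS p K) {P Q : Sylow p G}
    (hP : (P : Subgroup G) ≤ K) (hQ : (Q : Subgroup G) ≤ K) : P = Q := by
  have h1 := hK (P.subtype hP)
  have := Sylow.unique_of_normal (P.subtype hP) h1
  have h2 : P.subtype hP = Q.subtype hQ := Subsingleton.elim _ _
  exact Sylow.subtype_injective h2

/-- `p`-elements of a group with normal Sylow subgroup lie in it. -/
theorem mem_of_NS {X : Type*} [Group X] [Finite X] (hX : NS p X) (T : Sylow p X) {x : X} {s : ℕ}
    (hx : orderOf x = p ^ s) : x ∈ T := by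
  have h1 : IsPGroup p (Subgroup.zpowers x) := by
    rw [IsPGroup.iff_card]
    exact ⟨s, by rw [Nat.card_zpowers, hx]⟩
  obtain ⟨T', hT'⟩ := h1.exists_le_sylow
  have := Sylow.unique_of_normal T (hX T)
  have h2 : T' = T := Subsingleton.elim _ _
  rw [← h2]
  exact hT' (Subgroup.mem_zpowers x)

/-- a `p`-group with a faithful representation of degree `< p` is abelian. -/
theorem sylow_abelian {n : ℕ} (ρ : Representation ℂ G (Fin n → ℂ)) (hρ : Function.Injective ρ)
    (hn : n < p) (P : Sylow p G) : ∀ a ∈ P, ∀ b ∈ P, a * b = b * a := by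
  classical
  have hp : p.Prime := Fact.out
  let _ : Fintype (P : Subgroup G) := Fintype.ofFinite _
  have hχ : Cfsg.IsCharacter (P : Subgroup G) (fun x : (P : Subgroup G) => ρ.character x) :=
    IsCharacter.restrict _ (isCharacter_of_rep ρ)
  obtain ⟨m, hm, hsum⟩ := exists_mult hχ
  have hdeg := degree_eq_sum_mult hχ m hsum
  have hdn : Cfsg.charDegree (fun x : (P : Subgroup G) => ρ.character x) = n := by
    unfold Cfsg.charDegree
    simp [Representation.char_one]
  obtain ⟨k, hk⟩ := IsPGroup.iff_card.1 P.2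
  have hlin : ∀ lam : Cfsg.IrrCharacter (P : Subgroup G), m lam ≠ 0 → lam.1 1 = 1 := by
    intro lam hlam
    have hle : Cfsg.charDegree lam.1 ≤ n := by
      rw [← hdn, hdeg]
      refine le_trans ?_ (Finset.single_le_sum (f := fun ψ => m ψ * Cfsg.charDegree ψ.1)
        (fun _ _ => Nat.zero_le _) (Finset.mem_univ lam))
      exact Nat.le_mul_of_pos_left _ (Nat.pos_of_ne_zero hlam)
    have hdvd : Cfsg.charDegree lam.1 ∣ p ^ k := by
      rw [← hk]
      obtain ⟨d, σ, hirr, hσ⟩ := lam.2
      have h5 := finrank_dvd_card σ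
      have h6 : Cfsg.charDegree lam.1 = Module.finrank ℂ (Fin d → ℂ) := by
        rw [Cfsg.charDegree, ← hσ, Representation.char_one]
        simp
      rw [h6]
      exact h5
    obtain ⟨j, _, hj⟩ := (Nat.dvd_prime_pow hp).1 hdvd
    have hj0 : j = 0 := by
      by_contra hne
      have : p ≤ Cfsg.charDegree lam.1 := by rw [hj]; exact Nat.le_self_pow hne p
      omega
    rw [← irr_charDegree_cast, hj, hj0]
    simp
  intro a ha b hb
  set c : (P : Subgroup G) := ⟨a, ha⟩ * ⟨b, hb⟩ * ⟨a, ha⟩⁻¹ * ⟨b, hb⟩⁻¹ with hc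
  have hcc : c ∈ commutator (P : Subgroup G) := by
    rw [commutator_def]
    exact Subgroup.commutator_mem_commutator (Subgroup.mem_top _) (Subgroup.mem_top _)
  have h1 : ρ.character (c : G) = ρ.character 1 := by
    have e1 := congrFun hsum c
    have e2 := congrFun hsum 1
    simp only [Finset.sum_apply, Pi.smul_apply, smul_eq_mul] at e1 e2
    rw [e1]
    have e3 : ρ.character ((1 : (P : Subgroup G)) : G) = ρ.character 1 := rfl
    rw [← e3, e2]
    refine Finset.sum_congr rfl fun lam _ => ?_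
    by_cases hl : m lam = 0
    · rw [hl]; simp
    · rw [Cfsg.Agent.Lib.Helper82Linear.irr_linear_eq_one_of_mem_commutator lam (hlin lam hl) hcc,
        hlin lam hl]
  rw [Representation.char_one] at h1
  have h2 := (Cfsg.Agent.Lib.Helper4Eigen.char_eq_finrank_iff ρ (c : G)).1 h1
  have h3 : (c : G) = 1 := hρ (h2.trans (map_one ρ).symm)
  have h4 : a * b * a⁻¹ * b⁻¹ = 1 := h3
  calc a * b = (a * b * a⁻¹ * b⁻¹) * (b * a) := by group
    _ = b * a := by rw [h4, one_mul]


/-- the hypothesis of the theorem -/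
def Hyp (p n : ℕ) (X : Type*) [Group X] : Prop :=
  (n + 1) ^ 2 ≤ p ∨ (n + 1 < p ∧ ∀ K : Subgroup X, ¬ p ^ 2 ∣ Nat.card K → NS p K)

theorem Hyp.subgroup {X : Type*} [Group X] {p n : ℕ} (h : Hyp p n X) (K : Subgroup X) :
    Hyp p n K := by
  rcases h with h | ⟨h1, h2⟩
  · exact Or.inl h
  · refine Or.inr ⟨h1, fun L hL => ?_⟩
    have e : L ≃* L.map K.subtype := L.equivMapOfInjective K.subtype K.subtype_injective
    have hc : Nat.card (L.map K.subtype) = Nat.card L := (Nat.card_congr e.toEquiv).symm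
    exact NS_congr p e.symm (h2 _ (by rwa [hc]))

theorem Hyp.lt {X : Type*} [Group X] {p n : ℕ} (hp : p.Prime) (h : Hyp p n X) : n + 1 < p := by
  rcases h with h | ⟨h1, _⟩
  · rcases Nat.eq_zero_or_pos n with rfl | hn
    · exact hp.one_lt
    · nlinarith
  · exact h1

/-- no proper normal subgroup contains a non-normal Sylow subgroup. -/
theorem no_proper_normal (hIH : ∀ K : Subgroup G, K ≠ ⊤ → NS p K) (P : Sylow p G)
    (hP : ¬ (P : Subgroup G).Normal) (M : Subgroup G) (hM : M.Normal) (hPM : (P : Subgroup G) ≤ M) :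
    M = ⊤ := by
  by_contra hne
  apply hP
  rw [← Subgroup.normalizer_eq_top_iff, eq_top_iff]
  intro g _
  refine Sylow.smul_eq_iff_mem_normalizer.1 ?_
  refine eq_of_le_of_NS p (hIH M hne) ?_ hPM
  intro x hx
  rw [Sylow.coe_subgroup_smul, Subgroup.mem_pointwise_smul_iff_inv_smul_mem] at hx
  have h1 := hPM hx
  have h2 := hM.conj_mem _ h1 g
  simpa [MulAut.smul_def, mul_assoc] using h2

/-- distinct Sylow subgroups meet in the centre. -/
theorem inf_le_center (hIH : ∀ K : Subgroup G, K ≠ ⊤ → NS p K)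
    (hab : ∀ P : Sylow p G, ∀ a ∈ P, ∀ b ∈ P, a * b = b * a) (Q R : Sylow p G) (hQR : Q ≠ R) :
    (Q : Subgroup G) ⊓ R ≤ Subgroup.center G := by
  have hC : Subgroup.centralizer (((Q : Subgroup G) ⊓ R : Subgroup G) : Set G) = ⊤ := by
    by_contra hne
    apply hQR
    refine eq_of_le_of_NS p (hIH _ hne) ?_ ?_
    · intro x hx
      rw [Subgroup.mem_centralizer_iff]
      intro d hd
      exact hab Q d hd.1 x hx
    · intro x hx
      rw [Subgroup.mem_centralizer_iff]
      intro d hd
      exact hab R d hd.2 x hx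
  exact Subgroup.centralizer_eq_top_iff_subset.1 hC

theorem faithful_char {n : ℕ} (ρ : Representation ℂ G (Fin n → ℂ)) (hρ : Function.Injective ρ)
    (g : G) (hg : ρ.character g = ρ.character 1) : g = 1 := by
  rw [Representation.char_one] at hg
  have h2 := (Cfsg.Agent.Lib.Helper4Eigen.char_eq_finrank_iff ρ g).1 hg
  exact hρ (h2.trans (map_one ρ).symm)

theorem degree_char {n : ℕ} (ρ : Representation ℂ G (Fin n → ℂ)) :
    Cfsg.charDegree ρ.character = n := by
  unfold Cfsg.charDegree
  simp [Representation.char_one]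

/-- the case `G' < G`. -/
theorem caseA {n : ℕ} (ρ : Representation ℂ G (Fin n → ℂ)) (hρ : Function.Injective ρ)
    (hn : n + 1 < p) (hIH : ∀ K : Subgroup G, K ≠ ⊤ → NS p K)
    (hnn : ∀ Q : Sylow p G, ¬ (Q : Subgroup G).Normal) (hG : commutator G ≠ ⊤) : False := by
  have hp : p.Prime := Fact.out
  have hab : ∀ P : Sylow p G, ∀ a ∈ P, ∀ b ∈ P, a * b = b * a :=
    fun P => sylow_abelian p ρ hρ (by omega) P
  obtain ⟨S⟩ : Nonempty (Sylow p (commutator G)) := inferInstance
  have hSn : (S : Subgroup (commutator G)).Normal := hIH _ hG S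
  have hSc : (S : Subgroup (commutator G)).Characteristic := S.characteristic_of_normal hSn
  have hSG : ((S : Subgroup (commutator G)).map (commutator G).subtype).Normal := inferInstance
  have hSp : IsPGroup p ((S : Subgroup (commutator G)).map (commutator G).subtype) :=
    S.2.map _
  obtain ⟨Q, hQ⟩ := hSp.exists_le_sylow
  have hC : Subgroup.centralizer
      (((S : Subgroup (commutator G)).map (commutator G).subtype : Subgroup G) : Set G) = ⊤ := by
    refine no_proper_normal p hIH Q (hnn Q) _ inferInstance ?_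
    intro x hx
    rw [Subgroup.mem_centralizer_iff]
    intro d hd
    exact hab Q d (hQ hd) x hx
  have hZ := Subgroup.centralizer_eq_top_iff_subset.1 hC
  have hS1 : (S : Subgroup (commutator G)) = ⊥ := by
    rw [Subgroup.eq_bot_iff_forall]
    intro z hz
    have hz' : (z : G) ∈ (S : Subgroup (commutator G)).map (commutator G).subtype :=
      ⟨z, hz, rfl⟩
    exact Subtype.ext (transfer_trivial p Q (hab Q) (hQ hz') (hZ hz') z.2)
  have hcop : (Nat.card (commutator G)).Coprime p := by
    rw [Nat.coprime_comm, hp.coprime_iff_not_dvd]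
    intro hd
    exact S.ne_bot_of_dvd_card hd hS1
  have hM : (commutator G ⊔ (Q : Subgroup G)) = ⊤ := by
    refine no_proper_normal p hIH Q (hnn Q) _ ⟨?_⟩ le_sup_right
    intro m hm g
    have h1 : g * m * g⁻¹ * m⁻¹ ∈ commutator G := by
      rw [commutator_def]
      exact Subgroup.commutator_mem_commutator (Subgroup.mem_top _) (Subgroup.mem_top _)
    have h2 : g * m * g⁻¹ = (g * m * g⁻¹ * m⁻¹) * m := by group
    rw [h2]
    exact Subgroup.mul_mem _ (le_sup_left (a := commutator G) h1) hm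
  have hidx : (commutator G).index ∣ Nat.card (Q : Subgroup G) := by
    rw [← Subgroup.relIndex_top_right, ← hM, Subgroup.relIndex_sup_left]
    exact Subgroup.relIndex_dvd_card _ _
  obtain ⟨k, hk⟩ := IsPGroup.iff_card.1 Q.2
  rw [hk] at hidx
  obtain ⟨j, _, hj⟩ := (Nat.dvd_prime_pow hp).1 hidx
  exact hnn Q (Cfsg.Agent.Lib.Helper82Ito.sylow_normal p (commutator G) hcop j hj
    (isCharacter_of_rep ρ) (faithful_char ρ hρ) (by rw [degree_char]; exact hn) Q)

/-- centralizers of non-central elements meet at most one Sylow subgroup. -/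
theorem centralizer_unique (hIH : ∀ K : Subgroup G, K ≠ ⊤ → NS p K)
    (hab : ∀ P : Sylow p G, ∀ a ∈ P, ∀ b ∈ P, a * b = b * a)
    (hZ : ∀ P : Sylow p G, (P : Subgroup G) ⊓ Subgroup.center G = ⊥)
    (g : G) (hg : g ∉ Subgroup.center G) (Q R : Sylow p G)
    (hQ : Subgroup.centralizer ({g} : Set G) ⊓ (Q : Subgroup G) ≠ ⊥)
    (hR : Subgroup.centralizer ({g} : Set G) ⊓ (R : Subgroup G) ≠ ⊥) : Q = R := by
  have hC : Subgroup.centralizer ({g} : Set G) ≠ ⊤ := by
    intro h
    exact hg (Subgroup.centralizer_eq_top_iff_subset.1 h rfl)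
  have hNS := hIH _ hC
  obtain ⟨T⟩ : Nonempty (Sylow p (Subgroup.centralizer ({g} : Set G))) := inferInstance
  have hTp : IsPGroup p ((T : Subgroup (Subgroup.centralizer ({g} : Set G))).map
      (Subgroup.centralizer ({g} : Set G)).subtype) := T.2.map _
  obtain ⟨W, hW⟩ := hTp.exists_le_sylow
  have key : ∀ Q : Sylow p G, Subgroup.centralizer ({g} : Set G) ⊓ (Q : Subgroup G) ≠ ⊥ →
      Q = W := by
    intro Q hQ
    rw [Ne, Subgroup.eq_bot_iff_forall] at hQ
    push Not at hQ
    obtain ⟨x, hx, hx1⟩ := hQ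
    obtain ⟨s, hs⟩ := (IsPGroup.iff_orderOf.1 Q.2) ⟨x, hx.2⟩
    rw [Subgroup.orderOf_mk] at hs
    have hxT : (⟨x, hx.1⟩ : Subgroup.centralizer ({g} : Set G)) ∈ T :=
      mem_of_NS p hNS T (s := s) (by rw [Subgroup.orderOf_mk]; exact hs)
    have hxW : x ∈ W := hW ⟨_, hxT, rfl⟩
    by_contra hne
    have h1 := inf_le_center p hIH hab Q W hne ⟨hx.2, hxW⟩
    have h2 : x ∈ (Q : Subgroup G) ⊓ Subgroup.center G := ⟨hx.2, h1⟩
    rw [hZ Q, Subgroup.mem_bot] at h2
    exact hx1 h2
  rw [key Q hQ, key R hR]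

/-- the perfect case. -/
theorem caseB {n : ℕ} (ρ : Representation ℂ G (Fin n → ℂ)) (hρ : Function.Injective ρ)
    (hn : n + 1 < p) (hIH : ∀ K : Subgroup G, K ≠ ⊤ → NS p K)
    (hnn : ∀ Q : Sylow p G, ¬ (Q : Subgroup G).Normal) (hG : commutator G = ⊤) (P : Sylow p G) :
    Nat.card (P : Subgroup G) < (n + 1) ^ 2 := by
  classical
  have hp : p.Prime := Fact.out
  let _ : Fintype G := Fintype.ofFinite _
  let _ : Fintype (P : Subgroup G) := Fintype.ofFinite _
  have hab : ∀ P : Sylow p G, ∀ a ∈ P, ∀ b ∈ P, a * b = b * a :=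
    fun P => sylow_abelian p ρ hρ (by omega) P
  have hZ : ∀ P : Sylow p G, (P : Subgroup G) ⊓ Subgroup.center G = ⊥ := by
    intro P
    rw [Subgroup.eq_bot_iff_forall]
    intro z hz
    exact transfer_trivial p P (hab P) hz.1 hz.2 (by rw [hG]; exact Subgroup.mem_top _)
  have hone : ∀ g : G, g ∉ Subgroup.center G → ∀ a b : G,
      Subgroup.centralizer ({g} : Set G) ⊓ (P : Subgroup G).map (MulAut.conj a).toMonoidHom ≠ ⊥ →
      Subgroup.centralizer ({g} : Set G) ⊓ (P : Subgroup G).map (MulAut.conj b).toMonoidHom ≠ ⊥ →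
      (P : Subgroup G).map (MulAut.conj a).toMonoidHom
        = (P : Subgroup G).map (MulAut.conj b).toMonoidHom := by
    intro g hg a b ha hb
    have e : ∀ a : G, (P : Subgroup G).map (MulAut.conj a).toMonoidHom
        = ((a • P : Sylow p G) : Subgroup G) := fun a => rfl
    rw [e] at ha hb
    rw [e a, e b, centralizer_unique p hIH hab hZ g hg _ _ ha hb]
  have hPne : (P : Subgroup G) ≠ ⊥ := by
    intro h
    apply hnn P
    rw [h]
    infer_instance
  rw [Ne, Subgroup.eq_bot_iff_forall] at hPne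
  push Not at hPne
  obtain ⟨h₀, hh₀, hh₁⟩ := hPne
  have hχ : Cfsg.IsCharacter G ρ.character := isCharacter_of_rep ρ
  obtain ⟨m, hm, hsum⟩ := exists_mult hχ
  have hdeg := degree_eq_sum_mult hχ m hsum
  have hex : ∃ ψ : Cfsg.IrrCharacter G, m ψ ≠ 0 ∧ ψ.1 h₀ ≠ ψ.1 1 := by
    by_contra hno
    push Not at hno
    apply hh₁
    apply faithful_char ρ hρ
    have e1 := congrFun hsum h₀
    have e2 := congrFun hsum 1
    simp only [Finset.sum_apply, Pi.smul_apply, smul_eq_mul] at e1 e2
    rw [e1, e2]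
    refine Finset.sum_congr rfl fun lam _ => ?_
    by_cases hl : m lam = 0
    · rw [hl]; simp
    · rw [hno lam hl]
  obtain ⟨ψ, hmψ, hψ⟩ := hex
  have hle : Cfsg.charDegree ψ.1 ≤ n := by
    rw [← degree_char ρ, hdeg]
    refine le_trans ?_ (Finset.single_le_sum (f := fun ψ => m ψ * Cfsg.charDegree ψ.1)
      (fun _ _ => Nat.zero_le _) (Finset.mem_univ ψ))
    exact Nat.le_mul_of_pos_left _ (Nat.pos_of_ne_zero hmψ)
  have hψ1 : ψ.1 1 ≠ 1 := by
    intro h1
    apply hψ
    rw [Cfsg.Agent.Lib.Helper82Linear.irr_linear_eq_one_of_mem_commutator ψ h1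
      (by rw [hG]; exact Subgroup.mem_top _), h1]
  have hres := (Cfsg.Agent.S0898.result (P : Subgroup G) (hab P) (hZ P) hone ψ.1 ψ.2
    ⟨h₀, hh₀, hψ⟩).2 hψ1 (fun M hM hPM => no_proper_normal p hIH P (hnn P) M hM hPM)
  rw [← irr_charDegree_cast ψ] at hres
  simp only [Complex.natCast_re] at hres
  have h3 : (Nat.card (P : Subgroup G) : ℝ) < ((n : ℝ) + 1) ^ 2 := by
    have h4 : (Cfsg.charDegree ψ.1 : ℝ) ≤ n := by exact_mod_cast hle
    have h5 : (0 : ℝ) ≤ (Cfsg.charDegree ψ.1 : ℝ) := Nat.cast_nonneg _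
    nlinarith
  exact_mod_cast h3

/-- the inductive step. -/
theorem step {n : ℕ} (ρ : Representation ℂ G (Fin n → ℂ)) (hρ : Function.Injective ρ)
    (h : Hyp p n G) (hIH : ∀ K : Subgroup G, K ≠ ⊤ → NS p K) : NS p G := by
  have hp : p.Prime := Fact.out
  by_contra hnot
  have hn := h.lt hp
  have hnn : ∀ Q : Sylow p G, ¬ (Q : Subgroup G).Normal := by
    intro Q hQ
    apply hnot
    intro R
    have := Sylow.unique_of_normal Q hQ
    rw [Subsingleton.elim R Q]
    exact hQ
  by_cases hG : commutator G = ⊤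
  · obtain ⟨P⟩ : Nonempty (Sylow p G) := inferInstance
    have hlt := caseB p ρ hρ hn hIH hnn hG P
    have hcard := P.card_eq_multiplicity
    rcases h with h | ⟨_, h2⟩
    · have hPne : (P : Subgroup G) ≠ ⊥ := by
        intro h
        apply hnn P
        rw [h]
        infer_instance
      have hk : (Nat.card G).factorization p ≠ 0 := by
        intro h0
        rw [h0, pow_zero] at hcard
        exact hPne ((Subgroup.card_eq_one).1 hcard)
      have : p ≤ Nat.card (P : Subgroup G) := by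
        rw [hcard]; exact Nat.le_self_pow hk p
      omega
    · by_cases hd : p ^ 2 ∣ Nat.card G
      · have h2le : 2 ≤ (Nat.card G).factorization p :=
          (hp.pow_dvd_iff_le_factorization Nat.card_pos.ne').1 hd
        have : p ^ 2 ≤ Nat.card (P : Subgroup G) := by
          rw [hcard]; exact Nat.pow_le_pow_right hp.pos h2le
        have : (n + 1) ^ 2 < p ^ 2 := Nat.pow_lt_pow_left hn (by norm_num)
        omega
      · apply hnot
        refine NS_congr p Subgroup.topEquiv (h2 ⊤ ?_)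
        rwa [Subgroup.card_top]
  · exact caseA p ρ hρ hn hIH hnn hG

end

universe u

theorem main (p : ℕ) [Fact p.Prime] (n : ℕ) : ∀ (m : ℕ) (X : Type u) [Group X] [Finite X]
    (ρ : Representation ℂ X (Fin n → ℂ)), Function.Injective ρ → Hyp p n X → Nat.card X = m →
    NS p X := by
  intro m
  induction m using Nat.strong_induction_on with
  | _ m ih =>
    intro X _ _ ρ hρ h hm
    apply step p ρ hρ h
    intro K hK
    have hlt : Nat.card K < m := by
      rw [← hm]
      by_contra hge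
      exact hK (Subgroup.eq_top_of_le_card K (not_lt.1 hge))
    refine ih _ hlt K (ρ.comp K.subtype) ?_ (h.subgroup K) rfl
    intro a b hab
    exact Subtype.ext (hρ hab)

/-- Let G be a finite group with a faithful complex representation of degree n (on Fin n → ℂ) and p a prime. Suppose either that (n + 1) ^ 2 ≤ p, or that n + 1 < p and every subgroup of G whose order is not divisible by p ^ 2 has a normal Sylow p-subgroup. Then every Sylow p-subgroup of G is normal. -/
theorem result {G : Type*} [Group G] [Finite G] (n : ℕ) (ρ : Representation ℂ G (Fin n → ℂ)) (hρ : Function.Injective ρ) (p : ℕ) [Fact p.Prime] (h : (n + 1) ^ 2 ≤ p ∨ (n + 1 < p ∧ ∀ K : Subgroup G, ¬ p ^ 2 ∣ Nat.card K → ∀ Q : Sylow p K, (Q : Subgroup K).Normal)) (P : Sylow p G) : (P : Subgroup G).Normal := by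
  exact main p n _ G ρ hρ h rfl P

end Cfsg.Agent.S0899
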