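import Cfsg.Statements.S0904
import Mathlib
import Cfsg.Agent.Lib.Helper5Exc3
import Cfsg.Agent.S0910

set_option autoImplicit false
open Cfsg

namespace Cfsg.Agent.S0904

open Subgroup
open Cfsg.Agent.Lib.Helper81Base Cfsg.Agent.Lib.Helper81BB Cfsg.Agent.Lib.Helper82Linear
  Cfsg.Agent.Lib.Helper5Exc Cfsg.Agent.Lib.Helper5Exc2 Cfsg.Agent.Lib.Helper5Exc3
open scoped ComplexConjugate

theorem key {G : Type*} [Group G] [Finite G] [IsSimpleGroup G] (p q r a b : ℕ) (hp : p.Prime)
    (hq : q.Prime) [Fact r.Prime] (hpr : p ≠ r)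
    (hcard : Nat.card G = p ^ a * q ^ b * r) (S : Sylow r G)
    (hS : Nat.card (S : Subgroup G) = r) (c : G) (hc : c ∈ centralizer ((S : Subgroup G) : Set G))
    (hcp : orderOf c = p) : False := by
  classical
  let _ : Fintype G := Fintype.ofFinite G
  have hr : r.Prime := Fact.out
  have : Fact p.Prime := ⟨hp⟩
  have hpG : p ∣ Nat.card G := hcp ▸ orderOf_dvd_natCard c
  have hrG : r ∣ Nat.card G := by rw [hcard]; exact dvd_mul_left _ _
  have hG : ¬ IsMulCommutative G := by
    apply Cfsg.Agent.Lib.Helper21Simple.not_comm_of_not_prime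
    intro hpr'
    have h1 := (Nat.prime_dvd_prime_iff_eq hp hpr').mp hpG
    have h2 := (Nat.prime_dvd_prime_iff_eq hr hpr').mp hrG
    exact hpr (h1.trans h2.symm)
  have hna : ∃ a b : G, a * b ≠ b * a := by
    by_contra hcon
    push Not at hcon
    exact hG ⟨⟨hcon⟩⟩
  obtain ⟨M, hM⟩ := Cfsg.Agent.Lib.Helper81ClassMul.exists_modular hp
  obtain ⟨M', hM'⟩ := Cfsg.Agent.Lib.Helper81ClassMul.exists_modular hr
  have := hM.2.1.isPrime
  have hr1 : 1 < Nat.card ↥(S : Subgroup G) := by rw [hS]; exact hr.one_lt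
  have : Nontrivial ↥(S : Subgroup G) := Finite.one_lt_card_iff_nontrivial.mp hr1
  obtain ⟨y, hy⟩ := exists_ne (1 : ↥(S : Subgroup G))
  have hy1 : (y : G) ≠ 1 := fun h1 => hy (Subtype.ext h1)
  have hcr : ¬ r ∣ orderOf c := by
    rw [hcp]
    intro hd
    exact hpr ((Nat.prime_dvd_prime_iff_eq hr hp).mp hd).symm
  have hpart : IsPPart r ((y : G) * c) y := isPPart_mul S y c y.2 hc hcr
  have hcomm : Commute (y : G) c := (mem_centralizer_iff.mp hc y y.2)
  have hoy : orderOf (y : G) ∣ r := by
    have h1 := orderOf_dvd_natCard y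
    rwa [hS, ← Subgroup.orderOf_coe] at h1
  have hcop : (orderOf (y : G)).Coprime (orderOf c) := by
    rw [hcp]
    exact Nat.Coprime.coprime_dvd_left hoy ((Nat.coprime_primes hr hp).mpr (Ne.symm hpr))
  have hpg : p ∣ orderOf ((y : G) * c) := by
    rw [hcomm.orderOf_mul_eq_mul_orderOf_of_coprime hcop, hcp]
    exact dvd_mul_left _ _
  have hreg1 : ¬ p ∣ orderOf (1 : G) := by
    rw [orderOf_one]; exact hp.one_lt.ne' ∘ Nat.dvd_one.mp
  have horth := Cfsg.Agent.Lib.Helper81Orth.weak_block_orth hM
    (Cfsg.Agent.Lib.Helper81Subsec2.isPBlock_principalBlock (M := M) (G := G)) hreg1 hpg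
  rw [← Finset.add_sum_erase Finset.univ _ (Finset.mem_univ (irrOne G)),
    if_pos (show irrOne G ∈ principalBlock M G from
      Cfsg.Agent.Lib.Helper81Block.sameBlock_refl _)] at horth
  have hfac : (Nat.card G).factorization r = 1 := by
    have h1 := S.card_eq_multiplicity
    rw [hS] at h1
    exact (Nat.pow_right_injective hr.two_le (by simpa using h1)).symm
  have e1 : ∀ χ ∈ Finset.univ.erase (irrOne G), ∃ α : ℂ, IsIntegral ℤ α ∧
      (if χ ∈ principalBlock M G then (χ : G → ℂ) 1 * conj ((χ : G → ℂ) ((y : G) * c)) else 0)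
        = (q : ℂ) * α := by
    intro χ hχ
    have hχ1 : χ ≠ irrOne G := Finset.ne_of_mem_erase hχ
    split_ifs with hB
    · by_cases hrd : r ∣ charDegree (χ : G → ℂ)
      · have hdeg : (charDegree (χ : G → ℂ)).factorization r
            = (⊥ : Subgroup G).index.factorization r := by
          rw [Subgroup.index_bot, hfac]
          apply le_antisymm
          · rw [← hfac]
            exact (Nat.factorization_le_iff_dvd
              (Cfsg.Agent.Lib.Helper83Char.charDegree_pos χ.2).ne'
              Nat.card_pos.ne').mpr (charDegree_dvd χ) r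
          · exact (hr.dvd_iff_one_le_factorization
              (Cfsg.Agent.Lib.Helper83Char.charDegree_pos χ.2).ne').mp hrd
        have h2 := (Cfsg.Agent.S0969.result r M' hM' ⊥ IsPGroup.of_bot bot_le χ hdeg).2
          ((y : G) * c) y hpart (by rw [mem_bot]; exact hy1)
        exact ⟨0, isIntegral_zero, by rw [h2]; simp⟩
      · by_cases hqd : q ∣ charDegree (χ : G → ℂ)
        · obtain ⟨e, he⟩ := hqd
          refine ⟨(e : ℂ) * conj ((χ : G → ℂ) ((y : G) * c)), ?_, ?_⟩
          · exact (isIntegral_algebraMap (R := ℤ) (x := (e : ℤ))).mul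
              (map_isIntegral_int (starRingEnd ℂ) (irr_integral χ _)) |> fun h => by simpa using h
          · rw [← charDegree_castC, he]
            push_cast
            ring
        · exfalso
          have hd := charDegree_dvd χ
          rw [hcard] at hd
          have h1 : charDegree (χ : G → ℂ) ∣ p ^ a * q ^ b :=
            (Nat.Coprime.dvd_of_dvd_mul_right
              (((Nat.Prime.coprime_iff_not_dvd hr).mpr hrd).symm) hd)
          have h2 : charDegree (χ : G → ℂ) ∣ p ^ a :=
            (Nat.Coprime.dvd_of_dvd_mul_right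
              (Nat.Coprime.pow_right b ((Nat.Prime.coprime_iff_not_dvd hq).mpr hqd).symm) h1)
          obtain ⟨k, -, hk⟩ := (Nat.dvd_prime_pow hp).mp h2
          have h3 := Cfsg.Agent.S0910.result p M hM hna χ hB k
            (by rw [← charDegree_castC, hk]; push_cast; rfl)
          exact hχ1 (Subtype.ext h3)
    · exact ⟨0, isIntegral_zero, by simp⟩
  choose! α hα1 hα2 using e1
  rw [Finset.sum_congr rfl hα2, ← Finset.mul_sum] at horth
  apply not_integral_inv q hq.one_lt (-∑ χ ∈ Finset.univ.erase (irrOne G), α χ)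
    (IsIntegral.neg (IsIntegral.sum _ hα1))
  have h11 : ((irrOne G : IrrCharacter G) : G → ℂ) 1
      * conj (((irrOne G : IrrCharacter G) : G → ℂ) ((y : G) * c)) = 1 := by
    simp [irrOne]
  rw [h11] at horth
  linear_combination -horth

/-- Let G be a finite simple group of order p ^ a * q ^ b * r with p, q, r distinct primes. Then every Sylow r-subgroup S of G satisfies C_G(S) = S. -/
theorem result {G : Type*} [Group G] [Finite G] [IsSimpleGroup G] (p q r a b : ℕ) (hp : p.Prime) (hq : q.Prime) [Fact r.Prime] (hpq : p ≠ q) (hpr : p ≠ r) (hqr : q ≠ r) (hcard : Nat.card G = p ^ a * q ^ b * r) (S : Sylow r G) : Subgroup.centralizer (S : Set G) = (S : Subgroup G) := by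
  have hr : r.Prime := Fact.out
  have hrn : ¬ r ∣ p ^ a * q ^ b := by
    intro hd
    rcases (Nat.Prime.dvd_mul hr).mp hd with h | h
    · exact hpr ((Nat.prime_dvd_prime_iff_eq hr hp).mp (hr.dvd_of_dvd_pow h)).symm
    · exact hqr ((Nat.prime_dvd_prime_iff_eq hr hq).mp (hr.dvd_of_dvd_pow h)).symm
  have hS : Nat.card (S : Subgroup G) = r := by
    have := (Cfsg.Agent.Lib.Helper21Simple.sylow_card_index (p := r) (a := 1)
      (m := p ^ a * q ^ b) (by rw [hcard]; ring) hrn S).1
    simpa using this
  have hcyc : IsCyclic (S : Subgroup G) := isCyclic_of_prime_card hS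
  have hcomm : IsMulCommutative (S : Subgroup G) := hcyc.isMulCommutative
  have hSC : (S : Subgroup G) ≤ Subgroup.centralizer ((S : Subgroup G) : Set G) :=
    (S : Subgroup G).le_centralizer
  by_contra hne
  have hC : Nat.card (Subgroup.centralizer ((S : Subgroup G) : Set G)) ≠ r := by
    intro hC
    apply hne
    exact (Subgroup.eq_of_le_of_card_ge hSC (by rw [hC, hS])).symm
  obtain ⟨l, c, hl, hlr, hc, hcl⟩ :=
    Cfsg.Agent.Lib.Helper5Exc3.exists_prime_order_centralizer S hS hC
  have hlG : l ∣ Nat.card G := hcl ▸ orderOf_dvd_natCard c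
  rw [hcard] at hlG
  rcases (Nat.Prime.dvd_mul hl).mp hlG with h | h
  · rcases (Nat.Prime.dvd_mul hl).mp h with h | h
    · have : l = p := (Nat.prime_dvd_prime_iff_eq hl hp).mp (hl.dvd_of_dvd_pow h)
      subst this
      exact key l q r a b hp hq hpr hcard S hS c hc hcl
    · have : l = q := (Nat.prime_dvd_prime_iff_eq hl hq).mp (hl.dvd_of_dvd_pow h)
      subst this
      exact key l p r b a hq hp hqr (by rw [hcard]; ring) S hS c hc hcl
  · exact hlr ((Nat.prime_dvd_prime_iff_eq hl hr).mp h)

end Cfsg.Agent.S0904
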