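import Cfsg.Statements.S0951
import Cfsg.Agent.Lib.Helper25Q8Block
import Cfsg.Agent.S0948
import Cfsg.Agent.S0201

set_option autoImplicit false
open Cfsg

namespace Cfsg.Agent.S0951

open Cfsg.Agent.Lib.Helper82Linear

/-- the Klein four case: the principal block has four characters -/
theorem card_four {H : Type*} [Group H] [Finite H] (M : Ideal Cfsg.AlgInt)
    (hM : Cfsg.IsPModular 2 M) (P : Sylow 2 H) (hP : IsKleinFour (P : Subgroup H))
    (hone : ∀ s t : H, orderOf s = 2 → orderOf t = 2 → IsConj s t) :
    Nat.card (Cfsg.principalBlock M H) = 4 := by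
  classical
  obtain ⟨ζ₂, ζ₃, ζ₄, ε, -, h2, h3, h23, h24, h34, hB, hval, -⟩ :=
    Cfsg.Agent.S0948.result M hM P hP hone
  -- an involution
  obtain ⟨z, hz⟩ := exists_prime_orderOf_dvd_card' (G := (P : Subgroup H)) 2
    (by rw [hP.card_four]; norm_num)
  have hz' : orderOf (z : H) = 2 := by rw [Subgroup.orderOf_coe]; exact hz
  have h4 : (ζ₄ : H → ℂ) ≠ (fun _ => 1) := by
    intro h
    have := (hval z hz').2.2
    rw [h] at this
    norm_num at this
  have hset : Cfsg.principalBlock M H = (({irrOne H, ζ₂, ζ₃, ζ₄} : Finset (IrrCharacter H)) : Set _) := by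
    rw [hB]
    ext χ
    simp only [Set.mem_ofPred_eq, Finset.coe_insert, Finset.coe_singleton, Set.mem_insert_iff,
      Set.mem_singleton_iff]
    constructor
    · rintro (h | h | h | h)
      · exact Or.inl (Subtype.ext h)
      · exact Or.inr (Or.inl h)
      · exact Or.inr (Or.inr (Or.inl h))
      · exact Or.inr (Or.inr (Or.inr h))
    · rintro (h | h | h | h)
      · exact Or.inl (by rw [h]; rfl)
      · exact Or.inr (Or.inl h)
      · exact Or.inr (Or.inr (Or.inl h))
      · exact Or.inr (Or.inr (Or.inr h))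
  have n2 : irrOne H ≠ ζ₂ := fun h => h2 (by rw [← h]; rfl)
  have n3 : irrOne H ≠ ζ₃ := fun h => h3 (by rw [← h]; rfl)
  have n4 : irrOne H ≠ ζ₄ := fun h => h4 (by rw [← h]; rfl)
  rw [hset, Nat.card_coe_set_eq, Set.ncard_coe_finset]
  rw [Finset.card_insert_of_notMem (by simp [n2, n3, n4]),
    Finset.card_insert_of_notMem (by simp [h23, h24]),
    Finset.card_insert_of_notMem (by simp [h34]), Finset.card_singleton]


/-- Let S be a Sylow 2-subgroup of the finite group G isomorphic to the quaternion group of order 8. Suppose G has no nontrivial normal subgroup of odd order and G ≠ S. Then, relative to any maximal ideal M of the algebraic integers containing 2, the principal block of G consists of exactly 7 irreducible characters. -/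
theorem result {G : Type*} [Group G] [Finite G] (M : Ideal Cfsg.AlgInt) (hM : Cfsg.IsPModular 2 M) (S : Sylow 2 G) (e : (S : Subgroup G) ≃* QuaternionGroup 2) (hO : ∀ N : Subgroup G, N.Normal → Odd (Nat.card N) → N = ⊥) (hG : (S : Subgroup G) ≠ ⊤) : Nat.card (Cfsg.principalBlock M G) = 7 := by
  exact Cfsg.Agent.Lib.Helper25Q8Block.card_principal hM S e hO hG
    (Cfsg.Agent.S0201.result S 0 e hO)
    (fun H _ _ P hP hone => card_four M hM P hP hone)

end Cfsg.Agent.S0951
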