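import Cfsg.Statements.S1001
import Mathlib
import Cfsg.Agent.S0904
import Cfsg.Agent.S0144

set_option autoImplicit false
open Cfsg

namespace Cfsg.Agent.S1001

theorem solv_case {G : Type*} [Group G] [Finite G] [IsSimpleGroup G] (p : ℕ) (hp : p.Prime)
    (hs : Group.IsSolvable G) (x : G) (hx : orderOf x = p) :
    Subgroup.centralizer ({x} : Set G) = Subgroup.zpowers x := by
  have hcomm : ∀ a b : G, a * b = b * a := IsSimpleGroup.comm_iff_isSolvable.mpr hs
  have hprime : (Nat.card G).Prime :=
    Cfsg.Agent.Lib.Helper21Simple.prime_card_of_comm ⟨⟨hcomm⟩⟩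
  have hpG : p ∣ Nat.card G := hx ▸ orderOf_dvd_natCard x
  have hcard : p = Nat.card G := (Nat.prime_dvd_prime_iff_eq hp hprime).mp hpG
  have h1 : Subgroup.zpowers x = ⊤ := by
    apply Subgroup.eq_top_of_card_eq
    rw [Nat.card_zpowers, hx, hcard]
  rw [h1, eq_top_iff]
  intro g _
  rw [Subgroup.mem_centralizer_iff]
  intro h _
  exact hcomm h g

/-- In a finite simple group whose order has the form p * 3^a * 2^b with p prime, the centralizer of any element of order p is the cyclic group it generates. -/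
theorem result {G : Type*} [Group G] [Finite G] [IsSimpleGroup G] (p a b : ℕ) (hp : p.Prime) (hG : Nat.card G = p * 3 ^ a * 2 ^ b) (x : G) (hx : orderOf x = p) : Subgroup.centralizer ({x} : Set G) = Subgroup.zpowers x := by
  by_cases h2 : p = 2
  · subst h2
    exact solv_case 2 hp (Cfsg.Agent.S0144.result 3 2 a (b + 1) Nat.prime_three Nat.prime_two
      (by rw [hG]; ring)) x hx
  by_cases h3 : p = 3
  · subst h3
    exact solv_case 3 hp (Cfsg.Agent.S0144.result 3 2 (a + 1) b Nat.prime_three Nat.prime_two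
      (by rw [hG]; ring)) x hx
  have : Fact p.Prime := ⟨hp⟩
  have hpn : ¬ p ∣ 3 ^ a * 2 ^ b := by
    intro hd
    rcases (Nat.Prime.dvd_mul hp).mp hd with h | h
    · exact h3 ((Nat.prime_dvd_prime_iff_eq hp Nat.prime_three).mp (hp.dvd_of_dvd_pow h))
    · exact h2 ((Nat.prime_dvd_prime_iff_eq hp Nat.prime_two).mp (hp.dvd_of_dvd_pow h))
  have hpg : IsPGroup p (Subgroup.zpowers x) := by
    apply IsPGroup.of_card (n := 1)
    rw [Nat.card_zpowers, hx, pow_one]
  obtain ⟨S, hS⟩ := hpg.exists_le_sylow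
  have hSc : Nat.card (S : Subgroup G) = p := by
    have := (Cfsg.Agent.Lib.Helper21Simple.sylow_card_index (p := p) (a := 1)
      (m := 3 ^ a * 2 ^ b) (by rw [hG]; ring) hpn S).1
    simpa using this
  have hSx : Subgroup.zpowers x = (S : Subgroup G) :=
    Subgroup.eq_of_le_of_card_ge hS (by rw [hSc, Nat.card_zpowers, hx])
  have key : Subgroup.centralizer ((S : Subgroup G) : Set G) = (S : Subgroup G) :=
    Cfsg.Agent.S0904.result 3 2 p a b Nat.prime_three Nat.prime_two (by norm_num)
    (Ne.symm h3) (Ne.symm h2) (by rw [hG]; ring) S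
  rw [← hSx, Subgroup.zpowers_eq_closure, Subgroup.centralizer_closure] at key
  rw [Subgroup.zpowers_eq_closure]
  exact key

end Cfsg.Agent.S1001
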