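import Cfsg.Statements.S1010
import Cfsg.Agent.Lib.Helper63Syl21a

set_option autoImplicit false
open Cfsg

namespace Cfsg.Agent.S1010

open Subgroup MulAction Cfsg.Agent.Lib.Helper63SylowNum Cfsg.Agent.Lib.Helper63SylowNum2
  Cfsg.Agent.Lib.Helper63SylowNum3 Cfsg.Agent.Lib.Helper63Syl21a

section
variable {G : Type*} [Group G] [Finite G] [IsSimpleGroup G]

theorem card_normalizer (h : Nat.card (Sylow 5 G) = 21) (m : ℕ) (hG : Nat.card G = 105 * m)
    (Q : Sylow 5 G) : Nat.card (normalizer ((Q : Subgroup G) : Set G)) = 5 * m := by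
  have h1 : Nat.card (normalizer ((Q : Subgroup G) : Set G)) * 21 = Nat.card G := by
    rw [← h, Q.card_eq_index_normalizer]
    exact Subgroup.card_mul_index _
  omega

theorem sylow7 (h : Nat.card (Sylow 5 G) = 21) (c k : ℕ) (hc : c ∣ 12) (hk : k = 2 ∨ k = 4)
    (hG : Nat.card G = 105 * c * k) : (c = 4 ∧ k = 4) ∨ (c = 6 ∧ k = 4) ∨ c = 12 := by
  have h7p : Nat.Prime 7 := by norm_num
  have hk4 : k ∣ 4 := by rcases hk with rfl | rfl <;> norm_num
  have h7ck : ¬ 7 ∣ c * k := by
    intro hd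
    rcases (Nat.Prime.dvd_mul h7p).mp hd with h1 | h1
    · exact absurd (h1.trans hc) (by norm_num)
    · exact absurd (h1.trans hk4) (by norm_num)
  obtain ⟨S⟩ : Nonempty (Sylow 7 G) := inferInstance
  have hS : Nat.card S = 7 := by
    apply card_sylow_eq_prime S (m := 15 * (c * k)) (by rw [hG]; ring)
    intro hd
    rcases (Nat.Prime.dvd_mul h7p).mp hd with h1 | h1
    · norm_num at h1
    · exact h7ck h1
  have hNQ : ∀ Q : Sylow 5 G, Nat.card (normalizer ((Q : Subgroup G) : Set G)) = 5 * (c * k) :=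
    fun Q => card_normalizer h (c * k) (by rw [hG]; ring) Q
  set CS := centralizer ((S : Subgroup G) : Set G) with hCS
  set NS := normalizer ((S : Subgroup G) : Set G) with hNS
  have hfx7 : ∀ g ∈ CS, fx g % 7 = 0 := by
    intro g hg
    have h1 := card_inv_set_modEq (p := 7) (α := Sylow 5 G) (S : Subgroup G) S.2
      (fixedBy (Sylow 5 G) g) (by
        intro a ha x hx
        rw [mem_fixedBy] at hx ⊢
        have hcomm : g * a = a * g := ((Subgroup.mem_centralizer_iff.mp hg) a ha).symm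
        rw [smul_smul, hcomm, mul_smul, hx])
    have h2 : {x : Sylow 5 G | x ∈ fixedBy (Sylow 5 G) g ∧ ∀ a ∈ (S : Subgroup G), a • x = x} = ∅ := by
      ext x
      simp only [Set.mem_setOf_eq, Set.mem_empty_iff_false, iff_false, not_and]
      intro _ hx
      have hle : (S : Subgroup G) ≤ normalizer ((x : Subgroup G) : Set G) := by
        intro a ha
        exact Sylow.smul_eq_iff_mem_normalizer.mp (hx a ha)
      have := Subgroup.card_dvd_of_le hle
      rw [hNQ x, show Nat.card (S : Subgroup G) = 7 from hS] at this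
      rcases (Nat.Prime.dvd_mul h7p).mp this with h1 | h1
      · norm_num at h1
      · exact h7ck h1
    rw [h2] at h1
    have h3 : Nat.card (∅ : Set (Sylow 5 G)) = 0 := by simp
    rw [h3] at h1
    exact h1
  have hprime : ∀ r : ℕ, r.Prime → r ∣ Nat.card CS → r = 3 ∨ r = 7 := by
    intro r hr hrC
    haveI : Fact r.Prime := ⟨hr⟩
    obtain ⟨g, hg⟩ := exists_prime_orderOf_dvd_card' r hrC
    have hg' : orderOf (g : G) = r := by rw [Subgroup.orderOf_coe, hg]
    have hg1 : (g : G) ≠ 1 := by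
      intro h1; rw [h1, orderOf_one] at hg'; exact hr.one_lt.ne hg'
    have h1 := card_modEq_card_fixedBy (α := Sylow 5 G) (g : G) hg'
    rw [h] at h1
    have h2 := hfx7 g g.2
    have h3 := fx_le h (g : G)
    have h4 := fx_ne h (g : G) hg1
    have h5 : r ∣ 21 - fx (g : G) := (Nat.modEq_iff_dvd' h3).mp h1.symm
    have h6 : fx (g : G) = 0 ∨ fx (g : G) = 7 ∨ fx (g : G) = 14 := by omega
    rcases h6 with h6 | h6 | h6
    · rw [h6] at h5
      have h7 : r ∣ 3 * 7 := h5
      rcases (Nat.Prime.dvd_mul hr).mp h7 with h8 | h8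
      · exact Or.inl ((Nat.prime_dvd_prime_iff_eq hr (by norm_num)).mp h8)
      · exact Or.inr ((Nat.prime_dvd_prime_iff_eq hr (by norm_num)).mp h8)
    · rw [h6] at h5
      have h7 : r ∣ 2 * 7 := h5
      rcases (Nat.Prime.dvd_mul hr).mp h7 with h8 | h8
      · have hr2 := (Nat.prime_dvd_prime_iff_eq hr (by norm_num)).mp h8
        have := fx_inv h (g : G) (by rw [hg', hr2])
        omega
      · exact Or.inr ((Nat.prime_dvd_prime_iff_eq hr (by norm_num)).mp h8)
    · rw [h6] at h5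
      have h7 : r ∣ 7 := h5
      exact Or.inr ((Nat.prime_dvd_prime_iff_eq hr (by norm_num)).mp h7)
  have hSC : (S : Subgroup G) ≤ CS := by
    haveI : IsCyclic (S : Subgroup G) := isCyclic_of_prime_card hS
    haveI : IsMulCommutative (S : Subgroup G) := ⟨⟨fun a b => IsCyclic.commGroup.mul_comm a b⟩⟩
    exact Subgroup.le_centralizer _
  have h7CS : 7 ∣ Nat.card CS := by
    have := Subgroup.card_dvd_of_le hSC
    rwa [show Nat.card (S : Subgroup G) = 7 from hS] at this
  have hCS63 : Nat.card CS ∣ 63 := by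
    have h1 : Nat.card CS ∣ 63 * 80 := by
      have h2 : Nat.card CS ∣ Nat.card G := Subgroup.card_subgroup_dvd_card _
      rw [hG] at h2
      refine h2.trans ?_
      have : 105 * c * k ∣ 105 * 12 * 4 := Nat.mul_dvd_mul (Nat.mul_dvd_mul_left _ hc) hk4
      exact this
    have h2 : (Nat.card CS).Coprime 80 := by
      apply Nat.coprime_of_dvd
      intro r hr hr1 hr2
      rcases hprime r hr hr1 with rfl | rfl <;> norm_num at hr2
    exact h2.dvd_of_dvd_mul_right h1
  have hrel := relIndex_centralizer_normalizer_dvd (p := 7) (S : Subgroup G) hS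
  rw [← hCS, ← hNS] at hrel
  have hNcard : Nat.card CS * CS.relIndex NS = Nat.card NS :=
    card_mul_relIndex' CS NS (Subgroup.centralizer_le_normalizer _)
  have hGS : Nat.card NS * Nat.card (Sylow 7 G) = Nat.card G := by
    rw [S.card_eq_index_normalizer]
    exact NS.card_mul_index
  have hn7 : Nat.card (Sylow 7 G) % 7 = 1 := card_sylow_modEq_one 7 G
  have hn15 : Nat.card (Sylow 7 G) ≠ 15 := Cfsg.Agent.S4304.result
  have hcpos : 0 < c := Nat.pos_of_dvd_of_pos hc (by norm_num)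
  have hj1 : CS.relIndex NS ≠ 1 := by
    intro h1
    have hNC : NS ≤ CS := Subgroup.relIndex_eq_one.mp h1
    have := card_eq_of_normalizer_le_centralizer 7 S (by rw [hS]; norm_num) hNC
    rw [hS, hG] at this
    rcases hk with rfl | rfl <;> omega
  have hj6 : CS.relIndex NS ∣ 6 := hrel
  generalize CS.relIndex NS = j at *
  generalize Nat.card (Sylow 7 G) = n at *
  generalize Nat.card CS = cS at *
  rw [← hNcard, hG] at hGS
  have hjle : j ≤ 6 := Nat.le_of_dvd (by norm_num) hj6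
  have hcle : c ≤ 12 := Nat.le_of_dvd (by norm_num) hc
  have hcSle : cS ≤ 63 := Nat.le_of_dvd (by norm_num) hCS63
  obtain ⟨d, rfl⟩ := h7CS
  have hd9 : d ∣ 9 := Nat.dvd_of_mul_dvd_mul_left (by norm_num : 0 < 7) hCS63
  have hdle : d ≤ 9 := Nat.le_of_dvd (by norm_num) hd9
  clear hprime hfx7 hNQ hNcard hSC
  interval_cases d <;> (try (norm_num at hd9; done)) <;>
  interval_cases j <;> (try (norm_num at hj6; done)) <;> (try (exact absurd rfl hj1)) <;>
  interval_cases c <;> (try (norm_num at hc; done)) <;>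
  rcases hk with rfl | rfl <;> omega

end

section
variable {G : Type*} [Group G] [Finite G] [IsSimpleGroup G]

theorem fixedBy_eq_singleton (P : Sylow 5 G) (g : G)
    (hg : g ∈ normalizer ((P : Subgroup G) : Set G)) (hfx : fx g = 1) :
    fixedBy (Sylow 5 G) g = {P} := by
  have h1 : (fixedBy (Sylow 5 G) g).ncard = 1 := by rw [← Nat.card_coe_set_eq]; exact hfx
  obtain ⟨a, ha⟩ := Set.ncard_eq_one.mp h1
  have hP : P ∈ fixedBy (Sylow 5 G) g := Sylow.smul_eq_iff_mem_normalizer.mpr hg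
  rw [ha] at hP ⊢
  rw [Set.mem_singleton_iff.mp hP]

theorem c_ne_six (h : Nat.card (Sylow 5 G) = 21) (P : Sylow 5 G)
    (hC30 : Nat.card (centralizer ((P : Subgroup G) : Set G)) = 30) : False := by
  set C := centralizer ((P : Subgroup G) : Set G) with hC
  have hCN : C ≤ normalizer ((P : Subgroup G) : Set G) := Subgroup.centralizer_le_normalizer _
  obtain ⟨R⟩ : Nonempty (Sylow 3 C) := inferInstance
  have hR : Nat.card R = 3 := card_sylow_eq_prime R (m := 10) (by rw [hC30]) (by norm_num)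
  set NR := normalizer ((R : Subgroup C) : Set C) with hNR
  have h3 : 3 ∣ Nat.card NR := by
    have := Subgroup.card_dvd_of_le (Subgroup.le_normalizer (H := (R : Subgroup C)))
    rwa [show Nat.card (R : Subgroup C) = 3 from hR] at this
  have h5 : 5 ∣ Nat.card NR := by
    have hle : (P : Subgroup G).subgroupOf C ≤ NR := by
      intro x hx
      rw [Subgroup.mem_normalizer_iff]
      intro n
      have hcomm : x * n = n * x := by
        apply Subtype.ext
        have := (Subgroup.mem_centralizer_iff.mp n.2) x hx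
        exact this
      have : x * n * x⁻¹ = n := by rw [hcomm]; group
      rw [this]
    have := Subgroup.card_dvd_of_le hle
    have hcard : Nat.card ((P : Subgroup G).subgroupOf C) = 5 := by
      rw [Nat.card_congr (Subgroup.subgroupOfEquivOfLe (P_le_C h P)).toEquiv]
      exact card_P h P
    rwa [hcard] at this
  have h15 : 15 ∣ Nat.card NR :=
    Nat.Coprime.mul_dvd_of_dvd_of_dvd (by norm_num : Nat.Coprime 3 5) h3 h5
  have hidx := NR.card_mul_index
  rw [hC30] at hidx
  have hn3 : Nat.card (Sylow 3 C) % 3 = 1 := card_sylow_modEq_one 3 C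
  rw [R.card_eq_index_normalizer] at hn3
  change NR.index % 3 = 1 at hn3
  have hidx1 : NR.index = 1 := by
    obtain ⟨d, hd⟩ := h15
    rw [hd] at hidx
    have h2 : d * NR.index = 2 := by nlinarith
    have h4 : NR.index ∣ 2 := Dvd.intro_left _ h2
    have h6 : NR.index ≤ 2 := Nat.le_of_dvd (by norm_num) h4
    interval_cases NR.index <;> omega
  have hNRtop : NR = ⊤ := Subgroup.index_eq_one.mp hidx1
  -- generator
  obtain ⟨y, hy⟩ := exists_prime_orderOf_dvd_card' (G := (R : Subgroup C)) 3 (by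
    rw [show Nat.card (R : Subgroup C) = 3 from hR])
  have hy' : orderOf ((y : C) : G) = 3 := by rw [Subgroup.orderOf_coe, Subgroup.orderOf_coe, hy]
  have hy1 : ((y : C) : G) ≠ 1 := by
    intro h1; rw [h1, orderOf_one] at hy'; norm_num at hy'
  have hgen : zpowers y = ⊤ := by
    apply zpowers_eq_top_of_prime_card hR
    intro h1
    rw [h1, orderOf_one] at hy; norm_num at hy
  have hinv : ∀ a ∈ C, ∀ x ∈ fixedBy (Sylow 5 G) ((y : C) : G),
      a • x ∈ fixedBy (Sylow 5 G) ((y : C) : G) := by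
    intro a ha x hx
    have h1 : (⟨a, ha⟩ : C)⁻¹ ∈ NR := by rw [hNRtop]; trivial
    have h2 := ((Subgroup.mem_normalizer_iff.mp h1) (y : C)).mp y.2
    have h3 : (⟨_, h2⟩ : (R : Subgroup C)) ∈ zpowers y := by rw [hgen]; trivial
    obtain ⟨i, hi⟩ := Subgroup.mem_zpowers_iff.mp h3
    have h4 : ((y : C) : G) ^ i = a⁻¹ * ((y : C) : G) * a := by
      have := congrArg (fun t : (R : Subgroup C) => ((t : C) : G)) hi
      simpa using this
    have h5 : (((y : C) : G) ^ i) • x = x := by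
      have : ((y : C) : G) ∈ stabilizer G x := hx
      exact (stabilizer G x).zpow_mem this i
    rw [mem_fixedBy]
    have h6 : ((y : C) : G) * a = a * (a⁻¹ * ((y : C) : G) * a) := by group
    rw [smul_smul, h6, mul_smul, ← h4, h5]
  obtain ⟨v, hv⟩ := exists_prime_orderOf_dvd_card' (G := C) 2 (by rw [hC30]; norm_num)
  have hv' : orderOf (v : G) = 2 := by rw [Subgroup.orderOf_coe, hv]
  have hA : IsPGroup 2 (zpowers (v : G)) := by
    apply IsPGroup.of_card (n := 1)
    rw [Nat.card_zpowers, hv', pow_one]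
  have hAC : zpowers (v : G) ≤ C := by rw [Subgroup.zpowers_le]; exact v.2
  have hcong := card_inv_set_modEq (p := 2) (α := Sylow 5 G) (zpowers (v : G)) hA
    (fixedBy (Sylow 5 G) ((y : C) : G)) (fun a ha => hinv a (hAC ha))
  have hs6 : Nat.card (fixedBy (Sylow 5 G) ((y : C) : G)) = 6 :=
    fx_three h P _ (y : C).2 hy1 1 (by rw [hy', pow_one])
  have hv1 := fixedBy_eq_singleton P (v : G) (hCN v.2) (fx_two h P _ v.2 hv')
  have hset : {x : Sylow 5 G | x ∈ fixedBy (Sylow 5 G) ((y : C) : G) ∧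
      ∀ a ∈ zpowers (v : G), a • x = x} = {P} := by
    ext x
    simp only [Set.mem_setOf_eq, Set.mem_singleton_iff]
    constructor
    · rintro ⟨-, hx⟩
      have : x ∈ fixedBy (Sylow 5 G) (v : G) := hx _ (Subgroup.mem_zpowers _)
      rw [hv1] at this
      exact this
    · rintro rfl
      refine ⟨Sylow.smul_eq_iff_mem_normalizer.mpr (hCN (y : C).2), fun a ha => ?_⟩
      exact Sylow.smul_eq_iff_mem_normalizer.mpr (hCN (hAC ha))
  rw [hset, hs6] at hcong
  have h1 : Nat.card ({P} : Set (Sylow 5 G)) = 1 := by simp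
  rw [h1] at hcong
  exact absurd hcong (by decide)

end

section
variable {G : Type*} [Group G] [Finite G] [IsSimpleGroup G]

theorem pow_card_mem {G : Type*} [Group G] (H : Subgroup G) {x : G} (hx : x ∈ H) :
    x ^ Nat.card H = 1 :=
  orderOf_dvd_iff_pow_eq_one.mp (H.orderOf_dvd_natCard hx)

theorem conj_mem_C {G : Type*} [Group G] (P : Subgroup G) (t v : G)
    (ht : t ∈ normalizer (P : Set G)) (hv : v ∈ centralizer (P : Set G)) :
    t⁻¹ * v * t ∈ centralizer (P : Set G) := by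
  rw [Subgroup.mem_centralizer_iff] at hv ⊢
  intro a ha
  have h1 : t * a * t⁻¹ ∈ P := (ht a).mp ha
  have h2 := hv _ h1
  calc a * (t⁻¹ * v * t) = t⁻¹ * ((t * a * t⁻¹) * v) * t := by group
    _ = t⁻¹ * (v * (t * a * t⁻¹)) * t := by rw [h2]
    _ = t⁻¹ * v * t * a := by group

/-- squares landing among the 2-elements of `C` are trivial -/
theorem sq_eq_one (h : Nat.card (Sylow 5 G) = 21) (P : Sylow 5 G) (x : G)
    (hx : x ^ 2 ∈ centralizer ((P : Subgroup G) : Set G)) (hx4 : (x ^ 2) ^ 4 = 1) : x ^ 2 = 1 := by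
  by_contra hne
  set g := x ^ 2 with hg
  have h1 : orderOf g ∣ 4 := orderOf_dvd_of_pow_eq_one hx4
  have h2 : orderOf g ≠ 1 := by rwa [Ne, orderOf_eq_one_iff]
  have h3 : orderOf g ≤ 4 := Nat.le_of_dvd (by norm_num) h1
  have h0 : 0 < orderOf g := orderOf_pos g
  have hcases : orderOf g = 2 ∨ orderOf g = 4 := by
    interval_cases orderOf g
    · exact absurd rfl h2
    · exact Or.inl rfl
    · norm_num at h1
    · exact Or.inr rfl
  rcases hcases with h2' | h4'
  · have hx4' : orderOf x = 4 := by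
      have h6 : x ^ 2 ^ (1 + 1) = 1 := by
        have : x ^ 2 ^ (1 + 1) = g ^ 2 := by rw [hg, ← pow_mul]; norm_num
        rw [this, ← h2', pow_orderOf_eq_one]
      have h7 : ¬ x ^ 2 ^ 1 = 1 := by rw [pow_one]; exact hne
      have := orderOf_eq_prime_pow h7 h6
      rw [this]; norm_num
    exact no_order_four h x hx4' (fx_two h P _ hx h2')
  · have h5 : orderOf (g ^ 2) = 2 := by
      rw [orderOf_pow, h4']
      rfl
    exact no_order_four h g h4' (fx_two h P _ (Subgroup.pow_mem _ hx 2) h5)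

theorem exists_Z (h : Nat.card (Sylow 5 G) = 21) (P : Sylow 5 G) (c k : ℕ)
    (hc : c = 4 ∨ c = 12) (hk : k = 2 ∨ k = 4)
    (hrel : (centralizer ((P : Subgroup G) : Set G)).relIndex
      (normalizer ((P : Subgroup G) : Set G)) = k)
    (hNcard : Nat.card (normalizer ((P : Subgroup G) : Set G)) = 5 * c * k) :
    ∃ Z : Finset G, Z.card = 20 ∧
      (∀ z ∈ Z, z ∈ normalizer ((P : Subgroup G) : Set G) ∧ orderOf z = 2) ∧
      (∀ z ∈ Z, ∀ z' ∈ Z, z ≠ z' → fx (z⁻¹ * z') = 1) := by
  classical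
  set C := centralizer ((P : Subgroup G) : Set G) with hC
  set N := normalizer ((P : Subgroup G) : Set G) with hN
  have hCN : C ≤ N := Subgroup.centralizer_le_normalizer _
  have hPC : (P : Subgroup G) ≤ C := P_le_C h P
  obtain ⟨W'⟩ : Nonempty (Sylow 2 N) := inferInstance
  set W : Subgroup G := (W' : Subgroup N).map N.subtype with hW
  have hWN : W ≤ N := Subgroup.map_subtype_le _
  obtain ⟨e, he, hWcard⟩ : ∃ e, 4 * k = 2 ^ e ∧ Nat.card W = 2 ^ e := by
    rw [hW, Subgroup.card_subtype]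
    rcases hc with rfl | rfl <;> rcases hk with rfl | rfl
    · exact ⟨3, by norm_num, card_sylow_eq_prime_pow W' (m := 5) (by rw [hNcard]; norm_num) (by norm_num)⟩
    · exact ⟨4, by norm_num, card_sylow_eq_prime_pow W' (m := 5) (by rw [hNcard]; norm_num) (by norm_num)⟩
    · exact ⟨3, by norm_num, card_sylow_eq_prime_pow W' (m := 15) (by rw [hNcard]; norm_num) (by norm_num)⟩
    · exact ⟨4, by norm_num, card_sylow_eq_prime_pow W' (m := 15) (by rw [hNcard]; norm_num) (by norm_num)⟩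
  set V : Subgroup G := W ⊓ C with hV
  have hVW : Nat.card V * C.relIndex W = Nat.card W := by
    have := card_mul_relIndex' V W inf_le_left
    rwa [hV, Subgroup.inf_relIndex_left] at this
  have hqk : C.relIndex W ∣ k := by
    haveI : (C.subgroupOf N).Normal := by
      rw [hC, hN, ← Subgroup.normalizerMonoidHom_ker]
      infer_instance
    have h1 := Subgroup.relIndex_dvd_index_of_normal (H := C.subgroupOf N) (K := W.subgroupOf N)
    rw [Subgroup.relIndex_subgroupOf hWN] at h1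
    rw [← hrel]
    exact h1
  have hV20 : Nat.card V ∣ 20 := by
    have h1 := card_dvd_of_const_fix (α := Sylow 5 G) V 1 (by
      intro g hg hg1
      have h2 := W.orderOf_dvd_natCard hg.1
      rw [hWcard] at h2
      obtain ⟨j, -, hj⟩ := (Nat.dvd_prime_pow Nat.prime_two).mp h2
      have hj0 : j ≠ 0 := by
        rintro rfl
        rw [pow_zero, orderOf_eq_one_iff] at hj
        exact hg1 hj
      exact fx_U' h P g hg.2 2 (Or.inl rfl) (by rw [hj]; exact dvd_pow_self 2 hj0))
      (by rw [h]; norm_num)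
    rwa [h] at h1
  have hkpos : 0 < k := by rcases hk with rfl | rfl <;> norm_num
  have hV4 : Nat.card V = 4 ∧ C.relIndex W = k := by
    rw [hWcard, ← he] at hVW
    have hqle : C.relIndex W ≤ k := Nat.le_of_dvd hkpos hqk
    have hVle : Nat.card V ≤ 20 := Nat.le_of_dvd (by norm_num) hV20
    have hVd : Nat.card V ∣ 4 * k := Dvd.intro _ hVW
    generalize C.relIndex W = q at *
    generalize Nat.card V = nv at *
    have h4 : 4 ≤ nv := by
      by_contra hlt
      push Not at hlt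
      nlinarith
    have h5 : nv = 4 := by
      rcases hk with rfl | rfl <;> interval_cases nv <;> first | rfl | (norm_num at hV20; done) | (norm_num at hVd; done)
    subst h5
    exact ⟨rfl, by omega⟩
  obtain ⟨hV4, hq⟩ := hV4
  -- an element of W outside C
  obtain ⟨w, hwW, hwC⟩ : ∃ w ∈ W, w ∉ C := by
    by_contra hcon
    push Not at hcon
    have : C.relIndex W = 1 := Subgroup.relIndex_eq_one.mpr hcon
    rw [hq] at this
    rcases hk with rfl | rfl <;> omega
  obtain ⟨t, htW, htC, ht2⟩ : ∃ t ∈ W, t ∉ C ∧ t ^ 2 ∈ C := by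
    have hex : ∃ j, w ^ (2 ^ j) ∈ C := ⟨e, by
      rw [← hWcard, pow_card_mem W hwW]; exact C.one_mem⟩
    have hj0 : Nat.find hex ≠ 0 := by
      intro h0
      have := Nat.find_spec hex
      rw [h0, pow_zero, pow_one] at this
      exact hwC this
    obtain ⟨j, hj⟩ := Nat.exists_eq_succ_of_ne_zero hj0
    refine ⟨w ^ (2 ^ j), W.pow_mem hwW _, Nat.find_min hex (by omega), ?_⟩
    have := Nat.find_spec hex
    rw [hj, Nat.succ_eq_add_one, pow_succ, pow_mul] at this
    exact this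
  have htN : t ∈ N := hWN htW
  -- the involutions t v
  have hz : ∀ v ∈ V, (t * v) * (t * v) = 1 ∧ t * v ∉ C ∧ t * v ∈ N := by
    intro v hv
    have hzW : t * v ∈ W := W.mul_mem htW hv.1
    have hzC : (t * v) ^ 2 ∈ C := by
      have : (t * v) ^ 2 = t ^ 2 * (t⁻¹ * v * t) * v := by
        rw [sq, sq]; group
      rw [this]
      exact C.mul_mem (C.mul_mem ht2 (conj_mem_C _ t v htN hv.2)) hv.2
    have hzV : (t * v) ^ 2 ∈ V := ⟨W.pow_mem hzW 2, hzC⟩
    have h4 : ((t * v) ^ 2) ^ 4 = 1 := by rw [← hV4]; exact pow_card_mem V hzV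
    have := sq_eq_one h P (t * v) hzC h4
    refine ⟨by rw [← sq]; exact this, ?_, hWN hzW⟩
    intro hcon
    apply htC
    have : t = (t * v) * v⁻¹ := by group
    rw [this]
    exact C.mul_mem hcon (C.inv_mem hv.2)
  have hinv : ∀ v ∈ V, ∀ a ∈ (P : Subgroup G), (t * v) * a * (t * v)⁻¹ = a⁻¹ := by
    intro v hv a ha
    obtain ⟨h1, h2, h3⟩ := hz v hv
    exact inverts_of_sq_eq_one (p := 5) (P : Subgroup G) (card_P h P) (t * v) h3 h2 h1 a ha
  haveI : Fintype V := Fintype.ofFinite _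
  haveI : Fintype (P : Subgroup G) := Fintype.ofFinite _
  have hVP : ∀ g, g ∈ V → g ∈ (P : Subgroup G) → g = 1 := by
    intro g hgV hgP
    have h4 : g ^ 4 = 1 := by rw [← hV4]; exact pow_card_mem V hgV
    have h5 : g ^ 5 = 1 := by
      rw [← card_P h P]; exact pow_card_mem (P : Subgroup G) hgP
    calc g = g ^ 5 * (g ^ 4)⁻¹ := by group
      _ = 1 := by rw [h4, h5]; simp
  have hcommVP : ∀ v ∈ V, ∀ a ∈ (P : Subgroup G), a * v = v * a := by
    intro v hv a ha
    exact (Subgroup.mem_centralizer_iff.mp hv.2) a ha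
  set f : V × (P : Subgroup G) → G := fun x => t * x.1 * x.2 with hf
  have hdiff : ∀ x y : V × (P : Subgroup G), (f x)⁻¹ * f y =
      ((x.1 : G)⁻¹ * y.1) * ((x.2 : G)⁻¹ * y.2) := by
    intro x y
    have h1 := hcommVP ((x.1 : G)⁻¹ * y.1) (V.mul_mem (V.inv_mem x.1.2) y.1.2) (x.2 : G)⁻¹
      (Subgroup.inv_mem _ x.2.2)
    calc (f x)⁻¹ * f y = (x.2 : G)⁻¹ * ((x.1 : G)⁻¹ * y.1) * y.2 := by
          simp only [hf]; group
      _ = ((x.1 : G)⁻¹ * y.1) * (x.2 : G)⁻¹ * y.2 := by rw [h1]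
      _ = _ := by group
  have hfinj : Function.Injective f := by
    intro x y hxy
    have h1 : (f x)⁻¹ * f y = 1 := by rw [hxy]; group
    rw [hdiff] at h1
    have h2 : (x.1 : G)⁻¹ * y.1 = ((x.2 : G)⁻¹ * y.2)⁻¹ := eq_inv_of_mul_eq_one_left h1
    have h3 : (x.1 : G)⁻¹ * y.1 = 1 := by
      apply hVP _ (V.mul_mem (V.inv_mem x.1.2) y.1.2)
      rw [h2]
      exact Subgroup.inv_mem _ (Subgroup.mul_mem _ (Subgroup.inv_mem _ x.2.2) y.2.2)
    have h4 : (x.2 : G)⁻¹ * y.2 = 1 := by rw [h3, one_mul] at h1; exact h1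
    apply Prod.ext
    · exact Subtype.ext (inv_mul_eq_one.mp h3)
    · exact Subtype.ext (inv_mul_eq_one.mp h4)
  refine ⟨Finset.univ.image f, ?_, ?_, ?_⟩
  · rw [Finset.card_image_of_injective _ hfinj, Finset.card_univ, Fintype.card_prod,
      ← Nat.card_eq_fintype_card, ← Nat.card_eq_fintype_card, hV4,
      show Nat.card (P : Subgroup G) = 5 from card_P h P]
  · intro z hzZ
    obtain ⟨x, -, rfl⟩ := Finset.mem_image.mp hzZ
    obtain ⟨h1, h2, h3⟩ := hz x.1 x.1.2
    have hxN : (x.2 : G) ∈ N := Subgroup.le_normalizer x.2.2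
    refine ⟨N.mul_mem h3 hxN, ?_⟩
    apply orderOf_eq_prime
    · have h4 := hinv x.1 x.1.2 x.2 x.2.2
      have h5 : f x ^ 2 = ((t * x.1) * x.2 * (t * x.1)⁻¹) * ((t * x.1) * (t * x.1)) * x.2 := by
        simp only [hf, sq]; group
      rw [h5, h4, h1]; group
    · intro hcon
      apply h2
      have : t * (x.1 : G) = (x.2 : G)⁻¹ := eq_inv_of_mul_eq_one_left hcon
      rw [this]
      exact C.inv_mem (hPC x.2.2)
  · intro z hzZ z' hzZ' hne
    obtain ⟨x, -, rfl⟩ := Finset.mem_image.mp hzZ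
    obtain ⟨y, -, rfl⟩ := Finset.mem_image.mp hzZ'
    have hu : (x.1 : G)⁻¹ * y.1 ∈ V := V.mul_mem (V.inv_mem x.1.2) y.1.2
    have hb : (x.2 : G)⁻¹ * y.2 ∈ (P : Subgroup G) :=
      Subgroup.mul_mem _ (Subgroup.inv_mem _ x.2.2) y.2.2
    apply fx_U h P
    · rw [hdiff]
      exact C.mul_mem hu.2 (hPC hb)
    · intro hcon
      exact hne (inv_mul_eq_one.mp hcon)
    · rw [hdiff]
      have hcomm : Commute ((x.1 : G)⁻¹ * y.1) ((x.2 : G)⁻¹ * y.2) := (hcommVP _ hu _ hb).symm
      rw [hcomm.mul_pow]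
      have h4 : ((x.1 : G)⁻¹ * y.1) ^ 4 = 1 := by rw [← hV4]; exact pow_card_mem V hu
      have h5 : ((x.2 : G)⁻¹ * y.2) ^ 5 = 1 := by
        have := pow_card_mem (P : Subgroup G) hb
        rwa [show Nat.card (P : Subgroup G) = 5 from card_P h P] at this
      have e1 : ((x.1 : G)⁻¹ * y.1) ^ 20 = (((x.1 : G)⁻¹ * y.1) ^ 4) ^ 5 := by rw [← pow_mul]
      have e2 : ((x.2 : G)⁻¹ * y.2) ^ 20 = (((x.2 : G)⁻¹ * y.2) ^ 5) ^ 4 := by rw [← pow_mul]
      rw [e1, e2, h4, h5]; simp

end

section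
variable {G : Type*} [Group G] [Finite G] [IsSimpleGroup G]

theorem fx_eq_card_filter [Fintype (Sylow 5 G)] (z : G)
    [DecidablePred (fun Q : Sylow 5 G => z • Q = Q)] :
    fx z = (Finset.univ.filter (fun Q : Sylow 5 G => z • Q = Q)).card := by
  rw [fx, ← Fintype.card_subtype, ← Nat.card_eq_fintype_card]
  rfl

theorem many_type1 (h : Nat.card (Sylow 5 G) = 21) (P : Sylow 5 G) (Z : Finset G)
    (hZ : Z.card = 20)
    (hZ1 : ∀ z ∈ Z, z ∈ normalizer ((P : Subgroup G) : Set G) ∧ orderOf z = 2)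
    (hZ2 : ∀ z ∈ Z, ∀ z' ∈ Z, z ≠ z' → fx (z⁻¹ * z') = 1) :
    15 ≤ (Z.filter (fun z => fx z = 1)).card := by
  classical
  haveI : Fintype (Sylow 5 G) := Fintype.ofFinite _
  set B := Z.filter (fun z => ¬ fx z = 1) with hB
  set F : G → Finset (Sylow 5 G) := fun z => Finset.univ.filter (fun Q => z • Q = Q ∧ Q ≠ P) with hF
  have hFcard : ∀ z ∈ B, 4 ≤ (F z).card := by
    intro z hz
    obtain ⟨hzZ, hz1⟩ := Finset.mem_filter.mp hz
    have h1 := fx_inv h z (hZ1 z hzZ).2
    have h2 : F z = (Finset.univ.filter (fun Q : Sylow 5 G => z • Q = Q)).erase P := by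
      ext Q
      simp only [hF, Finset.mem_filter, Finset.mem_univ, true_and, Finset.mem_erase]
      tauto
    have h3 : P ∈ Finset.univ.filter (fun Q : Sylow 5 G => z • Q = Q) := by
      simp only [Finset.mem_filter, Finset.mem_univ, true_and]
      exact Sylow.smul_eq_iff_mem_normalizer.mpr (hZ1 z hzZ).1
    rw [h2, Finset.card_erase_of_mem h3, ← fx_eq_card_filter]
    omega
  have hdisj : (B : Set G).PairwiseDisjoint F := by
    intro z hz z' hz' hne
    have hzZ := (Finset.mem_filter.mp hz).1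
    have hzZ' := (Finset.mem_filter.mp hz').1
    rw [Function.onFun, Finset.disjoint_left]
    intro Q hQ hQ'
    simp only [hF, Finset.mem_filter, Finset.mem_univ, true_and] at hQ hQ'
    have h1 := fixedBy_eq_singleton P (z⁻¹ * z')
      (Subgroup.mul_mem _ (Subgroup.inv_mem _ (hZ1 z hzZ).1) (hZ1 z' hzZ').1) (hZ2 z hzZ z' hzZ' hne)
    have h2 : Q ∈ fixedBy (Sylow 5 G) (z⁻¹ * z') := by
      rw [mem_fixedBy, mul_smul, hQ'.1, inv_smul_eq_iff, hQ.1]
    rw [h1] at h2
    exact hQ.2 h2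
  have hunion : (B.biUnion F).card ≤ 20 := by
    have hsub : B.biUnion F ⊆ Finset.univ.erase P := by
      intro Q hQ
      obtain ⟨z, -, hz⟩ := Finset.mem_biUnion.mp hQ
      simp only [hF, Finset.mem_filter, Finset.mem_univ, true_and] at hz
      exact Finset.mem_erase.mpr ⟨hz.2, Finset.mem_univ _⟩
    have := Finset.card_le_card hsub
    rw [Finset.card_erase_of_mem (Finset.mem_univ _), Finset.card_univ,
      ← Nat.card_eq_fintype_card, h] at this
    exact this
  rw [Finset.card_biUnion hdisj] at hunion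
  have hsum : B.card * 4 ≤ ∑ z ∈ B, (F z).card := by
    rw [← smul_eq_mul, ← Finset.sum_const]
    exact Finset.sum_le_sum hFcard
  have hsplit : (Z.filter (fun z => fx z = 1)).card + B.card = Z.card := by
    rw [hB]
    convert Finset.card_filter_add_card_filter_not (s := Z) (fun z => fx z = 1)
  rw [hZ] at hsplit
  omega

theorem stab_bound (P : Sylow 5 G) (Z : Finset G)
    (hZ : Z.card = 20)
    (hZ1 : ∀ z ∈ Z, z ∈ normalizer ((P : Subgroup G) : Set G) ∧ orderOf z = 2)
    (hZ2 : ∀ z ∈ Z, ∀ z' ∈ Z, z ≠ z' → fx (z⁻¹ * z') = 1) (γ : Sylow 5 G) (hγ : γ ≠ P) :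
    20 * Nat.card (normalizer ((P : Subgroup G) : Set G) ⊓ stabilizer G γ : Subgroup G) ≤
      Nat.card (normalizer ((P : Subgroup G) : Set G)) := by
  classical
  set N := normalizer ((P : Subgroup G) : Set G) with hN
  set D : Subgroup G := N ⊓ stabilizer G γ with hD
  have h1 : Nat.card (Z × D) ≤ Nat.card N := by
    apply Nat.card_le_card_of_injective
      (fun x : Z × D => (⟨x.1.1 * x.2.1, N.mul_mem (hZ1 _ x.1.2).1 x.2.2.1⟩ : N))
    intro x y hxy
    have h2 : (x.1 : G) * x.2 = y.1 * y.2 := congrArg Subtype.val hxy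
    have h3 : (x.1 : G)⁻¹ * y.1 = x.2 * (y.2 : G)⁻¹ := by
      calc (x.1 : G)⁻¹ * y.1 = (x.1 : G)⁻¹ * (y.1 * y.2) * (y.2 : G)⁻¹ := by group
        _ = (x.1 : G)⁻¹ * (x.1 * x.2) * (y.2 : G)⁻¹ := by rw [h2]
        _ = _ := by group
    have h4 : (x.1 : G) = y.1 := by
      by_contra hne
      have h5 := fixedBy_eq_singleton P ((x.1 : G)⁻¹ * y.1)
        (Subgroup.mul_mem _ (Subgroup.inv_mem _ (hZ1 _ x.1.2).1) (hZ1 _ y.1.2).1)
        (hZ2 _ x.1.2 _ y.1.2 hne)
      have h6 : γ ∈ fixedBy (Sylow 5 G) ((x.1 : G)⁻¹ * y.1) := by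
        rw [h3]
        exact (stabilizer G γ).mul_mem x.2.2.2 ((stabilizer G γ).inv_mem y.2.2.2)
      rw [h5] at h6
      exact hγ h6
    apply Prod.ext
    · exact Subtype.ext h4
    · apply Subtype.ext
      rw [h4] at h2
      exact mul_left_cancel h2
  rw [Nat.card_prod, Nat.card_eq_fintype_card (α := Z), Fintype.card_coe, hZ] at h1
  exact h1

theorem final (h : Nat.card (Sylow 5 G) = 21)
    (hall : ∀ P : Sylow 5 G, ∃ Z : Finset G, Z.card = 20 ∧
      (∀ z ∈ Z, z ∈ normalizer ((P : Subgroup G) : Set G) ∧ orderOf z = 2) ∧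
      (∀ z ∈ Z, ∀ z' ∈ Z, z ≠ z' → fx (z⁻¹ * z') = 1))
    (hN : ∀ P : Sylow 5 G, Nat.card (normalizer ((P : Subgroup G) : Set G)) ≤ 240) : False := by
  classical
  haveI : Fintype (Sylow 5 G) := Fintype.ofFinite _
  haveI : Fintype G := Fintype.ofFinite _
  choose Z hZ hZ1 hZ2 using hall
  obtain ⟨P₀⟩ : Nonempty (Sylow 5 G) := inferInstance
  set T : Sylow 5 G → Finset G := fun P => (Z P).filter (fun z => fx z = 1) with hT
  have hTcard : ∀ P, 15 ≤ (T P).card := fun P => many_type1 h P (Z P) (hZ P) (hZ1 P) (hZ2 P)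
  have hTfix : ∀ P, ∀ z ∈ T P, fixedBy (Sylow 5 G) z = {P} ∧ orderOf z = 2 := by
    intro P z hz
    obtain ⟨hzZ, hz1⟩ := Finset.mem_filter.mp hz
    exact ⟨fixedBy_eq_singleton P z (hZ1 P z hzZ).1 hz1, (hZ1 P z hzZ).2⟩
  set I := (Finset.univ.erase P₀).biUnion T with hI
  have hdisj : ((Finset.univ.erase P₀ : Finset (Sylow 5 G)) : Set (Sylow 5 G)).PairwiseDisjoint T := by
    intro P _ Q _ hne
    rw [Function.onFun, Finset.disjoint_left]
    intro z hzP hzQ
    have h1 := (hTfix P z hzP).1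
    rw [(hTfix Q z hzQ).1] at h1
    exact hne (Set.singleton_injective h1).symm
  have hcard20 : (Finset.univ.erase P₀ : Finset (Sylow 5 G)).card = 20 := by
    rw [Finset.card_erase_of_mem (Finset.mem_univ _), Finset.card_univ,
      ← Nat.card_eq_fintype_card, h]
  have hIlow : 300 ≤ I.card := by
    rw [hI, Finset.card_biUnion hdisj]
    calc 300 = (Finset.univ.erase P₀ : Finset (Sylow 5 G)).card * 15 := by rw [hcard20]
      _ = ∑ _P ∈ (Finset.univ.erase P₀ : Finset (Sylow 5 G)), 15 := by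
          rw [Finset.sum_const, smul_eq_mul]
      _ ≤ _ := Finset.sum_le_sum (fun P _ => hTcard P)
  have hIprop : ∀ z ∈ I, orderOf z = 2 ∧ z • P₀ ≠ P₀ := by
    intro z hz
    obtain ⟨P, hP, hzP⟩ := Finset.mem_biUnion.mp hz
    refine ⟨(hTfix P z hzP).2, ?_⟩
    intro hcon
    have : P₀ ∈ fixedBy (Sylow 5 G) z := hcon
    rw [(hTfix P z hzP).1] at this
    exact (Finset.mem_erase.mp hP).1 this.symm
  have hmaps : ∀ z ∈ I, z • P₀ ∈ (Finset.univ.erase P₀ : Finset (Sylow 5 G)) :=
    fun z hz => Finset.mem_erase.mpr ⟨(hIprop z hz).2, Finset.mem_univ _⟩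
  have hfib := Finset.card_eq_sum_card_fiberwise hmaps
  have hfiber : ∀ γ ∈ (Finset.univ.erase P₀ : Finset (Sylow 5 G)),
      (I.filter (fun z => z • P₀ = γ)).card ≤ 12 := by
    intro γ hγ
    have hγ' : γ ≠ P₀ := (Finset.mem_erase.mp hγ).1
    have hb := stab_bound P₀ (Z P₀) (hZ P₀) (hZ1 P₀) (hZ2 P₀) γ hγ'
    have hb2 := hN P₀
    set D : Subgroup G := normalizer ((P₀ : Subgroup G) : Set G) ⊓ stabilizer G γ with hD
    have hD12 : Nat.card D ≤ 12 := by omega
    refine le_trans ?_ hD12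
    rcases (I.filter (fun z => z • P₀ = γ)).eq_empty_or_nonempty with he | ⟨z₀, hz₀⟩
    · rw [he]; simp
    obtain ⟨hz₀I, hz₀γ⟩ := Finset.mem_filter.mp hz₀
    have hinvol : ∀ z ∈ I, z * z = 1 := by
      intro z hz
      have := pow_orderOf_eq_one z
      rwa [(hIprop z hz).1, sq] at this
    have hswap : ∀ z ∈ I, z • P₀ = γ → z • γ = P₀ := by
      intro z hz hzγ
      rw [← hzγ, smul_smul, hinvol z hz, one_smul]
    rw [← Fintype.card_coe, ← Nat.card_eq_fintype_card]
    apply Nat.card_le_card_of_injective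
      (fun z : (I.filter (fun z => z • P₀ = γ)) => (⟨z₀ * z.1, by
        obtain ⟨hzI, hzγ⟩ := Finset.mem_filter.mp z.2
        constructor
        · apply Sylow.smul_eq_iff_mem_normalizer.mp
          rw [mul_smul, hzγ, hswap z₀ hz₀I hz₀γ]
        · change (z₀ * z.1) • γ = γ
          rw [mul_smul, hswap z.1 hzI hzγ, hz₀γ]⟩ : D))
    intro x y hxy
    have := congrArg Subtype.val hxy
    exact Subtype.ext (mul_left_cancel this)
  have hup : I.card ≤ 240 := by
    rw [hfib]
    calc _ ≤ ∑ _γ ∈ (Finset.univ.erase P₀ : Finset (Sylow 5 G)), 12 := Finset.sum_le_sum hfiber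
      _ = 240 := by rw [Finset.sum_const, smul_eq_mul, hcard20]
  omega

theorem simple_case (h : Nat.card (Sylow 5 G) = 21) : False := by
  have key : ∀ P : Sylow 5 G, (∃ Z : Finset G, Z.card = 20 ∧
      (∀ z ∈ Z, z ∈ normalizer ((P : Subgroup G) : Set G) ∧ orderOf z = 2) ∧
      (∀ z ∈ Z, ∀ z' ∈ Z, z ≠ z' → fx (z⁻¹ * z') = 1)) ∧
      Nat.card (normalizer ((P : Subgroup G) : Set G)) ≤ 240 := by
    intro P
    obtain ⟨c, k, hC, hc, hk, hrel, hNc, hG⟩ := local_orders h P
    have hcases := sylow7 h c k hc hk hG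
    have hc6 : c ≠ 6 := by
      rintro rfl
      exact c_ne_six h P (by rw [hC])
    have hc' : c = 4 ∨ c = 12 := by
      rcases hcases with ⟨h1, -⟩ | ⟨h1, -⟩ | h1
      · exact Or.inl h1
      · exact absurd h1 hc6
      · exact Or.inr h1
    refine ⟨exists_Z h P c k hc' hk hrel hNc, ?_⟩
    rw [hNc]
    rcases hc' with rfl | rfl <;> rcases hk with rfl | rfl <;> norm_num
  exact final h (fun P => (key P).1) (fun P => (key P).2)

end

/-- No finite group has exactly twenty-one Sylow 5-subgroups. -/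
theorem result {G : Type*} [Group G] [Finite G] : Nat.card (Sylow 5 G) ≠ 21 := by
  intro h
  obtain ⟨S, i1, i2, hS, hS'⟩ := exists_simple 5 21 (by
    intro d hd hd7
    have : d ≤ 21 := Nat.le_of_dvd (by norm_num) hd
    interval_cases d <;> simp_all) (by
    intro hpp
    have := (isPrimePow_nat_iff 21).mp hpp
    obtain ⟨q, k, hq, hk, hqk⟩ := this
    have h3 : 3 ∣ q ^ k := by rw [hqk]; norm_num
    have h5 : 7 ∣ q ^ k := by rw [hqk]; norm_num
    have h3' := (Nat.prime_dvd_prime_iff_eq (by norm_num) hq).mp ((Nat.Prime.dvd_of_dvd_pow (by norm_num) h3))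
    have h5' := (Nat.prime_dvd_prime_iff_eq (by norm_num) hq).mp ((Nat.Prime.dvd_of_dvd_pow (by norm_num) h5))
    omega) (by norm_num) h
  exact simple_case hS'

end Cfsg.Agent.S1010
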