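import Cfsg.Statements.S1016
import Mathlib
import Cfsg.Agent.Lib.Helper5Exc2

set_option autoImplicit false
open Cfsg

namespace Cfsg.Agent.S1016

/-- No finite simple group has order 1440 = 2^5 * 3^2 * 5. -/
theorem result {G : Type*} [Group G] [Finite G] [IsSimpleGroup G] : Nat.card G ≠ 1440 := by
  intro h
  classical
  let _ : Fintype G := Fintype.ofFinite G
  have hG : ¬ IsMulCommutative G :=
    Cfsg.Agent.Lib.Helper21Simple.not_comm_of_not_prime (by rw [h]; norm_num)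
  have : Fact (Nat.Prime 5) := ⟨by norm_num⟩
  obtain ⟨P⟩ : Nonempty (Sylow 5 G) := inferInstance
  obtain ⟨hP, n, m, hn1, hn2, hm1, hm2, hmn, hn, hm⟩ :=
    Cfsg.Agent.Lib.Helper5Exc.sylow_setup hG 288 (by rw [h]) (by norm_num) P
  have hC := Cfsg.Agent.Lib.Helper5Exc2.card_centralizer_mul P
  rw [hm, hn, h] at hC
  have hcases : n = 6 ∨ (n = 16 ∧ m = 2) ∨ (n = 36 ∧ (m = 2 ∨ m = 4)) := by
    have key : ∀ k ∈ Nat.divisors 288, ∀ n ∈ Nat.divisors k, n % 5 = 1 → n ≠ 1 →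
        ∀ m ∈ Nat.divisors 4, m ≠ 1 → m * n = k →
        (n = 6 ∨ (n = 16 ∧ m = 2) ∨ (n = 36 ∧ (m = 2 ∨ m = 4))) := by decide +kernel
    exact key (m * n) (Nat.mem_divisors.mpr ⟨hmn, by norm_num⟩) n
      (Nat.mem_divisors.mpr ⟨dvd_mul_left _ _, fun h0 => by rw [h0] at hmn; omega⟩) hn1 hn2 m
      (Nat.mem_divisors.mpr ⟨hm2, by norm_num⟩) hm1 rfl
  rcases hcases with rfl | ⟨rfl, rfl⟩ | ⟨rfl, hm4⟩
  · have hd := Cfsg.Agent.Lib.Helper5Exc2.card_centralizer_dvd P hP 6 hn (by norm_num)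
      (by intro q _ _ _ f hf1 _ hf3; omega)
    have h1 : Nat.card (Subgroup.centralizer ((P : Subgroup G) : Set G)) ≤ 5 :=
      Nat.le_of_dvd (by norm_num) hd
    have h2 : m ≤ 4 := Nat.le_of_dvd (by norm_num) hm2
    nlinarith
  · have hC45 : Nat.card (Subgroup.centralizer ((P : Subgroup G) : Set G)) = 45 := by omega
    have hd := Cfsg.Agent.Lib.Helper5Exc2.card_centralizer_dvd P hP 16 hn (by norm_num)
      (by
        rw [hC45]
        have key : ∀ q ∈ Nat.divisors 45, q.Prime → q ≠ 5 → ∀ f ∈ Finset.range 16, f % 5 = 1 →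
          f % q = 16 % q → f = 1 := by decide +kernel
        intro q hq hqd hq5 f hf1 hf2 hf3
        exact key q (Nat.mem_divisors.mpr ⟨hqd, by norm_num⟩) hq hq5 f (Finset.mem_range.mpr hf3)
          hf1 hf2)
    rw [hC45] at hd
    omega
  · apply Cfsg.Agent.Lib.Helper5Exc2.no_even_centralizer hG P hP (by norm_num)
    · rcases hm4 with rfl | rfl <;> omega
    · rw [h]
      have key : ∀ x ∈ Nat.divisors 1440, ¬ 5 ∣ x → 2 * 5 ≤ x → x % 2 = 0 := by decide +kernel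
      intro x hx h7 hx14
      exact Nat.even_iff.mpr (key x (Nat.mem_divisors.mpr ⟨hx, by norm_num⟩) h7 hx14)

end Cfsg.Agent.S1016
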