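import Cfsg.Statements.S1017
import Mathlib
import Cfsg.Agent.Lib.Helper5Exc2

set_option autoImplicit false
open Cfsg

namespace Cfsg.Agent.S1017

/-- No finite simple group has order 2016 = 2^5 * 3^2 * 7. -/
theorem result {G : Type*} [Group G] [Finite G] [IsSimpleGroup G] : Nat.card G ≠ 2016 := by
  intro h
  classical
  let _ : Fintype G := Fintype.ofFinite G
  have hG : ¬ IsMulCommutative G :=
    Cfsg.Agent.Lib.Helper21Simple.not_comm_of_not_prime (by rw [h]; norm_num)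
  have : Fact (Nat.Prime 7) := ⟨by norm_num⟩
  obtain ⟨P⟩ : Nonempty (Sylow 7 G) := inferInstance
  obtain ⟨hP, n, m, hn1, hn2, hm1, hm2, hmn, hn, hm⟩ :=
    Cfsg.Agent.Lib.Helper5Exc.sylow_setup hG 288 (by rw [h]) (by norm_num) P
  have hC := Cfsg.Agent.Lib.Helper5Exc2.card_centralizer_mul P
  rw [hm, hn, h] at hC
  have hcases : n = 8 ∨ (n = 36 ∧ m = 2) := by
    have key : ∀ k ∈ Nat.divisors 288, ∀ n ∈ Nat.divisors k, n % 7 = 1 → n ≠ 1 →
        ∀ m ∈ Nat.divisors 6, m ≠ 1 → m * n = k → (n = 8 ∨ (n = 36 ∧ m = 2)) := by decide +kernel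
    exact key (m * n) (Nat.mem_divisors.mpr ⟨hmn, by norm_num⟩) n
      (Nat.mem_divisors.mpr ⟨dvd_mul_left _ _, fun h0 => by rw [h0] at hmn; omega⟩) hn1 hn2 m
      (Nat.mem_divisors.mpr ⟨hm2, by norm_num⟩) hm1 rfl
  rcases hcases with rfl | ⟨rfl, rfl⟩
  · have hd := Cfsg.Agent.Lib.Helper5Exc2.card_centralizer_dvd P hP 8 hn (by norm_num)
      (by intro q _ _ _ f hf1 _ hf3; omega)
    have h1 : Nat.card (Subgroup.centralizer ((P : Subgroup G) : Set G)) ≤ 7 :=
      Nat.le_of_dvd (by norm_num) hd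
    have h2 : m ≤ 6 := Nat.le_of_dvd (by norm_num) hm2
    nlinarith
  · apply Cfsg.Agent.Lib.Helper5Exc2.no_even_centralizer hG P hP (by norm_num)
    · omega
    · rw [h]
      have key : ∀ x ∈ Nat.divisors 2016, ¬ 7 ∣ x → 2 * 7 ≤ x → x % 2 = 0 := by decide +kernel
      intro x hx h7 hx14
      exact Nat.even_iff.mpr (key x (Nat.mem_divisors.mpr ⟨hx, by norm_num⟩) h7 hx14)

end Cfsg.Agent.S1017
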