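import Cfsg.Statements.S1137
-- import your own Cfsg.Agent.* helpers here
import Cfsg.Agent.Lib.Helper29HigOfsuz
import Cfsg.Agent.Lib.Helper61HigMain
import Cfsg.Agent.Lib.Helper3HigBasic

set_option autoImplicit false
open Cfsg

namespace Cfsg.Agent.S1137

open Cfsg.Agent.Lib.Helper61HigDefs


/-- In a Suzuki 2-group `P` (a finite non-abelian 2-group with more than one involution admitting a cyclic group of automorphisms regular on its involutions) the involutions are exactly the non-identity central elements, and `Z(P)` is elementary abelian. -/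
theorem result {P : Type*} [Group P] (hP : Cfsg.IsSuzukiTwoGroup P) :
    (∀ x : P, (x ≠ 1 ∧ x * x = 1) ↔ (x ∈ Subgroup.center P ∧ x ≠ 1)) ∧
      ∀ z ∈ Subgroup.center P, z * z = 1 := by
  obtain ⟨K, h⟩ := Cfsg.Agent.Lib.Helper29HigOfsuz.hs_of_suzuki hP
  have hna := hP.2.2.1
  have hexp := Cfsg.Agent.Lib.Helper61HigMain.center_exp h hna
  refine ⟨fun x => ⟨fun hx => ⟨?_, hx.1⟩, fun hx => ⟨hx.2, hexp x hx.1⟩⟩, hexp⟩
  rw [Subgroup.mem_center_iff]
  intro g
  exact (Cfsg.Agent.Lib.Helper3HigBasic.invol_central h hx.2 g).symm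

end Cfsg.Agent.S1137
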