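import Cfsg.Statements.S1163
import Cfsg.Agent.Lib.Helper8SzIso
import Cfsg.Agent.Lib.Helper8Sz5

set_option autoImplicit false
open Cfsg

namespace Cfsg.Agent.S1163


open Cfsg.Agent.Lib.Helper8Sz Cfsg.Agent.Lib.Helper8Sz2 Cfsg.Agent.Lib.Helper8Sz3 Cfsg.Agent.Lib.Helper8Sz4
  Cfsg.Agent.Lib.Helper8Sz5 Cfsg.Agent.Lib.Helper8SzIso

theorem abstract_cosets {G Ω : Type*} [Group G] [MulAction G Ω] (ω : Ω) (N S : Subgroup G)
    (hN : N = MulAction.stabilizer G ω)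
    (h2 : ∀ a b c d : Ω, a ≠ b → c ≠ d → ∃ g : G, g • a = c ∧ g • b = d)
    (hreg : ∀ a b : Ω, a ≠ ω → b ≠ ω → ∃! s : S, (s : G) • a = b) :
    MulAction.IsMultiplyPretransitive G (G ⧸ N) 2 ∧
      ∀ x y : G ⧸ N, x ≠ QuotientGroup.mk 1 → y ≠ QuotientGroup.mk 1 →
        ∃! s : S, (s : G) • x = y := by
  subst hN
  have hinj := MulAction.injective_ofQuotientStabilizer G ω
  have hsm : ∀ (g : G) (x : G ⧸ MulAction.stabilizer G ω),
      MulAction.ofQuotientStabilizer G ω (g • x) = g • MulAction.ofQuotientStabilizer G ω x :=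
    fun g x => MulAction.ofQuotientStabilizer_smul G ω g x
  have h1 : MulAction.ofQuotientStabilizer G ω (QuotientGroup.mk 1) = ω := by
    rw [MulAction.ofQuotientStabilizer_mk, one_smul]
  constructor
  · rw [MulAction.is_two_pretransitive_iff]
    intro a b c d hab hcd
    obtain ⟨g, hg1, hg2⟩ := h2 _ _ _ _ (hinj.ne hab) (hinj.ne hcd)
    exact ⟨g, hinj (by rw [hsm, hg1]), hinj (by rw [hsm, hg2])⟩
  · intro x y hx hy
    obtain ⟨s, hs, hu⟩ := hreg _ _ (h1 ▸ hinj.ne hx) (h1 ▸ hinj.ne hy)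
    refine ⟨s, hinj (by rw [hsm]; exact hs), ?_⟩
    intro s' hs'
    apply hu
    show (s' : G) • _ = _
    rw [← hsm, hs']

/-- For the Suzuki group Sz(q), q = 2^(2m+1) ≥ 8, realised as the elements g of Sp₄(F) with g* = g^θ (θ the 2^(m+1)-th power map, so that θ² is squaring): `|Sz(q)| = q² (q - 1) (q² + 1)`, and there is a Sylow 2-subgroup `S` whose normaliser `H` has order `q²(q-1)` and index `q² + 1`, the action of `Sz(q)` on the cosets of `H` is doubly transitive, and `S` acts regularly on the cosets other than `H` itself. -/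
theorem result {F : Type*} [Field F] [Fintype F] {m : ℕ} (hm : 1 ≤ m) (hF : Fintype.card F = 2 ^ (2 * m + 1)) :
    Nat.card ↥(Cfsg.Lie.Sz F (2 ^ (m + 1))) = (2 ^ (2 * m + 1)) ^ 2 * (2 ^ (2 * m + 1) - 1) * ((2 ^ (2 * m + 1)) ^ 2 + 1) ∧
    ∃ S : Sylow 2 ↥(Cfsg.Lie.Sz F (2 ^ (m + 1))),
      Nat.card (Subgroup.normalizer ((S : Subgroup ↥(Cfsg.Lie.Sz F (2 ^ (m + 1)))) : Set ↥(Cfsg.Lie.Sz F (2 ^ (m + 1))))) = (2 ^ (2 * m + 1)) ^ 2 * (2 ^ (2 * m + 1) - 1) ∧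
      (Subgroup.normalizer ((S : Subgroup ↥(Cfsg.Lie.Sz F (2 ^ (m + 1)))) : Set ↥(Cfsg.Lie.Sz F (2 ^ (m + 1))))).index = (2 ^ (2 * m + 1)) ^ 2 + 1 ∧
      MulAction.IsMultiplyPretransitive ↥(Cfsg.Lie.Sz F (2 ^ (m + 1))) (↥(Cfsg.Lie.Sz F (2 ^ (m + 1))) ⧸ Subgroup.normalizer ((S : Subgroup ↥(Cfsg.Lie.Sz F (2 ^ (m + 1)))) : Set ↥(Cfsg.Lie.Sz F (2 ^ (m + 1))))) 2 ∧
      ∀ x y : ↥(Cfsg.Lie.Sz F (2 ^ (m + 1))) ⧸ Subgroup.normalizer ((S : Subgroup ↥(Cfsg.Lie.Sz F (2 ^ (m + 1)))) : Set ↥(Cfsg.Lie.Sz F (2 ^ (m + 1)))),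
        x ≠ (QuotientGroup.mk 1) → y ≠ (QuotientGroup.mk 1) → ∃! s : ↥(S : Subgroup ↥(Cfsg.Lie.Sz F (2 ^ (m + 1)))), (s : ↥(Cfsg.Lie.Sz F (2 ^ (m + 1)))) • x = y := by
  let e := (szIso hF hm).symm
  letI : MulAction ↥(Cfsg.Lie.Sz F (2 ^ (m + 1))) (suzukiOvoid F m) :=
    MulAction.compHom _ e.toMonoidHom
  have hsm : ∀ (g : ↥(Cfsg.Lie.Sz F (2 ^ (m + 1)))) (c : suzukiOvoid F m), g • c = e g • c :=
    fun _ _ => rfl
  have : Finite ↥(Cfsg.Lie.Sz F (2 ^ (m + 1))) := Finite.of_equiv _ e.symm.toEquiv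
  have : Fact (Nat.Prime 2) := ⟨Nat.prime_two⟩
  have hcard : Nat.card ↥(Cfsg.Lie.Sz F (2 ^ (m + 1))) = (2 ^ (2 * m + 1)) ^ 2 * (2 ^ (2 * m + 1) - 1) * ((2 ^ (2 * m + 1)) ^ 2 + 1) := by
    rw [Nat.card_congr e.toEquiv, card_Sz hF hm]; ring
  refine ⟨hcard, ?_⟩
  have hsurj : Function.Surjective e.toMonoidHom := e.surjective
  have hinj : Function.Injective e.toMonoidHom := e.injective
  have hp : IsPGroup 2 ((Q hF hm).comap e.toMonoidHom) :=
    (isPGroup_Q hF hm).comap_of_injective _ hinj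
  have hidx : ¬ 2 ∣ ((Q hF hm).comap e.toMonoidHom).index := by
    rw [Subgroup.index_comap_of_surjective _ hsurj]
    exact index_Q hF hm
  have hN : Subgroup.normalizer (((Q hF hm).comap e.toMonoidHom : Subgroup _) : Set ↥(Cfsg.Lie.Sz F (2 ^ (m + 1))))
      = MulAction.stabilizer ↥(Cfsg.Lie.Sz F (2 ^ (m + 1))) (oInf F m) := by
    rw [← Subgroup.comap_normalizer_eq_of_surjective _ hsurj, normalizer_Q]
    ext g
    rw [Subgroup.mem_comap, MulAction.mem_stabilizer_iff, MulAction.mem_stabilizer_iff]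
    rfl
  have hNcard : Nat.card (MulAction.stabilizer ↥(Cfsg.Lie.Sz F (2 ^ (m + 1))) (oInf F m)) =
      (2 ^ (2 * m + 1)) ^ 2 * (2 ^ (2 * m + 1) - 1) := by
    rw [← card_stab hF hm]
    refine Nat.card_congr ⟨fun g => ⟨e g.1, ?_⟩, fun g => ⟨e.symm g.1, ?_⟩, ?_, ?_⟩
    · exact congrArg Subtype.val g.2
    · rw [MulAction.mem_stabilizer_iff, hsm, e.apply_symm_apply]
      exact Subtype.ext g.2
    · intro g
      apply Subtype.ext
      exact e.symm_apply_apply _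
    · intro g
      apply Subtype.ext
      exact e.apply_symm_apply _
  refine ⟨hp.toSylow hidx, ?_⟩
  show Nat.card (Subgroup.normalizer (((Q hF hm).comap e.toMonoidHom : Subgroup _) : Set ↥(Cfsg.Lie.Sz F (2 ^ (m + 1))))) = _ ∧
    (Subgroup.normalizer (((Q hF hm).comap e.toMonoidHom : Subgroup _) : Set ↥(Cfsg.Lie.Sz F (2 ^ (m + 1))))).index = _ ∧
    MulAction.IsMultiplyPretransitive _ (_ ⧸ Subgroup.normalizer (((Q hF hm).comap e.toMonoidHom : Subgroup _) : Set ↥(Cfsg.Lie.Sz F (2 ^ (m + 1))))) 2 ∧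
    ∀ x y : _ ⧸ Subgroup.normalizer (((Q hF hm).comap e.toMonoidHom : Subgroup _) : Set ↥(Cfsg.Lie.Sz F (2 ^ (m + 1)))),
      x ≠ (QuotientGroup.mk 1) → y ≠ (QuotientGroup.mk 1) →
        ∃! s : ((Q hF hm).comap e.toMonoidHom : Subgroup _), (s : ↥(Cfsg.Lie.Sz F (2 ^ (m + 1)))) • x = y
  refine ⟨by rw [hN, hNcard], ?_, abstract_cosets (oInf F m) _ _ hN ?_ ?_⟩
  · have h1 := Subgroup.index_mul_card (Subgroup.normalizer (((Q hF hm).comap e.toMonoidHom : Subgroup _) : Set ↥(Cfsg.Lie.Sz F (2 ^ (m + 1)))))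
    rw [hN, hNcard, hcard] at h1
    rw [hN]
    have hq : 0 < (2 ^ (2 * m + 1)) ^ 2 * (2 ^ (2 * m + 1) - 1) := by
      have : 2 ≤ 2 ^ (2 * m + 1) := by
        calc 2 = 2 ^ 1 := rfl
          _ ≤ _ := Nat.pow_le_pow_right (by norm_num) (by omega)
      have h3 : 0 < 2 ^ (2 * m + 1) - 1 := by omega
      positivity
    apply Nat.eq_of_mul_eq_mul_right hq
    rw [h1]; ring
  · intro a b c d hab hcd
    have := two_trans hF (m := m)
    rw [MulAction.is_two_pretransitive_iff] at this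
    obtain ⟨g, h1, h2⟩ := this hab hcd
    exact ⟨e.symm g, by rw [hsm, e.apply_symm_apply, h1], by rw [hsm, e.apply_symm_apply, h2]⟩
  · intro a b ha hb
    obtain ⟨x, y, rfl⟩ := (o_cases a).resolve_left ha
    obtain ⟨x', y', rfl⟩ := (o_cases b).resolve_left hb
    refine ⟨⟨e.symm (T hF x' y' * (T hF x y)⁻¹), ?_⟩, ?_, ?_⟩
    · rw [Subgroup.mem_comap]
      show e (e.symm _) ∈ _
      rw [e.apply_symm_apply]
      exact (Q hF hm).mul_mem (T_mem_Q hF hm _ _) ((Q hF hm).inv_mem (T_mem_Q hF hm _ _))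
    · show e.symm _ • _ = _
      rw [hsm, e.apply_symm_apply, mul_smul, ← T_oPt_zero hF x y, inv_smul_smul, T_oPt_zero]
    · rintro ⟨s, hs⟩ hs'
      have hs2 : e s • oPt m x y = oPt m x' y' := hs'
      obtain ⟨a, b, hab⟩ := (mem_Q hF hm).1 (show e s ∈ Q hF hm from hs)
      apply Subtype.ext
      show s = e.symm _
      rw [MulEquiv.eq_symm_apply]
      have hmem : (T hF x' y')⁻¹ * e s * T hF x y ∈ Q hF hm :=
        (Q hF hm).mul_mem ((Q hF hm).mul_mem ((Q hF hm).inv_mem (T_mem_Q hF hm _ _)) hs)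
          (T_mem_Q hF hm _ _)
      obtain ⟨a', b', hab'⟩ := (mem_Q hF hm).1 hmem
      have hfix : T hF a' b' • oPt m (0:F) 0 = oPt m 0 0 := by
        rw [← hab', mul_smul, mul_smul, T_oPt_zero, hs2, ← T_oPt_zero hF x' y', inv_smul_smul]
      obtain ⟨rfl, rfl⟩ := T_fix hF hfix
      rw [T_zero hF hm] at hab'
      rw [eq_mul_inv_iff_mul_eq]
      rw [mul_assoc, inv_mul_eq_one] at hab'
      exact hab'.symm

end Cfsg.Agent.S1163
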