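import Cfsg.Statements.S1164
import Cfsg.Agent.Lib.Helper23CTz
import Cfsg.Agent.Lib.Helper30CTW0
import Cfsg.Agent.Lib.Helper11CTW1
import Cfsg.Agent.Lib.Helper28CTW3
import Cfsg.Agent.Lib.Helper1CTW5

set_option autoImplicit false
open Cfsg

namespace Cfsg.Agent.S1164

/-- Curtis–Tits: for the Chevalley datum of type D₄, F₄, E₆, E₇ or E₈ and a field `K` with at least four elements, there is an isomorphism from the group presented by the Curtis–Tits relators (additivity, the commutator relators and the `h̄`-relators only for roots inside a common rank-two subsystem spanned by two fundamental roots, all other generators killed) onto the group of Steinberg's presentation, sending each generator `x̄_r(t)` with `r` in such a subsystem to `x̄_r(t)`. -/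
theorem result (D : Cfsg.Lie.ChevalleyDatum)
    (hD : D ∈ [Cfsg.Lie.chevD4, Cfsg.Lie.chevF4, Cfsg.Lie.chevE6, Cfsg.Lie.chevE7, Cfsg.Lie.chevE8])
    (K : Type*) [Field K] [Fintype K] (hK : 4 ≤ Fintype.card K) :
    ∃ e : D.CurtisTitsGroup K ≃* D.SteinbergGroup K,
      ∀ (i j r : ℕ) (t : K), D.InRankTwoSub i j r →
        e (PresentedGroup.mk (D.curtisTitsRels K) (D.stX r t)) = D.stGen K r t := by
  have hS := Cfsg.Agent.Lib.Helper23CT.std_of hD
  obtain ⟨c⟩ := Cfsg.Agent.Lib.Helper23CT.exists_cert hD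
  exact Cfsg.Agent.Lib.Helper1CTW5.ct_iso_of hS K c.facts (fun C => Cfsg.Agent.Lib.Helper23CT.ct_main c C)
    (Cfsg.Agent.Lib.Helper11CTW1.cts_pres_of hS K
      (Cfsg.Agent.Lib.Helper30CTW0.kappa K c.facts (FreeGroup.lift (Cfsg.Agent.Lib.Helper23St.f0 hS K))
        (Cfsg.Agent.Lib.Helper23St.rels_ok hS K)))
    (Cfsg.Agent.Lib.Helper30CTW0.kappa K c.facts (PresentedGroup.mk (D.steinbergRels K))
      (fun g hg => PresentedGroup.one_of_mem hg))
    (Cfsg.Agent.Lib.Helper28CTW3.gen_pres K)

end Cfsg.Agent.S1164
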