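import Cfsg.Statements.S1187
import Cfsg.Agent.Lib.Helper92ZStar
import Cfsg.Agent.Lib.Helper1SylowInv
import Cfsg.Agent.Lib.Helper3RankTwo

set_option autoImplicit false
open Cfsg

namespace Cfsg.Agent.S1187



/-- Let z be an isolated involution of the finite group G and p a prime. If Q is a p-subgroup normalized by z that is maximal among p-subgroups normalized by z, then Q is a Sylow p-subgroup of G. -/
theorem result {G : Type*} [Group G] [Finite G] (z : G) (hz : Cfsg.IsIsolatedInvolution z) {p : ℕ} [Fact p.Prime] (Q : Subgroup G) (hQ : IsPGroup p Q) (hzQ : z ∈ Subgroup.normalizer (Q : Set G)) (hmax : ∀ R : Subgroup G, IsPGroup p R → z ∈ Subgroup.normalizer (R : Set G) → Q ≤ R → R = Q) : ∃ P : Sylow p G, (P : Subgroup G) = Q := by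
  classical
  have hpp : p.Prime := Fact.out
  have hz2 : orderOf z = 2 := hz.1
  by_cases hp2 : p = 2
  · subst hp2
    have hpz : IsPGroup 2 (Subgroup.zpowers z) :=
      IsPGroup.of_card (n := 1) (by rw [Nat.card_zpowers, hz2, pow_one])
    have hsup : IsPGroup 2 (Subgroup.zpowers z ⊔ Q : Subgroup G) :=
      IsPGroup.to_sup_of_normal_right' hpz hQ (by rw [Subgroup.zpowers_le]; exact hzQ)
    have hzmem : z ∈ Subgroup.zpowers z ⊔ Q := Subgroup.mem_sup_left (Subgroup.mem_zpowers z)
    have h1 := hmax _ hsup (Subgroup.le_normalizer hzmem) le_sup_right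
    have hzQ' : z ∈ Q := h1 ▸ hzmem
    obtain ⟨P, hP⟩ := hQ.exists_le_sylow
    exact ⟨P, hmax _ P.2 (Subgroup.le_normalizer (hP hzQ')) hP⟩
  · have hKn : (Cfsg.oddCore G).Normal := inferInstance
    have hKodd : (Nat.card (Cfsg.oddCore G)).Coprime 2 :=
      Cfsg.Agent.Lib.Helper14CoreB.card_pPrimeCore_coprime 2
    have hcent : ∀ g : G, (QuotientGroup.mk' (Cfsg.oddCore G)) (z * g * z⁻¹)
        = (QuotientGroup.mk' (Cfsg.oddCore G)) g := by
      intro g
      have h := Cfsg.Agent.Lib.Helper92ZStar.zstar hz g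
      rw [← QuotientGroup.eq_one_iff, ← QuotientGroup.mk'_apply, map_mul, map_inv] at h
      exact mul_inv_eq_one.mp h
    obtain ⟨T, hT⟩ := (hQ.map (QuotientGroup.mk' (Cfsg.oddCore G))).exists_le_sylow
    set Y := (T : Subgroup (G ⧸ Cfsg.oddCore G)).comap (QuotientGroup.mk' (Cfsg.oddCore G)) with hY
    have hQY : Q ≤ Y := fun q hq => hT (Subgroup.mem_map_of_mem _ hq)
    have hYcard : Nat.card Y = Nat.card T * Nat.card (Cfsg.oddCore G) :=
      Cfsg.Agent.Lib.Helper3RankTwo.card_comap_mk' _ _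
    have hYidx : Y.index = (T : Subgroup (G ⧸ Cfsg.oddCore G)).index :=
      Subgroup.index_comap_of_surjective _ (QuotientGroup.mk'_surjective _)
    have hTcop : (Nat.card T).Coprime 2 := by
      obtain ⟨k, hk⟩ := (IsPGroup.iff_card.mp T.2)
      rw [hk]
      exact Nat.Coprime.pow_left k ((Nat.coprime_primes hpp Nat.prime_two).mpr hp2)
    have hcop : (Nat.card (Subgroup.zpowers z)).Coprime (Nat.card Y) := by
      rw [Nat.card_zpowers, hz2, hYcard]
      exact (Nat.Coprime.mul_left hTcop hKodd).symm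
    have hzY : Subgroup.zpowers z ≤ Subgroup.normalizer (Y : Set G) := by
      rw [Subgroup.zpowers_le, Subgroup.mem_normalizer_iff]
      intro h
      rw [hY, Subgroup.mem_comap, Subgroup.mem_comap, hcent]
    obtain ⟨P, hQP, hzP⟩ := Cfsg.Agent.Lib.Helper1SylowInv.exists_invariant_sylow_ge
      (Subgroup.zpowers z) Y hzY hcop (Or.inl inferInstance) p Q hQY hQ
      (by rw [Subgroup.zpowers_le]; exact hzQ)
    have hPp : IsPGroup p ((P : Subgroup Y).map Y.subtype) := P.2.map _
    have h1 := hmax _ hPp (hzP (Subgroup.mem_zpowers z)) hQP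
    have hidx : ¬ p ∣ Q.index := by
      rw [← h1, Subgroup.index_map_subtype, hYidx]
      intro h
      rcases (Nat.Prime.dvd_mul hpp).mp h with h | h
      · exact P.not_dvd_index h
      · exact T.not_dvd_index h
    exact ⟨hQ.toSylow hidx, IsPGroup.toSylow_coe hQ hidx⟩

end Cfsg.Agent.S1187
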