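import Cfsg.Statements.S1253
import Cfsg.Agent.Lib.Helper92ZStar

set_option autoImplicit false
open Cfsg

namespace Cfsg.Agent.S1253

open scoped Pointwise

/-- counting inverted elements in an odd order subgroup normalized by an involution -/
theorem relIndex_eq_card_inverted {G : Type*} [Group G] [Finite G] (z : G) (hzz : z * z = 1)
    (P : Subgroup G) (hodd : Odd (Nat.card P)) (hzP : z ∈ Subgroup.normalizer (P : Set G)) :
    (P ⊓ Subgroup.centralizer ({z} : Set G)).relIndex P
      = Nat.card {x : G // x ∈ P ∧ z * x * z⁻¹ = x⁻¹} := by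
  classical
  have hzinv : z⁻¹ = z := inv_eq_of_mul_eq_one_left hzz
  have hconj : ∀ x ∈ P, z * x * z⁻¹ ∈ P := fun x hx => (Subgroup.mem_normalizer_iff.mp hzP x).mp hx
  let f : P → {x : G // x ∈ P ∧ z * x * z⁻¹ = x⁻¹} := fun x =>
    ⟨(x : G) * (z * (x : G)⁻¹ * z⁻¹), P.mul_mem x.2 (hconj _ (P.inv_mem x.2)), by
      rw [hzinv]
      calc z * ((x : G) * (z * (x : G)⁻¹ * z)) * z
          = z * (x : G) * (z * (x : G)⁻¹ * (z * z)) := by group
        _ = z * (x : G) * z * (x : G)⁻¹ := by rw [hzz]; group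
        _ = ((x : G) * (z * (x : G)⁻¹ * z))⁻¹ := by
          rw [mul_inv_rev, mul_inv_rev, mul_inv_rev, inv_inv, hzinv]; group⟩
  have hf : ∀ a b : P, f a = f b ↔
      a⁻¹ * b ∈ (P ⊓ Subgroup.centralizer ({z} : Set G)).subgroupOf P := by
    intro a b
    rw [Subgroup.mem_subgroupOf, Subgroup.mem_inf, Subgroup.mem_centralizer_singleton_iff]
    simp only [f, Subtype.mk.injEq, Subgroup.coe_mul, Subgroup.coe_inv]
    constructor
    · intro h
      refine ⟨P.mul_mem (P.inv_mem a.2) b.2, ?_⟩
      have h1 : (a : G) * z * (a : G)⁻¹ = (b : G) * z * (b : G)⁻¹ := by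
        have := congrArg (· * z) h
        simpa [mul_assoc] using this
      calc (a : G)⁻¹ * (b : G) * z = (a : G)⁻¹ * ((b : G) * z * (b : G)⁻¹) * (b : G) := by group
        _ = (a : G)⁻¹ * ((a : G) * z * (a : G)⁻¹) * (b : G) := by rw [h1]
        _ = z * ((a : G)⁻¹ * (b : G)) := by group
    · rintro ⟨-, h⟩
      have h1 : (a : G) * z * (a : G)⁻¹ = (b : G) * z * (b : G)⁻¹ := by
        calc (a : G) * z * (a : G)⁻¹ = (a : G) * (z * ((a : G)⁻¹ * (b : G))) * (b : G)⁻¹ := by group
          _ = (a : G) * ((a : G)⁻¹ * (b : G) * z) * (b : G)⁻¹ := by rw [h]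
          _ = (b : G) * z * (b : G)⁻¹ := by group
      calc (a : G) * (z * (a : G)⁻¹ * z⁻¹) = ((a : G) * z * (a : G)⁻¹) * z⁻¹ := by group
        _ = ((b : G) * z * (b : G)⁻¹) * z⁻¹ := by rw [h1]
        _ = (b : G) * (z * (b : G)⁻¹ * z⁻¹) := by group
  have hsurj : Function.Surjective f := by
    rintro ⟨w, hwP, hw⟩
    have hwodd : Odd (orderOf w) := by
      have h1 : orderOf w ∣ Nat.card P := by
        have := orderOf_dvd_natCard (⟨w, hwP⟩ : P)
        rwa [Subgroup.orderOf_mk] at this
      exact Odd.of_dvd_nat hodd h1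
    obtain ⟨k, hk⟩ := hwodd
    refine ⟨⟨w ^ (k + 1), P.pow_mem hwP _⟩, ?_⟩
    apply Subtype.ext
    show w ^ (k + 1) * (z * (w ^ (k + 1))⁻¹ * z⁻¹) = w
    have h1 : z * (w ^ (k + 1))⁻¹ * z⁻¹ = w ^ (k + 1) := by
      rw [← inv_pow, ← conj_pow, ← conj_inv, hw, inv_inv]
    rw [h1, ← pow_add]
    have : k + 1 + (k + 1) = orderOf w + 1 := by omega
    rw [this, pow_add, pow_orderOf_eq_one, one_mul, pow_one]
  let F : (P ⧸ (P ⊓ Subgroup.centralizer ({z} : Set G)).subgroupOf P) →
      {x : G // x ∈ P ∧ z * x * z⁻¹ = x⁻¹} := fun q =>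
    Quotient.liftOn' q f (by
      intro a b hab
      exact (hf a b).mpr (QuotientGroup.leftRel_apply.mp hab))
  have hF : Function.Bijective F := by
    constructor
    · intro q₁ q₂
      induction q₁ using QuotientGroup.induction_on with
      | H a =>
        induction q₂ using QuotientGroup.induction_on with
        | H b =>
          intro h
          exact QuotientGroup.eq.mpr ((hf a b).mp h)
    · intro y
      obtain ⟨a, ha⟩ := hsurj y
      exact ⟨QuotientGroup.mk a, ha⟩
  exact Nat.card_congr (Equiv.ofBijective F hF)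

/-- Let z be an isolated involution of the finite group G with centralizer C, p an odd prime and P a Sylow p-subgroup of G normalized by z. Then P ∩ C has p-power-free index in C (it is a Sylow p-subgroup of C), and |P : C_P(z)| equals the number of elements x ∈ P with z x z⁻¹ = x⁻¹. -/
theorem result {G : Type*} [Group G] [Finite G] (z : G) (hz : Cfsg.IsIsolatedInvolution z) {p : ℕ} [Fact p.Prime] (hp : p ≠ 2) (P : Sylow p G) (hzP : z ∈ Subgroup.normalizer ((P : Subgroup G) : Set G)) : ¬ p ∣ ((P : Subgroup G) ⊓ Subgroup.centralizer ({z} : Set G)).relIndex (Subgroup.centralizer ({z} : Set G)) ∧ ((P : Subgroup G) ⊓ Subgroup.centralizer ({z} : Set G)).relIndex (P : Subgroup G) = Nat.card {x : G // x ∈ P ∧ z * x * z⁻¹ = x⁻¹} := by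
  classical
  have hpp : p.Prime := Fact.out
  have hzz : z * z = 1 := by
    have := pow_orderOf_eq_one z
    rwa [hz.1, pow_two] at this
  have hPodd : Odd (Nat.card (P : Subgroup G)) := by
    obtain ⟨k, hk⟩ := IsPGroup.iff_card.mp P.2
    rw [hk]
    exact (hpp.odd_of_ne_two hp).pow
  refine ⟨?_, relIndex_eq_card_inverted z hzz P hPodd hzP⟩
  set C := Subgroup.centralizer ({z} : Set G) with hC
  have hp0 : IsPGroup p (((P : Subgroup G) ⊓ C).subgroupOf C) :=
    (P.2.to_le inf_le_left).comap_of_injective C.subtype C.subtype_injective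
  obtain ⟨R, hR⟩ := hp0.exists_le_sylow
  have hRC : (R : Subgroup C).map C.subtype ≤ C := Subgroup.map_subtype_le _
  have hRp : IsPGroup p ((R : Subgroup C).map C.subtype) := R.2.map _
  have hzR : z ∈ Subgroup.normalizer (((R : Subgroup C).map C.subtype : Subgroup G) : Set G) := by
    rw [Subgroup.mem_normalizer_iff]
    intro x
    constructor
    · intro hx
      have h1 : x * z = z * x := Subgroup.mem_centralizer_singleton_iff.mp (hRC hx)
      rw [← h1, mul_inv_cancel_right]; exact hx
    · intro hx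
      have h1 : (z * x * z⁻¹) * z = z * (z * x * z⁻¹) :=
        Subgroup.mem_centralizer_singleton_iff.mp (hRC hx)
      have h2 : z * x * z⁻¹ = x := by
        have h3 : z * x = z * (z * x * z⁻¹) := by rw [← h1]; group
        exact (mul_left_cancel h3).symm
      rw [← h2]; exact hx
  obtain ⟨P₁, hRP₁, hzP₁⟩ := Cfsg.Agent.Lib.Helper92ZStar.exists_invariant_sylow_ge hz hp _ hRp hzR
  obtain ⟨c, hc, hcP⟩ := Cfsg.Agent.Lib.Helper92ZStar.exists_centralizer_conj_sylow hz P P₁ hzP hzP₁
  have hle : (P : Subgroup G) ⊓ C ≤ (R : Subgroup C).map C.subtype := by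
    intro x hx
    exact ⟨⟨x, hx.2⟩, hR (show (⟨x, hx.2⟩ : C) ∈ ((P : Subgroup G) ⊓ C).subgroupOf C from hx), rfl⟩
  have hcard : Nat.card ((R : Subgroup C).map C.subtype) ≤ Nat.card ((P : Subgroup G) ⊓ C : Subgroup G) := by
    apply Nat.card_le_card_of_injective
      (fun x : (R : Subgroup C).map C.subtype => (⟨c⁻¹ * (x : G) * c, by
        refine ⟨?_, C.mul_mem (C.mul_mem (C.inv_mem hc) (hRC x.2)) hc⟩
        have h1 : (x : G) ∈ MulAut.conj c • (P : Subgroup G) := by rw [hcP]; exact hRP₁ x.2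
        rw [Subgroup.mem_pointwise_smul_iff_inv_smul_mem] at h1
        have h2 : c⁻¹ * (x : G) * c ∈ (P : Subgroup G) := by
          simpa [MulAut.smul_def, mul_assoc] using h1
        exact h2⟩ : ((P : Subgroup G) ⊓ C : Subgroup G)))
    intro x y hxy
    have := congrArg Subtype.val hxy
    simp only [mul_left_inj, mul_right_inj] at this
    exact Subtype.ext this
  have heq : (P : Subgroup G) ⊓ C = (R : Subgroup C).map C.subtype :=
    Subgroup.eq_of_le_of_card_ge hle hcard
  rw [heq, Subgroup.relIndex, Subgroup.subgroupOf,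
    Subgroup.comap_map_eq_self_of_injective C.subtype_injective]
  exact R.not_dvd_index

end Cfsg.Agent.S1253
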