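import Cfsg.Statements.S1254
import Cfsg.Agent.Lib.Helper11OddAut

set_option autoImplicit false
open Cfsg

namespace Cfsg.Agent.S1254

theorem mem_centralizer_of_normalizer_eq_sup {G : Type*} [Group G] {p : ℕ} (Q T : Subgroup G)
    (hT : IsPGroup p T) (hTN : T ≤ Subgroup.normalizer (Q : Set G))
    (h : Subgroup.normalizer (Q : Set G) = Subgroup.centralizer (Q : Set G) ⊔ T) (g : G)
    (hgN : g ∈ Subgroup.normalizer (Q : Set G)) (hg : (orderOf g).Coprime p) :
    g ∈ Subgroup.centralizer (Q : Set G) := by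
  set N := Subgroup.normalizer (Q : Set G) with hN
  let f := Q.normalizerMonoidHom
  have hker : f.ker = (Subgroup.centralizer (Q : Set G)).subgroupOf N := Q.normalizerMonoidHom_ker
  have htop : (⊤ : Subgroup N) = (Subgroup.centralizer (Q : Set G)).subgroupOf N ⊔ T.subgroupOf N := by
    rw [← Subgroup.subgroupOf_sup (Subgroup.centralizer_le_normalizer _) hTN, ← h,
      Subgroup.subgroupOf_self]
  have h1 : f ⟨g, hgN⟩ ∈ (⊤ : Subgroup N).map f := ⟨_, trivial, rfl⟩
  rw [htop, Subgroup.map_sup, ← hker, (Subgroup.map_eq_bot_iff _).mpr le_rfl, bot_sup_eq] at h1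
  obtain ⟨t, ht, hft⟩ := h1
  obtain ⟨j, hj⟩ := hT ⟨t, ht⟩
  have htj : t ^ p ^ j = 1 := by
    apply Subtype.ext
    simpa using congrArg Subtype.val hj
  have h2 : orderOf (f ⟨g, hgN⟩) ∣ p ^ j := by
    apply orderOf_dvd_of_pow_eq_one
    rw [← hft, ← map_pow, htj, map_one]
  have h3 : orderOf (f ⟨g, hgN⟩) ∣ orderOf g := by
    have := orderOf_map_dvd f (⟨g, hgN⟩ : N)
    rwa [Subgroup.orderOf_mk] at this
  have h4 : (orderOf (f ⟨g, hgN⟩)).Coprime (p ^ j) :=
    Nat.Coprime.pow_right j (Nat.Coprime.coprime_dvd_left h3 hg)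
  have h5 : f ⟨g, hgN⟩ = 1 := orderOf_eq_one_iff.mp (Nat.Coprime.eq_one_of_dvd h4 h2)
  have h6 : (⟨g, hgN⟩ : N) ∈ f.ker := h5
  rw [hker] at h6
  exact h6

/-- Let X be a finite group whose Sylow 2-subgroup S is dihedral (of order at least 4). Then X has a normal 2-complement if and only if, for every Klein four-subgroup U ≤ S, the normalizer N_X(U) is generated by C_X(U) and N_S(U). -/
theorem result {X : Type*} [Group X] [Finite X] (S : Sylow 2 X) (m : ℕ) (hm : 2 ≤ m) (eS : (S : Subgroup X) ≃* DihedralGroup m) : Cfsg.HasNormalPComplement 2 X ↔ ∀ U : Subgroup X, U ≤ S → IsKleinFour U → Subgroup.normalizer (U : Set X) = Subgroup.centralizer (U : Set X) ⊔ ((S : Subgroup X) ⊓ Subgroup.normalizer (U : Set X)) := by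
  have : NeZero m := ⟨by omega⟩
  rw [← Lib.Helper11Frobenius.hasNPC_iff]
  constructor
  · rintro ⟨K, hK, h1, k, h2⟩ U hUS _
    have hc := Lib.Helper11Frobenius.isComplement'_of_npc K h1 k h2 S
    apply le_antisymm
    · intro n hn
      have hn' : n ∈ (((S : Subgroup X) ⊔ K : Subgroup X) : Set X) := by
        rw [hc.symm.sup_eq_top]; trivial
      rw [Subgroup.mul_normal] at hn'
      obtain ⟨s, hs, c, hc', rfl⟩ := hn'
      have hcC : c ∈ Subgroup.centralizer (U : Set X) := by
        intro u hu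
        have h3 : s * c * u * (s * c)⁻¹ ∈ (S : Subgroup X) :=
          hUS ((Subgroup.mem_normalizer_iff.mp hn u).mp hu)
        have h4 : c * u * c⁻¹ ∈ (S : Subgroup X) := by
          have : c * u * c⁻¹ = s⁻¹ * (s * c * u * (s * c)⁻¹) * s := by group
          rw [this]
          exact mul_mem (mul_mem (inv_mem hs) h3) hs
        have h5 : c * u * c⁻¹ * u⁻¹ ∈ (S : Subgroup X) := mul_mem h4 (inv_mem (hUS hu))
        have h6 : c * u * c⁻¹ * u⁻¹ ∈ K := by
          have : c * u * c⁻¹ * u⁻¹ = c * (u * c⁻¹ * u⁻¹) := by group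
          rw [this]
          exact mul_mem hc' (hK.conj_mem _ (inv_mem hc') u)
        have h7 : c * u * c⁻¹ * u⁻¹ = 1 := by
          have := hc.disjoint.le_bot ⟨h6, h5⟩
          exact this
        calc u * c = (c * u * c⁻¹ * u⁻¹)⁻¹ * (c * u) := by group
          _ = c * u := by rw [h7]; simp
      have hsN : s ∈ Subgroup.normalizer (U : Set X) := by
        have : s = s * c * c⁻¹ := by group
        rw [this]
        exact mul_mem hn (inv_mem (Subgroup.centralizer_le_normalizer _ hcC))
      exact mul_mem (Subgroup.mem_sup_right ⟨hs, hsN⟩) (Subgroup.mem_sup_left hcC)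
    · exact sup_le (Subgroup.centralizer_le_normalizer _) inf_le_right
  · intro h
    apply Lib.Helper11Frobenius.frobenius
    apply Lib.Helper11Frobenius.frobCond_of_sylow S
    intro Q hQS g hg hgp
    have hodd : Odd (orderOf g) := Nat.coprime_two_left.mp hgp.symm
    rcases Lib.Helper11OddAut.dihedral_sylow_aut S m eS (MonoidHom.id X) Function.injective_id Q
      (S.isPGroup'.to_le hQS) g hodd hg with h1 | h1
    · exact h1
    · exact mem_centralizer_of_normalizer_eq_sup Q _ (S.isPGroup'.to_le inf_le_left) inf_le_right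
        (h Q hQS h1) g hg hgp

end Cfsg.Agent.S1254
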