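import Cfsg.Statements.S1313
-- import your own Cfsg.Agent.* helpers here
import Cfsg.Agent.Lib.Helper28More

set_option autoImplicit false
open Cfsg

namespace Cfsg.Agent.S1313

open Subgroup Cfsg.Agent.Lib.Helper28Comp Cfsg.Agent.Lib.Helper28Fitting Cfsg.Agent.Lib.Helper28Layer
  Cfsg.Agent.Lib.Helper28Util Cfsg.Agent.Lib.Helper28More

theorem card_mulAut_le (F : Type*) [Group F] [Finite F] :
    Nat.card (MulAut F) ≤ Nat.factorial (Nat.card F - 1) := by
  classical
  have : Fintype F := Fintype.ofFinite F
  let r : MulAut F → Equiv.Perm {x : F // x ≠ 1} := fun f =>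
    f.toEquiv.subtypeEquiv (fun a => by simp)
  have hr : Function.Injective r := by
    intro f g hfg
    ext x
    by_cases hx : x = 1
    · rw [hx, map_one, map_one]
    · have := congrArg (fun e : Equiv.Perm {x : F // x ≠ 1} => ((e ⟨x, hx⟩ : {x : F // x ≠ 1}) : F)) hfg
      simpa [r] using this
  have h1 := Nat.card_le_card_of_injective r hr
  have h2 : Nat.card {x : F // x ≠ 1} = Nat.card F - 1 := by
    rw [Nat.card_eq_fintype_card, Nat.card_eq_fintype_card]
    exact Set.card_ne_eq (1 : F)
  rwa [Nat.card_perm, h2] at h1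


/-- For a finite group H, |H| ≤ |F*(H)|!. -/
theorem result {H : Type*} [Group H] [Finite H] : Nat.card H ≤ Nat.factorial (Nat.card ↥(Cfsg.generalizedFittingSubgroup H)) := by
  have hFn : (Cfsg.generalizedFittingSubgroup H).Normal := by
    rw [gfit_eq]; exact normIn_top_iff.mp (gfitIn_normIn _)
  set F := Cfsg.generalizedFittingSubgroup H with hF
  let φ : H →* MulAut F := MulAut.conjNormal
  have hker : φ.ker ≤ F := by
    refine le_trans ?_ (centralizer_gfit_le (G := H))
    intro h hh
    rw [mem_centralizer_iff]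
    intro x hx
    have h1 : φ h ⟨x, hx⟩ = ⟨x, hx⟩ := by
      rw [MonoidHom.mem_ker.mp hh]; rfl
    have h2 : h * x * h⁻¹ = x := by
      have := congrArg Subtype.val h1
      simpa [φ, MulAut.conjNormal_apply] using this
    calc x * h = (h * x * h⁻¹) * h := by rw [h2]
      _ = h * x := by group
  have h1 : Nat.card φ.ker * Nat.card φ.range = Nat.card H := by
    rw [← Subgroup.index_ker]; exact Subgroup.card_mul_index _
  have h2 : Nat.card φ.ker ≤ Nat.card F := Subgroup.card_le_of_le hker
  have h3 : Nat.card φ.range ≤ Nat.factorial (Nat.card F - 1) :=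
    (Nat.card_le_card_of_injective _ Subtype.val_injective).trans (card_mulAut_le F)
  have hpos : 0 < Nat.card F := Nat.card_pos
  calc Nat.card H = Nat.card φ.ker * Nat.card φ.range := h1.symm
    _ ≤ Nat.card F * Nat.factorial (Nat.card F - 1) := Nat.mul_le_mul h2 h3
    _ = Nat.factorial (Nat.card F) := Nat.mul_factorial_pred hpos.ne'

end Cfsg.Agent.S1313
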