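import Cfsg.Statements.S1393
import Cfsg.Agent.Lib.Helper30Trans

set_option autoImplicit false
open Cfsg

namespace Cfsg.Agent.S1393

open Subgroup Cfsg.Agent.Lib.Helper30Trans

/-- Let G be a minimal simple group of odd order, A a subgroup satisfying the transitivity hypothesis whose centre has rank at least 3, K = O_{π(A)'}(C_G(A)), and q a prime not dividing the order of A. Then any two maximal A-invariant q-subgroups of G are conjugate by an element of K. -/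
theorem result {G : Type*} [Group G] [Finite G] (hG : Cfsg.IsMinSimpleOddOrder G)
    (A : Subgroup G) (hA : Cfsg.TransitivityHypothesis A) (hZ : ¬ Cfsg.RankLE 2 ↥(A ⊓ Subgroup.centralizer (A : Set G)))
    (q : ℕ) (hq : q.Prime) (hqA : ¬ q ∣ Nat.card A) :
    ∀ Q₁ ∈ Cfsg.maxInvSubgroups ⊤ A {q}, ∀ Q₂ ∈ Cfsg.maxInvSubgroups ⊤ A {q}, ∃ k ∈ Cfsg.piCoreOf (Cfsg.primesNotDvd (Nat.card A)) (Subgroup.centralizer (A : Set G)), Q₂ = Q₁.map (MulAut.conj k).toMonoidHom := by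
  have : Fact q.Prime := ⟨hq⟩
  intro Q₁ h₁ Q₂ h₂
  unfold RankLE at hZ
  push Not at hZ
  obtain ⟨p, hp, hpr⟩ := hZ
  have : Fact p.Prime := ⟨hp⟩
  obtain ⟨B, hBZ, hBc, hBp, hBcard⟩ := exists_elemAb_of_not_pRankLE hpr
  have hBA : B ≤ A := le_trans hBZ inf_le_left
  have hBne : B ≠ ⊥ := by
    intro h
    rw [h, card_bot] at hBcard
    have := Nat.one_le_pow 2 p hp.pos
    omega
  have hpA : p ∣ Nat.card A := dvd_card_of_exponent hp hBA hBp hBne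
  have hpq : p ≠ q := fun h => hqA (h ▸ hpA)
  have hnd : ∀ Q ∈ maxInvSubgroups ⊤ A {q}, ¬ p ∣ Nat.card Q := by
    intro Q hQ hdvd
    exact hpq (hQ.1.2.1 p hp hdvd)
  -- the trivial case
  by_cases hb₁ : Q₁ = ⊥
  · have : Q₂ = Q₁ := h₁.2 Q₂ h₂.1 (hb₁ ▸ bot_le)
    exact ⟨1, one_mem _, by rw [this]; exact (cj_one Q₁).symm⟩
  by_cases hb₂ : Q₂ = ⊥
  · have : Q₁ = Q₂ := h₂.2 Q₁ h₁.1 (hb₂ ▸ bot_le)
    exact ⟨1, one_mem _, by rw [this]; exact (cj_one Q₂).symm⟩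
  obtain ⟨B₁, hB₁, hi₁, hc₁⟩ := exists_hyperplane hBc hBp (hnd Q₁ h₁) (le_trans hBA h₁.1.2.2) hb₁
  obtain ⟨B₂, hB₂, hi₂, hc₂⟩ := exists_hyperplane hBc hBp (hnd Q₂ h₂) (le_trans hBA h₂.1.2.2) hb₂
  have hinf : B₁ ⊓ B₂ ≠ ⊥ := by
    intro h
    have h1 := relIndex_inf_le (H := B₁) (K := B₂) (L := B)
    rw [h, relIndex_bot_left] at h1
    have h2 : B₁.relIndex B * B₂.relIndex B ≤ p * p := Nat.mul_le_mul hi₁ hi₂
    have h3 : p ^ 2 = p * p := sq p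
    omega
  obtain ⟨b, hb, hb1⟩ := exists_ne_one_of_ne_bot' hinf
  obtain ⟨hbB₁, hbB₂⟩ := Subgroup.mem_inf.mp hb
  have hbZ : b ∈ centralizer (A : Set G) := (hBZ (hB₁ hbB₁)).2
  have hAH : A ≤ centralizer ({b} : Set G) := by
    intro a ha
    rw [mem_centralizer_singleton_iff]
    exact (mem_centralizer_iff.mp hbZ) a ha
  have hle : ∀ (B' Q : Subgroup G), b ∈ B' →
      Q ⊓ centralizer (B' : Set G) ≤ centralizer ({b} : Set G) ⊓ Q := by
    intro B' Q hbB'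
    refine le_inf (le_trans inf_le_right (centralizer_le ?_)) inf_le_left
    intro x hx
    rw [Set.mem_singleton_iff.mp hx]; exact hbB'
  exact rel_of_common_overgroup hG hA hqA h₁ h₂ (centralizer_singleton_ne_top hG hb1) hAH
    (ne_bot_of_le_ne_bot hc₁ (hle B₁ Q₁ hbB₁)) (ne_bot_of_le_ne_bot hc₂ (hle B₂ Q₂ hbB₂))

end Cfsg.Agent.S1393
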