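import Cfsg.Statements.S1396
import Cfsg.Agent.Lib.Helper30TransHyp

set_option autoImplicit false
open Cfsg

namespace Cfsg.Agent.S1396

open Subgroup Cfsg.Agent.Lib.Helper30Thompson Cfsg.Agent.Lib.Helper30Trans
open Cfsg.Agent.Lib.Helper30Constrained Cfsg.Agent.Lib.Helper30TransHyp

/-- Let G be a minimal simple group of odd order, p a prime dividing the order of G and A an abelian p-subgroup. Suppose either (1) A consists exactly of the elements x of C_G(A) with x^p = 1, and every proper subgroup of G has p-length at most one, or (2) A is normal and self-centralizing in some Sylow p-subgroup of G and has rank at least 2. Then A satisfies the transitivity hypothesis. -/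
theorem result {G : Type*} [Group G] [Finite G] (hG : Cfsg.IsMinSimpleOddOrder G)
    (p : ℕ) [Fact p.Prime] (hp : p ∣ Nat.card G) (A : Subgroup G) (hAp : IsPGroup p A) (hAc : IsMulCommutative A)
    (h : (∀ x ∈ Subgroup.centralizer (A : Set G), x ^ p = 1 ↔ x ∈ A) ∧ (∀ H : Subgroup G, H ≠ ⊤ → Cfsg.PLengthLE p 1 H) ∨
      ∃ P : Sylow p G, Cfsg.IsSCN (P : Subgroup G) A ∧ ¬ Cfsg.PRankLE p 1 A) :
    Cfsg.TransitivityHypothesis A := by
  have hpp : p.Prime := Fact.out
  have hp2 : p ≠ 2 := by
    rintro rfl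
    exact (Nat.not_even_iff_odd.mpr hG.1) (even_iff_two_dvd.mpr hp)
  have hAtop : A ≠ ⊤ := by
    rintro rfl
    apply hG.2.2.1
    refine ⟨⟨fun x y => ?_⟩⟩
    exact congrArg Subtype.val (hAc.is_comm.comm ⟨x, mem_top x⟩ ⟨y, mem_top y⟩)
  have hcon : ∀ X : Subgroup G, X ≠ ⊤ → IsPConstrained p X := by
    intro X hX
    have := hG.2.2.2 X hX
    exact isPConstrained_of_isSolvable p
  rcases h with ⟨h1, h2⟩ | ⟨P, hscn, hrk⟩
  · have hA1 : A ≠ ⊥ := by
      rintro rfl
      obtain ⟨x, hx⟩ := exists_prime_orderOf_dvd_card' p hp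
      have hx1 : x ^ p = 1 := hx ▸ pow_orderOf_eq_one x
      have hxc : x ∈ centralizer (((⊥ : Subgroup G) : Subgroup G) : Set G) := by
        rw [mem_centralizer_iff]
        intro y hy
        rw [mem_bot.mp hy]; simp
      have := mem_bot.mp ((h1 x hxc).mp hx1)
      rw [this, orderOf_one] at hx
      exact hpp.one_lt.ne hx
    apply transHyp_of_key hAp hA1 hAtop
    intro X hX hAX K hKX hK hAK
    exact key_lemma_plength_ambient hp2 (hcon X hX) (h2 X hX) hAX hAp
      (fun x hx hxp => (h1 x hx).mp hxp) hKX hK hAK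
  · have hA1 : A ≠ ⊥ := by
      rintro rfl
      apply hrk
      intro B _ _
      have : Nat.card B = 1 := by
        have : Subsingleton (⊥ : Subgroup G) := inferInstance
        exact Nat.card_eq_one_iff_unique.mpr ⟨inferInstance, ⟨1⟩⟩
      rw [this]
      exact Nat.one_le_pow _ _ hpp.pos
    apply transHyp_of_key hAp hA1 hAtop
    intro X hX hAX K hKX hK hAK
    exact key_lemma_ambient (hcon X hX) (fun h => absurd h hp2) hAX hAp
      (scn_full P hscn.2.1 hscn.2.2) hKX hK hAK

end Cfsg.Agent.S1396
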