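import Mathlib
import Cfsg.Statements.S1445
import Cfsg.Agent.S3769
import Cfsg.Agent.Lib.Helper30Bender
import Cfsg.Agent.Lib.Helper30Coprime
import Cfsg.Agent.Lib.Helper27Coprime
import Cfsg.Agent.Lib.Helper1Fitting
import Cfsg.Agent.Lib.Helper1SylowInv
import Cfsg.Agent.Lib.Helper53Basic

set_option autoImplicit false
open Cfsg

namespace Cfsg.Agent.S1445
open Subgroup
open scoped commutatorElement

/-- the set generating the "Frattini-like" subgroup -/
def fset {G : Type*} [Group G] (l : ℕ) (L : Subgroup G) : Set G :=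
  {z | (∃ x ∈ L, z = x ^ l) ∨ (∃ x ∈ L, ∃ y ∈ L, z = x * y * x⁻¹ * y⁻¹)}

theorem exists_phi {G : Type*} [Group G] [Finite G] (l : ℕ) [Fact l.Prime] (L : Subgroup G) [hLn : L.Normal]
    (hL : IsPGroup l L) (hne : L ≠ ⊥) :
    ∃ N : Subgroup G, N.Normal ∧ N ≤ L ∧ Nat.card N < Nat.card L ∧ (∀ x ∈ L, x ^ l ∈ N) ∧
      ∀ x ∈ L, ∀ y ∈ L, x * y * x⁻¹ * y⁻¹ ∈ N := by
  haveI : Nontrivial L := (Subgroup.nontrivial_iff_ne_bot L).mpr hne
  obtain ⟨M, hM, hMp, hMc⟩ := Cfsg.Agent.Lib.Helper30Coprime.exists_proper_of_pGroup l hL this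
  have hconj : Group.conjugatesOfSet (fset l L) ⊆ fset l L := by
    intro z hz
    rw [Group.mem_conjugatesOfSet_iff] at hz
    obtain ⟨a, ha, hc⟩ := hz
    obtain ⟨g, hg⟩ := isConj_iff.mp hc
    rcases ha with ⟨x, hx, rfl⟩ | ⟨x, hx, y, hy, rfl⟩
    · left
      refine ⟨g * x * g⁻¹, hLn.conj_mem x hx g, ?_⟩
      rw [← hg, conj_pow]
    · right
      refine ⟨g * x * g⁻¹, hLn.conj_mem x hx g, g * y * g⁻¹, hLn.conj_mem y hy g, ?_⟩
      rw [← hg]; group
  have hsub : fset l L ⊆ (M.map L.subtype : Subgroup G) := by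
    intro z hz
    rcases hz with ⟨x, hx, rfl⟩ | ⟨x, hx, y, hy, rfl⟩
    · exact ⟨⟨x, hx⟩ ^ l, hMp _, rfl⟩
    · exact ⟨_, hMc ⟨x, hx⟩ ⟨y, hy⟩, rfl⟩
  have hle : normalClosure (fset l L) ≤ M.map L.subtype := by
    rw [normalClosure, closure_le]
    exact hconj.trans hsub
  have hlt : M.map L.subtype < L := by
    refine lt_of_le_of_ne (map_subtype_le _) ?_
    intro h
    apply hM
    rw [eq_top_iff]
    intro x _
    have : (x : G) ∈ M.map L.subtype := by rw [h]; exact x.2
    obtain ⟨y, hy, hyx⟩ := this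
    have : y = x := Subtype.ext hyx
    rwa [← this]
  refine ⟨normalClosure (fset l L), inferInstance, hle.trans hlt.le, ?_, ?_, ?_⟩
  · exact lt_of_le_of_lt (Subgroup.card_le_of_le hle) (Cfsg.Agent.Lib.Helper30Coprime.card_lt_of_lt hlt)
  · intro x hx
    exact subset_normalClosure (Or.inl ⟨x, hx, rfl⟩)
  · intro x hx y hy
    exact subset_normalClosure (Or.inr ⟨x, hx, y, hy, rfl⟩)


theorem cent_lgroup {G : Type*} [Group G] [Finite G] [Group.IsSolvable G] (hodd : Odd (Nat.card G))
    {l p : ℕ} [hl : Fact l.Prime] [hp : Fact p.Prime] (P R : Subgroup G) (hP : IsPGroup p P)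
    (hR : (Nat.card R).Prime) (hRP : R ≤ normalizer (P : Set G)) (hlp : l ≠ p)
    (hPR : (Nat.card P).Coprime (Nat.card R)) :
    ∀ n : ℕ, ∀ L : Subgroup G, L.Normal → Nat.card L ≤ n → IsPGroup l L →
      (Nat.card L).Coprime (Nat.card R) → L ⊓ centralizer (R : Set G) = ⊥ →
      ⁅R, P⁆ ≤ centralizer (L : Set G) := by
  intro n
  induction n with
  | zero =>
    intro L _ hc
    exact absurd hc (by have := Nat.card_pos (α := L); omega)
  | succ n ih =>
    intro L hLn hc hL hLR hCL
    by_cases hne : L = ⊥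
    · subst hne
      intro d _
      rw [mem_centralizer_iff]
      intro x hx
      have : x = 1 := hx
      rw [this, one_mul, mul_one]
    obtain ⟨N, hNn, hNL, hNc, hNp, hNcomm⟩ := exists_phi l L hL hne
    have hNl : IsPGroup l N := hL.to_le hNL
    have hNR : (Nat.card N).Coprime (Nat.card R) :=
      Nat.Coprime.coprime_dvd_left (Subgroup.card_dvd_of_le hNL) hLR
    have ihN := ih N hNn (by omega) hNl hNR
      (by rw [eq_bot_iff, ← hCL]; exact inf_le_inf_right _ hNL)
    have hDP : ⁅R, P⁆ ≤ P := by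
      rw [commutator_comm]
      exact commutator_le.mpr (fun x hx a ha => by
        have h1 : a * x⁻¹ * a⁻¹ ∈ P := by
          have := (mem_normalizer_iff.mp (hRP ha) x⁻¹).mp (P.inv_mem hx)
          exact this
        have : ⁅x, a⁆ = x * (a * x⁻¹ * a⁻¹) := by rw [commutatorElement_def]; group
        rw [this]
        exact P.mul_mem hx h1)
    -- l divides card L, so l ≠ r
    have hlL : l ∣ Nat.card L := by
      obtain ⟨k, hk⟩ := hL.exists_card_eq
      rw [hk]
      rcases k with _ | k
      · exfalso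
        apply hne
        rw [pow_zero] at hk
        exact (Subgroup.card_eq_one).mp hk
      · exact dvd_pow_self l (by omega)
    have hlr : ¬ l ∣ Nat.card R := by
      intro h
      have := Nat.Coprime.eq_one_of_dvd (Nat.Coprime.coprime_dvd_left hlL hLR) h
      exact hl.out.one_lt.ne' this
    have hlP : ¬ l ∣ Nat.card P := by
      intro h
      obtain ⟨k, hk⟩ := hP.exists_card_eq
      rw [hk] at h
      exact hlp ((Nat.prime_dvd_prime_iff_eq hl.out hp.out).mp (hl.out.dvd_of_dvd_pow h))
    set π := QuotientGroup.mk' N with hπ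
    have hker : π.ker = N := QuotientGroup.ker_mk' N
    have hcardR : Nat.card (R.map π) = Nat.card R := by
      have hd : Nat.card (R.map π) ∣ Nat.card R := Subgroup.card_map_dvd R π
      rcases (Nat.dvd_prime hR).mp hd with h1 | h1
      · exfalso
        have hb : R.map π = ⊥ := (Subgroup.card_eq_one).mp h1
        have hRN : R ≤ N := by
          rw [← hker]
          exact (Subgroup.map_eq_bot_iff R).mp hb
        have h2 : Nat.card R ∣ Nat.card N := Subgroup.card_dvd_of_le hRN
        have := Nat.Coprime.eq_one_of_dvd hNR.symm h2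
        exact hR.one_lt.ne' this
      · exact h1
    have hcop' : (Nat.card (P.map π)).Coprime (Nat.card (R.map π)) := by
      rw [hcardR]
      exact Nat.Coprime.coprime_dvd_left (Subgroup.card_map_dvd P π) hPR
    have hnorm' : R.map π ≤ normalizer ((P.map π : Subgroup (G ⧸ N)) : Set (G ⧸ N)) :=
      (Subgroup.map_mono hRP).trans (Subgroup.le_normalizer_map π)
    have key := Cfsg.Agent.S3769.result (X := G ⧸ N) (P.map π ⊔ R.map π) inferInstance
      (Odd.of_dvd_nat hodd ((Subgroup.card_subgroup_dvd_card _).trans (Subgroup.card_quotient_dvd_card N)))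
      (L.map π) hl.out
      ⟨⟨⟨by
        rintro ⟨_, x, hx, rfl⟩ ⟨_, y, hy, rfl⟩
        apply Subtype.ext
        show π x * π y = π y * π x
        rw [← map_mul, ← map_mul]
        apply (QuotientGroup.eq).mpr
        have := hNcomm y⁻¹ (L.inv_mem hy) x⁻¹ (L.inv_mem hx)
        convert this using 1
        group⟩⟩, by
        rintro _ ⟨x, hx, rfl⟩
        rw [← map_pow]
        exact (QuotientGroup.eq_one_iff _).mpr (hNp x hx)⟩
      (by
        intro h
        have h1 := h.trans (Cfsg.Agent.Lib.Helper27Core.card_sup_dvd hnorm')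
        rcases (Nat.Prime.dvd_mul hl.out).mp h1 with h2 | h2
        · exact hlP (h2.trans (Subgroup.card_map_dvd P π))
        · rw [hcardR] at h2; exact hlr h2)
      (by
        have : (L.map π).Normal := hLn.map π (QuotientGroup.mk'_surjective N)
        rw [normalizer_eq_top]
        exact le_top)
      (P.map π) (R.map π) le_sup_left (sup_le le_normalizer hnorm')
      (by
        rw [Cfsg.Agent.Lib.Helper27Core.relIndex_sup_left' hnorm']
        exact Nat.Coprime.coprime_dvd_right (Subgroup.relIndex_dvd_card _ _) hcop')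
      le_sup_right (by rw [hcardR]; exact hR)
      (Subgroup.disjoint_of_coprime_natCard hcop').eq_bot rfl
      (by
        rw [eq_bot_iff]
        rintro _ ⟨⟨x, hx, rfl⟩, hc⟩
        rw [mem_bot]
        have hRr : IsPGroup (Nat.card R) R := IsPGroup.of_card (n := 1) (by rw [pow_one])
        haveI : Fact (Nat.card R).Prime := ⟨hR⟩
        obtain ⟨m, hm, hfix⟩ := Cfsg.Agent.Lib.Helper27Coprime.exists_fixed_in_coset (p := Nat.card R)
          (A := R) (N := N) hRr
          (by
            intro h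
            exact hR.one_lt.ne' (Nat.Coprime.eq_one_of_dvd hNR.symm h))
          (by rw [normalizer_eq_top]; exact le_top) x
          (by
            intro a ha
            have h1 := (mem_centralizer_iff.mp hc) (π a) ⟨a, ha, rfl⟩
            apply (QuotientGroup.eq).mp
            show π x = π (a * x * a⁻¹)
            rw [map_mul, map_mul, h1, map_inv, mul_inv_cancel_right])
        have hxm : x * m ∈ L ⊓ centralizer (R : Set G) := by
          refine ⟨L.mul_mem hx (hNL hm), ?_⟩
          show x * m ∈ centralizer (R : Set G)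
          rw [mem_centralizer_iff]
          intro a ha
          have := hfix a ha
          calc a * (x * m) = a * (x * m) * a⁻¹ * a := by group
            _ = x * m * a := by rw [this]
        rw [hCL, mem_bot] at hxm
        apply (QuotientGroup.eq_one_iff _).mpr
        have : x = m⁻¹ := eq_inv_of_mul_eq_one_left hxm
        rw [this]
        exact N.inv_mem hm)
    rw [Cfsg.Agent.Lib.Helper30Coprime.le_centralizer_iff_conj]
    apply Cfsg.Agent.Lib.Helper30Coprime.centralizes_of_chain (N := N)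
    · exact Cfsg.Agent.Lib.Helper30Bender.coprime_card_of_isPGroup hlp.symm (hP.to_le hDP) hNl
    · exact Cfsg.Agent.Lib.Helper30Coprime.le_centralizer_iff_conj.mp ihN
    · intro d hd x hx
      have hd' : π d ∈ ⁅R.map π, P.map π⁆ := by
        rw [← Subgroup.map_commutator]
        exact ⟨d, hd, rfl⟩
      have h1 := (mem_centralizer_iff.mp (key hd')) (π x) ⟨x, hx, rfl⟩
      apply (QuotientGroup.eq).mp
      show π x = π (d * x * d⁻¹)
      rw [map_mul, map_mul, ← h1, map_inv, mul_inv_cancel_right]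


open Cfsg.Agent.Lib.Helper30Bender Cfsg.Agent.Lib.Helper1Basic in
theorem fittingOf_normal {G : Type*} [Group G] [Finite G] (H : Subgroup G) [hH : H.Normal] :
    (fittingOf H).Normal := by
  constructor
  intro x hx g
  have : (fittingOf H).map (MulAut.conj g).toMonoidHom ≤ fittingOf H := by
    apply le_fittingOf
    · rintro _ ⟨y, hy, rfl⟩
      exact hH.conj_mem y (fittingOf_le H hy) g
    · intro h hh
      have h1 : g⁻¹ * h * g ∈ normalizer ((fittingOf H : Subgroup G) : Set G) := by
        apply le_normalizer_fittingOf H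
        have := hH.conj_mem h hh g⁻¹
        rwa [inv_inv] at this
      have h2 := Subgroup.le_normalizer_map (MulAut.conj g).toMonoidHom
        (Subgroup.mem_map_of_mem (MulAut.conj g).toMonoidHom h1)
      convert h2 using 1
      simp [MulAut.conj_apply]
      group
    · haveI := fittingOf_isNilpotent H
      exact Group.nilpotent_of_surjective ((MulAut.conj g).toMonoidHom.subgroupMap (fittingOf H))
        (MonoidHom.subgroupMap_surjective _ _)
  exact this ⟨x, hx, rfl⟩

/-- `O_l(K)` in the ambient group -/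
def Ll {G : Type*} [Group G] (K : Subgroup G) (l : ℕ) : Subgroup G := (pCore l K).map K.subtype

theorem Ll_normal {G : Type*} [Group G] (K : Subgroup G) [K.Normal] (l : ℕ) : (Ll K l).Normal :=
  ConjAct.normal_of_characteristic_of_normal

theorem Ll_pgroup {G : Type*} [Group G] (K : Subgroup G) (l : ℕ) : IsPGroup l (Ll K l) :=
  (Cfsg.Agent.Lib.Helper1Fitting.pCore_isPGroup l).map _

theorem fittingOf_eq_iSup {G : Type*} [Group G] [Finite G] (K : Subgroup G) :
    fittingOf K = ⨆ l : Nat.Primes, Ll K l := by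
  unfold fittingOf Ll
  rw [Cfsg.Agent.Lib.Helper1Fitting.fitting_eq_iSup_pCore, Subgroup.map_iSup]

theorem Ll_le {G : Type*} [Group G] [Finite G] (K : Subgroup G) (l : Nat.Primes) :
    Ll K l ≤ fittingOf K := by
  rw [fittingOf_eq_iSup]
  exact le_iSup (fun l : Nat.Primes => Ll K l) l


open Cfsg.Agent.Lib.Helper30Bender Cfsg.Agent.Lib.Helper1Basic in
theorem lemB {G : Type*} [Group G] [Finite G] [Group.IsSolvable G] (hodd : Odd (Nat.card G))
    (K R : Subgroup G) [hK : K.Normal] (hR : (Nat.card R).Prime)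
    (hcop : (Nat.card K).Coprime (Nat.card R))
    (hF : fittingOf K ⊓ centralizer (R : Set G) = ⊥)
    (p : ℕ) [hp : Fact p.Prime] (P1 : Subgroup G) [hP1 : P1.Normal] (hFP : fittingOf K ≤ P1)
    (hPK : P1 ≤ K) (k : ℕ) (hidx : (fittingOf K).relIndex P1 = p ^ k) :
    ∀ x ∈ P1, ∀ a ∈ R, a * x * a⁻¹ * x⁻¹ ∈ fittingOf K := by
  haveI hFn : (fittingOf K).Normal := fittingOf_normal K
  haveI hLn : ∀ l, (Ll K l).Normal := fun l => Ll_normal K l
  obtain ⟨P, hLP, hRP⟩ := Cfsg.Agent.Lib.Helper1SylowInv.exists_invariant_sylow_ge R P1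
    (by rw [normalizer_eq_top]; exact le_top)
    (Nat.Coprime.coprime_dvd_right (Subgroup.card_dvd_of_le hPK) hcop.symm)
    (Or.inl inferInstance) p (Ll K p) ((Ll_le K ⟨p, hp.out⟩).trans hFP) (Ll_pgroup K p)
    (by rw [normalizer_eq_top]; exact le_top)
  set P' : Subgroup G := (P : Subgroup P1).map P1.subtype with hP'
  have hP'p : IsPGroup p P' := P.2.map _
  have hP'P1 : P' ≤ P1 := map_subtype_le _
  have hP'R : (Nat.card P').Coprime (Nat.card R) :=
    Nat.Coprime.coprime_dvd_left (Subgroup.card_dvd_of_le (hP'P1.trans hPK)) hcop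
  have hD : ∀ l : Nat.Primes, (l : ℕ) ≠ p → ⁅R, P'⁆ ≤ centralizer (Ll K l : Set G) := by
    intro l hl
    haveI : Fact (l : ℕ).Prime := ⟨l.2⟩
    exact cent_lgroup hodd P' R hP'p hR hRP hl hP'R (Nat.card (Ll K l)) (Ll K l) (hLn l) le_rfl
      (Ll_pgroup K l)
      (Nat.Coprime.coprime_dvd_left (Subgroup.card_dvd_of_le ((Ll_le K l).trans (fittingOf_le K))) hcop)
      (by rw [eq_bot_iff, ← hF]; exact inf_le_inf_right _ (Ll_le K l))
  set CQ : Subgroup G := ⨅ (l : Nat.Primes) (_ : (l : ℕ) ≠ p), centralizer (Ll K l : Set G) with hCQ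
  haveI hCQn : CQ.Normal := by
    apply Subgroup.normal_iInf_normal
    intro l
    apply Subgroup.normal_iInf_normal
    intro _
    infer_instance
  set E : Subgroup G := P' ⊓ CQ with hE
  have hDE : ⁅R, P'⁆ ≤ E := by
    refine le_inf ?_ (le_iInf fun l => le_iInf fun hl => hD l hl)
    rw [commutator_comm]
    exact commutator_le.mpr (fun x hx a ha => by
      have h1 : a * x⁻¹ * a⁻¹ ∈ P' := conj_mem_of_le_normalizer hRP ha (P'.inv_mem hx)
      have : ⁅x, a⁆ = x * (a * x⁻¹ * a⁻¹) := by rw [commutatorElement_def]; group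
      rw [this]
      exact P'.mul_mem hx h1)
  have hP1le : P1 ≤ fittingOf K ⊔ P' := by
    rw [← Subgroup.relIndex_eq_one]
    have h1 : (fittingOf K ⊔ P').relIndex P1 ∣ p ^ k := by
      rw [← hidx]; exact Subgroup.relIndex_dvd_of_le_left P1 le_sup_left
    have h2 : (fittingOf K ⊔ P').relIndex P1 ∣ (P : Subgroup P1).index := by
      have h3 : P'.relIndex P1 = (P : Subgroup P1).index := by
        rw [Subgroup.relIndex, hP']
        congr 1
        ext y
        rw [mem_subgroupOf]
        constructor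
        · rintro ⟨z, hz, hzy⟩
          have : z = y := Subtype.ext hzy
          rwa [← this]
        · intro hy
          exact ⟨y, hy, rfl⟩
      rw [← h3]; exact Subgroup.relIndex_dvd_of_le_left P1 le_sup_right
    have h4 : ¬ p ∣ (P : Subgroup P1).index := P.not_dvd_index
    obtain ⟨j, _, hj⟩ := (Nat.dvd_prime_pow hp.out).mp h1
    rcases j with _ | j
    · rw [hj, pow_zero]
    · exfalso
      apply h4
      refine dvd_trans ?_ h2
      rw [hj]
      exact dvd_pow_self p (by omega)
  have hP'E : P' ≤ normalizer (E : Set G) := by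
    apply le_normalizer_of_forall_conj_mem
    intro y hy x hx
    exact ⟨P'.mul_mem (P'.mul_mem hy hx.1) (P'.inv_mem hy), hCQn.conj_mem x hx.2 y⟩
  have hFE : fittingOf K ≤ normalizer (E : Set G) := by
    rw [fittingOf_eq_iSup]
    apply iSup_le
    intro l
    by_cases hl : (l : ℕ) = p
    · rw [hl]; exact hLP.trans hP'E
    · have h1 : E ≤ centralizer (Ll K l : Set G) :=
        inf_le_right.trans ((iInf_le _ l).trans (iInf_le _ hl))
      have h2 : Ll K l ≤ centralizer (E : Set G) := Subgroup.le_centralizer_iff.mp h1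
      exact h2.trans (Subgroup.centralizer_le_normalizer _)
  have hEF : E ≤ fittingOf K := by
    have h1 : E ≤ fittingOf P1 :=
      le_fittingOf (inf_le_left.trans hP'P1) (hP1le.trans (sup_le hFE hP'E))
        (hP'p.to_le inf_le_left).isNilpotent
    haveI := fittingOf_normal P1
    have h2 : fittingOf P1 ≤ fittingOf K :=
      le_fittingOf ((fittingOf_le P1).trans hPK) (by rw [normalizer_eq_top]; exact le_top)
        (fittingOf_isNilpotent P1)
    exact h1.trans h2
  set π := QuotientGroup.mk' (fittingOf K) with hπ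
  have hW : fittingOf K ⊔ P' ≤ (centralizer ((R.map π : Subgroup _) : Set _)).comap π := by
    apply sup_le
    · intro x hx
      rw [mem_comap]
      have : π x = 1 := (QuotientGroup.eq_one_iff x).mpr hx
      rw [this]
      exact one_mem _
    · intro x hx
      rw [mem_comap, mem_centralizer_iff]
      rintro _ ⟨a, ha, rfl⟩
      have h1 : ⁅a, x⁆ ∈ fittingOf K := hEF (hDE (commutator_mem_commutator ha hx))
      have h2 : π ⁅a, x⁆ = 1 := (QuotientGroup.eq_one_iff _).mpr h1
      rw [commutatorElement_def, map_mul, map_mul, map_mul, map_inv, map_inv] at h2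
      calc π a * π x = (π a * π x * (π a)⁻¹ * (π x)⁻¹) * π x * π a := by group
        _ = π x * π a := by rw [h2, one_mul]
  intro x hx a ha
  have h1 := hW (hP1le hx)
  rw [mem_comap, mem_centralizer_iff] at h1
  have h2 := h1 (π a) ⟨a, ha, rfl⟩
  apply (QuotientGroup.eq_one_iff _).mp
  show π (a * x * a⁻¹ * x⁻¹) = 1
  rw [map_mul, map_mul, map_mul, map_inv, map_inv, h2]
  group


open Cfsg.Agent.Lib.Helper30Bender Cfsg.Agent.Lib.Helper1Basic in
theorem main0 {G : Type*} [Group G] [Finite G] [Group.IsSolvable G] (hodd : Odd (Nat.card G))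
    (K R : Subgroup G) [hK : K.Normal] (hR : (Nat.card R).Prime)
    (hcop : (Nat.card K).Coprime (Nat.card R))
    (hF : fittingOf K ⊓ centralizer (R : Set G) = ⊥) :
    ∀ x ∈ K, ∀ a ∈ R, a * x * a⁻¹ * x⁻¹ ∈ fittingOf K := by
  haveI hFn : (fittingOf K).Normal := fittingOf_normal K
  set π := QuotientGroup.mk' (fittingOf K) with hπ
  have hsurj : Function.Surjective π := QuotientGroup.mk'_surjective _
  have hker : π.ker = fittingOf K := QuotientGroup.ker_mk' _
  set Kb := K.map π with hKb
  set Rb := R.map π with hRb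
  haveI hKbn : Kb.Normal := hK.map π hsurj
  have hb : ∀ p : Nat.Primes, Ll Kb p ≤ centralizer (Rb : Set _) := by
    intro p
    haveI : Fact (p : ℕ).Prime := ⟨p.2⟩
    haveI hLn : (Ll Kb p).Normal := Ll_normal Kb p
    set P1 := (Ll Kb p).comap π with hP1
    haveI : P1.Normal := hLn.comap π
    have h1 : fittingOf K ≤ P1 := by rw [← hker]; exact Subgroup.ker_le_comap π _
    have h2 : P1 ≤ K := by
      have : P1 ≤ (K.map π).comap π := Subgroup.comap_mono (map_subtype_le _)
      rw [Subgroup.comap_map_eq, hker, sup_eq_left.mpr (fittingOf_le K)] at this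
      exact this
    obtain ⟨k, hk⟩ := (Ll_pgroup Kb p).exists_card_eq
    have h3 : (fittingOf K).relIndex P1 = (p : ℕ) ^ k := by
      have e1 : π.ker.relIndex P1 = Nat.card (P1.map π) := Subgroup.relIndex_ker (K := P1) π
      rw [hker, hP1, Subgroup.map_comap_eq_self_of_surjective hsurj, hk] at e1
      exact e1
    have h4 := lemB hodd K R hR hcop hF p P1 h1 h2 k h3
    intro y hy
    obtain ⟨x, rfl⟩ := hsurj y
    rw [mem_centralizer_iff]
    rintro _ ⟨a, ha, rfl⟩
    have h5 : π (a * x * a⁻¹ * x⁻¹) = 1 := (QuotientGroup.eq_one_iff _).mpr (h4 x hy a ha)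
    rw [map_mul, map_mul, map_mul, map_inv, map_inv] at h5
    calc π a * π x = (π a * π x * (π a)⁻¹ * (π x)⁻¹) * π x * π a := by group
      _ = π x * π a := by rw [h5, one_mul]
  have hc : fittingOf Kb ≤ centralizer (Rb : Set _) := by
    have e := fittingOf_eq_iSup Kb
    exact e.le.trans (iSup_le hb)
  haveI hFbn : (fittingOf Kb).Normal := fittingOf_normal Kb
  have hd1 : ⁅⁅Rb, fittingOf Kb⁆, Kb⁆ = ⊥ := by
    have : ⁅Rb, fittingOf Kb⁆ = ⊥ := by
      rw [commutator_comm, commutator_eq_bot_iff_le_centralizer]; exact hc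
    rw [this, commutator_bot_left]
  have hd2 : ⁅⁅fittingOf Kb, Kb⁆, Rb⁆ = ⊥ := by
    rw [commutator_eq_bot_iff_le_centralizer]
    exact (commutator_le_left _ _).trans hc
  have hd3 : ⁅⁅Kb, Rb⁆, fittingOf Kb⁆ = ⊥ := commutator_commutator_eq_bot_of_rotate hd1 hd2
  have hd4 : ⁅Kb, Rb⁆ ≤ fittingOf Kb := by
    refine le_trans (le_inf (commutator_le_left _ _) ?_)
      (inf_centralizer_fittingOf_le (H := Kb) inferInstance)
    exact commutator_eq_bot_iff_le_centralizer.mp hd3
  have hfin := Cfsg.Agent.Lib.Helper30Coprime.centralizes_of_chain (A := Rb) (P := Kb)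
    (N := fittingOf Kb)
    (Nat.Coprime.coprime_dvd_left (Subgroup.card_map_dvd R π)
      (Nat.Coprime.coprime_dvd_right
        ((Subgroup.card_dvd_of_le (fittingOf_le Kb)).trans (Subgroup.card_map_dvd K π)) hcop.symm))
    (by
      intro a ha n hn
      have := (mem_centralizer_iff.mp (hc hn)) a ha
      rw [this, mul_inv_cancel_right])
    (by
      intro a ha x hx
      have h1 : ⁅x⁻¹, a⁆ ∈ ⁅Kb, Rb⁆ := commutator_mem_commutator (Kb.inv_mem hx) ha
      have h2 : ⁅x⁻¹, a⁆ = x⁻¹ * (a * x * a⁻¹) := by rw [commutatorElement_def]; group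
      rw [← h2]
      exact hd4 h1)
  intro x hx a ha
  apply (QuotientGroup.eq_one_iff _).mp
  show π (a * x * a⁻¹ * x⁻¹) = 1
  have := hfin (π a) ⟨a, ha, rfl⟩ (π x) ⟨x, hx, rfl⟩
  rw [map_mul, map_mul, map_mul, map_inv, map_inv, this, mul_inv_cancel]

/-- Let G be a solvable group of odd order, K a normal subgroup and R a subgroup with G = KR and the orders of K and R coprime. Suppose K ∩ C_G(x) = K ∩ C_G(R) for every non-identity x ∈ R, and F(K) ∩ C_G(R) = 1. Then [K, R] is contained in the Fitting subgroup of K. -/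
theorem result {G : Type*} [Group G] [Finite G] [Group.IsSolvable G] (hodd : Odd (Nat.card G)) (K R : Subgroup G) [K.Normal] (hKR : K ⊔ R = ⊤) (hcop : (Nat.card K).Coprime (Nat.card R))
    (hprime : ∀ x ∈ R, x ≠ 1 → K ⊓ Subgroup.centralizer ({x} : Set G) = (K ⊓ Subgroup.centralizer (R : Set G)))
    (hF : Cfsg.fittingOf K ⊓ Subgroup.centralizer (R : Set G) = ⊥) :
    ⁅K, R⁆ ≤ Cfsg.fittingOf K := by
  haveI hFn : (fittingOf K).Normal := fittingOf_normal K
  by_cases hR1 : R = ⊥
  · rw [hR1, commutator_bot_right]; exact bot_le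
  have hcard : Nat.card R ≠ 1 := fun h => hR1 ((Subgroup.card_eq_one).mp h)
  obtain ⟨r, hr, hrd⟩ := Nat.exists_prime_and_dvd hcard
  haveI : Fact r.Prime := ⟨hr⟩
  obtain ⟨⟨x, hxR⟩, hx⟩ := exists_prime_orderOf_dvd_card' r hrd
  have hxo : orderOf x = r := by rw [← hx]; exact (Subgroup.orderOf_mk x hxR).symm
  have hx1 : x ≠ 1 := by
    intro h
    rw [h, orderOf_one] at hxo
    exact hr.one_lt.ne hxo
  set R0 := zpowers x with hR0
  have hR0R : R0 ≤ R := by rw [hR0, zpowers_le]; exact hxR
  have hR0c : Nat.card R0 = r := by rw [hR0, Nat.card_zpowers, hxo]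
  have hcop0 : (Nat.card K).Coprime (Nat.card R0) :=
    Nat.Coprime.coprime_dvd_right (Subgroup.card_dvd_of_le hR0R) hcop
  have hcx : ∀ y ∈ K, (∀ a ∈ R0, a * y * a⁻¹ = y) → y ∈ centralizer (R : Set G) := by
    intro y hy h
    have h1 : y ∈ K ⊓ centralizer ({x} : Set G) := by
      refine ⟨hy, ?_⟩
      show y ∈ centralizer ({x} : Set G)
      rw [mem_centralizer_singleton_iff]
      have := h x (mem_zpowers x)
      symm
      calc x * y = x * y * x⁻¹ * x := by group
        _ = y * x := by rw [this]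
    rw [hprime x hxR hx1] at h1
    exact h1.2
  have hF0 : fittingOf K ⊓ centralizer (R0 : Set G) = ⊥ := by
    rw [eq_bot_iff, ← hF]
    intro y hy
    refine ⟨hy.1, hcx y (Cfsg.Agent.Lib.Helper30Bender.fittingOf_le K hy.1) ?_⟩
    intro a ha
    have := (mem_centralizer_iff.mp hy.2) a ha
    rw [this, mul_inv_cancel_right]
  have hm := main0 hodd K R0 (by rw [hR0c]; exact hr) hcop0 hF0
  rw [commutator_le]
  intro k hk ρ hρ
  obtain ⟨n, hn, hfix⟩ := Cfsg.Agent.Lib.Helper27Coprime.exists_fixed_in_coset (p := r)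
    (A := R0) (N := fittingOf K) (IsPGroup.of_card (n := 1) (by rw [pow_one, hR0c]))
    (by
      intro h
      have h1 : r ∣ Nat.card K :=
        h.trans (Subgroup.card_dvd_of_le (Cfsg.Agent.Lib.Helper30Bender.fittingOf_le K))
      have h2 := Nat.Coprime.eq_one_of_dvd (hR0c ▸ hcop0.symm) h1
      exact hr.one_lt.ne' h2)
    (by rw [normalizer_eq_top]; exact le_top) k
    (by
      intro a ha
      have h1 := hFn.conj_mem _ (hm k hk a ha) k⁻¹
      convert h1 using 1
      group)
  have hc := hcx (k * n) (K.mul_mem hk (Cfsg.Agent.Lib.Helper30Bender.fittingOf_le K hn)) hfix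
  have hcρ : ρ * (k * n) = (k * n) * ρ := (mem_centralizer_iff.mp hc) ρ hρ
  have h1 : n⁻¹ * (ρ * n * ρ⁻¹) ∈ fittingOf K :=
    (fittingOf K).mul_mem ((fittingOf K).inv_mem hn) (hFn.conj_mem n hn ρ)
  have h2 := hFn.conj_mem _ h1 (k * n)
  convert h2 using 1
  rw [commutatorElement_def]
  have h3 : ρ⁻¹ * (k * n)⁻¹ = (k * n)⁻¹ * ρ⁻¹ := by
    rw [← mul_inv_rev, ← mul_inv_rev, hcρ]
  calc k * ρ * k⁻¹ * ρ⁻¹ = k * ρ * n * ((k * n)⁻¹ * ρ⁻¹) := by group
    _ = k * ρ * n * (ρ⁻¹ * (k * n)⁻¹) := by rw [h3]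
    _ = k * n * (n⁻¹ * (ρ * n * ρ⁻¹)) * (k * n)⁻¹ := by group

end Cfsg.Agent.S1445
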