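import Cfsg.Statements.S1457
import Cfsg.Agent.S1465
import Cfsg.Agent.Lib.Helper37Cores
import Cfsg.Agent.Lib.Helper40Cores

set_option autoImplicit false
open Cfsg

namespace Cfsg.Agent.S1457

/-- Let G be a solvable group of odd order, p a prime, S a Sylow p-subgroup of G and A an abelian subgroup of S normal in S. Then A ≤ O_{p',p}(G). -/
theorem result {G : Type*} [Group G] [Finite G] [Group.IsSolvable G] (hodd : Odd (Nat.card G)) (p : ℕ) [Fact p.Prime] (S : Sylow p G) (A : Subgroup G) (hA : A ≤ (S : Subgroup G)) (hAc : IsMulCommutative A)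
    (hAn : (S : Subgroup G) ≤ Subgroup.normalizer (A : Set G)) :
    A ≤ Cfsg.pPrimePCore p G := by
  by_cases hp : p = 2
  · subst hp
    have hS : (S : Subgroup G) = ⊥ := by
      obtain ⟨n, hn⟩ := (IsPGroup.iff_card).1 S.2
      have hoddS : Odd (Nat.card (S : Subgroup G)) :=
        Odd.of_dvd_nat hodd (Subgroup.card_subgroup_dvd_card _)
      rw [hn] at hoddS
      have hn0 : n = 0 := by
        by_contra h0
        exact (Nat.not_even_iff_odd.2 hoddS) (Even.pow_of_ne_zero even_two h0)
      rw [hn0, pow_zero] at hn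
      exact Subgroup.card_eq_one.1 hn
    rw [hS] at hA
    exact hA.trans bot_le
  set π := QuotientGroup.mk' (Cfsg.pPrimeCore p G) with hπ
  have hsurj : Function.Surjective π := QuotientGroup.mk'_surjective _
  have hoddq : Odd (Nat.card (G ⧸ Cfsg.pPrimeCore p G)) :=
    Odd.of_dvd_nat hodd (Subgroup.card_quotient_dvd_card _)
  have hTn : (Cfsg.pCore p (G ⧸ Cfsg.pPrimeCore p G)).Normal :=
    Cfsg.Agent.Lib.Helper1Fitting.pCore_normal p
  have hTS : Cfsg.pCore p (G ⧸ Cfsg.pPrimeCore p G) ≤ (S : Subgroup G).map π :=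
    Cfsg.Agent.Lib.Helper40Cores.pCore_le_sylow (S.mapSurjective hsurj)
  have key := (Cfsg.Agent.S1465.result hoddq p hp (Cfsg.pCore p (G ⧸ Cfsg.pPrimeCore p G))
    (Cfsg.Agent.Lib.Helper1Fitting.pCore_isPGroup p) {A.map π} (by
      intro B hB
      rw [Set.mem_singleton_iff] at hB
      subst hB
      refine ⟨inferInstance, (S.2.to_le hA).map π, ?_⟩
      exact hTS.trans ((Subgroup.map_mono hAn).trans (Subgroup.le_normalizer_map π)))).2
    (Cfsg.Agent.Lib.Helper37Cores.pPrimeCore_quotient_eq_bot p) inf_le_left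
  rw [sSup_singleton] at key
  exact Subgroup.map_le_iff_le_comap.1 key

end Cfsg.Agent.S1457
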