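import Cfsg.Statements.S1466
import Cfsg.Agent.Lib.Helper31PGroup

set_option autoImplicit false
open Cfsg

namespace Cfsg.Agent.S1466

theorem center_le_centralizer {R : Type*} [Group R] (X : Subgroup R) :
    Subgroup.center R ≤ Subgroup.centralizer (X : Set R) := by
  intro z hz
  rw [Subgroup.mem_centralizer_iff]
  intro x _
  exact (Subgroup.mem_center_iff.mp hz x)

theorem le_puigStep {R : Type*} [Group R] (A : Subgroup R) (hAn : A.Normal) (hAc : IsMulCommutative A)
    (X : Subgroup R) : A ≤ Cfsg.puigStep X := by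
  unfold Cfsg.puigStep
  apply le_sSup
  refine ⟨hAc, ?_⟩
  rw [Subgroup.normalizer_eq_top]
  exact le_top

theorem cent_le {R : Type*} [Group R] (A : Subgroup R) (hA : Subgroup.centralizer (A : Set R) = A)
    (L : Subgroup R) (hL : A ≤ L) : Subgroup.centralizer (L : Set R) ≤ L := by
  calc Subgroup.centralizer (L : Set R) ≤ Subgroup.centralizer (A : Set R) :=
        Subgroup.centralizer_le hL
    _ = A := hA
    _ ≤ L := hL

theorem ne_bot_of {R : Type*} [Group R] [Nontrivial R] (L : Subgroup R)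
    (h : Subgroup.centralizer (L : Set R) ≤ L) : L ≠ ⊥ := by
  intro hL
  rw [hL] at h
  have : (⊤ : Subgroup R) ≤ ⊥ := by
    refine le_trans ?_ h
    intro x _
    rw [Subgroup.mem_centralizer_iff]
    intro y hy
    have : y = 1 := by simpa using hy
    simp [this]
  exact top_ne_bot (le_bot_iff.mp this)

/-- Let p be a prime and R a nontrivial finite p-group. Then for every i > 0, Z(R) ≤ C_R(L_i(R)) ≤ L_i(R); likewise Z(R) ≤ C_R(L_*(R)) ≤ L_*(R) and Z(R) ≤ C_R(L(R)) ≤ L(R); and L(R) ≠ 1, L_*(R) ≠ 1. -/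
theorem result {R : Type*} [Group R] [Finite R] (p : ℕ) [Fact p.Prime] (hR : IsPGroup p R) [Nontrivial R] :
    (∀ i : ℕ, 0 < i → Subgroup.center R ≤ Subgroup.centralizer ((Cfsg.puigSeq R i : Subgroup R) : Set R) ∧
        Subgroup.centralizer ((Cfsg.puigSeq R i : Subgroup R) : Set R) ≤ Cfsg.puigSeq R i) ∧
      (Subgroup.center R ≤ Subgroup.centralizer ((Cfsg.puigLower R : Subgroup R) : Set R) ∧ Subgroup.centralizer ((Cfsg.puigLower R : Subgroup R) : Set R) ≤ Cfsg.puigLower R) ∧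
      (Subgroup.center R ≤ Subgroup.centralizer ((Cfsg.puigSubgroup R : Subgroup R) : Set R) ∧ Subgroup.centralizer ((Cfsg.puigSubgroup R : Subgroup R) : Set R) ≤ Cfsg.puigSubgroup R) ∧
      Cfsg.puigSubgroup R ≠ ⊥ ∧ Cfsg.puigLower R ≠ ⊥ := by
  obtain ⟨A, -, hAn, hAc, hA⟩ := Cfsg.Agent.Lib.Helper31PGroup.exists_normal_self_centralizing hR ⊥
    inferInstance inferInstance
  have hseq : ∀ i : ℕ, 0 < i → A ≤ Cfsg.puigSeq R i := by
    intro i hi
    obtain ⟨j, rfl⟩ : ∃ j, i = j + 1 := ⟨i - 1, by omega⟩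
    exact le_puigStep A hAn hAc _
  have hlow : A ≤ Cfsg.puigLower R := by
    unfold Cfsg.puigLower
    exact (hseq (2 * 1) (by norm_num)).trans (le_iSup (fun n => Cfsg.puigSeq R (2 * n)) 1)
  have hup : A ≤ Cfsg.puigSubgroup R := by
    unfold Cfsg.puigSubgroup
    exact le_iInf (fun n => hseq _ (by omega))
  refine ⟨fun i hi => ⟨center_le_centralizer _, cent_le A hA _ (hseq i hi)⟩,
    ⟨center_le_centralizer _, cent_le A hA _ hlow⟩, ⟨center_le_centralizer _, cent_le A hA _ hup⟩,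
    ne_bot_of _ (cent_le A hA _ hup), ne_bot_of _ (cent_le A hA _ hlow)⟩

end Cfsg.Agent.S1466
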