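import Cfsg.Statements.S1469
import Cfsg.Agent.Lib.Helper31Puig
import Cfsg.Agent.Lib.Helper37Cores
import Cfsg.Agent.Lib.Helper27Loc
import Cfsg.Agent.Lib.Helper15PStable2

set_option autoImplicit false
open Cfsg

namespace Cfsg.Agent.S1469

open Cfsg.Agent.Lib.Helper31Puig
open Cfsg.Agent.Lib.Helper15PStable Cfsg.Agent.Lib.Helper15PStable2 Cfsg.Agent.Lib.Helper14CoreB

/-- Let p be an odd prime, G a solvable group of odd order and S a Sylow p-subgroup, and let Z be the centre of the Puig subgroup L(S), viewed inside G. Then G is generated by O_{p'}(G) and N_G(Z); and if O_{p'}(G) = 1 then Z is normal in G. -/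
theorem result {G : Type*} [Group G] [Finite G] [Group.IsSolvable G] (hodd : Odd (Nat.card G)) (p : ℕ) [Fact p.Prime] (hp : p ≠ 2) (S : Sylow p G) :
    Cfsg.pPrimeCore p G ⊔ Subgroup.normalizer ((((Subgroup.center ↥(Cfsg.puigSubgroup ↥(S : Subgroup G))).map (Cfsg.puigSubgroup ↥(S : Subgroup G)).subtype).map (S : Subgroup G).subtype : Subgroup G) : Set G) = ⊤ ∧
      (Cfsg.pPrimeCore p G = ⊥ → (((Subgroup.center ↥(Cfsg.puigSubgroup ↥(S : Subgroup G))).map (Cfsg.puigSubgroup ↥(S : Subgroup G)).subtype).map (S : Subgroup G).subtype).Normal) := by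
  rw [ZL_eq (S : Subgroup G)]
  refine ⟨?_, fun hO => ZL_normal hodd p hp hO S⟩
  set π := QuotientGroup.mk' (pPrimeCore p G) with hπ
  have hsurj : Function.Surjective π := QuotientGroup.mk'_surjective _
  have hker : π.ker = pPrimeCore p G := QuotientGroup.ker_mk' _
  have hcop : (Nat.card π.ker).Coprime p := ker_mk_coprime
  have hoddq : Odd (Nat.card (G ⧸ Cfsg.pPrimeCore p G)) :=
    Odd.of_dvd_nat hodd (Subgroup.card_quotient_dvd_card _)
  have hnorm := ZL_normal hoddq p hp (Cfsg.Agent.Lib.Helper37Cores.pPrimeCore_quotient_eq_bot p)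
    (S.mapSurjective hsurj)
  rw [Sylow.coe_mapSurjective, ZL_map π (inf_eq_bot_of_coprime' S.2 hcop)] at hnorm
  have hZ : IsPGroup p (ZL (S : Subgroup G)) := S.2.to_le (ZL_le _)
  have h1 : (ZL (S : Subgroup G) ⊔ pPrimeCore p G).Normal := by
    rw [← hker, ← Subgroup.comap_map_eq]
    exact hnorm.comap _
  have h2 := Cfsg.Agent.Lib.Helper27Loc.normalizer_le_sup (p := p)
    (inferInstance : (pPrimeCore p G).Normal) (card_pPrimeCore_coprime p) hZ
  rw [Subgroup.normalizer_eq_top_iff.2 h1, top_le_iff, sup_comm] at h2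
  exact h2

end Cfsg.Agent.S1469
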