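import Cfsg.Statements.S1474
import Cfsg.Agent.S1477
import Cfsg.Agent.S0039
import Cfsg.Agent.S0069
import Cfsg.Agent.Lib.Helper29Basic
import Cfsg.Agent.Lib.Helper1Fitting

set_option autoImplicit false
open Cfsg
open Cfsg.Agent.Lib.Helper31Nilpotent
open scoped Pointwise

namespace Cfsg.Agent.S1474

set_option linter.unusedSectionVars false

variable {G : Type*} [Group G] [Finite G]

theorem nilp_of_le {H K : Subgroup G} (hK : Group.IsNilpotent K) (h : H ≤ K) :
    Group.IsNilpotent H :=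
  (Group.isNilpotent_congr (Subgroup.subgroupOfEquivOfLe h)).mp inferInstance

theorem fittingHall_nilpotent : Group.IsNilpotent (fittingHall G) := by
  have h1 : fittingHall G ≤ fittingSubgroup G := sSup_le_sSup (fun N hN => ⟨hN.1, hN.2.1⟩)
  exact nilp_of_le (Cfsg.Agent.Lib.Helper1Fitting.fitting_isNilpotent (G := G)) h1

theorem mem_normal_sylow {p : ℕ} [Fact p.Prime] (P : Sylow p G) (hPn : (P : Subgroup G).Normal)
    {x : G} {k : ℕ} (hx : orderOf x = p ^ k) : x ∈ P := by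
  have hpg : IsPGroup p (Subgroup.zpowers x) :=
    IsPGroup.of_card (n := k) (by rw [Nat.card_zpowers, hx])
  obtain ⟨Q, hQ⟩ := hpg.exists_le_sylow
  have : Subsingleton (Sylow p G) := (Sylow.unique_of_normal P hPn).instSubsingleton
  rw [Subsingleton.elim P Q]
  exact hQ (Subgroup.mem_zpowers x)

theorem exists_max_nilp (H : Subgroup G) (hH : Group.IsNilpotent H) :
    ∃ L : Subgroup G, H ≤ L ∧ Group.IsNilpotent L ∧
      ∀ L' : Subgroup G, Group.IsNilpotent L' → L ≤ L' → L' = L := by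
  obtain ⟨L, hHL, hL⟩ := (Set.toFinite {L : Subgroup G | Group.IsNilpotent L}).exists_le_maximal
    (show H ∈ {L : Subgroup G | Group.IsNilpotent L} from hH)
  exact ⟨L, hHL, hL.prop, fun L' h1 h2 => (hL.eq_of_le h1 h2).symm⟩

theorem conj_pow' (g h : G) (n : ℕ) : (g * h * g⁻¹) ^ n = g * h ^ n * g⁻¹ := by
  exact conj_pow

/-- a maximal nilpotent subgroup containing a nontrivial normal Sylow subgroup is normal -/
theorem max_nilp_normal (hCN : Cfsg.IsCNGroup G) (p : ℕ) [Fact p.Prime] (P : Sylow p G)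
    (hP1 : (P : Subgroup G) ≠ ⊥) (hPn : (P : Subgroup G).Normal) (L : Subgroup G)
    (hL : Group.IsNilpotent L)
    (hmax : ∀ L' : Subgroup G, Group.IsNilpotent L' → L ≤ L' → L' = L)
    (hPL : (P : Subgroup G) ≤ L) : L.Normal := by
  have hpL : p ∣ Nat.card L := by
    have h1 : p ∣ Nat.card (P : Subgroup G) := by
      obtain ⟨n, hn⟩ := P.isPGroup'.exists_card_eq
      rw [hn]
      rcases n with _ | n
      · exfalso
        apply hP1
        rw [pow_zero] at hn
        exact Subgroup.card_eq_one.mp hn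
      · exact dvd_pow_self p (Nat.succ_ne_zero n)
    exact h1.trans (Subgroup.card_dvd_of_le hPL)
  obtain ⟨z, hzL, hz1, ⟨k, hzk⟩, hzc⟩ := Cfsg.Agent.S1477.exists_central L hL p hpL
  have hCz := Cfsg.Agent.S1477.cent_eq hCN L hmax z hz1 hzc
  have hzP : z ∈ P := mem_normal_sylow P hPn hzk
  constructor
  intro h hh g
  obtain ⟨k, m, hkm, e1, e2, hmp⟩ := exists_order_split p h
  apply mem_of_coprime_pow L _ hkm.symm
  · rw [conj_pow']
    exact hPL (hPn.conj_mem _ (mem_normal_sylow P hPn e1) g)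
  · rw [conj_pow', ← hCz, Subgroup.mem_centralizer_singleton_iff]
    have hz' : g⁻¹ * z * g ∈ P := by
      have := hPn.conj_mem _ hzP g⁻¹
      rw [inv_inv] at this
      exact this
    obtain ⟨j, hj⟩ := (IsPGroup.iff_orderOf.mp P.isPGroup') ⟨_, hz'⟩
    have hj' : orderOf (g⁻¹ * z * g) = p ^ j := by
      rw [← hj, ← Subgroup.orderOf_coe]
    have hc := Cfsg.Agent.S1477.commute_in L hL (L.pow_mem hh (p ^ k)) (hPL hz')
      (by rw [e2, hj']; exact Nat.Coprime.pow_right j hmp)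
    calc g * h ^ p ^ k * g⁻¹ * z = g * (h ^ p ^ k * (g⁻¹ * z * g)) * g⁻¹ := by group
      _ = g * ((g⁻¹ * z * g) * h ^ p ^ k) * g⁻¹ := by rw [hc]
      _ = z * (g * h ^ p ^ k * g⁻¹) := by group

theorem sylow_le_fittingHall (p : ℕ) [Fact p.Prime] (P : Sylow p G)
    (hPn : (P : Subgroup G).Normal) : (P : Subgroup G) ≤ fittingHall G := by
  apply le_sSup
  refine ⟨hPn, P.isPGroup'.isNilpotent, ?_⟩
  obtain ⟨n, hn⟩ := P.isPGroup'.exists_card_eq
  rw [hn]
  exact Nat.Coprime.pow_left n ((Nat.Prime.coprime_iff_not_dvd Fact.out).mpr P.not_dvd_index)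

theorem fittingHall_max (hCN : Cfsg.IsCNGroup G) (p : ℕ) [Fact p.Prime] (P : Sylow p G)
    (hP1 : (P : Subgroup G) ≠ ⊥) (hPn : (P : Subgroup G).Normal) :
    ∀ L : Subgroup G, Group.IsNilpotent L → fittingHall G ≤ L → L = fittingHall G := by
  intro L' hL' hle
  obtain ⟨L, hL'L, hL, hmax⟩ := exists_max_nilp L' hL'
  have hPL : (P : Subgroup G) ≤ L := (sylow_le_fittingHall p P hPn).trans (hle.trans hL'L)
  have hn := max_nilp_normal hCN p P hP1 hPn L hL hmax hPL
  have h1 : L ≤ fittingHall G :=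
    le_sSup ⟨hn, hL, (Cfsg.Agent.S1477.result hCN L hL hmax).1⟩
  exact le_antisymm (hL'L.trans h1) hle

theorem map_conj_normal (H : Subgroup G) [hH : H.Normal] (g : G) :
    H.map (MulAut.conj g).toMonoidHom = H := by
  ext x
  constructor
  · rintro ⟨y, hy, rfl⟩
    exact hH.conj_mem y hy g
  · intro hx
    refine ⟨g⁻¹ * x * g, ?_, ?_⟩
    · have := hH.conj_mem x hx g⁻¹
      simpa using this
    · show g * (g⁻¹ * x * g) * g⁻¹ = x
      group

/-- a nontrivial subgroup with nontrivial centre in a CN-group is nilpotent -/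
theorem nilp_of_center (hCN : Cfsg.IsCNGroup G) (E : Subgroup G) (hc : Subgroup.center E ≠ ⊥) :
    Group.IsNilpotent E := by
  obtain ⟨z, hz⟩ := Subgroup.ne_bot_iff_exists_ne_one.mp hc
  have hz1 : ((z : E) : G) ≠ 1 := fun h => hz (Subtype.ext (Subtype.ext h))
  refine nilp_of_le (hCN _ hz1) ?_
  intro e he
  rw [Subgroup.mem_centralizer_singleton_iff]
  exact congrArg Subtype.val (Subgroup.mem_center_iff.mp z.2 ⟨e, he⟩)

theorem result {G : Type*} [Group G] [Finite G] (hCN : Cfsg.IsCNGroup G) (hnn : ¬ Group.IsNilpotent G) (p : ℕ) [Fact p.Prime] (P : Sylow p G)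
    (hP1 : (P : Subgroup G) ≠ ⊥) (hPn : (P : Subgroup G).Normal) :
    Cfsg.fittingHall G ≠ ⊥ ∧ Cfsg.fittingHall G ≠ ⊤ ∧
      (∃ E : Subgroup G, Subgroup.IsComplement' (Cfsg.fittingHall G) E ∧ Cfsg.IsFrobeniusComplement E ∧
        ∀ e ∈ E, e ≠ 1 → Cfsg.fittingHall G ⊓ Subgroup.centralizer ({e} : Set G) = ⊥) ∧
      Group.IsNilpotent (G ⧸ Cfsg.fittingHall G) := by
  have hnil : Group.IsNilpotent (fittingHall G) := fittingHall_nilpotent
  have hbot : fittingHall G ≠ ⊥ := by
    intro h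
    apply hP1
    rw [eq_bot_iff, ← h]
    exact sylow_le_fittingHall p P hPn
  have htop : fittingHall G ≠ ⊤ := by
    intro h
    apply hnn
    rw [h] at hnil
    exact (Group.isNilpotent_congr Subgroup.topEquiv).mp hnil
  have hmax := fittingHall_max hCN p P hP1 hPn
  have hcent := (Cfsg.Agent.S1477.result hCN _ hnil hmax).2.2
    (fun g hg => absurd (map_conj_normal _ g) hg)
  obtain ⟨E, hE⟩ := Subgroup.exists_right_complement'_of_coprime
    (Cfsg.Agent.Lib.Helper29Basic.fittingHall_coprime (G := G))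
  have hE1 : E ≠ ⊥ := by
    rintro rfl
    exact htop (Subgroup.isComplement'_bot_right.mp hE)
  have hfpf : ∀ e ∈ E, e ≠ 1 →
      Cfsg.fittingHall G ⊓ Subgroup.centralizer ({e} : Set G) = ⊥ := by
    intro e he he1
    rw [eq_bot_iff]
    intro x hx
    rw [Subgroup.mem_bot]
    by_contra hx1
    obtain ⟨hxH, hxe⟩ := Subgroup.mem_inf.mp hx
    have h1 : e ∈ fittingHall G := by
      apply hcent x hxH hx1
      rw [Subgroup.mem_centralizer_singleton_iff] at hxe ⊢
      exact hxe.symm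
    have h2 : e ∈ fittingHall G ⊓ E := ⟨h1, he⟩
    rw [hE.disjoint.eq_bot, Subgroup.mem_bot] at h2
    exact he1 h2
  have hEn : Group.IsNilpotent E :=
    nilp_of_center hCN E (Cfsg.Agent.S0069.result _ E hE hbot hE1 hfpf)
  refine ⟨hbot, htop, ⟨E, hE, (Cfsg.Agent.S0039.result _ E hE hbot hE1).mpr hfpf, hfpf⟩, ?_⟩
  refine Group.nilpotent_of_surjective ((QuotientGroup.mk' (fittingHall G)).comp E.subtype) ?_
  intro q
  obtain ⟨g, rfl⟩ := QuotientGroup.mk_surjective q
  have hg : g ∈ ((fittingHall G : Subgroup G) : Set G) * (E : Set G) := by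
    rw [hE.mul_eq]; exact Set.mem_univ g
  obtain ⟨h, hh, e, he, rfl⟩ := hg
  refine ⟨⟨e, he⟩, ?_⟩
  show ((e : G) : G ⧸ fittingHall G) = ((h * e : G) : G ⧸ fittingHall G)
  rw [QuotientGroup.eq]
  have : e⁻¹ * (h * e) = e⁻¹ * h * e⁻¹⁻¹ := by group
  rw [this]
  exact (fittingHall_normal G).conj_mem h hh e⁻¹

end Cfsg.Agent.S1474
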