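import Cfsg.Statements.S1476
import Cfsg.Agent.Lib.Helper54CNCase1
import Cfsg.Agent.Lib.Helper54CNCase2

set_option autoImplicit false
open Cfsg

namespace Cfsg.Agent.S1476

open Cfsg.Agent.Lib.Helper54CNFpf Cfsg.Agent.Lib.Helper54CNCase1 Cfsg.Agent.Lib.Helper54CNCase2

theorem result {G : Type*} [Group G] [Finite G] [Group.IsSolvable G] (hCN : Cfsg.IsCNGroup G) :
    Group.IsNilpotent G ∨
      (∃ K E : Subgroup G, K.Normal ∧ Subgroup.IsComplement' K E ∧ Cfsg.IsFrobeniusComplement E ∧
        (IsCyclic E ∨ ∃ C Q : Subgroup G, C ⊔ Q = E ∧ (∀ a ∈ C, ∀ b ∈ Q, a * b = b * a) ∧ IsCyclic C ∧ Odd (Nat.card C) ∧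
          ∃ n : ℕ, Nonempty (↥Q ≃* QuaternionGroup (2 ^ n)))) ∨
      ∃ p : ℕ, p.Prime ∧ Cfsg.IsThreeStepGroup p G := by
  by_cases hnn : Group.IsNilpotent G
  · exact Or.inl hnn
  right
  by_cases hns : ∃ (p : ℕ) (_ : Fact p.Prime) (P : Sylow p G),
      (P : Subgroup G) ≠ ⊥ ∧ (P : Subgroup G).Normal
  · left
    obtain ⟨p, hp, P, hP1, hPn⟩ := hns
    obtain ⟨hbot, htop, ⟨E, hE, hFr, hfpf⟩, -⟩ := Cfsg.Agent.S1474.result hCN hnn p P hP1 hPn
    exact ⟨fittingHall G, E, inferInstance, hE, hFr, complement_structure hCN _ E hbot hfpf⟩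
  · right
    have hF1 : fittingSubgroup G ≠ ⊥ := by
      intro h
      apply hnn
      have h1 : Subgroup.centralizer (fittingSubgroup G : Set G) ≤ fittingSubgroup G :=
        Cfsg.Agent.S0044.result
      have h2 : ∀ x : G, x = 1 := by
        intro x
        have h3 : x ∈ Subgroup.centralizer (fittingSubgroup G : Set G) := by
          rw [Subgroup.mem_centralizer_iff]
          intro y hy
          rw [SetLike.mem_coe, h, Subgroup.mem_bot] at hy
          rw [hy]; simp
        have h4 := h1 h3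
        rwa [h, Subgroup.mem_bot] at h4
      have : Subsingleton G := ⟨fun a b => by rw [h2 a, h2 b]⟩
      infer_instance
    have hc1 : Nat.card (fittingSubgroup G) ≠ 1 := fun h => hF1 (Subgroup.card_eq_one.mp h)
    obtain ⟨p, hp, hpF⟩ := Nat.exists_prime_and_dvd hc1
    have := Fact.mk hp
    refine ⟨p, hp, ?_⟩
    have hPn : (pCore p G).Normal := Cfsg.Agent.Lib.Helper1Fitting.pCore_normal p
    have hPp : IsPGroup p (pCore p G) := Cfsg.Agent.Lib.Helper1Fitting.pCore_isPGroup p
    have hP1 : pCore p G ≠ ⊥ := by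
      obtain ⟨x, hx⟩ := exists_prime_orderOf_dvd_card' (G := fittingSubgroup G) p hpF
      have h1 : (x : G) ∈ pCore p G := by
        refine Cfsg.Agent.Lib.Helper3DerFit.mem_pCore_of_mem_fitting p x.2 (k := 1) ?_
        rw [pow_one, ← hx, ← Subgroup.orderOf_coe]
        exact pow_orderOf_eq_one _
      intro h
      rw [h, Subgroup.mem_bot] at h1
      have h2 : x = 1 := Subtype.ext h1
      rw [h2, orderOf_one] at hx
      exact hp.one_lt.ne hx
    have hFP : fittingSubgroup G = pCore p G := by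
      rw [Cfsg.Agent.Lib.Helper1Fitting.fitting_eq_iSup_pCore]
      apply le_antisymm
      · apply iSup_le
        intro q
        by_cases hq : (q : ℕ) = p
        · rw [hq]
        · have : Fact (q : ℕ).Prime := ⟨q.2⟩
          have h1 : pCore (q : ℕ) G = ⊥ := by
            by_contra hQ
            obtain ⟨S, hS1, hSn⟩ := exists_normal_sylow hCN (p := p) (q := q) (Ne.symm hq) hP1 hQ
            exact hns ⟨p, inferInstance, S, hS1, hSn⟩
          rw [h1]; exact bot_le
      · exact le_iSup (fun q : Nat.Primes => pCore (q : ℕ) G) ⟨p, hp⟩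
    have hcent : Subgroup.centralizer (pCore p G : Set G) ≤ pCore p G := by
      have h1 : Subgroup.centralizer (fittingSubgroup G : Set G) ≤ fittingSubgroup G :=
        Cfsg.Agent.S0044.result
      rwa [hFP] at h1
    have hnotSyl : p ∣ (pCore p G).index := by
      by_contra h
      exact hns ⟨p, inferInstance, hPp.toSylow h, by rw [IsPGroup.toSylow_coe]; exact hP1,
        by rw [IsPGroup.toSylow_coe]; exact hPn⟩
    obtain ⟨A, hA⟩ := three_step_core hCN p (pCore p G) hPp hP1
      (fun a ha1 hap => fpf_pCore hCN _ hPp hP1 hcent ha1 hap)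
      (fun N hN hNp => Cfsg.Agent.Lib.Helper1Fitting.le_pCore hN hNp) hnotSyl
    exact ⟨hP1, A, hA⟩

end Cfsg.Agent.S1476
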