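import Cfsg.Statements.S1757
-- import your own Cfsg.Agent.* helpers here

set_option autoImplicit false
open Cfsg

namespace Cfsg.Agent.S1757

/-- Core lemma: `B` normalizes `A`, `A ⊓ B = ⊥`, `|A| ≤ |B|`, and every `A`-conjugate of `B` equals `B` or meets it
trivially. Then `A` and `B` commute elementwise. -/
theorem core {G : Type*} [Group G] (A B : Subgroup G) [Finite A]
    (hBti : ∀ g ∈ A, B.map (MulAut.conj g).toMonoidHom = B ∨ B.map (MulAut.conj g).toMonoidHom ⊓ B = ⊥)
    (hle : Nat.card ↥A ≤ Nat.card ↥B) (hAB : A ⊓ B = ⊥) (hN : B ≤ Subgroup.normalizer (A : Set G)) :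
    ∀ a ∈ A, ∀ b ∈ B, a * b = b * a := by
  -- if `a` normalizes `B` then it centralizes `B`
  have hnorm : ∀ a ∈ A, B.map (MulAut.conj a).toMonoidHom = B → ∀ b ∈ B, a * b = b * a := by
    intro a ha hB b hb
    have h1 : a * b * a⁻¹ ∈ B := by
      rw [← hB]
      exact ⟨b, hb, by simp [MulAut.conj_apply]⟩
    have h2 : b * a⁻¹ * b⁻¹ ∈ A := by
      have := (Subgroup.mem_normalizer_iff.mp (hN hb) a⁻¹).mp (A.inv_mem ha)
      exact this
    have h3 : a * b * a⁻¹ * b⁻¹ ∈ A ⊓ B := by
      refine ⟨?_, B.mul_mem h1 (B.inv_mem hb)⟩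
      have : a * b * a⁻¹ * b⁻¹ = a * (b * a⁻¹ * b⁻¹) := by group
      rw [this]
      exact A.mul_mem ha h2
    rw [hAB, Subgroup.mem_bot] at h3
    have : a * b = (a * b * a⁻¹ * b⁻¹) * (b * a) := by group
    rw [this, h3, one_mul]
  by_contra hcon
  push_neg at hcon
  obtain ⟨a, ha, b₀, hb₀, hab⟩ := hcon
  have hBa : B.map (MulAut.conj a).toMonoidHom ⊓ B = ⊥ := by
    rcases hBti a ha with h | h
    · exact absurd (hnorm a ha h b₀ hb₀) hab
    · exact h
  have ha1 : a ≠ 1 := by
    rintro rfl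
    exact hab (by simp)
  -- the orbit map
  let f : B → {x : A // x ≠ 1} := fun b =>
    ⟨⟨(b : G) * a * (b : G)⁻¹, (Subgroup.mem_normalizer_iff.mp (hN b.2) a).mp ha⟩, by
      intro h
      have h' : (b : G) * a * (b : G)⁻¹ = 1 := congrArg Subtype.val h
      apply ha1
      have : a = (b : G)⁻¹ * ((b : G) * a * (b : G)⁻¹) * (b : G) := by group
      rw [this, h']; group⟩
  have hf : Function.Injective f := by
    intro b c hbc
    have h1 : (b : G) * a * (b : G)⁻¹ = (c : G) * a * (c : G)⁻¹ := by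
      have := congrArg (fun x : {x : A // x ≠ 1} => ((x : A) : G)) hbc
      exact this
    -- d = c⁻¹ b commutes with a
    have h2 : a * ((c : G)⁻¹ * b) * a⁻¹ = (c : G)⁻¹ * b := by
      have : a * ((c : G)⁻¹ * b) * a⁻¹ = (c:G)⁻¹ * ((c : G) * a * (c : G)⁻¹) * (b * a⁻¹ * (b:G)⁻¹) * b := by group
      rw [this, ← h1]; group
    have hd : (c : G)⁻¹ * b ∈ B := B.mul_mem (B.inv_mem c.2) b.2
    have h3 : (c : G)⁻¹ * b ∈ B.map (MulAut.conj a).toMonoidHom ⊓ B := by
      refine ⟨⟨(c : G)⁻¹ * b, hd, ?_⟩, hd⟩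
      simpa [MulAut.conj_apply] using h2
    rw [hBa, Subgroup.mem_bot] at h3
    apply Subtype.ext
    exact (inv_mul_eq_one.mp h3).symm
  have hcard : Nat.card B ≤ Nat.card {x : A // x ≠ 1} := Nat.card_le_card_of_injective f hf
  have hlt : Nat.card {x : A // x ≠ 1} < Nat.card A := by
    classical
    have := Fintype.ofFinite A
    rw [Nat.card_eq_fintype_card, Nat.card_eq_fintype_card]
    exact Fintype.card_subtype_lt (x := (1 : A)) (by simp)
  omega

/-- Let p be a prime and A, B p-subgroups of the finite group G, each of which meets every conjugate of itself other than itself trivially. Suppose the order of A is at most that of B, A and B intersect trivially, and B normalizes A. Then A and B commute elementwise. -/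
theorem result {G : Type*} [Group G] [Finite G] (p : ℕ) [Fact p.Prime] (A B : Subgroup G)
    (hA : IsPGroup p ↥A) (hB : IsPGroup p ↥B)
    (hAti : ∀ g : G, A.map (MulAut.conj g).toMonoidHom = A ∨ A.map (MulAut.conj g).toMonoidHom ⊓ A = ⊥)
    (hBti : ∀ g : G, B.map (MulAut.conj g).toMonoidHom = B ∨ B.map (MulAut.conj g).toMonoidHom ⊓ B = ⊥)
    (hle : Nat.card ↥A ≤ Nat.card ↥B) (hAB : A ⊓ B = ⊥) (hN : B ≤ Subgroup.normalizer (A : Set G)) : ⁅A, B⁆ = ⊥ := by
  rw [Subgroup.commutator_eq_bot_iff_le_centralizer]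
  intro a ha
  rw [Subgroup.mem_centralizer_iff]
  intro b hb
  exact (core A B (fun g _ => hBti g) hle hAB hN a ha b hb).symm

end Cfsg.Agent.S1757
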