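import Cfsg.Statements.S1892
import Mathlib
import Cfsg.Agent.Lib.Helper38HH

set_option autoImplicit false
open Cfsg

namespace Cfsg.Agent.S1892

open Cfsg.Agent.Lib.Helper38HH Cfsg.Agent.Lib.Helper60Core
open scoped commutatorElement

theorem conj_pow_aux {G : Type*} [Group G] {x u z : G} (h : x * u * x⁻¹ = u * z) (hz : x * z = z * x) (k : ℕ) :
    x ^ k * u * (x ^ k)⁻¹ = u * z ^ k := by
  induction k with
  | zero => simp
  | succ k ih =>
    have hz' : x * z ^ k * x⁻¹ = z ^ k := by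
      have : Commute x (z ^ k) := (show Commute x z from hz).pow_right k
      rw [this.eq]; group
    calc x ^ (k + 1) * u * (x ^ (k + 1))⁻¹ = x * (x ^ k * u * (x ^ k)⁻¹) * x⁻¹ := by
          rw [pow_succ']; group
      _ = x * (u * z ^ k) * x⁻¹ := by rw [ih]
      _ = (x * u * x⁻¹) * (x * z ^ k * x⁻¹) := by group
      _ = u * z ^ (k + 1) := by rw [h, hz', pow_succ']; group

/-- elements of `N(W)` acting trivially on `P / W` (right cosets form) -/
def trivOn {G : Type*} [Group G] (P W : Subgroup G) [P.Normal] : Subgroup G where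
  carrier := {g | g ∈ Subgroup.normalizer (W : Set G) ∧ ∀ u ∈ P, u⁻¹ * g * u * g⁻¹ ∈ W}
  one_mem' := ⟨Subgroup.one_mem _, fun u _ => by simp⟩
  mul_mem' := by
    rintro g h ⟨hg1, hg2⟩ ⟨hh1, hh2⟩
    refine ⟨Subgroup.mul_mem _ hg1 hh1, fun u hu => ?_⟩
    have e : u⁻¹ * (g * h) * u * (g * h)⁻¹ = (u⁻¹ * g * u * g⁻¹) * (g * (u⁻¹ * h * u * h⁻¹) * g⁻¹) := by
      group
    rw [e]
    exact W.mul_mem (hg2 u hu) ((Subgroup.le_normalizer_iff.1 le_rfl) g hg1 _ (hh2 u hu))
  inv_mem' := by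
    rintro g ⟨hg1, hg2⟩
    refine ⟨Subgroup.inv_mem _ hg1, fun u hu => ?_⟩
    have hv : g⁻¹ * u * g ∈ P := by
      have := (inferInstance : P.Normal).conj_mem u hu g⁻¹
      simpa using this
    have := W.inv_mem (hg2 _ hv)
    have e : ((g⁻¹ * u * g)⁻¹ * g * (g⁻¹ * u * g) * g⁻¹)⁻¹ = u⁻¹ * g⁻¹ * u * g⁻¹⁻¹ := by group
    rwa [e] at this

/-- Let S be a finite p-solvable group with no nontrivial normal subgroup of order prime to p, A a p-subgroup of S, and Q a nontrivial A-invariant subgroup of order prime to p with [A, Q] = Q. Then the commutator [O_p(S), A, Q] is nontrivial. -/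
theorem result {S : Type*} [Group S] [Finite S] {p : ℕ} [Fact p.Prime]
    (hS : Cfsg.IsPSolvable p S) (hred : Cfsg.pPrimeCore p S = ⊥)
    (A Q : Subgroup S) (hA : IsPGroup p A) (hQ : ¬ p ∣ Nat.card Q) (hQ1 : Q ≠ ⊥)
    (hinv : ∀ a ∈ A, ∀ x ∈ Q, a * x * a⁻¹ ∈ Q) (hAQ : ⁅A, Q⁆ = Q) :
    ⁅⁅Cfsg.pCore p S, A⁆, Q⁆ ≠ ⊥ := by
  intro hbot
  set P := Cfsg.pCore p S with hP
  set W := ⁅P, A⁆ with hW
  have hPn : P.Normal := inferInstance
  have hWP : W ≤ P := Subgroup.commutator_le_left P A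
  have hQW : ∀ w ∈ W, ∀ x ∈ Q, x * w = w * x := by
    intro w hw x hx
    have := (Subgroup.commutator_eq_bot_iff_le_centralizer.1 hbot) hw
    exact (Subgroup.mem_centralizer_iff.1 this x hx)
  have hQN : Q ≤ Subgroup.normalizer (W : Set S) := by
    rw [Subgroup.le_normalizer_iff]
    intro x hx w hw
    rw [hQW w hw x hx]; simpa using hw
  have hAN : A ≤ Subgroup.normalizer (W : Set S) := by
    intro a ha
    rw [Subgroup.mem_normalizer_iff_map_conj_eq, hW, Subgroup.map_commutator]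
    have e1 : P.map (MulAut.conj a : S →* S) = P := Subgroup.Normal.map_conj_eq P a
    have e2 : A.map (MulAut.conj a : S →* S) = A :=
      Subgroup.mem_normalizer_iff_map_conj_eq.1 (Subgroup.le_normalizer ha)
    rw [e1, e2]
  have hAT : A ≤ trivOn P W := by
    intro a ha
    refine ⟨hAN ha, fun u hu => ?_⟩
    have := Subgroup.commutator_mem_commutator (P.inv_mem hu) ha
    rw [commutatorElement_def] at this
    simpa using this
  have hQT : Q ≤ trivOn P W := by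
    rw [← hAQ, Subgroup.commutator_le]
    intro a ha q hq
    rw [commutatorElement_def]
    have e : a * q * a⁻¹ * q⁻¹ = a * (q * a⁻¹ * q⁻¹) := by group
    rw [e]
    refine Subgroup.mul_mem _ (hAT ha) ?_
    obtain ⟨h1, h2⟩ := hAT (A.inv_mem ha)
    refine ⟨Subgroup.mul_mem _ (Subgroup.mul_mem _ (hQN hq) h1) (Subgroup.inv_mem _ (hQN hq)), fun u hu => ?_⟩
    have hv : q⁻¹ * u * q ∈ P := by
      have := hPn.conj_mem u hu q⁻¹
      simpa using this
    have h3 := (Subgroup.le_normalizer_iff.1 hQN) q hq _ (h2 _ hv)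
    have e2 : q * ((q⁻¹ * u * q)⁻¹ * a⁻¹ * (q⁻¹ * u * q) * a⁻¹⁻¹) * q⁻¹ =
        u⁻¹ * (q * a⁻¹ * q⁻¹) * u * (q * a⁻¹ * q⁻¹)⁻¹ := by group
    rwa [e2] at h3
  have hp : p.Prime := Fact.out
  have hQ' : (Nat.card Q).Coprime p := (Nat.Coprime.symm ((Nat.Prime.coprime_iff_not_dvd hp).2 hQ))
  have hQC : Q ≤ Subgroup.centralizer (P : Set S) := by
    intro x hx
    rw [Subgroup.mem_centralizer_iff]
    intro u hu
    have hz : u⁻¹ * x * u * x⁻¹ ∈ W := (hQT hx).2 u hu
    have h1 : x * u * x⁻¹ = u * (u⁻¹ * x * u * x⁻¹) := by group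
    have h2 := conj_pow_aux h1 (hQW _ hz x hx) (Nat.card Q)
    rw [pow_card_of_mem hx] at h2
    have h3 : (u⁻¹ * x * u * x⁻¹) ^ (Nat.card Q) = 1 := by
      have : u = u * (u⁻¹ * x * u * x⁻¹) ^ (Nat.card Q) := by simpa using h2
      exact (mul_eq_left.1 this.symm)
    obtain ⟨k, hk⟩ := (pCore_isPGroup p (G := S)) ⟨_, hWP hz⟩
    have hk' : (u⁻¹ * x * u * x⁻¹) ^ (p ^ k) = 1 := by
      simpa only [Subgroup.coe_pow, Subgroup.coe_one] using congrArg Subtype.val hk
    have h4 := eq_one_of_pow_coprime h3 hk' (Nat.Coprime.pow_right k hQ')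
    rw [h4, mul_one] at h1
    calc u * x = (x * u * x⁻¹) * x := by rw [h1]
      _ = x * u := by group
  have hQP : Q ≤ P := hQC.trans (centralizer_pCore_le hS hred)
  apply hQ1
  rw [eq_bot_iff]
  intro x hx
  obtain ⟨k, hk⟩ := (pCore_isPGroup p (G := S)) ⟨_, hQP hx⟩
  have hk' : x ^ (p ^ k) = 1 := by
    simpa only [Subgroup.coe_pow, Subgroup.coe_one] using congrArg Subtype.val hk
  exact Subgroup.mem_bot.2 (eq_one_of_pow_coprime (pow_card_of_mem hx) hk' (Nat.Coprime.pow_right k hQ'))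

end Cfsg.Agent.S1892
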