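import Cfsg.Statements.S1897
import Cfsg.Agent.Lib.Helper6U33

set_option autoImplicit false
open Cfsg

namespace Cfsg.Agent.S1897

open Cfsg.Agent.Lib.Helper6SL2Hom Cfsg.Agent.Lib.Helper6SL2HomP Cfsg.Agent.Lib.Helper6Transport
open Cfsg.Agent.Lib.Helper6U33

theorem mem_SU {F : Type*} [Field F] [CharP F 3] (g : Matrix.SpecialLinearGroup (Fin 3) F)
    (h : IsU g) : g ∈ Cfsg.SU 3 F 3 := by
  intro u v
  have hm : (slToMat 3 F) g = g.1 := rfl
  rw [hm]
  have key : (fun i => ((g.1.mulVec v) i) ^ 3)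
      = (g.1.map (fun x => x ^ 3)).mulVec (fun i => v i ^ 3) := by
    ext i
    simp only [Matrix.mulVec, dotProduct, Matrix.map_apply]
    rw [sum_pow_char]
    simp only [mul_pow]
  have h1 : hermForm 3 F 3 (g.1.mulVec u) (g.1.mulVec v)
      = dotProduct (g.1.mulVec u) (fun i => ((g.1.mulVec v) i) ^ 3) := rfl
  have h2 : hermForm 3 F 3 u v = dotProduct u (fun i => v i ^ 3) := rfl
  rw [h1, h2, key, ← Matrix.vecMul_transpose, ← Matrix.dotProduct_mulVec, Matrix.mulVec_mulVec]
  unfold IsU at h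
  rw [h, Matrix.one_mulVec]

theorem isU_map {F : Type*} [Field F] (e : F9 ≃+* F) (M : S3) (h : IsU M) : IsU (slEquiv e M) := by
  unfold IsU at h ⊢
  have h1 : (slEquiv e M).1 = M.1.map e := rfl
  rw [h1]
  have h2 : (M.1.map e).map (fun x => x ^ 3) = (M.1.map (fun x => x ^ 3)).map e := by
    ext i j
    simp
  rw [h2, ← Matrix.transpose_map, ← Matrix.map_mul, h]
  simp

theorem f0_mem {F : Type*} [Field F] [CharP F 3] (e : F9 ≃+* F) (a b c d : ZMod 7) :
    slEquiv e (f0 a b c d) ∈ Cfsg.SU 3 F 3 := by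
  unfold f0
  split_ifs
  · rw [map_mul]
    exact mul_mem (mem_SU _ (isU_map e _ (Hh_isU _))) (mem_SU _ (isU_map e _ (Xp_isU _)))
  · rw [map_mul, map_mul]
    exact mul_mem (mul_mem (mem_SU _ (isU_map e _ (Xp_isU _))) (mem_SU _ (isU_map e _ (Vv_isU _))))
      (mem_SU _ (isU_map e _ (Xp_isU _)))

/-- The projective special unitary group PSU₃(3) (realised over the field with 9 elements) has a subgroup isomorphic to PSL₂(7). -/
theorem result {F : Type*} [Field F] [Fintype F] (hF : Fintype.card F = 9)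
    {K : Type*} [Field K] [Fintype K] (hK : Fintype.card K = 7) :
    ∃ H : Subgroup (Cfsg.PSU 3 F 3), Nonempty (H ≃* Matrix.ProjectiveSpecialLinearGroup (Fin 2) K) := by
  have : Fact (Nat.Prime 7) := ⟨by norm_num⟩
  obtain ⟨e1⟩ := nonempty_pslEquiv (n := Fin 2) (F := ZMod 7) (K := K) (by rw [hK, ZMod.card])
  have e : F9 ≃+* F := FiniteField.ringEquivOfCardEq (by rw [hF, card_F9])
  have hc9 : CharP F9 3 := charP_of_injective_algebraMap (algebraMap (ZMod 3) F9).injective 3
  have hcF : CharP F 3 := charP_of_injective_ringHom (f := e.toRingHom) e.injective 3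
  obtain ⟨φ, hφ⟩ := exists_hom_of_entries_zmod 7 f0 f0_one f0_X f0_Y
  let Φ : Matrix.SpecialLinearGroup (Fin 2) (ZMod 7) →* Cfsg.SU 3 F 3 :=
    ((slEquiv e).toMonoidHom.comp φ).codRestrict _ (fun g => by
      simp only [MonoidHom.comp_apply, MulEquiv.coe_toMonoidHom]
      rw [hφ]
      exact f0_mem e _ _ _ _)
  have hΦ : ∀ g, (Φ g).1 = slEquiv e (f0 (g 0 0) (g 0 1) (g 1 0) (g 1 1)) := by
    intro g
    rw [← hφ]
    rfl
  let φ' : Matrix.SpecialLinearGroup (Fin 2) (ZMod 7) →* Cfsg.PSU 3 F 3 :=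
    (QuotientGroup.mk' _).comp Φ
  obtain ⟨ψ, hψ⟩ := exists_injective_hom_PSL (F := ZMod 7) (by simp) φ'
    (by
      intro g h1 h2 h3 h4
      simp only [φ', MonoidHom.comp_apply]
      have : Φ g = 1 := by
        apply Subtype.ext
        rw [hΦ, h1, h2, h3, h4, f0_neg, map_one]
        rfl
      rw [this, map_one])
    ⟨Matrix.SpecialLinearGroup.transvection (zero_ne_one : (0 : Fin 2) ≠ 1) 1, by
      simp only [φ', MonoidHom.comp_apply]
      intro h
      rw [QuotientGroup.mk'_apply, QuotientGroup.eq_one_iff, Subgroup.mem_center_iff] at h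
      have h2 := h (Φ (Matrix.SpecialLinearGroup.transvection (one_ne_zero : (1 : Fin 2) ≠ 0) 1))
      have h3 := congrArg Subtype.val h2
      rw [Subgroup.coe_mul, Subgroup.coe_mul, hΦ, hΦ, T01_entries, T10_entries, ← map_mul,
        ← map_mul] at h3
      have h4 := (slEquiv e).injective h3
      exact f0_ncomm (by simpa using h4.symm)⟩
  exact ⟨ψ.range, ⟨(MonoidHom.ofInjective hψ).symm.trans e1⟩⟩

end Cfsg.Agent.S1897
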