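import Cfsg.Statements.S1898
import Mathlib

set_option autoImplicit false
open Cfsg

namespace Cfsg.Agent.S1898

theorem mul_pow_four {X : Type*} [Group X] (x y c : X) (hc : ∀ g, c * g = g * c) (hc2 : c * c = 1)
    (h : y * x = c * (x * y)) : (x * y) ^ 4 = x ^ 4 * y ^ 4 := by
  have e1 : (x * y) * (x * y) = c * (x * x * (y * y)) := by
    calc (x * y) * (x * y) = x * (y * x) * y := by group
      _ = x * (c * (x * y)) * y := by rw [h]
      _ = (x * c) * (x * y * y) := by group
      _ = (c * x) * (x * y * y) := by rw [hc x]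
      _ = c * (x * x * (y * y)) := by group
  have e2 : (y * y) * (x * x) = (x * x) * (y * y) := by
    calc (y * y) * (x * x) = y * (y * x) * x := by group
      _ = y * (c * (x * y)) * x := by rw [h]
      _ = (y * c) * x * (y * x) := by group
      _ = (c * y) * x * (y * x) := by rw [hc y]
      _ = c * (y * x) * (y * x) := by group
      _ = c * (c * (x * y)) * (c * (x * y)) := by rw [h]
      _ = (c * c) * ((x * y) * c) * (x * y) := by group
      _ = (c * c) * (c * (x * y)) * (x * y) := by rw [hc (x * y)]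
      _ = (c * c) * c * ((x * y) * (x * y)) := by group
      _ = (c * c) * c * (c * (x * x * (y * y))) := by rw [e1]
      _ = (c * c) * (c * c) * (x * x * (y * y)) := by group
      _ = x * x * (y * y) := by rw [hc2]; group
  calc (x * y) ^ 4 = ((x * y) * (x * y)) * ((x * y) * (x * y)) := by
        simp only [pow_succ, pow_zero, one_mul, mul_assoc]
    _ = (c * (x * x * (y * y))) * (c * (x * x * (y * y))) := by rw [e1]
    _ = c * ((x * x * (y * y)) * c) * (x * x * (y * y)) := by group
    _ = c * (c * (x * x * (y * y))) * (x * x * (y * y)) := by rw [hc (x * x * (y * y))]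
    _ = (c * c) * (x * x) * ((y * y) * (x * x)) * (y * y) := by group
    _ = x ^ 4 * y ^ 4 := by rw [hc2, e2]; simp only [pow_succ, pow_zero, one_mul, mul_assoc]

theorem step {X : Type*} [Group X]
    (hel : ∀ a ∈ commutator X, a ^ 2 = 1) (ψ : MulAut X) (k : ℕ) (hk : 2 ≤ k)
    (hψ : ∀ g : X, g ^ (2 ^ k) = 1 → ψ g = g) (x : X) (hx : x ^ (2 ^ (k + 1)) = 1) :
    (ψ ^ 4) x = x := by
  have h1 : ψ (x ^ 2) = x ^ 2 := by
    apply hψ
    rw [← pow_mul, ← pow_succ']
    exact hx
  obtain ⟨c, hcdef⟩ : ∃ c, c = x⁻¹ * ψ x := ⟨_, rfl⟩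
  have hψx : ψ x = x * c := by rw [hcdef]; group
  have h2 : (x * c) * (x * c) = x * x := by
    rw [← hψx, ← map_mul, ← pow_two, h1, pow_two]
  have h3 : x * c * x⁻¹ = c⁻¹ := by
    have : c * x * c = x := by
      have h4 : x * (c * x * c) = x * x := by rw [← h2]; group
      exact mul_left_cancel h4
    calc x * c * x⁻¹ = c⁻¹ * (c * x * c) * x⁻¹ := by group
      _ = c⁻¹ := by rw [this]; group
  have h5 : x * c * x⁻¹ * c⁻¹ ∈ commutator X := by
    rw [commutator_def]
    exact Subgroup.commutator_mem_commutator (Subgroup.mem_top x) (Subgroup.mem_top c)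
  have h6 : c ^ 4 = 1 := by
    have := hel _ h5
    rw [h3] at this
    have h7 : (c ^ 4)⁻¹ = 1 := by rw [← this]; group
    exact inv_eq_one.1 h7
  have h8 : ψ c = c := by
    apply hψ
    obtain ⟨m, rfl⟩ : ∃ m, k = 2 + m := ⟨k - 2, by omega⟩
    rw [pow_add, pow_mul]
    norm_num
    rw [h6, one_pow]
  have h9 : ∀ j : ℕ, (ψ ^ j) x = x * c ^ j := by
    intro j
    induction j with
    | zero => simp
    | succ j ih =>
      rw [pow_succ', MulAut.mul_apply, ih, map_mul, map_pow, h8, hψx, pow_succ']
      group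
  rw [h9, h6, mul_one]

/-- Let X be a finite 2-group whose derived subgroup is elementary abelian and central. Then the subgroup generated by the elements of order dividing 4 has exponent dividing 4, and every automorphism of X fixing each element of order dividing 4 has 2-power order. -/
theorem result {X : Type*} [Group X] [Finite X] (hX : IsPGroup 2 X)
    (hel : Cfsg.IsElementaryAbelian 2 (commutator X)) (hcen : commutator X ≤ Subgroup.center X) :
    (∀ x ∈ Subgroup.closure {g : X | g ^ 4 = 1}, x ^ 4 = 1) ∧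
      ∀ φ : MulAut X, (∀ g : X, g ^ 4 = 1 → φ g = g) → ∃ k : ℕ, φ ^ (2 ^ k) = 1 := by
  have hel2 : ∀ a ∈ commutator X, a ^ 2 = 1 := hel.2
  constructor
  · intro x hx
    induction hx using Subgroup.closure_induction with
    | mem x hx => exact hx
    | one => simp
    | mul x y _ _ hx hy =>
      have hmem : y * x * y⁻¹ * x⁻¹ ∈ commutator X := by
        rw [commutator_def]
        exact Subgroup.commutator_mem_commutator (Subgroup.mem_top y) (Subgroup.mem_top x)
      have hc : ∀ g, (y * x * y⁻¹ * x⁻¹) * g = g * (y * x * y⁻¹ * x⁻¹) := fun g =>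
        (Subgroup.mem_center_iff.1 (hcen hmem) g).symm
      have hc2 : (y * x * y⁻¹ * x⁻¹) * (y * x * y⁻¹ * x⁻¹) = 1 := by
        rw [← pow_two]; exact hel2 _ hmem
      rw [mul_pow_four x y _ hc hc2 (by group), hx, hy, one_mul]
    | inv x _ hx => rw [inv_pow, hx, inv_one]
  · intro φ hφ
    have main : ∀ j : ℕ, ∀ g : X, g ^ (2 ^ (2 + j)) = 1 → (φ ^ (4 ^ j)) g = g := by
      intro j
      induction j with
      | zero => intro g hg; simpa using hφ g (by simpa using hg)
      | succ j ih =>
        intro g hg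
        have := step hel2 (φ ^ (4 ^ j)) (2 + j) (by omega) ih g hg
        rwa [← pow_mul, ← pow_succ] at this
    obtain ⟨n, hn⟩ := IsPGroup.iff_card.1 hX
    refine ⟨2 * n, ?_⟩
    ext g
    have h4 : (2 : ℕ) ^ (2 * n) = 4 ^ n := by rw [pow_mul]; norm_num
    rw [h4, main n g, MulAut.one_apply]
    rw [add_comm, pow_add, pow_mul, ← hn, pow_card_eq_one', one_pow]

end Cfsg.Agent.S1898
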