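import Cfsg.Statements.S1899
import Mathlib

set_option autoImplicit false
open Cfsg

namespace Cfsg.Agent.S1899

theorem card_mul_le_of_disjoint {A : Type*} [Group A] [Finite A] (H K : Subgroup A) (h : Disjoint H K) :
    Nat.card H * Nat.card K ≤ Nat.card A := by
  rw [← Nat.card_prod]
  exact Nat.card_le_card_of_injective _ (Subgroup.mul_injective_of_disjoint h)

/-- Let a dihedral group of order 2n, n odd and n > 1, act on a finite abelian 2-group A through automorphisms d and t with d^n = 1, t² = 1 and t d t⁻¹ = d⁻¹, and suppose that d fixes only the identity. Then A is the internal direct product of C_A(t) and its image under d. -/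
theorem result {A : Type*} [CommGroup A] [Finite A] (hA : IsPGroup 2 A)
    {n : ℕ} (hn : Odd n) (hn1 : 1 < n) (d t : MulAut A) (hd : d ^ n = 1) (ht : t ^ 2 = 1) (hdt : t * d * t⁻¹ = d⁻¹)
    (hfix : ∀ a : A, d a = a → a = 1) :
    (MulEquiv.toMonoidHom t).eqLocus (MonoidHom.id A) ⊓ ((MulEquiv.toMonoidHom t).eqLocus (MonoidHom.id A)).map d.toMonoidHom = ⊥ ∧
      (MulEquiv.toMonoidHom t).eqLocus (MonoidHom.id A) ⊔ ((MulEquiv.toMonoidHom t).eqLocus (MonoidHom.id A)).map d.toMonoidHom = ⊤ := by
  -- basic relations
  have htd : ∀ a : A, t (d a) = d⁻¹ (t a) := by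
    intro a
    have h1 : t * d = d⁻¹ * t := by
      calc t * d = (t * d * t⁻¹) * t := by group
        _ = d⁻¹ * t := by rw [hdt]
    have := congrArg (fun f : MulAut A => f a) h1
    simpa [MulAut.mul_apply] using this
  have htt : ∀ a : A, t (t a) = a := by
    intro a
    have := congrArg (fun f : MulAut A => f a) ht
    simpa [pow_two, MulAut.mul_apply] using this
  -- d a = d⁻¹ a implies a = 1
  have key : ∀ a b : A, a = d b → a = d⁻¹ b → a = 1 := by
    intro a b h1 h2
    have h3 : d (d a) = a := by
      have : d a = b := by rw [h2]; simp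
      rw [this, ← h1]
    apply hfix
    obtain ⟨m, rfl⟩ := hn
    have h4 : ∀ j : ℕ, (d ^ (2 * j)) a = a := by
      intro j
      induction j with
      | zero => simp
      | succ j ih =>
        have : 2 * (j + 1) = 2 * j + 1 + 1 := by ring
        rw [this, pow_succ, pow_succ, MulAut.mul_apply, MulAut.mul_apply, h3, ih]
    have h5 : (d ^ (2 * m + 1)) a = a := by rw [hd]; simp
    rw [pow_succ', MulAut.mul_apply, h4] at h5
    exact h5
  set C : Subgroup A := (MulEquiv.toMonoidHom t).eqLocus (MonoidHom.id A) with hC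
  have memC : ∀ a : A, a ∈ C ↔ t a = a := by
    intro a; rfl
  have hdisj : C ⊓ C.map d.toMonoidHom = ⊥ := by
    rw [eq_bot_iff]
    rintro a ⟨ha1, ha2⟩
    obtain ⟨b, hb, hba⟩ := ha2
    have hb' : t b = b := (memC b).1 hb
    have ha' : t a = a := (memC a).1 ha1
    have hba' : a = d b := hba.symm
    have : a = d⁻¹ b := by
      rw [← ha', hba', htd, hb']
    exact (Subgroup.mem_bot).2 (key a b hba' this)
  refine ⟨hdisj, ?_⟩
  -- the norm map
  let N : A →* A := { toFun := fun a => a * t a, map_one' := by simp, map_mul' := by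
                        intro a b; simp only [map_mul]; exact mul_mul_mul_comm a b (t a) (t b) }
  have hNrange : N.range ≤ C := by
    rintro _ ⟨a, rfl⟩
    rw [memC]
    change t (a * t a) = a * t a
    rw [map_mul, htt, mul_comm]
  have memI : ∀ a : A, a ∈ N.ker ↔ t a = a⁻¹ := by
    intro a
    rw [MonoidHom.mem_ker]
    change a * t a = 1 ↔ _
    rw [mul_eq_one_iff_eq_inv', eq_comm]
  have hdisjI : N.ker ⊓ N.ker.map d.toMonoidHom = ⊥ := by
    rw [eq_bot_iff]
    rintro a ⟨ha1, ha2⟩
    obtain ⟨b, hb, hba⟩ := ha2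
    have hb' : t b = b⁻¹ := (memI b).1 hb
    have ha' : t a = a⁻¹ := (memI a).1 ha1
    have hba' : a = d b := hba.symm
    have : a = d⁻¹ b := by
      have h1 : a⁻¹ = (d⁻¹ b)⁻¹ := by
        rw [← ha', hba', htd, hb', map_inv]
      exact inv_injective h1
    exact (Subgroup.mem_bot).2 (key a b hba' this)
  have hinj : Function.Injective d.toMonoidHom := d.injective
  have c1 : Nat.card C * Nat.card C ≤ Nat.card A := by
    have := card_mul_le_of_disjoint C (C.map d.toMonoidHom) (disjoint_iff.2 hdisj)
    rwa [Subgroup.card_map_of_injective hinj] at this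
  have c2 : Nat.card N.ker * Nat.card N.ker ≤ Nat.card A := by
    have := card_mul_le_of_disjoint N.ker (N.ker.map d.toMonoidHom) (disjoint_iff.2 hdisjI)
    rwa [Subgroup.card_map_of_injective hinj] at this
  have c3 : Nat.card A ≤ Nat.card N.ker * Nat.card C := by
    rw [← N.ker.card_mul_index, Subgroup.index_ker]
    exact Nat.mul_le_mul_left _ (Subgroup.card_le_of_le hNrange)
  have hpos : 0 < Nat.card A := Nat.card_pos
  have c4 : Nat.card C * Nat.card C = Nat.card A := by
    apply le_antisymm c1
    by_contra hlt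
    rw [not_le] at hlt
    nlinarith [Nat.mul_le_mul c3 c3, Nat.mul_le_mul c2 c1]
  have hcompl : Subgroup.IsComplement' C (C.map d.toMonoidHom) := by
    apply Subgroup.isComplement'_of_card_mul_and_disjoint _ (disjoint_iff.2 hdisj)
    rw [Subgroup.card_map_of_injective hinj, c4]
  exact hcompl.sup_eq_top

end Cfsg.Agent.S1899
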