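import Cfsg.Statements.S1900
import Mathlib
import Cfsg.Agent.Lib.Helper30Gen

set_option autoImplicit false
open Cfsg

namespace Cfsg.Agent.S1900

open Subgroup

section aux
variable {S : Type*} [Group S]

/-- fixed points of `x` in `P` -/
abbrev fx (P : Subgroup S) (x : S) : Subgroup S := P ⊓ centralizer {x}

theorem mem_fx {P : Subgroup S} {x a : S} : a ∈ fx P x ↔ a ∈ P ∧ x * a = a * x := by
  rw [Subgroup.mem_inf, mem_centralizer_singleton_iff, eq_comm]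

def Hyp (q : ℕ) (x₁ x₂ : S) (P : Subgroup S) : Prop :=
  x₁ ∈ normalizer (P : Set S) ∧ x₂ ∈ normalizer (P : Set S) ∧
    ∀ i j : ℕ, ¬ q ∣ i → ¬ q ∣ j → fx P (x₁ ^ i * x₂ ^ j) = ⊥

theorem Hyp.symm {q : ℕ} {x₁ x₂ : S} {P : Subgroup S} (hc : Commute x₁ x₂) (h : Hyp q x₁ x₂ P) :
    Hyp q x₂ x₁ P := by
  refine ⟨h.2.1, h.1, fun i j hi hj => ?_⟩
  rw [(hc.symm.pow_pow i j).eq]
  exact h.2.2 j i hj hi

theorem conj_mem_fx {P : Subgroup S} {x y a : S} (hc : Commute x y) (ha : a ∈ fx P x)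
    (hy : y ∈ normalizer (P : Set S)) : y * a * y⁻¹ ∈ fx P x := by
  rw [mem_fx] at ha ⊢
  refine ⟨(mem_normalizer_iff.1 hy a).1 ha.1, ?_⟩
  have h1 : Commute x a := ha.2
  exact ((hc.mul_right h1).mul_right hc.inv_right).eq

theorem inf_fx_eq_bot {q : ℕ} (hq : q.Prime) {x₁ x₂ : S} {P : Subgroup S} (h : Hyp q x₁ x₂ P) :
    fx P x₁ ⊓ fx P x₂ = ⊥ := by
  have h1 : ¬ q ∣ 1 := fun hd => hq.one_lt.ne' (Nat.dvd_one.1 hd)
  rw [eq_bot_iff, ← h.2.2 1 1 h1 h1]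
  intro a ha
  have ha1 := mem_fx.1 ha.1
  have ha2 := mem_fx.1 ha.2
  rw [mem_fx, pow_one, pow_one]
  refine ⟨ha1.1, ?_⟩
  have c1 : Commute x₁ a := ha1.2
  have c2 : Commute x₂ a := ha2.2
  exact (c1.mul_left c2).eq

theorem gen2 [Finite S] {p q : ℕ} [Fact p.Prime] [Fact q.Prime] (hpq : p ≠ q) {x₁ x₂ : S} (hc : Commute x₁ x₂)
    (h₁ : x₁ ^ q = 1) (h₂ : x₂ ^ q = 1) {P : Subgroup S} (hP : IsPGroup p P) (h : Hyp q x₁ x₂ P) :
    P ≤ fx P x₁ ⊔ fx P x₂ := by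
  have hcop : (Nat.card P).Coprime q := by
    obtain ⟨k, hk⟩ := hP.exists_card_eq
    rw [hk]
    exact Nat.Coprime.pow_left k ((Nat.coprime_primes Fact.out Fact.out).2 hpq)
  refine (Cfsg.Agent.Lib.Helper30Gen.le_gen hc h₁ h₂ hcop h.1 h.2.1).trans ?_
  unfold Cfsg.Agent.Lib.Helper30Gen.gen
  apply sup_le le_sup_left
  apply iSup_le
  intro j
  by_cases hj : q ∣ j
  · obtain ⟨k, rfl⟩ := hj
    rw [pow_mul, h₁, one_pow, mul_one]
    exact le_sup_right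
  · have h1 : ¬ q ∣ 1 := fun hd => (Fact.out : q.Prime).one_lt.ne' (Nat.dvd_one.1 hd)
    have := h.2.2 j 1 hj h1
    rw [pow_one, (hc.pow_left j).eq] at this
    change fx P (x₂ * x₁ ^ j) ≤ _
    rw [this]
    exact bot_le

theorem card_lt_of_lt' [Finite S] {H K : Subgroup S} (h : H < K) : Nat.card H < Nat.card K := by
  refine lt_of_le_of_ne (Subgroup.card_le_of_le h.le) ?_
  intro he
  exact h.ne (Subgroup.eq_of_le_of_card_ge h.le he.ge)

theorem mem_sup_iff' {N A : Subgroup S} (h : A ≤ Subgroup.normalizer (N : Set S)) {x : S} :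
    x ∈ N ⊔ A ↔ ∃ n ∈ N, ∃ a ∈ A, x = n * a := by
  rw [← SetLike.mem_coe, Subgroup.coe_mul_of_right_le_normalizer_left N A h, Set.mem_mul]
  constructor
  · rintro ⟨n, hn, a, ha, rfl⟩; exact ⟨n, hn, a, ha, rfl⟩
  · rintro ⟨n, hn, a, ha, rfl⟩; exact ⟨n, hn, a, ha, rfl⟩

/-- a proper subgroup of a `p`-group lies in a proper normal subgroup -/
theorem exists_normal_proper [Finite S] {p : ℕ} [Fact p.Prime] {P H : Subgroup S} (hP : IsPGroup p P) (hH : H < P) :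
    ∃ M : Subgroup S, H ≤ M ∧ M < P ∧ ∀ g ∈ P, ∀ a ∈ M, g * a * g⁻¹ ∈ M := by
  have hnil : Group.IsNilpotent P := hP.isNilpotent
  have hne : H.subgroupOf P ≠ ⊤ := by
    intro h
    exact hH.not_ge (subgroupOf_eq_top.1 h)
  obtain ⟨M', hM', hle⟩ := (eq_top_or_exists_le_coatom (H.subgroupOf P)).resolve_left hne
  have hn : M'.Normal := NormalizerCondition.normal_of_coatom M' Group.normalizerCondition_of_isNilpotent hM'
  refine ⟨M'.map P.subtype, ?_, ?_, ?_⟩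
  · intro a ha
    exact ⟨⟨a, hH.le ha⟩, hle (mem_subgroupOf.2 ha), rfl⟩
  · refine lt_of_le_of_ne (map_subtype_le _) ?_
    intro h
    apply hM'.1
    rw [eq_top_iff]
    intro y _
    have : (y : S) ∈ M'.map P.subtype := by rw [h]; exact y.2
    obtain ⟨w, hw, hwy⟩ := this
    have : w = y := Subtype.ext hwy
    rwa [← this]
  · rintro g hg _ ⟨a, ha, rfl⟩
    exact ⟨⟨g, hg⟩ * a * ⟨g, hg⟩⁻¹, hn.conj_mem a ha _, rfl⟩

theorem step [Finite S] {p q : ℕ} [Fact p.Prime] [Fact q.Prime] (hpq : p ≠ q) {x₁ x₂ : S} (hc : Commute x₁ x₂)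
    (h₁ : x₁ ^ q = 1) (h₂ : x₂ ^ q = 1) {P : Subgroup S} (hP : IsPGroup p P) (h : Hyp q x₁ x₂ P)
    (IH : ∀ N : Subgroup S, N < P → Hyp q x₁ x₂ N → ∀ a ∈ fx N x₁, ∀ c ∈ fx N x₂, a * c = c * a) :
    ∀ b ∈ fx P x₂, ∀ a ∈ fx P x₁, b * a * b⁻¹ ∈ fx P x₁ := by
  intro b hb a ha
  by_cases htop : fx P x₁ = P
  · have hb' : b ∈ fx P x₁ := by rw [htop]; exact hb.1
    exact mul_mem (mul_mem hb' ha) (inv_mem hb')
  have hlt : fx P x₁ < P := lt_of_le_of_ne inf_le_left htop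
  obtain ⟨M, hM1, hM2, hM3⟩ := exists_normal_proper hP hlt
  set Gen : Set S := {y | ∃ g ∈ P, ∃ a ∈ fx P x₁, y = g * a * g⁻¹} with hGen
  set N := closure Gen with hN
  have hNM : N ≤ M := by
    rw [hN, closure_le]
    rintro _ ⟨g, hg, a, ha, rfl⟩
    exact hM3 g hg a (hM1 ha)
  have hNP : N < P := lt_of_le_of_lt hNM hM2
  have hinv : ∀ x : S, Commute x₁ x → x ∈ normalizer (P : Set S) → x ∈ normalizer (N : Set S) := by
    intro x hcx hx
    apply normalizer_le_normalizer_closure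
    apply mem_normalizer_fintype
    rintro _ ⟨g, hg, a, ha, rfl⟩
    refine ⟨x * g * x⁻¹, (mem_normalizer_iff.1 hx g).1 hg, x * a * x⁻¹, conj_mem_fx hcx ha hx, by group⟩
  have hHN : Hyp q x₁ x₂ N := by
    refine ⟨hinv x₁ (Commute.refl _) h.1, hinv x₂ hc h.2.1, fun i j hi hj => ?_⟩
    rw [eq_bot_iff, ← h.2.2 i j hi hj]
    exact inf_le_inf_right _ hNP.le
  have hIH := IH N hNP hHN
  have hgenN := gen2 hpq hc h₁ h₂ (hP.to_le hNP.le) hHN
  -- surjectivity of the commutator map with x₂ on the fixed points of x₁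
  have hsurj : ∃ a₀ ∈ fx P x₁, a = a₀⁻¹ * (x₂ * a₀ * x₂⁻¹) := by
    let θ : fx P x₁ → fx P x₁ := fun u => ⟨(u : S)⁻¹ * (x₂ * u * x₂⁻¹),
      mul_mem (inv_mem u.2) (conj_mem_fx hc u.2 h.2.1)⟩
    have hθ : Function.Injective θ := by
      intro u v huv
      have e : (u : S)⁻¹ * (x₂ * u * x₂⁻¹) = (v : S)⁻¹ * (x₂ * v * x₂⁻¹) := congrArg Subtype.val huv
      have hw : (v : S) * (u : S)⁻¹ ∈ fx P x₁ ⊓ fx P x₂ := by
        refine Subgroup.mem_inf.2 ⟨mul_mem v.2 (inv_mem u.2), ?_⟩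
        rw [mem_fx]
        refine ⟨mul_mem v.2.1 (inv_mem u.2.1), ?_⟩
        have e2 : x₂ * ((v : S) * (u : S)⁻¹) * x₂⁻¹ = (v : S) * (u : S)⁻¹ := by
          have e3 : x₂ * (v : S) * x₂⁻¹ = (v : S) * ((u : S)⁻¹ * (x₂ * u * x₂⁻¹)) := by
            rw [e]; group
          calc x₂ * ((v : S) * (u : S)⁻¹) * x₂⁻¹ = (x₂ * (v : S) * x₂⁻¹) * (x₂ * u * x₂⁻¹)⁻¹ := by group
            _ = _ := by rw [e3]; group
        calc x₂ * ((v : S) * (u : S)⁻¹) = (x₂ * ((v : S) * (u : S)⁻¹) * x₂⁻¹) * x₂ := by group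
          _ = _ := by rw [e2]
      rw [inf_fx_eq_bot Fact.out h, mem_bot] at hw
      exact Subtype.ext (eq_of_mul_inv_eq_one hw).symm
    obtain ⟨a₀, ha₀⟩ := (Finite.injective_iff_surjective.1 hθ) ⟨a, ha⟩
    exact ⟨a₀, a₀.2, (congrArg Subtype.val ha₀).symm⟩
  obtain ⟨a₀, ha₀, rfl⟩ := hsurj
  have hbx : x₂ * b = b * x₂ := (mem_fx.1 hb).2
  have hn : b * a₀ * b⁻¹ ∈ N := subset_closure ⟨b, hb.1, a₀, ha₀, rfl⟩
  have hnorm : fx N x₂ ≤ normalizer ((fx N x₁ : Subgroup S) : Set S) := by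
    intro c hcN
    rw [mem_normalizer_iff]
    intro u
    constructor
    · intro hu
      rw [← hIH u hu c hcN, mul_inv_cancel_right]; exact hu
    · intro hu
      have := hIH _ hu c hcN
      have e : u = c * u * c⁻¹ := by
        have e2 : c * u * c⁻¹ * c = c * u := by group
        rw [e2] at this
        exact mul_left_cancel this
      rw [e]; exact hu
  obtain ⟨a', ha', c, hcN, hdec⟩ := (mem_sup_iff' hnorm).1 (hgenN hn)
  have ha'P : a' ∈ fx P x₁ := inf_le_inf_right _ hNP.le ha'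
  have hcx : x₂ * c = c * x₂ := (mem_fx.1 hcN).2
  have hkey : b * (a₀⁻¹ * (x₂ * a₀ * x₂⁻¹)) * b⁻¹ = a'⁻¹ * (x₂ * a' * x₂⁻¹) := by
    have e1 : b * (a₀⁻¹ * (x₂ * a₀ * x₂⁻¹)) * b⁻¹ = (b * a₀ * b⁻¹)⁻¹ * (x₂ * (b * a₀ * b⁻¹) * x₂⁻¹) := by
      have hb1 : x₂ * b = b * x₂ := hbx
      have hb2 : b⁻¹ * x₂⁻¹ = x₂⁻¹ * b⁻¹ := by rw [← mul_inv_rev, ← mul_inv_rev, hb1]
      calc b * (a₀⁻¹ * (x₂ * a₀ * x₂⁻¹)) * b⁻¹ = b * a₀⁻¹ * b⁻¹ * ((b * x₂) * a₀ * (x₂⁻¹ * b⁻¹)) := by group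
        _ = b * a₀⁻¹ * b⁻¹ * ((x₂ * b) * a₀ * (b⁻¹ * x₂⁻¹)) := by rw [hb1, hb2]
        _ = _ := by group
    rw [e1, hdec]
    have hw : a'⁻¹ * (x₂ * a' * x₂⁻¹) ∈ fx N x₁ := mul_mem (inv_mem ha') (conj_mem_fx hc ha' hHN.2.1)
    have hcomm := hIH _ hw c hcN
    have hc2 : c * x₂⁻¹ = x₂⁻¹ * c := by
      have : Commute x₂ c := hcx
      exact this.inv_left.symm.eq
    calc (a' * c)⁻¹ * (x₂ * (a' * c) * x₂⁻¹) = c⁻¹ * (a'⁻¹ * (x₂ * a' * (c * x₂⁻¹))) := by group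
      _ = c⁻¹ * (a'⁻¹ * (x₂ * a' * (x₂⁻¹ * c))) := by rw [hc2]
      _ = c⁻¹ * ((a'⁻¹ * (x₂ * a' * x₂⁻¹)) * c) := by group
      _ = c⁻¹ * (c * (a'⁻¹ * (x₂ * a' * x₂⁻¹))) := by rw [hcomm]
      _ = _ := by group
  rw [hkey]
  exact mul_mem (inv_mem ha'P) (conj_mem_fx hc ha'P h.2.1)

theorem comm_main [Finite S] {p q : ℕ} [Fact p.Prime] [Fact q.Prime] (hpq : p ≠ q) {x₁ x₂ : S} (hc : Commute x₁ x₂)
    (h₁ : x₁ ^ q = 1) (h₂ : x₂ ^ q = 1) : ∀ (n : ℕ) (P : Subgroup S), Nat.card P = n → IsPGroup p P → Hyp q x₁ x₂ P →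
      ∀ a ∈ fx P x₁, ∀ c ∈ fx P x₂, a * c = c * a := by
  intro n
  induction n using Nat.strong_induction_on with
  | _ n ih =>
    intro P hn hP h a ha c hcP
    have IH : ∀ N : Subgroup S, N < P → Hyp q x₁ x₂ N → ∀ a ∈ fx N x₁, ∀ c ∈ fx N x₂, a * c = c * a := by
      intro N hN hHN
      exact ih (Nat.card N) (hn ▸ card_lt_of_lt' hN) N rfl (hP.to_le hN.le) hHN
    have IH' : ∀ N : Subgroup S, N < P → Hyp q x₂ x₁ N → ∀ a ∈ fx N x₂, ∀ c ∈ fx N x₁, a * c = c * a := by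
      intro N hN hHN a ha c hc'
      exact (IH N hN (hHN.symm hc.symm) c hc' a ha).symm
    have s1 := step hpq hc h₁ h₂ hP h IH c hcP a⁻¹ (inv_mem ha)
    have s2 := step hpq hc.symm h₂ h₁ hP (h.symm hc) IH' a ha c hcP
    have hw : a * c * a⁻¹ * c⁻¹ ∈ fx P x₁ ⊓ fx P x₂ := by
      apply Subgroup.mem_inf.2
      constructor
      · have : a * c * a⁻¹ * c⁻¹ = a * (c * a⁻¹ * c⁻¹) := by group
        rw [this]; exact mul_mem ha s1
      · exact mul_mem s2 (inv_mem hcP)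
    rw [inf_fx_eq_bot Fact.out h, mem_bot] at hw
    calc a * c = (a * c * a⁻¹ * c⁻¹) * (c * a) := by group
      _ = c * a := by rw [hw, one_mul]

end aux

/-- Let S = PQ be a finite group with P a normal Sylow p-subgroup and Q elementary abelian of order q², q a prime different from p. If exactly two subgroups X₁, X₂ of order q in Q have a nontrivial centralizer in P, then P is the internal direct product of C_P(X₁) and C_P(X₂): they commute elementwise, meet trivially and generate P. -/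
theorem result {S : Type*} [Group S] [Finite S] {p q : ℕ} [Fact p.Prime] [Fact q.Prime] (hpq : p ≠ q)
    (P : Sylow p S) [(P : Subgroup S).Normal] (Q : Subgroup S) (hQ : Cfsg.IsElementaryAbelian q Q) (hQc : Nat.card Q = q ^ 2)
    (hS : (P : Subgroup S) ⊔ Q = ⊤)
    (X₁ X₂ : Subgroup S) (h₁ : X₁ ≤ Q) (h₂ : X₂ ≤ Q) (h₁₂ : X₁ ≠ X₂) (hc₁ : Nat.card X₁ = q) (hc₂ : Nat.card X₂ = q)
    (hf₁ : (P : Subgroup S) ⊓ Subgroup.centralizer (X₁ : Set S) ≠ ⊥)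
    (hf₂ : (P : Subgroup S) ⊓ Subgroup.centralizer (X₂ : Set S) ≠ ⊥)
    (honly : ∀ X : Subgroup S, X ≤ Q → Nat.card X = q →
      (P : Subgroup S) ⊓ Subgroup.centralizer (X : Set S) ≠ ⊥ → X = X₁ ∨ X = X₂) :
    ⁅(P : Subgroup S) ⊓ Subgroup.centralizer (X₁ : Set S), (P : Subgroup S) ⊓ Subgroup.centralizer (X₂ : Set S)⁆ = ⊥ ∧
      ((P : Subgroup S) ⊓ Subgroup.centralizer (X₁ : Set S)) ⊓ ((P : Subgroup S) ⊓ Subgroup.centralizer (X₂ : Set S)) = ⊥ ∧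
      ((P : Subgroup S) ⊓ Subgroup.centralizer (X₁ : Set S)) ⊔ ((P : Subgroup S) ⊓ Subgroup.centralizer (X₂ : Set S)) = P := by
  have hqp : q.Prime := Fact.out
  have hgenX : ∀ X : Subgroup S, Nat.card X = q → ∃ x ∈ X, zpowers x = X := by
    intro X hX
    have hne : X ≠ ⊥ := by
      intro h
      rw [h, card_bot] at hX
      exact hqp.one_lt.ne hX
    obtain ⟨⟨x, hx⟩, hx1⟩ := X.ne_bot_iff_exists_ne_one.1 hne
    refine ⟨x, hx, ?_⟩
    have hle : zpowers x ≤ X := zpowers_le.2 hx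
    apply eq_of_le_of_card_ge hle
    have hd : Nat.card (zpowers x) ∣ q := hX ▸ card_dvd_of_le hle
    rcases (Nat.dvd_prime hqp).1 hd with h | h
    · exfalso
      apply hx1
      rw [Nat.card_zpowers, orderOf_eq_one_iff] at h
      exact Subtype.ext h
    · rw [hX, h]
  have hC : ∀ x : S, centralizer ((zpowers x : Subgroup S) : Set S) = centralizer {x} := by
    intro x
    apply le_antisymm
    · apply centralizer_le
      intro y hy
      rw [Set.mem_singleton_iff] at hy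
      rw [hy]; exact mem_zpowers x
    · intro g hg
      rw [mem_centralizer_singleton_iff] at hg
      rw [mem_centralizer_iff]
      rintro _ ⟨k, rfl⟩
      have : Commute g x := hg
      exact (this.zpow_right k).eq.symm
  obtain ⟨x₁, hx₁, hz₁⟩ := hgenX X₁ hc₁
  obtain ⟨x₂, hx₂, hz₂⟩ := hgenX X₂ hc₂
  subst hz₁
  subst hz₂
  have hQc := hQ.1
  have hcomm : Commute x₁ x₂ := congrArg Subtype.val (mul_comm' (⟨x₁, h₁ hx₁⟩ : Q) ⟨x₂, h₂ hx₂⟩)
  have e₁ : x₁ ^ q = 1 := hQ.2 x₁ (h₁ hx₁)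
  have e₂ : x₂ ^ q = 1 := hQ.2 x₂ (h₂ hx₂)
  have hA : ∀ (u v : S), u ^ q = 1 → Nat.card (zpowers u) = q → Nat.card (zpowers v) = q →
      zpowers u ≠ zpowers v → ∀ j : ℕ, ¬ q ∣ j → u ^ j ∉ zpowers v := by
    intro u v hu hcu hcv hne j hj hmem
    apply hne
    have hu' : u ∈ zpowers v :=
      Cfsg.Agent.Lib.Helper30Gen.mem_of_pow_mem hu ((Nat.Prime.coprime_iff_not_dvd hqp).2 hj) hmem
    apply eq_of_le_of_card_ge (zpowers_le.2 hu')
    rw [hcu, hcv]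
  have hHyp : Hyp q x₁ x₂ (P : Subgroup S) := by
    have hn : normalizer ((P : Subgroup S) : Set S) = ⊤ := normalizer_eq_top_iff.2 inferInstance
    refine ⟨hn ▸ mem_top _, hn ▸ mem_top _, fun i j hi hj => ?_⟩
    by_contra hne
    set y := x₁ ^ i * x₂ ^ j with hy
    have hyQ : y ∈ Q := mul_mem (pow_mem (h₁ hx₁) _) (pow_mem (h₂ hx₂) _)
    have hy1 : y ≠ 1 := by
      intro h
      apply hA x₂ x₁ e₂ hc₂ hc₁ h₁₂.symm j hj
      have : x₂ ^ j = (x₁ ^ i)⁻¹ := (eq_inv_of_mul_eq_one_right h)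
      rw [this]
      exact inv_mem (pow_mem (mem_zpowers _) _)
    have hycard : Nat.card (zpowers y) = q := by
      rw [Nat.card_zpowers]
      have hd : orderOf y ∣ q := orderOf_dvd_of_pow_eq_one (hQ.2 y hyQ)
      rcases (Nat.dvd_prime hqp).1 hd with h | h
      · exact absurd (orderOf_eq_one_iff.1 h) hy1
      · exact h
    rcases honly (zpowers y) (zpowers_le.2 hyQ) hycard (by rw [hC]; exact hne) with h | h
    · apply hA x₂ x₁ e₂ hc₂ hc₁ h₁₂.symm j hj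
      have hmem : y ∈ zpowers x₁ := h ▸ mem_zpowers y
      have : x₂ ^ j = (x₁ ^ i)⁻¹ * y := by rw [hy]; group
      rw [this]
      exact mul_mem (inv_mem (pow_mem (mem_zpowers _) _)) hmem
    · apply hA x₁ x₂ e₁ hc₁ hc₂ h₁₂ i hi
      have hmem : y ∈ zpowers x₂ := h ▸ mem_zpowers y
      have : x₁ ^ i = y * (x₂ ^ j)⁻¹ := by rw [hy]; group
      rw [this]
      exact mul_mem hmem (inv_mem (pow_mem (mem_zpowers _) _))
  rw [hC, hC]
  refine ⟨?_, inf_fx_eq_bot hqp hHyp, le_antisymm (sup_le inf_le_left inf_le_left)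
    (gen2 hpq hcomm e₁ e₂ P.2 hHyp)⟩
  rw [eq_bot_iff, commutator_le]
  intro a ha c hc
  rw [mem_bot, commutatorElement_eq_one_iff_mul_comm]
  exact comm_main hpq hcomm e₁ e₂ _ _ rfl P.2 hHyp a ha c hc

end Cfsg.Agent.S1900
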