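import Cfsg.Statements.S1901
import Mathlib
import Cfsg.Agent.Lib.Helper38PSolv
import Cfsg.Agent.Lib.Helper37Sylow

set_option autoImplicit false
open Cfsg

namespace Cfsg.Agent.S1901

universe u

open Cfsg.Agent.Lib.Helper38PSolv

theorem conj_pow_aux {G : Type*} [Group G] {x u z : G} (h : x * u * x⁻¹ = u * z) (hz : x * z = z * x) (k : ℕ) :
    x ^ k * u * (x ^ k)⁻¹ = u * z ^ k := by
  induction k with
  | zero => simp
  | succ k ih =>
    have hz' : x * z ^ k * x⁻¹ = z ^ k := by
      have : Commute x (z ^ k) := (show Commute x z from hz).pow_right k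
      rw [this.eq]; group
    calc x ^ (k + 1) * u * (x ^ (k + 1))⁻¹ = x * (x ^ k * u * (x ^ k)⁻¹) * x⁻¹ := by
          rw [pow_succ']; group
      _ = x * (u * z ^ k) * x⁻¹ := by rw [ih]
      _ = (x * u * x⁻¹) * (x * z ^ k * x⁻¹) := by group
      _ = u * z ^ (k + 1) := by rw [h, hz', pow_succ']; group

theorem eq_one_of_coprime {G : Type*} [Group G] {z : G} {a b : ℕ} (ha : z ^ a = 1) (hb : z ^ b = 1)
    (hab : a.Coprime b) : z = 1 := by
  have h1 : orderOf z ∣ a := orderOf_dvd_of_pow_eq_one ha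
  have h2 : orderOf z ∣ b := orderOf_dvd_of_pow_eq_one hb
  have : orderOf z ∣ 1 := by
    have := Nat.dvd_gcd h1 h2
    rwa [hab] at this
  exact orderOf_eq_one_iff.1 (Nat.dvd_one.1 this)

theorem mem_normalizer_of_conj_mem {G : Type*} [Group G] [Finite G] (H : Subgroup G) (x : G)
    (h : ∀ w ∈ H, x * w * x⁻¹ ∈ H) : x ∈ Subgroup.normalizer (H : Set G) := by
  rw [Subgroup.mem_normalizer_iff_map_conj_eq]
  apply Subgroup.eq_of_le_of_card_ge
  · rintro _ ⟨w, hw, rfl⟩
    exact h w hw
  · rw [Subgroup.card_map_of_injective (MulAut.conj x).injective]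

theorem core {p : ℕ} [Fact p.Prime] : ∀ n : ℕ, ∀ (G : Type u) [Group G] [Finite G], Nat.card G ≤ n →
    Cfsg.IsPSolvable p G → ∀ (Q : Subgroup G) (P : Sylow p G) (x : G), (Nat.card Q).Coprime p →
    Q ≤ Subgroup.normalizer ((P : Subgroup G) : Set G) →
    (∃ k : ℕ, x ^ (p ^ k) = 1) → (∀ u ∈ Q, x * u * x⁻¹ ∈ Q) → ∀ u ∈ Q, x * u * x⁻¹ = u := by
  intro n
  induction n with
  | zero =>
    intro G _ _ hcard
    exact absurd hcard (by have := Nat.card_pos (α := G); omega)
  | succ n ih =>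
    intro G _ _ hcard hsolv Q P x hQ hQP hx hxQ u hu
    rcases subsingleton_or_nontrivial G with hsub | hnt
    · exact Subsingleton.elim _ _
    obtain ⟨N, hN, hNbot, hNtype⟩ := exists_normal_of_isPSolvable hsolv
    have hcardlt : Nat.card (G ⧸ N) ≤ n := by
      have h1 := Subgroup.card_eq_card_quotient_mul_card_subgroup N
      have h2 : 1 < Nat.card N := by
        rw [Subgroup.one_lt_card_iff_ne_bot]; exact hNbot
      have h3 : 0 < Nat.card (G ⧸ N) := Nat.card_pos
      nlinarith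
    have hsurj := QuotientGroup.mk'_surjective N
    -- the induction hypothesis in the quotient
    have hquot : ∀ v ∈ Q, x * v * x⁻¹ * v⁻¹ ∈ N := by
      intro v hv
      have := ih (G ⧸ N) hcardlt (isPSolvable_quotient N hsolv) (Q.map (QuotientGroup.mk' N))
        (P.mapSurjective hsurj) (QuotientGroup.mk' N x)
        (Nat.Coprime.coprime_dvd_left (Subgroup.card_map_dvd _ _) hQ)
        (by
          rw [Sylow.coe_mapSurjective]
          exact (Subgroup.map_mono hQP).trans (Subgroup.le_normalizer_map _))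
        (by
          obtain ⟨k, hk⟩ := hx
          exact ⟨k, by rw [← map_pow, hk, map_one]⟩)
        (by
          rintro _ ⟨w, hw, rfl⟩
          exact ⟨x * w * x⁻¹, hxQ w hw, by simp⟩)
        (QuotientGroup.mk' N v) ⟨v, hv, rfl⟩
      rw [← QuotientGroup.eq_one_iff]
      have h2 : ((x * v * x⁻¹ * v⁻¹ : G) : G ⧸ N) =
          (QuotientGroup.mk' N x) * (QuotientGroup.mk' N v) * (QuotientGroup.mk' N x)⁻¹ *
            (QuotientGroup.mk' N v)⁻¹ := by simp
      rw [h2, this, mul_inv_cancel]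
    have hQpow : ∀ w ∈ Q, w ^ Nat.card Q = 1 := by
      intro w hw
      have := pow_card_eq_one' (G := Q) (x := ⟨w, hw⟩)
      simpa only [Subgroup.coe_pow, Subgroup.coe_one] using congrArg Subtype.val this
    have hwQ : x * u * x⁻¹ * u⁻¹ ∈ Q := Q.mul_mem (hxQ u hu) (Q.inv_mem hu)
    rcases hNtype with hNp | hNp'
    · -- N is a p-group
      obtain ⟨k, hk⟩ := hNp ⟨_, hquot u hu⟩
      have hk' : (x * u * x⁻¹ * u⁻¹) ^ (p ^ k) = 1 := by simpa using congrArg Subtype.val hk
      have := eq_one_of_coprime (hQpow _ hwQ) hk' (Nat.Coprime.pow_right k hQ)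
      exact mul_inv_eq_one.1 this
    · -- N is a p'-group
      have hNpow : ∀ w ∈ N, w ^ Nat.card N = 1 := by
        intro w hw
        have := pow_card_eq_one' (G := N) (x := ⟨w, hw⟩)
        simpa only [Subgroup.coe_pow, Subgroup.coe_one] using congrArg Subtype.val this
      -- P centralizes N ⊓ Q
      have hPc : ∀ y ∈ (P : Subgroup G), ∀ w ∈ N ⊓ Q, y * w = w * y := by
        intro y hy w hw
        have h1 : y * w * y⁻¹ * w⁻¹ ∈ N := N.mul_mem (hN.conj_mem w hw.1 y) (N.inv_mem hw.1)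
        have h2 : y * w * y⁻¹ * w⁻¹ ∈ (P : Subgroup G) := by
          have h3 := (Subgroup.le_normalizer_iff.1 hQP) w hw.2 y⁻¹ ((P : Subgroup G).inv_mem hy)
          have h4 : y * w * y⁻¹ * w⁻¹ = y * (w * y⁻¹ * w⁻¹) := by group
          rw [h4]; exact (P : Subgroup G).mul_mem hy h3
        obtain ⟨k, hk⟩ := P.2 ⟨_, h2⟩
        have hk' : (y * w * y⁻¹ * w⁻¹) ^ (p ^ k) = 1 := by simpa using congrArg Subtype.val hk
        have := eq_one_of_coprime (hNpow _ h1) hk' (Nat.Coprime.pow_right k hNp')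
        have h5 : y * w = (y * w * y⁻¹ * w⁻¹) * (w * y) := by group
        rw [h5, this, one_mul]
      -- x normalizes N ⊓ Q
      have hxn : x ∈ Subgroup.normalizer ((N ⊓ Q : Subgroup G) : Set G) := by
        apply mem_normalizer_of_conj_mem
        intro w hw
        exact ⟨hN.conj_mem w hw.1 x, hxQ w hw.2⟩
      have hPn : (P : Subgroup G) ≤ Subgroup.normalizer ((N ⊓ Q : Subgroup G) : Set G) := by
        rw [Subgroup.le_normalizer_iff]
        intro y hy w hw
        rw [hPc y hy w hw]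
        simpa using hw
      have hxp : IsPGroup p (Subgroup.zpowers x) := by
        obtain ⟨k, hk⟩ := hx
        rintro ⟨g, hg⟩
        obtain ⟨i, rfl⟩ := Subgroup.mem_zpowers_iff.1 hg
        refine ⟨k, Subtype.ext ?_⟩
        change (x ^ i) ^ (p ^ k) = 1
        rw [← zpow_natCast, ← zpow_mul, mul_comm, zpow_mul, zpow_natCast, hk, one_zpow]
      obtain ⟨m, hm, hmx⟩ := Cfsg.Agent.Lib.Helper37Sylow.exists_conj_mem P _ hPn (Subgroup.zpowers x) hxp
        (by rw [Subgroup.zpowers_le]; exact hxn)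
      have hxc : ∀ w ∈ N ⊓ Q, x * w = w * x := by
        intro w hw
        have h1 := hmx x (Subgroup.mem_zpowers x)
        have h2 : m * w * m⁻¹ ∈ N ⊓ Q := (Subgroup.le_normalizer_iff.1 le_rfl) m hm w hw
        have h3 := hPc _ h1 _ h2
        have h4 : m * (x * w) * m⁻¹ = m * (w * x) * m⁻¹ := by
          calc m * (x * w) * m⁻¹ = (m * x * m⁻¹) * (m * w * m⁻¹) := by group
            _ = (m * w * m⁻¹) * (m * x * m⁻¹) := h3
            _ = m * (w * x) * m⁻¹ := by group
        exact mul_left_cancel (mul_right_cancel h4)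
      -- final
      obtain ⟨k, hk⟩ := hx
      have hzmem : u⁻¹ * (x * u * x⁻¹) ∈ N ⊓ Q := by
        refine ⟨?_, Q.mul_mem (Q.inv_mem hu) (hxQ u hu)⟩
        have := hN.conj_mem _ (hquot u hu) u⁻¹
        have e : u⁻¹ * (x * u * x⁻¹ * u⁻¹) * u⁻¹⁻¹ = u⁻¹ * (x * u * x⁻¹) := by group
        rwa [e] at this
      have h1 : x * u * x⁻¹ = u * (u⁻¹ * (x * u * x⁻¹)) := by group
      have h2 := conj_pow_aux h1 (hxc _ hzmem) (p ^ k)
      rw [hk] at h2
      have h3 : (u⁻¹ * (x * u * x⁻¹)) ^ (p ^ k) = 1 := by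
        have : u = u * (u⁻¹ * (x * u * x⁻¹)) ^ (p ^ k) := by simpa using h2
        exact (mul_eq_left.1 this.symm)
      have h4 := eq_one_of_coprime (hQpow _ hzmem.2) h3 (Nat.Coprime.pow_right k hQ)
      rw [h1, h4, mul_one]

/-- Let G be a finite p-solvable group and Q a subgroup of order prime to p such that p divides the index of C_G(Q) in N_G(Q). Then Q normalizes no Sylow p-subgroup of G. -/
theorem result {G : Type*} [Group G] [Finite G] {p : ℕ} [Fact p.Prime]
    (hG : Cfsg.IsPSolvable p G) (Q : Subgroup G) (hQ : ¬ p ∣ Nat.card Q)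
    (hA : p ∣ (Subgroup.centralizer (Q : Set G)).relIndex (Subgroup.normalizer (Q : Set G)))
    (P : Sylow p G) : ¬ Q ≤ Subgroup.normalizer ((P : Subgroup G) : Set G) := by
  intro hQP
  have hp : p.Prime := Fact.out
  have hQ' : (Nat.card Q).Coprime p := (Nat.Coprime.symm ((Nat.Prime.coprime_iff_not_dvd hp).2 hQ))
  -- every p-element of N(Q) centralizes Q
  have hcent : ∀ x ∈ Subgroup.normalizer (Q : Set G), (∃ k : ℕ, x ^ (p ^ k) = 1) →
      x ∈ Subgroup.centralizer (Q : Set G) := by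
    intro x hx hxp
    have := core (Nat.card G) G le_rfl hG Q P x hQ' hQP hxp
      (fun u hu => (Subgroup.le_normalizer_iff.1 le_rfl) x hx u hu)
    rw [Subgroup.mem_centralizer_iff]
    intro u hu
    have h1 := this u hu
    calc u * x = (x * u * x⁻¹) * x := by rw [h1]
      _ = x * u := by group
  -- Cauchy in the quotient
  set Nm := Subgroup.normalizer (Q : Set G) with hNm
  set C := (Subgroup.centralizer (Q : Set G)).subgroupOf Nm with hC
  have hCn : C.Normal := inferInstance
  have hidx : p ∣ Nat.card (Nm ⧸ C) := by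
    have : C.index = (Subgroup.centralizer (Q : Set G)).relIndex Nm := rfl
    rw [← Subgroup.index_eq_card, this]; exact hA
  obtain ⟨ybar, hy⟩ := exists_prime_orderOf_dvd_card' p hidx
  obtain ⟨y, rfl⟩ := QuotientGroup.mk_surjective ybar
  obtain ⟨a, m, hm, hom⟩ := Nat.exists_eq_pow_mul_and_not_dvd (orderOf_pos y).ne' p hp.ne_one
  have hx1 : ((y ^ m : Nm) : G) ∈ Subgroup.centralizer (Q : Set G) := by
    apply hcent _ (y ^ m).2
    refine ⟨a, ?_⟩
    have : (y ^ m) ^ (p ^ a) = 1 := by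
      rw [← pow_mul, mul_comm, ← hom, pow_orderOf_eq_one]
    simpa only [Subgroup.coe_pow, Subgroup.coe_one] using congrArg Subtype.val this
  have hx2 : y ^ m ∈ C := Subgroup.mem_subgroupOf.2 hx1
  have hx3 : ((y : Nm ⧸ C)) ^ m = 1 := by
    rw [← QuotientGroup.mk_pow]
    exact (QuotientGroup.eq_one_iff _).2 hx2
  have := orderOf_dvd_of_pow_eq_one hx3
  rw [hy] at this
  exact hm this

end Cfsg.Agent.S1901
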