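import Cfsg.Statements.S1902
import Cfsg.Agent.Lib.Helper30PQ2
import Cfsg.Agent.Lib.Helper30Sig

set_option autoImplicit false
open Cfsg

namespace Cfsg.Agent.S1902

/-- Let p be an odd prime, G a finite p-solvable group, and B an elementary abelian subgroup of order p² such that B is the subgroup generated by the elements of order p of some Sylow p-subgroup of C_G(b₀), for some nontrivial b₀ ∈ B. Then every B-invariant subgroup of G of order prime to p lies in O_{p'}(G). -/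
theorem result {G : Type*} [Group G] [Finite G] {p : ℕ} [Fact p.Prime] (hp : p ≠ 2)
    (hG : Cfsg.IsPSolvable p G) (B : Subgroup G) (hB : Cfsg.IsElementaryAbelian p B) (hBc : Nat.card B = p ^ 2)
    (b₀ : G) (hb₀ : b₀ ∈ B) (hb₁ : b₀ ≠ 1) (P : Sylow p ↥(Subgroup.centralizer ({b₀} : Set G)))
    (hBP : B = Subgroup.closure {x : G | x ∈ ((P : Subgroup ↥(Subgroup.centralizer ({b₀} : Set G))).map
      (Subgroup.centralizer ({b₀} : Set G)).subtype : Subgroup G) ∧ orderOf x = p})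
    (Q : Subgroup G) (hQ : ¬ p ∣ Nat.card Q) (hinv : ∀ b ∈ B, ∀ x ∈ Q, b * x * b⁻¹ ∈ Q) :
    Q ≤ Cfsg.pPrimeCore p G := by
  have hpp : p.Prime := Fact.out
  apply Cfsg.Agent.Lib.Helper30PQ.key_lemma_omega hp
    (Cfsg.Agent.Lib.Helper30PQ2.isPConstrained_of_isPSolvable p hG) B
    (Cfsg.Agent.Lib.Helper30Sig.isPGroup_of_elemAb hB) ?_ Q
    ((Nat.Prime.coprime_iff_not_dvd hpp).mpr hQ).symm (Subgroup.le_normalizer_iff.mpr hinv)
  intro x hx hxp
  have hB₁ := Cfsg.Agent.Lib.Helper30PQ2.elemAb_sup_zpowers hB hx hxp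
  set B₁ := B ⊔ Subgroup.zpowers x with hB₁def
  have hBC : B ≤ Subgroup.centralizer ({b₀} : Set G) := by
    intro b hb
    rw [Subgroup.mem_centralizer_singleton_iff]
    exact congrArg Subtype.val (hB.1.is_comm.comm ⟨b, hb⟩ ⟨b₀, hb₀⟩)
  have hxC : x ∈ Subgroup.centralizer ({b₀} : Set G) := by
    rw [Subgroup.mem_centralizer_singleton_iff]
    exact ((Subgroup.mem_centralizer_iff.mp hx) b₀ hb₀).symm
  have hB₁C : B₁ ≤ Subgroup.centralizer ({b₀} : Set G) := sup_le hBC (by rw [Subgroup.zpowers_le]; exact hxC)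
  obtain ⟨h, hh⟩ := Cfsg.Agent.Lib.Helper37Sylow.exists_conj_mem_of_sylow _ P B₁
    (Cfsg.Agent.Lib.Helper30Sig.isPGroup_of_elemAb hB₁) hB₁C
  have hle : B₁.map (MulAut.conj (h : G)).toMonoidHom ≤ B := by
    rintro _ ⟨u, hu, rfl⟩
    show (h : G) * u * (h : G)⁻¹ ∈ B
    by_cases hu1 : u = 1
    · rw [hu1]; simp
    · have ho : orderOf u = p := by
        rcases (Nat.dvd_prime hpp).mp (orderOf_dvd_of_pow_eq_one (hB₁.2 u hu)) with h' | h'
        · exact absurd (orderOf_eq_one_iff.mp h') hu1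
        · exact h'
      rw [hBP]
      apply Subgroup.subset_closure
      refine ⟨⟨h * ⟨u, hB₁C hu⟩ * h⁻¹, hh u hu, rfl⟩, ?_⟩
      have : (h : G) * u * (h : G)⁻¹ = MulAut.conj (h : G) u := rfl
      rw [this, MulEquiv.orderOf_eq]
      exact ho
  have hcard : Nat.card B₁ ≤ Nat.card B := by
    rw [← Cfsg.Agent.Lib.Helper30Trans.card_cj (h : G) B₁]
    exact Subgroup.card_le_of_le hle
  have heq : B = B₁ := Subgroup.eq_of_le_of_card_ge le_sup_left hcard
  rw [heq]
  exact le_sup_right (a := B) (Subgroup.mem_zpowers x)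

end Cfsg.Agent.S1902
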