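import Cfsg.Statements.S1905
import Mathlib
import Cfsg.Agent.Lib.Helper38Dih
import Cfsg.Agent.Lib.Helper40Sylow

set_option autoImplicit false
open Cfsg

namespace Cfsg.Agent.S1905

open Cfsg.Agent.Lib.Helper38Dih Cfsg.Agent.Lib.Helper40Sylow

section
set_option linter.unusedSectionVars false
variable {S : Type*} [Group S] [Finite S] {M : Subgroup S}

theorem orderOf_conj' (g x : S) : orderOf (g * x * g⁻¹) = orderOf x := by
  have : g * x * g⁻¹ = MulAut.conj g x := rfl
  rw [this, MulEquiv.orderOf_eq]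

/-- an involution of `M` and an involution outside `M` are swapped by an involution -/
theorem lemmaA (hC : ∀ i ∈ M, orderOf i = 2 → Subgroup.centralizer ({i} : Set S) ≤ M)
    {a b : S} (ha : a ∈ M) (ha2 : orderOf a = 2) (hb2 : orderOf b = 2) (hb : b ∉ M) :
    ∃ s : S, s * s = 1 ∧ s * b * s = a := by
  have haa := sq_of_orderOf_two ha2
  have hbb := sq_of_orderOf_two hb2
  rcases Nat.even_or_odd (orderOf (a * b)) with ⟨m, hm⟩ | ⟨j, hj⟩
  · exfalso
    have hm2 : orderOf (a * b) = 2 * m := by rw [hm]; ring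
    have hpos : 0 < orderOf (a * b) := orderOf_pos _
    have hmpos : 0 < m := by omega
    have hpow : (a * b) ^ (2 * m) = 1 := by rw [← hm2, pow_orderOf_eq_one]
    obtain ⟨c1, c2, c3, -⟩ := even_case_comm haa hbb hpow
    have hc1 : (a * b) ^ m ≠ 1 := by
      intro h
      have := orderOf_dvd_of_pow_eq_one h
      rw [hm2] at this
      have := Nat.le_of_dvd hmpos this
      omega
    have hcM : (a * b) ^ m ∈ M := hC a ha ha2 (Subgroup.mem_centralizer_singleton_iff.2 c1.symm)
    exact hb (hC _ hcM (orderOf_two_of_sq c3 hc1) (Subgroup.mem_centralizer_singleton_iff.2 c2))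
  · have hpow : (a * b) ^ (2 * j + 1) = 1 := by rw [← hj, pow_orderOf_eq_one]
    obtain ⟨o1, o2⟩ := odd_case haa hbb hpow
    exact ⟨_, o1, o2⟩

theorem exists_invol (hM : Even (Nat.card M)) : ∃ i ∈ M, orderOf i = 2 := by
  obtain ⟨x, hx⟩ := exists_prime_orderOf_dvd_card' (G := M) 2 (even_iff_two_dvd.1 hM)
  exact ⟨x, x.2, by rw [← hx, Subgroup.orderOf_coe]⟩

theorem exists_conj_not_mem (hcore : Odd (Nat.card M.normalCore)) {y : S} (hy : orderOf y = 2) :
    ∃ b : S, b * y * b⁻¹ ∉ M := by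
  by_contra hcon
  have hall : ∀ b : S, b * y * b⁻¹ ∈ M := by
    intro b
    by_contra h
    exact hcon ⟨b, h⟩
  have hyc : y ∈ M.normalCore := hall
  have h2 : orderOf (⟨y, hyc⟩ : M.normalCore) = 2 := by
    rw [← hy, ← Subgroup.orderOf_coe]
  have := orderOf_dvd_natCard (⟨y, hyc⟩ : M.normalCore)
  rw [h2] at this
  exact (Nat.not_even_iff_odd.2 hcore) (even_iff_two_dvd.2 this)

theorem part1 (hC : ∀ i ∈ M, orderOf i = 2 → Subgroup.centralizer ({i} : Set S) ≤ M)
    (hcore : Odd (Nat.card M.normalCore)) {i y : S} (hi : i ∈ M) (hi2 : orderOf i = 2)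
    (hy : orderOf y = 2) : IsConj i y := by
  obtain ⟨b, hb⟩ := exists_conj_not_mem hcore hy
  obtain ⟨s, hs, hsb⟩ := lemmaA hC hi hi2 (by rw [orderOf_conj', hy]) hb
  rw [isConj_comm, isConj_iff]
  refine ⟨s * b, ?_⟩
  rw [← hsb]
  have : s⁻¹ = s := inv_of_sq hs
  calc s * b * y * (s * b)⁻¹ = s * (b * y * b⁻¹) * s⁻¹ := by group
    _ = s * (b * y * b⁻¹) * s := by rw [this]

/-- strong embedding -/
theorem SE (hC : ∀ i ∈ M, orderOf i = 2 → Subgroup.centralizer ({i} : Set S) ≤ M)
    {X' : Subgroup S} (hX : IsSylowIn 2 X' M) {I : S} (hI : I ∈ X') (hI2 : orderOf I = 2)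
    (hIc : ∀ x ∈ X', x * I = I * x) (hN : Subgroup.normalizer (X' : Set S) ≤ M)
    {g u : S} (hu : u ∈ M) (hu2 : orderOf u = 2) (hgu : g⁻¹ * u * g ∈ M) : g ∈ M := by
  -- centralizers transported
  have htr : ∀ v : S, ∀ k : S, orderOf v = 2 → k⁻¹ * v * k ∈ M → ∀ c : S, c * v = v * c → k⁻¹ * c * k ∈ M := by
    intro v k hv hk c hc
    have h2 : orderOf (k⁻¹ * v * k) = 2 := by
      have := orderOf_conj' k⁻¹ v
      rw [inv_inv] at this
      rw [this, hv]
    apply hC _ hk h2
    rw [Subgroup.mem_centralizer_singleton_iff]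
    calc k⁻¹ * c * k * (k⁻¹ * v * k) = k⁻¹ * (c * v) * k := by group
      _ = k⁻¹ * (v * c) * k := by rw [hc]
      _ = _ := by group
  have hup : IsPGroup 2 (Subgroup.zpowers u) :=
    IsPGroup.of_card (n := 1) (by rw [Nat.card_zpowers, hu2]; rfl)
  obtain ⟨m, hm, hle⟩ := hX.exists_conj_le hup (by rw [Subgroup.zpowers_le]; exact hu)
  have hu1 : m * u * m⁻¹ ∈ X' := hle (conj_mem_cj (Subgroup.mem_zpowers u))
  -- replace (u, g) by (m u m⁻¹, m g)
  have hg1 : (m * g)⁻¹ * (m * u * m⁻¹) * (m * g) ∈ M := by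
    have e : (m * g)⁻¹ * (m * u * m⁻¹) * (m * g) = g⁻¹ * u * g := by group
    rw [e]; exact hgu
  have hI1 : (m * g)⁻¹ * I * (m * g) ∈ M :=
    htr _ _ (by rw [orderOf_conj', hu2]) hg1 I (hIc _ hu1).symm
  have hX1 : cj (m * g)⁻¹ X' ≤ M := by
    intro w hw
    rw [mem_cj, inv_inv] at hw
    have := htr I (m * g) hI2 hI1 _ (hIc _ hw)
    have e : (m * g)⁻¹ * (m * g * w * (m * g)⁻¹) * (m * g) = w := by group
    rwa [e] at this
  obtain ⟨h, hh, hle2⟩ := hX.exists_conj_le (isPGroup_cj hX.2.1 _) hX1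
  rw [← cj_mul] at hle2
  have hn : h * (m * g)⁻¹ ∈ Subgroup.normalizer (X' : Set S) := mem_normalizer_iff_cj.2 (cj_eq_of_le hle2)
  have h3 := hN hn
  have h4 : (m * g)⁻¹ ∈ M := by
    have := M.mul_mem (M.inv_mem hh) h3
    simpa using this
  have h5 : m * g ∈ M := by
    have := M.inv_mem h4
    simpa using this
  have := M.mul_mem (M.inv_mem hm) h5
  simpa using this

end

/-- Let M be a subgroup of even order of a finite group S such that M contains the centralizer in S of each of its involutions and the normal core of M in S has odd order. Then all involutions of S are conjugate. If moreover N_S(X) ≤ M for a Sylow 2-subgroup X of M and I is an involution in the centre of X, then all involutions of M are conjugate in M and M = M₀ C_M(I) for some subgroup M₀ of M of odd order. -/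
theorem result {S : Type*} [Group S] [Finite S] (M : Subgroup S) (hM : Even (Nat.card M))
    (hC : ∀ i ∈ M, orderOf i = 2 → Subgroup.centralizer ({i} : Set S) ≤ M) (hcore : Odd (Nat.card M.normalCore)) :
    (∀ x y : S, orderOf x = 2 → orderOf y = 2 → IsConj x y) ∧
      ∀ (X : Sylow 2 M) (I : M), I ∈ (Subgroup.center ↥(X : Subgroup ↥M)).map (X : Subgroup ↥M).subtype → orderOf I = 2 →
        Subgroup.normalizer (((X : Subgroup M).map M.subtype : Subgroup S) : Set S) ≤ M →
        (∀ x y : M, orderOf x = 2 → orderOf y = 2 → IsConj x y) ∧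
          ∃ M₀ : Subgroup M, Odd (Nat.card M₀) ∧
            ∀ m : M, ∃ a ∈ M₀, ∃ c ∈ Subgroup.centralizer ({I} : Set M), m = a * c := by
  obtain ⟨i, hi, hi2⟩ := exists_invol hM
  have hp1 : ∀ x y : S, orderOf x = 2 → orderOf y = 2 → IsConj x y := by
    intro x y hx hy
    exact (part1 hC hcore hi hi2 hx).symm.trans (part1 hC hcore hi hi2 hy)
  refine ⟨hp1, ?_⟩
  intro X I hIX hI2 hN
  set X' : Subgroup S := (X : Subgroup M).map M.subtype with hX'
  have hXs : IsSylowIn 2 X' M := isSylowIn_of_sylow X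
  obtain ⟨⟨I0, hI0X⟩, hI0c, hI0⟩ := hIX
  have hI0eq : I0 = I := hI0
  subst hI0eq
  have hIX' : (I0 : S) ∈ X' := ⟨I0, hI0X, rfl⟩
  have hI2' : orderOf (I0 : S) = 2 := by rw [Subgroup.orderOf_coe, hI2]
  have hIc : ∀ x ∈ X', x * (I0 : S) = (I0 : S) * x := by
    rintro _ ⟨x, hx, rfl⟩
    have := (Subgroup.mem_center_iff.1 hI0c) ⟨x, hx⟩
    have h2 := congrArg Subtype.val this
    exact congrArg Subtype.val h2
  have hSE : ∀ {g u : S}, u ∈ M → orderOf u = 2 → g⁻¹ * u * g ∈ M → g ∈ M :=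
    fun hu hu2 hgu => SE hC hXs hIX' hI2' hIc hN hu hu2 hgu
  constructor
  · intro x y hx hy
    have hx' : orderOf (x : S) = 2 := by rw [Subgroup.orderOf_coe, hx]
    have hy' : orderOf (y : S) = 2 := by rw [Subgroup.orderOf_coe, hy]
    obtain ⟨g, hg⟩ := isConj_iff.1 (hp1 _ _ hx' hy')
    have hgM : g ∈ M := by
      apply hSE y.2 hy'
      rw [← hg]
      have e : g⁻¹ * (g * (x : S) * g⁻¹) * g = x := by group
      rw [e]; exact x.2
    rw [isConj_iff]
    exact ⟨⟨g, hgM⟩, Subtype.ext hg⟩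
  · obtain ⟨b, hb⟩ := exists_conj_not_mem hcore hI2'
    set t := b * (I0 : S) * b⁻¹ with ht
    have ht2 : orderOf t = 2 := by rw [ht, orderOf_conj', hI2']
    have htt := sq_of_orderOf_two ht2
    have htinv : t⁻¹ = t := inv_of_sq htt
    refine ⟨(cj t M).subgroupOf M, ?_, ?_⟩
    · rw [← Nat.not_even_iff_odd]
      intro heven
      obtain ⟨u, hu⟩ := exists_prime_orderOf_dvd_card' (G := (cj t M).subgroupOf M) 2 (even_iff_two_dvd.1 heven)
      have hu1 : ((u : M) : S) ∈ cj t M := Subgroup.mem_subgroupOf.1 u.2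
      rw [mem_cj] at hu1
      have hu2 : orderOf ((u : M) : S) = 2 := by rw [Subgroup.orderOf_coe, Subgroup.orderOf_coe, hu]
      exact hb (hSE (u : M).2 hu2 hu1)
    · intro m
      set I'' : S := (m : S) * (I0 : S) * (m : S)⁻¹ with hI''
      have hI''M : I'' ∈ M := M.mul_mem (M.mul_mem m.2 I0.2) (M.inv_mem m.2)
      have hI''2 : orderOf I'' = 2 := by rw [hI'', orderOf_conj', hI2']
      have heM : t * I'' * t⁻¹ ∉ M := by
        intro he
        apply hb
        apply hSE he (by rw [orderOf_conj', hI''2])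
        have e : t⁻¹ * (t * I'' * t⁻¹) * t = I'' := by group
        rw [e]; exact hI''M
      obtain ⟨j, hjj, hj⟩ := lemmaA hC I0.2 hI2' (by rw [orderOf_conj', hI''2]) heM
      have hjinv : j⁻¹ = j := inv_of_sq hjj
      -- d = t * j
      have hdI : (t * j) * (I0 : S) * (t * j)⁻¹ = I'' := by
        rw [← hj]
        calc (t * j) * (j * (t * I'' * t⁻¹) * j) * (t * j)⁻¹
            = t * (j * j) * t * I'' * t⁻¹ * (j * j⁻¹) * t⁻¹ := by group
          _ = (t * t) * I'' * (t * t)⁻¹ := by rw [hjj]; group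
          _ = I'' := by rw [htt]; group
      have hdM : t * j ∈ M := by
        apply hSE hI''M hI''2
        rw [← hdI]
        have e : (t * j)⁻¹ * ((t * j) * (I0 : S) * (t * j)⁻¹) * (t * j) = I0 := by group
        rw [e]; exact I0.2
      have hdM' : t * j ∈ cj t M := by
        rw [mem_cj]
        have e : t⁻¹ * (t * j) * t = (t * j)⁻¹ := by
          calc t⁻¹ * (t * j) * t = j * t := by group
            _ = j⁻¹ * t⁻¹ := by rw [hjinv, htinv]
            _ = (t * j)⁻¹ := by group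
        rw [e]; exact M.inv_mem hdM
      refine ⟨⟨t * j, hdM⟩, Subgroup.mem_subgroupOf.2 hdM', (⟨t * j, hdM⟩ : M)⁻¹ * m, ?_, by group⟩
      rw [Subgroup.mem_centralizer_singleton_iff]
      apply Subtype.ext
      change (t * j)⁻¹ * (m : S) * (I0 : S) = (I0 : S) * ((t * j)⁻¹ * (m : S))
      have h1 : (m : S) * (I0 : S) = I'' * (m : S) := by rw [hI'']; group
      have h2 : (t * j)⁻¹ * I'' = (I0 : S) * (t * j)⁻¹ := by rw [← hdI]; group
      calc (t * j)⁻¹ * (m : S) * (I0 : S) = (t * j)⁻¹ * ((m : S) * (I0 : S)) := by group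
        _ = ((t * j)⁻¹ * I'') * (m : S) := by rw [h1]; group
        _ = (I0 : S) * ((t * j)⁻¹ * (m : S)) := by rw [h2]; group

end Cfsg.Agent.S1905
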