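import Cfsg.Statements.S1907
import Mathlib
import Cfsg.Agent.Lib.Helper60Core
import Cfsg.Agent.Lib.Helper40Sylow

set_option autoImplicit false
open Cfsg

namespace Cfsg.Agent.S1907

open Cfsg.Agent.Lib.Helper60Core Cfsg.Agent.Lib.Helper40Sylow

theorem eq_one_of_pow_coprime {G : Type*} [Group G] {z : G} {a b : ℕ} (ha : z ^ a = 1) (hb : z ^ b = 1)
    (hab : a.Coprime b) : z = 1 := by
  have h1 : orderOf z ∣ a := orderOf_dvd_of_pow_eq_one ha
  have h2 : orderOf z ∣ b := orderOf_dvd_of_pow_eq_one hb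
  have : orderOf z ∣ 1 := by
    have := Nat.dvd_gcd h1 h2
    rwa [hab] at this
  exact orderOf_eq_one_iff.1 (Nat.dvd_one.1 this)

theorem pow_card_of_mem {G : Type*} [Group G] {H : Subgroup G} {w : G} (hw : w ∈ H) : w ^ Nat.card H = 1 := by
  have := pow_card_eq_one' (G := H) (x := ⟨w, hw⟩)
  simpa only [Subgroup.coe_pow, Subgroup.coe_one] using congrArg Subtype.val this

/-- a `p`-group meets a `p'`-group trivially -/
theorem eq_one_of_mem_of_mem {G : Type*} [Group G] {p : ℕ} {Y D : Subgroup G} (hY : IsPGroup p Y)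
    (hD : (Nat.card D).Coprime p) {w : G} (h1 : w ∈ Y) (h2 : w ∈ D) : w = 1 := by
  obtain ⟨k, hk⟩ := hY ⟨w, h1⟩
  have hk' : w ^ (p ^ k) = 1 := by
    simpa only [Subgroup.coe_pow, Subgroup.coe_one] using congrArg Subtype.val hk
  exact eq_one_of_pow_coprime (pow_card_of_mem h2) hk' (Nat.Coprime.pow_right k hD)

/-- Conjugacy of `p`-subgroups modulo a normal `p'`-subgroup. -/
theorem exists_conj_le_of_le_sup {G : Type*} [Group G] [Finite G] {p : ℕ} [Fact p.Prime]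
    {D Y₁ Y₂ : Subgroup G} (hDn : D.Normal) (hD : (Nat.card D).Coprime p) (h1 : IsPGroup p Y₁)
    (h2 : IsPGroup p Y₂) (hle : Y₂ ≤ Y₁ ⊔ D) : ∃ c ∈ D, cj c Y₂ ≤ Y₁ := by
  obtain ⟨T, hT, hYT⟩ := exists_isSylowIn_ge (H := Y₁ ⊔ D) h1 le_sup_left
  have hTY : T ≤ Y₁ := by
    intro t ht
    have := hT.1 ht
    rw [Subgroup.mem_sup_of_normal_right] at this
    obtain ⟨y, hy, c, hc, rfl⟩ := this
    have hcT : c ∈ T := by
      have := T.mul_mem (T.inv_mem (hYT hy)) ht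
      simpa using this
    rw [eq_one_of_mem_of_mem hT.2.1 hD hcT hc, mul_one]
    exact hy
  obtain ⟨x, hx, hxle⟩ := hT.exists_conj_le h2 hle
  rw [Subgroup.mem_sup_of_normal_right] at hx
  obtain ⟨y, hy, c, hc, rfl⟩ := hx
  refine ⟨c, hc, ?_⟩
  rw [cj_mul, cj_le_iff] at hxle
  exact hxle.trans ((cj_mono hTY).trans (cj_eq_self_of_mem (Y₁.inv_mem hy)).le)

/-- Let P be a Sylow p-subgroup of a finite group G, H = P ∩ O_{p',p}(G), N = N_G(H) and D = O_{p'}(G). (a) If y is an element of p-power order of N and d ∈ D with d⁻¹ y d ∈ N, then d = d₁ d₂ with d₁ ∈ C_D(y) and d₂ ∈ C_D(H). (b) Two elements of P that are conjugate in G are conjugate in N. -/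
theorem result {G : Type*} [Group G] [Finite G] {p : ℕ} [Fact p.Prime] (P : Sylow p G) :
    (∀ y ∈ Subgroup.normalizer (((P : Subgroup G) ⊓ Cfsg.pPrimePCore p G : Subgroup G) : Set G), (∃ k : ℕ, orderOf y = p ^ k) →
      ∀ d ∈ Cfsg.pPrimeCore p G, d⁻¹ * y * d ∈ Subgroup.normalizer (((P : Subgroup G) ⊓ Cfsg.pPrimePCore p G : Subgroup G) : Set G) →
        ∃ d₁ ∈ Cfsg.pPrimeCore p G ⊓ Subgroup.centralizer ({y} : Set G),
          ∃ d₂ ∈ Cfsg.pPrimeCore p G ⊓ Subgroup.centralizer (((P : Subgroup G) ⊓ Cfsg.pPrimePCore p G : Subgroup G) : Set G), d = d₁ * d₂) ∧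
    ∀ x y : G, x ∈ (P : Subgroup G) → y ∈ (P : Subgroup G) → IsConj x y →
      ∃ n ∈ Subgroup.normalizer (((P : Subgroup G) ⊓ Cfsg.pPrimePCore p G : Subgroup G) : Set G), n * x * n⁻¹ = y := by
  set D := Cfsg.pPrimeCore p G with hDdef
  set M := Cfsg.pPrimePCore p G with hMdef
  set H := (P : Subgroup G) ⊓ M with hHdef
  have hDn : D.Normal := inferInstance
  have hD : (Nat.card D).Coprime p := card_pPrimeCore_coprime p
  have hMn : M.Normal := by
    rw [hMdef]; unfold Cfsg.pPrimePCore; infer_instance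
  have hDM : D ≤ M := by
    intro x hx
    rw [hMdef]; unfold Cfsg.pPrimePCore
    rw [Subgroup.mem_comap]
    have : QuotientGroup.mk' (pPrimeCore p G) x = 1 := (QuotientGroup.eq_one_iff x).mpr hx
    rw [this]
    exact one_mem _
  have hHsyl : IsSylowIn p H M :=
    (isSylowIn_top P).inf_normal le_top (by rw [Subgroup.normalizer_eq_top]; )
  have hHp : IsPGroup p H := hHsyl.2.1
  -- N_D(H) centralizes H
  have hND : ∀ c ∈ D, c ∈ Subgroup.normalizer (H : Set G) → c ∈ Subgroup.centralizer (H : Set G) := by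
    intro c hc hcn
    rw [Subgroup.mem_centralizer_iff]
    intro h hh
    have h1 : c * h * c⁻¹ * h⁻¹ ∈ H :=
      H.mul_mem ((Subgroup.le_normalizer_iff.1 le_rfl) c hcn h hh) (H.inv_mem hh)
    have h2 : c * h * c⁻¹ * h⁻¹ ∈ D := by
      have e : c * h * c⁻¹ * h⁻¹ = c * (h * c⁻¹ * h⁻¹) := by group
      rw [e]; exact D.mul_mem hc (hDn.conj_mem _ (D.inv_mem hc) h)
    have h3 := eq_one_of_mem_of_mem hHp hD h1 h2
    calc h * c = (c * h * c⁻¹ * h⁻¹)⁻¹ * (c * h) := by group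
      _ = c * h := by rw [h3]; group
  have partA : ∀ y ∈ Subgroup.normalizer (H : Set G), (∃ k : ℕ, orderOf y = p ^ k) →
      ∀ d ∈ D, d⁻¹ * y * d ∈ Subgroup.normalizer (H : Set G) →
        ∃ d₁ ∈ D ⊓ Subgroup.centralizer ({y} : Set G),
          ∃ d₂ ∈ D ⊓ Subgroup.centralizer (H : Set G), d = d₁ * d₂ := by
    intro y hy ⟨k, hk⟩ d hd hyd
    have hzp : IsPGroup p (Subgroup.zpowers y) := IsPGroup.of_card (n := k) (by rw [Nat.card_zpowers, hk])
    have hY1 : IsPGroup p (H ⊔ Subgroup.zpowers y : Subgroup G) :=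
      IsPGroup.to_sup_of_normal_left' hHp hzp (by rw [Subgroup.zpowers_le]; exact hy)
    have hyn' : y ∈ Subgroup.normalizer ((cj d H : Subgroup G) : Set G) := by
      rw [normalizer_cj, mem_cj]; exact hyd
    have hY2 : IsPGroup p (cj d H ⊔ Subgroup.zpowers y : Subgroup G) :=
      IsPGroup.to_sup_of_normal_left' (isPGroup_cj hHp d) hzp (by rw [Subgroup.zpowers_le]; exact hyn')
    have hle : cj d H ⊔ Subgroup.zpowers y ≤ (H ⊔ Subgroup.zpowers y) ⊔ D := by
      apply sup_le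
      · intro w hw
        rw [mem_cj] at hw
        have hdL : d ∈ (H ⊔ Subgroup.zpowers y) ⊔ D := (le_sup_right : D ≤ _) hd
        have hwL : d⁻¹ * w * d ∈ (H ⊔ Subgroup.zpowers y) ⊔ D :=
          (le_sup_left : H ⊔ Subgroup.zpowers y ≤ _) ((le_sup_left : H ≤ _) hw)
        have := Subgroup.mul_mem _ (Subgroup.mul_mem _ hdL hwL) (Subgroup.inv_mem _ hdL)
        have e : d * (d⁻¹ * w * d) * d⁻¹ = w := by group
        rwa [e] at this
      · exact le_sup_right.trans le_sup_left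
    obtain ⟨c, hc, hcle⟩ := exists_conj_le_of_le_sup hDn hD hY1 hY2 hle
    -- c commutes with y
    have hcy : c * y * c⁻¹ = y := by
      have h1 : c * y * c⁻¹ ∈ H ⊔ Subgroup.zpowers y :=
        hcle (conj_mem_cj ((le_sup_right : Subgroup.zpowers y ≤ _) (Subgroup.mem_zpowers y)))
      have h2 : c * y * c⁻¹ * y⁻¹ ∈ H ⊔ Subgroup.zpowers y :=
        Subgroup.mul_mem _ h1 (Subgroup.inv_mem _ ((le_sup_right : Subgroup.zpowers y ≤ _) (Subgroup.mem_zpowers y)))
      have h3 : c * y * c⁻¹ * y⁻¹ ∈ D := by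
        have e : c * y * c⁻¹ * y⁻¹ = c * (y * c⁻¹ * y⁻¹) := by group
        rw [e]; exact D.mul_mem hc (hDn.conj_mem _ (D.inv_mem hc) y)
      exact mul_inv_eq_one.1 (eq_one_of_mem_of_mem hY1 hD h2 h3)
    -- c d normalizes H
    have hcd : cj (c * d) H ≤ H := by
      have h1 : cj (c * d) H ≤ (H ⊔ Subgroup.zpowers y) ⊓ M := by
        apply le_inf
        · rw [cj_mul]; exact (cj_mono le_sup_left).trans hcle
        · intro w hw
          rw [mem_cj] at hw
          have := hMn.conj_mem _ hw.2 (c * d)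
          have e : c * d * ((c * d)⁻¹ * w * (c * d)) * (c * d)⁻¹ = w := by group
          rwa [e] at this
      have h2 : H = (H ⊔ Subgroup.zpowers y) ⊓ M :=
        hHsyl.eq_of_le (hY1.to_le inf_le_left) inf_le_right (le_inf le_sup_left hHsyl.1)
      rw [← h2] at h1; exact h1
    have hcdn : c * d ∈ Subgroup.normalizer (H : Set G) := mem_normalizer_iff_cj.2 (cj_eq_of_le hcd)
    refine ⟨c⁻¹, ⟨D.inv_mem hc, ?_⟩, c * d, ⟨D.mul_mem hc hd, hND _ (D.mul_mem hc hd) hcdn⟩, by group⟩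
    apply Subgroup.inv_mem
    rw [Subgroup.mem_centralizer_singleton_iff]
    calc c * y = (c * y * c⁻¹) * c := by group
      _ = y * c := by rw [hcy]
  refine ⟨partA, ?_⟩
  intro x y hx hy hxy
  obtain ⟨g, hg⟩ := isConj_iff.1 hxy
  have hMle : M ≤ H ⊔ D := by
    rw [← Subgroup.relIndex_eq_one]
    have h1 : (H ⊔ D).relIndex M ∣ H.relIndex M := Subgroup.relIndex_dvd_of_le_left _ le_sup_left
    have h2 : (H ⊔ D).relIndex M ∣ D.relIndex M := Subgroup.relIndex_dvd_of_le_left _ le_sup_right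
    have h3 : D.relIndex M = Nat.card (pCore p (G ⧸ D)) := by
      have h4 : D = (⊥ : Subgroup (G ⧸ D)).comap (QuotientGroup.mk' D) := by
        rw [MonoidHom.comap_bot, QuotientGroup.ker_mk']
      conv_lhs => rw [h4]
      rw [Subgroup.relIndex_comap, hMdef]
      unfold pPrimePCore
      rw [Subgroup.map_comap_eq_self_of_surjective (QuotientGroup.mk'_surjective _),
        Subgroup.relIndex_bot_left]
    obtain ⟨b, hb⟩ := (IsPGroup.iff_card (p := p)).mp (pCore_isPGroup (G := G ⧸ D) p)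
    rw [h3, hb] at h2
    obtain ⟨j, _, hj⟩ := (Nat.dvd_prime_pow Fact.out).1 h2
    rcases Nat.eq_zero_or_pos j with rfl | hjpos
    · simpa using hj
    · exfalso
      apply hHsyl.2.2
      refine Dvd.dvd.trans ?_ h1
      rw [hj]; exact dvd_pow_self p hjpos.ne'
  have hfr : Subgroup.normalizer (H : Set G) ⊔ M = ⊤ := by
    have := Sylow.normalizer_sup_eq_top (hHsyl.toSylow)
    rw [hHsyl.coe_toSylow, Subgroup.subgroupOf_map_subtype, inf_eq_left.2 hHsyl.1] at this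
    exact this
  have hgm : g ∈ Subgroup.normalizer (H : Set G) ⊔ M := by rw [hfr]; trivial
  rw [Subgroup.mem_sup_of_normal_right] at hgm
  obtain ⟨n, hn, m, hm, rfl⟩ := hgm
  have hm' := hMle hm
  rw [Subgroup.mem_sup_of_normal_right] at hm'
  obtain ⟨h, hh, c, hc, rfl⟩ := hm'
  have hPN : (P : Subgroup G) ≤ Subgroup.normalizer (H : Set G) := by
    rw [Subgroup.le_normalizer_iff]
    intro a ha w hw
    exact ⟨(P : Subgroup G).mul_mem ((P : Subgroup G).mul_mem ha hw.1) ((P : Subgroup G).inv_mem ha),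
      hMn.conj_mem _ hw.2 a⟩
  have hnh : n * h ∈ Subgroup.normalizer (H : Set G) := Subgroup.mul_mem _ hn (Subgroup.le_normalizer hh)
  have hcx : c⁻¹⁻¹ * x * c⁻¹ ∈ Subgroup.normalizer (H : Set G) := by
    have e : c⁻¹⁻¹ * x * c⁻¹ = (n * h)⁻¹ * y * (n * h) := by
      rw [← hg]; group
    rw [e]
    exact Subgroup.mul_mem _ (Subgroup.mul_mem _ (Subgroup.inv_mem _ hnh) (hPN hy)) hnh
  obtain ⟨k, hk⟩ := (IsPGroup.iff_orderOf.1 P.2) ⟨x, hx⟩
  have hk' : orderOf x = p ^ k := by rw [← hk]; simp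
  obtain ⟨d₁, hd₁, d₂, hd₂, hd⟩ := partA x (hPN hx) ⟨k, hk'⟩ c⁻¹ (D.inv_mem hc) hcx
  refine ⟨n * h * d₂⁻¹, Subgroup.mul_mem _ hnh (Subgroup.inv_mem _ ?_), ?_⟩
  · exact Subgroup.centralizer_le_normalizer _ hd₂.2
  · have h1 : d₁ * x = x * d₁ := Subgroup.mem_centralizer_singleton_iff.1 hd₁.2
    have hc' : c = d₂⁻¹ * d₁⁻¹ := by
      have : c⁻¹⁻¹ = (d₁ * d₂)⁻¹ := by rw [hd]
      simpa using this
    rw [← hg, hc']
    have h2 : d₁⁻¹ * x * d₁ = x := by
      calc d₁⁻¹ * x * d₁ = d₁⁻¹ * (x * d₁) := by group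
        _ = d₁⁻¹ * (d₁ * x) := by rw [h1]
        _ = x := by group
    calc n * h * d₂⁻¹ * x * (n * h * d₂⁻¹)⁻¹ = n * h * d₂⁻¹ * (d₁⁻¹ * x * d₁) * (n * h * d₂⁻¹)⁻¹ := by rw [h2]
      _ = n * (h * (d₂⁻¹ * d₁⁻¹)) * x * (n * (h * (d₂⁻¹ * d₁⁻¹)))⁻¹ := by group

end Cfsg.Agent.S1907
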