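import Cfsg.Statements.S1924
import Mathlib
import Cfsg.Agent.Lib.Helper2Residual
import Cfsg.Agent.Lib.Helper40Sylow
import Cfsg.Agent.Lib.Helper56CD

set_option autoImplicit false
open Cfsg

namespace Cfsg.Agent.S1924

theorem sign_eq_neg_one {α : Type*} [Fintype α] [DecidableEq α] (σ : Equiv.Perm α) (k m : ℕ) (hm : Odd m)
    (hcard : Fintype.card α = m * 2 ^ (k+1)) (hord : σ ^ (2 ^ (k+1)) = 1)
    (hfree : ∀ x, (σ ^ (2 ^ k)) x ≠ x) : Equiv.Perm.sign σ = -1 := by
  have hall : ∀ n ∈ σ.cycleType, n = 2 ^ (k+1) := by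
    intro n hn
    have h1 : n ∣ 2 ^ (k+1) := (Equiv.Perm.dvd_of_mem_cycleType hn).trans (orderOf_dvd_of_pow_eq_one hord)
    obtain ⟨j, hj, rfl⟩ := (Nat.dvd_prime_pow Nat.prime_two).1 h1
    rcases Nat.lt_or_ge j (k+1) with hlt | hge
    · exfalso
      obtain ⟨c, τ, hσ, hdisj, hc, hcc⟩ := Equiv.Perm.mem_cycleType_iff.1 hn
      obtain ⟨x, hx⟩ := hc.nonempty_support
      have hcp : c ^ (2 ^ k) = 1 := by
        apply orderOf_dvd_iff_pow_eq_one.1
        rw [hc.orderOf, hcc]
        exact pow_dvd_pow 2 (by omega)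
      have hτ : τ x = x := by
        rcases hdisj x with h | h
        · exact absurd h (Equiv.Perm.mem_support.1 hx)
        · exact h
      apply hfree x
      rw [hσ, hdisj.commute.mul_pow, hcp, one_mul]
      exact Equiv.Perm.pow_apply_eq_self_of_apply_eq_self hτ _
    · have : j = k + 1 := by omega
      rw [this]
  have hrep := Multiset.eq_replicate_card.2 hall
  have hsupp : σ.support = Finset.univ := by
    ext x
    simp only [Equiv.Perm.mem_support, Finset.mem_univ, iff_true]
    intro h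
    exact hfree x (Equiv.Perm.pow_apply_eq_self_of_apply_eq_self h _)
  have hsum : σ.cycleType.sum = m * 2 ^ (k+1) := by
    rw [Equiv.Perm.sum_cycleType, hsupp, Finset.card_univ, hcard]
  have hcardm : Multiset.card σ.cycleType = m := by
    rw [hrep, Multiset.sum_replicate, smul_eq_mul] at hsum
    exact Nat.eq_of_mul_eq_mul_right (by positivity) hsum
  rw [Equiv.Perm.sign_of_cycleType, hsum, hcardm]
  have : Odd (m * 2 ^ (k+1) + m) := by
    apply Even.add_odd _ hm
    exact Even.mul_left (by simp [pow_succ]) _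
  exact this.neg_one_pow

noncomputable def sgn {H : Type*} [Group H] [Finite H] (T : Subgroup H) : H →* ℤˣ := by
  classical
  letI := Fintype.ofFinite (H ⧸ T)
  exact Equiv.Perm.sign.comp (MulAction.toPermHom H (H ⧸ T))

theorem sgn_eq_neg_one {H : Type*} [Group H] [Finite H] (T : Subgroup H) (c : H) (k m : ℕ) (hm : Odd m)
    (hidx : T.index = m * 2 ^ (k+1)) (hc : c ^ 2 ^ (k+1) = 1) (hfree : ∀ g : H, g⁻¹ * c ^ (2 ^ k) * g ∉ T) :
    sgn T c = -1 := by
  classical
  let _ := Fintype.ofFinite (H ⧸ T)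
  have : sgn T c = Equiv.Perm.sign (MulAction.toPermHom H (H ⧸ T) c) := by
    unfold sgn
    simp only [MonoidHom.comp_apply]
  rw [this]
  apply sign_eq_neg_one _ k m hm
  · rw [← Nat.card_eq_fintype_card]; exact hidx
  · rw [← map_pow, hc, map_one]
  · intro x
    induction x using QuotientGroup.induction_on with
    | H g =>
      rw [← map_pow]
      intro h
      apply hfree g
      have h2 : (c ^ 2 ^ k) • (g : H ⧸ T) = (g : H ⧸ T) := h
      rw [MulAction.Quotient.smul_coe, eq_comm, QuotientGroup.eq] at h2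
      simpa [mul_assoc] using h2

theorem units_eq_one_of_odd {u : ℤˣ} {n : ℕ} (hn : Nat.Coprime n 2) (h : u ^ n = 1) : u = 1 := by
  rcases Int.units_eq_one_or u with h1 | h1
  · exact h1
  · exfalso
    rw [h1] at h
    have hodd : Odd n := by
      rw [Nat.coprime_two_right] at hn
      exact hn
    rw [hodd.neg_one_pow] at h
    exact absurd h (by decide)

theorem residual_le_ker {G : Type*} [Group G] {H : Subgroup G} (hKH : Cfsg.pResidual 2 G ≤ H) (f : ↥H →* ℤˣ) :
    Cfsg.pResidual 2 G ≤ f.ker.map H.subtype := by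
  have hgen : ∀ g : G, Nat.Coprime (orderOf g) 2 → g ∈ f.ker.map H.subtype := by
    intro g hg
    have hgH : g ∈ H := hKH (Subgroup.subset_closure hg)
    refine ⟨⟨g, hgH⟩, ?_, rfl⟩
    change f ⟨g, hgH⟩ = 1
    apply units_eq_one_of_odd hg
    rw [← map_pow]
    have : (⟨g, hgH⟩ : ↥H) ^ orderOf g = 1 := Subtype.ext (by simpa using pow_orderOf_eq_one g)
    rw [this, map_one]
  unfold Cfsg.pResidual
  rw [Subgroup.closure_le]
  exact fun g hg => hgen g hg

theorem index_ker_eq_two {H : Type*} [Group H] (f : H →* ℤˣ) {c : H} (hc : f c = -1) : f.ker.index = 2 := by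
  rw [Subgroup.index_ker]
  have : f.range = ⊤ := by
    rw [eq_top_iff]
    intro u _
    rcases Int.units_eq_one_or u with h1 | h1
    · rw [h1]; exact f.range.one_mem
    · rw [h1]; exact ⟨c, hc⟩
  rw [this, Subgroup.card_top]
  simp

theorem chain {G : Type*} [Group G] [Finite G] (T : Subgroup G) (hTK : T ≤ Cfsg.pResidual 2 G) (m : ℕ)
    (hm : Odd m) : ∀ (k : ℕ) (H : Subgroup G) (c : G), Cfsg.pResidual 2 G ≤ H → c ∈ H → c ^ 2 ^ k = 1 →
      T.relIndex H = m * 2 ^ k → (∀ j < k, ∀ g : G, g⁻¹ * c ^ (2 ^ j) * g ∉ T) →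
      ¬ 2 ∣ T.relIndex (Cfsg.pResidual 2 G) := by
  intro k
  induction k with
  | zero =>
    intro H c hKH _ _ hidx _ h2
    have h := Subgroup.relIndex_mul_relIndex T _ H hTK hKH
    rw [hidx, pow_zero, mul_one] at h
    have : 2 ∣ m := h ▸ (Dvd.dvd.mul_right h2 _)
    exact (Nat.not_even_iff_odd.2 hm) (even_iff_two_dvd.2 this)
  | succ k ih =>
    intro H c hKH hc hck hidx hfree
    set f := sgn (T.subgroupOf H) with hf
    have hfc : f ⟨c, hc⟩ = -1 := by
      apply sgn_eq_neg_one (T.subgroupOf H) ⟨c, hc⟩ k m hm hidx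
      · exact Subtype.ext (by simpa using hck)
      · intro g hg
        rw [Subgroup.mem_subgroupOf] at hg
        exact hfree k (Nat.lt_succ_self k) g (by simpa using hg)
    have hK1 := residual_le_ker hKH f
    have h1H : f.ker.map H.subtype ≤ H := Subgroup.map_subtype_le _
    have hri : (f.ker.map H.subtype).relIndex H = 2 := by
      rw [Subgroup.relIndex, Subgroup.subgroupOf, Subgroup.comap_map_eq_self_of_injective H.subtype_injective]
      exact index_ker_eq_two f hfc
    apply ih (f.ker.map H.subtype) (c ^ 2) hK1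
    · refine ⟨⟨c, hc⟩ ^ 2, ?_, by simp⟩
      change f (⟨c, hc⟩ ^ 2) = 1
      rw [map_pow, hfc]; simp
    · rw [← pow_mul, ← pow_succ']; exact hck
    · have h := Subgroup.relIndex_mul_relIndex T _ H (hTK.trans hK1) h1H
      rw [hri, hidx, pow_succ, ← mul_assoc] at h
      exact Nat.eq_of_mul_eq_mul_right (by norm_num) h
    · intro j hj g
      rw [← pow_mul, ← pow_succ']
      exact hfree (j + 1) (by omega) g


theorem dih_aux {n : ℕ} (hn : 2 ≤ n) (C' : Subgroup (DihedralGroup n)) (hcyc : IsCyclic C')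
    (hcard : Nat.card C' = n) (y : DihedralGroup n) (hy : y ∉ C') : orderOf y = 2 := by
  have : NeZero n := ⟨by omega⟩
  obtain ⟨⟨g, hgC⟩, hg⟩ := hcyc.exists_generator
  have hgen : ∀ x ∈ C', x ∈ Subgroup.zpowers g := by
    intro x hx
    obtain ⟨k, hk⟩ := Subgroup.mem_zpowers_iff.1 (hg ⟨x, hx⟩)
    refine Subgroup.mem_zpowers_iff.2 ⟨k, ?_⟩
    have := congrArg Subtype.val hk
    simpa using this
  have hCz : C' = Subgroup.zpowers g :=
    le_antisymm hgen (Subgroup.zpowers_le.2 hgC)
  cases y with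
  | sr i => exact DihedralGroup.orderOf_sr i
  | r i =>
    cases g with
    | r j =>
      exfalso
      apply hy
      have hle : C' ≤ Subgroup.zpowers (DihedralGroup.r (1 : ZMod n)) := by
        rw [hCz, Subgroup.zpowers_le]
        refine Subgroup.mem_zpowers_iff.2 ⟨(j.val : ℤ), ?_⟩
        rw [zpow_natCast, DihedralGroup.r_one_pow]
        simp
      have heq : C' = Subgroup.zpowers (DihedralGroup.r (1 : ZMod n)) := by
        apply Subgroup.eq_of_le_of_card_ge hle
        rw [hcard, Nat.card_zpowers, DihedralGroup.orderOf_r_one]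
      rw [heq]
      refine Subgroup.mem_zpowers_iff.2 ⟨(i.val : ℤ), ?_⟩
      rw [zpow_natCast, DihedralGroup.r_one_pow]
      simp
    | sr j =>
      have h2 : n = 2 := by
        rw [← hcard, hCz, Nat.card_zpowers, DihedralGroup.orderOf_sr]
      subst h2
      have hi : i = 0 ∨ i = 1 := by
        fin_cases i
        · left; rfl
        · right; rfl
      rcases hi with rfl | rfl
      · exfalso; apply hy
        have : (DihedralGroup.r (0 : ZMod 2)) = 1 := rfl
        rw [this]; exact C'.one_mem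
      · exact DihedralGroup.orderOf_r_one


theorem card_mul_relIndex' {G : Type*} [Group G] {H K : Subgroup G} (h : H ≤ K) :
    Nat.card H * H.relIndex K = Nat.card K := by
  have := Subgroup.relIndex_mul_relIndex ⊥ H K bot_le h
  rwa [Subgroup.relIndex_bot_left, Subgroup.relIndex_bot_left] at this

/-- A consequence of Thompson's transfer lemma. Let G be a finite group, L a subgroup with O²(L) = L, T a Sylow 2-subgroup of L and S a Sylow 2-subgroup of G containing T. Suppose D ≤ S is a dihedral subgroup of order at least 4 (the four-group counts) with D ∩ T = 1 and S = TD as a set of products (so |S| = |T|·|D|), and C ≤ D is cyclic of index 2 in D. If no involution of D outside C is G-conjugate to an involution of the subgroup generated by T and C, and the involution of C is not G-conjugate to any involution of T, then G has a normal subgroup K, containing every Sylow 2-subgroup of L as a Sylow 2-subgroup, with G = KD. -/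
theorem result {G : Type*} [Group G] [Finite G] (L T S D C : Subgroup G) (hL : Cfsg.pResidual 2 ↥L = ⊤)
    (hTL : T ≤ L) (hT2 : IsPGroup 2 T) (hTsyl : ¬ 2 ∣ T.relIndex L)
    (hS2 : IsPGroup 2 S) (hSsyl : ¬ 2 ∣ S.index) (hTS : T ≤ S)
    (hDS : D ≤ S) (hDih : ∃ n : ℕ, 2 ≤ n ∧ Nonempty (↥D ≃* DihedralGroup n)) (hDT : D ⊓ T = ⊥) (hTD : T ⊔ D = S) (hTDc : Nat.card T * Nat.card D = Nat.card S)
    (hCD : C ≤ D) (hC : IsCyclic ↥C) (hCi : C.relIndex D = 2)
    (h1 : ∀ x ∈ D, x ∉ C → orderOf x = 2 → ∀ g : G, g * x * g⁻¹ ∈ T ⊔ C → False)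
    (h2 : ∀ c ∈ C, orderOf c = 2 → ∀ g : G, g * c * g⁻¹ ∈ T → False) :
    ∃ K : Subgroup G, K.Normal ∧ K ⊔ D = ⊤ ∧
      ∀ T' : Subgroup G, T' ≤ L → IsPGroup 2 T' → ¬ 2 ∣ T'.relIndex L → T' ≤ K ∧ ¬ 2 ∣ T'.relIndex K := by
  classical
  have hfact : Fact (Nat.Prime 2) := ⟨Nat.prime_two⟩
  have hKn : (Cfsg.pResidual 2 G).Normal := Cfsg.Agent.Lib.Helper2Residual.pResidual_normal 2
  have hLK : L ≤ Cfsg.pResidual 2 G := by
    have hmap : (Cfsg.pResidual 2 ↥L).map L.subtype ≤ Cfsg.pResidual 2 G := by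
      unfold Cfsg.pResidual
      rw [MonoidHom.map_closure, Subgroup.closure_le]
      rintro _ ⟨g, hg, rfl⟩
      apply Subgroup.subset_closure
      have h1 : orderOf (L.subtype g) = orderOf g := Subgroup.orderOf_coe g
      change Nat.Coprime (orderOf (L.subtype g)) 2
      rw [h1]; exact hg
    intro y hy
    exact hmap ⟨⟨y, hy⟩, by rw [hL]; trivial, rfl⟩
  have hTK := hTL.trans hLK
  obtain ⟨n, hn, ⟨e⟩⟩ := hDih
  have hDcard : Nat.card D = 2 * n := by rw [Nat.card_congr e.toEquiv, DihedralGroup.nat_card]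
  have hCcard : Nat.card C = n := by
    have h := card_mul_relIndex' hCD
    rw [hCi, hDcard] at h
    omega
  have hinv : ∀ y ∈ D, y ∉ C → orderOf y = 2 := by
    intro y hyD hyC
    set C' : Subgroup (DihedralGroup n) := (C.subgroupOf D).map e.toMonoidHom with hC'
    let e1 : ↥C ≃* ↥C' := (Subgroup.subgroupOfEquivOfLe hCD).symm.trans
      (Subgroup.equivMapOfInjective _ e.toMonoidHom e.injective)
    have hcyc : IsCyclic C' := isCyclic_of_surjective e1 e1.surjective
    have hcard : Nat.card C' = n := by rw [← Nat.card_congr e1.toEquiv, hCcard]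
    have hy' : e ⟨y, hyD⟩ ∉ C' := by
      rintro ⟨w, hw, hwe⟩
      have : w = ⟨y, hyD⟩ := e.injective hwe
      rw [this, SetLike.mem_coe, Subgroup.mem_subgroupOf] at hw
      exact hyC hw
    have h := dih_aux hn C' hcyc hcard _ hy'
    rw [MulEquiv.orderOf_eq, Subgroup.orderOf_mk] at h
    exact h
  obtain ⟨⟨c, hcC⟩, hgen⟩ := hC.exists_generator
  have hcord : orderOf c = n := by
    have := orderOf_eq_card_of_forall_mem_zpowers hgen
    rw [Subgroup.orderOf_mk, hCcard] at this
    exact this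
  obtain ⟨k, hk⟩ := (hS2.to_le (hCD.trans hDS)).exists_card_eq
  rw [hCcard] at hk
  obtain ⟨x, hxD, hxC⟩ : ∃ x ∈ D, x ∉ C := by
    by_contra hcon
    push Not at hcon
    have : C.relIndex D = 1 := Subgroup.relIndex_eq_one.2 hcon
    omega
  have hTCS : T ⊔ C ≤ S := sup_le hTS (hCD.trans hDS)
  have hTC : T ⊓ C = ⊥ := by
    rw [eq_bot_iff, ← hDT]
    exact le_inf (inf_le_right.trans hCD) inf_le_left
  have hM1 : (T ⊔ C).relIndex S = 2 := by
    have h1' := Cfsg.Agent.Lib.Helper56CD.card_mul_le T C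
    rw [hTC, Subgroup.card_bot, mul_one, hCcard] at h1'
    have h2 := card_mul_relIndex' hTCS
    rw [← hTDc, hDcard] at h2
    have h3 : (T ⊔ C).relIndex S ≠ 1 := by
      intro h
      have hle : S ≤ T ⊔ C := Subgroup.relIndex_eq_one.1 h
      exact h1 x hxD hxC (hinv x hxD hxC) 1 (by simpa using hle (hDS hxD))
    have h4 : (T ⊔ C).relIndex S ≠ 0 := by
      intro h
      rw [h, mul_zero] at h2
      have : 0 < Nat.card T * (2 * n) := by have := Nat.card_pos (α := T); positivity
      omega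
    have h5 : (T ⊔ C).relIndex S ≤ 2 := by
      by_contra hgt
      have : Nat.card ↥(T ⊔ C) * 3 ≤ Nat.card ↥(T ⊔ C) * (T ⊔ C).relIndex S :=
        Nat.mul_le_mul_left _ (by omega)
      have hpos : 0 < Nat.card T * n := by have := Nat.card_pos (α := T); positivity
      nlinarith
    omega
  have hm : Odd S.index := Nat.not_even_iff_odd.1 (fun h => hSsyl (even_iff_two_dvd.1 h))
  set m := S.index with hmdef
  have hM1i : (T ⊔ C).index = m * 2 ^ (0 + 1) := by
    rw [← Subgroup.relIndex_mul_index hTCS, hM1]; ring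
  set f := sgn (T ⊔ C) with hf
  have hfy : ∀ y ∈ D, y ∉ C → f y = -1 := by
    intro y hyD hyC
    have hy2 := hinv y hyD hyC
    apply sgn_eq_neg_one (T ⊔ C) y 0 m hm hM1i
    · rw [zero_add, pow_one, ← hy2]; exact pow_orderOf_eq_one y
    · intro g hg
      apply h1 y hyD hyC hy2 g⁻¹
      simpa using hg
  have hfx := hfy x hxD hxC
  have hfc : c ∈ f.ker := by
    have h1 : f (c * x) = -1 := by
      apply hfy _ (D.mul_mem (hCD hcC) hxD)
      intro h
      exact hxC ((Subgroup.mul_mem_cancel_left C hcC).1 h)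
    rw [map_mul, hfx] at h1
    rw [MonoidHom.mem_ker]
    have : f c * -1 * -1 = -1 * -1 := by rw [h1]
    simpa using this
  have hKH : Cfsg.pResidual 2 G ≤ f.ker := by
    apply Cfsg.Agent.Lib.Helper2Residual.pResidual_le_ker
    intro u
    exact ⟨1, by simp⟩
  have hTidx : T.relIndex f.ker = m * 2 ^ k := by
    have h1 := Subgroup.relIndex_mul_index (hTK.trans hKH)
    rw [index_ker_eq_two f hfx, ← Subgroup.relIndex_mul_index hTS] at h1
    have h2 := card_mul_relIndex' hTS
    rw [← hTDc] at h2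
    have h3 : T.relIndex S = Nat.card D := Nat.eq_of_mul_eq_mul_left Nat.card_pos h2
    rw [h3, hDcard, hk] at h1
    have : T.relIndex f.ker * 2 = (m * 2 ^ k) * 2 := by rw [h1]; ring
    exact Nat.eq_of_mul_eq_mul_right (by norm_num) this
  have hck : c ^ 2 ^ k = 1 := by rw [← hk, ← hcord]; exact pow_orderOf_eq_one c
  have hfree : ∀ j < k, ∀ g : G, g⁻¹ * c ^ (2 ^ j) * g ∉ T := by
    intro j hj g hg
    have hz : orderOf (c ^ 2 ^ (k - 1)) = 2 := by
      rw [orderOf_pow_of_dvd (by positivity), hcord, hk]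
      · obtain ⟨k', rfl⟩ : ∃ k', k = k' + 1 := ⟨k - 1, by omega⟩
        rw [Nat.add_sub_cancel, pow_succ, Nat.mul_div_cancel_left _ (by positivity)]
      · rw [hcord, hk]; exact pow_dvd_pow 2 (by omega)
    apply h2 _ (C.pow_mem hcC _) hz g⁻¹
    have h3 := T.pow_mem hg (2 ^ (k - 1 - j))
    have h4 : (g⁻¹ * c ^ (2 ^ j) * g) ^ (2 ^ (k - 1 - j)) = g⁻¹ * c ^ 2 ^ (k - 1) * g⁻¹⁻¹ := by
      have := conj_pow (a := g⁻¹) (b := c ^ (2 ^ j)) (i := 2 ^ (k - 1 - j))
      rw [inv_inv] at this ⊢
      rw [this, ← pow_mul, ← pow_add]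
      have e : j + (k - 1 - j) = k - 1 := by omega
      rw [e]
    rwa [h4] at h3
  have hmain := chain T hTK m hm k f.ker c hKH hfc hck hTidx hfree
  refine ⟨Cfsg.pResidual 2 G, hKn, ?_, ?_⟩
  · have h1 := Cfsg.Agent.Lib.Helper2Residual.sylow_sup_pResidual_eq_top (hS2.toSylow hSsyl)
    rw [IsPGroup.toSylow_coe, ← hTD] at h1
    rw [eq_top_iff, ← h1]
    exact sup_le (sup_le (hTK.trans le_sup_left) le_sup_right) le_sup_left
  · intro T' hT'L hT'2 hT'syl
    refine ⟨hT'L.trans hLK, ?_⟩
    have hc1 := Cfsg.Agent.Lib.Helper40Sylow.IsSylowIn.card_eq (p := 2) (T := T) (H := L) ⟨hTL, hT2, hTsyl⟩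
    have hc2 := Cfsg.Agent.Lib.Helper40Sylow.IsSylowIn.card_eq (p := 2) (T := T') (H := L) ⟨hT'L, hT'2, hT'syl⟩
    have h3 := card_mul_relIndex' hTK
    have h4 := card_mul_relIndex' (hT'L.trans hLK)
    rw [hc2, ← hc1, ← h3] at h4
    rw [Nat.eq_of_mul_eq_mul_left Nat.card_pos h4]
    exact hmain

end Cfsg.Agent.S1924
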