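import Cfsg.Statements.S1932
import Cfsg.Agent.Lib.Helper52Sol6
import Cfsg.Agent.Lib.Helper14PConstr

set_option autoImplicit false
open Cfsg

namespace Cfsg.Agent.S1932

open scoped commutatorElement

/-- Let G be a finite group that is 2-constrained and has no section isomorphic to the symmetric group of degree 4, and let S be a Sylow 2-subgroup of G of nilpotency class at most 2. Then G = N_G(J(S))·O_{2'}(G), where J(S) is the Thompson subgroup generated by the elementary abelian subgroups of S of largest order. -/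
theorem result {G : Type*} [Group G] [Finite G] (hcon : Cfsg.IsPConstrained 2 G) (hS4 : ¬ Cfsg.Involves (Equiv.Perm (Fin 4)) G) (S : Sylow 2 G) (hcl : Subgroup.lowerCentralSeries (S : Subgroup G) 2 = ⊥) : Subgroup.normalizer ((Cfsg.thompsonSubgroupOf 2 (S : Subgroup G)) : Set G) ⊔ Cfsg.pPrimeCore 2 G = ⊤ := by
  have : Fact (Nat.Prime 2) := ⟨Nat.prime_two⟩
  set O := Cfsg.pPrimeCore 2 G with hO
  have hOn : O.Normal := Subgroup.sSup_normal _ (fun _ h => h.1)
  have hOc : (Nat.card O).Coprime 2 := Cfsg.Agent.Lib.Helper60Core.card_pPrimeCore_coprime 2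
  set π := QuotientGroup.mk' O with hπ
  have hπs : Function.Surjective π := QuotientGroup.mk'_surjective O
  have hSO : ∀ x ∈ (S : Subgroup G), x ∈ O → x = 1 := by
    intro x hx hxO
    have h1 : IsPGroup 2 ((S : Subgroup G) ⊓ O : Subgroup G) := S.isPGroup'.to_le inf_le_left
    have h2 : (Nat.card ((S : Subgroup G) ⊓ O : Subgroup G)).Coprime 2 :=
      Nat.Coprime.coprime_dvd_left (Subgroup.card_dvd_of_le inf_le_right) hOc
    have h3 := Cfsg.Agent.Lib.Helper52FStar.eq_bot_of_isPGroup_of_coprime h1 h2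
    have h4 : x ∈ ((S : Subgroup G) ⊓ O : Subgroup G) := ⟨hx, hxO⟩
    rw [h3] at h4
    exact Subgroup.mem_bot.mp h4
  have hinj : ∀ x ∈ (S : Subgroup G), π x = 1 → x = 1 := by
    intro x hx h
    exact hSO x hx ((QuotientGroup.eq_one_iff x).mp h)
  have hcl2 : ∀ x ∈ (S : Subgroup G), ∀ y ∈ (S : Subgroup G),
      ⁅x, y⁆ ∈ Subgroup.centralizer ((S : Subgroup G) : Set G) := by
    intro x hx y hy
    have h1 : ⁅⁅(S : Subgroup G), (S : Subgroup G)⁆, (S : Subgroup G)⁆ = ⊥ := by
      have h2 : Subgroup.lowerCentralSeries (S : Subgroup G) (0 + 1 + 1) = ⊥ := hcl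
      rw [Subgroup.lowerCentralSeries_succ,
        Subgroup.lowerCentralSeries_succ, Subgroup.lowerCentralSeries_zero] at h2
      exact h2
    rw [Subgroup.commutator_eq_bot_iff_le_centralizer] at h1
    exact h1 (Subgroup.commutator_mem_commutator hx hy)
  set J := Cfsg.thompsonSubgroupOf 2 (S : Subgroup G) with hJ
  have hJS : J ≤ S := Cfsg.Agent.Lib.Helper13Thompson2.thompsonOf_le_self 2 _
  have hJ' := Cfsg.Agent.Lib.Helper52Sol6.thompson_normal_of_constrained (G := G ⧸ O)
    (fun h => hS4 (Cfsg.Agent.Lib.Helper24Section.Involves.trans h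
      (Cfsg.Agent.Lib.Helper24Section.involves_quotient O)))
    (Sylow.mapSurjective hπs S) (by
      rw [Sylow.coe_mapSurjective]
      rintro _ ⟨x, hx, rfl⟩ _ ⟨y, hy, rfl⟩
      rw [Subgroup.mem_centralizer_iff]
      rintro _ ⟨z, hz, rfl⟩
      have h1 := (Subgroup.mem_centralizer_iff.mp (hcl2 x hx y hy)) z hz
      rw [← map_commutatorElement, ← map_mul, ← map_mul, h1])
    (Cfsg.Agent.Lib.Helper14PConstr.isPConstrained_iff.mp hcon)
  rw [Sylow.coe_mapSurjective, Cfsg.Agent.Lib.Helper52Sol5.thompsonOf_map_of_injOn π hinj] at hJ'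
  have hN : (J ⊔ O).Normal := by
    have h1 := hJ'.comap π
    rw [Subgroup.comap_map_eq, hπ, QuotientGroup.ker_mk'] at h1
    exact h1
  have hSN : (S : Subgroup G) ⊓ (J ⊔ O) = J := by
    apply le_antisymm
    · rintro x ⟨hxS, hx⟩
      change x ∈ ((J ⊔ O : Subgroup G) : Set G) at hx
      change x ∈ (S : Subgroup G) at hxS
      rw [Subgroup.mul_normal] at hx
      obtain ⟨j, hj, o, ho, rfl⟩ := hx
      have h1 : o ∈ (S : Subgroup G) := by
        have := (S : Subgroup G).mul_mem ((S : Subgroup G).inv_mem (hJS hj)) hxS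
        simpa using this
      have h2 := hSO o h1 ho
      simpa [h2] using hj
    · exact le_inf hJS le_sup_left
  rw [eq_top_iff]
  intro g _
  obtain ⟨c, hc, n, hn, rfl⟩ := Cfsg.Agent.Lib.Helper13Thompson2.frattini_elt (J ⊔ O) S g
  rw [hSN] at hn
  apply Subgroup.mul_mem
  · exact (sup_le (Subgroup.le_normalizer.trans le_sup_left) le_sup_right) hc
  · exact le_sup_left (a := Subgroup.normalizer (J : Set G)) hn

end Cfsg.Agent.S1932
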