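import Cfsg.Statements.S1939

import Cfsg.Agent.Lib.Helper39Sylow
set_option autoImplicit false
open Cfsg

namespace Cfsg.Agent.S1939

open Cfsg.Agent.Lib.Helper39Sylow

/-- Let S be a Sylow p-subgroup of the finite group G and a an element of S that is the only G-conjugate of a lying in S. Then every power of a has the same property: for every n, the only G-conjugate of a^n lying in S is a^n. -/
theorem result {G : Type*} [Group G] [Finite G] {p : ℕ} [Fact p.Prime] (S : Sylow p G) (a : G)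
    (haS : a ∈ (S : Subgroup G)) (hwc : ∀ g : G, g * a * g⁻¹ ∈ (S : Subgroup G) → g * a * g⁻¹ = a) (n : ℕ) :
    ∀ g : G, g * a ^ n * g⁻¹ ∈ (S : Subgroup G) → g * a ^ n * g⁻¹ = a ^ n := by
  intro g hg
  have hcent : ∀ s ∈ (S : Subgroup G), s * a = a * s := by
    intro s hs
    have := hwc s ((S : Subgroup G).mul_mem ((S : Subgroup G).mul_mem hs haS) ((S : Subgroup G).inv_mem hs))
    rwa [mul_inv_eq_iff_eq_mul] at this
  set b := g * a ^ n * g⁻¹ with hb
  have hSyl : IsSyl p (cj g (S : Subgroup G)) ⊤ := by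
    have := (isSyl_sylow S).conj g
    rwa [cj_top] at this
  have hle : cj g (S : Subgroup G) ≤ Subgroup.centralizer ({b} : Set G) := by
    intro x hx
    rw [mem_cj] at hx
    rw [Subgroup.mem_centralizer_singleton_iff]
    have h1 := hcent _ hx
    have h2 : (g⁻¹ * x * g) * a ^ n = a ^ n * (g⁻¹ * x * g) := ((Commute.pow_right h1 n : Commute _ _)).eq
    calc x * b = g * ((g⁻¹ * x * g) * a ^ n) * g⁻¹ := by rw [hb]; group
      _ = g * (a ^ n * (g⁻¹ * x * g)) * g⁻¹ := by rw [h2]
      _ = b * x := by rw [hb]; group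
  have hSyl' : IsSyl p (cj g (S : Subgroup G)) (Subgroup.centralizer ({b} : Set G)) := hSyl.of_le hle le_top
  have haC : Subgroup.zpowers a ≤ Subgroup.centralizer ({b} : Set G) := by
    rw [Subgroup.zpowers_le, Subgroup.mem_centralizer_singleton_iff]
    exact (hcent b hg).symm
  have hap : IsPGroup p (Subgroup.zpowers a) :=
    S.isPGroup'.to_le (by rw [Subgroup.zpowers_le]; exact haS)
  obtain ⟨c, hcC, hc⟩ := hSyl'.exists_conj_le haC hap
  have h1 : c * a * c⁻¹ ∈ cj g (S : Subgroup G) := hc (conj_mem_cj (Subgroup.mem_zpowers a))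
  rw [mem_cj] at h1
  have h2 := hwc (g⁻¹ * c) (by simpa [mul_assoc] using h1)
  have h3 : c * a * c⁻¹ = g * a * g⁻¹ := by
    calc c * a * c⁻¹ = g * (g⁻¹ * c * a * (g⁻¹ * c)⁻¹) * g⁻¹ := by group
      _ = g * a * g⁻¹ := by rw [h2]
  have h4 : c * a ^ n * c⁻¹ = b := by
    rw [hb, ← conj_pow, ← conj_pow, h3]
  rw [Subgroup.mem_centralizer_singleton_iff] at hcC
  calc b = c⁻¹ * (c * b) := by group
    _ = c⁻¹ * (b * c) := by rw [hcC]
    _ = c⁻¹ * (c * a ^ n * c⁻¹ * c) := by rw [h4]
    _ = a ^ n := by group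

end Cfsg.Agent.S1939
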