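import Cfsg.Statements.S1940

set_option autoImplicit false
open Cfsg

namespace Cfsg.Agent.S1940

/-- Let the finite group L act by automorphisms on the finite abelian group M, and let N be an L-invariant subgroup of M such that M/N is a p-group on which L acts trivially (every l • m lies in the coset mN). If every element of M is a product of an element of N and an element fixed by a Sylow p-subgroup T of L, then every element of M is a product of an element of N and an element fixed by all of L. -/
theorem result {L : Type*} [Group L] [Finite L] {M : Type*} [CommGroup M] [Finite M] [MulDistribMulAction L M]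
    {p : ℕ} [Fact p.Prime] (N : Subgroup M) (hN : ∀ (l : L) (m : M), m ∈ N → l • m ∈ N)
    (hquot : IsPGroup p (M ⧸ N)) (htriv : ∀ (l : L) (m : M), (l • m) * m⁻¹ ∈ N) (T : Sylow p L)
    (hT : ∀ m : M, ∃ n ∈ N, ∃ c : M, (∀ t ∈ (T : Subgroup L), t • c = c) ∧ m = n * c) :
    ∀ m : M, ∃ n ∈ N, ∃ c : M, (∀ l : L, l • c = c) ∧ m = n * c := by
  classical
  intro m
  haveI : Fintype (L ⧸ (T : Subgroup L)) := Fintype.ofFinite _
  have hk : p.Coprime (T : Subgroup L).index := by
    rw [Nat.Prime.coprime_iff_not_dvd Fact.out]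
    exact T.not_dvd_index
  obtain ⟨d, hd⟩ := (hquot.powEquiv hk).surjective (QuotientGroup.mk m : M ⧸ N)
  obtain ⟨m', rfl⟩ := QuotientGroup.mk_surjective d
  obtain ⟨n', hn', c', hc', rfl⟩ := hT m'
  have hd' : ((QuotientGroup.mk (n' * c') : M ⧸ N)) ^ (T : Subgroup L).index = QuotientGroup.mk m := hd
  set tr : M := ∏ q : L ⧸ (T : Subgroup L), (q.out) • c' with htr
  have hfix : ∀ l : L, l • tr = tr := by
    intro l
    rw [htr, Finset.smul_prod']
    have h1 : ∀ q : L ⧸ (T : Subgroup L), l • (q.out • c') = ((l • q).out) • c' := by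
      intro q
      have h2 : ((l • q).out)⁻¹ * (l * q.out) ∈ (T : Subgroup L) := by
        rw [← QuotientGroup.eq]
        rw [QuotientGroup.out_eq']
        conv_lhs => rw [← QuotientGroup.out_eq' q]
        rfl
      have h3 := hc' _ h2
      rw [← mul_smul]
      calc (l * q.out) • c' = ((l • q).out * (((l • q).out)⁻¹ * (l * q.out))) • c' := by
            congr 1; group
        _ = (l • q).out • c' := by rw [mul_smul, h3]
    simp_rw [h1]
    exact Fintype.prod_equiv (MulAction.toPerm l) _ _ (fun q => rfl)
  have hmk : (QuotientGroup.mk tr : M ⧸ N) = QuotientGroup.mk m := by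
    rw [← hd', htr]
    have h1 : ∀ q : L ⧸ (T : Subgroup L), (QuotientGroup.mk (q.out • c') : M ⧸ N) = QuotientGroup.mk (n' * c') := by
      intro q
      rw [QuotientGroup.eq]
      have h2 := htriv q.out c'
      have h3 : (q.out • c')⁻¹ * (n' * c') = n' * ((q.out • c') * c'⁻¹)⁻¹ := by
        rw [mul_inv, inv_inv]
        ac_rfl
      rw [h3]
      exact N.mul_mem hn' (N.inv_mem h2)
    have h4 : (QuotientGroup.mk (∏ q : L ⧸ (T : Subgroup L), (q.out) • c') : M ⧸ N)
        = ∏ q : L ⧸ (T : Subgroup L), (QuotientGroup.mk (q.out • c') : M ⧸ N) :=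
      map_prod (QuotientGroup.mk' N) _ _
    rw [h4]
    simp_rw [h1]
    rw [Finset.prod_const, Finset.card_univ, Subgroup.index, Nat.card_eq_fintype_card]
  refine ⟨m * tr⁻¹, ?_, tr, hfix, by simp⟩
  rw [QuotientGroup.eq] at hmk
  rwa [mul_comm]

end Cfsg.Agent.S1940
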