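import Cfsg.Statements.S1941
import Cfsg.Agent.Lib.Helper27Cocycle

set_option autoImplicit false
open Cfsg

namespace Cfsg.Agent.S1941

/-- Let G be a finite group with no nontrivial normal subgroup of order prime to p, T a Sylow p-subgroup of G and E(G) the layer of G (the subgroup generated by its components). An automorphism of G of p-power order that fixes T and E(G) elementwise is inner. -/
theorem result {G : Type*} [Group G] [Finite G] {p : ℕ} [Fact p.Prime] (hcore : Cfsg.pPrimeCore p G = ⊥)
    (T : Sylow p G) (α : MulAut G) (hα : ∃ j : ℕ, orderOf α = p ^ j) (hfixT : ∀ x ∈ (T : Subgroup G), α x = x)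
    (hfixE : ∀ x ∈ Cfsg.layer G, α x = x) : ∃ g : G, ∀ x : G, α x = g * x * g⁻¹ := by
  have hFn : (Cfsg.generalizedFittingSubgroup G).Normal := by
    rw [Cfsg.Agent.Lib.Helper28Layer.gfit_eq]
    exact Cfsg.Agent.Lib.Helper28Comp.normIn_top_iff.mp
      (Cfsg.Agent.Lib.Helper28Layer.gfitIn_normIn ⊤)
  have hpT : Cfsg.pCore p G ≤ (T : Subgroup G) := by
    have : (Cfsg.pCore p G).Normal := inferInstance
    exact (Cfsg.Agent.Lib.Helper27Core.pCore_isPGroup p).le_sylow_of_normal T
  -- `α` fixes `F*(G)`
  let Fix : Subgroup G :=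
    { carrier := {x | α x = x}
      one_mem' := map_one α
      mul_mem' := by
        intro a b ha hb
        show α (a * b) = a * b
        rw [map_mul, ha, hb]
      inv_mem' := by
        intro a ha
        show α a⁻¹ = a⁻¹
        rw [map_inv, ha] }
  have hfit : Cfsg.fittingSubgroup G ≤ Fix := by
    have h1 : Cfsg.fittingSubgroup G ≤ Cfsg.pCore p G :=
      Cfsg.Agent.Lib.Helper27Balance.nilpotent_normal_le_pCore hcore
        Cfsg.Agent.Lib.Helper28Fitting.fitting_normal
        Cfsg.Agent.Lib.Helper28Fitting.fitting_isNilpotent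
    exact fun x hx => hfixT x (hpT (h1 hx))
  have hF : Cfsg.generalizedFittingSubgroup G ≤ Fix :=
    sup_le (fun x hx => hfixE x hx) hfit
  have hZle := Cfsg.Agent.Lib.Helper28Layer.centralizer_gfit_le (G := G)
  have hZn : (Subgroup.centralizer (Cfsg.generalizedFittingSubgroup G : Set G)).Normal :=
    inferInstance
  have hZc : ∀ a ∈ Subgroup.centralizer (Cfsg.generalizedFittingSubgroup G : Set G),
      ∀ b ∈ Subgroup.centralizer (Cfsg.generalizedFittingSubgroup G : Set G), a * b = b * a := by
    intro a ha b hb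
    exact (Subgroup.mem_centralizer_iff.mp hb) a (hZle ha)
  have hZnil : Group.IsNilpotent
      ↥(Subgroup.centralizer (Cfsg.generalizedFittingSubgroup G : Set G)) := by
    let _ : CommGroup ↥(Subgroup.centralizer (Cfsg.generalizedFittingSubgroup G : Set G)) :=
      { (inferInstance : Group
          ↥(Subgroup.centralizer (Cfsg.generalizedFittingSubgroup G : Set G))) with
        mul_comm := fun a b => Subtype.ext (hZc a a.2 b b.2) }
    infer_instance
  have hZp : IsPGroup p ↥(Subgroup.centralizer (Cfsg.generalizedFittingSubgroup G : Set G)) :=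
    (Cfsg.Agent.Lib.Helper27Core.pCore_isPGroup p).to_le
      (Cfsg.Agent.Lib.Helper27Balance.nilpotent_normal_le_pCore hcore hZn hZnil)
  have hd : ∀ g, α g * g⁻¹ ∈ Subgroup.centralizer (Cfsg.generalizedFittingSubgroup G : Set G) := by
    intro g
    rw [Subgroup.mem_centralizer_iff]
    intro f hf
    have h1 : g⁻¹ * f * g ∈ Cfsg.generalizedFittingSubgroup G := by
      have := hFn.conj_mem f hf g⁻¹
      simpa using this
    have h2 : α (g⁻¹ * f * g) = g⁻¹ * f * g := hF h1
    have h3 : α f = f := hF hf
    rw [map_mul, map_mul, map_inv, h3] at h2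
    calc f * (α g * g⁻¹) = α g * ((α g)⁻¹ * f * α g) * g⁻¹ := by group
      _ = α g * (g⁻¹ * f * g) * g⁻¹ := by rw [h2]
      _ = α g * g⁻¹ * f := by group
  obtain ⟨w, _, hw⟩ := Cfsg.Agent.Lib.Helper27Cocycle.inner_of_cocycle T _ hZc hZp α hfixT hd
  exact ⟨w, hw⟩

end Cfsg.Agent.S1941
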