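import Cfsg.Statements.S1947
import Cfsg.Agent.Lib.Helper11SmallExp

set_option autoImplicit false
open Cfsg

namespace Cfsg.Agent.S1947

open Subgroup Cfsg.Agent.Lib.Helper11Frobenius Cfsg.Agent.Lib.Helper11OddAut
  Cfsg.Agent.Lib.Helper11SmallExp
open scoped commutatorElement

/-- Let G be a finite group and p a prime. If every element of G of order dividing p (dividing 4 when p = 2) lies in some fixed term Z_n(G) of the upper central series, then G has a normal p-complement. -/
theorem result {G : Type*} [Group G] [Finite G] {p : ℕ} [Fact p.Prime] (n : ℕ)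
    (h : ∀ a : G, (a ^ p = 1 ∨ (p = 2 ∧ a ^ 4 = 1)) → a ∈ Subgroup.upperCentralSeries G n) : Cfsg.HasNormalPComplement p G := by
  rw [← hasNPC_iff]
  apply Cfsg.Agent.Lib.Helper11Frobenius.frobenius
  intro Q hQ g hgN hgo
  have hchain : ∀ i : ℕ, g ∈ centralizer ((Q ⊓ Subgroup.upperCentralSeries G i : Subgroup G) : Set G) := by
    intro i
    induction i with
    | zero =>
      intro x hx
      have hx' : x ∈ Q ⊓ Subgroup.upperCentralSeries G 0 := hx
      rw [Subgroup.upperCentralSeries_zero, inf_bot_eq, mem_bot] at hx'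
      rw [hx']; simp
    | succ i ih =>
      apply mem_centralizer_of_chain (p := p) (Q ⊓ Subgroup.upperCentralSeries G i)
        (Q ⊓ Subgroup.upperCentralSeries G (i + 1)) (hQ.to_le inf_le_left)
        (inf_le_inf_left Q (Subgroup.upperCentralSeries_mono G (Nat.le_succ i))) g hgo ih
      rintro b ⟨hbQ, hbZ⟩
      refine ⟨Q.mul_mem ((mem_normalizer_iff.mp hgN b).mp hbQ) (Q.inv_mem hbQ), ?_⟩
      have h1 := Subgroup.mem_upperCentralSeries_succ_iff.mp hbZ g
      have h2 : g * b * g⁻¹ * b⁻¹ = ⁅b, g⁆⁻¹ := by rw [commutatorElement_def]; group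
      show g * b * g⁻¹ * b⁻¹ ∈ Subgroup.upperCentralSeries G i
      rw [h2]
      exact inv_mem h1
  apply mem_centralizer_of_small_order p g hgo Q hQ hgN
  intro d hd hsmall
  exact hchain n d ⟨hd, h d hsmall⟩

end Cfsg.Agent.S1947
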