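import Cfsg.Statements.S1948
import Cfsg.Agent.Lib.Helper53Syl
import Cfsg.Agent.Lib.Helper38HH

set_option autoImplicit false
open Cfsg

namespace Cfsg.Agent.S1948

open Cfsg.Agent.Lib.Helper53Basic Cfsg.Agent.Lib.Helper53Rel Cfsg.Agent.Lib.Helper53Syl

local notation "⟪" Q ", " g "⟫" => Subgroup.map (MulEquiv.toMonoidHom (MulAut.conj g)) Q

/-- Let S be a Sylow p-subgroup of the finite group G. Then G = N_G(S)·O_{p'}(G) if and only if G is p-constrained and N_G(S) controls fusion in S, in the sense that whenever a subgroup Q of S has a conjugate g Q g⁻¹ inside S, the element g is a product n c with n normalizing S and c centralizing Q. -/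
theorem result {G : Type*} [Group G] [Finite G] {p : ℕ} [Fact p.Prime] (S : Sylow p G) :
    Subgroup.normalizer ((S : Subgroup G) : Set G) ⊔ Cfsg.pPrimeCore p G = ⊤ ↔
      (Cfsg.IsPConstrained p G ∧
        ∀ Q : Subgroup G, Q ≤ (S : Subgroup G) → ∀ g : G, Q.map (MulAut.conj g).toMonoidHom ≤ (S : Subgroup G) →
          ∃ n ∈ Subgroup.normalizer ((S : Subgroup G) : Set G), ∃ c ∈ Subgroup.centralizer (Q : Set G), g = n * c) := by
  classical
  have hp : p.Prime := Fact.out
  set O := Cfsg.pPrimeCore p G with hO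
  set K := Cfsg.pPrimePCore p G with hK
  set π := QuotientGroup.mk' O with hπ
  have hπs : Function.Surjective π := QuotientGroup.mk'_surjective O
  have hKdef : K = (Cfsg.pCore p (G ⧸ O)).comap π := rfl
  have hKn : K.Normal := by
    rw [hKdef]
    have : (Cfsg.pCore p (G ⧸ O)).Normal := inferInstance
    exact this.comap π
  have hnorm : ∀ N : Subgroup G, N.Normal → ∀ L : Subgroup G, L ≤ Subgroup.normalizer (N : Set G) := by
    intro N hN L
    rw [Subgroup.normalizer_eq_top_iff.2 hN]
    exact le_top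
  have hOn : O.Normal := inferInstance
  have hOK : O ≤ K := by
    intro x hx
    rw [hKdef, Subgroup.mem_comap]
    have : π x = 1 := (QuotientGroup.eq_one_iff x).2 hx
    rw [this]; exact Subgroup.one_mem _
  have hOcop : (Nat.card O).Coprime p := Cfsg.Agent.Lib.Helper60Core.card_pPrimeCore_coprime p
  have hSO : ∀ y, y ∈ (S : Subgroup G) → y ∈ O → y = 1 := by
    intro y hyS hyO
    obtain ⟨k, hk⟩ := S.2 ⟨y, hyS⟩
    have h1 : y ^ (p ^ k) = 1 := by
      simpa only [Subgroup.coe_pow, Subgroup.coe_one] using congrArg Subtype.val hk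
    exact Cfsg.Agent.Lib.Helper38HH.eq_one_of_pow_coprime
      (Cfsg.Agent.Lib.Helper38HH.pow_card_of_mem hyO) h1 (hOcop.pow_right k)
  have hKq : ∀ l ∈ K, ∃ k : ℕ, l ^ (p ^ k) ∈ O := by
    intro l hl
    have h1 : π l ∈ Cfsg.pCore p (G ⧸ O) := hl
    obtain ⟨k, hk⟩ := (pCore_isPGroup p (G ⧸ O)) ⟨π l, h1⟩
    refine ⟨k, ?_⟩
    have h2 : (π l) ^ (p ^ k) = 1 := by
      simpa only [Subgroup.coe_pow, Subgroup.coe_one] using congrArg Subtype.val hk
    rw [← map_pow] at h2
    exact (QuotientGroup.eq_one_iff _).1 h2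
  have hsylS : IsSyl p (S : Subgroup G) ⊤ := isSyl_of_sylow_le S le_top
  have hR : IsSyl p ((S : Subgroup G) ⊓ K) K := hsylS.inf_normal le_top (hnorm K hKn _)
  have hKeq : O ⊔ ((S : Subgroup G) ⊓ K) = K := hR.sup_eq hOK (hnorm O hOn _) hKq
  constructor
  · intro htop
    have hOSn : (O ⊔ (S : Subgroup G)).Normal := by
      rw [← Subgroup.normalizer_eq_top_iff, eq_top_iff, ← htop]
      apply sup_le
      · exact le_normalizer_sup (hnorm O hOn _) le_rfl
      · exact le_sup_left.trans Subgroup.le_normalizer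
    have hmapeq : (O ⊔ (S : Subgroup G)).map π = (S : Subgroup G).map π := by
      rw [Subgroup.map_sup]
      have : O.map π = ⊥ := by
        rw [Subgroup.map_eq_bot_iff, hπ, QuotientGroup.ker_mk']
      rw [this, bot_sup_eq]
    have hSbn : ((S : Subgroup G).map π).Normal := by
      rw [← hmapeq]; exact hOSn.map π hπs
    have hSbp : IsPGroup p ((S : Subgroup G).map π) := S.2.map π
    have hSble : (S : Subgroup G).map π ≤ Cfsg.pCore p (G ⧸ O) := le_pCore hSbn hSbp
    have hSK : (S : Subgroup G) ≤ K := by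
      intro x hx
      rw [hKdef, Subgroup.mem_comap]
      exact hSble (Subgroup.mem_map_of_mem π hx)
    have hSKeq : (S : Subgroup G) ⊓ K = S := inf_eq_left.2 hSK
    rw [hSKeq] at hR hKeq
    have hCS : Subgroup.centralizer ((S : Subgroup G) : Set G) ≤ K := by
      have hDn : (Subgroup.centralizer (((S : Subgroup G).map π : Subgroup (G ⧸ O)) : Set (G ⧸ O))).Normal :=
        inferInstance
      have hle := Cfsg.Agent.Lib.Helper38HH.le_of_central_of_coprime (p := p)
        (Cfsg.Agent.Lib.Helper60Core.pPrimeCore_quotient_eq_bot (G := G) p)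
        (D := Subgroup.centralizer (((S : Subgroup G).map π : Subgroup (G ⧸ O)) : Set (G ⧸ O)))
        (Z := (S : Subgroup G).map π ⊓
          Subgroup.centralizer (((S : Subgroup G).map π : Subgroup (G ⧸ O)) : Set (G ⧸ O)))
        hDn inf_le_right hSbp.to_inf_left
        (by
          intro z hz d hd
          exact (Subgroup.mem_centralizer_iff.1 hd) z (Subgroup.mem_inf.1 hz).1)
        (by
          rw [Subgroup.inf_relIndex_right]
          have h1 : ((S : Subgroup G).map π).relIndex
              (Subgroup.centralizer (((S : Subgroup G).map π : Subgroup (G ⧸ O)) : Set (G ⧸ O))) ∣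
              (S : Subgroup G).index :=
            (Subgroup.relIndex_dvd_index_of_normal _ _).trans (Subgroup.index_map_dvd _ hπs)
          exact Nat.Coprime.coprime_dvd_left h1
            ((Nat.Prime.coprime_iff_not_dvd hp).2 S.not_dvd_index).symm)
      intro x hx
      rw [hKdef, Subgroup.mem_comap]
      apply hSble
      apply (Subgroup.mem_inf.1 (hle _)).1
      rw [Subgroup.mem_centralizer_iff]
      rintro _ ⟨s, hs, rfl⟩
      have := (Subgroup.mem_centralizer_iff.1 hx) s hs
      rw [← map_mul, ← map_mul, this]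
    refine ⟨?_, ?_⟩
    · intro P
      obtain ⟨l, hl, hPl⟩ := hR.conj (isSyl_of_sylow P)
      rw [hPl, centralizer_cj, cj_le_iff, cj_eq_of_le_normalizer (hnorm K hKn ⊤) (Subgroup.mem_top _)]
      exact hCS
    · intro Q hQS g hg
      have hgtop : g ∈ Subgroup.normalizer ((S : Subgroup G) : Set G) ⊔ O := by rw [htop]; trivial
      obtain ⟨n, hn, u, hu, rfl⟩ := (mem_sup_of_le_normalizer (hnorm O hOn _)).1 hgtop
      refine ⟨n, hn, u, ?_, rfl⟩
      rw [Subgroup.mem_centralizer_iff]
      intro x hx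
      have h1 : (n * u) * x * (n * u)⁻¹ ∈ (S : Subgroup G) := hg (conj_mem_cj (n * u) hx)
      have h2 : u * x * u⁻¹ ∈ (S : Subgroup G) := by
        have h3 := (Subgroup.mem_normalizer_iff.1 hn (u * x * u⁻¹)).2
        apply h3
        convert h1 using 1
        group
      have h4 : u * x * u⁻¹ * x⁻¹ = 1 := by
        apply hSO
        · exact Subgroup.mul_mem _ h2 (Subgroup.inv_mem _ (hQS hx))
        · have := O.mul_mem hu (hOn.conj_mem u⁻¹ (O.inv_mem hu) x)
          convert this using 1
          group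
      calc x * u = (u * x * u⁻¹ * x⁻¹)⁻¹ * (u * x) := by group
        _ = u * x := by rw [h4]; simp
  · rintro ⟨hcon, hfus⟩
    obtain ⟨P, hP⟩ := hR.exists_sylow
    have hCR : Subgroup.centralizer (((S : Subgroup G) ⊓ K : Subgroup G) : Set G) ≤ K := by
      have h1 := hcon P
      rw [hP, Subgroup.subgroupOf_map_subtype, inf_eq_left.2 (inf_le_right : (S : Subgroup G) ⊓ K ≤ K)] at h1
      exact h1
    have hKle : K ≤ Subgroup.normalizer ((S : Subgroup G) : Set G) ⊔ O := by
      rw [← hKeq]
      exact sup_le le_sup_right ((inf_le_left.trans Subgroup.le_normalizer).trans le_sup_left)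
    rw [eq_top_iff]
    intro g _
    obtain ⟨k, hk, m, hm, rfl⟩ := frattini (L := ⊤) (hnorm K hKn ⊤) hR (Subgroup.mem_top g)
    have hm' : ⟪(S : Subgroup G) ⊓ K, m⟫ = (S : Subgroup G) ⊓ K := cj_eq_iff_mem_normalizer.2 hm
    obtain ⟨n, hn, c, hc, rfl⟩ := hfus _ inf_le_left m (by rw [hm']; exact inf_le_left)
    exact Subgroup.mul_mem _ (hKle hk) (Subgroup.mul_mem _ (Subgroup.mem_sup_left hn) (hKle (hCR hc)))

end Cfsg.Agent.S1948
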