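import Cfsg.Statements.S1949
import Cfsg.Agent.Lib.Helper53Crit

set_option autoImplicit false
open Cfsg

namespace Cfsg.Agent.S1949

open Cfsg.Agent.Lib.Helper53Crit

/-- Let P be a finite p-group and G a group of automorphisms of P containing the inner automorphisms. Then there is a G-invariant subgroup D of P, contained in the subgroup generated by the elements x⁻¹α(x) with x in P and α in O^p(G), of exponent dividing p when p is odd and dividing 4 when p = 2, with [D, P] ≤ Z(D), such that every automorphism in G of order prime to p that fixes D elementwise is the identity; moreover every maximal abelian subgroup A of D is normal in P and every automorphism in G fixing A elementwise has p-power order. -/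
theorem result {P : Type*} [Group P] [Finite P] {p : ℕ} [Fact p.Prime] (hP : IsPGroup p P)
    (G : Subgroup (MulAut P)) (hG : Cfsg.Inn P ≤ G) :
    ∃ D : Subgroup P,
      (∀ α ∈ G, D.map α.toMonoidHom = D) ∧
      D ≤ Subgroup.closure {y : P | ∃ α ∈ Cfsg.pResidual p ↥G, ∃ x : P, y = x⁻¹ * (α : MulAut P) x} ∧
      (∀ d ∈ D, d ^ p = 1 ∨ (p = 2 ∧ d ^ 4 = 1)) ∧
      ⁅D, (⊤ : Subgroup P)⁆ ≤ D ⊓ Subgroup.centralizer (D : Set P) ∧
      (∀ α ∈ G, (orderOf α).Coprime p → (∀ d ∈ D, α d = d) → α = 1) ∧
      ∀ A : Subgroup P, A ≤ D → IsMulCommutative ↥A →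
        (∀ B : Subgroup P, A ≤ B → B ≤ D → IsMulCommutative ↥B → B = A) →
        A.Normal ∧ ∀ α ∈ G, (∀ a ∈ A, α a = a) → ∃ k : ℕ, orderOf α = p ^ k := by
  classical
  set Q : Subgroup P := Subgroup.closure
    {y : P | ∃ α ∈ Cfsg.pResidual p ↥G, ∃ x : P, y = x⁻¹ * (α : MulAut P) x} with hQdef
  have hres : ∀ γ : ↥G, ∀ a ∈ Cfsg.pResidual p ↥G, γ * a * γ⁻¹ ∈ Cfsg.pResidual p ↥G := by
    intro γ a ha
    unfold Cfsg.pResidual at ha ⊢
    induction ha using Subgroup.closure_induction with
    | mem x hx =>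
      apply Subgroup.subset_closure
      show Nat.Coprime (orderOf (γ * x * γ⁻¹)) p
      have : orderOf (γ * x * γ⁻¹) = orderOf x := (MulAut.conj γ).orderOf_eq x
      rw [this]; exact hx
    | one => simp
    | mul x y _ _ hx hy =>
      have := Subgroup.mul_mem _ hx hy
      convert this using 1
      group
    | inv x _ hx =>
      have := Subgroup.inv_mem _ hx
      convert this using 1
      group
  have hQ : Inv G Q := by
    intro γ hγ x hx
    induction hx using Subgroup.closure_induction with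
    | mem y hy =>
      obtain ⟨α, hα, x, rfl⟩ := hy
      apply Subgroup.subset_closure
      refine ⟨(⟨γ, hγ⟩ : ↥G) * α * (⟨γ, hγ⟩ : ↥G)⁻¹, hres _ α hα, γ x, ?_⟩
      simp
    | one => rw [map_one]; exact Q.one_mem
    | mul x y _ _ hx hy => rw [map_mul]; exact Q.mul_mem hx hy
    | inv x _ hx => rw [map_inv]; exact Q.inv_mem hx
  have hQf : ∀ α ∈ G, (orderOf α).Coprime p → (∀ x ∈ Q, α x = x) → α = 1 := by
    intro α hα hco hfix
    ext x
    have hn : x⁻¹ * α x ∈ Q := by
      apply Subgroup.subset_closure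
      refine ⟨⟨α, hα⟩, ?_, x, rfl⟩
      apply Subgroup.subset_closure
      show Nat.Coprime (orderOf (⟨α, hα⟩ : ↥G)) p
      rw [Subgroup.orderOf_mk]
      exact hco
    obtain ⟨j, hj⟩ := hP (x⁻¹ * α x)
    exact fix_of_chain (hco.pow_right j) (hfix _ hn) hj
  obtain ⟨D, hDinv, hDQ, hDex, hDcomm, hDf⟩ := main hP hG hQ hQf
  refine ⟨D, fun α hα => hDinv.map_eq hα, hDQ, ?_, hDcomm, hDf, ?_⟩
  · intro d hd
    have := hDex d hd
    by_cases h2 : p = 2
    · right
      refine ⟨h2, ?_⟩
      simpa [ex, h2] using this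
    · left
      simpa [ex, h2] using this
  · intro A hAD hA hmax
    exact max_abelian hP hDinv hDcomm hDf hAD hA hmax

end Cfsg.Agent.S1949
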