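import Cfsg.Statements.S1952
import Cfsg.Agent.Lib.Helper1Sep

set_option autoImplicit false
open Cfsg

namespace Cfsg.Agent.S1952

open Finset Cfsg.Agent.Lib.Helper1Sep

theorem card_sylow_perm (p : ℕ) [hp : Fact p.Prime] (Q : Sylow p (Equiv.Perm (Fin (p ^ 2)))) :
    Nat.card (Q : Subgroup (Equiv.Perm (Fin (p ^ 2)))) = p ^ (p + 1) := by
  rw [Q.card_eq_multiplicity, Nat.card_eq_fintype_card, Fintype.card_perm, Fintype.card_fin]
  congr 1
  have h1 : (p ^ 2).factorial.factorization p = padicValNat p (p ^ 2).factorial := by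
    rw [Nat.factorization_def _ hp.out]
  rw [h1, pow_two, padicValNat_factorial_mul]
  have h2 : padicValNat p (p.factorial) = 1 := by
    have := padicValNat_factorial_mul (p := p) 1
    rw [mul_one] at this
    rw [this]
    simp
  rw [h2, add_comm]

theorem main {P : Type*} [Group P] [Finite P] {p : ℕ} [hp : Fact p.Prime] (hP : IsPGroup p P) (A : Subgroup P) [hAn : A.Normal]
    (hAc : ∀ a ∈ A, ∀ b ∈ A, a * b = b * a) (hAp : ∀ a ∈ A, a ^ p = 1) (hidx : A.index = p) (x y : P) (hx : x ∈ A)
    (hprod : ((List.range p).map (fun i => (y ^ i)⁻¹ * x * y ^ i)).prod ≠ 1) :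
    ∃ K : Subgroup P, K.Normal ∧ p ^ (p + 1) ≤ K.index ∧
      ∃ B : Subgroup P, B.index = p ^ 2 ∧ K = B.normalCore := by
  let _ : CommGroup A := { (inferInstance : Group A) with
    mul_comm := fun a b => Subtype.ext (hAc a a.2 b b.2) }
  have hApG : IsPGroup p A := hP.to_subgroup A
  set ε : A →* A := (MulAut.conjNormal y⁻¹ : MulAut A).toMonoidHom with hε
  have hεv : ∀ a : A, ((ε a : A) : P) = y⁻¹ * a * y := by
    intro a
    simp [hε]
  have hεi : ∀ (i : ℕ) (a : A), ((ε^[i] a : A) : P) = (y ^ i)⁻¹ * a * y ^ i := by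
    intro i
    induction i with
    | zero => intro a; simp
    | succ i ih =>
      intro a
      rw [Function.iterate_succ_apply', hεv, ih, pow_succ]
      group
  set δ : A →* A := ε / MonoidHom.id A with hδ
  have hδf : (fun w => ε w / w) = ⇑δ := by
    funext w
    simp [hδ]
  have hpV : ∀ u : A, u ^ p = 1 := fun u => Subtype.ext (by simpa using hAp u u.2)
  have hnorm : ∀ u : A, ∏ i ∈ range p, ε^[i] u = δ^[p - 1] u := by
    intro u
    rw [norm_eq ε hp.out hpV u, hδf]
  have hyp : y ^ p ∈ A := by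
    have := A.pow_index_mem y
    rwa [hidx] at this
  have hεp : ∀ a : A, ε^[p] a = a := by
    intro a
    apply Subtype.ext
    rw [hεi]
    have := hAc _ hyp a a.2
    rw [mul_assoc, ← this]
    group
  have hδp : ∀ a : A, δ^[p] a = 1 := by
    intro a
    have h1 : p = (p - 1) + 1 := (Nat.sub_add_cancel hp.out.one_le).symm
    conv_lhs => rw [h1, Function.iterate_succ_apply]
    rw [← hnorm]
    have h2 : ∀ i, ε^[i] (δ a) = ε^[i + 1] a / ε^[i] a := by
      intro i
      have : δ a = ε a / a := by simp [hδ]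
      rw [this, iterate_map_div, Function.iterate_succ_apply]
    simp_rw [h2]
    rw [Finset.prod_range_div (fun i => ε^[i] a) p, hεp]
    simp
  have hδge : ∀ (i : ℕ), p ≤ i → ∀ a : A, δ^[i] a = 1 := by
    intro i hi a
    obtain ⟨k, rfl⟩ := Nat.exists_eq_add_of_le hi
    rw [add_comm, Function.iterate_add_apply, hδp, iterate_map_one]
  set x' : A := ⟨x, hx⟩ with hx'
  set w : A := δ^[p - 1] x' with hw
  have hw1 : w ≠ 1 := by
    intro h
    apply hprod
    rw [hw, ← hnorm] at h
    have h3 : ∀ n : ℕ, ((∏ i ∈ range n, ε^[i] x' : A) : P)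
        = ((List.range n).map (fun i => (y ^ i)⁻¹ * x * y ^ i)).prod := by
      intro n
      induction n with
      | zero => simp
      | succ n ih =>
        rw [Finset.prod_range_succ, List.range_succ, List.map_append, List.prod_append, Subgroup.coe_mul, ih, hεi]
        simp [hx']
    rw [← h3, h]
    rfl
  obtain ⟨B, -, hwB, hBn, hBi⟩ := exists_index_p_not_mem hApG (⊥ : Subgroup A)
    (by
      rw [commutator_def, Subgroup.commutator_le]
      intro a _ b _
      rw [Subgroup.mem_bot, commutatorElement_eq_one_iff_mul_comm]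
      exact mul_comm a b)
    (fun u => by rw [Subgroup.mem_bot]; exact hpV u) (y := w) (by rwa [Subgroup.mem_bot])
  let L : ℕ → Subgroup A := fun j =>
    { carrier := {a | ∀ i, j ≤ i → δ^[i] a ∈ B}
      one_mem' := by
        intro i _
        rw [iterate_map_one]; exact B.one_mem
      mul_mem' := by
        intro a b ha hb i hi
        rw [iterate_map_mul]; exact B.mul_mem (ha i hi) (hb i hi)
      inv_mem' := by
        intro a ha i hi
        rw [iterate_map_inv]; exact B.inv_mem (ha i hi) }
  have hLmem : ∀ j a, a ∈ L j ↔ ∀ i, j ≤ i → δ^[i] a ∈ B := fun j a => Iff.rfl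
  have hLlt : ∀ j, j < p → L j < L (j + 1) := by
    intro j hj
    refine lt_of_le_of_ne ?_ ?_
    · intro a ha
      rw [hLmem] at ha ⊢
      intro i hi
      exact ha i (by omega)
    · intro heq
      have h1 : δ^[p - 1 - j] x' ∈ L (j + 1) := by
        rw [hLmem]
        intro i hi
        rw [← Function.iterate_add_apply, hδge _ (by omega)]
        exact B.one_mem
      rw [← heq, hLmem] at h1
      have h2 := h1 j le_rfl
      rw [← Function.iterate_add_apply] at h2
      have h3 : j + (p - 1 - j) = p - 1 := by omega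
      rw [h3] at h2
      exact hwB h2
  have hLcard : ∀ j, j ≤ p → p ^ j * Nat.card (L 0) ≤ Nat.card (L j) := by
    intro j
    induction j with
    | zero => intro _; simp
    | succ j ih =>
      intro hj
      have h1 := ih (by omega)
      have h2 := mul_card_le_of_lt hApG (hLlt j (by omega))
      calc p ^ (j + 1) * Nat.card (L 0) = p * (p ^ j * Nat.card (L 0)) := by ring
        _ ≤ p * Nat.card (L j) := Nat.mul_le_mul_left _ h1
        _ ≤ _ := h2
  set BP : Subgroup P := B.map A.subtype with hBP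
  have hBPi : BP.index = p ^ 2 := by
    rw [hBP, Subgroup.index_map_subtype, hBi, hidx, pow_two]
  refine ⟨BP.normalCore, inferInstance, ?_, BP, hBPi, rfl⟩
  set K := BP.normalCore with hK
  have hKn : K.Normal := inferInstance
  have hKB : K ≤ BP := Subgroup.normalCore_le BP
  have hKL : K ≤ (L 0).map A.subtype := by
    intro k hk
    have hkA : k ∈ A := by
      obtain ⟨b, -, rfl⟩ := hKB hk
      exact b.2
    refine ⟨⟨k, hkA⟩, ?_, rfl⟩
    have h1 : ∀ i : ℕ, ((δ^[i] ⟨k, hkA⟩ : A) : P) ∈ K := by
      intro i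
      induction i with
      | zero => exact hk
      | succ i ih =>
        rw [Function.iterate_succ_apply']
        have h2 : ∀ a : A, ((δ a : A) : P) = y⁻¹ * a * y * (a : P)⁻¹ := by
          intro a
          have : δ a = ε a / a := by simp [hδ]
          rw [this, div_eq_mul_inv, Subgroup.coe_mul, hεv, Subgroup.coe_inv]
        rw [h2]
        apply K.mul_mem _ (K.inv_mem ih)
        have := hKn.conj_mem _ ih y⁻¹
        rwa [inv_inv] at this
    show (⟨k, hkA⟩ : A) ∈ L 0
    rw [hLmem]
    intro i _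
    obtain ⟨b, hb, hbe⟩ := hKB (h1 i)
    have : b = δ^[i] ⟨k, hkA⟩ := Subtype.ext hbe
    rw [← this]; exact hb
  have hc1 : Nat.card K ≤ Nat.card (L 0) := by
    have := Subgroup.card_le_of_le hKL
    rwa [Subgroup.card_map_of_injective A.subtype_injective] at this
  have hc2 := hLcard p le_rfl
  have hc3 : Nat.card (L p) ≤ Nat.card A := Subgroup.card_le_card_group _
  have hc4 := A.card_mul_index
  have hc5 := K.card_mul_index
  rw [hidx] at hc4
  have hKpos : 0 < Nat.card K := Nat.card_pos
  have : Nat.card K * p ^ (p + 1) ≤ Nat.card K * K.index := by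
    rw [hc5, ← hc4]
    calc Nat.card K * p ^ (p + 1) = (p ^ p * Nat.card K) * p := by ring
      _ ≤ (p ^ p * Nat.card (L 0)) * p := by gcongr
      _ ≤ Nat.card A * p := by gcongr; exact hc2.trans hc3
  exact Nat.le_of_mul_le_mul_left this hKpos

theorem final {P : Type*} [Group P] [Finite P] {p : ℕ} [hp : Fact p.Prime] (hP : IsPGroup p P)
    (B : Subgroup P) (hB : B.index = p ^ 2) (hK : p ^ (p + 1) ≤ B.normalCore.index) :
    ∃ (Q : Sylow p (Equiv.Perm (Fin (p ^ 2)))) (f : P →* ↥(Q : Subgroup (Equiv.Perm (Fin (p ^ 2))))),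
      Function.Surjective f := by
  have hcard : Nat.card (P ⧸ B) = p ^ 2 := hB
  let e : (P ⧸ B) ≃ Fin (p ^ 2) := Finite.equivFinOfCardEq hcard
  let f₀ : P →* Equiv.Perm (Fin (p ^ 2)) :=
    (e.permCongrHom).toMonoidHom.comp (MulAction.toPermHom P (P ⧸ B))
  have hker : f₀.ker = B.normalCore := by
    rw [Subgroup.normalCore_eq_ker]
    ext g
    rw [MonoidHom.mem_ker, MonoidHom.mem_ker]
    show e.permCongrHom (MulAction.toPermHom P (P ⧸ B) g) = 1 ↔ _
    rw [map_eq_one_iff _ e.permCongrHom.injective]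
  have hR : IsPGroup p f₀.range := hP.of_surjective f₀.rangeRestrict f₀.rangeRestrict_surjective
  obtain ⟨Q, hQ⟩ := hR.exists_le_sylow
  have hcR : Nat.card f₀.range = B.normalCore.index := by rw [← hker, Subgroup.index_ker]
  have heq : f₀.range = Q := Subgroup.eq_of_le_of_card_ge hQ (by rw [card_sylow_perm, hcR]; exact hK)
  refine ⟨Q, f₀.codRestrict Q (fun g => hQ ⟨g, rfl⟩), ?_⟩
  rintro ⟨q, hq⟩
  rw [← heq] at hq
  obtain ⟨g, rfl⟩ := hq
  exact ⟨g, rfl⟩

/-- Let P be a finite p-group with a normal elementary abelian subgroup A of index p, and let x ∈ A and y ∈ P with y outside A. If the product of the p conjugates y^(-i) x y^i (i = 0, …, p−1) is not the identity, then the wreath product Z_p ≀ Z_p, realised as a Sylow p-subgroup of the symmetric group of degree p², is a homomorphic image of P. -/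
theorem result {P : Type*} [Group P] [Finite P] {p : ℕ} [Fact p.Prime] (hP : IsPGroup p P) (A : Subgroup P) [A.Normal]
    (hA : Cfsg.IsElementaryAbelian p A) (hidx : A.index = p) (x y : P) (hx : x ∈ A) (hy : y ∉ A)
    (hprod : ((List.range p).map (fun i => (y ^ i)⁻¹ * x * y ^ i)).prod ≠ 1) :
    ∃ (Q : Sylow p (Equiv.Perm (Fin (p ^ 2)))) (f : P →* ↥(Q : Subgroup (Equiv.Perm (Fin (p ^ 2))))), Function.Surjective f := by
  obtain ⟨K, -, hKi, B, hBi, rfl⟩ := main hP A
    (fun a ha b hb => congrArg Subtype.val (hA.1.is_comm.comm ⟨a, ha⟩ ⟨b, hb⟩)) hA.2 hidx x y hx hprod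
  exact final hP B hBi hKi

end Cfsg.Agent.S1952
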