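import Cfsg.Statements.S2795
import Cfsg.Agent.Lib.Helper14QdStable
import Cfsg.Agent.Lib.Helper14QdNot

set_option autoImplicit false
open Cfsg

namespace Cfsg.Agent.S2795

open Cfsg.Agent.Lib.Helper24Section Cfsg.Agent.Lib.Helper14NPS

/-- For an odd prime p and a finite group G, the group Qd(p) is not involved in G if and only if every section of G is p-stable in the normalizer form (for every p-subgroup P of the section and every g in its normalizer acting quadratically on P, the image of g in N(P)/C(P) lies in O_p(N(P)/C(P))). -/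
theorem result {G : Type*} [Group G] [Finite G] {p : ℕ} [Fact p.Prime] (hp : p ≠ 2) : ¬ Cfsg.Involves ↥(Cfsg.qd p) G ↔ ∀ (K R : Subgroup G) [hR : (R.subgroupOf K).Normal], Cfsg.IsNormalizerPStable p (K ⧸ R.subgroupOf K) := by
  constructor
  · intro hfree K R hR
    apply Cfsg.Agent.Lib.Helper14QdStable.normalizerPStable hp
    intro h
    exact hfree (Involves.trans h ⟨K, R, hR, ⟨MulEquiv.refl _⟩⟩)
  · rintro h ⟨K, R, hR, ⟨e⟩⟩
    have h1 := nps_iff.mp (h K R)
    have h2 : NPS p ↥(Cfsg.qd p) := by
      apply nps_quotient e.toMonoidHom e.surjective _ h1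
      have : e.toMonoidHom.ker = ⊥ := (MonoidHom.ker_eq_bot_iff _).mpr e.injective
      rw [this]
      simp
    exact Cfsg.Agent.Lib.Helper14QdNot.not_nps (F := ZMod p) (p := p) h2

end Cfsg.Agent.S2795
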