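import Cfsg.Statements.S1953

import Cfsg.Agent.S2795
import Cfsg.Agent.Lib.Helper40KCor
import Cfsg.Agent.Lib.Helper39QdFree
set_option autoImplicit false
open Cfsg

namespace Cfsg.Agent.S1953

open Cfsg.Agent.Lib.Helper39Sylow Cfsg.Agent.Lib.Helper24Functor Cfsg.Agent.Lib.Helper39Section
  Cfsg.Agent.Lib.Helper39SecTransport Cfsg.Agent.Lib.Helper39SecFusion Cfsg.Agent.Lib.Helper39Control
  Cfsg.Agent.Lib.Helper39KInfFunctor Cfsg.Agent.Lib.Helper39Constrained Cfsg.Agent.Lib.Helper39QdFree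
  Cfsg.Agent.Lib.Helper40KCor Cfsg.Agent.Lib.Helper39WellPlaced Cfsg.Agent.Lib.Helper39Rel
  Cfsg.Agent.Lib.Helper39NormalFusion

/-- Let p be an odd prime and P a Sylow p-subgroup of the finite group G, and suppose that for no p-subgroup Q of G does N_G(Q)/C_G(Q) have a section isomorphic to SL₂(p). Call a subgroup Q of P centric-radical when Z(Q) is a Sylow p-subgroup of C_G(Q) and the only normal subgroup X of N_G(Q) containing Q·C_G(Q) such that the index of Q·C_G(Q) in X is a power of p is Q·C_G(Q) itself (that is, N_G(Q)/Q·C_G(Q) has no nontrivial normal p-subgroup). Then there is a centric-radical subgroup Q of P contained in every centric-radical subgroup of P; it is normal in P, and N_G(Q) controls strong fusion in P: whenever a subgroup A of P has g A g⁻¹ ≤ P, the element g is a product h c with h in N_G(Q) and c centralizing A. -/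
theorem result {G : Type*} [Group G] [Finite G] {p : ℕ} [Fact p.Prime] (hp : p ≠ 2) (P : Sylow p G)
    (hfree : ∀ Q : Subgroup G, IsPGroup p ↥Q → ¬ ∃ (H K : Subgroup G) (_ : (K.subgroupOf H).Normal),
      Subgroup.centralizer (Q : Set G) ≤ K ∧ K ≤ H ∧ H ≤ Subgroup.normalizer (Q : Set G) ∧
      Nonempty ((↥H ⧸ K.subgroupOf H) ≃* Matrix.SpecialLinearGroup (Fin 2) (ZMod p)))
    (cr : Subgroup G → Prop)
    (hcr : ∀ Q : Subgroup G, cr Q ↔ (Q ≤ (P : Subgroup G) ∧
      (∃ R : Sylow p ↥(Subgroup.centralizer (Q : Set G)),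
        (R : Subgroup ↥(Subgroup.centralizer (Q : Set G))).map (Subgroup.centralizer (Q : Set G)).subtype = Q ⊓ Subgroup.centralizer (Q : Set G)) ∧
      ∀ X : Subgroup G, X ≤ Subgroup.normalizer (Q : Set G) →
        (∀ n ∈ Subgroup.normalizer (Q : Set G), X.map (MulAut.conj n).toMonoidHom = X) →
        Q ⊔ Subgroup.centralizer (Q : Set G) ≤ X → (∃ k : ℕ, (Q ⊔ Subgroup.centralizer (Q : Set G)).relIndex X = p ^ k) →
        X = Q ⊔ Subgroup.centralizer (Q : Set G))) :
    ∃ Q : Subgroup G, cr Q ∧ (∀ R : Subgroup G, cr R → Q ≤ R) ∧ (∀ x ∈ (P : Subgroup G), Q.map (MulAut.conj x).toMonoidHom = Q) ∧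
      ∀ A : Subgroup G, A ≤ (P : Subgroup G) → ∀ g : G, A.map (MulAut.conj g).toMonoidHom ≤ (P : Subgroup G) →
        ∃ h ∈ Subgroup.normalizer (Q : Set G), ∃ c ∈ Subgroup.centralizer (A : Set G), g = h * c := by
  have hPs := isSyl_sylow P
  have hq := not_involves_qd hfree
  have hst := (Cfsg.Agent.S2795.result (G := G) hp).1 hq
  have hcsf := csf_all (p := p) (W := kInfLower) (isCharPFunctor_kInfLower p) (fun X _ => Cfsg.Involves X G)
    (fun X _ _ Y h => involves_sub X Y h)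
    (fun X _ _ N _ h => involves_quot X N h)
    (fun X _ _ hX hcon S hS => (kInf_normal_of_involves hst hX hcon S hS).1)
  obtain ⟨Q₀, hQ₀, hcen₀⟩ := exists_centric (p := p) (fun X _ => Cfsg.Involves X G)
    (fun X _ _ Y h => involves_sub X Y h)
    (fun X _ _ N _ h => involves_quot X N h)
    (by
      intro X _ _ hX S hS hSb
      refine ⟨inducedFunctor kInfLower S, ?_, ind_le _, ?_, ?_⟩
      · exact ind_ne_bot (isCharPFunctor_kInfLower p) S hS.2.1 hSb
      · exact le_normalizer_W (isConjugacyFunctor_induced (isCharPFunctor_kInfLower p)) hS.2.1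
      · intro A hA g hg hgA
        obtain ⟨n, hn, c, hc, e⟩ := hcsf (Nat.card X) X rfl hX S hS A hA g hg hgA
        exact ⟨n, hn, c, ⟨trivial, hc⟩, e⟩)
    (Nat.card G) G rfl (Cfsg.Agent.Lib.Helper24Section.involves_self G) P hPs
  obtain ⟨Q, hQ, hmax⟩ := exists_largest (P : Subgroup G)
  have hcen : (P : Subgroup G) ⊓ Subgroup.centralizer (Q : Set G) ≤ Q := by
    have h1 := hmax Q₀ hQ₀
    intro x hx
    exact h1 (hcen₀ ⟨hx.1, Subgroup.centralizer_le h1 hx.2⟩)
  refine ⟨Q, ?_, ?_, ?_, ?_⟩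
  · rw [hcr]
    refine ⟨hQ.1, ?_, ?_⟩
    · have hZ : IsSyl p ((P : Subgroup G) ⊓ Subgroup.centralizer (Q : Set G)) (Subgroup.centralizer (Q : Set G)) :=
        isSyl_inf_of_normal (hPs.of_le hQ.2.1 le_top) (Subgroup.centralizer_le_normalizer _)
          (Cfsg.Agent.Lib.Helper39KInfCent.normalizer_le_normalizer_centralizer Q)
      have heq : (P : Subgroup G) ⊓ Subgroup.centralizer (Q : Set G) = Q ⊓ Subgroup.centralizer (Q : Set G) :=
        le_antisymm (le_inf hcen inf_le_right) (inf_le_inf_right _ hQ.1)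
      refine ⟨hZ.toSylow, ?_⟩
      rw [IsSyl.coe_toSylow, Subgroup.map_subgroupOf_eq_of_le inf_le_right, heq]
    · intro X h1 h2 h3 h4
      exact radical_of_largest hPs hQ hmax hcen X h1 h2 h3 h4
  · intro R hR
    rw [hcr] at hR
    obtain ⟨hRP, ⟨R', hR'⟩, hrad⟩ := hR
    exact le_of_radical hPs hQ hRP (hR' ▸ isSyl_of_sylow R') hrad
  · intro x hx
    exact mem_normalizer_iff_cj.1 (hQ.2.1 hx)
  · intro A hA g hgA
    obtain ⟨h, hh, c, hc, e⟩ := hQ.2.2 A hA g trivial hgA
    exact ⟨h, hh.2, c, hc.2, e⟩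

end Cfsg.Agent.S1953
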