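import Cfsg.Statements.S1954

import Cfsg.Agent.Lib.Helper39NormalFusion
set_option autoImplicit false
open Cfsg

namespace Cfsg.Agent.S1954

open Cfsg.Agent.Lib.Helper39Sylow Cfsg.Agent.Lib.Helper39NormalFusion Cfsg.Agent.Lib.Helper39SecFusion
  Cfsg.Agent.Lib.Helper39Core

/-- Let N be a normal subgroup of the finite group G, P a Sylow p-subgroup of G, and V a subgroup of P ∩ N normal in P ∩ N such that N_N(V) controls strong fusion in P ∩ N with respect to N (whenever a subgroup A of P ∩ N has n A n⁻¹ ≤ P ∩ N for some n in N, then n = h c with h in N_N(V) and c in C_N(A)). Let W be the subgroup generated by the conjugates of V under N_G(P ∩ N). Then N_G(W) controls strong fusion in P with respect to G. -/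
theorem result {G : Type*} [Group G] [Finite G] {p : ℕ} [Fact p.Prime] (N : Subgroup G) [N.Normal] (P : Sylow p G) (V : Subgroup G)
    (hV : V ≤ (P : Subgroup G) ⊓ N) (hVn : ∀ x ∈ (P : Subgroup G) ⊓ N, V.map (MulAut.conj x).toMonoidHom = V)
    (hctrl : ∀ A : Subgroup G, A ≤ (P : Subgroup G) ⊓ N → ∀ n ∈ N, A.map (MulAut.conj n).toMonoidHom ≤ (P : Subgroup G) ⊓ N →
      ∃ h ∈ N ⊓ Subgroup.normalizer (V : Set G), ∃ c ∈ N ⊓ Subgroup.centralizer (A : Set G), n = h * c)
    (W : Subgroup G) (hW : W = Subgroup.closure (⋃ x ∈ Subgroup.normalizer (((P : Subgroup G) ⊓ N : Subgroup G) : Set G),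
      ((V.map (MulAut.conj x).toMonoidHom : Subgroup G) : Set G))) :
    ∀ A : Subgroup G, A ≤ (P : Subgroup G) → ∀ g : G, A.map (MulAut.conj g).toMonoidHom ≤ (P : Subgroup G) →
        ∃ h ∈ Subgroup.normalizer (W : Set G), ∃ c ∈ Subgroup.centralizer (A : Set G), g = h * c := by
  have hNn : N.Normal := inferInstance
  have hP := isSyl_sylow P
  set R := (P : Subgroup G) ⊓ N with hR
  let 𝒱 : Set (Subgroup G) := {V' | ∃ x ∈ Subgroup.normalizer (R : Set G), V' = cj x V}
  have hWeq : W = sSup 𝒱 := by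
    rw [hW]
    apply le_antisymm
    · rw [Subgroup.closure_le]
      intro y hy
      simp only [Set.mem_iUnion] at hy
      obtain ⟨x, hx, hy⟩ := hy
      exact (le_sSup (show cj x V ∈ 𝒱 from ⟨x, hx, rfl⟩)) hy
    · apply sSup_le
      rintro _ ⟨x, hx, rfl⟩
      intro y hy
      apply Subgroup.subset_closure
      simp only [Set.mem_iUnion]
      exact ⟨x, hx, hy⟩
  have hctlV : Ctl N R V := hctrl
  have h𝒱 : ∀ V' ∈ 𝒱, V' ≤ R ∧ Ctl N R V' := by
    rintro _ ⟨x, hx, rfl⟩
    have hxR := mem_normalizer_iff_cj.1 hx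
    refine ⟨?_, hctlV.conj (cj_of_normal hNn x) hxR⟩
    have := cj_mono (g := x) hV
    rwa [hxR] at this
  have hctlW : Ctl N R W := hWeq ▸ ctl_sSup h𝒱
  have hWn : Subgroup.normalizer (R : Set G) ≤ Subgroup.normalizer (W : Set G) := by
    intro y hy
    rw [mem_normalizer_iff_cj]
    apply cj_eq_of_le_of_finite
    rw [hWeq, cj_le_iff]
    apply sSup_le
    rintro _ ⟨x, hx, rfl⟩
    rw [← cj_le_iff, ← cj_mul]
    exact le_sSup ⟨y * x, Subgroup.mul_mem _ hy hx, rfl⟩
  intro A hA g hgA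
  exact relM_of_normal hNn hP hWn hctlW A hA g hgA

end Cfsg.Agent.S1954
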