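import Cfsg.Statements.S2005
import Cfsg.Agent.Lib.Helper24Reduce
import Cfsg.Agent.Lib.Helper24Section

set_option autoImplicit false
universe u
open Cfsg

namespace Cfsg.Agent.S2005

open Cfsg.Agent.Lib.Helper11Frobenius Cfsg.Agent.Lib.Helper24NPC Cfsg.Agent.Lib.Helper24Functor
open Cfsg.Agent.Lib.Helper24Reduce Cfsg.Agent.Lib.Helper24Section

/-- Thompson's normal p-complement criterion in functor form. Let p be a prime, G a finite group with Sylow p-subgroup S, and W an isomorphism-invariant p-group functor (W assigns to every group Q a subgroup W(Q), nontrivial whenever Q is a nontrivial finite p-group, and every isomorphism from a finite p-group Q onto a group R carries W(Q) onto W(R)). Suppose N_G(W(S)) has a normal p-complement, and that W(S*) is normal in G* whenever G* = K/R is a section of G with C_{G*}(O_p(G*)) ≤ O_p(G*) such that G*/O_p(G*) has a normal p-complement, and S* is a Sylow p-subgroup of G* that is a maximal subgroup of G*. Then G has a normal p-complement. -/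
theorem result {G : Type u} [Group G] [Finite G] {p : ℕ} [Fact p.Prime] (W : ∀ (Q : Type u) [Group Q], Subgroup Q) (hW : Cfsg.IsCharPFunctor.{u} p W) (S : Sylow p G) (hN : Cfsg.HasNormalPComplement p ↥(Subgroup.normalizer ((Cfsg.inducedFunctor (G := G) W (S : Subgroup G) : Subgroup G) : Set G))) (hloc : ∀ (K R : Subgroup G) [hR : (R.subgroupOf K).Normal], Subgroup.centralizer ((Cfsg.pCore p (↥K ⧸ R.subgroupOf K) : Subgroup (↥K ⧸ R.subgroupOf K)) : Set (↥K ⧸ R.subgroupOf K)) ≤ Cfsg.pCore p (↥K ⧸ R.subgroupOf K) → Cfsg.HasNormalPComplement p ((↥K ⧸ R.subgroupOf K) ⧸ Cfsg.pCore p (↥K ⧸ R.subgroupOf K)) → ∀ T : Sylow p (↥K ⧸ R.subgroupOf K), IsCoatom (T : Subgroup (↥K ⧸ R.subgroupOf K)) → (Cfsg.inducedFunctor (G := (↥K ⧸ R.subgroupOf K)) W ((T : Subgroup (↥K ⧸ R.subgroupOf K)))).Normal) : Cfsg.HasNormalPComplement p G := by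
  classical
  rw [← hasNPC_iff]
  refine reduction (𝒲 := {(true, W)}) (p := p) ?_ (fun X _ => Involves X G) ?_ ?_ ?_ G
    (involves_self G) ?_
  · rintro w rfl
    exact hW
  · intro X _ _ Y h
    exact Involves.trans (involves_subgroup Y) h
  · intro X _ _ N _ h
    exact Involves.trans (involves_quotient N) h
  · intro X _ _ hX hHyp _ _ hc hq hT
    obtain ⟨K, R, hR, ⟨e⟩⟩ := hX
    have hfin : Finite (↥K ⧸ R.subgroupOf K) := inferInstance
    have hcore := pCore_map_equiv' p e
    have hmem : ∀ y, y ∈ pCore p (↥K ⧸ R.subgroupOf K) ↔ e y ∈ pCore p X := by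
      intro y
      rw [← hcore]
      constructor
      · intro hy
        exact ⟨y, hy, rfl⟩
      · rintro ⟨y', hy', h⟩
        have : y' = y := e.injective h
        rwa [← this]
    have h1 : Subgroup.centralizer ((pCore p (↥K ⧸ R.subgroupOf K) :
        Subgroup (↥K ⧸ R.subgroupOf K)) : Set (↥K ⧸ R.subgroupOf K)) ≤
        pCore p (↥K ⧸ R.subgroupOf K) := by
      intro y hy
      rw [hmem]
      apply hc
      intro x hx
      obtain ⟨y', rfl⟩ := e.surjective x
      have := hy y' ((hmem y').mpr hx)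
      rw [← map_mul, ← map_mul, this]
    have h2 : HasNormalPComplement p ((↥K ⧸ R.subgroupOf K) ⧸ pCore p (↥K ⧸ R.subgroupOf K)) := by
      rw [← hasNPC_iff]
      exact HasNPC.of_equiv (QuotientGroup.congr _ _ e hcore).symm hq
    obtain ⟨T⟩ : Nonempty (Sylow p (↥K ⧸ R.subgroupOf K)) := inferInstance
    have hTX : ((T.mapSurjective (f := e.toMonoidHom) e.surjective : Sylow p X) : Subgroup X) =
        (T : Subgroup (↥K ⧸ R.subgroupOf K)).map e.toMonoidHom := rfl
    have h3 : IsCoatom (T : Subgroup (↥K ⧸ R.subgroupOf K)) := by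
      have h4 := hT (T.mapSurjective (f := e.toMonoidHom) e.surjective)
      rw [hTX] at h4
      exact (OrderIso.isCoatom_iff (MulEquiv.mapSubgroup e) _).mp h4
    have h5 := hloc K R h1 h2 T h3
    have h6 := hHyp (T.mapSurjective (f := e.toMonoidHom) e.surjective) (true, W) rfl
    rw [hTX, ind_map hW e.toMonoidHom _ T.2 e.injective.injOn] at h6
    have h7 : ((inducedFunctor W (T : Subgroup (↥K ⧸ R.subgroupOf K))).map e.toMonoidHom).Normal :=
      h5.map e.toMonoidHom e.surjective
    have h8 : loc true ((inducedFunctor W (T : Subgroup (↥K ⧸ R.subgroupOf K))).map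
        e.toMonoidHom) = ⊤ := Subgroup.normalizer_eq_top_iff.mpr h7
    have h9 : HasNPC p (⊤ : Subgroup X) := h8 ▸ h6
    exact HasNPC.of_equiv Subgroup.topEquiv h9
  · apply hyp_of_one (by rintro w rfl; exact hW) S
    rintro w rfl
    exact hasNPC_iff.mpr hN

end Cfsg.Agent.S2005
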