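import Cfsg.Statements.S1990
import Cfsg.Agent.Lib.Helper24Ser
import Cfsg.Agent.Lib.Helper24Functor
import Cfsg.Agent.S2005

set_option autoImplicit false
universe u
open Cfsg

namespace Cfsg.Agent.S1990

open Cfsg.Agent.Lib Cfsg.Agent.Lib.Helper11Frobenius Cfsg.Agent.Lib.Helper24Functor Cfsg.Agent.Lib.Helper24Star
open Cfsg.Agent.Lib.Helper24Ser Cfsg.Agent.Lib.Helper40Sylow

/-- Let p be an odd prime, G a finite group with Sylow p-subgroup S, and W an isomorphism-invariant p-group functor (W assigns to every group Q a subgroup W(Q), nontrivial whenever Q is a nontrivial finite p-group, and every isomorphism from a finite p-group Q onto a group R carries W(Q) onto W(R)). Suppose N_G(W(S)) has a normal p-complement, and W(T) controls strong fusion in every section G* = K/R of G all of whose sections are p-stable in the normalizer form, for every Sylow p-subgroup T of G*. Then G has a normal p-complement. -/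
theorem result {G : Type u} [Group G] [Finite G] {p : ℕ} [Fact p.Prime] (hp : p ≠ 2) (W : ∀ (Q : Type u) [Group Q], Subgroup Q) (hW : Cfsg.IsCharPFunctor.{u} p W) (S : Sylow p G) (hN : Cfsg.HasNormalPComplement p ↥(Subgroup.normalizer ((Cfsg.inducedFunctor (G := G) W (S : Subgroup G) : Subgroup G) : Set G))) (hctl : ∀ (K R : Subgroup G) [hR : (R.subgroupOf K).Normal], (∀ (K' R' : Subgroup (↥K ⧸ R.subgroupOf K)) [hR' : (R'.subgroupOf K').Normal], Cfsg.IsNormalizerPStable p (↥K' ⧸ R'.subgroupOf K')) → ∀ T : Sylow p (↥K ⧸ R.subgroupOf K), Cfsg.ControlsStrongFusion p (Cfsg.inducedFunctor (G := (↥K ⧸ R.subgroupOf K)) W (T : Subgroup (↥K ⧸ R.subgroupOf K)))) : Cfsg.HasNormalPComplement p G := by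
  apply Cfsg.Agent.S2005.result W hW S hN
  intro K R hR hc hq T hT
  have hTall : ∀ T' : Sylow p (↥K ⧸ R.subgroupOf K),
      IsCoatom (T' : Subgroup (↥K ⧸ R.subgroupOf K)) := by
    intro T'
    obtain ⟨g, hg⟩ := MulAction.exists_smul_eq (↥K ⧸ R.subgroupOf K) T T'
    rw [← hg, sylow_smul_eq_cj]
    exact (OrderIso.isCoatom_iff (MulEquiv.mapSubgroup (MulAut.conj g)) _).mpr hT
  obtain ⟨K₁, hK₁⟩ := exists_star (pCore p (↥K ⧸ R.subgroupOf K)) Helper40Cores.pCore_isPGroup
    (hasNPC_iff.mpr hq) hTall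
  have hser : Ser p (↥K ⧸ R.subgroupOf K) := Star.ser hK₁
  obtain ⟨T', hUT', hctl'⟩ :=
    hctl K R (fun K' R' _ => ((hser.subgroup K').quotient _).normalizerPStable hp) T
  obtain ⟨_, h2⟩ := hctl' (pCore p (↥K ⧸ R.subgroupOf K) : Set (↥K ⧸ R.subgroupOf K))
    (Helper40Cores.pCore_le_sylow T')
  rw [← Subgroup.normalizer_eq_top_iff, eq_top_iff]
  intro g _
  have hn : (pCore p (↥K ⧸ R.subgroupOf K)).Normal := inferInstance
  obtain ⟨x, hx, hxa⟩ := h2 g (by
    rintro _ ⟨a, ha, rfl⟩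
    exact Helper40Cores.pCore_le_sylow T' (hn.conj_mem a ha g))
  have h3 : x⁻¹ * g ∈ Subgroup.centralizer
      ((pCore p (↥K ⧸ R.subgroupOf K) : Subgroup (↥K ⧸ R.subgroupOf K)) :
        Set (↥K ⧸ R.subgroupOf K)) := by
    intro a ha
    have := hxa a ha
    calc a * (x⁻¹ * g) = x⁻¹ * (x * a * x⁻¹) * g := by group
      _ = x⁻¹ * (g * a * g⁻¹) * g := by rw [this]
      _ = x⁻¹ * g * a := by group
  have h4 : x⁻¹ * g ∈ Subgroup.normalizer ((inducedFunctor W
      (T : Subgroup (↥K ⧸ R.subgroupOf K)) : Subgroup (↥K ⧸ R.subgroupOf K)) :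
        Set (↥K ⧸ R.subgroupOf K)) :=
    normalizer_le_normalizer_ind hW _ T.2
      (Subgroup.le_normalizer (Helper40Cores.pCore_le_sylow T (hc h3)))
  have h5 : g = x * (x⁻¹ * g) := by group
  rw [h5]
  exact Subgroup.mul_mem _ hx h4

end Cfsg.Agent.S1990
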