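import Cfsg.Statements.S1988
import Cfsg.Agent.Lib.Helper40KCor
import Cfsg.Agent.Lib.Helper40KNpc
import Cfsg.Agent.S1990
import Cfsg.Agent.S1978

set_option autoImplicit false
universe u
open Cfsg

namespace Cfsg.Agent.S1988

/-- Let p be an odd prime, G a finite group with Sylow p-subgroup S and K the lower K-infinity subgroup of S. If N_G(K) has a normal p-complement, or if N_G(K)/C_G(K) is a p-group (every element of N_G(K) of order prime to p centralizes K), then G has a normal p-complement. -/
theorem result {G : Type u} [Group G] [Finite G] {p : ℕ} [Fact p.Prime] (hp : p ≠ 2) (S : Sylow p G) (h : Cfsg.HasNormalPComplement p ↥(Subgroup.normalizer ((Cfsg.inducedFunctor Cfsg.kInfLower (S : Subgroup G) : Subgroup G) : Set G)) ∨ ∀ g ∈ Subgroup.normalizer ((Cfsg.inducedFunctor Cfsg.kInfLower (S : Subgroup G) : Subgroup G) : Set G), (orderOf g).Coprime p → g ∈ Subgroup.centralizer ((Cfsg.inducedFunctor Cfsg.kInfLower (S : Subgroup G) : Subgroup G) : Set G)) : Cfsg.HasNormalPComplement p G := by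
  have hW := Cfsg.Agent.Lib.Helper39KInfFunctor.isCharPFunctor_kInfLower.{u} p
  have hN : Cfsg.HasNormalPComplement p ↥(Subgroup.normalizer
      ((Cfsg.inducedFunctor Cfsg.kInfLower (S : Subgroup G) : Subgroup G) : Set G)) := by
    rcases h with h | h
    · exact h
    · apply Cfsg.Agent.Lib.Helper40KNpc.npc_of_pprime_centralize S _ ?_ ?_ h
      · exact (Cfsg.Agent.Lib.Helper39Sylow.isSyl_sylow S).of_le
          (Cfsg.Agent.Lib.Helper39WellPlaced.le_normalizer_W
            (Cfsg.Agent.Lib.Helper39KInfFunctor.isConjugacyFunctor_induced hW) S.2) le_top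
      · rintro x ⟨hxS, hxC⟩
        refine ⟨⟨x, hxS⟩, (Cfsg.Agent.S1978.result (P := ↥(S : Subgroup G)) S.2).1 ?_, rfl⟩
        intro y hy
        apply Subtype.ext
        exact hxC y ⟨y, hy, rfl⟩
  exact Cfsg.Agent.S1990.result hp Cfsg.kInfLower hW S hN
    (fun K R hR hst T => Cfsg.Agent.Lib.Helper40KCor.kInfLower_strong hst T)

end Cfsg.Agent.S1988
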