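import Cfsg.Statements.S2001
import Cfsg.Agent.Lib.Helper53Pair

set_option autoImplicit false
open Cfsg

namespace Cfsg.Agent.S2001

open Cfsg.Agent.Lib.Helper39Sylow Cfsg.Agent.Lib.Helper39Fusion Cfsg.Agent.Lib.Helper39Transfer
  Cfsg.Agent.Lib.Helper39WellPlaced Cfsg.Agent.Lib.Helper53Pair
open scoped commutatorElement

/-- control of transfer by the pair, one inclusion, for a fixed Sylow subgroup -/
def PT {G : Type*} [Group G] (W V : Subgroup G → Subgroup G) (H Q : Subgroup G) : Prop :=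
  Q ⊓ ⁅H, H⁆ ≤ (Q ⊓ ⁅H ⊓ Subgroup.normalizer ((W Q : Subgroup G) : Set G),
      H ⊓ Subgroup.normalizer ((W Q : Subgroup G) : Set G)⁆) ⊔
    (Q ⊓ ⁅H ⊓ Subgroup.centralizer ((V Q : Subgroup G) : Set G),
      H ⊓ Subgroup.centralizer ((V Q : Subgroup G) : Set G)⁆)

theorem PT.conj {G : Type*} [Group G] {p : ℕ} {W V : Subgroup G → Subgroup G}
    (hW : Cfsg.IsConjugacyFunctor p W) (hV : Cfsg.IsConjugacyFunctor p V) {H Q : Subgroup G}
    (hQ : IsPGroup p Q) (h : PT W V H Q) {k : G} (hk : k ∈ H) : PT W V H (cj k Q) := by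
  have h1 := cj_mono (g := k) h
  rw [cj_inf, cj_commutator, cj_eq_of_mem hk, cj_sup, cj_inf, cj_inf, cj_commutator, cj_commutator,
    cj_inf, cj_inf, cj_eq_of_mem hk, ← normalizer_cj, ← centralizer_cj, ← W_cj hW hQ,
    ← W_cj hV hQ] at h1
  exact h1

/-- Let p be a prime dividing the order of the finite group G, P a Sylow p-subgroup, W a conjugacy functor for p on G with Z(H) ≤ W(H) for every nontrivial p-subgroup H, and V a central functor: a conjugacy functor with V(H) ≤ Z(H), and V(H) ≤ V(K) whenever Z(H) ≤ Z(K), for nontrivial p-subgroups H, K. Say that W with V controls transfer in a subgroup L when some Sylow p-subgroup Q of L satisfies Q ∩ L' = (Q ∩ (N_L(W(Q)))')·(Q ∩ (C_L(V(Q)))') as a product of two subgroups. If W with V controls transfer in N_G(H) for every subgroup H with Z(P) ≤ H ≤ P, then W with V controls transfer in G. -/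
theorem result {G : Type*} [Group G] [Finite G] {p : ℕ} [Fact p.Prime] (hdiv : p ∣ Nat.card G) (P : Sylow p G) (W V : Subgroup G → Subgroup G) (hW : Cfsg.IsConjugacyFunctor p W) (hV : Cfsg.IsConjugacyFunctor p V) (hWZ : ∀ H : Subgroup G, IsPGroup p ↥H → H ⊓ Subgroup.centralizer ((H : Subgroup G) : Set G) ≤ W H) (hVZ : ∀ H : Subgroup G, IsPGroup p ↥H → V H ≤ H ⊓ Subgroup.centralizer ((H : Subgroup G) : Set G)) (hVmono : ∀ H K : Subgroup G, IsPGroup p ↥H → IsPGroup p ↥K → H ≠ ⊥ → K ≠ ⊥ → H ⊓ Subgroup.centralizer ((H : Subgroup G) : Set G) ≤ K ⊓ Subgroup.centralizer ((K : Subgroup G) : Set G) → V H ≤ V K) (hloc : ∀ H : Subgroup G, (P : Subgroup G) ⊓ Subgroup.centralizer (((P : Subgroup G) : Subgroup G) : Set G) ≤ H → H ≤ (P : Subgroup G) → ∃ Q : Subgroup G, Q ≤ Subgroup.normalizer ((H : Subgroup G) : Set G) ∧ IsPGroup p ↥Q ∧ ¬ p ∣ (Q).relIndex (Subgroup.normalizer ((H : Subgroup G) : Set G)) ∧ ∀ x : G, x ∈ Q ⊓ ⁅Subgroup.normalizer ((H : Subgroup G) : Set G),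 Subgroup.normalizer ((H : Subgroup G) : Set G)⁆ ↔ ∃ a ∈ Q ⊓ ⁅Subgroup.normalizer ((H : Subgroup G) : Set G) ⊓ Subgroup.normalizer ((W Q : Subgroup G) : Set G), Subgroup.normalizer ((H : Subgroup G) : Set G) ⊓ Subgroup.normalizer ((W Q : Subgroup G) : Set G)⁆, ∃ b ∈ Q ⊓ ⁅Subgroup.normalizer ((H : Subgroup G) : Set G) ⊓ Subgroup.centralizer ((V Q : Subgroup G) : Set G), Subgroup.normalizer ((H : Subgroup G) : Set G) ⊓ Subgroup.centralizer ((V Q : Subgroup G) : Set G)⁆, x = a * b) : ∃ Q : Subgroup G, IsPGroup p ↥Q ∧ ¬ p ∣ Q.index ∧ ∀ x : G, x ∈ Q ⊓ commutator G ↔ ∃ a ∈ Q ⊓ ⁅Subgroup.normalizer ((W Q : Subgroup G) : Set G), Subgroup.normalizer ((W Q : Subgroup G) : Set G)⁆, ∃ b ∈ Q ⊓ ⁅Subgroup.centralizer ((V Q : Subgroup G) : Set G), Subgroup.centralizer ((V Q : Subgroup G) : Set G)⁆, x = a * b := by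
  have hS := isSyl_sylow P
  set S : Subgroup G := (P : Subgroup G) with hSdef
  set K₁ : Subgroup G := S ⊓ ⁅Subgroup.normalizer ((W S : Subgroup G) : Set G),
    Subgroup.normalizer ((W S : Subgroup G) : Set G)⁆ with hK₁
  set K₂ : Subgroup G := S ⊓ ⁅Subgroup.centralizer ((V S : Subgroup G) : Set G),
    Subgroup.centralizer ((V S : Subgroup G) : Set G)⁆ with hK₂
  have hlocal : ∀ D : Subgroup G, IsWellPlaced p W S D → S ⊓ Subgroup.centralizer (S : Set G) ≤ D →
      PT W V (Subgroup.normalizer (D : Set G)) (S ⊓ Subgroup.normalizer (D : Set G)) := by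
    intro D hD hZ
    obtain ⟨Q, hQN, hQp, hQi, hx⟩ := hloc D hZ hD.1
    obtain ⟨k, hk, e⟩ := (IsWellPlaced.isSyl hS hD).exists_conj_eq (T' := Q) ⟨hQN, hQp, hQi⟩
    rw [← e]
    apply PT.conj hW hV hQp _ hk
    intro x hx'
    obtain ⟨a, ha, b, hb, rfl⟩ := (hx x).1 hx'
    exact Subgroup.mul_mem _ (Subgroup.mem_sup_left ha) (Subgroup.mem_sup_right hb)
  have claim : ∀ D : Subgroup G, IsWellPlaced p W S D → S ⊓ Subgroup.centralizer (S : Set G) ≤ D →
      (S ⊓ Subgroup.normalizer (D : Set G)) ⊓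
        ⁅Subgroup.normalizer (D : Set G), Subgroup.normalizer (D : Set G)⁆ ≤ K₁ ⊔ K₂ := by
    intro D
    induction' hn : (Nat.card S - Nat.card (S ⊓ Subgroup.normalizer (D : Set G) : Subgroup G))
      using Nat.strong_induction_on with n ih generalizing D
    intro hD hZ
    obtain ⟨f1, f2, f3, f4, f5⟩ := next_facts hS hW hWZ hD hZ
    have h0 := hlocal D hD hZ
    set R := S ⊓ Subgroup.normalizer (D : Set G) with hR
    have hRS : R ≤ S := inf_le_left
    have hRp : IsPGroup p R := hS.2.1.to_le hRS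
    refine h0.trans (sup_le ?_ ?_)
    · by_cases hRe : R = S
      · refine le_trans ?_ le_sup_left
        rw [hRe]
        exact inf_le_inf_left _ (Subgroup.commutator_mono inf_le_right inf_le_right)
      · have hc1 := f5 hRe
        have hc2 : Nat.card (S ⊓ Subgroup.normalizer ((W R : Subgroup G) : Set G) : Subgroup G)
            ≤ Nat.card S := Subgroup.card_le_of_le inf_le_left
        have := ih _ (by omega) (W R) rfl f1 f3
        exact (inf_le_inf f4 (Subgroup.commutator_mono inf_le_right inf_le_right)).trans this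
    · by_cases hRb : R = ⊥
      · rw [hRb]; simp
      · have hSb : S ≠ ⊥ := fun h => hRb (le_bot_iff.1 (h ▸ hRS))
        have hV' : V S ≤ V R := hVmono S R hS.2.1 hRp hSb hRb f2
        have hC : Subgroup.centralizer ((V R : Subgroup G) : Set G) ≤
            Subgroup.centralizer ((V S : Subgroup G) : Set G) := Subgroup.centralizer_le hV'
        refine le_trans ?_ le_sup_right
        exact inf_le_inf hRS (Subgroup.commutator_mono (inf_le_right.trans hC) (inf_le_right.trans hC))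
  have hmain : ∀ A : Subgroup G, A ≤ S → ∀ g : G, cj g A ≤ S → CommIn (K₁ ⊔ K₂) A g := by
    apply pair_induction (p := p) S hS hW (CommIn (K₁ ⊔ K₂))
      (fun A g h _ _ _ h1 h2 => h1.trans h2)
      (fun A g _ _ h1 => h1.symm)
      (fun A B g _ _ hBA h1 => h1.mono hBA)
    · intro A _ c hc a ha
      have : ⁅a, c⁆ = 1 := by
        rw [commutatorElement_eq_one_iff_mul_comm]
        exact hc a ha
      rw [this]; exact Subgroup.one_mem _
    · intro D hD hZ x hx a ha
      apply claim D hD hZ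
      have hDR : D ≤ S ⊓ Subgroup.normalizer (D : Set G) := le_inf hD.1 Subgroup.le_normalizer
      refine ⟨hDR ?_, Subgroup.commutator_mem_commutator (Subgroup.le_normalizer ha) hx⟩
      rw [commutatorElement_def, mul_assoc, mul_assoc]
      refine D.mul_mem ha ?_
      rw [← mul_assoc]
      exact (Subgroup.mem_normalizer_iff.1 hx _).1 (D.inv_mem ha)
  have hSN : S ≤ Subgroup.normalizer ((W S : Subgroup G) : Set G) := le_normalizer_W hW hS.2.1
  have hnorm : K₂ ≤ Subgroup.normalizer (K₁ : Set G) := by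
    refine (inf_le_left : K₂ ≤ S).trans ?_
    apply Cfsg.Agent.Lib.Helper53Rel.le_normalizer_inf Subgroup.le_normalizer
    apply Cfsg.Agent.Lib.Helper53Rel.le_normalizer_commutator <;>
      exact hSN.trans Subgroup.le_normalizer
  refine ⟨S, P.isPGroup', P.not_dvd_index, fun x => ⟨fun hx => ?_, ?_⟩⟩
  · rw [commutator_def] at hx
    have h1 := inf_commutator_le_of_commIn P (K₁ ⊔ K₂) hmain hx
    rw [sup_comm] at h1
    exact (Cfsg.Agent.Lib.Helper53Rel.mem_sup_of_le_normalizer' hnorm).1 h1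
  · rintro ⟨a, ha, b, hb, rfl⟩
    rw [commutator_def]
    exact ⟨S.mul_mem ha.1 hb.1, Subgroup.mul_mem _
      (Subgroup.commutator_mono le_top le_top ha.2) (Subgroup.commutator_mono le_top le_top hb.2)⟩

end Cfsg.Agent.S2001
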