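import Cfsg.Statements.S2002
import Cfsg.Agent.Lib.Helper53Pair
import Cfsg.Agent.Lib.Helper39Control

set_option autoImplicit false
open Cfsg

namespace Cfsg.Agent.S2002

open Cfsg.Agent.Lib.Helper39Sylow Cfsg.Agent.Lib.Helper39Fusion Cfsg.Agent.Lib.Helper39Control
  Cfsg.Agent.Lib.Helper39WellPlaced Cfsg.Agent.Lib.Helper53Pair

variable {G : Type*} [Group G]

/-- basic step: a centralizing element, or an element of one of the two local subgroups -/
def StepP (W V : Subgroup G → Subgroup G) (H T A : Subgroup G) (x : G) : Prop :=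
  A ≤ T ∧ cj x A ≤ T ∧ (x ∈ H ⊓ Subgroup.centralizer (A : Set G) ∨
    x ∈ H ⊓ Subgroup.normalizer ((W T : Subgroup G) : Set G) ∨
    x ∈ H ⊓ Subgroup.centralizer ((V T : Subgroup G) : Set G))

theorem StepP.symm {W V : Subgroup G → Subgroup G} {H T : Subgroup G} (A : Subgroup G) (x : G)
    (h : StepP W V H T A x) : StepP W V H T (cj x A) x⁻¹ := by
  obtain ⟨h1, h2, h3⟩ := h
  refine ⟨h2, by rw [cj_inv_cj]; exact h1, ?_⟩
  rcases h3 with h3 | h3 | h3
  · left
    rw [cj_eq_of_mem_centralizer h3.2]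
    exact inv_mem h3
  · right; left; exact inv_mem h3
  · right; right; exact inv_mem h3

theorem StepP.mono {W V : Subgroup G → Subgroup G} {H T : Subgroup G} (A B : Subgroup G) (x : G)
    (hBA : B ≤ A) (h : StepP W V H T A x) : StepP W V H T B x := by
  obtain ⟨h1, h2, h3⟩ := h
  refine ⟨hBA.trans h1, (cj_mono hBA).trans h2, ?_⟩
  rcases h3 with h3 | h3
  · left; exact ⟨h3.1, Subgroup.centralizer_le hBA h3.2⟩
  · right; exact h3

/-- chain data, list form -/
def LData (W V : Subgroup G → Subgroup G) (H Q A : Subgroup G) (l : List G) : Prop :=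
  (∀ y ∈ l, y ∈ H ⊓ Subgroup.normalizer ((W Q : Subgroup G) : Set G) ∨
    y ∈ H ⊓ Subgroup.centralizer ((V Q : Subgroup G) : Set G)) ∧
  ∀ k : ℕ, k ≤ l.length → cj ((l.take k).prod)⁻¹ A ≤ Q

theorem gen_of_ldata {W V : Subgroup G → Subgroup G} {H Q : Subgroup G} {A : Subgroup G} {l : List G}
    (h : LData W V H Q A l) : Gen (StepP W V H Q) A (l.prod)⁻¹ := by
  induction l generalizing A with
  | nil => simpa using Gen.nil A
  | cons y l ih =>
    obtain ⟨h1, h2⟩ := h
    have hA : A ≤ Q := by simpa [cj_one] using h2 0 (Nat.zero_le _)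
    have hA1 : cj y⁻¹ A ≤ Q := by simpa using h2 1 (by simp)
    have h3 : LData W V H Q (cj y⁻¹ A) l := by
      refine ⟨fun z hz => h1 z (List.mem_cons_of_mem _ hz), fun k hk => ?_⟩
      have := h2 (k + 1) (by simpa using hk)
      rw [List.take_succ_cons, List.prod_cons, mul_inv_rev, cj_mul] at this
      exact this
    rw [List.prod_cons, mul_inv_rev]
    refine Gen.cons A y⁻¹ _ ⟨hA, hA1, Or.inr ?_⟩ (ih h3)
    rcases h1 y (List.mem_cons_self) with h4 | h4
    · left; exact inv_mem h4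
    · right; exact inv_mem h4

theorem ldata_of_gen {W V : Subgroup G → Subgroup G} {H Q : Subgroup G} {A : Subgroup G} {g : G}
    (h : Gen (StepP W V H Q) A g) (hA : A ≤ Q) :
    ∃ c ∈ H ⊓ Subgroup.centralizer (A : Set G), ∃ l : List G, LData W V H Q A l ∧
      g⁻¹ = c * l.prod := by
  induction h with
  | nil A =>
    refine ⟨1, one_mem _, [], ⟨by simp, fun k _ => ?_⟩, by simp⟩
    simpa [cj_one] using hA
  | cons A x g hs _ ih =>
    obtain ⟨h1, h2, h3⟩ := hs
    obtain ⟨c', hc', l, hl, e⟩ := ih h2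
    have key : x ∈ H → (x⁻¹ ∈ H ⊓ Subgroup.normalizer ((W Q : Subgroup G) : Set G) ∨
        x⁻¹ ∈ H ⊓ Subgroup.centralizer ((V Q : Subgroup G) : Set G)) →
        ∃ c ∈ H ⊓ Subgroup.centralizer (A : Set G), ∃ l : List G, LData W V H Q A l ∧
          (g * x)⁻¹ = c * l.prod := by
      intro hxH hx
      refine ⟨x⁻¹ * c' * x, ⟨H.mul_mem (H.mul_mem (H.inv_mem hxH) hc'.1) hxH, ?_⟩, x⁻¹ :: l,
        ⟨?_, ?_⟩, ?_⟩
      · have h5 : c' ∈ Subgroup.centralizer ((cj x A : Subgroup G) : Set G) := hc'.2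
        rw [centralizer_cj, mem_cj] at h5
        exact h5
      · intro y hy
        rcases List.mem_cons.1 hy with rfl | hy
        · exact hx
        · exact hl.1 y hy
      · intro k hk
        cases k with
        | zero => simpa [cj_one] using h1
        | succ k =>
          have := hl.2 k (by simpa using hk)
          rw [List.take_succ_cons, List.prod_cons, mul_inv_rev, inv_inv, cj_mul]
          exact this
      · rw [mul_inv_rev, e, List.prod_cons]; group
    rcases h3 with h3 | h3 | h3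
    · have e1 : cj x A = A := cj_eq_of_mem_centralizer h3.2
      rw [e1] at hc' hl
      exact ⟨x⁻¹ * c', mul_mem (inv_mem h3) hc', l, hl, by rw [mul_inv_rev, e, mul_assoc]⟩
    · exact key h3.1 (Or.inl (inv_mem h3))
    · exact key h3.1 (Or.inr (inv_mem h3))

theorem gen_conj {p : ℕ} {W V : Subgroup G → Subgroup G} (hW : Cfsg.IsConjugacyFunctor p W)
    (hV : Cfsg.IsConjugacyFunctor p V)
    {H T : Subgroup G} (hT : IsPGroup p T) {k : G} (hk : k ∈ H) {Q : Subgroup G} {h : G}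
    (hg : Gen (StepP W V H T) Q h) : Gen (StepP W V H (cj k T)) (cj k Q) (k * h * k⁻¹) := by
  induction hg with
  | nil A => simp only [mul_one, mul_inv_cancel]; exact Gen.nil _
  | cons A x g hs _ ih =>
    obtain ⟨h1, h2, h3⟩ := hs
    have e : k * (g * x) * k⁻¹ = (k * g * k⁻¹) * (k * x * k⁻¹) := by group
    have e2 : cj (k * x * k⁻¹) (cj k A) = cj k (cj x A) := by
      rw [← cj_mul, ← cj_mul]; congr 1; group
    have hH : ∀ z ∈ H, k * z * k⁻¹ ∈ H := fun z hz => H.mul_mem (H.mul_mem hk hz) (H.inv_mem hk)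
    rw [e]
    refine Gen.cons _ _ _ ⟨cj_mono h1, by rw [e2]; exact cj_mono h2, ?_⟩ (by rw [e2]; exact ih)
    rcases h3 with h3 | h3 | h3
    · left
      refine ⟨hH _ h3.1, ?_⟩
      rw [centralizer_cj]; exact conj_mem_cj h3.2
    · right; left
      refine ⟨hH _ h3.1, ?_⟩
      rw [W_cj hW hT, normalizer_cj]
      exact conj_mem_cj h3.2
    · right; right
      refine ⟨hH _ h3.1, ?_⟩
      rw [W_cj hV hT, centralizer_cj]
      exact conj_mem_cj h3.2

/-- control of strong fusion by the pair, for a fixed Sylow subgroup -/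
def PCSF (W V : Subgroup G → Subgroup G) (H T : Subgroup G) : Prop :=
  ∀ Q : Subgroup G, Q ≤ T → ∀ h ∈ H, cj h Q ≤ T → Gen (StepP W V H T) Q h

theorem PCSF.conj {p : ℕ} {W V : Subgroup G → Subgroup G} (hW : Cfsg.IsConjugacyFunctor p W)
    (hV : Cfsg.IsConjugacyFunctor p V) {H T : Subgroup G} (hT : IsPGroup p T) {k : G} (hk : k ∈ H)
    (h : PCSF W V H T) : PCSF W V H (cj k T) := by
  intro Q hQ x hx hxQ
  have hQ' : cj k⁻¹ Q ≤ T := by rw [cj_le_iff, inv_inv]; exact hQ
  have h1 := h (cj k⁻¹ Q) hQ' (k⁻¹ * x * k) (H.mul_mem (H.mul_mem (H.inv_mem hk) hx) hk) (by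
    rw [← cj_mul]
    have : k⁻¹ * x * k * k⁻¹ = k⁻¹ * x := by group
    rw [this, cj_mul, cj_le_iff, inv_inv]
    exact hxQ)
  have h2 := gen_conj hW hV hT hk h1
  rw [cj_cj_inv] at h2
  have : k * (k⁻¹ * x * k) * k⁻¹ = x := by group
  rwa [this] at h2

theorem gen_bind {Step Step' : Subgroup G → G → Prop}
    (hb : ∀ (A : Subgroup G) (x : G), Step A x → Gen Step' A x) {A : Subgroup G} {g : G}
    (h : Gen Step A g) : Gen Step' A g := by
  induction h with
  | nil A => exact Gen.nil _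
  | cons A x g hs _ ih => exact (hb A x hs).trans ih

theorem image_cent {X : Set G} {c : G} (hc : c ∈ Subgroup.centralizer X) :
    (fun x => c⁻¹ * x * c) '' X = X := by
  have : ∀ x ∈ X, c⁻¹ * x * c = id x := by
    intro x hx
    have := hc x hx
    rw [mul_assoc, this]; simp
  rw [Set.image_congr this, Set.image_id]

theorem image_rconj_subset_iff {A : Set G} {h : G} {T : Subgroup G} :
    (fun a => h⁻¹ * a * h) '' A ⊆ T ↔ cj h⁻¹ (Subgroup.closure A) ≤ T := by
  rw [← image_conj_subset_iff, inv_inv]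

/-- Let p be a prime dividing the order of the finite group G, P a Sylow p-subgroup, W a conjugacy functor for p on G with Z(H) ≤ W(H) for every nontrivial p-subgroup H, and V a central functor (a conjugacy functor with V(H) ≤ Z(H), and V(H) ≤ V(K) whenever Z(H) ≤ Z(K)). Say that W with V controls strong fusion in a subgroup L when some Sylow p-subgroup Q of L has the property: whenever X ⊆ Q and a ∈ L with a⁻¹Xa ⊆ Q, then a = c b with c ∈ C_L(X) and b = b₁ ⋯ bₙ a product of elements each in N_L(W(Q)) or in C_L(V(Q)) such that every partial conjugate (b₁ ⋯ bₖ)⁻¹ X (b₁ ⋯ bₖ) lies in Q. If W with V controls strong fusion in N_G(H) for every subgroup H with Z(P) ≤ H ≤ P, then W with V controls strong fusion in G. -/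
theorem result {G : Type*} [Group G] [Finite G] {p : ℕ} [Fact p.Prime] (hdiv : p ∣ Nat.card G) (P : Sylow p G) (W V : Subgroup G → Subgroup G) (hW : Cfsg.IsConjugacyFunctor p W) (hV : Cfsg.IsConjugacyFunctor p V) (hWZ : ∀ H : Subgroup G, IsPGroup p ↥H → H ⊓ Subgroup.centralizer ((H : Subgroup G) : Set G) ≤ W H) (hVZ : ∀ H : Subgroup G, IsPGroup p ↥H → V H ≤ H ⊓ Subgroup.centralizer ((H : Subgroup G) : Set G)) (hVmono : ∀ H K : Subgroup G, IsPGroup p ↥H → IsPGroup p ↥K → H ≠ ⊥ → K ≠ ⊥ → H ⊓ Subgroup.centralizer ((H : Subgroup G) : Set G) ≤ K ⊓ Subgroup.centralizer ((K : Subgroup G) : Set G) → V H ≤ V K) (hloc : ∀ H : Subgroup G, (P : Subgroup G) ⊓ Subgroup.centralizer (((P : Subgroup G) : Subgroup G) : Set G) ≤ H → H ≤ (P : Subgroup G) → ∃ Q : Subgroup G, Q ≤ Subgroup.normalizer ((H : Subgroup G) : Set G) ∧ IsPGroup p ↥Q ∧ ¬ p ∣ (Q).relIndex (Subgroup.normalizer ((H : Subgroup G) : Set G)) ∧ ∀ (X : Set G) (a : G), X ⊆ Q → a ∈ Subgroup.normalizer ((H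 : Subgroup G) : Set G) → (fun x => a⁻¹ * x * a) '' X ⊆ Q → ∃ c ∈ Subgroup.normalizer ((H : Subgroup G) : Set G) ⊓ Subgroup.centralizer X, ∃ (n : ℕ) (b : Fin n → G), (∀ i, b i ∈ Subgroup.normalizer ((H : Subgroup G) : Set G) ⊓ Subgroup.normalizer ((W Q : Subgroup G) : Set G) ∨ b i ∈ Subgroup.normalizer ((H : Subgroup G) : Set G) ⊓ Subgroup.centralizer ((V Q : Subgroup G) : Set G)) ∧ a = c * (List.ofFn b).prod ∧ ∀ k : ℕ, k ≤ n → (fun x => (((List.ofFn b).take k).prod)⁻¹ * x * ((List.ofFn b).take k).prod) '' ((fun x => c⁻¹ * x * c) '' X) ⊆ Q) : ∃ Q : Subgroup G, IsPGroup p ↥Q ∧ ¬ p ∣ Q.index ∧ ∀ (X : Set G) (a : G), X ⊆ Q → (fun x => a⁻¹ * x * a) '' X ⊆ Q → ∃ c ∈ Subgroup.centralizer X, ∃ (n : ℕ) (b : Fin n → G), (∀ i, b i ∈ ⊤ ⊓ Subgroup.normalizer ((W Q : Subgroup G) : Set G) ∨ b i ∈ ⊤ ⊓ Subgroup.centralizer ((V Q : Subgroup G) : Set G)) ∧ a = c * (List.ofFn b).prod ∧ ∀ k : ℕ, k ≤ n → (fun x => (((List.ofFn b).take k).prod)⁻¹ * x * ((List.ofFn b).take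 k).prod) '' ((fun x => c⁻¹ * x * c) '' X) ⊆ Q := by
  have hS := isSyl_sylow P
  set S : Subgroup G := (P : Subgroup G) with hSdef
  have hlocal : ∀ D : Subgroup G, IsWellPlaced p W S D → S ⊓ Subgroup.centralizer (S : Set G) ≤ D →
      PCSF W V (Subgroup.normalizer (D : Set G)) (S ⊓ Subgroup.normalizer (D : Set G)) := by
    intro D hD hZ
    obtain ⟨Q, hQN, hQp, hQi, hx⟩ := hloc D hZ hD.1
    obtain ⟨k, hk, e⟩ := (IsWellPlaced.isSyl hS hD).exists_conj_eq (T' := Q) ⟨hQN, hQp, hQi⟩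
    rw [← e]
    apply PCSF.conj hW hV hQp hk
    intro A hA h hh hhA
    obtain ⟨c, hc, n, b, hb, hprod, hk'⟩ := hx (A : Set G) h⁻¹ hA (inv_mem hh) (by
      rw [image_rconj_subset_iff, inv_inv, Subgroup.closure_eq]; exact hhA)
    rw [image_cent hc.2] at hk'
    have hl : LData W V (Subgroup.normalizer (D : Set G)) Q A (List.ofFn b) := by
      refine ⟨fun y hy => ?_, fun k hk => ?_⟩
      · obtain ⟨i, rfl⟩ := (List.mem_ofFn' _ _).1 hy
        exact hb i
      · have := hk' k (by simpa using hk)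
        rw [image_rconj_subset_iff, Subgroup.closure_eq] at this
        exact this
    have h1 := gen_of_ldata hl
    have hc2 : c ∈ Subgroup.centralizer (A : Set G) := hc.2
    have hc' : c⁻¹ ∈ Subgroup.centralizer (A : Set G) := inv_mem hc2
    have e2 : h = ((List.ofFn b).prod)⁻¹ * c⁻¹ := by
      rw [← mul_inv_rev, ← hprod, inv_inv]
    rw [e2]
    refine Gen.cons A c⁻¹ _ ⟨hA, by rw [cj_eq_of_mem_centralizer hc']; exact hA,
      Or.inl ⟨(Subgroup.normalizer (D : Set G)).inv_mem hc.1, hc'⟩⟩ ?_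
    rw [cj_eq_of_mem_centralizer hc']
    exact h1
  have claim : ∀ D : Subgroup G, IsWellPlaced p W S D → S ⊓ Subgroup.centralizer (S : Set G) ≤ D →
      ∀ X : Subgroup G, X ≤ S ⊓ Subgroup.normalizer (D : Set G) →
      ∀ b ∈ Subgroup.normalizer (D : Set G), cj b X ≤ S ⊓ Subgroup.normalizer (D : Set G) →
      Gen (StepP W V ⊤ S) X b := by
    intro D
    induction' hn : (Nat.card S - Nat.card (S ⊓ Subgroup.normalizer (D : Set G) : Subgroup G))
      using Nat.strong_induction_on with n ih generalizing D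
    intro hD hZ X hX b hb hbX
    obtain ⟨f1, f2, f3, f4, f5⟩ := next_facts hS hW hWZ hD hZ
    have g0 := hlocal D hD hZ X hX b hb hbX
    set R := S ⊓ Subgroup.normalizer (D : Set G) with hR
    have hRS : R ≤ S := inf_le_left
    have hRp : IsPGroup p R := hS.2.1.to_le hRS
    apply gen_bind _ g0
    rintro A y ⟨s1, s2, s3⟩
    rcases s3 with s3 | s3 | s3
    · exact Gen.single ⟨s1.trans hRS, s2.trans hRS, Or.inl ⟨trivial, s3.2⟩⟩
    · by_cases hRe : R = S
      · rw [hRe] at s3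
        exact Gen.single ⟨s1.trans hRS, s2.trans hRS, Or.inr (Or.inl ⟨trivial, s3.2⟩)⟩
      · have hc1 := f5 hRe
        have hc2 : Nat.card (S ⊓ Subgroup.normalizer ((W R : Subgroup G) : Set G) : Subgroup G)
            ≤ Nat.card S := Subgroup.card_le_of_le inf_le_left
        exact ih _ (by omega) (W R) rfl f1 f3 A (s1.trans f4) y s3.2 (s2.trans f4)
    · by_cases hRb : R = ⊥
      · refine Gen.single ⟨s1.trans hRS, s2.trans hRS, Or.inl ⟨trivial, ?_⟩⟩
        have hAb : A = ⊥ := le_bot_iff.1 (hRb ▸ s1)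
        rw [hAb]
        intro a ha
        have : a = 1 := ha
        rw [this]; simp
      · have hSb : S ≠ ⊥ := fun h => hRb (le_bot_iff.1 (h ▸ hRS))
        have hV' : V S ≤ V R := hVmono S R hS.2.1 hRp hSb hRb f2
        exact Gen.single ⟨s1.trans hRS, s2.trans hRS,
          Or.inr (Or.inr ⟨trivial, Subgroup.centralizer_le hV' s3.2⟩)⟩
  have hmain : ∀ A : Subgroup G, A ≤ S → ∀ g : G, cj g A ≤ S → Gen (StepP W V ⊤ S) A g := by
    apply pair_induction (p := p) S hS hW (Gen (StepP W V ⊤ S))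
      (fun A g h _ _ _ h1 h2 => h1.trans h2)
      (fun A g _ _ h1 => h1.symm StepP.symm)
      (fun A B g _ _ hBA h1 => h1.mono StepP.mono hBA)
    · intro A hA c hc
      exact Gen.single ⟨hA, by rw [cj_eq_of_mem_centralizer hc]; exact hA, Or.inl ⟨trivial, hc⟩⟩
    · intro D hD hZ x hx
      have hDR : D ≤ S ⊓ Subgroup.normalizer (D : Set G) := le_inf hD.1 Subgroup.le_normalizer
      exact claim D hD hZ D hDR x hx (by rw [mem_normalizer_iff_cj.1 hx]; exact hDR)
  refine ⟨S, P.isPGroup', P.not_dvd_index, fun X a hX hXa => ?_⟩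
  have hcl : Subgroup.closure X ≤ S := (Subgroup.closure_le _).2 hX
  obtain ⟨c, hc, l, hl, e⟩ := ldata_of_gen (hmain (Subgroup.closure X) hcl a⁻¹
    (image_rconj_subset_iff.1 hXa)) hcl
  have hcX : c ∈ Subgroup.centralizer X := by
    have := hc.2
    rwa [Subgroup.centralizer_closure] at this
  refine ⟨c, hcX, l.length, l.get, ?_, ?_, ?_⟩
  · intro i
    exact hl.1 _ (List.get_mem l i)
  · rw [List.ofFn_get, ← e, inv_inv]
  · intro k hk
    rw [List.ofFn_get, image_cent hcX, image_rconj_subset_iff]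
    exact hl.2 k hk

end Cfsg.Agent.S2002
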