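import Cfsg.Statements.S2133
import Cfsg.Agent.Lib.Helper94Model2
import Cfsg.Agent.S0445

set_option autoImplicit false
open Cfsg

namespace Cfsg.Agent.S2133

open Cfsg Cfsg.Agent.Lib.Helper33Golay Cfsg.Agent.Lib.Helper94M24A Cfsg.Agent.Lib.Helper94M24B
  Cfsg.Agent.Lib.Helper94M24C Cfsg.Agent.Lib.Helper94M24D Cfsg.Agent.Lib.Helper94M24E
  Cfsg.Agent.Lib.Helper94Model
open scoped Pointwise
open Matrix

/-! ### tables: the affine structure on the sixteen points moved by the involution -/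

def labL : List ℕ := [0, 0, 0, 0, 2, 0, 6, 7, 10, 18, 19, 23, 22, 31, 0, 15, 30, 0, 11, 27, 14, 26, 3, 0]
def PL : List ℕ := [0, 0, 4, 22, 0, 0, 6, 7, 0, 0, 8, 18, 0, 0, 20, 15, 0, 0, 9, 10, 0, 0, 12, 11, 0, 0, 21, 19, 0, 0, 16, 13]
def lab (i : ℕ) : ℕ := labL.getD i 0
def Pv (v : ℕ) : ℕ := PL.getD v 0
def V16 : List ℕ := [2, 3, 6, 7, 10, 11, 14, 15, 18, 19, 22, 23, 26, 27, 30, 31]

def sel (v j c : ℕ) : ℕ := if v.testBit j then c else 0

def applyC (c0 c1 c2 c3 c4 v : ℕ) : ℕ :=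
  Nat.xor (sel v 0 c0) (Nat.xor (sel v 1 c1) (Nat.xor (sel v 2 c2) (Nat.xor (sel v 3 c3) (sel v 4 c4))))

def im (c v : ℕ) : ℕ := lab (img c (Pv v))

def K1 (c : ℕ) : ℕ := im c 2
def K0 (c : ℕ) : ℕ := Nat.xor (im c 3) (im c 2)
def K2 (c : ℕ) : ℕ := Nat.xor (im c 6) (im c 2)
def K3 (c : ℕ) : ℕ := Nat.xor (im c 10) (im c 2)
def K4 (c : ℕ) : ℕ := Nat.xor (im c 18) (im c 2)

def affOK (c : ℕ) : Bool :=
  V16.all (fun v => Nat.beq (im c v) (applyC (K0 c) (K1 c) (K2 c) (K3 c) (K4 c) v) &&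
    Nat.beq (Pv (im c v)) (img c (Pv v)) && V16.any (fun w => Nat.beq w (im c v)))

/-! ### vectors and matrices over the field with two elements -/

def vec (a : ℕ) : Fin 5 → ZMod 2 := fun i => if a.testBit i then 1 else 0

theorem vec_xor (a b : ℕ) : vec (Nat.xor a b) = vec a + vec b := by
  ext i
  have h : (Nat.xor a b).testBit i = (a.testBit i ^^ b.testBit i) := Nat.testBit_xor a b i
  simp only [vec, Pi.add_apply, h]
  cases a.testBit i <;> cases b.testBit i <;> decide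

theorem vec_zero : vec 0 = 0 := by
  ext i; simp [vec]

theorem vec_sel (v j c : ℕ) : vec (sel v j c) = (if v.testBit j then (1 : ZMod 2) else 0) • vec c := by
  unfold sel
  split_ifs
  · rw [one_smul]
  · rw [zero_smul, vec_zero]

def matC (c0 c1 c2 c3 c4 : ℕ) : Matrix (Fin 5) (Fin 5) (ZMod 2) :=
  Matrix.of (fun i j => vec (![c0, c1, c2, c3, c4] j) i)

theorem matC_mulVec (c0 c1 c2 c3 c4 v : ℕ) :
    matC c0 c1 c2 c3 c4 *ᵥ vec v = vec (applyC c0 c1 c2 c3 c4 v) := by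
  unfold applyC
  simp only [vec_xor, vec_sel]
  ext i
  simp only [Matrix.mulVec, dotProduct, Fin.sum_univ_five, matC, Matrix.of_apply, Pi.add_apply,
    Pi.smul_apply, smul_eq_mul]
  simp only [Matrix.cons_val_zero, Matrix.cons_val_one, Matrix.cons_val]
  simp only [vec, show ((0 : Fin 5) : ℕ) = 0 from rfl, show ((1 : Fin 5) : ℕ) = 1 from rfl,
    show ((2 : Fin 5) : ℕ) = 2 from rfl, show ((3 : Fin 5) : ℕ) = 3 from rfl,
    show ((4 : Fin 5) : ℕ) = 4 from rfl]
  ring

/-! ### affine elements -/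

def nu (p : GolayPt) : Fin 5 → ZMod 2 := vec (lab (idx p))

def Aff (g : Equiv.Perm GolayPt) (A : Matrix (Fin 5) (Fin 5) (ZMod 2)) : Prop :=
  ∀ v ∈ V16, (∃ v' ∈ V16, g (pt (Pv v)) = pt (Pv v')) ∧ nu (g (pt (Pv v))) = A *ᵥ vec v

theorem tab : ∀ v ∈ V16, Pv v < 24 ∧ lab (Pv v) = v := by decide

theorem nu_pt {v : ℕ} (hv : v ∈ V16) : nu (pt (Pv v)) = vec v := by
  unfold nu
  rw [idx_pt (tab v hv).1, (tab v hv).2]

theorem aff_of_code {c : ℕ} (hc : validPerm c = true) (h : affOK c = true) :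
    Aff (toPerm c) (matC (K0 c) (K1 c) (K2 c) (K3 c) (K4 c)) := by
  intro v hv
  have h1 := List.all_eq_true.1 h v hv
  simp only [Bool.and_eq_true, List.any_eq_true] at h1
  obtain ⟨⟨e1, e2⟩, w, hw, e3⟩ := h1
  have e1 := Nat.eq_of_beq_eq_true e1
  have e2 := Nat.eq_of_beq_eq_true e2
  have e3 := Nat.eq_of_beq_eq_true e3
  rw [toPerm_pt hc (tab v hv).1]
  refine ⟨⟨im c v, e3 ▸ hw, by rw [e2]⟩, ?_⟩
  rw [matC_mulVec, ← e1]
  unfold nu
  rw [idx_pt (img_lt hc (tab v hv).1)]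
  rfl

theorem aff_mul {g h : Equiv.Perm GolayPt} {A B : Matrix (Fin 5) (Fin 5) (ZMod 2)} (hg : Aff g A)
    (hh : Aff h B) : Aff (g * h) (A * B) := by
  intro v hv
  obtain ⟨⟨v', hv', e⟩, e'⟩ := hh v hv
  rw [Equiv.Perm.mul_apply, e]
  refine ⟨(hg v' hv').1, ?_⟩
  rw [(hg v' hv').2, ← nu_pt hv', ← e, e', Matrix.mulVec_mulVec]

theorem aff_one : Aff 1 1 := by
  intro v hv
  exact ⟨⟨v, hv, rfl⟩, by rw [Equiv.Perm.one_apply, nu_pt hv, Matrix.one_mulVec]⟩

theorem e0 : Pi.single (0 : Fin 5) (1 : ZMod 2) = vec 3 - vec 2 := by decide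
theorem e1 : Pi.single (1 : Fin 5) (1 : ZMod 2) = vec 2 := by decide
theorem e2 : Pi.single (2 : Fin 5) (1 : ZMod 2) = vec 6 - vec 2 := by decide
theorem e3 : Pi.single (3 : Fin 5) (1 : ZMod 2) = vec 10 - vec 2 := by decide
theorem e4 : Pi.single (4 : Fin 5) (1 : ZMod 2) = vec 18 - vec 2 := by decide

theorem mat_ext {A B : Matrix (Fin 5) (Fin 5) (ZMod 2)} (h : ∀ v ∈ V16, A *ᵥ vec v = B *ᵥ vec v) :
    A = B := by
  have h2 := h 2 (by decide)
  have h3 := h 3 (by decide)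
  have h6 := h 6 (by decide)
  have h10 := h 10 (by decide)
  have h18 := h 18 (by decide)
  have key : ∀ j : Fin 5, A *ᵥ Pi.single j 1 = B *ᵥ Pi.single j 1 := by
    intro j
    fin_cases j
    · show A *ᵥ Pi.single 0 1 = B *ᵥ Pi.single 0 1
      rw [e0, Matrix.mulVec_sub, Matrix.mulVec_sub, h3, h2]
    · show A *ᵥ Pi.single 1 1 = B *ᵥ Pi.single 1 1
      rw [e1, h2]
    · show A *ᵥ Pi.single 2 1 = B *ᵥ Pi.single 2 1
      rw [e2, Matrix.mulVec_sub, Matrix.mulVec_sub, h6, h2]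
    · show A *ᵥ Pi.single 3 1 = B *ᵥ Pi.single 3 1
      rw [e3, Matrix.mulVec_sub, Matrix.mulVec_sub, h10, h2]
    · show A *ᵥ Pi.single 4 1 = B *ᵥ Pi.single 4 1
      rw [e4, Matrix.mulVec_sub, Matrix.mulVec_sub, h18, h2]
  ext i j
  have := congrFun (key j) i
  simpa [Matrix.mulVec_single_one] using this

theorem aff_unique {g : Equiv.Perm GolayPt} {A B : Matrix (Fin 5) (Fin 5) (ZMod 2)} (hA : Aff g A)
    (hB : Aff g B) : A = B :=
  mat_ext fun v hv => by rw [← (hA v hv).2, (hB v hv).2]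

theorem vec_inj : ∀ v ∈ V16, ∀ w ∈ V16, vec v = vec w → v = w := by decide

theorem Pv_nodup : (V16.map Pv).Nodup := by decide

theorem eq_one_of_aff {g : Equiv.Perm GolayPt} (hg : g ∈ M24) (h : Aff g 1) : g = 1 := by
  apply eq_one_of_nine hg
  have hfix : ∀ v ∈ V16, g (pt (Pv v)) = pt (Pv v) := by
    intro v hv
    obtain ⟨⟨v', hv', e⟩, e'⟩ := h v hv
    rw [e, nu_pt hv', Matrix.one_mulVec] at e'
    rw [e, vec_inj v' hv' v hv e']
  have hsub : ((V16.map (fun v => pt (Pv v))).toFinset) ⊆ Finset.univ.filter fun p => g p = p := by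
    intro p hp
    simp only [List.mem_toFinset, List.mem_map] at hp
    obtain ⟨v, hv, rfl⟩ := hp
    simp only [Finset.mem_filter, Finset.mem_univ, true_and]
    exact hfix v hv
  have hnd : (V16.map (fun v => pt (Pv v))).Nodup := by
    have : V16.map (fun v => pt (Pv v)) = (V16.map Pv).map pt := by simp
    rw [this, List.nodup_map_iff_inj_on Pv_nodup]
    intro a ha b hb hab
    obtain ⟨v, hv, rfl⟩ := List.mem_map.1 ha
    obtain ⟨w, hw, rfl⟩ := List.mem_map.1 hb
    exact pt_injOn (tab v hv).1 (tab w hw).1 hab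
  have hc := Finset.card_le_card hsub
  rw [List.toFinset_card_of_nodup hnd] at hc
  have : (V16.map (fun v => pt (Pv v))).length = 16 := by simp [V16]
  omega

/-! ### the centraliser and its stabiliser chain -/

def Cz : Subgroup (Equiv.Perm GolayPt) := M24 ⊓ Subgroup.centralizer {toPerm t2A}
def Cz1 : Subgroup (Equiv.Perm GolayPt) := Cz ⊓ MulAction.stabilizer (Equiv.Perm GolayPt) (pt 23)
def Cz2 : Subgroup (Equiv.Perm GolayPt) := Cz1 ⊓ MulAction.stabilizer (Equiv.Perm GolayPt) (pt 0)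
def Cz3 : Subgroup (Equiv.Perm GolayPt) := Cz2 ⊓ MulAction.stabilizer (Equiv.Perm GolayPt) (pt 1)

theorem t_valid : validPerm t2A = true := inM24_valid t2A_in

theorem mem_Cz {g : Equiv.Perm GolayPt} : g ∈ Cz ↔ g ∈ M24 ∧ g * toPerm t2A = toPerm t2A * g := by
  unfold Cz
  rw [Subgroup.mem_inf, Subgroup.mem_centralizer_singleton_iff]

theorem step_card (H : Subgroup (Equiv.Perm GolayPt)) (p : GolayPt) (rs : List (Equiv.Perm GolayPt))
    (hr : ∀ r ∈ rs, r ∈ H) (hnd : (rs.map (fun r => r p)).Nodup) :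
    rs.length * Nat.card ↥(H ⊓ MulAction.stabilizer (Equiv.Perm GolayPt) p) ≤ Nat.card ↥H := by
  classical
  let f : Fin rs.length × ↥(H ⊓ MulAction.stabilizer (Equiv.Perm GolayPt) p) → ↥H :=
    fun x => ⟨rs[x.1] * x.2.1, H.mul_mem (hr _ (List.getElem_mem _)) (Subgroup.mem_inf.1 x.2.2).1⟩
  have hf : Function.Injective f := by
    rintro ⟨i, h⟩ ⟨j, h'⟩ e
    have e1 : rs[i] * h.1 = rs[j] * h'.1 := congrArg Subtype.val e
    have hp : h.1 p = p := MulAction.mem_stabilizer_iff.1 (Subgroup.mem_inf.1 h.2).2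
    have hp' : h'.1 p = p := MulAction.mem_stabilizer_iff.1 (Subgroup.mem_inf.1 h'.2).2
    have e2 := congrArg (fun x : Equiv.Perm GolayPt => x p) e1
    simp only [Equiv.Perm.mul_apply, hp, hp'] at e2
    have hij : i = j := by
      apply Fin.ext
      have h1 : (rs.map (fun r => r p))[(i : ℕ)]'(by simp) = (rs.map (fun r => r p))[(j : ℕ)]'(by simp) := by
        simpa using e2
      exact (List.Nodup.getElem_inj_iff hnd).1 h1
    subst hij
    have : h.1 = h'.1 := mul_left_cancel e1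
    rw [Subtype.ext this]
  have := Nat.card_le_card_of_injective f hf
  rwa [Nat.card_prod, Nat.card_eq_fintype_card, Fintype.card_fin] at this

theorem step_prop (Q : Equiv.Perm GolayPt → Prop) (hmul : ∀ a b, Q a → Q b → Q (a * b))
    (H : Subgroup (Equiv.Perm GolayPt)) (p : GolayPt) (rs : List (Equiv.Perm GolayPt))
    (hr : ∀ r ∈ rs, r ∈ H ∧ Q r) (hall : ∀ g ∈ H, ∃ r ∈ rs, r p = g p)
    (hst : ∀ h ∈ H ⊓ MulAction.stabilizer (Equiv.Perm GolayPt) p, Q h) : ∀ g ∈ H, Q g := by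
  intro g hg
  obtain ⟨r, hr', e⟩ := hall g hg
  have h1 : r⁻¹ * g ∈ H ⊓ MulAction.stabilizer (Equiv.Perm GolayPt) p := by
    refine Subgroup.mem_inf.2 ⟨H.mul_mem (H.inv_mem (hr r hr').1) hg, ?_⟩
    rw [MulAction.mem_stabilizer_iff]
    show (r⁻¹ * g) p = p
    rw [Equiv.Perm.mul_apply, ← e]
    exact Equiv.symm_apply_apply r _
  have : g = r * (r⁻¹ * g) := by group
  rw [this]
  exact hmul _ _ (hr r hr').2 (hst _ h1)

def R0 : List ℕ := [14546595264755756571483006399382641, 57383022880782809085104075329045027, 89147023513860308921034189289610241, 148598613463408557115577123827926103, 233093390203067938294387886349355479, 595989362711248822618328321769954400, 717155118277355081588990068339511010, 984818244535754528103549039458486304]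
def R1 : List ℕ := [984818244535754528103549039458486304, 983384097958616288390992807884506561, 981723546050013369768516863212850722, 971132808147225379783157847445125123, 972730923598638756793337141613069413, 966396775189381291555958798684296270, 969018001726081221262538126274920625]
def R2 : List ℕ := [984818244535754528103549039458486304, 961450375382535455138506865050223680, 980315064988907641559769027712301152, 964657638212377174674905194693706912, 982816738901987237739948279298297280, 963954054526634113719761960477070880]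

def repOK (F : List ℕ) (c : ℕ) : Bool := inM24 c && relB t2A t2A c && fixesL F c && affOK c

theorem R0_ok : R0.all (repOK []) = true := by decide +kernel
theorem R1_ok : R1.all (repOK [23]) = true := by decide +kernel
theorem R2_ok : R2.all (repOK [23, 0]) = true := by decide +kernel
theorem R0_img : R0.map (fun c => img c 23) = [0, 1, 2, 3, 5, 14, 17, 23] := by decide +kernel
theorem R1_img : R1.map (fun c => img c 0) = [0, 1, 2, 3, 5, 14, 17] := by decide +kernel
theorem R2_img : R2.map (fun c => img c 1) = [1, 2, 3, 5, 14, 17] := by decide +kernel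

def AffG (g : Equiv.Perm GolayPt) : Prop := ∃ A, Aff g A

theorem affG_mul (a b : Equiv.Perm GolayPt) (ha : AffG a) (hb : AffG b) : AffG (a * b) := by
  obtain ⟨A, hA⟩ := ha
  obtain ⟨B, hB⟩ := hb
  exact ⟨A * B, aff_mul hA hB⟩

theorem rep_facts {F : List ℕ} {c : ℕ} (h : repOK F c = true) :
    validPerm c = true ∧ toPerm c ∈ Cz ∧ (∀ j ∈ F, j < 24 → toPerm c (pt j) = pt j) ∧ AffG (toPerm c) := by
  simp only [repOK, Bool.and_eq_true] at h
  obtain ⟨⟨⟨h1, h2⟩, h3⟩, h4⟩ := h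
  have hv := inM24_valid h1
  refine ⟨hv, mem_Cz.2 ⟨toPerm_mem_M24 h1, (relB_iff t_valid t_valid hv).1 h2⟩, ?_, _, aff_of_code hv h4⟩
  intro j hj hj'
  rw [toPerm_pt hv hj']
  have := List.all_eq_true.1 h3 j hj
  rw [Nat.eq_of_beq_eq_true this]

/-- the points fixed by the involution -/
theorem fix_t : ∀ i < 24, img t2A i = i → i ∈ [0, 1, 2, 3, 5, 14, 17, 23] := by decide +kernel

theorem fixed_of_comm {g : Equiv.Perm GolayPt} (hg : g ∈ Cz) {j : ℕ} (hj : j < 24) (hfix : img t2A j = j) :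
    ∃ a ∈ [0, 1, 2, 3, 5, 14, 17, 23], g (pt j) = pt a := by
  have hc := (mem_Cz.1 hg).2
  have h1 := congrArg (fun x : Equiv.Perm GolayPt => x (pt j)) hc
  simp only [Equiv.Perm.mul_apply] at h1
  rw [toPerm_pt t_valid hj, hfix] at h1
  refine ⟨idx (g (pt j)), ?_, (pt_idx _).symm⟩
  apply fix_t _ (idx_lt _)
  have h2 : toPerm t2A (pt (idx (g (pt j)))) = pt (idx (g (pt j))) := by rw [pt_idx]; exact h1.symm
  rw [toPerm_pt t_valid (idx_lt _)] at h2
  exact pt_injOn (img_lt t_valid (idx_lt _)) (idx_lt _) h2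

theorem mem_Cz1 {g : Equiv.Perm GolayPt} : g ∈ Cz1 ↔ g ∈ Cz ∧ g (pt 23) = pt 23 := by
  unfold Cz1
  rw [Subgroup.mem_inf, MulAction.mem_stabilizer_iff]; rfl

theorem mem_Cz2 {g : Equiv.Perm GolayPt} : g ∈ Cz2 ↔ g ∈ Cz1 ∧ g (pt 0) = pt 0 := by
  unfold Cz2
  rw [Subgroup.mem_inf, MulAction.mem_stabilizer_iff]; rfl

theorem mem_Cz3 {g : Equiv.Perm GolayPt} : g ∈ Cz3 ↔ g ∈ Cz2 ∧ g (pt 1) = pt 1 := by
  unfold Cz3
  rw [Subgroup.mem_inf, MulAction.mem_stabilizer_iff]; rfl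

def L3 : List ℕ := search (okLv (fun l R => okFix [23, 0, 1] l R && okRel t2A t2A l R)
  (fun R => fixesL [23, 0, 1] R && relB t2A t2A R))

theorem chk3 : (L3.all affOK && nodupB L3 && Nat.beq L3.length 64) = true := by decide +kernel

def Q3 (g : Equiv.Perm GolayPt) : Prop :=
  g * toPerm t2A = toPerm t2A * g ∧ g (pt 23) = pt 23 ∧ g (pt 0) = pt 0 ∧ g (pt 1) = pt 1

theorem mem_Cz3' {g : Equiv.Perm GolayPt} : g ∈ Cz3 ↔ g ∈ M24 ∧ Q3 g := by
  rw [mem_Cz3, mem_Cz2, mem_Cz1, mem_Cz]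
  unfold Q3
  tauto

theorem mem_L3 {g : Equiv.Perm GolayPt} (hM : g ∈ M24) (hg : Q3 g) : ∃ c ∈ L3, g = toPerm c := by
  obtain ⟨hc, h23, h0, h1⟩ := hg
  have hF : ∀ j ∈ [23, 0, 1], g (pt j) = pt j := by
    intro j hj
    simp only [List.mem_cons, List.not_mem_nil, or_false] at hj
    rcases hj with rfl | rfl | rfl <;> assumption
  apply lv_sound _ _ hM
  · intro l R hl hR ha
    rw [Bool.and_eq_true]
    exact ⟨okFix_sound hF hl hR ha, okRel_sound t_valid t_valid hc hl hR ha⟩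
  · intro R hR e
    rw [Bool.and_eq_true]
    refine ⟨?_, (relB_iff t_valid t_valid hR.1).2 (by rw [e]; exact hc)⟩
    simp only [fixesL, List.all_eq_true]
    intro j hj
    have hj' : j < 24 := by
      simp only [List.mem_cons, List.not_mem_nil, or_false] at hj
      rcases hj with rfl | rfl | rfl <;> norm_num
    have h2 := hF j hj
    rw [← e, toPerm_pt hR.1 hj'] at h2
    rw [pt_injOn (img_lt hR.1 hj') hj' h2]
    exact Nat.beq_refl _

theorem L3_facts {c : ℕ} (hc : c ∈ L3) : normP c = true ∧ toPerm c ∈ M24 ∧ Q3 (toPerm c) := by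
  obtain ⟨hG, hn, hf⟩ := lv_fin hc
  rw [Bool.and_eq_true] at hf
  refine ⟨hn, hG.2, (relB_iff t_valid t_valid hG.1).1 hf.2, ?_, ?_, ?_⟩
  · rw [toPerm_pt hG.1 (by norm_num), Nat.eq_of_beq_eq_true (List.all_eq_true.1 hf.1 23 (by simp))]
  · rw [toPerm_pt hG.1 (by norm_num), Nat.eq_of_beq_eq_true (List.all_eq_true.1 hf.1 0 (by simp))]
  · rw [toPerm_pt hG.1 (by norm_num), Nat.eq_of_beq_eq_true (List.all_eq_true.1 hf.1 1 (by simp))]

theorem card_Cz3 : Nat.card ↥Cz3 = 64 := by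
  have c := chk3
  simp only [Bool.and_eq_true] at c
  have h := card_of_list Q3 L3 (nodup_of_nodupB c.1.2) (fun c hc => (L3_facts hc).1)
    (fun c hc => (L3_facts hc).2) (fun g hM hg => mem_L3 hM hg)
  rw [Nat.eq_of_beq_eq_true c.2] at h
  rw [← h]
  exact Nat.card_congr (Equiv.subtypeEquivRight (fun g => mem_Cz3'))

theorem affG3 : ∀ h ∈ Cz3, AffG h := by
  intro h hh
  obtain ⟨hM, hQ⟩ := mem_Cz3'.1 hh
  obtain ⟨c, hc, rfl⟩ := mem_L3 hM hQ
  have k := chk3
  simp only [Bool.and_eq_true] at k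
  exact ⟨_, aff_of_code (lv_fin hc).1.1 (List.all_eq_true.1 k.1.1 c hc)⟩

theorem reps_nodup (R : List ℕ) (j : ℕ) (hj : j < 24) (hv : ∀ c ∈ R, validPerm c = true)
    (hn : (R.map (fun c => img c j)).Nodup) : ((R.map toPerm).map (fun r => r (pt j))).Nodup := by
  have e : (R.map toPerm).map (fun r => r (pt j)) = (R.map (fun c => img c j)).map pt := by
    rw [List.map_map, List.map_map]
    apply List.map_congr_left
    intro c hc
    simp only [Function.comp]
    rw [toPerm_pt (hv c hc) hj]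
  rw [e, List.nodup_map_iff_inj_on hn]
  intro a ha b hb hab
  obtain ⟨c, hc, rfl⟩ := List.mem_map.1 ha
  obtain ⟨d, hd, rfl⟩ := List.mem_map.1 hb
  exact pt_injOn (img_lt (hv c hc) hj) (img_lt (hv d hd) hj) hab

theorem exists_rep (R : List ℕ) (j : ℕ) (hj : j < 24) (hv : ∀ c ∈ R, validPerm c = true) {a : ℕ}
    (ha : a ∈ R.map (fun c => img c j)) : ∃ r ∈ R.map toPerm, r (pt j) = pt a := by
  obtain ⟨c, hc, rfl⟩ := List.mem_map.1 ha
  exact ⟨toPerm c, List.mem_map_of_mem hc, toPerm_pt (hv c hc) hj⟩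

theorem R0_f {c : ℕ} (hc : c ∈ R0) :
    validPerm c = true ∧ toPerm c ∈ Cz ∧ (∀ j ∈ [], j < 24 → toPerm c (pt j) = pt j) ∧ AffG (toPerm c) :=
  rep_facts (List.all_eq_true.1 R0_ok c hc)
theorem R1_f {c : ℕ} (hc : c ∈ R1) :
    validPerm c = true ∧ toPerm c ∈ Cz ∧ (∀ j ∈ [23], j < 24 → toPerm c (pt j) = pt j) ∧ AffG (toPerm c) :=
  rep_facts (List.all_eq_true.1 R1_ok c hc)
theorem R2_f {c : ℕ} (hc : c ∈ R2) :
    validPerm c = true ∧ toPerm c ∈ Cz ∧ (∀ j ∈ [23, 0], j < 24 → toPerm c (pt j) = pt j) ∧ AffG (toPerm c) :=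
  rep_facts (List.all_eq_true.1 R2_ok c hc)

theorem R1_mem {c : ℕ} (hc : c ∈ R1) : toPerm c ∈ Cz1 :=
  mem_Cz1.2 ⟨(R1_f hc).2.1, (R1_f hc).2.2.1 23 (by simp) (by norm_num)⟩

theorem R2_mem {c : ℕ} (hc : c ∈ R2) : toPerm c ∈ Cz2 :=
  mem_Cz2.2 ⟨mem_Cz1.2 ⟨(R2_f hc).2.1, (R2_f hc).2.2.1 23 (by simp) (by norm_num)⟩,
    (R2_f hc).2.2.1 0 (by simp) (by norm_num)⟩

theorem t_fix : img t2A 23 = 23 ∧ img t2A 0 = 0 ∧ img t2A 1 = 1 := by decide +kernel

theorem affG2 : ∀ g ∈ Cz2, AffG g := by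
  apply step_prop AffG affG_mul Cz2 (pt 1) (R2.map toPerm)
  · intro r hr
    obtain ⟨c, hc, rfl⟩ := List.mem_map.1 hr
    exact ⟨R2_mem hc, (R2_f hc).2.2.2⟩
  · intro g hg
    obtain ⟨h1, g0⟩ := mem_Cz2.1 hg
    obtain ⟨h2, g23⟩ := mem_Cz1.1 h1
    obtain ⟨a, ha, e⟩ := fixed_of_comm h2 (j := 1) (by norm_num) t_fix.2.2
    rw [e]
    apply exists_rep R2 1 (by norm_num) (fun c hc => (R2_f hc).1)
    rw [R2_img]
    have n23 : a ≠ 23 := by
      rintro rfl
      have := g.injective (e.trans g23.symm)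
      exact absurd (pt_injOn (by norm_num) (by norm_num) this) (by norm_num)
    have n0 : a ≠ 0 := by
      rintro rfl
      have := g.injective (e.trans g0.symm)
      exact absurd (pt_injOn (by norm_num) (by norm_num) this) (by norm_num)
    simp only [List.mem_cons, List.not_mem_nil, or_false] at ha ⊢
    omega
  · exact affG3

theorem affG1 : ∀ g ∈ Cz1, AffG g := by
  apply step_prop AffG affG_mul Cz1 (pt 0) (R1.map toPerm)
  · intro r hr
    obtain ⟨c, hc, rfl⟩ := List.mem_map.1 hr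
    exact ⟨R1_mem hc, (R1_f hc).2.2.2⟩
  · intro g hg
    obtain ⟨h2, g23⟩ := mem_Cz1.1 hg
    obtain ⟨a, ha, e⟩ := fixed_of_comm h2 (j := 0) (by norm_num) t_fix.2.1
    rw [e]
    apply exists_rep R1 0 (by norm_num) (fun c hc => (R1_f hc).1)
    rw [R1_img]
    have n23 : a ≠ 23 := by
      rintro rfl
      have := g.injective (e.trans g23.symm)
      exact absurd (pt_injOn (by norm_num) (by norm_num) this) (by norm_num)
    simp only [List.mem_cons, List.not_mem_nil, or_false] at ha ⊢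
    omega
  · exact affG2

theorem affG0 : ∀ g ∈ Cz, AffG g := by
  apply step_prop AffG affG_mul Cz (pt 23) (R0.map toPerm)
  · intro r hr
    obtain ⟨c, hc, rfl⟩ := List.mem_map.1 hr
    exact ⟨(R0_f hc).2.1, (R0_f hc).2.2.2⟩
  · intro g hg
    obtain ⟨a, ha, e⟩ := fixed_of_comm hg (j := 23) (by norm_num) t_fix.1
    rw [e]
    apply exists_rep R0 23 (by norm_num) (fun c hc => (R0_f hc).1)
    rw [R0_img]
    exact ha
  · exact affG1

theorem card_Cz : 21504 ≤ Nat.card ↥Cz := by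
  have s2 := step_card Cz2 (pt 1) (R2.map toPerm)
    (by intro r hr; obtain ⟨c, hc, rfl⟩ := List.mem_map.1 hr; exact R2_mem hc)
    (reps_nodup R2 1 (by norm_num) (fun c hc => (R2_f hc).1) (by rw [R2_img]; decide))
  have s1 := step_card Cz1 (pt 0) (R1.map toPerm)
    (by intro r hr; obtain ⟨c, hc, rfl⟩ := List.mem_map.1 hr; exact R1_mem hc)
    (reps_nodup R1 0 (by norm_num) (fun c hc => (R1_f hc).1) (by rw [R1_img]; decide))
  have s0 := step_card Cz (pt 23) (R0.map toPerm)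
    (by intro r hr; obtain ⟨c, hc, rfl⟩ := List.mem_map.1 hr; exact (R0_f hc).2.1)
    (reps_nodup R0 23 (by norm_num) (fun c hc => (R0_f hc).1) (by rw [R0_img]; decide))
  have l0 : (R0.map toPerm).length = 8 := by simp [R0]
  have l1 : (R1.map toPerm).length = 7 := by simp [R1]
  have l2 : (R2.map toPerm).length = 6 := by simp [R2]
  rw [l0] at s0
  rw [l1] at s1
  rw [l2] at s2
  have c3 := card_Cz3
  change 8 * Nat.card ↥Cz1 ≤ _ at s0
  change 7 * Nat.card ↥Cz2 ≤ _ at s1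
  change 6 * Nat.card ↥Cz3 ≤ _ at s2
  omega

/-! ### the homomorphism to matrices -/

noncomputable def Mx (g : ↥Cz) : Matrix (Fin 5) (Fin 5) (ZMod 2) := Classical.choose (affG0 g.1 g.2)

theorem Mx_spec (g : ↥Cz) : Aff g.1 (Mx g) := Classical.choose_spec (affG0 g.1 g.2)

theorem Mx_mul (g h : ↥Cz) : Mx (g * h) = Mx g * Mx h :=
  aff_unique (Mx_spec (g * h)) (aff_mul (Mx_spec g) (Mx_spec h))

theorem Mx_one : Mx 1 = 1 := aff_unique (Mx_spec 1) aff_one

theorem Mx_det (g : ↥Cz) : (Mx g).det = 1 := by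
  have h : Mx g * Mx g⁻¹ = 1 := by rw [← Mx_mul, mul_inv_cancel, Mx_one]
  have h1 := congrArg Matrix.det h
  rw [Matrix.det_mul, Matrix.det_one] at h1
  have key : ∀ x y : ZMod 2, x * y = 1 → x = 1 := by decide
  exact key _ _ h1

noncomputable def Phi : ↥Cz →* Matrix.SpecialLinearGroup (Fin 5) (ZMod 2) :=
  MonoidHom.mk' (fun g => ⟨Mx g, Mx_det g⟩) (by
    intro g h
    apply Subtype.ext
    exact Mx_mul g h)

theorem Phi_inj : Function.Injective Phi := by
  rw [injective_iff_map_eq_one]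
  intro g hg
  have h1 : Mx g = 1 := congrArg Subtype.val hg
  apply Subtype.ext
  apply eq_one_of_aff (mem_Cz.1 g.2).1
  rw [← h1]
  exact Mx_spec g

theorem t_mem : toPerm t2A ∈ Cz := mem_Cz.2 ⟨toPerm_mem_M24 t2A_in, rfl⟩

theorem t_aff : affOK t2A = true := by decide +kernel

theorem t_mat : matC (K0 t2A) (K1 t2A) (K2 t2A) (K3 t2A) (K4 t2A) = Matrix.transvection 0 1 1 := by
  decide +kernel

theorem Mx_t : Mx ⟨toPerm t2A, t_mem⟩ = Matrix.transvection 0 1 1 := by
  rw [← t_mat]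
  exact aff_unique (Mx_spec _) (aff_of_code t_valid t_aff)


/-- The Mathieu group M₂₄ (the automorphism group of the length-24 binary code) has an involution whose centraliser is isomorphic to the centraliser of a transvection in SL(5, 2) (a group of shape 2^{1+6}:GL(3, 2)). -/
theorem result (s : Matrix.SpecialLinearGroup (Fin 5) (ZMod 2)) (hs : (s : Matrix (Fin 5) (Fin 5) (ZMod 2)) = Matrix.transvection 0 1 1) : ∃ z : ↥Cfsg.M24, orderOf z = 2 ∧ Nonempty (↥(Subgroup.centralizer ({z} : Set ↥Cfsg.M24)) ≃* ↥(Subgroup.centralizer ({s} : Set (Matrix.SpecialLinearGroup (Fin 5) (ZMod 2))))) := by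
  have hzM : toPerm t2A ∈ M24 := toPerm_mem_M24 t2A_in
  refine ⟨⟨toPerm t2A, hzM⟩, ?_, ?_⟩
  · have h2 : toPerm t2A ^ 2 = 1 := (isPow2_iff t_valid).1 (by decide +kernel)
    have hne : toPerm t2A ≠ 1 := by
      intro h
      rw [← toPerm_idP] at h
      have := toPerm_injOn (by decide +kernel) normP_idP h
      exact absurd this (by decide)
    apply orderOf_eq_prime
    · apply Subtype.ext
      exact h2
    · intro h
      exact hne (congrArg Subtype.val h)
  · obtain ⟨e1⟩ := equiv_of_conj (Subgroup.centralizer ({⟨toPerm t2A, hzM⟩} : Set ↥M24)) Cz 1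
      (by
        intro x hx
        rw [Subgroup.mem_centralizer_singleton_iff] at hx
        simp only [one_mul, inv_one, mul_one]
        exact mem_Cz.2 ⟨x.2, congrArg Subtype.val hx⟩)
      (by
        intro y hy
        obtain ⟨y1, y2⟩ := mem_Cz.1 hy
        refine ⟨⟨y, y1⟩, ?_, by simp⟩
        rw [Subgroup.mem_centralizer_singleton_iff]
        exact Subtype.ext y2)
    have hs' : Phi ⟨toPerm t2A, t_mem⟩ = s := by
      apply Subtype.ext
      rw [hs]
      exact Mx_t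
    let Ψ : ↥Cz →* ↥(Subgroup.centralizer ({s} : Set (Matrix.SpecialLinearGroup (Fin 5) (ZMod 2)))) :=
      Phi.codRestrict _ (by
        intro g
        rw [Subgroup.mem_centralizer_singleton_iff, ← hs', ← map_mul, ← map_mul]
        congr 1
        apply Subtype.ext
        exact (mem_Cz.1 g.2).2)
    have hΨ : Function.Injective Ψ := by
      intro a b hab
      exact Phi_inj (congrArg Subtype.val hab)
    have hcard := Cfsg.Agent.S0445.result s hs
    have hbij : Function.Bijective Ψ := by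
      rw [Nat.bijective_iff_injective_and_card]
      refine ⟨hΨ, le_antisymm (Nat.card_le_card_of_injective Ψ hΨ) ?_⟩
      rw [hcard]
      exact card_Cz
    exact ⟨e1.trans (MulEquiv.ofBijective Ψ hbij)⟩

end Cfsg.Agent.S2133
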