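import Cfsg.Statements.S2155
import Cfsg.Agent.Lib.H46BTCUD
import Cfsg.Agent.Lib.H46BTFS
import Cfsg.Agent.S1048
-- import your own Cfsg.Agent.* helpers here

set_option autoImplicit false
open Cfsg

namespace Cfsg.Agent.S2155

/-- In a Chevalley group of type G₂, B₂, D₄, F₄, E₆, E₇ or E₈ over a finite field of characteristic p (for types G₂ and B₂ the field is assumed to have at least 3 elements, so that the group is simple), the generalized Fitting subgroup of every proper standard parabolic subgroup P_J is a p-group (P_J is p-constrained with trivial largest normal subgroup of order prime to p). -/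
theorem result {F : Type*} [Field F] [Fintype F] (p : ℕ) [Fact p.Prime] [CharP F p] (D : Cfsg.Lie.ChevalleyDatum) (hD : D ∈ [Cfsg.Lie.chevG2, Cfsg.Lie.chevB2, Cfsg.Lie.chevD4, Cfsg.Lie.chevF4, Cfsg.Lie.chevE6, Cfsg.Lie.chevE7, Cfsg.Lie.chevE8]) (hq : (D = Cfsg.Lie.chevG2 ∨ D = Cfsg.Lie.chevB2) → 3 ≤ Fintype.card F) (J : Set ℕ) (hJ : ∃ i, i < D.rank ∧ i ∉ J) : IsPGroup p ↥(Cfsg.generalizedFittingSubgroup ↥(D.parabolicSubgroup F J)) := by
  have h48 := Cfsg.Agent.S1048.result (F := F) D hD J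
  have hU := Cfsg.Agent.Lib.H46BTCUD.isPGroup_U (F := F) p hD
  have hT := Cfsg.Agent.Lib.Helper23Tab.tableOK_of_mem hD
  have hR : Cfsg.Agent.Lib.Helper23Chev.Rel D F := Cfsg.Agent.Lib.Helper22ChevRel.rel_of_mem hD
  have ok := Cfsg.Agent.Lib.Helper23Chev.rg_ok hT hR
  have hPG : D.parabolicSubgroup F J ≤ D.group F := by
    rw [Cfsg.Agent.Lib.Helper22ChevPar.parabolic_eq hT hR, ← Cfsg.Agent.Lib.Helper23Chev.G_eq hT hR, sup_le_iff]
    refine ⟨Cfsg.Agent.Lib.Helper23RG.RG.B_le_G ok, ?_⟩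
    rw [Subgroup.closure_le]
    rintro g ⟨j, _, rfl⟩
    exact Cfsg.Agent.Lib.Helper23RG.RG.N_le_G ok (Cfsg.Agent.Lib.Helper23RG.RG.nn_mem_N j)
  rw [← Cfsg.Agent.Lib.Helper27CP.CP_iff_isPGroup]
  apply Cfsg.Agent.Lib.H46BTFS.CP_of_cent (V := D.unipotentRadical F J)
  · exact hU.to_le (Cfsg.Agent.Lib.H46BTCUD.radical_le_U J)
  · rw [← h48.2.1]; exact le_sup_left
  · exact h48.1
  · apply hU.to_le
    intro c hc
    exact Cfsg.Agent.Lib.H46BTCUD.cent_le_U hD J hJ ⟨hc.2, hPG hc.1⟩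

end Cfsg.Agent.S2155
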