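import Cfsg.Statements.S2162
-- import your own Cfsg.Agent.* helpers here

set_option autoImplicit false
open Cfsg

namespace Cfsg.Agent.S2162


theorem exists_basis {F V : Type*} [Field F] [AddCommGroup V] [Module F V] [FiniteDimensional F V]
    (N : V →ₗ[F] V) (hN : ∀ x, N (N x) = 0) (ℓ k : ℕ)
    (hℓ : Module.finrank F (LinearMap.range N) = ℓ)
    (hk : ℓ + (ℓ + k) = Module.finrank F V) (hpos : 0 < ℓ) :
    ∃ e : Module.Basis (Fin ℓ ⊕ (Fin ℓ ⊕ Fin k)) F V,
      (∀ i, N (e (Sum.inl i)) = e (Sum.inr (Sum.inl i))) ∧ (∀ j, N (e (Sum.inr j)) = 0) := by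
  have hRK : LinearMap.range N ≤ LinearMap.ker N := by
    rintro _ ⟨x, rfl⟩
    exact hN x
  obtain ⟨C, hC⟩ := Submodule.exists_isCompl (LinearMap.range N)
  have hDR : Disjoint (LinearMap.range N) (C ⊓ LinearMap.ker N) := hC.disjoint.mono_right inf_le_left
  have hsup : LinearMap.range N ⊔ (C ⊓ LinearMap.ker N) = LinearMap.ker N := by
    rw [← sup_inf_assoc_of_le C hRK, hC.sup_eq_top, top_inf_eq]
  have hfinK := LinearMap.finrank_range_add_finrank_ker N
  have hfinD : Module.finrank F (C ⊓ LinearMap.ker N : Submodule F V) = k := by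
    have := Submodule.finrank_sup_add_finrank_inf_eq (LinearMap.range N) (C ⊓ LinearMap.ker N)
    rw [hsup, hDR.eq_bot, finrank_bot] at this
    omega
  let rB := Module.finBasisOfFinrankEq F (LinearMap.range N) hℓ
  let wB := Module.finBasisOfFinrankEq F (C ⊓ LinearMap.ker N : Submodule F V) hfinD
  have hex : ∀ i, ∃ y, N y = (rB i : V) := fun i => (rB i).2
  choose v hv using hex
  let r : Fin ℓ → V := fun i => (rB i : V)
  let w : Fin k → V := fun j => (wB j : V)
  have hr : LinearIndependent F r :=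
    rB.linearIndependent.map' (LinearMap.range N).subtype (Submodule.ker_subtype _)
  have hw : LinearIndependent F w :=
    wB.linearIndependent.map' (C ⊓ LinearMap.ker N : Submodule F V).subtype (Submodule.ker_subtype _)
  have hrs : Submodule.span F (Set.range r) ≤ LinearMap.range N := by
    rw [Submodule.span_le]; rintro _ ⟨i, rfl⟩; exact (rB i).2
  have hws : Submodule.span F (Set.range w) ≤ C ⊓ LinearMap.ker N := by
    rw [Submodule.span_le]; rintro _ ⟨i, rfl⟩; exact (wB i).2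
  have hrw : LinearIndependent F (Sum.elim r w) :=
    hr.sum_type hw (hDR.mono hrs hws)
  have hvi : LinearIndependent F v := by
    apply LinearIndependent.of_comp N
    have : N ∘ v = r := funext hv
    rw [this]; exact hr
  have hrwK : Submodule.span F (Set.range (Sum.elim r w)) ≤ LinearMap.ker N := by
    rw [Submodule.span_le]
    rintro _ ⟨i | j, rfl⟩
    · exact hRK (rB i).2
    · exact (wB j).2.2
  have hvK : Disjoint (Submodule.span F (Set.range v)) (LinearMap.ker N) := by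
    rw [Submodule.disjoint_def]
    intro x hx hxK
    rw [Submodule.mem_span_range_iff_exists_fun] at hx
    obtain ⟨c, rfl⟩ := hx
    rw [LinearMap.mem_ker, map_sum] at hxK
    simp only [map_smul, hv] at hxK
    have := Fintype.linearIndependent_iff.mp hr c hxK
    simp [this]
  have hall : LinearIndependent F (Sum.elim v (Sum.elim r w)) :=
    hvi.sum_type hrw (hvK.mono_right hrwK)
  have : Nonempty (Fin ℓ ⊕ (Fin ℓ ⊕ Fin k)) := ⟨Sum.inl ⟨0, hpos⟩⟩
  have hcard : Fintype.card (Fin ℓ ⊕ (Fin ℓ ⊕ Fin k)) = Module.finrank F V := by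
    simp [hk]
  refine ⟨basisOfLinearIndependentOfCardEqFinrank hall hcard, ?_, ?_⟩
  · intro i
    simp [hv, r]
  · rintro (i | j)
    · simpa using hRK (rB i).2
    · simpa using (wB j).2.2

theorem exists_scale {F V : Type*} [Field F] [AddCommGroup V] [Module F V] [FiniteDimensional F V]
    (ℓ k : ℕ) (hpos : 0 < ℓ) (e : Module.Basis (Fin ℓ ⊕ (Fin ℓ ⊕ Fin k)) F V) (lam : F) :
    ∃ (ψ : V →ₗ[F] V) (u : Fin ℓ → F), LinearMap.det ψ = lam * lam ∧
      (∀ i, ψ (e (Sum.inl i)) = u i • e (Sum.inl i)) ∧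
      (∀ i, ψ (e (Sum.inr (Sum.inl i))) = u i • e (Sum.inr (Sum.inl i))) ∧
      (∀ j, ψ (e (Sum.inr (Sum.inr j))) = e (Sum.inr (Sum.inr j))) := by
  classical
  let u : Fin ℓ → F := fun i => if i = ⟨0, hpos⟩ then lam else 1
  let w : Fin ℓ ⊕ (Fin ℓ ⊕ Fin k) → F := Sum.elim u (Sum.elim u (fun _ => 1))
  obtain ⟨ψ, hψ⟩ : ∃ ψ : V →ₗ[F] V, ∀ i, ψ (e i) = w i • e i :=
    ⟨e.constr F (fun i => w i • e i), fun i => Module.Basis.constr_basis _ _ _ _⟩
  have hu : ∏ i, u i = lam := by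
    simp only [u]
    rw [Finset.prod_ite_eq' Finset.univ (⟨0, hpos⟩ : Fin ℓ) (fun _ => lam)]
    simp
  refine ⟨ψ, u, ?_, fun i => hψ _, fun i => hψ _, fun j => ?_⟩
  · have h1 : LinearMap.toMatrix e e ψ = Matrix.diagonal w := by
      ext i j
      rw [LinearMap.toMatrix_apply, hψ, map_smul, Module.Basis.repr_self, Matrix.diagonal_apply]
      by_cases hij : i = j
      · subst hij; simp
      · rw [if_neg hij]
        simp [Ne.symm hij]
    rw [← LinearMap.det_toMatrix e, h1, Matrix.det_diagonal, Fintype.prod_sum_type,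
      Fintype.prod_sum_type]
    simp [w, hu]
  · rw [hψ]; simp [w]

theorem exists_intertwiner {F V : Type*} [Field F] [AddCommGroup V] [Module F V]
    [FiniteDimensional F V] (hsq : ∀ c : F, IsSquare c)
    (NA NB : V →ₗ[F] V) (hA : ∀ x, NA (NA x) = 0) (hB : ∀ x, NB (NB x) = 0)
    (h : Module.finrank F (LinearMap.range NA) = Module.finrank F (LinearMap.range NB))
    (hpos : 0 < Module.finrank F (LinearMap.range NA)) :
    ∃ χ : V →ₗ[F] V, LinearMap.det χ = 1 ∧ χ ∘ₗ NA = NB ∘ₗ χ := by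
  obtain ⟨ℓ, hℓ⟩ : ∃ ℓ, Module.finrank F (LinearMap.range NA) = ℓ := ⟨_, rfl⟩
  rw [hℓ] at hpos
  have hℓ' : Module.finrank F (LinearMap.range NB) = ℓ := by rw [← h, hℓ]
  have h2l : ℓ + ℓ ≤ Module.finrank F V := by
    have hRK : LinearMap.range NA ≤ LinearMap.ker NA := by
      rintro _ ⟨x, rfl⟩
      exact hA x
    have h1 := Submodule.finrank_mono hRK
    have h2 := LinearMap.finrank_range_add_finrank_ker NA
    omega
  obtain ⟨k, hk⟩ : ∃ k, ℓ + (ℓ + k) = Module.finrank F V :=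
    ⟨Module.finrank F V - (ℓ + ℓ), by omega⟩
  obtain ⟨ea, ea1, ea2⟩ := exists_basis NA hA ℓ k hℓ hk hpos
  obtain ⟨eb, eb1, eb2⟩ := exists_basis NB hB ℓ k hℓ' hk hpos
  obtain ⟨φ, hφ⟩ : ∃ φ : V ≃ₗ[F] V, ∀ i, φ (ea i) = eb i :=
    ⟨ea.equiv eb (Equiv.refl _), fun i => by simp⟩
  have hδ : LinearMap.det (φ : V →ₗ[F] V) ≠ 0 := (LinearEquiv.isUnit_det' φ).ne_zero
  obtain ⟨lam, hlam⟩ := hsq (LinearMap.det (φ : V →ₗ[F] V))⁻¹
  obtain ⟨ψ, u, hdetψ, hψ1, hψ2, hψ3⟩ := exists_scale ℓ k hpos ea lam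
  refine ⟨(φ : V →ₗ[F] V) ∘ₗ ψ, ?_, ?_⟩
  · rw [LinearMap.det_comp, hdetψ, ← hlam, mul_inv_cancel₀ hδ]
  · apply ea.ext
    rintro (i | i | j)
    · simp only [LinearMap.comp_apply, ea1, hψ1, hψ2, map_smul, LinearEquiv.coe_coe, hφ, eb1]
    · simp only [LinearMap.comp_apply, ea2, hψ2, map_smul, LinearEquiv.coe_coe, hφ, eb2, map_zero,
        smul_zero]
    · simp only [LinearMap.comp_apply, ea2, hψ3, LinearEquiv.coe_coe, hφ, eb2, map_zero]

theorem conj_of_rank {F : Type*} [Field F] [Fintype F] [CharP F 2] {n : ℕ}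
    (a b : Matrix.SpecialLinearGroup (Fin n) F) (ha : orderOf a = 2) (hb : orderOf b = 2)
    (h : (a.1 - 1).rank = (b.1 - 1).rank) : IsConj a b := by
  classical
  have hsq : ∀ c : Matrix.SpecialLinearGroup (Fin n) F, orderOf c = 2 →
      (c.1 - 1) * (c.1 - 1) = 0 := by
    intro c hc
    have h1 : c ^ 2 = 1 := by rw [← hc]; exact pow_orderOf_eq_one c
    have h2 : c.1 * c.1 = 1 := by
      have := congrArg Subtype.val h1
      simpa [pow_two] using this
    have h3 : ∀ M : Matrix (Fin n) (Fin n) F, M + M = 0 := by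
      intro M; ext i j; exact CharTwo.add_self_eq_zero _
    calc (c.1 - 1) * (c.1 - 1) = c.1 * c.1 + 1 - (c.1 + c.1) := by noncomm_ring
      _ = 0 := by rw [h2, h3, h3, sub_zero]
  have hNN : ∀ c : Matrix.SpecialLinearGroup (Fin n) F, orderOf c = 2 →
      ∀ x, Matrix.toLin' (c.1 - 1) (Matrix.toLin' (c.1 - 1) x) = 0 := by
    intro c hc x
    rw [← LinearMap.comp_apply, ← Matrix.toLin'_mul, hsq c hc]
    simp
  have hr : ∀ c : Matrix.SpecialLinearGroup (Fin n) F,
      Module.finrank F (LinearMap.range (Matrix.toLin' (c.1 - 1))) = (c.1 - 1).rank := by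
    intro c
    rw [Matrix.rank, Matrix.toLin'_apply']
  have hpos : 0 < Module.finrank F (LinearMap.range (Matrix.toLin' (a.1 - 1))) := by
    rw [Nat.pos_iff_ne_zero]
    intro h0
    rw [Submodule.finrank_eq_zero, LinearMap.range_eq_bot] at h0
    have h1 : a.1 - 1 = 0 := (LinearEquiv.map_eq_zero_iff Matrix.toLin').mp h0
    have h2 : a = 1 := Subtype.ext (sub_eq_zero.mp h1)
    rw [h2, orderOf_one] at ha
    omega
  obtain ⟨χ, hdetχ, hcomm⟩ := exists_intertwiner
    (fun c => FiniteField.isSquare_of_char_two (ringChar.eq F 2) c)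
    (Matrix.toLin' (a.1 - 1)) (Matrix.toLin' (b.1 - 1)) (hNN a ha) (hNN b hb)
    (by rw [hr, hr, h]) hpos
  have hG : (LinearMap.toMatrix' χ).det = 1 := by rw [LinearMap.det_toMatrix', hdetχ]
  have hGc : LinearMap.toMatrix' χ * (a.1 - 1) = (b.1 - 1) * LinearMap.toMatrix' χ := by
    have := congrArg LinearMap.toMatrix' hcomm
    rw [LinearMap.toMatrix'_comp, LinearMap.toMatrix'_comp, LinearMap.toMatrix'_toLin',
      LinearMap.toMatrix'_toLin'] at this
    exact this
  have hGc' : LinearMap.toMatrix' χ * a.1 = b.1 * LinearMap.toMatrix' χ := by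
    rw [mul_sub, sub_mul, mul_one, one_mul] at hGc
    exact sub_left_injective hGc
  rw [isConj_iff]
  obtain ⟨g, hg⟩ : ∃ g : Matrix.SpecialLinearGroup (Fin n) F, g.1 = LinearMap.toMatrix' χ :=
    ⟨⟨LinearMap.toMatrix' χ, hG⟩, rfl⟩
  refine ⟨g, ?_⟩
  rw [mul_inv_eq_iff_eq_mul]
  apply Subtype.ext
  show g.1 * a.1 = b.1 * g.1
  rw [hg]
  exact hGc'

theorem rank_of_conj {F : Type*} [Field F] {n : ℕ}
    (a b : Matrix.SpecialLinearGroup (Fin n) F) (h : IsConj a b) :
    (a.1 - 1).rank = (b.1 - 1).rank := by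
  rw [isConj_iff] at h
  obtain ⟨c, rfl⟩ := h
  have h1 : (c * a * c⁻¹).1 - 1 = c.1 * (a.1 - 1) * (c⁻¹).1 := by
    have h2 : c.1 * (c⁻¹).1 = 1 := by
      have := congrArg Subtype.val (mul_inv_cancel c)
      exact this
    rw [mul_sub, sub_mul, mul_one, h2]
    rfl
  rw [h1, Matrix.rank_mul_eq_left_of_isUnit_det _ _ (by rw [(c⁻¹).2]; exact isUnit_one),
    Matrix.rank_mul_eq_right_of_isUnit_det _ _ (by rw [c.2]; exact isUnit_one)]

/-- Conjugacy of involutions in the special linear group over a finite field of characteristic two, in dimension at least 3: two elements of order 2 of SL_n(F) are conjugate in SL_n(F) exactly when the matrices a − 1 and b − 1 have the same rank (the rank of a − 1 is the dimension of the commutator space [V, a]). -/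
theorem result {F : Type*} [Field F] [Fintype F] [CharP F 2] {n : ℕ} (hn : 3 ≤ n) (a b : Matrix.SpecialLinearGroup (Fin n) F) (ha : orderOf a = 2) (hb : orderOf b = 2) :
    IsConj a b ↔ ((a : Matrix (Fin n) (Fin n) F) - 1).rank = ((b : Matrix (Fin n) (Fin n) F) - 1).rank := by
  exact ⟨rank_of_conj a b, conj_of_rank a b ha hb⟩

end Cfsg.Agent.S2162
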