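import Cfsg.Statements.S2163
-- import your own Cfsg.Agent.* helpers here

set_option autoImplicit false
open Cfsg

namespace Cfsg.Agent.S2163


theorem rank_partial {F : Type*} [Field F] {n : ℕ} (ℓ : ℕ) (h2 : 2 * ℓ ≤ n) :
    (Matrix.of (fun i j : Fin n => if j.val < ℓ ∧ i.val = j.val + (n - ℓ) then (1 : F) else 0)).rank = ℓ := by
  set N : Matrix (Fin n) (Fin n) F :=
    Matrix.of (fun i j : Fin n => if j.val < ℓ ∧ i.val = j.val + (n - ℓ) then (1 : F) else 0) with hN
  let f : Fin ℓ → Fin n := fun a => ⟨a.val + (n - ℓ), by have := a.isLt; omega⟩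
  let g : Fin ℓ → Fin n := fun a => ⟨a.val, by have := a.isLt; omega⟩
  apply le_antisymm
  · have h := Matrix.rank_le_card_of_support_subset N (Finset.univ.image f) (by
      intro i hi
      rw [Function.mem_support] at hi
      have : ∃ j, N i j ≠ 0 := by
        by_contra hcon
        push Not at hcon
        exact hi (funext hcon)
      obtain ⟨j, hj⟩ := this
      simp only [hN, Matrix.of_apply, ne_eq, ite_eq_right_iff, one_ne_zero, imp_false, not_not] at hj
      simp only [Finset.coe_image, Finset.coe_univ, Set.image_univ, Set.mem_range]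
      exact ⟨⟨j.val, hj.1⟩, Fin.ext hj.2.symm⟩)
    exact h.trans (Finset.card_image_le.trans (by simp))
  · have h := Matrix.rank_submatrix_le N f g
    have h1 : N.submatrix f g = 1 := by
      ext a b
      simp only [hN, Matrix.submatrix_apply, Matrix.of_apply, Matrix.one_apply, f, g, Fin.ext_iff]
      have := b.isLt
      congr 1
      simp only [eq_iff_iff]
      constructor
      · rintro ⟨_, h⟩; omega
      · intro h; exact ⟨this, by omega⟩
    rw [h1, Matrix.rank_one, Fintype.card_fin] at h
    exact h

/-- Over a finite field of characteristic two and for n ≥ 3: for every ℓ with 1 ≤ ℓ and 2ℓ ≤ n, the matrix j_ℓ that is the identity plus the entries 1 in positions (n − ℓ + i, i) for i < ℓ (an identity block of size ℓ in the lower left corner) lies in SL_n(F), has order 2, and j_ℓ − 1 has rank ℓ. Together with the conjugacy criterion by rank, these matrices represent the conjugacy classes of involutions of SL_n(F). -/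
theorem result {F : Type*} [Field F] [Fintype F] [CharP F 2] {n : ℕ} (hn : 3 ≤ n) (ℓ : ℕ) (h1 : 1 ≤ ℓ) (h2 : 2 * ℓ ≤ n) :
    ∃ a : Matrix.SpecialLinearGroup (Fin n) F, (a : Matrix (Fin n) (Fin n) F) = 1 + Matrix.of (fun i j : Fin n => if j.val < ℓ ∧ i.val = j.val + (n - ℓ) then (1 : F) else 0) ∧ orderOf a = 2 ∧ ((a : Matrix (Fin n) (Fin n) F) - 1).rank = ℓ := by
  set N : Matrix (Fin n) (Fin n) F :=
    Matrix.of (fun i j : Fin n => if j.val < ℓ ∧ i.val = j.val + (n - ℓ) then (1 : F) else 0) with hN
  have hNN : N * N = 0 := by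
    ext i k
    rw [Matrix.mul_apply]
    apply Finset.sum_eq_zero
    intro j _
    simp only [hN, Matrix.of_apply]
    split_ifs with h3 h4
    · omega
    · simp
    · simp
    · simp
  have hdet : (1 + N).det = 1 := by
    have htri : (1 + N).BlockTriangular OrderDual.toDual := by
      intro i j hij
      have hij' : i < j := hij
      have hne : i ≠ j := ne_of_lt hij'
      simp only [Matrix.add_apply, Matrix.one_apply, hN, Matrix.of_apply, if_neg hne, zero_add]
      rw [if_neg]
      rintro ⟨_, h⟩
      have : i.val < j.val := hij'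
      omega
    rw [Matrix.det_of_isLowerTriangular _ htri]
    apply Finset.prod_eq_one
    intro i _
    simp only [Matrix.add_apply, Matrix.one_apply, hN, Matrix.of_apply, if_true]
    rw [if_neg]
    · simp
    · rintro ⟨h, h'⟩; omega
  refine ⟨⟨1 + N, hdet⟩, rfl, ?_, ?_⟩
  · apply orderOf_eq_prime
    · apply Subtype.ext
      show (1 + N) ^ 2 = 1
      have h2N : (2 : Matrix (Fin n) (Fin n) F) = 0 := by
        have : (2 : F) = 0 := CharTwo.two_eq_zero
        ext i j
        have h22 : (2 : Matrix (Fin n) (Fin n) F) = ((2 : ℕ) : Matrix (Fin n) (Fin n) F) := by norm_cast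
        rw [h22, ← Matrix.diagonal_natCast]
        by_cases hij : i = j
        · subst hij; simp [this]
        · simp [hij]
      calc (1 + N) ^ 2 = 1 + 2 * N + N * N := by noncomm_ring
        _ = 1 := by rw [hNN, h2N]; simp
    · intro h
      have h3 : (1 + N : Matrix (Fin n) (Fin n) F) = 1 := congrArg Subtype.val h
      have h4 : N = 0 := by simpa using h3
      have h5 := congrFun (congrFun h4 ⟨n - ℓ, by omega⟩) ⟨0, by omega⟩
      simp only [hN, Matrix.of_apply, Matrix.zero_apply] at h5
      rw [if_pos ⟨by omega, by omega⟩] at h5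
      exact one_ne_zero h5
  · show ((1 + N) - 1).rank = ℓ
    rw [add_sub_cancel_left]
    exact rank_partial ℓ h2

end Cfsg.Agent.S2163
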