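import Cfsg.Statements.S2164
import Cfsg.Agent.Lib.Helper42SUInv

set_option autoImplicit false
open Cfsg

namespace Cfsg.Agent.S2164

/-- Conjugacy of involutions in the special unitary group SU_n(q), q even, n ≥ 3, realised over the field F with q² elements as the matrices of determinant 1 preserving the form Σ u_i v_i^q: for two elements of order 2 of SU_n(q) the following are equivalent — they are conjugate in SU_n(q); they are conjugate in SL_n(F); the matrices a − 1 and b − 1 have the same rank. -/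
theorem result {F : Type*} [Field F] [Fintype F] [CharP F 2] {n q : ℕ} (hF : Fintype.card F = q ^ 2) (hn : 3 ≤ n) (a b : ↥(Cfsg.SU n F q)) (ha : orderOf a = 2) (hb : orderOf b = 2) :
    (IsConj a b ↔ IsConj (a : Matrix.SpecialLinearGroup (Fin n) F) (b : Matrix.SpecialLinearGroup (Fin n) F)) ∧
    (IsConj a b ↔ (((a : Matrix.SpecialLinearGroup (Fin n) F) : Matrix (Fin n) (Fin n) F) - 1).rank = (((b : Matrix.SpecialLinearGroup (Fin n) F) : Matrix (Fin n) (Fin n) F) - 1).rank) := by
  classical
  have inv : ∀ c : ↥(Cfsg.SU n F q), orderOf c = 2 →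
      ((c : Matrix.SpecialLinearGroup (Fin n) F) : Matrix (Fin n) (Fin n) F) *
        ((c : Matrix.SpecialLinearGroup (Fin n) F) : Matrix (Fin n) (Fin n) F) = 1 ∧
      ((c : Matrix.SpecialLinearGroup (Fin n) F) : Matrix (Fin n) (Fin n) F) ≠ 1 := by
    intro c hc
    constructor
    · have h1 : c ^ 2 = 1 := by rw [← hc]; exact pow_orderOf_eq_one c
      have h2 := congrArg (fun z : ↥(Cfsg.SU n F q) =>
        ((z : Matrix.SpecialLinearGroup (Fin n) F) : Matrix (Fin n) (Fin n) F)) h1
      simpa [pow_two] using h2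
    · intro h
      have h1 : c = 1 := by
        apply Subtype.ext
        apply Subtype.ext
        exact h
      rw [h1, orderOf_one] at hc
      omega
  have pres : ∀ c : ↥(Cfsg.SU n F q), ∀ u v, Cfsg.hermForm n F q
      (Matrix.mulVec ((c : Matrix.SpecialLinearGroup (Fin n) F) : Matrix (Fin n) (Fin n) F) u)
      (Matrix.mulVec ((c : Matrix.SpecialLinearGroup (Fin n) F) : Matrix (Fin n) (Fin n) F) v)
      = Cfsg.hermForm n F q u v := fun c => c.2
  have s1 : IsConj a b → IsConj (a : Matrix.SpecialLinearGroup (Fin n) F)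
      (b : Matrix.SpecialLinearGroup (Fin n) F) := fun h => MonoidHom.map_isConj (Cfsg.SU n F q).subtype h
  have s2 : IsConj (a : Matrix.SpecialLinearGroup (Fin n) F)
      (b : Matrix.SpecialLinearGroup (Fin n) F) →
      (((a : Matrix.SpecialLinearGroup (Fin n) F) : Matrix (Fin n) (Fin n) F) - 1).rank
        = (((b : Matrix.SpecialLinearGroup (Fin n) F) : Matrix (Fin n) (Fin n) F) - 1).rank := by
    intro h
    obtain ⟨g, hg⟩ := isConj_iff.mp h
    have h1 : g * (a : Matrix.SpecialLinearGroup (Fin n) F)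
        = (b : Matrix.SpecialLinearGroup (Fin n) F) * g := by
      rw [← hg]; group
    have h2 : (g : Matrix (Fin n) (Fin n) F) *
        ((a : Matrix.SpecialLinearGroup (Fin n) F) : Matrix (Fin n) (Fin n) F)
        = ((b : Matrix.SpecialLinearGroup (Fin n) F) : Matrix (Fin n) (Fin n) F) *
          (g : Matrix (Fin n) (Fin n) F) := by
      have := congrArg (fun z : Matrix.SpecialLinearGroup (Fin n) F =>
        (z : Matrix (Fin n) (Fin n) F)) h1
      simpa using this
    have h3 : (g : Matrix (Fin n) (Fin n) F) *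
        (((a : Matrix.SpecialLinearGroup (Fin n) F) : Matrix (Fin n) (Fin n) F) - 1)
        = (((b : Matrix.SpecialLinearGroup (Fin n) F) : Matrix (Fin n) (Fin n) F) - 1) *
          (g : Matrix (Fin n) (Fin n) F) := by
      rw [mul_sub, sub_mul, h2, mul_one, one_mul]
    have hdet : IsUnit (g : Matrix (Fin n) (Fin n) F).det := by rw [g.2]; exact isUnit_one
    rw [← Matrix.rank_mul_eq_right_of_isUnit_det _ _ hdet, h3,
      Matrix.rank_mul_eq_left_of_isUnit_det _ _ hdet]
  have s3 : (((a : Matrix.SpecialLinearGroup (Fin n) F) : Matrix (Fin n) (Fin n) F) - 1).rank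
        = (((b : Matrix.SpecialLinearGroup (Fin n) F) : Matrix (Fin n) (Fin n) F) - 1).rank →
      IsConj a b := by
    intro h
    obtain ⟨g, hg1, hg2, hg3⟩ := Cfsg.Agent.Lib.Helper42SUInv.conj_SU hF n _ _ (pres a) (inv a ha).1
      (pres b) (inv b hb).1 (inv b hb).2 h
    rw [isConj_iff]
    refine ⟨⟨⟨g, hg1⟩, hg2⟩, ?_⟩
    rw [mul_inv_eq_iff_eq_mul]
    apply Subtype.ext
    apply Subtype.ext
    exact hg3
  exact ⟨⟨s1, fun h => s3 (s2 h)⟩, ⟨fun h => s2 (s1 h), s3⟩⟩

end Cfsg.Agent.S2164
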