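import Cfsg.Statements.S2165
-- import your own Cfsg.Agent.* helpers here

set_option autoImplicit false
open Cfsg

namespace Cfsg.Agent.S2165


/-- the swapping map -/
def sw (n ℓ : ℕ) (h2 : 2 * ℓ ≤ n) (i : Fin n) : Fin n :=
  if h : i.val < ℓ then ⟨i.val + (n - ℓ), by omega⟩
  else if h' : n - ℓ ≤ i.val then ⟨i.val - (n - ℓ), by omega⟩ else i

theorem sw_val (n ℓ : ℕ) (h2 : 2 * ℓ ≤ n) (i : Fin n) :
    (sw n ℓ h2 i).val = if i.val < ℓ then i.val + (n - ℓ)
      else if n - ℓ ≤ i.val then i.val - (n - ℓ) else i.val := by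
  unfold sw
  split_ifs <;> rfl

theorem sw_invol (n ℓ : ℕ) (h2 : 2 * ℓ ≤ n) : Function.Involutive (sw n ℓ h2) := by
  intro i
  apply Fin.ext
  rw [sw_val, sw_val]
  have := i.isLt
  split_ifs <;> omega

/-- general facts on the permutation matrix of an involution -/
theorem rank_perm_sub_one {F : Type*} [Field F] {n ℓ : ℕ} (σ : Equiv.Perm (Fin n))
    (hσ : ∀ i, σ (σ i) = i) (g : Fin ℓ → Fin n)
    (hg : ∀ i, σ i = i ∨ (∃ a, i = g a) ∨ (∃ a, σ i = g a))
    (hinj : ∀ a b, g a = g b → a = b) (hdisj : ∀ a b, σ (g a) ≠ g b) :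
    (σ.permMatrix F - 1).rank = ℓ := by
  have hP : ∀ i j, (σ.permMatrix F - 1) i j = (if σ i = j then (1 : F) else 0) - (if i = j then 1 else 0) := by
    intro i j
    simp [Equiv.Perm.permMatrix, PEquiv.toMatrix_apply, Matrix.one_apply, Equiv.toPEquiv_apply, eq_comm]
  apply le_antisymm
  · rw [Matrix.rank_eq_finrank_span_row]
    have hsub : Submodule.span F (Set.range (σ.permMatrix F - 1).row) ≤
        Submodule.span F (Set.range (fun a : Fin ℓ => (σ.permMatrix F - 1).row (g a))) := by
      rw [Submodule.span_le]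
      rintro _ ⟨i, rfl⟩
      rcases hg i with h | ⟨a, rfl⟩ | ⟨a, ha⟩
      · have : (σ.permMatrix F - 1).row i = 0 := by
          ext j
          simp only [Matrix.row, hP, h, sub_self, Pi.zero_apply]
        rw [this]
        exact Submodule.zero_mem _
      · exact Submodule.subset_span ⟨a, rfl⟩
      · have : (σ.permMatrix F - 1).row i = - (σ.permMatrix F - 1).row (g a) := by
          ext j
          simp only [Matrix.row, hP, Pi.neg_apply, ← ha, hσ]
          ring
        rw [this]
        exact Submodule.neg_mem _ (Submodule.subset_span ⟨a, rfl⟩)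
    refine (Submodule.finrank_mono hsub).trans ?_
    exact (finrank_range_le_card _).trans (by simp)
  · have h := Matrix.rank_submatrix_le (σ.permMatrix F - 1) (fun a => σ (g a)) g
    have h1 : (σ.permMatrix F - 1).submatrix (fun a => σ (g a)) g = 1 := by
      ext a b
      simp only [Matrix.submatrix_apply, hP, hσ, Matrix.one_apply, if_neg (hdisj a b), sub_zero]
      by_cases hab : a = b
      · subst hab; simp
      · rw [if_neg hab, if_neg (fun h => hab (hinj a b h))]
    rw [h1, Matrix.rank_one, Fintype.card_fin] at h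
    exact h

/-- In SU_n(q), q even, n ≥ 3 (matrices of determinant 1 over the field with q² elements preserving Σ u_i v_i^q): for every ℓ with 1 ≤ ℓ and 2ℓ ≤ n, the permutation matrix of the involution of {0, …, n−1} exchanging i and n − ℓ + i for each i < ℓ lies in SU_n(q), has order 2, and differs from the identity by a matrix of rank ℓ. So every rank between 1 and n/2 occurs for involutions of SU_n(q). -/
theorem result {F : Type*} [Field F] [Fintype F] [CharP F 2] {n q : ℕ} (hF : Fintype.card F = q ^ 2) (hn : 3 ≤ n) (ℓ : ℕ) (h1 : 1 ≤ ℓ) (h2 : 2 * ℓ ≤ n) :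
    ∃ a : ↥(Cfsg.SU n F q), (((a : Matrix.SpecialLinearGroup (Fin n) F) : Matrix (Fin n) (Fin n) F) = Matrix.of (fun i j : Fin n => if (j.val < ℓ ∧ i.val = j.val + (n - ℓ)) ∨ (i.val < ℓ ∧ j.val = i.val + (n - ℓ)) ∨ (i = j ∧ ℓ ≤ i.val ∧ i.val < n - ℓ) then (1 : F) else 0)) ∧ orderOf a = 2 ∧ ((((a : Matrix.SpecialLinearGroup (Fin n) F) : Matrix (Fin n) (Fin n) F)) - 1).rank = ℓ := by
  let σ : Equiv.Perm (Fin n) := (sw_invol n ℓ h2).toPerm
  have hσv : ∀ i, σ i = sw n ℓ h2 i := fun i => rfl
  have hσσ : ∀ i, σ (σ i) = i := sw_invol n ℓ h2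
  have hdet : (σ.permMatrix F).det = 1 := by
    rw [Matrix.det_permutation]
    rcases Int.units_eq_one_or (Equiv.Perm.sign σ) with h | h
    · simp [h]
    · simp only [h, Units.val_neg, Units.val_one, Int.cast_neg, Int.cast_one]
      exact CharTwo.neg_eq 1
  have hmem : (⟨σ.permMatrix F, hdet⟩ : Matrix.SpecialLinearGroup (Fin n) F) ∈ Cfsg.SU n F q := by
    intro u v
    show Cfsg.hermForm n F q (Matrix.mulVec (σ.permMatrix F) u) (Matrix.mulVec (σ.permMatrix F) v) = Cfsg.hermForm n F q u v
    rw [Matrix.permMatrix_mulVec, Matrix.permMatrix_mulVec]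
    unfold Cfsg.hermForm
    exact Equiv.sum_comp σ (fun i => u i * v i ^ q)
  have hne : σ ⟨0, by omega⟩ ≠ ⟨0, by omega⟩ := by
    intro h
    have := congrArg Fin.val h
    rw [hσv, sw_val] at this
    simp only at this
    split_ifs at this <;> omega
  refine ⟨⟨⟨σ.permMatrix F, hdet⟩, hmem⟩, ?_, ?_, ?_⟩
  · show σ.permMatrix F = _
    ext i j
    simp only [Equiv.Perm.permMatrix, PEquiv.toMatrix_apply, Equiv.toPEquiv_apply, Matrix.of_apply,
      Option.mem_some_iff]
    congr 1
    simp only [eq_iff_iff, hσv, Fin.ext_iff, sw_val]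
    have := i.isLt
    have := j.isLt
    split_ifs <;> omega
  · apply orderOf_eq_prime
    · apply Subtype.ext
      apply Subtype.ext
      show (σ.permMatrix F) ^ 2 = 1
      rw [sq, ← Matrix.permMatrix_mul]
      have : σ * σ = 1 := by ext i; simp [hσσ]
      rw [this, Matrix.permMatrix_one]
    · intro h
      have h3 : σ.permMatrix F = 1 := congrArg (fun x => (x.val.val)) h
      have h5 := congrFun (congrFun h3 ⟨0, by omega⟩) ⟨0, by omega⟩
      simp only [Equiv.Perm.permMatrix, PEquiv.toMatrix_apply, Equiv.toPEquiv_apply,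
        Option.mem_some_iff, Matrix.one_apply, if_true] at h5
      rw [if_neg hne] at h5
      exact zero_ne_one h5
  · show (σ.permMatrix F - 1).rank = ℓ
    apply rank_perm_sub_one σ hσσ (fun a => ⟨a.val, by have := a.isLt; omega⟩)
    · intro i
      by_cases h3 : i.val < ℓ
      · right; left; exact ⟨⟨i.val, h3⟩, rfl⟩
      · by_cases h4 : n - ℓ ≤ i.val
        · right; right
          refine ⟨⟨i.val - (n - ℓ), by have := i.isLt; omega⟩, ?_⟩
          apply Fin.ext
          rw [hσv, sw_val, if_neg h3, if_pos h4]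
        · left
          apply Fin.ext
          rw [hσv, sw_val, if_neg h3, if_neg h4]
    · intro a b h
      have h' := congrArg Fin.val h
      exact Fin.ext h'
    · intro a b h
      have h' := congrArg Fin.val h
      rw [hσv, sw_val] at h'
      simp only at h'
      have := a.isLt
      have := b.isLt
      split_ifs at h' <;> omega

end Cfsg.Agent.S2165
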