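import Cfsg.Statements.S2166
import Cfsg.Agent.Lib.Helper42SpInv

set_option autoImplicit false
open Cfsg

namespace Cfsg.Agent.S2166

/-- Conjugacy of involutions in the symplectic group Sp_{2m}(F), F a finite field of characteristic two, m ≥ 2 (Sp taken as the matrices A with A J Aᵀ = J, acting on column vectors, with the alternating form f(u, v) = u ⬝ (J v)). For an involution t write V(t) for the set of vectors v with f(v, t v) = 0 (a subspace). Two involutions a, b are conjugate in Sp_{2m}(F) exactly when a − 1 and b − 1 have the same rank and, in case that rank is even, V(a) and V(b) have the same number of elements. -/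
theorem result {F : Type*} [Field F] [Fintype F] [CharP F 2] {m : ℕ} (hm : 2 ≤ m) (a b : ↥(Matrix.symplecticGroup (Fin m) F)) (ha : orderOf a = 2) (hb : orderOf b = 2) :
    IsConj a b ↔ ((((a : ↥(Matrix.symplecticGroup (Fin m) F)) : Matrix (Fin m ⊕ Fin m) (Fin m ⊕ Fin m) F) - 1).rank = (((b : ↥(Matrix.symplecticGroup (Fin m) F)) : Matrix (Fin m ⊕ Fin m) (Fin m ⊕ Fin m) F) - 1).rank ∧
      (Even (((a : ↥(Matrix.symplecticGroup (Fin m) F)) : Matrix (Fin m ⊕ Fin m) (Fin m ⊕ Fin m) F) - 1).rank → Nat.card {v : Fin m ⊕ Fin m → F // Cfsg.sympForm m F v (Matrix.mulVec ((a : ↥(Matrix.symplecticGroup (Fin m) F)) : Matrix (Fin m ⊕ Fin m) (Fin m ⊕ Fin m) F) v) = 0} = Nat.card {v : Fin m ⊕ Fin m → F // Cfsg.sympForm m F v (Matrix.mulVec ((b : ↥(Matrix.symplecticGroup (Fin m) F)) : Matrix (Fin m ⊕ Fin m) (Fin m ⊕ Fin m) F) v) = 0})) := by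
  classical
  have ha2 := Cfsg.Agent.Lib.Helper42SpInv.sq_of_order a ha
  have hb2 := Cfsg.Agent.Lib.Helper42SpInv.sq_of_order b hb
  constructor
  · intro hab
    obtain ⟨c, hc⟩ := isConj_iff.mp hab
    have hcm : (c : Matrix (Fin m ⊕ Fin m) (Fin m ⊕ Fin m) F) * (c⁻¹ : Matrix.symplecticGroup (Fin m) F).1 = 1 :=
      congrArg Subtype.val (mul_inv_cancel c)
    have hcm' : (c⁻¹ : Matrix.symplecticGroup (Fin m) F).1 * (c : Matrix (Fin m ⊕ Fin m) (Fin m ⊕ Fin m) F) = 1 :=
      congrArg Subtype.val (inv_mul_cancel c)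
    have hbm : (b : Matrix (Fin m ⊕ Fin m) (Fin m ⊕ Fin m) F)
        = c.1 * a.1 * (c⁻¹ : Matrix.symplecticGroup (Fin m) F).1 := by
      rw [← hc]; rfl
    constructor
    · have h1 : (b : Matrix (Fin m ⊕ Fin m) (Fin m ⊕ Fin m) F) - 1
          = c.1 * (a.1 - 1) * (c⁻¹ : Matrix.symplecticGroup (Fin m) F).1 := by
        rw [hbm, mul_sub, sub_mul, mul_one, hcm]
      have hu1 : IsUnit c.1.det := by
        apply IsUnit.of_mul_eq_one (c⁻¹ : Matrix.symplecticGroup (Fin m) F).1.det
        rw [← Matrix.det_mul, hcm, Matrix.det_one]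
      have hu2 : IsUnit (c⁻¹ : Matrix.symplecticGroup (Fin m) F).1.det := by
        apply IsUnit.of_mul_eq_one c.1.det
        rw [← Matrix.det_mul, hcm', Matrix.det_one]
      rw [h1, Matrix.rank_mul_eq_left_of_isUnit_det _ _ hu2,
        Matrix.rank_mul_eq_right_of_isUnit_det _ _ hu1]
    · intro _
      apply Nat.card_congr
      refine
        { toFun := fun v => ⟨Matrix.mulVec c.1 v.1, ?_⟩
          invFun := fun v => ⟨Matrix.mulVec (c⁻¹ : Matrix.symplecticGroup (Fin m) F).1 v.1, ?_⟩
          left_inv := ?_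
          right_inv := ?_ }
      · rw [hbm, Matrix.mulVec_mulVec, mul_assoc, hcm', mul_one, ← Matrix.mulVec_mulVec,
          (Cfsg.Agent.Lib.Helper17Symp.mem_symplecticGroup_iff_preserves m c.1).mp c.2]
        exact v.2
      · obtain ⟨v, h1⟩ := v
        rw [hbm] at h1
        simp only
        rw [← (Cfsg.Agent.Lib.Helper17Symp.mem_symplecticGroup_iff_preserves m c.1).mp c.2,
          Matrix.mulVec_mulVec, hcm, Matrix.one_mulVec, Matrix.mulVec_mulVec, Matrix.mulVec_mulVec]
        exact h1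
      · intro v
        apply Subtype.ext
        simp only [Matrix.mulVec_mulVec, hcm', Matrix.one_mulVec]
      · intro v
        apply Subtype.ext
        simp only [Matrix.mulVec_mulVec, hcm, Matrix.one_mulVec]
  · rintro ⟨hrank, hcard⟩
    rw [Cfsg.Agent.Lib.Helper42SpInv.rank_eq, Cfsg.Agent.Lib.Helper42SpInv.rank_eq] at hrank
    rw [Cfsg.Agent.Lib.Helper42SpInv.rank_eq] at hcard
    apply Cfsg.Agent.Lib.Helper42SpInv.conj_iff_aux a b ha2 hb2 hrank
    have key : ∀ x : Matrix.symplecticGroup (Fin m) F,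
        (∀ v, Cfsg.Agent.Lib.Helper17Symp.sB m v (Cfsg.Agent.Lib.Helper42SpInv.NN x v) = 0) ↔
        Nat.card {v : Fin m ⊕ Fin m → F // Cfsg.sympForm m F v (Matrix.mulVec x.1 v) = 0}
          = Nat.card (Fin m ⊕ Fin m → F) := by
      intro x
      constructor
      · intro h
        apply Nat.card_congr
        exact Equiv.subtypeUnivEquiv (fun v => by
          rw [← Cfsg.Agent.Lib.Helper42SpInv.gamma_eq]; exact h v)
      · intro h v
        rw [Cfsg.Agent.Lib.Helper42SpInv.gamma_eq]
        by_contra hv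
        have hlt : Nat.card {v : Fin m ⊕ Fin m → F // Cfsg.sympForm m F v (Matrix.mulVec x.1 v) = 0}
            < Nat.card (Fin m ⊕ Fin m → F) := by
          rw [Nat.card_eq_fintype_card, Nat.card_eq_fintype_card]
          exact Fintype.card_subtype_lt hv
        omega
    constructor
    · intro hA
      have he := Cfsg.Agent.Lib.Helper42SpInv.even_rank_of_alt a ha2 hA
      rw [key, ← hcard he, ← key]
      exact hA
    · intro hB
      have he := Cfsg.Agent.Lib.Helper42SpInv.even_rank_of_alt b hb2 hB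
      rw [← hrank] at he
      rw [key, hcard he, ← key]
      exact hB

end Cfsg.Agent.S2166
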