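import Cfsg.Statements.S2167
import Cfsg.Agent.Lib.Helper42SpInv

set_option autoImplicit false
open Cfsg

namespace Cfsg.Agent.S2167

/-- For an involution t of the symplectic group Sp_{2m}(F), m ≥ 2, F a finite field of characteristic two (matrices A with A J Aᵀ = J acting on column vectors, alternating form f(u, v) = u ⬝ (J v)): the set V(t) of vectors v with f(v, t v) = 0 has either q^{2m} or q^{2m−1} elements, q the order of F (it is a subspace of codimension at most 1), and if it is the whole space then t − 1 has even rank. -/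
theorem result {F : Type*} [Field F] [Fintype F] [CharP F 2] {m : ℕ} (hm : 2 ≤ m) (a : ↥(Matrix.symplecticGroup (Fin m) F)) (ha : orderOf a = 2) :
    (Nat.card {v : Fin m ⊕ Fin m → F // Cfsg.sympForm m F v (Matrix.mulVec ((a : ↥(Matrix.symplecticGroup (Fin m) F)) : Matrix (Fin m ⊕ Fin m) (Fin m ⊕ Fin m) F) v) = 0} = Fintype.card F ^ (2 * m) ∨ Nat.card {v : Fin m ⊕ Fin m → F // Cfsg.sympForm m F v (Matrix.mulVec ((a : ↥(Matrix.symplecticGroup (Fin m) F)) : Matrix (Fin m ⊕ Fin m) (Fin m ⊕ Fin m) F) v) = 0} * Fintype.card F = Fintype.card F ^ (2 * m)) ∧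
    ((∀ v : Fin m ⊕ Fin m → F, Cfsg.sympForm m F v (Matrix.mulVec ((a : ↥(Matrix.symplecticGroup (Fin m) F)) : Matrix (Fin m ⊕ Fin m) (Fin m ⊕ Fin m) F) v) = 0) → Even (((a : ↥(Matrix.symplecticGroup (Fin m) F)) : Matrix (Fin m ⊕ Fin m) (Fin m ⊕ Fin m) F) - 1).rank) := by
  classical
  have ha2 := Cfsg.Agent.Lib.Helper42SpInv.sq_of_order a ha
  constructor
  · obtain ⟨L, hL⟩ := Cfsg.Agent.Lib.Helper42Inv.exists_sqrt
      ((Cfsg.Agent.Lib.Helper17Symp.sB (F := F) m).compRight (Cfsg.Agent.Lib.Helper42SpInv.NN a)) (by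
        intro x y
        rw [LinearMap.BilinForm.compRight_apply, LinearMap.BilinForm.compRight_apply,
          ← Cfsg.Agent.Lib.Helper42SpInv.NN_sa a ha2 y x]
        have h := (Cfsg.Agent.Lib.Helper42SpInv.sB_alt (F := F) (m := m)).neg_eq x
          (Cfsg.Agent.Lib.Helper42SpInv.NN a y)
        rw [← h]
        exact (CharTwo.neg_eq _).symm)
    have hset : ∀ v : Fin m ⊕ Fin m → F, Cfsg.sympForm m F v (Matrix.mulVec a.1 v) = 0 ↔
        v ∈ LinearMap.ker L := by
      intro v
      rw [LinearMap.mem_ker, ← Cfsg.Agent.Lib.Helper42SpInv.gamma_eq,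
        ← LinearMap.BilinForm.compRight_apply, ← hL]
      simp
    have hcard : Nat.card {v : Fin m ⊕ Fin m → F // Cfsg.sympForm m F v (Matrix.mulVec a.1 v) = 0}
        = Nat.card (LinearMap.ker L) :=
      Nat.card_congr (Equiv.subtypeEquivRight hset)
    rw [hcard]
    have hk : Nat.card (LinearMap.ker L) = Fintype.card F ^ Module.finrank F (LinearMap.ker L) := by
      rw [Nat.card_eq_fintype_card]
      exact Module.card_eq_pow_finrank
    have hV : Module.finrank F (Fin m ⊕ Fin m → F) = 2 * m := by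
      simp; ring
    by_cases h0 : L = 0
    · left
      rw [hk, h0, LinearMap.ker_zero, finrank_top, hV]
    · right
      have := Module.Dual.finrank_ker_add_one_of_ne_zero h0
      rw [hk, ← pow_succ, this, hV]
  · intro hA
    rw [Cfsg.Agent.Lib.Helper42SpInv.rank_eq]
    apply Cfsg.Agent.Lib.Helper42SpInv.even_rank_of_alt a ha2
    intro v
    rw [Cfsg.Agent.Lib.Helper42SpInv.gamma_eq]
    exact hA v

end Cfsg.Agent.S2167
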