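import Cfsg.Statements.S2172
import Cfsg.Agent.Lib.Helper42OInv2

set_option autoImplicit false
open Cfsg

namespace Cfsg.Agent.S2172

/-- Splitting of involution classes from O to Ω for the hyperbolic quadratic form Q = Σ x_i y_i in dimension 2m over a finite field F of characteristic two, m ≥ 4. Let t, s be involutions of the commutator subgroup Ω that are conjugate in the full isometry group O. If it is not the case that t − 1 has rank m and Q(v + t v) = 0 for every vector v, then t and s are conjugate by an element of Ω. If t − 1 has rank m and Q(v + t v) = 0 for all v, then t and s are conjugate by an element of Ω exactly when the intersection of the images of t − 1 and s − 1 has even dimension (so the class of t in O meets at most two classes of Ω). -/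
theorem result {F : Type*} [Field F] [Fintype F] [CharP F 2] {m : ℕ} (hm : 4 ≤ m) (t s : ↥(Cfsg.isometryGroup F (Cfsg.quadFormPlus m F))) (ht : orderOf t = 2) (hs : orderOf s = 2) (htO : t ∈ Cfsg.Omega F (Cfsg.quadFormPlus m F)) (hsO : s ∈ Cfsg.Omega F (Cfsg.quadFormPlus m F)) (hconj : IsConj t s) :
    (¬ (((((t : ↥(Cfsg.isometryGroup F (Cfsg.quadFormPlus m F))) : GL (Fin m ⊕ Fin m) F) : Matrix (Fin m ⊕ Fin m) (Fin m ⊕ Fin m) F) - 1).rank = m ∧ ∀ v : Fin m ⊕ Fin m → F, Cfsg.quadFormPlus m F (v + Matrix.mulVec (((t : ↥(Cfsg.isometryGroup F (Cfsg.quadFormPlus m F))) : GL (Fin m ⊕ Fin m) F) : Matrix (Fin m ⊕ Fin m) (Fin m ⊕ Fin m) F) v) = 0) →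
      ∃ g ∈ Cfsg.Omega F (Cfsg.quadFormPlus m F), g * t * g⁻¹ = s) ∧
    ((((((t : ↥(Cfsg.isometryGroup F (Cfsg.quadFormPlus m F))) : GL (Fin m ⊕ Fin m) F) : Matrix (Fin m ⊕ Fin m) (Fin m ⊕ Fin m) F) - 1).rank = m ∧ ∀ v : Fin m ⊕ Fin m → F, Cfsg.quadFormPlus m F (v + Matrix.mulVec (((t : ↥(Cfsg.isometryGroup F (Cfsg.quadFormPlus m F))) : GL (Fin m ⊕ Fin m) F) : Matrix (Fin m ⊕ Fin m) (Fin m ⊕ Fin m) F) v) = 0) →
      ((∃ g ∈ Cfsg.Omega F (Cfsg.quadFormPlus m F), g * t * g⁻¹ = s) ↔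
        Even (Module.finrank F ↥(LinearMap.range (Matrix.toLin' ((((t : ↥(Cfsg.isometryGroup F (Cfsg.quadFormPlus m F))) : GL (Fin m ⊕ Fin m) F) : Matrix (Fin m ⊕ Fin m) (Fin m ⊕ Fin m) F) - 1)) ⊓ LinearMap.range (Matrix.toLin' ((((s : ↥(Cfsg.isometryGroup F (Cfsg.quadFormPlus m F))) : GL (Fin m ⊕ Fin m) F) : Matrix (Fin m ⊕ Fin m) (Fin m ⊕ Fin m) F) - 1)))))) := by
  revert t s
  rw [← Cfsg.Agent.Lib.Helper49Forms.coe_QPlus m]
  intro t s ht hs htO hsO hconj
  obtain ⟨g, hg⟩ := isConj_iff.mp hconj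
  have hQ := Cfsg.Agent.Lib.Helper49Rank.QPlus_nondegenerate (F := F) m
  have ht2 := Cfsg.Agent.Lib.Helper42OInv.sq_of_order _ t ht
  have hq : Fintype.card F ≠ 2 ∨ Fintype.card (Fin m ⊕ Fin m) ≠ 4 := by
    right
    simp only [Fintype.card_sum, Fintype.card_fin]
    omega
  have hN : ∀ v : Fin m ⊕ Fin m → F,
      v + Matrix.mulVec ((t : Matrix.GeneralLinearGroup (Fin m ⊕ Fin m) F) : Matrix (Fin m ⊕ Fin m) (Fin m ⊕ Fin m) F) v
        = Cfsg.Agent.Lib.Helper42OInv.NO _ t v := by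
    intro v
    rw [Cfsg.Agent.Lib.Helper42OInv.NO_apply]
    have := Cfsg.Agent.Lib.Helper42OInv.vadd_self v
    have h2 : -v = v := (eq_neg_of_add_eq_zero_left this).symm
    rw [sub_eq_add_neg, h2, add_comm]
  constructor
  · intro hnot
    by_cases hex : ∃ v, Cfsg.Agent.Lib.Helper49Forms.QPlus m F v ≠ 0 ∧
        Matrix.mulVec ((t : Matrix.GeneralLinearGroup (Fin m ⊕ Fin m) F) : Matrix (Fin m ⊕ Fin m) (Fin m ⊕ Fin m) F) v = v
    · obtain ⟨v, hv, htv⟩ := hex
      exact Cfsg.Agent.Lib.Helper42OInv2.conj_in_Omega _ hQ hq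
        (by simp only [Fintype.card_sum, Fintype.card_fin]; omega) t s g hg v hv htv
    · exfalso
      push Not at hex
      have h1 := Cfsg.Agent.Lib.Helper42OInv2.exceptional _ hQ
        (Cfsg.Agent.Lib.Helper49Fam2.finrank_V m) t ht2
        (fun v hv => by
          by_contra h
          exact hex v h hv)
      apply hnot
      refine ⟨h1.2.2.1, fun v => ?_⟩
      rw [hN]
      exact h1.2.2.2 v
  · rintro ⟨hrank, hsing⟩
    have hTS : Cfsg.Agent.Lib.Helper18Hyp.TS (Cfsg.Agent.Lib.Helper49Forms.QPlus m F)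
        (LinearMap.range (Cfsg.Agent.Lib.Helper42OInv.NO _ t)) := by
      rintro _ ⟨v, rfl⟩
      rw [← hN]
      exact hsing v
    have hfin : Module.finrank F (LinearMap.range (Cfsg.Agent.Lib.Helper42OInv.NO
        (Cfsg.Agent.Lib.Helper49Forms.QPlus m F) t)) = m := hrank
    have hmeven : Even m := by
      obtain ⟨k, u, h⟩ := Cfsg.Agent.Lib.Helper42Inv.exists_dat_A
        (QuadraticMap.polarBilin (Cfsg.Agent.Lib.Helper49Forms.QPlus m F)) hQ
        (Cfsg.Agent.Lib.Helper42OInv.NO _ t) (Cfsg.Agent.Lib.Helper42OInv.NO_sa _ t ht2)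
        (fun v => by
          rw [← Cfsg.Agent.Lib.Helper42OInv.Q_NO, ← hN]
          exact hsing v)
      have := h.finrank_range (fun i => Sum.swap_swap i)
      rw [hfin] at this
      rw [this]
      simp
    have key : ∀ g' : ↥(Cfsg.isometryGroup F ⇑(Cfsg.Agent.Lib.Helper49Forms.QPlus m F)),
        g' * t * g'⁻¹ = s → (g' ∈ Cfsg.Omega F ⇑(Cfsg.Agent.Lib.Helper49Forms.QPlus m F) ↔
        Even (Module.finrank F ↥(LinearMap.range (Cfsg.Agent.Lib.Helper42OInv.NO _ t) ⊓
          LinearMap.range (Cfsg.Agent.Lib.Helper42OInv.NO _ s)))) := by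
      intro g' hg'
      rw [Cfsg.Agent.Lib.Helper42OInv2.range_conj _ t s g' hg',
        ← Cfsg.Agent.Lib.Helper49Fam2.even_codim_iff_mem (Or.inr (by omega)) hTS hfin g']
      have hle : Module.finrank F ↥(LinearMap.range (Cfsg.Agent.Lib.Helper42OInv.NO _ t) ⊓
          Cfsg.Agent.Lib.Helper49Fam.img _ g'
            (LinearMap.range (Cfsg.Agent.Lib.Helper42OInv.NO _ t))) ≤ m := by
        exact le_trans (Submodule.finrank_mono inf_le_left) hfin.le
      rw [Nat.even_sub hle]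
      simp [hmeven]
    constructor
    · rintro ⟨g', hg'O, hg'⟩
      exact (key g' hg').mp hg'O
    · intro he
      exact ⟨g, (key g hg).mpr he, hg⟩

end Cfsg.Agent.S2172
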