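import Cfsg.Statements.S2173
import Cfsg.Agent.Lib.Helper42OInv2

set_option autoImplicit false
open Cfsg

namespace Cfsg.Agent.S2173

/-- For the quadratic form Σ x_i y_i + (z₁² + c z₁ z₂ + d z₂²) in dimension 2m with anisotropic binary part over a finite field F of characteristic two, m ≥ 4 (minus type): two involutions of the commutator subgroup Ω that are conjugate in the full isometry group O are conjugate by an element of Ω (no class of involutions of O inside Ω splits). -/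
theorem result {F : Type*} [Field F] [Fintype F] [CharP F 2] {m : ℕ} (hm : 4 ≤ m) (c d : F) (hcd : ∀ z₁ z₂ : F, z₁ ^ 2 + c * z₁ * z₂ + d * z₂ ^ 2 = 0 → z₁ = 0 ∧ z₂ = 0) (t s : ↥(Cfsg.isometryGroup F (Cfsg.quadFormMinus (m - 1) F c d))) (ht : orderOf t = 2) (hs : orderOf s = 2) (htO : t ∈ Cfsg.Omega F (Cfsg.quadFormMinus (m - 1) F c d)) (hsO : s ∈ Cfsg.Omega F (Cfsg.quadFormMinus (m - 1) F c d)) (hconj : IsConj t s) :
    ∃ g ∈ Cfsg.Omega F (Cfsg.quadFormMinus (m - 1) F c d), g * t * g⁻¹ = s := by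
  revert t s
  rw [← Cfsg.Agent.Lib.Helper49Forms.coe_QMinus (m - 1) c d]
  intro t s ht hs htO hsO hconj
  obtain ⟨g, hg⟩ := isConj_iff.mp hconj
  have hQ := Cfsg.Agent.Lib.Helper49Rank.QMinus_nondegenerate (m - 1) hcd
  have hq : Fintype.card F ≠ 2 ∨ Fintype.card ((Fin (m - 1) ⊕ Fin (m - 1)) ⊕ Fin 2) ≠ 4 := by
    right
    simp only [Fintype.card_sum, Fintype.card_fin]
    omega
  by_cases hex : ∃ v, Cfsg.Agent.Lib.Helper49Forms.QMinus (m - 1) F c d v ≠ 0 ∧
      Matrix.mulVec ((t : Matrix.GeneralLinearGroup ((Fin (m - 1) ⊕ Fin (m - 1)) ⊕ Fin 2) F) : Matrix ((Fin (m - 1) ⊕ Fin (m - 1)) ⊕ Fin 2) ((Fin (m - 1) ⊕ Fin (m - 1)) ⊕ Fin 2) F) v = v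
  · obtain ⟨v, hv, htv⟩ := hex
    exact Cfsg.Agent.Lib.Helper42OInv2.conj_in_Omega _ hQ hq (by simp) t s g hg v hv htv
  · exfalso
    push Not at hex
    have h1 := Cfsg.Agent.Lib.Helper42OInv2.exceptional _ hQ
      (Cfsg.Agent.Lib.Helper42OInv2.finrank_minus (m - 1)) t
      (Cfsg.Agent.Lib.Helper42OInv.sq_of_order _ t ht)
      (fun v hv => by
        by_contra h
        exact hex v h hv)
    have h2 := Cfsg.Agent.Lib.Helper42OInv2.TS_minus_le (m - 1) hcd _ h1.1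
    omega

end Cfsg.Agent.S2173
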