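import Cfsg.Statements.S2178
import Cfsg.Agent.Lib.LeadChevCent

set_option autoImplicit false
open Cfsg

namespace Cfsg.Agent.S2178

set_option maxRecDepth 100000

theorem cLong {F : Type*} [Field F] : Cfsg.Agent.Lib.LeadChevCent.CData Cfsg.Lie.chevF4 F 47 3 where
  hr0 := by decide +kernel
  hi0 := by decide +kernel
  comm_pos := by
    have h : ∀ r < 48, Cfsg.Lie.chevF4.IsPosRoot r → Cfsg.Lie.chevF4.commTerms r 47 = [] := by decide +kernel
    intro r hr _ c hc
    rw [h r hr.1 hr] at hc
    simp at hc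
  neg_ne := by decide +kernel
  comm_neg := by
    have h : ∀ i < 4, i ≠ 3 → Cfsg.Lie.chevF4.commTerms (Cfsg.Lie.chevF4.neg (Cfsg.Lie.chevF4.simple i)) 47 = [] := by
      decide +kernel
    intro i hi hne c hc
    rw [h i hi hne] at hc
    simp at hc
  cart0 := by decide +kernel
  cart := by decide +kernel
  refl0 := by decide +kernel
  ne0 := by decide +kernel

theorem cShort {F : Type*} [Field F] [CharP F 2] : Cfsg.Agent.Lib.LeadChevCent.CData Cfsg.Lie.chevF4 F 44 0 where
  hr0 := by decide +kernel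
  hi0 := by decide +kernel
  comm_pos := by
    have h : ∀ r < 48, Cfsg.Lie.chevF4.IsPosRoot r → ∀ c ∈ Cfsg.Lie.chevF4.commTerms r 44, (2 : ℤ) ∣ c.2.1 := by
      decide +kernel
    intro r hr _ c hc
    exact (CharP.intCast_eq_zero_iff F 2 _).2 (by exact_mod_cast h r hr.1 hr c hc)
  neg_ne := by decide +kernel
  comm_neg := by
    have h : ∀ i < 4, i ≠ 0 →
        ∀ c ∈ Cfsg.Lie.chevF4.commTerms (Cfsg.Lie.chevF4.neg (Cfsg.Lie.chevF4.simple i)) 44, (2 : ℤ) ∣ c.2.1 := by
      decide +kernel
    intro i hi hne c hc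
    exact (CharP.intCast_eq_zero_iff F 2 _).2 (by exact_mod_cast h i hi hne c hc)
  cart0 := by decide +kernel
  cart := by decide +kernel
  refl0 := by decide +kernel
  ne0 := by decide +kernel

/-- Centralizers of the long and the short root involutions in the Chevalley group G of type F₄ over a finite field F of characteristic two (this problem's root numbering for type F₄, from the Chevalley data module: fundamental roots p₁, p₂ short, p₃, p₄ long, with indices 33, 27, 25, 24, their negatives 14, 20, 22, 23; highest root 47, highest short root 44; U the subgroup generated by the positive root subgroups). For an element t of G with matrix x_47(1): the centralizer of t in G is the subgroup generated by U and the root subgroups X_{−p₁}, X_{−p₂}, X_{−p₃} (the unipotent radical of the maximal parabolic subgroup whose Levi factor has fundamental roots p₁, p₂, p₃, together with that Levi factor's root subgroups; the Levi factor is of type C₃). For an element u of G with matrix x_44(1): the centralizer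 of u in G is generated by U and X_{−p₂}, X_{−p₃}, X_{−p₄} (the same construction for the Levi factor with fundamental roots p₂, p₃, p₄, of type B₃). -/
theorem result {F : Type*} [Field F] [Fintype F] [CharP F 2] (t u : GL Cfsg.Lie.chevF4.Idx F) (ht : (t : Matrix Cfsg.Lie.chevF4.Idx Cfsg.Lie.chevF4.Idx F) = Cfsg.Lie.chevF4.x F 47 1) (hu : (u : Matrix Cfsg.Lie.chevF4.Idx Cfsg.Lie.chevF4.Idx F) = Cfsg.Lie.chevF4.x F 44 1) :
    Cfsg.Lie.chevF4.group F ⊓ Subgroup.centralizer {t} = Cfsg.Lie.chevF4.posUnipotent F ⊔ Cfsg.Lie.chevF4.rootSubgroup F 14 ⊔ Cfsg.Lie.chevF4.rootSubgroup F 20 ⊔ Cfsg.Lie.chevF4.rootSubgroup F 22 ∧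
    Cfsg.Lie.chevF4.group F ⊓ Subgroup.centralizer {u} = Cfsg.Lie.chevF4.posUnipotent F ⊔ Cfsg.Lie.chevF4.rootSubgroup F 20 ⊔ Cfsg.Lie.chevF4.rootSubgroup F 22 ⊔ Cfsg.Lie.chevF4.rootSubgroup F 23 := by
  constructor
  · rw [Cfsg.Agent.Lib.LeadChevCent.cent_concrete (by simp) cLong t ht,
      Cfsg.Agent.Lib.LeadChevCent.Rc_eq 3 [14, 20, 22]
        (Cfsg.Agent.Lib.LeadChevCent.hL_of_eq 3 _ (by decide +kernel)),
      Cfsg.Agent.Lib.LeadChevCent.closure_list_cons, Cfsg.Agent.Lib.LeadChevCent.closure_list_cons,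
      Cfsg.Agent.Lib.LeadChevCent.closure_list_cons, Cfsg.Agent.Lib.LeadChevCent.closure_list_nil,
      sup_bot_eq, ← sup_assoc, ← sup_assoc]
  · rw [Cfsg.Agent.Lib.LeadChevCent.cent_concrete (by simp) cShort u hu,
      Cfsg.Agent.Lib.LeadChevCent.Rc_eq 0 [20, 22, 23]
        (Cfsg.Agent.Lib.LeadChevCent.hL_of_eq 0 _ (by decide +kernel)),
      Cfsg.Agent.Lib.LeadChevCent.closure_list_cons, Cfsg.Agent.Lib.LeadChevCent.closure_list_cons,
      Cfsg.Agent.Lib.LeadChevCent.closure_list_cons, Cfsg.Agent.Lib.LeadChevCent.closure_list_nil,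
      sup_bot_eq, ← sup_assoc, ← sup_assoc]

end Cfsg.Agent.S2178
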