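import Cfsg.Statements.S2185
import Cfsg.Agent.Lib.Helper22TiH
-- import your own Cfsg.Agent.* helpers here

set_option autoImplicit false
open Cfsg

namespace Cfsg.Agent.S2185

/-- In the group ²F₄(2) (realised inside the Chevalley group of type F₄ over the field with two elements, θ the identity) every element of order 2 lies in the commutator subgroup (the Tits group, of index 2): there are no involutions outside it. -/
theorem result (g : ↥(Cfsg.Lie.twistedF4 (ZMod 2) 1)) (hg : orderOf g = 2) :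
    g ∈ commutator ↥(Cfsg.Lie.twistedF4 (ZMod 2) 1) := by
  have hK : Fintype.card (ZMod 2) = 2 ^ (2 * 0 + 1) := by simp [ZMod.card]
  obtain ⟨θ, fs⟩ := Cfsg.Agent.Lib.Helper22F4.exists_fs hK
  have e : Cfsg.Lie.twistedF4 (ZMod 2) 1 = Cfsg.Agent.Lib.Helper22F4.G1 Cfsg.Lie.chevF4 θ :=
    (Cfsg.Agent.Lib.Helper22F4.G1_eq (Cfsg.Agent.Lib.Helper23All.rel (F := ZMod 2) Cfsg.Agent.Lib.Helper22F4.stdF4) θ
      (e := 1) (fun t => by rw [fs.h0]; rfl) (fun t => by rw [fs.h1]; rfl)).symm
  have key : ∀ (H : Subgroup (GL Cfsg.Lie.chevF4.Idx (ZMod 2))),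
      H = Cfsg.Agent.Lib.Helper22F4.G1 Cfsg.Lie.chevF4 θ → ∀ g : ↥H, orderOf g = 2 → g ∈ commutator ↥H := by
    intro H hH
    subst hH
    exact Cfsg.Agent.Lib.Helper22Ti.main θ fs
  exact key _ e g hg

end Cfsg.Agent.S2185
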