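import Cfsg.Statements.S2186
import Cfsg.Agent.Lib.LeadChevPair

set_option autoImplicit false
open Cfsg

namespace Cfsg.Agent.S2186

open Cfsg.Agent.Lib.LeadChevPair Cfsg.Lie

set_option maxRecDepth 100000

theorem a1 : chkGood chevG2 (fun s => [0, 1, 5, 6, 10, 11].contains s) = true := by decide +kernel
theorem a2 : chkClosed chevG2 (fun s => [0, 1, 5, 6, 10, 11].contains s) = true := by decide +kernel
theorem a3 : chkComm chevG2 = true := by decide +kernel
theorem b1 : chkGood chevD4 (fun _ => true) = true := by decide +kernel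
theorem b2 : chkClosed chevD4 (fun _ => true) = true := by decide +kernel
theorem b3 : chkComm chevD4 = true := by decide +kernel
theorem c1 : chkGood chevE6 (fun _ => true) = true := by decide +kernel
theorem c2 : chkClosed chevE6 (fun _ => true) = true := by decide +kernel
theorem c3 : chkComm chevE6 = true := by decide +kernel
theorem d1 : chkGood chevE7 (fun _ => true) = true := by decide +kernel
theorem d2 : chkClosed chevE7 (fun _ => true) = true := by decide +kernel
theorem d3 : chkComm chevE7 = true := by decide +kernel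
theorem e1 : chkGood chevE8 (fun _ => true) = true := by decide +kernel
theorem e2 : chkClosed chevE8 (fun _ => true) = true := by decide +kernel
theorem e3 : chkComm chevE8 = true := by decide +kernel

theorem checks (D : ChevalleyDatum) (hD : D ∈ [chevG2, chevD4, chevE6, chevE7, chevE8]) :
    ∃ Φ : ℕ → Bool, chkGood D Φ = true ∧ chkClosed D Φ = true ∧ chkComm D = true ∧
      Φ (D.nroots - 1) = true := by
  simp only [List.mem_cons, List.not_mem_nil, or_false] at hD
  rcases hD with rfl | rfl | rfl | rfl | rfl
  · exact ⟨_, a1, a2, a3, by decide +kernel⟩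
  · exact ⟨_, b1, b2, b3, rfl⟩
  · exact ⟨_, c1, c2, c3, rfl⟩
  · exact ⟨_, d1, d2, d3, rfl⟩
  · exact ⟨_, e1, e2, e3, rfl⟩

/-- Let G be the Chevalley group of type G₂ (over a field with at least four elements), D₄, E₆, E₇ or E₈ over a finite field F of characteristic two, and let X be the root subgroup of the highest root (the last root index) — a long root subgroup, of order |F|. For every g in G, the subgroup generated by X and its conjugate g X g⁻¹ is either a 2-group or is conjugate by an element of G to the subgroup generated by X and the root subgroup of the lowest root (index 0, the negative of the highest root), which is a copy of SL₂(F). -/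
theorem result {F : Type*} [Field F] [Fintype F] [CharP F 2] (D : Cfsg.Lie.ChevalleyDatum) (hD : D ∈ [Cfsg.Lie.chevG2, Cfsg.Lie.chevD4, Cfsg.Lie.chevE6, Cfsg.Lie.chevE7, Cfsg.Lie.chevE8]) (hF : D = Cfsg.Lie.chevG2 → 4 ≤ Fintype.card F) (g : GL D.Idx F) (hg : g ∈ D.group F) :
    IsPGroup 2 ↥(D.rootSubgroup F (D.nroots - 1) ⊔ (D.rootSubgroup F (D.nroots - 1)).map (MulAut.conj g).toMonoidHom) ∨
    ∃ h ∈ D.group F, (D.rootSubgroup F (D.nroots - 1) ⊔ (D.rootSubgroup F (D.nroots - 1)).map (MulAut.conj g).toMonoidHom).map (MulAut.conj h).toMonoidHom = D.rootSubgroup F (D.nroots - 1) ⊔ D.rootSubgroup F 0 := by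
  have hD' : D ∈ [Cfsg.Lie.chevG2, Cfsg.Lie.chevB2, Cfsg.Lie.chevD4, Cfsg.Lie.chevF4, Cfsg.Lie.chevE6,
      Cfsg.Lie.chevE7, Cfsg.Lie.chevE8] := by
    simp only [List.mem_cons, List.not_mem_nil, or_false] at hD ⊢
    tauto
  obtain ⟨Φ, h1, h2, h3, h4⟩ := checks D hD
  exact Cfsg.Agent.Lib.LeadChevPair.main 2 hD' Φ h1 h2 h3 h4 g hg

end Cfsg.Agent.S2186
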