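import Cfsg.Statements.S2209
import Cfsg.Agent.Lib.LeadChevCent

set_option autoImplicit false
open Cfsg

namespace Cfsg.Agent.S2209

set_option maxRecDepth 100000

theorem cE6 {F : Type*} [Field F] : Cfsg.Agent.Lib.LeadChevCent.CData Cfsg.Lie.chevE6 F 71 1 where
  hr0 := by decide +kernel
  hi0 := by decide +kernel
  comm_pos := by
    have h : ∀ r < 72, Cfsg.Lie.chevE6.IsPosRoot r → Cfsg.Lie.chevE6.commTerms r 71 = [] := by decide +kernel
    intro r hr _ c hc
    rw [h r hr.1 hr] at hc
    simp at hc
  neg_ne := by decide +kernel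
  comm_neg := by
    have h : ∀ i < 6, i ≠ 1 → Cfsg.Lie.chevE6.commTerms (Cfsg.Lie.chevE6.neg (Cfsg.Lie.chevE6.simple i)) 71 = [] := by
      decide +kernel
    intro i hi hne c hc
    rw [h i hi hne] at hc
    simp at hc
  cart0 := by decide +kernel
  cart := by decide +kernel
  refl0 := by decide +kernel
  ne0 := by decide +kernel

theorem cE7 {F : Type*} [Field F] : Cfsg.Agent.Lib.LeadChevCent.CData Cfsg.Lie.chevE7 F 125 0 where
  hr0 := by decide +kernel
  hi0 := by decide +kernel
  comm_pos := by
    have h : ∀ r < 126, Cfsg.Lie.chevE7.IsPosRoot r → Cfsg.Lie.chevE7.commTerms r 125 = [] := by decide +kernel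
    intro r hr _ c hc
    rw [h r hr.1 hr] at hc
    simp at hc
  neg_ne := by decide +kernel
  comm_neg := by
    have h : ∀ i < 7, i ≠ 0 → Cfsg.Lie.chevE7.commTerms (Cfsg.Lie.chevE7.neg (Cfsg.Lie.chevE7.simple i)) 125 = [] := by
      decide +kernel
    intro i hi hne c hc
    rw [h i hi hne] at hc
    simp at hc
  cart0 := by decide +kernel
  cart := by decide +kernel
  refl0 := by decide +kernel
  ne0 := by decide +kernel

theorem cE8 {F : Type*} [Field F] : Cfsg.Agent.Lib.LeadChevCent.CData Cfsg.Lie.chevE8 F 239 7 where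
  hr0 := by decide +kernel
  hi0 := by decide +kernel
  comm_pos := by
    have h : ∀ r < 240, Cfsg.Lie.chevE8.IsPosRoot r → Cfsg.Lie.chevE8.commTerms r 239 = [] := by decide +kernel
    intro r hr _ c hc
    rw [h r hr.1 hr] at hc
    simp at hc
  neg_ne := by decide +kernel
  comm_neg := by
    have h : ∀ i < 8, i ≠ 7 → Cfsg.Lie.chevE8.commTerms (Cfsg.Lie.chevE8.neg (Cfsg.Lie.chevE8.simple i)) 239 = [] := by
      decide +kernel
    intro i hi hne c hc
    rw [h i hi hne] at hc
    simp at hc
  cart0 := by decide +kernel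
  cart := by decide +kernel
  refl0 := by decide +kernel
  ne0 := by decide +kernel

/-- Centralizer of a long root involution in the Chevalley groups of type E₆, E₇, E₈ over a finite field F of characteristic two. Let G be the group generated by the root elements, U the subgroup generated by the positive root subgroups, r the highest root (the last root index: 71, 125, 239 respectively), and t the element of G with matrix x_r(1). Then the centralizer of t in G is the subgroup generated by U together with the root subgroups X_{−p} for the fundamental roots p orthogonal to r — all fundamental roots except p₂ for E₆, except p₁ for E₇, except p₈ for E₈ (numbering with p₁–p₃–p₄–…–p_l the long chain and p₂ joined to p₄); the indices of these negative fundamental roots are 15, 29, 32, 34, 35 (E₆), 47, 52, 56, 59, 61, 62 (E₇), 77, 98, 104, 109, 113, 116, 118 (E₈). (This is the unipotent radical of the corresponding maximal parabolic subgroup extended by the root subgroups of its Levi factor, of type A₅, D₆, E₇ respectively.) -/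
theorem result {F : Type*} [Field F] [Fintype F] [CharP F 2] (d : Cfsg.Lie.ChevalleyDatum × List ℕ)
    (hd : d ∈ [(Cfsg.Lie.chevE6, [15, 29, 32, 34, 35]), (Cfsg.Lie.chevE7, [47, 52, 56, 59, 61, 62]), (Cfsg.Lie.chevE8, [77, 98, 104, 109, 113, 116, 118])])
    (t : GL d.1.Idx F) (ht : (t : Matrix d.1.Idx d.1.Idx F) = d.1.x F (d.1.nroots - 1) 1) :
    d.1.group F ⊓ Subgroup.centralizer {t} = d.1.posUnipotent F ⊔ Subgroup.closure {g : GL d.1.Idx F | ∃ s ∈ d.2, ∃ c : F, (g : Matrix d.1.Idx d.1.Idx F) = d.1.x F s c} := by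
  simp only [List.mem_cons, List.not_mem_nil, or_false] at hd
  rcases hd with rfl | rfl | rfl
  · rw [Cfsg.Agent.Lib.LeadChevCent.cent_concrete (by simp) cE6 t ht]
    exact Cfsg.Agent.Lib.LeadChevCent.Rc_eq 1 _ (Cfsg.Agent.Lib.LeadChevCent.hL_of_eq 1 _ (by decide +kernel))
  · rw [Cfsg.Agent.Lib.LeadChevCent.cent_concrete (by simp) cE7 t ht]
    exact Cfsg.Agent.Lib.LeadChevCent.Rc_eq 0 _ (Cfsg.Agent.Lib.LeadChevCent.hL_of_eq 0 _ (by decide +kernel))
  · rw [Cfsg.Agent.Lib.LeadChevCent.cent_concrete (by simp) cE8 t ht]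
    exact Cfsg.Agent.Lib.LeadChevCent.Rc_eq 7 _ (Cfsg.Agent.Lib.LeadChevCent.hL_of_eq 7 _ (by decide +kernel))

end Cfsg.Agent.S2209
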