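import Cfsg.Statements.S2222
import Cfsg.Agent.Lib.Helper74SymSylow

set_option autoImplicit false
open Cfsg

namespace Cfsg.Agent.S2222

open Subgroup Cfsg.Agent.Lib.Helper40Sylow Cfsg.Agent.Lib.Helper74Pronormal
  Cfsg.Agent.Lib.Helper74SymSylow

theorem arith : ∀ j ∈ Nat.divisors 60, ∀ h ∈ Nat.divisors j, 4 ∣ h → h = 4 ∨ j = h ∨ j = 60 := by
  decide

/-- In the alternating group of degree n ≥ 5 every subgroup H of odd index is pronormal: for every element g, the subgroups H and gHg⁻¹ are conjugate by an element of the subgroup they generate. -/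
theorem result (n : ℕ) (hn : 5 ≤ n)
    (H : Subgroup (alternatingGroup (Fin n))) (hH : Odd H.index) : Cfsg.IsPronormal H := by
  rw [isPronormal_iff_prn_map]
  have hHA : H.map (alternatingGroup (Fin n)).subtype ≤ alternatingGroup (Fin n) :=
    map_subtype_le _
  have hidx : (H.map (alternatingGroup (Fin n)).subtype).relIndex (alternatingGroup (Fin n)) =
      H.index := by
    rw [Subgroup.relIndex, Subgroup.subgroupOf,
      Subgroup.comap_map_eq_self_of_injective (alternatingGroup (Fin n)).subtype_injective]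
  generalize H.map (alternatingGroup (Fin n)).subtype = H0 at hHA hidx
  obtain ⟨S, hS, -⟩ := exists_isSylowIn_ge (p := 2) (Q := (⊥ : Subgroup (Equiv.Perm (Fin n))))
    (H := H0) IsPGroup.of_bot bot_le
  have hSA : IsSylowIn 2 S (alternatingGroup (Fin n)) := by
    refine ⟨hS.1.trans hHA, hS.2.1, ?_⟩
    rw [← relIndex_mul_relIndex S H0 _ hS.1 hHA, Nat.prime_two.dvd_mul, hidx]
    rintro (h | h)
    · exact hS.2.2 h
    · exact (Nat.not_even_iff_odd.2 hH) (even_iff_two_dvd.2 h)
  intro g hg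
  have hJA : H0 ⊔ cj g H0 ≤ alternatingGroup (Fin n) := by
    apply sup_le hHA
    calc cj g H0 ≤ cj g (alternatingGroup (Fin n)) := cj_mono hHA
      _ = alternatingGroup (Fin n) := cj_normal _ g
  have hSJ : IsSylowIn 2 S (H0 ⊔ cj g H0) := hSA.of_le (hS.1.trans le_sup_left) hJA
  have hSgJ : IsSylowIn 2 (cj g S) (H0 ⊔ cj g H0) := by
    have h1 := hSA.cj g
    rw [cj_normal (alternatingGroup (Fin n))] at h1
    exact h1.of_le ((cj_mono hS.1).trans le_sup_right) hJA
  obtain ⟨y, hy, hye⟩ := hSJ.exists_conj_eq hSgJ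
  rcases Nat.lt_or_ge n 6 with h6 | h6
  · have h5 : n = 5 := by omega
    subst h5
    have hcard : Nat.card (alternatingGroup (Fin 5)) = 60 := by
      rw [nat_card_alternatingGroup, Nat.card_eq_fintype_card, Fintype.card_fin]; rfl
    have hj : Nat.card (H0 ⊔ cj g H0 : Subgroup _) ∈ Nat.divisors 60 := by
      rw [Nat.mem_divisors, ← hcard]
      exact ⟨card_dvd_of_le hJA, Nat.card_pos.ne'⟩
    have hh : Nat.card H0 ∈ Nat.divisors (Nat.card (H0 ⊔ cj g H0 : Subgroup _)) := by
      rw [Nat.mem_divisors]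
      exact ⟨card_dvd_of_le le_sup_left, Nat.card_pos.ne'⟩
    have hS4 : Nat.card S = 4 := by
      rw [hSA.card_eq, hcard]
      have : (60 : ℕ).factorization 2 = 2 := by decide +kernel
      rw [this]; norm_num
    have h4 : 4 ∣ Nat.card H0 := by
      rw [← hS4]; exact card_dvd_of_le hS.1
    rcases arith _ hj _ hh h4 with h | h | h
    · have hSH : S = H0 := eq_of_le_of_card_ge hS.1 (by rw [h, hS4])
      subst hSH
      refine ⟨y⁻¹, inv_mem hy, ?_⟩
      conv_rhs => rw [← hye, cj_inv_cj]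
    · have h1 : H0 = H0 ⊔ cj g H0 := eq_of_le_of_card_ge le_sup_left h.le
      have h2 : cj g H0 ≤ H0 := by
        conv_rhs => rw [h1]
        exact le_sup_right
      exact ⟨1, one_mem _, by rw [cj_eq_of_le h2, cj_one]⟩
    · have h1 : H0 ⊔ cj g H0 = alternatingGroup (Fin 5) :=
        eq_of_le_of_card_ge hJA (by rw [h, hcard])
      exact ⟨g, by rw [h1]; exact hg, rfl⟩
  · refine PAt.of_mul' (y := y⁻¹) (g := y * g) (by group) (inv_mem hy) ?_
    have h1 : y * g ∈ normalizer (S : Set (Equiv.Perm (Fin n))) ⊓ alternatingGroup (Fin n) :=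
      ⟨mem_normalizer_iff_cj.2 (by rw [cj_mul, hye]), mul_mem (hJA hy) hg⟩
    have h2 : y * g ∈ H0 := hS.1 (sna (by rw [Fintype.card_fin]; exact h6) S hSA h1)
    exact ⟨1, one_mem _, by rw [cj_eq_self_of_mem h2, cj_one]⟩

end Cfsg.Agent.S2222
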