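import Cfsg.Statements.S2231
-- import your own Cfsg.Agent.* helpers here

set_option autoImplicit false
open Cfsg

namespace Cfsg.Agent.S2231


/-- all `p`-subgroups are commutative -/
def AbP (p : ℕ) (G : Type*) [Group G] : Prop :=
  ∀ P : Subgroup G, IsPGroup p P → ∀ a ∈ P, ∀ b ∈ P, a * b = b * a

theorem abP_of_injective {p : ℕ} {G H : Type*} [Group G] [Group H] (f : H →* G)
    (hf : Function.Injective f) (h : AbP p G) : AbP p H := by
  intro P hP a ha b hb
  apply hf
  rw [map_mul, map_mul]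
  exact h (P.map f) (hP.map f) _ (Subgroup.mem_map_of_mem f ha) _ (Subgroup.mem_map_of_mem f hb)

theorem abP_of_surjective {p : ℕ} [Fact p.Prime] {G H : Type*} [Group G] [Finite G] [Group H]
    (f : G →* H) (hf : Function.Surjective f) (h : AbP p G) : AbP p H := by
  intro Q hQ a ha b hb
  let f' : Q.comap f →* Q := f.subgroupComap Q
  have hf' : Function.Surjective f' := f.subgroupComap_surjective_of_surjective Q hf
  obtain ⟨S⟩ : Nonempty (Sylow p (Q.comap f)) := Sylow.nonempty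
  have htop : (⊤ : Subgroup Q) = (S.mapSurjective hf' : Subgroup Q) := by
    apply (S.mapSurjective hf').is_maximal' _ le_top
    exact hQ.of_injective (⊤ : Subgroup Q).subtype (Subgroup.subtype_injective _)
  have ha' : (⟨a, ha⟩ : Q) ∈ (S.mapSurjective hf' : Subgroup Q) := htop ▸ Subgroup.mem_top _
  have hb' : (⟨b, hb⟩ : Q) ∈ (S.mapSurjective hf' : Subgroup Q) := htop ▸ Subgroup.mem_top _
  rw [Sylow.coe_mapSurjective] at ha' hb'
  obtain ⟨s, hs, hsa⟩ := ha'
  obtain ⟨t, ht, htb⟩ := hb'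
  have hcomm := h ((S : Subgroup (Q.comap f)).map (Q.comap f).subtype) (S.2.map _)
    _ (Subgroup.mem_map_of_mem _ hs) _ (Subgroup.mem_map_of_mem _ ht)
  have h1 : f (s : G) = a := congrArg Subtype.val hsa
  have h2 : f (t : G) = b := congrArg Subtype.val htb
  rw [← h1, ← h2, ← map_mul, ← map_mul]
  exact congrArg f hcomm

theorem comm_of_fix {K : Type*} [Field K] (g h : Matrix (Fin 2) (Fin 2) K) (hg : g.det = 1)
    (hh : h.det = 1) (v : Fin 2 → K) (hv : v ≠ 0) (hgv : Matrix.mulVec g v = v)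
    (hhv : Matrix.mulVec h v = v) : g * h = h * g := by
  have g0 := congrFun hgv 0
  have g1 := congrFun hgv 1
  have h0 := congrFun hhv 0
  have h1 := congrFun hhv 1
  simp only [Matrix.mulVec, dotProduct, Fin.sum_univ_two] at g0 g1 h0 h1
  rw [Matrix.det_fin_two] at hg hh
  by_cases hv0 : v 0 = 0
  · have hv1 : v 1 ≠ 0 := by
      intro hv1
      apply hv
      ext i
      fin_cases i
      · exact hv0
      · exact hv1
    rw [hv0] at g0 g1 h0 h1
    simp only [mul_zero, zero_add] at g0 g1 h0 h1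
    have e1 : g 0 1 = 0 := by
      rcases mul_eq_zero.mp g0 with h | h
      · exact h
      · exact absurd h hv1
    have e2 : g 1 1 = 1 := mul_right_cancel₀ hv1 (by rw [g1, one_mul])
    have e3 : h 0 1 = 0 := by
      rcases mul_eq_zero.mp h0 with h | h
      · exact h
      · exact absurd h hv1
    have e4 : h 1 1 = 1 := mul_right_cancel₀ hv1 (by rw [h1, one_mul])
    have e5 : g 0 0 = 1 := by rw [e1, e2] at hg; simpa using hg
    have e6 : h 0 0 = 1 := by rw [e3, e4] at hh; simpa using hh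
    ext i j
    fin_cases i <;> fin_cases j <;>
      simp [Matrix.mul_apply, Fin.sum_univ_two, e1, e2, e3, e4, e5, e6]
    exact add_comm _ _
  · set s := v 1 / v 0 with hs
    have hv1 : v 1 = s * v 0 := by rw [hs]; field_simp
    rw [hv1] at g0 g1 h0 h1
    have a1 : g 0 0 = 1 - g 0 1 * s := by
      apply mul_right_cancel₀ hv0
      linear_combination g0
    have a2 : g 1 0 = (1 - g 1 1) * s := by
      apply mul_right_cancel₀ hv0
      linear_combination g1
    have b1 : h 0 0 = 1 - h 0 1 * s := by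
      apply mul_right_cancel₀ hv0
      linear_combination h0
    have b2 : h 1 0 = (1 - h 1 1) * s := by
      apply mul_right_cancel₀ hv0
      linear_combination h1
    have a3 : g 1 1 = 1 + g 0 1 * s := by
      rw [a1, a2] at hg
      linear_combination hg
    have b3 : h 1 1 = 1 + h 0 1 * s := by
      rw [b1, b2] at hh
      linear_combination hh
    rw [a3] at a2
    rw [b3] at b2
    ext i j
    fin_cases i <;> fin_cases j <;>
      simp only [Matrix.mul_apply, Fin.sum_univ_two, Fin.zero_eta, Fin.mk_one, Fin.isValue,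
        a1, a2, a3, b1, b2, b3] <;> ring

/-- the action on column vectors -/
@[instance_reducible] def act {K : Type*} [Field K] (P : Subgroup (Matrix.SpecialLinearGroup (Fin 2) K)) :
    MulAction P (Fin 2 → K) where
  smul g v := Matrix.mulVec (g.1.1) v
  one_smul v := by
    show Matrix.mulVec (1 : Matrix (Fin 2) (Fin 2) K) v = v
    simp
  mul_smul g h v := by
    show Matrix.mulVec (g.1.1 * h.1.1) v = Matrix.mulVec g.1.1 (Matrix.mulVec h.1.1 v)
    rw [Matrix.mulVec_mulVec]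

theorem abP_sl2 {p : ℕ} [Fact p.Prime] {K : Type*} [Field K] [Fintype K] [CharP K p] :
    AbP p (Matrix.SpecialLinearGroup (Fin 2) K) := by
  intro P hP a ha b hb
  let _ := act P
  have hcard : p ∣ Nat.card (Fin 2 → K) := by
    obtain ⟨n, _, hn⟩ := FiniteField.card K p
    rw [Nat.card_eq_fintype_card, Fintype.card_fun, hn, Fintype.card_fin]
    exact dvd_pow (dvd_pow_self p n.ne_zero) two_ne_zero
  have hfix : (0 : Fin 2 → K) ∈ MulAction.fixedPoints P (Fin 2 → K) := by
    intro g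
    show Matrix.mulVec (g.1.1) 0 = 0
    simp
  obtain ⟨v, hv, hv0⟩ := hP.exists_fixed_point_of_prime_dvd_card_of_fixed_point (Fin 2 → K) hcard hfix
  apply Subtype.ext
  exact comm_of_fix a.1 b.1 a.2 b.2 v (Ne.symm hv0) (hv ⟨a, ha⟩) (hv ⟨b, hb⟩)

/-- upper unitriangular matrices -/
def IsUT {p : ℕ} (M : Matrix (Fin 3) (Fin 3) (ZMod p)) : Prop :=
  M 0 0 = 1 ∧ M 1 1 = 1 ∧ M 2 2 = 1 ∧ M 1 0 = 0 ∧ M 2 0 = 0 ∧ M 2 1 = 0

def UT (p : ℕ) : Subgroup (Matrix.SpecialLinearGroup (Fin 3) (ZMod p)) where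
  carrier := {M | IsUT M.1}
  mul_mem' := by
    rintro a b ⟨a1, a2, a3, a4, a5, a6⟩ ⟨b1, b2, b3, b4, b5, b6⟩
    refine ⟨?_, ?_, ?_, ?_, ?_, ?_⟩ <;>
      simp [Matrix.mul_apply, Fin.sum_univ_three, a1, a2, a3, a4, a5, a6, b1, b2, b3, b4, b5, b6]
  one_mem' := by
    refine ⟨?_, ?_, ?_, ?_, ?_, ?_⟩ <;> simp
  inv_mem' := by
    rintro a ⟨a1, a2, a3, a4, a5, a6⟩
    refine ⟨?_, ?_, ?_, ?_, ?_, ?_⟩ <;>
      simp [Matrix.SpecialLinearGroup.coe_inv, Matrix.adjugate_fin_three, a1, a2, a3, a4, a5, a6]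

theorem isPGroup_UT (p : ℕ) [Fact p.Prime] : IsPGroup p (UT p) := by
  rintro ⟨⟨M, hdet⟩, a1, a2, a3, a4, a5, a6⟩
  refine ⟨2, ?_⟩
  apply Subtype.ext
  apply Subtype.ext
  show M ^ p ^ 2 = 1
  simp only at a1 a2 a3 a4 a5 a6
  set N := M - 1 with hN
  have hM : M = 1 + N := by rw [hN]; abel
  have hN3 : N ^ 3 = 0 := by
    have e : ∀ i j, N i j = M i j - (1 : Matrix (Fin 3) (Fin 3) (ZMod p)) i j := fun i j => rfl
    rw [pow_succ, pow_two]
    ext i j
    fin_cases i <;> fin_cases j <;>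
      simp [Matrix.mul_apply, Fin.sum_univ_three, e, a1, a2, a3, a4, a5, a6]
  have hp : 3 ≤ p ^ 2 := by
    have : 2 ≤ p := (Fact.out : p.Prime).two_le
    nlinarith
  rw [hM, add_pow_char_pow_of_commute p 2 (Commute.one_left N), one_pow,
    pow_eq_zero_of_le hp hN3, add_zero]

theorem not_abP_qd (p : ℕ) [Fact p.Prime] : ¬ AbP p ↥(Cfsg.qd p) := by
  intro h
  have hone : (1 : ZMod p) ≠ 0 := one_ne_zero
  let X : Matrix (Fin 3) (Fin 3) (ZMod p) := !![1, 1, 0; 0, 1, 0; 0, 0, 1]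
  let Y : Matrix (Fin 3) (Fin 3) (ZMod p) := !![1, 0, 0; 0, 1, 1; 0, 0, 1]
  have hX : X.det = 1 := by simp [X, Matrix.det_fin_three]
  have hY : Y.det = 1 := by simp [Y, Matrix.det_fin_three]
  let x : Matrix.SpecialLinearGroup (Fin 3) (ZMod p) := ⟨X, hX⟩
  let y : Matrix.SpecialLinearGroup (Fin 3) (ZMod p) := ⟨Y, hY⟩
  have hxq : x ∈ Cfsg.qd p := Subgroup.subset_closure (by
    refine ⟨?_, ?_, ?_⟩ <;> simp [x, X])
  have hyq : y ∈ Cfsg.qd p := Subgroup.subset_closure (by
    refine ⟨?_, ?_, ?_⟩ <;> simp [y, Y])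
  have hxU : x ∈ UT p := by
    refine ⟨?_, ?_, ?_, ?_, ?_, ?_⟩ <;> simp [x, X]
  have hyU : y ∈ UT p := by
    refine ⟨?_, ?_, ?_, ?_, ?_, ?_⟩ <;> simp [y, Y]
  have hP : IsPGroup p ((UT p).subgroupOf (Cfsg.qd p)) :=
    (isPGroup_UT p).comap_subtype
  have hc := h ((UT p).subgroupOf (Cfsg.qd p)) hP ⟨x, hxq⟩ (Subgroup.mem_subgroupOf.mpr hxU)
    ⟨y, hyq⟩ (Subgroup.mem_subgroupOf.mpr hyU)
  have hc' : X * Y = Y * X := congrArg (fun z => z.1.1) hc
  have h02 := congrFun (congrFun hc' 0) 2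
  simp [X, Y, Matrix.mul_apply, Fin.sum_univ_three] at h02

/-- Let p be an odd prime and K a finite field of characteristic p. Then Qd(p) (the natural semidirect product of an elementary abelian group of order p² by SL₂(p)) is not involved in the projective special linear group PSL₂(K). -/
theorem result {p : ℕ} [Fact p.Prime] (hp : p ≠ 2) {K : Type*} [Field K] [Fintype K] [CharP K p] : ¬ Cfsg.Involves ↥(Cfsg.qd p) (Matrix.ProjectiveSpecialLinearGroup (Fin 2) K) := by
  rintro ⟨K₀, R, hN, ⟨e⟩⟩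
  have h1 : AbP p (Matrix.SpecialLinearGroup (Fin 2) K) := abP_sl2
  have h2 : AbP p (Matrix.ProjectiveSpecialLinearGroup (Fin 2) K) :=
    abP_of_surjective (QuotientGroup.mk' _) (QuotientGroup.mk'_surjective _) h1
  have h3 : AbP p K₀ := abP_of_injective K₀.subtype (Subgroup.subtype_injective _) h2
  have h4 : AbP p (K₀ ⧸ R.subgroupOf K₀) :=
    abP_of_surjective (QuotientGroup.mk' _) (QuotientGroup.mk'_surjective _) h3
  have h5 : AbP p ↥(Cfsg.qd p) := abP_of_injective e.symm.toMonoidHom e.symm.injective h4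
  exact not_abP_qd p h5

end Cfsg.Agent.S2231
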