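import Cfsg.Statements.S2232
import Cfsg.Agent.Lib.Helper50TI
import Cfsg.Agent.Lib.Helper50TISU
import Cfsg.Agent.Lib.Helper50TIQd

set_option autoImplicit false
open Cfsg

namespace Cfsg.Agent.S2232

open Cfsg.Agent.Lib.Helper50TI Cfsg.Agent.Lib.Helper50TISU Cfsg.Agent.Lib.Helper50TIQd


/-- Let p be an odd prime, q a power of p and K a finite field with q² elements. Then Qd(p) (the natural semidirect product of an elementary abelian group of order p² by SL₂(p)) is not involved in the projective special unitary group PSU₃(q) realised over K. -/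
theorem result {p : ℕ} [Fact p.Prime] (hp : p ≠ 2) {K : Type*} [Field K] [Fintype K] [CharP K p] (n : ℕ) (hn : 1 ≤ n) (hK : Fintype.card K = (p ^ n) ^ 2) : ¬ Cfsg.Involves ↥(Cfsg.qd p) (Cfsg.PSU 3 K (p ^ n)) := by
  rintro ⟨K₀, R, hN, ⟨e⟩⟩
  have h1 : TI p ↥(Cfsg.SU 3 K (p ^ n)) := ti_su3 hp n hK
  have h2 : TI p (Cfsg.PSU 3 K (p ^ n)) :=
    h1.of_surjective (QuotientGroup.mk' _) (QuotientGroup.mk'_surjective _)
  have h3 : TI p K₀ := h2.of_injective K₀.subtype (Subgroup.subtype_injective _)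
  have h4 : TI p (K₀ ⧸ R.subgroupOf K₀) :=
    h3.of_surjective (QuotientGroup.mk' _) (QuotientGroup.mk'_surjective _)
  have h5 : TI p ↥(Cfsg.qd p) := h4.of_injective e.symm.toMonoidHom e.symm.injective
  exact not_ti_qd p hp h5

end Cfsg.Agent.S2232
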