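import Cfsg.Statements.S2239
import Cfsg.Agent.Lib.Helper8SzSub

set_option autoImplicit false
open Cfsg

namespace Cfsg.Agent.S2239


open Cfsg.Agent.Lib.Helper8SzSub

/-- Subfield subgroups of the Suzuki group: let q = 2^(2m+1) and s = 2^(2k+1) with m, k ≥ 1 and 2k+1 dividing 2m+1 (so q is a power of s), both groups realised as stabilisers in SL₄ of the Suzuki–Tits ovoid. Then Sz(q) has a subgroup isomorphic to Sz(s), and any two subgroups of Sz(q) isomorphic to Sz(s) are conjugate. -/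
theorem result {F : Type*} [Field F] [Fintype F] {m : ℕ} (hm : 1 ≤ m) (hF : Fintype.card F = 2 ^ (2 * m + 1)) {K : Type*} [Field K] [Fintype K] {k : ℕ} (hk : 1 ≤ k) (hK : Fintype.card K = 2 ^ (2 * k + 1)) (hdiv : 2 * k + 1 ∣ 2 * m + 1) :
    (∃ S : Subgroup ↥(Cfsg.Sz F m), Nonempty (↥S ≃* ↥(Cfsg.Sz K k))) ∧
    ∀ S₁ S₂ : Subgroup ↥(Cfsg.Sz F m), Nonempty (↥S₁ ≃* ↥(Cfsg.Sz K k)) → Nonempty (↥S₂ ≃* ↥(Cfsg.Sz K k)) →
      ∃ g : ↥(Cfsg.Sz F m), S₂ = S₁.map (MulAut.conj g).toMonoidHom := by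
  constructor
  · obtain ⟨ι⟩ := exists_iota hK hF hdiv
    exact ⟨(Emb hK hF hk ι (iota_sg hK hdiv ι)).range,
      ⟨(MonoidHom.ofInjective (Emb_injective hK hF hk ι (iota_sg hK hdiv ι))).symm⟩⟩
  · rintro S₁ S₂ ⟨e₁⟩ ⟨e₂⟩
    have key : ∀ (S : Subgroup ↥(Cfsg.Sz F m)) (e : ↥S ≃* ↥(Cfsg.Sz K k)),
        ∃ (u : ↥(Cfsg.Sz F m)) (ι : K →+* F), ∀ y, y ∈ S ↔
          ∃ x, y = u * Emb hK hF hk ι (iota_sg hK hdiv ι) x * u⁻¹ := by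
      intro S e
      obtain ⟨u, ι, h⟩ := emb_exists hK hF hk hm (S.subtype.comp e.symm.toMonoidHom)
        (Subtype.val_injective.comp e.symm.injective) hdiv
      refine ⟨u, ι, fun y => ⟨fun hy => ⟨e ⟨y, hy⟩, ?_⟩, ?_⟩⟩
      · rw [← h]
        show y = ((e.symm (e ⟨y, hy⟩) : ↥S) : ↥(Cfsg.Sz F m))
        rw [e.symm_apply_apply]
      · rintro ⟨x, rfl⟩
        rw [← h]
        exact (e.symm x).2
    obtain ⟨u₁, ι₁, h₁⟩ := key S₁ e₁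
    obtain ⟨u₂, ι₂, h₂⟩ := key S₂ e₂
    refine ⟨u₂ * u₁⁻¹, ?_⟩
    ext y
    rw [Subgroup.mem_map]
    constructor
    · intro hy
      obtain ⟨x, rfl⟩ := (h₂ y).1 hy
      obtain ⟨x', hx'⟩ := Emb_range_le hK hF hk ι₂ ι₁ (iota_sg hK hdiv ι₂) (iota_sg hK hdiv ι₁)
        ⟨x, rfl⟩
      refine ⟨u₁ * Emb hK hF hk ι₁ (iota_sg hK hdiv ι₁) x' * u₁⁻¹, (h₁ _).2 ⟨x', rfl⟩, ?_⟩
      show MulAut.conj (u₂ * u₁⁻¹) _ = _
      rw [MulAut.conj_apply, hx']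
      group
    · rintro ⟨s, hs, rfl⟩
      obtain ⟨x', rfl⟩ := (h₁ s).1 hs
      obtain ⟨x, hx⟩ := Emb_range_le hK hF hk ι₁ ι₂ (iota_sg hK hdiv ι₁) (iota_sg hK hdiv ι₂)
        ⟨x', rfl⟩
      apply (h₂ _).2
      refine ⟨x, ?_⟩
      show MulAut.conj (u₂ * u₁⁻¹) _ = _
      rw [MulAut.conj_apply, hx]
      group

end Cfsg.Agent.S2239
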