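import Cfsg.Statements.S2240
import Cfsg.Agent.Lib.Helper8Sz7

set_option autoImplicit false
open Cfsg

namespace Cfsg.Agent.S2240


open Cfsg.Agent.Lib.Helper8Sz Cfsg.Agent.Lib.Helper8Sz2 Cfsg.Agent.Lib.Helper8Sz3
  Cfsg.Agent.Lib.Helper8Sz4 Cfsg.Agent.Lib.Helper8Sz5 Cfsg.Agent.Lib.Helper8Sz7

theorem forward {F : Type*} [Field F] [Fintype F] {m : ℕ} (hm : 1 ≤ m)
    (hF : Fintype.card F = 2 ^ (2 * m + 1)) (n : ℕ) (hn : 2 ≤ n)
    (E : Subgroup ↥(Cfsg.Sz F m)) (hEA : Cfsg.IsElementaryAbelian 2 E) (hcard : Nat.card ↥E = 2 ^ n)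
    (hTI : ∀ x : ↥(Cfsg.Sz F m), E ⊓ E.map (MulAut.conj x).toMonoidHom ≠ ⊥ →
      x ∈ Subgroup.normalizer (E : Set ↥(Cfsg.Sz F m))) : n ∣ 2 * m + 1 := by
  have : Fact (Nat.Prime 2) := ⟨Nat.prime_two⟩
  have hp : IsPGroup 2 E := IsPGroup.of_card hcard
  obtain ⟨P, hP⟩ := hp.exists_le_sylow
  obtain ⟨k, hk⟩ := sylow_conj hF hm P
  have hform : ∀ x ∈ E, ∃ b : F, x = k * T hF 0 b * k⁻¹ := by
    intro x hx
    obtain ⟨a, b, e⟩ := (hk x).1 (hP hx)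
    have h2 : T hF a b ^ 2 = 1 := by
      rw [← e]
      have : (k⁻¹ * x * k) ^ 2 = k⁻¹ * x ^ 2 * k := by rw [pow_two, pow_two]; group
      rw [this, hEA.2 x hx]; group
    have ha := T_sq_eq_one hF hm h2
    subst ha
    refine ⟨b, ?_⟩
    rw [← e]; group
  have h20 : (2 : F) = 0 := two_eq_zero hF
  let A : AddSubgroup F :=
    { carrier := {b | k * T hF 0 b * k⁻¹ ∈ E}
      add_mem' := by
        intro x y hx hy
        show k * T hF 0 (x + y) * k⁻¹ ∈ E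
        have e : k * T hF 0 (x + y) * k⁻¹ = (k * T hF 0 x * k⁻¹) * (k * T hF 0 y * k⁻¹) := by
          rw [← T0_mul hF hm]; group
        rw [e]; exact E.mul_mem hx hy
      zero_mem' := by
        show k * T hF 0 0 * k⁻¹ ∈ E
        rw [T_zero hF hm]; simp
      neg_mem' := by
        intro x hx
        show k * T hF 0 (-x) * k⁻¹ ∈ E
        have e : -x = x := by linear_combination (-x) * h20
        rw [e]; exact hx }
  have hA : Nat.card A = 2 ^ n := by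
    rw [← hcard]
    apply Nat.card_congr
    refine Equiv.ofBijective (fun b => ⟨k * T hF 0 b.1 * k⁻¹, b.2⟩) ⟨?_, ?_⟩
    · intro b b' h
      have h1 : k * T hF 0 b.1 * k⁻¹ = k * T hF 0 b'.1 * k⁻¹ := congrArg Subtype.val h
      have h2 : T hF 0 b.1 = T hF 0 b'.1 := mul_left_cancel (mul_right_cancel h1)
      exact Subtype.ext (T_inj hF h2).2
    · intro x
      obtain ⟨b, hb⟩ := hform x.1 x.2
      refine ⟨⟨b, ?_⟩, Subtype.ext hb.symm⟩
      show k * T hF 0 b * k⁻¹ ∈ E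
      rw [← hb]; exact x.2
  apply ti_add_subgroup hF A hA (by omega)
  intro l hl ⟨a, haA, ha0, hla⟩ y
  obtain ⟨c, hc, hcl⟩ := norm2_surj hF hl
  have hconj : ∀ y : F, (k * H hF c hc * k⁻¹) * (k * T hF 0 y * k⁻¹) * (k * H hF c hc * k⁻¹)⁻¹
      = k * T hF 0 (l * y) * k⁻¹ := by
    intro y
    have e : (k * H hF c hc * k⁻¹) * (k * T hF 0 y * k⁻¹) * (k * H hF c hc * k⁻¹)⁻¹
        = k * (H hF c hc * T hF 0 y * (H hF c hc)⁻¹) * k⁻¹ := by group
    rw [e, H_T_H hF hm, mul_zero, hcl]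
  have hx := hTI (k * H hF c hc * k⁻¹) (by
    intro hbot
    have hmem : k * T hF 0 (l * a) * k⁻¹ ∈ E ⊓ E.map (MulAut.conj (k * H hF c hc * k⁻¹)).toMonoidHom := by
      refine ⟨hla, ?_⟩
      refine ⟨k * T hF 0 a * k⁻¹, haA, ?_⟩
      show (k * H hF c hc * k⁻¹) * (k * T hF 0 a * k⁻¹) * (k * H hF c hc * k⁻¹)⁻¹ = _
      exact hconj a
    rw [hbot, Subgroup.mem_bot] at hmem
    have h1 : T hF 0 (l * a) = 1 := by
      have : T hF 0 (l * a) = k⁻¹ * (k * T hF 0 (l * a) * k⁻¹) * k := by group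
      rw [this, hmem]; group
    rw [← T_zero hF hm] at h1
    exact mul_ne_zero hl ha0 (T_inj hF h1).2)
  rw [Subgroup.mem_normalizer_iff] at hx
  have := hx (k * T hF 0 y * k⁻¹)
  rw [hconj] at this
  exact this

theorem backward {F : Type*} [Field F] [Fintype F] {m : ℕ} (hm : 1 ≤ m)
    (hF : Fintype.card F = 2 ^ (2 * m + 1)) (n : ℕ) (hn : 2 ≤ n) (hdvd : n ∣ 2 * m + 1) :
    ∃ E : Subgroup ↥(Cfsg.Sz F m), Cfsg.IsElementaryAbelian 2 E ∧ Nat.card ↥E = 2 ^ n ∧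
      ∀ x : ↥(Cfsg.Sz F m), E ⊓ E.map (MulAut.conj x).toMonoidHom ≠ ⊥ →
        x ∈ Subgroup.normalizer (E : Set ↥(Cfsg.Sz F m)) := by
  obtain ⟨K, hK⟩ := exists_subfield (by omega : n ≠ 0) hF hdvd
  have h20 : (2 : F) = 0 := two_eq_zero hF
  let E : Subgroup (Sz F m) :=
    { carrier := {g | ∃ b ∈ K, g = T hF 0 b}
      mul_mem' := by
        rintro _ _ ⟨b, hb, rfl⟩ ⟨b', hb', rfl⟩
        exact ⟨b + b', K.add_mem hb hb', T0_mul hF hm b b'⟩
      one_mem' := ⟨0, K.zero_mem, (T_zero hF hm).symm⟩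
      inv_mem' := by
        rintro _ ⟨b, hb, rfl⟩
        exact ⟨b, hb, T0_inv hF hm b⟩ }
  have hE : ∀ g, g ∈ E ↔ ∃ b ∈ K, g = T hF 0 b := fun g => Iff.rfl
  refine ⟨E, ⟨⟨⟨?_⟩⟩, ?_⟩, ?_, ?_⟩
  · rintro ⟨_, b, hb, rfl⟩ ⟨_, b', hb', rfl⟩
    apply Subtype.ext
    show T hF 0 b * T hF 0 b' = T hF 0 b' * T hF 0 b
    rw [T0_mul hF hm, T0_mul hF hm, add_comm]
  · rintro _ ⟨b, hb, rfl⟩
    rw [pow_two, T0_mul hF hm, ← T_zero hF hm]
    congr 1
    linear_combination b * h20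
  · rw [← hK]
    apply Nat.card_congr
    symm
    refine Equiv.ofBijective (fun b => ⟨T hF 0 b.1, b.1, b.2, rfl⟩) ⟨?_, ?_⟩
    · intro b b' h
      exact Subtype.ext (T_inj hF (congrArg Subtype.val h)).2
    · rintro ⟨_, b, hb, rfl⟩
      exact ⟨⟨b, hb⟩, rfl⟩
  · intro x hne
    obtain ⟨g, hg, hg1⟩ : ∃ g ∈ E ⊓ E.map (MulAut.conj x).toMonoidHom, g ≠ 1 := by
      by_contra hcon
      push Not at hcon
      exact hne ((Subgroup.eq_bot_iff_forall _).2 hcon)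
    obtain ⟨⟨b, hb, rfl⟩, ⟨_, ⟨b', hb', rfl⟩, e⟩⟩ := hg
    have e' : x * T hF 0 b' * x⁻¹ = T hF 0 b := e
    have hb0 : b ≠ 0 := by
      rintro rfl; exact hg1 (T_zero hF hm)
    have hfix : x • oInf F m = oInf F m := by
      have h1 : T hF 0 b • (x • oInf F m) = x • oInf F m := by
        rw [← e', mul_smul, mul_smul, inv_smul_smul, T_oInf]
      rcases o_cases (x • oInf F m) with h2 | ⟨u, v, h2⟩
      · exact h2
      · rw [h2] at h1
        exact absurd (T_fix hF h1).2 hb0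
    obtain ⟨a1, b1, c, hc, rfl⟩ := stab_one' hF hm hfix
    rw [conj_T0 hF hm] at e'
    have hl := (T_inj hF e').2
    have hb'0 : b' ≠ 0 := by
      rintro rfl; rw [mul_zero] at hl; exact hb0 hl.symm
    have hlK : c ^ 2 * sg m c ∈ K := by
      have : c ^ 2 * sg m c = b * b'⁻¹ := by rw [← hl]; field_simp
      rw [this]; exact K.mul_mem hb (K.inv_mem hb')
    have hl0 : c ^ 2 * sg m c ≠ 0 := mul_ne_zero (pow_ne_zero _ hc) (sg_ne_zero hc)
    rw [Subgroup.mem_normalizer_iff]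
    intro h
    constructor
    · rintro ⟨y, hy, rfl⟩
      rw [conj_T0 hF hm]
      exact ⟨_, K.mul_mem hlK hy, rfl⟩
    · rintro ⟨z, hz, hh⟩
      refine ⟨(c ^ 2 * sg m c)⁻¹ * z, K.mul_mem (K.inv_mem hlK) hz, ?_⟩
      have h3 := conj_T0 hF hm a1 b1 c hc ((c ^ 2 * sg m c)⁻¹ * z)
      rw [mul_inv_cancel_left₀ hl0, ← hh] at h3
      exact (mul_left_cancel (mul_right_cancel h3)).symm

/-- Elementary abelian TI-subgroups of the Suzuki group: let q = 2^(2m+1) with m ≥ 1, the group realised as the stabiliser in SL₄ of the Suzuki–Tits ovoid, and n ≥ 2. There is an elementary abelian 2-subgroup E of order 2^n that is a TI-subgroup (every conjugate of E meeting E nontrivially is E itself) if and only if n divides 2m + 1. -/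
theorem result {F : Type*} [Field F] [Fintype F] {m : ℕ} (hm : 1 ≤ m) (hF : Fintype.card F = 2 ^ (2 * m + 1)) (n : ℕ) (hn : 2 ≤ n) :
    (∃ E : Subgroup ↥(Cfsg.Sz F m), Cfsg.IsElementaryAbelian 2 E ∧ Nat.card ↥E = 2 ^ n ∧
      ∀ x : ↥(Cfsg.Sz F m), E ⊓ E.map (MulAut.conj x).toMonoidHom ≠ ⊥ → x ∈ Subgroup.normalizer (E : Set ↥(Cfsg.Sz F m))) ↔ n ∣ 2 * m + 1 := by
  exact ⟨fun ⟨E, h1, h2, h3⟩ => forward hm hF n hn E h1 h2 h3, backward hm hF n hn⟩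

end Cfsg.Agent.S2240
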