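import Cfsg.Statements.S2249
import Cfsg.Agent.Lib.Helper48ElemTwo
import Cfsg.Agent.Lib.Helper48NormRank
import Cfsg.Agent.Lib.Helper78Sylmonwd
import Cfsg.Agent.Lib.Helper17SylArithGL
import Cfsg.Agent.Lib.H48NrSyl
import Cfsg.Agent.Lib.H48NrConj
import Cfsg.Agent.Lib.H48NrShape
import Cfsg.Agent.Lib.H48NrBound
import Cfsg.Agent.Lib.H48NrLow
import Cfsg.Agent.Lib.H48NrDatum
import Cfsg.Agent.Lib.H48NrIdx
import Cfsg.Agent.Lib.H48NrL2
import Cfsg.Agent.Lib.H48NrCex

set_option autoImplicit false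
open Cfsg

namespace Cfsg.Agent.S2249

open Cfsg.Agent.Lib.Helper48ElemTwo Cfsg.Agent.Lib.Helper48NormRank
  Cfsg.Agent.Lib.Helper58SylDefs Cfsg.Agent.Lib.Helper17SylArith Cfsg.Agent.Lib.H48NrDefs
open Module

theorem two_ne_zero_of_odd {F : Type*} [Field F] [Fintype F] (hF : Odd (Fintype.card F)) :
    (2 : F) ≠ 0 := by
  intro h
  have h2 : ringChar F = 2 := by
    have := ringChar.dvd (R := F) (x := 2) (by exact_mod_cast h)
    rcases (Nat.dvd_prime Nat.prime_two).1 this with h' | h'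
    · exact absurd h' (CharP.ringChar_ne_one)
    · exact h'
  have := FiniteField.even_card_of_char_two h2
  rw [Nat.odd_iff] at hF
  omega

/-- from subgroups of `↥S` to subgroups of `G` -/
theorem nea_map {G : Type*} [Group G] (S : Subgroup G) (E : Subgroup ↥S) (hn : E.Normal)
    (hE : Cfsg.IsElementaryAbelian 2 E) :
    NEA S (E.map S.subtype) ∧ Nat.card (E.map S.subtype) = Nat.card E := by
  refine ⟨⟨?_, ?_, ⟨⟨⟨?_⟩⟩, ?_⟩⟩, ?_⟩
  · rintro _ ⟨a, -, rfl⟩
    exact a.2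
  · rintro s hs _ ⟨a, ha, rfl⟩
    exact ⟨⟨s, hs⟩ * a * ⟨s, hs⟩⁻¹, hn.conj_mem a ha ⟨s, hs⟩, rfl⟩
  · rintro ⟨_, ⟨a, ha, rfl⟩⟩ ⟨_, ⟨b, hb, rfl⟩⟩
    apply Subtype.ext
    exact congrArg (fun x : ↥E => ((x : ↥S) : G)) (hE.1.is_comm.comm ⟨a, ha⟩ ⟨b, hb⟩)
  · rintro _ ⟨a, ha, rfl⟩
    rw [← map_pow, hE.2 a ha, map_one]
  · exact (Nat.card_congr (E.equivMapOfInjective _ (Subgroup.subtype_injective _)).toEquiv).symm

theorem three {F : Type*} [Field F] [Fintype F] (hq : Fintype.card F % 4 = 3) (k j : ℕ) (hj : j ≤ 1)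
    (S : Sylow 2 (GL (Fin (2 * k + j)) F)) :
    (∃ E : Subgroup ↥(S : Subgroup (GL (Fin (2 * k + j)) F)), E.Normal ∧
      Cfsg.IsElementaryAbelian 2 E ∧ 2 ^ (k + j) ≤ Nat.card ↥E) ∧
    ∀ E : Subgroup ↥(S : Subgroup (GL (Fin (2 * k + j)) F)), E.Normal →
      Cfsg.IsElementaryAbelian 2 E → Nat.card ↥E ≤ 2 ^ (k + j) := by
  classical
  have hodd : Odd (Fintype.card F) := by rw [Nat.odd_iff]; omega
  have h2 := two_ne_zero_of_odd hodd
  have hm1 : ¬ IsSquare (-1 : F) := by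
    rw [FiniteField.isSquare_neg_one_iff]
    omega
  obtain ⟨W, z, hz, hcz⟩ := Cfsg.Agent.Lib.H48NrDatum.exists_datum h2 k j hj
  have hidx := Cfsg.Agent.Lib.H48NrIdx.odd_index hq k j hj W z hz hcz
  have hfin : Finite (ZG F) := Nat.finite_of_card_ne_zero (by rw [card_ZG h2]; norm_num)
  constructor
  · obtain ⟨E0, hE0, hcard⟩ := Cfsg.Agent.Lib.H48NrLow.exists_E0 W z hz (ZG F)
      (by rintro x (rfl | rfl) d <;> simp) (by rintro x (rfl | rfl) <;> simp)
    obtain ⟨E, hE1, hE2, hE3⟩ := exists_normal 2 (XX W z) E0 hE0.1 hE0.2.1 hE0.2.2 hidx S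
    refine ⟨E, hE1, hE2, ?_⟩
    rw [hE3, hcard, card_ZG h2, hcz, pow_add]
  · obtain ⟨c, hc⟩ := Cfsg.Agent.Lib.H48NrCex.exists_c hq
    have hne : (-1 : GL (Fin 2) F) ≠ 1 := by
      intro h
      have h3 := congrArg (fun M : GL (Fin 2) F => (M : Matrix (Fin 2) (Fin 2) F) 0 0) h
      simp at h3
      apply h2
      linear_combination -h3
    have hc2 : c * c ≠ 1 := by
      intro h
      apply hne
      rw [← hc]
      have : c ^ 4 = (c * c) * (c * c) := by
        simp only [pow_succ, pow_zero, one_mul, mul_assoc]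
      rw [this, h, one_mul]
    have hc8 : c ^ 8 = 1 := by
      have : c ^ 8 = c ^ 4 * c ^ 4 := by rw [← pow_add]
      rw [this, hc]; simp
    have hC : IsPGroup 2 ((Subgroup.pi Set.univ (fun _ : Fin k => Subgroup.zpowers c)).map W.B) := by
      rintro ⟨_, ⟨a, ha, rfl⟩⟩
      refine ⟨3, ?_⟩
      apply Subtype.ext
      show (W.B a) ^ (2 ^ 3) = 1
      rw [← map_pow]
      have : a ^ (2 ^ 3) = 1 := by
        funext i
        obtain ⟨m, hm⟩ := Subgroup.mem_zpowers_iff.1 (ha i (Set.mem_univ i))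
        show (a i) ^ (2 ^ 3) = 1
        rw [← hm, ← zpow_natCast, ← zpow_mul, mul_comm, zpow_mul, zpow_natCast]
        norm_num [hc8]
      rw [this, map_one]
    have hCX : (Subgroup.pi Set.univ (fun _ : Fin k => Subgroup.zpowers c)).map W.B ≤ XX W z := by
      refine le_trans (le_trans (Subgroup.map_mono ?_) le_sup_left) le_sup_left
      intro x _
      rw [Subgroup.mem_pi]
      intro i _
      exact Subgroup.mem_top _
    obtain ⟨P, hPX, hCP⟩ := Cfsg.Agent.Lib.H48NrSyl.exists_sylow (XX W z) _ hCX hC hidx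
    have hup : NRup (GL (Fin (2 * k + j)) F) (2 ^ (k + j)) := by
      apply Cfsg.Agent.Lib.H48NrConj.nrup_of_one P
      intro E hE
      have hsh := Cfsg.Agent.Lib.H48NrShape.shape W z hz P E hPX c hc2 ?_ hE (ZG F)
        (fun d hd hx => Cfsg.Agent.Lib.H48NrL2.l2 h2 hm1 c d hc hd hx)
      · have := Cfsg.Agent.Lib.H48NrBound.card_le W z hz.sq E (ZG F) hsh
        rwa [card_ZG h2, hcz, ← pow_add] at this
      · intro i
        apply hCP
        refine ⟨_, ?_, rfl⟩
        rw [SetLike.mem_coe, Subgroup.mem_pi]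
        intro l _
        by_cases hl : l = i
        · subst hl
          rw [Pi.mulSingle_eq_same]
          exact Subgroup.mem_zpowers c
        · rw [Pi.mulSingle_eq_of_ne hl]
          exact Subgroup.one_mem _
    intro E hn hE
    obtain ⟨h1, h3⟩ := nea_map (S : Subgroup (GL (Fin (2 * k + j)) F)) E hn hE
    rw [← h3]
    exact hup S _ h1

/-- `{1, -1}` in `Fˣ` -/
def ZU (F : Type*) [Field F] : Subgroup Fˣ where
  carrier := {z | z = 1 ∨ z = -1}
  one_mem' := Or.inl rfl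
  mul_mem' := by
    rintro a b (rfl | rfl) (rfl | rfl) <;> simp
  inv_mem' := by
    rintro a (rfl | rfl)
    · simp
    · right
      rw [inv_eq_iff_mul_eq_one]
      simp

theorem card_ZU {F : Type*} [Field F] (h2 : (2 : F) ≠ 0) : Nat.card (ZU F) = 2 := by
  rw [Nat.card_eq_two_iff]
  refine ⟨⟨1, Or.inl rfl⟩, ⟨-1, Or.inr rfl⟩, ?_, ?_⟩
  · intro h
    have h1 : (1 : Fˣ) = -1 := congrArg Subtype.val h
    have h3 := congrArg (fun M : Fˣ => (M : F)) h1
    simp at h3
    apply h2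
    linear_combination h3
  · ext ⟨z, hz⟩
    simp only [Set.mem_insert_iff, Set.mem_singleton_iff, Set.mem_univ, iff_true]
    rcases hz with h | h
    · left; exact Subtype.ext h
    · right; exact Subtype.ext h

theorem lower_one {F : Type*} [Field F] [Fintype F] (hq : Fintype.card F % 4 = 1) (n : ℕ)
    (S : Sylow 2 (GL (Fin n) F)) :
    ∃ E : Subgroup ↥(S : Subgroup (GL (Fin n) F)), E.Normal ∧
      Cfsg.IsElementaryAbelian 2 E ∧ 2 ^ n ≤ Nat.card ↥E := by
  classical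
  have hodd : Odd (Fintype.card F) := by rw [Nat.odd_iff]; omega
  have h2 := two_ne_zero_of_odd hodd
  have hq1 : 1 < Fintype.card F := Fintype.one_lt_card
  obtain ⟨W, -⟩ := Cfsg.Agent.Lib.Helper78Sylmonwd.exists_wd_mon (F := F) n
  have hfin : Finite (ZU F) := Nat.finite_of_card_ne_zero (by rw [card_ZU h2]; norm_num)
  obtain ⟨E0, hle, hnorm, hel, hcard⟩ := wd_central W 2 (ZU F)
    (by intro z _ d; exact mul_comm _ _) (by rintro z (rfl | rfl) <;> simp)
  have hidx : ¬ 2 ∣ (W.wr ⊤ ⊤).index := by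
    intro hdvd
    have hc := Cfsg.Agent.Lib.Helper73SylWrcard.card_wr W ⊤ ⊤
    rw [Subgroup.card_top, Subgroup.card_top, Nat.card_perm, Nat.card_fin, Nat.card_units,
      Nat.card_eq_fintype_card (α := F)] at hc
    have h1 : 2 ^ ((Fintype.card F - 1).factorization 2 * n + (n.factorial).factorization 2) ∣
        Nat.card (W.wr ⊤ ⊤) := by
      rw [hc, pow_add, pow_mul]
      apply Nat.mul_dvd_mul
      · apply pow_dvd_pow_of_dvd
        exact Nat.ordProj_dvd _ 2
      · exact Nat.ordProj_dvd _ 2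
    have h3 := Nat.mul_dvd_mul h1 hdvd
    rw [Subgroup.card_mul_index, Matrix.card_GL_field, ← pow_succ] at h3
    exact Cfsg.Agent.Lib.Helper17SylArithGL.arith_gl1 _ hq hq1 n h3
  obtain ⟨E, hE1, hE2, hE3⟩ := exists_normal 2 (W.wr ⊤ ⊤) E0 hle hnorm hel hidx S
  refine ⟨E, hE1, hE2, ?_⟩
  rw [hE3, hcard, card_ZU h2]

/-- the action on the natural module -/
noncomputable def rho {F : Type*} [Field F] {n : ℕ} (E : Subgroup (GL (Fin n) F)) :
    ↥E →* Module.End F (Fin n → F) where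
  toFun e := Matrix.toLin' ((e : GL (Fin n) F) : Matrix _ _ F)
  map_one' := by
    simp only [OneMemClass.coe_one, Units.val_one, Matrix.toLin'_one]
    rfl
  map_mul' a b := by
    simp only [Subgroup.coe_mul, Units.val_mul, Matrix.toLin'_mul]
    rfl

theorem upper_one {F : Type*} [Field F] (h2 : (2 : F) ≠ 0) (n : ℕ)
    (E : Subgroup (GL (Fin n) F)) (hE : Cfsg.IsElementaryAbelian 2 E) :
    Nat.card ↥E ≤ 2 ^ n := by
  have hcomm : ∀ a b : ↥E, a * b = b * a := fun a b => hE.1.is_comm.comm a b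
  have hsq : ∀ a : ↥E, a * a = 1 := by
    intro a
    apply Subtype.ext
    have := hE.2 a a.2
    rw [pow_two] at this
    exact this
  have key := card_bound (rho E) hcomm hsq h2 (fun _ => True) 1 ?_ ?_ trivial ?_
  · rwa [pow_one, Module.finrank_fintype_fun_eq_card, Fintype.card_fin] at key
  · intro U _ hbot
    obtain ⟨u, hu, hu0⟩ := Submodule.exists_mem_ne_zero_of_ne_bot hbot
    have hpos : 0 < finrank F U := by
      rw [Module.finrank_pos_iff_exists_ne_zero]
      exact ⟨⟨u, hu⟩, fun h => hu0 (congrArg Subtype.val h)⟩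
    exact hpos
  · intro U a _ _
    exact ⟨trivial, trivial⟩
  · intro a b hab
    apply Subtype.ext
    apply Units.ext
    exact Matrix.toLin'.injective hab

/-- The normal 2-rank of the general linear group over a finite field of odd order q: for n ≥ 1 and S a Sylow 2-subgroup of GL_n(F), the largest rank of an elementary abelian subgroup of S that is normal in S equals n when q ≡ 1 (mod 4) and ⌊(n + 1)/2⌋ when q ≡ 3 (mod 4). -/
theorem result {F : Type*} [Field F] [Fintype F] {q : ℕ} (hF : Fintype.card F = q) (hodd : Odd q) (n : ℕ) (hn : 1 ≤ n) (S : Sylow 2 (Matrix.GeneralLinearGroup (Fin n) F)) :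
    (q % 4 = 1 → ((∃ E : Subgroup ↥(S : Subgroup (Matrix.GeneralLinearGroup (Fin n) F)), E.Normal ∧ Cfsg.IsElementaryAbelian 2 E ∧ 2 ^ (n) ≤ Nat.card ↥E) ∧
      ∀ E : Subgroup ↥(S : Subgroup (Matrix.GeneralLinearGroup (Fin n) F)), E.Normal → Cfsg.IsElementaryAbelian 2 E → Nat.card ↥E ≤ 2 ^ (n))) ∧
    (q % 4 = 3 → ((∃ E : Subgroup ↥(S : Subgroup (Matrix.GeneralLinearGroup (Fin n) F)), E.Normal ∧ Cfsg.IsElementaryAbelian 2 E ∧ 2 ^ ((n + 1) / 2) ≤ Nat.card ↥E) ∧
      ∀ E : Subgroup ↥(S : Subgroup (Matrix.GeneralLinearGroup (Fin n) F)), E.Normal → Cfsg.IsElementaryAbelian 2 E → Nat.card ↥E ≤ 2 ^ ((n + 1) / 2))) := by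
  subst hF
  have h2 := two_ne_zero_of_odd hodd
  constructor
  · intro hq
    refine ⟨lower_one hq n S, fun E hn' hE => ?_⟩
    obtain ⟨h1, h3⟩ := nea_map (S : Subgroup (GL (Fin n) F)) E hn' hE
    rw [← h3]
    exact upper_one h2 n _ h1.2.2
  · intro hq
    obtain ⟨k, j, hj, rfl⟩ : ∃ k j, j ≤ 1 ∧ n = 2 * k + j :=
      ⟨n / 2, n % 2, by omega, by omega⟩
    have : (2 * k + j + 1) / 2 = k + j := by omega
    rw [this]
    exact three hq k j hj S

end Cfsg.Agent.S2249
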