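import Cfsg.Statements.S2250
import Cfsg.Agent.Lib.Helper48ElemTwo
import Cfsg.Agent.Lib.Helper48NormRank
import Cfsg.Agent.Lib.Helper48Symp
import Cfsg.Agent.Lib.Helper17SylSpwd
import Cfsg.Agent.Lib.Helper17SylArith
import Cfsg.Agent.S0245

set_option autoImplicit false
open Cfsg

namespace Cfsg.Agent.S2250

open Cfsg.Agent.Lib.Helper48ElemTwo Cfsg.Agent.Lib.Helper48NormRank Cfsg.Agent.Lib.Helper48Symp
  Cfsg.Agent.Lib.Helper58SylDefs Cfsg.Agent.Lib.Helper17SylArith
open Module

/-- `{1, -1}` in `SL₂` -/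
def ZZ (F : Type*) [Field F] : Subgroup (Matrix.SpecialLinearGroup (Fin 2) F) where
  carrier := {z | z = 1 ∨ z = -1}
  one_mem' := Or.inl rfl
  mul_mem' := by
    rintro a b (rfl | rfl) (rfl | rfl) <;> simp
  inv_mem' := by
    rintro a (rfl | rfl)
    · simp
    · right
      rw [inv_eq_iff_mul_eq_one]
      simp

theorem two_ne_zero_of_odd {F : Type*} [Field F] [Fintype F] (hF : Odd (Fintype.card F)) :
    (2 : F) ≠ 0 := by
  intro h
  have h2 : ringChar F = 2 := by
    have := ringChar.dvd (R := F) (x := 2) (by exact_mod_cast h)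
    rcases (Nat.dvd_prime Nat.prime_two).1 this with h' | h'
    · exact absurd h' (CharP.ringChar_ne_one)
    · exact h'
  have := FiniteField.even_card_of_char_two h2
  rw [Nat.odd_iff] at hF
  omega

theorem card_ZZ {F : Type*} [Field F] (h2 : (2 : F) ≠ 0) : Nat.card (ZZ F) = 2 := by
  rw [Nat.card_eq_two_iff]
  refine ⟨⟨1, Or.inl rfl⟩, ⟨-1, Or.inr rfl⟩, ?_, ?_⟩
  · intro h
    have h1 : (1 : Matrix.SpecialLinearGroup (Fin 2) F) = -1 := congrArg Subtype.val h
    have h3 := congrArg (fun M : Matrix.SpecialLinearGroup (Fin 2) F => (M : Matrix (Fin 2) (Fin 2) F) 0 0) h1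
    simp at h3
    apply h2
    linear_combination h3
  · ext ⟨z, hz⟩
    simp only [Set.mem_insert_iff, Set.mem_singleton_iff, Set.mem_univ, iff_true]
    rcases hz with h | h
    · left; exact Subtype.ext h
    · right; exact Subtype.ext h

theorem lower {F : Type*} [Field F] [Fintype F] (hF : Odd (Fintype.card F)) (n : ℕ)
    (S : Sylow 2 ↥(Matrix.symplecticGroup (Fin n) F)) :
    ∃ E : Subgroup ↥(S : Subgroup ↥(Matrix.symplecticGroup (Fin n) F)), E.Normal ∧
      Cfsg.IsElementaryAbelian 2 E ∧ 2 ^ n ≤ Nat.card ↥E := by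
  classical
  have h2 := two_ne_zero_of_odd hF
  have hq1 : 1 < Fintype.card F := Fintype.one_lt_card
  obtain ⟨W⟩ := Cfsg.Agent.Lib.Helper17SylSpwd.exists_wd_sp (F := F) n
  have hfin : Finite (ZZ F) := Nat.finite_of_card_ne_zero (by rw [card_ZZ h2]; norm_num)
  obtain ⟨E0, hle, hnorm, hel, hcard⟩ := wd_central W 2 (ZZ F)
    (by rintro z (rfl | rfl) d <;> simp) (by rintro z (rfl | rfl) <;> simp)
  have hidx : ¬ 2 ∣ (W.wr ⊤ ⊤).index := by
    intro hdvd
    have hc := Cfsg.Agent.Lib.Helper73SylWrcard.card_wr W ⊤ ⊤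
    rw [Subgroup.card_top, Subgroup.card_top, Nat.card_perm, Nat.card_fin] at hc
    have h1 : 2 ^ (dd (Fintype.card F) * n + (n.factorial).factorization 2) ∣
        Nat.card (W.wr ⊤ ⊤) := by
      rw [hc, pow_add, pow_mul]
      apply Nat.mul_dvd_mul
      · apply pow_dvd_pow_of_dvd
        rw [← card_sl2_val hF]
        exact Nat.ordProj_dvd _ 2
      · exact Nat.ordProj_dvd _ 2
    have h3 := Nat.mul_dvd_mul h1 hdvd
    rw [Subgroup.card_mul_index, Cfsg.Agent.S0245.result rfl n, ← pow_succ] at h3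
    exact arith_sp _ hF hq1 n h3
  obtain ⟨E, hE1, hE2, hE3⟩ := exists_normal 2 (W.wr ⊤ ⊤) E0 hle hnorm hel hidx S
  refine ⟨E, hE1, hE2, ?_⟩
  rw [hE3, hcard, card_ZZ h2]

/-- the action on the natural module -/
noncomputable def rho {F : Type*} [Field F] {n : ℕ} (E : Subgroup ↥(Matrix.symplecticGroup (Fin n) F)) :
    ↥E →* Module.End F (SV n F) where
  toFun e := Matrix.toLin' ((e : ↥(Matrix.symplecticGroup (Fin n) F)) : Matrix _ _ F)
  map_one' := by
    simp only [OneMemClass.coe_one, Matrix.toLin'_one]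
    rfl
  map_mul' a b := by
    simp only [Subgroup.coe_mul, Submonoid.coe_mul, Matrix.toLin'_mul]
    rfl

theorem rho_apply {F : Type*} [Field F] {n : ℕ} (E : Subgroup ↥(Matrix.symplecticGroup (Fin n) F))
    (e : ↥E) (v : SV n F) :
    rho E e v = ((e : ↥(Matrix.symplecticGroup (Fin n) F)) : Matrix _ _ F).mulVec v := rfl

theorem upper' {F : Type*} [Field F] (h2 : (2 : F) ≠ 0) (n : ℕ)
    (E : Subgroup ↥(Matrix.symplecticGroup (Fin n) F)) (hE : Cfsg.IsElementaryAbelian 2 E) :
    Nat.card ↥E ≤ 2 ^ n := by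
  have hinv : ∀ (e : ↥E) (x y : SV n F), Cfsg.sympForm n F (rho E e x) (rho E e y)
      = Cfsg.sympForm n F x y := fun e x y => symp_invariant _ x y
  have hadd : ∀ x y z : SV n F, Cfsg.sympForm n F x (y + z)
      = Cfsg.sympForm n F x y + Cfsg.sympForm n F x z := by
    intro x y z
    rw [← sympB_apply, ← sympB_apply, ← sympB_apply, map_add]
  have hneg : ∀ x y : SV n F, Cfsg.sympForm n F x (-y) = - Cfsg.sympForm n F x y := by
    intro x y
    rw [← sympB_apply, ← sympB_apply, map_neg]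
  have hsm : ∀ (c : F) (x y : SV n F), Cfsg.sympForm n F x (c • y) = c * Cfsg.sympForm n F x y := by
    intro c x y
    rw [← sympB_apply, ← sympB_apply, map_smul, smul_eq_mul]
  have hself : ∀ x : SV n F, Cfsg.sympForm n F x x = 0 := by
    intro x
    have := sympForm_swap x x
    have h3 : (2 : F) * Cfsg.sympForm n F x x = 0 := by linear_combination this
    rcases mul_eq_zero.1 h3 with h | h
    · exact absurd h h2
    · exact h
  have hcomm : ∀ a b : ↥E, a * b = b * a := fun a b => hE.1.is_comm.comm a b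
  have hsq : ∀ a : ↥E, a * a = 1 := by
    intro a
    apply Subtype.ext
    have := hE.2 a a.2
    rw [pow_two] at this
    exact this
  have key := card_bound (rho E) hcomm hsq h2
    (fun U => ∀ u ∈ U, (∀ w ∈ U, Cfsg.sympForm n F u w = 0) → u = 0) 2 ?_ ?_ ?_ ?_
  · rw [finrank_SV, pow_mul'] at key
    exact (Nat.pow_le_pow_iff_left (by norm_num)).1 key
  · intro U hU hbot
    by_contra hlt
    push Not at hlt
    obtain ⟨u, hu, hu0⟩ := Submodule.exists_mem_ne_zero_of_ne_bot hbot
    have hpos : 0 < finrank F U := by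
      rw [Module.finrank_pos_iff_exists_ne_zero]
      exact ⟨⟨u, hu⟩, fun h => hu0 (congrArg Subtype.val h)⟩
    have h1 : finrank F U = 1 := by omega
    apply hu0
    apply hU u hu
    intro w hw
    obtain ⟨c, hc⟩ := exists_smul_eq_of_finrank_eq_one h1 (x := ⟨u, hu⟩)
      (fun h => hu0 (congrArg Subtype.val h)) ⟨w, hw⟩
    have hc' : c • u = w := congrArg Subtype.val hc
    rw [← hc', hsm, hself, mul_zero]
  · intro U a hU hinvU
    constructor
    · intro u hu hw
      rw [mem_Up] at hu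
      apply hU u hu.1
      intro w hwU
      rw [← sup_eq (rho E) hsq h2 U hinvU a, Submodule.mem_sup] at hwU
      obtain ⟨y, hy, z, hz, rfl⟩ := hwU
      rw [hadd, hw y hy, zero_add]
      have hz' := ((mem_Um _ _ _ _).1 hz).2
      have h3 := hinv a u z
      rw [hu.2, hz', hneg] at h3
      have h4 : (2 : F) * Cfsg.sympForm n F u z = 0 := by linear_combination -h3
      rcases mul_eq_zero.1 h4 with h | h
      · exact absurd h h2
      · exact h
    · intro u hu hw
      rw [mem_Um] at hu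
      apply hU u hu.1
      intro w hwU
      rw [← sup_eq (rho E) hsq h2 U hinvU a, Submodule.mem_sup] at hwU
      obtain ⟨y, hy, z, hz, rfl⟩ := hwU
      rw [hadd, hw z hz, add_zero]
      have hy' := ((mem_Up _ _ _ _).1 hy).2
      have h3 := hinv a y u
      rw [hu.2, hy', hneg] at h3
      have h5 := sympForm_swap u y
      have h4 : (2 : F) * Cfsg.sympForm n F y u = 0 := by linear_combination -h3
      rcases mul_eq_zero.1 h4 with h | h
      · exact absurd h h2
      · rw [h5, h, neg_zero]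
  · intro u _ hw
    apply (sympB_nondeg (m := n) (F := F)).1 u
    intro w
    rw [sympB_apply]
    exact hw w Submodule.mem_top
  · intro a b hab
    apply Subtype.ext
    apply Subtype.ext
    exact Matrix.toLin'.injective hab

/-- The normal 2-rank of the symplectic group over a finite field of odd order: for n ≥ 1 and S a Sylow 2-subgroup of Sp_{2n}(F), the largest rank of an elementary abelian subgroup of S that is normal in S equals n. -/
theorem result {F : Type*} [Field F] [Fintype F] (hF : Odd (Fintype.card F)) (n : ℕ) (hn : 1 ≤ n) (S : Sylow 2 ↥(Matrix.symplecticGroup (Fin n) F)) :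
    ((∃ E : Subgroup ↥(S : Subgroup ↥(Matrix.symplecticGroup (Fin n) F)), E.Normal ∧ Cfsg.IsElementaryAbelian 2 E ∧ 2 ^ (n) ≤ Nat.card ↥E) ∧
      ∀ E : Subgroup ↥(S : Subgroup ↥(Matrix.symplecticGroup (Fin n) F)), E.Normal → Cfsg.IsElementaryAbelian 2 E → Nat.card ↥E ≤ 2 ^ (n)) := by
  refine ⟨lower hF n S, fun E _ hE => ?_⟩
  have h2 := two_ne_zero_of_odd hF
  have hc : Nat.card ↥E = Nat.card ↥(E.map (S : Subgroup ↥(Matrix.symplecticGroup (Fin n) F)).subtype) :=
    Nat.card_congr (E.equivMapOfInjective _ (Subgroup.subtype_injective _)).toEquiv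
  rw [hc]
  apply upper' h2
  refine ⟨⟨⟨?_⟩⟩, ?_⟩
  · rintro ⟨_, ⟨a, ha, rfl⟩⟩ ⟨_, ⟨b, hb, rfl⟩⟩
    apply Subtype.ext
    have := congrArg (fun x : ↥E => ((x : ↥(S : Subgroup ↥(Matrix.symplecticGroup (Fin n) F))) : ↥(Matrix.symplecticGroup (Fin n) F))) (hE.1.is_comm.comm ⟨a, ha⟩ ⟨b, hb⟩)
    exact this
  · rintro _ ⟨a, ha, rfl⟩
    rw [← map_pow, hE.2 a ha, map_one]

end Cfsg.Agent.S2250
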