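import Cfsg.Statements.S2251
import Cfsg.Agent.Lib.Helper8SzMax2

set_option autoImplicit false
open Cfsg

namespace Cfsg.Agent.S2251


open Cfsg.Agent.Lib.Helper8Sz Cfsg.Agent.Lib.Helper8Sz3 Cfsg.Agent.Lib.Helper8Sz8
  Cfsg.Agent.Lib.Helper8SzMax Cfsg.Agent.Lib.Helper8SzMax2

/-- The subgroups of the Suzuki group: with q = 2^(2m+1), m ≥ 1, r = 2^m and the group realised as the stabiliser in SL₄ of the Suzuki–Tits ovoid, every proper subgroup is contained in the normalizer of a Sylow 2-subgroup, or in the normalizer of a cyclic subgroup of order q − 1, q + 2r + 1 or q − 2r + 1, or in a subgroup isomorphic to a smaller Suzuki group Sz(s) with s = 2^(2k+1) ≥ 8 and 2k+1 a proper divisor of 2m+1. -/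
theorem result {F : Type*} [Field F] [Fintype F] {m : ℕ} (hm : 1 ≤ m) (hF : Fintype.card F = 2 ^ (2 * m + 1)) (M : Subgroup ↥(Cfsg.Sz F m)) (hM : M ≠ ⊤) :
    (∃ P : Sylow 2 ↥(Cfsg.Sz F m), M ≤ Subgroup.normalizer ((P : Subgroup ↥(Cfsg.Sz F m)) : Set ↥(Cfsg.Sz F m))) ∨
    (∃ U : Subgroup ↥(Cfsg.Sz F m), IsCyclic ↥U ∧ Nat.card ↥U ∈ ({2 ^ (2 * m + 1) - 1, 2 ^ (2 * m + 1) + 2 ^ (m + 1) + 1, 2 ^ (2 * m + 1) - 2 ^ (m + 1) + 1} : Set ℕ) ∧
      M ≤ Subgroup.normalizer (U : Set ↥(Cfsg.Sz F m))) ∨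
    (∃ (K : Type) (_ : Field K) (_ : Fintype K) (k : ℕ), 1 ≤ k ∧ k < m ∧ Fintype.card K = 2 ^ (2 * k + 1) ∧ 2 * k + 1 ∣ 2 * m + 1 ∧
      ∃ S : Subgroup ↥(Cfsg.Sz F m), Nonempty (↥S ≃* ↥(Cfsg.Sz K k)) ∧ M ≤ S) := by
  by_cases hodd : ∀ g ∈ M, ¬ 2 ∣ orderOf g
  · by_cases hbot : M = ⊥
    · left
      have : Fact (Nat.Prime 2) := ⟨Nat.prime_two⟩
      exact ⟨default, by rw [hbot]; exact bot_le⟩
    · right; left
      exact le_normalizer_torus hF hm M M hodd hbot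
        (fun g hg y hy => M.mul_mem (M.mul_mem hg hy) (M.inv_mem hg))
  · push Not at hodd
    obtain ⟨g, hgM, j, hj⟩ := hodd
    have hpos := orderOf_pos g
    have hj0 : 0 < j := by omega
    have hs : orderOf (g ^ j) = 2 := by
      rw [orderOf_pow_of_dvd hj0.ne' ⟨2, by rw [hj]; ring⟩, hj]
      exact Nat.mul_div_cancel _ hj0
    have hsM : g ^ j ∈ M := M.pow_mem hgM j
    obtain ⟨α, hα, -⟩ := invol_fix hF hm hs
    by_cases hfix : ∀ x ∈ M, x • α = α
    · left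
      exact fix_le_normalizer hF hm M α hfix
    · push Not at hfix
      obtain ⟨g₀, hg₀, hmove⟩ := hfix
      by_cases huniq : ∀ s' ∈ M, orderOf s' = 2 → s' • α = α → s' = g ^ j
      · right; left
        exact cyclic_sylow_case hF hm M hs hsM hα huniq hg₀ hmove
      · push Not at huniq
        obtain ⟨s', hs'M, hs', hs'α, hne⟩ := huniq
        right; right
        exact subfield_case hF hm M hM hs' hs hne hs'M hsM hs'α hα hg₀ hmove

end Cfsg.Agent.S2251
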