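import Cfsg.Statements.S2256
import Cfsg.Agent.Lib.Helper98NilAlt
import Cfsg.Agent.Lib.Helper67NilExist
import Cfsg.Agent.Lib.Helper67NilConj

set_option autoImplicit false
open Cfsg

namespace Cfsg.Agent.S2256

/-- Let n ≡ 3 (mod 4) with n ≥ 7. Then every nilpotent subgroup of the alternating group on n letters has order at most 3 times the order of a Sylow 2-subgroup of the alternating group on n − 3 letters; the bound is attained by a nilpotent subgroup isomorphic to the direct product of such a Sylow 2-subgroup with a cyclic group of order 3; and any two nilpotent subgroups of the alternating group attaining the bound are conjugate in it. -/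
theorem result  (n : ℕ) (hn : n % 4 = 3) (h7 : 7 ≤ n)
    (P : Sylow 2 (alternatingGroup (Fin (n - 3)))) :
    (∀ N : Subgroup (alternatingGroup (Fin n)), Group.IsNilpotent N → Nat.card N ≤ 3 * Nat.card P) ∧
    (∃ M : Subgroup (alternatingGroup (Fin n)), Group.IsNilpotent M ∧ Nat.card M = 3 * Nat.card P ∧
      Nonempty (M ≃* (↥(P : Subgroup (alternatingGroup (Fin (n - 3)))) × Multiplicative (ZMod 3)))) ∧
    (∀ N₁ N₂ : Subgroup (alternatingGroup (Fin n)), Group.IsNilpotent N₁ → Group.IsNilpotent N₂ →
      Nat.card N₁ = 3 * Nat.card P → Nat.card N₂ = 3 * Nat.card P →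
      ∃ g : alternatingGroup (Fin n), N₂ = N₁.map (MulAut.conj g).toMonoidHom) := by
  have hP := Cfsg.Agent.Lib.Helper98NilSyl.two_mul_card_sylow_alt (n - 3) (by omega) P
  refine ⟨fun N hN => ?_, Cfsg.Agent.Lib.Helper67NilExist.exist_alt n (by omega) P,
    fun N₁ N₂ h₁ h₂ c₁ c₂ => ?_⟩
  · have e := Cfsg.Agent.Lib.Helper98NilAlt.alt_bound n (by omega) (by omega) (by omega) (by omega) (by omega)
      (by omega) N hN
    rw [Cfsg.Agent.Lib.Helper98NilDefs.B, if_pos hn] at e
    omega
  · exact Cfsg.Agent.Lib.Helper67NilConj.conj_alt n hn h7 N₁ N₂ h₁ h₂ (by omega) (by omega)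

end Cfsg.Agent.S2256
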