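import Cfsg.Statements.S2268

set_option autoImplicit false
open Cfsg

namespace Cfsg.Agent.S2268

open Subgroup MulAction in
theorem frattini {G : Type*} [Group G] [Finite G] {p : ℕ} [Fact p.Prime]
    (P : Sylow p G) (hP : IsMulCommutative (P : Subgroup G)) (Q : Subgroup G) (hQ : Q ≤ (P : Subgroup G))
    (g : G) (hg : g ∈ normalizer (Q : Set G)) :
    ∃ c ∈ centralizer (Q : Set G), c * g ∈ normalizer ((P : Subgroup G) : Set G) := by
  have h1 : (P : Subgroup G) ≤ centralizer (Q : Set G) := by
    intro x hx y hy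
    have := hP.is_comm.comm ⟨x, hx⟩ ⟨y, hQ hy⟩
    exact (congrArg Subtype.val this).symm
  have h2 : ↑(g • P) ≤ centralizer (Q : Set G) := by
    rintro - ⟨z, hz, rfl⟩ y hy
    have hy' : g⁻¹ * y * g ∈ Q := (mem_normalizer_iff''.1 hg y).1 hy
    have := h1 hz _ hy'
    simp only [MulDistribMulAction.toMonoidEnd_apply, MulDistribMulAction.toMonoidHom_apply,
      MulAut.smul_def, MulAut.conj_apply]
    calc y * (g * z * g⁻¹) = g * ((g⁻¹ * y * g) * z) * g⁻¹ := by group
      _ = g * (z * (g⁻¹ * y * g)) * g⁻¹ := by rw [this]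
      _ = g * z * g⁻¹ * y := by group
  obtain ⟨h, hh⟩ :=
    exists_smul_eq (centralizer (Q : Set G)) ((g • P).subtype h2) (P.subtype h1)
  simp_rw [Sylow.smul_subtype, Subgroup.smul_def, smul_smul] at hh
  exact ⟨h, h.2, Sylow.smul_eq_iff_mem_normalizer.mp (Sylow.subtype_injective hh)⟩

/-- Let G be a finite group with an abelian Sylow p-subgroup P and let Q ≤ P. Then N_G(Q) = (N_G(Q) ∩ N_G(P))·C_G(Q), so that N_G(Q)/C_G(Q) is a homomorphic image of the subgroup (N_G(Q) ∩ N_G(P))/C_G(P) of N_G(P)/C_G(P); in particular the order of N_G(Q)/C_G(Q) divides the order of N_G(P)/C_G(P). -/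
theorem result {G : Type*} [Group G] [Finite G] {p : ℕ} [Fact p.Prime]
    (P : Sylow p G) (hP : IsMulCommutative (P : Subgroup G)) (Q : Subgroup G) (hQ : Q ≤ (P : Subgroup G)) :
    Subgroup.normalizer (Q : Set G) =
      (Subgroup.normalizer (Q : Set G) ⊓ Subgroup.normalizer ((P : Subgroup G) : Set G)) ⊔ Subgroup.centralizer (Q : Set G) ∧
    ((Subgroup.centralizer (Q : Set G)).subgroupOf (Subgroup.normalizer (Q : Set G))).index ∣ ((Subgroup.centralizer ((P : Subgroup G) : Set G)).subgroupOf (Subgroup.normalizer ((P : Subgroup G) : Set G))).index := by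
  have hCN : Subgroup.centralizer (Q : Set G) ≤ Subgroup.normalizer (Q : Set G) :=
    Subgroup.centralizer_le_normalizer (Q : Set G)
  have hCNP : Subgroup.centralizer ((P : Subgroup G) : Set G) ≤ Subgroup.normalizer ((P : Subgroup G) : Set G) :=
    Subgroup.centralizer_le_normalizer _
  have hCC : Subgroup.centralizer ((P : Subgroup G) : Set G) ≤ Subgroup.centralizer (Q : Set G) :=
    Subgroup.centralizer_le hQ
  have first : Subgroup.normalizer (Q : Set G) =
      (Subgroup.normalizer (Q : Set G) ⊓ Subgroup.normalizer ((P : Subgroup G) : Set G)) ⊔ Subgroup.centralizer (Q : Set G) := by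
    apply le_antisymm
    · intro g hg
      obtain ⟨c, hc, hcg⟩ := frattini P hP Q hQ g hg
      have : g = c⁻¹ * (c * g) := by group
      rw [this]
      apply Subgroup.mul_mem
      · exact Subgroup.mem_sup_right (Subgroup.inv_mem _ hc)
      · exact Subgroup.mem_sup_left ⟨Subgroup.mul_mem _ (hCN hc) hg, hcg⟩
    · exact sup_le inf_le_left hCN
  refine ⟨first, ?_⟩
  set NQ := Subgroup.normalizer (Q : Set G) with hNQ
  set NP := Subgroup.normalizer ((P : Subgroup G) : Set G) with hNP
  set CQ := Subgroup.centralizer (Q : Set G) with hCQ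
  set CP := Subgroup.centralizer ((P : Subgroup G) : Set G) with hCP
  change CQ.relIndex NQ ∣ CP.relIndex NP
  have hle : NQ ⊓ NP ≤ Subgroup.normalizer (CQ : Set G) := by
    refine inf_le_left.trans ?_
    exact (Subgroup.normal_subgroupOf_iff_le_normalizer hCN).1
      (Subgroup.normal_subgroupOf_centralizer_normalizer (Q : Set G))
  have e1 : CQ.relIndex NQ = CQ.relIndex (NQ ⊓ NP) := by
    have := Subgroup.normal_subgroupOf_of_le_normalizer hle
    have := Subgroup.normal_subgroupOf_sup_of_le_normalizer hle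
    have e := QuotientGroup.quotientInfEquivProdNormalizerQuotient (NQ ⊓ NP) CQ hle
    have e' : CQ.relIndex (NQ ⊓ NP ⊔ CQ) = CQ.relIndex (NQ ⊓ NP) := (Nat.card_congr e.toEquiv).symm
    rw [← first] at e'
    exact e'
  rw [e1]
  have e2 : CQ.relIndex (NQ ⊓ NP) ∣ CP.relIndex (NQ ⊓ NP) := Subgroup.relIndex_dvd_of_le_left _ hCC
  refine e2.trans ?_
  have e3 := Subgroup.relIndex_mul_relIndex CP (NQ ⊓ NP) NP (le_inf (hCC.trans hCN) hCNP) inf_le_right
  exact Dvd.intro _ e3

end Cfsg.Agent.S2268
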