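import Cfsg.Statements.S2269
import Cfsg.Agent.Lib.Helper43Automizer

set_option autoImplicit false
open Cfsg

namespace Cfsg.Agent.S2269

open Subgroup

set_option maxRecDepth 100000 in
theorem a5_sq : ∀ x : Equiv.Perm (Fin 5), Equiv.Perm.sign x = 1 → x ^ 4 = 1 → x ^ 2 = 1 := by decide

theorem a5_case (P : Sylow 2 (alternatingGroup (Fin 5)))
    (hP : IsMulCommutative (P : Subgroup (alternatingGroup (Fin 5)))) :
    ((centralizer ((P : Subgroup (alternatingGroup (Fin 5))) : Set (alternatingGroup (Fin 5)))).subgroupOf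
      (normalizer ((P : Subgroup (alternatingGroup (Fin 5))) : Set (alternatingGroup (Fin 5))))).index = 3 ∧
    IsKleinFour (P : Subgroup (alternatingGroup (Fin 5))) := by
  have hcard : Nat.card (alternatingGroup (Fin 5)) = 60 := by
    rw [nat_card_alternatingGroup]; simp [Nat.factorial]
  have hmul : Nat.card (P : Subgroup (alternatingGroup (Fin 5))) * (P : Subgroup (alternatingGroup (Fin 5))).index = 60 := by
    rw [Subgroup.card_mul_index, hcard]
  have hnd : ¬ 2 ∣ (P : Subgroup (alternatingGroup (Fin 5))).index := P.not_dvd_index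
  obtain ⟨k, hk⟩ := IsPGroup.iff_card.1 P.2
  have hP4 : Nat.card (P : Subgroup (alternatingGroup (Fin 5))) = 4 := by
    rw [hk] at hmul ⊢
    have hk6 : k < 6 := by
      by_contra h
      have : 2 ^ 6 ≤ 2 ^ k := Nat.pow_le_pow_right (by norm_num) (by omega)
      have h2 : 2 ^ k ∣ 60 := Dvd.intro _ hmul
      have := Nat.le_of_dvd (by norm_num) h2
      omega
    interval_cases k <;> omega
  have hidx : (P : Subgroup (alternatingGroup (Fin 5))).index = 15 := by
    rw [hP4] at hmul; omega
  have hK4 : IsKleinFour (P : Subgroup (alternatingGroup (Fin 5))) := by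
    refine ⟨hP4, ?_⟩
    have hne : Monoid.exponent (P : Subgroup (alternatingGroup (Fin 5))) ∣ 2 := by
      apply Monoid.exponent_dvd_of_forall_pow_eq_one
      rintro ⟨⟨x, hx⟩, hxP⟩
      have h4 : (⟨⟨x, hx⟩, hxP⟩ : (P : Subgroup (alternatingGroup (Fin 5)))) ^ 4 = 1 := by
        rw [← hP4]; exact pow_card_eq_one'
      have h4' : x ^ 4 = 1 := by
        have := congrArg (fun y : (P : Subgroup (alternatingGroup (Fin 5))) => ((y : alternatingGroup (Fin 5)) : Equiv.Perm (Fin 5))) h4
        simpa using this
      have h2 := a5_sq x (Equiv.Perm.mem_alternatingGroup.1 hx) h4'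
      apply Subtype.ext; apply Subtype.ext
      simpa using h2
    rcases (Nat.dvd_prime Nat.prime_two).1 hne with h | h
    · exfalso
      have := Monoid.exp_eq_one_iff.1 h
      have h1 := Nat.card_eq_one_iff_unique.2 ⟨this, ⟨1⟩⟩
      omega
    · exact h
  refine ⟨?_, hK4⟩
  set N := normalizer ((P : Subgroup (alternatingGroup (Fin 5))) : Set (alternatingGroup (Fin 5))) with hN
  set C := centralizer ((P : Subgroup (alternatingGroup (Fin 5))) : Set (alternatingGroup (Fin 5))) with hC
  have hPC : (P : Subgroup (alternatingGroup (Fin 5))) ≤ C := P.le_centralizer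
  have hPN : (P : Subgroup (alternatingGroup (Fin 5))) ≤ N := le_normalizer
  have d15 : (C.subgroupOf N).index ∣ 15 := by
    rw [← hidx]
    exact (relIndex_dvd_of_le_left N hPC).trans (relIndex_dvd_index_of_le hPN)
  have d24 : (C.subgroupOf N).index ∣ 24 := by
    let f : N →* Equiv.Perm (P : Subgroup (alternatingGroup (Fin 5))) :=
      (MulAut.toPerm _).comp (P : Subgroup (alternatingGroup (Fin 5))).normalizerMonoidHom
    have hker : f.ker = C.subgroupOf N := by
      rw [← normalizerMonoidHom_ker]
      ext x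
      simp only [f, MonoidHom.mem_ker, MonoidHom.comp_apply]
      constructor
      · intro h
        apply MulEquiv.ext
        intro y
        exact congrArg (fun e => e y) h
      · intro h; rw [h]; rfl
    rw [← hker, Subgroup.index_ker]
    have h24 : Nat.card (Equiv.Perm (P : Subgroup (alternatingGroup (Fin 5)))) = 24 := by
      rw [Nat.card_perm, hP4]; rfl
    rw [← h24]
    exact Subgroup.card_subgroup_dvd_card _
  have d3 : (C.subgroupOf N).index ∣ 3 := by
    have := Nat.dvd_gcd d15 d24
    simpa using this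
  rcases (Nat.dvd_prime Nat.prime_three).1 d3 with h | h
  · exfalso
    have hNC : N ≤ C := relIndex_eq_one.1 h
    have hcompl := MonoidHom.ker_transferSylow_isComplement' P hNC
    have hc := hcompl.card_mul_card
    rw [hP4, hcard] at hc
    have : IsSimpleGroup (alternatingGroup (Fin 5)) := alternatingGroup.isSimpleGroup (by simp)
    rcases (MonoidHom.transferSylow P hNC).normal_ker.eq_bot_or_eq_top with h0 | h0
    · rw [h0] at hc; simp at hc
    · rw [h0, Subgroup.card_top, hcard] at hc; omega
  · exact h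

open Equiv.Perm Cfsg.Agent.Lib.Helper43Automizer

theorem sign_via {α β : Type*} [Fintype α] [DecidableEq α] [Fintype β] [DecidableEq β] (ι : α ↪ β)
    (e : Equiv.Perm α) : sign (viaEmbeddingHom ι e) = sign e := by
  unfold viaEmbeddingHom
  let _ : DecidablePred (fun a => a ∈ Set.range ι.toFun) := fun a => Classical.propDecidable _
  exact sign_extendDomain (p := fun a => a ∈ Set.range ι.toFun) e _

def c6 : Equiv.Perm (Fin 6) := Equiv.swap 0 1 * Equiv.swap 1 2 * Equiv.swap 2 3 * Equiv.swap 4 5
def a6 : Equiv.Perm (Fin 6) := Equiv.swap 0 2 * Equiv.swap 4 5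

theorem c6_facts : sign c6 = 1 ∧ sign a6 = 1 ∧ c6 ^ 4 = 1 ∧ c6⁻¹ ≠ c6 ∧ a6 * c6 * a6⁻¹ = c6⁻¹ := by
  decide

theorem two_case (n : ℕ) (hn : 6 ≤ n) (P : Sylow 2 (alternatingGroup (Fin n)))
    (hP : IsMulCommutative (P : Subgroup (alternatingGroup (Fin n)))) : False := by
  let ι : Fin 6 ↪ Fin n := Fin.castLEEmb hn
  have hφ := viaEmbeddingHom_injective ι
  obtain ⟨h1, h2, h3, h4, h5⟩ := c6_facts
  let c : alternatingGroup (Fin n) := ⟨viaEmbeddingHom ι c6, by rw [mem_alternatingGroup, sign_via, h1]⟩
  let a : alternatingGroup (Fin n) := ⟨viaEmbeddingHom ι a6, by rw [mem_alternatingGroup, sign_via, h2]⟩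
  have e1 : c ^ (2 ^ 2) = 1 := by
    apply Subtype.ext
    simp only [c, SubmonoidClass.mk_pow, OneMemClass.coe_one]
    have : (2 : ℕ) ^ 2 = 4 := by norm_num
    rw [this, ← map_pow, h3, map_one]
  have e2 : c⁻¹ ≠ c := by
    intro h
    apply h4
    apply hφ
    have := congrArg Subtype.val h
    simpa [c] using this
  have e3 : IsConj c c⁻¹ := by
    refine isConj_iff.2 ⟨a, ?_⟩
    apply Subtype.ext
    simp only [c, a, Subgroup.coe_mul, Subgroup.coe_inv]
    rw [← map_inv, ← map_inv, ← map_mul, ← map_mul, h5]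
  have := even_automizer_of_pElement P hP c 2 e1 e2 e3
  exact P.not_dvd_index (this.trans (automizer_dvd_index P hP))

theorem odd_case_big (n : ℕ) {p : ℕ} [Fact p.Prime] (hp : p ≠ 2) (hn : p + 2 ≤ n)
    (P : Sylow p (alternatingGroup (Fin n)))
    (hP : IsMulCommutative (P : Subgroup (alternatingGroup (Fin n)))) :
    2 ∣ ((centralizer ((P : Subgroup (alternatingGroup (Fin n))) : Set (alternatingGroup (Fin n)))).subgroupOf
      (normalizer ((P : Subgroup (alternatingGroup (Fin n))) : Set (alternatingGroup (Fin n))))).index := by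
  have hpp : p.Prime := Fact.out
  let ι : Fin p ↪ Fin n := Fin.castLEEmb (by omega)
  have hφ := viaEmbeddingHom_injective ι
  have hdvd : p ∣ Nat.card (Equiv.Perm (Fin p)) := by
    rw [Nat.card_eq_fintype_card, Fintype.card_perm, Fintype.card_fin]
    exact (Nat.Prime.dvd_factorial hpp).2 le_rfl
  obtain ⟨x0, hx0⟩ := exists_prime_orderOf_dvd_card' p hdvd
  set x : Equiv.Perm (Fin n) := viaEmbeddingHom ι x0 with hx
  have hxo : orderOf x = p := by rw [hx, orderOf_injective _ hφ, hx0]
  have hodd : Odd p := hpp.odd_of_ne_two hp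
  have hsx : sign x = 1 := by
    have h1 : sign x ^ p = 1 := by rw [← map_pow, ← hxo, pow_orderOf_eq_one, map_one]
    rcases Int.units_eq_one_or (sign x) with h | h
    · exact h
    · rw [h, hodd.neg_one_pow] at h1
      exact absurd h1 (by decide)
  let i : Fin n := ⟨p, by omega⟩
  let j : Fin n := ⟨p + 1, by omega⟩
  have hij : i ≠ j := by simp [i, j, Fin.ext_iff]
  have hi : x i = i := by
    rw [hx, viaEmbeddingHom_apply]
    apply viaEmbedding_apply_of_notMem
    rintro ⟨y, hy⟩
    have := congrArg Fin.val hy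
    simp [ι, i] at this
    omega
  have hj : x j = j := by
    rw [hx, viaEmbeddingHom_apply]
    apply viaEmbedding_apply_of_notMem
    rintro ⟨y, hy⟩
    have := congrArg Fin.val hy
    simp [ι, j] at this
    omega
  have hcomm : Equiv.swap i j * x * (Equiv.swap i j)⁻¹ = x := by
    have := Equiv.swap_apply_apply x i j
    rw [hi, hj] at this
    have h2 : Equiv.swap i j * x = x * Equiv.swap i j := by
      nth_rewrite 1 [this]; group
    rw [h2]; group
  let c : alternatingGroup (Fin n) := ⟨x, mem_alternatingGroup.2 hsx⟩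
  have e1 : c ^ (p ^ 1) = 1 := by
    apply Subtype.ext
    simp only [c, SubmonoidClass.mk_pow, OneMemClass.coe_one, pow_one]
    rw [← hxo, pow_orderOf_eq_one]
  have e2 : c⁻¹ ≠ c := by
    intro h
    have h1 : x⁻¹ = x := congrArg Subtype.val h
    have h2 : x ^ 2 = 1 := by
      rw [pow_two]; nth_rewrite 1 [← h1]; exact inv_mul_cancel x
    have h3 := orderOf_dvd_of_pow_eq_one h2
    rw [hxo] at h3
    exact hp ((Nat.prime_dvd_prime_iff_eq hpp Nat.prime_two).1 h3)
  have e3 : IsConj c c⁻¹ := by
    have h0 : IsConj x x⁻¹ := by rw [isConj_iff_cycleType_eq, cycleType_inv]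
    obtain ⟨g, hg⟩ := isConj_iff.1 h0
    rcases Int.units_eq_one_or (sign g) with h | h
    · refine isConj_iff.2 ⟨⟨g, mem_alternatingGroup.2 h⟩, ?_⟩
      apply Subtype.ext
      exact hg
    · refine isConj_iff.2 ⟨⟨g * Equiv.swap i j, mem_alternatingGroup.2 ?_⟩, ?_⟩
      · rw [map_mul, h, sign_swap hij]; decide
      · apply Subtype.ext
        show g * Equiv.swap i j * x * (g * Equiv.swap i j)⁻¹ = x⁻¹
        rw [← hg]
        nth_rewrite 2 [← hcomm]
        group
  exact even_automizer_of_pElement P hP c 1 e1 e2 e3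

theorem odd_case_small (n : ℕ) {p : ℕ} [Fact p.Prime] (hp : p ≠ 2) (hn2 : 2 ≤ n) (hn : n < p + 2)
    (P : Sylow p (alternatingGroup (Fin n))) :
    IsCyclic (P : Subgroup (alternatingGroup (Fin n))) := by
  have hpp : p.Prime := Fact.out
  have hp3 : 3 ≤ p := by
    have := hpp.two_le
    omega
  obtain ⟨k, hk⟩ := IsPGroup.iff_card.1 P.2
  have : Nontrivial (Fin n) := Fin.nontrivial_iff_two_le.2 hn2
  have h1 : p ^ k ∣ n.factorial := by
    rw [← hk]
    refine (Subgroup.card_subgroup_dvd_card _).trans ?_
    have := two_mul_nat_card_alternatingGroup (α := Fin n)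
    rw [Nat.card_perm, Nat.card_fin] at this
    exact Dvd.intro_left _ this
  have hlog : Nat.log p n < 2 := by
    apply Nat.log_lt_of_lt_pow (by omega)
    nlinarith
  rw [hpp.pow_dvd_factorial_iff hlog] at h1
  have h2 : n / p ≤ 1 := by
    have : n / p < 2 := by
      rw [Nat.div_lt_iff_lt_mul hpp.pos]; omega
    omega
  have h3 : k ≤ 1 := by
    simpa using h1.trans (by simpa using h2)
  interval_cases k
  · rw [pow_zero] at hk
    have := (Nat.card_eq_one_iff_unique.1 hk).1
    exact isCyclic_of_subsingleton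
  · exact isCyclic_of_prime_card (p := p) (by simpa using hk)

/-- Let n ≥ 5 and let P be an abelian Sylow p-subgroup of the alternating group A_n. Then N(P)/C(P) (taken in A_n) has even order, or P is cyclic, except when n = 5 and p = 2, where P is a four-group and N(P)/C(P) has order 3. -/
theorem result (n : ℕ) (hn : 5 ≤ n) {p : ℕ} [Fact p.Prime]
    (P : Sylow p (alternatingGroup (Fin n))) (hP : IsMulCommutative (P : Subgroup (alternatingGroup (Fin n)))) :
    (¬ (n = 5 ∧ p = 2) → 2 ∣ ((Subgroup.centralizer ((P : Subgroup (alternatingGroup (Fin n))) : Set (alternatingGroup (Fin n)))).subgroupOf (Subgroup.normalizer ((P : Subgroup (alternatingGroup (Fin n))) : Set (alternatingGroup (Fin n))))).index ∨ IsCyclic (P : Subgroup (alternatingGroup (Fin n)))) ∧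
    ((n = 5 ∧ p = 2) → ((Subgroup.centralizer ((P : Subgroup (alternatingGroup (Fin n))) : Set (alternatingGroup (Fin n)))).subgroupOf (Subgroup.normalizer ((P : Subgroup (alternatingGroup (Fin n))) : Set (alternatingGroup (Fin n))))).index = 3 ∧ IsKleinFour (P : Subgroup (alternatingGroup (Fin n)))) := by
  constructor
  · intro h
    by_cases hp : p = 2
    · subst hp
      exact (two_case n (by omega) P hP).elim
    · by_cases hbig : p + 2 ≤ n
      · exact Or.inl (odd_case_big n hp hbig P hP)
      · exact Or.inr (odd_case_small n hp (by omega) (by omega) P)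
  · rintro ⟨rfl, rfl⟩
    exact a5_case P hP

end Cfsg.Agent.S2269
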