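import Cfsg.Statements.S2280
import Cfsg.Agent.Lib.Helper43RegUnip

set_option autoImplicit false
open Cfsg

namespace Cfsg.Agent.S2280

open Matrix Cfsg.Agent.Lib.Helper43Transv Cfsg.Agent.Lib.Helper43RegUnip

theorem exists_gen (F : Type*) [Field F] [Fintype F] :
    ∃ γ : F, ∀ x : F, x ≠ 0 → ∃ k : ℕ, x = γ ^ (k + 1) := by
  obtain ⟨γ, hγ⟩ := IsCyclic.exists_generator (α := Fˣ)
  refine ⟨γ, fun x hx => ?_⟩
  have h1 := hγ (Units.mk0 x hx)
  rw [← mem_powers_iff_mem_zpowers] at h1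
  obtain ⟨k, hk⟩ := h1
  have hpos : 0 < orderOf γ := orderOf_pos γ
  refine ⟨k + orderOf γ - 1, ?_⟩
  have h2 : k + orderOf γ - 1 + 1 = k + orderOf γ := by omega
  rw [h2]
  have h3 : γ ^ (k + orderOf γ) = Units.mk0 x hx := by
    rw [pow_add, pow_orderOf_eq_one, mul_one]; exact hk
  have := congrArg Units.val h3
  simpa using this.symm

theorem main {F : Type*} [Field F] [Fintype F] (m : ℕ) :
    ∃ u g h : Matrix.SpecialLinearGroup (Fin (m + 3)) F,
      (IsNilpotent ((u : Matrix (Fin (m + 3)) (Fin (m + 3)) F) - 1) ∧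
        ((u : Matrix (Fin (m + 3)) (Fin (m + 3)) F) - 1) ^ (m + 2) ≠ 0) ∧
      Subgroup.closure ({u, g * u * g⁻¹, h * u * h⁻¹} : Set (Matrix.SpecialLinearGroup (Fin (m + 3)) F)) = ⊤ := by
  obtain ⟨γ, hγ⟩ := exists_gen F
  set v := vSL m (cvec F m) with hv
  set α : F := (((v⁻¹).1 (Fin.last (m + 2)) 0 * cvec F m ((0 : Fin (m + 2)) : ℕ))⁻¹ * γ) with hα
  refine ⟨uSL F m, Matrix.SpecialLinearGroup.transvection zero_ne_pen α, hSL F m,
    ⟨up_nilpotent, up_pow_ne_zero⟩, ?_⟩
  rw [g_conj, h_conj]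
  set H := Subgroup.closure ({uSL F m, uSL F m * Matrix.SpecialLinearGroup.transvection zero_ne_last α,
    vSL m (cvec F m)} : Set (Matrix.SpecialLinearGroup (Fin (m + 3)) F)) with hH
  have hu : uSL F m ∈ H := Subgroup.subset_closure (by simp)
  have hut : uSL F m * Matrix.SpecialLinearGroup.transvection zero_ne_last α ∈ H :=
    Subgroup.subset_closure (by simp)
  have hvH : v ∈ H := Subgroup.subset_closure (by simp [hv])
  have ht : Matrix.SpecialLinearGroup.transvection zero_ne_last α ∈ H := by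
    have := H.mul_mem (H.inv_mem hu) hut
    rwa [inv_mul_cancel_left] at this
  refine eq_top_of_facts (c := fun j : Fin (m + 2) => cvec F m j.val) hu hvH
    (fun j => cvec_ne_zero _) up_col0 ?_ up_row_last (fun j => lo_col _ j) (fun j => lo_row _ j) hγ ?_
  · exact up_col_succ (F := F) (m := m) 0
  · refine ⟨_, ht, ?_⟩
    rw [Matrix.SpecialLinearGroup.transvection_coe, single_eq]

/-- Let F be a finite field and n ≥ 3. Then SL_n(F) is generated by three conjugate regular unipotent elements: there are u with u − 1 nilpotent and (u − 1)^(n−1) ≠ 0, and g, h, such that u, g u g⁻¹ and h u h⁻¹ generate SL_n(F). -/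
theorem result {F : Type*} [Field F] [Fintype F] (n : ℕ) (hn : 3 ≤ n) :
    ∃ u g h : Matrix.SpecialLinearGroup (Fin n) F, (IsNilpotent ((u : Matrix (Fin n) (Fin n) F) - 1) ∧ ((u : Matrix (Fin n) (Fin n) F) - 1) ^ (n - 1) ≠ 0) ∧
      Subgroup.closure ({u, g * u * g⁻¹, h * u * h⁻¹} : Set (Matrix.SpecialLinearGroup (Fin n) F)) = ⊤ := by
  obtain ⟨m, rfl⟩ : ∃ m, n = m + 3 := ⟨n - 3, by omega⟩
  exact main m

end Cfsg.Agent.S2280
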