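import Cfsg.Statements.S2286
import Cfsg.Agent.Lib.Helper43PresM
import Cfsg.Agent.Lib.Helper7SL

set_option autoImplicit false
open Cfsg

namespace Cfsg.Agent.S2286

open Cfsg.Agent.Lib.Helper43Pres Matrix

variable {F : Type*} [Field F] [Fintype F]

local notation "X0" => (FreeGroup.of 0 : FreeGroup (Fin 3))
local notation "X1" => (FreeGroup.of 1 : FreeGroup (Fin 3))
local notation "X2" => (FreeGroup.of 2 : FreeGroup (Fin 3))

theorem card_arith (q : ℕ) (hq : 2 ≤ q) : q * (q - 1) * (q + 1) = q * (q ^ 2 - 1) := by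
  obtain ⟨m, rfl⟩ : ∃ m, q = m + 1 := ⟨q - 1, by omega⟩
  have : (m + 1) ^ 2 - 1 = m * (m + 2) := by
    have : (m + 1) ^ 2 = m * (m + 2) + 1 := by ring
    omega
  rw [this, Nat.add_sub_cancel]; ring

/-- characteristic two, more than two elements -/
theorem even_main [CharP F 2] (hq : 2 < Fintype.card F) :
    ∃ rels : Finset (FreeGroup (Fin 3)), rels.card ≤ 5 ∧
      Nonempty (PresentedGroup (↑rels : Set (FreeGroup (Fin 3))) ≃*
        Matrix.SpecialLinearGroup (Fin 2) F) := by
  haveI : Fact (Nat.Prime 2) := ⟨Nat.prime_two⟩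
  letI : Algebra (ZMod 2) F := ZMod.algebra F 2
  obtain ⟨ζ, hζ, hgenζ, hord⟩ := exists_zeta (F := F)
  have heven : Even (Fintype.card F) := by
    have : ringChar F = 2 := (ringChar.eq F 2)
    have := FiniteField.even_card_iff_char_two.mp this
    exact Nat.even_iff.mpr this
  have hgen2 := exists_even_pow hgenζ hord heven
  have ha := adjoin_zeta_sq 2 hζ hord
  have h1 : 1 + ζ ^ 2 ≠ 0 := by
    intro h
    have h2 : ζ ^ 2 = 1 := by
      have : ζ ^ 2 = -1 := eq_neg_of_add_eq_zero_right h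
      rw [this, CharTwo.neg_eq]
    have := Nat.le_of_dvd (by omega) (orderOf_dvd_of_pow_eq_one h2)
    obtain ⟨m, hm⟩ := heven
    omega
  obtain ⟨k, hk⟩ := hgen2 _ h1
  obtain ⟨Lm, hLm⟩ := exists_pL 2 (minpoly (ZMod 2) (ζ ^ 2))
  set N := Fintype.card F - 1 with hN
  set c : Fˣ := Units.mk0 ζ hζ with hc
  have hζN : ζ ^ N = 1 := by rw [← hord]; exact pow_orderOf_eq_one ζ
  have hHN : (Hm c) ^ N = 1 := by
    rw [Hm_pow]
    have : c ^ N = 1 := by
      apply Units.ext; simpa [hc] using hζN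
    rw [this, Hm_one]
  obtain ⟨rels, h5, hiso⟩ := pres_iso (G := Matrix.SpecialLinearGroup (Fin 2) F)
    (relsEven k N Lm X0 X1 X2) (FreeGroup.lift ![Um (1 : F), Hm c, Tm])
    (by
      rw [forall_map_one, relsEven_map]
      simp only [FreeGroup.lift_apply_of, Matrix.cons_val_zero, Matrix.cons_val_one,
        Matrix.cons_val]
      exact relsEven_of_model hk hLm (sl_pre0 c) (sl_RR c 0) hHN)
    (lift_surj _ _ _ (sl_gen 2 c ha))
    (by
      intro Γ _ π hπ hrel
      rw [forall_map_one, relsEven_map] at hrel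
      have := card_even ha hLm hζ hgen2 (N := N) (by omega) (closure_of_surj π hπ) hrel
      refine ⟨this.1, this.2.trans (le_of_eq ?_)⟩
      rw [Cfsg.Agent.Lib.Helper7SL.card_SL_two, hN, card_arith _ (by omega)])
  exact ⟨rels, h5.trans (by simp [relsEven]), hiso⟩

/-- relators for the field with two elements -/
def rels2 {G : Type*} [Group G] (u h t : G) : List G :=
  [u ^ 2, u * t * u * t⁻¹ * u * t⁻¹, h]

theorem rels2_map {G G' : Type*} [Group G] [Group G'] (f : G →* G') (u h t : G) :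
    (rels2 u h t).map f = rels2 (f u) (f h) (f t) := by
  simp [rels2]

theorem two_main [CharP F 2] (hq : Fintype.card F = 2) :
    ∃ rels : Finset (FreeGroup (Fin 3)), rels.card ≤ 5 ∧
      Nonempty (PresentedGroup (↑rels : Set (FreeGroup (Fin 3))) ≃*
        Matrix.SpecialLinearGroup (Fin 2) F) := by
  classical
  haveI : Fact (Nat.Prime 2) := ⟨Nat.prime_two⟩
  letI : Algebra (ZMod 2) F := ZMod.algebra F 2
  have h01 : ∀ x : F, x ≠ 0 → x = 1 := by
    obtain ⟨ζ, hζ, hgenζ, hord⟩ := exists_zeta (F := F)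
    rw [hq] at hord
    have : ζ = 1 := orderOf_eq_one_iff.mp hord
    subst this
    intro x hx
    obtain ⟨j, hj⟩ := hgenζ x hx
    rw [← hj, one_pow]
  have ha : Algebra.adjoin (ZMod 2) {((1 : Fˣ) : F) ^ 2} = ⊤ := by
    have := adjoin_zeta_sq 2 (one_ne_zero (α := F)) (by rw [orderOf_one, hq])
    simpa using this
  have hgenS := sl_gen 2 (1 : Fˣ) ha
  rw [Hm_one] at hgenS
  obtain ⟨rels, h5, hiso⟩ := pres_iso (G := Matrix.SpecialLinearGroup (Fin 2) F)
    (rels2 X0 X1 X2) (FreeGroup.lift ![Um (1 : F), 1, Tm])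
    (by
      rw [forall_map_one, rels2_map]
      simp only [FreeGroup.lift_apply_of, Matrix.cons_val_zero, Matrix.cons_val_one,
        Matrix.cons_val]
      intro r hr
      simp only [rels2, List.mem_cons, List.not_mem_nil, or_false] at hr
      rcases hr with rfl | rfl | rfl
      · rw [← phi_nat Um_add, CharP.cast_eq_zero, zero_mul, phi_zero Um_add]
      · have := sl_RR (1 : Fˣ) 0 (F := F)
        unfold RR at this
        simp only [pow_zero, inv_one, one_mul] at this
        rw [this, mul_inv_cancel]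
      · rfl)
    (lift_surj _ _ _ hgenS)
    (by
      intro Γ _ π hπ hrel
      rw [forall_map_one, rels2_map] at hrel
      have hgen := closure_of_surj π hπ
      set u := π X0
      set h := π X1
      set t := π X2
      simp only [rels2, List.mem_cons, List.not_mem_nil, or_false, forall_eq_or_imp, forall_eq]
        at hrel
      obtain ⟨r1, r2, r3⟩ := hrel
      rw [mul_inv_eq_one] at r2
      let φ : F → Γ := fun x => if x = 0 then 1 else u
      have φ0 : φ 0 = 1 := by simp [φ]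
      have φ1 : φ 1 = u := by simp [φ]
      have PP : Pre φ h t 1 :=
        { add := by
            intro x y
            by_cases hx : x = 0
            · subst hx; rw [zero_add, φ0, one_mul]
            · by_cases hy : y = 0
              · subst hy; rw [add_zero, φ0, mul_one]
              · rw [h01 x hx, h01 y hy, CharTwo.add_self_eq_zero, φ0, φ1, ← pow_two, r1]
          conj := by intro x; rw [r3]; simp
          z_ne := one_ne_zero
          inv := by rw [r3]; simp
          stein := by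
            intro b hb
            rw [h01 b hb, inv_one, φ1]
            exact ⟨0, by rw [zpow_zero, one_mul]; exact r2⟩ }
      rw [← φ1] at hgen
      have := PP.card_le hgen 1 one_pos (by rw [r3, one_pow])
      refine ⟨this.1, this.2.trans (le_of_eq ?_)⟩
      rw [Cfsg.Agent.Lib.Helper7SL.card_SL_two, hq]; norm_num)
  exact ⟨rels, h5.trans (by simp [rels2]), hiso⟩

theorem Tm_sq_mem_center :
    (Tm * Tm : Matrix.SpecialLinearGroup (Fin 2) F) ∈
      Subgroup.center (Matrix.SpecialLinearGroup (Fin 2) F) := by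
  rw [Matrix.SpecialLinearGroup.mem_center_iff]
  refine ⟨-1, by simp, ?_⟩
  show (Matrix.scalar (Fin 2)) (-1 : F) = !![0, 1; -1, 0] * !![0, 1; -1, 0]
  ext i j
  fin_cases i <;> fin_cases j <;> simp [Matrix.mul_fin_two]

theorem odd_assembly (p : ℕ) [Fact p.Prime] [CharP F p] [Algebra (ZMod p) F]
    (hodd : Odd (Fintype.card F)) {ζ : F} (hζ : ζ ≠ 0)
    (hgenζ : ∀ b : F, b ≠ 0 → ∃ j : ℕ, ζ ^ j = b) (hord : orderOf ζ = Fintype.card F - 1)
    {l k c d : ℕ} {Lm L1 L2 L3 : List ℕ} (D : OddData p ζ l k c d Lm L1 L2 L3)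
    (rCh : ∀ (Γ : Type) [Group Γ] (u h : Γ),
      u * (h ^ l * u * (h ^ l)⁻¹) * (h ^ l * u * (h ^ l)⁻¹ * u)⁻¹ = 1 →
      h ^ k * u * (h ^ k)⁻¹ * (u ^ c * (h ^ l * u * (h ^ l)⁻¹) ^ d)⁻¹ = 1 →
      ∀ j : ℕ, Commute u ((h ^ l) ^ j * u * ((h ^ l) ^ j)⁻¹)) :
    (∃ rels : Finset (FreeGroup (Fin 3)), rels.card ≤ 8 ∧
      Nonempty (PresentedGroup (↑rels : Set (FreeGroup (Fin 3))) ≃*
        Matrix.SpecialLinearGroup (Fin 2) F)) ∧
    (∃ rels : Finset (FreeGroup (Fin 3)), rels.card ≤ 9 ∧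
      Nonempty (PresentedGroup (↑rels : Set (FreeGroup (Fin 3))) ≃*
        Matrix.ProjectiveSpecialLinearGroup (Fin 2) F)) := by
  have hq : 2 ≤ Fintype.card F := Fintype.one_lt_card
  set cu : Fˣ := Units.mk0 ζ hζ with hcu
  have ha2 := adjoin_zeta_sq p hζ hord
  have hfrel : ∀ r ∈ relsOdd p l k c d Lm L1 L2 L3 X0 X1 X2,
      FreeGroup.lift ![Um (1 : F), Hm cu, Tm] r = 1 := by
    rw [forall_map_one, relsOdd_map]
    simp only [FreeGroup.lift_apply_of, Matrix.cons_val_zero, Matrix.cons_val_one,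
      Matrix.cons_val]
    exact relsOdd_of_model D (sl_pre0 cu) (sl_RR cu 0) (sl_RR cu 1)
  have hsurj := lift_surj _ _ _ (sl_gen p cu ha2)
  have hrC : ∀ (Γ : Type) [Group Γ] (π : FreeGroup (Fin 3) →* Γ),
      (∀ r ∈ relsOdd p l k c d Lm L1 L2 L3 (π X0) (π X1) (π X2), r = 1) →
      ∀ j : ℕ, Commute (π X0) ((π X1 ^ l) ^ j * π X0 * ((π X1 ^ l) ^ j)⁻¹) := by
    intro Γ _ π hrel
    have hrel' := hrel
    simp only [relsOdd, List.mem_cons, List.not_mem_nil, or_false, forall_eq_or_imp, forall_eq]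
      at hrel'
    obtain ⟨-, -, -, -, r4a, r4b, -, -⟩ := hrel'
    exact rCh Γ _ _ r4a r4b
  constructor
  · obtain ⟨rels, h5, hiso⟩ := pres_iso (G := Matrix.SpecialLinearGroup (Fin 2) F)
      (relsOdd p l k c d Lm L1 L2 L3 X0 X1 X2) (FreeGroup.lift ![Um (1 : F), Hm cu, Tm])
      hfrel hsurj
      (by
        intro Γ _ π hπ hrel
        rw [forall_map_one, relsOdd_map] at hrel
        have := (card_odd D hζ hgenζ hord (closure_of_surj π hπ) hrel (hrC Γ π hrel)).1
        refine ⟨this.1, this.2.trans (le_of_eq ?_)⟩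
        rw [Cfsg.Agent.Lib.Helper7SL.card_SL_two, card_arith _ hq])
    exact ⟨rels, h5.trans (by simp [relsOdd]), hiso⟩
  · obtain ⟨m, hm⟩ := hodd
    have hm0 : 0 < m := by omega
    have hj : ζ ^ m = -1 := by
      have h1 : ζ ^ m * ζ ^ m = 1 := by
        rw [← pow_add, ← pow_orderOf_eq_one ζ, hord]; congr 1; omega
      rcases mul_self_eq_one_iff.mp h1 with h | h
      · exact absurd h (pow_ne_one_of_lt_orderOf hm0.ne' (by omega))
      · exact h
    obtain ⟨rels, h5, hiso⟩ := pres_iso (G := Matrix.ProjectiveSpecialLinearGroup (Fin 2) F)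
      ((X2 * X2) :: relsOdd p l k c d Lm L1 L2 L3 X0 X1 X2)
      ((QuotientGroup.mk' (Subgroup.center (Matrix.SpecialLinearGroup (Fin 2) F))).comp
        (FreeGroup.lift ![Um (1 : F), Hm cu, Tm]))
      (by
        intro r hr
        rcases List.mem_cons.mp hr with rfl | hr
        · rw [MonoidHom.comp_apply, QuotientGroup.mk'_apply, QuotientGroup.eq_one_iff]
          simp only [map_mul, FreeGroup.lift_apply_of, Matrix.cons_val]
          exact Tm_sq_mem_center
        · rw [MonoidHom.comp_apply, hfrel r hr, map_one])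
      ((QuotientGroup.mk'_surjective _).comp hsurj)
      (by
        intro Γ _ π hπ hrel
        have htt : π X2 * π X2 = 1 := by
          rw [← map_mul]; exact hrel _ (List.mem_cons_self)
        have hrel2 : ∀ r ∈ relsOdd p l k c d Lm L1 L2 L3 X0 X1 X2, π r = 1 :=
          fun r hr => hrel r (List.mem_cons_of_mem _ hr)
        rw [forall_map_one, relsOdd_map] at hrel2
        have := card_odd D hζ hgenζ hord (closure_of_surj π hπ) hrel2 (hrC Γ π hrel2)
        refine ⟨this.1.1, (this.2 m hm0 hj htt).trans ?_⟩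
        have h2 := Cfsg.Agent.Lib.Helper7SL.card_PSL_two_mul_two (F := F) ⟨m, hm⟩
        rw [← card_arith _ hq] at h2
        have h3 : Fintype.card F * (Fintype.card F - 1) * (Fintype.card F + 1)
            = (Fintype.card F * m * (Fintype.card F + 1)) * 2 := by
          have : Fintype.card F - 1 = 2 * m := by omega
          rw [this]; ring
        rw [h3] at h2
        exact le_of_eq (Nat.eq_of_mul_eq_mul_right (by norm_num) h2).symm)
    exact ⟨rels, h5.trans (by simp [relsOdd]), hiso⟩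

theorem odd_main (hodd : Odd (Fintype.card F)) :
    (∃ rels : Finset (FreeGroup (Fin 3)), rels.card ≤ 8 ∧
      Nonempty (PresentedGroup (↑rels : Set (FreeGroup (Fin 3))) ≃*
        Matrix.SpecialLinearGroup (Fin 2) F)) ∧
    (∃ rels : Finset (FreeGroup (Fin 3)), rels.card ≤ 9 ∧
      Nonempty (PresentedGroup (↑rels : Set (FreeGroup (Fin 3))) ≃*
        Matrix.ProjectiveSpecialLinearGroup (Fin 2) F)) := by
  obtain ⟨p, hp⟩ := CharP.exists F
  haveI : Fact p.Prime := ⟨CharP.char_is_prime F p⟩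
  letI : Algebra (ZMod p) F := ZMod.algebra F p
  obtain ⟨ζ, hζ, hgenζ, hord⟩ := exists_zeta (F := F)
  have hq : 2 ≤ Fintype.card F := Fintype.one_lt_card
  have hζN : ζ ^ (Fintype.card F - 1) = 1 := by rw [← hord]; exact pow_orderOf_eq_one ζ
  by_cases hexc : 7 ≤ Fintype.card F ∧ Fintype.card F ≠ 9
  · obtain ⟨k, l, hk, ha⟩ := exists_kl p hζ hgenζ hord hodd hexc.1 hexc.2
    obtain ⟨Lm, hLm⟩ := exists_pL p (minpoly (ZMod p) (ζ ^ (2 * l)))
    obtain ⟨L1, hL1⟩ := exists_evL p ha ζ
    obtain ⟨L2, hL2⟩ := exists_evL p ha ζ⁻¹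
    obtain ⟨L3, hL3⟩ := exists_evL p ha (ζ ^ 2)
    exact odd_assembly p hodd hζ hgenζ hord (l := l) (k := k) (c := 1) (d := 1)
      ⟨ha, by simpa using hk, hLm, hL1, hL2, hL3⟩
      (fun Γ _ u h r4a r4b => rC_generic r4a r4b)
  · have ha := adjoin_zeta_sq p hζ hord
    have ha' : Algebra.adjoin (ZMod p) {ζ ^ (2 * 1)} = ⊤ := by simpa using ha
    obtain ⟨Lm, hLm⟩ := exists_pL p (minpoly (ZMod p) (ζ ^ (2 * 1)))
    obtain ⟨L1, hL1⟩ := exists_evL p ha' ζ
    obtain ⟨L2, hL2⟩ := exists_evL p ha' ζ⁻¹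
    obtain ⟨L3, hL3⟩ := exists_evL p ha' (ζ ^ 2)
    have h4 : ∃ c : ℕ, ζ ^ (2 * 2) = (c : F) := by
      have hcases : Fintype.card F = 3 ∨ Fintype.card F = 5 ∨ Fintype.card F = 9 := by
        obtain ⟨m, hm⟩ := hodd
        by_contra hcon
        push Not at hcon
        apply hexc
        omega
      rcases hcases with h | h | h
      · refine ⟨1, ?_⟩
        rw [h] at hζN
        have : ζ ^ (2 * 2) = (ζ ^ (3 - 1)) ^ 2 := by ring
        rw [this, hζN]; simp
      · refine ⟨1, ?_⟩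
        rw [h] at hζN
        have : ζ ^ (2 * 2) = (ζ ^ (5 - 1)) := by ring
        rw [this, hζN]; simp
      · refine ⟨p - 1, ?_⟩
        rw [h] at hζN
        have h1 : ζ ^ 4 * ζ ^ 4 = 1 := by
          rw [← pow_add]; exact hζN
        have hp1 : 1 ≤ p := (Fact.out : p.Prime).one_lt.le
        rw [Nat.cast_sub hp1, CharP.cast_eq_zero, Nat.cast_one, zero_sub]
        rcases mul_self_eq_one_iff.mp h1 with h' | h'
        · exact absurd h' (pow_ne_one_of_lt_orderOf (by norm_num) (by omega))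
        · exact h'
    obtain ⟨c, hc⟩ := h4
    exact odd_assembly p hodd hζ hgenζ hord (l := 1) (k := 2) (c := c) (d := 0)
      ⟨ha', by simpa using hc, hLm, hL1, hL2, hL3⟩
      (fun Γ _ u h r4a r4b => rC_exc r4a r4b)

theorem center_eq_bot [CharP F 2] :
    Subgroup.center (Matrix.SpecialLinearGroup (Fin 2) F) = ⊥ := by
  rw [eq_bot_iff]
  intro A hA
  rw [Matrix.SpecialLinearGroup.mem_center_iff] at hA
  obtain ⟨r, hr, hA⟩ := hA
  rw [Fintype.card_fin] at hr
  have h1 : (r - 1) ^ 2 = 0 := by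
    have : (r - 1) ^ 2 = r ^ 2 - 2 * r + 1 := by ring
    rw [this, hr, CharTwo.two_eq_zero]; simp [CharTwo.add_self_eq_zero]
  have h2 : r = 1 := sub_eq_zero.mp (pow_eq_zero_iff (two_ne_zero) |>.mp h1)
  rw [Subgroup.mem_bot]
  apply Subtype.ext
  rw [← hA, h2]; simp

/-- For every finite field F, SL_2(F) and PSL_2(F) have presentations with 3 generators and at most 9 relations; when F has characteristic 2, PSL_2(F) has a presentation with 3 generators and at most 5 relations. -/
theorem result {F : Type*} [Field F] [Fintype F] :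
    (∃ rels : Finset (FreeGroup (Fin 3)), rels.card ≤ 9 ∧ Nonempty (PresentedGroup (↑rels : Set (FreeGroup (Fin 3))) ≃* Matrix.SpecialLinearGroup (Fin 2) F)) ∧ (∃ rels : Finset (FreeGroup (Fin 3)), rels.card ≤ 9 ∧ Nonempty (PresentedGroup (↑rels : Set (FreeGroup (Fin 3))) ≃* Matrix.ProjectiveSpecialLinearGroup (Fin 2) F)) ∧
    (CharP F 2 → ∃ rels : Finset (FreeGroup (Fin 3)), rels.card ≤ 5 ∧ Nonempty (PresentedGroup (↑rels : Set (FreeGroup (Fin 3))) ≃* Matrix.ProjectiveSpecialLinearGroup (Fin 2) F)) := by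
  have hq : 2 ≤ Fintype.card F := Fintype.one_lt_card
  rcases Nat.even_or_odd (Fintype.card F) with heven | hodd
  · haveI : CharP F 2 :=
      ringChar.of_eq (FiniteField.even_card_iff_char_two.mpr (Nat.even_iff.mp heven))
    have E : ∃ rels : Finset (FreeGroup (Fin 3)), rels.card ≤ 5 ∧
        Nonempty (PresentedGroup (↑rels : Set (FreeGroup (Fin 3))) ≃*
          Matrix.SpecialLinearGroup (Fin 2) F) := by
      rcases Nat.lt_or_ge 2 (Fintype.card F) with h | h
      · exact even_main h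
      · exact two_main (le_antisymm h hq)
    obtain ⟨rels, h5, ⟨e⟩⟩ := E
    have e2 : Matrix.SpecialLinearGroup (Fin 2) F ≃*
        Matrix.ProjectiveSpecialLinearGroup (Fin 2) F :=
      (QuotientGroup.quotientBot.symm).trans
        (QuotientGroup.quotientMulEquivOfEq center_eq_bot.symm)
    exact ⟨⟨rels, h5.trans (by norm_num), ⟨e⟩⟩, ⟨rels, h5.trans (by norm_num), ⟨e.trans e2⟩⟩,
      fun _ => ⟨rels, h5, ⟨e.trans e2⟩⟩⟩
  · obtain ⟨⟨r1, h1, e1⟩, h2⟩ := odd_main hodd
    refine ⟨⟨r1, h1.trans (by norm_num), e1⟩, h2, ?_⟩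
    intro hc
    exfalso
    have : ringChar F = 2 := ringChar.eq F 2
    have := FiniteField.even_card_iff_char_two.mp this
    obtain ⟨m, hm⟩ := hodd
    omega

end Cfsg.Agent.S2286
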