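import Cfsg.Statements.S2293
import Cfsg.Agent.Lib.Helper43P4J

set_option autoImplicit false
open Cfsg

namespace Cfsg.Agent.S2293

open Cfsg.Agent.Lib.Helper43Pres Cfsg.Agent.Lib.Helper43P4 Matrix

local notation "X0" => (FreeGroup.of 0 : FreeGroup (Fin 6))
local notation "X1" => (FreeGroup.of 1 : FreeGroup (Fin 6))
local notation "X2" => (FreeGroup.of 2 : FreeGroup (Fin 6))
local notation "X3" => (FreeGroup.of 3 : FreeGroup (Fin 6))
local notation "X4" => (FreeGroup.of 4 : FreeGroup (Fin 6))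
local notation "X5" => (FreeGroup.of 5 : FreeGroup (Fin 6))

variable {F : Type*} [Field F] [Fintype F]

theorem assemble (P : Par) [Fact P.p.Prime] [CharP F P.p] [Algebra (ZMod P.p) F] {ζ : F}
    (E : FData P ζ) (hgenζ : ∀ b : F, b ≠ 0 → ∃ j : ℕ, ζ ^ j = b)
    (rCh : ∀ (Γ : Type) [Group Γ] (u h : Γ),
        u * (h ^ P.l * u * (h ^ P.l)⁻¹) * (h ^ P.l * u * (h ^ P.l)⁻¹ * u)⁻¹ = 1 →
        h ^ P.k * u * (h ^ P.k)⁻¹ * (u ^ P.c * (h ^ P.l * u * (h ^ P.l)⁻¹) ^ P.d)⁻¹ = 1 →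
        ∀ j : ℕ, Commute u ((h ^ P.l) ^ j * u * ((h ^ P.l) ^ j)⁻¹))
    (rCh' : ∀ (Γ : Type) [Group Γ] (u g : Γ),
        u * (g * u * g⁻¹) * (g * u * g⁻¹ * u)⁻¹ = 1 →
        g ^ P.k' * u * (g ^ P.k')⁻¹ * (u ^ P.c0 * (g * u * g⁻¹) ^ P.d0)⁻¹ = 1 →
        ∀ j : ℕ, Commute u (g ^ j * u * (g ^ j)⁻¹)) :
    (∃ rels : Finset (FreeGroup (Fin 6)), rels.card ≤ 35 ∧
      Nonempty (PresentedGroup (↑rels : Set (FreeGroup (Fin 6))) ≃*
        Matrix.symplecticGroup (Fin 2) F)) ∧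
    (∃ rels : Finset (FreeGroup (Fin 6)), rels.card ≤ 36 ∧
      Nonempty (PresentedGroup (↑rels : Set (FreeGroup (Fin 6))) ≃* Cfsg.PSp 2 F)) := by
  set z : Fˣ := Units.mk0 ζ E.ζ_ne with hz
  have SM : S4 (M0 : F → _) M7 (MH z 1) MT MS ζ P.e := sp4_S4 z P.e E.he
  set f : FreeGroup (Fin 6) →* Sp4 F := FreeGroup.lift ![M0 (1 : F), M7 1, MH z 1, MT, MS, 1]
    with hfdef
  set Lw := rels4 P X0 X1 X2 X3 X4 X5 with hLw
  have hlen : Lw.length = 29 := rels4_length _ _ _ _ _ _ _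
  have hf : ∀ r ∈ Lw, f r = 1 := by
    rw [forall_map_one, rels4_map]
    simp only [hfdef, FreeGroup.lift_apply_of, Matrix.cons_val_zero, Matrix.cons_val_one,
      Matrix.cons_val]
    exact rels4_of_S4 E SM
  have hsurj : Function.Surjective f := lift_surj6 _ _ _ _ _ (sp4_gen P.p z E.ha E.ha2)
  have hinj : InjHyp Lw f := by
    intro Γ _ π₀ hπ hrel F' hF'
    rw [forall_map_one, rels4_map] at hrel
    have hrel' := hrel
    rw [rels4, List.forall_mem_append] at hrel'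
    obtain ⟨hA, hB⟩ := hrel'
    have hrC : ∀ j : ℕ, Commute (π₀ X0) ((π₀ X2 ^ P.l) ^ j * π₀ X0 * ((π₀ X2 ^ P.l) ^ j)⁻¹) := by
      simp only [relsOdd, List.mem_cons, List.not_mem_nil, or_false, forall_eq_or_imp, forall_eq]
        at hA
      obtain ⟨-, -, -, -, r4a, r4b, -, -⟩ := hA
      exact rCh Γ _ _ r4a r4b
    have hrC' : ∀ j : ℕ, Commute (π₀ X1) (π₀ X2 ^ j * π₀ X1 * (π₀ X2 ^ j)⁻¹) := by
      simp only [relsB, List.mem_cons, List.not_mem_nil, or_false, forall_eq_or_imp, forall_eq]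
        at hB
      exact rCh' Γ _ _ hB.2.1 hB.2.2.1
    obtain ⟨hx, φ, ψ, hφ1, hψ1, S⟩ := S4_of_rels4 E hrel hrC hrC'
    have hΓ := closure_drop_one hx (closure_of_surj6 π₀ hπ)
    rw [← hφ1, ← hψ1] at hΓ
    have f0 : F' (π₀ X0) = M0 1 := by rw [hF']; simp [hfdef]
    have f1 : F' (π₀ X1) = M7 1 := by rw [hF']; simp [hfdef]
    have f2 : F' (π₀ X2) = MH z 1 := by rw [hF']; simp [hfdef]
    have f3 : F' (π₀ X3) = MT := by rw [hF']; simp [hfdef]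
    have f4 : F' (π₀ X4) = MS := by rw [hF']; simp [hfdef]
    refine S.injective hgenζ z rfl hΓ F' ?_ ?_ f2 f3 f4
    · intro a
      obtain ⟨L, rfl⟩ := exists_evL P.p E.ha2 a
      have e1 := W_phi S.addφ S.gφ 1 L
      have e2 := W_phi SM.addφ SM.gφ 1 L
      rw [mul_one] at e1 e2
      rw [← e1, ← e2, map_W, hφ1, f0, f2]
    · intro a
      obtain ⟨L, rfl⟩ := exists_evL P.p E.ha a
      have e1 := W_phi S.addψ S.gψ 1 L
      have e2 := W_phi SM.addψ SM.gψ 1 L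
      rw [mul_one] at e1 e2
      rw [← e1, ← e2, map_W, hψ1, f1, f2]
  constructor
  · obtain ⟨rels, h5, hiso⟩ := Cfsg.Agent.S2287.pres_iso_inj Lw f hf hsurj hinj
    exact ⟨rels, h5.trans (by rw [hlen]; norm_num), hiso⟩
  · have hzw : f ((X2 * (X4 * X2 * X4⁻¹)) ^ P.e) = MH (-1) (-1) := by
      have h1 : z ^ P.e = -1 := by
        apply Units.ext; simpa [hz] using E.he
      simp only [hfdef, map_pow, map_mul, map_inv, FreeGroup.lift_apply_of, Matrix.cons_val]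
      rw [MS_conj_H, MH_mul, MH_pow, mul_one, one_mul, h1]
    obtain ⟨rels, h5, hiso⟩ := pres_quot Lw f hf hsurj hinj ((X2 * (X4 * X2 * X4⁻¹)) ^ P.e)
      (Subgroup.center (Sp4 F)) (by rw [hzw]; exact neg_mem_center)
      (by intro x hx; rw [hzw]; exact center_cases x hx)
    exact ⟨rels, h5.trans (by rw [hlen]; norm_num), hiso⟩

/-- For every finite field F, Sp_4(F) has a presentation with 6 generators and at most 35 relations, and PSp_4(F) one with 6 generators and at most 36 relations. -/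
theorem result {F : Type*} [Field F] [Fintype F] : (∃ rels : Finset (FreeGroup (Fin 6)), rels.card ≤ 35 ∧ Nonempty (PresentedGroup (↑rels : Set (FreeGroup (Fin 6))) ≃* Matrix.symplecticGroup (Fin 2) F)) ∧ (∃ rels : Finset (FreeGroup (Fin 6)), rels.card ≤ 36 ∧ Nonempty (PresentedGroup (↑rels : Set (FreeGroup (Fin 6))) ≃* Cfsg.PSp 2 F)) := by
  obtain ⟨p, hp⟩ := CharP.exists F
  haveI : Fact p.Prime := ⟨CharP.char_is_prime F p⟩
  letI : Algebra (ZMod p) F := ZMod.algebra F p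
  obtain ⟨ζ, hζ, hgenζ, hord⟩ := exists_zeta (F := F)
  have ha2 := adjoin_zeta_sq p hζ hord
  have ha : Algebra.adjoin (ZMod p) {ζ} = ⊤ := by
    rw [eq_top_iff, ← ha2]
    apply Algebra.adjoin_le
    intro y hy
    rw [Set.mem_singleton_iff] at hy
    subst hy
    exact pow_mem (Algebra.subset_adjoin (Set.mem_singleton _)) 2
  obtain ⟨l, k, c, d, hal, hk, rCh⟩ := exists_long p hζ hgenζ hord
  obtain ⟨k', c0, d0, hk', rCh'⟩ := exists_short p hgenζ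
  obtain ⟨e, he⟩ := hgenζ (-1) (neg_ne_zero.mpr one_ne_zero)
  obtain ⟨Lm, hLm⟩ := exists_pL p (minpoly (ZMod p) (ζ ^ (2 * l)))
  obtain ⟨L1, hL1⟩ := exists_evL p hal ζ
  obtain ⟨L2, hL2⟩ := exists_evL p hal ζ⁻¹
  obtain ⟨L3, hL3⟩ := exists_evL p hal (ζ ^ 2)
  obtain ⟨Lm', hLm'⟩ := exists_pL p (minpoly (ZMod p) ζ)
  exact assemble (F := F) ⟨p, l, k, c, d, k', c0, d0, e, Lm, L1, L2, L3, Lm'⟩ (ζ := ζ)
    ⟨⟨hal, hk, hLm, hL1, hL2, hL3⟩, hζ, he, ha, ha2, hk', hLm'⟩ hgenζ rCh rCh'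

end Cfsg.Agent.S2293
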