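import Cfsg.Statements.S2318
import Cfsg.Agent.Lib.Helper46DZ7
-- import your own Cfsg.Agent.* helpers here

set_option autoImplicit false
open Cfsg

namespace Cfsg.Agent.S2318

open scoped MatrixGroups

/-- In a Chevalley group of type G₂, B₂, D₄, F₄, E₆, E₇ or E₈ over a finite field of characteristic p (for types G₂ and B₂ the field is assumed to have at least 3 elements, so that the group is perfect), the Steinberg character is the only irreducible complex character whose degree is divisible by the full power of p dividing the group order (the only irreducible character of p-defect zero). -/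
theorem result {F : Type*} [Field F] [Fintype F] (p : ℕ) [Fact p.Prime] [CharP F p] (D : Cfsg.Lie.ChevalleyDatum) (hD : D ∈ [Cfsg.Lie.chevG2, Cfsg.Lie.chevB2, Cfsg.Lie.chevD4, Cfsg.Lie.chevF4, Cfsg.Lie.chevE6, Cfsg.Lie.chevE7, Cfsg.Lie.chevE8]) (hq : (D = Cfsg.Lie.chevG2 ∨ D = Cfsg.Lie.chevB2) → 3 ≤ Fintype.card F)
    (χ : ↥(D.group F) → ℂ) (hχ : Cfsg.IsIrrCharacter ↥(D.group F) χ)
    (hdeg : ∃ d : ℕ, χ 1 = (d : ℂ) ∧ p ^ (Nat.card ↥(D.group F)).factorization p ∣ d) :
    χ = D.steinbergCharacter F := by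
  have hp := (Fact.out : p.Prime)
  obtain ⟨d, hd, hdvd⟩ := hdeg
  have hF := Cfsg.Agent.Lib.Helper46ChevFacts.facts (F := F) hD
  obtain ⟨k, hk⟩ := Cfsg.Agent.Lib.Helper46ChevFacts.exists_card_U (F := F) p hD
  have hH := Cfsg.Agent.Lib.Helper46ChevFacts.not_dvd_card_H (F := F) p hD
  have hU : IsPGroup p (D.posUnipotent F) := IsPGroup.of_card hk
  have hord : ∀ u : ↥(D.group F), (u : GL D.Idx F) ∈ D.posUnipotent F → u ≠ 1 → p ∣ orderOf u := by
    intro u hu hne
    obtain ⟨j, hj⟩ := (IsPGroup.iff_orderOf.1 hU) ⟨u, hu⟩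
    rw [← Subgroup.orderOf_coe] at hj
    change orderOf (u : GL D.Idx F) = p ^ j at hj
    rw [Subgroup.orderOf_coe] at hj
    rw [hj]
    apply dvd_pow_self
    rintro rfl
    rw [pow_zero, orderOf_eq_one_iff] at hj
    exact hne hj
  have hc := Cfsg.Agent.Lib.Helper83Char.charDegree_cast hχ
  have hcd : Cfsg.charDegree χ = d := by
    rw [hd] at hc
    exact_mod_cast hc
  have hpos := Cfsg.Agent.Lib.Helper81Base.charDegree_pos (⟨χ, hχ⟩ : Cfsg.IrrCharacter ↥(D.group F))
  have hle := Cfsg.Agent.Lib.Helper81Defect.factorization_deg_le (p := p)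
    (⟨χ, hχ⟩ : Cfsg.IrrCharacter ↥(D.group F))
  change 0 < Cfsg.charDegree χ at hpos
  change (Cfsg.charDegree χ).factorization p ≤ _ at hle
  have hge : (Nat.card ↥(D.group F)).factorization p ≤ (Cfsg.charDegree χ).factorization p := by
    rw [hcd]
    rw [hcd] at hpos
    exact (hp.pow_dvd_iff_le_factorization hpos.ne').1 hdvd
  apply Cfsg.Agent.Lib.Helper46DZ7.unique_chev hD hχ (Cfsg.Agent.Lib.Helper46ChevSt.irr hF)
  · intro u hu hne
    exact Cfsg.Agent.Lib.Helper46DZ2.vanish_of_dz p hχ (le_antisymm hle hge) (hord u hu hne)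
  · intro u hu hne
    exact Cfsg.Agent.Lib.Helper46ChevSt.vanish hF p k hk hH u (hord u hu hne)

end Cfsg.Agent.S2318
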