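import Cfsg.Statements.S2333
import Cfsg.Agent.Lib.Helper44SpEven
-- import your own Cfsg.Agent.* helpers here

set_option autoImplicit false
open Cfsg

namespace Cfsg.Agent.S2333


/-- For a finite field F of even order q and n ≥ 2 with (n, q) ≠ (2, 2), every irreducible complex representation of the symplectic group Sp_{2n}(F) of degree at least 2 has degree at least (q^n − 1)(q^n − q)/(2(q + 1)). -/
theorem result {F : Type*} [Field F] [Fintype F] [DecidableEq F] (n : ℕ) (hn : 2 ≤ n) (heven : Even (Fintype.card F)) (hex : (n, Fintype.card F) ≠ (2, 2)) :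
    (∀ (k : ℕ) (ρ : Representation ℂ (Matrix.symplecticGroup (Fin n) F) (Fin k → ℂ)), ρ.IsIrreducible → 2 ≤ k → (Fintype.card F ^ n - 1) * (Fintype.card F ^ n - Fintype.card F) / (2 * (Fintype.card F + 1)) ≤ k) := by
  classical
  have h2 : (2 : F) = 0 := by
    have h : ringChar F = 2 := FiniteField.even_card_iff_char_two.mpr (Nat.even_iff.mp heven)
    have : CharP F 2 := ringChar.of_eq h
    exact CharTwo.two_eq_zero
  have hex' : n = 2 → 3 ≤ Fintype.card F := by
    intro hn2
    have h1 : 1 < Fintype.card F := Fintype.one_lt_card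
    have h3 : Fintype.card F ≠ 2 := by
      intro h
      apply hex
      rw [hn2, h]
    omega
  intro k ρ hρ hk
  have hχ : IsIrrCharacter ↥(Matrix.symplecticGroup (Fin n) F) ρ.character := ⟨k, ρ, hρ, rfl⟩
  have hd : ρ.character 1 = (k : ℂ) := by simp
  have := Cfsg.Agent.Lib.Helper44SpEven.sp_even_bound h2 hn hex' ρ.character hχ (by
    rw [hd]
    intro h
    have : k = 1 := by exact_mod_cast h
    omega) k hd
  exact Nat.div_le_of_le_mul this

end Cfsg.Agent.S2333
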