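import Cfsg.Statements.S2334
import Cfsg.Agent.Lib.Helper44SUOdd2
-- import your own Cfsg.Agent.* helpers here

set_option autoImplicit false
open Cfsg

namespace Cfsg.Agent.S2334


/-- For odd n ≥ 3 and a finite field F with q² elements, (n, q) ≠ (3, 2), every irreducible complex representation of the special unitary group SU_n(q) (the determinant-one isometries of the standard Hermitian form over F) of degree at least 2 has degree at least (q^n − q)/(q + 1). -/
theorem result {F : Type*} [Field F] [Fintype F] [DecidableEq F] (n q : ℕ) (hn : 3 ≤ n) (hodd : Odd n) (hF : Fintype.card F = q ^ 2) (hex : (n, q) ≠ (3, 2)) :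
    (∀ (k : ℕ) (ρ : Representation ℂ (Cfsg.SU n F q) (Fin k → ℂ)), ρ.IsIrreducible → 2 ≤ k → (q ^ n - q) / (q + 1) ≤ k) := by
  classical
  intro kk ρ hirr hkk
  obtain ⟨r, rfl⟩ := hodd
  have hr : 1 ≤ r := by omega
  have hχ : Cfsg.IsIrrCharacter ↥(Cfsg.SU (2 * r + 1) F q) ρ.character := ⟨kk, ρ, hirr, rfl⟩
  have h1 : ρ.character 1 = (kk : ℂ) := by
    rw [Representation.char_one]
    simp
  have hne : ρ.character 1 ≠ 1 := by
    rw [h1]
    intro h
    have : kk = 1 := by exact_mod_cast h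
    omega
  have hσ := Cfsg.Agent.Lib.Helper17HermC.sig_ne_id hF
  have hσ2 := Cfsg.Agent.Lib.Helper17HermC.sig_sig hF
  have hq2 : 2 ≤ q := Cfsg.Agent.Lib.Helper7Herm.two_le_q hF
  have h32 : ¬ (2 * r + 1 = 3 ∧ q = 2) := by
    rintro ⟨h, h'⟩
    apply hex
    rw [h, h']
  obtain ⟨ω, hω⟩ := Cfsg.Agent.Lib.Helper17Herm.norm_surj _ hσ hσ2 (-1) (by simp) (by simp)
  obtain ⟨β, hβ⟩ := Cfsg.Agent.Lib.Helper17Herm.trace_surj _ hσ hσ2 1 (map_one _)
  obtain ⟨a, ha⟩ := Cfsg.Agent.Lib.Helper17Herm.exists_ne_fix _ hσ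
  have hb := Cfsg.Agent.Lib.Helper44SUOdd2.odd_bound hF
    (Cfsg.Agent.Lib.Helper44SUModel.Psi
      (Fintype.equivFinOfCardEq (by simp; ring) : (Fin r ⊕ Fin r) ⊕ Unit ≃ Fin (2 * r + 1))
      (Cfsg.Agent.Lib.Helper44SUOdd.Po _ r ω β) (Cfsg.Agent.Lib.Helper44SUOdd.Po' _ r ω β)
      (Cfsg.Agent.Lib.Helper44SUOdd.Po_mul _ r hσ2 ω β hω hβ)
      (Cfsg.Agent.Lib.Helper44SUOdd.Po'_mul _ r hσ2 ω β hω hβ))
    (by
      intro X hX
      apply Cfsg.Agent.Lib.Helper44SUModel.Psi_mem hF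
      rw [Cfsg.Agent.Lib.Helper44SUOdd.Po_form _ r hσ2 ω β hω hβ]
      exact hX)
    (a - Cfsg.Agent.Lib.Helper17HermC.sig hF a) (by rw [map_sub, hσ2]; ring)
    (Cfsg.Agent.Lib.Helper44SUModel.Psi_injective _ _ _ _ _)
    (fun h => ha (sub_eq_zero.mp h).symm) hr (by omega) h32 (by
      intro hr1
      by_contra hq3
      apply h32
      constructor <;> omega)
    ρ.character hχ hne kk h1
  apply Nat.div_le_of_le_mul
  have : q ^ (2 * r + 1) - q = q * (q ^ (2 * r) - 1) := by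
    rw [Nat.mul_sub, mul_one, pow_succ, mul_comm]
  rw [this]
  exact hb

end Cfsg.Agent.S2334
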