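import Cfsg.Statements.S2335
import Cfsg.Agent.Lib.Helper44Siegel
-- import your own Cfsg.Agent.* helpers here

set_option autoImplicit false
open Cfsg

namespace Cfsg.Agent.S2335


/-- For even n ≥ 4 and a finite field F with q² elements, (n, q) not (4, 2) or (4, 3), every irreducible complex representation of the special unitary group SU_n(q) (the determinant-one isometries of the standard Hermitian form over F) of degree at least 2 has degree at least (q^n − 1)/(q + 1). -/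
theorem result {F : Type*} [Field F] [Fintype F] [DecidableEq F] (n q : ℕ) (hn : 4 ≤ n) (heven : Even n) (hF : Fintype.card F = q ^ 2) (hex : (n, q) ≠ (4, 2) ∧ (n, q) ≠ (4, 3)) :
    (∀ (k : ℕ) (ρ : Representation ℂ (Cfsg.SU n F q) (Fin k → ℂ)), ρ.IsIrreducible → 2 ≤ k → (q ^ n - 1) / (q + 1) ≤ k) := by
  classical
  intro kk ρ hirr hkk
  obtain ⟨r, rfl⟩ := heven
  have hr : 2 ≤ r := by omega
  have hχ : Cfsg.IsIrrCharacter ↥(Cfsg.SU (r + r) F q) ρ.character := ⟨kk, ρ, hirr, rfl⟩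
  have h1 : ρ.character 1 = (kk : ℂ) := by
    rw [Representation.char_one]
    simp
  have hne : ρ.character 1 ≠ 1 := by
    rw [h1]
    intro h
    have : kk = 1 := by exact_mod_cast h
    omega
  have hσ := Cfsg.Agent.Lib.Helper17HermC.sig_ne_id hF
  have hσ2 := Cfsg.Agent.Lib.Helper17HermC.sig_sig hF
  obtain ⟨ω, hω⟩ := Cfsg.Agent.Lib.Helper17Herm.norm_surj _ hσ hσ2 (-1) (by simp) (by simp)
  obtain ⟨β, hβ⟩ := Cfsg.Agent.Lib.Helper17Herm.trace_surj _ hσ hσ2 1 (map_one _)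
  obtain ⟨a, ha⟩ := Cfsg.Agent.Lib.Helper17Herm.exists_ne_fix _ hσ
  obtain ⟨ψ, hψ, hinv⟩ := Cfsg.Agent.Lib.Helper44Lam.exists_psi _ hσ hσ2
  have hb := Cfsg.Agent.Lib.Helper44Siegel.siegel_bound hF
    (Cfsg.Agent.Lib.Helper44SUModel.Psi finSumFinEquiv
      (Cfsg.Agent.Lib.Helper44SUEven.Pm _ r ω β) (Cfsg.Agent.Lib.Helper44SUEven.Pm' _ r ω β)
      (Cfsg.Agent.Lib.Helper44SUEven.Pm_mul _ r hσ2 ω β hω hβ)
      (Cfsg.Agent.Lib.Helper44SUEven.Pm'_mul _ r hσ2 ω β hω hβ))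
    (by
      intro X hX
      apply Cfsg.Agent.Lib.Helper44SUModel.Psi_mem hF
      rw [Cfsg.Agent.Lib.Helper44SUEven.Pm_form _ r hσ2 ω β hω hβ]
      exact hX)
    (a - Cfsg.Agent.Lib.Helper17HermC.sig hF a) (by rw [map_sub, hσ2]; ring)
    (Cfsg.Agent.Lib.Helper44SUModel.Psi_injective _ _ _ _ _)
    (fun h => ha (sub_eq_zero.mp h).symm) hr (by omega) (by omega) ψ hψ hinv
    ρ.character hχ hne 1 kk h1 (by
      intro C _ _ j _ hj
      omega)
  rw [one_mul, two_mul] at hb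
  exact Nat.div_le_of_le_mul hb

end Cfsg.Agent.S2335
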