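import Cfsg.Statements.S2336
import Cfsg.Agent.Lib.Helper44VDefs
import Cfsg.Agent.Lib.Helper4Char
import Cfsg.Agent.Lib.Helper97Vphsum
import Cfsg.Agent.Lib.Helper97Vphzero
import Cfsg.Agent.Lib.Helper7Vvnorm
import Cfsg.Agent.Lib.Helper86Vphchar
import Cfsg.Agent.Lib.Helper79Vcount
-- import your own Cfsg.Agent.* helpers here

set_option autoImplicit false
open Cfsg

namespace Cfsg.Agent.S2336

open Cfsg.Agent.Lib.Helper44VDefs

theorem assemble {F : Type*} [Field F] [Fintype F] [DecidableEq F] (n : ℕ)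
    (hsum : ∀ g : Matrix.SpecialLinearGroup (Fin n) F,
      ∑ l : AddChar (Additive Fˣ) ℂ, ph n l g =
      (Nat.card {v : Fin n → F // v ≠ 0 ∧ (g : Matrix (Fin n) (Fin n) F).mulVec v = v} : ℂ))
    (hzero : IsIrrCharacter (Matrix.SpecialLinearGroup (Fin n) F) (fun g => ph n 0 g - 1))
    (hcount : (∀ i : AddChar (Additive Fˣ) ℂ, i ≠ 0 →
        IsIrrCharacter (Matrix.SpecialLinearGroup (Fin n) F) (ph n i)) ∧
      (∀ i j : AddChar (Additive Fˣ) ℂ, i ≠ 0 → j ≠ 0 →
        ph (F := F) n i = ph n j → i = j) ∧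
      (∀ i : AddChar (Additive Fˣ) ℂ, i ≠ 0 → ph (F := F) n i ≠ (fun g => ph n 0 g - 1))) :
    ∃ χ : Fin (Fintype.card F - 1) → (Matrix.SpecialLinearGroup (Fin n) F → ℂ),
      (∀ i, Cfsg.IsIrrCharacter (Matrix.SpecialLinearGroup (Fin n) F) (χ i)) ∧ Function.Injective χ ∧
      ∀ g : Matrix.SpecialLinearGroup (Fin n) F,
        (Nat.card {v : Fin n → F // v ≠ 0 ∧ (g : Matrix (Fin n) (Fin n) F).mulVec v = v} : ℂ) = 1 + ∑ i, χ i g := by
  classical
  obtain ⟨h1, h2, h3⟩ := hcount
  have hcard : Fintype.card (AddChar (Additive Fˣ) ℂ) = Fintype.card F - 1 := by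
    rw [AddChar.card_eq, Fintype.card_additive, Fintype.card_units]
  let e : Fin (Fintype.card F - 1) ≃ AddChar (Additive Fˣ) ℂ :=
    (Fintype.equivFinOfCardEq hcard).symm
  let ψ : AddChar (Additive Fˣ) ℂ → (Matrix.SpecialLinearGroup (Fin n) F → ℂ) :=
    fun l => if l = 0 then (fun g => ph n 0 g - 1) else ph n l
  refine ⟨fun i => ψ (e i), ?_, ?_, ?_⟩
  · intro i
    show IsIrrCharacter _ (ψ (e i))
    by_cases h : e i = 0
    · simp only [ψ, h, if_true]; exact hzero
    · simp only [ψ, h, if_false]; exact h1 _ h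
  · intro i j hij
    apply e.injective
    have hij' : ψ (e i) = ψ (e j) := hij
    by_cases hi : e i = 0
    · by_cases hj : e j = 0
      · rw [hi, hj]
      · exfalso
        simp only [ψ, hi, hj, if_true, if_false] at hij'
        exact h3 _ hj hij'.symm
    · by_cases hj : e j = 0
      · exfalso
        simp only [ψ, hi, hj, if_true, if_false] at hij'
        exact h3 _ hi hij'
      · simp only [ψ, hi, hj, if_false] at hij'
        exact h2 _ _ hi hj hij'
  · intro g
    rw [← hsum g]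
    have : ∑ i, ψ (e i) g = ∑ l, ψ l g := Equiv.sum_comp e (fun l => ψ l g)
    rw [this]
    rw [← Finset.add_sum_erase _ _ (Finset.mem_univ (0 : AddChar (Additive Fˣ) ℂ)),
      ← Finset.add_sum_erase (a := (0 : AddChar (Additive Fˣ) ℂ)) _ (fun l => ψ l g) (Finset.mem_univ _)]
    have h0 : ψ 0 g = ph n 0 g - 1 := by simp [ψ]
    have hr : ∑ l ∈ Finset.univ.erase (0 : AddChar (Additive Fˣ) ℂ), ψ l g =
        ∑ l ∈ Finset.univ.erase (0 : AddChar (Additive Fˣ) ℂ), ph n l g := by
      apply Finset.sum_congr rfl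
      intro l hl
      have : l ≠ 0 := (Finset.mem_erase.mp hl).1
      simp [ψ, this]
    rw [h0, hr]; ring

open Cfsg.Agent.Lib.Helper97Vphsum Cfsg.Agent.Lib.Helper97Vphzero Cfsg.Agent.Lib.Helper7Vvnorm
  Cfsg.Agent.Lib.Helper86Vphchar Cfsg.Agent.Lib.Helper79Vcount

/-- Let F be a finite field with q elements and n ≥ 3. The permutation character of SL_n(F) on the non-zero vectors of F^n (the function sending a matrix to the number of non-zero vectors it fixes) is the sum of the principal character and q − 1 pairwise distinct irreducible complex characters. -/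
theorem result {F : Type*} [Field F] [Fintype F] [DecidableEq F] (n : ℕ) (hn : 3 ≤ n) :
    ∃ χ : Fin (Fintype.card F - 1) → (Matrix.SpecialLinearGroup (Fin n) F → ℂ),
      (∀ i, Cfsg.IsIrrCharacter (Matrix.SpecialLinearGroup (Fin n) F) (χ i)) ∧ Function.Injective χ ∧
      ∀ g : Matrix.SpecialLinearGroup (Fin n) F,
        (Nat.card {v : Fin n → F // v ≠ 0 ∧ (g : Matrix (Fin n) (Fin n) F).mulVec v = v} : ℂ) = 1 + ∑ i, χ i g := by
  classical
  have hcard : Fintype.card (AddChar (Additive Fˣ) ℂ) = Fintype.card F - 1 := by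
    rw [AddChar.card_eq, Fintype.card_additive, Fintype.card_units]
  have hq : 1 ≤ Fintype.card F := Fintype.card_pos
  have hS : (∑ l : AddChar (Additive Fˣ) ℂ, ph (F := F) n l) =
      (fun g : Matrix.SpecialLinearGroup (Fin n) F =>
      (Nat.card {v : Fin n → F // v ≠ 0 ∧ (g : Matrix (Fin n) (Fin n) F).mulVec v = v} : ℂ)) := by
    funext g
    rw [Finset.sum_apply]
    exact ph_sum n g
  have hnorm : classInner (∑ l : AddChar (Additive Fˣ) ℂ, ph (F := F) n l)
      (∑ l : AddChar (Additive Fˣ) ℂ, ph (F := F) n l) =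
      (Fintype.card (AddChar (Additive Fˣ) ℂ) : ℂ) + 1 := by
    rw [hS, v_norm n hn, hcard]
    push_cast [hq]
    ring
  refine assemble n (ph_sum n) (ph_zero n (by omega)) ?_
  exact count_irr (ph n) (ph_isCharacter n) (ph_one n (by omega)) 0 (fun g => ph n 0 g - 1)
    (ph_zero n (by omega)) (by funext g; simp) hnorm

end Cfsg.Agent.S2336
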