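import Cfsg.Statements.S2337
import Cfsg.Agent.Lib.Helper44SzDeg
import Cfsg.Agent.Lib.Helper8SzIso
-- import your own Cfsg.Agent.* helpers here

set_option autoImplicit false
open Cfsg

namespace Cfsg.Agent.S2337


/-- For the Suzuki group Sz(q), q = 2^(2m+1) with m ≥ 1 (realised inside Sp₄ over the field with q elements), every irreducible complex representation of degree at least 2 has degree at least 2^m·(q − 1). -/
theorem result {F : Type*} [Field F] [Fintype F] (m : ℕ) (hm : 1 ≤ m) (hF : Fintype.card F = 2 ^ (2 * m + 1)) :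
    (∀ (k : ℕ) (ρ : Representation ℂ (Cfsg.Lie.Sz F (2 ^ (m + 1))) (Fin k → ℂ)), ρ.IsIrreducible → 2 ≤ k → 2 ^ m * (2 ^ (2 * m + 1) - 1) ≤ k) := by
  intro k ρ hirr hk
  have hχ' : Cfsg.IsIrrCharacter (Cfsg.Lie.Sz F (2 ^ (m + 1))) ρ.character := ⟨k, ρ, hirr, rfl⟩
  have hχ := Cfsg.Agent.Lib.Helper83Char.irr_comp_mulEquiv
    (Cfsg.Agent.Lib.Helper8SzIso.szIso hF hm) hχ'
  have h1 : (ρ.character ∘ (Cfsg.Agent.Lib.Helper8SzIso.szIso hF hm)) 1 = (k : ℂ) := by
    rw [Function.comp_apply, map_one, Representation.char_one]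
    simp
  have hne : (ρ.character ∘ (Cfsg.Agent.Lib.Helper8SzIso.szIso hF hm)) 1 ≠ 1 := by
    rw [h1]
    intro h
    have : k = 1 := by exact_mod_cast h
    omega
  obtain ⟨k', hk', hle⟩ := Cfsg.Agent.Lib.Helper44SzDeg.sz_degree_bound hF hm _ hχ hne
  rw [h1] at hk'
  have : k = k' := by exact_mod_cast hk'
  rw [this]
  exact hle

end Cfsg.Agent.S2337
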