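import Cfsg.Statements.S2343
import Cfsg.Agent.Lib.Helper44ReeAbs
import Cfsg.Agent.Lib.Helper8Ree18
-- import your own Cfsg.Agent.* helpers here

set_option autoImplicit false
open Cfsg

namespace Cfsg.Agent.S2343

open Cfsg.Lie Cfsg.Agent.Lib.Helper8Ree5 Cfsg.Agent.Lib.Helper8Ree9 Cfsg.Agent.Lib.Helper8Ree10
  Cfsg.Agent.Lib.Helper8Ree11 Cfsg.Agent.Lib.Helper8Ree15 Cfsg.Agent.Lib.Helper8Ree17
  Cfsg.Agent.Lib.Helper8Ree18


/-- For the Ree group ²G₂(q), q = 3^(2m+1) with m ≥ 1 (realised over the field with q elements), every irreducible complex representation of degree at least 2 has degree at least q² − q + 1. -/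
theorem result {K : Type*} [Field K] [Fintype K] (m : ℕ) (hm : 1 ≤ m) (hK : Fintype.card K = 3 ^ (2 * m + 1)) :
    (∀ (k : ℕ) (ρ : Representation ℂ (Cfsg.Lie.twistedG2 K (3 ^ m)) (Fin k → ℂ)), ρ.IsIrreducible → 2 ≤ k → (3 ^ (2 * m + 1)) ^ 2 - 3 ^ (2 * m + 1) + 1 ≤ k) := by
  intro k ρ hirr hk
  have : CharP K 3 := Cfsg.Agent.Lib.Helper8Ree5.charP_three hK
  obtain ⟨P, hP⟩ := exists_sylow_iG hK
  have h3 := three_eq_zero (K := K)
  have h0 : (0 : K) ^ 3 ^ m = 0 := zero_pow (by positivity)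
  have key := Cfsg.Agent.Lib.Helper44ReeAbs.abs_bound (G := GG K m) (K := K)
    (fun u v => uG m 0 u v) (iG hK) (P : Subgroup (GG K m))
    (fun u v w z => uG0_mul hK u v w z)
    (by
      intro s u v
      refine ⟨uG m s 0 0, ?_⟩
      rw [mul_inv_eq_iff_eq_mul]
      apply Subtype.ext
      show wU m s 0 0 * wU m 0 u v = wU m 0 u (v + s * u) * wU m s 0 0
      rw [wU_mul hK, wU_mul hK]
      congr 1 <;> simp [h0])
    (by
      intro μ hμ v
      refine ⟨hG hK (Units.mk0 μ hμ), ?_⟩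
      rw [mul_inv_eq_iff_eq_mul, hG_uG]
      simp)
    (by
      intro v
      refine ⟨uG m 0 0 v, ?_⟩
      have e1 : uG m 0 0 v * iG hK = iG hK * uG m 0 0 (-v) := by
        rw [iG_uG]; simp
      rw [e1, uG0_inv hK, mul_assoc, uG0_mul hK]
      congr 2
      · simp
      · linear_combination (-v) * h3)
    (card_sylow_GG hK P)
    (by
      intro s hs hs1
      exact invol_conj hK hm hs1 (exp_sylow_GG hK P s hs))
    (simple hK hm).1
    (by
      intro h
      exact wU_ne_one hK (congrArg Subtype.val h))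
    (q_mod8 hK) k ρ hirr hk
  rw [hK] at key
  exact key

end Cfsg.Agent.S2343
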