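import Cfsg.Statements.S2345
import Cfsg.Agent.Lib.Helper44OMain
-- import your own Cfsg.Agent.* helpers here

set_option autoImplicit false
open Cfsg

namespace Cfsg.Agent.S2345


/-- For a finite field F with q > 3 elements and n ≥ 4, every irreducible complex representation of degree at least 2 of Ω⁺_{2n}(F) (the commutator subgroup of the isometry group of the hyperbolic quadratic form x₁y₁ + ⋯ + x_ny_n) has degree at least (q^n − 1)(q^{n−1} + q)/(q² − 1). -/
theorem result {F : Type*} [Field F] [Fintype F] (n : ℕ) (hn : 4 ≤ n) (h3 : 3 < Fintype.card F) :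
    (∀ (k : ℕ) (ρ : Representation ℂ (Cfsg.Omega F (Cfsg.quadFormPlus n F)) (Fin k → ℂ)), ρ.IsIrreducible → 2 ≤ k → (Fintype.card F ^ n - 1) * (Fintype.card F ^ (n - 1) + Fintype.card F) / (Fintype.card F ^ 2 - 1) ≤ k) := by
  classical
  intro k ρ hρ hk
  obtain ⟨j, rfl⟩ : ∃ j, n = j + 2 := ⟨n - 2, by omega⟩
  have hχ : IsIrrCharacter (Cfsg.Omega F (Cfsg.quadFormPlus (j + 2) F)) ρ.character :=
    ⟨k, ρ, hρ, rfl⟩
  have hd : ρ.character 1 = (k : ℂ) := by simp
  apply Nat.div_le_of_le_mul
  exact Cfsg.Agent.Lib.Helper44OMain.omega_main j (by omega) h3 ρ.character hχ (by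
    rw [hd]
    intro h
    have : k = 1 := by exact_mod_cast h
    omega) k hd

end Cfsg.Agent.S2345
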