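import Cfsg.Statements.S2347
import Cfsg.Agent.Lib.Helper44Weil6
import Cfsg.Agent.Lib.Helper44Weil7
-- import your own Cfsg.Agent.* helpers here

set_option autoImplicit false
open Cfsg

namespace Cfsg.Agent.S2347


/-- Smallest degree of a non-linear irreducible complex representation of the symplectic group Sp_{2n} over a finite field of odd order q, n ≥ 2: every irreducible complex representation of degree at least 2 has degree at least (q^n − 1)/2, and there is an irreducible complex representation of exactly that degree (a Weil representation). -/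
theorem result {F : Type*} [Field F] [Fintype F] [DecidableEq F] (n : ℕ) (hn : 2 ≤ n) (hodd : Odd (Fintype.card F)) :
    (∀ (k : ℕ) (ρ : Representation ℂ (Matrix.symplecticGroup (Fin n) F) (Fin k → ℂ)), ρ.IsIrreducible → 2 ≤ k → (Fintype.card F ^ n - 1) / 2 ≤ k) ∧
    (∃ ρ : Representation ℂ (Matrix.symplecticGroup (Fin n) F) (Fin ((Fintype.card F ^ n - 1) / 2) → ℂ), ρ.IsIrreducible) := by
  classical
  have h2 : (2 : F) ≠ 0 := by
    apply Ring.two_ne_zero
    intro h
    have := FiniteField.even_card_iff_char_two.mp h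
    rcases hodd with ⟨k, hk⟩
    omega
  have hq : 3 ≤ Fintype.card F := by
    have h1 : 1 < Fintype.card F := Fintype.one_lt_card
    rcases hodd with ⟨k, hk⟩
    omega
  obtain ⟨m, hm⟩ : ∃ m, Fintype.card F ^ n = 2 * m + 1 := hodd.pow
  have hm3 : 3 ≤ m := by
    have h1 : 3 ^ 2 ≤ Fintype.card F ^ n :=
      (Nat.pow_le_pow_left hq 2).trans (Nat.pow_le_pow_right (by omega) hn)
    omega
  have hmdiv : (Fintype.card F ^ n - 1) / 2 = m := by omega
  rw [hmdiv]
  constructor
  · intro k ρ hρ hk
    have hχ : IsIrrCharacter ↥(Matrix.symplecticGroup (Fin n) F) ρ.character := ⟨k, ρ, hρ, rfl⟩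
    have hd : ρ.character 1 = (k : ℂ) := by simp
    obtain ⟨z, hz⟩ := Cfsg.Agent.Lib.Helper44Wt.wt_nat Cfsg.Agent.Lib.Helper44SpSiegel.uSp
      ρ.character (Cfsg.Agent.Lib.Helper4Char.IsIrrCharacter.isCharacter hχ) 0
    have := Cfsg.Agent.Lib.Helper44SpSiegel.sp_bound h2 hn hq ρ.character hχ (by
      rw [hd]
      intro h
      have : k = 1 := by exact_mod_cast h
      omega) k z hd hz
    omega
  · let _ : Fintype ↥(Matrix.symplecticGroup (Fin n) F) := Fintype.ofFinite _
    obtain ⟨ω, hω, hω1, hneg, hsum⟩ := Cfsg.Agent.Lib.Helper44Weil6.exists_weil (n := n) h2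
    have hperf : commutator ↥(Matrix.symplecticGroup (Fin n) F) = ⊤ :=
      Cfsg.Agent.S0269.result n (by
        rcases Nat.lt_or_ge n 3 with h | h
        · right; left; exact ⟨by omega, hq⟩
        · left; exact h)
    obtain ⟨χ, hχ⟩ := Cfsg.Agent.Lib.Helper44Weil7.final_abs
      (Cfsg.Agent.Lib.Helper44Weil6.negOne F n) Cfsg.Agent.Lib.Helper44Weil6.negOne_mul_self
      Cfsg.Agent.Lib.Helper44Weil6.negOne_comm Cfsg.Agent.Lib.Helper44SpSiegel.uSp m hm3 ω hω
      (by rw [hω1, hm]) hneg hsum (by
        intro χ hχ d z hd hz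
        have h1 : (χ : ↥(Matrix.symplecticGroup (Fin n) F) → ℂ) 1 ≠ 1 := by
          intro h1
          apply hχ
          apply Subtype.ext
          funext g
          exact Cfsg.Agent.Lib.Helper82Linear.irr_linear_eq_one_of_mem_commutator χ h1
            (by rw [hperf]; trivial)
        have := Cfsg.Agent.Lib.Helper44SpSiegel.sp_bound h2 hn hq χ χ.2 h1 d z hd hz
        omega)
    obtain ⟨k, ρ, hρ, hchar⟩ := χ.2
    have hk : k = m := by
      rw [← hchar] at hχ
      have h3 : ρ.character 1 = (k : ℂ) := by simp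
      rw [h3] at hχ
      exact_mod_cast hχ
    subst hk
    exact ⟨ρ, hρ⟩

end Cfsg.Agent.S2347
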