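import Cfsg.Statements.S2352
import Cfsg.Agent.Lib.Helper44LawSL2
import Cfsg.Agent.Lib.Helper44Alt

set_option autoImplicit false
open Cfsg

namespace Cfsg.Agent.S2352

/-- A non-trivial law holds in only finitely many alternating groups: for every non-trivial element w of the free group on countably many generators there is N such that for all n ≥ N some substitution of elements of the alternating group of degree n into w is not the identity. -/
theorem result (w : FreeGroup ℕ) (hw : w ≠ 1) :
    ∃ N : ℕ, ∀ n : ℕ, N ≤ n → ∃ f : ℕ → alternatingGroup (Fin n), FreeGroup.lift f w ≠ 1 := by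
  classical
  obtain ⟨N, hN⟩ := Cfsg.Agent.Lib.Helper44LawSL2.sl2_law_fails w hw
  obtain ⟨p, hpN, hp⟩ := Nat.exists_infinite_primes N
  haveI : Fact p.Prime := ⟨hp⟩
  obtain ⟨g, hg⟩ := hN (ZMod p) (by rw [ZMod.card]; exact hpN)
  refine ⟨2 * Fintype.card (Matrix.SpecialLinearGroup (Fin 2) (ZMod p)), ?_⟩
  intro n hn
  obtain ⟨ι, hι⟩ := Cfsg.Agent.Lib.Helper44Alt.exists_embedding_alternating
    (Matrix.SpecialLinearGroup (Fin 2) (ZMod p)) n hn
  refine ⟨fun k => ι (g k), ?_⟩
  have h1 : ι (FreeGroup.lift g w) = FreeGroup.lift (fun k => ι (g k)) w := by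
    apply FreeGroup.lift_unique (ι.comp (FreeGroup.lift g))
    intro x
    simp
  rw [← h1]
  intro h
  have h2 : FreeGroup.lift g w = 1 := hι (by rw [h, map_one])
  apply hg
  rw [h2]
  simp

end Cfsg.Agent.S2352
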