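import Cfsg.Statements.S2353
import Cfsg.Agent.Lib.Helper44LawSL2

set_option autoImplicit false
open Cfsg

namespace Cfsg.Agent.S2353

/-- A non-trivial law holds in PSL_2 over only finitely many finite fields: for every non-trivial element w of the free group on countably many generators there is N such that over every finite field with at least N elements some substitution of elements of PSL_2 into w is not the identity. -/
theorem result (w : FreeGroup ℕ) (hw : w ≠ 1) :
    ∃ N : ℕ, ∀ (F : Type*) [Field F] [Fintype F], N ≤ Fintype.card F →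
      ∃ f : ℕ → Matrix.ProjectiveSpecialLinearGroup (Fin 2) F, FreeGroup.lift f w ≠ 1 := by
  obtain ⟨N, hN⟩ := Cfsg.Agent.Lib.Helper44LawSL2.sl2_law_fails w hw
  refine ⟨N, ?_⟩
  intro F _ _ hcard
  obtain ⟨g, hg⟩ := hN F hcard
  refine ⟨fun k => QuotientGroup.mk (g k), ?_⟩
  have h1 : (QuotientGroup.mk' (Subgroup.center (Matrix.SpecialLinearGroup (Fin 2) F)))
      (FreeGroup.lift g w) = FreeGroup.lift (fun k => (QuotientGroup.mk (g k) :
        Matrix.ProjectiveSpecialLinearGroup (Fin 2) F)) w := by
    apply FreeGroup.lift_unique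
      ((QuotientGroup.mk' (Subgroup.center (Matrix.SpecialLinearGroup (Fin 2) F))).comp
        (FreeGroup.lift g))
    intro x
    simp
  rw [← h1]
  intro h
  rw [QuotientGroup.mk'_apply, QuotientGroup.eq_one_iff,
    Matrix.SpecialLinearGroup.mem_center_iff] at h
  obtain ⟨r, _, hr⟩ := h
  apply hg
  rw [← hr]
  simp

end Cfsg.Agent.S2353
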