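import Cfsg.Statements.S2354
import Cfsg.Agent.Lib.Helper44Law

set_option autoImplicit false
open Cfsg

namespace Cfsg.Agent.S2354


open Matrix Cfsg.Agent.Lib.Helper44Law

variable {F : Type*} [Field F]

def uM (β σ : F) : Matrix (Fin 4) (Fin 4) F := !![1,0,0,0; 0,1,0,0; β,0,1,0; σ,β,0,1]

def vM : Matrix (Fin 4) (Fin 4) F := !![1,0,1,1; 0,1,0,1; 0,0,1,0; 0,0,0,1]

theorem uM_mul_self (h2 : (2 : F) = 0) (β σ : F) : uM β σ * uM β σ = 1 := by
  have hh : ∀ x : F, x + x = 0 := fun x => by linear_combination x * h2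
  ext i j
  fin_cases i <;> fin_cases j <;> simp [uM, Matrix.mul_apply, Fin.sum_univ_four, hh]

theorem vM_mul_self (h2 : (2 : F) = 0) : (vM : Matrix (Fin 4) (Fin 4) F) * vM = 1 := by
  have hh : ∀ x : F, x + x = 0 := fun x => by linear_combination x * h2
  ext i j
  fin_cases i <;> fin_cases j <;> simp [vM, Matrix.mul_apply, Fin.sum_univ_four, hh]

def uG (h2 : (2 : F) = 0) (β σ : F) : GL (Fin 4) F :=
  ⟨uM β σ, uM β σ, uM_mul_self h2 β σ, uM_mul_self h2 β σ⟩

def vG (h2 : (2 : F) = 0) : GL (Fin 4) F :=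
  ⟨vM, vM, vM_mul_self h2, vM_mul_self h2⟩

def hvec (a t : F) : Bool → Fin 4 → F := fun b => cond b ![a, t, t⁻¹, a⁻¹] ![a⁻¹, t⁻¹, t, a]

theorem hvec_mul (a t : F) (ha : a ≠ 0) (ht : t ≠ 0) (b : Bool) :
    Matrix.diagonal (hvec a t b) * Matrix.diagonal (hvec a t (!b)) = 1 := by
  rw [Matrix.diagonal_mul_diagonal]
  ext i j
  cases b <;> fin_cases i <;> fin_cases j <;> simp [hvec, ha, ht]

def hG (a t : F) (ha : a ≠ 0) (ht : t ≠ 0) : GL (Fin 4) F :=
  ⟨Matrix.diagonal (hvec a t true), Matrix.diagonal (hvec a t false),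
    hvec_mul a t ha ht true, hvec_mul a t ha ht false⟩

theorem uG_mem (h2 : (2 : F) = 0) (e : ℕ) (he : e ≠ 0) (β : F) (hβ : (β ^ e) ^ e = β ^ 2) :
    uG h2 β (β ^ e) ∈ Cfsg.Lie.Sz F e := by
  apply Subgroup.subset_closure
  refine ⟨?_, ?_⟩
  · intro u v
    simp only [Units.coeHom_apply, uG, Cfsg.Lie.altForm4, uM, Matrix.mulVec, dotProduct,
      Fin.sum_univ_four]
    simp
    linear_combination (β ^ e * u 0 * v 0 + β * u 0 * v 1 + β * u 1 * v 0) * h2
  · have hneg : ∀ x : F, -x = x := fun x => by linear_combination (-x) * h2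
    ext p r
    fin_cases p <;> fin_cases r <;>
      simp [Cfsg.Lie.star4, Cfsg.Lie.pairOf, uG, uM, he, hneg, hβ, pow_two]

theorem vG_mem (h2 : (2 : F) = 0) (e : ℕ) (he : e ≠ 0) :
    vG h2 ∈ Cfsg.Lie.Sz F e := by
  apply Subgroup.subset_closure
  refine ⟨?_, ?_⟩
  · intro u v
    simp only [Units.coeHom_apply, vG, Cfsg.Lie.altForm4, vM, Matrix.mulVec, dotProduct,
      Fin.sum_univ_four]
    simp
    linear_combination (u 3 * v 3 + u 2 * v 3 + u 3 * v 2) * h2
  · have hneg : ∀ x : F, -x = x := fun x => by linear_combination (-x) * h2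
    ext p r
    fin_cases p <;> fin_cases r <;>
      simp [Cfsg.Lie.star4, Cfsg.Lie.pairOf, vG, vM, he, hneg]

theorem hG_mem (e : ℕ) (he : e ≠ 0) (t : F) (ht : t ≠ 0) (hθ : (t ^ e) ^ e = t ^ 2) :
    hG (t ^ (e + 1)) t (pow_ne_zero _ ht) ht ∈ Cfsg.Lie.Sz F e := by
  apply Subgroup.subset_closure
  refine ⟨?_, ?_⟩
  · intro u v
    simp only [Units.coeHom_apply, hG, Cfsg.Lie.altForm4, hvec, Matrix.mulVec_diagonal]
    simp
    field_simp
  · have h1 : (t ^ (e + 1)) ^ e = t ^ (e + 1) * t := by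
      rw [pow_succ, mul_pow, hθ]; ring
    ext p r
    fin_cases p <;> fin_cases r <;>
      simp [Cfsg.Lie.star4, Cfsg.Lie.pairOf, hG, hvec, he, h1]
    · field_simp
      ring
    · field_simp
      ring

def idx4 : Bool → Fin 4 := fun b => cond b 0 3

def e4 (θ : ℕ) : Bool → Fin 4 → ℕ :=
  fun b => cond b ![2 * θ + 2, θ + 2, θ, 0] ![0, θ, θ + 2, 2 * θ + 2]

def Pm (θ : ℕ) (β : ℕ → F) (k : ℕ) : Matrix (Fin 4) (Fin 4) F := uM (β k) (β k ^ θ) * vM

def Pm' (θ : ℕ) (β : ℕ → F) (k : ℕ) : Matrix (Fin 4) (Fin 4) F := vM * uM (β k) (β k ^ θ)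

theorem corner (h2 : (2 : F) = 0) (β σ β' σ' : F) :
    ((vM * uM β σ) * (uM β' σ' * vM) : Matrix (Fin 4) (Fin 4) F) 0 0 = 1 + (β + β') + (σ + σ') ∧
    ((vM * uM β σ) * (uM β' σ' * vM) : Matrix (Fin 4) (Fin 4) F) 0 3 = σ + σ' ∧
    ((vM * uM β σ) * (uM β' σ' * vM) : Matrix (Fin 4) (Fin 4) F) 3 0 = σ + σ' ∧
    ((vM * uM β σ) * (uM β' σ' * vM) : Matrix (Fin 4) (Fin 4) F) 3 3 = 1 + (β + β') + (σ + σ') := by
  refine ⟨?_, ?_, ?_, ?_⟩
  · simp [uM, vM, Matrix.mul_apply, Fin.sum_univ_four]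
    ring
  · simp [uM, vM, Matrix.mul_apply, Fin.sum_univ_four]
    linear_combination (1 + β + β') * h2
  · simp [uM, vM, Matrix.mul_apply, Fin.sum_univ_four]
  · simp [uM, vM, Matrix.mul_apply, Fin.sum_univ_four]
    ring

/-- A non-trivial law holds in only finitely many Suzuki groups: for every non-trivial element w of the free group on countably many generators there is N such that for q = 2^(2m+1) with m ≥ N some substitution of elements of the Suzuki group over the field with q elements into w is not the identity. -/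
theorem result (w : FreeGroup ℕ) (hw : w ≠ 1) :
    ∃ N : ℕ, ∀ (F : Type*) [Field F] [Fintype F] (m : ℕ), 1 ≤ m → N ≤ m →
      Fintype.card F = 2 ^ (2 * m + 1) →
      ∃ f : ℕ → ↥(Cfsg.Lie.Sz F (2 ^ (m + 1))), FreeGroup.lift f w ≠ 1 := by
  classical
  set L := w.toWord with hL
  have hLne : L ≠ [] := by
    rw [hL, Ne, FreeGroup.toWord_eq_nil_iff]; exact hw
  have hlen : 1 ≤ L.length := List.length_pos_iff.mpr hLne
  set K := (L.map Prod.fst).toFinset.sup id + 1 with hK
  refine ⟨4 * L.length + K + 1, ?_⟩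
  intro F _ _ m _ hm hcard
  set θ := 2 ^ (m + 1) with hθ
  have hθ0 : θ ≠ 0 := by rw [hθ]; positivity
  have h2 : (2 : F) = 0 := by
    have h := FiniteField.cast_card_eq_zero F
    rw [hcard] at h
    push_cast at h
    exact pow_eq_zero_iff (by omega) |>.mp h
  have : CharP F 2 := CharTwo.of_one_ne_zero_of_two_eq_zero one_ne_zero h2
  have hadd : ∀ x : F, x + x = 0 := fun x => by linear_combination x * h2
  have hθθ : ∀ x : F, (x ^ θ) ^ θ = x ^ 2 := by
    intro x
    rw [← pow_mul, hθ, ← pow_add]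
    have : m + 1 + (m + 1) = (2 * m + 1) + 1 := by ring
    rw [this, pow_succ, ← hcard, pow_mul, FiniteField.pow_card]
  have haddpow : ∀ x y : F, (x + y) ^ θ = x ^ θ + y ^ θ := by
    intro x y
    rw [hθ]
    exact add_pow_char_pow x y 2 (m + 1)
  have hkey : ∀ s : F, 1 + s + s ^ θ ≠ 0 := by
    intro s hs
    have h1 : (1 + s + s ^ θ) ^ θ = 0 := by rw [hs]; exact zero_pow hθ0
    rw [haddpow, haddpow, one_pow, hθθ] at h1
    have h3 : s ^ 2 + s = 0 := by linear_combination h1 + hs - (1 + s ^ θ) * h2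
    have h4 : s * (s + 1) = 0 := by linear_combination h3
    rcases mul_eq_zero.mp h4 with h5 | h5
    · rw [h5, zero_pow hθ0] at hs
      simp at hs
    · have h6 : s = 1 := by linear_combination h5 - h2
      rw [h6, one_pow] at hs
      have : (1 : F) = 0 := by linear_combination hs - h2
      exact one_ne_zero this
  set q := Fintype.card F with hq
  have hmq : m < 2 ^ m := Nat.lt_two_pow_self
  have hq' : q = θ * 2 ^ m := by
    rw [hcard, hθ, ← pow_add]; congr 1; ring
  have hθ2 : 2 ≤ θ := by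
    rw [hθ, pow_succ]
    have : 1 ≤ 2 ^ m := Nat.one_le_two_pow
    omega
  have hqK : K < q := by
    rw [hq']
    calc K < 2 ^ m := by omega
      _ ≤ θ * 2 ^ m := Nat.le_mul_of_pos_left _ (by omega)
  have hq0 : 0 < q := by omega
  let eqv : F ≃ Fin q := Fintype.equivFin F
  let β : ℕ → F := fun i => eqv.symm ⟨i % q, Nat.mod_lt _ hq0⟩
  have hβ' : ∀ i j, i < K → j < K → i ≠ j → β i ≠ β j := by
    intro i j hi hj hij h
    have := eqv.symm.injective h
    simp only [Fin.mk.injEq] at this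
    rw [Nat.mod_eq_of_lt (by omega), Nat.mod_eq_of_lt (by omega)] at this
    exact hij this
  have hS : ∀ y ∈ L, y.1 ∈ {k | k < K} := by
    intro y hy
    have : y.1 ∈ (L.map Prod.fst).toFinset := by
      simp only [List.mem_toFinset, List.mem_map]
      exact ⟨y, hy, rfl⟩
    have := Finset.le_sup (f := id) this
    simp only [id] at this
    simp only [Set.mem_ofPred_eq]
    omega
  have hbig : (2 * θ + 2) * L.length + 1 < q := by
    rw [hq']
    have h4 : 4 * L.length + 1 ≤ 2 ^ m := by omega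
    calc (2 * θ + 2) * L.length + 1 < θ * (4 * L.length + 1) := by nlinarith
      _ ≤ θ * 2 ^ m := Nat.mul_le_mul_left _ h4
  obtain ⟨t, ht, hne⟩ := exists_entry_ne_zero (Pm θ β) (Pm' θ β) (e4 θ) 0 3 idx4 (2 * θ + 2) (θ + 1)
    {k | k < K} (fun t => hvec (t ^ (θ + 1)) t)
    (by
      intro t ht b i
      cases b <;> fin_cases i <;> simp [e4, hvec, ht] <;> field_simp <;> ring)
    (by
      intro b i hi
      cases b <;> fin_cases i <;> simp_all [e4, idx4] <;> omega)
    (by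
      intro b
      cases b <;> simp [e4, idx4])
    (by
      intro k _ b
      cases b <;> simp [Pm, idx4, uM, vM, Matrix.mul_apply, Fin.sum_univ_four])
    (by
      intro k _ b
      cases b <;> simp [Pm', idx4, uM, vM, Matrix.mul_apply, Fin.sum_univ_four])
    (by
      intro k hk l hl b b' hbb
      simp only [Set.mem_ofPred_eq] at hk hl
      obtain ⟨c00, c03, c30, c33⟩ := corner h2 (β k) (β k ^ θ) (β l) (β l ^ θ)
      have hs1 : 1 + (β k + β l) + (β k ^ θ + β l ^ θ) ≠ 0 := by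
        rw [← haddpow]; exact hkey _
      by_cases hkl : k = l
      · have hb := hbb hkl
        subst hb
        cases b
        · simp only [idx4, Pm, Pm', cond_false]; rw [c33]; exact hs1
        · simp only [idx4, Pm, Pm', cond_true]; rw [c00]; exact hs1
      · have hs2 : β k ^ θ + β l ^ θ ≠ 0 := by
          rw [← haddpow]
          apply pow_ne_zero
          intro h
          apply hβ' k l hk hl hkl
          linear_combination h - β l * h2
        cases b <;> cases b' <;> simp only [idx4, Pm, Pm', cond_false, cond_true]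
        · rw [c33]; exact hs1
        · rw [c30]; exact hs2
        · rw [c03]; exact hs2
        · rw [c00]; exact hs1)
    L hLne FreeGroup.isReduced_toWord hS hbig
  have hta : t ^ (θ + 1) ≠ 0 := pow_ne_zero _ ht
  let g0 : ℕ → GL (Fin 4) F := fun k =>
    uG h2 (β k) (β k ^ θ) * vG h2 * hG (t ^ (θ + 1)) t hta ht * vG h2 * uG h2 (β k) (β k ^ θ)
  have hg0 : ∀ k, g0 k ∈ Cfsg.Lie.Sz F θ := by
    intro k
    have hu := uG_mem h2 θ hθ0 (β k) (hθθ _)
    have hv := vG_mem (F := F) h2 θ hθ0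
    have hh := hG_mem θ hθ0 t ht (hθθ _)
    exact mul_mem (mul_mem (mul_mem (mul_mem hu hv) hh) hv) hu
  let g : ℕ → ↥(Cfsg.Lie.Sz F θ) := fun k => ⟨g0 k, hg0 k⟩
  refine ⟨g, ?_⟩
  let φ : ↥(Cfsg.Lie.Sz F θ) →* Matrix (Fin 4) (Fin 4) F :=
    (Units.coeHom _).comp (Subgroup.subtype _)
  have hinv : ∀ k, (g0 k)⁻¹ =
      uG h2 (β k) (β k ^ θ) * vG h2 * (hG (t ^ (θ + 1)) t hta ht)⁻¹ * vG h2 * uG h2 (β k) (β k ^ θ) := by
    intro k
    have hu : (uG h2 (β k) (β k ^ θ))⁻¹ = uG h2 (β k) (β k ^ θ) := rfl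
    have hv : (vG (F := F) h2)⁻¹ = vG h2 := rfl
    simp only [g0, _root_.mul_inv_rev, hu, hv, mul_assoc]
  have key := lift_eq_prod φ (Pm θ β) (Pm' θ β) (hvec (t ^ (θ + 1)) t) g
    (fun k => by
      show ((g0 k : GL (Fin 4) F) : Matrix (Fin 4) (Fin 4) F) = _
      simp only [g0, Units.val_mul, letterMat, Pm, Pm', Matrix.mul_assoc]
      rfl)
    (fun k => by
      show (((g0 k)⁻¹ : GL (Fin 4) F) : Matrix (Fin 4) (Fin 4) F) = _
      rw [hinv k]
      simp only [Units.val_mul, letterMat, Pm, Pm', Matrix.mul_assoc]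
      rfl) L
  rw [hL, FreeGroup.mk_toWord] at key
  intro h
  rw [h, map_one] at key
  apply hne
  rw [← hL] at key
  rw [← key]
  simp

end Cfsg.Agent.S2354
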