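import Cfsg.Statements.S2355
import Cfsg.Agent.Lib.Helper44LawNC
import Cfsg.Agent.Lib.Helper44LawSU
import Cfsg.Agent.Lib.Helper44LawEmb
import Cfsg.Agent.Lib.Helper44LawEmb2
import Cfsg.Agent.Lib.Helper44Alt

set_option autoImplicit false
open Cfsg

namespace Cfsg.Agent.S2355


open Cfsg.Agent.Lib.Helper44LawNC Cfsg.Agent.Lib.Helper44LawSU Cfsg.Agent.Lib.Helper44LawEmb
  Cfsg.Agent.Lib.Helper44LawEmb2 Cfsg.Agent.Lib.Helper44Alt

theorem card_bound {G S : Type*} [Group G] [Group S] {ι : Type} [Fintype ι] [DecidableEq ι]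
    {F : Type} [Field F] [Fintype F] (e : G ≃* S ⧸ Subgroup.center S) (j : S → Matrix ι ι F)
    (hj : Function.Injective j) (Q D : ℕ) (hQ : Fintype.card F ≤ Q) (hD : Fintype.card ι ≤ D) :
    Nat.card G ≤ Q ^ (D * D) := by
  classical
  have : Finite S := Finite.of_injective j hj
  have hQ0 : 0 < Q := lt_of_lt_of_le Fintype.card_pos hQ
  calc Nat.card G = Nat.card (S ⧸ Subgroup.center S) := Nat.card_congr e.toEquiv
    _ ≤ Nat.card S := Nat.card_le_card_of_surjective _ (QuotientGroup.mk_surjective)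
    _ ≤ Nat.card (Matrix ι ι F) := Nat.card_le_card_of_injective j hj
    _ = Fintype.card F ^ (Fintype.card ι * Fintype.card ι) := by
        rw [Nat.card_eq_fintype_card]
        show Fintype.card (ι → ι → F) = _
        rw [Fintype.card_fun, Fintype.card_fun, ← pow_mul]
    _ ≤ Q ^ (Fintype.card ι * Fintype.card ι) := Nat.pow_le_pow_left hQ _
    _ ≤ Q ^ (D * D) := Nat.pow_le_pow_right hQ0 (Nat.mul_le_mul hD hD)

/-- A non-trivial law is satisfied by only finitely many finite simple groups that are alternating or classical, up to isomorphism: for every non-trivial element w of the free group on countably many generators there is a bound N such that every alternating group of degree ≥ 5 and every simple classical group (linear, symplectic, unitary or orthogonal, in this problem's sense) in which w is a law has order at most N. -/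
theorem result (w : FreeGroup ℕ) (hw : w ≠ 1) :
    ∃ N : ℕ, ∀ (G : Type*) [Group G] [Finite G],
      (Cfsg.IsAlternating G ∨ Cfsg.IsPSL G ∨ Cfsg.IsPSp G ∨ Cfsg.IsPSU G ∨ Cfsg.IsPOmegaOdd G ∨
          Cfsg.IsPOmegaPlus G ∨ Cfsg.IsPOmegaMinus G) →
      (∀ f : ℕ → G, FreeGroup.lift f w = 1) → Nat.card G ≤ N := by
  classical
  obtain ⟨N₁', hN₁'⟩ := NC_sl2 w hw
  obtain ⟨N₂, hN₂⟩ := NC_su2 w hw
  set N₁ := max N₁' 4 with hN₁
  obtain ⟨p, hpN, hp⟩ := Nat.exists_infinite_primes N₁
  have : Fact p.Prime := ⟨hp⟩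
  have hH3NC : NC w (Matrix.SpecialLinearGroup (Fin 2) (ZMod p)) :=
    hN₁' (ZMod p) (by rw [ZMod.card]; exact le_trans (le_max_left _ _) hpN)
  have hH3perf : _root_.commutator (Matrix.SpecialLinearGroup (Fin 2) (ZMod p)) = ⊤ :=
    sl2_perfect (ZMod p) (by rw [ZMod.card]; exact le_trans (le_max_right _ _) hpN)
  set M₃ := 2 * Fintype.card (Matrix.SpecialLinearGroup (Fin 2) (ZMod p)) with hM₃
  -- existence of a perfect group with a faithful matrix representation
  have good : ∀ (F : Type) [Field F] [Fintype F] (m : ℕ),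
      ((2 ≤ m ∧ N₁ ≤ Fintype.card F) ∨ M₃ ≤ m) →
      ∃ (H : Type) (_ : Group H), _root_.commutator H = ⊤ ∧ NC w H ∧
        ∃ ρ : H →* Matrix (Fin m) (Fin m) F, Function.Injective ρ := by
    intro F _ _ m h
    rcases h with ⟨hm, hF⟩ | hm
    · refine ⟨Matrix.SpecialLinearGroup (Fin 2) F, inferInstance,
        sl2_perfect F (le_trans (le_max_right _ _) hF),
        hN₁' F (le_trans (le_max_left _ _) hF),
        (blockHom m hm).comp Cfsg.Agent.Lib.Helper44LawSL2.coeHom2, ?_⟩
      intro x y hxy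
      exact Subtype.ext (blockHom_injective m hm hxy)
    · obtain ⟨ι, hι⟩ := exists_embedding_alternating
        (Matrix.SpecialLinearGroup (Fin 2) (ZMod p)) m hm
      refine ⟨Matrix.SpecialLinearGroup (Fin 2) (ZMod p), inferInstance, hH3perf, hH3NC,
        (Matrix.permMatrixHom (n := Fin m) (R := F)).comp
          ((alternatingGroup (Fin m)).subtype.comp ι), ?_⟩
      intro x y hxy
      exact hι (Subtype.ext (permMatrixHom_injective m hxy))
  set Q₀ := N₁ + N₂ ^ 2 with hQ₀
  set D₀ := 2 * M₃ + 2 with hD₀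
  refine ⟨Q₀ ^ (D₀ * D₀) + M₃.factorial, ?_⟩
  intro G _ _ hfam hlaw
  have hcontra : ∀ {S : Type} [Group S], NC w S → (G ≃* S ⧸ Subgroup.center S) → False := by
    intro S _ hNC e
    obtain ⟨f, hf⟩ := hNC.law_fails e
    exact hf (hlaw f)
  rcases hfam with h | h | h | h | h | h | h
  · -- alternating
    obtain ⟨n, _, ⟨e⟩⟩ := h
    by_cases hn : M₃ ≤ n
    · exfalso
      obtain ⟨ι, hι⟩ := exists_embedding_alternating
        (Matrix.SpecialLinearGroup (Fin 2) (ZMod p)) n hn
      obtain ⟨g, hg⟩ := hH3NC.ne_one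
      apply hg
      have h1 := hlaw (fun k => e.symm (ι (g k)))
      have h2 := lift_comp (e.symm.toMonoidHom.comp ι) g w
      have h3 : e.symm (ι (FreeGroup.lift g w)) = 1 := by
        rw [← h1]; exact h2.symm
      have h4 : ι (FreeGroup.lift g w) = 1 := by
        have := congrArg e h3
        simpa using this
      exact hι (by rw [h4, map_one])
    · have h1 : Nat.card G ≤ n.factorial := by
        calc Nat.card G = Nat.card (alternatingGroup (Fin n)) := Nat.card_congr e.toEquiv
          _ ≤ Nat.card (Equiv.Perm (Fin n)) :=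
              Nat.card_le_card_of_injective _ Subtype.val_injective
          _ = n.factorial := by
              rw [Nat.card_eq_fintype_card, Fintype.card_perm, Fintype.card_fin]
      have h2 : n.factorial ≤ M₃.factorial := Nat.factorial_le (by omega)
      omega
  · -- PSL
    obtain ⟨F, _, _, n, hn2, _, ⟨e⟩⟩ := h
    by_cases hc : (2 ≤ n ∧ N₁ ≤ Fintype.card F) ∨ M₃ ≤ n
    · exfalso
      obtain ⟨H, _, hperf, hNC, ρ, hρ⟩ := good F n hc
      exact hcontra (NC_SL hNC hperf ρ hρ) e
    · have h1 := card_bound e (fun x => x.1) Subtype.val_injective Q₀ D₀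
        (by omega) (by rw [Fintype.card_fin]; omega)
      omega
  · -- PSp
    obtain ⟨F, _, _, m, hm2, _, ⟨e⟩⟩ := h
    by_cases hc : (2 ≤ m ∧ N₁ ≤ Fintype.card F) ∨ M₃ ≤ m
    · exfalso
      obtain ⟨H, _, hperf, hNC, ρ, hρ⟩ := good F m hc
      exact hcontra (NC_Sp hNC ρ hρ) e
    · have h1 := card_bound e (fun x => x.1) Subtype.val_injective Q₀ D₀
        (by omega) (by rw [Fintype.card_sum, Fintype.card_fin]; omega)
      omega
  · -- PSU
    obtain ⟨F, _, _, n, q, hF, hn3, _, ⟨e⟩⟩ := h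
    by_cases hc : N₂ ≤ q ∨ M₃ ≤ n
    · exfalso
      rcases hc with hq | hn
      · obtain ⟨ψ, hψ⟩ := exists_SU_block (F := F) n q (by omega)
        exact hcontra ((hN₂ F q hF hq).of_injective ψ hψ) e
      · obtain ⟨ι, hι⟩ := exists_embedding_alternating
          (Matrix.SpecialLinearGroup (Fin 2) (ZMod p)) n hn
        obtain ⟨ψ, hψ⟩ := exists_SU_perm (F := F) n q
        exact hcontra ((hH3NC.of_injective ι hι).of_injective ψ hψ) e
    · have hq : q < N₂ := by omega
      have hq2 : q ^ 2 ≤ N₂ ^ 2 := Nat.pow_le_pow_left hq.le 2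
      have h1 := card_bound e (fun x => x.1.1)
        (fun x y hxy => Subtype.ext (Subtype.ext hxy)) Q₀ D₀
        (by omega) (by rw [Fintype.card_fin]; omega)
      omega
  · -- POmegaOdd
    obtain ⟨F, _, _, m, hm3, _, ⟨e⟩⟩ := h
    by_cases hc : (2 ≤ m ∧ N₁ ≤ Fintype.card F) ∨ M₃ ≤ m
    · exfalso
      obtain ⟨H, _, hperf, hNC, ρ, hρ⟩ := good F m hc
      exact hcontra (NC_OmegaOdd hNC hperf ρ hρ) e
    · have h1 := card_bound (ι := Unit ⊕ (Fin m ⊕ Fin m)) e (fun x => Units.val x.1.1)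
        (fun x y hxy => Subtype.ext (Subtype.ext (Units.ext hxy))) Q₀ D₀
        (by omega) (by simp only [Fintype.card_sum, Fintype.card_fin, Fintype.card_unit]; omega)
      omega
  · -- POmegaPlus
    obtain ⟨F, _, _, m, hm4, ⟨e⟩⟩ := h
    by_cases hc : (2 ≤ m ∧ N₁ ≤ Fintype.card F) ∨ M₃ ≤ m
    · exfalso
      obtain ⟨H, _, hperf, hNC, ρ, hρ⟩ := good F m hc
      exact hcontra (NC_OmegaPlus hNC hperf ρ hρ) e
    · have h1 := card_bound (ι := Fin m ⊕ Fin m) e (fun x => Units.val x.1.1)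
        (fun x y hxy => Subtype.ext (Subtype.ext (Units.ext hxy))) Q₀ D₀
        (by omega) (by simp only [Fintype.card_sum, Fintype.card_fin]; omega)
      omega
  · -- POmegaMinus
    obtain ⟨F, _, _, m, a, b, hm4, _, ⟨e⟩⟩ := h
    by_cases hc : (2 ≤ m - 1 ∧ N₁ ≤ Fintype.card F) ∨ M₃ ≤ m - 1
    · exfalso
      obtain ⟨H, _, hperf, hNC, ρ, hρ⟩ := good F (m - 1) hc
      exact hcontra (NC_OmegaMinus a b hNC hperf ρ hρ) e
    · have h1 := card_bound (ι := (Fin (m - 1) ⊕ Fin (m - 1)) ⊕ Fin 2) e (fun x => Units.val x.1.1)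
        (fun x y hxy => Subtype.ext (Subtype.ext (Units.ext hxy))) Q₀ D₀
        (by omega) (by simp only [Fintype.card_sum, Fintype.card_fin]; omega)
      omega

end Cfsg.Agent.S2355
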