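import Cfsg.Statements.S2390
import Cfsg.Agent.Lib.Helper48SUConj

set_option autoImplicit false
open Cfsg

namespace Cfsg.Agent.S2390

open Matrix Cfsg.Agent.Lib.Helper48WallU Cfsg.Agent.Lib.Helper48SUConj
  Cfsg.Agent.Lib.Helper45Semisimple

/-- the embedding of `SU` into `GL` -/
def emb (n : ℕ) (F : Type*) [Field F] (q : ℕ) : ↥(Cfsg.SU n F q) →* GL (Fin n) F :=
  (Matrix.SpecialLinearGroup.toGL).comp (Subgroup.subtype _)

theorem emb_val {n : ℕ} {F : Type*} [Field F] {q : ℕ} (g : ↥(Cfsg.SU n F q)) :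
    (emb n F q g).1 = g.1.1 := rfl

theorem emb_inj {n : ℕ} {F : Type*} [Field F] {q : ℕ} : Function.Injective (emb n F q) := by
  intro a b h
  apply Subtype.ext
  apply Subtype.ext
  have := congrArg Units.val h
  rwa [emb_val, emb_val] at this

theorem emb_mem {n : ℕ} {F : Type*} [Field F] [Fintype F] {q : ℕ} (hF : Fintype.card F = q ^ 2)
    (g : ↥(Cfsg.SU n F q)) : emb n F q g ∈ Cfsg.GU n F q := by
  rw [Cfsg.Agent.Lib.Helper7GU.mem_GU_iff hF, emb_val,
    ← Cfsg.Agent.Lib.Helper7SU.mem_SU_iff hF]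
  exact g.2

theorem exists_emb {n : ℕ} {F : Type*} [Field F] [Fintype F] {q : ℕ} (hF : Fintype.card F = q ^ 2)
    (s : GL (Fin n) F) (hs : s ∈ Cfsg.GU n F q) (hd : s.1.det = 1) :
    ∃ t : ↥(Cfsg.SU n F q), emb n F q t = s := by
  let s' : Matrix.SpecialLinearGroup (Fin n) F := ⟨s.1, hd⟩
  refine ⟨⟨s', ?_⟩, ?_⟩
  · rw [Cfsg.Agent.Lib.Helper7SU.mem_SU_iff hF, ← Cfsg.Agent.Lib.Helper7GU.mem_GU_iff hF]
    exact hs
  · apply Units.ext
    rfl

theorem result {F : Type*} [Field F] [Fintype F] {q : ℕ} (hF : Fintype.card F = q ^ 2) (p : ℕ) [Fact p.Prime] [CharP F p] (n : ℕ)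
    (g h : ↥(Cfsg.SU n F q)) (hg : (orderOf g).Coprime p) (hh : (orderOf h).Coprime p)
    (hc : ((g : Matrix.SpecialLinearGroup (Fin n) F) : Matrix (Fin n) (Fin n) F).charpoly =
      ((h : Matrix.SpecialLinearGroup (Fin n) F) : Matrix (Fin n) (Fin n) F).charpoly) : IsConj g h := by
  rcases Nat.eq_zero_or_pos n with rfl | hn
  · have : g = h := Subtype.ext (Subtype.ext (Subsingleton.elim _ _))
    rw [this]
  obtain ⟨φ, hφq, hφ2, ω, hω⟩ := exists_frob hF
  have hg' : (orderOf (emb n F q g)).Coprime p := by rwa [orderOf_injective _ emb_inj]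
  have hh' : (orderOf (emb n F q h)).Coprime p := by rwa [orderOf_injective _ emb_inj]
  have hconj := gl_isConj_of_charpoly_eq p (emb n F q g) (emb n F q h) hg' hh' hc
  rw [isConj_iff] at hconj
  obtain ⟨x, hx⟩ := hconj
  obtain ⟨y, hy, hyg⟩ := conj_GU hF _ _ (emb_mem hF g) (emb_mem hF h) x hx
  have hyd : φ y.1.det * y.1.det = 1 := by
    rw [← det_sth, ← Matrix.det_mul, (mem_GU_iff' hF φ hφq y).1 hy, Matrix.det_one]
  have hyd0 : y.1.det ≠ 0 := by
    intro h0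
    rw [h0, mul_zero] at hyd
    exact zero_ne_one hyd
  obtain ⟨u, hu, hug, hud⟩ := exists_unitary hF p φ hφq hφ2 ω hω hn (emb n F q g) (emb_mem hF g) hg'
    (y.1.det)⁻¹ (by rw [map_inv₀, ← mul_inv, hyd, inv_one])
  obtain ⟨t, ht⟩ := exists_emb hF (y * u) (Subgroup.mul_mem _ hy hu)
    (by rw [Units.val_mul, Matrix.det_mul, hud, mul_inv_cancel₀ hyd0])
  rw [isConj_iff]
  refine ⟨t, ?_⟩
  apply emb_inj
  rw [map_mul, map_mul, map_inv, ht, ← hyg]
  calc y * u * emb n F q g * (y * u)⁻¹ = y * (u * emb n F q g) * u⁻¹ * y⁻¹ := by group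
    _ = y * emb n F q g * y⁻¹ := by rw [hug]; group

end Cfsg.Agent.S2390
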