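import Cfsg.Statements.S2360
import Cfsg.Agent.Lib.Helper48SU3
import Cfsg.Agent.Lib.Helper21Action
import Cfsg.Agent.S2390

set_option autoImplicit false
open Cfsg

namespace Cfsg.Agent.S2360

open Matrix Polynomial Cfsg.Agent.Lib.Helper48WallU Cfsg.Agent.Lib.Helper48SUConj
  Cfsg.Agent.Lib.Helper48SU3

section

variable {F : Type*} [Field F] [Fintype F] {q : ℕ}

theorem two_ne_zero' (hq : Odd q) (hF : Fintype.card F = q ^ 2) : (2 : F) ≠ 0 := by
  intro h
  have h1 : ringChar F ∣ 2 := by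
    have := (ringChar.spec F 2).1 (by exact_mod_cast h)
    exact this
  have h2 : ringChar F = 2 := by
    rcases (Nat.dvd_prime Nat.prime_two).1 h1 with h3 | h3
    · exact absurd h3 (CharP.ringChar_ne_one)
    · exact h3
  have h3 : Even (Fintype.card F) :=
    Nat.even_iff.2 ((FiniteField.even_card_iff_char_two).1 h2)
  rw [hF] at h3
  exact (Nat.not_even_iff_odd.2 hq.pow) h3

omit [Fintype F] in
theorem coe_ne {x y : ↥(Cfsg.SU 3 F q)} (h : x ≠ y) : x.1.1 ≠ y.1.1 :=
  fun h' => h (Subtype.ext (Subtype.ext h'))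

theorem isConj_invol (hq : Odd q) (hF : Fintype.card F = q ^ 2) (t x : ↥(Cfsg.SU 3 F q))
    (ht : t ≠ 1) (ht2 : t * t = 1) (hx : x ≠ 1) (hx2 : x * x = 1) : IsConj t x := by
  obtain ⟨p, hp⟩ := CharP.exists F
  have hpp : Fact p.Prime := ⟨(CharP.char_is_prime_or_zero F p).resolve_right
    (CharP.char_ne_zero_of_finite F p)⟩
  have h2 := two_ne_zero' hq hF
  have hp2 : p ≠ 2 := by
    rintro rfl
    exact h2 (by exact_mod_cast CharP.cast_eq_zero F 2)
  have hcop : Nat.Coprime 2 p := by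
    rw [Nat.coprime_primes Nat.prime_two hpp.out]
    exact hp2.symm
  have ho : ∀ y : ↥(Cfsg.SU 3 F q), y ≠ 1 → y * y = 1 → orderOf y = 2 := by
    intro y hy hy2
    exact orderOf_eq_prime (by rw [sq, hy2]) hy
  have hc : ∀ y : ↥(Cfsg.SU 3 F q), y ≠ 1 → y * y = 1 → y.1.1.charpoly = X ^ 3 + X ^ 2 - X - 1 := by
    intro y hy hy2
    exact charpoly_invol y.1.1 y.1.2 (congrArg (fun z : ↥(Cfsg.SU 3 F q) => z.1.1) hy2) (coe_ne hy)
  exact Cfsg.Agent.S2390.result hF p 3 t x (by rw [ho t ht ht2]; exact hcop)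
    (by rw [ho x hx hx2]; exact hcop) (by rw [hc t ht ht2, hc x hx hx2])

theorem third (hq : Odd q) (hF : Fintype.card F = q ^ 2) (t x y : ↥(Cfsg.SU 3 F q))
    (ht : t ≠ 1) (ht2 : t * t = 1) (hx : x ≠ 1) (hx2 : x * x = 1) (hxt : x ≠ t)
    (hcx : Commute t x) (hy : y ≠ 1) (hy2 : y * y = 1) (hyt : y ≠ t) (hcy : Commute t y)
    (hxy : Commute x y) : y = x ∨ y = t * x := by
  have h2 := two_ne_zero' hq hF
  obtain ⟨t₀, ht₀⟩ := exists_t0 hF
  have ht₀1 : t₀ ≠ 1 := by
    intro h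
    have h3 : t₀.1.1 = 1 := by rw [h]; rfl
    rw [ht₀] at h3
    have h3' : blk (-1 : Matrix (Fin 2) (Fin 2) F) (1 : Matrix (Fin 1) (Fin 1) F) = blk 1 1 :=
      h3.trans (blk_one (a := 2) (b := 1)).symm
    have h4 := congrFun (congrFun (blk_inj h3').1 0) 0
    simp at h4
    apply h2
    linear_combination -h4
  have ht₀2 : t₀ * t₀ = 1 := by
    apply Subtype.ext
    apply Subtype.ext
    show t₀.1.1 * t₀.1.1 = 1
    rw [ht₀, blk_mul, neg_mul_neg, one_mul, one_mul, blk_one]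
  have hconj := isConj_invol hq hF t₀ t ht₀1 ht₀2 ht ht2
  rw [isConj_iff] at hconj
  obtain ⟨g, rfl⟩ := hconj
  set x' := g⁻¹ * x * g with hx'
  set y' := g⁻¹ * y * g with hy'
  have ex : x = g * x' * g⁻¹ := by rw [hx']; group
  have ey : y = g * y' * g⁻¹ := by rw [hy']; group
  have toM : ∀ {a b : ↥(Cfsg.SU 3 F q)}, a = b → a.1.1 = b.1.1 := fun h => by rw [h]
  have hfin := third_invol h2 x'.1.1 y'.1.1 x'.1.2
    (toM (show x' * x' = 1 by
      rw [hx']
      calc g⁻¹ * x * g * (g⁻¹ * x * g) = g⁻¹ * (x * x) * g := by group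
        _ = 1 := by rw [hx2]; group))
    (coe_ne (x := x') (y := 1) (by
      intro h; apply hx; rw [ex, h]; group))
    (by
      rw [← ht₀]
      exact coe_ne (x := x') (y := t₀) (by intro h; apply hxt; rw [ex, h]))
    (by
      rw [← ht₀]
      apply toM (a := x' * t₀) (b := t₀ * x')
      have := hcx.eq
      rw [hx']
      calc g⁻¹ * x * g * t₀ = g⁻¹ * (x * (g * t₀ * g⁻¹)) * g := by group
        _ = g⁻¹ * ((g * t₀ * g⁻¹) * x) * g := by rw [this]
        _ = t₀ * (g⁻¹ * x * g) := by group)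
    y'.1.2
    (toM (show y' * y' = 1 by
      rw [hy']
      calc g⁻¹ * y * g * (g⁻¹ * y * g) = g⁻¹ * (y * y) * g := by group
        _ = 1 := by rw [hy2]; group))
    (coe_ne (x := y') (y := 1) (by
      intro h; apply hy; rw [ey, h]; group))
    (by
      rw [← ht₀]
      exact coe_ne (x := y') (y := t₀) (by intro h; apply hyt; rw [ey, h]))
    (by
      rw [← ht₀]
      apply toM (a := y' * t₀) (b := t₀ * y')
      have := hcy.eq
      rw [hy']
      calc g⁻¹ * y * g * t₀ = g⁻¹ * (y * (g * t₀ * g⁻¹)) * g := by group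
        _ = g⁻¹ * ((g * t₀ * g⁻¹) * y) * g := by rw [this]
        _ = t₀ * (g⁻¹ * y * g) := by group)
    (by
      apply toM (a := x' * y') (b := y' * x')
      have := hxy.eq
      rw [hx', hy']
      calc g⁻¹ * x * g * (g⁻¹ * y * g) = g⁻¹ * (x * y) * g := by group
        _ = g⁻¹ * (y * x) * g := by rw [this]
        _ = g⁻¹ * y * g * (g⁻¹ * x * g) := by group)
  rcases hfin with h | h
  · left
    have : y' = x' := Subtype.ext (Subtype.ext h)
    rw [ex, ey, this]
  · right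
    have : y' = t₀ * x' := by
      apply Subtype.ext
      apply Subtype.ext
      rw [h, ← ht₀]
      rfl
    rw [ey, this, ex]
    group

end

theorem result {F : Type*} [Field F] [Fintype F] {q : ℕ} (hq : Odd q)
    (hF : Fintype.card F = q ^ 2) (t : ↥(Cfsg.SU 3 F q)) (ht : t ≠ 1) (ht2 : t * t = 1) :
    (∀ x : ↥(Cfsg.SU 3 F q), x ≠ 1 → x * x = 1 → ∃ g : ↥(Cfsg.SU 3 F q), g * t * g⁻¹ = x) ∧
    Nat.card {x : ↥(Cfsg.SU 3 F q) // x ≠ 1 ∧ x * x = 1} = q ^ 2 * (q ^ 2 - q + 1) ∧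
    Nat.card ↥(Subgroup.centralizer ({t} : Set ↥(Cfsg.SU 3 F q))) = q * (q + 1) * (q ^ 2 - 1) ∧
    ∀ x : ↥(Cfsg.SU 3 F q), x ≠ 1 → x * x = 1 → x ≠ t → Commute t x →
      Nat.card {y : ↥(Cfsg.SU 3 F q) // y ≠ 1 ∧ y * y = 1 ∧ y ≠ t ∧ y ≠ x ∧ Commute t y ∧ Commute x y} = 1 := by
  have h2 := two_ne_zero' hq hF
  have hq2 := Cfsg.Agent.Lib.Helper7Herm.two_le_q hF
  obtain ⟨t₀, ht₀⟩ := exists_t0 hF
  have ht₀1 : t₀ ≠ 1 := by
    intro h
    have h3 : t₀.1.1 = 1 := by rw [h]; rfl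
    rw [ht₀] at h3
    have h3' : blk (-1 : Matrix (Fin 2) (Fin 2) F) (1 : Matrix (Fin 1) (Fin 1) F) = blk 1 1 :=
      h3.trans (blk_one (a := 2) (b := 1)).symm
    have h4 := congrFun (congrFun (blk_inj h3').1 0) 0
    simp at h4
    apply h2
    linear_combination -h4
  have ht₀2 : t₀ * t₀ = 1 := by
    apply Subtype.ext
    apply Subtype.ext
    show t₀.1.1 * t₀.1.1 = 1
    rw [ht₀, blk_mul, neg_mul_neg, one_mul, one_mul, blk_one]
  have hcent : Nat.card ↥(Subgroup.centralizer ({t} : Set ↥(Cfsg.SU 3 F q)))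
      = q * (q + 1) * (q ^ 2 - 1) := by
    rw [Cfsg.Agent.Lib.Helper21Action.card_centralizer_of_isConj
      (isConj_invol hq hF t₀ t ht₀1 ht₀2 ht ht2), card_centralizer_t0 hF h2 t₀ ht₀,
      Cfsg.Agent.Lib.Helper7GU.card_GU hF 2]
    simp [Finset.prod_range_succ]
    ring
  refine ⟨?_, ?_, hcent, ?_⟩
  · intro x hx hx2
    exact isConj_iff.1 (isConj_invol hq hF t x ht ht2 hx hx2)
  · have h1 := Cfsg.Agent.Lib.Helper21Action.card_conj_mul_card_centralizer t
    have h3 : Nat.card {x : ↥(Cfsg.SU 3 F q) // x ≠ 1 ∧ x * x = 1}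
        = Nat.card {x : ↥(Cfsg.SU 3 F q) // IsConj t x} := by
      apply Nat.card_congr
      apply Equiv.subtypeEquivRight
      intro x
      constructor
      · rintro ⟨hx, hx2⟩
        exact isConj_invol hq hF t x ht ht2 hx hx2
      · intro h
        rw [isConj_iff] at h
        obtain ⟨g, rfl⟩ := h
        constructor
        · intro h
          apply ht
          calc t = g⁻¹ * (g * t * g⁻¹) * g := by group
            _ = 1 := by rw [h]; group
        · calc g * t * g⁻¹ * (g * t * g⁻¹) = g * (t * t) * g⁻¹ := by group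
            _ = 1 := by rw [ht2]; group
    have h4 := Cfsg.Agent.Lib.Helper7SU.card_SU_mul hF (n := 3) (by norm_num)
    rw [Cfsg.Agent.Lib.Helper7GU.card_GU hF 3, ← h1, hcent, ← h3] at h4
    simp [Finset.prod_range_succ] at h4
    set N := Nat.card {x : ↥(Cfsg.SU 3 F q) // x ≠ 1 ∧ x * x = 1} with hN
    set u := q ^ 2 - 1 with hu
    have hu0 : 0 < u := by
      have : 4 ≤ q ^ 2 := by nlinarith
      omega
    have hw : (q ^ 2 - q + 1) * (q + 1) = q ^ 3 + 1 := by
      obtain ⟨k, rfl⟩ : ∃ k, q = k + 1 := ⟨q - 1, by omega⟩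
      have : (k + 1) ^ 2 - (k + 1) = k ^ 2 + k := by
        apply Nat.sub_eq_of_eq_add; ring
      rw [this]; ring
    have hc : 0 < q * (q + 1) * u * (q + 1) := by positivity
    apply Nat.eq_of_mul_eq_mul_right hc
    calc N * (q * (q + 1) * u * (q + 1)) = (q + 1) * (N * (q * (q + 1) * u)) := by ring
      _ = q ^ 3 * ((q + 1) * u * (q ^ 3 + 1)) := h4
      _ = q ^ 3 * ((q + 1) * u * ((q ^ 2 - q + 1) * (q + 1))) := by rw [hw]
      _ = q ^ 2 * (q ^ 2 - q + 1) * (q * (q + 1) * u * (q + 1)) := by ring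
  · intro x hx hx2 hxt hcx
    rw [Nat.card_eq_one_iff_unique]
    constructor
    · have key : ∀ a : {y : ↥(Cfsg.SU 3 F q) // y ≠ 1 ∧ y * y = 1 ∧ y ≠ t ∧ y ≠ x ∧ Commute t y ∧
          Commute x y}, a.1 = t * x := by
        rintro ⟨a, ha1, ha2, hat, hax, hta, hxa⟩
        exact (third hq hF t x a ht ht2 hx hx2 hxt hcx ha1 ha2 hat hta hxa).resolve_left hax
      exact ⟨fun a b => Subtype.ext (by rw [key a, key b])⟩
    · refine ⟨⟨t * x, ?_, ?_, ?_, ?_, (Commute.refl t).mul_right hcx,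
        hcx.symm.mul_right (Commute.refl x)⟩⟩
      · intro h
        apply hxt
        calc x = (t * t) * x := by rw [ht2, one_mul]
          _ = t * (t * x) := by group
          _ = t := by rw [h, mul_one]
      · calc t * x * (t * x) = t * (x * t) * x := by group
          _ = t * (t * x) * x := by rw [hcx.eq]
          _ = (t * t) * (x * x) := by group
          _ = 1 := by rw [ht2, hx2, one_mul]
      · intro h
        exact hx (mul_left_cancel (a := t) (by rw [h, mul_one]))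
      · intro h
        exact ht (mul_right_cancel (b := x) (by rw [h, one_mul]))

end Cfsg.Agent.S2360
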