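import Cfsg.Statements.S2356
import Cfsg.Agent.S2360

set_option autoImplicit false
open Cfsg

namespace Cfsg.Agent.S2356

open Matrix Cfsg.Agent.Lib.Helper48SUConj Cfsg.Agent.Lib.Helper48SU3 Cfsg.Agent.Lib.Helper48WallU
  Cfsg.Agent.Lib.Helper7Herm Cfsg.Agent.Lib.Helper7GU

section alg

variable {F : Type*} [Field F] (φ : F →+* F)

/-- the hermitian form -/
def hh (u v : Fin 3 → F) : F := ∑ i, u i * φ (v i)

/-- outer product -/
def OM (u v : Fin 3 → F) : Matrix (Fin 3) (Fin 3) F := Matrix.of fun i j => u i * φ (v j)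

/-- the reflection-like involution -/
def SM (w : Fin 3 → F) : Matrix (Fin 3) (Fin 3) F := (2 : F) • OM φ w w - 1

theorem OM_mul (a b c e : Fin 3 → F) : OM φ a b * OM φ c e = hh φ c b • OM φ a e := by
  ext i j
  simp only [OM, hh, Matrix.mul_apply, Matrix.of_apply, Matrix.smul_apply, smul_eq_mul, Finset.sum_mul]
  apply Finset.sum_congr rfl
  intro k _
  ring

theorem sth_OM (hφ2 : ∀ x, φ (φ x) = x) (u v : Fin 3 → F) : sth φ (OM φ u v) = OM φ v u := by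
  ext i j
  simp [sth_apply, OM, hφ2, mul_comm]

theorem sth_SM (hφ2 : ∀ x, φ (φ x) = x) (w : Fin 3 → F) : sth φ (SM φ w) = SM φ w := by
  unfold SM
  rw [map_sub, sth_smul, sth_OM φ hφ2, sth_one, map_ofNat]

theorem SM_mul (v w : Fin 3 → F) :
    SM φ v * SM φ w = (4 * hh φ w v) • OM φ v w - (2 : F) • OM φ v v - (2 : F) • OM φ w w + 1 := by
  unfold SM
  rw [sub_mul, mul_sub, one_mul, mul_one, smul_mul_smul_comm, OM_mul, smul_smul]
  have : (2 : F) * 2 * hh φ w v = 4 * hh φ w v := by ring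
  rw [this]
  abel

theorem SM_sq (w : Fin 3 → F) (hw : hh φ w w = 1) : SM φ w * SM φ w = 1 := by
  rw [SM_mul, hw, mul_one]
  have : (4 : F) • OM φ w w = (2 : F) • OM φ w w + (2 : F) • OM φ w w := by
    rw [← add_smul]; norm_num
  rw [this]
  abel

theorem det_SM (w : Fin 3 → F) (hw : hh φ w w = 1) : (SM φ w).det = 1 := by
  unfold hh at hw
  rw [Fin.sum_univ_three] at hw
  rw [Matrix.det_fin_three]
  simp only [SM, OM, Matrix.sub_apply, Matrix.smul_apply, Matrix.of_apply, Matrix.one_apply, smul_eq_mul]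
  simp only [Fin.isValue, if_true, Fin.reduceEq, if_false]
  linear_combination (2 : F) * hw

theorem SM_ne_one (h2 : (2 : F) ≠ 0) (w : Fin 3 → F) : SM φ w ≠ 1 := by
  intro h
  have e : ∀ i j, (2 : F) * (w i * φ (w j)) - (1 : Matrix (Fin 3) (Fin 3) F) i j
      = (1 : Matrix (Fin 3) (Fin 3) F) i j := by
    intro i j
    have := congrFun (congrFun h i) j
    simpa [SM, OM] using this
  have e00 := e 0 0
  have e11 := e 1 1
  have e01 := e 0 1
  simp at e00 e11 e01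
  rcases e01 with h' | h'
  · exact h2 h'
  · rcases h' with h' | h'
    · rw [h'] at e00
      simp at e00
      apply h2
      linear_combination -e00
    · rw [h'] at e11
      simp at e11
      apply h2
      linear_combination -e11

theorem mul_OM (g : Matrix (Fin 3) (Fin 3) F) (u v : Fin 3 → F) :
    g * OM φ u v * sth φ g = OM φ (g *ᵥ u) (g *ᵥ v) := by
  ext i j
  simp only [Matrix.mul_apply, OM, Matrix.of_apply, sth_apply, Matrix.transpose_apply, Matrix.map_apply,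
    Matrix.mulVec, dotProduct, map_sum, map_mul, Finset.sum_mul, Finset.mul_sum]
  apply Finset.sum_congr rfl
  intro k _
  apply Finset.sum_congr rfl
  intro l _
  ring

theorem mul_SM (g : Matrix (Fin 3) (Fin 3) F) (hg : g * sth φ g = 1) (w : Fin 3 → F) :
    g * SM φ w * sth φ g = SM φ (g *ᵥ w) := by
  unfold SM
  rw [mul_sub, sub_mul, mul_one, hg, Matrix.mul_smul, Matrix.smul_mul, mul_OM]

theorem OM_mulVec (u v x : Fin 3 → F) : OM φ u v *ᵥ x = hh φ x v • u := by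
  funext i
  simp only [Matrix.mulVec, dotProduct, OM, Matrix.of_apply, hh, Pi.smul_apply, smul_eq_mul, Finset.sum_mul]
  apply Finset.sum_congr rfl
  intro k _
  ring

theorem hh_smul_left (c : F) (u v : Fin 3 → F) : hh φ (c • u) v = c * hh φ u v := by
  simp only [hh, Pi.smul_apply, smul_eq_mul, Finset.mul_sum, mul_assoc]

theorem hh_smul_right (c : F) (u v : Fin 3 → F) : hh φ u (c • v) = φ c * hh φ u v := by
  simp only [hh, Pi.smul_apply, smul_eq_mul, Finset.mul_sum, map_mul]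
  apply Finset.sum_congr rfl
  intro k _
  ring

theorem hh_symm (hφ2 : ∀ x, φ (φ x) = x) (u v : Fin 3 → F) : φ (hh φ u v) = hh φ v u := by
  simp only [hh, map_sum, map_mul, hφ2]
  apply Finset.sum_congr rfl
  intro k _
  ring

theorem OM_smul (c e : F) (u v : Fin 3 → F) : OM φ (c • u) (e • v) = (c * φ e) • OM φ u v := by
  ext i j
  simp only [OM, Matrix.of_apply, Pi.smul_apply, smul_eq_mul, Matrix.smul_apply, map_mul]
  ring

/-- equality of the involutions -/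
theorem SM_eq_iff (h2 : (2 : F) ≠ 0) (v w : Fin 3 → F) (hv : hh φ v v = 1) (hw : hh φ w w = 1) :
    SM φ w = SM φ v ↔ ∃ c : F, c * φ c = 1 ∧ w = c • v := by
  constructor
  · intro h
    have h1 : OM φ w w = OM φ v v := by
      unfold SM at h
      have h3 := sub_left_injective h
      exact smul_right_injective _ h2 h3
    have h4 : w = hh φ w v • v := by
      have := congrArg (fun M => M *ᵥ w) h1
      simp only [OM_mulVec, hw, one_smul] at this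
      exact this
    refine ⟨hh φ w v, ?_, h4⟩
    have h5 := hw
    rw [h4, hh_smul_left, hh_smul_right, hv, mul_one] at h5
    exact h5
  · rintro ⟨c, hc, rfl⟩
    unfold SM
    rw [OM_smul, hc, one_smul]

/-- commuting criterion -/
theorem SM_comm_iff (h2 : (2 : F) ≠ 0) (hφ2 : ∀ x, φ (φ x) = x) (v w : Fin 3 → F) (hv : hh φ v v = 1)
    (hw : hh φ w w = 1) :
    SM φ v * SM φ w = SM φ w * SM φ v ↔ hh φ w v = 0 ∨ SM φ w = SM φ v := by
  constructor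
  · intro h
    by_cases hc : hh φ w v = 0
    · exact Or.inl hc
    · right
      rw [SM_mul, SM_mul] at h
      have h4 : (4 : F) ≠ 0 := by
        have : (4 : F) = 2 * 2 := by norm_num
        rw [this]; exact mul_ne_zero h2 h2
      have h1 : hh φ w v • OM φ v w = hh φ v w • OM φ w v := by
        have h3 : (4 * hh φ w v) • OM φ v w = (4 * hh φ v w) • OM φ w v := by
          have := congrArg (fun M => M + (2 : F) • OM φ v v + (2 : F) • OM φ w w - 1) h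
          calc (4 * hh φ w v) • OM φ v w
              = (4 * hh φ w v) • OM φ v w - (2 : F) • OM φ v v - (2 : F) • OM φ w w + 1
                + (2 : F) • OM φ v v + (2 : F) • OM φ w w - 1 := by abel
            _ = (4 * hh φ v w) • OM φ w v - (2 : F) • OM φ w w - (2 : F) • OM φ v v + 1
                + (2 : F) • OM φ v v + (2 : F) • OM φ w w - 1 := this
            _ = _ := by abel
        rw [mul_smul, mul_smul] at h3
        exact smul_right_injective _ h4 h3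
      have h5 := congrArg (fun M => M *ᵥ w) h1
      simp only [Matrix.smul_mulVec, OM_mulVec, hw, one_smul, smul_smul] at h5
      have h6 : v = hh φ v w • w := by
        have := congrArg (fun x => (hh φ w v)⁻¹ • x) h5
        simp only [smul_smul] at this
        rw [inv_mul_cancel₀ hc, one_smul, ← mul_assoc, mul_comm _ (hh φ v w), mul_assoc,
          inv_mul_cancel₀ hc, mul_one] at this
        exact this
      symm
      rw [SM_eq_iff φ h2 w v hw hv]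
      refine ⟨hh φ v w, ?_, h6⟩
      have h7 := hv
      rw [h6, hh_smul_left, hh_smul_right, hw, mul_one] at h7
      exact h7
  · rintro (h | h)
    · have h' : hh φ v w = 0 := by rw [← hh_symm φ hφ2, h, map_zero]
      rw [SM_mul, SM_mul, h, h']
      simp only [mul_zero, zero_smul]
      abel
    · rw [h]

theorem hh_add_left (u u' v : Fin 3 → F) : hh φ (u + u') v = hh φ u v + hh φ u' v := by
  simp only [hh, Pi.add_apply, add_mul, Finset.sum_add_distrib]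

theorem hh_add_right (u v v' : Fin 3 → F) : hh φ u (v + v') = hh φ u v + hh φ u v' := by
  simp only [hh, Pi.add_apply, map_add, mul_add, Finset.sum_add_distrib]

theorem hh_sub_left (u u' v : Fin 3 → F) : hh φ (u - u') v = hh φ u v - hh φ u' v := by
  simp only [hh, Pi.sub_apply, sub_mul, Finset.sum_sub_distrib]

theorem hh_sub_right (u v v' : Fin 3 → F) : hh φ u (v - v') = hh φ u v - hh φ u v' := by
  simp only [hh, Pi.sub_apply, map_sub, mul_sub, Finset.sum_sub_distrib]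

/-- the conjugated cross product -/
def cr (v w : Fin 3 → F) : Fin 3 → F :=
  ![φ (v 1 * w 2 - v 2 * w 1), φ (v 2 * w 0 - v 0 * w 2), φ (v 0 * w 1 - v 1 * w 0)]

theorem hh_cr_left (v w : Fin 3 → F) : hh φ (cr φ v w) v = 0 := by
  have : hh φ (cr φ v w) v = φ ((v 1 * w 2 - v 2 * w 1) * v 0 + (v 2 * w 0 - v 0 * w 2) * v 1
      + (v 0 * w 1 - v 1 * w 0) * v 2) := by
    simp [hh, cr, Fin.sum_univ_three]
  rw [this]
  have : (v 1 * w 2 - v 2 * w 1) * v 0 + (v 2 * w 0 - v 0 * w 2) * v 1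
      + (v 0 * w 1 - v 1 * w 0) * v 2 = 0 := by ring
  rw [this, map_zero]

theorem hh_cr_right (v w : Fin 3 → F) : hh φ (cr φ v w) w = 0 := by
  have : hh φ (cr φ v w) w = φ ((v 1 * w 2 - v 2 * w 1) * w 0 + (v 2 * w 0 - v 0 * w 2) * w 1
      + (v 0 * w 1 - v 1 * w 0) * w 2) := by
    simp [hh, cr, Fin.sum_univ_three]
  rw [this]
  have : (v 1 * w 2 - v 2 * w 1) * w 0 + (v 2 * w 0 - v 0 * w 2) * w 1
      + (v 0 * w 1 - v 1 * w 0) * w 2 = 0 := by ring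
  rw [this, map_zero]

theorem hh_cr_self (hφ2 : ∀ x, φ (φ x) = x) (v w : Fin 3 → F) :
    hh φ (cr φ v w) (cr φ v w) = hh φ v v * hh φ w w - hh φ w v * hh φ v w := by
  simp only [hh, cr, Fin.sum_univ_three, Matrix.cons_val_zero, Matrix.cons_val_one, Matrix.cons_val,
    map_sub, map_mul, hφ2]
  ring

end alg

section grp

variable {F : Type*} [Field F] [Fintype F] {q : ℕ}

omit [Fintype F] in
theorem hh_eq (φ : F →+* F) (hφq : ∀ x, φ x = x ^ q) (u v : Fin 3 → F) :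
    hh φ u v = Cfsg.hermForm 3 F q u v := by
  simp only [hh, Cfsg.hermForm, hφq]

theorem exists_nrm (hF : Fintype.card F = q ^ 2) (φ : F →+* F) (hφq : ∀ x, φ x = x ^ q)
    (D : F) (hD : φ D = D) (h0 : D ≠ 0) : ∃ c : F, c * φ c = D := by
  have h := card_norm_fiber hF D (by rw [← hφq, hD]) h0
  have : Nonempty {x : F // x ^ (q + 1) = D} := by
    by_contra hne
    rw [not_nonempty_iff] at hne
    rw [Nat.card_of_isEmpty] at h
    omega
  obtain ⟨c, hc⟩ := this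
  exact ⟨c, by rw [hφq, ← hc, pow_succ, mul_comm]⟩

theorem exists_perp (hF : Fintype.card F = q ^ 2) (φ : F →+* F) (hφq : ∀ x, φ x = x ^ q)
    (hφ2 : ∀ x, φ (φ x) = x) (v w : Fin 3 → F) (hv : hh φ v v = 1) (hw : hh φ w w = 1)
    (hne : hh φ w v * φ (hh φ w v) ≠ 1) :
    ∃ u, hh φ u u = 1 ∧ hh φ u v = 0 ∧ hh φ u w = 0 := by
  set D := hh φ (cr φ v w) (cr φ v w) with hD
  have hD1 : D = 1 - hh φ w v * φ (hh φ w v) := by
    rw [hD, hh_cr_self φ hφ2, hv, hw, hh_symm φ hφ2, one_mul]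
  have hD0 : D ≠ 0 := by
    rw [hD1]
    intro h
    apply hne
    linear_combination -h
  have hDφ : φ D = D := by rw [hD, hh_symm φ hφ2]
  obtain ⟨c, hc⟩ := exists_nrm hF φ hφq D⁻¹ (by rw [map_inv₀, hDφ]) (inv_ne_zero hD0)
  refine ⟨c • cr φ v w, ?_, ?_, ?_⟩
  · rw [hh_smul_left, hh_smul_right, ← hD, ← mul_assoc, hc, inv_mul_cancel₀ hD0]
  · rw [hh_smul_left, hh_cr_left, mul_zero]
  · rw [hh_smul_left, hh_cr_right, mul_zero]

variable (hF : Fintype.card F = q ^ 2) (φ : F →+* F) (hφq : ∀ x, φ x = x ^ q) (hφ2 : ∀ x, φ (φ x) = x)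

/-- the involution of a norm one vector -/
def sv (w : Fin 3 → F) (hw : hh φ w w = 1) : ↥(Cfsg.SU 3 F q) :=
  ⟨⟨SM φ w, det_SM φ w hw⟩, (mem_SU_iff_sth hF φ hφq _).2 (by
    show sth φ (SM φ w) * SM φ w = 1
    rw [sth_SM φ hφ2, SM_sq φ w hw])⟩

theorem sv_val (w : Fin 3 → F) (hw : hh φ w w = 1) : (sv hF φ hφq hφ2 w hw).1.1 = SM φ w := rfl

theorem sv_ne_one (h2 : (2 : F) ≠ 0) (w : Fin 3 → F) (hw : hh φ w w = 1) : sv hF φ hφq hφ2 w hw ≠ 1 := by
  intro h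
  exact SM_ne_one φ h2 w (congrArg (fun x : ↥(Cfsg.SU 3 F q) => x.1.1) h)

theorem sv_sq (w : Fin 3 → F) (hw : hh φ w w = 1) :
    sv hF φ hφq hφ2 w hw * sv hF φ hφq hφ2 w hw = 1 := by
  apply Subtype.ext
  apply Subtype.ext
  exact SM_sq φ w hw

theorem sv_eq_iff (v w : Fin 3 → F) (hv : hh φ v v = 1) (hw : hh φ w w = 1) :
    sv hF φ hφq hφ2 w hw = sv hF φ hφq hφ2 v hv ↔ SM φ w = SM φ v := by
  constructor
  · intro h
    exact congrArg (fun x : ↥(Cfsg.SU 3 F q) => x.1.1) h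
  · intro h
    apply Subtype.ext
    apply Subtype.ext
    exact h

theorem sv_comm_iff (h2 : (2 : F) ≠ 0) (v w : Fin 3 → F) (hv : hh φ v v = 1) (hw : hh φ w w = 1) :
    Commute (sv hF φ hφq hφ2 v hv) (sv hF φ hφq hφ2 w hw)
      ↔ hh φ w v = 0 ∨ sv hF φ hφq hφ2 w hw = sv hF φ hφq hφ2 v hv := by
  rw [sv_eq_iff, ← SM_comm_iff φ h2 hφ2 v w hv hw]
  constructor
  · intro h
    exact congrArg (fun x : ↥(Cfsg.SU 3 F q) => x.1.1) h
  · intro h
    apply Subtype.ext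
    apply Subtype.ext
    exact h

theorem exists_sv (hq : Odd q) (x : ↥(Cfsg.SU 3 F q)) (hx : x ≠ 1) (hx2 : x * x = 1) :
    ∃ (w : Fin 3 → F) (hw : hh φ w w = 1), x = sv hF φ hφq hφ2 w hw := by
  have h2 := Cfsg.Agent.S2360.two_ne_zero' hq hF
  have he : hh φ (Pi.single 2 1 : Fin 3 → F) (Pi.single 2 1) = 1 := by
    simp [hh, Fin.sum_univ_three]
  have hc := Cfsg.Agent.S2360.isConj_invol hq hF (sv hF φ hφq hφ2 _ he) x (sv_ne_one hF φ hφq hφ2 h2 _ he)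
    (sv_sq hF φ hφq hφ2 _ he) hx hx2
  rw [isConj_iff] at hc
  obtain ⟨g, hg⟩ := hc
  have hgU : sth φ g.1.1 * g.1.1 = 1 := (mem_SU_iff_sth hF φ hφq g.1).1 g.2
  have hgU' : g.1.1 * sth φ g.1.1 = 1 := mul_eq_one_comm.1 hgU
  have hginv : (g⁻¹ : ↥(Cfsg.SU 3 F q)).1.1 = sth φ g.1.1 := by
    have h1 : g.1.1 * (g⁻¹ : ↥(Cfsg.SU 3 F q)).1.1 = 1 :=
      congrArg (fun x : ↥(Cfsg.SU 3 F q) => x.1.1) (mul_inv_cancel g)
    calc (g⁻¹ : ↥(Cfsg.SU 3 F q)).1.1 = (sth φ g.1.1 * g.1.1) * (g⁻¹ : ↥(Cfsg.SU 3 F q)).1.1 := by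
          rw [hgU, one_mul]
      _ = sth φ g.1.1 := by rw [mul_assoc, h1, mul_one]
  have hw : hh φ (g.1.1 *ᵥ (Pi.single 2 1 : Fin 3 → F)) (g.1.1 *ᵥ (Pi.single 2 1 : Fin 3 → F)) = 1 := by
    rw [hh_eq φ hφq]
    have := g.2 (Pi.single 2 1 : Fin 3 → F) (Pi.single 2 1 : Fin 3 → F)
    rw [hh_eq φ hφq] at he
    rw [he] at this
    exact this
  refine ⟨_, hw, ?_⟩
  apply Subtype.ext
  apply Subtype.ext
  rw [sv_val, ← mul_SM φ _ hgU', ← hginv, ← hg]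
  rfl

omit [Field F] [Fintype F] in
theorem card_of_fibers {A B : Type*} [Finite A] [Finite B] (f : A → B) (c : ℕ)
    (h : ∀ b, Nat.card {a // f a = b} = c) : Nat.card A = c * Nat.card B := by
  have := Fintype.ofFinite B
  rw [Nat.card_congr (Equiv.sigmaFiberEquiv f).symm, Nat.card_sigma,
    Finset.sum_congr rfl (fun b _ => h b), Finset.sum_const, smul_eq_mul, Finset.card_univ,
    Nat.card_eq_fintype_card, mul_comm]

omit [Fintype F] in
theorem ne_zero_of_nrm (w : Fin 3 → F) (hw : hh φ w w = 1) : w ≠ 0 := by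
  rintro rfl
  simp [hh] at hw

theorem card_lift (hq : Odd q) (P : ↥(Cfsg.SU 3 F q) → Prop) :
    Nat.card {w : {w : Fin 3 → F // hh φ w w = 1} // P (sv hF φ hφq hφ2 w.1 w.2)}
      = (q + 1) * Nat.card {x : ↥(Cfsg.SU 3 F q) // x ≠ 1 ∧ x * x = 1 ∧ P x} := by
  have h2 := Cfsg.Agent.S2360.two_ne_zero' hq hF
  apply card_of_fibers (fun w : {w : {w : Fin 3 → F // hh φ w w = 1} // P (sv hF φ hφq hφ2 w.1 w.2)} =>
    (⟨sv hF φ hφq hφ2 w.1.1 w.1.2, sv_ne_one hF φ hφq hφ2 h2 _ _, sv_sq hF φ hφq hφ2 _ _, w.2⟩ :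
      {x : ↥(Cfsg.SU 3 F q) // x ≠ 1 ∧ x * x = 1 ∧ P x}))
  rintro ⟨x, hx1, hx2, hxP⟩
  obtain ⟨w₀, hw₀, rfl⟩ := exists_sv hF φ hφq hφ2 hq x hx1 hx2
  rw [← card_norm_fiber hF (1 : F) (one_pow q) one_ne_zero]
  symm
  have hnc : ∀ c : {c : F // c ^ (q + 1) = 1}, c.1 * φ c.1 = 1 := by
    intro c
    have := c.2
    rw [pow_succ, mul_comm] at this
    rw [hφq, this]
  have hn : ∀ c : {c : F // c ^ (q + 1) = 1}, hh φ (c.1 • w₀) (c.1 • w₀) = 1 := by
    intro c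
    rw [hh_smul_left, hh_smul_right, hw₀, mul_one, hnc c]
  have hs : ∀ c : {c : F // c ^ (q + 1) = 1},
      sv hF φ hφq hφ2 (c.1 • w₀) (hn c) = sv hF φ hφq hφ2 w₀ hw₀ := by
    intro c
    rw [sv_eq_iff, SM_eq_iff φ h2 _ _ hw₀ (hn c)]
    exact ⟨c.1, hnc c, rfl⟩
  refine Nat.card_congr (Equiv.ofBijective (fun c => ⟨⟨⟨c.1 • w₀, hn c⟩, by rw [hs c]; exact hxP⟩, ?_⟩)
    ⟨?_, ?_⟩)
  · apply Subtype.ext
    exact hs c
  · intro c c' h
    have h1 : c.1 • w₀ = c'.1 • w₀ := congrArg (fun z => z.1.1.1) h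
    obtain ⟨i, hi⟩ : ∃ i, w₀ i ≠ 0 := by
      by_contra hcon
      push Not at hcon
      exact ne_zero_of_nrm φ w₀ hw₀ (funext hcon)
    have h3 := congrFun h1 i
    simp only [Pi.smul_apply, smul_eq_mul] at h3
    exact Subtype.ext (mul_right_cancel₀ hi h3)
  · rintro ⟨⟨⟨w, hw⟩, hP⟩, hwx⟩
    have h1 : sv hF φ hφq hφ2 w hw = sv hF φ hφq hφ2 w₀ hw₀ := congrArg Subtype.val hwx
    rw [sv_eq_iff, SM_eq_iff φ h2 _ _ hw₀ hw] at h1
    obtain ⟨c, hc, rfl⟩ := h1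
    refine ⟨⟨c, by rw [pow_succ, ← hφq, mul_comm]; exact hc⟩, ?_⟩
    rfl

omit [Field F] [Fintype F] in
theorem card_nested {α : Type*} (A : α → Prop) (B : {w // A w} → Prop) (C : α → Prop)
    (h : ∀ w : {w // A w}, B w ↔ C w.1) :
    Nat.card {w : {w // A w} // B w} = Nat.card {w : α // C w ∧ A w} :=
  Nat.card_congr
    { toFun := fun w => ⟨w.1.1, (h w.1).1 w.2, w.1.2⟩
      invFun := fun w => ⟨⟨w.1, w.2.2⟩, (h _).2 w.2.1⟩
      left_inv := fun _ => rfl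
      right_inv := fun _ => rfl }

omit [Field F] [Fintype F] in
theorem card_erase {α : Type*} [Finite α] (A : α → Prop) (z₀ : α) (h : A z₀) :
    Nat.card {z // A z ∧ z ≠ z₀} = Nat.card {z // A z} - 1 := by
  classical
  have := Fintype.ofFinite α
  rw [Nat.card_eq_fintype_card, Nat.card_eq_fintype_card, Fintype.card_subtype, Fintype.card_subtype]
  have : Finset.univ.filter (fun z => A z ∧ z ≠ z₀) = (Finset.univ.filter A).erase z₀ := by
    ext z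
    simp only [Finset.mem_filter, Finset.mem_univ, true_and, Finset.mem_erase]
    tauto
  rw [this, Finset.card_erase_of_mem (by simp [h])]

include hF hφq in
theorem card_perp1 (v₀ : Fin 3 → F) (hv₀ : hh φ v₀ v₀ = 1) (c : F) (hc : c ^ q = c) :
    Nat.card {w : Fin 3 → F // hh φ w v₀ = 0 ∧ hh φ w w = c} = cnt 2 F q c := by
  have hf : IsFrame 3 F q (fun _ : Fin 1 => v₀) := by
    intro i j
    rw [if_pos (Subsingleton.elim i j), ← hh_eq φ hφq, hv₀]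
  rw [← ((card_perp hF 1 (fun _ : Fin 1 => v₀) hf).2.2 c hc)]
  apply Nat.card_congr
  apply Equiv.subtypeEquivRight
  intro w
  rw [hh_eq φ hφq, hh_eq φ hφq]
  constructor
  · rintro ⟨h1, h2⟩
    exact ⟨fun _ => h1, h2⟩
  · rintro ⟨h1, h2⟩
    exact ⟨h1 0, h2⟩

include hF hφq hφ2 in
theorem eq_zero_of_perp2 (e₁ e₂ z : Fin 3 → F) (h1 : hh φ e₁ e₁ = 1) (h2 : hh φ e₂ e₂ = 1)
    (h12 : hh φ e₁ e₂ = 0) (hz1 : hh φ z e₁ = 0) (hz2 : hh φ z e₂ = 0) (hz : hh φ z z = 0) : z = 0 := by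
  have h21 : hh φ e₂ e₁ = 0 := by rw [← hh_symm φ hφ2, h12, map_zero]
  have hq2 := two_le_q hF
  have hf : IsFrame 3 F q ![e₁, e₂] := by
    intro i j
    rw [← hh_eq φ hφq]
    fin_cases i <;> fin_cases j <;> simp [h1, h2, h12, h21]
  have hc := (card_perp hF 2 ![e₁, e₂] hf).2.2 0 (zero_pow (by omega))
  rw [cnt_zero hF] at hc
  simp at hc
  rw [Nat.card_eq_one_iff_unique] at hc
  have hs := hc.1
  have hz' : Perp 3 F q ![e₁, e₂] z ∧ Cfsg.hermForm 3 F q z z = 0 := by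
    refine ⟨?_, by rw [← hh_eq φ hφq, hz]⟩
    intro i
    rw [← hh_eq φ hφq]
    fin_cases i
    · exact hz1
    · exact hz2
  have h0' : Perp 3 F q ![e₁, e₂] (0 : Fin 3 → F) ∧ Cfsg.hermForm 3 F q (0 : Fin 3 → F) 0 = 0 := by
    refine ⟨?_, by simp [Cfsg.hermForm]⟩
    intro i
    simp [Cfsg.hermForm]
  exact congrArg Subtype.val (hs.elim (⟨z, hz'⟩ : {w : Fin 3 → F // Perp 3 F q ![e₁, e₂] w ∧
    Cfsg.hermForm 3 F q w w = 0}) ⟨0, h0'⟩)

theorem P1_iff (h2 : (2 : F) ≠ 0) (v₀ : Fin 3 → F) (hv₀ : hh φ v₀ v₀ = 1) (w : Fin 3 → F)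
    (hw : hh φ w w = 1) :
    (sv hF φ hφq hφ2 w hw ≠ sv hF φ hφq hφ2 v₀ hv₀ ∧
      Commute (sv hF φ hφq hφ2 v₀ hv₀) (sv hF φ hφq hφ2 w hw)) ↔ hh φ w v₀ = 0 := by
  constructor
  · rintro ⟨hne, hc⟩
    rw [sv_comm_iff hF φ hφq hφ2 h2] at hc
    exact hc.resolve_right hne
  · intro h
    refine ⟨?_, (sv_comm_iff hF φ hφq hφ2 h2 _ _ _ _).2 (Or.inl h)⟩
    intro he
    rw [sv_eq_iff, SM_eq_iff φ h2 _ _ hv₀ hw] at he
    obtain ⟨c, hc, rfl⟩ := he
    rw [hh_smul_left, hv₀, mul_one] at h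
    rw [h, zero_mul] at hc
    exact zero_ne_one hc

theorem count1 (hq : Odd q) (v₀ : Fin 3 → F) (hv₀ : hh φ v₀ v₀ = 1) :
    Nat.card {x : ↥(Cfsg.SU 3 F q) // x ≠ 1 ∧ x * x = 1 ∧ x ≠ sv hF φ hφq hφ2 v₀ hv₀ ∧
      Commute (sv hF φ hφq hφ2 v₀ hv₀) x} = q * (q - 1) := by
  have h2 := Cfsg.Agent.S2360.two_ne_zero' hq hF
  have h := card_lift hF φ hφq hφ2 hq (fun x => x ≠ sv hF φ hφq hφ2 v₀ hv₀ ∧
      Commute (sv hF φ hφq hφ2 v₀ hv₀) x)
  rw [card_nested _ _ (fun w => hh φ w v₀ = 0) (fun w => P1_iff hF φ hφq hφ2 h2 v₀ hv₀ w.1 w.2),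
    card_perp1 hF φ hφq v₀ hv₀ 1 (one_pow q), cnt_one hF 2] at h
  have hq2 := two_le_q hF
  apply Nat.eq_of_mul_eq_mul_left (by omega : 0 < q + 1)
  rw [← h]
  obtain ⟨r, rfl⟩ : ∃ r, q = r + 1 := ⟨q - 1, by omega⟩
  simp only [even_two, if_true, Nat.add_sub_cancel]
  have : (r + 1) ^ 2 - 1 = r * (r + 2) := by
    have : (r + 1) ^ 2 = r * (r + 2) + 1 := by ring
    omega
  rw [this]
  ring

theorem P3_iff (hq : Odd q) (v₀ : Fin 3 → F) (hv₀ : hh φ v₀ v₀ = 1) (w : Fin 3 → F)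
    (hw : hh φ w w = 1) :
    (¬ Commute (sv hF φ hφq hφ2 v₀ hv₀) (sv hF φ hφq hφ2 w hw) ∧
      ∀ y : ↥(Cfsg.SU 3 F q), y ≠ 1 → y * y = 1 →
        ¬ (Commute (sv hF φ hφq hφ2 v₀ hv₀) y ∧ Commute y (sv hF φ hφq hφ2 w hw)))
    ↔ (hh φ w v₀ * φ (hh φ w v₀) = 1 ∧ w ≠ hh φ w v₀ • v₀) := by
  have h2 := Cfsg.Agent.S2360.two_ne_zero' hq hF
  constructor
  · rintro ⟨hnc, hall⟩
    have hN : hh φ w v₀ * φ (hh φ w v₀) = 1 := by
      by_contra hne
      obtain ⟨u, hu, huv, huw⟩ := exists_perp hF φ hφq hφ2 v₀ w hv₀ hw hne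
      apply hall (sv hF φ hφq hφ2 u hu) (sv_ne_one hF φ hφq hφ2 h2 u hu) (sv_sq hF φ hφq hφ2 u hu)
      refine ⟨(sv_comm_iff hF φ hφq hφ2 h2 _ _ _ _).2 (Or.inl huv),
        (sv_comm_iff hF φ hφq hφ2 h2 _ _ _ _).2 (Or.inl ?_)⟩
      rw [← hh_symm φ hφ2, huw, map_zero]
    refine ⟨hN, ?_⟩
    intro he
    apply hnc
    have : sv hF φ hφq hφ2 w hw = sv hF φ hφq hφ2 v₀ hv₀ := by
      rw [sv_eq_iff, SM_eq_iff φ h2 _ _ hv₀ hw]
      exact ⟨_, hN, he⟩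
    rw [this]
  · rintro ⟨hN, hne⟩
    have ha : hh φ w v₀ ≠ 0 := by
      intro h
      rw [h, zero_mul] at hN
      exact zero_ne_one hN
    have hnc : ¬ Commute (sv hF φ hφq hφ2 v₀ hv₀) (sv hF φ hφq hφ2 w hw) := by
      intro hc
      rw [sv_comm_iff hF φ hφq hφ2 h2] at hc
      rcases hc with hc | hc
      · exact ha hc
      · rw [sv_eq_iff, SM_eq_iff φ h2 _ _ hv₀ hw] at hc
        obtain ⟨c, hc, rfl⟩ := hc
        apply hne
        rw [hh_smul_left, hv₀, mul_one]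
    refine ⟨hnc, ?_⟩
    rintro y hy hy2 ⟨hc1, hc2⟩
    obtain ⟨u, hu, rfl⟩ := exists_sv hF φ hφq hφ2 hq y hy hy2
    have hc1' := hc1
    rw [sv_comm_iff hF φ hφq hφ2 h2] at hc1'
    rcases hc1' with h1 | h1
    · have hc2' := hc2
      rw [sv_comm_iff hF φ hφq hφ2 h2] at hc2'
      rcases hc2' with h3 | h3
      · have hv₀u : hh φ v₀ u = 0 := by rw [← hh_symm φ hφ2, h1, map_zero]
        have hz := eq_zero_of_perp2 hF φ hφq hφ2 v₀ u (w - hh φ w v₀ • v₀) hv₀ hu hv₀u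
          (by rw [hh_sub_left, hh_smul_left, hv₀, mul_one, sub_self])
          (by rw [hh_sub_left, hh_smul_left, h3, hv₀u, mul_zero, sub_self])
          (by
            rw [hh_sub_left, hh_sub_right, hh_sub_right, hh_smul_left, hh_smul_left, hh_smul_right,
              hh_smul_right, hw, hv₀, ← hh_symm φ hφ2 w v₀]
            linear_combination -hN)
        exact hne (sub_eq_zero.1 hz)
      · rw [h3] at hnc
        exact hnc hc1
    · rw [h1] at hc2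
      exact hnc hc2

include hF hφq hφ2 in
theorem count3_aux (v₀ : Fin 3 → F) (hv₀ : hh φ v₀ v₀ = 1) :
    Nat.card {w : Fin 3 → F // (hh φ w v₀ * φ (hh φ w v₀) = 1 ∧ w ≠ hh φ w v₀ • v₀) ∧ hh φ w w = 1}
      = (q + 1) * (cnt 2 F q 0 - 1) := by
  have hq2 := two_le_q hF
  rw [← card_norm_fiber hF (1 : F) (one_pow q) one_ne_zero,
    ← card_perp1 hF φ hφq v₀ hv₀ 0 (zero_pow (by omega)),
    ← card_erase (fun z : Fin 3 → F => hh φ z v₀ = 0 ∧ hh φ z z = 0) 0 (by simp [hh]), ← Nat.card_prod]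
  apply Nat.card_congr
  refine
    { toFun := fun w => (⟨hh φ w.1 v₀, by rw [pow_succ, ← hφq, mul_comm]; exact w.2.1.1⟩,
        ⟨w.1 - hh φ w.1 v₀ • v₀, ⟨by rw [hh_sub_left, hh_smul_left, hv₀, mul_one, sub_self], by
          rw [hh_sub_left, hh_sub_right, hh_sub_right, hh_smul_left, hh_smul_left, hh_smul_right,
              hh_smul_right, w.2.2, hv₀, ← hh_symm φ hφ2 w.1 v₀]
          linear_combination -w.2.1.1⟩, fun h => w.2.1.2 (sub_eq_zero.1 h)⟩)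
      invFun := fun p => ⟨p.1.1 • v₀ + p.2.1, ?_⟩
      left_inv := ?_
      right_inv := ?_ }
  · have h1 : hh φ (p.1.1 • v₀ + p.2.1) v₀ = p.1.1 := by
      rw [hh_add_left, hh_smul_left, hv₀, p.2.2.1.1, mul_one, add_zero]
    have h3 : p.1.1 * φ p.1.1 = 1 := by
      have := p.1.2
      rw [pow_succ, mul_comm] at this
      rw [hφq, this]
    have h4 : hh φ v₀ p.2.1 = 0 := by rw [← hh_symm φ hφ2, p.2.2.1.1, map_zero]
    refine ⟨⟨by rw [h1, h3], ?_⟩, ?_⟩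
    · rw [h1]
      intro h
      exact p.2.2.2 (by simpa using h)
    · rw [hh_add_left, hh_add_right, hh_add_right, hh_smul_left, hh_smul_left, hh_smul_right,
        hh_smul_right, hv₀, p.2.2.1.1, p.2.2.1.2, h4]
      linear_combination h3
  · intro w
    apply Subtype.ext
    simp
  · intro p
    have h1 : hh φ (p.1.1 • v₀ + p.2.1) v₀ = p.1.1 := by
      rw [hh_add_left, hh_smul_left, hv₀, p.2.2.1.1, mul_one, add_zero]
    apply Prod.ext
    · apply Subtype.ext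
      exact h1
    · apply Subtype.ext
      show p.1.1 • v₀ + p.2.1 - hh φ (p.1.1 • v₀ + p.2.1) v₀ • v₀ = p.2.1
      rw [h1]
      simp

theorem count3 (hq : Odd q) (v₀ : Fin 3 → F) (hv₀ : hh φ v₀ v₀ = 1) :
    Nat.card {x : ↥(Cfsg.SU 3 F q) // x ≠ 1 ∧ x * x = 1 ∧ ¬ Commute (sv hF φ hφq hφ2 v₀ hv₀) x ∧
        ∀ y : ↥(Cfsg.SU 3 F q), y ≠ 1 → y * y = 1 → ¬ (Commute (sv hF φ hφq hφ2 v₀ hv₀) y ∧ Commute y x)}
      = (q + 1) * (q ^ 2 - 1) := by
  have h := card_lift hF φ hφq hφ2 hq (fun x => ¬ Commute (sv hF φ hφq hφ2 v₀ hv₀) x ∧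
        ∀ y : ↥(Cfsg.SU 3 F q), y ≠ 1 → y * y = 1 → ¬ (Commute (sv hF φ hφq hφ2 v₀ hv₀) y ∧ Commute y x))
  rw [card_nested _ _ (fun w => hh φ w v₀ * φ (hh φ w v₀) = 1 ∧ w ≠ hh φ w v₀ • v₀)
    (fun w => P3_iff hF φ hφq hφ2 hq v₀ hv₀ w.1 w.2), count3_aux hF φ hφq hφ2 v₀ hv₀, cnt_zero hF 2] at h
  have h' := Nat.eq_of_mul_eq_mul_left (by omega : 0 < q + 1) h
  rw [← h']
  simp only [even_two, if_true, Nat.add_sub_cancel]
  ring

theorem path (hq : Odd q) (v₀ : Fin 3 → F) (hv₀ : hh φ v₀ v₀ = 1) (w : Fin 3 → F)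
    (hw : hh φ w w = 1) :
    ∃ y z : ↥(Cfsg.SU 3 F q), y ≠ 1 ∧ y * y = 1 ∧ z ≠ 1 ∧ z * z = 1 ∧
        Commute (sv hF φ hφq hφ2 v₀ hv₀) y ∧ Commute y z ∧ Commute z (sv hF φ hφq hφ2 w hw) := by
  have h2 := Cfsg.Agent.S2360.two_ne_zero' hq hF
  have hq2 := two_le_q hF
  -- step: given a norm one `u ⊥ v₀` with `N (hh w u) ≠ 1`
  have step : ∀ u : Fin 3 → F, hh φ u u = 1 → hh φ u v₀ = 0 → hh φ w u * φ (hh φ w u) ≠ 1 →
      ∃ y z : ↥(Cfsg.SU 3 F q), y ≠ 1 ∧ y * y = 1 ∧ z ≠ 1 ∧ z * z = 1 ∧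
        Commute (sv hF φ hφq hφ2 v₀ hv₀) y ∧ Commute y z ∧ Commute z (sv hF φ hφq hφ2 w hw) := by
    intro u hu huv hne
    obtain ⟨z, hz, hzu, hzw⟩ := exists_perp hF φ hφq hφ2 u w hu hw hne
    refine ⟨sv hF φ hφq hφ2 u hu, sv hF φ hφq hφ2 z hz, sv_ne_one hF φ hφq hφ2 h2 u hu,
      sv_sq hF φ hφq hφ2 u hu, sv_ne_one hF φ hφq hφ2 h2 z hz, sv_sq hF φ hφq hφ2 z hz,
      (sv_comm_iff hF φ hφq hφ2 h2 _ _ _ _).2 (Or.inl huv),
      (sv_comm_iff hF φ hφq hφ2 h2 _ _ _ _).2 (Or.inl hzu),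
      (sv_comm_iff hF φ hφq hφ2 h2 _ _ _ _).2 (Or.inl ?_)⟩
    rw [← hh_symm φ hφ2, hzw, map_zero]
  -- a norm one vector orthogonal to `v₀`
  obtain ⟨u₁, hu₁v, hu₁⟩ : ∃ u₁ : Fin 3 → F, hh φ u₁ v₀ = 0 ∧ hh φ u₁ u₁ = 1 := by
    have hc := card_perp1 hF φ hφq v₀ hv₀ 1 (one_pow q)
    rw [cnt_one hF 2] at hc
    simp only [even_two, if_true] at hc
    have hpos : 0 < q ^ (2 - 1) * (q ^ 2 - 1) := by
      apply Nat.mul_pos (pow_pos (by omega) _)
      have : 2 ^ 2 ≤ q ^ 2 := Nat.pow_le_pow_left hq2 2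
      omega
    rw [← hc] at hpos
    obtain ⟨⟨u, hu⟩⟩ := (Nat.card_pos_iff.1 hpos).1
    exact ⟨u, hu⟩
  by_cases hb : hh φ w u₁ * φ (hh φ w u₁) = 1
  · by_cases ha : hh φ w v₀ * φ (hh φ w v₀) = 1
    · -- the third vector
      set a := hh φ w v₀ with ha'
      set b := hh φ w u₁ with hb'
      set z := w - a • v₀ - b • u₁ with hz
      have hv₀u₁ : hh φ v₀ u₁ = 0 := by rw [← hh_symm φ hφ2, hu₁v, map_zero]
      have hzv : hh φ z v₀ = 0 := by
        rw [hz, hh_sub_left, hh_sub_left, hh_smul_left, hh_smul_left, hv₀, hu₁v, ← ha']; ring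
      have hwz : hh φ w z = -1 := by
        rw [hz, hh_sub_right, hh_sub_right, hh_smul_right, hh_smul_right, hw, ← ha', ← hb']
        linear_combination -ha - hb
      have hzz : hh φ z z = -1 := by
        have e1 : hh φ z z = hh φ w z - a * hh φ v₀ z - b * hh φ u₁ z := by
          conv_lhs => rw [hz]
          rw [hh_sub_left, hh_sub_left, hh_smul_left, hh_smul_left]
        have e2 : hh φ v₀ z = 0 := by rw [← hh_symm φ hφ2, hzv, map_zero]
        have e3 : hh φ z u₁ = 0 := by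
          rw [hz, hh_sub_left, hh_sub_left, hh_smul_left, hh_smul_left, hu₁, hv₀u₁, ← hb']; ring
        have e4 : hh φ u₁ z = 0 := by rw [← hh_symm φ hφ2, e3, map_zero]
        rw [e1, e2, e4, hwz]; ring
      obtain ⟨c, hc⟩ := exists_nrm hF φ hφq (-1 : F) (by rw [map_neg, map_one])
        (neg_ne_zero.2 one_ne_zero)
      apply step (c • z)
      · rw [hh_smul_left, hh_smul_right, hzz, ← mul_assoc, hc]; ring
      · rw [hh_smul_left, hzv, mul_zero]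
      · rw [hh_smul_right, hwz, map_mul, map_neg, map_one, hφ2]
        intro h
        apply h2
        linear_combination hc - h
    · -- distance two
      obtain ⟨u, hu, huv, huw⟩ := exists_perp hF φ hφq hφ2 v₀ w hv₀ hw ha
      refine ⟨sv hF φ hφq hφ2 u hu, sv hF φ hφq hφ2 u hu, sv_ne_one hF φ hφq hφ2 h2 u hu,
        sv_sq hF φ hφq hφ2 u hu, sv_ne_one hF φ hφq hφ2 h2 u hu, sv_sq hF φ hφq hφ2 u hu,
        (sv_comm_iff hF φ hφq hφ2 h2 _ _ _ _).2 (Or.inl huv), Commute.refl _,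
        (sv_comm_iff hF φ hφq hφ2 h2 _ _ _ _).2 (Or.inl ?_)⟩
      rw [← hh_symm φ hφ2, huw, map_zero]
  · exact step u₁ hu₁ hu₁v hb

omit [Field F] [Fintype F] in
theorem card_split {α : Type*} [Finite α] (A B : α → Prop) :
    Nat.card {x // A x} = Nat.card {x // A x ∧ B x} + Nat.card {x // A x ∧ ¬ B x} := by
  classical
  have := Fintype.ofFinite α
  rw [Nat.card_eq_fintype_card, Nat.card_eq_fintype_card, Nat.card_eq_fintype_card,
    Fintype.card_subtype, Fintype.card_subtype, Fintype.card_subtype,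
    ← Finset.filter_filter, ← Finset.filter_filter, Finset.card_filter_add_card_filter_not]

end grp

/-- Let q be odd, F the field with q² elements, S = SU_3(F) (determinant-one isometries of the standard Hermitian form) and t an involution of S. Then: exactly q(q−1) involutions other than t commute with t; exactly q(q−2)(q²−1) involutions do not commute with t but commute with some involution commuting with t; exactly (q+1)(q²−1) involutions x do not commute with t and admit no involution commuting with both t and x; and every involution can be reached from t in at most three steps, each step going to an involution that commutes with the previous one (the commuting involution graph is connected of diameter 3). -/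
theorem result {F : Type*} [Field F] [Fintype F] {q : ℕ} (hq : Odd q)
    (hF : Fintype.card F = q ^ 2) (t : ↥(Cfsg.SU 3 F q)) (ht : t ≠ 1) (ht2 : t * t = 1) :
    Nat.card {x : ↥(Cfsg.SU 3 F q) // x ≠ 1 ∧ x * x = 1 ∧ x ≠ t ∧ Commute t x} = q * (q - 1) ∧
    Nat.card {x : ↥(Cfsg.SU 3 F q) // x ≠ 1 ∧ x * x = 1 ∧ ¬ Commute t x ∧
        ∃ y : ↥(Cfsg.SU 3 F q), y ≠ 1 ∧ y * y = 1 ∧ Commute t y ∧ Commute y x} = q * (q - 2) * (q ^ 2 - 1) ∧
    Nat.card {x : ↥(Cfsg.SU 3 F q) // x ≠ 1 ∧ x * x = 1 ∧ ¬ Commute t x ∧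
        ∀ y : ↥(Cfsg.SU 3 F q), y ≠ 1 → y * y = 1 → ¬ (Commute t y ∧ Commute y x)} = (q + 1) * (q ^ 2 - 1) ∧
    ∀ x : ↥(Cfsg.SU 3 F q), x ≠ 1 → x * x = 1 →
      ∃ y z : ↥(Cfsg.SU 3 F q), y ≠ 1 ∧ y * y = 1 ∧ z ≠ 1 ∧ z * z = 1 ∧
        Commute t y ∧ Commute y z ∧ Commute z x := by
  obtain ⟨φ, hφq, hφ2, ω, hω⟩ := exists_frob hF
  have hI := (Cfsg.Agent.S2360.result hq hF t ht ht2).2.1
  obtain ⟨v₀, hv₀, rfl⟩ := exists_sv hF φ hφq hφ2 hq t ht ht2
  set t := sv hF φ hφq hφ2 v₀ hv₀ with htdef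
  have h1 := count1 hF φ hφq hφ2 hq v₀ hv₀
  have h3 := count3 hF φ hφq hφ2 hq v₀ hv₀
  rw [← htdef] at h1 h3
  refine ⟨h1, ?_, h3, ?_⟩
  · have hq2 := two_le_q hF
    have s1 := card_split (fun x : ↥(Cfsg.SU 3 F q) => x ≠ 1 ∧ x * x = 1) (fun x => Commute t x)
    have s2 := card_split (fun x : ↥(Cfsg.SU 3 F q) => (x ≠ 1 ∧ x * x = 1) ∧ ¬ Commute t x)
      (fun x => ∃ y : ↥(Cfsg.SU 3 F q), y ≠ 1 ∧ y * y = 1 ∧ Commute t y ∧ Commute y x)
    have s3 := card_erase (fun x : ↥(Cfsg.SU 3 F q) => (x ≠ 1 ∧ x * x = 1) ∧ Commute t x) t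
      ⟨⟨ht, ht2⟩, Commute.refl t⟩
    have hpos : 0 < Nat.card {x : ↥(Cfsg.SU 3 F q) // (x ≠ 1 ∧ x * x = 1) ∧ Commute t x} :=
      Nat.card_pos_iff.2 ⟨⟨⟨t, ⟨ht, ht2⟩, Commute.refl t⟩⟩, inferInstance⟩
    have e1 : Nat.card {x : ↥(Cfsg.SU 3 F q) // ((x ≠ 1 ∧ x * x = 1) ∧ Commute t x) ∧ x ≠ t}
        = Nat.card {x : ↥(Cfsg.SU 3 F q) // x ≠ 1 ∧ x * x = 1 ∧ x ≠ t ∧ Commute t x} :=
      Nat.card_congr (Equiv.subtypeEquivRight (fun x =>
        ⟨fun ⟨⟨⟨a, b⟩, c⟩, d⟩ => ⟨a, b, d, c⟩, fun ⟨a, b, d, c⟩ => ⟨⟨⟨a, b⟩, c⟩, d⟩⟩))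
    have e2 : Nat.card {x : ↥(Cfsg.SU 3 F q) // ((x ≠ 1 ∧ x * x = 1) ∧ ¬ Commute t x) ∧
          ∃ y : ↥(Cfsg.SU 3 F q), y ≠ 1 ∧ y * y = 1 ∧ Commute t y ∧ Commute y x}
        = Nat.card {x : ↥(Cfsg.SU 3 F q) // x ≠ 1 ∧ x * x = 1 ∧ ¬ Commute t x ∧
          ∃ y : ↥(Cfsg.SU 3 F q), y ≠ 1 ∧ y * y = 1 ∧ Commute t y ∧ Commute y x} :=
      Nat.card_congr (Equiv.subtypeEquivRight (fun x =>
        ⟨fun ⟨⟨⟨a, b⟩, c⟩, d⟩ => ⟨a, b, c, d⟩, fun ⟨a, b, c, d⟩ => ⟨⟨⟨a, b⟩, c⟩, d⟩⟩))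
    have e3 : Nat.card {x : ↥(Cfsg.SU 3 F q) // ((x ≠ 1 ∧ x * x = 1) ∧ ¬ Commute t x) ∧
          ¬ ∃ y : ↥(Cfsg.SU 3 F q), y ≠ 1 ∧ y * y = 1 ∧ Commute t y ∧ Commute y x}
        = Nat.card {x : ↥(Cfsg.SU 3 F q) // x ≠ 1 ∧ x * x = 1 ∧ ¬ Commute t x ∧
          ∀ y : ↥(Cfsg.SU 3 F q), y ≠ 1 → y * y = 1 → ¬ (Commute t y ∧ Commute y x)} :=
      Nat.card_congr (Equiv.subtypeEquivRight (fun x => by
        constructor
        · rintro ⟨⟨⟨a, b⟩, c⟩, d⟩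
          exact ⟨a, b, c, fun y hy hy2 hc => d ⟨y, hy, hy2, hc.1, hc.2⟩⟩
        · rintro ⟨a, b, c, d⟩
          exact ⟨⟨⟨a, b⟩, c⟩, fun ⟨y, hy, hy2, hc1, hc2⟩ => d y hy hy2 ⟨hc1, hc2⟩⟩))
    rw [e1, h1] at s3
    rw [e2, e3, h3] at s2
    rw [hI, s2] at s1
    set N2 := Nat.card {x : ↥(Cfsg.SU 3 F q) // x ≠ 1 ∧ x * x = 1 ∧ ¬ Commute t x ∧
          ∃ y : ↥(Cfsg.SU 3 F q), y ≠ 1 ∧ y * y = 1 ∧ Commute t y ∧ Commute y x} with hN2
    set C := Nat.card {x : ↥(Cfsg.SU 3 F q) // (x ≠ 1 ∧ x * x = 1) ∧ Commute t x} with hC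
    obtain ⟨r, rfl⟩ : ∃ r, q = r + 2 := ⟨q - 2, by omega⟩
    have a1 : (r + 2) ^ 2 - 1 = r ^ 2 + 4 * r + 3 := by
      have : (r + 2) ^ 2 = r ^ 2 + 4 * r + 3 + 1 := by ring
      omega
    have a2 : (r + 2) ^ 2 - (r + 2) + 1 = r ^ 2 + 3 * r + 3 := by
      have : (r + 2) ^ 2 = r ^ 2 + 3 * r + 2 + (r + 2) := by ring
      omega
    have a3 : r + 2 - 1 = r + 1 := by omega
    have a4 : r + 2 - 2 = r := by omega
    rw [a1, a2] at s1
    rw [a3] at s3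
    rw [a1, a4]
    have hCv : C = (r + 2) * (r + 1) + 1 := by omega
    rw [hCv] at s1
    nlinarith [s1]
  · intro x hx hx2
    obtain ⟨w, hw, rfl⟩ := exists_sv hF φ hφq hφ2 hq x hx hx2
    exact path hF φ hφq hφ2 hq v₀ hv₀ w hw

end Cfsg.Agent.S2356
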