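import Mathlib
import Cfsg.Statements.S2362
import Cfsg.Agent.Lib.Helper45OrthD
import Cfsg.Agent.Lib.Helper45SpTri
import Cfsg.Agent.Lib.Helper49OddForm

set_option autoImplicit false
open Cfsg

namespace Cfsg.Agent.S2362

open Cfsg.Agent.Lib.Helper45Sp Cfsg.Agent.Lib.Helper45SpTri Cfsg.Agent.Lib.Helper45ProjOrder Module

theorem exists_fld_datum {F : Type*} [Field F] [Fintype F] (p : ℕ) [Fact p.Prime] [CharP F p]
    (n : ℕ) (hn : 1 ≤ n) (d : ℕ) (hd : d ∣ Fintype.card F ^ n + 1) :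
    ∃ (_ : NeZero (2 * n)) (D : AData F (FiniteField.Extension F p (2 * n)))
      (μ : FiniteField.Extension F p (2 * n)), μ * D.τ μ = 1 ∧ orderOf μ = d := by
  have hne0 : NeZero (2 * n) := ⟨by omega⟩
  refine ⟨hne0, ?_⟩
  let K := FiniteField.Extension F p (2 * n)
  have hfin : finrank F K = 2 * n := FiniteField.finrank_extension F p (2 * n)
  have hcard : Nat.card K = Fintype.card F ^ (2 * n) := by
    rw [FiniteField.natCard_extension, Nat.card_eq_fintype_card]
  let τ : K →ₐ[F] K := FiniteField.frobeniusAlgHom F K ^ n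
  have hτa : ∀ a, τ a = a ^ (Fintype.card F ^ n) := by
    intro a
    show (FiniteField.frobeniusAlgHom F K ^ n) a = _
    rw [AlgHom.coe_pow, FiniteField.coe_frobeniusAlgHom, pow_iterate]
  have hτ : ∀ a, τ (τ a) = a := by
    intro a
    have := Fintype.ofFinite K
    rw [hτa, hτa, ← pow_mul, ← pow_add, ← two_mul, ← hcard, Nat.card_eq_fintype_card,
      FiniteField.pow_card]
  have hne : ∃ x, τ x ≠ x := by
    by_contra hcon
    push Not at hcon
    have h1 : FiniteField.frobeniusAlgHom F K ^ n = 1 := AlgHom.ext hcon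
    have h3 := orderOf_dvd_of_pow_eq_one h1
    rw [FiniteField.orderOf_frobeniusAlgHom, hfin] at h3
    have := Nat.le_of_dvd (by omega) h3
    omega
  obtain ⟨x, hx⟩ := hne
  obtain ⟨a, ha⟩ := exists_unit_orderOf K d (by
    rw [hcard]
    have h1 : Fintype.card F ^ (2 * n) - 1 = (Fintype.card F ^ n + 1) * (Fintype.card F ^ n - 1) := by
      rw [← Nat.sq_sub_sq, one_pow, ← pow_mul, mul_comm n 2]
    rw [h1]
    exact hd.mul_right _)
  refine ⟨AData.fld (F := F) K (trace_nd K) τ hτ (x - τ x)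
    (by rw [map_sub, hτ]; ring) (fun h => hx (sub_eq_zero.1 h).symm), (a : K), ?_,
    by rw [orderOf_units, ha]⟩
  show (a : K) * τ a = 1
  rw [hτa, mul_comm, ← pow_succ, ← Units.val_pow_eq_pow_val, Units.val_eq_one]
  exact orderOf_dvd_iff_pow_eq_one.1 (ha ▸ hd)

theorem exists_psp {F : Type*} [Field F] [Fintype F] (p : ℕ) [Fact p.Prime] [CharP F p]
    (h2 : (2 : F) ≠ 0) (n : ℕ) (hn : 2 ≤ n) :
    ∃ y : Cfsg.PSp n F, orderOf y = p * (Fintype.card F ^ (n - 1) + 1) := by
  have hp : p.Prime := Fact.out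
  obtain ⟨hne0, D, μ, hμ, ho⟩ := exists_fld_datum (F := F) p (n - 1) (by omega)
    (Fintype.card F ^ (n - 1) + 1) dvd_rfl
  obtain ⟨y, hy⟩ := D.exists_prod_unip h2 (n := n) (by omega) 2 (by norm_num) even_two
    (by rw [FiniteField.finrank_extension]; omega) μ hμ p 1 (by
      intro s hs
      rcases Nat.eq_zero_or_pos s with h | h
      · rw [h, pow_zero] at hs
        omega
      · exact h)
  have : Finite (Cfsg.PSp n F) := by
    unfold Cfsg.PSp
    infer_instance
  apply exists_orderOf_eq_of_dvd y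
  obtain ⟨h1, h3⟩ := hy _ (pow_orderOf_eq_one y)
  rw [pow_one] at h3
  have h4 : Fintype.card F ^ (n - 1) + 1 ∣ orderOf y := by
    rw [← ho]
    exact orderOf_dvd_of_pow_eq_one h1
  apply Nat.Coprime.mul_dvd_of_dvd_of_dvd _ h3 h4
  rw [Nat.Prime.coprime_iff_not_dvd hp]
  intro h5
  obtain ⟨e, -, he⟩ := FiniteField.card F p
  have h6 : p ∣ Fintype.card F ^ (n - 1) :=
    dvd_pow (by rw [he]; exact dvd_pow_self p e.ne_zero) (by omega)
  have h7 : p ∣ 1 := (Nat.dvd_add_right h6).1 h5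
  exact hp.one_lt.ne' (Nat.dvd_one.1 h7)

theorem card_sq_eq_one {F : Type*} [Field F] (h2 : (2 : F) ≠ 0) :
    Nat.card {x : F // x ^ 2 = 1} = 2 := by
  rw [Nat.card_eq_two_iff]
  refine ⟨⟨1, one_pow 2⟩, ⟨-1, by ring⟩, ?_, ?_⟩
  · intro h
    have h3 : (1 : F) = -1 := congrArg Subtype.val h
    apply h2
    linear_combination h3
  · ext x
    simp only [Set.mem_insert_iff, Set.mem_singleton_iff, Set.mem_univ, iff_true]
    rcases sq_eq_one_iff.1 x.2 with h | h
    · exact Or.inl (Subtype.ext h)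
    · exact Or.inr (Subtype.ext h)

/-- Let F be a finite field of odd order and n ≥ 3. The simple orthogonal group PΩ(2n+1, F) (type B_n) and the projective symplectic group PSp(2n, F) (type C_n), which have the same order, do not have the same set of element orders. -/
theorem result {F : Type*} [Field F] [Fintype F] (hodd : Odd (Fintype.card F)) (n : ℕ) (hn : 3 ≤ n) :
    Set.range (orderOf : Cfsg.POmega F (Cfsg.quadFormOdd n F) → ℕ) ≠ Set.range (orderOf : Cfsg.PSp n F → ℕ) := by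
  have h2 : (2 : F) ≠ 0 := Cfsg.Agent.Lib.Helper49Forms.two_ne_zero_of_odd rfl hodd
  obtain ⟨p, hchar⟩ := CharP.exists F
  have hpp : p.Prime := (CharP.char_is_prime_or_zero F p).resolve_right (by
    rintro rfl
    have := CharP.charP_to_charZero F
    exact not_finite F)
  have : Fact p.Prime := ⟨hpp⟩
  have hp2 : p ≠ 2 := by
    rintro rfl
    apply h2
    exact_mod_cast CharP.cast_eq_zero F 2
  have hQ := Cfsg.Agent.Lib.Helper49OddForm.QOdd_nondegenerate h2 n
  have hcard : Fintype.card (Unit ⊕ (Fin n ⊕ Fin n)) = 2 * (n - 1) + 3 := by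
    simp only [Fintype.card_sum, Fintype.card_unit, Fintype.card_fin]; omega
  have hcnt : Nat.card {v : Unit ⊕ (Fin n ⊕ Fin n) → F // Cfsg.Agent.Lib.Helper49Forms.QOdd n F v = 1}
      = Fintype.card F ^ (2 * (n - 1 + 1)) + Fintype.card F ^ (n - 1 + 1) := by
    rw [Nat.sub_add_cancel (by omega), Cfsg.Agent.Lib.Helper49Forms.coe_QOdd,
      Cfsg.Agent.Lib.Helper7QForms.card_odd]
    have := Cfsg.Agent.Lib.Helper45OrthC.cntQ_odd (F := F) n 1
    rw [card_sq_eq_one h2] at this
    omega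
  have key := Cfsg.Agent.Lib.Helper45OrthD.no_order p hp2 (Cfsg.Agent.Lib.Helper49Forms.QOdd n F) hQ
    (n - 1) (by omega) hcard hcnt
  rw [← Cfsg.Agent.Lib.Helper49Forms.coe_QOdd]
  intro heq
  obtain ⟨y, hy⟩ := exists_psp p h2 n (by omega)
  have h3 : p * (Fintype.card F ^ (n - 1) + 1) ∈ Set.range (orderOf : Cfsg.PSp n F → ℕ) := ⟨y, hy⟩
  rw [← heq] at h3
  obtain ⟨x, hx⟩ := h3
  obtain ⟨g0, rfl⟩ := QuotientGroup.mk_surjective x
  have hdvd : p * (Fintype.card F ^ (n - 1) + 1) ∣ orderOf g0 := by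
    rw [← hx]
    exact orderOf_map_dvd (QuotientGroup.mk' _) g0
  obtain ⟨g1, hg1⟩ := exists_orderOf_eq_of_dvd g0 _ hdvd
  apply key (g1 : ↥(Cfsg.isometryGroup F ⇑(Cfsg.Agent.Lib.Helper49Forms.QOdd n F)))
    (Abelianization.commutator_subset_ker _ g1.2) (Abelianization.commutator_subset_ker _ g1.2)
  rw [Subgroup.orderOf_coe, hg1]

end Cfsg.Agent.S2362
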