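import Cfsg.Statements.S2391
-- import your own Cfsg.Agent.* helpers here
import Mathlib
import Cfsg.Agent.S4010

set_option autoImplicit false
open Cfsg

namespace Cfsg.Agent.S2391

/-- The Borel–Tits property of `SL_n(q)` in flag form: for a field `F` of characteristic `p` with finitely many elements and a non-trivial `p`-subgroup `U` of `SL_n(F)`, there is a flag `0 = V₀ < V₁ < ⋯ < V_{k+1} = F^n` with at least one proper non-zero member such that every element of the normaliser of `U` maps each `V_i` onto itself and every element of `U` acts trivially on each quotient `V_{i+1}/V_i` (so the normaliser lies in the parabolic subgroup of the flag and `U` in its unipotent radical). -/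
theorem result {F : Type*} [Field F] [Fintype F] (p : ℕ) [Fact p.Prime] [CharP F p] (n : ℕ)
    (U : Subgroup (Matrix.SpecialLinearGroup (Fin n) F)) (hU : IsPGroup p ↥U) (hne : U ≠ ⊥) :
    ∃ (k : ℕ) (V : Fin (k + 2) → Submodule F (Fin n → F)), 1 ≤ k ∧ StrictMono V ∧ V 0 = ⊥ ∧ V (Fin.last (k + 1)) = ⊤ ∧
      (∀ g ∈ Subgroup.normalizer (U : Set (Matrix.SpecialLinearGroup (Fin n) F)), ∀ i, (V i).map (Matrix.mulVecLin (g : Matrix (Fin n) (Fin n) F)) = V i) ∧
      (∀ u ∈ U, ∀ i : Fin (k + 1), ∀ v ∈ V i.succ, (u : Matrix (Fin n) (Fin n) F).mulVec v - v ∈ V (Fin.castSucc i)) := by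
  classical
  have hpK : (p : F) = 0 := CharP.cast_eq_zero F p
  let ρ : ↥U →* Module.End F (Fin n → F) :=
    { toFun := fun u => Matrix.mulVecLin ((u : Matrix.SpecialLinearGroup (Fin n) F) : Matrix (Fin n) (Fin n) F)
      map_one' := by ext; simp
      map_mul' := fun a b => by
        simp only [Subgroup.coe_mul, Matrix.SpecialLinearGroup.coe_mul, Matrix.mulVecLin_mul]
        rfl }
  have hρ : ∀ (u : ↥U) (v : Fin n → F),
      ρ u v = ((u : Matrix.SpecialLinearGroup (Fin n) F) : Matrix (Fin n) (Fin n) F).mulVec v :=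
    fun _ _ => rfl
  have hfin : ∃ j, Cfsg.Agent.S4010.U ρ j = ⊤ :=
    ⟨n, Cfsg.Agent.S4010.U_top p hU hpK ρ n (by simp)⟩
  have hm : Cfsg.Agent.S4010.U ρ (Nat.find hfin) = ⊤ := Nat.find_spec hfin
  have hmin : ∀ j < Nat.find hfin, Cfsg.Agent.S4010.U ρ j ≠ ⊤ := fun j hj => Nat.find_min hfin hj
  have h1 : Cfsg.Agent.S4010.U ρ 1 ≠ ⊤ := by
    intro htop
    apply hne
    rw [eq_bot_iff]
    intro u hu
    rw [Subgroup.mem_bot]
    apply Subtype.ext
    apply Matrix.toLin'.injective
    ext1 v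
    apply LinearMap.ext
    intro c
    have h2 : (LinearMap.single F (fun _ => F) v c) ∈ Cfsg.Agent.S4010.U ρ (0 + 1) := by
      rw [zero_add, htop]; trivial
    rw [Cfsg.Agent.S4010.mem_U_succ] at h2
    have h3 := h2 ⟨u, hu⟩
    have h4 : ρ ⟨u, hu⟩ (LinearMap.single F (fun _ => F) v c) - LinearMap.single F (fun _ => F) v c = 0 := by
      simpa [Cfsg.Agent.S4010.U] using h3
    rw [sub_eq_zero, hρ] at h4
    simp only [LinearMap.comp_apply, Matrix.toLin'_apply, Matrix.SpecialLinearGroup.coe_one,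
      Matrix.one_mulVec]
    exact h4
  have hm2 : 2 ≤ Nat.find hfin := by
    by_contra hlt
    apply h1
    have := Cfsg.Agent.S4010.U_mono ρ (show Nat.find hfin ≤ 1 by omega)
    rw [hm] at this
    exact top_le_iff.1 this
  obtain ⟨k, hk⟩ : ∃ k, Nat.find hfin = k + 1 := ⟨Nat.find hfin - 1, by omega⟩
  have hinv : ∀ g ∈ Subgroup.normalizer (U : Set (Matrix.SpecialLinearGroup (Fin n) F)), ∀ j,
      ∀ v ∈ Cfsg.Agent.S4010.U ρ j,
        (g : Matrix (Fin n) (Fin n) F).mulVec v ∈ Cfsg.Agent.S4010.U ρ j := by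
    intro g hg j
    induction j with
    | zero =>
      intro v hv
      have : v = 0 := by simpa [Cfsg.Agent.S4010.U] using hv
      rw [this, Matrix.mulVec_zero]
      exact Submodule.zero_mem _
    | succ j ih =>
      intro v hv
      rw [Cfsg.Agent.S4010.mem_U_succ] at hv ⊢
      intro u
      have hu' : g⁻¹ * (u : Matrix.SpecialLinearGroup (Fin n) F) * g ∈ U := by
        have := (Subgroup.mem_normalizer_iff''.1 hg) (u : Matrix.SpecialLinearGroup (Fin n) F)
        exact this.1 u.2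
      have h2 := ih _ (hv ⟨_, hu'⟩)
      rw [hρ] at h2 ⊢
      rw [Matrix.mulVec_sub, Matrix.mulVec_mulVec] at h2
      have e : (g : Matrix (Fin n) (Fin n) F) *
          ((g⁻¹ * (u : Matrix.SpecialLinearGroup (Fin n) F) * g : Matrix.SpecialLinearGroup (Fin n) F) :
            Matrix (Fin n) (Fin n) F)
          = ((u : Matrix.SpecialLinearGroup (Fin n) F) : Matrix (Fin n) (Fin n) F) * (g : Matrix (Fin n) (Fin n) F) := by
        rw [← Matrix.SpecialLinearGroup.coe_mul, ← Matrix.SpecialLinearGroup.coe_mul]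
        congr 1
        rw [mul_assoc, mul_inv_cancel_left]
      rw [Matrix.mulVec_mulVec]
      rw [← e]
      exact h2
  refine ⟨k, fun i => Cfsg.Agent.S4010.U ρ i.val, by omega, ?_, rfl, ?_, ?_, ?_⟩
  · rw [Fin.strictMono_iff_lt_succ]
    intro i
    exact Cfsg.Agent.S4010.U_lt p hU hpK ρ i.val (hmin _ (by have := i.2; omega))
  · simp only [Fin.val_last]
    rw [← hk]; exact hm
  · intro g hg i
    apply le_antisymm
    · rintro _ ⟨v, hv, rfl⟩
      exact hinv g hg _ v hv
    · intro v hv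
      refine ⟨(g⁻¹ : Matrix.SpecialLinearGroup (Fin n) F).1.mulVec v,
        hinv g⁻¹ (Subgroup.inv_mem _ hg) _ v hv, ?_⟩
      simp only [Matrix.mulVecLin_apply, Matrix.mulVec_mulVec]
      rw [← Matrix.SpecialLinearGroup.coe_mul]
      simp
  · intro u hu i v hv
    have h2 : v ∈ Cfsg.Agent.S4010.U ρ (i.val + 1) := hv
    rw [Cfsg.Agent.S4010.mem_U_succ] at h2
    exact h2 ⟨u, hu⟩

end Cfsg.Agent.S2391
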