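import Cfsg.Statements.S2394
import Cfsg.Agent.S0245
import Cfsg.Agent.S2904
-- import your own Cfsg.Agent.* helpers here

set_option autoImplicit false
open scoped MatrixGroups
open Cfsg

namespace Cfsg.Agent.S2394

/-- The smallest degree of a faithful representation of the symplectic group `Sp_{2n}(q)` over its own field `F_q` is `2n`: every injective homomorphism from `Sp_{2n}(F)` to `GL_d(F)`, `F` the field with `q` elements, has `d ≥ 2n`. -/
theorem result {F : Type*} [Field F] [Fintype F] (n : ℕ) {d : ℕ}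
    (ρ : ↥(Matrix.symplecticGroup (Fin n) F) →* GL (Fin d) F) (hρ : Function.Injective ρ) : 2 * n ≤ d := by
  classical
  by_contra hlt
  push Not at hlt
  set q := Fintype.card F with hq
  have hq1 : 1 < q := Fintype.one_lt_card
  have hdvd : Nat.card (Matrix.symplecticGroup (Fin n) F) ∣ Nat.card (GL (Fin d) F) :=
    Subgroup.card_dvd_of_injective ρ hρ
  rw [Cfsg.Agent.S0245.result rfl n, Matrix.card_GL_field, ← hq] at hdvd
  have hn : 1 ≤ n := by omega
  have h1 : q ^ (2 * n) - 1 ∣ ∏ i : Fin d, (q ^ d - q ^ (i : ℕ)) := by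
    refine dvd_trans ?_ hdvd
    refine Dvd.dvd.mul_left ?_ _
    have := Finset.dvd_prod_of_mem (fun i => q ^ (2 * (i + 1)) - 1)
      (Finset.mem_range.2 (show n - 1 < n by omega))
    simpa [show n - 1 + 1 = n by omega] using this
  have key : ∀ r : ℕ, r.Prime → r ∣ q ^ (2 * n) - 1 →
      (∀ k, 0 < k → k < 2 * n → ¬ r ∣ q ^ k - 1) → False := by
    intro r hr hr1 hr2
    have h2 := hr1.trans h1
    obtain ⟨i, -, hi⟩ := (hr.prime.dvd_finset_prod_iff _).1 h2
    have hid := i.2
    have e : q ^ d - q ^ (i : ℕ) = q ^ (i : ℕ) * (q ^ (d - i) - 1) := by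
      rw [Nat.mul_sub, mul_one, ← pow_add]
      congr 2
      omega
    rw [e] at hi
    rcases (Nat.Prime.dvd_mul hr).1 hi with h3 | h3
    · have h4 : r ∣ q := hr.dvd_of_dvd_pow h3
      have h5 : r ∣ q ^ (2 * n) := dvd_pow h4 (by omega)
      have h6 : r ∣ 1 := by
        have := Nat.dvd_sub h5 hr1
        rwa [Nat.sub_sub_self (Nat.one_le_pow _ _ (by omega))] at this
      exact hr.one_lt.ne' (Nat.dvd_one.1 h6)
    · exact hr2 (d - i) (by omega) (by omega) h3
  by_cases h6 : q = 2 ∧ 2 * n = 6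
  · obtain ⟨hq2, hn3⟩ := h6
    have hn3' : n = 3 := by omega
    rw [hq2, hn3'] at hdvd
    have hd6 : d < 6 := by omega
    interval_cases d <;> simp [Fin.prod_univ_succ, Finset.prod_range_succ] at hdvd <;> omega
  by_cases h2 : 2 * n = 2 ∧ ∃ m, q + 1 = 2 ^ m
  · have hn1 : n = 1 := by omega
    rw [hn1] at hdvd
    have hd2 : d < 2 := by omega
    have hbig : q - 1 < q ^ 1 ^ 2 * ∏ i ∈ Finset.range 1, (q ^ (2 * (i + 1)) - 1) := by
      simp only [Finset.prod_range_one, one_pow, pow_one, zero_add, mul_one]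
      have h3 : 1 ≤ q ^ 2 - 1 := by
        have : 4 ≤ q ^ 2 := by nlinarith
        omega
      calc q - 1 < q * 1 := by omega
        _ ≤ q * (q ^ 2 - 1) := Nat.mul_le_mul_left _ h3
    interval_cases d
    · simp only [Finset.univ_eq_empty, Finset.prod_empty, Nat.dvd_one] at hdvd
      omega
    · simp only [Finset.univ_unique, Fin.default_eq_zero, Fin.isValue, pow_one, Fin.val_eq_zero,
        pow_zero, Finset.prod_const, Finset.card_singleton] at hdvd
      have := Nat.le_of_dvd (by omega) hdvd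
      omega
  obtain ⟨r, hr, hr1, hr2⟩ := Cfsg.Agent.S2904.result q (2 * n) hq1 (by omega) h6 h2
  exact key r hr hr1 hr2

end Cfsg.Agent.S2394
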