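import Cfsg.Statements.S2410
import Cfsg.Agent.S2251

set_option autoImplicit false
open Cfsg

namespace Cfsg.Agent.S2410


open Cfsg.Agent.Lib.Helper8Sz Cfsg.Agent.Lib.Helper8Sz2 Cfsg.Agent.Lib.Helper8Sz3
  Cfsg.Agent.Lib.Helper8Sz4 Cfsg.Agent.Lib.Helper8Sz5 Cfsg.Agent.Lib.Helper8Sz8
  Cfsg.Agent.Lib.Helper8SzMax Cfsg.Agent.Lib.Helper8SzMax2
  Cfsg.Agent.Lib.Helper61Zass Cfsg.Agent.Lib.Helper61Fix2 Cfsg.Agent.Lib.Helper61SzTori
  Cfsg.Agent.Lib.Helper61Zass2 Cfsg.Agent.Lib.Helper61SzTori2 Cfsg.Agent.Lib.Helper61Part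

/-- the torus as a homomorphism -/
noncomputable def tor' {F : Type*} [Field F] [Fintype F] {m : ℕ}
    (hF : Fintype.card F = 2 ^ (2 * m + 1)) : Fˣ →* Sz F m where
  toFun c := H hF (c : F) c.ne_zero
  map_one' := H_one hF
  map_mul' c c' := H_mul hF (c : F) (c' : F) c.ne_zero c'.ne_zero

theorem arith {k m : ℕ} (hkm : k < m) (hdiv : 2 * k + 1 ∣ 2 * m + 1) :
    ¬ (2 ^ (2 * m + 1) - 1 ∣
      (2 ^ (2 * k + 1)) ^ 2 * ((2 ^ (2 * k + 1)) ^ 2 + 1) * (2 ^ (2 * k + 1) - 1)) := by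
  intro h
  obtain ⟨d, hd⟩ := hdiv
  have hd3 : 3 ≤ d := by
    rcases Nat.lt_or_ge d 3 with h3 | h3
    · exfalso
      interval_cases d
      · omega
      · omega
      · omega
    · exact h3
  set s := 2 ^ (2 * k + 1) with hs
  have hs2 : 2 ≤ s := by
    calc 2 = 2 ^ 1 := rfl
      _ ≤ s := Nat.pow_le_pow_right (by norm_num) (by omega)
  have hq : s ^ 3 ≤ 2 ^ (2 * m + 1) := by
    rw [hs, ← pow_mul, hd]
    exact Nat.pow_le_pow_right (by norm_num) (Nat.mul_le_mul_left _ hd3)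
  have hqe : ∃ Q, 2 ^ (2 * m + 1) = 2 * Q := ⟨2 ^ (2 * m), by rw [pow_succ]; ring⟩
  obtain ⟨Q, hQ⟩ := hqe
  have hcop : Nat.Coprime (2 ^ (2 * m + 1) - 1) (s ^ 2) := by
    rw [hs, ← pow_mul]
    apply Nat.Coprime.pow_right
    rw [Nat.coprime_comm, Nat.Prime.coprime_iff_not_dvd Nat.prime_two]
    have : 0 < 2 ^ (2 * m + 1) := by positivity
    omega
  rw [mul_assoc] at h
  have h2 := hcop.dvd_of_dvd_mul_left h
  have hpos : 0 < (s ^ 2 + 1) * (s - 1) := Nat.mul_pos (by positivity) (by omega)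
  have h3 := Nat.le_of_dvd hpos h2
  clear_value s
  obtain ⟨t, rfl⟩ : ∃ t, s = t + 2 := ⟨s - 2, by omega⟩
  have e : t + 2 - 1 = t + 1 := by omega
  rw [e] at h3
  have h4 : ((t + 2) ^ 2 + 1) * (t + 1) + 1 < (t + 2) ^ 3 := by nlinarith
  omega

/-- The Suzuki group over the field with `2^(2m+1)` elements, `m ≥ 1` (realised as the stabiliser in `SL₄` of the Suzuki–Tits ovoid), is generated by two of its elements. -/
theorem result {F : Type*} [Field F] [Fintype F] {m : ℕ} (hm : 1 ≤ m) (hF : Fintype.card F = 2 ^ (2 * m + 1)) :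
    ∃ a b : ↥(Cfsg.Sz F m), Subgroup.closure ({a, b} : Set ↥(Cfsg.Sz F m)) = ⊤ := by
  have D := szData hF hm
  have E := szQData hF hm
  obtain ⟨ζ, hζ⟩ := IsCyclic.exists_generator (α := Fˣ)
  have hoζ : orderOf ζ = 2 ^ (2 * m + 1) - 1 := by
    rw [orderOf_eq_card_of_forall_mem_zpowers hζ, card_units_F hF]
  have hinj : Function.Injective (tor' hF) := by
    intro c c' h
    exact Units.ext (H_inj hF h)
  have hoa : orderOf (tor' hF ζ) = 2 ^ (2 * m + 1) - 1 := by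
    rw [orderOf_injective _ hinj, hoζ]
  obtain ⟨b, hb⟩ := exists_good D
  have hbf : Fpf (suzukiOvoid F m) b := fpf_of_good D hb
  have hq8 : 8 ≤ 2 ^ (2 * m + 1) := q_ge D
  obtain ⟨Q2, hQ2⟩ : ∃ Q2, 2 ^ (2 * m + 1) = 2 * Q2 := ⟨2 ^ (2 * m), by rw [pow_succ]; ring⟩
  have hao : ¬ 2 ∣ orderOf (tor' hF ζ) := by rw [hoa]; omega
  have hbo : ¬ 2 ∣ orderOf b := odd_of_fpf D hbf
  have ha1 : tor' hF ζ ≠ 1 := by
    intro h
    rw [h, orderOf_one] at hoa
    omega
  have hainf : tor' hF ζ • oInf F m = oInf F m := H_oInf hF _ _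
  have hazero : tor' hF ζ • oPt m (0 : F) 0 = oPt m 0 0 := H_oPt_zero hF _ _
  refine ⟨tor' hF ζ, b, ?_⟩
  by_contra hM
  have haM : tor' hF ζ ∈ Subgroup.closure ({tor' hF ζ, b} : Set ↥(Cfsg.Sz F m)) :=
    Subgroup.subset_closure (by simp)
  have hbM : b ∈ Subgroup.closure ({tor' hF ζ, b} : Set ↥(Cfsg.Sz F m)) :=
    Subgroup.subset_closure (by simp)
  rcases Cfsg.Agent.S2251.result hm hF _ hM with ⟨P, hP⟩ | ⟨U, hcyc, hcard, hU⟩ |
    ⟨K, _, _, k, hk, hkm, hK, hdiv, S, ⟨e⟩, hS⟩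
  · -- `b` would fix a point
    obtain ⟨k, hk⟩ := sylow_conj hF hm P
    have hbN := hP hbM
    have h1 : k⁻¹ * b * k ∈ Subgroup.normalizer (Q hF hm : Set (Sz F m)) := by
      rw [Subgroup.mem_normalizer_iff]
      intro y
      have h2 := (Subgroup.mem_normalizer_iff.1 hbN (k * y * k⁻¹))
      have h3 : k * y * k⁻¹ ∈ (P : Subgroup (Sz F m)) ↔ y ∈ Q hF hm := by
        have h4 : k * y * k⁻¹ ∈ (P : Subgroup (Sz F m)) ↔ _ := hk (k * y * k⁻¹)
        rw [h4]
        have : k⁻¹ * (k * y * k⁻¹) * k = y := by group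
        rw [this]
      have h5 : b * (k * y * k⁻¹) * b⁻¹ ∈ (P : Subgroup (Sz F m)) ↔
          k⁻¹ * b * k * y * (k⁻¹ * b * k)⁻¹ ∈ Q hF hm := by
        have h4 : b * (k * y * k⁻¹) * b⁻¹ ∈ (P : Subgroup (Sz F m)) ↔ _ :=
          hk (b * (k * y * k⁻¹) * b⁻¹)
        rw [h4]
        have : k⁻¹ * (b * (k * y * k⁻¹) * b⁻¹) * k = k⁻¹ * b * k * y * (k⁻¹ * b * k)⁻¹ := by group
        rw [this]
      rw [← h3, ← h5]
      exact h2
    rw [normalizer_Q hF hm, MulAction.mem_stabilizer_iff, mul_smul, mul_smul,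
      inv_smul_eq_iff] at h1
    exact hbf _ h1
  · -- `a` and `b` would commute
    obtain ⟨⟨x, hxU⟩, hx⟩ := hcyc.exists_generator
    have hUodd : ¬ 2 ∣ Nat.card U := Cfsg.Agent.S2238.odd3 m hm hcard
    have hx1 : x ≠ 1 := by
      rintro rfl
      have hbot : U = ⊥ := by
        rw [eq_bot_iff]
        intro u hu
        obtain ⟨j, hj⟩ := Subgroup.mem_zpowers_iff.1 (hx ⟨u, hu⟩)
        have : (1 : Sz F m) ^ j = u := congrArg Subtype.val hj
        rw [one_zpow] at this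
        rw [Subgroup.mem_bot, ← this]
      rw [hbot, Subgroup.card_bot] at hcard
      simp only [Set.mem_insert_iff, Set.mem_singleton_iff] at hcard
      have hlt : 2 ^ (m + 1) < 2 ^ (2 * m + 1) := Nat.pow_lt_pow_right (by norm_num) (by omega)
      generalize 2 ^ (2 * m + 1) = q at hcard hlt hq8
      generalize 2 ^ (m + 1) = r at hcard hlt
      omega
    have hxo : ¬ 2 ∣ orderOf x := by
      intro h
      apply hUodd
      apply h.trans
      have := orderOf_dvd_natCard (⟨x, hxU⟩ : U)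
      rwa [← Subgroup.orderOf_coe] at this
    have hcomm : ∀ u v : Sz F m, u ∈ U → v ∈ U → Commute u v := by
      intro u v hu hv
      have := isMulCommutative_iff.1 (IsCyclic.isMulCommutative (α := U)) ⟨u, hu⟩ ⟨v, hv⟩
      exact congrArg Subtype.val this
    have key : ∀ g : Sz F m, g ∈ Subgroup.normalizer (U : Set (Sz F m)) → ¬ 2 ∣ orderOf g →
        Commute g x := by
      intro g hg hgo
      apply commute_of_conj_commute hF hm hx1 hxo hgo
      exact hcomm _ _ ((Subgroup.mem_normalizer_iff.1 hg x).1 hxU) hxU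
    have h1 := key _ (hU haM) hao
    have h2 := key _ (hU hbM) hbo
    have h3 : Commute b (tor' hF ζ) := commute_trans hF hm hx1 hxo h2 h1.symm
    exact hbf _ (cent_two_fix D ha1 (Ne.symm (oPt_ne_oInf (m := m) (0 : F) 0)) hainf hazero h3).1
  · -- order considerations
    have h1 : orderOf (tor' hF ζ) ∣ Nat.card S := by
      have := orderOf_dvd_natCard (⟨tor' hF ζ, hS haM⟩ : S)
      rwa [← Subgroup.orderOf_coe] at this
    rw [hoa, Nat.card_congr e.toEquiv, card_Sz hK hk] at h1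
    exact arith hkm hdiv h1

end Cfsg.Agent.S2410
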