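import Cfsg.Statements.S2450
import Cfsg.Agent.Lib.Helper46SL2

set_option autoImplicit false
open Cfsg

namespace Cfsg.Agent.S2450

theorem quad_aux {F : Type*} [Field F] [Fintype F] (h4 : 4 ≤ Fintype.card F) (α β γ : F) (hα : α ≠ 0)
    (h : ∀ k : F, (α * k ^ 2 + β * k + γ) ^ 2 = γ ^ 2) : False := by
  classical
  rcases Nat.lt_or_ge 4 (Fintype.card F) with h5 | h5
  · have hP : ((Polynomial.C α * Polynomial.X ^ 2 + Polynomial.C β * Polynomial.X + Polynomial.C γ) ^ 2
        - Polynomial.C (γ ^ 2) : Polynomial F) = 0 := by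
      apply Polynomial.eq_zero_of_natDegree_lt_card_of_eval_eq_zero' _ Finset.univ
      · intro k _
        simp only [Polynomial.eval_sub, Polynomial.eval_pow, Polynomial.eval_add, Polynomial.eval_mul,
          Polynomial.eval_C, Polynomial.eval_X]
        rw [h k, sub_self]
      · rw [Finset.card_univ]
        refine lt_of_le_of_lt ?_ h5
        compute_degree
    have hc := congrArg (fun p : Polynomial F => p.coeff 4) hP
    have hc' : ((Polynomial.C α * Polynomial.X ^ 2 + Polynomial.C β * Polynomial.X + Polynomial.C γ) ^ 2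
        - Polynomial.C (γ ^ 2) : Polynomial F).coeff 4 = α ^ 2 := by
      compute_degree!
    simp only [Polynomial.coeff_zero] at hc
    rw [hc'] at hc
    exact hα (pow_eq_zero_iff (two_ne_zero) |>.mp hc)
  · have hcard : Fintype.card F = 4 := le_antisymm h5 h4
    have h40 : (4 : F) = 0 := by
      have := Nat.cast_card_eq_zero F
      rw [hcard] at this
      exact_mod_cast this
    have h20 : (2 : F) = 0 := by
      have : (2 : F) * 2 = 0 := by rw [← h40]; norm_num
      exact mul_self_eq_zero.mp this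
    have h' : ∀ k : F, α * k ^ 2 + β * k = 0 := by
      intro k
      have h1 : (α * k ^ 2 + β * k) ^ 2 = 0 := by
        linear_combination h k - (α * k ^ 2 + β * k) * γ * h20
      exact pow_eq_zero_iff (two_ne_zero) |>.mp h1
    have hP : (Polynomial.C α * Polynomial.X ^ 2 + Polynomial.C β * Polynomial.X : Polynomial F) = 0 := by
      apply Polynomial.eq_zero_of_natDegree_lt_card_of_eval_eq_zero' _ Finset.univ
      · intro k _
        simp only [Polynomial.eval_pow, Polynomial.eval_add, Polynomial.eval_mul,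
          Polynomial.eval_C, Polynomial.eval_X]
        exact h' k
      · rw [Finset.card_univ, hcard]
        refine lt_of_le_of_lt (b := 2) ?_ (by norm_num)
        compute_degree
    have hc := congrArg (fun p : Polynomial F => p.coeff 2) hP
    have hc' : (Polynomial.C α * Polynomial.X ^ 2 + Polynomial.C β * Polynomial.X : Polynomial F).coeff 2 = α := by
      compute_degree!
    simp only [Polynomial.coeff_zero] at hc
    rw [hc'] at hc
    exact hα hc

/-- The Arad–Herzog conjecture for PSL(2,q): let F be a finite field with q ≥ 4 elements. For any two non-identity elements a, b of PSL(2,F), the set of products of a conjugate of a with a conjugate of b is not a single conjugacy class. -/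
theorem result {F : Type*} [Field F] [Fintype F] (h4 : 4 ≤ Fintype.card F)
    (a b : Matrix.ProjectiveSpecialLinearGroup (Fin 2) F) (ha : a ≠ 1) (hb : b ≠ 1) (c : Matrix.ProjectiveSpecialLinearGroup (Fin 2) F) :
    {g : Matrix.ProjectiveSpecialLinearGroup (Fin 2) F | ∃ u v : Matrix.ProjectiveSpecialLinearGroup (Fin 2) F, g = (u * a * u⁻¹) * (v * b * v⁻¹)} ≠ {g | IsConj c g} := by
  intro heq
  obtain ⟨A, rfl⟩ := QuotientGroup.mk_surjective a
  obtain ⟨B, rfl⟩ := QuotientGroup.mk_surjective b
  have hA : A ∉ Subgroup.center (Matrix.SpecialLinearGroup (Fin 2) F) := by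
    rwa [Ne, Lib.Helper46SL2.mk_eq_one_iff] at ha
  have hB : B ∉ Subgroup.center (Matrix.SpecialLinearGroup (Fin 2) F) := by
    rwa [Ne, Lib.Helper46SL2.mk_eq_one_iff] at hb
  obtain ⟨δ, hδ, P, hP⟩ := Lib.Helper46SL2.exists_conj_comp hA
  obtain ⟨ε, hε, Q, hQ⟩ := Lib.Helper46SL2.exists_conj_comp hB
  set s := Lib.Helper46SL2.tr A
  set t := Lib.Helper46SL2.tr B
  let U : F → Matrix.SpecialLinearGroup (Fin 2) F := fun k => Lib.Helper46SL2.mk2 1 k 0 1 (by ring)
  let W : F → Matrix.SpecialLinearGroup (Fin 2) F := fun k =>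
    Lib.Helper46SL2.comp δ s hδ * (U k * Lib.Helper46SL2.comp ε t hε * (U k)⁻¹)
  have hW : ∀ k : F, IsConj c (QuotientGroup.mk (W k) : Matrix.ProjectiveSpecialLinearGroup (Fin 2) F) := by
    intro k
    have hmem : (QuotientGroup.mk (W k) : Matrix.ProjectiveSpecialLinearGroup (Fin 2) F) ∈
        {g : Matrix.ProjectiveSpecialLinearGroup (Fin 2) F | ∃ u v : Matrix.ProjectiveSpecialLinearGroup (Fin 2) F,
          g = (u * QuotientGroup.mk A * u⁻¹) * (v * QuotientGroup.mk B * v⁻¹)} := by
      refine ⟨QuotientGroup.mk P⁻¹, QuotientGroup.mk (U k * Q⁻¹), ?_⟩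
      simp only [W, ← hP, ← hQ, QuotientGroup.mk_mul, QuotientGroup.mk_inv]
      group
    rw [heq] at hmem
    exact hmem
  have htr : ∀ k : F, Lib.Helper46SL2.tr (W k) =
      (-(δ * ε)) * k ^ 2 + (δ * t - s * ε) * k + (s * t - δ⁻¹ * ε - δ * ε⁻¹) := by
    intro k
    simp only [W, U, Lib.Helper46SL2.tr, Lib.Helper46SL2.mul_00, Lib.Helper46SL2.mul_01, Lib.Helper46SL2.mul_10,
      Lib.Helper46SL2.mul_11, Lib.Helper46SL2.inv_00, Lib.Helper46SL2.inv_01, Lib.Helper46SL2.inv_10,
      Lib.Helper46SL2.inv_11, Lib.Helper46SL2.comp, Lib.Helper46SL2.mk2_00, Lib.Helper46SL2.mk2_01,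
      Lib.Helper46SL2.mk2_10, Lib.Helper46SL2.mk2_11]
    ring
  apply quad_aux h4 (-(δ * ε)) (δ * t - s * ε) (s * t - δ⁻¹ * ε - δ * ε⁻¹)
    (neg_ne_zero.mpr (mul_ne_zero hδ hε))
  intro k
  have h1 := Lib.Helper46SL2.tr_sq_of_isConj_mk ((hW k).symm.trans (hW 0))
  rw [htr k, htr 0] at h1
  rw [h1]
  ring

end Cfsg.Agent.S2450
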