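import Cfsg.Statements.S2455
import Cfsg.Agent.Lib.Helper46SL2Cover

set_option autoImplicit false
open Cfsg

namespace Cfsg.Agent.S2455

theorem conic {F : Type*} [Field F] [Fintype F] (hodd : Fintype.card F % 2 = 1) (h20 : (2 : F) ≠ 0)
    (s t : F) (hs : s ^ 2 ≠ 4) :
    ∃ x y : F, x ^ 2 - s * x * y + y ^ 2 - t * x + t * y + 1 = 0 := by
  have h4 : (4 : F) = 2 * 2 := by norm_num
  have hk : (1 - s ^ 2 / 4 : F) ≠ 0 := by
    intro h
    apply hs
    have h4' : (4 : F) ≠ 0 := by
      rw [h4]; exact mul_ne_zero h20 h20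
    field_simp at h
    linear_combination (-1 : F) * h
  obtain ⟨a, b, hab⟩ := FiniteField.exists_root_sum_quadratic
    (f := Polynomial.X ^ 2 - Polynomial.C t * Polynomial.X + 1)
    (g := Polynomial.C (1 - s ^ 2 / 4) * Polynomial.X ^ 2 + Polynomial.C (t - t * s / 2) * Polynomial.X)
    (by compute_degree!)
    (by compute_degree!) hodd
  simp only [Polynomial.eval_sub, Polynomial.eval_pow, Polynomial.eval_X, Polynomial.eval_C,
    Polynomial.eval_mul, Polynomial.eval_add, Polynomial.eval_one] at hab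
  refine ⟨a + s * b / 2, b, ?_⟩
  rw [h4] at hab
  field_simp at hab ⊢
  linear_combination hab

/-- A strong covering result in the direction of Thompson's conjecture (non-identity elements) for PSL(2,q), q odd: let F be a finite field of odd characteristic p with at least 5 elements and let x ∈ PSL(2,F) have order greater than 2 and not divisible by p (so x is not unipotent). Then every non-identity element of PSL(2,F) is a product of two conjugates of x. -/
theorem result {F : Type*} [Field F] [Fintype F] (p : ℕ) [Fact p.Prime] [CharP F p] (hp : p ≠ 2) (h5 : 5 ≤ Fintype.card F)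
    (x : Matrix.ProjectiveSpecialLinearGroup (Fin 2) F) (hx2 : 2 < orderOf x) (hxp : ¬ p ∣ orderOf x) : ∀ g : Matrix.ProjectiveSpecialLinearGroup (Fin 2) F, g ≠ 1 → ∃ u v : Matrix.ProjectiveSpecialLinearGroup (Fin 2) F, g = (u * x * u⁻¹) * (v * x * v⁻¹) := by
  intro g hg
  obtain ⟨X, rfl⟩ := QuotientGroup.mk_surjective x
  obtain ⟨G, rfl⟩ := QuotientGroup.mk_surjective g
  have hG : G ∉ Subgroup.center (Matrix.SpecialLinearGroup (Fin 2) F) := by
    rwa [Ne, Lib.Helper46SL2.mk_eq_one_iff] at hg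
  have ht0 : Lib.Helper46SL2.tr X ≠ 0 := Lib.Helper46SL2Cover.tr_ne_zero_of_orderOf hx2
  have hchar : ringChar F ≠ 2 := by
    rw [ringChar.eq F p]; exact hp
  have h20 : (2 : F) ≠ 0 := Ring.two_ne_zero hchar
  have hodd : Fintype.card F % 2 = 1 := FiniteField.odd_card_of_char_ne_two hchar
  have ht4 : Lib.Helper46SL2.tr X ^ 2 ≠ 4 := by
    intro h4
    have h1 : (QuotientGroup.mk X : Matrix.ProjectiveSpecialLinearGroup (Fin 2) F) ^ p = 1 := by
      rw [Lib.Helper46SL2.mk_pow_eq_one_iff]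
      exact Lib.Helper46SL2.pow_char_mem_center p X h4
    have h2 := orderOf_dvd_of_pow_eq_one h1
    rcases (Nat.dvd_prime (Fact.out : p.Prime)).mp h2 with h3 | h3
    · omega
    · exact hxp (by rw [h3])
  apply Lib.Helper46SL2Cover.cover_of_exists X G ht4 hG
  intro δ hδ
  by_cases hs : Lib.Helper46SL2.tr G ^ 2 = 4
  · have : (Lib.Helper46SL2.tr G - 2) * (Lib.Helper46SL2.tr G + 2) = 0 := by linear_combination hs
    rcases mul_eq_zero.mp this with h1 | h1
    · have hs2 : Lib.Helper46SL2.tr G = 2 := by linear_combination h1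
      obtain ⟨Y, hY1, hY2⟩ := Lib.Helper46SL2Cover.exists_Y δ (Lib.Helper46SL2.tr G) (Lib.Helper46SL2.tr X)
        (-Lib.Helper46SL2.tr X) (1 / (2 * Lib.Helper46SL2.tr X)) (1 / (2 * Lib.Helper46SL2.tr X)) hδ (by
          rw [hs2]
          field_simp
          ring)
      exact ⟨Y, hY1, Or.inr hY2⟩
    · have hs2 : Lib.Helper46SL2.tr G = -2 := by linear_combination h1
      obtain ⟨Y, hY1, hY2⟩ := Lib.Helper46SL2Cover.exists_Y δ (Lib.Helper46SL2.tr G) (Lib.Helper46SL2.tr X)
        (Lib.Helper46SL2.tr X) (1 / (2 * Lib.Helper46SL2.tr X)) (-(1 / (2 * Lib.Helper46SL2.tr X))) hδ (by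
          rw [hs2]
          field_simp
          ring)
      exact ⟨Y, hY1, Or.inl hY2⟩
  · obtain ⟨x, y, hxy⟩ := conic hodd h20 (Lib.Helper46SL2.tr G) (Lib.Helper46SL2.tr X) hs
    obtain ⟨Y, hY1, hY2⟩ := Lib.Helper46SL2Cover.exists_Y δ (Lib.Helper46SL2.tr G) (Lib.Helper46SL2.tr X)
      (Lib.Helper46SL2.tr X) x y hδ hxy
    exact ⟨Y, hY1, Or.inl hY2⟩

end Cfsg.Agent.S2455
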