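import Cfsg.Statements.S2456
import Cfsg.Agent.Lib.Helper46SL2Cover

set_option autoImplicit false
open Cfsg

namespace Cfsg.Agent.S2456

/-- A strong covering result in the direction of Thompson's conjecture (non-identity elements) for PSL(2,q), q even: let F be a finite field of characteristic 2 with q ≥ 4 elements and let x ∈ PSL(2,F) have order greater than 2 and not dividing q + 1. Then every non-identity element of PSL(2,F) is a product of two conjugates of x. -/
theorem result {F : Type*} [Field F] [Fintype F] [CharP F 2] (h4 : 4 ≤ Fintype.card F)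
    (x : Matrix.ProjectiveSpecialLinearGroup (Fin 2) F) (hx2 : 2 < orderOf x) (hxq : ¬ orderOf x ∣ Fintype.card F + 1) : ∀ g : Matrix.ProjectiveSpecialLinearGroup (Fin 2) F, g ≠ 1 → ∃ u v : Matrix.ProjectiveSpecialLinearGroup (Fin 2) F, g = (u * x * u⁻¹) * (v * x * v⁻¹) := by
  intro g hg
  obtain ⟨X, rfl⟩ := QuotientGroup.mk_surjective x
  obtain ⟨G, rfl⟩ := QuotientGroup.mk_surjective g
  have hG : G ∉ Subgroup.center (Matrix.SpecialLinearGroup (Fin 2) F) := by
    rwa [Ne, Lib.Helper46SL2.mk_eq_one_iff] at hg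
  have ht0 : Lib.Helper46SL2.tr X ≠ 0 := Lib.Helper46SL2Cover.tr_ne_zero_of_orderOf hx2
  have h20 : (2 : F) = 0 := CharTwo.two_eq_zero
  have h40 : (4 : F) = 0 := by
    have : (4 : F) = 2 * 2 := by norm_num
    rw [this, h20, zero_mul]
  have ht4 : Lib.Helper46SL2.tr X ^ 2 ≠ 4 := by
    rw [h40]
    exact pow_ne_zero 2 ht0
  rcases Lib.Helper46SL2.eigen_cases (Lib.Helper46SL2.tr X) with ⟨a, ha0, ha⟩ | ⟨l, hl0, hl, hlq, hl2, -⟩
  · apply Lib.Helper46SL2Cover.cover_of_exists X G ht4 hG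
    intro δ hδ
    obtain ⟨Y, hY1, hY2⟩ := Lib.Helper46SL2Cover.exists_Y δ (Lib.Helper46SL2.tr G) (Lib.Helper46SL2.tr X)
      (Lib.Helper46SL2.tr X) a 0 hδ (by
        rw [← ha]
        field_simp
        ring)
    exact ⟨Y, hY1, Or.inl hY2⟩
  · exfalso
    apply hxq
    apply orderOf_dvd_of_pow_eq_one
    rw [Lib.Helper46SL2.mk_pow_eq_one_iff,
      Lib.Helper46SL2.pow_mem_center_iff_of_eigen (algebraMap F (AlgebraicClosure F)) X l hl0 hl2 hl.symm,
      ← pow_mul, mul_comm, pow_mul, hlq, one_pow]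

end Cfsg.Agent.S2456
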