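import Cfsg.Statements.S2459
import Cfsg.Agent.Lib.Helper46Sourour
-- import your own Cfsg.Agent.* helpers here

set_option autoImplicit false
open Cfsg

namespace Cfsg.Agent.S2459

open Cfsg.Agent.Lib.Helper46Sourour in
theorem not_dvd_order {F : Type*} [Field F] (p m : ℕ) (hm : ¬ p ∣ m)
    (x : Matrix.SpecialLinearGroup (Fin 3) F) (hx : x ^ m = 1) :
    ¬ p ∣ orderOf (QuotientGroup.mk x : Matrix.ProjectiveSpecialLinearGroup (Fin 3) F) := by
  intro h
  apply hm
  apply h.trans
  apply orderOf_dvd_of_pow_eq_one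
  have : (QuotientGroup.mk x : Matrix.ProjectiveSpecialLinearGroup (Fin 3) F) ^ m = QuotientGroup.mk (x ^ m) := rfl
  rw [this, hx]
  rfl

open Cfsg.Agent.Lib.Helper46Sourour in
theorem big_case {F : Type*} [Field F] [Fintype F] (p : ℕ) [Fact p.Prime] [CharP F p] (h4 : 4 ≤ Fintype.card F) :
    ∃ x : Matrix.ProjectiveSpecialLinearGroup (Fin 3) F, ¬ p ∣ orderOf x ∧ ∀ g : Matrix.ProjectiveSpecialLinearGroup (Fin 3) F, g ≠ 1 → ∃ u v : Matrix.ProjectiveSpecialLinearGroup (Fin 3) F, g = (u * x * u⁻¹) * (v * x * v⁻¹) := by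
  classical
  obtain ⟨a, ha⟩ : ∃ a : F, a ∉ ({0, 1, -1} : Finset F) := by
    by_contra h
    push Not at h
    have : (Finset.univ : Finset F) ⊆ {0, 1, -1} := fun a _ => h a
    have h1 := Finset.card_le_card this
    have h2 : ({0, 1, -1} : Finset F).card ≤ 3 := Finset.card_le_three
    rw [Finset.card_univ] at h1
    omega
  simp only [Finset.mem_insert, Finset.mem_singleton, not_or] at ha
  obtain ⟨ha0, ha1, ha2⟩ := ha
  let x : Matrix.SpecialLinearGroup (Fin 3) F := ⟨Matrix.diagonal ![1, a, a⁻¹], by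
    simp [Matrix.det_diagonal, Fin.prod_univ_three, ha0]⟩
  have hx : x.1 = Matrix.diagonal ![1, a, a⁻¹] := rfl
  refine ⟨QuotientGroup.mk x, ?_, ?_⟩
  · apply not_dvd_order p (Fintype.card F - 1)
    · intro h
      have h1 : p ∣ Fintype.card F := by
        rw [← CharP.cast_eq_zero_iff F p]
        exact Nat.cast_card_eq_zero F
      have h2 : p ∣ 1 := by
        have := (Nat.dvd_sub h1 h)
        rwa [Nat.sub_sub_self (by omega)] at this
      exact (Fact.out : p.Prime).one_lt.ne' (Nat.dvd_one.1 h2)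
    · apply Subtype.ext
      rw [Matrix.SpecialLinearGroup.coe_pow, hx, Matrix.diagonal_pow]
      have e1 : a ^ (Fintype.card F - 1) = 1 := FiniteField.pow_card_sub_one_eq_one a ha0
      have e2 : a⁻¹ ^ (Fintype.card F - 1) = 1 := FiniteField.pow_card_sub_one_eq_one _ (inv_ne_zero ha0)
      rw [Matrix.SpecialLinearGroup.coe_one, ← Matrix.diagonal_one]
      congr 1
      ext i
      fin_cases i <;> simp [e1, e2]
  · apply main_PSL x
    · intro d
      refine ⟨Matrix.GeneralLinearGroup.mkOfDetNeZero (Matrix.diagonal ![(d : F), 1, 1]) (by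
        simp [Matrix.det_diagonal, Fin.prod_univ_three]), ?_, ?_⟩
      · change Matrix.diagonal ![(d : F), 1, 1] * x.1 = x.1 * Matrix.diagonal ![(d : F), 1, 1]
        rw [hx, Matrix.diagonal_mul_diagonal, Matrix.diagonal_mul_diagonal]
        congr 1
        ext i
        exact mul_comm _ _
      · change (Matrix.diagonal ![(d : F), 1, 1]).det = d
        simp [Matrix.det_diagonal, Fin.prod_univ_three]
    · intro x1 x2 y2 y3
      exact NF_factor a ha0 ha1 ha2 x1 x2 y2 y3

open Cfsg.Agent.Lib.Helper46Sourour in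
theorem X3_pow : (X3 (ZMod 3)) ^ 13 = 1 := by decide +kernel

open Cfsg.Agent.Lib.Helper46Sourour in
theorem small_case {F : Type*} [Field F] [Fintype F] (p : ℕ) [Fact p.Prime] [CharP F p] (h3 : Fintype.card F = 3) :
    ∃ x : Matrix.ProjectiveSpecialLinearGroup (Fin 3) F, ¬ p ∣ orderOf x ∧ ∀ g : Matrix.ProjectiveSpecialLinearGroup (Fin 3) F, g ≠ 1 → ∃ u v : Matrix.ProjectiveSpecialLinearGroup (Fin 3) F, g = (u * x * u⁻¹) * (v * x * v⁻¹) := by
  classical
  have hp : p = 3 := by
    have h1 : p ∣ Fintype.card F := by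
      rw [← CharP.cast_eq_zero_iff F p]
      exact Nat.cast_card_eq_zero F
    rw [h3] at h1
    exact (Nat.prime_dvd_prime_iff_eq Fact.out Nat.prime_three).1 h1
  subst hp
  let φ : ZMod 3 →+* F := ZMod.castHom (dvd_refl 3) F
  have hφ : Function.Surjective φ := by
    have : Function.Bijective φ := by
      rw [Fintype.bijective_iff_injective_and_card]
      exact ⟨φ.injective, by rw [ZMod.card, h3]⟩
    exact this.2
  have hX : φ.mapMatrix (X3 (ZMod 3)) = X3 F := by
    ext i j
    fin_cases i <;> fin_cases j <;> simp [X3]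
  let x : Matrix.SpecialLinearGroup (Fin 3) F := ⟨X3 F, by
    simp [X3, Matrix.det_fin_three]⟩
  have hx : x.1 = X3 F := rfl
  refine ⟨QuotientGroup.mk x, ?_, ?_⟩
  · apply not_dvd_order 3 13 (by norm_num)
    apply Subtype.ext
    rw [Matrix.SpecialLinearGroup.coe_pow, hx, ← hX, ← map_pow, X3_pow, map_one]
    rfl
  · apply main_PSL x
    · intro d
      refine ⟨Matrix.GeneralLinearGroup.mkOfDetNeZero (Matrix.scalar (Fin 3) (d : F)) (by
        simp), ?_, ?_⟩
      · change Matrix.scalar (Fin 3) (d : F) * x.1 = x.1 * Matrix.scalar (Fin 3) (d : F)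
        exact (Matrix.scalar_commute _ (fun r => Commute.all _ _) _).eq
      · change (Matrix.scalar (Fin 3) (d : F)).det = d
        rw [Matrix.scalar_apply, Matrix.det_diagonal, Finset.prod_const, Finset.card_univ, Fintype.card_fin, ← h3, FiniteField.pow_card]
    · intro x1 x2 y2 y3
      obtain ⟨x1, rfl⟩ := hφ x1
      obtain ⟨x2, rfl⟩ := hφ x2
      obtain ⟨y2, rfl⟩ := hφ y2
      obtain ⟨y3, rfl⟩ := hφ y3
      obtain ⟨R1, R1', R2, R2', h1, h2, h⟩ := table3 x1 x2 y2 y3
      have hN : φ.mapMatrix (NF x1 x2 y2 y3) = NF (φ x1) (φ x2) (φ y2) (φ y3) := by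
        ext i j
        fin_cases i <;> fin_cases j <;> simp [NF]
      have g1 : φ.mapMatrix R1 * φ.mapMatrix R1' = 1 := by rw [← map_mul, h1, map_one]
      have g2 : φ.mapMatrix R2 * φ.mapMatrix R2' = 1 := by rw [← map_mul, h2, map_one]
      refine ⟨⟨φ.mapMatrix R1, φ.mapMatrix R1', g1, mul_eq_one_comm.1 g1⟩,
        ⟨φ.mapMatrix R2, φ.mapMatrix R2', g2, mul_eq_one_comm.1 g2⟩, ?_⟩
      change _ = φ.mapMatrix R1 * x.1 * φ.mapMatrix R1' * (φ.mapMatrix R2 * x.1 * φ.mapMatrix R2')
      rw [← hN, h, hx, ← hX]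
      simp only [map_mul]

/-- A form of Thompson's conjecture for PSL(3,q), q > 2 (covering the non-identity elements), with a semisimple class: for F a finite field of characteristic p with more than 2 elements there is an element x of PSL(3,F) of order prime to p such that every non-identity element of PSL(3,F) is a product of two conjugates of x. -/
theorem result {F : Type*} [Field F] [Fintype F] (p : ℕ) [Fact p.Prime] [CharP F p] (h3 : 3 ≤ Fintype.card F) :
    ∃ x : Matrix.ProjectiveSpecialLinearGroup (Fin 3) F, ¬ p ∣ orderOf x ∧ ∀ g : Matrix.ProjectiveSpecialLinearGroup (Fin 3) F, g ≠ 1 → ∃ u v : Matrix.ProjectiveSpecialLinearGroup (Fin 3) F, g = (u * x * u⁻¹) * (v * x * v⁻¹) := by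
  rcases Nat.lt_or_ge 3 (Fintype.card F) with h | h
  · exact big_case p h
  · exact small_case p (le_antisymm h h3)

end Cfsg.Agent.S2459
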