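import Cfsg.Statements.S2466
import Cfsg.Agent.Lib.Helper46Alt

set_option autoImplicit false
open Cfsg

namespace Cfsg.Agent.S2466

/-- Adjacency of odd primes in the prime graph of the alternating groups: let r ≠ s be odd primes at most n. The alternating group of degree n has an element of order r·s if and only if r + s ≤ n. -/
theorem result (n r s : ℕ) (hr : r.Prime) (hs : s.Prime) (hr2 : r ≠ 2) (hs2 : s ≠ 2) (hrs : r ≠ s) (hrn : r ≤ n) (hsn : s ≤ n) :
    (r * s ∈ Set.range (orderOf : alternatingGroup (Fin n) → ℕ)) ↔ r + s ≤ n := by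
  rw [Lib.Helper46Alt.mem_range_orderOf_alt_iff]
  have hr3 : 2 ≤ r := hr.two_le
  have hs3 : 2 ≤ s := hs.two_le
  constructor
  · rintro ⟨m, hsum, h2, -, hl⟩
    obtain ⟨a, ha, hra⟩ := Lib.Helper46Alt.prime_dvd_multiset_lcm hr m (hl ▸ Dvd.intro _ rfl)
    obtain ⟨b, hb, hsb⟩ := Lib.Helper46Alt.prime_dvd_multiset_lcm hs m (hl ▸ Dvd.intro_left _ rfl)
    have ha2 := h2 a ha
    have hb2 := h2 b hb
    by_cases hab : a = b
    · subst hab
      have hcop : Nat.Coprime r s := (Nat.coprime_primes hr hs).mpr hrs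
      have hdvd : r * s ∣ a := hcop.mul_dvd_of_dvd_of_dvd hra hsb
      have h1 : r * s ≤ a := Nat.le_of_dvd (by omega) hdvd
      have h2' : a ≤ m.sum := Multiset.le_sum_of_mem ha
      have h3 : r + s ≤ r * s := by nlinarith
      omega
    · have h1 := Lib.Helper46Alt.add_le_sum_of_mem_of_ne ha hb hab
      have h2' : r ≤ a := Nat.le_of_dvd (by omega) hra
      have h3 : s ≤ b := Nat.le_of_dvd (by omega) hsb
      omega
  · intro h
    refine ⟨{r, s}, ?_, ?_, ?_, ?_⟩
    · simpa using h
    · intro a ha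
      simp at ha
      rcases ha with rfl | rfl <;> assumption
    · have hro : Odd r := hr.odd_of_ne_two hr2
      have hso : Odd s := hs.odd_of_ne_two hs2
      have : Even (r + s) := hro.add_odd hso
      simpa using this.add (by decide : Even 2)
    · have hcop : Nat.Coprime r s := (Nat.coprime_primes hr hs).mpr hrs
      simp [Multiset.lcm_cons, lcm_eq_nat_lcm, hcop.lcm_eq_mul]

end Cfsg.Agent.S2466
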