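import Cfsg.Statements.S2467
import Cfsg.Agent.Lib.Helper46Alt

set_option autoImplicit false
open Cfsg

namespace Cfsg.Agent.S2467

theorem even_sum_add_card_of_odd (t : Multiset ℕ) (h : ∀ a ∈ t, Odd a) :
    Even (t.sum + Multiset.card t) := by
  induction t using Multiset.induction_on with
  | empty => simp
  | cons a s ih =>
    have h1 : Odd a := h a (Multiset.mem_cons_self a s)
    have h2 := ih (fun b hb => h b (Multiset.mem_cons_of_mem hb))
    rw [Multiset.sum_cons, Multiset.card_cons]
    have h3 : Even (a + 1) := h1.add_odd odd_one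
    have := h3.add h2
    have e : a + s.sum + (Multiset.card s + 1) = a + 1 + (s.sum + Multiset.card s) := by omega
    rw [e]
    exact this

/-- Adjacency of 2 and an odd prime in the prime graph of the alternating groups: let r be an odd prime at most n, with n ≥ 4. The alternating group of degree n has an element of order 2r if and only if r + 4 ≤ n. -/
theorem result (n r : ℕ) (hn : 4 ≤ n) (hr : r.Prime) (hr2 : r ≠ 2) (hrn : r ≤ n) :
    (2 * r ∈ Set.range (orderOf : alternatingGroup (Fin n) → ℕ)) ↔ r + 4 ≤ n := by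
  rw [Lib.Helper46Alt.mem_range_orderOf_alt_iff]
  have hr3 : 2 ≤ r := hr.two_le
  have hro : Odd r := hr.odd_of_ne_two hr2
  constructor
  · rintro ⟨m, hsum, h2, hev, hl⟩
    obtain ⟨a, ha, h2a⟩ := Lib.Helper46Alt.prime_dvd_multiset_lcm Nat.prime_two m (hl ▸ Dvd.intro _ rfl)
    obtain ⟨b, hb, hrb⟩ := Lib.Helper46Alt.prime_dvd_multiset_lcm hr m (hl ▸ Dvd.intro_left _ rfl)
    obtain ⟨t, rfl⟩ := Multiset.exists_cons_of_mem ha
    have hex : ∃ a' ∈ t, ¬ Odd a' := by
      by_contra hcon
      push Not at hcon
      have h1 := even_sum_add_card_of_odd t hcon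
      rw [Multiset.sum_cons, Multiset.card_cons] at hev
      have h3 : Even a := (even_iff_two_dvd).mpr h2a
      have h4 : Even (a + (t.sum + Multiset.card t)) := h3.add h1
      have h5 : a + t.sum + (Multiset.card t + 1) = a + (t.sum + Multiset.card t) + 1 := by ring
      rw [h5] at hev
      exact (Nat.not_even_iff_odd.mpr (h4.add_one)) hev
    obtain ⟨a', ha', hodd'⟩ := hex
    obtain ⟨u, rfl⟩ := Multiset.exists_cons_of_mem ha'
    have h2a' : 2 ∣ a' := even_iff_two_dvd.mp (Nat.not_odd_iff_even.mp hodd')
    have hcop : Nat.Coprime 2 r := (Nat.coprime_primes Nat.prime_two hr).mpr (Ne.symm hr2)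
    have ha2 := h2 a (by simp)
    have ha2' := h2 a' (by simp)
    simp only [Multiset.sum_cons] at hsum
    simp only [Multiset.mem_cons] at hb
    rcases hb with rfl | rfl | hb
    · have hdvd : 2 * r ∣ b := hcop.mul_dvd_of_dvd_of_dvd h2a hrb
      have h1 : 2 * r ≤ b := Nat.le_of_dvd (by omega) hdvd
      omega
    · have hdvd : 2 * r ∣ b := hcop.mul_dvd_of_dvd_of_dvd h2a' hrb
      have h1 : 2 * r ≤ b := Nat.le_of_dvd (by omega) hdvd
      omega
    · have hb2 := h2 b (by simp [hb])
      have h1 : r ≤ b := Nat.le_of_dvd (by omega) hrb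
      have h3 : b ≤ u.sum := Multiset.le_sum_of_mem hb
      omega
  · intro h
    refine ⟨{r, 2, 2}, ?_, ?_, ?_, ?_⟩
    · simp only [Multiset.insert_eq_cons, Multiset.sum_cons, Multiset.sum_singleton]
      omega
    · intro a ha
      simp at ha
      rcases ha with rfl | rfl <;> omega
    · simp only [Multiset.insert_eq_cons, Multiset.sum_cons, Multiset.sum_singleton,
        Multiset.card_cons, Multiset.card_singleton]
      have : Even (r + 1) := hro.add_odd odd_one
      have h6 := this.add (by decide : Even 6)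
      convert h6 using 1
    · have hcop : Nat.Coprime r 2 := (Nat.coprime_primes hr Nat.prime_two).mpr hr2
      simp [Multiset.lcm_cons, lcm_eq_nat_lcm, hcop.lcm_eq_mul, mul_comm]

end Cfsg.Agent.S2467
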