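import Cfsg.Statements.S2471
import Cfsg.Agent.Lib.Helper46SL2

set_option autoImplicit false
open Cfsg

namespace Cfsg.Agent.S2471

/-- In PSL(2,q) with q odd, the characteristic p is isolated from 2 in the prime graph: for F a finite field of odd characteristic p with at least 5 elements, PSL(2,F) has no element of order 2p. -/
theorem result {F : Type*} [Field F] [Fintype F] (p : ℕ) [Fact p.Prime] [CharP F p] (hp : p ≠ 2) (h5 : 5 ≤ Fintype.card F) (g : Matrix.ProjectiveSpecialLinearGroup (Fin 2) F) :
    orderOf g ≠ 2 * p := by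
  intro h
  have hp2 : 2 ≤ p := (Fact.out : p.Prime).two_le
  have hpq : p ∣ Fintype.card F := Lib.Helper46SL2.card_dvd_of_char p
  have hpp : p ∣ orderOf g := h ▸ Dvd.intro_left _ rfl
  rcases Lib.Helper46SL2.orderOf_mk_dvd p g with h1 | h1 | h1
  · rw [h] at h1
    have := Nat.le_of_dvd (by omega) h1
    omega
  · have h2 : p ∣ Fintype.card F - 1 := (hpp.trans h1).trans (Nat.div_dvd_of_dvd (Nat.gcd_dvd_right _ _))
    have h3 : p ∣ 1 := by
      have := (Nat.dvd_sub hpq h2)
      rwa [Nat.sub_sub_self (by omega)] at this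
    have := Nat.le_of_dvd (by omega) h3
    omega
  · have hd : Nat.gcd 2 (Fintype.card F - 1) ∣ Fintype.card F + 1 := by
      have e : Fintype.card F + 1 = (Fintype.card F - 1) + 2 := by omega
      rw [e]
      exact Nat.dvd_add (Nat.gcd_dvd_right _ _) (Nat.gcd_dvd_left _ _)
    have h2 : p ∣ Fintype.card F + 1 := (hpp.trans h1).trans (Nat.div_dvd_of_dvd hd)
    have h3 : p ∣ 1 := (Nat.dvd_add_right hpq).mp h2
    have := Nat.le_of_dvd (by omega) h3
    omega

end Cfsg.Agent.S2471
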