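import Mathlib
import Cfsg.Statements.S2476
import Cfsg.Agent.Lib.Helper45PSL3

set_option autoImplicit false
open Cfsg

namespace Cfsg.Agent.S2476

open Cfsg.Agent.Lib.Helper45PSL3 Cfsg.Agent.Lib.Helper45ProjOrder

/-- The set of element orders of PSL(3,q): let F be a finite field of characteristic p with q elements and d = gcd(3, q − 1). The orders of elements of PSL(3,F) are exactly the divisors of (q² + q + 1)/d, of (q² − 1)/d, of q − 1, of p(q − 1)/d, and, when p = 2, of 4. -/
theorem result {F : Type*} [Field F] [Fintype F] (p : ℕ) [Fact p.Prime] [CharP F p] :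
    Set.range (orderOf : Matrix.ProjectiveSpecialLinearGroup (Fin 3) F → ℕ) =
      {m : ℕ | m ∣ (Fintype.card F ^ 2 + Fintype.card F + 1) / Nat.gcd 3 (Fintype.card F - 1) ∨
        m ∣ (Fintype.card F ^ 2 - 1) / Nat.gcd 3 (Fintype.card F - 1) ∨ m ∣ Fintype.card F - 1 ∨
        m ∣ p * (Fintype.card F - 1) / Nat.gcd 3 (Fintype.card F - 1) ∨ (p = 2 ∧ m ∣ 4)} := by
  have hmul : p * (Fintype.card F - 1) / Nat.gcd 3 (Fintype.card F - 1)
      = p * ((Fintype.card F - 1) / Nat.gcd 3 (Fintype.card F - 1)) :=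
    Nat.mul_div_assoc p (Nat.gcd_dvd_right 3 (Fintype.card F - 1))
  rw [hmul]
  have : Finite (Matrix.ProjectiveSpecialLinearGroup (Fin 3) F) := by
    unfold Matrix.ProjectiveSpecialLinearGroup
    infer_instance
  ext s
  simp only [Set.mem_range, Set.mem_ofPred_eq]
  constructor
  · rintro ⟨x, rfl⟩
    exact orderOf_dvd p x
  · rintro (h | h | h | h | ⟨h2, h⟩)
    · obtain ⟨y, hy⟩ := exists_E1 (F := F) p
      exact exists_orderOf_eq_of_dvd y s (h.trans hy)
    · obtain ⟨y, hy⟩ := exists_E2 (F := F) p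
      exact exists_orderOf_eq_of_dvd y s (h.trans hy)
    · obtain ⟨y, hy⟩ := exists_E3 (F := F)
      exact exists_orderOf_eq_of_dvd y s (h.trans hy)
    · obtain ⟨y, hy⟩ := exists_E4 (F := F) p
      exact exists_orderOf_eq_of_dvd y s (h.trans hy)
    · subst h2
      obtain ⟨y, hy⟩ := exists_E5 (F := F)
      exact exists_orderOf_eq_of_dvd y s (h.trans hy)

end Cfsg.Agent.S2476
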