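import Cfsg.Statements.S2485
import Mathlib

set_option autoImplicit false
open scoped Pointwise
open Cfsg

namespace Cfsg.Agent.S2485



section aux
variable {F : Type*} [Field F]
local notation "M2" => Matrix (Fin 2) (Fin 2) F
local notation "G2" => GL (Fin 2) F

theorem pi_eq_iff (a b : G2) :
    QuotientGroup.mk' (Subgroup.center G2) a = QuotientGroup.mk' (Subgroup.center G2) b ↔
      ∃ u : Fˣ, (b : M2) = (u : F) • (a : M2) := by
  rw [QuotientGroup.mk'_eq_mk', Matrix.GeneralLinearGroup.center_eq_range_scalar]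
  constructor
  · rintro ⟨_, ⟨u, rfl⟩, rfl⟩
    refine ⟨u, ?_⟩
    rw [Units.val_mul, Matrix.GeneralLinearGroup.coe_scalar]
    simp [Matrix.scalar_apply, ← Matrix.smul_eq_mul_diagonal]
  · rintro ⟨u, hu⟩
    refine ⟨_, ⟨u, rfl⟩, ?_⟩
    apply Units.ext
    rw [Units.val_mul, Matrix.GeneralLinearGroup.coe_scalar, hu]
    simp [Matrix.scalar_apply, ← Matrix.smul_eq_mul_diagonal]

/-- explicit constructor -/
noncomputable def mkGL (M : M2) (h : M.det ≠ 0) : G2 := Matrix.GeneralLinearGroup.mkOfDetNeZero M h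

theorem mkGL_coe (M : M2) (h : M.det ≠ 0) : (mkGL M h : M2) = M := rfl

noncomputable def A0 : G2 := mkGL !![0, -1; 1, 0] (by simp [Matrix.det_fin_two_of])

theorem A0_coe : ((A0 : G2) : M2) = !![0, -1; 1, 0] := rfl

/-- preimage of the centraliser of the image of `A0`. -/
noncomputable def Hhat : Subgroup G2 :=
  (Subgroup.centralizer ({QuotientGroup.mk' (Subgroup.center G2) A0} : Set (G2 ⧸ Subgroup.center G2))).comap
    (QuotientGroup.mk' (Subgroup.center G2))

theorem det_ne_zero (h : G2) : (h : M2).det ≠ 0 := by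
  have := (Matrix.isUnit_iff_isUnit_det _).mp h.isUnit
  exact this.ne_zero

theorem mem_Hhat_iff (h : G2) : h ∈ (Hhat : Subgroup G2) ↔
    (((h : M2) 1 1 = (h : M2) 0 0 ∧ (h : M2) 1 0 = -(h : M2) 0 1) ∨
      ((h : M2) 1 1 = -(h : M2) 0 0 ∧ (h : M2) 1 0 = (h : M2) 0 1)) := by
  rw [Hhat, Subgroup.mem_comap, Subgroup.mem_centralizer_singleton_iff, ← map_mul, ← map_mul, pi_eq_iff]
  simp only [Units.val_mul, A0_coe]
  constructor
  · rintro ⟨u, hu⟩
    have e00 := congrFun (congrFun hu 0) 0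
    have e01 := congrFun (congrFun hu 0) 1
    have e10 := congrFun (congrFun hu 1) 0
    have e11 := congrFun (congrFun hu 1) 1
    simp [Matrix.mul_apply, Fin.sum_univ_two] at e00 e01 e10 e11
    have hdet := det_ne_zero h
    rw [Matrix.det_fin_two] at hdet
    have hu2 : ((u : F) - 1) * ((u : F) + 1) = 0 := by
      by_contra hne
      apply hdet
      have ha : (h : M2) 0 0 * (((u : F) - 1) * ((u : F) + 1)) = 0 := by
        linear_combination (-(u : F)) * e01 - e10
      have hb : (h : M2) 0 1 * (((u : F) - 1) * ((u : F) + 1)) = 0 := by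
        linear_combination (-(u : F)) * e00 - e11
      have ha' := (mul_eq_zero.mp ha).resolve_right hne
      have hb' := (mul_eq_zero.mp hb).resolve_right hne
      rw [ha', hb']
      ring
    rcases mul_eq_zero.mp hu2 with h1 | h1
    · left
      have hu1 : (u : F) = 1 := by linear_combination h1
      rw [hu1] at e00 e01 e10 e11
      constructor
      · linear_combination e01
      · linear_combination -e00
    · right
      have hu1 : (u : F) = -1 := by linear_combination h1
      rw [hu1] at e00 e01 e10 e11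
      constructor
      · linear_combination e01
      · linear_combination -e00
  · rintro (⟨h1, h3⟩ | ⟨h1, h3⟩)
    · refine ⟨1, ?_⟩
      ext i j
      fin_cases i <;> fin_cases j <;> simp [Matrix.mul_apply, Fin.sum_univ_two, h1, h3]
    · refine ⟨-1, ?_⟩
      ext i j
      fin_cases i <;> fin_cases j <;> simp [Matrix.mul_apply, Fin.sum_univ_two, h1, h3]

theorem two_ne_zero' (hm1 : ¬ IsSquare (-1 : F)) : (2 : F) ≠ 0 := by
  intro h
  apply hm1
  exact ⟨1, by linear_combination -h⟩

theorem sq_add_sq_ne_zero (hm1 : ¬ IsSquare (-1 : F)) (a b : F) (h : ¬ (a = 0 ∧ b = 0)) : a ^ 2 + b ^ 2 ≠ 0 := by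
  intro h0
  by_cases hb : b = 0
  · subst hb
    apply h
    simp at h0
    exact ⟨h0, rfl⟩
  · apply hm1
    refine ⟨a / b, ?_⟩
    field_simp
    linear_combination -h0

theorem card_Hhat [Fintype F] (hm1 : ¬ IsSquare (-1 : F)) :
    Nat.card (Hhat : Subgroup G2) = 2 * (Fintype.card F ^ 2 - 1) := by
  classical
  have h2 := two_ne_zero' hm1
  have hcard : Nat.card (Bool × {p : F × F // p ≠ 0}) = 2 * (Fintype.card F ^ 2 - 1) := by
    rw [Nat.card_eq_fintype_card, Fintype.card_prod, Fintype.card_bool, Fintype.card_subtype_compl]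
    simp [sq]
  rw [← hcard]
  symm
  have hne : ∀ p : {p : F × F // p ≠ 0}, p.1.1 ^ 2 + p.1.2 ^ 2 ≠ 0 := by
    rintro ⟨⟨a, b⟩, hp⟩
    apply sq_add_sq_ne_zero hm1
    rintro ⟨rfl, rfl⟩
    exact hp rfl
  let φ : Bool × {p : F × F // p ≠ 0} → (Hhat : Subgroup G2) := fun x =>
    match x with
    | (true, p) => ⟨mkGL !![p.1.1, p.1.2; -p.1.2, p.1.1] (by
        rw [Matrix.det_fin_two_of]
        have := hne p
        intro h
        apply this
        linear_combination h), by
        rw [mem_Hhat_iff]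
        left
        simp [mkGL_coe]⟩
    | (false, p) => ⟨mkGL !![p.1.1, p.1.2; p.1.2, -p.1.1] (by
        rw [Matrix.det_fin_two_of]
        have := hne p
        intro h
        apply this
        linear_combination -h), by
        rw [mem_Hhat_iff]
        right
        simp [mkGL_coe]⟩
  apply Nat.card_eq_of_bijective φ
  constructor
  · rintro ⟨b, ⟨⟨a1, a2⟩, hp⟩⟩ ⟨b', ⟨⟨a1', a2'⟩, hp'⟩⟩ h
    have hm : (((φ (b, ⟨(a1, a2), hp⟩) : (Hhat : Subgroup G2)) : G2) : M2) = (((φ (b', ⟨(a1', a2'), hp'⟩) : (Hhat : Subgroup G2)) : G2) : M2) := by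
      rw [h]
    have e00 := congrFun (congrFun hm 0) 0
    have e01 := congrFun (congrFun hm 0) 1
    have e10 := congrFun (congrFun hm 1) 0
    have e11 := congrFun (congrFun hm 1) 1
    cases b <;> cases b' <;> simp [φ, mkGL_coe] at e00 e01 e10 e11
    · subst e00 e01; rfl
    · exfalso
      subst e00 e01
      apply hp
      have ha : (2 : F) * a1 = 0 := by linear_combination -e11
      have hb : (2 : F) * a2 = 0 := by linear_combination e10
      rw [(mul_eq_zero.mp ha).resolve_left h2, (mul_eq_zero.mp hb).resolve_left h2]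
      rfl
    · exfalso
      subst e00 e01
      apply hp
      have ha : (2 : F) * a1 = 0 := by linear_combination e11
      have hb : (2 : F) * a2 = 0 := by linear_combination -e10
      rw [(mul_eq_zero.mp ha).resolve_left h2, (mul_eq_zero.mp hb).resolve_left h2]
      rfl
    · subst e00 e01; rfl
  · rintro ⟨h, hh⟩
    have hh' := (mem_Hhat_iff h).mp hh
    have hp : ((h : M2) 0 0, (h : M2) 0 1) ≠ 0 := by
      intro h0
      have h00 : (h : M2) 0 0 = 0 := congrArg Prod.fst h0
      have h01 : (h : M2) 0 1 = 0 := congrArg Prod.snd h0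
      have := det_ne_zero h
      rw [Matrix.det_fin_two, h00, h01] at this
      simp at this
    rcases hh' with ⟨h1, h3⟩ | ⟨h1, h3⟩
    · refine ⟨(true, ⟨_, hp⟩), ?_⟩
      apply Subtype.ext
      apply Units.ext
      simp only [φ, mkGL_coe]
      ext i j
      fin_cases i <;> fin_cases j <;> simp [h1, h3]
    · refine ⟨(false, ⟨_, hp⟩), ?_⟩
      apply Subtype.ext
      apply Units.ext
      simp only [φ, mkGL_coe]
      ext i j
      fin_cases i <;> fin_cases j <;> simp [h1, h3]

local notation "π" => QuotientGroup.mk' (Subgroup.center G2)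

theorem pi_ne_one_of (c : G2) (h : (c : M2) 0 0 ≠ (c : M2) 1 1 ∨ (c : M2) 1 0 ≠ 0) : π c ≠ 1 := by
  intro h1
  rw [← map_one π, pi_eq_iff] at h1
  obtain ⟨u, hu⟩ := h1
  have e00 := congrFun (congrFun hu 0) 0
  have e11 := congrFun (congrFun hu 1) 1
  have e10 := congrFun (congrFun hu 1) 0
  simp at e00 e11 e10
  have hu0 : (u : F) ≠ 0 := u.ne_zero
  rcases h with h | h
  · apply h
    have : (u : F) * ((c : M2) 0 0 - (c : M2) 1 1) = 0 := by linear_combination e11 - e00
    exact sub_eq_zero.mp ((mul_eq_zero.mp this).resolve_left hu0)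
  · exact h e10

theorem comm_of_anticomm (c a : G2) (h : (c : M2) * (a : M2) = -((a : M2) * (c : M2))) :
    π c * π a = π a * π c := by
  rw [← map_mul, ← map_mul, pi_eq_iff]
  refine ⟨-1, ?_⟩
  rw [Units.val_mul, Units.val_mul, h]
  simp

/-- the key lemma: two conjugates of the involution have a common nontrivial centralising element. -/
theorem key (hm1 : ¬ IsSquare (-1 : F)) (w : G2) :
    ∃ c : G2, π c ≠ 1 ∧ π c * π A0 = π A0 * π c ∧ π c * π (w * A0 * w⁻¹) = π (w * A0 * w⁻¹) * π c := by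
  have h2 := two_ne_zero' hm1
  set B : G2 := w * A0 * w⁻¹ with hB
  have hA2 : ((A0 : G2) : M2) * ((A0 : G2) : M2) = -1 := by
    rw [A0_coe]
    ext i j
    fin_cases i <;> fin_cases j <;> simp [Matrix.mul_apply, Fin.sum_univ_two]
  have hB2 : (B : M2) * (B : M2) = -1 := by
    have h1 : B * B = w * (A0 * A0) * w⁻¹ := by rw [hB]; group
    have h3 : ((B * B : G2) : M2) = (w : M2) * (((A0 : G2) : M2) * ((A0 : G2) : M2)) * ((w⁻¹ : G2) : M2) := by
      rw [h1]; simp only [Units.val_mul]
    rw [Units.val_mul] at h3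
    rw [h3, hA2]
    have h4 : (w : M2) * ((w⁻¹ : G2) : M2) = 1 := by
      rw [← Units.val_mul, mul_inv_cancel]; rfl
    simp
  clear_value B
  set C : M2 := ((A0 : G2) : M2) * (B : M2) - (B : M2) * ((A0 : G2) : M2) with hC
  have hCA : C * ((A0 : G2) : M2) = -(((A0 : G2) : M2) * C) := by
    rw [hC, sub_mul, mul_sub, mul_assoc (B : M2), hA2, ← mul_assoc ((A0 : G2) : M2) ((A0 : G2) : M2), hA2]
    simp only [mul_assoc, Matrix.mul_neg, mul_one, Matrix.neg_mul, one_mul]
    abel
  have hCB : C * (B : M2) = -((B : M2) * C) := by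
    rw [hC, sub_mul, mul_sub, mul_assoc ((A0 : G2) : M2), hB2, ← mul_assoc (B : M2) (B : M2), hB2]
    simp only [mul_assoc, Matrix.mul_neg, mul_one, Matrix.neg_mul, one_mul]
    abel
  by_cases hC0 : C = 0
  · refine ⟨A0, ?_, rfl, ?_⟩
    · apply pi_ne_one_of
      right
      simp [A0_coe]
    · rw [← map_mul, ← map_mul]
      congr 1
      apply Units.ext
      rw [Units.val_mul, Units.val_mul]
      exact sub_eq_zero.mp hC0
  · -- shape of C
    have e00 := congrFun (congrFun hCA 0) 0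
    have e01 := congrFun (congrFun hCA 0) 1
    rw [Matrix.neg_apply, Matrix.mul_apply, Matrix.mul_apply, Fin.sum_univ_two, Fin.sum_univ_two] at e00 e01
    simp [A0_coe] at e00 e01
    have hdet : C.det ≠ 0 := by
      rw [Matrix.det_fin_two]
      have h11 : C 1 1 = -C 0 0 := by linear_combination -e01
      have h10 : C 1 0 = C 0 1 := by linear_combination -e00
      rw [h11, h10]
      have := sq_add_sq_ne_zero hm1 (C 0 0) (C 0 1) (by
        rintro ⟨h00, h01⟩
        apply hC0
        ext i j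
        fin_cases i <;> fin_cases j <;> simp [h00, h01, h11, h10])
      intro h
      apply this
      linear_combination -h
    refine ⟨mkGL C hdet, ?_, ?_, ?_⟩
    · apply pi_ne_one_of
      rw [mkGL_coe]
      by_contra hcon
      push Not at hcon
      have h11 : C 1 1 = -C 0 0 := by linear_combination -e01
      have h10 : C 1 0 = C 0 1 := by linear_combination -e00
      apply hdet
      rw [Matrix.det_fin_two]
      have h00 : (2 : F) * C 0 0 = 0 := by linear_combination hcon.1 + h11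
      have h00' := (mul_eq_zero.mp h00).resolve_left h2
      rw [hcon.2, h00']
      ring
    · exact comm_of_anticomm _ _ hCA
    · exact comm_of_anticomm _ _ hCB

theorem card_center [Fintype F] : Nat.card (Subgroup.center G2) = Fintype.card F - 1 := by
  classical
  rw [Matrix.GeneralLinearGroup.center_eq_range_scalar]
  have hinj : Function.Injective (Matrix.GeneralLinearGroup.scalar (Fin 2) : Fˣ →* G2) := by
    intro u v h
    have h1 := congrArg (fun g : G2 => (g : M2) 0 0) h
    simp [Matrix.GeneralLinearGroup.coe_scalar] at h1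
    exact Units.ext h1
  rw [← Nat.card_congr (MonoidHom.ofInjective hinj).toEquiv, Nat.card_eq_fintype_card, Fintype.card_units]

theorem arith (q i c0 cG : ℕ) (hq : 2 ≤ q) (h1 : 2 * (q ^ 2 - 1) * i = (q ^ 2 - 1) * (q ^ 2 - q))
    (h2 : cG * (q - 1) = (q ^ 2 - 1) * (q ^ 2 - q)) (h3 : c0 * i = cG) :
    2 * i = q * (q - 1) ∧ c0 = 2 * (q + 1) := by
  obtain ⟨m, rfl⟩ : ∃ m, q = m + 2 := ⟨q - 2, by omega⟩
  have e1 : (m + 2) ^ 2 - 1 = (m + 1) * (m + 3) := Nat.sub_eq_of_eq_add (by ring)
  have e2 : (m + 2) ^ 2 - (m + 2) = (m + 2) * (m + 1) := Nat.sub_eq_of_eq_add (by ring)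
  have e3 : m + 2 - 1 = m + 1 := by omega
  rw [e1, e2] at h1 h2
  rw [e3] at h2 ⊢
  have hi : 2 * i = (m + 2) * (m + 1) :=
    Nat.eq_of_mul_eq_mul_left (by positivity : 0 < (m + 1) * (m + 3)) (by linear_combination h1)
  have hG : cG = (m + 1) * (m + 3) * (m + 2) :=
    Nat.eq_of_mul_eq_mul_right (by omega : 0 < m + 1) (by linear_combination h2)
  refine ⟨hi, ?_⟩
  have : (m + 2) * (m + 1) * c0 = (m + 2) * (m + 1) * (2 * (m + 2 + 1)) := by
    calc (m + 2) * (m + 1) * c0 = (2 * i) * c0 := by rw [hi]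
      _ = 2 * (c0 * i) := by ring
      _ = 2 * cG := by rw [h3]
      _ = (m + 2) * (m + 1) * (2 * (m + 2 + 1)) := by rw [hG]; ring
  exact Nat.eq_of_mul_eq_mul_left (by positivity) this

theorem card_index_H0 [Fintype F] (hm1 : ¬ IsSquare (-1 : F)) :
    2 * (Subgroup.centralizer ({π A0} : Set (G2 ⧸ Subgroup.center G2))).index = Fintype.card F * (Fintype.card F - 1) ∧
    Nat.card (Subgroup.centralizer ({π A0} : Set (G2 ⧸ Subgroup.center G2))) = 2 * (Fintype.card F + 1) := by
  have hGL : Nat.card G2 = (Fintype.card F ^ 2 - 1) * (Fintype.card F ^ 2 - Fintype.card F) := by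
    rw [Matrix.card_GL_field, Fin.prod_univ_two]
    simp
  have hidx : (Hhat : Subgroup G2).index = (Subgroup.centralizer ({π A0} : Set (G2 ⧸ Subgroup.center G2))).index :=
    Subgroup.index_comap_of_surjective _ (QuotientGroup.mk'_surjective _)
  have h1 := Subgroup.card_mul_index (Hhat : Subgroup G2)
  rw [card_Hhat hm1, hGL, hidx] at h1
  have h2 := Subgroup.card_eq_card_quotient_mul_card_subgroup (Subgroup.center G2)
  rw [card_center, hGL] at h2
  have h3 := Subgroup.card_mul_index (Subgroup.centralizer ({π A0} : Set (G2 ⧸ Subgroup.center G2)))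
  exact arith _ _ _ _ Fintype.one_lt_card h1 h2.symm h3

end aux


/-- Let q = 2^k − 1 ≥ 7 be a prime and let G = PGL(2,q), the general linear group of degree 2 over the field with q elements modulo its centre. Then any two Sylow 2-subgroups of G have a non-trivial intersection: for a Sylow 2-subgroup H and every x ∈ G, H ∩ H^x ≠ 1. -/
theorem result {q k : ℕ} [Fact q.Prime] (hk : q + 1 = 2 ^ k) (hq : 7 ≤ q)
    (H : Sylow 2 (GL (Fin 2) (ZMod q) ⧸ Subgroup.center (GL (Fin 2) (ZMod q))))
    (x : GL (Fin 2) (ZMod q) ⧸ Subgroup.center (GL (Fin 2) (ZMod q))) :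
    (H : Subgroup (GL (Fin 2) (ZMod q) ⧸ Subgroup.center (GL (Fin 2) (ZMod q)))) ⊓ MulAut.conj x • (H : Subgroup _) ≠ ⊥ := by
  classical
  have : Fact (Nat.Prime 2) := ⟨Nat.prime_two⟩
  -- arithmetic of `q`
  obtain ⟨a, ha1, ha⟩ : ∃ a, 1 ≤ a ∧ q + 1 = 4 * a ∧ 2 ^ k = 4 * a := by
    have hk3 : 2 ≤ k := by
      by_contra hcon
      have : k ≤ 1 := by omega
      have h2k : 2 ^ k ≤ 2 ^ 1 := Nat.pow_le_pow_right (by norm_num) this
      omega
    obtain ⟨j, rfl⟩ : ∃ j, k = j + 2 := ⟨k - 2, by omega⟩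
    refine ⟨2 ^ j, Nat.one_le_two_pow, ?_, ?_⟩
    · rw [hk]; ring
    · ring
  have hm1 : ¬ IsSquare (-1 : ZMod q) := by
    rw [ZMod.exists_sq_eq_neg_one_iff]
    omega
  obtain ⟨hidx, hcard⟩ := card_index_H0 hm1
  rw [ZMod.card] at hidx hcard
  set H0 := Subgroup.centralizer ({QuotientGroup.mk' (Subgroup.center (GL (Fin 2) (ZMod q))) A0} : Set (GL (Fin 2) (ZMod q) ⧸ Subgroup.center (GL (Fin 2) (ZMod q)))) with hH0
  have hp : IsPGroup 2 H0 := IsPGroup.of_card (n := k + 1) (by rw [hcard, hk]; ring)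
  have hodd : ¬ 2 ∣ H0.index := by
    have hq' : q = 4 * a - 1 := by omega
    have e : 2 * H0.index = 2 * ((4 * a - 1) * (2 * a - 1)) := by
      rw [hidx, hq']
      have : 4 * a - 1 - 1 = 2 * (2 * a - 1) := by omega
      rw [this]; ring
    have e' : H0.index = (4 * a - 1) * (2 * a - 1) := by omega
    rw [e']
    have ho : Odd ((4 * a - 1) * (2 * a - 1)) := Odd.mul ⟨2 * a - 1, by omega⟩ ⟨a - 1, by omega⟩
    exact ho.not_two_dvd_nat
  let P0 : Sylow 2 (GL (Fin 2) (ZMod q) ⧸ Subgroup.center (GL (Fin 2) (ZMod q))) := hp.toSylow hodd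
  obtain ⟨y, hy⟩ := MulAction.exists_smul_eq (GL (Fin 2) (ZMod q) ⧸ Subgroup.center (GL (Fin 2) (ZMod q))) P0 H
  have hH : (H : Subgroup (GL (Fin 2) (ZMod q) ⧸ Subgroup.center (GL (Fin 2) (ZMod q)))) = MulAut.conj y • H0 := by
    rw [← hy, Sylow.smul_def, Sylow.pointwise_smul_def]
    rfl
  obtain ⟨y', rfl⟩ := QuotientGroup.mk'_surjective _ y
  obtain ⟨x', rfl⟩ := QuotientGroup.mk'_surjective _ x
  obtain ⟨c, hc1, hc2, hc3⟩ := key hm1 (y'⁻¹ * x' * y')
  set π := QuotientGroup.mk' (Subgroup.center (GL (Fin 2) (ZMod q))) with hπ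
  intro hbot
  have hmem : π y' * π c * (π y')⁻¹ ∈ (H : Subgroup (GL (Fin 2) (ZMod q) ⧸ Subgroup.center (GL (Fin 2) (ZMod q)))) ⊓ MulAut.conj (π x') • (H : Subgroup _) := by
    rw [hH]
    refine Subgroup.mem_inf.mpr ⟨?_, ?_⟩
    · rw [Subgroup.mem_pointwise_smul_iff_inv_smul_mem, MulAut.smul_def, MulAut.inv_apply, MulAut.conj_symm_apply,
        hH0, Subgroup.mem_centralizer_singleton_iff]
      have : (π y')⁻¹ * (π y' * π c * (π y')⁻¹) * π y' = π c := by group
      rw [this]
      exact hc2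
    · rw [Subgroup.mem_pointwise_smul_iff_inv_smul_mem, Subgroup.mem_pointwise_smul_iff_inv_smul_mem, MulAut.smul_def, MulAut.smul_def, MulAut.inv_apply, MulAut.inv_apply, MulAut.conj_symm_apply, MulAut.conj_symm_apply,
        hH0, Subgroup.mem_centralizer_singleton_iff]
      simp only [map_mul, map_inv] at hc3
      have e1 : (π y')⁻¹ * ((π x')⁻¹ * (π y' * π c * (π y')⁻¹) * π x') * π y' * π A0
          = ((π y')⁻¹ * π x' * π y')⁻¹ * (π c * ((π y')⁻¹ * π x' * π y' * π A0 * ((π y')⁻¹ * π x' * π y')⁻¹)) * ((π y')⁻¹ * π x' * π y') := by group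
      have e2 : π A0 * ((π y')⁻¹ * ((π x')⁻¹ * (π y' * π c * (π y')⁻¹) * π x') * π y')
          = ((π y')⁻¹ * π x' * π y')⁻¹ * (((π y')⁻¹ * π x' * π y' * π A0 * ((π y')⁻¹ * π x' * π y')⁻¹) * π c) * ((π y')⁻¹ * π x' * π y') := by group
      rw [e1, e2, hc3]
  rw [hbot, Subgroup.mem_bot] at hmem
  apply hc1
  have : π c = (π y')⁻¹ * (π y' * π c * (π y')⁻¹) * π y' := by group
  rw [this, hmem]
  group

end Cfsg.Agent.S2485
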