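import Cfsg.Statements.S2487
import Mathlib
import Cfsg.Agent.Lib.H45SmInd
import Cfsg.Agent.Lib.H45SmConc
import Cfsg.Agent.Lib.H45SmTr
import Cfsg.Agent.Lib.Helper45OspStd
-- import your own Cfsg.Agent.* helpers here

set_option autoImplicit false
open scoped Pointwise
open Cfsg

namespace Cfsg.Agent.S2487

/-- Let m ≥ 4 and let G be the full isometry group of the hyperbolic quadratic form x₁y₁ + ⋯ + x_m y_m on the 2m-dimensional space over the field with 2 elements (the orthogonal group O⁺(2m,2), which contains Ω⁺(2m,2) with index 2). Then any two Sylow 2-subgroups of G have a non-trivial intersection: for a Sylow 2-subgroup H and every x ∈ G, H ∩ H^x ≠ 1. -/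
theorem result {F : Type*} [Field F] [Fintype F] (hF : Fintype.card F = 2) {m : ℕ} (hm : 4 ≤ m)
    (H : Sylow 2 (Cfsg.isometryGroup F (Cfsg.quadFormPlus m F)))
    (x : Cfsg.isometryGroup F (Cfsg.quadFormPlus m F)) :
    (H : Subgroup (Cfsg.isometryGroup F (Cfsg.quadFormPlus m F))) ⊓ MulAut.conj x • (H : Subgroup _) ≠ ⊥ := by
  classical
  have : CharP F 2 := by
    have h2 : ((Fintype.card F : ℕ) : F) = 0 := Nat.cast_card_eq_zero F
    rw [hF] at h2
    exact CharTwo.of_one_ne_zero_of_two_eq_zero one_ne_zero (by exact_mod_cast h2)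
  obtain ⟨e⟩ := Cfsg.Agent.Lib.H45SmConc.exists_equiv (F := F) m
  obtain ⟨k, rfl⟩ : ∃ k, m = k + 1 := ⟨m - 1, by omega⟩
  have hT := Cfsg.Agent.Lib.Helper45OspStd.typ_QP (F := F) (k + 1) (by omega)
  have h1 := Cfsg.Agent.Lib.H45SmTr.maxP_map e _ (Cfsg.Agent.Lib.H45SmTr.maxP_sylow H)
  have h2 := Cfsg.Agent.Lib.H45SmTr.maxP_map e _
    (Cfsg.Agent.Lib.H45SmTr.maxP_sylow (MulAut.conj x • H))
  have hne := Cfsg.Agent.Lib.H45SmInd.meet hF k _ _ hT _ _ h1 h2
  intro hbot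
  apply hne
  rw [eq_bot_iff]
  rintro g ⟨⟨g1, hg1, rfl⟩, ⟨g2, hg2, hg12⟩⟩
  have h12 : g2 = g1 := e.injective hg12
  subst h12
  have hmem : g2 ∈ (H : Subgroup (Cfsg.isometryGroup F (Cfsg.quadFormPlus (k + 1) F))) ⊓
      MulAut.conj x • (H : Subgroup _) := ⟨hg1, hg2⟩
  rw [hbot, Subgroup.mem_bot] at hmem
  rw [Subgroup.mem_bot, hmem]
  exact map_one _

end Cfsg.Agent.S2487
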