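import Cfsg.Statements.S2505
import Mathlib

set_option autoImplicit false
open Cfsg

namespace Cfsg.Agent.S2505



section aux

/-- maximal product of the parts of a partition of `n`. -/
def GG : ℕ → ℕ
  | 0 => 1
  | 1 => 1
  | 2 => 2
  | 3 => 3
  | 4 => 4
  | n + 5 => 3 * GG (n + 2)

theorem GG_step (m : ℕ) (hm : 2 ≤ m) : GG (m + 3) = 3 * GG m := by
  obtain ⟨u, rfl⟩ : ∃ u, m = u + 2 := ⟨m - 2, by omega⟩
  rfl

theorem GG_small (a : ℕ) (h0 : a * GG 0 ≤ GG (a + 0)) (h1 : a * GG 1 ≤ GG (a + 1))
    (h2 : a * GG 2 ≤ GG (a + 2)) (h3 : a * GG 3 ≤ GG (a + 3)) (h4 : a * GG 4 ≤ GG (a + 4)) :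
    ∀ b, a * GG b ≤ GG (a + b) := by
  intro b
  induction b using Nat.strong_induction_on with
  | _ b ih =>
    match b, ih with
    | 0, _ => exact h0
    | 1, _ => exact h1
    | 2, _ => exact h2
    | 3, _ => exact h3
    | 4, _ => exact h4
    | u + 5, ih =>
      have h := ih (u + 2) (by omega)
      have e1 : GG (u + 5) = 3 * GG (u + 2) := rfl
      have e2 : GG (a + (u + 5)) = 3 * GG (a + (u + 2)) := GG_step (a + (u + 2)) (by omega)
      rw [e1, e2]
      nlinarith

theorem GG_mul (a b : ℕ) : a * GG b ≤ GG (a + b) := by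
  induction a using Nat.strong_induction_on generalizing b with
  | _ a ih =>
    match a, ih with
    | 0, _ => simp
    | 1, _ => exact GG_small 1 (by decide) (by decide) (by decide) (by decide) (by decide) b
    | 2, _ => exact GG_small 2 (by decide) (by decide) (by decide) (by decide) (by decide) b
    | 3, _ => exact GG_small 3 (by decide) (by decide) (by decide) (by decide) (by decide) b
    | 4, _ => exact GG_small 4 (by decide) (by decide) (by decide) (by decide) (by decide) b
    | u + 5, ih =>
      have h := ih (u + 2) (by omega) b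
      have e2 : GG (u + 5 + b) = 3 * GG (u + 2 + b) := by
        have := GG_step (u + 2 + b) (by omega)
        rw [← this]
        congr 1
        omega
      rw [e2]
      nlinarith [Nat.zero_le (GG b), Nat.zero_le u]

theorem GG_three (k : ℕ) : GG (3 * k) = 3 ^ k := by
  induction k with
  | zero => rfl
  | succ k ih =>
    rcases Nat.eq_zero_or_pos k with rfl | hk
    · rfl
    · have := GG_step (3 * k) (by omega)
      rw [show 3 * (k + 1) = 3 * k + 3 by ring, this, ih, pow_succ]
      ring

theorem GG_three_one (k : ℕ) : GG (3 * (k + 1) + 1) = 4 * 3 ^ k := by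
  induction k with
  | zero => rfl
  | succ k ih =>
    have := GG_step (3 * (k + 1) + 1) (by omega)
    rw [show 3 * (k + 1 + 1) + 1 = 3 * (k + 1) + 1 + 3 by ring, this, ih, pow_succ]
    ring

theorem GG_three_two (k : ℕ) : GG (3 * k + 2) = 2 * 3 ^ k := by
  induction k with
  | zero => rfl
  | succ k ih =>
    have := GG_step (3 * k + 2) (by omega)
    rw [show 3 * (k + 1) + 2 = 3 * k + 2 + 3 by ring, this, ih, pow_succ]
    ring

universe u v

theorem bound : ∀ (n : ℕ) (A : Type u) [Group A] [Finite A] (_ : ∀ a b : A, a * b = b * a)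
    (X : Type v) [Fintype X] [MulAction A X] [FaithfulSMul A X], Fintype.card X = n →
    Nat.card A ≤ GG n := by
  intro n
  induction n using Nat.strong_induction_on with
  | _ n ih =>
    intro A _ _ hc X _ _ _ hX
    classical
    rcases isEmpty_or_nonempty X with hE | ⟨⟨x⟩⟩
    · have : Subsingleton A := ⟨fun a b => FaithfulSMul.eq_of_smul_eq_smul (α := X) (fun y => hE.elim y)⟩
      rw [Nat.card_of_subsingleton 1]
      have : n = 0 := by rw [← hX]; exact Fintype.card_eq_zero
      subst this
      decide
    · let S : SubMulAction A X :=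
        { carrier := (MulAction.orbit A x)ᶜ
          smul_mem' := by
            intro a y hy h
            apply hy
            obtain ⟨g, hg⟩ := h
            exact ⟨a⁻¹ * g, by
              change (a⁻¹ * g) • x = y
              rw [mul_smul]
              change a⁻¹ • (g • x) = y
              rw [show g • x = a • y from hg, inv_smul_smul]⟩ }
      have hfaith : FaithfulSMul (MulAction.stabilizer A x) S := by
        constructor
        intro b b' h
        apply Subtype.ext
        apply FaithfulSMul.eq_of_smul_eq_smul (α := X)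
        intro y
        by_cases hy : y ∈ MulAction.orbit A x
        · obtain ⟨a, rfl⟩ := hy
          have hb := b.2
          have hb' := b'.2
          rw [MulAction.mem_stabilizer_iff] at hb hb'
          change (b : A) • a • x = (b' : A) • a • x
          rw [← mul_smul, ← mul_smul, hc, hc (b' : A), mul_smul, mul_smul, hb, hb']
        · exact congrArg Subtype.val (h ⟨y, hy⟩)
      have hcardS : Fintype.card S = n - Fintype.card (MulAction.orbit A x) := by
        have : Fintype.card S = Fintype.card ((MulAction.orbit A x)ᶜ : Set X) := by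
          apply Fintype.card_congr
          exact Equiv.refl _
        rw [this, Fintype.card_compl_set, hX]
      have hOpos : 0 < Fintype.card (MulAction.orbit A x) :=
        Fintype.card_pos_iff.mpr ⟨⟨x, MulAction.mem_orbit_self x⟩⟩
      have hOle : Fintype.card (MulAction.orbit A x) ≤ n := by
        rw [← hX]; exact Fintype.card_subtype_le _
      have h1 := ih (n - Fintype.card (MulAction.orbit A x)) (by omega) (MulAction.stabilizer A x)
        (fun a b => Subtype.ext (hc a b)) S hcardS
      have : Fintype A := Fintype.ofFinite A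
      have h2 := MulAction.card_orbit_mul_card_stabilizer_eq_card_group A x
      rw [Nat.card_eq_fintype_card, ← h2]
      rw [Nat.card_eq_fintype_card] at h1
      calc Fintype.card (MulAction.orbit A x) * Fintype.card (MulAction.stabilizer A x)
          ≤ Fintype.card (MulAction.orbit A x) * GG (n - Fintype.card (MulAction.orbit A x)) :=
            Nat.mul_le_mul_left _ h1
        _ ≤ GG (Fintype.card (MulAction.orbit A x) + (n - Fintype.card (MulAction.orbit A x))) := GG_mul _ _
        _ = GG n := by congr 1; omega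


/-- existence of a faithful abelian action. -/
def EE (n c : ℕ) : Prop :=
  ∃ (A : Type) (_ : CommGroup A) (X : Type) (_ : Fintype X) (φ : A →* Equiv.Perm X),
    Function.Injective φ ∧ Nat.card A = c ∧ Fintype.card X = n

theorem EE_zero : EE 0 1 :=
  ⟨Unit, inferInstance, Empty, inferInstance, 1, fun _ _ _ => rfl, by simp, by simp⟩

theorem EE_add {n c : ℕ} (h : EE n c) (m : ℕ) (hm : 1 ≤ m) : EE (n + m) (c * m) := by
  obtain ⟨A, _, X, _, φ, hφ, hA, hX⟩ := h
  have : NeZero m := ⟨by omega⟩
  refine ⟨A × Multiplicative (ZMod m), inferInstance, X ⊕ Multiplicative (ZMod m), inferInstance,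
    (Equiv.Perm.sumCongrHom X (Multiplicative (ZMod m))).comp
      (φ.prodMap (MulAction.toPermHom (Multiplicative (ZMod m)) (Multiplicative (ZMod m)))), ?_, ?_, ?_⟩
  · apply Equiv.Perm.sumCongrHom_injective.comp
    exact Function.Injective.prodMap hφ MulAction.toPerm_injective
  · rw [Nat.card_prod, hA]
    congr 1
    rw [Nat.card_eq_fintype_card, Fintype.card_multiplicative, ZMod.card]
  · rw [Fintype.card_sum, hX, Fintype.card_multiplicative, ZMod.card]

theorem EE_to {n c : ℕ} (h : EE n c) :
    ∃ A : Subgroup (Equiv.Perm (Fin n)), IsMulCommutative A ∧ Nat.card A = c := by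
  obtain ⟨A, _, X, _, φ, hφ, hA, hX⟩ := h
  let e : X ≃ Fin n := Fintype.equivFinOfCardEq hX
  let ψ : A →* Equiv.Perm (Fin n) := (e.permCongrHom : Equiv.Perm X →* Equiv.Perm (Fin n)).comp φ
  have hψ : Function.Injective ψ := e.permCongrHom.injective.comp hφ
  refine ⟨ψ.range, ?_, ?_⟩
  · apply IsMulCommutative.of_comm
    rintro ⟨_, a, rfl⟩ ⟨_, b, rfl⟩
    apply Subtype.ext
    change ψ a * ψ b = ψ b * ψ a
    rw [← map_mul, ← map_mul, mul_comm]
  · rw [← hA]
    exact (Nat.card_congr (MonoidHom.ofInjective hψ).toEquiv).symm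

theorem EE_three (k : ℕ) : EE (3 * k) (3 ^ k) := by
  induction k with
  | zero => exact EE_zero
  | succ k ih =>
    have := EE_add ih 3 (by omega)
    rw [show 3 * (k + 1) = 3 * k + 3 by ring, pow_succ]
    exact this

theorem upper (n : ℕ) (A : Subgroup (Equiv.Perm (Fin n))) (hA : IsMulCommutative A) :
    Nat.card A ≤ GG n :=
  bound n A (fun a b => mul_comm' a b) (Fin n) (by simp)

end aux

/-- The largest order of an abelian subgroup of the symmetric group of degree n is 3^k when n = 3k, 4·3^(k−1) when n = 3k + 1, and 2·3^k when n = 3k + 2, for every k ≥ 1. -/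
theorem result (k : ℕ) (hk : 1 ≤ k) :
    IsGreatest {c : ℕ | ∃ A : Subgroup (Equiv.Perm (Fin (3 * k))), IsMulCommutative A ∧ Nat.card A = c} (3 ^ k) ∧
    IsGreatest {c : ℕ | ∃ A : Subgroup (Equiv.Perm (Fin (3 * k + 1))), IsMulCommutative A ∧ Nat.card A = c}
      (4 * 3 ^ (k - 1)) ∧
    IsGreatest {c : ℕ | ∃ A : Subgroup (Equiv.Perm (Fin (3 * k + 2))), IsMulCommutative A ∧ Nat.card A = c}
      (2 * 3 ^ k) := by
  obtain ⟨u, rfl⟩ : ∃ u, k = u + 1 := ⟨k - 1, by omega⟩
  refine ⟨⟨EE_to (EE_three _), ?_⟩, ⟨?_, ?_⟩, ⟨?_, ?_⟩⟩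
  · rintro c ⟨A, hA, rfl⟩
    rw [← GG_three]
    exact upper _ A hA
  · have h := EE_add (EE_three u) 4 (by omega)
    rw [show 3 * u + 4 = 3 * (u + 1) + 1 by ring, mul_comm (3 ^ u) 4] at h
    exact EE_to h
  · rintro c ⟨A, hA, rfl⟩
    rw [Nat.add_sub_cancel, ← GG_three_one]
    exact upper _ A hA
  · have h := EE_add (EE_three (u + 1)) 2 (by omega)
    rw [mul_comm (3 ^ (u + 1)) 2] at h
    exact EE_to h
  · rintro c ⟨A, hA, rfl⟩
    rw [← GG_three_two]
    exact upper _ A hA


end Cfsg.Agent.S2505
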