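import Cfsg.Statements.S2504
import Mathlib
import Cfsg.Agent.S2505

set_option autoImplicit false
open Cfsg

namespace Cfsg.Agent.S2504



section aux
open Cfsg.Agent.S2505 (GG GG_step bound)

/-- the bound for alternating groups. -/
def GA : ℕ → ℕ
  | 0 => 1
  | 1 => 1
  | 2 => 1
  | 3 => 3
  | 4 => 4
  | 5 => 5
  | 6 => 9
  | 7 => 12
  | 8 => 16
  | n + 9 => 3 * GA (n + 6)

theorem GA_step (m : ℕ) (hm : 6 ≤ m) : GA (m + 3) = 3 * GA m := by
  obtain ⟨u, rfl⟩ : ∃ u, m = u + 6 := ⟨m - 6, by omega⟩
  rfl

theorem GA_step_le (m : ℕ) : 3 * GA m ≤ GA (m + 3) := by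
  by_cases h : 6 ≤ m
  · rw [GA_step m h]
  · have : m < 6 := by omega
    interval_cases m <;> decide

theorem GA_small (a : ℕ) (h : ∀ b < 9, a * GA b ≤ GA (a + b)) :
    ∀ b, a * GA b ≤ GA (a + b) := by
  intro b
  induction b using Nat.strong_induction_on with
  | _ b ih =>
    by_cases hb : b < 9
    · exact h b hb
    · obtain ⟨u, rfl⟩ : ∃ u, b = u + 6 + 3 := ⟨b - 9, by omega⟩
      have h1 := ih (u + 6) (by omega)
      have e1 : GA (u + 6 + 3) = 3 * GA (u + 6) := GA_step _ (by omega)
      have e2 : GA (a + (u + 6 + 3)) = 3 * GA (a + (u + 6)) := GA_step (a + (u + 6)) (by omega)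
      rw [e1, e2]
      nlinarith

theorem GA_mul (a b : ℕ) (ha : a ≠ 2) : a * GA b ≤ GA (a + b) := by
  induction a using Nat.strong_induction_on generalizing b with
  | _ a ih =>
    by_cases h6 : a < 6
    · interval_cases a
      · simp
      · exact GA_small 1 (by decide) b
      · exact absurd rfl ha
      · exact GA_small 3 (by decide) b
      · exact GA_small 4 (by decide) b
      · exact GA_small 5 (by decide) b
    · obtain ⟨u, rfl⟩ : ∃ u, a = u + 3 + 3 := ⟨a - 6, by omega⟩
      have h := ih (u + 3) (by omega) b (by omega)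
      have e2 := GA_step_le (u + 3 + b)
      rw [show u + 3 + b + 3 = u + 3 + 3 + b by ring] at e2
      nlinarith [Nat.zero_le (GA b), Nat.zero_le u]

theorem GG_le_GA (b : ℕ) : GG b ≤ GA (b + 2) := by
  induction b using Nat.strong_induction_on with
  | _ b ih =>
    by_cases hb : b < 7
    · interval_cases b <;> decide
    · obtain ⟨u, rfl⟩ : ∃ u, b = u + 4 + 3 := ⟨b - 7, by omega⟩
      have h1 := ih (u + 4) (by omega)
      have e1 : GG (u + 4 + 3) = 3 * GG (u + 4) := GG_step _ (by omega)
      have e2 : GA (u + 4 + 3 + 2) = 3 * GA (u + 4 + 2) := GA_step (u + 4 + 2) (by omega)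
      rw [e1, e2]
      omega

theorem GA_three (k : ℕ) : GA (3 * (k + 2)) = 3 ^ (k + 2) := by
  induction k with
  | zero => rfl
  | succ k ih =>
    have := GA_step (3 * (k + 2)) (by omega)
    rw [show 3 * (k + 1 + 2) = 3 * (k + 2) + 3 by ring, this, ih, pow_succ 3 (k + 2)]
    ring

theorem GA_three_one (k : ℕ) : GA (3 * (k + 2) + 1) = 4 * 3 ^ (k + 1) := by
  induction k with
  | zero => rfl
  | succ k ih =>
    have := GA_step (3 * (k + 2) + 1) (by omega)
    rw [show 3 * (k + 1 + 2) + 1 = 3 * (k + 2) + 1 + 3 by ring, this, ih, pow_succ 3 (k + 1)]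
    ring

theorem GA_three_two (k : ℕ) : GA (3 * (k + 2) + 2) = 16 * 3 ^ k := by
  induction k with
  | zero => rfl
  | succ k ih =>
    have := GA_step (3 * (k + 2) + 2) (by omega)
    rw [show 3 * (k + 1 + 2) + 2 = 3 * (k + 2) + 2 + 3 by ring, this, ih, pow_succ]
    ring


universe u v

/-- the complement of an orbit. -/
def complOrbit (A : Type u) [Group A] {X : Type v} [MulAction A X] (x : X) : SubMulAction A X where
  carrier := (MulAction.orbit A x)ᶜ
  smul_mem' := by
    intro a y hy h
    apply hy
    obtain ⟨g, hg⟩ := h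
    exact ⟨a⁻¹ * g, by
      change (a⁻¹ * g) • x = y
      rw [mul_smul]
      change a⁻¹ • (g • x) = y
      rw [show g • x = a • y from hg, inv_smul_smul]⟩

theorem mem_complOrbit {A : Type u} [Group A] {X : Type v} [MulAction A X] (x y : X) :
    y ∈ complOrbit A x ↔ y ∉ MulAction.orbit A x := Iff.rfl

theorem fix_orbit {A : Type u} [Group A] (hc : ∀ a b : A, a * b = b * a) {X : Type v} [MulAction A X]
    (x : X) (b : A) (hb : b • x = x) (y : X) (hy : y ∈ MulAction.orbit A x) : b • y = y := by
  obtain ⟨a, rfl⟩ := hy
  change b • a • x = a • x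
  rw [← mul_smul, hc, mul_smul, hb]

theorem boundA : ∀ (n : ℕ) (A : Type u) [Group A] [Finite A] (_ : ∀ a b : A, a * b = b * a)
    (X : Type v) [Fintype X] [DecidableEq X] [MulAction A X] [FaithfulSMul A X]
    (_ : ∀ a : A, Equiv.Perm.sign (MulAction.toPerm a : Equiv.Perm X) = 1), Fintype.card X = n →
    Nat.card A ≤ GA n := by
  intro n
  induction n using Nat.strong_induction_on with
  | _ n ih =>
    intro A _ _ hc X _ _ _ _ heven hX
    classical
    rcases isEmpty_or_nonempty X with hE | ⟨⟨x⟩⟩
    · have : Subsingleton A := ⟨fun a b => FaithfulSMul.eq_of_smul_eq_smul (α := X) (fun y => hE.elim y)⟩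
      rw [Nat.card_of_subsingleton 1]
      have : n = 0 := by rw [← hX]; exact Fintype.card_eq_zero
      subst this
      decide
    · have hcardS : Fintype.card (complOrbit A x) = n - Fintype.card (MulAction.orbit A x) := by
        have : Fintype.card (complOrbit A x) = Fintype.card ((MulAction.orbit A x)ᶜ : Set X) := by
          apply Fintype.card_congr
          exact Equiv.refl _
        rw [this, Fintype.card_compl_set, hX]
      have hOpos : 0 < Fintype.card (MulAction.orbit A x) :=
        Fintype.card_pos_iff.mpr ⟨⟨x, MulAction.mem_orbit_self x⟩⟩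
      have hOle : Fintype.card (MulAction.orbit A x) ≤ n := by
        rw [← hX]; exact Fintype.card_subtype_le _
      by_cases h2 : Fintype.card (MulAction.orbit A x) = 2
      · -- faithful on the complement
        have hfaith : FaithfulSMul A (complOrbit A x) := by
          constructor
          intro a a' h
          have hcS : ∀ y, y ∉ MulAction.orbit A x → (a⁻¹ * a') • y = y := by
            intro y hy
            have := congrArg Subtype.val (h ⟨y, hy⟩)
            change a • y = a' • y at this
            rw [mul_smul, ← this, inv_smul_smul]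
          set c := a⁻¹ * a' with hcdef
          have hc1 : c = 1 := by
            by_cases hcx : c • x = x
            · apply FaithfulSMul.eq_of_smul_eq_smul (α := X)
              intro y
              rw [one_smul]
              by_cases hy : y ∈ MulAction.orbit A x
              · exact fix_orbit hc x c hcx y hy
              · exact hcS y hy
            · exfalso
              obtain ⟨w, _, hw⟩ := (Nat.card_eq_two_iff' (⟨x, MulAction.mem_orbit_self x⟩ :
                MulAction.orbit A x)).mp (by rw [Nat.card_eq_fintype_card]; exact h2)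
              have hw' : ∀ z, z ∈ MulAction.orbit A x → z ≠ x → z = w.1 := by
                intro z hz hzx
                exact congrArg Subtype.val (hw ⟨z, hz⟩ (fun h => hzx (congrArg Subtype.val h)))
              have hcw : c • x = w.1 := hw' _ (MulAction.mem_orbit x c) hcx
              have hperm : (MulAction.toPerm c : Equiv.Perm X) = Equiv.swap x (c • x) := by
                ext z
                rw [MulAction.toPerm_apply]
                by_cases hzx : z = x
                · subst hzx
                  rw [Equiv.swap_apply_left]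
                · by_cases hz : z ∈ MulAction.orbit A x
                  · have hzw := hw' z hz hzx
                    have hzc : z = c • x := by rw [hzw, hcw]
                    rw [hzc, Equiv.swap_apply_right]
                    by_contra hne
                    have h3 := hw' (c • c • x) (by
                      rw [← mul_smul]; exact MulAction.mem_orbit x (c * c)) hne
                    rw [← hcw] at h3
                    exact hcx (smul_left_cancel c h3)
                  · rw [hcS z hz, Equiv.swap_apply_of_ne_of_ne hzx]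
                    intro h
                    exact hz (h ▸ MulAction.mem_orbit x c)
              have hs := heven c
              rw [hperm, Equiv.Perm.sign_swap (Ne.symm hcx)] at hs
              exact absurd hs (by decide)
          rw [hcdef, inv_mul_eq_one] at hc1
          exact hc1
        have h1 := bound (n - 2) A hc (complOrbit A x) (by rw [hcardS, h2])
        have h3 := GG_le_GA (n - 2)
        rw [show n - 2 + 2 = n by omega] at h3
        exact h1.trans h3
      · have hfaith : FaithfulSMul (MulAction.stabilizer A x) (complOrbit A x) := by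
          constructor
          intro b b' h
          apply Subtype.ext
          apply FaithfulSMul.eq_of_smul_eq_smul (α := X)
          intro y
          by_cases hy : y ∈ MulAction.orbit A x
          · rw [fix_orbit hc x b b.2 y hy, fix_orbit hc x b' b'.2 y hy]
          · exact congrArg Subtype.val (h ⟨y, hy⟩)
        have heven' : ∀ b : MulAction.stabilizer A x,
            Equiv.Perm.sign (MulAction.toPerm b : Equiv.Perm (complOrbit A x)) = 1 := by
          intro b
          have h1 : ∀ y, (MulAction.toPerm (b : A) : Equiv.Perm X) y ∈ complOrbit A x ↔ y ∈ complOrbit A x := by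
            intro y
            rw [MulAction.toPerm_apply]
            exact SubMulAction.smul_mem_iff' _ _
          have h3 := Equiv.Perm.sign_subtypePerm (MulAction.toPerm (b : A) : Equiv.Perm X)
            (p := fun y => y ∈ complOrbit A x) h1 (by
              intro y hy hyO
              exact hy (fix_orbit hc x b b.2 y hyO))
          rw [heven] at h3
          rw [← h3]
          congr 1
        have h1 := ih (n - Fintype.card (MulAction.orbit A x)) (by omega) (MulAction.stabilizer A x)
          (fun a b => Subtype.ext (hc a b)) (complOrbit A x) heven' hcardS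
        have : Fintype A := Fintype.ofFinite A
        have h2' := MulAction.card_orbit_mul_card_stabilizer_eq_card_group A x
        rw [Nat.card_eq_fintype_card, ← h2']
        rw [Nat.card_eq_fintype_card] at h1
        calc Fintype.card (MulAction.orbit A x) * Fintype.card (MulAction.stabilizer A x)
            ≤ Fintype.card (MulAction.orbit A x) * GA (n - Fintype.card (MulAction.orbit A x)) :=
              Nat.mul_le_mul_left _ h1
          _ ≤ GA (Fintype.card (MulAction.orbit A x) + (n - Fintype.card (MulAction.orbit A x))) :=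
              GA_mul _ _ h2
          _ = GA n := by congr 1; omega


/-- existence of a faithful even abelian action. -/
def EA (n c : ℕ) : Prop :=
  ∃ (A : Type) (_ : CommGroup A) (X : Type) (_ : Fintype X) (_ : DecidableEq X) (φ : A →* Equiv.Perm X),
    Function.Injective φ ∧ (∀ a, Equiv.Perm.sign (φ a) = 1) ∧ Nat.card A = c ∧ Fintype.card X = n

theorem EA_zero : EA 0 1 :=
  ⟨Unit, inferInstance, Empty, inferInstance, inferInstance, 1, fun _ _ _ => rfl, by simp, by simp, by simp⟩

theorem EA_add {n c : ℕ} (h : EA n c) (B : Type) [CommGroup B] [Fintype B] [DecidableEq B]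
    (hB : ∀ b : B, Equiv.Perm.sign (MulAction.toPerm b : Equiv.Perm B) = 1) :
    EA (n + Fintype.card B) (c * Fintype.card B) := by
  obtain ⟨A, _, X, _, _, φ, hφ, hev, hA, hX⟩ := h
  refine ⟨A × B, inferInstance, X ⊕ B, inferInstance, inferInstance,
    (Equiv.Perm.sumCongrHom X B).comp (φ.prodMap (MulAction.toPermHom B B)), ?_, ?_, ?_, ?_⟩
  · apply Equiv.Perm.sumCongrHom_injective.comp
    exact Function.Injective.prodMap hφ MulAction.toPerm_injective
  · rintro ⟨a, b⟩
    change Equiv.Perm.sign (Equiv.Perm.sumCongr (φ a) (MulAction.toPerm b)) = 1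
    rw [Equiv.Perm.sign_sumCongr, hev, hB, one_mul]
  · rw [Nat.card_prod, hA, Nat.card_eq_fintype_card]
  · rw [Fintype.card_sum, hX]

theorem EA_to {n c : ℕ} (h : EA n c) :
    ∃ A : Subgroup (alternatingGroup (Fin n)), IsMulCommutative A ∧ Nat.card A = c := by
  obtain ⟨A, _, X, _, _, φ, hφ, hev, hA, hX⟩ := h
  let e : X ≃ Fin n := Fintype.equivFinOfCardEq hX
  let ψ0 : A →* Equiv.Perm (Fin n) := (e.permCongrHom : Equiv.Perm X →* Equiv.Perm (Fin n)).comp φ
  have hψ0 : Function.Injective ψ0 := e.permCongrHom.injective.comp hφ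
  let ψ : A →* alternatingGroup (Fin n) := ψ0.codRestrict _ (by
    intro a
    rw [Equiv.Perm.mem_alternatingGroup]
    change Equiv.Perm.sign (e.permCongr (φ a)) = 1
    rw [Equiv.Perm.sign_permCongr, hev])
  have hψ : Function.Injective ψ := by
    intro a b hab
    exact hψ0 (congrArg Subtype.val hab)
  refine ⟨ψ.range, ?_, ?_⟩
  · apply IsMulCommutative.of_comm
    rintro ⟨_, a, rfl⟩ ⟨_, b, rfl⟩
    apply Subtype.ext
    change ψ a * ψ b = ψ b * ψ a
    rw [← map_mul, ← map_mul, mul_comm]
  · rw [← hA]
    exact (Nat.card_congr (MonoidHom.ofInjective hψ).toEquiv).symm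

theorem EA_add3 {n c : ℕ} (h : EA n c) : EA (n + 3) (c * 3) :=
  EA_add h (Multiplicative (ZMod 3)) (by decide)

theorem EA_add4 {n c : ℕ} (h : EA n c) : EA (n + 4) (c * 4) :=
  EA_add h (Multiplicative (ZMod 2 × ZMod 2)) (by decide)

theorem EA_three (k : ℕ) : EA (3 * k) (3 ^ k) := by
  induction k with
  | zero => exact EA_zero
  | succ k ih =>
    have := EA_add3 ih
    rw [show 3 * (k + 1) = 3 * k + 3 by ring, pow_succ]
    exact this

theorem upperA (n : ℕ) (A : Subgroup (alternatingGroup (Fin n))) (hA : IsMulCommutative A) :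
    Nat.card A ≤ GA n :=
  boundA n A (fun a b => mul_comm' a b) (Fin n) (fun a => a.1.2) (by simp)

end aux

/-- The largest order of an abelian subgroup of the alternating group of degree n is 3^k when n = 3k, 4·3^(k−1) when n = 3k + 1, and 16·3^(k−2) when n = 3k + 2, for every k ≥ 2 (so for all degrees n ≥ 6). -/
theorem result (k : ℕ) (hk : 2 ≤ k) :
    IsGreatest {c : ℕ | ∃ A : Subgroup (alternatingGroup (Fin (3 * k))), IsMulCommutative A ∧ Nat.card A = c} (3 ^ k) ∧
    IsGreatest {c : ℕ | ∃ A : Subgroup (alternatingGroup (Fin (3 * k + 1))), IsMulCommutative A ∧ Nat.card A = c}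
      (4 * 3 ^ (k - 1)) ∧
    IsGreatest {c : ℕ | ∃ A : Subgroup (alternatingGroup (Fin (3 * k + 2))), IsMulCommutative A ∧ Nat.card A = c}
      (16 * 3 ^ (k - 2)) := by
  obtain ⟨u, rfl⟩ : ∃ u, k = u + 2 := ⟨k - 2, by omega⟩
  refine ⟨⟨EA_to (EA_three _), ?_⟩, ⟨?_, ?_⟩, ⟨?_, ?_⟩⟩
  · rintro c ⟨A, hA, rfl⟩
    rw [← GA_three]
    exact upperA _ A hA
  · have h := EA_add4 (EA_three (u + 1))
    rw [show 3 * (u + 1) + 4 = 3 * (u + 2) + 1 by ring, mul_comm (3 ^ (u + 1)) 4] at h
    exact EA_to h
  · rintro c ⟨A, hA, rfl⟩
    rw [show u + 2 - 1 = u + 1 by omega, ← GA_three_one]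
    exact upperA _ A hA
  · have h := EA_add4 (EA_add4 (EA_three u))
    rw [show 3 * u + 4 + 4 = 3 * (u + 2) + 2 by ring, show 3 ^ u * 4 * 4 = 16 * 3 ^ u by ring] at h
    exact EA_to h
  · rintro c ⟨A, hA, rfl⟩
    rw [Nat.add_sub_cancel, ← GA_three_two]
    exact upperA _ A hA



end Cfsg.Agent.S2504
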