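import Mathlib
import Cfsg.Statements.S2510
import Cfsg.Agent.Lib.Helper45ProjOrder

set_option autoImplicit false
open Cfsg

namespace Cfsg.Agent.S2510

open Cfsg.Agent.Lib.Helper45ProjOrder

theorem charP_of_card {F : Type*} [Field F] [Fintype F] (p a : ℕ) (hp : p.Prime) (ha : 1 ≤ a)
    (hF : Fintype.card F = p ^ a) : CharP F p := by
  obtain ⟨p', hp'⟩ := CharP.exists F
  obtain ⟨e, hpp, he⟩ := FiniteField.card F p'
  have h1 : p ∣ p' ^ (e : ℕ) := by
    rw [← he, hF]; exact dvd_pow_self p (by omega)
  have h2 : p = p' := (Nat.prime_dvd_prime_iff_eq hp hpp).1 (hp.dvd_of_dvd_pow h1)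
  rw [h2]; exact hp'

/-- Let F be a finite field with q = p^a elements, n ≥ 2 (with q ≥ 4 when n = 2), L = PSL(n, F), and let r be a prime dividing q − 1 and not dividing n. Then for every m the direct product L × L × L × (ℤ/r)^m has the same set of element orders as L × L × L; and if n − 1 ≠ p^j for every j ≥ 0 (so never when n = 2, since 1 = p^0), then already L × L × (ℤ/r)^m has the same set of element orders as L × L. -/
theorem result {F : Type*} [Field F] [Fintype F] (p a n r m : ℕ) (hp : p.Prime) (ha : 1 ≤ a) (hF : Fintype.card F = p ^ a)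
    (hn : 2 ≤ n) (hn2 : n = 2 → 4 ≤ Fintype.card F) (hr : r.Prime) (hrq : r ∣ Fintype.card F - 1) (hrn : ¬ r ∣ n) :
    Set.range (orderOf : Matrix.ProjectiveSpecialLinearGroup (Fin n) F × Matrix.ProjectiveSpecialLinearGroup (Fin n) F × Matrix.ProjectiveSpecialLinearGroup (Fin n) F × Multiplicative (Fin m → ZMod r) → ℕ) =
      Set.range (orderOf : Matrix.ProjectiveSpecialLinearGroup (Fin n) F × Matrix.ProjectiveSpecialLinearGroup (Fin n) F × Matrix.ProjectiveSpecialLinearGroup (Fin n) F → ℕ) ∧
    ((¬ ∃ j : ℕ, n - 1 = p ^ j) →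
      Set.range (orderOf : Matrix.ProjectiveSpecialLinearGroup (Fin n) F × Matrix.ProjectiveSpecialLinearGroup (Fin n) F × Multiplicative (Fin m → ZMod r) → ℕ) =
        Set.range (orderOf : Matrix.ProjectiveSpecialLinearGroup (Fin n) F × Matrix.ProjectiveSpecialLinearGroup (Fin n) F → ℕ)) := by
  have : Fact p.Prime := ⟨hp⟩
  have : CharP F p := charP_of_card p a hp ha hF
  have : NeZero n := ⟨by omega⟩
  rw [← Nat.card_eq_fintype_card] at hrq
  obtain ⟨C, hC, hCs⟩ := exists_singer_subgroup (F := F) p n
  have hrL := exists_orderOf_eq_prime (F := F) n r hn hr hrq hrn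
  have tri : ∀ x : Matrix.ProjectiveSpecialLinearGroup (Fin n) F,
      (∃ g3 : Matrix.ProjectiveSpecialLinearGroup (Fin n) F, orderOf g3 = Nat.lcm (orderOf x) r) ∨
      (∃ c ∈ C, orderOf c = orderOf x) ∨ ((∃ j, n - 1 = p ^ j) ∧ ∃ t, orderOf x = p ^ t) := by
    intro x
    obtain ⟨g, rfl⟩ := QuotientGroup.mk_surjective x
    rcases trichotomy p n r hn hr hrq hrn g with ⟨g2, h1, h2⟩ | h | h
    · left
      exact exists_orderOf_eq_of_dvd g2 _ (Nat.lcm_dvd h2 h1)
    · right; left
      exact hCs g h
    · right; right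
      exact h
  constructor
  · apply range_orderOf_prod_three r m hr
    apply absorb_three p r C hC hrL
    intro x
    rcases tri x with h | h | h
    · exact Or.inl h
    · exact Or.inr (Or.inl h)
    · exact Or.inr (Or.inr h.2)
  · intro hj
    apply range_orderOf_prod_two r m hr
    apply absorb_two r C hC hrL
    intro x
    rcases tri x with h | h | h
    · exact Or.inl h
    · exact Or.inr h
    · exact absurd h.1 hj

end Cfsg.Agent.S2510
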