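import Mathlib
import Cfsg.Statements.S2511
import Cfsg.Agent.Lib.Helper45SU

set_option autoImplicit false
open Cfsg

namespace Cfsg.Agent.S2511

open Cfsg.Agent.Lib.Helper45ProjOrder Cfsg.Agent.Lib.Helper45SU

theorem charP_of_card {F : Type*} [Field F] [Fintype F] (p a : ℕ) (hp : p.Prime) (ha : 1 ≤ a)
    (hF : Fintype.card F = p ^ a) : CharP F p := by
  obtain ⟨p', hp'⟩ := CharP.exists F
  obtain ⟨e, hpp, he⟩ := FiniteField.card F p'
  have h1 : p ∣ p' ^ (e : ℕ) := by
    rw [← he, hF]; exact dvd_pow_self p (by omega)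
  have h2 : p = p' := (Nat.prime_dvd_prime_iff_eq hp hpp).1 (hp.dvd_of_dvd_pow h1)
  rw [h2]; exact hp'

/-- Let F be a finite field with q² elements, q = p^a, n ≥ 3 with (n, q) ≠ (3, 2), L = PSU(n, q) realised over F, and let r be a prime dividing q + 1 and not dividing n. Then for every m the direct product L × L × L × (ℤ/r)^m has the same set of element orders as L × L × L; and if n − 1 is not a power of p, then already L × L × (ℤ/r)^m has the same set of element orders as L × L. -/
theorem result {F : Type*} [Field F] [Fintype F] (p a n q r m : ℕ) (hp : p.Prime) (ha : 1 ≤ a) (hq : q = p ^ a) (hF : Fintype.card F = q ^ 2)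
    (hn : 3 ≤ n) (hn3 : ¬ (n = 3 ∧ q = 2)) (hr : r.Prime) (hrq : r ∣ q + 1) (hrn : ¬ r ∣ n) :
    Set.range (orderOf : Cfsg.PSU n F q × Cfsg.PSU n F q × Cfsg.PSU n F q × Multiplicative (Fin m → ZMod r) → ℕ) = Set.range (orderOf : Cfsg.PSU n F q × Cfsg.PSU n F q × Cfsg.PSU n F q → ℕ) ∧
    ((¬ ∃ j : ℕ, n - 1 = p ^ j) →
      Set.range (orderOf : Cfsg.PSU n F q × Cfsg.PSU n F q × Multiplicative (Fin m → ZMod r) → ℕ) = Set.range (orderOf : Cfsg.PSU n F q × Cfsg.PSU n F q → ℕ)) := by
  have : Fact p.Prime := ⟨hp⟩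
  have : CharP F p := charP_of_card p (a * 2) hp (by omega) (by rw [hF, hq, pow_mul])
  obtain ⟨C, hC, hrL, tri⟩ := exists_data (F := F) hF p a hq n (by omega) r hr hrq hrn
  constructor
  · apply range_orderOf_prod_three r m hr
    apply absorb_three p r C hC hrL
    intro x
    rcases tri x with h | h | h
    · exact Or.inl h
    · exact Or.inr (Or.inl h)
    · exact Or.inr (Or.inr h.2)
  · intro hj
    apply range_orderOf_prod_two r m hr
    apply absorb_two r C hC hrL
    intro x
    rcases tri x with h | h | h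
    · exact Or.inl h
    · exact Or.inr h
    · exact absurd h.1 hj

end Cfsg.Agent.S2511
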