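import Mathlib
import Cfsg.Statements.S2512
import Cfsg.Agent.Lib.Helper45SpTri

set_option autoImplicit false
open Cfsg

namespace Cfsg.Agent.S2512

open Cfsg.Agent.Lib.Helper45ProjOrder Cfsg.Agent.Lib.Helper45SpTri

theorem charP_of_card {F : Type*} [Field F] [Fintype F] (p a : ℕ) (hp : p.Prime) (ha : 1 ≤ a)
    (hF : Fintype.card F = p ^ a) : CharP F p := by
  obtain ⟨p', hp'⟩ := CharP.exists F
  obtain ⟨e, hpp, he⟩ := FiniteField.card F p'
  have h1 : p ∣ p' ^ (e : ℕ) := by
    rw [← he, hF]; exact dvd_pow_self p (by omega)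
  have h2 : p = p' := (Nat.prime_dvd_prime_iff_eq hp hpp).1 (hp.dvd_of_dvd_pow h1)
  rw [h2]; exact hp'

/-- Let F be a finite field of odd order q = p^a, n ≥ 2 (with q ≥ 3 automatic), and L = PSp(2n, F). Then for every m the direct product L × L × L × (ℤ/2)^m has the same set of element orders as L × L × L; and if 2n − 1 is not a power of p, then already L × L × (ℤ/2)^m has the same set of element orders as L × L. -/
theorem result {F : Type*} [Field F] [Fintype F] (p a n m : ℕ) (hp : p.Prime) (ha : 1 ≤ a) (hF : Fintype.card F = p ^ a) (hodd : Odd (Fintype.card F))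
    (hn : 2 ≤ n) :
    Set.range (orderOf : Cfsg.PSp n F × Cfsg.PSp n F × Cfsg.PSp n F × Multiplicative (Fin m → ZMod 2) → ℕ) = Set.range (orderOf : Cfsg.PSp n F × Cfsg.PSp n F × Cfsg.PSp n F → ℕ) ∧
    ((¬ ∃ j : ℕ, 2 * n - 1 = p ^ j) →
      Set.range (orderOf : Cfsg.PSp n F × Cfsg.PSp n F × Multiplicative (Fin m → ZMod 2) → ℕ) = Set.range (orderOf : Cfsg.PSp n F × Cfsg.PSp n F → ℕ)) := by
  have : Fact p.Prime := ⟨hp⟩
  have : CharP F p := charP_of_card p a hp ha hF
  have h2 : (2 : F) ≠ 0 := by
    intro h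
    have h3 : ((2 : ℕ) : F) = 0 := by exact_mod_cast h
    rw [CharP.cast_eq_zero_iff F p 2] at h3
    have h4 : p = 2 := (Nat.prime_dvd_prime_iff_eq hp Nat.prime_two).1 h3
    rw [hF, h4] at hodd
    exact absurd hodd (by
      rw [Nat.not_odd_iff_even]
      exact (even_two).pow_of_ne_zero (by omega))
  obtain ⟨C, hC, hrL, tri⟩ := exists_data (F := F) p h2 n hn
  constructor
  · apply range_orderOf_prod_three 2 m Nat.prime_two
    apply absorb_three p 2 C hC hrL
    intro x
    rcases tri x with h | h | h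
    · exact Or.inl h
    · exact Or.inr (Or.inl h)
    · exact Or.inr (Or.inr h.2)
  · intro hj
    apply range_orderOf_prod_two 2 m Nat.prime_two
    apply absorb_two 2 C hC hrL
    intro x
    rcases tri x with h | h | h
    · exact Or.inl h
    · exact Or.inr h
    · exact absurd h.1 hj

end Cfsg.Agent.S2512
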