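import Cfsg.Statements.S2513
import Mathlib

set_option autoImplicit false
open Cfsg

namespace Cfsg.Agent.S2513

section aux
open Polynomial


theorem dvd_pow_natDegree {F : Type*} [Field F] (P : F[X]) (χ : F[X]) :
    χ ≠ 0 → (∀ f : F[X], Irreducible f → f ∣ χ → f ∣ P) → χ ∣ P ^ χ.natDegree := by
  induction χ using WfDvdMonoid.induction_on_irreducible with
  | zero => intro h; exact absurd rfl h
  | unit u hu => intro _ _; exact hu.dvd
  | mul a i ha hi ih =>
    intro hne hall
    have h1 : a ∣ P ^ a.natDegree := ih ha (fun f hf hfa => hall f hf (Dvd.dvd.mul_left hfa i))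
    have h2 : i ∣ P := hall i hi (Dvd.intro a rfl)
    have h3 : (i * a).natDegree = i.natDegree + a.natDegree := natDegree_mul hi.ne_zero ha
    have h4 : 1 ≤ i.natDegree := hi.natDegree_pos
    rw [h3, pow_add]
    exact mul_dvd_mul (h2.trans (dvd_pow_self P (by omega))) h1

theorem eq_zero_or_one {F : Type*} [Field F] [Fintype F] (hF : Fintype.card F = 2) (x : F) : x = 0 ∨ x = 1 := by
  classical
  by_cases hx : x = 0
  · exact Or.inl hx
  · right
    have hc : Fintype.card Fˣ = 1 := by rw [Fintype.card_units, hF]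
    have hs : Subsingleton Fˣ := Fintype.card_le_one_iff_subsingleton.mp hc.le
    have := hs.elim (Units.mk0 x hx) 1
    simpa using congrArg Units.val this

theorem charTwo {F : Type*} [Field F] [Fintype F] (hF : Fintype.card F = 2) : CharP F 2 := by
  apply CharTwo.of_one_ne_zero_of_two_eq_zero one_ne_zero
  have := Nat.cast_card_eq_zero F
  rw [hF] at this
  exact_mod_cast this

theorem matrix_pow_eq_one {F : Type*} [Field F] [Fintype F] (hF : Fintype.card F = 2) (n : ℕ)
    (M : Matrix (Fin n) (Fin n) F) (hdet : M.det ≠ 0) (E : ℕ)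
    (hE : ∀ d, 1 ≤ d → d ≤ n → (2 ^ d - 1) ∣ E) (s : ℕ) (hs : n ≤ 2 ^ s) (hsE : 2 ^ s ∣ E) :
    M ^ E = 1 := by
  classical
  have : CharP F 2 := charTwo hF
  obtain ⟨E', rfl⟩ := hsE
  have hE' : ∀ d, 1 ≤ d → d ≤ n → (2 ^ d - 1) ∣ E' := by
    intro d h1 h2
    have h := hE d h1 h2
    have hodd : Nat.Coprime (2 ^ d - 1) (2 ^ s) := by
      apply Nat.Coprime.pow_right
      rw [Nat.coprime_two_right]
      have : 2 ^ d = 2 * 2 ^ (d - 1) := by
        rw [← pow_succ']; congr 1; omega
      have hpos : 0 < 2 ^ (d - 1) := by positivity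
      exact ⟨2 ^ (d - 1) - 1, by omega⟩
    exact hodd.dvd_of_dvd_mul_left h
  set χ := M.charpoly with hχ
  have hχ0 : χ ≠ 0 := (Matrix.charpoly_monic M).ne_zero
  have hdeg : χ.natDegree = n := by
    have := Matrix.charpoly_natDegree_eq_dim M
    rw [Fintype.card_fin] at this
    exact this
  have hcoeff : χ.coeff 0 ≠ 0 := by
    intro h0
    apply hdet
    rw [Matrix.det_eq_sign_charpoly_coeff, ← hχ, h0, mul_zero]
  set P : F[X] := X ^ E' - 1 with hP
  have hirr : ∀ f : F[X], Irreducible f → f ∣ χ → f ∣ P := by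
    intro f hf hfχ
    have hd1 : 1 ≤ f.natDegree := hf.natDegree_pos
    have hd2 : f.natDegree ≤ n := hdeg ▸ natDegree_le_of_dvd hfχ hχ0
    have h1 : f ∣ X ^ (Nat.card F) ^ f.natDegree - X :=
      hf.natDegree_dvd_iff_dvd_X_pow_card_pow_sub_X.mp dvd_rfl
    rw [Nat.card_eq_fintype_card, hF] at h1
    have h2 : (X : F[X]) ^ 2 ^ f.natDegree - X = X * (X ^ (2 ^ f.natDegree - 1) - 1) := by
      have : 2 ^ f.natDegree = (2 ^ f.natDegree - 1) + 1 := by
        have : 0 < 2 ^ f.natDegree := by positivity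
        omega
      conv_lhs => rw [this]
      ring
    rw [h2] at h1
    rcases hf.prime.dvd_or_dvd h1 with h3 | h3
    · exfalso
      have h4 : (X : F[X]) ∣ f := by
        rcases (irreducible_X.dvd_iff.mp h3) with h5 | h5
        · exact absurd h5 hf.not_isUnit
        · exact h5.dvd
      have h5 : (X : F[X]) ∣ χ := h4.trans hfχ
      exact hcoeff (X_dvd_iff.mp h5)
    · obtain ⟨c, hc⟩ := hE' _ hd1 hd2
      refine h3.trans ?_
      rw [hP, hc, pow_mul]
      simpa using sub_dvd_pow_sub_pow ((X : F[X]) ^ (2 ^ f.natDegree - 1)) 1 c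
  have h1 : χ ∣ P ^ n := hdeg ▸ dvd_pow_natDegree P χ hχ0 hirr
  have h2 : χ ∣ P ^ 2 ^ s := h1.trans (pow_dvd_pow P hs)
  have h3 : P ^ 2 ^ s = X ^ (2 ^ s * E') - 1 := by
    rw [hP, sub_pow_char_pow, one_pow, ← pow_mul, mul_comm]
  rw [h3] at h2
  obtain ⟨c, hc⟩ := h2
  have h4 := congrArg (aeval M) hc
  rw [map_mul, hχ, Matrix.aeval_self_charpoly, zero_mul] at h4
  simp at h4
  exact sub_eq_zero.mp h4

/-- units of a commutative algebra of dimension `n` embed in `SL n`. -/
theorem exists_SL_of_unit {F : Type*} [Field F] [Fintype F] (hF : Fintype.card F = 2) (n : ℕ)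
    (R : Type*) [CommRing R] [Algebra F R] [Module.Finite F R] (hR : Module.finrank F R = n) (u : Rˣ) :
    ∃ g : Matrix.SpecialLinearGroup (Fin n) F, orderOf g = orderOf u := by
  classical
  let b : Module.Basis (Fin n) F R := Module.finBasisOfFinrankEq F R hR
  let φ := Algebra.leftMulMatrix b
  have hφ : Function.Injective φ := Algebra.leftMulMatrix_injective b
  have hdet : (φ (u : R)).det = 1 := by
    have hu : IsUnit (φ (u : R)) := u.isUnit.map φ
    have hu' : IsUnit (φ (u : R)).det := (Matrix.isUnit_iff_isUnit_det _).mp hu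
    rcases eq_zero_or_one hF (φ (u : R)).det with h | h
    · rw [h] at hu'; exact absurd hu' not_isUnit_zero
    · exact h
  let g : Matrix.SpecialLinearGroup (Fin n) F := ⟨φ (u : R), hdet⟩
  have hg : (g : Matrix (Fin n) (Fin n) F) = φ (u : R) := rfl
  refine ⟨g, ?_⟩
  rw [orderOf_eq_orderOf_iff]
  intro k
  constructor
  · intro h
    have h1 : ((g ^ k : Matrix.SpecialLinearGroup (Fin n) F) : Matrix (Fin n) (Fin n) F) = ((1 : Matrix.SpecialLinearGroup (Fin n) F) : Matrix (Fin n) (Fin n) F) := by rw [h]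
    simp only [Matrix.SpecialLinearGroup.coe_pow, Matrix.SpecialLinearGroup.coe_one] at h1
    rw [hg, ← map_pow, ← map_one φ] at h1
    have h2 := hφ h1
    exact Units.ext (by simpa using h2)
  · intro h
    apply Matrix.SpecialLinearGroup.ext
    intro i j
    simp only [Matrix.SpecialLinearGroup.coe_pow, Matrix.SpecialLinearGroup.coe_one]
    rw [hg, ← map_pow, ← Units.val_pow_eq_pow_val, h]
    simp

theorem exists_unit_order {K : Type*} [Field K] [Finite K] : ∃ ζ : Kˣ, orderOf ζ = Nat.card K - 1 := by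
  classical
  have := Fintype.ofFinite K
  obtain ⟨ζ, hζ⟩ := IsCyclic.exists_generator (α := Kˣ)
  refine ⟨ζ, ?_⟩
  rw [orderOf_eq_card_of_forall_mem_zpowers hζ, Nat.card_eq_fintype_card, Fintype.card_units, Nat.card_eq_fintype_card]

theorem exists_singer {F : Type*} [Field F] [Fintype F] (hF : Fintype.card F = 2) (n : ℕ) (hn : 1 ≤ n) :
    ∃ g : Matrix.SpecialLinearGroup (Fin n) F, orderOf g = 2 ^ n - 1 := by
  have : CharP F 2 := charTwo hF
  have : Fact (Nat.Prime 2) := ⟨Nat.prime_two⟩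
  have : NeZero n := ⟨by omega⟩
  obtain ⟨ζ, hζ⟩ := exists_unit_order (K := FiniteField.Extension F 2 n)
  obtain ⟨g, hg⟩ := exists_SL_of_unit hF n (FiniteField.Extension F 2 n) (FiniteField.finrank_extension F 2 n) ζ
  refine ⟨g, ?_⟩
  rw [hg, hζ, FiniteField.natCard_extension, Nat.card_eq_fintype_card, hF]

theorem exists_singer_pair {F : Type*} [Field F] [Fintype F] (hF : Fintype.card F = 2) (n i j : ℕ) (hi : 1 ≤ i) (hj : 1 ≤ j)
    (hij : i + j = n) :
    ∃ g : Matrix.SpecialLinearGroup (Fin n) F, orderOf g = Nat.lcm (2 ^ i - 1) (2 ^ j - 1) := by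
  subst hij
  have : CharP F 2 := charTwo hF
  have : Fact (Nat.Prime 2) := ⟨Nat.prime_two⟩
  have : NeZero i := ⟨by omega⟩
  have : NeZero j := ⟨by omega⟩
  obtain ⟨ζ, hζ⟩ := exists_unit_order (K := FiniteField.Extension F 2 i)
  obtain ⟨ξ, hξ⟩ := exists_unit_order (K := FiniteField.Extension F 2 j)
  have hfr : Module.finrank F (FiniteField.Extension F 2 i × FiniteField.Extension F 2 j) = i + j := by
    rw [Module.finrank_prod, FiniteField.finrank_extension, FiniteField.finrank_extension]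
  obtain ⟨g, hg⟩ := exists_SL_of_unit hF (i + j) (FiniteField.Extension F 2 i × FiniteField.Extension F 2 j) hfr
    (MulEquiv.prodUnits.symm (ζ, ξ))
  refine ⟨g, ?_⟩
  rw [hg, MulEquiv.orderOf_eq, Prod.orderOf_mk, hζ, hξ, FiniteField.natCard_extension, FiniteField.natCard_extension,
    Nat.card_eq_fintype_card, hF]

theorem exists_unipotent {F : Type*} [Field F] [Fintype F] (hF : Fintype.card F = 2) (n : ℕ) :
    ∃ g : Matrix.SpecialLinearGroup (Fin n) F, ∃ t : ℕ, orderOf g = 2 ^ t ∧ n ≤ 2 ^ t := by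
  have : CharP F 2 := charTwo hF
  have : Fact (Nat.Prime 2) := ⟨Nat.prime_two⟩
  have hmonic : (X ^ n : F[X]).Monic := monic_X_pow n
  let R := AdjoinRoot (X ^ n : F[X])
  have hpow : ∀ s : ℕ, (AdjoinRoot.mk (X ^ n : F[X]) (1 + X)) ^ 2 ^ s = 1 + AdjoinRoot.mk (X ^ n : F[X]) (X ^ 2 ^ s) := by
    intro s
    rw [← map_pow, add_pow_char_pow, one_pow, map_add, map_one]
  have hzero : ∀ k : ℕ, AdjoinRoot.mk (X ^ n : F[X]) (X ^ k) = 0 ↔ n ≤ k := by
    intro k
    rw [AdjoinRoot.mk_eq_zero]
    constructor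
    · intro h
      have := natDegree_le_of_dvd h (pow_ne_zero _ X_ne_zero)
      simpa using this
    · intro h
      exact pow_dvd_pow X h
  have hlt : n ≤ 2 ^ n := Nat.lt_two_pow_self.le
  have h1 : (AdjoinRoot.mk (X ^ n : F[X]) (1 + X)) ^ 2 ^ n = 1 := by
    rw [hpow, (hzero _).mpr hlt, add_zero]
  have hunit : IsUnit (AdjoinRoot.mk (X ^ n : F[X]) (1 + X)) :=
    IsUnit.of_pow_eq_one h1 (by positivity)
  obtain ⟨u, hu⟩ := hunit
  have hfin : Module.Finite F R := (AdjoinRoot.powerBasis' hmonic).finite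
  have hfr : Module.finrank F R = n := by
    rw [(AdjoinRoot.powerBasis' hmonic).finrank]
    simp
  obtain ⟨g, hg⟩ := exists_SL_of_unit hF n R hfr u
  have hu1 : u ^ 2 ^ n = 1 := Units.ext (by rw [Units.val_pow_eq_pow_val, hu, h1]; rfl)
  obtain ⟨t, _, ht⟩ := (Nat.dvd_prime_pow Nat.prime_two).mp (orderOf_dvd_of_pow_eq_one hu1)
  refine ⟨g, t, hg.trans ht, ?_⟩
  have h2 : u ^ 2 ^ t = 1 := ht ▸ pow_orderOf_eq_one u
  have h3 := congrArg Units.val h2
  rw [Units.val_pow_eq_pow_val, hu, hpow] at h3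
  have h4 : AdjoinRoot.mk (X ^ n : F[X]) (X ^ 2 ^ t) = 0 := by
    simpa using h3
  exact (hzero _).mp h4

theorem range_orderOf_eq {L : Type*} [Group L] [Finite L] (K : ℕ) (x : Fin K → L)
    (hx : ∀ g : L, g ^ orderOf x = 1) :
    Set.range (orderOf : (Fin K → L) → ℕ) = {m | m ∣ Monoid.exponent L} := by
  ext m
  simp only [Set.mem_range, Set.mem_ofPred_eq]
  constructor
  · rintro ⟨z, rfl⟩
    apply orderOf_dvd_of_pow_eq_one
    funext i
    simp [Monoid.pow_exponent_eq_one]
  · intro hm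
    have h1 : Monoid.exponent L ∣ orderOf x := Monoid.exponent_dvd_of_forall_pow_eq_one hx
    have h2 : m ∣ orderOf x := hm.trans h1
    have hpos : 0 < orderOf x := orderOf_pos x
    obtain ⟨c, hc⟩ := h2
    have hc0 : c ≠ 0 := by
      rintro rfl
      rw [mul_zero] at hc
      omega
    refine ⟨x ^ c, ?_⟩
    rw [orderOf_pow_of_dvd hc0 (Dvd.intro_left m hc.symm), hc]
    exact Nat.mul_div_cancel _ (Nat.pos_of_ne_zero hc0)

theorem center_eq_bot {F : Type*} [Field F] [Fintype F] (hF : Fintype.card F = 2) (n : ℕ) :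
    Subgroup.center (Matrix.SpecialLinearGroup (Fin n) F) = ⊥ := by
  rw [eq_bot_iff]
  intro A hA
  obtain ⟨r, hr, hrA⟩ := Matrix.SpecialLinearGroup.mem_center_iff.mp hA
  rw [Subgroup.mem_bot]
  rcases Nat.eq_zero_or_pos n with rfl | hn
  · exact Subsingleton.elim _ _
  rcases eq_zero_or_one hF r with rfl | rfl
  · rw [Fintype.card_fin, zero_pow (by omega)] at hr
    exact absurd hr zero_ne_one
  · apply Matrix.SpecialLinearGroup.ext
    intro i j
    rw [← hrA]
    simp

theorem exists_family {F : Type*} [Field F] [Fintype F] (hF : Fintype.card F = 2) (n k : ℕ) (hn : 2 ≤ n)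
    (hk : (n + 3) / 2 ≤ k) :
    ∃ x : Fin k → Matrix.ProjectiveSpecialLinearGroup (Fin n) F,
      ∀ g : Matrix.ProjectiveSpecialLinearGroup (Fin n) F, g ^ orderOf x = 1 := by
  classical
  -- the elements in SL
  obtain ⟨u, t, hut, hnt⟩ := exists_unipotent hF n
  obtain ⟨s0, hs0⟩ := exists_singer hF n (by omega)
  have hpair : ∀ i : ℕ, ∃ g : Matrix.SpecialLinearGroup (Fin n) F, 1 ≤ i → i < n →
      (2 ^ i - 1) ∣ orderOf g ∧ (2 ^ (n - i) - 1) ∣ orderOf g := by
    intro i
    by_cases h : 1 ≤ i ∧ i < n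
    · obtain ⟨g, hg⟩ := exists_singer_pair hF n i (n - i) h.1 (by omega) (by omega)
      exact ⟨g, fun _ _ => ⟨hg ▸ Nat.dvd_lcm_left _ _, hg ▸ Nat.dvd_lcm_right _ _⟩⟩
    · exact ⟨1, fun h1 h2 => absurd ⟨h1, h2⟩ h⟩
  choose w hw using hpair
  let π : Matrix.SpecialLinearGroup (Fin n) F →* Matrix.ProjectiveSpecialLinearGroup (Fin n) F :=
    QuotientGroup.mk' (Subgroup.center (Matrix.SpecialLinearGroup (Fin n) F))
  have hπinj : Function.Injective π := by
    rw [← MonoidHom.ker_eq_bot_iff, QuotientGroup.ker_mk', center_eq_bot hF]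
  have hπsurj : Function.Surjective π := QuotientGroup.mk'_surjective _
  let y : ℕ → Matrix.SpecialLinearGroup (Fin n) F := fun j =>
    if j = 0 then u else if j = 1 then s0 else w (j - 1)
  let x : Fin k → Matrix.ProjectiveSpecialLinearGroup (Fin n) F := fun j => π (y j)
  have hxy : ∀ j : ℕ, j < k → orderOf (y j) ∣ orderOf x := by
    intro j hj
    have h1 : orderOf (x ⟨j, hj⟩) ∣ orderOf x := orderOf_apply_dvd_orderOf _
    have h2 : orderOf (x ⟨j, hj⟩) = orderOf (y j) := orderOf_injective π hπinj (y j)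
    rwa [h2] at h1
  refine ⟨x, ?_⟩
  intro g
  obtain ⟨a, rfl⟩ := hπsurj g
  rw [← map_pow]
  have hE : ∀ d, 1 ≤ d → d ≤ n → (2 ^ d - 1) ∣ orderOf x := by
    intro d hd1 hd2
    by_cases h1 : 2 * d < n
    · -- index d + 1
      have hj : d + 1 < k := by omega
      have h2 := hxy (d + 1) hj
      have h3 : y (d + 1) = w d := by
        simp only [y]
        rw [if_neg (by omega), if_neg (by omega)]
        simp
      rw [h3] at h2
      exact ((hw d hd1 (by omega)).1).trans h2
    · by_cases h2 : d = n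
      · subst h2
        have h3 := hxy 1 (by omega)
        have h4 : y 1 = s0 := by simp [y]
        rw [h4, hs0] at h3
        exact h3
      · by_cases h3 : 2 * d = n
        · have h4 := hxy 1 (by omega)
          have h5 : y 1 = s0 := by simp [y]
          rw [h5, hs0] at h4
          refine Dvd.dvd.trans ?_ h4
          exact Nat.pow_sub_one_dvd_pow_sub_one 2 (Dvd.intro_left 2 h3)
        · have hj : (n - d) + 1 < k := by omega
          have h4 := hxy ((n - d) + 1) hj
          have h5 : y ((n - d) + 1) = w (n - d) := by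
            simp only [y]
            rw [if_neg (by omega), if_neg (by omega)]
            simp
          rw [h5] at h4
          have h6 := (hw (n - d) (by omega) (by omega)).2
          have h7 : n - (n - d) = d := by omega
          rw [h7] at h6
          exact h6.trans h4
  have h2t : 2 ^ t ∣ orderOf x := by
    have h3 := hxy 0 (by omega)
    have h4 : y 0 = u := by simp [y]
    rwa [h4, hut] at h3
  have hM := matrix_pow_eq_one hF n (a : Matrix (Fin n) (Fin n) F) (by rw [a.2]; exact one_ne_zero) (orderOf x) hE t hnt h2t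
  have ha : a ^ orderOf x = 1 := by
    apply Matrix.SpecialLinearGroup.ext
    intro i j
    rw [Matrix.SpecialLinearGroup.coe_pow, hM]
    simp
  rw [ha, map_one]


end aux

/-- Let F be the field with two elements, n ≥ 2, L = PSL(n, F) and k₀ = ⌊(n + 3)/2⌋. Then for every k ≥ k₀ the direct product of k copies of L has the same set of element orders as the direct product of k₀ copies of L. -/
theorem result {F : Type*} [Field F] [Fintype F] (hF : Fintype.card F = 2) (n k : ℕ) (hn : 2 ≤ n) (hk : (n + 3) / 2 ≤ k) :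
    Set.range (orderOf : (Fin k → Matrix.ProjectiveSpecialLinearGroup (Fin n) F) → ℕ) = Set.range (orderOf : (Fin ((n + 3) / 2) → Matrix.ProjectiveSpecialLinearGroup (Fin n) F) → ℕ) := by
  obtain ⟨x, hx⟩ := exists_family hF n k hn hk
  obtain ⟨x', hx'⟩ := exists_family hF n ((n + 3) / 2) hn le_rfl
  rw [range_orderOf_eq k x hx, range_orderOf_eq _ x' hx']


end Cfsg.Agent.S2513
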