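import Cfsg.Statements.S2514
import Mathlib

set_option autoImplicit false
open Cfsg

namespace Cfsg.Agent.S2514

section aux

theorem orderOf_pi_dvd_iff {ι : Type*} {G : Type*} [Group G] (x : ι → G) (n : ℕ) :
    orderOf x ∣ n ↔ ∀ i, orderOf (x i) ∣ n := by
  simp only [orderOf_dvd_iff_pow_eq_one, funext_iff, Pi.pow_apply, Pi.one_apply]

theorem orderOf_prod_dvd_iff {A B : Type*} [Group A] [Group B] (x : A × B) (n : ℕ) :
    orderOf x ∣ n ↔ orderOf x.1 ∣ n ∧ orderOf x.2 ∣ n := by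
  simp only [orderOf_dvd_iff_pow_eq_one, Prod.ext_iff, Prod.pow_fst, Prod.pow_snd, Prod.fst_one, Prod.snd_one]

theorem eq_of_dvd_iff {a b : ℕ} (h : ∀ n, a ∣ n ↔ b ∣ n) : a = b :=
  Nat.dvd_antisymm ((h b).mpr dvd_rfl) ((h a).mp dvd_rfl)

theorem divisor_closed {X : Type*} [Group X] [Finite X] {n d : ℕ} (hn : n ∈ Set.range (orderOf : X → ℕ)) (hd : d ∣ n) :
    d ∈ Set.range (orderOf : X → ℕ) := by
  obtain ⟨x, rfl⟩ := hn
  obtain ⟨c, hc⟩ := hd
  have hpos : 0 < orderOf x := orderOf_pos x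
  have hc0 : c ≠ 0 := by
    rintro rfl
    rw [mul_zero] at hc
    omega
  refine ⟨x ^ c, ?_⟩
  rw [orderOf_pow_of_dvd hc0 (Dvd.intro_left d hc.symm), hc]
  exact Nat.mul_div_cancel _ (Nat.pos_of_ne_zero hc0)

theorem exists_maximal {X : Type*} [Group X] [Finite X] {n : ℕ} (hn : n ∈ Set.range (orderOf : X → ℕ)) :
    ∃ m, (m ∈ Set.range (orderOf : X → ℕ) ∧ ∀ m' ∈ Set.range (orderOf : X → ℕ), m ∣ m' → m' = m) ∧ n ∣ m := by
  classical
  have hfin : (Set.range (orderOf : X → ℕ)).Finite := Set.finite_range _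
  let S : Set ℕ := {m | m ∈ Set.range (orderOf : X → ℕ) ∧ n ∣ m}
  have hSfin : S.Finite := hfin.subset (fun m hm => hm.1)
  have hSne : S.Nonempty := ⟨n, hn, dvd_rfl⟩
  obtain ⟨m, hmS, hmax⟩ := Set.exists_max_image S id hSfin hSne
  refine ⟨m, ⟨hmS.1, ?_⟩, hmS.2⟩
  intro m' hm' hdvd
  have h1 : m' ∈ S := ⟨hm', hmS.2.trans hdvd⟩
  have h2 : m' ≤ m := hmax m' h1
  obtain ⟨x, rfl⟩ := hm'
  have h3 : m ≤ orderOf x := Nat.le_of_dvd (orderOf_pos x) hdvd
  exact le_antisymm h2 h3

end aux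

/-- For a finite group X write μ(X) for the set of element orders of X that are maximal under divisibility. Let G and H be finite groups and k ≥ 1 such that μ(H) ⊆ μ(G) and μ(G) has fewer than k elements outside μ(H). Then the direct product of k copies of G has the same set of element orders as the direct product of k − 1 copies of G with H. -/
theorem result {G H : Type*} [Group G] [Finite G] [Group H] [Finite H] (k : ℕ) (hk : 1 ≤ k)
    (hsub : {n : ℕ | n ∈ Set.range (orderOf : H → ℕ) ∧ ∀ m ∈ Set.range (orderOf : H → ℕ), n ∣ m → m = n} ⊆ {n : ℕ | n ∈ Set.range (orderOf : G → ℕ) ∧ ∀ m ∈ Set.range (orderOf : G → ℕ), n ∣ m → m = n})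
    (hfew : ({n : ℕ | n ∈ Set.range (orderOf : G → ℕ) ∧ ∀ m ∈ Set.range (orderOf : G → ℕ), n ∣ m → m = n} \ {n : ℕ | n ∈ Set.range (orderOf : H → ℕ) ∧ ∀ m ∈ Set.range (orderOf : H → ℕ), n ∣ m → m = n}).ncard < k) :
    Set.range (orderOf : (Fin k → G) → ℕ) = Set.range (orderOf : (Fin (k - 1) → G) × H → ℕ) := by
  classical
  obtain ⟨k', rfl⟩ : ∃ k', k = k' + 1 := ⟨k - 1, by omega⟩
  change Set.range (orderOf : (Fin (k' + 1) → G) → ℕ) = Set.range (orderOf : (Fin k' → G) × H → ℕ)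
  have hHG : ∀ n, n ∈ Set.range (orderOf : H → ℕ) → n ∈ Set.range (orderOf : G → ℕ) := by
    intro n hn
    obtain ⟨m, hm, hnm⟩ := exists_maximal hn
    exact divisor_closed (hsub hm).1 hnm
  apply Set.Subset.antisymm
  · rintro _ ⟨x, rfl⟩
    have hch : ∀ i, ∃ m, (m ∈ Set.range (orderOf : G → ℕ) ∧ ∀ m' ∈ Set.range (orderOf : G → ℕ), m ∣ m' → m' = m) ∧ orderOf (x i) ∣ m :=
      fun i => exists_maximal ⟨x i, rfl⟩
    choose m hm hxm using hch
    by_cases hcase : ∃ i, m i ∈ {n : ℕ | n ∈ Set.range (orderOf : H → ℕ) ∧ ∀ m ∈ Set.range (orderOf : H → ℕ), n ∣ m → m = n}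
    · obtain ⟨i, hi⟩ := hcase
      obtain ⟨h, hh⟩ := divisor_closed hi.1 (hxm i)
      refine ⟨(fun l => x (i.succAbove l), h), ?_⟩
      apply eq_of_dvd_iff
      intro n
      rw [orderOf_prod_dvd_iff, orderOf_pi_dvd_iff, orderOf_pi_dvd_iff, hh]
      constructor
      · rintro ⟨h1, h2⟩ l
        by_cases hl : l = i
        · rw [hl]; exact h2
        · obtain ⟨z, rfl⟩ := Fin.exists_succAbove_eq hl
          exact h1 z
      · intro h1
        exact ⟨fun l => h1 _, h1 i⟩
    · push Not at hcase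
      set T := ({n : ℕ | n ∈ Set.range (orderOf : G → ℕ) ∧ ∀ m ∈ Set.range (orderOf : G → ℕ), n ∣ m → m = n} \ {n : ℕ | n ∈ Set.range (orderOf : H → ℕ) ∧ ∀ m ∈ Set.range (orderOf : H → ℕ), n ∣ m → m = n}) with hT
      have hTfin : T.Finite := (Set.finite_range (orderOf : G → ℕ)).subset (fun a ha => ha.1.1)
      have hmT : ∀ i, m i ∈ T := fun i => ⟨hm i, hcase i⟩
      have hcard : hTfin.toFinset.card < (Finset.univ : Finset (Fin (k' + 1))).card := by
        rw [← Set.ncard_eq_toFinset_card T hTfin]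
        simpa using hfew
      obtain ⟨i, _, j, _, hij, hmij⟩ := Finset.exists_ne_map_eq_of_card_lt_of_maps_to hcard
        (f := m) (fun i _ => by simpa using hmT i)
      have hl : Nat.lcm (orderOf (x i)) (orderOf (x j)) ∣ m i :=
        Nat.lcm_dvd (hxm i) (hmij ▸ hxm j)
      obtain ⟨g', hg'⟩ := divisor_closed (hm i).1 hl
      refine ⟨(fun l => Function.update x i g' (j.succAbove l), 1), ?_⟩
      apply eq_of_dvd_iff
      intro n
      rw [orderOf_prod_dvd_iff, orderOf_pi_dvd_iff, orderOf_pi_dvd_iff]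
      simp only [orderOf_one, one_dvd, and_true]
      obtain ⟨i', hi'⟩ := Fin.exists_succAbove_eq hij
      constructor
      · intro h1
        have h2 := h1 i'
        rw [hi', Function.update_self, hg'] at h2
        intro l
        by_cases hli : l = i
        · rw [hli]; exact (Nat.dvd_lcm_left _ _).trans h2
        · by_cases hlj : l = j
          · rw [hlj]; exact (Nat.dvd_lcm_right _ _).trans h2
          · obtain ⟨z, rfl⟩ := Fin.exists_succAbove_eq hlj
            have h3 := h1 z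
            rwa [Function.update_of_ne hli] at h3
      · intro h1 l
        by_cases hli : j.succAbove l = i
        · rw [hli, Function.update_self, hg']
          exact Nat.lcm_dvd (h1 i) (h1 j)
        · rw [Function.update_of_ne hli]
          exact h1 _
  · rintro _ ⟨⟨y, h⟩, rfl⟩
    obtain ⟨g, hg⟩ := hHG _ ⟨h, rfl⟩
    refine ⟨Fin.cons g y, ?_⟩
    apply eq_of_dvd_iff
    intro n
    rw [orderOf_prod_dvd_iff, orderOf_pi_dvd_iff, orderOf_pi_dvd_iff, Fin.forall_fin_succ]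
    simp only [Fin.cons_zero, Fin.cons_succ, hg]
    exact and_comm

end Cfsg.Agent.S2514
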