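import Cfsg.Statements.S2516
import Mathlib

set_option autoImplicit false
open Cfsg

namespace Cfsg.Agent.S2516

section aux
variable {F : Type*} [Field F] {V : Type*} [AddCommGroup V] [Module F V]
    {G : Type*} [Group G] (ρ : Representation F G V)

/-- the action hom -/
noncomputable abbrev act : G →* MulAut (Multiplicative V) :=
  (MulAutMultiplicative V).symm.toMonoidHom.comp
        ((DistribMulAction.toAddAut ((V →ₗ[F] V)ˣ) V).comp ρ.asGroupHom)

theorem act_apply (g : G) (v : V) : act ρ g (Multiplicative.ofAdd v) = Multiplicative.ofAdd (ρ g v) := by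
  rfl

theorem pow_formula (g : G) (v : V) (k : ℕ) :
    (⟨Multiplicative.ofAdd v, g⟩ : Multiplicative V ⋊[act ρ] G) ^ k =
      ⟨Multiplicative.ofAdd (∑ i ∈ Finset.range k, ((ρ g) ^ i) v), g ^ k⟩ := by
  induction k with
  | zero => simp
  | succ k ih =>
    rw [pow_succ, ih]
    apply SemidirectProduct.ext
    · rw [SemidirectProduct.mul_left]
      simp only
      rw [act_apply, Finset.sum_range_succ, ofAdd_add, map_pow]
    · rw [SemidirectProduct.mul_right, pow_succ]

end aux

/-- Let F be a field of characteristic p > 0, V a non-zero finite-dimensional F-vector space, G a finite group and ρ a representation of G on V; form the semidirect product V ⋊ G. For g ∈ G of order k, the coset Vg contains an element of order pk if and only if the minimal polynomial of ρ(g) does not divide 1 + X + ⋯ + X^(k−1). -/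
theorem result {F : Type*} [Field F] (p : ℕ) [Fact p.Prime] [CharP F p] {V : Type*} [AddCommGroup V] [Module F V] [FiniteDimensional F V] [Nontrivial V]
    {G : Type*} [Group G] [Finite G] (ρ : Representation F G V) (g : G) :
    (∃ x : Multiplicative V ⋊[(MulAutMultiplicative V).symm.toMonoidHom.comp
        ((DistribMulAction.toAddAut ((V →ₗ[F] V)ˣ) V).comp ρ.asGroupHom)] G,
        x.right = g ∧ orderOf x = p * orderOf g) ↔
      ¬ (minpoly F (ρ g) ∣ ∑ i ∈ Finset.range (orderOf g), (Polynomial.X : Polynomial F) ^ i) := by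
  classical
  have hp : p.Prime := Fact.out
  have hk : 0 < orderOf g := orderOf_pos g
  rw [minpoly.dvd_iff]
  have haeval : Polynomial.aeval (ρ g) (∑ i ∈ Finset.range (orderOf g), (Polynomial.X : Polynomial F) ^ i)
      = ∑ i ∈ Finset.range (orderOf g), (ρ g) ^ i := by
    simp
  rw [haeval]
  set N : V →ₗ[F] V := ∑ i ∈ Finset.range (orderOf g), (ρ g) ^ i with hN
  have hpowk : ∀ v : V, (⟨Multiplicative.ofAdd v, g⟩ : Multiplicative V ⋊[act ρ] G) ^ orderOf g
      = ⟨Multiplicative.ofAdd (N v), 1⟩ := by
    intro v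
    rw [pow_formula, pow_orderOf_eq_one, hN, LinearMap.sum_apply]
  constructor
  · rintro ⟨x, hxg, hx⟩ hN0
    obtain ⟨l, r⟩ := x
    simp only at hxg
    subst hxg
    have h1 := hpowk (Multiplicative.toAdd l)
    rw [hN0] at h1
    have h2 : (⟨l, r⟩ : Multiplicative V ⋊[act ρ] G) ^ orderOf r = 1 := by
      rw [show l = Multiplicative.ofAdd (Multiplicative.toAdd l) from rfl, h1]
      rfl
    have h3 := orderOf_dvd_of_pow_eq_one h2
    rw [hx] at h3
    have h4 := Nat.le_of_dvd hk h3
    have h5 : 2 ≤ p := hp.two_le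
    nlinarith
  · intro hN0
    obtain ⟨v, hv⟩ : ∃ v, N v ≠ 0 := by
      by_contra hcon
      push Not at hcon
      exact hN0 (LinearMap.ext hcon)
    refine ⟨⟨Multiplicative.ofAdd v, g⟩, rfl, ?_⟩
    set x : Multiplicative V ⋊[act ρ] G := ⟨Multiplicative.ofAdd v, g⟩ with hx
    have h1 : x ^ orderOf g = ⟨Multiplicative.ofAdd (N v), 1⟩ := hpowk v
    have h2 : x ^ orderOf g ≠ 1 := by
      rw [h1]
      intro h
      have := congrArg SemidirectProduct.left h
      exact hv this
    have h3 : orderOf g ∣ orderOf x := by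
      have := orderOf_map_dvd (SemidirectProduct.rightHom : Multiplicative V ⋊[act ρ] G →* G) x
      simpa [hx] using this
    have h4 : x ^ (orderOf g * p) = 1 := by
      rw [pow_mul, h1]
      have h5 : ∀ (w : V) (j : ℕ), (⟨Multiplicative.ofAdd w, 1⟩ : Multiplicative V ⋊[act ρ] G) ^ j = ⟨Multiplicative.ofAdd (j • w), 1⟩ := by
        intro w j
        have := pow_formula ρ 1 w j
        rw [this]
        simp
      rw [h5]
      have h6 : p • N v = 0 := by
        have : (p : F) = 0 := CharP.cast_eq_zero F p
        rw [← Nat.cast_smul_eq_nsmul F, this, zero_smul]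
      rw [h6]
      rfl
    have h5 : orderOf x ∣ orderOf g * p := orderOf_dvd_of_pow_eq_one h4
    obtain ⟨c, hc⟩ := h3
    rw [hc] at h5
    have h6 : c ∣ p := Nat.dvd_of_mul_dvd_mul_left hk h5
    rcases (Nat.dvd_prime hp).mp h6 with rfl | rfl
    · exfalso
      apply h2
      have : orderOf x = orderOf g := by rw [hc, mul_one]
      rw [← this]
      exact pow_orderOf_eq_one x
    · rw [hc, mul_comm]

end Cfsg.Agent.S2516
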