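import Cfsg.Statements.S2553
import Cfsg.Agent.Lib.H69G4Congr
import Cfsg.Agent.Lib.H69G4T5
import Cfsg.Agent.Lib.H69G4T6
import Cfsg.Agent.Lib.H69G4T7
import Cfsg.Agent.Lib.H69G4T8
import Cfsg.Agent.Lib.H69G4LinFin
import Cfsg.Agent.Lib.H69G4Dual
import Cfsg.Agent.Lib.H69G4Eight
import Cfsg.Agent.Lib.H69G4Norm
import Cfsg.Agent.Lib.H69G4Orb
import Cfsg.Agent.Lib.H69G4Fix7
import Cfsg.Agent.Lib.H69G4RedT
import Cfsg.Agent.Lib.H69G4RedK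
import Cfsg.Agent.Lib.H69G4RedS

set_option autoImplicit false
open Cfsg

namespace Cfsg.Agent.S2553

open Cfsg.Agent.Lib.Helper69G4Defs Equiv Equiv.Perm MulAction

/-- the reduction to a transitive group -/
theorem reduce (K : Subgroup (Perm (Fin 8))) (c : Perm (Fin 8)) (hcK : c ∈ K) (hc : c.IsCycle)
    (hc5 : c.support.card = 5) :
    ∃ (k : ℕ) (ρ : K →* Perm (Fin k)), 5 ≤ k ∧ k ≤ 8 ∧ IsPretransitive ρ.range (Fin k) ∧
      Nat.card ρ.ker ∣ (8 - k).factorial ∧ (7 ≤ k → ∀ h : K, sign (ρ h) = sign (h : Perm (Fin 8))) := by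
  obtain ⟨x0, hx0⟩ : c.support.Nonempty := by
    rw [← Finset.card_pos, hc5]; norm_num
  obtain ⟨h1, h2⟩ := Cfsg.Agent.Lib.H69G4RedT.card_orbit_bounds K c hcK hc hc5 x0 hx0
  exact ⟨_, rho K x0, h1, h2, Cfsg.Agent.Lib.H69G4RedT.range_transitive K x0,
    Cfsg.Agent.Lib.H69G4RedK.card_ker_dvd K x0, fun h7 h => Cfsg.Agent.Lib.H69G4RedS.sign_rho K x0 h7 h⟩

/-- the permutation part -/
theorem perm_main (K : Subgroup (Perm (Fin 8))) (hK : K ≤ alternatingGroup (Fin 8)) (hcf : CF K)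
    (h5 : 5 ∣ Nat.card K) :
    (∃ n : ℕ, 5 ≤ n ∧ n ≤ 8 ∧ Nonempty (K ≃* alternatingGroup (Fin n))) ∨
      Nonempty (K ≃* Perm (Fin 5)) ∨ Nonempty (K ≃* Perm (Fin 6)) := by
  have : Fact (Nat.Prime 5) := ⟨by norm_num⟩
  obtain ⟨c, hc⟩ := exists_prime_orderOf_dvd_card' (G := K) 5 h5
  have hc' : orderOf (c : Perm (Fin 8)) = 5 := by rw [Subgroup.orderOf_coe, hc]
  obtain ⟨hcyc, hsupp⟩ := Cfsg.Agent.Lib.H69G4Cyc5.isCycle_of_orderOf_five (by norm_num) _ hc'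
  obtain ⟨k, ρ, hk5, hk8, htr, hker, hsign⟩ := reduce K c c.2 hcyc hsupp
  have hker6 : Nat.card ρ.ker ∣ 2 ^ 1 * 3 ^ 1 := by
    refine hker.trans ?_
    have : (8 - k).factorial ∣ (3).factorial := Nat.factorial_dvd_factorial (by omega)
    simpa [Nat.factorial] using this
  have hsolv : Group.IsSolvable ρ.ker :=
    Cfsg.Agent.Lib.H69G4Ord.solvable_of_dvd 2 3 1 1 Nat.prime_two Nat.prime_three hker6
  have hbot : ρ.ker = ⊥ := Cfsg.Agent.Lib.H69G4Solv.normal_solvable hcf ρ.ker inferInstance hsolv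
  have hinj : Function.Injective ρ := (MonoidHom.ker_eq_bot_iff ρ).1 hbot
  let e : K ≃* ρ.range := MonoidHom.ofInjective hinj
  have hcf' : CF ρ.range := Cfsg.Agent.Lib.H69G4Congr.cf_congr e hcf
  have h5' : 5 ∣ Nat.card ρ.range := by rwa [← Nat.card_congr e.toEquiv]
  have hle : 7 ≤ k → ρ.range ≤ alternatingGroup (Fin k) := by
    rintro h7 _ ⟨h, rfl⟩
    rw [Equiv.Perm.mem_alternatingGroup, hsign h7 h]
    exact Equiv.Perm.mem_alternatingGroup.1 (hK h.2)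
  interval_cases k
  · rcases Cfsg.Agent.Lib.H69G4T5.t5 _ hcf' h5' with ⟨⟨e'⟩⟩ | ⟨⟨e'⟩⟩
    · exact Or.inl ⟨5, le_rfl, by norm_num, ⟨e.trans e'⟩⟩
    · exact Or.inr (Or.inl ⟨e.trans e'⟩)
  · rcases Cfsg.Agent.Lib.H69G4T6.t6 _ hcf' htr h5' with ⟨⟨e'⟩⟩ | ⟨⟨e'⟩⟩ | ⟨⟨e'⟩⟩ | ⟨⟨e'⟩⟩
    · exact Or.inl ⟨5, le_rfl, by norm_num, ⟨e.trans e'⟩⟩
    · exact Or.inr (Or.inl ⟨e.trans e'⟩)
    · exact Or.inl ⟨6, by norm_num, by norm_num, ⟨e.trans e'⟩⟩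
    · exact Or.inr (Or.inr ⟨e.trans e'⟩)
  · have h := Cfsg.Agent.Lib.H69G4T7.t7 _ (hle le_rfl) htr h5'
    exact Or.inl ⟨7, by norm_num, by norm_num, ⟨e.trans (MulEquiv.subgroupCongr h)⟩⟩
  · have h := Cfsg.Agent.Lib.H69G4T8.t8 _ (hle (by norm_num)) htr h5'
    exact Or.inl ⟨8, by norm_num, le_rfl, ⟨e.trans (MulEquiv.subgroupCongr h)⟩⟩

/-- the linear part -/
theorem lin_main (H : Subgroup (GL (Fin 4) (ZMod 2))) (hcf : CF H) (h7 : 7 ∣ Nat.card H)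
    (h5 : ¬ 5 ∣ Nat.card H) : Nonempty (H ≃* GL (Fin 3) (ZMod 2)) := by
  have : Fact (Nat.Prime 7) := ⟨by norm_num⟩
  obtain ⟨g, hg⟩ := exists_prime_orderOf_dvd_card' (G := H) 7 h7
  have hg' : orderOf (g : GL (Fin 4) (ZMod 2)) = 7 := by rw [Subgroup.orderOf_coe, hg]
  obtain ⟨v0, h0, hfix, huniq⟩ := Cfsg.Agent.Lib.H69G4Fix7.fixed_unique _ hg'
  obtain ⟨f, hf⟩ : ∃ f : H →* GL (Fin 3) (ZMod 2), ∀ h ∈ f.ker, h ^ 2 = 1 := by
    rcases Cfsg.Agent.Lib.H69G4Orb.card_orbit H g g.2 hg' v0 h0 hfix huniq h5 with h1 | h8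
    · apply Cfsg.Agent.Lib.H69G4Vec.hom_of_fixed H v0 h0
      intro h hh
      have hsub : Subsingleton (orbit H v0) := (Nat.card_eq_one_iff_unique.1 h1).1
      have := Subsingleton.elim (⟨(⟨h, hh⟩ : H) • v0, mem_orbit _ _⟩ : orbit H v0)
        ⟨v0, mem_orbit_self _⟩
      exact congrArg Subtype.val this
    · obtain ⟨φ0, hφ1, hφinv, hφN⟩ := Cfsg.Agent.Lib.H69G4Norm.exists_covec _ hg' v0 h0 hfix huniq
      apply Cfsg.Agent.Lib.H69G4Dual.hom_of_fixed_covec H φ0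
      · rintro rfl
        simp at hφ1
      · exact Cfsg.Agent.Lib.H69G4Eight.covec_fixed H g g.2 hg' v0 h0 hfix huniq φ0 hφ1 hφinv hφN h8
  exact Cfsg.Agent.Lib.H69G4LinFin.lin_final H hcf h7 f hf

theorem arith {d : ℕ} (hd : d ∣ 20160) (h5 : ¬ 5 ∣ d) (h7 : ¬ 7 ∣ d) : d ∣ 2 ^ 6 * 3 ^ 2 := by
  have h1 : d ∣ (2 ^ 6 * 3 ^ 2 * 7) * 5 := by simpa using hd
  have c5 : Nat.Coprime d 5 := ((Nat.Prime.coprime_iff_not_dvd (by norm_num)).2 h5).symm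
  have h2 : d ∣ (2 ^ 6 * 3 ^ 2) * 7 := c5.dvd_of_dvd_mul_right h1
  have c7 : Nat.Coprime d 7 := ((Nat.Prime.coprime_iff_not_dvd (by norm_num)).2 h7).symm
  exact c7.dvd_of_dvd_mul_right h2

/-- Let H be a nontrivial subgroup of GL(4,2) (a group isomorphic to the alternating group of degree 8) whose largest normal 2-subgroup and largest normal subgroup of odd order are both trivial. Then H is isomorphic to an alternating group of degree n for some 5 ≤ n ≤ 8, to the symmetric group of degree 5 or 6, or to GL(3,2). -/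
theorem result (H : Subgroup (GL (Fin 4) (ZMod 2))) (hH : H ≠ ⊥) (hO : Cfsg.pPrimeCore 2 ↥H = ⊥) (hO2 : Cfsg.pCore 2 ↥H = ⊥) :
    (∃ n : ℕ, 5 ≤ n ∧ n ≤ 8 ∧ Nonempty (↥H ≃* alternatingGroup (Fin n))) ∨
    Nonempty (↥H ≃* Equiv.Perm (Fin 5)) ∨ Nonempty (↥H ≃* Equiv.Perm (Fin 6)) ∨ Nonempty (↥H ≃* GL (Fin 3) (ZMod 2)) := by
  have hcf : CF H := CF.of_cores hO hO2
  by_cases h5 : 5 ∣ Nat.card H
  · obtain ⟨e⟩ := Cfsg.Agent.Lib.H69G4GL3.gl4_equiv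
    let φ : GL (Fin 4) (ZMod 2) →* Perm (Fin 8) :=
      (alternatingGroup (Fin 8)).subtype.comp e.toMonoidHom
    have hφ : Function.Injective φ := Subtype.val_injective.comp e.injective
    let K : Subgroup (Perm (Fin 8)) := H.map φ
    let eK : H ≃* K := H.equivMapOfInjective φ hφ
    have hK : K ≤ alternatingGroup (Fin 8) := by
      rintro _ ⟨h, -, rfl⟩
      exact (e h).2
    have hcfK : CF K := Cfsg.Agent.Lib.H69G4Congr.cf_congr eK hcf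
    have h5K : 5 ∣ Nat.card K := by rwa [← Nat.card_congr eK.toEquiv]
    rcases perm_main K hK hcfK h5K with ⟨n, h1, h2, ⟨e'⟩⟩ | ⟨⟨e'⟩⟩ | ⟨⟨e'⟩⟩
    · exact Or.inl ⟨n, h1, h2, ⟨eK.trans e'⟩⟩
    · exact Or.inr (Or.inl ⟨eK.trans e'⟩)
    · exact Or.inr (Or.inr (Or.inl ⟨eK.trans e'⟩))
  · by_cases h7 : 7 ∣ Nat.card H
    · exact Or.inr (Or.inr (Or.inr (lin_main H hcf h7 h5)))
    · exfalso
      have hd : Nat.card H ∣ 20160 := by
        rw [← Cfsg.Agent.Lib.H69G4GL3.card_GL4]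
        exact Subgroup.card_subgroup_dvd_card H
      have hs : Group.IsSolvable H := Cfsg.Agent.Lib.H69G4Ord.solvable_of_dvd 2 3 6 2 Nat.prime_two
        Nat.prime_three (arith hd h5 h7)
      exact Cfsg.Agent.Lib.H69G4Solv.not_solvable hcf ((Subgroup.nontrivial_iff_ne_bot H).2 hH) hs

end Cfsg.Agent.S2553
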