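import Cfsg.Statements.S2686
import Cfsg.Agent.Lib.Helper42LBMain

set_option autoImplicit false
open Cfsg

namespace Cfsg.Agent.S2686

/-- A criterion for the failure of local balance in almost simple groups with linear socle. Let F be a finite field of characteristic r and K = PSL_n(F) (n ≥ 2) simple. Let A be a group of automorphisms of K containing all inner automorphisms (an almost simple group with socle K), and β ∈ A an automorphism of prime order p ≠ r that is not inner-diagonal (not induced by conjugation by an invertible matrix). Then the largest normal subgroup of C_A(β) of order prime to p is nontrivial if and only if β is the composite of an inner-diagonal automorphism with the automorphism induced by a field automorphism applied entrywise (β is of field type) and p does not divide the number of fixed points of β on K. -/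
theorem result
    (F : Type*) [Field F] [Fintype F] (r : ℕ) [Fact r.Prime] [CharP F r] (n : ℕ) (hn : 2 ≤ n)
    (hK : IsSimpleGroup (Matrix.ProjectiveSpecialLinearGroup (Fin n) F))
    (𝒢 : Subgroup (MulAut (Matrix.ProjectiveSpecialLinearGroup (Fin n) F))) (hinn : ∀ k : Matrix.ProjectiveSpecialLinearGroup (Fin n) F, MulAut.conj k ∈ 𝒢)
    (p : ℕ) [Fact p.Prime] (hpr : p ≠ r) (β : MulAut (Matrix.ProjectiveSpecialLinearGroup (Fin n) F)) (hβ : β ∈ 𝒢) (hord : orderOf β = p)
    (hnot : ¬ Cfsg.IsInnerDiagonalAutPSL β) :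
    Cfsg.pPrimeCore p ↥(𝒢 ⊓ Subgroup.centralizer {β}) ≠ ⊥ ↔
      ((∃ γ φ : MulAut (Matrix.ProjectiveSpecialLinearGroup (Fin n) F), Cfsg.IsInnerDiagonalAutPSL γ ∧ Cfsg.IsFieldAutPSL φ ∧ β = φ.trans γ) ∧
        Nat.Coprime p (Nat.card ↥(MonoidHom.eqLocus β.toMonoidHom (MonoidHom.id (Matrix.ProjectiveSpecialLinearGroup (Fin n) F))))) := by
  classical
  open Cfsg.Agent.Lib.Helper50Aut Cfsg.Agent.Lib.Helper50AutStr Cfsg.Agent.Lib.Helper50Twist
    Cfsg.Agent.Lib.Helper42BalA Cfsg.Agent.Lib.Helper42LBMain in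
  have hp : p.Prime := Fact.out
  have hβp : β ^ p = 1 := by rw [← hord]; exact pow_orderOf_eq_one β
  have hfin : Finite (MulAut (Matrix.ProjectiveSpecialLinearGroup (Fin n) F)) :=
    Finite.of_injective (fun β : MulAut (Matrix.ProjectiveSpecialLinearGroup (Fin n) F) =>
      (β : Matrix.ProjectiveSpecialLinearGroup (Fin n) F → Matrix.ProjectiveSpecialLinearGroup (Fin n) F))
      (fun a b h => MulEquiv.ext (congrFun h))
  -- transport along conjugation by `c`
  have transport : ∀ (c φ : MulAut (Matrix.ProjectiveSpecialLinearGroup (Fin n) F)),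
      β = c * φ * c⁻¹ →
      ∃ A : Subgroup (MulAut (Matrix.ProjectiveSpecialLinearGroup (Fin n) F)),
        (∀ k, MulAut.conj k ∈ A) ∧
        (Cfsg.pPrimeCore p ↥(𝒢 ⊓ Subgroup.centralizer {β}) ≠ ⊥ ↔
          Cfsg.pPrimeCore p ↥(A ⊓ Subgroup.centralizer {φ}) ≠ ⊥) ∧
        Nat.card ↥(MonoidHom.eqLocus β.toMonoidHom
          (MonoidHom.id (Matrix.ProjectiveSpecialLinearGroup (Fin n) F))) =
        Nat.card ↥(MonoidHom.eqLocus φ.toMonoidHom
          (MonoidHom.id (Matrix.ProjectiveSpecialLinearGroup (Fin n) F))) := by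
    intro c φ hc
    have hconj : c⁻¹ * β * (c⁻¹)⁻¹ = φ := by rw [hc]; group
    obtain ⟨e⟩ := cent_equiv 𝒢 c⁻¹ β
    rw [hconj] at e
    refine ⟨_, ?_, core_ne_bot_congr p e, by rw [hc, card_fix_conj]⟩
    intro k
    refine ⟨MulAut.conj (c k), hinn _, ?_⟩
    show c⁻¹ * MulAut.conj (c k) * (c⁻¹)⁻¹ = MulAut.conj k
    ext y
    simp only [MulAut.mul_apply, MulAut.conj_apply, inv_inv, map_mul, map_inv,
      MulAut.inv_apply_self]
  -- the field case
  have fieldcase : ∀ (g : GL (Fin n) F) (σ : F ≃+* F), β = cHom g * fHom σ →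
      (Cfsg.pPrimeCore p ↥(𝒢 ⊓ Subgroup.centralizer {β}) ≠ ⊥ ↔
      ((∃ γ φ : MulAut (Matrix.ProjectiveSpecialLinearGroup (Fin n) F), Cfsg.IsInnerDiagonalAutPSL γ ∧ Cfsg.IsFieldAutPSL φ ∧ β = φ.trans γ) ∧
        Nat.Coprime p (Nat.card ↥(MonoidHom.eqLocus β.toMonoidHom (MonoidHom.id (Matrix.ProjectiveSpecialLinearGroup (Fin n) F)))))) := by
    intro g σ hx
    have hσ1 : σ ≠ 1 := by
      rintro rfl
      apply hnot
      rw [isInnerDiagonal_iff]
      exact ⟨g, by rw [hx, map_one, mul_one]⟩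
    have hσp : σ ^ p = 1 := by
      have h1 := hβp
      rw [hx, pow_cHom_fHom, ← map_pow] at h1
      exact (cHom_mul_fHom_eq_one hn _ _ h1).1
    have hσo : orderOf σ = p := orderOf_eq_prime hσp hσ1
    obtain ⟨h, hh⟩ := field_conj hn σ p hσo hp.pos g (by rw [← hx]; exact hβp)
    rw [← hx] at hh
    obtain ⟨A, hA, e1, e2⟩ := transport (cHom h) (fHom σ) hh
    have hty : ∃ γ φ : MulAut (Matrix.ProjectiveSpecialLinearGroup (Fin n) F),
        Cfsg.IsInnerDiagonalAutPSL γ ∧ Cfsg.IsFieldAutPSL φ ∧ β = φ.trans γ :=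
      ⟨cHom g, fHom σ, (isInnerDiagonal_iff _).2 ⟨g, rfl⟩, ⟨σ, (isStdField_iff σ _).2 rfl⟩, hx⟩
    rw [e1, field_case r hn σ p hpr hσo A hA, e2]
    exact ⟨fun h => ⟨hty, h⟩, fun h => h.2⟩
  -- reduction of the other cases
  have graphcase : ∀ (c φ : MulAut (Matrix.ProjectiveSpecialLinearGroup (Fin n) F)), p = 2 →
      β = c * φ * c⁻¹ →
      (∀ A : Subgroup (MulAut (Matrix.ProjectiveSpecialLinearGroup (Fin n) F)),
        (∀ k, MulAut.conj k ∈ A) →
        Cfsg.pPrimeCore 2 ↥(A ⊓ Subgroup.centralizer {φ}) = ⊥ ∧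
        ¬ Nat.Coprime 2 (Nat.card ↥(MonoidHom.eqLocus φ.toMonoidHom
          (MonoidHom.id (Matrix.ProjectiveSpecialLinearGroup (Fin n) F))))) →
      (Cfsg.pPrimeCore p ↥(𝒢 ⊓ Subgroup.centralizer {β}) ≠ ⊥ ↔
      ((∃ γ φ : MulAut (Matrix.ProjectiveSpecialLinearGroup (Fin n) F), Cfsg.IsInnerDiagonalAutPSL γ ∧ Cfsg.IsFieldAutPSL φ ∧ β = φ.trans γ) ∧
        Nat.Coprime p (Nat.card ↥(MonoidHom.eqLocus β.toMonoidHom (MonoidHom.id (Matrix.ProjectiveSpecialLinearGroup (Fin n) F)))))) := by
    intro c φ hp2 hc hmain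
    subst hp2
    obtain ⟨A, hA, e1, e2⟩ := transport c φ hc
    obtain ⟨m1, m2⟩ := hmain A hA
    rw [e1, e2]
    exact ⟨fun h => absurd m1 h, fun h => absurd h.2 m2⟩
  rcases hn.eq_or_lt with rfl | hn3
  · obtain ⟨g, σ, hx⟩ := aut_psl_two β
    exact fieldcase g σ hx
  have hn3 : 3 ≤ n := hn3
  obtain ⟨g, σ, hx | hx⟩ := aut_psl' hn β
  · exact fieldcase g σ hx
  -- `β = cHom g * fHom σ * iota`
  have hsq : β * β = cHom (g * gmap σ (invTGL g)) * fHom (σ * σ) := by
    rw [hx, map_mul, map_mul]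
    calc cHom g * fHom σ * iota * (cHom g * fHom σ * iota)
        = cHom g * fHom σ * (iota * cHom g) * fHom σ * iota := by simp only [mul_assoc]
      _ = cHom g * (fHom σ * cHom (invTGL g)) * (iota * fHom σ) * iota := by
          rw [iota_mul_cHom]; simp only [mul_assoc]
      _ = cHom g * cHom (gmap σ (invTGL g)) * (fHom σ * fHom σ) * (iota * iota) := by
          rw [fHom_mul_cHom, iota_mul_fHom]; simp only [mul_assoc]
      _ = _ := by rw [iota_mul_self, mul_one]
  have hp2 : p = 2 := by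
    by_contra hne
    obtain ⟨k, hk⟩ := hp.odd_of_ne_two hne
    have h1 : (β * β) ^ k * β = 1 := by
      rw [← pow_two, ← pow_mul, ← pow_succ, ← hk, hβp]
    rw [hsq, pow_cHom_fHom, ← map_pow] at h1
    rw [hx] at h1
    have h2 : cHom (NkGL (σ * σ) (g * gmap σ (invTGL g)) k * gmap ((σ * σ) ^ k) g)
        * fHom ((σ * σ) ^ k * σ) = (iota : MulAut (Matrix.ProjectiveSpecialLinearGroup (Fin n) F)) := by
      rw [map_mul, map_mul]
      calc cHom (NkGL (σ * σ) (g * gmap σ (invTGL g)) k) * cHom (gmap ((σ * σ) ^ k) g)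
            * (fHom ((σ * σ) ^ k) * fHom σ)
          = cHom (NkGL (σ * σ) (g * gmap σ (invTGL g)) k) * (cHom (gmap ((σ * σ) ^ k) g)
            * fHom ((σ * σ) ^ k)) * fHom σ := by simp only [mul_assoc]
        _ = (cHom (NkGL (σ * σ) (g * gmap σ (invTGL g)) k) * fHom ((σ * σ) ^ k)
            * (cHom g * fHom σ * iota)) * iota := by
            rw [← fHom_mul_cHom]
            simp only [mul_assoc]
            rw [iota_mul_self, mul_one]
        _ = iota := by rw [h1, one_mul]
    exact cHom_mul_fHom_ne_iota hn3 _ _ h2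
  have hββ : β * β = 1 := by rw [← pow_two, ← hp2, hβp]
  have h2F : (2 : F) ≠ 0 := by
    intro h0
    have h3 : ((2 : ℕ) : F) = 0 := by exact_mod_cast h0
    rw [CharP.cast_eq_zero_iff F r] at h3
    have := (Nat.prime_dvd_prime_iff_eq (Fact.out : r.Prime) Nat.prime_two).1 h3
    exact hpr (by rw [hp2, this])
  obtain ⟨hσσ, hcen⟩ := cHom_mul_fHom_eq_one hn _ _ (hsq.symm.trans hββ)
  by_cases hσ1 : σ = 1
  · subst hσ1
    have hx' : β = cHom g * iota := by rw [hx, map_one, mul_one]
    rw [Matrix.GeneralLinearGroup.mem_center_iff_val_mem_range_scalar] at hcen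
    obtain ⟨z, hz⟩ := hcen
    have e1 : (g : Matrix (Fin n) (Fin n) F) * ((g⁻¹ : GL (Fin n) F) : Matrix (Fin n) (Fin n) F).transpose
        = Matrix.scalar (Fin n) z := by
      rw [hz]
      rfl
    have e2 : (g : Matrix (Fin n) (Fin n) F) = z • (g : Matrix (Fin n) (Fin n) F).transpose := by
      have h5 : ((g⁻¹ : GL (Fin n) F) : Matrix (Fin n) (Fin n) F).transpose
          * (g : Matrix (Fin n) (Fin n) F).transpose = 1 := by
        rw [← Matrix.transpose_mul, gl_mul_inv, Matrix.transpose_one]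
      calc (g : Matrix (Fin n) (Fin n) F)
          = (g : Matrix (Fin n) (Fin n) F) * ((g⁻¹ : GL (Fin n) F) : Matrix (Fin n) (Fin n) F).transpose
            * (g : Matrix (Fin n) (Fin n) F).transpose := by rw [mul_assoc, h5, mul_one]
        _ = _ := by
            rw [e1]
            ext a b
            simp [Matrix.scalar_apply, Matrix.diagonal_mul]
    have e3 : (g : Matrix (Fin n) (Fin n) F) = (z * z) • (g : Matrix (Fin n) (Fin n) F) := by
      have h6 : (g : Matrix (Fin n) (Fin n) F).transpose = z • (g : Matrix (Fin n) (Fin n) F) := by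
        conv_lhs => rw [e2]
        rw [Matrix.transpose_smul, Matrix.transpose_transpose]
      conv_lhs => rw [e2, h6]
      rw [smul_smul]
    have hzz : z * z = 1 := by
      have h7 := congrArg (· * ((g⁻¹ : GL (Fin n) F) : Matrix (Fin n) (Fin n) F)) e3
      simp only [Matrix.smul_mul, gl_mul_inv] at h7
      have h8 := congrFun (congrFun h7 ⟨0, by omega⟩) ⟨0, by omega⟩
      simpa using h8.symm
    have hφ2 : (cHom g * iota : MulAut (Matrix.ProjectiveSpecialLinearGroup (Fin n) F))
        * (cHom g * iota) = 1 := by rw [← hx']; exact hββ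
    rcases mul_self_eq_one_iff.1 hzz with rfl | rfl
    · apply graphcase 1 (cHom g * iota) hp2 (by rw [hx']; group)
      intro A hA
      exact orth_case hn3 h2F g (by conv_rhs => rw [e2]
                                    rw [one_smul]) hφ2 A hA
    · apply graphcase 1 (cHom g * iota) hp2 (by rw [hx']; group)
      intro A hA
      refine symp_case hn3 h2F g ?_ hφ2 A hA
      conv_rhs => rw [e2]
      rw [neg_smul, one_smul, neg_neg]
  · have hx' : β = cHom g * (fHom σ * iota) := by rw [hx, mul_assoc]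
    obtain ⟨h, hh⟩ := graphfield_conj hn σ hσ1 hσσ g (by rw [← hx', pow_two]; exact hββ)
    rw [← hx'] at hh
    apply graphcase (cHom h) (fHom σ * iota) hp2 hh
    intro A hA
    exact uni_case hn3 h2F σ hσ1 hσσ A hA

end Cfsg.Agent.S2686
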