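import Cfsg.Statements.S2687
import Cfsg.Agent.Lib.Helper42LBUMain
import Cfsg.Agent.Lib.Helper50GF
import Cfsg.Agent.S0282
import Cfsg.Agent.S0827

set_option autoImplicit false
open Cfsg

namespace Cfsg.Agent.S2687

/-- A criterion for the failure of local balance in almost simple groups with unitary socle. Let F be a finite field of characteristic r with q² elements and K = PSU_n(q) (n ≥ 3, the central quotient of the determinant-one isometries of the standard Hermitian form) simple. Let A be a group of automorphisms of K containing all inner automorphisms, and β ∈ A an automorphism of prime order p ≠ r that is not inner-diagonal (not induced by conjugation by a matrix of the general unitary group). Then the largest normal subgroup of C_A(β) of order prime to p is nontrivial if and only if β is the composite of an inner-diagonal automorphism with the automorphism induced by a field automorphism of F applied entrywise and p does not divide the number of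 fixed points of β on K. -/
theorem result
    (F : Type*) [Field F] [Fintype F] (r : ℕ) [Fact r.Prime] [CharP F r] (q : ℕ) (hF : Fintype.card F = q ^ 2)
    (n : ℕ) (hn : 3 ≤ n) (hK : IsSimpleGroup (Cfsg.PSU n F q))
    (𝒢 : Subgroup (MulAut (Cfsg.PSU n F q))) (hinn : ∀ k : Cfsg.PSU n F q, MulAut.conj k ∈ 𝒢)
    (p : ℕ) [Fact p.Prime] (hpr : p ≠ r) (β : MulAut (Cfsg.PSU n F q)) (hβ : β ∈ 𝒢) (hord : orderOf β = p)
    (hnot : ¬ Cfsg.IsInnerDiagonalAutPSU β) :
    Cfsg.pPrimeCore p ↥(𝒢 ⊓ Subgroup.centralizer {β}) ≠ ⊥ ↔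
      ((∃ γ φ : MulAut (Cfsg.PSU n F q), Cfsg.IsInnerDiagonalAutPSU γ ∧ (∃ σ : F ≃+* F, Cfsg.IsFieldAutPSUOf σ φ) ∧ β = φ.trans γ) ∧
        Nat.Coprime p (Nat.card ↥(MonoidHom.eqLocus β.toMonoidHom (MonoidHom.id (Cfsg.PSU n F q))))) := by
  classical
  open Cfsg.Agent.Lib.Helper50Aut Cfsg.Agent.Lib.Helper50UAut Cfsg.Agent.Lib.Helper50UOut
    Cfsg.Agent.Lib.Helper50UTw Cfsg.Agent.Lib.Helper42BalA Cfsg.Agent.Lib.Helper42LBUMain in
  have hp : p.Prime := Fact.out
  have hr : r.Prime := Fact.out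
  have hβp : β ^ p = 1 := by rw [← hord]; exact pow_orderOf_eq_one β
  have hfin : Finite (MulAut (Cfsg.PSU n F q)) :=
    Finite.of_injective (fun β : MulAut (Cfsg.PSU n F q) => (β : Cfsg.PSU n F q → Cfsg.PSU n F q))
      (fun a b h => MulEquiv.ext (congrFun h))
  have hs : ¬ (n = 3 ∧ q = 2) := by
    rintro ⟨rfl, rfl⟩
    have hF4 : Fintype.card F = 4 := by rw [hF]; norm_num
    obtain ⟨N, hN, hN9, -, -⟩ := Cfsg.Agent.S0827.result hF4
    have h72 := (Cfsg.Agent.S0282.result hF4).1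
    rcases hN.eq_bot_or_eq_top with h | h
    · rw [h, Subgroup.card_bot] at hN9; omega
    · rw [h, Subgroup.card_top, h72] at hN9; omega
  -- `q` is a power of `r`
  obtain ⟨f, hq⟩ : ∃ f : ℕ, q = r ^ f := by
    obtain ⟨m, -, hm⟩ := FiniteField.card F r
    have h1 : q ∣ r ^ (m : ℕ) := by rw [← hm, hF]; exact Dvd.intro_left _ (by ring)
    obtain ⟨k, -, hk⟩ := (Nat.dvd_prime_pow hr).1 h1
    exact ⟨k, hk⟩
  have hF' : Fintype.card F = r ^ (2 * f) := by rw [hF, hq, ← pow_mul, mul_comm]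
  have hf0 : f ≠ 0 := by
    rintro rfl
    rw [mul_zero, pow_zero] at hF'
    exact absurd hF' (Fintype.one_lt_card).ne'
  obtain ⟨-, hcardAut⟩ := Cfsg.Agent.Lib.Helper50Out.ringAut_cyclic_card hF'
  have hfinA : Finite (F ≃+* F) :=
    Finite.of_injective (fun τ : F ≃+* F => (τ : F → F)) DFunLike.coe_injective
  -- transport along conjugation by `c`
  have transport : ∀ (c φ : MulAut (Cfsg.PSU n F q)), β = c * φ * c⁻¹ →
      ∃ A : Subgroup (MulAut (Cfsg.PSU n F q)), (∀ k, MulAut.conj k ∈ A) ∧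
        (Cfsg.pPrimeCore p ↥(𝒢 ⊓ Subgroup.centralizer {β}) ≠ ⊥ ↔
          Cfsg.pPrimeCore p ↥(A ⊓ Subgroup.centralizer {φ}) ≠ ⊥) ∧
        Nat.card ↥(MonoidHom.eqLocus β.toMonoidHom (MonoidHom.id (Cfsg.PSU n F q))) =
        Nat.card ↥(MonoidHom.eqLocus φ.toMonoidHom (MonoidHom.id (Cfsg.PSU n F q))) := by
    intro c φ hc
    have hconj : c⁻¹ * β * (c⁻¹)⁻¹ = φ := by rw [hc]; group
    obtain ⟨e⟩ := cent_equiv 𝒢 c⁻¹ β
    rw [hconj] at e
    refine ⟨_, ?_, core_ne_bot_congr p e, by rw [hc, card_fix_conj]⟩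
    intro k
    refine ⟨MulAut.conj (c k), hinn _, ?_⟩
    show c⁻¹ * MulAut.conj (c k) * (c⁻¹)⁻¹ = MulAut.conj k
    ext y
    simp only [MulAut.mul_apply, MulAut.conj_apply, inv_inv, map_mul, map_inv,
      MulAut.inv_apply_self]
  obtain ⟨g, τ, hx⟩ := aut_psu hF hn hs β
  have hty : ∃ γ φ : MulAut (Cfsg.PSU n F q), Cfsg.IsInnerDiagonalAutPSU γ ∧
      (∃ σ : F ≃+* F, Cfsg.IsFieldAutPSUOf σ φ) ∧ β = φ.trans γ :=
    ⟨cU g, fU τ, (isInnerDiagonal_iff _).2 ⟨g, rfl⟩, ⟨τ, (isField_iff τ _).2 rfl⟩, hx⟩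
  have hτ1 : τ ≠ 1 := by
    rintro rfl
    apply hnot
    rw [isInnerDiagonal_iff]
    exact ⟨g, by rw [hx, map_one, mul_one]⟩
  have hpow : cU (NkGU τ g p) * fU (τ ^ p) = (1 : MulAut (Cfsg.PSU n F q)) := by
    have h1 := hβp
    rw [hx, pow_cU_fU, ← map_pow] at h1
    exact h1
  have hτp : τ ^ p = 1 := (cU_mul_fU_eq_one hF hn _ _ hpow).1
  have hτo : orderOf τ = p := orderOf_eq_prime hτp hτ1
  have hp2f : p ∣ 2 * f := by rw [← hτo, ← hcardAut]; exact orderOf_dvd_natCard τ
  by_cases hp2 : p = 2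
  · -- graph type
    subst hp2
    have h2F : (2 : F) ≠ 0 := by
      intro h0
      have h3 : ((2 : ℕ) : F) = 0 := by exact_mod_cast h0
      rw [CharP.cast_eq_zero_iff F r] at h3
      exact hpr ((Nat.prime_dvd_prime_iff_eq hr Nat.prime_two).1 h3).symm
    have hτq : ∀ a, τ a = a ^ q :=
      Cfsg.Agent.Lib.Helper50GF.involution_eq_pow hF τ hτ1 (by rw [← pow_two]; exact hτp)
    have : Fintype (GaloisField r f) := Fintype.ofFinite _
    have hF₀ : Fintype.card (GaloisField r f) = r ^ (2 * f / 2) := by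
      rw [Nat.mul_div_cancel_left _ (by norm_num), ← Nat.card_eq_fintype_card, GaloisField.card r f hf0]
    obtain ⟨j, hj⟩ := Cfsg.Agent.Lib.Helper50Cent.exists_embedding hF' τ hτo (GaloisField r f) hF₀
    obtain ⟨c, hc⟩ := (cU_mul_fU_eq_one hF hn _ _ hpow).2
    have e1 : (g.1 : Matrix (Fin n) (Fin n) F) * (g.1 : Matrix (Fin n) (Fin n) F).map τ
        = c • (1 : Matrix (Fin n) (Fin n) F) := by
      have h5 := coe_eq_smul_one _ c hc
      rw [NkGU_coe] at h5
      simpa [Cfsg.Agent.Lib.Helper50H90.NkM] using h5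
    have hU : (g.1 : Matrix (Fin n) (Fin n) F).transpose * (g.1 : Matrix (Fin n) (Fin n) F).map τ = 1 := by
      have h6 := isU_coe hF g
      unfold Cfsg.Agent.Lib.Helper7GU.IsU at h6
      have h7 : (g.1 : Matrix (Fin n) (Fin n) F).map τ
          = (g.1 : Matrix (Fin n) (Fin n) F).map (fun x => x ^ q) := by
        ext a b
        exact hτq _
      rw [h7]; exact h6
    have hU' : (g.1 : Matrix (Fin n) (Fin n) F).map τ * (g.1 : Matrix (Fin n) (Fin n) F).transpose = 1 :=
      mul_eq_one_comm.1 hU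
    have e2 : (g.1 : Matrix (Fin n) (Fin n) F) = c • (g.1 : Matrix (Fin n) (Fin n) F).transpose := by
      calc (g.1 : Matrix (Fin n) (Fin n) F)
          = (g.1 : Matrix (Fin n) (Fin n) F) * (g.1 : Matrix (Fin n) (Fin n) F).map τ
            * (g.1 : Matrix (Fin n) (Fin n) F).transpose := by rw [mul_assoc, hU', mul_one]
        _ = _ := by rw [e1, Matrix.smul_mul, one_mul]
    have e3 : (g.1 : Matrix (Fin n) (Fin n) F) = (c * c) • (g.1 : Matrix (Fin n) (Fin n) F) := by
      have h6 : (g.1 : Matrix (Fin n) (Fin n) F).transpose = c • (g.1 : Matrix (Fin n) (Fin n) F) := by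
        conv_lhs => rw [e2]
        rw [Matrix.transpose_smul, Matrix.transpose_transpose]
      conv_lhs => rw [e2, h6]
      rw [smul_smul]
    have hcc : c * c = 1 := by
      have h7 := congrArg (· * ((g.1⁻¹ : GL (Fin n) F) : Matrix (Fin n) (Fin n) F)) e3
      simp only [Matrix.smul_mul, gl_mul_inv] at h7
      have h8 := congrFun (congrFun h7 ⟨0, by omega⟩) ⟨0, by omega⟩
      simpa using h8.symm
    have hφ2 : (cU g * fU τ : MulAut (Cfsg.PSU n F q)) ^ 2 = 1 := by rw [← hx]; exact hβp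
    have key : Cfsg.pPrimeCore 2 ↥(𝒢 ⊓ Subgroup.centralizer {β}) = ⊥ ∧
        ¬ Nat.Coprime 2 (Nat.card ↥(MonoidHom.eqLocus β.toMonoidHom
          (MonoidHom.id (Cfsg.PSU n F q)))) := by
      rw [hx]
      rcases mul_self_eq_one_iff.1 hcc with rfl | rfl
      · exact orth_case_U hF hn hs h2F τ hτq j hj g (by conv_rhs => rw [e2]
                                                        rw [one_smul]) hφ2 𝒢 hinn
      · refine symp_case_U hF hn hs h2F τ hτq j hj g ?_ hφ2 𝒢 hinn
        conv_rhs => rw [e2]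
        rw [neg_smul, one_smul, neg_neg]
    exact ⟨fun h => absurd key.1 h, fun h => absurd h.2 key.2⟩
  · -- field type
    have hodd : Odd p := hp.odd_of_ne_two hp2
    have hpf : p ∣ f :=
      (Nat.Coprime.dvd_of_dvd_mul_left (Nat.Coprime.symm (Nat.coprime_two_left.2 hodd)) hp2f)
    have hfp : 2 * (f / p) ≠ 0 := by
      have : 0 < f / p := Nat.div_pos (Nat.le_of_dvd (Nat.pos_of_ne_zero hf0) hpf) hp.pos
      omega
    have : Fintype (GaloisField r (2 * (f / p))) := Fintype.ofFinite _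
    have hF₀ : Fintype.card (GaloisField r (2 * (f / p))) = r ^ (2 * (f / p)) := by
      rw [← Nat.card_eq_fintype_card, GaloisField.card r _ hfp]
    obtain ⟨-, hF₀', j, hj, hjq⟩ := field_data hq hF τ hτo hodd (GaloisField r (2 * (f / p))) hF₀
    obtain ⟨h, hh⟩ := field_conj_U hF hF₀' j hjq hn τ p hτo hp.pos hj g (by rw [← hx]; exact hβp)
    rw [← hx] at hh
    obtain ⟨A, hA, e1, e2⟩ := transport (cU h) (fU τ) hh
    rw [e1, field_case_U hF hF₀' hn hs τ j hj hjq p hp2 hτo A hA, e2]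
    exact ⟨fun h => ⟨hty, h⟩, fun h => h.2⟩

end Cfsg.Agent.S2687
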