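import Cfsg.Statements.S2730
import Cfsg.Agent.Lib.Helper42BalB
import Cfsg.Agent.Lib.Helper42AutSpL

set_option autoImplicit false
open Cfsg

namespace Cfsg.Agent.S2730

/-- A criterion for the failure of local balance in almost simple groups whose socle is a projective symplectic group PSp_{2m}(F) (m ≥ 2, (2m, |F|) ≠ (4, 2)). Let F be a finite field of characteristic r and K the (simple) group in question; let A be a group of automorphisms of K containing all inner automorphisms, and x ∈ A an automorphism of prime order p ≠ r that is not inner-diagonal (not induced by a conformal symplectic matrix). Then the largest normal subgroup of C_A(x) of order prime to p is nontrivial if and only if x is a field automorphism of K (conjugate under Aut(K) to a non-identity standard field automorphism) and p does not divide the number of fixed points of x on K. -/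
theorem result {F : Type*} [Field F] [Fintype F] {r : ℕ} [Fact r.Prime] [CharP F r] {m : ℕ} (hm : 2 ≤ m) (hs : m = 2 → 3 ≤ Fintype.card F) (hK : IsSimpleGroup (Cfsg.PSp m F)) (A : Subgroup (MulAut (Cfsg.PSp m F))) (hinn : ∀ k : Cfsg.PSp m F, MulAut.conj k ∈ A) {p : ℕ} [Fact p.Prime] (hpr : p ≠ r) (x : MulAut (Cfsg.PSp m F)) (hxA : x ∈ A) (hord : orderOf x = p) (hnot : ¬ Cfsg.IsInnerDiagonalAutPSp x) :
    Cfsg.pPrimeCore p ↥(A ⊓ Subgroup.centralizer {x}) ≠ ⊥ ↔ (Cfsg.IsFieldAutClassPSp x ∧ Nat.Coprime p (Nat.card ↥(MonoidHom.eqLocus x.toMonoidHom (MonoidHom.id (Cfsg.PSp m F))))) := by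
  classical
  open Cfsg.Agent.Lib.Helper42AutSpJ Cfsg.Agent.Lib.Helper42AutSpK Cfsg.Agent.Lib.Helper42AutSpL
    Cfsg.Agent.Lib.Helper42AutSpCount Cfsg.Agent.Lib.Helper42BalA Cfsg.Agent.Lib.Helper42BalB in
  have hp : p.Prime := Fact.out
  have hxp : x ^ p = 1 := by rw [← hord]; exact pow_orderOf_eq_one x
  -- x lies in PΓSp
  have hPG : x ∈ PG m F := by
    by_cases h4 : m = 2 → r ≠ 2
    · rw [PG_eq_top r hm h4]; trivial
    · push Not at h4
      obtain ⟨rfl, rfl⟩ := h4
      have hodd : Odd p := hp.odd_of_ne_two hpr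
      obtain ⟨n, hn⟩ := hodd
      have h1 : x = x ^ (n + 1) * x ^ (n + 1) := by
        rw [← pow_add, show n + 1 + (n + 1) = p + 1 by omega, pow_succ, hxp, one_mul]
      rw [h1]
      exact Subgroup.mul_self_mem_of_index_two Cfsg.Agent.Lib.Helper42Sp4Aut.index_PG _
  obtain ⟨g, σ, hx⟩ := (mem_PG r hm x).1 hPG
  rw [aut_eq] at hx
  have hσ1 : σ ≠ 1 := by
    rintro rfl
    apply hnot
    rw [isInnerDiagonal_iff]
    exact ⟨g, by rw [hx, map_one, mul_one]⟩
  have hσp : σ ^ p = 1 := by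
    have h1 := hxp
    rw [hx, pow_cHom_fHom, ← map_pow, ← aut_eq] at h1
    exact (aut_eq_one hm _ _ h1).1
  have hσo : orderOf σ = p := orderOf_eq_prime hσp hσ1
  obtain ⟨h, hh⟩ := field_conj hm σ p hσo hp.pos g (by rw [← hx]; exact hxp)
  rw [← hx] at hh
  have hconj : (cHom h)⁻¹ * x * ((cHom h : MulAut (Cfsg.PSp m F))⁻¹)⁻¹ = fHom σ := by
    rw [hh]; group
  have hclass : Cfsg.IsFieldAutClassPSp x :=
    ⟨(cHom h)⁻¹, σ, hσ1, (isStdField_iff σ _).2 hconj⟩
  obtain ⟨e⟩ := cent_equiv A (cHom h)⁻¹ x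
  rw [hconj] at e
  have hfinK : Finite (Cfsg.PSp m F) := inferInstance
  have hfin : Finite (MulAut (Cfsg.PSp m F)) :=
    Finite.of_injective (fun β : MulAut (Cfsg.PSp m F) => (β : Cfsg.PSp m F → Cfsg.PSp m F))
      (fun a b h => MulEquiv.ext (congrFun h))
  have hcard : Nat.card ↥(MonoidHom.eqLocus x.toMonoidHom (MonoidHom.id (Cfsg.PSp m F)))
      = Nat.card ↥(MonoidHom.eqLocus (fHom σ : MulAut (Cfsg.PSp m F)).toMonoidHom
        (MonoidHom.id (Cfsg.PSp m F))) := by
    rw [hh, card_fix_conj]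
  rw [core_ne_bot_congr p e, field_case r hm σ p hpr hσp, hcard]
  · exact ⟨fun h => ⟨hclass, h⟩, fun h => h.2⟩
  · intro k
    refine ⟨MulAut.conj (cHom h k), hinn _, ?_⟩
    show (cHom h)⁻¹ * MulAut.conj (cHom h k) * ((cHom h : MulAut (Cfsg.PSp m F))⁻¹)⁻¹ = MulAut.conj k
    ext y
    simp only [MulAut.mul_apply, MulAut.conj_apply, inv_inv, map_mul, map_inv,
      MulAut.inv_apply_self]

end Cfsg.Agent.S2730
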