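import Cfsg.Statements.S2731
import Cfsg.Agent.S2694
import Cfsg.Agent.Lib.Helper42BalO2

set_option autoImplicit false
open Cfsg

namespace Cfsg.Agent.S2731

open Cfsg.Agent.Lib.Helper49Forms Cfsg.Agent.Lib.Helper51OrthAut Cfsg.Agent.Lib.Helper51OrthIdx
  Cfsg.Agent.Lib.Helper18GamA Cfsg.Agent.Lib.Helper18GamB Cfsg.Agent.Lib.Helper18GamE
  Cfsg.Agent.Lib.Helper18GamF Cfsg.Agent.Lib.Helper18GamG Cfsg.Agent.Lib.Helper18GamH
  Cfsg.Agent.Lib.Helper42OLang Cfsg.Agent.Lib.Helper42OLangOdd Cfsg.Agent.Lib.Helper42BalA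
  Cfsg.Agent.Lib.Helper42BalO Cfsg.Agent.Lib.Helper42BalO2

set_option maxHeartbeats 1600000 in
theorem aux {F : Type*} [Field F] [Fintype F] (hodd : Odd (Fintype.card F)) {m : ℕ}
    (hm : 3 ≤ m) (q : (Unit ⊕ (Fin m ⊕ Fin m) → F) → F) (hq : ⇑(QOdd m F) = q)
    (A : Subgroup (MulAut (Cfsg.POmega F q))) (hinn : ∀ k : Cfsg.POmega F q, MulAut.conj k ∈ A)
    {p : ℕ} [Fact p.Prime] (x : MulAut (Cfsg.POmega F q)) (hord : orderOf x = p)
    (hnot : ¬ Cfsg.IsSimilarityInducedAutPOmega q x) :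
    Cfsg.pPrimeCore p ↥(A ⊓ Subgroup.centralizer {x}) ≠ ⊥ ↔
      (Cfsg.IsFieldAutClassPOmega q x ∧ Nat.Coprime p (Nat.card ↥(MonoidHom.eqLocus x.toMonoidHom
        (MonoidHom.id (Cfsg.POmega F q))))) := by
  subst hq
  have hp : p.Prime := Fact.out
  have hxp : x ^ p = 1 := by rw [← hord]; exact pow_orderOf_eq_one x
  have h2 : (2 : F) ≠ 0 := two_ne_zero_of_odd rfl hodd
  have hQ := Cfsg.Agent.Lib.Helper49OddForm.QOdd_nondegenerate h2 m
  have hcard : Fintype.card (Unit ⊕ (Fin m ⊕ Fin m)) = 2 * m + 1 := by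
    simp only [Fintype.card_sum, Fintype.card_fin, Fintype.card_unit]
    omega
  have hn : 5 ≤ Fintype.card (Unit ⊕ (Fin m ⊕ Fin m)) := by omega
  have htop : Cfsg.gammaPOmega F ⇑(QOdd m F) = ⊤ := by
    rw [coe_QOdd]
    exact Cfsg.Agent.S2694.result hodd hm
  have hsurj := sAut_surjective _ htop
  obtain ⟨X, hX⟩ := hsurj x
  obtain ⟨σ, hσX⟩ : ∃ σ, σ = (X : GamL (Unit ⊕ (Fin m ⊕ Fin m)) F).right := ⟨_, rfl⟩
  obtain ⟨g, hg⟩ := decomp X (comm_QOdd _)
  have hx : x = cAut ⇑(QOdd m F) g * fA (comm_QOdd σ) := by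
    rw [← hX, hg, map_mul, sAut_inlO, hσX]
    rfl
  have hσ1 : σ ≠ 1 := by
    intro h
    apply hnot
    refine ⟨g, g.2, (Cfsg.Agent.Lib.Helper51OrthAut.induced_iff _ g x).2 ?_⟩
    rw [hx, (fA_eq_one_iff hQ hn (comm_QOdd σ)).2 h, mul_one]
  have hσp : σ ^ p = 1 := by
    have h1 : sAut ⇑(QOdd m F) (X ^ p) = 1 := by rw [map_pow, hX, hxp]
    have h3 := right_eq_one _ hQ hn _ h1
    rw [Subgroup.coe_pow] at h3
    have h4 : ((X : GamL (Unit ⊕ (Fin m ⊕ Fin m)) F) ^ p).right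
        = (X : GamL (Unit ⊕ (Fin m ⊕ Fin m)) F).right ^ p :=
      map_pow SemidirectProduct.rightHom _ p
    rw [hσX, ← h4, h3]
  have hσo : orderOf σ = p := orderOf_eq_prime hσp hσ1
  -- the fixed field
  let F₀ := (σ : F →+* F).eqLocusField (RingHom.id F)
  let j : F₀ →+* F := F₀.subtype
  have hj : ∀ a, σ a = a ↔ a ∈ Set.range j := by
    intro a
    constructor
    · intro ha
      exact ⟨⟨a, ha⟩, rfl⟩
    · rintro ⟨b, rfl⟩
      exact b.2
  have hfin : Finite F₀ := Finite.of_injective j j.injective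
  have h2' : (2 : F₀) ≠ 0 := by
    intro h
    apply h2
    have := congrArg j h
    rw [map_ofNat, map_zero] at this
    exact this
  have hE : Ext (QOdd m F) (QOdd m F₀) j := by
    intro v
    rw [coe_QOdd, coe_QOdd]
    simp [Cfsg.quadFormOdd]
  obtain ⟨h, hh⟩ := field_conj_O hQ hn (comm_QOdd σ) hE hj p hσo hp.pos
    (fun Q₁ hQ₁ _ => sim_odd h2' Q₁ hQ₁) g (by rw [← hx]; exact hxp)
  rw [← hx] at hh
  have hconj : (cAut ⇑(QOdd m F) h)⁻¹ * x * ((cAut ⇑(QOdd m F) h)⁻¹)⁻¹ = fA (comm_QOdd σ) := by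
    rw [hh]; group
  have hclass : Cfsg.IsFieldAutClassPOmega ⇑(QOdd m F) x :=
    ⟨(cAut ⇑(QOdd m F) h)⁻¹, fA (comm_QOdd σ), σ, hσ1, (isField_iff (comm_QOdd σ) _).2 rfl, hconj⟩
  obtain ⟨e⟩ := cent_equiv A (cAut ⇑(QOdd m F) h)⁻¹ x
  rw [hconj] at e
  have hfinK : Finite (Cfsg.POmega F ⇑(QOdd m F)) := inferInstance
  have hfinA : Finite (MulAut (Cfsg.POmega F ⇑(QOdd m F))) :=
    Finite.of_injective (fun β : MulAut (Cfsg.POmega F ⇑(QOdd m F)) =>
      (β : Cfsg.POmega F ⇑(QOdd m F) → Cfsg.POmega F ⇑(QOdd m F)))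
      (fun a b h => MulEquiv.ext (congrFun h))
  have hcardfix : Nat.card ↥(MonoidHom.eqLocus x.toMonoidHom (MonoidHom.id (Cfsg.POmega F ⇑(QOdd m F))))
      = Nat.card ↥(MonoidHom.eqLocus (fA (comm_QOdd (m := m) σ)).toMonoidHom
        (MonoidHom.id (Cfsg.POmega F ⇑(QOdd m F)))) := by
    rw [hh, card_fix_conj]
  rw [core_ne_bot_congr p e, field_case_odd (by omega) h2 hsurj σ p hσp, hcardfix]
  · exact ⟨fun h => ⟨hclass, h⟩, fun h => h.2⟩
  · intro k
    refine ⟨MulAut.conj (cAut ⇑(QOdd m F) h k), hinn _, ?_⟩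
    show (cAut ⇑(QOdd m F) h)⁻¹ * MulAut.conj (cAut ⇑(QOdd m F) h k) * ((cAut ⇑(QOdd m F) h)⁻¹)⁻¹
      = MulAut.conj k
    ext y
    simp only [MulAut.mul_apply, MulAut.conj_apply, inv_inv, map_mul, map_inv,
      MulAut.inv_apply_self]

/-- A criterion for the failure of local balance in almost simple groups whose socle is an odd-dimensional orthogonal group Ω_{2m+1}(F) (m ≥ 3, |F| odd; the form x₀² + Σ xᵢ yᵢ). Let F be a finite field of characteristic r and K the (simple) group in question; let A be a group of automorphisms of K containing all inner automorphisms, and x ∈ A an automorphism of prime order p ≠ r that is not inner-diagonal (not induced by a similarity of the form). Then the largest normal subgroup of C_A(x) of order prime to p is nontrivial if and only if x is a field automorphism of K (conjugate under Aut(K) to a non-identity standard field automorphism) and p does not divide the number of fixed points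 of x on K. -/
theorem result {F : Type*} [Field F] [Fintype F] {r : ℕ} [Fact r.Prime] [CharP F r] (hodd : Odd (Fintype.card F)) {m : ℕ} (hm : 3 ≤ m) (hK : IsSimpleGroup (Cfsg.POmega F (Cfsg.quadFormOdd m F))) (A : Subgroup (MulAut (Cfsg.POmega F (Cfsg.quadFormOdd m F)))) (hinn : ∀ k : Cfsg.POmega F (Cfsg.quadFormOdd m F), MulAut.conj k ∈ A) {p : ℕ} [Fact p.Prime] (hpr : p ≠ r) (x : MulAut (Cfsg.POmega F (Cfsg.quadFormOdd m F))) (hxA : x ∈ A) (hord : orderOf x = p) (hnot : ¬ Cfsg.IsInnerDiagonalAutPOmegaOdd m x) :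
    Cfsg.pPrimeCore p ↥(A ⊓ Subgroup.centralizer {x}) ≠ ⊥ ↔ (Cfsg.IsFieldAutClassPOmega (Cfsg.quadFormOdd m F) x ∧ Nat.Coprime p (Nat.card ↥(MonoidHom.eqLocus x.toMonoidHom (MonoidHom.id (Cfsg.POmega F (Cfsg.quadFormOdd m F)))))) := by
  exact aux hodd hm _ (coe_QOdd m) A hinn x hord hnot

end Cfsg.Agent.S2731
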