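import Cfsg.Statements.S2733
import Cfsg.Agent.S2696
import Cfsg.Agent.Lib.Helper18BalN

set_option autoImplicit false
open Cfsg

namespace Cfsg.Agent.S2733

open Cfsg.Agent.Lib.Helper49Orth Cfsg.Agent.Lib.Helper49Forms Cfsg.Agent.Lib.Helper51OrthAut
  Cfsg.Agent.Lib.Helper51OrthIdx Cfsg.Agent.Lib.Helper51OrthIdx2 Cfsg.Agent.Lib.Helper51OrthInst
  Cfsg.Agent.Lib.Helper51OrthMinus2
  Cfsg.Agent.Lib.Helper18GamA Cfsg.Agent.Lib.Helper18GamB Cfsg.Agent.Lib.Helper18GamD
  Cfsg.Agent.Lib.Helper18GamF Cfsg.Agent.Lib.Helper18GamK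
  Cfsg.Agent.Lib.Helper18BalB Cfsg.Agent.Lib.Helper18BalM Cfsg.Agent.Lib.Helper18BalN
open scoped MatrixGroups

/-- the similitude case -/
theorem aux_graph {F : Type*} [Field F] [Fintype F] {r : ℕ} [Fact r.Prime] [CharP F r] {m : ℕ}
    (hm : 3 ≤ m) (a b : F) (hab : Aniso a b)
    (hsurj : Function.Surjective (sAut ⇑(QMinus m F a b)))
    {p : ℕ} [Fact p.Prime] (hpr : p ≠ r) (g : ↥(GO (QMinus m F a b)))
    (hord : orderOf (cAut ⇑(QMinus m F a b) g) = p)
    (hnot : ¬ PreservesSingularClassesMinus m a b ((g : GL ((Fin m ⊕ Fin m) ⊕ Fin 2) F) :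
      Matrix ((Fin m ⊕ Fin m) ⊕ Fin 2) ((Fin m ⊕ Fin m) ⊕ Fin 2) F)) :
    Balanced p (cAut ⇑(QMinus m F a b) g) := by
  have hp : p.Prime := Fact.out
  have hQ := Cfsg.Agent.Lib.Helper49Rank.QMinus_nondegenerate m hab
  have hcard : Fintype.card ((Fin m ⊕ Fin m) ⊕ Fin 2) = 2 * (m + 1) := card_minus m
  have hn5 : 5 ≤ Fintype.card ((Fin m ⊕ Fin m) ⊕ Fin 2) := by omega
  have hx := exists_one_minus m a b
  have hgp : g ^ p ∈ ZZ (QMinus m F a b) := by
    rw [← ker_cAut_all _ hQ hn5, MonoidHom.mem_ker, map_pow, ← hord]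
    exact pow_orderOf_eq_one _
  by_cases hr2 : r = 2
  · exfalso
    subst hr2
    rw [preservesMinus_iff_two m (by omega) hab g] at hnot
    apply hnot
    have hi := index_K0_two _ hQ hx hn5
    obtain ⟨k, hk⟩ := hp.odd_of_ne_two hpr
    have h1 : g ^ p ∈ Om' (QMinus m F a b) ⊔ ZZ (QMinus m F a b) := le_sup_right (a := Om' _) hgp
    have h2 : (g * g) ^ k ∈ Om' (QMinus m F a b) ⊔ ZZ (QMinus m F a b) :=
      Subgroup.pow_mem _ (Subgroup.mul_self_mem_of_index_two hi g) k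
    have h3 : g = ((g * g) ^ k)⁻¹ * g ^ p := by
      rw [hk, ← pow_two, ← pow_mul, pow_succ, inv_mul_cancel_left]
    rw [h3]
    exact mul_mem (inv_mem h2) h1
  · have hrodd : Odd r := (Fact.out : r.Prime).odd_of_ne_two hr2
    have hoddF : Odd (Fintype.card F) := by
      obtain ⟨n, -, hn⟩ := FiniteField.card F r
      rw [hn]
      exact hrodd.pow
    have h2 : (2 : F) ≠ 0 := two_ne_zero_of_odd rfl hoddF
    rw [preservesMinus_iff m hoddF hab hx g] at hnot
    have hsq := delta_mul_self _ hQ hx hcard g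
    have hp2 : p = 2 := by
      by_contra hp2
      apply hnot
      obtain ⟨k, hk⟩ := hp.odd_of_ne_two hp2
      obtain ⟨c, hc⟩ := exists_scal _ hgp
      have h1 : delta (QMinus m F a b) hx (m + 1) g ^ p = 1 := by
        rw [← map_pow, hc, delta_scal _ hx hcard]
      rwa [hk, pow_succ, pow_mul, pow_two, hsq, one_pow, one_mul] at h1
    have hpow : cAut ⇑(QMinus m F a b) g ^ p = 1 := by
      rw [← hord]
      exact pow_orderOf_eq_one _
    subst hp2
    apply graph_case h2 hQ hx hcard (by omega) hsurj _ g hnot hpow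
    · intro U hU
      have := Cfsg.Agent.Lib.Helper42OInv2.TS_minus_le m hab U hU
      omega

theorem aux {F : Type*} [Field F] [Fintype F] {r : ℕ} [Fact r.Prime] [CharP F r] {m : ℕ}
    (hm : 3 ≤ m) (a b : F) (hab : Aniso a b)
    (q : ((Fin m ⊕ Fin m) ⊕ Fin 2 → F) → F) (hq : ⇑(QMinus m F a b) = q)
    (A : Subgroup (MulAut (Cfsg.POmega F q))) (hinn : ∀ k : Cfsg.POmega F q, MulAut.conj k ∈ A)
    {p : ℕ} [Fact p.Prime] (hpr : p ≠ r) (x : MulAut (Cfsg.POmega F q)) (hord : orderOf x = p)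
    (hnot : ¬ ∃ g : GL ((Fin m ⊕ Fin m) ⊕ Fin 2) F, g ∈ Geo.quadSimilarityGroup (F := F) q ∧
      PreservesSingularClassesMinus m a b
        (g : Matrix ((Fin m ⊕ Fin m) ⊕ Fin 2) ((Fin m ⊕ Fin m) ⊕ Fin 2) F) ∧
      IsInducedBySemilinearPOmega q g (RingEquiv.refl F) x) :
    Cfsg.pPrimeCore p ↥(A ⊓ Subgroup.centralizer {x}) ≠ ⊥ ↔
      ((∃ (a' b' : F) (ψ : POmega F q ≃* POmega F (quadFormMinus m F a' b')) (σ : F ≃+* F),
        (∀ z₁ z₂ : F, z₁ ^ 2 + a' * z₁ * z₂ + b' * z₂ ^ 2 = 0 → z₁ = 0 ∧ z₂ = 0) ∧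
        σ ≠ RingEquiv.refl F ∧ σ a' = a' ∧ σ b' = b' ∧
        IsFieldAutPOmegaOf (quadFormMinus m F a' b') σ ((ψ.symm.trans x).trans ψ)) ∧
      Nat.Coprime p (Nat.card ↥(MonoidHom.eqLocus x.toMonoidHom
        (MonoidHom.id (Cfsg.POmega F q))))) := by
  subst hq
  have hsurj : Function.Surjective (sAut ⇑(QMinus m F a b)) := sAut_surjective _ (by
    rw [coe_QMinus]
    exact Cfsg.Agent.S2696.result hm a b hab)
  obtain ⟨y, rfl⟩ := hsurj x
  by_cases hσ : (y : GamL ((Fin m ⊕ Fin m) ⊕ Fin 2) F).right = 1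
  · have hy : y ∈ (prO ⇑(QMinus m F a b)).ker := hσ
    rw [ker_prO] at hy
    obtain ⟨g, rfl⟩ := hy
    rw [sAut_inlO] at hord hnot ⊢
    have hB := aux_graph hm a b hab hsurj hpr g hord (fun hP =>
      hnot ⟨g, g.2, hP, (induced_iff _ g _).2 rfl⟩)
    constructor
    · intro h
      exact absurd (hB.1 A hinn) h
    · intro h
      exact absurd h.2 hB.2
  · obtain ⟨f, -, hF⟩ := FiniteField.card F r
    have hft := field_top (r := r) (f := (f : ℕ)) (p := p) hF hm hab hsurj y hσ hord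
    obtain ⟨FC, a', b', ψ, σ, hσ', hab', hσ1, hσa, hσb, hc⟩ := hft
    have hFC := FC A hinn
    have key : ∀ (q' : ((Fin m ⊕ Fin m) ⊕ Fin 2 → F) → F) (_ : ⇑(QMinus m F a' b') = q'),
        ∃ ψ' : POmega F ⇑(QMinus m F a b) ≃* POmega F q',
          IsFieldAutPOmegaOf q' σ ((ψ'.symm.trans (sAut ⇑(QMinus m F a b) y)).trans ψ') := by
      intro q' hq'
      subst hq'
      exact ⟨ψ, (isField_iff hσ' _).2 hc⟩
    have hk := key (quadFormMinus m F a' b') (coe_QMinus m a' b')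
    constructor
    · intro h
      exact ⟨⟨a', b', hk.choose, σ, hab', hσ1, hσa, hσb, hk.choose_spec⟩, hFC.1 h⟩
    · intro h
      exact hFC.2 h.2

/-- A criterion for the failure of local balance in almost simple groups whose socle is a minus-type orthogonal group PΩ⁻_{2m+2}(F) (m ≥ 3; the form Σ xᵢ yᵢ + z₁² + a z₁ z₂ + b z₂² with anisotropic binary part). Let F be a finite field of characteristic r and K the (simple) group in question; let A be a group of automorphisms of K containing all inner automorphisms, and x ∈ A an automorphism of prime order p ≠ r that is not inner-diagonal (not induced by a class-preserving similarity, classes read over a quadratic extension). Then the largest normal subgroup of C_A(x) of order prime to p is nontrivial if and only if x is a field automorphism of K (conjugate under Aut(K) to a non-identity standard field automorphism) and p does not divide the number of fixed points of x on K. -/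
theorem result {F : Type*} [Field F] [Fintype F] {r : ℕ} [Fact r.Prime] [CharP F r] {m : ℕ} (hm : 3 ≤ m) (a b : F) (hab : (∀ z₁ z₂ : F, z₁ ^ 2 + a * z₁ * z₂ + b * z₂ ^ 2 = 0 → z₁ = 0 ∧ z₂ = 0)) (hK : IsSimpleGroup (Cfsg.POmega F (Cfsg.quadFormMinus m F a b))) (A : Subgroup (MulAut (Cfsg.POmega F (Cfsg.quadFormMinus m F a b)))) (hinn : ∀ k : Cfsg.POmega F (Cfsg.quadFormMinus m F a b), MulAut.conj k ∈ A) {p : ℕ} [Fact p.Prime] (hpr : p ≠ r) (x : MulAut (Cfsg.POmega F (Cfsg.quadFormMinus m F a b))) (hxA : x ∈ A) (hord : orderOf x = p) (hnot : ¬ Cfsg.IsInnerDiagonalAutPOmegaMinus m a b x) :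
    Cfsg.pPrimeCore p ↥(A ⊓ Subgroup.centralizer {x}) ≠ ⊥ ↔ (Cfsg.IsFieldAutClassPOmegaMinus m x ∧ Nat.Coprime p (Nat.card ↥(MonoidHom.eqLocus x.toMonoidHom (MonoidHom.id (Cfsg.POmega F (Cfsg.quadFormMinus m F a b)))))) := by
  exact aux hm a b hab _ (coe_QMinus m a b) A hinn hpr x hord hnot

end Cfsg.Agent.S2733
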