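import Cfsg.Statements.S2897
import Cfsg.Agent.Lib.Helper54Parabolic

set_option autoImplicit false
open Cfsg
open Cfsg.Agent.Lib.Helper54CharP Cfsg.Agent.Lib.Helper54Parabolic Cfsg.Agent.Lib.Helper40Sylow
  Cfsg.Agent.Lib.Helper28Comp

namespace Cfsg.Agent.S2897

theorem map_omegaOne_le {G G' : Type*} [Group G] [Group G'] (f : G →* G') (p : ℕ) (H : Subgroup G) :
    (Cfsg.omegaOne p H).map f ≤ Cfsg.omegaOne p (H.map f) := by
  unfold Cfsg.omegaOne
  rw [MonoidHom.map_closure, Subgroup.closure_le]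
  rintro _ ⟨x, ⟨hx, hxp⟩, rfl⟩
  apply Subgroup.subset_closure
  exact ⟨⟨x, hx, rfl⟩, by rw [← map_pow, hxp, map_one]⟩

/-- Let p be a prime dividing the order of the finite group G, suppose G has parabolic characteristic p, let S be a Sylow p-subgroup of G and G₁ a normal subgroup of G. If Ω₁(Z(S ∩ G₁)) is nontrivial and contained in Ω₁(Z(S)), then G₁ has parabolic characteristic p. -/
theorem result {G : Type*} [Group G] [Finite G] {p : ℕ} [Fact p.Prime] (hdiv : p ∣ Nat.card G) (hG : Cfsg.IsOfParabolicCharacteristic p G) (S : Sylow p G) (G₁ : Subgroup G) [G₁.Normal] (hne : Cfsg.omegaOne p (((S : Subgroup G) ⊓ G₁) ⊓ Subgroup.centralizer (((S : Subgroup G) ⊓ G₁ : Subgroup G) : Set G)) ≠ ⊥) (hle : Cfsg.omegaOne p (((S : Subgroup G) ⊓ G₁) ⊓ Subgroup.centralizer (((S : Subgroup G) ⊓ G₁ : Subgroup G) : Set G)) ≤ Cfsg.omegaOne p ((S : Subgroup G) ⊓ Subgroup.centralizer ((S : Subgroup G) : Set G))) : Cfsg.IsOfParabolicCharacteristic p ↥G₁ :=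 by
  have hsyl : IsSylowIn p ((S : Subgroup G) ⊓ G₁) G₁ :=
    (isSylowIn_top S).inf_normal le_top (by rw [Subgroup.normalizer_eq_top])
  rw [parabolic_iff hsyl.toSylow]
  intro z hz1 hz
  have hmap : ((hsyl.toSylow : Subgroup ↥G₁)).map G₁.subtype = (S : Subgroup G) ⊓ G₁ := by
    rw [hsyl.coe_toSylow, Subgroup.subgroupOf_map_subtype, inf_assoc, inf_idem]
  have h1 : (z : G) ∈ Cfsg.omegaOne p (((S : Subgroup G) ⊓ G₁) ⊓
      Subgroup.centralizer (((S : Subgroup G) ⊓ G₁ : Subgroup G) : Set G)) := by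
    have h2 := map_omegaOne_le G₁.subtype p _ (Subgroup.mem_map_of_mem G₁.subtype hz)
    rw [map_centralizer_inf G₁.subtype_injective, hmap] at h2
    exact h2
  have hz1' : (z : G) ≠ 1 := fun h => hz1 (Subtype.ext h)
  have h3 := (parabolic_iff S).mp hG z hz1' (hle h1)
  rw [charP_map_iff G₁.subtype_injective]
  have h4 : (Subgroup.centralizer ({z} : Set ↥G₁)).map G₁.subtype =
      Subgroup.centralizer ({(z : G)} : Set G) ⊓ G₁ := by
    ext x
    constructor
    · rintro ⟨y, hy, rfl⟩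
      refine Subgroup.mem_inf.mpr ⟨?_, y.2⟩
      have hy' : y ∈ Subgroup.centralizer ({z} : Set ↥G₁) := hy
      rw [Subgroup.mem_centralizer_singleton_iff] at hy' ⊢
      exact congrArg Subtype.val hy'
    · intro hx
      obtain ⟨hx1, hx2⟩ := Subgroup.mem_inf.mp hx
      refine ⟨⟨x, hx2⟩, ?_, rfl⟩
      show (⟨x, hx2⟩ : ↥G₁) ∈ Subgroup.centralizer ({z} : Set ↥G₁)
      rw [Subgroup.mem_centralizer_singleton_iff] at hx1 ⊢
      exact Subtype.ext hx1
  rw [h4]
  apply h3.of_normIn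
  have h5 : NormIn G₁ (⊤ : Subgroup G) := normIn_top_iff.mpr inferInstance
  have h6 := h5.inf_right (Subgroup.centralizer ({(z : G)} : Set G))
  rwa [top_inf_eq, inf_comm] at h6

end Cfsg.Agent.S2897
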