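import Cfsg.Statements.S2898
import Cfsg.Agent.Lib.Helper54Core
import Cfsg.Agent.Lib.Helper54StrEmb

set_option autoImplicit false
open Cfsg
open Cfsg.Agent.Lib.Helper54Core Cfsg.Agent.Lib.Helper54StrEmb Cfsg.Agent.Lib.Helper40Sylow
open scoped commutatorElement

namespace Cfsg.Agent.S2898

theorem step1 {G : Type*} [Group G] [Finite G] {p : ℕ} [Fact p.Prime]
    (hG : Cfsg.IsOfParabolicCharacteristic p G) (W : Subgroup G) [hWn : W.Normal]
    (hW : (Nat.card W).Coprime p) (R : Subgroup G) (hR : IsPGroup p R) (hne : R ≠ ⊥) (S : Sylow p G)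
    (hS : (S : Subgroup G) ≤ Subgroup.normalizer (R : Set G)) :
    W ⊓ Subgroup.normalizer (R : Set G) = ⊥ := by
  have hchar := hG R hR hne ⟨S, hS⟩
  set L := Subgroup.normalizer (R : Set G) with hL
  set Q := Cfsg.pCore p ↥L with hQ
  have hQn : Q.Normal := inferInstance
  have hQp : IsPGroup p (Q.map L.subtype) := (pCore_isPGroup p).map _
  have hdisj : W ⊓ Q.map L.subtype = ⊥ := inf_eq_bot_of_coprime hQp hW
  rw [eq_bot_iff]
  rintro w ⟨hwW, hwL⟩
  have hcent : (⟨w, hwL⟩ : L) ∈ Subgroup.centralizer (Q : Set L) := by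
    rw [Subgroup.mem_centralizer_iff]
    intro y hy
    have h1 : ⁅w, (y : G)⁆ ∈ W := by
      have e : ⁅w, (y : G)⁆ = w * ((y : G) * w⁻¹ * (y : G)⁻¹) := by
        simp only [commutatorElement_def]; group
      rw [e]
      exact W.mul_mem hwW (hWn.conj_mem _ (W.inv_mem hwW) _)
    have h2 : ⁅w, (y : G)⁆ ∈ Q.map L.subtype := by
      refine ⟨(⟨w, hwL⟩ : L) * y * (⟨w, hwL⟩ : L)⁻¹ * y⁻¹, ?_, ?_⟩
      · exact Q.mul_mem (hQn.conj_mem _ hy _) (Q.inv_mem hy)
      · simp [commutatorElement_def]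
    have h3 : ⁅w, (y : G)⁆ ∈ W ⊓ Q.map L.subtype := ⟨h1, h2⟩
    rw [hdisj, Subgroup.mem_bot, commutatorElement_eq_one_iff_commute] at h3
    apply Subtype.ext
    exact h3.symm
  have h4 := hchar hcent
  have h5 : w ∈ W ⊓ Q.map L.subtype := ⟨hwW, ⟨_, h4, rfl⟩⟩
  rwa [hdisj] at h5

/-- Let G be a finite group of even order with parabolic characteristic 2. If the centre of G ⧸ O(G) is trivial, then O(G) = 1. -/
theorem result {G : Type*} [Group G] [Finite G] (h2 : 2 ∣ Nat.card G) (hG : Cfsg.IsOfParabolicCharacteristic 2 G) [hN : (Cfsg.oddCore G).Normal] (hZ : Subgroup.center (G ⧸ Cfsg.oddCore G) = ⊥) : Cfsg.oddCore G = ⊥ := by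
  have : Fact (Nat.Prime 2) := ⟨Nat.prime_two⟩
  set W := Cfsg.oddCore G with hWdef
  have hW : (Nat.card W).Coprime 2 := card_pPrimeCore_coprime 2
  obtain ⟨S⟩ : Nonempty (Sylow 2 G) := inferInstance
  have hSne : (S : Subgroup G) ≠ ⊥ := sylow_ne_bot h2 S
  obtain ⟨z, hzS, hz2, hzc⟩ := exists_central_orderOf_eq S.2 hSne
  have hCn : (Subgroup.centralizer (W : Set G)).Normal := inferInstance
  by_cases hC : 2 ∣ Nat.card (Subgroup.centralizer (W : Set G))
  · -- S ⊓ C is a nontrivial 2-subgroup normalized by S and centralized by W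
    have hsyl : IsSylowIn 2 ((S : Subgroup G) ⊓ Subgroup.centralizer (W : Set G))
        (Subgroup.centralizer (W : Set G)) :=
      (isSylowIn_top S).inf_normal le_top (by rw [Subgroup.normalizer_eq_top]) 
    have hne := isSylowIn_ne_bot hsyl hC
    have hSn : (S : Subgroup G) ≤ Subgroup.normalizer
        (((S : Subgroup G) ⊓ Subgroup.centralizer (W : Set G) : Subgroup G) : Set G) := by
      intro s hs
      rw [mem_normalizer_iff_cj, cj_inf, cj_eq_self_of_mem hs]
      congr 1
      exact mem_normalizer_iff_cj.mp (by rw [Subgroup.normalizer_eq_top]; trivial)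
    have h1 := step1 hG W hW _ hsyl.2.1 hne S hSn
    rw [← h1]
    symm
    apply inf_eq_left.mpr
    refine le_trans ?_ (Subgroup.centralizer_le_normalizer _)
    rw [Subgroup.le_centralizer_iff]
    exact inf_le_right
  · exfalso
    have hCW : Subgroup.centralizer (W : Set G) ≤ W :=
      le_pPrimeCore hCn ((Nat.Prime.coprime_iff_not_dvd Nat.prime_two).mpr hC).symm
    have hzp : IsPGroup 2 (Subgroup.zpowers z) := isPGroup_zpowers (k := 1) (by simpa using hz2)
    have hzne : Subgroup.zpowers z ≠ ⊥ := zpowers_ne_bot_of_orderOf hz2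
    have hSz : (S : Subgroup G) ≤ Subgroup.normalizer ((Subgroup.zpowers z : Subgroup G) : Set G) := by
      refine le_trans ?_ (Subgroup.centralizer_le_normalizer _)
      rw [centralizer_zpowers_eq]
      intro s hs
      rw [Subgroup.mem_centralizer_singleton_iff]
      exact hzc s hs
    have h1 := step1 hG W hW _ hzp hzne S hSz
    have hzz : z * z = 1 := by
      have := pow_orderOf_eq_one z
      rw [hz2, pow_two] at this
      exact this
    have hzinv : z⁻¹ = z := inv_eq_of_mul_eq_one_left hzz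
    have hfpf : MonoidHom.FixedPointFree (MulAut.conjNormal z : MulAut W) := by
      intro w hw
      have h2 : z * (w : G) * z⁻¹ = w := by
        have := congrArg Subtype.val hw
        rwa [MulAut.conjNormal_apply] at this
      have h3 : (w : G) ∈ W ⊓ Subgroup.normalizer ((Subgroup.zpowers z : Subgroup G) : Set G) := by
        refine ⟨w.2, Subgroup.centralizer_le_normalizer _ ?_⟩
        rw [centralizer_zpowers_eq, Subgroup.mem_centralizer_singleton_iff]
        calc (w : G) * z = z * (w : G) * z⁻¹ * z := by rw [h2]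
          _ = z * w := by group
      rw [h1, Subgroup.mem_bot] at h3
      exact Subtype.ext h3
    have hinvol : Function.Involutive (MulAut.conjNormal z : MulAut W) := by
      intro w
      apply Subtype.ext
      rw [MulAut.conjNormal_apply, MulAut.conjNormal_apply]
      calc z * (z * (w : G) * z⁻¹) * z⁻¹ = (z * z) * w * (z * z)⁻¹ := by group
        _ = w := by rw [hzz]; simp
    have hinv : ∀ w ∈ W, z * w * z⁻¹ = w⁻¹ := by
      intro w hw
      have h2 := congrFun (hfpf.coe_eq_inv_of_involutive hinvol) ⟨w, hw⟩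
      have h3 := congrArg Subtype.val h2
      rwa [MulAut.conjNormal_apply] at h3
    have hcomm : ∀ g : G, ⁅z, g⁆ ∈ W := by
      intro g
      apply hCW
      rw [Subgroup.mem_centralizer_iff]
      intro w hw
      have h2 : g⁻¹ * w * g ∈ W := by
        have := hN.conj_mem w hw g⁻¹
        simpa using this
      have h3 := hinv _ h2
      have h4 := hinv _ (W.inv_mem hw)
      rw [inv_inv] at h4
      have h5 : ⁅z, g⁆ * w * ⁅z, g⁆⁻¹ = w := by
        calc ⁅z, g⁆ * w * ⁅z, g⁆⁻¹ = z * (g * (z⁻¹ * (g⁻¹ * w * g) * z) * g⁻¹) * z⁻¹ := by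
              simp only [commutatorElement_def]; group
          _ = z * (g * (z * (g⁻¹ * w * g) * z⁻¹) * g⁻¹) * z⁻¹ := by rw [hzinv]
          _ = z * (g * (g⁻¹ * w * g)⁻¹ * g⁻¹) * z⁻¹ := by rw [h3]
          _ = z * w⁻¹ * z⁻¹ := by group
          _ = w := h4
      calc w * ⁅z, g⁆ = ⁅z, g⁆ * w * ⁅z, g⁆⁻¹ * ⁅z, g⁆ := by rw [h5]
        _ = ⁅z, g⁆ * w := by group
    have hzcenter : (QuotientGroup.mk z : G ⧸ W) ∈ Subgroup.center (G ⧸ W) := by
      rw [Subgroup.mem_center_iff]
      intro x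
      obtain ⟨g, rfl⟩ := QuotientGroup.mk_surjective x
      have h2 : ((⁅z, g⁆ : G) : G ⧸ W) = 1 := (QuotientGroup.eq_one_iff _).mpr (hcomm g)
      have e : ((⁅z, g⁆ : G) : G ⧸ W) = ⁅(QuotientGroup.mk z : G ⧸ W), (QuotientGroup.mk g : G ⧸ W)⁆ :=
        map_commutatorElement (QuotientGroup.mk' W) z g
      rw [e, commutatorElement_eq_one_iff_commute] at h2
      exact h2.symm
    rw [hZ, Subgroup.mem_bot, QuotientGroup.eq_one_iff] at hzcenter
    have h6 : orderOf z ∣ Nat.card W := by
      have := orderOf_dvd_natCard (⟨z, hzcenter⟩ : W)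
      rwa [← Subgroup.orderOf_coe] at this
    rw [hz2] at h6
    have := Nat.Coprime.eq_one_of_dvd hW.symm h6
    omega

end Cfsg.Agent.S2898
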