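import Cfsg.Statements.S2906
import Cfsg.Agent.Lib.Helper36PMin

set_option autoImplicit false
open Cfsg

namespace Cfsg.Agent.S2906

open Subgroup Cfsg.Agent.Lib.Helper40Sylow Cfsg.Agent.Lib.Helper54PMin Cfsg.Agent.Lib.Helper36PMin
open scoped commutatorElement

/-- Let P be a finite p-minimal group with O_p(P) = 1, S a Sylow p-subgroup of P and K a component of P. Then O^p(P) = F*(P) = E(P) is generated by the S-conjugates of K, and the subgroup K·N_S(K) is again p-minimal. -/
theorem result {P : Type*} [Group P] [Finite P] {p : ℕ} [Fact p.Prime] (hP : Cfsg.IsPMinimal p P) (hOp : Cfsg.pCore p P = ⊥) (S : Sylow p P) (K : Subgroup P) (hK : Cfsg.IsComponent K) : Cfsg.pResidual p P = Cfsg.generalizedFittingSubgroup P ∧ Cfsg.generalizedFittingSubgroup P = Cfsg.layer P ∧ Cfsg.layer P = ⨆ s : ↥(S : Subgroup P), K.map (MulAut.conj (s : P)).toMonoidHom ∧ Cfsg.IsPMinimal p ↥(K ⊔ ((S : Subgroup P) ⊓ Subgroup.normalizer (K : Set P))) := by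
  obtain ⟨-, M, ⟨hM, hSM⟩, -⟩ := hP S
  have hKc := Cfsg.Agent.Lib.Helper28Comp.isComponent_iff.mp hK
  have hKqs := hKc.2
  have hKsub : K.IsSubnormal := hK.1
  have hnotsol : ∀ L : Subgroup P, Group.IsSolvable L → ¬ K ≤ L := fun L hL h =>
    hKqs.not_isSolvable (Group.isSolvable_of_isSolvable_injective (inclusion_injective h))
  -- `K` is not contained in a normal `p'`-subgroup
  have hKO : ¬ K ≤ Cfsg.pPrimeCore p P :=
    hnotsol _ (solvable_of_normal_coprime hP hM hSM Cfsg.Agent.Lib.Helper40Cores.pPrimeCore_normal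
      (Cfsg.Agent.Lib.Helper27Core.card_pPrimeCore_coprime p))
  have hFn : M.normalCore.Normal := inferInstance
  have hKF : ¬ K ≤ M.normalCore := by
    have h1 := normal_inf_sylow_le_pCore hP hM hSM hFn (normalCore_le M)
    rw [hOp, le_bot_iff, inf_comm] at h1
    have hFtop : (⊤ : Subgroup P) ≤ normalizer (M.normalCore : Set P) := by
      rw [normalizer_eq_top_iff.mpr hFn]
    have hsyl := (isSylowIn_top S).inf_normal le_top hFtop
    exact hnotsol _ (solvable_of_normal_coprime hP hM hSM hFn (coprime_of_inf_eq_bot hsyl h1))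
  have hKM : ¬ K ≤ M := fun h => hKF (subnormal_le_normalCore hP hM hSM hKsub h)
  -- the layer
  have hEn : (Cfsg.layer P).Normal := by
    rw [← normalizer_eq_top_iff, eq_top_iff]
    intro g _
    rw [mem_normalizer_iff_cj]
    apply cj_eq_of_le
    unfold Cfsg.layer
    rw [cj, map_le_iff_le_comap]
    apply sSup_le
    intro L hL
    rw [← map_le_iff_le_comap]
    exact le_sSup (isComponent_cj hL g)
  have hKE : K ≤ Cfsg.layer P := le_sSup hK
  have hOE : Cfsg.pResidual p P ≤ Cfsg.layer P :=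
    (normal_dichotomy hP hM hSM hEn).resolve_right (fun h => hKF (hKE.trans h))
  have hEO : Cfsg.layer P ≤ Cfsg.pResidual p P :=
    sSup_le fun L hL => perfect_le_pResidual (Cfsg.Agent.Lib.Helper28Comp.isComponent_iff.mp hL).2.perfect
  have hOEeq : Cfsg.pResidual p P = Cfsg.layer P := le_antisymm hOE hEO
  have hFit : Cfsg.fittingSubgroup P ≤ Cfsg.layer P := (fitting_le_pResidual hOp S).trans hOE
  have hFstar : Cfsg.generalizedFittingSubgroup P = Cfsg.layer P := sup_eq_left.mpr hFit
  -- a dichotomy for `S`-invariant subgroups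
  have hdich : ∀ Y : Subgroup P, (S : Subgroup P) ≤ normalizer (Y : Set P) → Y ≤ M ∨ K ≤ Y := by
    intro Y hY
    by_cases htop : Y ⊔ (S : Subgroup P) = ⊤
    · have hYn : Y.Normal := by
        rw [← normalizer_eq_top_iff, eq_top_iff, ← htop]
        exact sup_le le_normalizer hY
      rcases normal_dichotomy hP hM hSM hYn with h | h
      · right; exact hKE.trans (hEO.trans h)
      · left; exact h.trans (normalCore_le M)
    · left; exact le_sup_left.trans (le_of_sylow_le hP hM hSM le_sup_right htop)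
  have hNS : Cfsg.layer P = ⨆ s : ↥(S : Subgroup P), K.map (MulAut.conj (s : P)).toMonoidHom := by
    apply le_antisymm
    · have hKN : K ≤ ⨆ s : ↥(S : Subgroup P), cj (s : P) K := by
        have := le_iSup (fun s : ↥(S : Subgroup P) => cj (s : P) K) 1
        simpa [cj_one] using this
      have hn1 : Cfsg.layer P ≤ normalizer ((⨆ s : ↥(S : Subgroup P), cj (s : P) K : Subgroup P) : Set P) := by
        apply le_normalizer_iSup
        intro x hx s
        refine ⟨s, ?_⟩
        apply mem_normalizer_iff_cj.mp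
        have h1 : Cfsg.layer P ≤ normalizer ((cj (s : P) K : Subgroup P) : Set P) :=
          sSup_le fun L hL => comp_le_normalizer (isComponent_cj hK _) hL
        exact h1 hx
      have hn2 := le_normalizer_iSup_cj (S : Subgroup P) K
      have hn : (⨆ s : ↥(S : Subgroup P), cj (s : P) K).Normal := by
        rw [← normalizer_eq_top_iff, eq_top_iff, ← pResidual_sup_sylow S]
        exact sup_le (hOE.trans hn1) hn2
      exact hEO.trans ((normal_dichotomy hP hM hSM hn).resolve_right (fun h => hKF (hKN.trans h)))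
    · exact iSup_le fun s => le_sSup (isComponent_cj hK _)
  refine ⟨hOEeq.trans hFstar.symm, hFstar, hNS, ?_⟩
  -- `p`-minimality of `K N_S(K)`
  set S0 := (S : Subgroup P) ⊓ normalizer (K : Set P) with hS0
  set H := K ⊔ S0 with hH
  have hS0K : S0 ≤ normalizer (K : Set P) := inf_le_right
  have hS0S : S0 ≤ (S : Subgroup P) := inf_le_left
  have hS0p : IsPGroup p S0 := S.2.to_le hS0S
  have hS0H : S0 ≤ H := le_sup_right
  have hKH : K ≤ H := le_sup_left
  have hHK : H ≤ normalizer (K : Set P) := sup_le le_normalizer hS0K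
  have hR : IsSylowIn p ((S : Subgroup P) ⊓ K) K := isSylowIn_inf_of_isSubnormal S hKsub
  have hRS0 : (S : Subgroup P) ⊓ K ≤ S0 := le_inf inf_le_left (inf_le_right.trans le_normalizer)
  have hmemH : ∀ x ∈ H, ∃ y ∈ S0, ∃ z ∈ K, y * z = x := by
    intro x hx
    rw [hH, sup_comm] at hx
    exact (Cfsg.Agent.Lib.Helper28More.mem_sup_of_le_normalizer hS0K).mp hx
  have hS0syl : IsSylowIn p S0 H := by
    obtain ⟨T, hT, hS0T⟩ := exists_isSylowIn_ge hS0p hS0H
    have hTK := hT.inf_normal hKH hHK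
    have hRT : (S : Subgroup P) ⊓ K = T ⊓ K :=
      hR.eq_of_le hTK.2.1 inf_le_right (le_inf (hRS0.trans hS0T) inf_le_right)
    have hTS0 : T ≤ S0 := by
      intro x hx
      obtain ⟨y, hy, z, hz, rfl⟩ := hmemH x (hT.1 hx)
      have hzT : z ∈ T := by
        have : z = y⁻¹ * (y * z) := by group
        rw [this]; exact T.mul_mem (T.inv_mem (hS0T hy)) hx
      have : z ∈ T ⊓ K := ⟨hzT, hz⟩
      rw [← hRT] at this
      exact S0.mul_mem hy (hRS0 this)
    rw [le_antisymm hS0T hTS0]; exact hT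
  have hnn : ¬ H ≤ normalizer (S0 : Set P) := by
    intro hn
    have hRK : S0 ⊓ K = (S : Subgroup P) ⊓ K := by
      rw [hS0, inf_assoc, inf_of_le_right (le_normalizer : K ≤ normalizer (K : Set P))]
    have hn2 : K ≤ normalizer (((S : Subgroup P) ⊓ K : Subgroup P) : Set P) := by
      rw [← hRK]
      exact (le_inf (hKH.trans hn) le_normalizer).trans inf_normalizer_le_normalizer_inf
    have hsub : ((S : Subgroup P) ⊓ K).IsSubnormal :=
      Subgroup.IsSubnormal.step _ K inf_le_right hKsub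
        ((normal_subgroupOf_iff_le_normalizer inf_le_right).mpr hn2)
    have h1 := Cfsg.Agent.Lib.Helper27Core.subnormal_le_pCore hsub hR.2.1
    rw [hOp, le_bot_iff] at h1
    exact hKO (Cfsg.Agent.Lib.Helper27Core.subnormal_le_pPrimeCore hKsub (coprime_of_inf_eq_bot hR h1))
  set H0 := (M ⊓ K) ⊔ S0 with hH0
  have hH0H : H0 ≤ H := sup_le (inf_le_right.trans hKH) hS0H
  have hH0M : H0 ≤ M := sup_le inf_le_left (hS0S.trans hSM)
  have hall : ∀ X : Subgroup P, X ≤ H → S0 ≤ X → X ≠ H → X ≤ H0 := by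
    intro X hXH hS0X hXne
    have hXK : X ⊓ K ≠ K := by
      intro h
      exact hXne (le_antisymm hXH (sup_le (inf_eq_right.mp h) hS0X))
    have hYn := le_normalizer_iSup_cj (S : Subgroup P) (X ⊓ K)
    have hXY : X ⊓ K ≤ ⨆ s : ↥(S : Subgroup P), cj (s : P) (X ⊓ K) := by
      have := le_iSup (fun s : ↥(S : Subgroup P) => cj (s : P) (X ⊓ K)) 1
      simpa [cj_one] using this
    rcases hdich _ hYn with h | h
    · intro x hx
      obtain ⟨y, hy, z, hz, rfl⟩ := hmemH x (hXH hx)
      have hzX : z ∈ X := by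
        have : z = y⁻¹ * (y * z) := by group
        rw [this]; exact X.mul_mem (X.inv_mem (hS0X hy)) hx
      exact H0.mul_mem (le_sup_right (a := M ⊓ K) hy)
        (le_sup_left (b := S0) ⟨h (hXY ⟨hzX, hz⟩), hz⟩)
    · exfalso
      apply hXK
      apply le_antisymm inf_le_right
      have hYle : (⨆ s : ↥(S : Subgroup P), cj (s : P) (X ⊓ K)) ≤ (X ⊓ K) ⊔ centralizer (K : Set P) := by
        apply iSup_le
        intro s
        by_cases hs : (s : P) ∈ normalizer (K : Set P)
        · have hsS0 : (s : P) ∈ S0 := ⟨s.2, hs⟩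
          have : cj (s : P) (X ⊓ K) = X ⊓ K := by
            rw [cj_inf, cj_eq_self_of_mem (hS0X hsS0), mem_normalizer_iff_cj.mp hs]
          rw [this]; exact le_sup_left
        · have hne : K ≠ cj (s : P) K := fun h => hs (mem_normalizer_iff_cj.mpr h.symm)
          have hc := (hKc.eq_or_commute
            (Cfsg.Agent.Lib.Helper28Comp.isComponent_iff.mp (isComponent_cj hK (s : P)))).resolve_left hne
          rw [commutator_comm] at hc
          exact ((cj_mono inf_le_right).trans (commutator_eq_bot_iff_le_centralizer.mp hc)).trans le_sup_right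
      have hXn : X ⊓ K ≤ normalizer ((centralizer (K : Set P) : Subgroup P) : Set P) :=
        (inf_le_right.trans le_normalizer).trans
          (Cfsg.Agent.Lib.Helper36Fusion.normalizer_le_normalizer_centralizer K)
      have hdec : ∀ k ∈ K, ∃ x ∈ X ⊓ K, ∃ c ∈ centralizer (K : Set P), x * c = k := fun k hk =>
        (Cfsg.Agent.Lib.Helper28More.mem_sup_of_le_normalizer hXn).mp (hYle (h hk))
      suffices hcomm : ⁅K, K⁆ ≤ X ⊓ K by rwa [hKqs.perfect] at hcomm
      rw [commutator_le]
      intro k1 hk1 k2 hk2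
      obtain ⟨x1, hx1, c1, hc1, rfl⟩ := hdec k1 hk1
      obtain ⟨x2, hx2, c2, hc2, rfl⟩ := hdec k2 hk2
      rw [mem_centralizer_iff] at hc1 hc2
      have e1 : c1 * (x2 * c2) = (x2 * c2) * c1 := (hc1 _ hk2).symm
      have e2 : c2 * x1⁻¹ = x1⁻¹ * c2 := (hc2 _ (K.inv_mem hx1.2)).symm
      have e : ⁅x1 * c1, x2 * c2⁆ = ⁅x1, x2⁆ := by
        rw [commutatorElement_def, commutatorElement_def]
        calc x1 * c1 * (x2 * c2) * (x1 * c1)⁻¹ * (x2 * c2)⁻¹
            = x1 * (c1 * (x2 * c2)) * c1⁻¹ * x1⁻¹ * (x2 * c2)⁻¹ := by group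
          _ = x1 * ((x2 * c2) * c1) * c1⁻¹ * x1⁻¹ * (x2 * c2)⁻¹ := by rw [e1]
          _ = x1 * x2 * (c2 * x1⁻¹) * c2⁻¹ * x2⁻¹ := by group
          _ = x1 * x2 * (x1⁻¹ * c2) * c2⁻¹ * x2⁻¹ := by rw [e2]
          _ = x1 * x2 * x1⁻¹ * x2⁻¹ := by group
      rw [e, commutatorElement_def]
      exact (X ⊓ K).mul_mem ((X ⊓ K).mul_mem ((X ⊓ K).mul_mem hx1 hx2) ((X ⊓ K).inv_mem hx1))
        ((X ⊓ K).inv_mem hx2)
  apply isPMinimal_of hS0syl.toSylow (H0.subgroupOf H)
  · rw [Ne, subgroupOf_eq_top]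
    intro h
    exact hKM ((hKH.trans h).trans hH0M)
  · rw [hS0syl.coe_toSylow]
    exact comap_mono le_sup_right
  · intro X' hX' hX'ne
    rw [hS0syl.coe_toSylow] at hX'
    have h1 : S0 ≤ X'.map H.subtype := by
      have := map_mono (f := H.subtype) hX'
      rwa [map_subgroupOf_eq_of_le hS0H] at this
    have h2 : X'.map H.subtype ≠ H := by
      intro h
      apply hX'ne
      rw [eq_top_iff]
      intro x _
      have hx : (x : P) ∈ X'.map H.subtype := by rw [h]; exact x.2
      obtain ⟨y, hy, hyx⟩ := hx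
      have : y = x := Subtype.ext hyx
      rwa [← this]
    have h3 := hall _ (map_subtype_le X') h1 h2
    exact map_le_iff_le_comap.mp h3
  · rw [hS0syl.coe_toSylow, normal_subgroupOf_iff_le_normalizer hS0H]
    exact hnn

end Cfsg.Agent.S2906
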