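import Cfsg.Statements.S2907

set_option autoImplicit false
open Cfsg

namespace Cfsg.Agent.S2907

open Subgroup

/-- Let X be a finite semi-extraspecial p-group and x an element of X outside the centre. Then the index of C_X(x) in X equals the order of Z(X), and the commutators [x, y], y ∈ X, form exactly the centre Z(X). -/
theorem result {X : Type*} [Group X] [Finite X] {p : ℕ} [Fact p.Prime] (hX : Cfsg.IsSemiExtraspecial p X) (x : X) (hx : x ∉ Subgroup.center X) : (Subgroup.centralizer ({x} : Set X)).index = Nat.card ↥(Subgroup.center X) ∧ {z : X | ∃ y : X, z = x * y * x⁻¹ * y⁻¹} = (Subgroup.center X : Set X) := by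
  have hp : p.Prime := Fact.out
  obtain ⟨⟨hXp, hfr, hcomm⟩, hext⟩ := hX
  have hcen : ∀ y, x * y * x⁻¹ * y⁻¹ ∈ center X := by
    intro y
    rw [← hcomm, commutator_def]
    exact commutator_mem_commutator (mem_top x) (mem_top y)
  let φ : X →* X := MonoidHom.mk' (fun y => x * y * x⁻¹ * y⁻¹) (by
    intro a b
    have h1 := Subgroup.mem_center_iff.mp (hcen b) a⁻¹
    calc x * (a * b) * x⁻¹ * (a * b)⁻¹ = x * a * x⁻¹ * ((x * b * x⁻¹ * b⁻¹) * a⁻¹) := by group
      _ = x * a * x⁻¹ * (a⁻¹ * (x * b * x⁻¹ * b⁻¹)) := by rw [h1]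
      _ = x * a * x⁻¹ * a⁻¹ * (x * b * x⁻¹ * b⁻¹) := by group)
  have hφ : ∀ y, φ y = x * y * x⁻¹ * y⁻¹ := fun y => rfl
  have hrange_le : φ.range ≤ center X := by
    rintro _ ⟨y, rfl⟩
    exact hcen y
  have hrange : φ.range = center X := by
    by_contra hne
    have h1 : φ.range.subgroupOf (center X) ≠ ⊤ := by
      intro h
      rw [subgroupOf_eq_top] at h
      exact hne (le_antisymm hrange_le h)
    obtain ⟨M, hM, hle⟩ := (eq_top_or_exists_le_coatom _).resolve_left h1
    set Y := M.map (center X).subtype with hY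
    have hYle : Y ≤ center X := map_subtype_le M
    have hYM : Y.subgroupOf (center X) = M := by
      rw [hY, subgroupOf, comap_map_eq_self_of_injective (center X).subtype_injective]
    obtain ⟨hYn, -, hcard⟩ := hext Y hYle (hYM ▸ hM)
    have hrY : ∀ y, x * y * x⁻¹ * y⁻¹ ∈ Y := by
      intro y
      have h2 : (⟨x * y * x⁻¹ * y⁻¹, hcen y⟩ : center X) ∈ φ.range.subgroupOf (center X) := by
        rw [mem_subgroupOf]
        exact ⟨y, rfl⟩
      exact ⟨_, hle h2, rfl⟩
    let π := QuotientGroup.mk' Y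
    have hπs : Function.Surjective π := QuotientGroup.mk'_surjective Y
    set W := (center X).map π with hW
    have hWle : W ≤ center (X ⧸ Y) := by
      rintro _ ⟨z, hz, rfl⟩
      rw [mem_center_iff]
      intro g
      obtain ⟨g, rfl⟩ := hπs g
      rw [← map_mul, ← map_mul, mem_center_iff.mp hz g]
    have hWne : W ≠ ⊥ := by
      intro h
      rw [hW, Subgroup.map_eq_bot_iff, QuotientGroup.ker_mk'] at h
      apply hM.1
      rw [← hYM, subgroupOf_eq_top]
      exact h
    have hWcard : Nat.card W = p := by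
      have h2 : Nat.card W ∣ p := hcard ▸ card_dvd_of_le hWle
      rcases (Nat.dvd_prime hp).mp h2 with h3 | h3
      · exact absurd ((eq_bot_iff_card W).mpr h3) hWne
      · exact h3
    have hWeq : W = center (X ⧸ Y) := eq_of_le_of_card_ge hWle (by rw [hWcard, hcard])
    have hxc : π x ∈ center (X ⧸ Y) := by
      rw [mem_center_iff]
      intro g
      obtain ⟨g, rfl⟩ := hπs g
      rw [← map_mul, ← map_mul]
      apply (QuotientGroup.eq (s := Y)).mpr
      have := Y.inv_mem (hYn.conj_mem _ (hrY g) (x * g)⁻¹)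
      have h4 : (g * x)⁻¹ * (x * g) = ((x * g)⁻¹ * (x * g * x⁻¹ * g⁻¹) * (x * g)⁻¹⁻¹) := by group
      rw [h4]
      exact hYn.conj_mem _ (hrY g) (x * g)⁻¹
    rw [← hWeq] at hxc
    obtain ⟨z, hz, hzx⟩ := hxc
    have h5 : z⁻¹ * x ∈ Y := (QuotientGroup.eq (s := Y)).mp hzx
    apply hx
    have : x = z * (z⁻¹ * x) := by group
    rw [this]
    exact (center X).mul_mem hz (hYle h5)
  have hker : φ.ker = centralizer ({x} : Set X) := by
    ext y
    rw [MonoidHom.mem_ker, hφ, mem_centralizer_singleton_iff]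
    constructor
    · intro h
      calc y * x = (x * y * x⁻¹ * y⁻¹)⁻¹ * (x * y) := by group
        _ = x * y := by rw [h]; group
    · intro h
      calc x * y * x⁻¹ * y⁻¹ = (x * y) * x⁻¹ * y⁻¹ := by group
        _ = (y * x) * x⁻¹ * y⁻¹ := by rw [h]
        _ = 1 := by group
  constructor
  · rw [← hker, Subgroup.index_ker, hrange]
  · ext z
    rw [SetLike.mem_coe, ← hrange]
    constructor
    · rintro ⟨y, rfl⟩; exact ⟨y, rfl⟩
    · rintro ⟨y, rfl⟩; exact ⟨y, rfl⟩

end Cfsg.Agent.S2907
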