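import Cfsg.Statements.S2908
import Cfsg.Agent.Lib.Helper54Coprime

set_option autoImplicit false
open Cfsg
open Cfsg.Agent.Lib.Helper54Coprime

namespace Cfsg.Agent.S2908

/-- Let P be a p-subgroup of a finite group, normalized by a p-subgroup A and by a subgroup B of order prime to p that commutes elementwise with A. If [P, B] ≤ [P, A], then B centralizes P. -/
theorem result {G : Type*} [Group G] [Finite G] {p : ℕ} [Fact p.Prime] (P A B : Subgroup G) (hP : IsPGroup p ↥P) (hA : IsPGroup p ↥A) (hB : ¬ p ∣ Nat.card ↥B) (hnA : A ≤ Subgroup.normalizer (P : Set G)) (hnB : B ≤ Subgroup.normalizer (P : Set G)) (hAB : ⁅A, B⁆ = ⊥) (hcomm : ⁅P, B⁆ ≤ ⁅P, A⁆) : ⁅P, B⁆ = ⊥ := by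
  have hH : IsPGroup p ↥(P ⊔ A) := hP.to_sup_of_normal_left' hA hnA
  have hBA : B ≤ Subgroup.normalizer (A : Set G) := by
    refine le_trans ?_ (Subgroup.centralizer_le_normalizer (A : Set G))
    rw [Subgroup.commutator_comm] at hAB
    exact Subgroup.commutator_eq_bot_iff_le_centralizer.mp hAB
  have hn : B ≤ Subgroup.normalizer ((P ⊔ A : Subgroup G) : Set G) :=
    (le_inf hnB hBA).trans (normalizer_inf_le_normalizer_sup P A)
  have hD : P ⊔ A ≤ Subgroup.normalizer ((⁅P ⊔ A, P ⊔ A⁆ : Subgroup G) : Set G) := by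
    intro g hg
    apply mem_normalizer_of_map_conj_eq
    rw [Subgroup.map_commutator, map_conj_eq_of_mem_normalizer (Subgroup.le_normalizer hg)]
  have hc : ⁅P ⊔ A, B⁆ ≤ ⁅P ⊔ A, P ⊔ A⁆ := by
    apply commutator_sup_le _ _ hD
    · exact hcomm.trans (Subgroup.commutator_mono le_sup_left le_sup_right)
    · rw [hAB]; exact bot_le
  have h1 := le_centralizer_of_commutator_le_derived (P ⊔ A) B hH hB hn hc
  rw [Subgroup.commutator_comm, Subgroup.commutator_eq_bot_iff_le_centralizer]
  exact h1.trans (Subgroup.centralizer_le (by exact_mod_cast (le_sup_left : P ≤ P ⊔ A)))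

end Cfsg.Agent.S2908
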