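import Cfsg.Statements.S2909
import Cfsg.Agent.Lib.Helper30Gen
import Cfsg.Agent.Lib.Helper54Dual
import Cfsg.Agent.Lib.Helper54CharP

set_option autoImplicit false
open Cfsg

namespace Cfsg.Agent.S2909

open Subgroup Cfsg.Agent.Lib.Helper30SZ Cfsg.Agent.Lib.Helper53Comm Cfsg.Agent.Lib.Helper54Coprime
  Cfsg.Agent.Lib.Helper54Dual Cfsg.Agent.Lib.Helper30Gen Cfsg.Agent.Lib.Helper28Layer
open scoped commutatorElement

variable {G : Type*} [Group G]

/-- `[X, U] ≤ T` when `U ≤ T` and `X` normalizes `T`. -/
theorem commutator_le_of_le_of_normalizer {X U T : Subgroup G} (hU : U ≤ T)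
    (hX : X ≤ normalizer (T : Set G)) : ⁅X, U⁆ ≤ T := by
  rw [commutator_le]
  intro x hx v hv
  rw [commutatorElement_def]
  exact T.mul_mem (conj_mem_of_mem_normalizer (hX hx) (hU hv)) (T.inv_mem (hU hv))

theorem le_normalizer_commStab {X E D : Subgroup G} (hE : X ≤ normalizer (E : Set G))
    (hD : X ≤ normalizer (D : Set G)) : X ≤ normalizer ((commStab E D : Subgroup G) : Set G) := by
  have key : ∀ x ∈ X, ∀ l ∈ commStab E D, x * l * x⁻¹ ∈ commStab E D := by
    rintro x hx l ⟨hl1, hl2⟩
    refine ⟨Subgroup.mul_mem _ (Subgroup.mul_mem _ (hD hx) hl1) (Subgroup.inv_mem _ (hD hx)), ?_⟩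
    intro e he
    have h1 : ⁅e, x * l * x⁻¹⁆ = x * ⁅x⁻¹ * e * x⁻¹⁻¹, l⁆ * x⁻¹ := by
      simp only [commutatorElement_def]; group
    rw [h1]
    exact conj_mem_of_mem_normalizer (hD hx)
      (hl2 _ (conj_mem_of_mem_normalizer (hE (X.inv_mem hx)) he))
  intro x hx
  rw [mem_normalizer_iff]
  intro l
  refine ⟨key x hx l, fun h => ?_⟩
  have := key x⁻¹ (X.inv_mem hx) _ h
  simpa [mul_assoc] using this

/-- Let p be a prime, E a normal p-subgroup of the finite group G, and U a non-cyclic elementary abelian p-subgroup of G such that either C_E(U) = C_E(u) for every nontrivial u ∈ U, or [E, U] = [E, ⟨u⟩] for every nontrivial u ∈ U. If R is a subgroup of order prime to p normalized by U, then [R, U] centralizes E. -/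
theorem result {G : Type*} [Group G] [Finite G] {p : ℕ} [Fact p.Prime] (E : Subgroup G) [E.Normal] (hE : IsPGroup p ↥E) (U : Subgroup G) (hU : Cfsg.IsElementaryAbelian p U) (hnc : ¬ IsCyclic ↥U) (hcond : (∀ u ∈ U, u ≠ 1 → E ⊓ Subgroup.centralizer (U : Set G) = E ⊓ Subgroup.centralizer ({u} : Set G)) ∨ (∀ u ∈ U, u ≠ 1 → ⁅E, U⁆ = ⁅E, Subgroup.zpowers u⁆)) (R : Subgroup G) (hR : ¬ p ∣ Nat.card ↥R) (hRU : U ≤ Subgroup.normalizer (R : Set G)) : ⁅R, U⁆ ≤ Subgroup.centralizer (E : Set G) := by
  have hp : p.Prime := Fact.out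
  obtain ⟨hUc, hUp⟩ := hU
  have hcomm : ∀ a ∈ U, ∀ b ∈ U, a * b = b * a := by
    intro a ha b hb
    exact congrArg Subtype.val (hUc.is_comm.comm ⟨a, ha⟩ ⟨b, hb⟩)
  have hRcop : (Nat.card R).Coprime p := ((Nat.Prime.coprime_iff_not_dvd hp).mpr hR).symm
  have hEN : ∀ X : Subgroup G, X ≤ normalizer (E : Set G) := by
    intro X
    rw [Subgroup.normalizer_eq_top]
    exact le_top
  -- key claim
  have key : ∀ u ∈ U, u ≠ 1 → ⁅R ⊓ centralizer ({u} : Set G), U⁆ ≤ centralizer (E : Set G) := by
    intro u hu hu1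
    set X := R ⊓ centralizer ({u} : Set G) with hX
    set A := ⁅X, U⁆ with hA
    set B := zpowers u with hB
    have hUX : U ≤ normalizer (X : Set G) := by
      refine le_trans (le_inf hRU ?_) inf_normalizer_le_normalizer_inf
      intro v hv
      rw [mem_normalizer_iff]
      intro x
      simp only [mem_centralizer_singleton_iff]
      have h1 := hcomm v hv u hu
      constructor
      · intro h
        calc v * x * v⁻¹ * u = v * x * (v⁻¹ * u * v) * v⁻¹ := by group
          _ = v * x * (v⁻¹ * (v * u)) * v⁻¹ := by rw [mul_assoc v⁻¹ u v, ← h1]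
          _ = v * (x * u) * v⁻¹ := by group
          _ = (v * u) * x * v⁻¹ := by rw [h]; group
          _ = u * (v * x * v⁻¹) := by rw [h1]; group
      · intro h
        calc x * u = v⁻¹ * (v * x * v⁻¹ * u) * v * (v⁻¹ * u⁻¹ * v * u) := by group
          _ = v⁻¹ * (u * (v * x * v⁻¹)) * v * (v⁻¹ * u⁻¹ * (v * u)) := by rw [h]; group
          _ = v⁻¹ * (u * (v * x * v⁻¹)) * v * (v⁻¹ * u⁻¹ * (u * v)) := by rw [h1]
          _ = v⁻¹ * (u * v) * x := by group
          _ = v⁻¹ * (v * u) * x := by rw [h1]
          _ = u * x := by group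
    have hAX : A ≤ X := commutator_le_of_le_normalizer hUX
    have hAcop : (Nat.card A).Coprime p :=
      Nat.Coprime.coprime_dvd_left (Subgroup.card_dvd_of_le (hAX.trans inf_le_left)) hRcop
    have hBp : IsPGroup p B := by
      apply IsPGroup.of_card (n := 1)
      rw [Nat.card_zpowers, pow_one]
      exact orderOf_eq_prime (hUp u hu) hu1
    have hXB : X ≤ centralizer (B : Set G) := by
      rw [hB, Subgroup.zpowers_eq_closure, Subgroup.centralizer_closure]
      exact inf_le_right
    have hAB : ⁅A, B⁆ = ⊥ := commutator_eq_bot_iff_le_centralizer.mpr (hAX.trans hXB)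
    have hgoal : E ≤ centralizer (A : Set G) := by
      rcases hcond with hc | hc
      · apply Cfsg.Agent.Lib.Helper54CharP.thompson_AxB E A B hE hBp hAcop (hEN A) (hEN B) hAB
        have h1 : E ⊓ centralizer (B : Set G) = E ⊓ centralizer (U : Set G) := by
          rw [hc u hu hu1, hB, Subgroup.zpowers_eq_closure, Subgroup.centralizer_closure]
        set F := E ⊓ centralizer (B : Set G) with hF
        rw [Subgroup.le_centralizer_iff]
        apply commutator_le_of_le_of_normalizer
        · rw [Subgroup.le_centralizer_iff, h1]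
          exact inf_le_right
        · refine le_trans ?_ (normalizer_le_normalizer_centralizer F)
          refine le_trans (le_inf (hEN X) ?_) inf_normalizer_le_normalizer_inf
          exact (hXB.trans (centralizer_le_normalizer _)).trans (normalizer_le_normalizer_centralizer B)
      · apply dual_AxB E A B hE hBp hAcop (hEN A) (hEN B) hAB
        have h1 := hc u hu hu1
        rw [← hB] at h1
        set D := ⁅E, B⁆ with hD
        have hXD : X ≤ normalizer (D : Set G) :=
          le_normalizer_commutator (hEN X) (hXB.trans (centralizer_le_normalizer _))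
        have hUD : U ≤ commStab E D := by
          intro v hv
          refine ⟨?_, fun e he => ?_⟩
          · rw [← h1]; exact le_normalizer_commutator_self_right E U hv
          · rw [← h1]; exact commutator_mem_commutator he hv
        have hAS : A ≤ commStab E D :=
          commutator_le_of_le_of_normalizer hUD (le_normalizer_commStab (hEN X) hXD)
        rw [commutator_le]
        intro e he a ha
        exact (hAS ha).2 e he
    exact Subgroup.le_centralizer_iff.mp hgoal
  -- find `w`, `z`
  have hnt : Nontrivial U := by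
    by_contra h
    rw [not_nontrivial_iff_subsingleton] at h
    exact hnc inferInstance
  obtain ⟨w, hw⟩ := exists_ne (1 : U)
  have hw1 : (w : G) ≠ 1 := fun h => hw (Subtype.ext h)
  have hz : ∃ z ∈ U, z ∉ zpowers (w : G) := by
    by_contra hcon
    push Not at hcon
    apply hnc
    refine ⟨w, fun x => ?_⟩
    obtain ⟨k, hk⟩ := hcon x x.2
    exact ⟨k, Subtype.ext (by simpa using hk)⟩
  obtain ⟨z, hzU, hzw⟩ := hz
  have hgen := le_gen (K := R) (r := p) (w := (w : G)) (z := z) (hcomm _ w.2 _ hzU) (hUp _ w.2) (hUp _ hzU) hRcop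
    (hRU w.2) (hRU hzU)
  set D := centralizer (E : Set G) with hD
  have hDn : D.Normal := inferInstance
  have hDN : ∀ X : Subgroup G, X ≤ normalizer (D : Set G) := by
    intro X
    rw [Subgroup.normalizer_eq_top]
    exact le_top
  have hstab : ∀ u ∈ U, u ≠ 1 → R ⊓ centralizer ({u} : Set G) ≤ commStab U D := by
    intro u hu hu1 x hx
    refine ⟨hDN _ hx, fun v hv => ?_⟩
    have := key u hu hu1
    rw [commutator_comm] at this
    exact this (commutator_mem_commutator hv hx)
  have h1 : gen R (w : G) z ≤ commStab U D := by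
    apply sup_le (hstab _ w.2 hw1)
    apply iSup_le
    intro j
    apply hstab _ (U.mul_mem hzU (U.pow_mem w.2 j))
    intro h
    apply hzw
    have : z = ((w : G) ^ j)⁻¹ := eq_inv_of_mul_eq_one_left h
    rw [this]
    exact Subgroup.inv_mem _ (Subgroup.pow_mem _ (Subgroup.mem_zpowers _) _)
  rw [commutator_comm, commutator_le]
  intro v hv r hr
  exact (h1 (hgen hr)).2 v hv

end Cfsg.Agent.S2909
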