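import Cfsg.Statements.S2910
import Cfsg.Agent.Lib.Helper11Frobenius
import Cfsg.Agent.Lib.Helper30Coprime

set_option autoImplicit false
open Cfsg

namespace Cfsg.Agent.S2910

open Subgroup Cfsg.Agent.Lib.Helper11Frobenius Cfsg.Agent.Lib.Helper30Coprime

/-- Let p be an odd prime dividing the order of the finite group G and P a Sylow p-subgroup of G. If Ω₁(P) (generated by the elements of order dividing p) is contained in the centre of G, then G has a normal p-complement. In particular, if G is quasisimple then Ω₁(P) is not central in G. -/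
theorem result {G : Type*} [Group G] [Finite G] {p : ℕ} [Fact p.Prime] (hp : p ≠ 2) (hdiv : p ∣ Nat.card G) (P : Sylow p G) (hZ : Cfsg.omegaOne p (P : Subgroup G) ≤ Subgroup.center G) : Cfsg.HasNormalPComplement p G ∧ ¬ Cfsg.IsQuasisimple G := by
  have hpp : p.Prime := Fact.out
  have hF : FrobCond p G := by
    apply frobCond_of_sylow P
    intro Q hQP g hg hgp
    have hcop : (Nat.card (zpowers g)).Coprime p := by rwa [Nat.card_zpowers]
    have hAQ : zpowers g ≤ normalizer (Q : Set G) := (zpowers_le).mpr hg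
    have h1 := centralizes_of_fix_order_p p hp (zpowers g) hcop Q (P.2.to_le hQP) hAQ (by
      intro a _ x hx hxp
      have hxZ : x ∈ Subgroup.center G := hZ (Subgroup.subset_closure ⟨hQP hx, hxp⟩)
      rw [(Subgroup.mem_center_iff.mp hxZ a)]
      group)
    rw [Subgroup.mem_centralizer_iff]
    intro x hx
    have h2 := h1 g (mem_zpowers g) x hx
    calc x * g = (g * x * g⁻¹) * g := by rw [h2]
      _ = g * x := by group
  have hN : HasNPC p G := frobenius hF
  refine ⟨hasNPC_iff.mp hN, ?_⟩
  rintro ⟨hperf, -⟩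
  obtain ⟨N, hNn, hcop, k, hk⟩ := hN
  have hQ : IsPGroup p (G ⧸ N) := IsPGroup.of_card (n := k) (by rw [← hk]; rfl)
  have hnil : Group.IsNilpotent (G ⧸ N) := hQ.isNilpotent
  by_cases hnt : Nontrivial (G ⧸ N)
  · exact Group.IsPerfect.not_isNilpotent (G := G ⧸ N) hnil
  · rw [not_nontrivial_iff_subsingleton] at hnt
    have h1 : N = ⊤ := QuotientGroup.subsingleton_iff.mp hnt
    rw [h1, Subgroup.card_top] at hcop
    exact hpp.one_lt.ne' (Nat.Coprime.eq_one_of_dvd hcop.symm hdiv)

end Cfsg.Agent.S2910
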