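import Cfsg.Statements.S2911
import Cfsg.Agent.Lib.Helper92Transfer2

set_option autoImplicit false
open Cfsg

namespace Cfsg.Agent.S2911

open Cfsg.Agent.Lib.Helper92Transfer Cfsg.Agent.Lib.Helper92Transfer2

abbrev T := Multiplicative (ZMod 2) × DihedralGroup 4

def c₀ : T := (Multiplicative.ofAdd 1, 1)

set_option maxRecDepth 100000 in
theorem key : ∀ y : T, (∀ w : T, w * y = y * w) → (∀ w : T, w * w ≠ y) → y.1 = Multiplicative.ofAdd 1 := by
  decide

set_option maxRecDepth 100000 in
theorem c₀_central : ∀ w : T, w * c₀ = c₀ * w := by decide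

set_option maxRecDepth 100000 in
theorem c₀_nonsq : ∀ w : T, w * w ≠ c₀ := by decide

theorem c₀_sq : c₀ * c₀ = 1 := by decide

theorem two_cases : ∀ a : Multiplicative (ZMod 2), a = 1 ∨ a = Multiplicative.ofAdd 1 := by decide

theorem ofAdd_ne : (Multiplicative.ofAdd 1 : Multiplicative (ZMod 2)) ≠ 1 := by decide

/-- A finite group whose Sylow 2-subgroups are isomorphic to the direct product of a group of order 2 and a dihedral group of order 8 has a subgroup of index two. -/
theorem result {G : Type*} [Group G] [Finite G] (S : Sylow 2 G) (hS : Nonempty (↥(S : Subgroup G) ≃* Multiplicative (ZMod 2) × DihedralGroup 4)) : ∃ H : Subgroup G, H.index = 2 := by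
  have : Fact (Nat.Prime 2) := ⟨Nat.prime_two⟩
  obtain ⟨e⟩ := hS
  set P := (S : Subgroup G) with hP
  let φ : P →* Multiplicative (ZMod 2) := (MonoidHom.fst _ _).comp e.toMonoidHom
  have hφdef : ∀ x : P, φ x = (e x).1 := fun x => rfl
  set c : P := e.symm c₀ with hc
  have hec : e c = c₀ := by rw [hc]; simp
  have hφc : φ c = Multiplicative.ofAdd 1 := by rw [hφdef, hec]; rfl
  have hcc : c * c = 1 := by
    apply e.injective
    rw [map_mul, hec, c₀_sq, map_one]
  have hcen : ∀ x : P, x * c = c * x := by
    intro x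
    apply e.injective
    rw [map_mul, map_mul, hec]
    exact c₀_central _
  have hodd : Odd P.index := by
    rw [← Nat.not_even_iff_odd, even_iff_two_dvd]
    exact S.not_dvd_index
  have hV : MonoidHom.transfer φ (c : G) = φ ⟨c, c.2⟩ := by
    apply transfer_central_involution' P S.2 hodd φ (c : G) c.2
    · exact congrArg Subtype.val hcc
    · intro x hx
      exact congrArg Subtype.val (hcen ⟨x, hx⟩)
    · intro g hg
      have hgn : g⁻¹ ∈ Subgroup.normalizer (P : Set G) := by
        apply Subgroup.mem_normalizer_fintype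
        intro n hn
        simpa using hg n hn
      have hgn' : ∀ x ∈ P, g * x * g⁻¹ ∈ P := by
        intro x hx
        have := (Subgroup.mem_normalizer_iff.mp (Subgroup.inv_mem _ hgn) x).mp hx
        simpa using this
      refine ⟨hg c c.2, ?_⟩
      change φ ⟨g⁻¹ * (c : G) * g, hg c c.2⟩ = φ c
      rw [hφc, hφdef]
      apply key
      · intro w
        obtain ⟨x, rfl⟩ := e.surjective w
        rw [← map_mul, ← map_mul]
        congr 1
        apply Subtype.ext
        have h1 := congrArg Subtype.val (hcen ⟨g * x * g⁻¹, hgn' x x.2⟩)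
        simp only [Subgroup.coe_mul] at h1 ⊢
        calc (x : G) * (g⁻¹ * (c : G) * g) = g⁻¹ * (g * x * g⁻¹ * c) * g := by group
          _ = g⁻¹ * (c * (g * x * g⁻¹)) * g := by rw [h1]
          _ = g⁻¹ * (c : G) * g * x := by group
      · intro w hw
        obtain ⟨x, rfl⟩ := e.surjective w
        rw [← map_mul] at hw
        have h1 := congrArg Subtype.val (e.injective hw)
        simp only [Subgroup.coe_mul] at h1
        apply c₀_nonsq (e ⟨g * x * g⁻¹, hgn' x x.2⟩)
        rw [← map_mul, ← hec]
        congr 1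
        apply Subtype.ext
        simp only [Subgroup.coe_mul]
        calc g * (x : G) * g⁻¹ * (g * x * g⁻¹) = g * (x * x) * g⁻¹ := by group
          _ = g * (g⁻¹ * (c : G) * g) * g⁻¹ := by rw [h1]
          _ = c := by group
    · intro h
      change φ h = 1 ∨ φ h = φ c
      rw [hφc]
      exact two_cases _
  change MonoidHom.transfer φ (c : G) = φ c at hV
  rw [hφc] at hV
  refine ⟨(MonoidHom.transfer φ).ker, ?_⟩
  rw [Subgroup.index_ker]
  have h1 : (MonoidHom.transfer φ).range = ⊤ := by
    rw [eq_top_iff]
    intro a _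
    rcases two_cases a with rfl | rfl
    · exact Subgroup.one_mem _
    · exact ⟨_, hV⟩
  rw [h1, Subgroup.card_top]
  simp

end Cfsg.Agent.S2911
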