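import Cfsg.Statements.S2912
import Cfsg.Agent.Lib.Helper3Extraspecial
import Cfsg.Agent.Lib.Helper1Fpf

set_option autoImplicit false
open Cfsg

namespace Cfsg.Agent.S2912

open Finset Cfsg.Agent.Lib.Helper30Gen Cfsg.Agent.Lib.Helper3Extraspecial
open Cfsg.Agent.Lib.Helper3PGroup Cfsg.Agent.Lib.Helper3Class2
open scoped commutatorElement

universe u v

section act
variable {M : Type u} {V : Type v} [Group M] [CommGroup V] [MulDistribMulAction M V]

theorem nrm_mem (W : Subgroup V) (hinv : ∀ g : M, ∀ v ∈ W, g • v ∈ W) (r : ℕ) (g : M) {v : V}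
    (hv : v ∈ W) : nrm r g v ∈ W :=
  Subgroup.prod_mem _ (fun i _ => hinv _ _ hv)

theorem nrm_eq_one (W : Subgroup V) (hinv : ∀ g : M, ∀ v ∈ W, g • v ∈ W) {p : ℕ} {d : M}
    (hd : d ^ p = 1) (hfix : ∀ v ∈ W, d • v = v → v = 1) {v : V} (hv : v ∈ W) :
    nrm p d v = 1 :=
  hfix _ (nrm_mem W hinv p d hv) (smul_nrm hd v)

theorem nrm_mul (r : ℕ) (g : M) (a b : V) : nrm r g (a * b) = nrm r g a * nrm r g b := by
  unfold nrm
  rw [← Finset.prod_mul_distrib]
  exact Finset.prod_congr rfl (fun i _ => smul_mul' _ _ _)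

theorem nrm_one (r : ℕ) (g : M) : nrm r g (1 : V) = 1 := by
  unfold nrm
  exact Finset.prod_eq_one (fun i _ => smul_one _)

theorem nrm_inv (r : ℕ) (g : M) (a : V) : nrm r g a⁻¹ = (nrm r g a)⁻¹ := by
  rw [eq_inv_iff_mul_eq_one, ← nrm_mul, inv_mul_cancel, nrm_one]

theorem nrm_prod {ι : Type*} (r : ℕ) (g : M) (s : Finset ι) (f : ι → V) :
    nrm r g (∏ j ∈ s, f j) = ∏ j ∈ s, nrm r g (f j) := by
  unfold nrm
  rw [Finset.prod_comm]
  exact Finset.prod_congr rfl (fun i _ => Finset.smul_prod')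

theorem nrm_smul_comm (r : ℕ) {g h : M} (hc : Commute h g) (a : V) :
    nrm r g (h • a) = h • nrm r g a := by
  unfold nrm
  rw [Finset.smul_prod']
  refine Finset.prod_congr rfl (fun i _ => ?_)
  rw [← mul_smul, ← mul_smul, (hc.pow_right i).eq]

theorem nrm_mul_fix (r : ℕ) {a d : M} (hc : Commute d a) {u : V} (hu : a • u = u) :
    nrm r (d * a) u = nrm r d u := by
  unfold nrm
  refine Finset.prod_congr rfl (fun i _ => ?_)
  rw [hc.mul_pow, mul_smul]
  congr 1
  clear * - hu
  induction i with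
  | zero => simp
  | succ i ih => rw [pow_succ, mul_smul, hu, ih]

theorem nrm_one_left (r : ℕ) (u : V) : nrm r (1 : M) u = u ^ r := by
  unfold nrm
  simp

/-- the fixed points of `x` in `W` -/
def fixIn (W : Subgroup V) (x : M) : Subgroup V where
  carrier := {v | v ∈ W ∧ x • v = v}
  mul_mem' := by
    rintro a b ⟨ha, ha'⟩ ⟨hb, hb'⟩
    exact ⟨W.mul_mem ha hb, by rw [smul_mul', ha', hb']⟩
  one_mem' := ⟨W.one_mem, smul_one x⟩
  inv_mem' := by
    rintro a ⟨ha, ha'⟩
    exact ⟨W.inv_mem ha, by rw [smul_inv', ha']⟩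

theorem mem_fixIn {W : Subgroup V} {x : M} {v : V} : v ∈ fixIn W x ↔ v ∈ W ∧ x • v = v := Iff.rfl

theorem conj_pow_eq {x y c : M} (hxy : y * x * y⁻¹ = x * c) (hcy : Commute c y) (j : ℕ) :
    y ^ j * x * (y ^ j)⁻¹ = x * c ^ j := by
  induction j with
  | zero => simp
  | succ j ih =>
    have : y ^ (j + 1) * x * (y ^ (j + 1))⁻¹ = y * (y ^ j * x * (y ^ j)⁻¹) * y⁻¹ := by
      rw [pow_succ']; group
    rw [this, ih]
    have h2 : y * (x * c ^ j) * y⁻¹ = (y * x * y⁻¹) * (y * c ^ j * y⁻¹) := by group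
    have h3 : y * c ^ j * y⁻¹ = c ^ j := by
      rw [← (hcy.pow_left j).eq, mul_inv_cancel_right]
    rw [h2, hxy, h3, mul_assoc, ← pow_succ']

variable {p : ℕ} [hp : Fact p.Prime]

theorem fixIn_ne_bot (W : Subgroup V) (hinv : ∀ g : M, ∀ v ∈ W, g • v ∈ W) {x y c : M}
    (hxy : y * x * y⁻¹ = x * c) (hcx : Commute c x) (hcy : Commute c y) (hx : x ^ p = 1)
    (hc : c ^ p = 1) (hfix : ∀ v ∈ W, c • v = v → v = 1)
    (htor : ∀ v ∈ W, v ^ p = 1 → v = 1) (hW : W ≠ ⊥) : fixIn W x ≠ ⊥ := by
  obtain ⟨⟨v, hv⟩, hv1⟩ := (Subgroup.ne_bot_iff_exists_ne_one.mp hW)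
  have hv1' : v ≠ 1 := fun h => hv1 (Subtype.ext h)
  have hid := norm_identity (r := p) (w := c) (z := x) hcx hc v
  rw [nrm_eq_one W hinv hc hfix hv, nrm_eq_one W hinv hc hfix (nrm_mem W hinv p x hv), mul_one,
    mul_one] at hid
  have hne : ∏ j ∈ range p, nrm p (x * c ^ j) v ≠ 1 := by
    rw [hid]
    exact fun h => hv1' (htor v hv h)
  obtain ⟨j, -, hj⟩ := Finset.exists_ne_one_of_prod_ne_one hne
  set u := nrm p (x * c ^ j) v with hu
  have huW : u ∈ W := nrm_mem W hinv p _ hv
  have hpow : (x * c ^ j) ^ p = 1 := by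
    rw [(hcx.symm.pow_right j).mul_pow, hx, ← pow_mul, mul_comm, pow_mul, hc, one_pow, one_mul]
  have hfx : (x * c ^ j) • u = u := smul_nrm hpow v
  intro hbot
  have hmem : (y ^ j)⁻¹ • u ∈ fixIn W x := by
    refine ⟨hinv _ _ huW, ?_⟩
    have h1 : x * (y ^ j)⁻¹ = (y ^ j)⁻¹ * (x * c ^ j) := by
      rw [← conj_pow_eq hxy hcy j]; group
    rw [← mul_smul, h1, mul_smul, hfx]
  rw [hbot, Subgroup.mem_bot] at hmem
  apply hj
  have := congrArg (fun t => (y ^ j) • t) hmem
  simpa using this

theorem card_fixIn_pow_le [Finite V] (W : Subgroup V) (hinv : ∀ g : M, ∀ v ∈ W, g • v ∈ W) {x y c : M}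
    (hxy : y * x * y⁻¹ = x * c) (hcx : Commute c x) (hcy : Commute c y)
    (hc : c ^ p = 1) (hc1 : c ≠ 1)
    (hfix : ∀ d ∈ Subgroup.zpowers c, d ≠ 1 → ∀ v ∈ W, d • v = v → v = 1)
    (htor : ∀ v ∈ W, v ^ p = 1 → v = 1) : Nat.card (fixIn W x) ^ p ≤ Nat.card W := by
  have hord : orderOf c = p := orderOf_eq_prime hc hc1
  let Φ : (Fin p → fixIn W x) → W := fun f =>
    ⟨∏ j : Fin p, (y ^ (j : ℕ)) • (f j : V), Subgroup.prod_mem _ (fun j _ => hinv _ _ (f j).2.1)⟩
  have hfixj : ∀ (j : ℕ) (a : fixIn W x), (x * c ^ j) • ((y ^ j) • (a : V)) = (y ^ j) • (a : V) := by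
    intro j a
    rw [← conj_pow_eq hxy hcy j, ← mul_smul, inv_mul_cancel_right, mul_smul, a.2.2]
  have hkey : ∀ (f : Fin p → fixIn W x) (i : Fin p),
      nrm p (x * c ^ (i : ℕ)) (Φ f : V) = ((y ^ (i : ℕ)) • (f i : V)) ^ p := by
    intro f i
    show nrm p (x * c ^ (i : ℕ)) (∏ j : Fin p, (y ^ (j : ℕ)) • (f j : V)) = _
    rw [nrm_prod, Finset.prod_eq_single i]
    · have h1 : x * c ^ (i : ℕ) = 1 * (x * c ^ (i : ℕ)) := (one_mul _).symm
      rw [h1, nrm_mul_fix p (Commute.one_left _) (hfixj i (f i)), nrm_one_left]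
    · intro j _ hji
      set d : M := c ^ (i : ℕ) * (c ^ (j : ℕ))⁻¹ with hd
      have hdz : d ∈ Subgroup.zpowers c :=
        Subgroup.mul_mem _ (Subgroup.pow_mem _ (Subgroup.mem_zpowers c) _)
          (Subgroup.inv_mem _ (Subgroup.pow_mem _ (Subgroup.mem_zpowers c) _))
      have hd1 : d ≠ 1 := by
        intro h
        rw [hd, mul_inv_eq_one, pow_inj_mod, hord, Nat.mod_eq_of_lt i.2, Nat.mod_eq_of_lt j.2] at h
        exact hji (Fin.ext h.symm)
      have hcd : Commute d (x * c ^ (j : ℕ)) := by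
        have h1 : Commute c (x * c ^ (j : ℕ)) := hcx.mul_right (Commute.pow_right (Commute.refl c) _)
        exact (h1.pow_left _).mul_left ((h1.pow_left _).inv_left)
      have h1 : x * c ^ (i : ℕ) = d * (x * c ^ (j : ℕ)) := by
        rw [hcd.eq, hd, mul_assoc]
        congr 1
        rw [← mul_assoc, ((Commute.refl c).pow_pow _ _).eq, mul_inv_cancel_right]
      have hdp : d ^ p = 1 := by
        obtain ⟨k, hk⟩ := Subgroup.mem_zpowers_iff.mp hdz
        rw [← hk, ← zpow_natCast, ← zpow_mul, mul_comm, zpow_mul, zpow_natCast, hc, one_zpow]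
      rw [h1, nrm_mul_fix p hcd (hfixj j (f j))]
      exact nrm_eq_one W hinv hdp (hfix d hdz hd1) (hinv _ _ (f j).2.1)
    · intro h; exact absurd (Finset.mem_univ i) h
  have hinj : Function.Injective Φ := by
    intro f g hfg
    funext i
    have h1 := hkey f i
    rw [hfg, hkey g i] at h1
    have h2 : ((y ^ (i : ℕ)) • ((g i : V) * (f i : V)⁻¹)) ^ p = 1 := by
      rw [smul_mul', smul_inv', mul_pow, inv_pow, h1, mul_inv_cancel]
    have h3 := htor _ (hinv _ _ (W.mul_mem (g i).2.1 (W.inv_mem (f i).2.1))) h2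
    have h4 : (g i : V) * (f i : V)⁻¹ = 1 := by
      have := congrArg (fun t => (y ^ (i : ℕ))⁻¹ • t) h3
      simpa using this
    exact Subtype.ext (mul_inv_eq_one.mp h4).symm
  have := Nat.card_le_card_of_injective Φ hinj
  rwa [Nat.card_fun, Nat.card_fin] at this

theorem card_modEq [Finite V] [Finite M] (hP : IsPGroup p M) (W : Subgroup V)
    (hinv : ∀ g : M, ∀ v ∈ W, g • v ∈ W) (c : M) (hfix : ∀ v ∈ W, c • v = v → v = 1) :
    Nat.card W ≡ 1 [MOD p] := by
  let S : SubMulAction M V := ⟨W, fun g v hv => hinv g v hv⟩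
  have h1 := hP.card_modEq_card_fixedPoints S
  have h2 : Nat.card (MulAction.fixedPoints M S) = 1 := by
    rw [Nat.card_eq_one_iff_unique]
    refine ⟨⟨?_⟩, ⟨⟨⟨1, W.one_mem⟩, fun g => Subtype.ext (smul_one g)⟩⟩⟩
    rintro ⟨⟨a, ha⟩, ha'⟩ ⟨⟨b, hb⟩, hb'⟩
    have e1 : a = 1 := hfix a ha (congrArg Subtype.val (ha' c))
    have e2 : b = 1 := hfix b hb (congrArg Subtype.val (hb' c))
    subst e1 e2
    rfl
  rw [h2] at h1
  exact h1

theorem not_prime_card [Finite V] {r : ℕ} (hr : r.Prime) (W : Subgroup V)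
    (hinv : ∀ g : M, ∀ v ∈ W, g • v ∈ W) (x y : M)
    (hfix : ∀ v ∈ W, ⁅x, y⁆ • v = v → v = 1) : Nat.card W ≠ r := by
  intro hcard
  haveI : Fact r.Prime := ⟨hr⟩
  haveI := isCyclic_of_prime_card hcard
  obtain ⟨⟨g, hg⟩, hgen⟩ := IsCyclic.exists_generator (α := W)
  obtain ⟨a, ha⟩ := Subgroup.mem_zpowers_iff.mp (hgen ⟨x • g, hinv x g hg⟩)
  obtain ⟨b, hb⟩ := Subgroup.mem_zpowers_iff.mp (hgen ⟨y • g, hinv y g hg⟩)
  have ha' : g ^ a = x • g := by simpa using congrArg Subtype.val ha
  have hb' : g ^ b = y • g := by simpa using congrArg Subtype.val hb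
  have h1 : (x * y) • g = (y * x) • g := by
    rw [mul_smul, mul_smul, ← hb', ← ha', smul_zpow', smul_zpow', ← ha', ← hb', ← zpow_mul,
      ← zpow_mul, mul_comm]
  have h2 : ⁅x, y⁆ • ((y * x) • g) = (y * x) • g := by
    rw [← mul_smul]
    have : ⁅x, y⁆ * (y * x) = x * y := by rw [commutatorElement_def]; group
    rw [this, h1]
  have h3 := hfix _ (hinv _ _ hg) h2
  have h4 : g = 1 := by
    have : (y * x)⁻¹ • ((y * x) • g) = (y * x)⁻¹ • (1 : V) := by rw [h3]
    rwa [inv_smul_smul, smul_one] at this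
  have h5 : Nat.card W = 1 := by
    rw [Nat.card_eq_one_iff_unique]
    refine ⟨⟨?_⟩, ⟨1⟩⟩
    have : ∀ t : W, t = 1 := by
      intro t
      obtain ⟨k, hk⟩ := Subgroup.mem_zpowers_iff.mp (hgen t)
      rw [← hk]
      apply Subtype.ext
      simp [h4]
    intro s t
    rw [this s, this t]
  rw [h5] at hcard
  exact hr.one_lt.ne hcard

end act

section grp
variable {P : Type u} [Group P] [Finite P] {p : ℕ} [hp : Fact p.Prime]

theorem pow_mem_center (h : Cfsg.IsExtraspecial p P) (g : P) : g ^ p ∈ Subgroup.center P := by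
  rw [← h.1.2.1]
  exact pow_mem_frattini h.1.1 g

theorem center_pow (h : Cfsg.IsExtraspecial p P) {c : P} (hc : c ∈ Subgroup.center P) :
    c ^ p = 1 := by
  have := pow_card_eq_one' (G := Subgroup.center P) (x := ⟨c, hc⟩)
  rw [h.2] at this
  exact congrArg Subtype.val this

theorem exists_noncentral (h : Cfsg.IsExtraspecial p P) :
    (∃ x : P, x ∉ Subgroup.center P ∧ x ^ p = 1) ∨ (p = 2 ∧ Nat.card P = 8) := by
  obtain ⟨x, y, hxy⟩ := exists_noncomm h
  have hcl := comm_central h
  have hxZ : x ∉ Subgroup.center P := by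
    intro hx
    apply hxy
    rw [commutatorElement_eq_one_iff_mul_comm]
    exact (Subgroup.mem_center_iff.mp hx y).symm
  by_cases hx : x ^ p = 1
  · exact Or.inl ⟨x, hxZ, hx⟩
  by_cases hp2 : p = 2
  · by_cases hQ : Nat.card (hypCompl x y) = p
    · right
      refine ⟨hp2, ?_⟩
      rw [card_eq_hypCompl h hxy, hQ, hp2]; norm_num
    · left
      have hQe := (hypCompl_dichotomy h hxy).resolve_left hQ
      obtain ⟨a, b, hab⟩ := exists_noncomm hQe
      have haZ : (a : P) ∉ Subgroup.center P := by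
        intro ha
        apply hab
        rw [commutatorElement_eq_one_iff_mul_comm]
        exact Subtype.ext (Subgroup.mem_center_iff.mp ha b).symm
      by_cases ha : (a : P) ^ p = 1
      · exact ⟨a, haZ, ha⟩
      -- both squares are the nontrivial central element
      have hax := (mem_hypCompl.mp a.2).1
      have hay := (mem_hypCompl.mp a.2).2
      refine ⟨x * a, ?_, ?_⟩
      · intro hc
        apply hxy
        rw [commutatorElement_eq_one_iff_mul_comm]
        have h1 := Subgroup.mem_center_iff.mp hc y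
        -- y * (x * a) = x * a * y
        have h2 : y * x * a = x * y * a := by
          calc y * x * a = y * (x * a) := by group
            _ = x * a * y := h1
            _ = x * (a * y) := by group
            _ = x * (y * a) := by rw [hay]
            _ = x * y * a := by group
        exact (mul_right_cancel h2).symm
      · have hc : Commute x (a : P) := hax.symm
        rw [hc.mul_pow]
        have h1 : (⟨x ^ p, pow_mem_center h x⟩ : Subgroup.center P) ≠ 1 :=
          fun e => hx (congrArg Subtype.val e)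
        obtain ⟨i, hi⟩ := Subgroup.mem_zpowers_iff.mp
          (mem_zpowers_of_prime_card h.2 h1 (g' := ⟨(a : P) ^ p, pow_mem_center h a⟩))
        have hi' : (x ^ p) ^ i = (a : P) ^ p := by simpa using congrArg Subtype.val hi
        have hsq : (x ^ p) ^ (2 : ℤ) = 1 := by
          have := center_pow h (pow_mem_center h x)
          rw [hp2] at this ⊢
          exact_mod_cast this
        rcases Int.even_or_odd' i with ⟨k, hk | hk⟩
        · exfalso
          apply ha
          rw [← hi', hk, zpow_mul, hsq, one_zpow]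
        · rw [← hi', hk, zpow_add, zpow_mul, hsq, one_zpow, one_mul, zpow_one]
          have := center_pow h (pow_mem_center h x)
          rw [hp2] at this ⊢
          rw [← sq]; exact this
  · left
    have h1 : (⟨x ^ p, pow_mem_center h x⟩ : Subgroup.center P) ≠ 1 :=
      fun e => hx (congrArg Subtype.val e)
    obtain ⟨i, hi⟩ := Subgroup.mem_zpowers_iff.mp
      (mem_zpowers_of_prime_card h.2 h1 (g' := ⟨y ^ p, pow_mem_center h y⟩))
    have hi' : (x ^ p) ^ i = y ^ p := by simpa using congrArg Subtype.val hi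
    refine ⟨y * (x ^ i)⁻¹, ?_, ?_⟩
    · intro hc
      apply hxy
      rw [commutatorElement_eq_one_iff_mul_comm]
      have h2 : Commute (y * (x ^ i)⁻¹) x := (Subgroup.mem_center_iff.mp hc x).symm
      have h3 : Commute (x ^ i) x := (Commute.refl x).zpow_left i
      have h4 := h2.mul_left h3
      rw [inv_mul_cancel_right] at h4
      exact h4.eq.symm
    · have hcc := hcl ((x ^ i)⁻¹) y
      rw [mul_pow_prime_class2 hp.out hp2 y ((x ^ i)⁻¹) (commute_of_mem_center hcc _)
        (commute_of_mem_center hcc _) (center_pow h hcc), inv_pow, ← hi', ← zpow_natCast,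
        ← zpow_natCast, ← zpow_mul, ← zpow_mul, mul_comm, mul_inv_cancel]

end grp

theorem card_W {V : Type v} [CommGroup V] [Finite V] {r : ℕ} [hr : Fact r.Prime] (W : Subgroup V)
    (htor : ∀ v ∈ W, v ^ r = 1) (hW : W ≠ ⊥) : ∃ k : ℕ, 1 ≤ k ∧ Nat.card W = r ^ k := by
  have h1 : IsPGroup r W := fun v => ⟨1, by rw [pow_one]; exact Subtype.ext (htor v v.2)⟩
  obtain ⟨k, hk⟩ := IsPGroup.iff_card.mp h1
  refine ⟨k, ?_, hk⟩
  by_contra h
  have : k = 0 := by omega
  rw [this, pow_zero] at hk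
  exact hW (Subgroup.card_eq_one.mp hk)

theorem key {V : Type v} [CommGroup V] [Finite V] {p r n : ℕ} [hp : Fact p.Prime]
    [hr : Fact r.Prime] (hpr : p ≠ r) (hmin : ∀ k : ℕ, 1 ≤ k → p ∣ r ^ k - 1 → n ≤ k) :
    ∀ (w : ℕ) (P : Type u) [Group P] [Finite P] [MulDistribMulAction P V] (W : Subgroup V),
      (Nat.card P = p ∨ Cfsg.IsExtraspecial p P) → Nat.card P = p ^ (2 * w + 1) →
      (∀ g : P, ∀ v ∈ W, g • v ∈ W) → (∀ v ∈ W, v ^ r = 1) → W ≠ ⊥ →
      (∀ c ∈ Subgroup.center P, c ≠ 1 → ∀ v ∈ W, c • v = v → v = 1) →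
      r ^ (n * p ^ w) ≤ Nat.card W := by
  intro w
  induction w with
  | zero =>
    intro P _ _ _ W hX hcard hinv htor hW hfix
    have hPG : IsPGroup p P := IsPGroup.of_card hcard
    haveI : Nontrivial P := by
      rw [← Finite.one_lt_card_iff_nontrivial, hcard]
      simpa using hp.out.one_lt
    haveI := hPG.center_nontrivial
    obtain ⟨⟨c, hc⟩, hc1⟩ := exists_ne (1 : Subgroup.center P)
    have hc1' : c ≠ 1 := fun h => hc1 (Subtype.ext h)
    have hmod := card_modEq hPG W hinv c (hfix c hc hc1')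
    obtain ⟨k, hk1, hk⟩ := card_W W htor hW
    rw [hk] at hmod
    have hdvd : p ∣ r ^ k - 1 :=
      (Nat.modEq_iff_dvd' (Nat.one_le_pow _ _ hr.out.pos)).mp hmod.symm
    have := hmin k hk1 hdvd
    rw [hk, pow_zero, mul_one]
    exact Nat.pow_le_pow_right hr.out.pos this
  | succ w ih =>
    intro P _ _ _ W hX hcard hinv htor hW hfix
    have hE : Cfsg.IsExtraspecial p P := by
      rcases hX with h | h
      · exfalso
        rw [hcard] at h
        have h2 : p ^ (2 * (w + 1) + 1) = p ^ 1 := by rw [h, pow_one]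
        have := Nat.pow_right_injective hp.out.two_le h2
        omega
      · exact h
    have htp : ∀ v ∈ W, v ^ p = 1 → v = 1 := by
      intro v hv hvp
      have := pow_gcd_eq_one.mpr ⟨hvp, htor v hv⟩
      rwa [(Nat.coprime_primes hp.out hr.out).mpr hpr, pow_one] at this
    rcases exists_noncentral hE with ⟨x, hxZ, hxp⟩ | ⟨hp2, h8⟩
    · obtain ⟨y, hy⟩ : ∃ y : P, ⁅x, y⁆ ≠ 1 := by
        by_contra hcon
        push Not at hcon
        apply hxZ
        rw [Subgroup.mem_center_iff]
        intro g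
        exact ((commutatorElement_eq_one_iff_mul_comm).mp (hcon g)).symm
      have hcZ : ⁅y, x⁆ ∈ Subgroup.center P := comm_central hE y x
      have hc1 : ⁅y, x⁆ ≠ 1 := by
        intro h
        apply hy
        rw [← commutatorElement_inv, h, inv_one]
      have hxy : y * x * y⁻¹ = x * ⁅y, x⁆ := by
        rw [← (commute_of_mem_center hcZ x).eq, commutatorElement_def]
        group
      have hcx := commute_of_mem_center hcZ x
      have hcy := commute_of_mem_center hcZ y
      have hcp := center_pow hE hcZ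
      have h1 := fixIn_ne_bot W hinv hxy hcx hcy hxp hcp (hfix _ hcZ hc1) htp hW
      have h2 := card_fixIn_pow_le W hinv hxy hcx hcy hcp hc1
        (fun d hd hd1 => hfix d ((Subgroup.zpowers_le.mpr hcZ) hd) hd1) htp
      have hQcard : Nat.card (hypCompl x y) = p ^ (2 * w + 1) := by
        have h3 := card_eq_hypCompl hE hy
        rw [hcard] at h3
        have e : p ^ (2 * (w + 1) + 1) = p ^ (2 * w + 1) * p ^ 2 := by ring
        rw [e] at h3
        exact (Nat.eq_of_mul_eq_mul_right (pow_pos hp.out.pos 2) h3).symm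
      have h3 := ih (hypCompl x y) (fixIn W x) (hypCompl_dichotomy hE hy) hQcard
        (by
          intro g v hv
          refine ⟨hinv (g : P) v hv.1, ?_⟩
          have hgx := (mem_hypCompl.mp g.2).1
          show x • ((g : P) • v) = (g : P) • v
          rw [← mul_smul, ← hgx, mul_smul, hv.2])
        (fun v hv => htor v hv.1) h1
        (by
          intro c hc hc1 v hv hcv
          exact hfix (c : P) ((mem_center_hypCompl_iff hE hy c).mp hc)
            (fun h => hc1 (Subtype.ext h)) v hv.1 hcv)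
      calc r ^ (n * p ^ (w + 1)) = (r ^ (n * p ^ w)) ^ p := by rw [← pow_mul, pow_succ, mul_assoc]
        _ ≤ (Nat.card (fixIn W x)) ^ p := Nat.pow_le_pow_left h3 p
        _ ≤ _ := h2
    · have hw : w = 0 := by
        rw [hcard, hp2] at h8
        have h2 : 2 ^ (2 * (w + 1) + 1) = 2 ^ 3 := by rw [h8]; norm_num
        have := Nat.pow_right_injective (le_refl 2) h2
        omega
      obtain ⟨x, y, hxy⟩ := exists_noncomm hE
      obtain ⟨k, hk1, hk⟩ := card_W W htor hW
      have hne := not_prime_card hr.out W hinv x y (hfix _ (comm_central hE x y) hxy)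
      have hk2 : 2 ≤ k := by
        by_contra h
        have : k = 1 := by omega
        rw [this, pow_one] at hk
        exact hne hk
      have hn1 : n ≤ 1 := by
        apply hmin 1 le_rfl
        rw [hp2, pow_one]
        rcases hr.out.eq_two_or_odd' with h | h
        · exact absurd (hp2.trans h.symm) hpr
        · obtain ⟨m, hm⟩ := h
          exact ⟨m, by omega⟩
      rw [hk, hw, hp2]
      apply Nat.pow_le_pow_right hr.out.pos
      simp only [zero_add, pow_one]
      omega

open scoped IsMulCommutative in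
theorem main {G : Type*} [Group G] [Finite G] {p r : ℕ} [hp : Fact p.Prime] [hr : Fact r.Prime]
    (hpr : p ≠ r) (E A : Subgroup G) (w : ℕ) (hE : Cfsg.IsExtraspecial p ↥E)
    (hEcard : Nat.card ↥E = p ^ (2 * w + 1)) (hA : Cfsg.IsElementaryAbelian r A)
    (hnorm : E ≤ Subgroup.normalizer (A : Set G))
    (hfaith : E ⊓ Subgroup.centralizer (A : Set G) = ⊥) (n : ℕ)
    (hmin : ∀ k : ℕ, 1 ≤ k → p ∣ r ^ k - 1 → n ≤ k) : r ^ (n * p ^ w) ≤ Nat.card ↥A := by
  haveI : IsMulCommutative A := hA.1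
  letI := Cfsg.Agent.Lib.Helper1Fpf.conjAct E A hnorm
  haveI : Nontrivial (Subgroup.center E) := by
    rw [← Finite.one_lt_card_iff_nontrivial, hE.2]
    exact hp.out.one_lt
  obtain ⟨⟨z, hz⟩, hz1⟩ := exists_ne (1 : Subgroup.center E)
  have hz1' : z ≠ 1 := fun h => hz1 (Subtype.ext h)
  have hzp : z ^ p = 1 := center_pow hE hz
  let W : Subgroup A :=
    { carrier := {v | nrm p z v = 1}
      mul_mem' := by
        intro a b ha hb
        show nrm p z (a * b) = 1
        rw [nrm_mul, show nrm p z a = 1 from ha, show nrm p z b = 1 from hb, one_mul]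
      one_mem' := nrm_one p z
      inv_mem' := by
        intro a ha
        show nrm p z a⁻¹ = 1
        rw [nrm_inv, show nrm p z a = 1 from ha, inv_one] }
  have hAr : ∀ v : A, v ^ r = 1 := fun v => Subtype.ext (hA.2 v v.2)
  have h1 := key (V := A) hpr hmin w E W (Or.inr hE) hEcard
    (by
      intro g v hv
      show nrm p z (g • v) = 1
      rw [nrm_smul_comm p (commute_of_mem_center hz g).symm, show nrm p z v = 1 from hv, smul_one])
    (fun v _ => hAr v)
    (by
      intro hbot
      apply hz1'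
      have hzc : (z : G) ∈ E ⊓ Subgroup.centralizer (A : Set G) := by
        refine Subgroup.mem_inf.mpr ⟨z.2, ?_⟩
        rw [Subgroup.mem_centralizer_iff]
        intro a ha
        have hmem : (⟨a, ha⟩ : A)⁻¹ * (z • (⟨a, ha⟩ : A)) ∈ W := by
          show nrm p z _ = 1
          rw [nrm_mul, nrm_inv, nrm_smul_comm p (Commute.refl z), smul_nrm hzp, inv_mul_cancel]
        rw [hbot, Subgroup.mem_bot, inv_mul_eq_one] at hmem
        have h2 : a = (z : G) * a * (z : G)⁻¹ := congrArg Subtype.val hmem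
        calc a * z = ((z : G) * a * (z : G)⁻¹) * z := by rw [← h2]
          _ = z * a := by group
      rw [hfaith, Subgroup.mem_bot] at hzc
      exact Subtype.ext hzc)
    (by
      intro c hc hc1 v hv hcv
      have hc1' : (⟨c, hc⟩ : Subgroup.center E) ≠ 1 := fun e => hc1 (congrArg Subtype.val e)
      obtain ⟨i, hi⟩ := Subgroup.mem_zpowers_iff.mp
        (mem_zpowers_of_prime_card hE.2 hc1' (g' := ⟨z, hz⟩))
      have hi' : c ^ i = z := by simpa using congrArg Subtype.val hi
      have hzv : z • v = v := by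
        rw [← hi']
        exact (MulAction.mem_stabilizer_iff.mp
          (Subgroup.zpow_mem _ (MulAction.mem_stabilizer_iff.mpr hcv) i))
      have h2 : nrm p z v = v ^ p := by
        have := nrm_mul_fix p (Commute.one_left z) hzv
        rw [one_mul, nrm_one_left] at this
        exact this
      have h3 : v ^ p = 1 := by rw [← h2]; exact hv
      have := pow_gcd_eq_one.mpr ⟨h3, hAr v⟩
      rwa [(Nat.coprime_primes hp.out hr.out).mpr hpr, pow_one] at this)
  exact h1.trans (Subgroup.card_le_card_group W)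

/-- Let p and r be distinct primes, let E be an extraspecial subgroup of order p^(2w+1) of a finite group, and let A be an elementary abelian r-subgroup normalized by E on which E acts faithfully (C_E(A) = 1). If n ≥ 1 is least with p dividing rⁿ − 1 (the smallest dimension of a faithful representation of a group of order p over the field with r elements), then the order of A is at least r^(n·p^w). -/
theorem result {G : Type*} [Group G] [Finite G] {p r : ℕ} [Fact p.Prime] [hr : Fact r.Prime] (hpr : p ≠ r) (E A : Subgroup G) (w : ℕ) (hE : Cfsg.IsExtraspecial p ↥E) (hEcard : Nat.card ↥E = p ^ (2 * w + 1)) (hA : Cfsg.IsElementaryAbelian r A) (hnorm : E ≤ Subgroup.normalizer (A : Set G)) (hfaith : E ⊓ Subgroup.centralizer (A : Set G) = ⊥) (n : ℕ) (hn : 1 ≤ n) (hdiv : p ∣ r ^ n - 1) (hmin : ∀ k : ℕ, 1 ≤ k → p ∣ r ^ k - 1 → n ≤ k) : r ^ (n * p ^ w) ≤ Nat.card ↥A := by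
  exact main hpr E A w hE hEcard hA hnorm hfaith n hmin

end Cfsg.Agent.S2912
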