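import Cfsg.Statements.S2922
import Cfsg.Agent.Lib.Helper54CharP

set_option autoImplicit false
open Cfsg
open Cfsg.Agent.Lib.Helper54CharP Cfsg.Agent.Lib.Helper28Comp

namespace Cfsg.Agent.S2922

/-- Let p be a prime, X a finite group, B a p-subgroup of X and C a normal subgroup of B. If N_X(C) has characteristic p (its generalized Fitting subgroup is O_p(N_X(C))), then N_X(B) and C_X(B) have characteristic p. -/
theorem result {X : Type*} [Group X] [Finite X] {p : ℕ} [Fact p.Prime] (B C : Subgroup X) (hB : IsPGroup p ↥B) (hCB : C ≤ B) (hCn : (C.subgroupOf B).Normal) (hC : Cfsg.generalizedFittingSubgroup ↥(Subgroup.normalizer (C : Set X)) = Cfsg.pCore p ↥(Subgroup.normalizer (C : Set X))) : Cfsg.generalizedFittingSubgroup ↥(Subgroup.normalizer (B : Set X)) = Cfsg.pCore p ↥(Subgroup.normalizer (B : Set X)) ∧ Cfsg.generalizedFittingSubgroup ↥(Subgroup.centralizer (B : Set X)) = Cfsg.pCore p ↥(Subgroup.centralizer (B : Set X)) := by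
  rw [gfit_eq_pCore_iff] at hC ⊢
  rw [gfit_eq_pCore_iff]
  have hBN : B ≤ Subgroup.normalizer (C : Set X) := ((normIn_iff_subgroupOf hCB).mpr hCn).2
  have h1 := hC.inf_centralizer hB hBN
  have h2 : Subgroup.normalizer (C : Set X) ⊓ Subgroup.centralizer (B : Set X) =
      Subgroup.centralizer (B : Set X) := by
    apply inf_eq_right.mpr
    exact (Subgroup.centralizer_le hCB).trans (Subgroup.centralizer_le_normalizer _)
  rw [h2] at h1
  refine ⟨?_, h1⟩
  apply CharP.of_inf_centralizer (B := B) ⟨Subgroup.le_normalizer, le_rfl⟩ hB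
  rwa [inf_eq_right.mpr (Subgroup.centralizer_le_normalizer _)]

end Cfsg.Agent.S2922
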