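import Cfsg.Statements.S2925
import Cfsg.Agent.Lib.Helper28More
import Cfsg.Agent.Lib.Helper40Sylow

set_option autoImplicit false
open Cfsg
open Cfsg.Agent.Lib.Helper40Sylow Cfsg.Agent.Lib.Helper28Comp Cfsg.Agent.Lib.Helper28More

namespace Cfsg.Agent.S2925

theorem isSylowIn_inf_of_sn {G : Type*} [Group G] [Finite G] {p : ℕ} [Fact p.Prime] {T H K : Subgroup G}
    (h : IsSylowIn p T H) (hK : Sn K H) : IsSylowIn p (T ⊓ K) K := by
  induction hK using Relation.ReflTransGen.head_induction_on with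
  | refl => rwa [inf_eq_left.mpr h.1]
  | head h1 _ ih =>
    have := ih.inf_normal h1.1 h1.2
    rwa [inf_assoc, inf_eq_right.mpr h1.1] at this

theorem sylow_comm {G : Type*} [Group G] [Finite G] {p : ℕ} [Fact p.Prime] (P Q : Sylow p G)
    (h : IsMulCommutative (P : Subgroup G)) : IsMulCommutative (Q : Subgroup G) := by
  rw [isMulCommutative_iff] at h ⊢
  intro a b
  apply (Sylow.equiv Q P).injective
  rw [map_mul, map_mul]
  exact h _ _

/-- Let K be a component of the finite group X and T a Sylow 2-subgroup of X. If some abelian normal subgroup Y of T does not normalize K, then K ⧸ Z(K) has abelian Sylow 2-subgroups. -/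
theorem result {X : Type*} [Group X] [Finite X] (K : Subgroup X) (hK : Cfsg.IsComponent K) (T : Sylow 2 X) (Y : Subgroup X) (hYT : Y ≤ (T : Subgroup X)) (hYn : (Y.subgroupOf (T : Subgroup X)).Normal) (hYab : IsMulCommutative ↥Y) (hnot : ¬ Y ≤ Subgroup.normalizer (K : Set X)) (P : Sylow 2 (↥K ⧸ Subgroup.center ↥K)) : IsMulCommutative ↥(P : Subgroup (↥K ⧸ Subgroup.center ↥K)) := by
  have : Fact (Nat.Prime 2) := ⟨Nat.prime_two⟩
  have hKc : CompIn K ⊤ := isComponent_iff.mp hK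
  obtain ⟨y, hyY, hyN⟩ := SetLike.not_le_iff_exists.mp hnot
  have hK'c : CompIn (cj y K) ⊤ := by
    have := hKc.map_injective (f := (MulAut.conj y).toMonoidHom) (MulAut.conj y).injective
    rwa [← MonoidHom.range_eq_map, MonoidHom.range_eq_top.mpr (MulAut.conj y).surjective] at this
  have hcomm : ⁅K, cj y K⁆ = ⊥ := by
    rcases hKc.eq_or_commute hK'c with h | h
    · exact absurd (mem_normalizer_iff_cj.mpr h.symm) hyN
    · exact h
  have hsyl : IsSylowIn 2 ((T : Subgroup X) ⊓ K) K := isSylowIn_inf_of_sn (isSylowIn_top T) hKc.1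
  have hYn' : NormIn Y T := (normIn_iff_subgroupOf hYT).mpr hYn
  -- key computation
  have key : ∀ t ∈ (T : Subgroup X) ⊓ K, ∀ s ∈ (T : Subgroup X) ⊓ K, ∀ k ∈ K,
      k * ((s * t)⁻¹ * (t * s)) = ((s * t)⁻¹ * (t * s)) * k := by
    intro t ht s hs k hk
    obtain ⟨htT, htK⟩ := Subgroup.mem_inf.mp ht
    obtain ⟨hsT, hsK⟩ := Subgroup.mem_inf.mp hs
    have hmemY : ∀ u ∈ (T : Subgroup X), u * (y * u⁻¹ * y⁻¹) ∈ Y := by
      intro u hu
      have h1 : u * y * u⁻¹ ∈ Y := (Subgroup.mem_normalizer_iff.mp (hYn'.2 hu) y).mp hyY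
      have := Y.mul_mem h1 (Y.inv_mem hyY)
      have e : u * (y * u⁻¹ * y⁻¹) = u * y * u⁻¹ * y⁻¹ := by group
      rw [e]; exact this
    have hc := (isMulCommutative_iff.mp hYab) ⟨_, hmemY t htT⟩ ⟨_, hmemY s hsT⟩
    have hc' : t * (y * t⁻¹ * y⁻¹) * (s * (y * s⁻¹ * y⁻¹)) = s * (y * s⁻¹ * y⁻¹) * (t * (y * t⁻¹ * y⁻¹)) :=
      congrArg Subtype.val hc
    have ht' : y * t⁻¹ * y⁻¹ ∈ cj y K := conj_mem_cj (K.inv_mem htK)
    have hs' : y * s⁻¹ * y⁻¹ ∈ cj y K := conj_mem_cj (K.inv_mem hsK)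
    have c1 : s * (y * t⁻¹ * y⁻¹) = (y * t⁻¹ * y⁻¹) * s := commute_of_commutator_eq_bot hcomm hsK ht'
    have c2 : t * (y * s⁻¹ * y⁻¹) = (y * s⁻¹ * y⁻¹) * t := commute_of_commutator_eq_bot hcomm htK hs'
    have e1 : (t * s) * ((y * t⁻¹ * y⁻¹) * (y * s⁻¹ * y⁻¹)) = (s * t) * ((y * s⁻¹ * y⁻¹) * (y * t⁻¹ * y⁻¹)) := by
      calc (t * s) * ((y * t⁻¹ * y⁻¹) * (y * s⁻¹ * y⁻¹))
          = t * (s * (y * t⁻¹ * y⁻¹)) * (y * s⁻¹ * y⁻¹) := by group
        _ = t * ((y * t⁻¹ * y⁻¹) * s) * (y * s⁻¹ * y⁻¹) := by rw [c1]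
        _ = t * (y * t⁻¹ * y⁻¹) * (s * (y * s⁻¹ * y⁻¹)) := by group
        _ = s * (y * s⁻¹ * y⁻¹) * (t * (y * t⁻¹ * y⁻¹)) := hc'
        _ = s * ((y * s⁻¹ * y⁻¹) * t) * (y * t⁻¹ * y⁻¹) := by group
        _ = s * (t * (y * s⁻¹ * y⁻¹)) * (y * t⁻¹ * y⁻¹) := by rw [c2]
        _ = (s * t) * ((y * s⁻¹ * y⁻¹) * (y * t⁻¹ * y⁻¹)) := by group
    have e2 : (s * t)⁻¹ * (t * s) =
        ((y * s⁻¹ * y⁻¹) * (y * t⁻¹ * y⁻¹)) * ((y * t⁻¹ * y⁻¹) * (y * s⁻¹ * y⁻¹))⁻¹ := by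
      rw [eq_mul_inv_iff_mul_eq, mul_assoc, e1]; group
    have hmem : (s * t)⁻¹ * (t * s) ∈ cj y K := by
      rw [e2]
      exact mul_mem (mul_mem hs' ht') (inv_mem (mul_mem ht' hs'))
    exact commute_of_commutator_eq_bot hcomm hk hmem
  have hsurj := QuotientGroup.mk'_surjective (Subgroup.center ↥K)
  apply sylow_comm (hsyl.toSylow.mapSurjective hsurj) P
  rw [isMulCommutative_iff]
  rintro ⟨a, ha⟩ ⟨b, hb⟩
  apply Subtype.ext
  show a * b = b * a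
  have ha' : a ∈ (hsyl.toSylow : Subgroup ↥K).map (QuotientGroup.mk' (Subgroup.center ↥K)) := ha
  have hb' : b ∈ (hsyl.toSylow : Subgroup ↥K).map (QuotientGroup.mk' (Subgroup.center ↥K)) := hb
  obtain ⟨t, ht, rfl⟩ := ha'
  obtain ⟨s, hs, rfl⟩ := hb'
  have ht' : (t : X) ∈ (T : Subgroup X) ⊓ K := by
    have : t ∈ ((T : Subgroup X) ⊓ K).subgroupOf K := ht
    exact Subgroup.mem_subgroupOf.mp this
  have hs' : (s : X) ∈ (T : Subgroup X) ⊓ K := by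
    have : s ∈ ((T : Subgroup X) ⊓ K).subgroupOf K := hs
    exact Subgroup.mem_subgroupOf.mp this
  rw [← map_mul, ← map_mul]
  symm
  apply (QuotientGroup.eq).mpr
  rw [Subgroup.mem_center_iff]
  intro k
  apply Subtype.ext
  exact key t ht' s hs' k k.2

end Cfsg.Agent.S2925
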