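import Cfsg.Statements.S2930
import Cfsg.Agent.S1265
import Cfsg.Agent.Lib.Helper36GF2
import Cfsg.Agent.Lib.H16A3PartA
import Cfsg.Agent.Lib.H16A3PartB
import Cfsg.Agent.Lib.H16A3TrMin
import Cfsg.Agent.Lib.H16A3ToUM

set_option autoImplicit false
open Cfsg

namespace Cfsg.Agent.S2930

open Cfsg.Agent.Lib

/-- Let X be a finite 3-minimal group (a Sylow 3-subgroup is not normal and lies in a unique maximal subgroup) whose generalized Fitting subgroup is isomorphic to an alternating group of degree n ≥ 5. Then X = F*(X), and n = 6, n = 9, or n = 3ᵃ + 1 for some a ≥ 2. -/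
theorem result {X : Type*} [Group X] [Finite X] (hX : Cfsg.IsPMinimal 3 X) (n : ℕ) (hn : 5 ≤ n) (hF : Nonempty (↥(Cfsg.generalizedFittingSubgroup X) ≃* ↥(alternatingGroup (Fin n)))) : Cfsg.generalizedFittingSubgroup X = ⊤ ∧ (n = 6 ∨ n = 9 ∨ ∃ a : ℕ, 2 ≤ a ∧ n = 3 ^ a + 1) := by
  obtain ⟨e⟩ := hF
  have hN : (Cfsg.generalizedFittingSubgroup X).Normal := Cfsg.Agent.Lib.Helper36GF2.gfit_normal X
  have htop : Cfsg.generalizedFittingSubgroup X = ⊤ :=
    H16A3PartA.partA hX _ Cfsg.Agent.S1265.result n hn e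
  refine ⟨htop, ?_⟩
  have e2 : X ≃* ↥(alternatingGroup (Fin n)) :=
    (Subgroup.topEquiv.symm.trans (MulEquiv.subgroupCongr htop.symm)).trans e
  have hA : Cfsg.IsPMinimal 3 ↥(alternatingGroup (Fin n)) := H16A3TrMin.pmin_equiv e2 hX
  obtain ⟨S, M, hU⟩ := H16A3ToUM.exists_UM n hA
  exact H16A3PartB.partB hU hn

end Cfsg.Agent.S2930
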