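import Cfsg.Statements.S2939
import Cfsg.Agent.Lib.Helper55Control
import Mathlib.Data.List.OfFn

set_option autoImplicit false
open Cfsg

namespace Cfsg.Agent.S2939

open Cfsg.Agent.Lib.Helper55Control Cfsg.Agent.Lib.Helper40Sylow Relation

section
variable {G : Type*} [Group G]

/-- elements that factorise through members of the family -/
inductive Fac (p : ℕ) (𝓕 : Set (Subgroup G)) (S : Subgroup G) (A : Set G) : G → Prop
  | one : Fac p 𝓕 S A 1
  | snoc {u : G} {Y : Subgroup G} {y : G} : Fac p 𝓕 S A u → Y ∈ sylowMembers p 𝓕 S → y ∈ Y →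
      conjRight (u * y) A ⊆ (S : Set G) ∩ (Y : Set G) → Fac p 𝓕 S A (u * y)

theorem ofFn_castSucc_take {α : Type*} {n : ℕ} (y : Fin (n + 1) → α) (j : Fin n) :
    (List.ofFn y).take (j.val + 1) = (List.ofFn fun i : Fin n => y i.castSucc).take (j.val + 1) := by
  rw [List.ofFn_succ', List.concat_eq_append, List.take_append_of_le_length]
  rw [List.length_ofFn]; exact j.2

theorem fac_of_exists {p : ℕ} {𝓕 : Set (Subgroup G)} {S : Subgroup G} {A : Set G} :
    ∀ (n : ℕ) (Y : Fin n → Subgroup G) (y : Fin n → G),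
      (∀ i : Fin n, Y i ∈ sylowMembers p 𝓕 S ∧ y i ∈ Y i) →
      (∀ i : Fin n, conjRight (((List.ofFn y).take (i.val + 1)).prod) A ⊆ (S : Set G) ∩ (Y i : Set G)) →
      Fac p 𝓕 S A (List.ofFn y).prod
  | 0, _, _, _, _ => by simpa using Fac.one
  | n + 1, Y, y, h1, h2 => by
    have ih := fac_of_exists n (fun i => Y i.castSucc) (fun i => y i.castSucc) (fun i => h1 i.castSucc)
      (fun i => by
        have := h2 i.castSucc
        rw [Fin.val_castSucc, ofFn_castSucc_take] at this
        exact this)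
    have e : (List.ofFn y).prod = (List.ofFn fun i : Fin n => y i.castSucc).prod * y (Fin.last n) := by
      rw [List.ofFn_succ', List.concat_eq_append, List.prod_append, List.prod_singleton]
    have h3 := h2 (Fin.last n)
    rw [List.take_of_length_le (by rw [List.length_ofFn]; simp), e] at h3
    rw [e]
    exact Fac.snoc ih (h1 (Fin.last n)).1 (h1 (Fin.last n)).2 h3

theorem exists_of_fac {p : ℕ} {𝓕 : Set (Subgroup G)} {S : Subgroup G} {A : Set G} {u : G}
    (h : Fac p 𝓕 S A u) :
    ∃ (n : ℕ) (Y : Fin n → Subgroup G) (y : Fin n → G),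
      (∀ i : Fin n, Y i ∈ sylowMembers p 𝓕 S ∧ y i ∈ Y i) ∧ u = (List.ofFn y).prod ∧
      (∀ i : Fin n, conjRight (((List.ofFn y).take (i.val + 1)).prod) A ⊆ (S : Set G) ∩ (Y i : Set G)) := by
  induction h with
  | one => exact ⟨0, fun i => i.elim0, fun i => i.elim0, fun i => i.elim0, by simp, fun i => i.elim0⟩
  | @snoc u Y' y' _ hY hy hA ih =>
    obtain ⟨n, Y, y, h1, rfl, h2⟩ := ih
    have ey : (fun i : Fin n => (Fin.snoc (α := fun _ => G) y y' : Fin (n + 1) → G) i.castSucc) = y := by
      funext i; exact Fin.snoc_castSucc (α := fun _ => G) _ _ _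
    have e : (List.ofFn (Fin.snoc (α := fun _ => G) y y' : Fin (n + 1) → G)).prod = (List.ofFn y).prod * y' := by
      rw [List.ofFn_succ', List.concat_eq_append, List.prod_append, List.prod_singleton, ey, Fin.snoc_last]
    refine ⟨n + 1, Fin.snoc (α := fun _ => Subgroup G) Y Y', Fin.snoc (α := fun _ => G) y y', ?_, e.symm, ?_⟩
    · intro i
      refine Fin.lastCases ?_ (fun j => ?_) i
      · rw [Fin.snoc_last, Fin.snoc_last]; exact ⟨hY, hy⟩
      · rw [Fin.snoc_castSucc, Fin.snoc_castSucc]; exact h1 j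
    · intro i
      refine Fin.lastCases ?_ (fun j => ?_) i
      · rw [List.take_of_length_le (by rw [List.length_ofFn]; simp), e, Fin.snoc_last]; exact hA
      · rw [Fin.val_castSucc, ofFn_castSucc_take, ey, Fin.snoc_castSucc]; exact h2 j

theorem conjRight_subset_iff {g : G} {A : Set G} {H : Subgroup G} :
    conjRight g A ⊆ (H : Set G) ↔ A ⊆ (cj g H : Set G) := by
  constructor
  · intro h a ha
    exact mem_cj.2 (h ⟨a, ha, rfl⟩)
  · rintro h _ ⟨a, ha, rfl⟩
    exact mem_cj.1 (h ha)

end

/-- Let p be a prime dividing the order of the finite group G and 𝓕 a family of subgroups of G closed under conjugation, with conjugates taken as X^g = g⁻¹Xg. Then 𝓕 controls Sylow p-intersections in G (any two distinct Sylow p-subgroups S and T with S ∩ T ≠ 1 are joined by a chain S = S₀, S₁, …, Sₙ = T of Sylow p-subgroups where, for each i, some member Xᵢ of 𝓕 meets both S_{i-1} and Sᵢ in Sylow p-subgroups of Xᵢ, satisfies S ∩ T ≤ Sᵢ ∩ Xᵢ, and contains an element xᵢ with Sᵢ^{xᵢ} = S_{i-1}) if and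 only if 𝓕 strongly controls p-fusion in G (whenever A is a subset of a Sylow p-subgroup S, A contains an element other than 1, and A^g ⊆ S, the element g factorises as g = y₁⋯yₙy with y ∈ N_G(S) and each yᵢ in a member Yᵢ of 𝓕 that meets S in a Sylow p-subgroup of Yᵢ, with A^{y₁⋯yᵢ} ⊆ S ∩ Yᵢ for each i). -/
theorem result {G : Type*} [Group G] [Finite G] {p : ℕ} [Fact p.Prime] (hdiv : p ∣ Nat.card G) (𝓕 : Set (Subgroup G)) (h𝓕 : Cfsg.IsNormalSet 𝓕) : Cfsg.ControlsSylowIntersections p 𝓕 ↔ Cfsg.FamilyStronglyControlsFusion p 𝓕 := by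
  have h𝓕' : ∀ X ∈ 𝓕, ∀ g : G, cj g X ∈ 𝓕 := by
    intro X hX g
    have := h𝓕 X hX g⁻¹
    unfold Cfsg.subgroupConjRight at this
    rwa [inv_inv] at this
  rw [controls_iff]
  constructor
  · intro hc S A g hAS hA1 hAg
    replace hAg : conjRight g A ⊆ ((S : Subgroup G) : Set G) := hAg
    rw [conjRight_subset_iff] at hAg
    have hfin : ∃ u, Fac p 𝓕 (S : Subgroup G) A u ∧ cj g (S : Subgroup G) = cj u (S : Subgroup G) := by
      by_cases hST : (S : Subgroup G) = cj g (S : Subgroup G)
      · exact ⟨1, Fac.one, by rw [cj_one, ← hST]⟩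
      · have hAD : A ⊆ (((S : Subgroup G) ⊓ cj g (S : Subgroup G) : Subgroup G) : Set G) :=
          fun a ha => ⟨hAS ha, hAg ha⟩
        have hT : IsSylowIn p (cj g (S : Subgroup G)) ⊤ := by
          have := (isSylowIn_top S).cj g
          rwa [cj_top] at this
        have hL := hc S _ (isSylowIn_top S) hT hST (by
          obtain ⟨a, ha, ha1⟩ := hA1
          intro h
          have := hAD ha
          rw [h] at this
          exact ha1 (Subgroup.mem_bot.1 this))
        have key : ∀ U, Linked p 𝓕 ((S : Subgroup G) ⊓ cj g (S : Subgroup G)) S U →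
            ∃ u, Fac p 𝓕 (S : Subgroup G) A u ∧ U = cj u (S : Subgroup G) := by
          intro U hU
          induction hU with
          | refl => exact ⟨1, Fac.one, (cj_one _).symm⟩
          | tail _ hstep ih =>
            obtain ⟨u, hu, rfl⟩ := ih
            obtain ⟨h0, X, hX, x, hx, h1, h2, h3⟩ := hstep
            have e : u * (u⁻¹ * x * u⁻¹⁻¹) = x * u := by group
            refine ⟨u * (u⁻¹ * x * u⁻¹⁻¹), Fac.snoc (Y := cj u⁻¹ X) hu ?_ (conj_mem_cj hx) ?_, ?_⟩
            · rw [mem_sylowMembers_iff]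
              refine ⟨h𝓕' X hX _, ?_⟩
              have := h1.cj u⁻¹
              rwa [cj_inf, cj_inv_cj] at this
            · rw [e, Set.subset_inter_iff, conjRight_subset_iff, conjRight_subset_iff, cj_mul, h2,
                ← cj_mul, mul_inv_cancel_right, cj_eq_self_of_mem hx]
              exact ⟨fun a ha => (h3 (hAD ha)).1, fun a ha => (h3 (hAD ha)).2⟩
            · rw [e, cj_mul, h2]
        exact key _ hL
    obtain ⟨u, hu, e⟩ := hfin
    obtain ⟨n, Y, y, h1, h2, h3⟩ := exists_of_fac hu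
    refine ⟨n, Y, y, u⁻¹ * g, ?_, h1, ?_, h3⟩
    · rw [mem_normalizer_iff_cj, cj_mul, e, cj_inv_cj]
    · rw [← h2]; group
  · intro hc S T hS hT hne hinf
    obtain ⟨S, rfl⟩ := exists_sylow_of_isSylowIn_top hS
    obtain ⟨g, -, hg⟩ := hT.exists_conj_eq (isSylowIn_top S)
    subst hg
    set D := (S : Subgroup G) ⊓ cj g (S : Subgroup G) with hD
    obtain ⟨n, Y, y, y₀, hy₀, h1, h2, h3⟩ := hc S (D : Set G) g (fun a ha => ha.1)
      (by
        obtain ⟨a, ha1⟩ := Subgroup.ne_bot_iff_exists_ne_one.1 hinf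
        exact ⟨a, a.2, fun h => ha1 (Subtype.ext h)⟩)
      (by
        show conjRight g (D : Set G) ⊆ ((S : Subgroup G) : Set G)
        rw [conjRight_subset_iff]; exact fun a ha => ha.2)
    have hu := fac_of_exists n Y y h1 h3
    have key : ∀ u, Fac p 𝓕 (S : Subgroup G) (D : Set G) u → Linked p 𝓕 D S (cj u (S : Subgroup G)) := by
      intro u hu
      induction hu with
      | one => rw [cj_one]; exact Linked.refl
      | @snoc u Y y _ hY hy hA ih =>
        refine ih.tail ?_
        rw [mem_sylowMembers_iff] at hY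
        refine ⟨isPGroup_cj S.2 u, cj u Y, h𝓕' Y hY.1 u, u * y * u⁻¹, conj_mem_cj hy, ?_, ?_, ?_⟩
        · rw [← cj_inf]; exact hY.2.cj u
        · rw [← cj_mul, inv_mul_cancel_right]
        · rw [Set.subset_inter_iff, conjRight_subset_iff, conjRight_subset_iff, cj_mul u y Y,
            cj_eq_self_of_mem hy] at hA
          exact le_inf hA.1 hA.2
    have := key _ hu
    have e : cj (List.ofFn y).prod (S : Subgroup G) = cj g (S : Subgroup G) := by
      rw [h2, cj_mul, mem_normalizer_iff_cj.1 hy₀]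
    rwa [e] at this

end Cfsg.Agent.S2939
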