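import Cfsg.Statements.S2940
import Cfsg.Agent.Lib.Helper55Sylow

set_option autoImplicit false
open Cfsg

namespace Cfsg.Agent.S2940

open Cfsg.Agent.Lib.Helper55Sylow

/-- Let S be a Sylow p-subgroup of the finite group G and G₁, G₂ subgroups containing S with G = G₁G₂. Then for every g ∈ G there is a Sylow p-subgroup U of G with S ∩ S^g ≤ U ≤ G₁ ∩ G₂^g (conjugates taken as X^g = g⁻¹Xg). -/
theorem result {G : Type*} [Group G] [Finite G] {p : ℕ} [Fact p.Prime] (S : Sylow p G) (G₁ G₂ : Subgroup G) (h1 : (S : Subgroup G) ≤ G₁) (h2 : (S : Subgroup G) ≤ G₂) (hfact : ∀ g : G, ∃ g₁ ∈ G₁, ∃ g₂ ∈ G₂, g = g₁ * g₂) (g : G) : ∃ U : Sylow p G, (S : Subgroup G) ⊓ Cfsg.subgroupConjRight g (S : Subgroup G) ≤ (U : Subgroup G) ∧ (U : Subgroup G) ≤ G₁ ⊓ Cfsg.subgroupConjRight g G₂ := by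
  obtain ⟨a, ha, b, hb, hab⟩ := hfact g⁻¹
  -- g⁻¹ = a * b ; the Sylow subgroup a S a⁻¹ lies in G₁ ⊓ G₂^g
  have hP : ((a • S : Sylow p G) : Subgroup G) ≤ G₁ ⊓ Cfsg.subgroupConjRight g G₂ := by
    intro x hx
    rw [Sylow.coe_subgroup_smul, Subgroup.mem_pointwise_smul_iff_inv_smul_mem] at hx
    have hx' : a⁻¹ * x * a ∈ (S : Subgroup G) := by simpa [MulAut.smul_def] using hx
    refine ⟨?_, ?_⟩
    · have := G₁.mul_mem (G₁.mul_mem ha (h1 hx')) (G₁.inv_mem ha)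
      simpa [mul_assoc] using this
    · refine ⟨b⁻¹ * (a⁻¹ * x * a) * b, G₂.mul_mem (G₂.mul_mem (G₂.inv_mem hb) (h2 hx')) hb, ?_⟩
      simp only [MulEquiv.coe_toMonoidHom, MulAut.conj_apply, hab]
      group
  have hR : IsPGroup p ↥((S : Subgroup G) ⊓ Cfsg.subgroupConjRight g (S : Subgroup G)) :=
    S.2.to_le inf_le_left
  refine exists_sylow_between (a • S) _ _ hP hR ?_
  refine inf_le_inf h1 ?_
  exact Subgroup.map_mono h2

end Cfsg.Agent.S2940
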