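import Cfsg.Statements.S2955
import Cfsg.Agent.Lib.Helper55Control

set_option autoImplicit false
open Cfsg

namespace Cfsg.Agent.S2955

open Cfsg.Agent.Lib.Helper55Control Cfsg.Agent.Lib.Helper40Sylow Relation

/-- Let p be a prime dividing the order of the finite group G and 𝓕 a conjugation-closed family of subgroups that controls Sylow p-intersections in G. Suppose the Sylow p-subgroups of G are chain-connected: any two of them are joined by a chain of Sylow p-subgroups, consecutive ones distinct with nontrivial intersection, all containing the intersection of the two ends (equivalently, the graph on the Sylow p-subgroups whose edges are the distinct pairs meeting nontrivially is connected). Then for every Sylow p-subgroup S, G is generated by N_G(S) together with the members of 𝓕 that meet S in a Sylow p-subgroup of themselves. -/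
theorem result {G : Type*} [Group G] [Finite G] (p : ℕ) [Fact p.Prime] (hdiv : p ∣ Nat.card G)
    (𝓕 : Set (Subgroup G)) (h𝓕 : Cfsg.IsNormalSet 𝓕) (hc : Cfsg.ControlsSylowIntersections p 𝓕)
    (hconn : Cfsg.IsSylowChainConnected p G) (S : Sylow p G) :
    (⨆ X ∈ Cfsg.sylowMembers p 𝓕 (S : Subgroup G), X) ⊔ Subgroup.normalizer ((S : Subgroup G) : Set G) = ⊤ := by
  set H := (⨆ X ∈ Cfsg.sylowMembers p 𝓕 (S : Subgroup G), X) ⊔ Subgroup.normalizer ((S : Subgroup G) : Set G)
    with hH
  rw [controls_iff] at hc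
  have hmem : ∀ X ∈ Cfsg.sylowMembers p 𝓕 (S : Subgroup G), X ≤ H := by
    intro X hX
    exact (le_iSup₂ (f := fun (X : Subgroup G) (_ : X ∈ Cfsg.sylowMembers p 𝓕 (S : Subgroup G)) => X) X hX).trans
      le_sup_left
  -- good subgroups
  let good : Subgroup G → Prop := fun T => ∃ h ∈ H, T = cj h (S : Subgroup G)
  have hstep : ∀ (D S₀ S₁ : Subgroup G), good S₀ → Step p 𝓕 D S₀ S₁ → good S₁ ∧ True := by
    rintro D S₀ S₁ ⟨h, hh, rfl⟩ ⟨h0, X, hX, x, hx, h1, h2, h3⟩
    refine ⟨⟨x * h, ?_, ?_⟩, trivial⟩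
    · have hY : cj h⁻¹ X ∈ Cfsg.sylowMembers p 𝓕 (S : Subgroup G) := by
        rw [mem_sylowMembers_iff]
        refine ⟨h𝓕 X hX h, ?_⟩
        have := h1.cj h⁻¹
        rwa [cj_inf, cj_inv_cj] at this
      have h4 : h⁻¹ * x * h⁻¹⁻¹ ∈ H := hmem _ hY (conj_mem_cj hx)
      have e : x * h = h * (h⁻¹ * x * h⁻¹⁻¹) := by group
      rw [e]
      exact H.mul_mem hh h4
    · rw [← h2, cj_mul]
  have hlinked : ∀ (D S₀ S₁ : Subgroup G), good S₀ → Linked p 𝓕 D S₀ S₁ → good S₁ := by
    intro D S₀ S₁ hg hL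
    exact (reflTransGen_of_invariant (r' := fun _ _ => True) (hstep D) hg hL).1
  have hall : ∀ T : Sylow p G, good (T : Subgroup G) := by
    intro T
    obtain ⟨n, c, h0, hl, -, hc'⟩ := hconn S T
    have h1 := reflTransGen_of_chain (r := fun A B : Sylow p G => A ≠ B ∧ (A : Subgroup G) ⊓ (B : Subgroup G) ≠ ⊥)
      n c hc'
    rw [h0, hl] at h1
    have h2 := reflTransGen_of_invariant (r' := fun _ _ => True) (I := fun A : Sylow p G => good (A : Subgroup G))
      (fun A B hA hAB => ⟨hlinked _ _ _ hA (hc A B (isSylowIn_top A) (isSylowIn_top B)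
        (fun h => hAB.1 (Sylow.ext h)) hAB.2), trivial⟩) ⟨1, H.one_mem, (cj_one _).symm⟩ h1
    exact h2.1
  rw [eq_top_iff]
  intro g _
  obtain ⟨h, hh, e⟩ := hall (g • S)
  rw [sylow_smul_eq_cj] at e
  have h1 : h⁻¹ * g ∈ Subgroup.normalizer ((S : Subgroup G) : Set G) := by
    rw [mem_normalizer_iff_cj, cj_mul, e, cj_inv_cj]
  have e2 : g = h * (h⁻¹ * g) := by group
  rw [e2]
  exact H.mul_mem hh (le_sup_right (a := ⨆ X ∈ Cfsg.sylowMembers p 𝓕 (S : Subgroup G), X) h1)

end Cfsg.Agent.S2955
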