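import Cfsg.Statements.S2956
import Cfsg.Agent.Lib.Helper55Control
import Cfsg.Agent.Lib.Helper55Sylow
import Mathlib.Data.Set.Finite.Lemmas

set_option autoImplicit false
open Cfsg

namespace Cfsg.Agent.S2956

open Cfsg.Agent.Lib.Helper55Control Cfsg.Agent.Lib.Helper40Sylow Cfsg.Agent.Lib.Helper55Sylow Relation

section
variable {G : Type*} [Group G] [Finite G] {p : ℕ} [Fact p.Prime]

theorem exists_maximalPLocal_ge {N : Subgroup G} (hN : IsPLocal p N) :
    ∃ M, IsMaximalPLocal p M ∧ N ≤ M := by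
  let 𝒮 : Set (Subgroup G) := {M | IsPLocal p M ∧ N ≤ M}
  have hne : 𝒮.Nonempty := ⟨N, hN, le_rfl⟩
  obtain ⟨M, hM, hmax⟩ := Set.exists_max_image 𝒮 (fun M => Nat.card M) (Set.toFinite _) hne
  refine ⟨M, ⟨hM.1, fun N' hN' hle => ?_⟩, hM.2⟩
  exact (Subgroup.eq_of_le_of_card_ge hle (hmax N' ⟨hN', hM.2.trans hle⟩)).symm

theorem lt_inf_of_normalizer_le {D S M : Subgroup G} (hS : IsPGroup p S) (hDS : D < S)
    (hM : Subgroup.normalizer (D : Set G) ≤ M) : D < S ⊓ M := by
  obtain ⟨y, hyS, hyD, hyN⟩ := exists_mem_normalizer_not_mem S D hS hDS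
  rw [SetLike.lt_iff_le_and_exists]
  exact ⟨le_inf hDS.le (Subgroup.le_normalizer.trans hM), y, ⟨hyS, hM hyN⟩, hyD⟩

theorem card_lt_of_lt {A B : Subgroup G} (h : A < B) : Nat.card A < Nat.card B := by
  by_contra hcon
  exact absurd (Subgroup.eq_of_le_of_card_ge h.le (not_lt.1 hcon)) h.ne

theorem mu_lt {P M M' : Subgroup G} (hP : IsSylowIn p P M) (hnot : ¬ IsSylowIn p P ⊤)
    (hM' : Subgroup.normalizer (P : Set G) ≤ M') :
    (Nat.card M).factorization p < (Nat.card M').factorization p := by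
  have hp : p.Prime := Fact.out
  obtain ⟨S, hS, hPS⟩ := exists_isSylowIn_ge (p := p) (Q := P) (H := ⊤) hP.2.1 le_top
  have hlt : P < S := lt_of_le_of_ne hPS (fun h => hnot (h ▸ hS))
  have h1 := lt_inf_of_normalizer_le hS.2.1 hlt hM'
  have h2 := card_lt_of_lt h1
  have hQ : IsPGroup p ↥(S ⊓ M') := hS.2.1.to_le inf_le_left
  obtain ⟨k, hk⟩ := IsPGroup.iff_card.1 hQ
  rw [hP.card_eq, hk] at h2
  have h3 : (Nat.card M).factorization p < k := (Nat.pow_lt_pow_iff_right hp.one_lt).1 h2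
  have h4 : p ^ k ∣ Nat.card M' := by
    rw [← hk]; exact Subgroup.card_dvd_of_le inf_le_right
  exact lt_of_lt_of_le h3 ((hp.pow_dvd_iff_le_factorization Nat.card_pos.ne').1 h4)

theorem mu_le (M : Subgroup G) : (Nat.card M).factorization p ≤ (Nat.card G).factorization p :=
  (Nat.factorization_le_iff_dvd Nat.card_pos.ne' Nat.card_pos.ne').2 (Subgroup.card_subgroup_dvd_card M) p

/-- all pairs of Sylow subgroups containing `D` are linked over `D` -/
def Good (p : ℕ) (𝒢 : Set (Subgroup G)) (D : Subgroup G) : Prop :=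
  ∀ S T, IsSylowIn p S ⊤ → IsSylowIn p T ⊤ → D ≤ S ⊓ T → Linked p 𝒢 D S T

theorem reduce {𝒢 : Set (Subgroup G)} {D M S : Subgroup G} (IH : ∀ D', D < D' → Good p 𝒢 D')
    (hS : IsSylowIn p S ⊤) (hDS : D < S ⊓ M) :
    ∃ S', IsSylowIn p S' ⊤ ∧ IsSylowIn p (S' ⊓ M) M ∧ D < S' ⊓ M ∧ Linked p 𝒢 D S S' ∧ Linked p 𝒢 D S' S := by
  obtain ⟨R, hR, hle⟩ := exists_isSylowIn_ge (p := p) (Q := S ⊓ M) (H := M) (hS.2.1.to_le inf_le_left) inf_le_right
  obtain ⟨S', hS', hRS'⟩ := exists_isSylowIn_ge (p := p) (Q := R) (H := ⊤) hR.2.1 le_top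
  have hRe : R = S' ⊓ M := hR.eq_of_le (hS'.2.1.to_le inf_le_left) inf_le_right (le_inf hRS' hR.1)
  refine ⟨S', hS', hRe ▸ hR, lt_of_lt_of_le hDS (hRe ▸ hle), ?_, ?_⟩
  · exact (IH _ hDS S S' hS hS' (le_inf inf_le_left (hle.trans hRS'))).mono_D hDS.le
  · exact (IH _ hDS S' S hS' hS (le_inf (hle.trans hRS') inf_le_left)).mono_D hDS.le

theorem isSylowIn_cj_top {S : Subgroup G} (hS : IsSylowIn p S ⊤) (g : G) : IsSylowIn p (cj g S) ⊤ := by
  have := hS.cj g
  rwa [cj_top] at this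

theorem lt_of_le_of_card_lt {A B : Subgroup G} (h : A ≤ B) (hc : Nat.card A < Nat.card B) : A < B :=
  lt_of_le_of_ne h (fun e => by rw [e] at hc; exact lt_irrefl _ hc)

theorem inner (f : Subgroup G → Set (Subgroup G)) (hf : IsNormalizerFunctor p f)
    (hf1 : ∀ P : Subgroup G, IsPGroup p ↥P → P ≠ ⊥ → ∀ F ∈ f P, F ≠ ⊥)
    (𝒢 : Set (Subgroup G)) (h𝒢1 : functorFamily p f ⊤ ⊆ 𝒢)
    (h𝒢2 : ∀ M, IsMaximalPLocal p M → ¬ ControlsIn p M (functorFamily p f M) → M ∈ 𝒢)
    (D : Subgroup G) (hD : D ≠ ⊥) (IH : ∀ D', D < D' → Good p 𝒢 D') :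
    ∀ (n : ℕ) (M : Subgroup G), IsMaximalPLocal p M →
      (Nat.card G).factorization p - (Nat.card M).factorization p = n →
      ∀ S T, IsSylowIn p S ⊤ → IsSylowIn p T ⊤ → D < S ⊓ M → D < T ⊓ M → Linked p 𝒢 D S T := by
  intro n
  induction n using Nat.strong_induction_on with
  | _ n ihn =>
  intro M hM hn S₀ T₀ hS₀ hT₀ hDS₀ hDT₀
  obtain ⟨S, hS, hSM, hDS, hL1, -⟩ := reduce IH hS₀ hDS₀
  obtain ⟨T, hT, hTM, hDT, -, hL2⟩ := reduce IH hT₀ hDT₀
  refine hL1.trans (Linked.trans ?_ hL2)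
  by_cases hreg : ControlsIn p M (functorFamily p f M)
  swap
  · -- singular case
    obtain ⟨m, hm, hmc⟩ := hTM.exists_conj_eq hSM
    have e : cj m S ⊓ M = T ⊓ M := by
      rw [← hmc, cj_inf, cj_eq_self_of_mem hm]
    have hstep : Step p 𝒢 D S (cj m S) :=
      ⟨hS.2.1, M, h𝒢2 M hM hreg, m, hm, hSM, rfl, by rw [e]; exact hDT.le⟩
    refine hstep.linked.trans ?_
    refine (IH _ hDT (cj m S) T (isSylowIn_cj_top hS m) hT (le_inf ?_ inf_le_left)).mono_D hDT.le
    rw [← e]; exact inf_le_left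
  · by_cases hRR : S ⊓ M = T ⊓ M
    · exact (IH _ hDS S T hS hT (le_inf inf_le_left (hRR ▸ inf_le_left))).mono_D hDS.le
    have hLM : Linked p (functorFamily p f M) D (S ⊓ M) (T ⊓ M) := by
      have hle : D ≤ (S ⊓ M) ⊓ (T ⊓ M) := le_inf hDS.le hDT.le
      exact (hreg _ _ hSM hTM hRR (fun h => hD (by rw [eq_bot_iff, ← h]; exact hle))).mono_D hle
    by_cases htop : IsSylowIn p (S ⊓ M) ⊤
    · -- `M` contains a Sylow subgroup of `G`
      have e1 : S ⊓ M = S := htop.eq_of_le hS.2.1 le_top inf_le_left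
      have htop' : IsSylowIn p (T ⊓ M) ⊤ := isSylowIn_top_of_le htop inf_le_right hTM
      have e2 : T ⊓ M = T := htop'.eq_of_le hT.2.1 le_top inf_le_left
      have := (hLM.enlarge hf htop inf_le_right).mono_F h𝒢1
      rwa [e1, e2] at this
    · have key : ∀ R, Linked p (functorFamily p f M) D (S ⊓ M) R →
          (IsSylowIn p R M ∧ D ≤ R) ∧ ∃ S', IsSylowIn p S' ⊤ ∧ S' ⊓ M = R ∧ Linked p 𝒢 D S S' := by
        intro R hR
        induction hR with
        | refl => exact ⟨⟨hSM, hDS.le⟩, S, hS, rfl, Linked.refl⟩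
        | @tail R R₁ _ hstep ih =>
          obtain ⟨⟨hRM, hDR⟩, S', hS', hS'M, hL⟩ := ih
          obtain ⟨h0, X, hX, x, hx, h1, h2, h3⟩ := hstep
          rw [mem_functorFamily_iff] at hX
          obtain ⟨P, hP, F, hF, rfl⟩ := hX
          have hR₁M : IsSylowIn p R₁ M := by
            have := hRM.cj x
            rwa [h2, cj_eq_self_of_mem hx.1] at this
          refine ⟨⟨hR₁M, h3.trans inf_le_left⟩, cj x S', isSylowIn_cj_top hS' x, ?_, hL.trans ?_⟩
          · rw [← h2, ← hS'M, cj_inf, cj_eq_self_of_mem hx.1]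
          · have hPN : P ≤ Subgroup.normalizer (F : Set G) :=
              Subgroup.le_normalizer.trans ((hf P hP.2.1).1 F hF).2
            have hPX : IsSylowIn p P (M ⊓ Subgroup.normalizer (F : Set G)) :=
              hP.of_le (le_inf hP.1 hPN) inf_le_left
            have hcardD : Nat.card D < Nat.card P := by
              rw [hP.card_eq, ← hSM.card_eq]; exact card_lt_of_lt hDS
            have hRX : R ≤ M ⊓ Subgroup.normalizer (F : Set G) := by
              have : R ⊓ (M ⊓ Subgroup.normalizer (F : Set G)) = R :=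
                Subgroup.eq_of_le_of_card_ge inf_le_left (by
                  rw [h1.card_eq, ← hPX.card_eq, hP.card_eq, ← hRM.card_eq])
              rw [← this]; exact inf_le_right
            have hR₁X : R₁ ≤ M ⊓ Subgroup.normalizer (F : Set G) := by
              rw [← h2, ← cj_eq_self_of_mem hx]; exact cj_mono hRX
            have hP1 : P ≠ ⊥ := by
              intro h
              rw [h, Subgroup.card_bot] at hcardD
              exact absurd hcardD (by have : 0 < Nat.card D := Nat.card_pos; omega)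
            have hloc : IsPLocal p (Subgroup.normalizer (F : Set G)) :=
              ⟨F, hP.2.1.to_le ((hf P hP.2.1).1 F hF).1, hf1 P hP.2.1 hP1 F hF, rfl⟩
            obtain ⟨M', hM', hle'⟩ := exists_maximalPLocal_ge hloc
            have hPtop : ¬ IsSylowIn p P ⊤ := fun h => htop (isSylowIn_top_of_le h hP.1 hSM)
            have hmu := mu_lt hP hPtop (((hf P hP.2.1).1 F hF).2.trans hle')
            have hmu' := mu_le (p := p) M'
            have hDR' : D < R := lt_of_le_of_card_lt hDR (by rw [hRM.card_eq, ← hP.card_eq]; exact hcardD)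
            have hDR₁' : D < R₁ := lt_of_le_of_card_lt (h3.trans inf_le_left)
              (by rw [hR₁M.card_eq, ← hP.card_eq]; exact hcardD)
            refine ihn _ (by omega) M' hM' rfl S' (cj x S') hS' (isSylowIn_cj_top hS' x) ?_ ?_
            · exact lt_of_lt_of_le hDR' (le_inf (hS'M ▸ inf_le_left) ((hRX.trans inf_le_right).trans hle'))
            · refine lt_of_lt_of_le hDR₁' (le_inf ?_ ((hR₁X.trans inf_le_right).trans hle'))
              rw [← h2, ← hS'M]; exact cj_mono inf_le_left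
      obtain ⟨-, S', hS', hS'M, hL⟩ := key _ hLM
      refine hL.trans ?_
      exact (IH _ hDT S' T hS' hT (le_inf (hS'M ▸ inf_le_left) inf_le_left)).mono_D hDT.le

theorem outer (f : Subgroup G → Set (Subgroup G)) (hf : IsNormalizerFunctor p f)
    (hf1 : ∀ P : Subgroup G, IsPGroup p ↥P → P ≠ ⊥ → ∀ F ∈ f P, F ≠ ⊥)
    (𝒢 : Set (Subgroup G)) (h𝒢1 : functorFamily p f ⊤ ⊆ 𝒢)
    (h𝒢2 : ∀ M, IsMaximalPLocal p M → ¬ ControlsIn p M (functorFamily p f M) → M ∈ 𝒢)
    (D : Subgroup G) : D ≠ ⊥ → Good p 𝒢 D := by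
  induction D using WellFoundedGT.induction with
  | _ D IH =>
  intro hD S T hS hT hDST
  have IH' : ∀ D', D < D' → Good p 𝒢 D' := fun D' h => IH D' h (fun e => hD (by
    rw [eq_bot_iff, ← e]; exact h.le))
  by_cases h1 : D = S
  · have : S = T := hS.eq_of_le hT.2.1 le_top (h1 ▸ hDST.trans inf_le_right)
    rw [this]; exact Linked.refl
  by_cases h2 : D = T
  · have : T = S := hT.eq_of_le hS.2.1 le_top (h2 ▸ hDST.trans inf_le_left)
    rw [this]; exact Linked.refl
  have hDS : D < S := lt_of_le_of_ne (hDST.trans inf_le_left) h1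
  have hDT : D < T := lt_of_le_of_ne (hDST.trans inf_le_right) h2
  have hloc : IsPLocal p (Subgroup.normalizer (D : Set G)) := ⟨D, hS.2.1.to_le hDS.le, hD, rfl⟩
  obtain ⟨M, hM, hle⟩ := exists_maximalPLocal_ge hloc
  exact inner f hf hf1 𝒢 h𝒢1 h𝒢2 D hD IH' _ M hM rfl S T hS hT
    (lt_inf_of_normalizer_le hS.2.1 hDS hle) (lt_inf_of_normalizer_le hT.2.1 hDT hle)

end

/-- Let p be a prime dividing the order of the finite group G, and f an assignment to every p-subgroup P of a set f(P) of subgroups of P, each normalized by N_G(P), compatible with conjugation, such that for P ≠ 1 the members of f(P) are nontrivial. Let 𝓕 be the family of the normalizers N_G(F) of the members F of f(S) over the Sylow p-subgroups S of G, and 𝓕' the family of the maximal p-local subgroups M of G that are singular for f (the corresponding family of normalizers inside M does not control Sylow p-intersections in M). Then 𝓕 ∪ 𝓕' controls Sylow p-intersections in G. -/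
theorem result {G : Type*} [Group G] [Finite G] (p : ℕ) [Fact p.Prime] (hdiv : p ∣ Nat.card G)
    (f : Subgroup G → Set (Subgroup G)) (hf : Cfsg.IsNormalizerFunctor p f)
    (hf1 : ∀ P : Subgroup G, IsPGroup p ↥P → P ≠ ⊥ → ∀ F ∈ f P, F ≠ ⊥)
    (𝓕 𝓕' : Set (Subgroup G)) (h𝓕 : 𝓕 = Cfsg.functorFamily p f ⊤)
    (h𝓕' : 𝓕' = {M | Cfsg.IsMaximalPLocal p M ∧ ¬ Cfsg.IsFunctorRegular p f M}) :
    Cfsg.ControlsSylowIntersections p (𝓕 ∪ 𝓕') := by
  rw [controls_iff]
  intro S T hS hT _ hinf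
  refine outer f hf hf1 (𝓕 ∪ 𝓕') (by rw [h𝓕]; exact Set.subset_union_left) ?_ (S ⊓ T) hinf S T hS hT le_rfl
  intro M hM hns
  right
  rw [h𝓕']
  exact ⟨hM, fun h => hns (isFunctorRegular_iff.1 h)⟩

end Cfsg.Agent.S2956
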