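import Cfsg.Statements.S2957
import Cfsg.Agent.Lib.Helper55Control
import Cfsg.Agent.S2940

set_option autoImplicit false
open Cfsg

namespace Cfsg.Agent.S2957

open Cfsg.Agent.Lib.Helper55Control Cfsg.Agent.Lib.Helper40Sylow Relation

/-- Let p be a prime dividing the order of the finite group G, f an equivariant assignment of a set of subgroups f(P) of P to every p-subgroup P, each normalized by N_G(P), and S a Sylow p-subgroup. If G = G₁G₂ for subgroups G₁, G₂ both containing S and both regular for f (in each Gᵢ, the family of normalizers in Gᵢ of the members of f(P), P a Sylow p-subgroup of Gᵢ, controls Sylow p-intersections), then G itself is regular for f. -/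
theorem result {G : Type*} [Group G] [Finite G] (p : ℕ) [Fact p.Prime] (hdiv : p ∣ Nat.card G)
    (f : Subgroup G → Set (Subgroup G)) (hf : Cfsg.IsNormalizerFunctor p f) (S : Sylow p G)
    (G₁ G₂ : Subgroup G) (h₁ : (S : Subgroup G) ≤ G₁) (h₂ : (S : Subgroup G) ≤ G₂)
    (hprod : ∀ g : G, ∃ g₁ ∈ G₁, ∃ g₂ ∈ G₂, g = g₁ * g₂)
    (hr₁ : Cfsg.IsFunctorRegular p f G₁) (hr₂ : Cfsg.IsFunctorRegular p f G₂) :
    Cfsg.IsFunctorRegular p f ⊤ := by
  rw [isFunctorRegular_iff] at hr₁ hr₂ ⊢
  have hS : IsSylowIn p (S : Subgroup G) ⊤ := isSylowIn_top S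
  have core : ∀ g : G, (S : Subgroup G) ⊓ cj g (S : Subgroup G) ≠ ⊥ →
      Linked p (functorFamily p f ⊤) ((S : Subgroup G) ⊓ cj g (S : Subgroup G)) (S : Subgroup G)
        (cj g (S : Subgroup G)) := by
    intro g hne
    obtain ⟨U, hU1, hU2⟩ := Cfsg.Agent.S2940.result S G₁ G₂ h₁ h₂ hprod g⁻¹
    have e : ∀ X : Subgroup G, Cfsg.subgroupConjRight g⁻¹ X = cj g X := by
      intro X
      unfold Cfsg.subgroupConjRight
      rw [inv_inv]
    rw [e] at hU1 hU2
    set D := (S : Subgroup G) ⊓ cj g (S : Subgroup G) with hD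
    have hU : IsSylowIn p (U : Subgroup G) ⊤ := isSylowIn_top U
    have part1 : Linked p (functorFamily p f ⊤) D (S : Subgroup G) (U : Subgroup G) := by
      by_cases hSU : (S : Subgroup G) = (U : Subgroup G)
      · rw [← hSU]; exact Linked.refl
      · have hle : D ≤ (S : Subgroup G) ⊓ (U : Subgroup G) := le_inf inf_le_left hU1
        have := hr₁ S U (hS.of_le h₁ le_top) (hU.of_le (hU2.trans inf_le_left) le_top) hSU
          (fun h => hne (by rw [eq_bot_iff, ← h]; exact hle))
        exact (this.mono_D hle).enlarge hf hS h₁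
    have part2 : Linked p (functorFamily p f ⊤) D (U : Subgroup G) (cj g (S : Subgroup G)) := by
      by_cases hSU : cj g⁻¹ (U : Subgroup G) = (S : Subgroup G)
      · rw [← hSU, cj_cj_inv]; exact Linked.refl
      · have hle : D ≤ (U : Subgroup G) ⊓ cj g (S : Subgroup G) := le_inf hU1 inf_le_right
        have hU' : IsSylowIn p (cj g⁻¹ (U : Subgroup G)) ⊤ := by
          have := hU.cj g⁻¹
          rwa [cj_top] at this
        have hUG : cj g⁻¹ (U : Subgroup G) ≤ G₂ := by
          rw [cj_le_iff, inv_inv]; exact hU2.trans inf_le_right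
        have e2 : cj g (cj g⁻¹ (U : Subgroup G) ⊓ (S : Subgroup G)) = (U : Subgroup G) ⊓ cj g (S : Subgroup G) := by
          rw [cj_inf, cj_cj_inv]
        have := hr₂ _ S (hU'.of_le hUG le_top) (hS.of_le h₂ le_top) hSU
          (fun h => hne (by
            rw [eq_bot_iff]
            refine hle.trans ?_
            rw [← e2, h]
            simp))
        have h3 := (this.enlarge hf hS h₂).cj g (functorFamily_top_cj hf g)
        rw [e2, cj_cj_inv] at h3
        exact h3.mono_D hle
    exact part1.trans part2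
  intro S' T' hS' hT' hne hinf
  obtain ⟨a, -, ha⟩ := hS'.exists_conj_eq hS
  obtain ⟨b, -, hb⟩ := hT'.exists_conj_eq hS
  have e1 : cj a ((S : Subgroup G) ⊓ cj (a⁻¹ * b) (S : Subgroup G)) = S' ⊓ T' := by
    rw [cj_inf, ← cj_mul, mul_inv_cancel_left, ha, hb]
  have h1 := core (a⁻¹ * b) (fun h => hinf (by rw [← e1, h]; simp))
  have h2 := h1.cj a (functorFamily_top_cj hf a)
  rw [e1, ← cj_mul, mul_inv_cancel_left, ha, hb] at h2
  exact h2

end Cfsg.Agent.S2957
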