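import Cfsg.Statements.S2958

set_option autoImplicit false
open Cfsg

namespace Cfsg.Agent.S2958

/-- Let X, A, B be subgroups of a group G such that G is generated by the conjugates of X and every conjugate of X is contained in A or in B. Then A = G or B = G. -/
theorem result {G : Type*} [Group G] (X A B : Subgroup G) (hgen : (⨆ g : G, X.map (MulAut.conj g).toMonoidHom) = ⊤) (hcover : ∀ g : G, X.map (MulAut.conj g).toMonoidHom ≤ A ∨ X.map (MulAut.conj g).toMonoidHom ≤ B) : A = ⊤ ∨ B = ⊤ := by
  by_cases h : ∀ g : G, X.map (MulAut.conj g).toMonoidHom ≤ A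
  · left
    rw [eq_top_iff, ← hgen]
    exact iSup_le h
  · right
    simp only [not_forall] at h
    obtain ⟨g₀, hg₀⟩ := h
    -- U = join of conjugates not in A
    set U : Subgroup G := ⨆ g : {g : G // ¬ X.map (MulAut.conj g).toMonoidHom ≤ A}, X.map (MulAut.conj g.1).toMonoidHom with hU
    have hUB : U ≤ B := by
      refine iSup_le ?_
      rintro ⟨g, hg⟩
      exact (hcover g).resolve_left hg
    have hconj : ∀ a g : G, (X.map (MulAut.conj g).toMonoidHom).map (MulAut.conj a).toMonoidHom = X.map (MulAut.conj (a * g)).toMonoidHom := by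
      intro a g
      rw [Subgroup.map_map]
      congr 1
      ext x
      simp [mul_assoc]
    -- elements of A map U into U
    have hAU : ∀ a ∈ A, U.map (MulAut.conj a).toMonoidHom ≤ U := by
      intro a ha
      rw [hU, Subgroup.map_iSup]
      refine iSup_le ?_
      rintro ⟨g, hg⟩
      rw [hconj]
      have : ¬ X.map (MulAut.conj (a * g)).toMonoidHom ≤ A := by
        intro hle
        apply hg
        intro y hy
        have h1 : a * y * a⁻¹ ∈ X.map (MulAut.conj (a * g)).toMonoidHom := by
          rw [← hconj]
          exact ⟨y, hy, by simp⟩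
        have h2 := hle h1
        have h3 : a⁻¹ * (a * y * a⁻¹) * a ∈ A := A.mul_mem (A.mul_mem (A.inv_mem ha) h2) ha
        simpa [mul_assoc] using h3
      exact le_iSup (fun g : {g : G // ¬ X.map (MulAut.conj g).toMonoidHom ≤ A} => X.map (MulAut.conj g.1).toMonoidHom) ⟨a * g, this⟩
    -- the set of elements mapping U into U (both ways)
    have hN : ∀ g : G, X.map (MulAut.conj g).toMonoidHom ≤ Subgroup.normalizer (U : Set G) := by
      intro g
      by_cases hg : X.map (MulAut.conj g).toMonoidHom ≤ A
      · intro a ha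
        have haA := hg ha
        rw [Subgroup.mem_normalizer_iff]
        intro u
        constructor
        · intro hu
          exact hAU a haA ⟨u, hu, by simp⟩
        · intro hu
          have := hAU a⁻¹ (A.inv_mem haA) ⟨_, hu, rfl⟩
          simpa [mul_assoc] using this
      · exact le_trans (le_iSup (fun g : {g : G // ¬ X.map (MulAut.conj g).toMonoidHom ≤ A} => X.map (MulAut.conj g.1).toMonoidHom) ⟨g, hg⟩) Subgroup.le_normalizer
    have hNtop : Subgroup.normalizer (U : Set G) = ⊤ := by
      rw [eq_top_iff, ← hgen]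
      exact iSup_le hN
    have hg₀U : X.map (MulAut.conj g₀).toMonoidHom ≤ U :=
      le_iSup (fun g : {g : G // ¬ X.map (MulAut.conj g).toMonoidHom ≤ A} => X.map (MulAut.conj g.1).toMonoidHom) ⟨g₀, hg₀⟩
    have hall : ∀ g : G, X.map (MulAut.conj g).toMonoidHom ≤ U := by
      intro g
      have : X.map (MulAut.conj g).toMonoidHom = (X.map (MulAut.conj g₀).toMonoidHom).map (MulAut.conj (g * g₀⁻¹)).toMonoidHom := by
        rw [hconj]; simp
      rw [this]
      rintro _ ⟨y, hy, rfl⟩
      have hmem : g * g₀⁻¹ ∈ Subgroup.normalizer (U : Set G) := by rw [hNtop]; trivial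
      rw [Subgroup.mem_normalizer_iff] at hmem
      exact (hmem y).1 (hg₀U hy)
    rw [eq_top_iff]
    refine le_trans ?_ hUB
    rw [← hgen]
    exact iSup_le hall

end Cfsg.Agent.S2958
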