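import Cfsg.Statements.S2959
import Cfsg.Agent.Lib.Helper55Core

set_option autoImplicit false
open Cfsg

namespace Cfsg.Agent.S2959

open Cfsg.Agent.Lib.Helper55Core

/-- Let G be a finite group of characteristic p, that is C_G(O_p(G)) ≤ O_p(G), with p prime, and let L be a subgroup of G normalized by O_p(G). Then L has characteristic p: C_L(O_p(L)) ≤ O_p(L). -/
theorem result {G : Type*} [Group G] [Finite G] {p : ℕ} [Fact p.Prime] (hG : Subgroup.centralizer (Cfsg.pCore p G : Set G) ≤ Cfsg.pCore p G) (L : Subgroup G) (hL : Cfsg.pCore p G ≤ Subgroup.normalizer (L : Set G)) : Subgroup.centralizer (Cfsg.pCore p ↥L : Set ↥L) ≤ Cfsg.pCore p ↥L := by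
  rw [charPGroup_iff]
  set R := pCore p G with hR
  set D := pCoreOf p L with hD
  set C := L ⊓ Subgroup.centralizer (D : Set G) with hC
  have hRn : R.Normal := pCore_mem.1
  have hRp : IsPGroup p ↥R := pCore_mem.2
  have hLC : L ≤ Subgroup.normalizer (C : Set G) :=
    le_normalizer_inf_centralizer Subgroup.le_normalizer (le_normalizer_pCoreOf L)
  have hRC : R ≤ Subgroup.normalizer (C : Set G) :=
    le_normalizer_inf_centralizer hL (hL.trans (normalizer_le_normalizer_pCoreOf L))
  have hRLD : R ⊓ L ≤ D := by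
    apply le_pCoreOf inf_le_right
    · refine le_trans (le_inf ?_ Subgroup.le_normalizer) Subgroup.inf_normalizer_le_normalizer_inf
      exact Subgroup.le_normalizer_of_normal
    · exact hRp.to_le inf_le_left
  apply le_pCoreOf inf_le_left hLC
  apply isPGroup_of_forall_coprime
  intro c hc k hk hck
  have hcD : c ∈ Subgroup.centralizer (D : Set G) := (Subgroup.mem_inf.1 hc).2
  have hcR : c ∈ Subgroup.centralizer (R : Set G) := by
    rw [Subgroup.mem_centralizer_iff]
    intro r hr
    set z := r⁻¹ * (c * r * c⁻¹) with hz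
    have hzR : z ∈ R := R.mul_mem (R.inv_mem hr) (hRn.conj_mem r hr c)
    have hzC : z ∈ C := by
      have h1 : r⁻¹ * c * r ∈ C := (Subgroup.mem_normalizer_iff''.1 (hRC hr) c).1 hc
      have h2 : z = (r⁻¹ * c * r) * c⁻¹ := by rw [hz]; group
      rw [h2]
      exact C.mul_mem h1 (C.inv_mem hc)
    have hzD : z ∈ D := hRLD (Subgroup.mem_inf.2 ⟨hzR, (Subgroup.mem_inf.1 hzC).1⟩)
    have hcz : Commute c z := ((Subgroup.mem_centralizer_iff.1 hcD) z hzD).symm
    obtain ⟨j, hj⟩ := hRp ⟨z, hzR⟩
    have hj' : z ^ (p ^ j) = 1 := by simpa using congrArg Subtype.val hj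
    have h3 : c * r * c⁻¹ = r * z := by rw [hz]; group
    have hz1 := eq_one_of_conj_eq_mul h3 hcz hk hck hj'
    rw [hz1, mul_one] at h3
    calc r * c = (c * r * c⁻¹) * c := by rw [h3]
      _ = c * r := by group
  have hcR' : c ∈ R := hG hcR
  obtain ⟨j, hj⟩ := hRp ⟨c, hcR'⟩
  have hj' : c ^ (p ^ j) = 1 := by simpa using congrArg Subtype.val hj
  exact eq_one_of_coprime_pow (Nat.Coprime.pow_right j hk) hck hj'

end Cfsg.Agent.S2959
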