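import Cfsg.Statements.S2960
import Cfsg.Agent.Lib.Helper55Core

set_option autoImplicit false
open Cfsg

namespace Cfsg.Agent.S2960

open Cfsg.Agent.Lib.Helper55Core Cfsg.Agent.Lib.Helper55Sylow

/-- Let G be a finite group of characteristic p (C_G(O_p(G)) ≤ O_p(G)), p prime, T a Sylow p-subgroup of G and Q a normal subgroup of T with C_T(Q) ≤ Q. Then C_G(Q) ≤ Q. -/
theorem result {G : Type*} [Group G] [Finite G] {p : ℕ} [Fact p.Prime] (hG : Subgroup.centralizer (Cfsg.pCore p G : Set G) ≤ Cfsg.pCore p G) (T : Sylow p G) (Q : Subgroup G) (hQT : Q ≤ (T : Subgroup G)) (hQn : (T : Subgroup G) ≤ Subgroup.normalizer (Q : Set G)) (hC : (T : Subgroup G) ⊓ Subgroup.centralizer (Q : Set G) ≤ Q) : Subgroup.centralizer (Q : Set G) ≤ Q := by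
  set R := pCore p G with hR
  have hRn : R.Normal := pCore_mem.1
  have hRp : IsPGroup p ↥R := pCore_mem.2
  have hRT : R ≤ (T : Subgroup G) := pCore_le_sylow T
  set P := R ⊔ Q with hP
  have hPT : P ≤ (T : Subgroup G) := sup_le hRT hQT
  have hPp : IsPGroup p ↥P := T.2.to_le hPT
  have hCQp : IsPGroup p ↥(Subgroup.centralizer (Q : Set G)) := by
    apply isPGroup_of_forall_coprime
    intro c hc k hk hck
    have hcQ : ∀ q ∈ Q, c * q * c⁻¹ = q := by
      intro q hq
      have := (Subgroup.mem_centralizer_iff.1 hc) q hq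
      rw [← this, mul_inv_cancel_right]
    have hcP : ∀ n ∈ P, c * n * c⁻¹ ∈ P := by
      have h1 : P.map (MulAut.conj c).toMonoidHom ≤ P := by
        rw [hP, Subgroup.map_sup]
        apply sup_le_sup
        · rintro _ ⟨r, hr, rfl⟩
          exact hRn.conj_mem r hr c
        · rintro _ ⟨q, hq, rfl⟩
          have : (MulAut.conj c).toMonoidHom q = q := hcQ q hq
          rw [this]; exact hq
      intro n hn
      exact h1 ⟨n, hn, rfl⟩
    set Y := P ⊓ Subgroup.centralizer ({c} : Set G) with hY
    have hQY : Q ≤ Y := by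
      intro q hq
      refine Subgroup.mem_inf.2 ⟨le_sup_right (a := R) hq, ?_⟩
      rw [Subgroup.mem_centralizer_singleton_iff]
      exact (Subgroup.mem_centralizer_iff.1 hc) q hq
    have hYc : ∀ y ∈ Y, c * y * c⁻¹ = y := by
      intro y hy
      have := (Subgroup.mem_inf.1 hy).2
      rw [Subgroup.mem_centralizer_singleton_iff] at this
      rw [← this, mul_inv_cancel_right]
    have hYP : Y = P := by
      by_contra hne
      obtain ⟨n, hnP, hnY, hnN⟩ := exists_mem_normalizer_not_mem P Y hPp (lt_of_le_of_ne inf_le_left hne)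
      apply hnY
      set z := n⁻¹ * (c * n * c⁻¹) with hz
      have hzP : z ∈ P := P.mul_mem (P.inv_mem hnP) (hcP n hnP)
      have hzY : ∀ y ∈ Y, z * y * z⁻¹ = y := by
        intro y hy
        have e1 : c⁻¹ * y * c = y := by
          have := hYc y hy
          calc c⁻¹ * y * c = c⁻¹ * (c * y * c⁻¹) * c := by rw [this]
            _ = y := by group
        have e2 := hYc _ ((Subgroup.mem_normalizer_iff.1 hnN y).1 hy)
        calc z * y * z⁻¹ = n⁻¹ * (c * (n * (c⁻¹ * y * c) * n⁻¹) * c⁻¹) * n := by rw [hz]; group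
          _ = n⁻¹ * (c * (n * y * n⁻¹) * c⁻¹) * n := by rw [e1]
          _ = n⁻¹ * (n * y * n⁻¹) * n := by rw [e2]
          _ = y := by group
      have hzQ : z ∈ Q := by
        apply hC
        refine Subgroup.mem_inf.2 ⟨hPT hzP, ?_⟩
        rw [Subgroup.mem_centralizer_iff]
        intro q hq
        have := hzY q (hQY hq)
        calc q * z = (z * q * z⁻¹) * z := by rw [this]
          _ = z * q := by group
      have hcz : Commute c z := ((Subgroup.mem_centralizer_iff.1 hc) z hzQ).symm
      obtain ⟨j, hj⟩ := hPp ⟨z, hzP⟩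
      have hj' : z ^ (p ^ j) = 1 := by simpa using congrArg Subtype.val hj
      have h3 : c * n * c⁻¹ = n * z := by rw [hz]; group
      have hz1 := eq_one_of_conj_eq_mul h3 hcz hk hck hj'
      rw [hz1, mul_one] at h3
      refine Subgroup.mem_inf.2 ⟨hnP, ?_⟩
      rw [Subgroup.mem_centralizer_singleton_iff]
      calc n * c = (c * n * c⁻¹) * c := by rw [h3]
        _ = c * n := by group
    have hcR : c ∈ Subgroup.centralizer (R : Set G) := by
      rw [Subgroup.mem_centralizer_iff]
      intro r hr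
      have hrY : r ∈ Y := by rw [hYP]; exact le_sup_left (b := Q) hr
      have := hYc r hrY
      calc r * c = (c * r * c⁻¹) * c := by rw [this]
        _ = c * r := by group
    have hcR' : c ∈ R := hG hcR
    obtain ⟨j, hj⟩ := hRp ⟨c, hcR'⟩
    have hj' : c ^ (p ^ j) = 1 := by simpa using congrArg Subtype.val hj
    exact eq_one_of_coprime_pow (Nat.Coprime.pow_right j hk) hck hj'
  have hCT : Subgroup.centralizer (Q : Set G) ≤ (T : Subgroup G) :=
    le_sylow_of_normal T _ (hQn.trans (normalizer_le_normalizer_centralizer Q)) hCQp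
  intro c hc
  exact hC (Subgroup.mem_inf.2 ⟨hCT hc, hc⟩)

end Cfsg.Agent.S2960
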