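import Cfsg.Statements.S2961
import Cfsg.Agent.Lib.Helper55Core
import Cfsg.Agent.S2960

set_option autoImplicit false
open Cfsg

namespace Cfsg.Agent.S2961

open Cfsg.Agent.Lib.Helper55Core Cfsg.Agent.Lib.Helper55Sylow
open scoped commutatorElement

/-- The subgroup of elements centralizing `R₀` and acting trivially on the cosets of `R₀` in `R`. -/
def stab {G : Type*} [Group G] (R R₀ : Subgroup G) : Subgroup G where
  carrier := {g | (∀ s ∈ R₀, g * s * g⁻¹ = s) ∧ ∀ r ∈ R, r⁻¹ * (g * r * g⁻¹) ∈ R₀}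
  one_mem' := ⟨fun s _ => by simp, fun r _ => by simp⟩
  mul_mem' := by
    rintro g h ⟨hg1, hg2⟩ ⟨hh1, hh2⟩
    refine ⟨fun s hs => ?_, fun r hr => ?_⟩
    · calc g * h * s * (g * h)⁻¹ = g * (h * s * h⁻¹) * g⁻¹ := by group
        _ = s := by rw [hh1 s hs, hg1 s hs]
    · have e : r⁻¹ * (g * h * r * (g * h)⁻¹) = (r⁻¹ * (g * r * g⁻¹)) * (g * (r⁻¹ * (h * r * h⁻¹)) * g⁻¹) := by group
      rw [e, hg1 _ (hh2 r hr)]
      exact R₀.mul_mem (hg2 r hr) (hh2 r hr)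
  inv_mem' := by
    rintro g ⟨hg1, hg2⟩
    have hinv : ∀ s ∈ R₀, g⁻¹ * s * g⁻¹⁻¹ = s := by
      intro s hs
      calc g⁻¹ * s * g⁻¹⁻¹ = g⁻¹ * (g * s * g⁻¹) * g := by rw [hg1 s hs, inv_inv]
        _ = s := by group
    refine ⟨hinv, fun r hr => ?_⟩
    have e : r⁻¹ * (g⁻¹ * r * g⁻¹⁻¹) = (g⁻¹ * (r⁻¹ * (g * r * g⁻¹)) * g⁻¹⁻¹)⁻¹ := by group
    rw [e, hinv _ (hg2 r hr)]
    exact R₀.inv_mem (hg2 r hr)

/-- Let G be a finite group of characteristic p (C_G(O_p(G)) ≤ O_p(G)), p prime, T a Sylow p-subgroup of G and Q a normal subgroup of T with C_T(Q) ≤ Q. Then every subgroup L of G containing Q has characteristic p: C_L(O_p(L)) ≤ O_p(L). -/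
theorem result {G : Type*} [Group G] [Finite G] {p : ℕ} [Fact p.Prime] (hG : Subgroup.centralizer (Cfsg.pCore p G : Set G) ≤ Cfsg.pCore p G) (T : Sylow p G) (Q : Subgroup G) (hQT : Q ≤ (T : Subgroup G)) (hQn : (T : Subgroup G) ≤ Subgroup.normalizer (Q : Set G)) (hC : (T : Subgroup G) ⊓ Subgroup.centralizer (Q : Set G) ≤ Q) (L : Subgroup G) (hQL : Q ≤ L) : Subgroup.centralizer (Cfsg.pCore p ↥L : Set ↥L) ≤ Cfsg.pCore p ↥L := by
  have hCQ : Subgroup.centralizer (Q : Set G) ≤ Q := Cfsg.Agent.S2960.result hG T Q hQT hQn hC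
  rw [charPGroup_iff]
  set R := pCore p G with hR
  set D := pCoreOf p L with hD
  set C := L ⊓ Subgroup.centralizer (D : Set G) with hCdef
  have hRn : R.Normal := pCore_mem.1
  have hRp : IsPGroup p ↥R := pCore_mem.2
  have hRT : R ≤ (T : Subgroup G) := pCore_le_sylow T
  have hQp : IsPGroup p ↥Q := T.2.to_le hQT
  have hLC : L ≤ Subgroup.normalizer (C : Set G) :=
    le_normalizer_inf_centralizer Subgroup.le_normalizer (le_normalizer_pCoreOf L)
  have hRLD : R ⊓ L ≤ D := by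
    apply le_pCoreOf inf_le_right
    · refine le_trans (le_inf ?_ Subgroup.le_normalizer) Subgroup.inf_normalizer_le_normalizer_inf
      exact Subgroup.le_normalizer_of_normal
    · exact hRp.to_le inf_le_left
  set R₀ := R ⊓ Q with hR₀
  have hR₀D : R₀ ≤ D := (inf_le_inf_left R hQL).trans hRLD
  have hCR₀ : ∀ c ∈ C, ∀ s ∈ R₀, c * s * c⁻¹ = s := by
    intro c hc s hs
    have := (Subgroup.mem_centralizer_iff.1 (Subgroup.mem_inf.1 hc).2) s (hR₀D hs)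
    rw [← this, mul_inv_cancel_right]
  have hQR₀ : ∀ q ∈ Q, ∀ s ∈ R₀, q * s * q⁻¹ ∈ R₀ := by
    intro q hq s hs
    obtain ⟨h1, h2⟩ := Subgroup.mem_inf.1 hs
    exact Subgroup.mem_inf.2 ⟨hRn.conj_mem s h1 q, Q.mul_mem (Q.mul_mem hq h2) (Q.inv_mem hq)⟩
  have hRQ : ∀ q ∈ Q, ∀ r ∈ R, r⁻¹ * (q * r * q⁻¹) ∈ R₀ := by
    intro q hq r hr
    refine Subgroup.mem_inf.2 ⟨R.mul_mem (R.inv_mem hr) (hRn.conj_mem r hr q), ?_⟩
    have h1 : r⁻¹ * q * r ∈ Q := (Subgroup.mem_normalizer_iff''.1 (hQn (hRT hr)) q).1 hq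
    have e : r⁻¹ * (q * r * q⁻¹) = (r⁻¹ * q * r) * q⁻¹ := by group
    rw [e]
    exact Q.mul_mem h1 (Q.inv_mem hq)
  have hAp : IsPGroup p ↥(stab R R₀) := by
    apply isPGroup_of_forall_coprime
    rintro g ⟨hg1, hg2⟩ k hk hgk
    have hgR : g ∈ Subgroup.centralizer (R : Set G) := by
      rw [Subgroup.mem_centralizer_iff]
      intro r hr
      set z := r⁻¹ * (g * r * g⁻¹) with hz
      have hzR₀ : z ∈ R₀ := hg2 r hr
      have hgz : Commute g z := by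
        have := hg1 z hzR₀
        show g * z = z * g
        calc g * z = (g * z * g⁻¹) * g := by group
          _ = z * g := by rw [this]
      obtain ⟨j, hj⟩ := hRp ⟨z, (Subgroup.mem_inf.1 hzR₀).1⟩
      have hj' : z ^ (p ^ j) = 1 := by simpa using congrArg Subtype.val hj
      have h3 : g * r * g⁻¹ = r * z := by rw [hz]; group
      have hz1 := eq_one_of_conj_eq_mul h3 hgz hk hgk hj'
      rw [hz1, mul_one] at h3
      calc r * g = (g * r * g⁻¹) * g := by rw [h3]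
        _ = g * r := by group
    have hgR' : g ∈ R := hG hgR
    obtain ⟨j, hj⟩ := hRp ⟨g, hgR'⟩
    have hj' : g ^ (p ^ j) = 1 := by simpa using congrArg Subtype.val hj
    exact eq_one_of_coprime_pow (Nat.Coprime.pow_right j hk) hgk hj'
  have hcomm : ⁅C, Q⁆ ≤ stab R R₀ := by
    rw [Subgroup.commutator_le]
    intro c hc q hq
    rw [commutatorElement_def]
    have hc' : c⁻¹ ∈ C := C.inv_mem hc
    have hq' : q⁻¹ ∈ Q := Q.inv_mem hq
    refine ⟨fun s hs => ?_, fun r hr => ?_⟩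
    · have h0 : q⁻¹ * s * q ∈ R₀ := by simpa using hQR₀ q⁻¹ hq' s hs
      have h1 : c⁻¹ * (q⁻¹ * s * q) * c = q⁻¹ * s * q := by simpa using hCR₀ c⁻¹ hc' _ h0
      calc c * q * c⁻¹ * q⁻¹ * s * (c * q * c⁻¹ * q⁻¹)⁻¹
          = c * (q * (c⁻¹ * (q⁻¹ * s * q) * c) * q⁻¹) * c⁻¹ := by group
        _ = c * (q * (q⁻¹ * s * q) * q⁻¹) * c⁻¹ := by rw [h1]
        _ = c * s * c⁻¹ := by group
        _ = s := hCR₀ c hc s hs
    · set s₁ := r⁻¹ * (q⁻¹ * r * q) with hs₁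
      have hs₁m : s₁ ∈ R₀ := by simpa using hRQ q⁻¹ hq' r hr
      set r' := c⁻¹ * r * c with hr'
      have hr'm : r' ∈ R := by simpa using hRn.conj_mem r hr c⁻¹
      set s₂ := r'⁻¹ * (q * r' * q⁻¹) with hs₂
      have hs₂m : s₂ ∈ R₀ := hRQ q hq r' hr'm
      set s₃ := q * s₁ * q⁻¹ with hs₃
      have hs₃m : s₃ ∈ R₀ := hQR₀ q hq s₁ hs₁m
      have h1 : c⁻¹ * s₁ * c = s₁ := by simpa using hCR₀ c⁻¹ hc' _ hs₁m
      have h2 : c * (s₂ * s₃) * c⁻¹ = s₂ * s₃ := hCR₀ c hc _ (R₀.mul_mem hs₂m hs₃m)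
      have e : r⁻¹ * (c * q * c⁻¹ * q⁻¹ * r * (c * q * c⁻¹ * q⁻¹)⁻¹) = s₂ * s₃ := by
        calc r⁻¹ * (c * q * c⁻¹ * q⁻¹ * r * (c * q * c⁻¹ * q⁻¹)⁻¹)
            = r⁻¹ * (c * (q * (r' * (c⁻¹ * s₁ * c)) * q⁻¹) * c⁻¹) := by
              rw [hs₁, hr']; group
          _ = r⁻¹ * (c * (q * (r' * s₁) * q⁻¹) * c⁻¹) := by rw [h1]
          _ = r⁻¹ * ((c * r' * c⁻¹) * (c * (s₂ * s₃) * c⁻¹)) := by
              rw [hs₂, hs₃]; group
          _ = r⁻¹ * ((c * r' * c⁻¹) * (s₂ * s₃)) := by rw [h2]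
          _ = s₂ * s₃ := by rw [hr']; group
      rw [e]
      exact R₀.mul_mem hs₂m hs₃m
  have hU : ⁅C, Q⁆ ≤ D :=
    le_pCoreOf_of_normal_normal inf_le_left hLC
      (commutator_le_left_of_le_normalizer (hQL.trans hLC)) (le_normalizer_commutator_left C Q)
      (hAp.to_le hcomm)
  apply le_pCoreOf inf_le_left hLC
  apply isPGroup_of_forall_coprime
  intro c hc k hk hck
  have hcD : c ∈ Subgroup.centralizer (D : Set G) := (Subgroup.mem_inf.1 hc).2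
  have hcQ : c ∈ Subgroup.centralizer (Q : Set G) := by
    rw [Subgroup.mem_centralizer_iff]
    intro q hq
    set z := q⁻¹ * (c * q * c⁻¹) with hz
    have hzD : z ∈ D := by
      apply hU
      have e : z = ⁅c, q⁻¹⁆⁻¹ := by rw [hz, commutatorElement_def]; group
      rw [e]
      exact Subgroup.inv_mem _ (Subgroup.commutator_mem_commutator hc (Q.inv_mem hq))
    have hcz : Commute c z := ((Subgroup.mem_centralizer_iff.1 hcD) z hzD).symm
    obtain ⟨j, hj⟩ := (isPGroup_pCoreOf (p := p) L) ⟨z, hzD⟩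
    have hj' : z ^ (p ^ j) = 1 := by simpa using congrArg Subtype.val hj
    have h3 : c * q * c⁻¹ = q * z := by rw [hz]; group
    have hz1 := eq_one_of_conj_eq_mul h3 hcz hk hck hj'
    rw [hz1, mul_one] at h3
    calc q * c = (c * q * c⁻¹) * c := by rw [h3]
      _ = c * q := by group
  have hcQ' : c ∈ Q := hCQ hcQ
  obtain ⟨j, hj⟩ := hQp ⟨c, hcQ'⟩
  have hj' : c ^ (p ^ j) = 1 := by simpa using congrArg Subtype.val hj
  exact eq_one_of_coprime_pow (Nat.Coprime.pow_right j hk) hck hj'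

end Cfsg.Agent.S2961
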