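import Cfsg.Statements.S2963

set_option autoImplicit false
open Cfsg

namespace Cfsg.Agent.S2963

open scoped Pointwise

/-- Let n be odd. If the symmetric group of degree n is a minimal parabolic group for the prime 2, that is, a Sylow 2-subgroup is not normal and lies in exactly one maximal subgroup, then n = 2^m + 1 for some natural number m. -/
theorem result (n : ℕ) (hn : Odd n) (h : Cfsg.IsPMinimal 2 (Equiv.Perm (Fin n))) : ∃ m : ℕ, n = 2 ^ m + 1 := by
  classical
  let S : Sylow 2 (Equiv.Perm (Fin n)) := default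
  obtain ⟨hnn, M, ⟨hMco, hSM⟩, hMuniq⟩ := h S
  have hS : IsPGroup 2 ↥(S : Subgroup (Equiv.Perm (Fin n))) := S.2
  have hfix : (MulAction.fixedPoints ↥(S : Subgroup (Equiv.Perm (Fin n))) (Fin n)).Nonempty := by
    apply hS.nonempty_fixed_point_of_prime_not_dvd_card
    rw [Nat.card_eq_fintype_card, Fintype.card_fin]
    exact fun h2 => (Nat.not_even_iff_odd.2 hn) (even_iff_two_dvd.2 h2)
  obtain ⟨a, ha⟩ := hfix
  have ha' : ∀ s ∈ (S : Subgroup (Equiv.Perm (Fin n))), s a = a := fun s hs => ha ⟨s, hs⟩
  by_cases hb : ∃ b : Fin n, b ≠ a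
  swap
  · exfalso
    apply hnn
    have hsub : Subsingleton (Fin n) := ⟨fun x y => by
      have hx : x = a := by by_contra hx; exact hb ⟨x, hx⟩
      have hy : y = a := by by_contra hy; exact hb ⟨y, hy⟩
      rw [hx, hy]⟩
    refine ⟨fun x hx g => ?_⟩
    have : g = 1 := Subsingleton.elim _ _
    simpa [this] using hx
  obtain ⟨b, hba⟩ := hb
  set Δ : Set (Fin n) := MulAction.orbit ↥(S : Subgroup (Equiv.Perm (Fin n))) b with hΔ
  have haΔ : a ∉ Δ := by
    rintro ⟨s, hs⟩
    apply hba
    have h1 : (s : Equiv.Perm (Fin n)) b = a := hs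
    have h2 : (s : Equiv.Perm (Fin n)) a = a := ha' s s.2
    exact (s : Equiv.Perm (Fin n)).injective (h1.trans h2.symm)
  have hbΔ : b ∈ Δ := MulAction.mem_orbit_self b
  by_cases hc : ∃ c : Fin n, c ∉ Δ ∧ c ≠ a
  · exfalso
    obtain ⟨c, hcΔ, hca⟩ := hc
    set H₁ : Subgroup (Equiv.Perm (Fin n)) := MulAction.stabilizer (Equiv.Perm (Fin n)) a with hH₁
    set H₂ : Subgroup (Equiv.Perm (Fin n)) := MulAction.stabilizer (Equiv.Perm (Fin n)) Δ with hH₂
    have hSH₁ : (S : Subgroup (Equiv.Perm (Fin n))) ≤ H₁ := fun s hs => by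
      rw [hH₁, MulAction.mem_stabilizer_iff]; exact ha' s hs
    have hSH₂ : (S : Subgroup (Equiv.Perm (Fin n))) ≤ H₂ := fun s hs => by
      rw [hH₂, MulAction.mem_stabilizer_set]
      intro x
      have : s • x = (⟨s, hs⟩ : ↥(S : Subgroup (Equiv.Perm (Fin n)))) • x := rfl
      rw [this, hΔ]
      rw [← MulAction.orbit_eq_iff, MulAction.orbit_smul, MulAction.orbit_eq_iff]
    have hH₁top : H₁ ≠ ⊤ := by
      intro htop
      have : Equiv.swap a b ∈ H₁ := by rw [htop]; trivial
      rw [hH₁, MulAction.mem_stabilizer_iff] at this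
      have h2 : Equiv.swap a b a = a := this
      rw [Equiv.swap_apply_left] at h2
      exact hba h2
    have hH₂top : H₂ ≠ ⊤ := by
      intro htop
      have : Equiv.swap a b ∈ H₂ := by rw [htop]; trivial
      rw [hH₂, MulAction.mem_stabilizer_set] at this
      have h2 := (this b).2 hbΔ
      have h3 : Equiv.swap a b • b = a := Equiv.swap_apply_right a b
      rw [h3] at h2
      exact haΔ h2
    have hH₁M : H₁ ≤ M := by
      obtain ⟨M₁, hM₁, hle⟩ := (eq_top_or_exists_le_coatom H₁).resolve_left hH₁top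
      have := hMuniq M₁ ⟨hM₁, hSH₁.trans hle⟩
      rwa [this] at hle
    have hH₂M : H₂ ≤ M := by
      obtain ⟨M₁, hM₁, hle⟩ := (eq_top_or_exists_le_coatom H₂).resolve_left hH₂top
      have := hMuniq M₁ ⟨hM₁, hSH₂.trans hle⟩
      rwa [this] at hle
    have hsw1 : ∀ u v : Fin n, u ≠ a → v ≠ a → Equiv.swap u v ∈ M := by
      intro u v hu hv
      apply hH₁M
      rw [hH₁, MulAction.mem_stabilizer_iff]
      exact Equiv.swap_apply_of_ne_of_ne hu.symm hv.symm
    have hsw2 : Equiv.swap a c ∈ M := by
      apply hH₂M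
      rw [hH₂, MulAction.mem_stabilizer_set]
      intro x
      by_cases hxa : x = a
      · subst hxa
        have : Equiv.swap x c • x = c := Equiv.swap_apply_left x c
        rw [this]
        exact ⟨fun h => absurd h hcΔ, fun h => absurd h haΔ⟩
      · by_cases hxc : x = c
        · subst hxc
          have : Equiv.swap a x • x = a := Equiv.swap_apply_right a x
          rw [this]
          exact ⟨fun h => absurd h haΔ, fun h => absurd h hcΔ⟩
        · have : Equiv.swap a c • x = x := Equiv.swap_apply_of_ne_of_ne hxa hxc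
          rw [this]
    have hsw3 : ∀ v : Fin n, v ≠ a → Equiv.swap a v ∈ M := by
      intro v hv
      by_cases hvc : v = c
      · rw [hvc]; exact hsw2
      · have h1 := Equiv.swap_apply_apply (Equiv.swap c v) a c
        rw [Equiv.swap_apply_left, Equiv.swap_apply_of_ne_of_ne hca.symm hv.symm] at h1
        rw [h1]
        exact M.mul_mem (M.mul_mem (hsw1 c v hca hv) hsw2) (M.inv_mem (hsw1 c v hca hv))
    have hall : ∀ u v : Fin n, Equiv.swap u v ∈ M := by
      intro u v
      by_cases hu : u = a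
      · by_cases hv : v = a
        · rw [hu, hv, Equiv.swap_self]; exact M.one_mem
        · rw [hu]; exact hsw3 v hv
      · by_cases hv : v = a
        · rw [hv, Equiv.swap_comm]; exact hsw3 u hu
        · exact hsw1 u v hu hv
    apply hMco.1
    rw [eq_top_iff, ← Equiv.Perm.closure_isSwap, Subgroup.closure_le]
    rintro σ ⟨u, v, _, rfl⟩
    exact hall u v
  · -- the orbit is the complement of a
    have hΔeq : Δ = {a}ᶜ := by
      ext x
      simp only [Set.mem_compl_iff, Set.mem_singleton_iff]
      constructor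
      · intro hx hxa; rw [hxa] at hx; exact haΔ hx
      · intro hx
        by_contra hxΔ
        exact hc ⟨x, hxΔ, hx⟩
    obtain ⟨m, hm⟩ := hS.card_orbit b
    refine ⟨m, ?_⟩
    have h1 : Nat.card ↥Δ = 2 ^ m := hm
    rw [hΔeq, Nat.card_eq_fintype_card, Fintype.card_compl_set] at h1
    simp at h1
    have : 1 ≤ n := by
      rcases hn with ⟨k, hk⟩; omega
    omega

end Cfsg.Agent.S2963
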