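import Cfsg.Statements.S2998
import Cfsg.Agent.Lib.Helper56Basic
import Cfsg.Agent.Lib.Helper56Sylow

set_option autoImplicit false
open Cfsg

namespace Cfsg.Agent.S2998

open Cfsg.Agent.Lib.Helper56Basic Cfsg.Agent.Lib.Helper56Sylow
open scoped Pointwise


/-- Let G be a finite group, p a prime, P a Sylow p-subgroup of G and x ∈ P an element such that N_G(R) ≤ C_G(x) for every nontrivial subgroup R of P. Then P ≤ C_G(x); every G-conjugate of x lying in P equals x (so g ∈ C_G(x) whenever g x g⁻¹ ∈ P); and for every normal subgroup N of G, the image of x in G ⧸ N has the same property with respect to the image of P: the normalizer of every nontrivial subgroup of the image of P centralizes the image of x. -/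
theorem result {G : Type*} [Group G] [Finite G] {p : ℕ} [Fact p.Prime] (P : Sylow p G) (x : G) (hxP : x ∈ (P : Subgroup G)) (hlc : ∀ R : Subgroup G, R ≤ (P : Subgroup G) → R ≠ ⊥ → Subgroup.normalizer (R : Set G) ≤ Subgroup.centralizer ({x} : Set G)) : (P : Subgroup G) ≤ Subgroup.centralizer ({x} : Set G) ∧ (∀ g : G, g * x * g⁻¹ ∈ (P : Subgroup G) → g * x * g⁻¹ = x) ∧ ∀ (N : Subgroup G) [N.Normal], ∀ R : Subgroup (G ⧸ N), R ≤ (P : Subgroup G).map (QuotientGroup.mk' N) → R ≠ ⊥ → Subgroup.normalizer (R : Set (G ⧸ N)) ≤ Subgroup.centralizer ({(QuotientGroup.mk x : G ⧸ N)} : Set (G ⧸ N)) := by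
  have h1 : (P : Subgroup G) ≤ Subgroup.centralizer ({x} : Set G) := by
    by_cases hP : (P : Subgroup G) = ⊥
    · rw [hP]; exact bot_le
    · exact Subgroup.le_normalizer.trans (hlc P le_rfl hP)
  refine ⟨h1, ?_, ?_⟩
  · intro g hg
    by_cases hx1 : x = 1
    · simp [hx1]
    have hPne : (P : Subgroup G) ≠ ⊥ := by
      intro h
      rw [h] at hxP
      exact hx1 (Subgroup.mem_bot.1 hxP)
    have hy1 : g * x * g⁻¹ ≠ 1 := by
      intro h
      apply hx1
      have : x = g⁻¹ * (g * x * g⁻¹) * g := by group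
      rw [this, h]; group
    have hR : Subgroup.zpowers (g * x * g⁻¹) ≤ (P : Subgroup G) := by
      rw [Subgroup.zpowers_le]; exact hg
    have hR1 : Subgroup.zpowers (g * x * g⁻¹) ≠ ⊥ := by
      rw [Ne, Subgroup.zpowers_eq_bot]; exact hy1
    have hC : Subgroup.centralizer ({g * x * g⁻¹} : Set G) ≤ Subgroup.centralizer ({x} : Set G) := by
      refine le_trans ?_ (hlc _ hR hR1)
      rw [Subgroup.zpowers_eq_closure]
      exact (Subgroup.centralizer_le_normalizer _).trans (Subgroup.normalizer_le_normalizer_closure _)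
    have hQC : (P : Subgroup G).map (MulAut.conj g).toMonoidHom ≤
        Subgroup.centralizer ({x} : Set G) := by
      refine le_trans ?_ hC
      rintro _ ⟨a, ha, rfl⟩
      rw [Subgroup.mem_centralizer_singleton_iff]
      have hax := Subgroup.mem_centralizer_singleton_iff.1 (h1 ha)
      simp only [MulEquiv.coe_toMonoidHom, MulAut.conj_apply]
      calc g * a * g⁻¹ * (g * x * g⁻¹) = g * (a * x) * g⁻¹ := by group
        _ = g * (x * a) * g⁻¹ := by rw [hax]
        _ = _ := by group
    obtain ⟨c, hc, hcP⟩ := exists_conj_le P h1 (isPGroup_cj P.2 g) hQC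
    rw [cj_cj] at hcP
    have hcg : c * g ∈ Subgroup.centralizer ({x} : Set G) :=
      hlc P le_rfl hPne (mem_normalizer_of_cj_le hcP)
    have hgC : g ∈ Subgroup.centralizer ({x} : Set G) := by
      have : g = c⁻¹ * (c * g) := by group
      rw [this]
      exact Subgroup.mul_mem _ (Subgroup.inv_mem _ hc) hcg
    rw [Subgroup.mem_centralizer_singleton_iff] at hgC
    rw [hgC, mul_inv_cancel_right]
  · intro N _ R hR hR1 gbar hgbar
    obtain ⟨g, rfl⟩ := QuotientGroup.mk'_surjective N gbar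
    set R₁ : Subgroup G := R.comap (QuotientGroup.mk' N) with hR₁
    set R₀ : Subgroup G := R₁ ⊓ (P : Subgroup G) with hR₀
    have hR₀ne : R₀ ≠ ⊥ := by
      intro hbot
      apply hR1
      rw [eq_bot_iff]
      intro r hr
      obtain ⟨a, ha, rfl⟩ := hR hr
      have : a ∈ R₀ := ⟨hr, ha⟩
      rw [hbot, Subgroup.mem_bot] at this
      rw [this, map_one]
      exact Subgroup.one_mem _
    have hNR₁ : N ≤ R₁ := by
      intro n hn
      show (QuotientGroup.mk' N) n ∈ R
      have : (QuotientGroup.mk' N) n = 1 := by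
        rw [← MonoidHom.mem_ker, QuotientGroup.ker_mk']; exact hn
      rw [this]; exact R.one_mem
    have hgR₁ : ∀ a ∈ R₁, g * a * g⁻¹ ∈ R₁ := by
      intro a ha
      show (QuotientGroup.mk' N) (g * a * g⁻¹) ∈ R
      rw [map_mul, map_mul, map_inv]
      exact (Subgroup.mem_normalizer_iff.1 hgbar _).1 ha
    have hR₁C : R₁ ≤ (P : Subgroup G) ⊔ N := by
      intro a ha
      obtain ⟨b, hb, hba⟩ := hR ha
      have hN : b⁻¹ * a ∈ N := by
        rw [← QuotientGroup.ker_mk' N, MonoidHom.mem_ker, map_mul, map_inv, hba]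
        simp
      have : a = b * (b⁻¹ * a) := by group
      rw [this]
      exact Subgroup.mul_mem _ ((le_sup_left : (P : Subgroup G) ≤ _) hb)
        ((le_sup_right : N ≤ (P : Subgroup G) ⊔ N) hN)
    have hQR₁ : R₀.map (MulAut.conj g).toMonoidHom ≤ R₁ := by
      rintro _ ⟨a, ha, rfl⟩
      exact hgR₁ a ha.1
    have hR₀p : IsPGroup p R₀ := P.2.to_le inf_le_right
    obtain ⟨u, hu, huP⟩ := exists_conj_le P (le_sup_left : (P : Subgroup G) ≤ (P : Subgroup G) ⊔ N)
      (isPGroup_cj hR₀p g) (hQR₁.trans hR₁C)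
    have hu' : u ∈ ((P : Subgroup G) : Set G) * (N : Set G) := by
      rw [← Subgroup.mul_normal]; exact hu
    obtain ⟨a, ha, n, hn, rfl⟩ := Set.mem_mul.1 hu'
    have hng : R₀.map (MulAut.conj (n * g)).toMonoidHom ≤ R₀ := by
      rintro _ ⟨r, hr, rfl⟩
      simp only [MulEquiv.coe_toMonoidHom, MulAut.conj_apply]
      constructor
      · have e : n * g * r * (n * g)⁻¹ = n * (g * r * g⁻¹) * n⁻¹ := by group
        rw [e]
        exact R₁.mul_mem (R₁.mul_mem (hNR₁ hn) (hgR₁ r hr.1)) (R₁.inv_mem (hNR₁ hn))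
      · have h2 : (a * n) * (g * r * g⁻¹) * (a * n)⁻¹ ∈ (P : Subgroup G) :=
          huP (conj_mem_cj (conj_mem_cj hr))
        have e : n * g * r * (n * g)⁻¹ = a⁻¹ * ((a * n) * (g * r * g⁻¹) * (a * n)⁻¹) * a := by group
        rw [e]
        exact Subgroup.mul_mem _ (Subgroup.mul_mem _ (Subgroup.inv_mem _ ha) h2) ha
    have hcen : n * g ∈ Subgroup.centralizer ({x} : Set G) :=
      hlc R₀ inf_le_right hR₀ne (mem_normalizer_of_cj_le hng)
    rw [Subgroup.mem_centralizer_singleton_iff] at hcen ⊢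
    have hn1 : (QuotientGroup.mk' N) n = 1 := by
      rw [← MonoidHom.mem_ker, QuotientGroup.ker_mk']; exact hn
    have := congrArg (QuotientGroup.mk' N) hcen
    simp only [map_mul, hn1, one_mul] at this
    exact this

end Cfsg.Agent.S2998
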