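import Cfsg.Statements.S3011
import Mathlib
import Cfsg.Agent.S0200

set_option autoImplicit false
open Cfsg

namespace Cfsg.Agent.S3011

theorem eq_one_of_inv_eq {G : Type*} [Group G] {x : G} (hx : Odd (orderOf x)) (h : x⁻¹ = x) :
    x = 1 := by
  have h2 : x ^ 2 = 1 := by
    rw [pow_two]
    nth_rewrite 1 [← h]
    simp
  have hd : orderOf x ∣ 2 := orderOf_dvd_of_pow_eq_one h2
  have h1 : orderOf x = 1 := by
    rcases (Nat.dvd_prime Nat.prime_two).1 hd with h1 | h1
    · exact h1
    · rw [h1] at hx; exact absurd hx (by decide)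
  exact orderOf_eq_one_iff.1 h1

theorem conj_pow {G : Type*} [Group G] {g k : G} (h : g * k * g⁻¹ = k⁻¹) (n : ℕ) :
    g ^ n * k * (g ^ n)⁻¹ = if Even n then k else k⁻¹ := by
  induction n with
  | zero => simp
  | succ n ih =>
    have e : g ^ (n + 1) * k * (g ^ (n + 1))⁻¹ = g * (g ^ n * k * (g ^ n)⁻¹) * g⁻¹ := by
      rw [pow_succ']; group
    rw [e, ih]
    by_cases hn : Even n
    · have : ¬ Even (n + 1) := by
        intro h'; exact (Nat.even_add_one.1 h') hn
      simp [hn, this, h]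
    · have : Even (n + 1) := Nat.even_add_one.2 hn
      have h2 : g * k⁻¹ * g⁻¹ = k := by
        have := congrArg (·⁻¹) h
        simpa [mul_assoc] using this
      simp [hn, this, h2]

theorem eq_one_of_odd_invert {G : Type*} [Group G] {g k : G} {n : ℕ} (hn : Odd n) (hg : g ^ n = 1)
    (hk : Odd (orderOf k)) (h : g * k * g⁻¹ = k⁻¹) : k = 1 := by
  have := conj_pow h n
  rw [hg] at this
  have hne : ¬ Even n := Nat.not_even_iff_odd.2 hn
  simp [hne] at this
  exact eq_one_of_inv_eq hk this.symm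

theorem commute_of_sq {G : Type*} [Group G] {h k : G} (hh : Odd (orderOf h))
    (hc : Commute (h ^ 2) k) : Commute h k := by
  obtain ⟨m, hm⟩ := hh
  have e : h = (h ^ 2) ^ (m + 1) := by
    rw [← pow_mul]
    have : 2 * (m + 1) = orderOf h + 1 := by omega
    rw [this, pow_succ, pow_orderOf_eq_one, one_mul]
  rw [e]
  exact hc.pow_left _

theorem enum {G : Type*} [Group G] [Finite G] (V : Subgroup G)
    (hV : Cfsg.IsElementaryAbelian 2 V) (h4 : Nat.card V ≤ 4)
    (a b : G) (ha : a ∈ V) (hb : b ∈ V) (ha1 : a ≠ 1) (hb1 : b ≠ 1) (hab : a ≠ b) :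
    ∀ w ∈ V, w = 1 ∨ w = a ∨ w = b ∨ w = a * b := by
  classical
  have hsq : ∀ x ∈ V, x⁻¹ = x := by
    intro x hx
    have := hV.2 x hx
    rw [pow_two] at this
    exact inv_eq_of_mul_eq_one_left this
  have hsub : (({1, a, b, a * b} : Finset G) : Set G) ⊆ (V : Set G) := by
    intro x hx
    simp only [Finset.coe_insert, Finset.coe_singleton, Set.mem_insert_iff,
      Set.mem_singleton_iff] at hx
    rcases hx with rfl | rfl | rfl | rfl
    · exact V.one_mem
    · exact ha
    · exact hb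
    · exact V.mul_mem ha hb
  have hcard : ({1, a, b, a * b} : Finset G).card = 4 := by
    rw [Finset.card_insert_of_notMem, Finset.card_insert_of_notMem,
      Finset.card_insert_of_notMem, Finset.card_singleton]
    · simp only [Finset.mem_singleton]
      intro h'
      apply ha1
      have : a * b = 1 * b := by rw [one_mul]; exact h'.symm
      exact mul_right_cancel this
    · simp only [Finset.mem_insert, Finset.mem_singleton, not_or]
      refine ⟨hab, ?_⟩
      intro h'
      apply hb1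
      have : a * b = a * 1 := by rw [mul_one]; exact h'.symm
      exact mul_left_cancel this
    · simp only [Finset.mem_insert, Finset.mem_singleton, not_or]
      refine ⟨fun h' => ha1 h'.symm, fun h' => hb1 h'.symm, ?_⟩
      intro h'
      apply hab
      have : a⁻¹ = b := inv_eq_of_mul_eq_one_right h'.symm
      rw [← this, hsq a ha]
  have heq : (({1, a, b, a * b} : Finset G) : Set G) = (V : Set G) := by
    apply Set.eq_of_subset_of_ncard_le hsub
    rw [Set.ncard_coe_finset, hcard]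
    exact h4
  intro w hw
  have : w ∈ (({1, a, b, a * b} : Finset G) : Set G) := by rw [heq]; exact hw
  simpa using this

theorem key {G : Type*} [Group G] [Finite G] (V : Subgroup G) (hV : Cfsg.IsElementaryAbelian 2 V)
    (hS : Cfsg.IsSidkiPair V) (h4 : Nat.card V ≤ 4)
    (a b h : G) (ha : a ∈ V) (hb : b ∈ V) (hb1 : b ≠ 1) (hh : Odd (orderOf h)) (hh1 : h ≠ 1)
    (hinv : a * h * a⁻¹ = h⁻¹) (hbh : b * h = h * b)
    (k : G) (hk : Odd (orderOf k)) (hbk : b * k * b⁻¹ = k⁻¹) : k = 1 := by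
  classical
  have ha1 : a ≠ 1 := by
    rintro rfl
    apply hh1
    apply eq_one_of_inv_eq hh
    simpa using hinv.symm
  have hab : a ≠ b := by
    rintro rfl
    apply hh1
    apply eq_one_of_inv_eq hh
    rw [← hinv, hbh]; simp
  have hbh' : b * h * b⁻¹ = h := by rw [hbh]; simp
  -- multiplying by b
  have hmulb_h : ∀ u : G, u * h * u⁻¹ = h⁻¹ → (u * b) * h * (u * b)⁻¹ = h⁻¹ := by
    intro u hu
    calc (u * b) * h * (u * b)⁻¹ = u * (b * h * b⁻¹) * u⁻¹ := by group
      _ = h⁻¹ := by rw [hbh', hu]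
  have hmulb_k : ∀ u : G, u * k = k * u → (u * b) * k * (u * b)⁻¹ = k⁻¹ := by
    intro u hu
    have hu' : u * k⁻¹ * u⁻¹ = k⁻¹ := by
      have : u * k * u⁻¹ = k := by rw [hu]; simp
      have := congrArg (·⁻¹) this
      simpa [mul_assoc] using this
    calc (u * b) * k * (u * b)⁻¹ = u * (b * k * b⁻¹) * u⁻¹ := by group
      _ = k⁻¹ := by rw [hbk, hu']
  -- first application
  obtain ⟨u, huV, hu1, huk⟩ := hS k b hb hk hbk
  by_cases hub : u = b
  · subst hub
    apply eq_one_of_inv_eq hk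
    rw [← hbk, huk]; simp
  have hu_inv : u * h * u⁻¹ = h⁻¹ := by
    rcases enum V hV h4 a b ha hb ha1 hb1 hab u huV with h' | h' | h' | h'
    · exact absurd h' hu1
    · rw [h']; exact hinv
    · exact absurd h' hub
    · rw [h']; exact hmulb_h a hinv
  -- second application
  have hk' : Odd (orderOf (h * k * h⁻¹)) := by
    have : orderOf (h * k * h⁻¹) = orderOf k := by
      have := orderOf_injective (MulAut.conj h).toMonoidHom (MulAut.conj h).injective k
      simpa using this
    rw [this]; exact hk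
  have hbk' : b * (h * k * h⁻¹) * b⁻¹ = (h * k * h⁻¹)⁻¹ := by
    calc b * (h * k * h⁻¹) * b⁻¹ = (b * h * b⁻¹) * (b * k * b⁻¹) * (b * h * b⁻¹)⁻¹ := by group
      _ = (h * k * h⁻¹)⁻¹ := by rw [hbh', hbk]; group
  obtain ⟨u', hu'V, hu'1, hu'k⟩ := hS (h * k * h⁻¹) b hb hk' hbk'
  have hfin : h * k * h⁻¹ = 1 → k = 1 := by
    intro h'
    have : k = h⁻¹ * (h * k * h⁻¹) * h := by group
    rw [this, h']; simp
  rcases enum V hV h4 u b huV hb hu1 hb1 hub u' hu'V with h' | h' | h' | h'
  · exact absurd h' hu'1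
  · -- u' = u
    subst h'
    have e1 : u' * (h * k * h⁻¹) * u'⁻¹ = h⁻¹ * k * h := by
      have hk1 : u' * k * u'⁻¹ = k := by rw [huk]; simp
      calc u' * (h * k * h⁻¹) * u'⁻¹ = (u' * h * u'⁻¹) * (u' * k * u'⁻¹) * (u' * h * u'⁻¹)⁻¹ := by
            group
        _ = h⁻¹ * k * h := by rw [hu_inv, hk1]; simp
    have e2 : u' * (h * k * h⁻¹) * u'⁻¹ = h * k * h⁻¹ := by rw [hu'k]; simp
    have e3 : h⁻¹ * k * h = h * k * h⁻¹ := by rw [← e1, e2]
    have hc2 : Commute (h ^ 2) k := by
      show h ^ 2 * k = k * h ^ 2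
      have : h ^ 2 * k = h * (h * k * h⁻¹) * h := by rw [pow_two]; group
      rw [this, ← e3, pow_two]; group
    have hc : Commute h k := commute_of_sq hh hc2
    have hodd : Odd (orderOf (h * k)) := by
      have hd := hc.orderOf_mul_dvd_lcm
      have hl : Odd (Nat.lcm (orderOf h) (orderOf k)) := by
        rcases Nat.even_or_odd (Nat.lcm (orderOf h) (orderOf k)) with he | ho
        · exfalso
          have h2 : 2 ∣ Nat.lcm (orderOf h) (orderOf k) := he.two_dvd
          have h3 : Nat.lcm (orderOf h) (orderOf k) ∣ orderOf h * orderOf k := Nat.lcm_dvd_mul _ _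
          have h4 : Odd (orderOf h * orderOf k) := hh.mul hk
          exact (Nat.not_even_iff_odd.2 h4) (even_iff_two_dvd.2 (h2.trans h3))
        · exact ho
      exact Odd.of_dvd_nat hl hd
    have hinvhk : (u' * b) * (h * k) * (u' * b)⁻¹ = (h * k)⁻¹ := by
      calc (u' * b) * (h * k) * (u' * b)⁻¹
          = ((u' * b) * h * (u' * b)⁻¹) * ((u' * b) * k * (u' * b)⁻¹) := by group
        _ = h⁻¹ * k⁻¹ := by rw [hmulb_h u' hu_inv, hmulb_k u' huk]
        _ = (h * k)⁻¹ := by rw [hc.eq, mul_inv_rev]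
    obtain ⟨v, hvV, hv1, hvc⟩ := hS (h * k) (u' * b) (V.mul_mem huV hb) hodd hinvhk
    rcases enum V hV h4 u' b huV hb hu1 hb1 hub v hvV with h'' | h'' | h'' | h''
    · exact absurd h'' hv1
    · -- v = u'
      exfalso
      subst h''
      apply hh1
      apply eq_one_of_inv_eq hh
      have hk1 : v * k * v⁻¹ = k := by rw [huk]; simp
      have e4 : v * (h * k) * v⁻¹ = h⁻¹ * k := by
        calc v * (h * k) * v⁻¹ = (v * h * v⁻¹) * (v * k * v⁻¹) := by group
          _ = h⁻¹ * k := by rw [hu_inv, hk1]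
      have e5 : v * (h * k) * v⁻¹ = h * k := by rw [hvc]; simp
      exact mul_right_cancel (e4.symm.trans e5)
    · -- v = b
      subst h''
      apply eq_one_of_inv_eq hk
      have e4 : v * (h * k) * v⁻¹ = h * k⁻¹ := by
        calc v * (h * k) * v⁻¹ = (v * h * v⁻¹) * (v * k * v⁻¹) := by group
          _ = h * k⁻¹ := by rw [hbh', hbk]
      have e5 : v * (h * k) * v⁻¹ = h * k := by rw [hvc]; simp
      exact mul_left_cancel (e4.symm.trans e5)
    · -- v = u' * b
      subst h''
      have e5 : (u' * b) * (h * k) * (u' * b)⁻¹ = h * k := by rw [hvc]; group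
      have e6 : h * k = 1 := eq_one_of_inv_eq hodd (hinvhk.symm.trans e5)
      have e7 : k = h⁻¹ := (inv_eq_of_mul_eq_one_right e6).symm
      apply eq_one_of_inv_eq hk
      rw [← hbk, e7]
      have := congrArg (·⁻¹) hbh'
      simpa [mul_assoc] using this
  · -- u' = b
    subst h'
    apply hfin
    apply eq_one_of_inv_eq hk'
    rw [← hbk', hu'k]; simp
  · -- u' = u * b
    subst h'
    have e1 : (u * b) * (h * k * h⁻¹) * (u * b)⁻¹ = h⁻¹ * k⁻¹ * h := by
      calc (u * b) * (h * k * h⁻¹) * (u * b)⁻¹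
          = ((u * b) * h * (u * b)⁻¹) * ((u * b) * k * (u * b)⁻¹) * ((u * b) * h * (u * b)⁻¹)⁻¹ := by
            group
        _ = h⁻¹ * k⁻¹ * h := by rw [hmulb_h u hu_inv, hmulb_k u huk]; simp
    have e2 : (u * b) * (h * k * h⁻¹) * (u * b)⁻¹ = h * k * h⁻¹ := by rw [hu'k]; group
    have e3 : h⁻¹ * k⁻¹ * h = h * k * h⁻¹ := by rw [← e1, e2]
    have e4 : h ^ 2 * k * (h ^ 2)⁻¹ = k⁻¹ := by
      have : h ^ 2 * k * (h ^ 2)⁻¹ = h * (h * k * h⁻¹) * h⁻¹ := by rw [pow_two]; group
      rw [this, ← e3]; group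
    have e5 : (h ^ 2) ^ (orderOf h) = 1 := by
      rw [← pow_mul, mul_comm, pow_mul, pow_orderOf_eq_one, one_pow]
    exact eq_one_of_odd_invert hh e5 hk e4

/-- Let G be a finite group and V a nontrivial elementary abelian 2-subgroup of G of order at most 4 such that, whenever an element of V inverts an element h of G of odd order, some nontrivial element of V commutes with h. Then V meets O₂(G) nontrivially. (The case of order at most 4 has a short argument from the Baer–Suzuki theorem.) -/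
theorem result {G : Type*} [Group G] [Finite G] (V : Subgroup G) (hV : Cfsg.IsElementaryAbelian 2 V) (hV1 : V ≠ ⊥) (hS : Cfsg.IsSidkiPair V) (h4 : Nat.card V ≤ 4) : V ⊓ Cfsg.pCore 2 G ≠ ⊥ := by
  intro hbot
  have hnot : ∀ x ∈ V, x ≠ 1 → ∀ N : Subgroup G, N.Normal → IsPGroup 2 N → x ∉ N := by
    intro x hx hx1 N hN hN2 hxN
    apply hx1
    have : x ∈ V ⊓ Cfsg.pCore 2 G := by
      refine ⟨hx, ?_⟩
      have hle : N ≤ Cfsg.pCore 2 G := le_sSup ⟨hN, hN2⟩
      exact hle hxN
    rw [hbot] at this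
    exact (Subgroup.mem_bot).1 this
  have hord : ∀ x ∈ V, x ≠ 1 → orderOf x = 2 := by
    intro x hx hx1
    exact orderOf_eq_prime (hV.2 x hx) hx1
  obtain ⟨a, ha, ha1⟩ : ∃ a ∈ V, a ≠ 1 := by
    obtain ⟨a, h⟩ := Subgroup.ne_bot_iff_exists_ne_one.1 hV1
    exact ⟨a.1, a.2, fun h' => h (Subtype.ext h')⟩
  obtain ⟨h, hh1, hh, hinv⟩ := Cfsg.Agent.S0200.result a (hord a ha ha1) (hnot a ha ha1)
  obtain ⟨b, hb, hb1, hbh⟩ := hS h a ha hh hinv
  obtain ⟨k, hk1, hk, hbk⟩ := Cfsg.Agent.S0200.result b (hord b hb hb1) (hnot b hb hb1)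
  exact hk1 (key V hV hS h4 a b h ha hb hb1 hh hh1 hinv hbh k hk hbk)

end Cfsg.Agent.S3011
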