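import Cfsg.Statements.S3012

set_option autoImplicit false
open Cfsg

namespace Cfsg.Agent.S3012

theorem commute_of_sq {G : Type*} [Group G] {w h : G} (hodd : Odd (orderOf h))
    (hc : Commute w (h ^ 2)) : Commute w h := by
  obtain ⟨k, hk⟩ := hodd
  have h1 : h = (h ^ 2) ^ (k + 1) := by
    rw [← pow_mul]
    have : 2 * (k + 1) = orderOf h + 1 := by omega
    rw [this, pow_succ, pow_orderOf_eq_one, one_mul]
  rw [h1]
  exact hc.pow_right _

theorem commute_of_two_pow {G : Type*} [Group G] {w h : G} (hodd : Odd (orderOf h)) (k : ℕ)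
    (hc : Commute w (h ^ (2 ^ k))) : Commute w h := by
  induction k with
  | zero => simpa using hc
  | succ k ih =>
    apply ih
    apply commute_of_sq (Odd.of_dvd_nat hodd (orderOf_pow_dvd _))
    rwa [← pow_mul, ← pow_succ]


/-- Let G be a finite group, V a nontrivial elementary abelian 2-subgroup of G satisfying the Sidki pair condition (every odd-order element inverted by an element of V commutes with a nontrivial element of V), and K a normal subgroup of G with V ∩ K = 1. Then the image of V in G/K satisfies the Sidki pair condition in G/K. -/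
theorem result {G : Type*} [Group G] [Finite G] (V K : Subgroup G) [K.Normal] (hV : Cfsg.IsElementaryAbelian 2 V) (hV1 : V ≠ ⊥) (hS : Cfsg.IsSidkiPair V) (hVK : V ⊓ K = ⊥) : Cfsg.IsSidkiPair (V.map (QuotientGroup.mk' K)) := by
  intro hbar vbar hvbar hodd hinv
  obtain ⟨v, hvV, rfl⟩ := Subgroup.mem_map.1 hvbar
  obtain ⟨h, rfl⟩ := QuotientGroup.mk'_surjective K hbar
  have hv2 : v ^ 2 = 1 := hV.2 v hvV
  have hvinv : v⁻¹ = v := by
    rw [inv_eq_iff_mul_eq_one, ← pow_two, hv2]
  set y : G := h * v * h⁻¹ * v⁻¹ with hy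
  have hyinv : v * y * v⁻¹ = y⁻¹ := by
    rw [hy]
    simp only [mul_inv_rev, inv_inv, hvinv]
    have : v * v = 1 := by rw [← pow_two, hv2]
    calc v * (h * v * h⁻¹ * v) * v = v * h * v * h⁻¹ * (v * v) := by group
      _ = v * (h * (v * h⁻¹)) := by rw [this]; group
  have hybar : (QuotientGroup.mk' K) y = ((QuotientGroup.mk' K) h) ^ 2 := by
    have e : (QuotientGroup.mk' K) v * ((QuotientGroup.mk' K) h)⁻¹ * ((QuotientGroup.mk' K) v)⁻¹
        = (QuotientGroup.mk' K) h := by
      have := congrArg (fun z => z⁻¹) hinv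
      simp only [mul_inv_rev, inv_inv] at this
      rw [← mul_assoc] at this
      exact this
    rw [hy, map_mul, map_mul, map_mul, map_inv, map_inv, pow_two, mul_assoc, mul_assoc,
      ← mul_assoc ((QuotientGroup.mk' K) v), e]
  have hn0 : orderOf y ≠ 0 := (orderOf_pos y).ne'
  obtain ⟨a, n', hn'odd, hn⟩ := Nat.exists_eq_two_pow_mul_odd hn0
  have hy'ord : orderOf (y ^ (2 ^ a)) = n' := by
    rw [orderOf_pow_of_dvd (by positivity) (by rw [hn]; exact dvd_mul_right _ _), hn]
    exact Nat.mul_div_cancel_left _ (by positivity)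
  have hy'inv : v * (y ^ (2 ^ a)) * v⁻¹ = (y ^ (2 ^ a))⁻¹ := by
    rw [← conj_pow, hyinv, inv_pow]
  obtain ⟨w, hwV, hw1, hwy⟩ := hS (y ^ (2 ^ a)) v hvV (by rw [hy'ord]; exact hn'odd) hy'inv
  refine ⟨(QuotientGroup.mk' K) w, Subgroup.mem_map_of_mem _ hwV, ?_, ?_⟩
  · intro h1
    apply hw1
    have hwK : w ∈ K := by
      rw [← QuotientGroup.ker_mk' K]
      exact h1
    have : w ∈ V ⊓ K := ⟨hwV, hwK⟩
    rw [hVK] at this
    exact Subgroup.mem_bot.1 this
  · have hc : Commute ((QuotientGroup.mk' K) w) (((QuotientGroup.mk' K) h) ^ (2 ^ (a + 1))) := by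
      have h1 : Commute ((QuotientGroup.mk' K) w) ((QuotientGroup.mk' K) (y ^ (2 ^ a))) :=
        Commute.map (show Commute w (y ^ (2 ^ a)) from hwy) (QuotientGroup.mk' K)
      rw [map_pow, hybar, ← pow_mul, ← pow_succ'] at h1
      exact h1
    exact (commute_of_two_pow hodd _ hc).eq

end Cfsg.Agent.S3012
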