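import Cfsg.Statements.S3013

set_option autoImplicit false
open Cfsg

namespace Cfsg.Agent.S3013

theorem commute_of_sq {G : Type*} [Group G] {w h : G} (hodd : Odd (orderOf h))
    (hc : Commute w (h ^ 2)) : Commute w h := by
  obtain ⟨k, hk⟩ := hodd
  have h1 : h = (h ^ 2) ^ (k + 1) := by
    rw [← pow_mul]
    have : 2 * (k + 1) = orderOf h + 1 := by omega
    rw [this, pow_succ, pow_orderOf_eq_one, one_mul]
  rw [h1]
  exact hc.pow_right _

theorem comm_of_mem {G : Type*} [Group G] {V : Subgroup G} (hV : IsMulCommutative V) {a b : G}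
    (ha : a ∈ V) (hb : b ∈ V) : Commute a b := by
  have := hV.is_comm.comm ⟨a, ha⟩ ⟨b, hb⟩
  exact congrArg Subtype.val this


/-- Let G be a finite group and V a nontrivial elementary abelian 2-subgroup of G satisfying the Sidki pair condition. Let v ∈ V and let x be an element of odd order inverted by v, and put C = C_G(v) ∩ C_G(x), the centralizer of the dihedral subgroup generated by v and x. Then C ∩ V is nontrivial and satisfies the Sidki pair condition inside C: every odd-order element of C inverted by an element of C ∩ V commutes with a nontrivial element of C ∩ V. -/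
theorem result {G : Type*} [Group G] [Finite G] (V : Subgroup G) (hV : Cfsg.IsElementaryAbelian 2 V) (hV1 : V ≠ ⊥) (hS : Cfsg.IsSidkiPair V) (v x : G) (hv : v ∈ V) (hx : Odd (orderOf x)) (hinv : v * x * v⁻¹ = x⁻¹) (C : Subgroup G) (hC : C = Subgroup.centralizer ({v} : Set G) ⊓ Subgroup.centralizer ({x} : Set G)) : C ⊓ V ≠ ⊥ ∧ Cfsg.IsSidkiPair ((C ⊓ V).subgroupOf C) := by
  have memC : ∀ g : G, g ∈ C ↔ Commute v g ∧ Commute x g := by
    intro g
    rw [hC, Subgroup.mem_inf, Subgroup.mem_centralizer_singleton_iff,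
      Subgroup.mem_centralizer_singleton_iff]
    exact ⟨fun h => ⟨h.1.symm, h.2.symm⟩, fun h => ⟨h.1.symm, h.2.symm⟩⟩
  constructor
  · obtain ⟨w, hwV, hw1, hwx⟩ := hS x v hv hx hinv
    intro hbot
    apply hw1
    have : w ∈ C ⊓ V := by
      refine ⟨(memC w).2 ⟨comm_of_mem hV.1 hv hwV, ?_⟩, hwV⟩
      exact hwx.symm
    rw [hbot] at this
    exact (Subgroup.mem_bot).1 this
  · intro h u hu hodd hinv'
    have huCV : (u : G) ∈ C ⊓ V := Subgroup.mem_subgroupOf.1 hu
    have huV : (u : G) ∈ V := huCV.2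
    obtain ⟨hvu, hxu⟩ := (memC _).1 huCV.1
    obtain ⟨hvh, hxh⟩ := (memC _).1 h.2
    have hodd' : Odd (orderOf (h : G)) := by rwa [Subgroup.orderOf_coe]
    have hinvG : (u : G) * (h : G) * (u : G)⁻¹ = (h : G)⁻¹ := by
      have := congrArg Subtype.val hinv'
      simpa using this
    set h' : G := (h : G) with hh'
    set u' : G := (u : G) with hu'
    have hkodd : Odd (orderOf (x * h')) :=
      Odd.of_dvd_nat (hx.mul hodd') hxh.orderOf_mul_dvd_mul_orderOf
    have hvk : v * (x * h') * v⁻¹ = x⁻¹ * h' := by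
      have e1 : v * h' * v⁻¹ = h' := by rw [hvh.eq, mul_inv_cancel_right]
      calc v * (x * h') * v⁻¹ = (v * x * v⁻¹) * (v * h' * v⁻¹) := by group
        _ = x⁻¹ * h' := by rw [hinv, e1]
    have huk : (u' * v) * (x * h') * (u' * v)⁻¹ = (x * h')⁻¹ := by
      have e2 : u' * x⁻¹ * u'⁻¹ = x⁻¹ := by
        rw [(hxu.symm.inv_right).eq, mul_inv_cancel_right]
      calc (u' * v) * (x * h') * (u' * v)⁻¹ = u' * (v * (x * h') * v⁻¹) * u'⁻¹ := by group
        _ = u' * (x⁻¹ * h') * u'⁻¹ := by rw [hvk]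
        _ = (u' * x⁻¹ * u'⁻¹) * (u' * h' * u'⁻¹) := by group
        _ = x⁻¹ * h'⁻¹ := by rw [e2, hinvG]
        _ = (x * h')⁻¹ := by rw [mul_inv_rev, (hxh.inv_inv).eq]
    obtain ⟨w, hwV, hw1, hwk⟩ := hS (x * h') (u' * v) (V.mul_mem huV hv) hkodd huk
    have hwk' : Commute w (x * h') := hwk
    have hvw : Commute v w := comm_of_mem hV.1 hv hwV
    have hwk2 : Commute w (x⁻¹ * h') := by
      rw [← hvk]
      have : Commute (v * w * v⁻¹) (v * (x * h') * v⁻¹) := by
        have := hwk'.eq
        show v * w * v⁻¹ * (v * (x * h') * v⁻¹) = v * (x * h') * v⁻¹ * (v * w * v⁻¹)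
        calc v * w * v⁻¹ * (v * (x * h') * v⁻¹) = v * (w * (x * h')) * v⁻¹ := by group
          _ = v * ((x * h') * w) * v⁻¹ := by rw [this]
          _ = _ := by group
      rwa [hvw.eq, mul_inv_cancel_right] at this
    have hwsq : Commute w (h' ^ 2) := by
      have e : h' ^ 2 = (x * h') * (x⁻¹ * h') := by
        calc h' ^ 2 = h' * h' := pow_two _
          _ = (x * h') * (x⁻¹ * h') := by
            rw [hxh.eq]; group
      rw [e]
      exact hwk'.mul_right hwk2
    have hwh : Commute w h' := commute_of_sq hodd' hwsq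
    have hwx : Commute w x := by
      have : x = (x * h') * h'⁻¹ := by group
      rw [this]
      exact hwk'.mul_right hwh.inv_right
    have hwC : w ∈ C := (memC w).2 ⟨hvw, hwx.symm⟩
    refine ⟨⟨w, hwC⟩, ?_, ?_, ?_⟩
    · exact Subgroup.mem_subgroupOf.2 ⟨hwC, hwV⟩
    · intro h1
      exact hw1 (congrArg Subtype.val h1)
    · apply Subtype.ext
      exact hwh.eq

end Cfsg.Agent.S3013
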