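import Cfsg.Statements.S3020
import Cfsg.Agent.Lib.Helper56Basic
import Cfsg.Agent.Lib.Helper56Core

set_option autoImplicit false
open Cfsg

namespace Cfsg.Agent.S3020

open Cfsg.Agent.Lib.Helper56Basic Cfsg.Agent.Lib.Helper56Core


/-- Let G be a finite group, p a prime and H an abelian p-subgroup of G that is extremely closed (for every g, the subgroup generated by H and g H g⁻¹ meets N_G(H) exactly in H). Then for every g ∈ G, the subgroup T generated by H and g H g⁻¹ is the product of H with O_{p'}(T), and H meets O_{p'}(T) trivially; that is, O_{p'}(T) is a normal p-complement of H in T. -/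
theorem result {G : Type*} [Group G] [Finite G] {p : ℕ} [Fact p.Prime] (H : Subgroup G) (hHp : IsPGroup p H) (hHab : IsMulCommutative H) (hcl : Cfsg.IsExtremelyClosed H) (g : G) (T : Subgroup G) (hT : T = H ⊔ H.map (MulAut.conj g).toMonoidHom) : H ⊔ (Cfsg.pPrimeCore p ↥T).map T.subtype = T ∧ H ⊓ (Cfsg.pPrimeCore p ↥T).map T.subtype = ⊥ := by
  have hHT : H ≤ T := hT ▸ le_sup_left
  have hinf : T ⊓ Subgroup.normalizer (H : Set G) = H := by rw [hT]; exact hcl g
  have hH'p : IsPGroup p (H.subgroupOf T) := hHp.comap_subtype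
  have hN' : Subgroup.normalizer ((H.subgroupOf T : Subgroup T) : Set T) = H.subgroupOf T := by
    rw [← Subgroup.subgroupOf_normalizer_eq hHT, ← Subgroup.inf_subgroupOf_right, inf_comm, hinf]
  obtain ⟨P, hP⟩ := exists_sylow_eq_of_normalizer_eq hH'p hN'
  have hPc : Subgroup.normalizer (P : Set T) ≤ Subgroup.centralizer (P : Set T) := by
    have e1 : Subgroup.normalizer (P : Set T) = H.subgroupOf T := by
      rw [← hN', ← hP]; rfl
    rw [e1]
    intro x hx
    rw [Subgroup.mem_centralizer_iff]
    intro y hy
    have hy' : y ∈ H.subgroupOf T := by rw [← hP]; exact hy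
    apply Subtype.ext
    exact (comm_of_mem hHab (Subgroup.mem_subgroupOf.1 hy') (Subgroup.mem_subgroupOf.1 hx)).eq
  have hcompl := MonoidHom.ker_transferSylow_isComplement' P hPc
  have hnd := MonoidHom.not_dvd_card_ker_transferSylow P hPc
  have hKle : (MonoidHom.transferSylow P hPc).ker ≤ Cfsg.pPrimeCore p T :=
    le_pPrimeCore inferInstance
      ((Nat.coprime_comm.1 ((Nat.Prime.coprime_iff_not_dvd Fact.out).2 hnd)))
  generalize (MonoidHom.transferSylow P hPc).ker = K at hcompl hnd hKle
  constructor
  · apply le_antisymm (sup_le hHT (Subgroup.map_subtype_le _))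
    have h1 : (⊤ : Subgroup T) = K ⊔ (P : Subgroup T) :=
      hcompl.sup_eq_top.symm
    have h2 : T = (⊤ : Subgroup T).map T.subtype := by
      rw [← MonoidHom.range_eq_map, Subgroup.range_subtype]
    calc T = (⊤ : Subgroup T).map T.subtype := h2
      _ = K.map T.subtype ⊔ (H.subgroupOf T).map T.subtype := by
        rw [h1, Subgroup.map_sup, hP]
      _ ≤ _ := by
        rw [sup_comm]
        apply sup_le_sup
        · rw [Subgroup.subgroupOf_map_subtype]; exact inf_le_left
        · exact Subgroup.map_mono hKle
  · apply inf_eq_bot_of_pgroup_coprime hHp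
    rw [Subgroup.card_map_of_injective T.subtype_injective]
    exact pPrimeCore_coprime p

end Cfsg.Agent.S3020
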