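import Cfsg.Statements.S3021
import Cfsg.Agent.Lib.Helper56Basic

set_option autoImplicit false
open Cfsg

namespace Cfsg.Agent.S3021

open Cfsg.Agent.Lib.Helper56Basic

theorem key {G : Type*} [Group G] [Finite G] {H : Subgroup G} (hcl : Cfsg.IsExtremelyClosed H)
    {g : G} (h : H.map (MulAut.conj g).toMonoidHom ≤ Subgroup.normalizer (H : Set G)) :
    g ∈ Subgroup.normalizer (H : Set G) := by
  apply mem_normalizer_of_cj_le
  have h1 : H ⊔ H.map (MulAut.conj g).toMonoidHom ≤ Subgroup.normalizer (H : Set G) :=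
    sup_le Subgroup.le_normalizer h
  have h2 := hcl g
  rw [inf_eq_left.2 h1] at h2
  exact sup_eq_left.1 h2

theorem le_normalizer_of_pgroup {G : Type*} [Group G] [Finite G] {p : ℕ} [Fact p.Prime]
    {H : Subgroup G} (hcl : Cfsg.IsExtremelyClosed H) {Q : Subgroup G} (hQ : IsPGroup p Q)
    (hHQ : H ≤ Q) : Q ≤ Subgroup.normalizer (H : Set G) := by
  by_contra hcon
  have hlt : Subgroup.normalizer (H : Set G) ⊓ Q < Q := by
    refine lt_of_le_of_ne inf_le_right ?_
    intro h
    exact hcon (inf_eq_right.1 h)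
  obtain ⟨g, hgQ, hgN, hgnorm⟩ := exists_normalizing_of_lt hQ hlt
  apply hgN
  refine ⟨key hcl ?_, hgQ⟩
  have h1 : H ≤ Subgroup.normalizer (H : Set G) ⊓ Q := le_inf Subgroup.le_normalizer hHQ
  calc H.map (MulAut.conj g).toMonoidHom
      ≤ (Subgroup.normalizer (H : Set G) ⊓ Q).map (MulAut.conj g).toMonoidHom := cj_mono h1
    _ = Subgroup.normalizer (H : Set G) ⊓ Q := mem_normalizer_iff_cj.1 hgnorm
    _ ≤ _ := inf_le_left


/-- Let G be a finite group, p a prime and H a p-subgroup of G that is extremely closed (for every g, the subgroup generated by H and g H g⁻¹ meets N_G(H) exactly in H). Then every p-subgroup Q of G containing H has N_G(Q) ≤ N_G(H); in particular every Sylow p-subgroup P of G containing H normalizes H, and H is strongly closed in P with respect to G. -/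
theorem result {G : Type*} [Group G] [Finite G] {p : ℕ} [Fact p.Prime] (H : Subgroup G) (hHp : IsPGroup p H) (hcl : Cfsg.IsExtremelyClosed H) : (∀ Q : Subgroup G, IsPGroup p Q → H ≤ Q → Subgroup.normalizer (Q : Set G) ≤ Subgroup.normalizer (H : Set G)) ∧ ∀ P : Sylow p G, H ≤ (P : Subgroup G) → (P : Subgroup G) ≤ Subgroup.normalizer (H : Set G) ∧ Cfsg.IsStronglyClosed H (P : Subgroup G) := by
  refine ⟨?_, ?_⟩
  · intro Q hQ hHQ g hg
    apply key hcl
    calc H.map (MulAut.conj g).toMonoidHom ≤ Q.map (MulAut.conj g).toMonoidHom := cj_mono hHQ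
      _ = Q := mem_normalizer_iff_cj.1 hg
      _ ≤ _ := le_normalizer_of_pgroup hcl hQ hHQ
  · intro P hHP
    have hPN := le_normalizer_of_pgroup hcl P.2 hHP
    refine ⟨hPN, hHP, ?_⟩
    intro x hx g hgx
    have h1 : g * x * g⁻¹ ∈ (H ⊔ H.map (MulAut.conj g).toMonoidHom) ⊓
        Subgroup.normalizer (H : Set G) :=
      ⟨(le_sup_right : _ ≤ H ⊔ H.map (MulAut.conj g).toMonoidHom) (conj_mem_cj hx), hPN hgx⟩
    rwa [hcl g] at h1

end Cfsg.Agent.S3021
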