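import Cfsg.Statements.S3023
import Cfsg.Agent.Lib.Helper54Parabolic
import Cfsg.Agent.Lib.Helper54StrEmb2

set_option autoImplicit false
open Cfsg

namespace Cfsg.Agent.S3023

open Subgroup Cfsg.Agent.Lib.Helper28Comp Cfsg.Agent.Lib.Helper54CharP Cfsg.Agent.Lib.Helper54Parabolic
  Cfsg.Agent.Lib.Helper40Sylow Cfsg.Agent.Lib.Helper54StrEmb2

/-- Let p be a prime, G a finite group of parabolic characteristic p (every p-local subgroup containing a Sylow p-subgroup of G has characteristic p), S a Sylow p-subgroup of G and G₁ a subnormal subgroup of G. If the centre of S ∩ G₁ is nontrivial and contained in the centre of S, then G₁ has parabolic characteristic p. -/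
theorem result {G : Type*} [Group G] [Finite G] {p : ℕ} [Fact p.Prime] (hG : Cfsg.IsOfParabolicCharacteristic p G) (S : Sylow p G) (G₁ : Subgroup G) (hsn : G₁.IsSubnormal) (hne : ((S : Subgroup G) ⊓ G₁) ⊓ Subgroup.centralizer (((S : Subgroup G) ⊓ G₁ : Subgroup G) : Set G) ≠ ⊥) (hle : ((S : Subgroup G) ⊓ G₁) ⊓ Subgroup.centralizer (((S : Subgroup G) ⊓ G₁ : Subgroup G) : Set G) ≤ (S : Subgroup G) ⊓ Subgroup.centralizer ((S : Subgroup G) : Set G)) : Cfsg.IsOfParabolicCharacteristic p ↥G₁ := by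
  have hsn' : Sn G₁ ⊤ := sn_top_iff.mpr hsn
  have hsyl : IsSylowIn p ((S : Subgroup G) ⊓ G₁) G₁ := isSylowIn_inf_of_sn (isSylowIn_top S) hsn'
  have hpar := (parabolic_iff S).mp hG
  rw [parabolic_iff hsyl.toSylow]
  intro z hz1 hz
  rw [charP_map_iff G₁.subtype_injective]
  have hmap : (centralizer ({z} : Set G₁)).map G₁.subtype = centralizer ({(z : G)} : Set G) ⊓ G₁ := by
    ext x
    constructor
    · rintro ⟨y, hy, rfl⟩
      refine mem_inf.mpr ⟨?_, y.2⟩
      rw [SetLike.mem_coe, mem_centralizer_singleton_iff] at hy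
      rw [mem_centralizer_singleton_iff]
      exact congrArg Subtype.val hy
    · intro hx
      obtain ⟨hx1, hx2⟩ := mem_inf.mp hx
      refine ⟨⟨x, hx2⟩, ?_, rfl⟩
      rw [mem_centralizer_singleton_iff] at hx1
      rw [SetLike.mem_coe, mem_centralizer_singleton_iff]
      exact Subtype.ext hx1
  rw [hmap]
  have hz1' : (z : G) ≠ 1 := fun h => hz1 (Subtype.ext h)
  have hzO : (z : G) ∈ Cfsg.omegaOne p ((S : Subgroup G) ⊓ centralizer ((S : Subgroup G) : Set G)) := by
    have h1 : Cfsg.omegaOne p ((hsyl.toSylow : Subgroup G₁) ⊓ centralizer ((hsyl.toSylow : Subgroup G₁) : Set G₁)) ≤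
        (Cfsg.omegaOne p ((S : Subgroup G) ⊓ centralizer ((S : Subgroup G) : Set G))).comap G₁.subtype := by
      unfold Cfsg.omegaOne
      rw [closure_le]
      rintro x ⟨hx, hxp⟩
      obtain ⟨hx1, hx2⟩ := mem_inf.mp hx
      apply Subgroup.subset_closure
      refine ⟨hle (mem_inf.mpr ⟨hx1, ?_⟩), congrArg Subtype.val hxp⟩
      rw [mem_centralizer_iff]
      intro y hy
      have hyG : y ∈ G₁ := (mem_inf.mp hy).2
      have := mem_centralizer_iff.mp hx2 ⟨y, hyG⟩ hy
      exact congrArg Subtype.val this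
    exact h1 hz
  have h2 := hpar z hz1' hzO
  apply h2.of_sn
  have := hsn'.inf_right (centralizer ({(z : G)} : Set G))
  rwa [top_inf_eq, inf_comm] at this

end Cfsg.Agent.S3023
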