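import Cfsg.Statements.S3025
import Cfsg.Agent.S0016

set_option autoImplicit false
open Cfsg

namespace Cfsg.Agent.S3025

open Subgroup

/-- Let F be a finite group and H a nontrivial subgroup of F that is contained in every nontrivial subgroup of F which H normalizes. Then F has a nontrivial normal subgroup N contained in every nontrivial normal subgroup of F (a unique minimal normal subgroup), N is simple, and one of the following holds: C_F(N) = 1; or H = N has prime order p, C_F(N) is cyclic of order a power of p, and F/C_F(N) is cyclic of order dividing p − 1; or H = N has order 2, N is central in F, and F is a generalized quaternion group. -/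
theorem result {F : Type*} [Group F] [Finite F] (H : Subgroup F) (hH : H ≠ ⊥)
    (hmin : ∀ R : Subgroup F, R ≠ ⊥ → H ≤ Subgroup.normalizer (R : Set F) → H ≤ R) :
    ∃ N : Subgroup F, N.Normal ∧ N ≠ ⊥ ∧ (∀ M : Subgroup F, M.Normal → M ≠ ⊥ → N ≤ M) ∧ IsSimpleGroup ↥N ∧
      (Subgroup.centralizer (N : Set F) = ⊥ ∨
       (H = N ∧ (Nat.card N).Prime ∧ IsCyclic ↥(Subgroup.centralizer (N : Set F)) ∧
          (∃ k : ℕ, 1 ≤ k ∧ Nat.card ↥(Subgroup.centralizer (N : Set F)) = Nat.card N ^ k) ∧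
          (∃ g : F, Subgroup.centralizer (N : Set F) ⊔ Subgroup.zpowers g = ⊤) ∧
          (Subgroup.centralizer (N : Set F)).index ∣ Nat.card N - 1) ∨
       (H = N ∧ Nat.card N = 2 ∧ Subgroup.centralizer (N : Set F) = ⊤ ∧
          ∃ k : ℕ, 1 ≤ k ∧ Nonempty (F ≃* QuaternionGroup (2 ^ k)))) := by
  classical
  have hHle : ∀ M : Subgroup F, M.Normal → M ≠ ⊥ → H ≤ M := fun M hM hne =>
    hmin M hne (by rw [normalizer_eq_top_iff.mpr hM]; exact le_top)
  let N : Subgroup F := ⨅ M : {M : Subgroup F // M.Normal ∧ M ≠ ⊥}, M.1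
  have hHN : H ≤ N := le_iInf (fun M => hHle M.1 M.2.1 M.2.2)
  have hNn : N.Normal := normal_iInf_normal (fun M => M.2.1)
  have hNne : N ≠ ⊥ := fun h => hH (le_bot_iff.mp (h ▸ hHN))
  have hNmin : ∀ M : Subgroup F, M.Normal → M ≠ ⊥ → N ≤ M := fun M hM hne =>
    iInf_le (fun M : {M : Subgroup F // M.Normal ∧ M ≠ ⊥} => M.1) ⟨M, hM, hne⟩
  -- the family of nontrivial `N`-invariant subgroups of `N`
  let Fam : Subgroup F → Prop := fun R => R ≤ N ∧ R ≠ ⊥ ∧ ∀ n ∈ N, ∀ y ∈ R, n * y * n⁻¹ ∈ R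
  have hFamH : ∀ R, Fam R → H ≤ R := by
    rintro R ⟨_, hne, hinv⟩
    apply hmin R hne
    intro h hh
    rw [mem_normalizer_iff]
    intro y
    refine ⟨hinv h (hHN hh) y, fun hy => ?_⟩
    have := hinv h⁻¹ (N.inv_mem (hHN hh)) _ hy
    simpa [mul_assoc] using this
  have hFamConj : ∀ R, Fam R → ∀ g : F, Fam (R.map (MulAut.conj g).toMonoidHom) := by
    rintro R ⟨hle, hne, hinv⟩ g
    refine ⟨?_, ?_, ?_⟩
    · rintro _ ⟨y, hy, rfl⟩
      exact hNn.conj_mem y (hle hy) g
    · rw [Ne, map_eq_bot_iff_of_injective _ (MulAut.conj g).injective]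
      exact hne
    · rintro n hn _ ⟨y, hy, rfl⟩
      refine ⟨(g⁻¹ * n * g) * y * (g⁻¹ * n * g)⁻¹, hinv _ ?_ y hy, ?_⟩
      · have := hNn.conj_mem n hn g⁻¹
        simpa using this
      · simp only [MulEquiv.coe_toMonoidHom, MulAut.conj_apply]
        group
  let N₁ : Subgroup F := ⨅ R : {R : Subgroup F // Fam R}, R.1
  have hN₁n : N₁.Normal := by
    constructor
    intro x hx g
    rw [mem_iInf] at hx ⊢
    intro R
    obtain ⟨y, hy, hyx⟩ := hx ⟨_, hFamConj R.1 R.2 g⁻¹⟩
    simp only [MulEquiv.coe_toMonoidHom, MulAut.conj_apply, inv_inv] at hyx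
    rw [← hyx]
    have : g * (g⁻¹ * y * g) * g⁻¹ = y := by group
    rw [this]; exact hy
  have hHN₁ : H ≤ N₁ := le_iInf (fun R => hFamH R.1 R.2)
  have hN₁ne : N₁ ≠ ⊥ := fun h => hH (le_bot_iff.mp (h ▸ hHN₁))
  have hFamN : ∀ R, Fam R → N ≤ R := fun R hR =>
    (hNmin N₁ hN₁n hN₁ne).trans (iInf_le (fun R : {R : Subgroup F // Fam R} => R.1) ⟨R, hR⟩)
  have hNsimple : IsSimpleGroup N := by
    have : Nontrivial N := (nontrivial_iff_ne_bot N).mpr hNne
    refine ⟨fun K hK => ?_⟩
    by_cases hKb : K = ⊥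
    · exact Or.inl hKb
    right
    have hFamK : Fam (K.map N.subtype) := by
      refine ⟨map_subtype_le K, ?_, ?_⟩
      · rw [Ne, map_eq_bot_iff_of_injective _ N.subtype_injective]; exact hKb
      · rintro n hn _ ⟨y, hy, rfl⟩
        exact ⟨⟨n, hn⟩ * y * ⟨n, hn⟩⁻¹, hK.conj_mem y hy _, rfl⟩
    rw [eq_top_iff]
    intro x _
    obtain ⟨y, hy, hyx⟩ := hFamN _ hFamK x.2
    have : y = x := Subtype.ext hyx
    rwa [← this]
  refine ⟨N, hNn, hNne, hNmin, hNsimple, ?_⟩
  by_cases hC : centralizer (N : Set F) = ⊥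
  · exact Or.inl hC
  right
  set C := centralizer (N : Set F) with hCdef
  have hCn : C.Normal := inferInstance
  have hNC : N ≤ C := hNmin C hCn hC
  have hNab : ∀ a ∈ N, ∀ b ∈ N, a * b = b * a := fun a ha b hb => (hNC hb a ha)
  have hFamAb : ∀ R : Subgroup F, R ≤ N → R ≠ ⊥ → Fam R := by
    intro R hle hne
    refine ⟨hle, hne, fun n hn y hy => ?_⟩
    rw [hNab n hn y (hle hy)]
    simpa using hy
  have hHeq : H = N := le_antisymm hHN (hFamN H (hFamAb H hHN hH))
  -- `N` has prime order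
  have hcard1 : Nat.card N ≠ 1 := by rw [Ne, card_eq_one]; exact hNne
  obtain ⟨p, hpdef⟩ : ∃ p, p = (Nat.card N).minFac := ⟨_, rfl⟩
  have hp : p.Prime := hpdef ▸ Nat.minFac_prime hcard1
  have : Fact p.Prime := ⟨hp⟩
  obtain ⟨x, hx⟩ := exists_prime_orderOf_dvd_card' (G := N) p (hpdef ▸ Nat.minFac_dvd _)
  have hxo : orderOf (x : F) = p := by rw [Subgroup.orderOf_coe]; exact hx
  have hZle : zpowers (x : F) ≤ N := zpowers_le.mpr x.2
  have hZne : zpowers (x : F) ≠ ⊥ := by
    rw [Ne, zpowers_eq_bot]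
    intro h1
    rw [h1, orderOf_one] at hxo
    exact hp.one_lt.ne hxo
  have hNZ : N = zpowers (x : F) := le_antisymm (hFamN _ (hFamAb _ hZle hZne)) hZle
  have hNcard : Nat.card N = p := by
    conv_lhs => rw [hNZ]
    rw [Nat.card_zpowers, hxo]
  -- subgroups of `C`
  have hsubC : ∀ R : Subgroup F, R ≤ C → R ≠ ⊥ → N ≤ R := by
    intro R hle hne
    rw [← hHeq]
    apply hmin R hne
    intro h hh
    rw [mem_normalizer_iff]
    intro y
    have key : ∀ y ∈ R, h * y * h⁻¹ = y := by
      intro y hy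
      have := hle hy h (hHN hh)
      rw [this]; group
    refine ⟨fun hy => by rw [key y hy]; exact hy, fun hy => ?_⟩
    have h1 := key _ hy
    have h2 : h * y * h⁻¹ = y := by
      calc h * y * h⁻¹ = h⁻¹ * (h * (h * y * h⁻¹) * h⁻¹) * h := by group
        _ = h⁻¹ * (h * y * h⁻¹) * h := by rw [h1]
        _ = y := by group
    rw [← h2]; exact hy
  have hCcard : Nat.card C = p ^ (Nat.card C).primeFactorsList.length := by
    apply Nat.eq_prime_pow_of_unique_prime_dvd Nat.card_pos.ne'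
    intro q hq hqd
    have : Fact q.Prime := ⟨hq⟩
    obtain ⟨c, hc⟩ := exists_prime_orderOf_dvd_card' (G := C) q hqd
    have hco : orderOf (c : F) = q := by rw [Subgroup.orderOf_coe]; exact hc
    have hne : zpowers (c : F) ≠ ⊥ := by
      rw [Ne, zpowers_eq_bot]
      intro h1
      rw [h1, orderOf_one] at hco
      exact hq.one_lt.ne hco
    have h1 := card_dvd_of_le (hsubC _ (zpowers_le.mpr c.2) hne)
    rw [hNcard, Nat.card_zpowers, hco] at h1
    exact ((Nat.prime_dvd_prime_iff_eq hp hq).mp h1).symm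
  have hCp : IsPGroup p C := IsPGroup.of_card hCcard
  have huniq : ∀ A B : Subgroup C, Nat.card A = p → Nat.card B = p → A = B := by
    have key : ∀ A : Subgroup C, Nat.card A = p → A.map C.subtype = N := by
      intro A hA
      have hAc : Nat.card (A.map C.subtype) = p := by
        rw [card_map_of_injective C.subtype_injective, hA]
      have hne : A.map C.subtype ≠ ⊥ := by
        intro h1
        rw [h1, card_bot] at hAc
        exact hp.one_lt.ne hAc
      exact (eq_of_le_of_card_ge (hsubC _ (map_subtype_le A) hne) (by rw [hAc, hNcard])).symm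
    intro A B hA hB
    apply map_injective C.subtype_injective
    rw [key A hA, key B hB]
  have hNprime : (Nat.card N).Prime := hNcard ▸ hp
  have : Fact (Nat.card N).Prime := ⟨hNprime⟩
  have hNcyc : IsCyclic N := isCyclic_of_prime_card rfl
  let f : F →* MulAut N := MulAut.conjNormal
  have hker : f.ker = C := by
    ext g
    rw [MonoidHom.mem_ker]
    constructor
    · intro hg n hn
      have h1 : (f g ⟨n, hn⟩ : F) = n := by rw [hg]; rfl
      rw [MulAut.conjNormal_apply] at h1
      have h1' : g * n * g⁻¹ = n := h1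
      calc n * g = (g * n * g⁻¹) * g := by rw [h1']
        _ = g * n := by group
    · intro hg
      ext n
      rw [MulAut.conjNormal_apply]
      have := hg n n.2
      show g * (n : F) * g⁻¹ = n
      rw [← this]; group
  have hidx : C.index ∣ Nat.card N - 1 := by
    rw [← hker, index_ker, ← Nat.totient_prime hNprime, ← IsCyclic.card_mulAut N]
    exact card_subgroup_dvd_card _
  have hgen : ∃ g : F, C ⊔ zpowers g = ⊤ := by
    have h1 : IsCyclic (MulAut N) :=
      isCyclic_of_surjective (IsCyclic.mulAutMulEquiv N).symm (IsCyclic.mulAutMulEquiv N).symm.surjective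
    have h2 : IsCyclic f.range := inferInstance
    obtain ⟨⟨_, g, rfl⟩, hg⟩ := h2.exists_generator
    refine ⟨g, ?_⟩
    rw [eq_top_iff]
    intro x _
    obtain ⟨k, hk⟩ := hg ⟨f x, x, rfl⟩
    have hk' : f g ^ k = f x := congrArg Subtype.val hk
    have h3 : x * (g ^ k)⁻¹ ∈ C := by
      rw [← hker, MonoidHom.mem_ker, map_mul, map_inv, map_zpow, hk', mul_inv_cancel]
    have h4 : x = (x * (g ^ k)⁻¹) * g ^ k := by group
    rw [h4]
    exact mul_mem (le_sup_left (a := C) h3) (le_sup_right (b := zpowers g) (zpow_mem (mem_zpowers g) k))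
  have hcase : IsCyclic C ∨ (p = 2 ∧ ∃ n : ℕ, 1 ≤ n ∧ Nonempty (C ≃* QuaternionGroup (2 ^ n))) := by
    rcases Cfsg.Agent.S0016.result p hCp huniq with h | ⟨h2, n, ⟨e⟩⟩
    · exact Or.inl h
    · rcases Nat.eq_zero_or_pos n with rfl | hn
      · left
        have := QuaternionGroup.quaternionGroup_one_isCyclic
        exact isCyclic_of_surjective e.symm e.symm.surjective
      · exact Or.inr ⟨h2, n, hn, ⟨e⟩⟩
  rcases hcase with hcyc | ⟨h2, n, hn, ⟨e⟩⟩
  · left
    refine ⟨hHeq, hNprime, hcyc, ⟨_, ?_, hNcard.symm ▸ hCcard⟩, hgen, hidx⟩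
    by_contra hlt
    have h0 : (Nat.card C).primeFactorsList.length = 0 := by omega
    rw [h0, pow_zero, card_eq_one] at hCcard
    exact hC hCcard
  · right
    have hN2 : Nat.card N = 2 := hNcard.trans h2
    have hCtop : C = ⊤ := by
      rw [hN2] at hidx
      rw [← index_eq_one]
      exact Nat.dvd_one.mp hidx
    refine ⟨hHeq, hN2, hCtop, n, hn, ⟨?_⟩⟩
    exact ((Subgroup.topEquiv (G := F)).symm.trans (MulEquiv.subgroupCongr hCtop.symm)).trans e

end Cfsg.Agent.S3025
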