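import Cfsg.Statements.S3027
import Cfsg.Agent.Lib.Helper56Basic
import Cfsg.Agent.Lib.Helper56Sylow

set_option autoImplicit false
open Cfsg

namespace Cfsg.Agent.S3027


open Cfsg.Agent.Lib.Helper56Basic Cfsg.Agent.Lib.Helper56Sylow

theorem sup_eq_top_iff_map {G : Type*} [Group G] (D : Subgroup G) [D.Normal] (M : Subgroup G) :
    M ⊔ D = ⊤ ↔ M.map (QuotientGroup.mk' D) = ⊤ := by
  constructor
  · intro h
    have h1 : (M ⊔ D).map (QuotientGroup.mk' D) = ⊤ := by
      rw [h]
      exact Subgroup.map_top_of_surjective _ (QuotientGroup.mk'_surjective D)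
    rw [Subgroup.map_sup] at h1
    have h2 : D.map (QuotientGroup.mk' D) = ⊥ := by
      rw [← le_bot_iff, Subgroup.map_le_iff_le_comap]
      intro x hx
      rw [Subgroup.mem_comap, Subgroup.mem_bot]
      exact (QuotientGroup.eq_one_iff x).2 hx
    rwa [h2, sup_bot_eq] at h1
  · intro h
    have h1 := Subgroup.comap_map_eq (QuotientGroup.mk' D) M
    rw [h, Subgroup.comap_top, QuotientGroup.ker_mk'] at h1
    exact h1.symm

theorem commutator_sup {G : Type*} [Group G] (D : Subgroup G) [D.Normal]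
    (hperf : ⁅(⊤ : Subgroup G), (⊤ : Subgroup G)⁆ ⊔ D = ⊤) {M₁ M₂ : Subgroup G}
    (h₁ : M₁ ⊔ D = ⊤) (h₂ : M₂ ⊔ D = ⊤) : ⁅M₁, M₂⁆ ⊔ D = ⊤ := by
  rw [sup_eq_top_iff_map] at *
  rw [Subgroup.map_commutator] at *
  rw [h₁, h₂]
  rwa [Subgroup.map_top_of_surjective _ (QuotientGroup.mk'_surjective D)] at hperf

theorem commutator_le_right' {G : Type*} [Group G] {H K : Subgroup G}
    (h : H ≤ Subgroup.normalizer (K : Set G)) : ⁅H, K⁆ ≤ K := by
  rw [Subgroup.commutator_le]
  intro a ha b hb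
  rw [commutatorElement_def]
  exact K.mul_mem ((Subgroup.mem_normalizer_iff.1 (h ha) b).1 hb) (K.inv_mem hb)

theorem commutator_le_left' {G : Type*} [Group G] {H K : Subgroup G}
    (h : K ≤ Subgroup.normalizer (H : Set G)) : ⁅H, K⁆ ≤ H := by
  rw [Subgroup.commutator_comm]
  exact commutator_le_right' h

theorem le_normalizer_commutator {G : Type*} [Group G] {B H K : Subgroup G}
    (h₁ : B ≤ Subgroup.normalizer (H : Set G)) (h₂ : B ≤ Subgroup.normalizer (K : Set G)) :
    B ≤ Subgroup.normalizer ((⁅H, K⁆ : Subgroup G) : Set G) := by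
  intro b hb
  rw [mem_normalizer_iff_cj, Subgroup.map_commutator, mem_normalizer_iff_cj.1 (h₁ hb),
    mem_normalizer_iff_cj.1 (h₂ hb)]

/-- Let G be a finite group and D a normal subgroup of G such that G/D is perfect (that is, G = G′D). Then among the subnormal subgroups B of G with BD = G there is a least one, and it is normal in G. -/
theorem result {G : Type*} [Group G] [Finite G] (D : Subgroup G) [D.Normal] (hperf : ⁅(⊤ : Subgroup G), (⊤ : Subgroup G)⁆ ⊔ D = ⊤) :
    ∃ B : Subgroup G, B.Normal ∧ B ⊔ D = ⊤ ∧ ∀ B' : Subgroup G, B'.IsSubnormal → B' ⊔ D = ⊤ → B ≤ B' := by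
  classical
  have hfin1 : {N : Subgroup G | N.Normal ∧ N ⊔ D = ⊤}.Finite := Set.toFinite _
  obtain ⟨B, hB⟩ := hfin1.exists_minimal ⟨⊤, Subgroup.normal_top, top_sup_eq D⟩
  obtain ⟨hBn, hBD⟩ := hB.prop
  have hBN : ∀ X : Subgroup G, X ≤ Subgroup.normalizer (B : Set G) := by
    intro X
    rw [Subgroup.normalizer_eq_top_iff.2 hBn]; exact le_top
  have hfin2 : {M : Subgroup G | M ≤ B ∧ B ≤ Subgroup.normalizer (M : Set G) ∧ M ⊔ D = ⊤}.Finite :=
    Set.toFinite _
  obtain ⟨M₀, hM₀⟩ := hfin2.exists_minimal ⟨B, le_rfl, Subgroup.le_normalizer, hBD⟩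
  obtain ⟨hM₀B, hM₀N, hM₀D⟩ := hM₀.prop
  have hleast : ∀ M : Subgroup G, M ≤ B → B ≤ Subgroup.normalizer (M : Set G) → M ⊔ D = ⊤ →
      M₀ ≤ M := by
    intro M hMB hMN hMD
    have h1 : ⁅M₀, M⁆ ≤ M₀ := commutator_le_left' (hMB.trans hM₀N)
    have h2 : ⁅M₀, M⁆ ≤ M := commutator_le_right' (hM₀B.trans hMN)
    have h3 : M₀ ≤ ⁅M₀, M⁆ := hM₀.le_of_le
      ⟨h1.trans hM₀B, le_normalizer_commutator hM₀N hMN, commutator_sup D hperf hM₀D hMD⟩ h1
    exact h3.trans h2
  have hM₀n : M₀.Normal := by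
    rw [← Subgroup.normalizer_eq_top_iff, eq_top_iff]
    intro g _
    have hg : ∀ g : G, M₀ ≤ M₀.map (MulAut.conj g).toMonoidHom := by
      intro g
      apply hleast
      · have := cj_mono (g := g) hM₀B
        rwa [mem_normalizer_iff_cj.1 (hBN ⊤ (Subgroup.mem_top g))] at this
      · intro b hb
        rw [mem_normalizer_iff_cj]
        have hb' : g⁻¹ * b * g ∈ B := by
          have := hBn.conj_mem b hb g⁻¹
          rwa [inv_inv] at this
        have h1 := mem_normalizer_iff_cj.1 (hM₀N hb')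
        have h2 : b * g = g * (g⁻¹ * b * g) := by group
        rw [cj_cj, h2, ← cj_cj, h1]
      · have h1 := congrArg (fun Y => Y.map (MulAut.conj g).toMonoidHom) hM₀D
        simp only [Subgroup.map_sup] at h1
        have hD : D.map (MulAut.conj g).toMonoidHom = D := by
          rw [← mem_normalizer_iff_cj, Subgroup.normalizer_eq_top_iff.2 inferInstance]
          exact Subgroup.mem_top g
        rw [hD, Subgroup.map_top_of_surjective _ (MulAut.conj g).surjective] at h1
        exact h1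
    apply mem_normalizer_of_cj_le
    have h1 := cj_mono (g := g) (hg g⁻¹)
    rwa [cj_cj, mul_inv_cancel, cj_one] at h1
  have hBM₀ : B ≤ M₀ := hB.le_of_le ⟨hM₀n, hM₀D⟩ hM₀B
  refine ⟨B, hBn, hBD, ?_⟩
  intro B' hB'
  induction hB' with
  | top => intro _; exact le_top
  | step H K hHK hK hN ih =>
    intro hHD
    have hKD : K ⊔ D = ⊤ := eq_top_iff.2 (hHD ▸ sup_le_sup_right hHK D)
    have hBK : B ≤ K := ih hKD
    have hKN : K ≤ Subgroup.normalizer (H : Set G) :=
      (Subgroup.normal_subgroupOf_iff_le_normalizer hHK).1 hN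
    have hBH : B ≤ Subgroup.normalizer (H : Set G) := hBK.trans hKN
    have h1 : M₀ ≤ ⁅B, H⁆ := hleast _ (commutator_le_left' (hBN H))
      (le_normalizer_commutator Subgroup.le_normalizer hBH) (commutator_sup D hperf hBD hHD)
    exact hBM₀.trans (h1.trans (commutator_le_right' hBH))

end Cfsg.Agent.S3027
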