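import Cfsg.Statements.S3044
import Cfsg.Agent.Lib.Helper56Iso3
import Cfsg.Agent.Lib.Helper56Iso5

set_option autoImplicit false
open Cfsg

namespace Cfsg.Agent.S3044

open Subgroup Cfsg.Agent.Lib.Helper40Sylow Cfsg.Agent.Lib.Helper52Subnormal
  Cfsg.Agent.Lib.Helper28Comp Cfsg.Agent.Lib.Helper28Layer
  Cfsg.Agent.Lib.Helper56Iso Cfsg.Agent.Lib.Helper56Iso2 Cfsg.Agent.Lib.Helper56Iso3
  Cfsg.Agent.Lib.Helper56Iso4 Cfsg.Agent.Lib.Helper56Iso5
open scoped commutatorElement


/-- Let G be a finite group, p a prime, S a Sylow p-subgroup of G and P a p-minimal subgroup of G containing S (S is not normal in P and lies in exactly one maximal subgroup of P). Let L be the subgroup generated by N_G(S) and all p-minimal subgroups of G containing S other than P, and suppose P is isolated: O_p(L) is not contained in O_p(P). Put Y for the normal closure of O^p(P) in G. Then G = YL; P is again isolated in the subgroup YS (the subgroup L₀ generated by N_{YS}(S) and the p-minimal subgroups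 of YS containing S other than P has O_p(L₀) not contained in O_p(P)); and either Y = O^p(P), or p divides |Y/O_p(Y)|, Y/O_p(Y) is generated by its components (a central product of quasisimple groups), and S permutes these components transitively by conjugation. -/
theorem result {G : Type*} [Group G] [Finite G] {p : ℕ} [Fact p.Prime] (S : Sylow p G) (P : Subgroup G) (hSP : (S : Subgroup G) ≤ P) (hPmin : Cfsg.IsPMinimal p ↥P)
    (L Y : Subgroup G)
    (hL : L = Subgroup.normalizer ((S : Subgroup G) : Set G) ⊔ ⨆ P' : {P' : Subgroup G // (S : Subgroup G) ≤ P' ∧ Cfsg.IsPMinimal p ↥P' ∧ P' ≠ P}, (P' : Subgroup G))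
    (hiso : ¬ (Cfsg.pCore p ↥L).map L.subtype ≤ (Cfsg.pCore p ↥P).map P.subtype)
    (hY : Y = Subgroup.normalClosure (((Cfsg.pResidual p ↥P).map P.subtype : Subgroup G) : Set G)) :
    Y ⊔ L = ⊤ ∧
    ¬ (Cfsg.pCore p ↥((Subgroup.normalizer ((S : Subgroup G) : Set G) ⊓ (Y ⊔ (S : Subgroup G))) ⊔
          ⨆ P' : {P' : Subgroup G // (S : Subgroup G) ≤ P' ∧ P' ≤ Y ⊔ (S : Subgroup G) ∧ Cfsg.IsPMinimal p ↥P' ∧ P' ≠ P}, (P' : Subgroup G))).map
        (Subgroup.subtype _) ≤ (Cfsg.pCore p ↥P).map P.subtype ∧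
    ((Cfsg.pResidual p ↥P).map P.subtype = Y ∨
     ∃ _ : (Cfsg.pCore p ↥Y).Normal,
       p ∣ Nat.card (↥Y ⧸ Cfsg.pCore p ↥Y) ∧ Cfsg.layer (↥Y ⧸ Cfsg.pCore p ↥Y) = ⊤ ∧
       ∀ K₁ K₂ : Subgroup (↥Y ⧸ Cfsg.pCore p ↥Y), Cfsg.IsComponent K₁ → Cfsg.IsComponent K₂ →
         ∃ s ∈ (S : Subgroup G), ((K₂.comap (QuotientGroup.mk' (Cfsg.pCore p ↥Y))).map Y.subtype) = (((K₁.comap (QuotientGroup.mk' (Cfsg.pCore p ↥Y))).map Y.subtype)).map (MulAut.conj s).toMonoidHom) := by
  have h := isoData_of S P hSP hPmin L hL hiso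
  rw [map_pResidual_eq] at hY ⊢
  have hYn : Y.Normal := by rw [hY]; exact normalClosure_normal
  refine ⟨by rw [hY]; exact h.closure_sup_eq_top, ?_, ?_⟩
  · set L₀ := (Subgroup.normalizer ((S : Subgroup G) : Set G) ⊓ (Y ⊔ (S : Subgroup G))) ⊔
          ⨆ P' : {P' : Subgroup G // (S : Subgroup G) ≤ P' ∧ P' ≤ Y ⊔ (S : Subgroup G) ∧ Cfsg.IsPMinimal p ↥P' ∧ P' ≠ P}, (P' : Subgroup G) with hL₀
    intro hle
    apply hiso
    refine le_trans ?_ hle
    have hSL₀ : (S : Subgroup G) ≤ L₀ := le_trans (le_inf le_normalizer le_sup_right) le_sup_left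
    have hL₀L : L₀ ≤ L := by
      apply sup_le (inf_le_left.trans h.hNL)
      apply iSup_le
      rintro ⟨P', h1, -, h2, h3⟩
      exact h.hL P' h1 ((isPMinimal_iff S h1).1 h2) h3
    have h1 : ((Cfsg.pCore p ↥L).map L.subtype).subgroupOf L₀ ≤ Cfsg.pCore p ↥L₀ :=
      Cfsg.Agent.Lib.Helper28Fitting.le_pCore (normal_subgroupOf_of_le_normalizer (hL₀L.trans h.hLQ))
        ((S.2.to_le h.hQS).comap_of_injective L₀.subtype L₀.subtype_injective)
    have h2 := map_mono (f := L₀.subtype) h1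
    rwa [map_subgroupOf_eq_of_le (h.hQS.trans hSL₀)] at h2
  · by_cases hperf : Y ≤ ⁅Y, Y⁆
    · right
      have b := barData_of h
      rw [← hY] at b
      replace b := b hperf
      obtain ⟨φ, hinj, htop, hpre⟩ := transport (p := p) hYn
      refine ⟨Cfsg.pCore_normal p ↥Y, ?_, ?_, ?_⟩
      · have h1 := b.dvd_card
        rw [← htop, card_map_of_injective hinj, card_top] at h1
        exact h1
      · have h1 := b.layerIn_eq
        rw [← htop, ← layerIn_map hinj] at h1
        rw [layer_eq]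
        exact map_injective hinj h1
      · intro K₁ K₂ hK₁ hK₂
        have c₁ := (isComponent_iff.1 hK₁).map_injective hinj
        have c₂ := (isComponent_iff.1 hK₂).map_injective hinj
        rw [htop] at c₁ c₂
        obtain ⟨s', hs', he⟩ := b.trans c₁ c₂
        obtain ⟨s, hs, rfl⟩ := hs'
        refine ⟨s, hs, ?_⟩
        rw [hpre, hpre, he]
        exact (cj_inf_comap hYn _ s).symm
    · left
      have hmain := eq_of_not_perfect h
      rw [← hY] at hmain
      exact (hmain hperf).1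

end Cfsg.Agent.S3044
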