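import Cfsg.Statements.S3045
import Cfsg.Agent.Lib.Helper56Iso3

set_option autoImplicit false
open Cfsg

namespace Cfsg.Agent.S3045

open Subgroup Cfsg.Agent.Lib.Helper40Sylow Cfsg.Agent.Lib.Helper52Subnormal
  Cfsg.Agent.Lib.Helper56Iso Cfsg.Agent.Lib.Helper56Iso2 Cfsg.Agent.Lib.Helper56Iso3
open scoped commutatorElement


/-- Let G be a finite group, p a prime, S a Sylow p-subgroup of G and P a p-minimal subgroup of G containing S. Let L be the subgroup generated by N_G(S) and all p-minimal subgroups of G containing S other than P, and suppose O_p(L) is not contained in O_p(P). Put Y for the normal closure of O^p(P) in G. Then O^p(P) is contained in the preimage in G of F*(G/O_p(G)); and if Y is solvable, then Y = O^p(P) and Y/O_p(Y) is a t-group of nilpotency class at most 2 for some prime t ≠ p. -/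
theorem result {G : Type*} [Group G] [Finite G] {p : ℕ} [Fact p.Prime] (S : Sylow p G) (P : Subgroup G) (hSP : (S : Subgroup G) ≤ P) (hPmin : Cfsg.IsPMinimal p ↥P)
    (L Y : Subgroup G)
    (hL : L = Subgroup.normalizer ((S : Subgroup G) : Set G) ⊔ ⨆ P' : {P' : Subgroup G // (S : Subgroup G) ≤ P' ∧ Cfsg.IsPMinimal p ↥P' ∧ P' ≠ P}, (P' : Subgroup G))
    (hiso : ¬ (Cfsg.pCore p ↥L).map L.subtype ≤ (Cfsg.pCore p ↥P).map P.subtype)
    (hY : Y = Subgroup.normalClosure (((Cfsg.pResidual p ↥P).map P.subtype : Subgroup G) : Set G)) [hn : (Cfsg.pCore p G).Normal] :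
    (Cfsg.pResidual p ↥P).map P.subtype ≤ (Cfsg.generalizedFittingSubgroup (G ⧸ Cfsg.pCore p G)).comap (QuotientGroup.mk' (Cfsg.pCore p G)) ∧
    (Group.IsSolvable ↥Y → (Cfsg.pResidual p ↥P).map P.subtype = Y ∧
       ∃ _ : (Cfsg.pCore p ↥Y).Normal, ∃ t : ℕ, t.Prime ∧ t ≠ p ∧ IsPGroup t (↥Y ⧸ Cfsg.pCore p ↥Y) ∧
         ∃ _ : Group.IsNilpotent (↥Y ⧸ Cfsg.pCore p ↥Y), Group.nilpotencyClass (↥Y ⧸ Cfsg.pCore p ↥Y) ≤ 2) := by
  have h := isoData_of S P hSP hPmin L hL hiso
  rw [map_pResidual_eq] at hY ⊢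
  set Q := (Cfsg.pCore p ↥L).map L.subtype with hQ
  set D := Cfsg.pCore p G with hD
  set π := QuotientGroup.mk' D with hπ
  have hπs : Function.Surjective π := QuotientGroup.mk'_surjective D
  have hRY : res p P ≤ Y := by rw [hY]; exact IsoData.res_le_closure
  have hYn : Y.Normal := by rw [hY]; exact normalClosure_normal
  constructor
  · have hFn : (Cfsg.generalizedFittingSubgroup (G ⧸ D)).Normal := by
      rw [← Cfsg.Agent.Lib.Helper28Comp.normIn_top_iff, Cfsg.Agent.Lib.Helper28Layer.gfit_eq]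
      exact Cfsg.Agent.Lib.Helper28Layer.gfitIn_normIn ⊤
    have hNn : ((Cfsg.generalizedFittingSubgroup (G ⧸ D)).comap π).Normal := hFn.comap π
    rcases h.normal_dichotomy hNn with h1 | h1
    · exact h1
    · have h2 := h1.2
      rw [← hY, ← le_cenMod_iff] at h2
      refine hRY.trans ?_
      intro y hy
      have h3 := h2 hy
      unfold cenMod at h3
      rw [mem_comap, map_comap_eq_self_of_surjective hπs] at h3
      exact Cfsg.Agent.Lib.Helper28Layer.centralizer_gfit_le h3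
  · intro hsol
    have hnp : ¬ Y ≤ ⁅Y, Y⁆ := by
      intro hle
      have hperf : ⁅Y, Y⁆ = Y := le_antisymm (commutator_le_left Y Y) hle
      have hne : Y ≠ ⊥ := by
        intro hb
        apply h.not_res_le
        rw [hb] at hRY
        exact hRY.trans bot_le
      have hp : Group.IsPerfect Y := isPerfect_iff.mpr hperf
      have hn : Nontrivial Y := (nontrivial_iff_ne_bot Y).mpr hne
      exact Group.IsPerfect.not_isSolvable Y hsol
    have hmain := eq_of_not_perfect h
    rw [← hY] at hmain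
    obtain ⟨h1, h2, t, ht, htp, hty⟩ := hmain hnp
    refine ⟨h1, Cfsg.pCore_normal p ↥Y, t, ht, htp, ?_, ?_⟩
    all_goals
      have hDY : D.subgroupOf Y ≤ Cfsg.pCore p ↥Y :=
        Cfsg.Agent.Lib.Helper28Fitting.le_pCore (hn.subgroupOf Y)
          ((Cfsg.Agent.Lib.Helper28Fitting.pCore_isPGroup p).comap_of_injective Y.subtype Y.subtype_injective)
    · intro w
      obtain ⟨y, rfl⟩ := QuotientGroup.mk_surjective w
      obtain ⟨k, hk⟩ := hty y y.2
      refine ⟨k, ?_⟩
      rw [← QuotientGroup.mk_pow, QuotientGroup.eq_one_iff]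
      apply hDY
      rw [mem_subgroupOf]
      simpa using hk
    · have h3 : Subgroup.lowerCentralSeries (⊤ : Subgroup (↥Y ⧸ Cfsg.pCore p ↥Y)) 2 = ⊥ := by
        apply lcs_two_eq_bot
        intro a b c
        obtain ⟨a, rfl⟩ := QuotientGroup.mk_surjective a
        obtain ⟨b, rfl⟩ := QuotientGroup.mk_surjective b
        obtain ⟨c, rfl⟩ := QuotientGroup.mk_surjective c
        have e : ⁅⁅(a : ↥Y ⧸ Cfsg.pCore p ↥Y), (b : ↥Y ⧸ Cfsg.pCore p ↥Y)⁆, (c : ↥Y ⧸ Cfsg.pCore p ↥Y)⁆
            = ((⁅⁅a, b⁆, c⁆ : ↥Y) : ↥Y ⧸ Cfsg.pCore p ↥Y) := by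
          simp only [commutatorElement_def, QuotientGroup.mk_mul, QuotientGroup.mk_inv]
        rw [e, QuotientGroup.eq_one_iff]
        apply hDY
        rw [mem_subgroupOf]
        have h4 : ⁅⁅(a : G), (b : G)⁆, (c : G)⁆ ∈ ⁅⁅Y, Y⁆, Y⁆ :=
          commutator_mem_commutator (commutator_mem_commutator a.2 b.2) c.2
        have h5 := h2 h4
        simpa [commutatorElement_def] using h5
      have hnil : Group.IsNilpotent (↥Y ⧸ Cfsg.pCore p ↥Y) :=
        Subgroup.nilpotent_iff_lowerCentralSeries.2 ⟨2, h3⟩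
      exact ⟨hnil, Subgroup.lowerCentralSeries_eq_bot_iff_nilpotencyClass_le.1 h3⟩

end Cfsg.Agent.S3045
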