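import Cfsg.Statements.S3048
import Cfsg.Agent.Lib.Helper52PReduced
import Cfsg.Agent.Lib.Helper52Subnormal
import Cfsg.Agent.Lib.Helper28Layer
import Cfsg.Agent.Lib.Helper56Basic

set_option autoImplicit false
universe u
open Cfsg

namespace Cfsg.Agent.S3048

open Subgroup Cfsg.Agent.Lib.Helper56Basic

section basic
variable {G : Type*} [Group G]

theorem eq_one_of_odd_of_sq {x : G} (ho : Odd (orderOf x)) (h2 : x ^ 2 = 1) : x = 1 := by
  have h1 : orderOf x ∣ 2 := orderOf_dvd_of_pow_eq_one h2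
  have h3 : orderOf x = 1 := by
    rcases (Nat.dvd_prime Nat.prime_two).1 h1 with h | h
    · exact h
    · rw [h] at ho; exact absurd ho (by decide)
  exact orderOf_eq_one_iff.1 h3

theorem mem_of_odd_of_sq_mem {N : Subgroup G} {x : G} (ho : Odd (orderOf x)) (h2 : x ^ 2 ∈ N) :
    x ∈ N := by
  obtain ⟨j, hj⟩ := ho
  have h1 : x = (x ^ 2) ^ (j + 1) := by
    rw [← pow_mul]
    have : 2 * (j + 1) = orderOf x + 1 := by omega
    rw [this, pow_succ, pow_orderOf_eq_one, one_mul]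
  rw [h1]
  exact N.pow_mem h2 _

theorem sq_mem_of_mem_sup {N A : Subgroup G} (hA : A ≤ normalizer (N : Set G))
    (hA2 : ∀ a ∈ A, a ^ 2 = 1) {x : G} (hx : x ∈ A ⊔ N) : x ^ 2 ∈ N := by
  have h1 : x ∈ ((A ⊔ N : Subgroup G) : Set G) := hx
  rw [Subgroup.coe_mul_of_left_le_normalizer_right A N hA] at h1
  obtain ⟨a, ha, n, hn, rfl⟩ := h1
  have ha' : a * a = 1 := by rw [← pow_two]; exact hA2 a ha
  have h3 : a * n * a⁻¹ ∈ N := (mem_normalizer_iff.1 (hA ha) n).1 hn
  have h4 : (a * n) ^ 2 = (a * n * a⁻¹) * n := by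
    have : a⁻¹ = a := inv_eq_of_mul_eq_one_left ha'
    rw [this, pow_two]; group
  rw [h4]
  exact N.mul_mem h3 hn

theorem mem_of_odd_of_mem_sup {N A : Subgroup G} (hA : A ≤ normalizer (N : Set G))
    (hA2 : ∀ a ∈ A, a ^ 2 = 1) {x : G} (hx : x ∈ A ⊔ N) (ho : Odd (orderOf x)) : x ∈ N :=
  mem_of_odd_of_sq_mem ho (sq_mem_of_mem_sup hA hA2 hx)

theorem odd_orderOf_of_pow {x : G} {m : ℕ} (hm : Odd m) (h : x ^ m = 1) : Odd (orderOf x) :=
  Odd.of_dvd_nat hm (orderOf_dvd_of_pow_eq_one h)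

theorem odd_orderOf_mul {x y : G} (hc : Commute x y) (hx : Odd (orderOf x)) (hy : Odd (orderOf y)) :
    Odd (orderOf (x * y)) := by
  apply odd_orderOf_of_pow (hx.mul hy)
  rw [hc.mul_pow, pow_mul, pow_orderOf_eq_one, one_pow, mul_comm (orderOf x), pow_mul,
    pow_orderOf_eq_one, one_pow, one_mul]

theorem conj_pow' (v h : G) (n : ℕ) : v * h ^ n * v⁻¹ = (v * h * v⁻¹) ^ n := (conj_pow).symm

end basic

/-- the quotient of a Sidki pair by a normal subgroup that avoids `V` -/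
theorem sidki_quot {G : Type*} [Group G] [Finite G] (V N : Subgroup G) [N.Normal]
    (hV : IsElementaryAbelian 2 V) (hS : IsSidkiPair V) (hVN : V ⊓ N = ⊥) :
    IsSidkiPair (V.map (QuotientGroup.mk' N)) := by
  intro hb vb hvb hodd hinv
  obtain ⟨v, hv, rfl⟩ := hvb
  obtain ⟨h, rfl⟩ := QuotientGroup.mk'_surjective N hb
  set π := QuotientGroup.mk' N with hπ
  obtain ⟨j, hj⟩ := hodd
  have hvv : v * v = 1 := by rw [← pow_two]; exact hV.2 v hv
  have hvi : v⁻¹ = v := inv_eq_of_mul_eq_one_left hvv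
  set k := h ^ (j + 1) with hk
  set u := k * (v * k⁻¹ * v⁻¹) with hu
  have hk1 : π v * π k * (π v)⁻¹ = (π k)⁻¹ := by
    rw [hk, map_pow, conj_pow', hinv, inv_pow]
  have hk2 : π k * π k = π h := by
    rw [hk, map_pow, ← pow_add]
    have : j + 1 + (j + 1) = orderOf (π h) + 1 := by omega
    rw [this, pow_succ, pow_orderOf_eq_one, one_mul]
  have hu1 : π u = π h := by
    have h1 : π v * (π k)⁻¹ * (π v)⁻¹ = π k := by
      have := congrArg (·⁻¹) hk1
      simp only [mul_inv_rev, inv_inv] at this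
      rw [← mul_assoc] at this
      exact this
    rw [hu, map_mul, map_mul, map_mul, map_inv, map_inv, h1, hk2]
  have hu2 : v * u * v⁻¹ = u⁻¹ := by
    rw [hu, hvi]
    have : (k * (v * k⁻¹ * v))⁻¹ = v⁻¹ * k * v⁻¹ * k⁻¹ := by group
    rw [this, hvi]
    calc v * (k * (v * k⁻¹ * v)) * v = v * k * v * k⁻¹ * (v * v) := by group
      _ = v * k * v * k⁻¹ := by rw [hvv, mul_one]
  -- the odd part
  obtain ⟨a, b, hb, hab⟩ := Nat.exists_eq_two_pow_mul_odd (orderOf_pos u).ne'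
  have hcop : (2 ^ a).Coprime b := (Nat.coprime_two_left.2 hb).pow_left a
  obtain ⟨e, he0, he1⟩ := Nat.chineseRemainder hcop 0 1
  have hu3 : Odd (orderOf (u ^ e)) := by
    apply odd_orderOf_of_pow hb
    rw [← pow_mul]
    apply orderOf_dvd_iff_pow_eq_one.1
    rw [hab]
    exact Nat.mul_dvd_mul_right ((Nat.modEq_zero_iff_dvd).1 he0) b
  have hu4 : v * u ^ e * v⁻¹ = (u ^ e)⁻¹ := by rw [conj_pow', hu2, inv_pow]
  have hu5 : π (u ^ e) = π h := by
    rw [map_pow, hu1]
    have h1 : orderOf (π h) ∣ b := by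
      have h2 : orderOf (π h) ∣ 2 ^ a * b := by
        rw [← hab, ← hu1]; exact orderOf_map_dvd π u
      have h3 : (orderOf (π h)).Coprime (2 ^ a) := by
        apply Nat.Coprime.pow_right
        rw [hj]; simp
      exact h3.dvd_of_dvd_mul_left h2
    have h2 : e ≡ 1 [MOD orderOf (π h)] := he1.of_dvd h1
    have := (pow_eq_pow_iff_modEq (x := π h)).2 h2
    rw [this, pow_one]
  obtain ⟨w, hw, hw1, hwc⟩ := hS (u ^ e) v hv hu3 hu4
  refine ⟨π w, ⟨w, hw, rfl⟩, ?_, ?_⟩
  · intro h1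
    have h2 : w ∈ N := (QuotientGroup.eq_one_iff w).1 h1
    have h3 : w ∈ V ⊓ N := ⟨hw, h2⟩
    rw [hVN] at h3
    exact hw1 ((mem_bot).1 h3)
  · rw [← hu5, ← map_mul, ← map_mul, hwc]

/-- the working context -/
structure Ctx {G : Type u} [Group G] [Finite G] (V : Subgroup G) : Prop where
  hV : IsElementaryAbelian 2 V
  hV1 : V ≠ ⊥
  hS : IsSidkiPair V
  hO : pCore 2 G = ⊥
  sub : ∀ H W : Subgroup G, H ≠ ⊤ → W ≤ H → W ≤ V → W ≠ ⊥ →
     (∀ T : Subgroup G, T ≤ H → H ≤ normalizer (T : Set G) → IsPGroup 2 T → W ⊓ T = ⊥) →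
     ∃ h ∈ H, ∃ v ∈ W, Odd (orderOf h) ∧ v * h * v⁻¹ = h⁻¹ ∧ ∀ w ∈ W, w * h = h * w → w = 1
  small : ∀ W : Subgroup G, W < V → W ≠ ⊥ →
     ∃ h : G, ∃ v ∈ W, Odd (orderOf h) ∧ v * h * v⁻¹ = h⁻¹ ∧ ∀ w ∈ W, w * h = h * w → w = 1
  quot : ∀ (N : Subgroup G) [N.Normal], N ≠ ⊥ → V ⊓ N = ⊥ →
     ∃ v ∈ V, v ∉ N ∧ (QuotientGroup.mk' N v) ∈ pCore 2 (G ⧸ N)

theorem elem_of_le {G : Type*} [Group G] {V W : Subgroup G} (hV : IsElementaryAbelian 2 V)
    (h : W ≤ V) : IsElementaryAbelian 2 W :=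
  ⟨⟨⟨fun a b => Subtype.ext (comm_of_mem hV.1 (h a.2) (h b.2))⟩⟩, fun a ha => hV.2 a (h ha)⟩

theorem sub_step {G : Type u} [Group G] [Finite G]
    (hminG : ∀ (H : Type u) [Group H] [Finite H] (W : Subgroup H), Nat.card H < Nat.card G →
      Cfsg.IsElementaryAbelian 2 W → W ≠ ⊥ → Cfsg.IsSidkiPair W → W ⊓ Cfsg.pCore 2 H ≠ ⊥)
    (H W : Subgroup G) (hH : H ≠ ⊤) (hWH : W ≤ H) (hW : IsElementaryAbelian 2 W) (hW1 : W ≠ ⊥)
    (hT : ∀ T : Subgroup G, T ≤ H → H ≤ normalizer (T : Set G) → IsPGroup 2 T → W ⊓ T = ⊥) :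
    ∃ h ∈ H, ∃ v ∈ W, Odd (orderOf h) ∧ v * h * v⁻¹ = h⁻¹ ∧ ∀ w ∈ W, w * h = h * w → w = 1 := by
  by_contra hcon
  push Not at hcon
  have hcard : Nat.card H < Nat.card G := by
    have h1 : Nat.card H ≤ Nat.card G := Subgroup.card_le_card_group H
    rcases h1.lt_or_eq with h | h
    · exact h
    · exact absurd (Subgroup.eq_top_of_card_eq H h) hH
  have h1 : IsElementaryAbelian 2 (W.subgroupOf H) := by
    refine ⟨⟨⟨fun a b => Subtype.ext (Subtype.ext ?_)⟩⟩, fun a ha => Subtype.ext ?_⟩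
    · exact comm_of_mem hW.1 a.2 b.2
    · exact hW.2 a ha
  have h2 : W.subgroupOf H ≠ ⊥ := by
    intro h
    apply hW1
    rw [eq_bot_iff]
    intro w hw
    have : (⟨w, hWH hw⟩ : H) ∈ W.subgroupOf H := hw
    rw [h, mem_bot] at this
    exact (mem_bot).2 (congrArg Subtype.val this)
  have h3 : IsSidkiPair (W.subgroupOf H) := by
    intro h v hv ho hinv
    have ho' : Odd (orderOf (h : G)) := by rwa [Subgroup.orderOf_coe]
    obtain ⟨w, hw, hwc, hw1⟩ := hcon h h.2 v hv ho' (congrArg Subtype.val hinv)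
    exact ⟨⟨w, hWH hw⟩, hw, fun h => hw1 (congrArg Subtype.val h), Subtype.ext hwc⟩
  have h4 := hminG H (W.subgroupOf H) hcard h1 h2 h3
  apply h4
  rw [eq_bot_iff]
  intro x hx
  have h5 := hT ((pCore 2 H).map H.subtype) (map_subtype_le _) ?_ ?_
  · have h6 : (x : G) ∈ W ⊓ (pCore 2 H).map H.subtype := ⟨hx.1, ⟨x, hx.2, rfl⟩⟩
    rw [h5, mem_bot] at h6
    exact (mem_bot).2 (Subtype.ext h6)
  · intro g hg
    rw [mem_normalizer_iff]
    intro y
    constructor
    · rintro ⟨z, hz, rfl⟩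
      exact ⟨⟨g, hg⟩ * z * ⟨g, hg⟩⁻¹, (pCore_normal 2 H).conj_mem z hz _, rfl⟩
    · rintro ⟨z, hz, hzy⟩
      refine ⟨⟨g, hg⟩⁻¹ * z * ⟨g, hg⟩, ?_, ?_⟩
      · have := (pCore_normal 2 H).conj_mem z hz (⟨g, hg⟩⁻¹)
        rwa [inv_inv] at this
      · have : (z : G) = g * y * g⁻¹ := hzy
        simp [this, mul_assoc]
  · exact (Cfsg.Agent.Lib.Helper28Fitting.pCore_isPGroup 2).map _

theorem mkCtx {G : Type u} [Group G] [Finite G] (V : Subgroup G) (hV : Cfsg.IsElementaryAbelian 2 V)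
    (hV1 : V ≠ ⊥) (hS : Cfsg.IsSidkiPair V) (hVO : V ⊓ Cfsg.pCore 2 G = ⊥)
    (hminG : ∀ (H : Type u) [Group H] [Finite H] (W : Subgroup H), Nat.card H < Nat.card G →
      Cfsg.IsElementaryAbelian 2 W → W ≠ ⊥ → Cfsg.IsSidkiPair W → W ⊓ Cfsg.pCore 2 H ≠ ⊥)
    (hminV : ∀ W : Subgroup G, Nat.card W < Nat.card V → Cfsg.IsElementaryAbelian 2 W → W ≠ ⊥ →
      Cfsg.IsSidkiPair W → W ⊓ Cfsg.pCore 2 G ≠ ⊥) : Ctx V := by
  have : Fact (Nat.Prime 2) := ⟨Nat.prime_two⟩
  have hquot : ∀ (N : Subgroup G) [N.Normal], N ≠ ⊥ → V ⊓ N = ⊥ →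
     ∃ v ∈ V, v ∉ N ∧ (QuotientGroup.mk' N v) ∈ pCore 2 (G ⧸ N) := by
    intro N _ hne hVN
    have hcard : Nat.card (G ⧸ N) < Nat.card G := by
      rw [Subgroup.card_eq_card_quotient_mul_card_subgroup N]
      have h1 : 1 < Nat.card N := by
        rw [Finite.one_lt_card_iff_nontrivial]
        exact (Subgroup.nontrivial_iff_ne_bot _).2 hne
      have h2 : 0 < Nat.card (G ⧸ N) := Nat.card_pos
      nlinarith
    have h1 : IsElementaryAbelian 2 (V.map (QuotientGroup.mk' N)) := by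
      refine ⟨⟨⟨?_⟩⟩, ?_⟩
      · rintro ⟨_, a, ha, rfl⟩ ⟨_, b, hb, rfl⟩
        apply Subtype.ext
        show QuotientGroup.mk' _ a * QuotientGroup.mk' _ b = QuotientGroup.mk' _ b * QuotientGroup.mk' _ a
        rw [← map_mul, ← map_mul, (comm_of_mem hV.1 ha hb).eq]
      · rintro _ ⟨a, ha, rfl⟩
        rw [← map_pow, hV.2 a ha, map_one]
    have h2 : V.map (QuotientGroup.mk' N) ≠ ⊥ := by
      intro h
      rw [Subgroup.map_eq_bot_iff, QuotientGroup.ker_mk'] at h
      apply hV1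
      rw [← hVN]
      exact (inf_eq_left.2 h).symm
    have h3 := hminG (G ⧸ N) _ hcard h1 h2 (sidki_quot V _ hV hS hVN)
    rw [Subgroup.ne_bot_iff_exists_ne_one] at h3
    obtain ⟨⟨x, ⟨v, hv, rfl⟩, hx2⟩, hx1⟩ := h3
    refine ⟨v, hv, ?_, hx2⟩
    intro hvN
    apply hx1
    apply Subtype.ext
    exact (QuotientGroup.eq_one_iff v).2 hvN
  have hO : pCore 2 G = ⊥ := by
    by_contra hne
    obtain ⟨v, hv, hvN, hvO⟩ := hquot (pCore 2 G) hne hVO
    have h4 : pCore 2 (G ⧸ pCore 2 G) = ⊥ := by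
      rw [Cfsg.Agent.Lib.Helper52PReduced.pCore_quotient_eq_bot_iff]
      intro D hD hd
      apply Cfsg.Agent.Lib.Helper28Fitting.le_pCore hD
      rintro ⟨d, hdD⟩
      obtain ⟨k, hk⟩ := hd d hdD
      obtain ⟨j, hj⟩ := (Cfsg.Agent.Lib.Helper28Fitting.pCore_isPGroup (G := G) 2) ⟨_, hk⟩
      refine ⟨k + j, Subtype.ext ?_⟩
      have h1 : (d ^ 2 ^ k) ^ 2 ^ j = 1 := congrArg Subtype.val hj
      show d ^ 2 ^ (k + j) = 1
      rw [pow_add, pow_mul, h1]
    rw [h4, mem_bot] at hvO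
    exact hvN ((QuotientGroup.eq_one_iff v).1 hvO)
  refine ⟨hV, hV1, hS, hO, ?_, ?_, hquot⟩
  · intro H W hH hWH hWV hW1 hT
    exact sub_step hminG H W hH hWH (elem_of_le hV hWV) hW1 hT
  · intro W hWV hW1
    by_contra hcon
    push Not at hcon
    have h1 : Nat.card W < Nat.card V := by
      have h2 : Nat.card W ≤ Nat.card V := Subgroup.card_le_of_le hWV.le
      rcases h2.lt_or_eq with h | h
      · exact h
      · exact absurd (Subgroup.eq_of_le_of_card_ge hWV.le h.ge) hWV.ne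
    apply hminV W h1 (elem_of_le hV hWV.le) hW1
    · intro h v hv ho hinv
      obtain ⟨w, hw, hwc, hw1⟩ := hcon h v hv ho hinv
      exact ⟨w, hw, hw1, hwc⟩
    · rw [hO, inf_bot_eq]

section main
open Cfsg.Agent.Lib.Helper28Comp
open scoped Pointwise commutatorElement
variable {G : Type u} [Group G] [Finite G] {V : Subgroup G}

theorem mem_normalizer_of_forall {g : G} {H : Subgroup G} (h : ∀ x ∈ H, g * x * g⁻¹ ∈ H) :
    g ∈ normalizer (H : Set G) := by
  apply mem_normalizer_of_cj_le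
  rintro _ ⟨x, hx, rfl⟩
  exact h x hx

theorem conj_mem_of_mem_normalizer {g x : G} {H : Subgroup G} (hg : g ∈ normalizer (H : Set G))
    (hx : x ∈ H) : g * x * g⁻¹ ∈ H := (mem_normalizer_iff.1 hg x).1 hx

theorem Ctx.sq (c : Ctx V) {v : G} (hv : v ∈ V) : v * v = 1 := by
  rw [← pow_two]; exact c.hV.2 v hv

theorem Ctx.inv (c : Ctx V) {v : G} (hv : v ∈ V) : v⁻¹ = v := inv_eq_of_mul_eq_one_left (c.sq hv)

theorem Ctx.comm (c : Ctx V) {a b : G} (ha : a ∈ V) (hb : b ∈ V) : a * b = b * a :=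
  (comm_of_mem c.hV.1 ha hb).eq

theorem Ctx.sn_bot (c : Ctx V) {T : Subgroup G} (hT : Sn T ⊤) (h2 : IsPGroup 2 T) : T = ⊥ := by
  have : Fact (Nat.Prime 2) := ⟨Nat.prime_two⟩
  have h1 := Cfsg.Agent.Lib.Helper52Subnormal.subnormal_pGroup_le_pCore (sn_top_iff.1 hT) h2
  rw [c.hO] at h1
  exact le_bot_iff.1 h1

theorem sn_of_normal (N : Subgroup G) [hN : N.Normal] : Sn N ⊤ := (normIn_top_iff.2 hN).sn

theorem Ctx.T_cond (c : Ctx V) {N T : Subgroup G} (hN : Sn N ⊤) (hNT : N ≤ normalizer (T : Set G))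
    (hT2 : IsPGroup 2 T) {a : G} (ha : a ∈ T) (haN : a ∈ normalizer (N : Set G)) :
    a ∈ centralizer (N : Set G) := by
  have h1 : NormIn (T ⊓ N) N :=
    ⟨inf_le_right, le_trans (le_inf hNT le_normalizer) inf_normalizer_le_normalizer_inf⟩
  have h2 : T ⊓ N = ⊥ := c.sn_bot (h1.sn.trans hN) (hT2.to_le inf_le_left)
  rw [mem_centralizer_iff]
  intro n hn
  have h3 : a * n * a⁻¹ * n⁻¹ ∈ T ⊓ N := by
    constructor
    · have : a * n * a⁻¹ * n⁻¹ = a * (n * a⁻¹ * n⁻¹) := by group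
      rw [this]
      exact T.mul_mem ha (conj_mem_of_mem_normalizer (hNT hn) (T.inv_mem ha))
    · exact N.mul_mem (conj_mem_of_mem_normalizer haN hn) (N.inv_mem hn)
  rw [h2, mem_bot] at h3
  have h4 : a * n = n * a := by
    have := congrArg (· * (n * a)) h3
    simpa [mul_assoc] using this
  exact h4.symm

theorem Ctx.cent_dichotomy (c : Ctx V) (N : Subgroup G) [hNn : N.Normal] :
    V ⊓ centralizer (N : Set G) = ⊥ ∨ V ≤ centralizer (N : Set G) := by
  by_contra hcon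
  push Not at hcon
  obtain ⟨hU1, hUV⟩ := hcon
  have hCn : (centralizer (N : Set G)).Normal := inferInstance
  have hUlt : V ⊓ centralizer (N : Set G) < V :=
    lt_of_le_of_ne inf_le_left (fun h => hUV (h ▸ inf_le_right))
  obtain ⟨h, u, hu, ho, hinv, hcu⟩ := c.small _ hUlt hU1
  have hhC : h ∈ centralizer (N : Set G) := by
    apply mem_of_odd_of_sq_mem ho
    have h1 : (h ^ 2)⁻¹ = (h⁻¹ * u * h) * u⁻¹ := by
      have : h⁻¹ * u * h * u⁻¹ = h⁻¹ * (u * h * u⁻¹) := by group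
      rw [this, hinv, pow_two, mul_inv_rev]
    have h2 : (h ^ 2)⁻¹ ∈ centralizer (N : Set G) := by
      rw [h1]
      refine mul_mem ?_ (inv_mem hu.2)
      simpa using hCn.conj_mem u hu.2 h⁻¹
    simpa using inv_mem h2
  have hh1 : h ≠ 1 := by
    intro h1
    apply hU1
    rw [eq_bot_iff]
    intro w hw
    exact (mem_bot).2 (hcu w hw (by rw [h1, mul_one, one_mul]))
  obtain ⟨w0, hw0, hw01, hw0c⟩ := c.hS h u hu.1 ho hinv
  have hA1 : V ⊓ centralizer ({h} : Set G) ≠ ⊥ := by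
    intro hb
    have : w0 ∈ V ⊓ centralizer ({h} : Set G) := ⟨hw0, mem_centralizer_singleton_iff.2 hw0c⟩
    rw [hb, mem_bot] at this
    exact hw01 this
  have hAN : V ⊓ centralizer ({h} : Set G) ≤ normalizer (N : Set G) := by
    rw [normalizer_eq_top_iff.2 hNn]; exact le_top
  have hA2 : ∀ a ∈ V ⊓ centralizer ({h} : Set G), a ^ 2 = 1 := fun a ha => c.hV.2 a ha.1
  have hH : (V ⊓ centralizer ({h} : Set G)) ⊔ N ≠ ⊤ := by
    intro htop
    have h1 : h ∈ N := mem_of_odd_of_mem_sup hAN hA2 (htop ▸ mem_top h) ho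
    have h2 : h * u = u * h := (mem_centralizer_iff.1 hu.2) h h1
    have h3 : h = h⁻¹ := by rw [← hinv, ← h2, mul_inv_cancel_right]
    apply hh1
    apply eq_one_of_odd_of_sq ho
    rw [pow_two]
    nth_rewrite 1 [h3]
    exact inv_mul_cancel h
  obtain ⟨n, hnH, a, ha, hno, hninv, hnc⟩ := c.sub _ _ hH le_sup_left inf_le_left hA1 (by
    intro T hTH hHT hT2
    rw [eq_bot_iff]
    rintro a ⟨haA, haT⟩
    have h1 := c.T_cond (sn_of_normal N) (le_sup_right.trans hHT) hT2 haT (hAN haA)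
    exact (mem_bot).2 (hcu a ⟨haA.1, h1⟩ (mem_centralizer_singleton_iff.1 haA.2)))
  have hnN : n ∈ N := mem_of_odd_of_mem_sup hAN hA2 hnH hno
  have hhn : Commute h n := ((mem_centralizer_iff.1 hhC) n hnN).symm
  have hah : a * h * a⁻¹ = h := by
    rw [mem_centralizer_singleton_iff.1 ha.2, mul_inv_cancel_right]
  have hun : u * n⁻¹ * u⁻¹ = n⁻¹ := by
    rw [← (mem_centralizer_iff.1 hu.2) n⁻¹ (N.inv_mem hnN), mul_inv_cancel_right]
  have hx : (u * a) * (h * n) * (u * a)⁻¹ = (h * n)⁻¹ := by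
    calc (u * a) * (h * n) * (u * a)⁻¹ = u * ((a * h * a⁻¹) * (a * n * a⁻¹)) * u⁻¹ := by group
      _ = (u * h * u⁻¹) * (u * n⁻¹ * u⁻¹) := by rw [hah, hninv]; group
      _ = h⁻¹ * n⁻¹ := by rw [hinv, hun]
      _ = (h * n)⁻¹ := by rw [hhn.eq, mul_inv_rev]
  obtain ⟨w, hw, hw1, hwc⟩ := c.hS (h * n) (u * a) (V.mul_mem hu.1 ha.1)
    (odd_orderOf_mul hhn ho hno) hx
  -- m
  set n' := w * n * w⁻¹ with hn'
  set h' := w * h * w⁻¹ with hh'
  have hn'N : n' ∈ N := hNn.conj_mem n hnN w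
  have hprod : h' * n' = h * n := by
    have : h' * n' = w * (h * n) * w⁻¹ := by rw [hh', hn']; group
    rw [this, hwc, mul_inv_cancel_right]
  set m := n * n'⁻¹ with hm
  have hmN : m ∈ N := N.mul_mem hnN (N.inv_mem hn'N)
  have hh'm : h' = h * m := by
    rw [hm, ← mul_assoc, ← hprod, mul_inv_cancel_right]
  have hcm : Commute h m := ((mem_centralizer_iff.1 hhC) m hmN).symm
  have h1 : u * h' * u⁻¹ = h'⁻¹ := by
    have : u * h' * u⁻¹ = w * (u * h * u⁻¹) * w⁻¹ := by
      rw [hh']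
      have e1 : u * w = w * u := c.comm hu.1 hw
      calc u * (w * h * w⁻¹) * u⁻¹ = (u * w) * h * (u * w)⁻¹ := by group
        _ = (w * u) * h * (w * u)⁻¹ := by rw [e1]
        _ = w * (u * h * u⁻¹) * w⁻¹ := by group
    rw [this, hinv, hh']; group
  have h2 : u * h' * u⁻¹ = h⁻¹ * m := by
    have e2 : u * m * u⁻¹ = m := by
      rw [← (mem_centralizer_iff.1 hu.2) m hmN, mul_inv_cancel_right]
    calc u * h' * u⁻¹ = (u * h * u⁻¹) * (u * m * u⁻¹) := by rw [hh'm]; group
      _ = h⁻¹ * m := by rw [hinv, e2]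
  have h3 : m = m⁻¹ := by
    have e3 : h⁻¹ * m = h⁻¹ * m⁻¹ := by
      rw [← h2, h1, hh'm, hcm.eq, mul_inv_rev]
    exact mul_left_cancel e3
  have hmo : Odd (orderOf m) := by
    have e4 : m = h⁻¹ * h' := by rw [hh'm, inv_mul_cancel_left]
    rw [e4]
    apply odd_orderOf_mul
    · rw [hh'm]
      exact ((Commute.refl h).mul_right hcm).inv_left
    · rwa [orderOf_inv]
    · rw [hh', Cfsg.Agent.Lib.Helper52Subnormal.orderOf_conj]; exact ho
  have hm1 : m = 1 := by
    apply eq_one_of_odd_of_sq hmo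
    rw [pow_two]
    nth_rewrite 1 [h3]
    exact inv_mul_cancel m
  have hwh : w * h = h * w := by
    have : w * h * w⁻¹ = h := by rw [← hh', hh'm, hm1, mul_one]
    calc w * h = w * h * w⁻¹ * w := by group
      _ = h * w := by rw [this]
  have hwn : w * n = n * w := by
    have e5 : n = n' := by
      have := hm1
      rw [hm] at this
      exact mul_inv_eq_one.1 this
    calc w * n = w * n * w⁻¹ * w := by group
      _ = n * w := by rw [← hn', ← e5]
  exact hw1 (hnc w ⟨hw, mem_centralizer_singleton_iff.2 hwh⟩ hwn)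

theorem Ctx.normal_bot (c : Ctx V) {T : Subgroup G} (hT : T.Normal) (h2 : IsPGroup 2 T) : T = ⊥ := by
  have h1 := Cfsg.Agent.Lib.Helper28Fitting.le_pCore hT h2
  rw [c.hO] at h1
  exact le_bot_iff.1 h1

theorem Ctx.center_bot (c : Ctx V) : center G = ⊥ := by
  have : Fact (Nat.Prime 2) := ⟨Nat.prime_two⟩
  by_contra hZ
  have h2el : ∀ z ∈ center G, ∀ k : ℕ, z ^ 2 ^ k = 1 → z = 1 := by
    intro z hz k hk
    have h1 : (zpowers z).Normal := by
      constructor
      intro x hx g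
      obtain ⟨i, rfl⟩ := mem_zpowers_iff.1 hx
      have : g * z ^ i * g⁻¹ = z ^ i := by
        have h3 : z ^ i ∈ center G := zpow_mem hz i
        rw [(mem_center_iff.1 h3 g), mul_inv_cancel_right]
      rw [this]; exact hx
    have h2 : IsPGroup 2 (zpowers z) := by
      rintro ⟨x, hx⟩
      obtain ⟨i, rfl⟩ := mem_zpowers_iff.1 hx
      refine ⟨k, Subtype.ext ?_⟩
      show (z ^ i) ^ 2 ^ k = 1
      rw [← zpow_natCast, ← zpow_mul, mul_comm, zpow_mul, zpow_natCast, hk, one_zpow]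
    have h3 := c.normal_bot h1 h2
    have h4 : z ∈ zpowers z := mem_zpowers z
    rw [h3, mem_bot] at h4
    exact h4
  have hVZ : V ⊓ center G = ⊥ := by
    rw [eq_bot_iff]
    rintro v ⟨hv, hvz⟩
    exact (mem_bot).2 (h2el v hvz 1 (by rw [pow_one]; exact c.hV.2 v hv))
  obtain ⟨v, hv, hvZ, hvO⟩ := c.quot (center G) hZ hVZ
  have hall : ∀ S : Sylow 2 G, v ∈ (S : Subgroup G) := by
    intro S
    have h1 := Cfsg.Agent.Lib.Helper52Basic.pCore_le_sylow
      (S.mapSurjective (QuotientGroup.mk'_surjective (center G))) hvO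
    rw [Sylow.coe_mapSurjective] at h1
    obtain ⟨s, hs, hsv⟩ := h1
    have hz : s⁻¹ * v ∈ center G := QuotientGroup.eq.1 hsv
    set z := s⁻¹ * v with hzdef
    have hvs : v = s * z := by rw [hzdef, mul_inv_cancel_left]
    have hzc : ∀ g : G, g * z = z * g := fun g => mem_center_iff.1 hz g
    have h3 : z ^ 2 = (s ^ 2)⁻¹ := by
      have h4 : v * v = 1 := c.sq hv
      rw [hvs] at h4
      have h5 : s * z * (s * z) = s ^ 2 * z ^ 2 := by
        rw [pow_two, pow_two]
        calc s * z * (s * z) = s * (z * s) * z := by group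
          _ = s * (s * z) * z := by rw [hzc s]
          _ = s * s * (z * z) := by group
      rw [h5] at h4
      exact eq_inv_of_mul_eq_one_right h4
    have h6 : z ^ 2 ∈ (S : Subgroup G) := by
      rw [h3]; exact inv_mem (pow_mem hs 2)
    obtain ⟨k, hk⟩ := S.2 ⟨_, h6⟩
    have h7 : (z ^ 2) ^ 2 ^ k = 1 := congrArg Subtype.val hk
    have h8 : z = 1 := h2el z hz (k + 1) (by rw [pow_succ', pow_mul]; exact h7)
    rw [hvs, h8, mul_one]; exact hs
  obtain ⟨S⟩ : Nonempty (Sylow 2 G) := inferInstance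
  have hle : normalClosure ({v} : Set G) ≤ (S : Subgroup G) := by
    show closure (Group.conjugatesOfSet ({v} : Set G)) ≤ _
    rw [closure_le]
    intro y hy
    obtain ⟨a, ha, hay⟩ := Group.mem_conjugatesOfSet_iff.1 hy
    rw [Set.mem_singleton_iff] at ha
    subst ha
    obtain ⟨g, rfl⟩ := isConj_iff.1 hay
    have h1 : a ∈ (MulAut.conj g⁻¹ • (S : Subgroup G)) := hall (g⁻¹ • S)
    rw [mem_pointwise_smul_iff_inv_smul_mem] at h1
    have h2 : g * a * g⁻¹ ∈ (S : Subgroup G) := by simpa using h1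
    exact h2
  have h1 := c.normal_bot (normalClosure_normal) (S.2.to_le hle)
  have h2 : v ∈ normalClosure ({v} : Set G) := subset_normalClosure (Set.mem_singleton v)
  rw [h1, mem_bot] at h2
  exact hvZ (h2 ▸ one_mem _)

theorem Ctx.not_le_cent (c : Ctx V) (N : Subgroup G) [hNn : N.Normal] (hN : N ≠ ⊥) :
    ¬ V ≤ centralizer (N : Set G) := by
  intro hle
  by_cases hC : centralizer (N : Set G) = ⊤
  · rw [centralizer_eq_top_iff_subset] at hC
    apply hN
    rw [eq_bot_iff, ← c.center_bot]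
    exact hC
  · obtain ⟨h, _, v, hv, ho, hinv, hc⟩ := c.sub _ V hC hle le_rfl c.hV1 (by
      intro T hTC hCT hT2
      have h1 : NormIn T (centralizer (N : Set G)) := ⟨hTC, hCT⟩
      rw [c.sn_bot (h1.sn.trans (sn_of_normal _)) hT2, inf_bot_eq])
    obtain ⟨w, hw, hw1, hwc⟩ := c.hS h v hv ho hinv
    exact hw1 (hc w hw hwc)

theorem Ctx.inf_cent (c : Ctx V) (N : Subgroup G) [hNn : N.Normal] (hN : N ≠ ⊥) :
    V ⊓ centralizer (N : Set G) = ⊥ :=
  (c.cent_dichotomy N).resolve_right (c.not_le_cent N hN)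

theorem Ctx.sup_top (c : Ctx V) (N : Subgroup G) [hNn : N.Normal] (hN : N ≠ ⊥) : V ⊔ N = ⊤ := by
  by_contra hne
  obtain ⟨h, _, v, hv, ho, hinv, hc⟩ := c.sub _ V hne le_sup_left le_rfl c.hV1 (by
    intro T hTH hHT hT2
    rw [eq_bot_iff]
    rintro a ⟨haV, haT⟩
    have h1 := c.T_cond (sn_of_normal N) (le_sup_right.trans hHT) hT2 haT
      (by rw [normalizer_eq_top_iff.2 hNn]; exact mem_top a)
    rw [← c.inf_cent N hN]
    exact ⟨haV, h1⟩)
  obtain ⟨w, hw, hw1, hwc⟩ := c.hS h v hv ho hinv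
  exact hw1 (hc w hw hwc)

theorem Ctx.not_comm (c : Ctx V) (N : Subgroup G) [hNn : N.Normal] (hN : N ≠ ⊥)
    (hmin : ∀ M : Subgroup G, M.Normal → M ≤ N → M = ⊥ ∨ M = N) :
    ¬ (∀ a ∈ N, ∀ b ∈ N, a * b = b * a) := by
  intro hab
  have key : ∀ w ∈ V, w ≠ 1 → ∀ x ∈ N, w * x = x * w → x = 1 := by
    intro w hw hw1 x hx hwx
    have hMn : (N ⊓ centralizer ({w} : Set G)).Normal := by
      rw [← normalizer_eq_top_iff, eq_top_iff, ← c.sup_top N hN, sup_le_iff]
      constructor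
      · intro v hv
        apply mem_normalizer_of_forall
        intro y hy
        obtain ⟨hyN, hyw⟩ := mem_inf.1 hy
        refine mem_inf.2 ⟨hNn.conj_mem y hyN v, ?_⟩
        rw [mem_centralizer_singleton_iff] at hyw ⊢
        have e1 : v * w = w * v := c.comm hv hw
        have e2 : v⁻¹ * w = w * v⁻¹ := by rw [c.inv hv, e1]
        calc v * y * v⁻¹ * w = v * y * (v⁻¹ * w) := by group
          _ = v * (y * w) * v⁻¹ := by rw [e2]; group
          _ = (v * w) * y * v⁻¹ := by rw [hyw]; group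
          _ = w * (v * y * v⁻¹) := by rw [e1]; group
      · intro n hn
        apply mem_normalizer_of_forall
        intro y hy
        obtain ⟨hyN, hyw⟩ := mem_inf.1 hy
        have : n * y * n⁻¹ = y := by rw [hab n hn y hyN, mul_inv_cancel_right]
        rw [this]; exact hy
    rcases hmin _ hMn inf_le_left with h | h
    · have : x ∈ N ⊓ centralizer ({w} : Set G) := ⟨hx, mem_centralizer_singleton_iff.2 hwx.symm⟩
      rw [h, mem_bot] at this
      exact this
    · exfalso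
      apply hw1
      have h1 : w ∈ V ⊓ centralizer (N : Set G) := by
        refine mem_inf.2 ⟨hw, ?_⟩
        rw [mem_centralizer_iff]
        intro y hy
        have h2 : y ∈ N ⊓ centralizer ({w} : Set G) := by rw [h]; exact hy
        exact mem_centralizer_singleton_iff.1 h2.2
      rw [c.inf_cent N hN, mem_bot] at h1
      exact h1
  obtain ⟨⟨v, hv⟩, hv1⟩ := (ne_bot_iff_exists_ne_one).1 c.hV1
  have hv1' : v ≠ 1 := fun h => hv1 (Subtype.ext h)
  have hinv : ∀ x ∈ N, v * x * v⁻¹ = x⁻¹ := by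
    intro x hx
    have hx' : v * x * v⁻¹ ∈ N := hNn.conj_mem x hx v
    have h1 : x * (v * x * v⁻¹) = 1 := by
      apply key v hv hv1' _ (N.mul_mem hx hx')
      have e1 : v * v = 1 := c.sq hv
      have e2 : v⁻¹ = v := c.inv hv
      rw [e2] at hx' ⊢
      calc v * (x * (v * x * v)) = (v * x * v) * x * v := by group
        _ = x * (v * x * v) * v := by rw [hab _ hx' x hx]
    exact (eq_inv_of_mul_eq_one_right h1)
  have hodd : ∀ x ∈ N, Odd (orderOf x) := by
    intro x hx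
    by_contra hne
    rw [Nat.not_odd_iff_even] at hne
    obtain ⟨k, hk⟩ := hne
    have hpos : 0 < orderOf x := orderOf_pos x
    have ht : (x ^ k) * (x ^ k) = 1 := by rw [← pow_add, ← hk, pow_orderOf_eq_one]
    have htN : x ^ k ∈ N := N.pow_mem hx k
    have h1 : x ^ k = 1 := by
      apply key v hv hv1' _ htN
      have h2 := hinv _ htN
      rw [inv_eq_of_mul_eq_one_left ht] at h2
      calc v * x ^ k = v * x ^ k * v⁻¹ * v := by group
        _ = x ^ k * v := by rw [h2]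
    have h3 := Nat.le_of_dvd (by omega) (orderOf_dvd_of_pow_eq_one h1)
    omega
  obtain ⟨⟨h, hh⟩, hh1⟩ := (ne_bot_iff_exists_ne_one).1 hN
  obtain ⟨w, hw, hw1, hwc⟩ := c.hS h v hv (hodd h hh) (hinv h hh)
  exact hh1 (Subtype.ext (key w hw hw1 h hh hwc))

theorem Ctx.cent_bot (c : Ctx V) (N : Subgroup G) [hNn : N.Normal] (hN : N ≠ ⊥)
    (hmin : ∀ M : Subgroup G, M.Normal → M ≤ N → M = ⊥ ∨ M = N) :
    centralizer (N : Set G) = ⊥ := by
  have hCn : (centralizer (N : Set G)).Normal := inferInstance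
  have h1 : N ⊓ centralizer (N : Set G) = ⊥ := by
    rcases hmin (N ⊓ centralizer (N : Set G)) inferInstance inf_le_left with h | h
    · exact h
    · exfalso
      apply c.not_comm N hN hmin
      intro a ha b hb
      have h2 : a ∈ N ⊓ centralizer (N : Set G) := by rw [h]; exact ha
      exact ((mem_centralizer_iff.1 h2.2) b hb).symm
  apply c.normal_bot hCn
  rintro ⟨x, hx⟩
  refine ⟨1, Subtype.ext ?_⟩
  show x ^ 2 ^ 1 = 1
  rw [pow_one]
  have h2 : x ^ 2 ∈ N := sq_mem_of_mem_sup (A := V)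
    (by rw [normalizer_eq_top_iff.2 hNn]; exact le_top) c.hV.2 (c.sup_top N hN ▸ mem_top x)
  have h3 : x ^ 2 ∈ N ⊓ centralizer (N : Set G) := ⟨h2, pow_mem hx 2⟩
  rw [h1, mem_bot] at h3
  exact h3

theorem Ctx.simple (c : Ctx V) (N : Subgroup G) [hNn : N.Normal] (hN : N ≠ ⊥)
    (hmin : ∀ M : Subgroup G, M.Normal → M ≤ N → M = ⊥ ∨ M = N) :
    ∀ M : Subgroup G, M ≤ N → N ≤ normalizer (M : Set G) → M = ⊥ ∨ M = N := by
  obtain ⟨L, ⟨hL1, hLN, hNL⟩, hLm⟩ := (Set.toFinite
    {L : Subgroup G | L ≠ ⊥ ∧ L ≤ N ∧ N ≤ normalizer (L : Set G)}).exists_minimal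
    ⟨N, hN, le_rfl, le_normalizer⟩
  have hLmin : ∀ M : Subgroup G, M ≠ ⊥ → M ≤ L → N ≤ normalizer (M : Set G) → M = L :=
    fun M h1 h2 h3 => le_antisymm h2 (hLm ⟨h1, h2.trans hLN, h3⟩ h2)
  suffices hVL : V ≤ normalizer (L : Set G) by
    have hLn : L.Normal := by
      rw [← normalizer_eq_top_iff, eq_top_iff, ← c.sup_top N hN]
      exact sup_le hVL hNL
    have hLeq : L = N := (hmin L hLn hLN).resolve_left hL1
    intro M hMN hNM
    by_cases hM : M = ⊥
    · exact Or.inl hM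
    · right
      have := hLmin M hM (hLeq ▸ hMN) hNM
      rw [this, hLeq]
  by_contra hVL
  obtain ⟨v0, hv0, hv0L⟩ := SetLike.not_le_iff_exists.1 hVL
  have hsnL : Sn L ⊤ := (show NormIn L N from ⟨hLN, hNL⟩).sn.trans (sn_of_normal N)
  -- conjugates
  have hcjN : ∀ g : G, L.map (MulAut.conj g).toMonoidHom ≤ N := by
    rintro g _ ⟨l, hl, rfl⟩
    exact hNn.conj_mem l (hLN hl) g
  have hNcj : ∀ g : G, N ≤ normalizer ((L.map (MulAut.conj g).toMonoidHom : Subgroup G) : Set G) := by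
    intro g n hn
    apply mem_normalizer_of_forall
    rintro _ ⟨l, hl, rfl⟩
    have h1 : g⁻¹ * n * g ∈ N := by simpa using hNn.conj_mem n hn g⁻¹
    have h2 := conj_mem_of_mem_normalizer (hNL h1) hl
    refine ⟨_, h2, ?_⟩
    simp only [MulEquiv.coe_toMonoidHom, MulAut.conj_apply]
    group
  have hdich : ∀ g : G, g ∉ normalizer (L : Set G) → L ⊓ L.map (MulAut.conj g).toMonoidHom = ⊥ := by
    intro g hg
    by_contra hne
    have h1 := hLmin _ hne inf_le_left
      (le_trans (le_inf hNL (hNcj g)) inf_normalizer_le_normalizer_inf)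
    have h2 : L ≤ L.map (MulAut.conj g).toMonoidHom := inf_eq_left.1 h1
    have h3 : L = L.map (MulAut.conj g).toMonoidHom :=
      Subgroup.eq_of_le_of_card_ge h2 (card_cj g L).le
    exact hg (mem_normalizer_iff_cj.2 h3.symm)
  have hcomm : ∀ g : G, g ∉ normalizer (L : Set G) → ∀ l ∈ L, ∀ l' ∈ L,
      (g * l * g⁻¹) * l' = l' * (g * l * g⁻¹) := by
    intro g hg l hl l' hl'
    have hx : g * l * g⁻¹ ∈ L.map (MulAut.conj g).toMonoidHom := conj_mem_cj hl
    set x := g * l * g⁻¹ with hxdef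
    have h1 : x * l' * x⁻¹ * l'⁻¹ ∈ L ⊓ L.map (MulAut.conj g).toMonoidHom := by
      refine mem_inf.2 ⟨?_, ?_⟩
      · exact L.mul_mem (conj_mem_of_mem_normalizer (hNL (hcjN g hx)) hl') (L.inv_mem hl')
      · have : x * l' * x⁻¹ * l'⁻¹ = x * (l' * x⁻¹ * l'⁻¹) := by group
        rw [this]
        exact mul_mem hx (conj_mem_of_mem_normalizer (hNcj g (hLN hl')) (inv_mem hx))
    rw [hdich g hg, mem_bot] at h1
    have := congrArg (· * (l' * x)) h1
    simpa [mul_assoc] using this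
  have hNle : ∀ X : Subgroup G, (∀ v ∈ V, ∀ l ∈ L, v * l * v⁻¹ ∈ X) → N ≤ X := by
    intro X hX
    have h1 : normalClosure (L : Set G) = N := by
      refine (hmin _ normalClosure_normal (normalClosure_le_normal hLN)).resolve_left ?_
      intro h
      apply hL1
      rw [eq_bot_iff, ← h]
      exact le_normalClosure
    rw [← h1]
    show closure (Group.conjugatesOfSet (L : Set G)) ≤ _
    rw [closure_le]
    intro y hy
    obtain ⟨l, hl, hly⟩ := Group.mem_conjugatesOfSet_iff.1 hy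
    obtain ⟨g, rfl⟩ := isConj_iff.1 hly
    have hg : g ∈ ((V ⊔ N : Subgroup G) : Set G) := by rw [c.sup_top N hN]; exact mem_top g
    rw [Subgroup.coe_mul_of_left_le_normalizer_right V N
      (by rw [normalizer_eq_top_iff.2 hNn]; exact le_top)] at hg
    obtain ⟨v, hv, n, hn, rfl⟩ := hg
    have h2 := hX v hv _ (conj_mem_of_mem_normalizer (hNL hn) hl)
    have h3 : v * n * l * (v * n)⁻¹ = v * (n * l * n⁻¹) * v⁻¹ := by group
    rw [SetLike.mem_coe, h3]
    exact h2
  have hcentL : ∀ w ∈ V, (∀ l ∈ L, w * l = l * w) → w = 1 := by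
    intro w hw hwl
    have h1 : N ≤ centralizer ({w} : Set G) := by
      apply hNle
      intro v hv l hl
      rw [mem_centralizer_singleton_iff]
      have e1 : v * w = w * v := c.comm hv hw
      have e2 : v⁻¹ * w = w * v⁻¹ := by rw [c.inv hv, e1]
      calc v * l * v⁻¹ * w = v * l * (v⁻¹ * w) := by group
        _ = v * (l * w) * v⁻¹ := by rw [e2]; group
        _ = (v * w) * l * v⁻¹ := by rw [← hwl l hl]; group
        _ = w * (v * l * v⁻¹) := by rw [e1]; group
    have h2 : w ∈ V ⊓ centralizer (N : Set G) := by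
      refine mem_inf.2 ⟨hw, ?_⟩
      rw [mem_centralizer_iff]
      intro y hy
      exact mem_centralizer_singleton_iff.1 (h1 hy)
    rw [c.inf_cent N hN, mem_bot] at h2
    exact h2
  have hZL : ∀ z ∈ L, (∀ l ∈ L, z * l = l * z) → z = 1 := by
    intro z hz hzl
    have h1 : N ≤ centralizer ({z} : Set G) := by
      apply hNle
      intro v hv l hl
      rw [mem_centralizer_singleton_iff]
      by_cases hvL : v ∈ normalizer (L : Set G)
      · exact (hzl _ (conj_mem_of_mem_normalizer hvL hl)).symm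
      · exact hcomm v hvL l hl z hz
    have h2 : z ∈ centralizer (N : Set G) := by
      rw [mem_centralizer_iff]
      intro y hy
      exact mem_centralizer_singleton_iff.1 (h1 hy)
    rw [c.cent_bot N hN hmin, mem_bot] at h2
    exact h2
  by_cases hV1 : V ⊓ normalizer (L : Set G) = ⊥
  · -- regular case
    have hnot2 : ¬ IsPGroup 2 L := fun h => hL1 (c.sn_bot hsnL h)
    have hex : ∃ x ∈ L, x ≠ 1 ∧ Odd (orderOf x) := by
      by_contra hcon
      push Not at hcon
      apply hnot2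
      rintro ⟨g, hg⟩
      obtain ⟨a, b, hb, hab⟩ := Nat.exists_eq_two_pow_mul_odd (orderOf_pos g).ne'
      refine ⟨a, Subtype.ext ?_⟩
      show g ^ 2 ^ a = 1
      by_contra hne
      apply hcon (g ^ 2 ^ a) (L.pow_mem hg _) hne
      apply odd_orderOf_of_pow hb
      rw [← pow_mul, ← hab, pow_orderOf_eq_one]
    obtain ⟨x, hxL, hx1, hxo⟩ := hex
    set y := v0 * x * v0⁻¹ with hy
    have hxy : Commute x y := (hcomm v0 hv0L x hxL x hxL).symm
    have hv0y : v0 * y * v0⁻¹ = x := by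
      rw [hy, c.inv hv0]
      calc v0 * (v0 * x * v0) * v0 = (v0 * v0) * x * (v0 * v0) := by group
        _ = x := by rw [c.sq hv0, one_mul, mul_one]
    have hinv : v0 * (x⁻¹ * y) * v0⁻¹ = (x⁻¹ * y)⁻¹ := by
      calc v0 * (x⁻¹ * y) * v0⁻¹ = (v0 * x * v0⁻¹)⁻¹ * (v0 * y * v0⁻¹) := by group
        _ = y⁻¹ * x := by rw [hv0y]
        _ = (x⁻¹ * y)⁻¹ := by group
    have hyo : Odd (orderOf y) := by
      rw [hy, Cfsg.Agent.Lib.Helper52Subnormal.orderOf_conj]; exact hxo
    have hho : Odd (orderOf (x⁻¹ * y)) :=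
      odd_orderOf_mul hxy.inv_left (by rwa [orderOf_inv]) hyo
    obtain ⟨w, hw, hw1, hwc⟩ := c.hS _ v0 hv0 hho hinv
    have hnotin : ∀ v ∈ V, v ≠ 1 → v ∉ normalizer (L : Set G) := by
      intro v hv hv1 hvL
      have : v ∈ V ⊓ normalizer (L : Set G) := ⟨hv, hvL⟩
      rw [hV1, mem_bot] at this
      exact hv1 this
    by_cases hwv : w = v0
    · subst hwv
      have h1 : w * (x⁻¹ * y) * w⁻¹ = x⁻¹ * y := by rw [hwc, mul_inv_cancel_right]
      rw [hinv] at h1
      have h2 : x⁻¹ * y = 1 := by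
        apply eq_one_of_odd_of_sq hho
        rw [pow_two]
        nth_rewrite 1 [← h1]
        exact inv_mul_cancel _
      have h3 : y = x := by
        have := congrArg (x * ·) h2
        simpa using this
      have h4 : x ∈ L ⊓ L.map (MulAut.conj w).toMonoidHom :=
        mem_inf.2 ⟨hxL, by rw [← h3, hy]; exact conj_mem_cj hxL⟩
      rw [hdich w hv0L, mem_bot] at h4
      exact hx1 h4
    · have hwv1 : w * v0 ≠ 1 := by
        intro h
        apply hwv
        rw [← c.inv hv0]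
        exact eq_inv_of_mul_eq_one_left h
      have h1 : w * (x⁻¹ * y) * w⁻¹ = x⁻¹ * y := by rw [hwc, mul_inv_cancel_right]
      have h2 : x⁻¹ = (w * x⁻¹ * w⁻¹) * ((w * v0) * x * (w * v0)⁻¹) * (v0 * x⁻¹ * v0⁻¹) := by
        have e1 : (w * x⁻¹ * w⁻¹) * ((w * v0) * x * (w * v0)⁻¹) = w * (x⁻¹ * y) * w⁻¹ := by
          rw [hy]; group
        have e2 : v0 * x⁻¹ * v0⁻¹ = y⁻¹ := by rw [hy]; group
        rw [e1, h1, e2, mul_inv_cancel_right]
      apply hx1
      have h3 : x⁻¹ = 1 := by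
        apply hZL _ (L.inv_mem hxL)
        intro l hl
        rw [h2]
        have c1 := hcomm w (hnotin w hw hw1) x⁻¹ (L.inv_mem hxL) l hl
        have c2 := hcomm (w * v0) (hnotin _ (V.mul_mem hw hv0) hwv1) x hxL l hl
        have c3 := hcomm v0 hv0L x⁻¹ (L.inv_mem hxL) l hl
        exact (((show Commute _ l from c1).mul_left (show Commute _ l from c2)).mul_left
          (show Commute _ l from c3)).eq
      exact inv_eq_one.1 h3
  · -- nontrivial stabiliser
    have hA2 : ∀ a ∈ V ⊓ normalizer (L : Set G), a ^ 2 = 1 := fun a ha => c.hV.2 a ha.1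
    have hH : (V ⊓ normalizer (L : Set G)) ⊔ L ≠ ⊤ := by
      intro htop
      apply hv0L
      have : (V ⊓ normalizer (L : Set G)) ⊔ L ≤ normalizer (L : Set G) :=
        sup_le inf_le_right le_normalizer
      rw [htop] at this
      exact this (mem_top v0)
    obtain ⟨x, hxH, v1, hv1, hxo, hxinv, hxc⟩ := c.sub _ _ hH le_sup_left inf_le_left hV1 (by
      intro T hTH hHT hT2
      rw [eq_bot_iff]
      intro a ha
      obtain ⟨haA, haT⟩ := mem_inf.1 ha
      have h1 := c.T_cond hsnL (le_sup_right.trans hHT) hT2 haT haA.2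
      refine (mem_bot).2 (hcentL a haA.1 ?_)
      intro l hl
      exact ((mem_centralizer_iff.1 h1) l hl).symm)
    have hxL : x ∈ L := mem_of_odd_of_mem_sup inf_le_right hA2 hxH hxo
    have hx1 : x ≠ 1 := by
      intro h
      apply hV1
      rw [eq_bot_iff]
      intro w hw
      exact (mem_bot).2 (hxc w hw (by rw [h, mul_one, one_mul]))
    obtain ⟨w, hw, hw1, hwc⟩ := c.hS x v1 hv1.1 hxo hxinv
    have hwL : w ∈ normalizer (L : Set G) := by
      by_contra hwL
      have h4 : x ∈ L ⊓ L.map (MulAut.conj w).toMonoidHom := by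
        refine mem_inf.2 ⟨hxL, ?_⟩
        have : x = w * x * w⁻¹ := by rw [hwc, mul_inv_cancel_right]
        rw [this]
        exact conj_mem_cj hxL
      rw [hdich w hwL, mem_bot] at h4
      exact hx1 h4
    exact hw1 (hxc w ⟨hw, hwL⟩ hwc)

theorem Ctx.final (c : Ctx V) : IsSimpleGroup ↥(Cfsg.generalizedFittingSubgroup G) ∧
    ¬ IsMulCommutative ↥(Cfsg.generalizedFittingSubgroup G) ∧
    V ⊔ Cfsg.generalizedFittingSubgroup G = ⊤ := by
  obtain ⟨N, ⟨hNn, hN⟩, hNm⟩ := (Set.toFinite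
    {N : Subgroup G | N.Normal ∧ N ≠ ⊥}).exists_minimal
    ⟨⊤, inferInstance, fun h => c.hV1 (le_bot_iff.1 (h ▸ le_top))⟩
  have hmin : ∀ M : Subgroup G, M.Normal → M ≤ N → M = ⊥ ∨ M = N := by
    intro M hM hMN
    by_cases h : M = ⊥
    · exact Or.inl h
    · exact Or.inr (le_antisymm hMN (hNm ⟨hM, h⟩ hMN))
  have hsimp := c.simple N hN hmin
  have hna := c.not_comm N hN hmin
  have hcent := c.cent_bot N hN hmin
  have hQS : QS N := by
    refine ⟨?_, hN, ?_⟩
    · rcases hmin ⁅N, N⁆ inferInstance (commutator_le_self N) with h | h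
      · exfalso
        apply hna
        intro a ha b hb
        have h1 : ⁅a, b⁆ ∈ ⁅N, N⁆ := commutator_mem_commutator ha hb
        rw [h, mem_bot] at h1
        exact (commutatorElement_eq_one_iff_mul_comm).1 h1
      · exact h
    · intro M hM
      rcases hsimp M hM.1 hM.2 with h | h
      · right; rw [h]; exact bot_le
      · exact Or.inl h
  have hcomp : CompIn N ⊤ := ⟨sn_of_normal N, hQS⟩
  have hlayer : Cfsg.layer G = N := by
    apply le_antisymm
    · apply sSup_le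
      intro K hK
      have hK' : CompIn K ⊤ := isComponent_iff.1 hK
      rcases hK'.eq_or_commute hcomp with h | h
      · exact h.le
      · exfalso
        apply hK'.2.ne_bot
        rw [eq_bot_iff, ← hcent]
        exact (commutator_eq_bot_iff_le_centralizer).1 h
    · exact le_sSup (isComponent_iff.2 hcomp)
  have hfit : Cfsg.fittingSubgroup G = ⊥ := by
    rw [eq_bot_iff]
    apply sSup_le
    rintro M ⟨hMn, hMnil⟩
    have h1 : ⁅N, M⁆ = ⊥ := hcomp.commute_of_solvable le_top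
      (by rw [normalizer_eq_top_iff.2 hMn]; exact le_top) inferInstance
    rw [commutator_comm] at h1
    rw [← hcent]
    exact (commutator_eq_bot_iff_le_centralizer).1 h1
  have hF : Cfsg.generalizedFittingSubgroup G = N := by
    unfold Cfsg.generalizedFittingSubgroup
    rw [hlayer, hfit, sup_bot_eq]
  rw [hF]
  refine ⟨?_, ?_, c.sup_top N hN⟩
  · have : Nontrivial N := (Subgroup.nontrivial_iff_ne_bot _).2 hN
    refine ⟨fun H hH => ?_⟩
    have h1 : NormIn (H.map N.subtype) N := normIn_map_subtype_iff.2 hH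
    rcases hsimp _ h1.1 h1.2 with h | h
    · left
      rwa [Subgroup.map_eq_bot_iff_of_injective _ N.subtype_injective] at h
    · right
      rw [eq_top_iff]
      intro x _
      have h2 : (x : G) ∈ H.map N.subtype := by rw [h]; exact x.2
      obtain ⟨y, hy, hyx⟩ := h2
      have : y = x := Subtype.ext hyx
      rwa [← this]
  · intro hc
    apply hna
    intro a ha b hb
    exact (comm_of_mem hc ha hb).eq

end main


/-- Minimal counterexample reduction for the Sidki pair problem. Let G be a finite group and V a nontrivial elementary abelian 2-subgroup satisfying the Sidki pair condition with V ∩ O₂(G) = 1. Suppose that for every finite group H of smaller order, every nontrivial elementary abelian 2-subgroup W of H satisfying the Sidki pair condition meets O₂(H) nontrivially, and that the same holds in G for every such subgroup W of order smaller than that of V. Then the generalized Fitting subgroup F*(G) is a non-abelian simple group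 and G = V F*(G). -/
theorem result {G : Type u} [Group G] [Finite G] (V : Subgroup G) (hV : Cfsg.IsElementaryAbelian 2 V) (hV1 : V ≠ ⊥) (hS : Cfsg.IsSidkiPair V) (hVO : V ⊓ Cfsg.pCore 2 G = ⊥) (hminG : ∀ (H : Type u) [Group H] [Finite H] (W : Subgroup H), Nat.card H < Nat.card G → Cfsg.IsElementaryAbelian 2 W → W ≠ ⊥ → Cfsg.IsSidkiPair W → W ⊓ Cfsg.pCore 2 H ≠ ⊥) (hminV : ∀ W : Subgroup G, Nat.card W < Nat.card V → Cfsg.IsElementaryAbelian 2 W → W ≠ ⊥ → Cfsg.IsSidkiPair W → W ⊓ Cfsg.pCore 2 G ≠ ⊥) : IsSimpleGroup ↥(Cfsg.generalizedFittingSubgroup G) ∧ ¬ IsMulCommutative ↥(Cfsg.generalizedFittingSubgroup G) ∧ V ⊔ Cfsg.generalizedFittingSubgroup G = ⊤ := by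
  exact (mkCtx V hV hV1 hS hVO hminG hminV).final

end Cfsg.Agent.S3048
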