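import Cfsg.Statements.S3053
import Cfsg.Agent.Lib.Helper3Class2
import Cfsg.Agent.Lib.Helper56Basic
import Cfsg.Agent.Lib.Helper56Sylow
import Cfsg.Agent.Lib.Helper56Super
import Cfsg.Agent.Lib.Helper67PGroup

set_option autoImplicit false
open Cfsg

namespace Cfsg.Agent.S3053


open scoped commutatorElement Pointwise
open Cfsg.Agent.Lib.Helper3Class2
open Cfsg.Agent.Lib.Helper56Basic Cfsg.Agent.Lib.Helper56Sylow Cfsg.Agent.Lib.Helper56Super

theorem comm_mem_center {Q : Type*} [Group Q] {p : ℕ} (hE : Cfsg.IsExtraspecial p Q) (x y : Q) :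
    ⁅x, y⁆ ∈ Subgroup.center Q := by
  rw [← hE.1.2.2, commutator_def]
  exact Subgroup.commutator_mem_commutator (Subgroup.mem_top x) (Subgroup.mem_top y)

theorem pow_mem_center {Q : Type*} [Group Q] [Finite Q] {p : ℕ} [Fact p.Prime]
    (hE : Cfsg.IsExtraspecial p Q) (hcard : Nat.card Q = p ^ 3) (x : Q) :
    x ^ p ∈ Subgroup.center Q := by
  have hp : p.Prime := Fact.out
  have hq : Nat.card (Q ⧸ Subgroup.center Q) = p ^ 2 := by
    have h1 := Subgroup.card_eq_card_quotient_mul_card_subgroup (Subgroup.center Q)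
    rw [hcard, hE.2] at h1
    have h2 : p ^ 2 * p = Nat.card (Q ⧸ Subgroup.center Q) * p := by rw [← h1]; ring
    exact (Nat.eq_of_mul_eq_mul_right hp.pos h2).symm
  rw [← QuotientGroup.eq_one_iff, QuotientGroup.mk_pow]
  have h1 : orderOf (x : Q ⧸ Subgroup.center Q) ∣ p ^ 2 := hq ▸ orderOf_dvd_natCard _
  obtain ⟨k, hk, hk2⟩ := (Nat.dvd_prime_pow hp).1 h1
  have hk1 : k ≠ 2 := by
    rintro rfl
    have hcyc : IsCyclic (Q ⧸ Subgroup.center Q) :=
      isCyclic_of_orderOf_eq_card (x : Q ⧸ Subgroup.center Q) (by rw [hk2, hq])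
    have hc' := MonoidHom.isMulCommutative_of_isCyclic_of_ker_le_center
      (QuotientGroup.mk' (Subgroup.center Q)) (QuotientGroup.ker_mk' _).le
    have hc : ∀ a b : Q, a * b = b * a := hc'.is_comm.comm
    have htop : Subgroup.center Q = ⊤ := by
      rw [eq_top_iff]
      intro y _
      rw [Subgroup.mem_center_iff]
      intro g
      exact hc g y
    have h3 := hE.2
    rw [htop, Subgroup.card_top, hcard] at h3
    have : p ^ 3 = p ^ 1 := by rw [h3, pow_one]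
    have := Nat.pow_right_injective hp.two_le this
    omega
  have hk3 : k ≤ 1 := by omega
  apply orderOf_dvd_iff_pow_eq_one.1
  rw [hk2]
  calc p ^ k ∣ p ^ 1 := pow_dvd_pow p hk3
    _ = p := pow_one p

theorem mul_pow_p {Q : Type*} [Group Q] [Finite Q] {p : ℕ} [Fact p.Prime] (hp2 : p ≠ 2)
    (hE : Cfsg.IsExtraspecial p Q) (x y : Q) : (x * y) ^ p = x ^ p * y ^ p := by
  have hp : p.Prime := Fact.out
  have hc := comm_mem_center hE y x
  apply mul_pow_prime_class2 hp hp2 x y (commute_of_mem_center hc x) (commute_of_mem_center hc y)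
  have h1 : (⟨⁅y, x⁆, hc⟩ : Subgroup.center Q) ^ p = 1 := by
    rw [← hE.2]; exact pow_card_eq_one'
  exact congrArg Subtype.val h1

/-- the `p`-th power endomorphism -/
def powHom {Q : Type*} [Group Q] [Finite Q] {p : ℕ} [Fact p.Prime] (hp2 : p ≠ 2)
    (hE : Cfsg.IsExtraspecial p Q) : Q →* Q where
  toFun x := x ^ p
  map_one' := one_pow p
  map_mul' := mul_pow_p hp2 hE

theorem card_ker_powHom {Q : Type*} [Group Q] [Finite Q] {p : ℕ} [Fact p.Prime] (hp2 : p ≠ 2)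
    (hE : Cfsg.IsExtraspecial p Q) (hcard : Nat.card Q = p ^ 3)
    (hexp : Monoid.exponent Q = p ^ 2) : Nat.card (powHom hp2 hE).ker = p ^ 2 := by
  have hp : p.Prime := Fact.out
  have hle : (powHom hp2 hE).range ≤ Subgroup.center Q := by
    rintro _ ⟨x, rfl⟩
    exact pow_mem_center hE hcard x
  have hne : (powHom hp2 hE).range ≠ ⊥ := by
    intro h
    have h1 : Monoid.exponent Q ∣ p := by
      apply Monoid.exponent_dvd_of_forall_pow_eq_one
      intro x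
      have : (powHom hp2 hE) x ∈ (powHom hp2 hE).range := ⟨x, rfl⟩
      rw [h] at this
      exact this
    rw [hexp] at h1
    have := Nat.le_of_dvd hp.pos h1
    have h2 := hp.one_lt
    nlinarith
  have hr : Nat.card (powHom hp2 hE).range = p := by
    have h1 : Nat.card (powHom hp2 hE).range ∣ p := by
      have h0 := Subgroup.card_dvd_of_le hle
      rwa [hE.2] at h0
    rcases (Nat.dvd_prime hp).1 h1 with h | h
    · exact absurd (Subgroup.card_eq_one.1 h) hne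
    · exact h
  have h1 := Subgroup.card_mul_index (powHom hp2 hE).ker
  rw [Subgroup.index_ker, hr, hcard] at h1
  have h2 : Nat.card (powHom hp2 hE).ker * p = p ^ 2 * p := by rw [h1]; ring
  exact Nat.eq_of_mul_eq_mul_right hp.pos h2

theorem eq_of_lt_of_card {G : Type*} [Group G] [Finite G] {p : ℕ} [Fact p.Prime] {A X B : Subgroup G}
    (hAX : A ≤ X) (hne : ∃ x ∈ X, x ∉ A) (hXB : X ≤ B) (k : ℕ) (hA : Nat.card A = p ^ k)
    (hB : Nat.card B = p ^ (k + 1)) : X = B := by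
  have hp : p.Prime := Fact.out
  apply Subgroup.eq_of_le_of_card_ge hXB
  have h1 : Nat.card X ∣ p ^ (k + 1) := hB ▸ Subgroup.card_dvd_of_le hXB
  obtain ⟨j, hj, hj2⟩ := (Nat.dvd_prime_pow hp).1 h1
  have h2 : Nat.card A < Nat.card X := by
    by_contra hcon
    push Not at hcon
    have := Subgroup.eq_of_le_of_card_ge hAX hcon
    obtain ⟨x, hx, hxA⟩ := hne
    exact hxA (this ▸ hx)
  rw [hA, hj2] at h2
  have h3 := (Nat.pow_lt_pow_iff_right hp.one_lt).1 h2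
  have h4 : j = k + 1 := by omega
  rw [hB, hj2, h4]

theorem conj_pow_of {G : Type*} [Group G] {u e ζ : G} (h : u * e * u⁻¹ = ζ * e) (hu : u * ζ = ζ * u)
    (a : ℕ) : u ^ a * e * (u ^ a)⁻¹ = ζ ^ a * e := by
  induction a with
  | zero => simp
  | succ a ih =>
    have h1 : u ^ (a + 1) * e * (u ^ (a + 1))⁻¹ = u * (u ^ a * e * (u ^ a)⁻¹) * u⁻¹ := by
      rw [pow_succ']; group
    have h2 : u * ζ ^ a = ζ ^ a * u := (Commute.pow_right (show Commute u ζ from hu) a).eq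
    rw [h1, ih]
    calc u * (ζ ^ a * e) * u⁻¹ = (u * ζ ^ a) * e * u⁻¹ := by group
      _ = ζ ^ a * (u * e * u⁻¹) := by rw [h2]; group
      _ = ζ ^ (a + 1) * e := by rw [h, pow_succ]; group

section
variable {G : Type*} [Group G] [Finite G] {p : ℕ} [Fact p.Prime] (hp2 : p ≠ 2) (P : Sylow p G)
  (Z E : Subgroup G)
  (hZmem : ∀ z, z ∈ Z ↔ z ∈ (P : Subgroup G) ∧ ∀ x ∈ (P : Subgroup G), x * z = z * x)
  (hZc : Nat.card Z = p)
  (hcomm : ∀ x ∈ (P : Subgroup G), ∀ y ∈ (P : Subgroup G), x * y * x⁻¹ * y⁻¹ ∈ Z)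
  (hpow : ∀ x ∈ (P : Subgroup G), x ^ p ∈ Z)
  (hmul : ∀ x ∈ (P : Subgroup G), ∀ y ∈ (P : Subgroup G), (x * y) ^ p = x ^ p * y ^ p)
  (hEmem : ∀ x, x ∈ E ↔ x ∈ (P : Subgroup G) ∧ x ^ p = 1)
  (hEc : Nat.card E = p ^ 2) (hPc : Nat.card (P : Subgroup G) = p ^ 3)

include hZmem hZc hcomm hEmem hEc hPc in
/-- transvections: every `y ∈ E ∖ Z` can be moved to `w y` for any `w ∈ Z` -/
theorem exists_transvection (y : G) (hy : y ∈ E) (hyZ : y ∉ Z) (w : G) (hw : w ∈ Z) :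
    ∃ v ∈ (P : Subgroup G), v * y * v⁻¹ = w * y := by
  have hp : p.Prime := Fact.out
  have hEP : E ≤ (P : Subgroup G) := fun x hx => ((hEmem x).1 hx).1
  have hEcomm : ∀ a ∈ E, ∀ b ∈ E, a * b = b * a := by
    intro a ha b hb
    have := (IsPGroup.isMulCommutative_of_card_eq_prime_sq hEc).is_comm.comm ⟨a, ha⟩ ⟨b, hb⟩
    exact congrArg Subtype.val this
  obtain ⟨u, huP, huE⟩ : ∃ u ∈ (P : Subgroup G), u ∉ E := by
    by_contra hcon
    push Not at hcon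
    have h1 : (P : Subgroup G) ≤ E := hcon
    have h2 := Subgroup.card_le_of_le h1
    rw [hPc, hEc] at h2
    have := (Nat.pow_le_pow_iff_right hp.one_lt).1 h2
    omega
  set ζ := u * y * u⁻¹ * y⁻¹ with hζ
  have hζZ : ζ ∈ Z := hcomm u huP y (hEP hy)
  have hζ1 : ζ ≠ 1 := by
    intro h1
    apply hyZ
    rw [hZmem]
    refine ⟨hEP hy, ?_⟩
    have huy : u * y = y * u := by
      have := congrArg (fun t => t * y * u) h1
      simpa [hζ] using this
    have hX : (P : Subgroup G) ⊓ Subgroup.centralizer {y} = (P : Subgroup G) := by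
      have hu' : u ∈ (P : Subgroup G) ⊓ Subgroup.centralizer {y} :=
        Subgroup.mem_inf.2 ⟨huP, Subgroup.mem_centralizer_singleton_iff.2 huy⟩
      have hE' : E ≤ (P : Subgroup G) ⊓ Subgroup.centralizer {y} := fun x hx =>
        Subgroup.mem_inf.2 ⟨hEP hx, Subgroup.mem_centralizer_singleton_iff.2 (hEcomm x hx y hy)⟩
      exact eq_of_lt_of_card (p := p) hE' ⟨u, hu', huE⟩ inf_le_left 2 hEc hPc
    intro x hx
    have : x ∈ (P : Subgroup G) ⊓ Subgroup.centralizer {y} := by rw [hX]; exact hx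
    exact Subgroup.mem_centralizer_singleton_iff.1 this.2
  have hgen : Subgroup.zpowers ζ = Z :=
    Cfsg.Agent.Lib.Helper67PGroup.eq_of_le_of_card_prime hp _ _ (Subgroup.zpowers_le.2 hζZ) hZc
      (fun h => hζ1 (Subgroup.zpowers_eq_bot.1 h))
  have hw' : w ∈ Subgroup.zpowers ζ := by rw [hgen]; exact hw
  obtain ⟨a, ha⟩ := (mem_powers_iff_mem_zpowers).2 hw'
  refine ⟨u ^ a, Subgroup.pow_mem _ huP a, ?_⟩
  have h1 : u * y * u⁻¹ = ζ * y := by rw [hζ]; group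
  have h2 : u * ζ = ζ * u := ((hZmem ζ).1 hζZ).2 u huP
  rw [conj_pow_of h1 h2 a]
  exact congrArg (· * y) ha
include hp2 hZmem hZc hcomm hpow hmul hEmem hEc hPc in
theorem strongly_closed_aux (z : G) (hz : z ∈ Z) (g : G) (hgz : g * z * g⁻¹ ∈ (P : Subgroup G)) :
    g * z * g⁻¹ ∈ Z := by
  have hp : p.Prime := Fact.out
  by_contra heZ
  set e := g * z * g⁻¹ with he
  have hEP : E ≤ (P : Subgroup G) := fun x hx => ((hEmem x).1 hx).1
  have hEcomm : ∀ a ∈ E, ∀ b ∈ E, a * b = b * a := by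
    intro a ha b hb
    have := (IsPGroup.isMulCommutative_of_card_eq_prime_sq hEc).is_comm.comm ⟨a, ha⟩ ⟨b, hb⟩
    exact congrArg Subtype.val this
  have hZpow : ∀ x ∈ Z, x ^ p = 1 := by
    intro x hx
    have h1 : (⟨x, hx⟩ : Z) ^ p = 1 := by rw [← hZc]; exact pow_card_eq_one'
    exact congrArg Subtype.val h1
  have hZP : Z ≤ (P : Subgroup G) := fun x hx => ((hZmem x).1 hx).1
  have hZE : Z ≤ E := fun x hx => (hEmem x).2 ⟨hZP hx, hZpow x hx⟩
  have hzE : z ∈ E := hZE hz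
  have heE : e ∈ E := by
    rw [hEmem]
    refine ⟨hgz, ?_⟩
    rw [he, conj_pow, hZpow z hz]; group
  have hz1 : z ≠ 1 := by
    intro h
    apply heZ
    rw [he, h]
    simp
  -- conjugation of `E` into `P` lands in `E`
  have hEin : ∀ k : G, E.map (MulAut.conj k).toMonoidHom ≤ (P : Subgroup G) →
      k ∈ Subgroup.normalizer (E : Set G) := by
    intro k hk
    apply mem_normalizer_of_cj_le
    rintro _ ⟨x, hx, rfl⟩
    rw [hEmem]
    refine ⟨hk ⟨x, hx, rfl⟩, ?_⟩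
    show (k * x * k⁻¹) ^ p = 1
    rw [conj_pow, ((hEmem x).1 hx).2]; group
  -- step 1: an element of `N(E)` moving `z` to `e`
  obtain ⟨g₁, hg₁N, hg₁z⟩ : ∃ g₁ ∈ Subgroup.normalizer (E : Set G), g₁ * z * g₁⁻¹ = e := by
    have hPC : (P : Subgroup G) ≤ Subgroup.centralizer {z} := by
      intro x hx
      rw [Subgroup.mem_centralizer_singleton_iff]
      exact ((hZmem z).1 hz).2 x hx
    have hE'C : E.map (MulAut.conj g⁻¹).toMonoidHom ≤ Subgroup.centralizer {z} := by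
      rintro _ ⟨x, hx, rfl⟩
      rw [Subgroup.mem_centralizer_singleton_iff]
      show g⁻¹ * x * g⁻¹⁻¹ * z = z * (g⁻¹ * x * g⁻¹⁻¹)
      have h1 := hEcomm x hx e heE
      rw [he] at h1
      calc g⁻¹ * x * g⁻¹⁻¹ * z = g⁻¹ * (x * (g * z * g⁻¹)) * g := by group
        _ = g⁻¹ * ((g * z * g⁻¹) * x) * g := by rw [h1]
        _ = z * (g⁻¹ * x * g⁻¹⁻¹) := by group
    have hE'p : IsPGroup p (E.map (MulAut.conj g⁻¹).toMonoidHom) := (IsPGroup.of_card hEc).map _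
    obtain ⟨c, hc, hcE⟩ := exists_conj_le P hPC hE'p hE'C
    rw [cj_cj] at hcE
    have h1 := hEin _ hcE
    refine ⟨(c * g⁻¹)⁻¹, Subgroup.inv_mem _ h1, ?_⟩
    have h2 : c * z = z * c := Subgroup.mem_centralizer_singleton_iff.1 hc
    have h3 : c⁻¹ * z * c = z := by
      calc c⁻¹ * z * c = c⁻¹ * (z * c) := by group
        _ = c⁻¹ * (c * z) := by rw [h2]
        _ = z := by group
    calc (c * g⁻¹)⁻¹ * z * (c * g⁻¹)⁻¹⁻¹ = g * (c⁻¹ * z * c) * g⁻¹ := by group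
      _ = e := by rw [h3]
  -- step 2: the two transvections
  obtain ⟨u₁, hu₁P, hu₁e⟩ := exists_transvection P Z E hZmem hZc hcomm hEmem hEc hPc e heE heZ z hz
  have hu₁z : u₁ * z * u₁⁻¹ = z := by
    rw [((hZmem z).1 hz).2 u₁ hu₁P]; group
  set z' := g₁⁻¹ * z * g₁ with hz'
  have hz'E : z' ∈ E := by
    have := (Subgroup.mem_normalizer_iff.1 (Subgroup.inv_mem _ hg₁N) z).1 hzE
    rwa [inv_inv] at this
  have hgenZ : Subgroup.zpowers z = Z :=
    Cfsg.Agent.Lib.Helper67PGroup.eq_of_le_of_card_prime hp _ _ (Subgroup.zpowers_le.2 hz) hZc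
      (fun h => hz1 (Subgroup.zpowers_eq_bot.1 h))
  have hz'Z : z' ∉ Z := by
    intro h
    rw [← hgenZ] at h
    obtain ⟨i, hi⟩ := Subgroup.mem_zpowers_iff.1 h
    -- then `z = e ^ i`
    have h1 : z = e ^ i := by
      rw [← hg₁z, conj_zpow, hi, hz']; group
    have h2 : Subgroup.zpowers z ≤ Subgroup.zpowers e := by
      rw [Subgroup.zpowers_le, h1]
      exact Subgroup.zpow_mem _ (Subgroup.mem_zpowers e) i
    have h3 : Nat.card (Subgroup.zpowers e) ≤ Nat.card (Subgroup.zpowers z) := by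
      rw [hgenZ, hZc, Nat.card_zpowers]
      exact Nat.le_of_dvd hp.pos (orderOf_dvd_of_pow_eq_one ((hEmem e).1 heE).2)
    have h4 := Subgroup.eq_of_le_of_card_ge h2 h3
    apply heZ
    rw [← hgenZ, h4]
    exact Subgroup.mem_zpowers e
  obtain ⟨v, hvP, hvz'⟩ := exists_transvection P Z E hZmem hZc hcomm hEmem hEc hPc z' hz'E hz'Z z⁻¹
    (Z.inv_mem hz)
  set r₁ := g₁ * v * g₁⁻¹ with hr₁
  have hr₁z : r₁ * z * r₁⁻¹ = e⁻¹ * z := by
    calc r₁ * z * r₁⁻¹ = g₁ * (v * z' * v⁻¹) * g₁⁻¹ := by rw [hr₁, hz']; group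
      _ = g₁ * (z⁻¹ * z') * g₁⁻¹ := by rw [hvz']
      _ = (g₁ * z * g₁⁻¹)⁻¹ * z := by rw [hz']; group
      _ = e⁻¹ * z := by rw [hg₁z]
  have hr₁e : r₁ * e * r₁⁻¹ = e := by
    have hvz : v * z * v⁻¹ = z := by rw [((hZmem z).1 hz).2 v hvP]; group
    calc r₁ * e * r₁⁻¹ = g₁ * (v * z * v⁻¹) * g₁⁻¹ := by rw [hr₁, ← hg₁z]; group
      _ = e := by rw [hvz, hg₁z]
  -- step 3: an element inverting `E`
  set w := u₁ * r₁ * u₁ with hw
  have hez : e * z = z * e := hEcomm e heE z hzE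
  have hwz : w * z * w⁻¹ = e⁻¹ := by
    calc w * z * w⁻¹ = u₁ * (r₁ * (u₁ * z * u₁⁻¹) * r₁⁻¹) * u₁⁻¹ := by rw [hw]; group
      _ = u₁ * (e⁻¹ * z) * u₁⁻¹ := by rw [hu₁z, hr₁z]
      _ = (u₁ * e * u₁⁻¹)⁻¹ * (u₁ * z * u₁⁻¹) := by group
      _ = e⁻¹ := by rw [hu₁e, hu₁z]; group
  have hwe : w * e * w⁻¹ = z := by
    calc w * e * w⁻¹ = u₁ * (r₁ * (u₁ * e * u₁⁻¹) * r₁⁻¹) * u₁⁻¹ := by rw [hw]; group
      _ = u₁ * ((r₁ * z * r₁⁻¹) * (r₁ * e * r₁⁻¹)) * u₁⁻¹ := by rw [hu₁e]; group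
      _ = u₁ * (e⁻¹ * (z * e)) * u₁⁻¹ := by rw [hr₁z, hr₁e]; group
      _ = u₁ * z * u₁⁻¹ := by rw [← hez]; group
      _ = z := hu₁z
  set n := w * w with hn
  have hnz : n * z * n⁻¹ = z⁻¹ := by
    calc n * z * n⁻¹ = w * (w * z * w⁻¹) * w⁻¹ := by rw [hn]; group
      _ = (w * e * w⁻¹)⁻¹ := by rw [hwz]; group
      _ = z⁻¹ := by rw [hwe]
  have hne : n * e * n⁻¹ = e⁻¹ := by
    calc n * e * n⁻¹ = w * (w * e * w⁻¹) * w⁻¹ := by rw [hn]; group
      _ = e⁻¹ := by rw [hwe, hwz]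
  have hinvpow : ∀ x ∈ E, x⁻¹ = x ^ (p - 1) := by
    intro x hx
    have h1 := ((hEmem x).1 hx).2
    have h2 : x ^ (p - 1) * x = 1 := by
      rw [← pow_succ, Nat.sub_add_cancel hp.pos, h1]
    exact (eq_inv_of_mul_eq_one_left h2).symm
  have hninv : ∀ x ∈ E, n * x * n⁻¹ = x⁻¹ := by
    have hX : eigSub E hEcomm n (p - 1) = E := by
      refine eq_of_lt_of_card (p := p) (A := Z) ?_ ⟨e, ⟨heE, ?_⟩, heZ⟩ (fun x hx => hx.1) 1
        (by rw [hZc, pow_one]) hEc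
      · rw [← hgenZ, Subgroup.zpowers_le]
        exact ⟨hzE, by rw [hnz, hinvpow z hzE]⟩
      · rw [hne, hinvpow e heE]
    intro x hx
    have : x ∈ eigSub E hEcomm n (p - 1) := by rw [hX]; exact hx
    rw [this.2, hinvpow x hx]
  -- step 4: an element of `N(P)` inverting `E`
  have hPE : ∀ x ∈ (P : Subgroup G), ∀ y ∈ E, x * y * x⁻¹ ∈ E := by
    intro x hx y hy
    rw [hEmem]
    refine ⟨Subgroup.mul_mem _ (Subgroup.mul_mem _ hx (hEP hy)) (Subgroup.inv_mem _ hx), ?_⟩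
    rw [conj_pow, ((hEmem y).1 hy).2]; group
  set C := Subgroup.centralizer (E : Set G) with hC
  have hPnC : (P : Subgroup G) ≤ Subgroup.normalizer (C : Set G) := by
    intro x hx
    apply mem_normalizer_of_cj_le
    rintro _ ⟨c, hc, rfl⟩
    show x * c * x⁻¹ ∈ C
    rw [hC, Subgroup.mem_centralizer_iff]
    intro y hy
    have h1 : x⁻¹ * y * x ∈ E := by
      have := hPE x⁻¹ (Subgroup.inv_mem _ hx) y hy
      rwa [inv_inv] at this
    have h2 := Subgroup.mem_centralizer_iff.1 hc _ h1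
    calc y * (x * c * x⁻¹) = x * ((x⁻¹ * y * x) * c) * x⁻¹ := by group
      _ = x * (c * (x⁻¹ * y * x)) * x⁻¹ := by rw [h2]
      _ = x * c * x⁻¹ * y := by group
  have hninv' : ∀ x ∈ E, n⁻¹ * x * n = x⁻¹ := by
    intro x hx
    have h1 := hninv x⁻¹ (E.inv_mem hx)
    rw [inv_inv] at h1
    calc n⁻¹ * x * n = n⁻¹ * (n * x⁻¹ * n⁻¹) * n := by rw [h1]
      _ = x⁻¹ := by group
  have hnP : (P : Subgroup G).map (MulAut.conj n).toMonoidHom ≤ (P : Subgroup G) ⊔ C := by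
    rintro _ ⟨x, hx, rfl⟩
    show n * x * n⁻¹ ∈ _
    have h1 : x⁻¹ * (n * x * n⁻¹) ∈ C := by
      rw [hC, Subgroup.mem_centralizer_iff]
      intro y hy
      have h2 : n * x * n⁻¹ * y * (n * x * n⁻¹)⁻¹ = x * y * x⁻¹ := by
        calc n * x * n⁻¹ * y * (n * x * n⁻¹)⁻¹ = n * (x * (n⁻¹ * y * n) * x⁻¹) * n⁻¹ := by group
          _ = n * (x * y⁻¹ * x⁻¹) * n⁻¹ := by rw [hninv' y hy]
          _ = (x * y⁻¹ * x⁻¹)⁻¹ := hninv _ (hPE x hx _ (E.inv_mem hy))
          _ = x * y * x⁻¹ := by group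
      calc y * (x⁻¹ * (n * x * n⁻¹)) = x⁻¹ * (x * y * x⁻¹) * (n * x * n⁻¹) := by group
        _ = x⁻¹ * (n * x * n⁻¹ * y * (n * x * n⁻¹)⁻¹) * (n * x * n⁻¹) := by rw [h2]
        _ = x⁻¹ * (n * x * n⁻¹) * y := by group
    have h3 : n * x * n⁻¹ = x * (x⁻¹ * (n * x * n⁻¹)) := by group
    rw [h3]
    exact Subgroup.mul_mem _ ((le_sup_left : (P : Subgroup G) ≤ _) hx) ((le_sup_right : C ≤ _) h1)
  obtain ⟨y, hy, hyP⟩ := exists_conj_le P (le_sup_left : (P : Subgroup G) ≤ (P : Subgroup G) ⊔ C)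
    (P.2.map _) hnP
  rw [cj_cj] at hyP
  have hy' : y ∈ (((P : Subgroup G) ⊔ C : Subgroup G) : Set G) := hy
  rw [Subgroup.coe_mul_of_left_le_normalizer_right _ _ hPnC] at hy'
  obtain ⟨x, hx, c, hc, rfl⟩ := hy'
  set t := c * n with ht
  have htP : ∀ q ∈ (P : Subgroup G), t * q * t⁻¹ ∈ (P : Subgroup G) := by
    intro q hq
    have h1 : (x * c * n) * q * (x * c * n)⁻¹ ∈ (P : Subgroup G) := hyP ⟨q, hq, rfl⟩
    have h2 : t * q * t⁻¹ = x⁻¹ * ((x * c * n) * q * (x * c * n)⁻¹) * x := by rw [ht]; group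
    rw [h2]
    exact Subgroup.mul_mem _ (Subgroup.mul_mem _ (Subgroup.inv_mem _ hx) h1) hx
  have htinv : ∀ y ∈ E, t * y * t⁻¹ = y⁻¹ := by
    intro y hy
    have h1 := Subgroup.mem_centralizer_iff.1 hc y⁻¹ (E.inv_mem hy)
    calc t * y * t⁻¹ = c * (n * y * n⁻¹) * c⁻¹ := by rw [ht]; group
      _ = c * y⁻¹ * c⁻¹ := by rw [hninv y hy]
      _ = y⁻¹ := by rw [← h1]; group
  -- step 5: the contradiction
  set v' := t * u₁ * t⁻¹ with hv'
  have hv'P : v' ∈ (P : Subgroup G) := htP u₁ hu₁P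
  have hε : v' * u₁ ∈ E := by
    rw [hEmem]
    refine ⟨Subgroup.mul_mem _ hv'P hu₁P, ?_⟩
    rw [hmul v' hv'P u₁ hu₁P, hv', conj_pow, htinv _ (hZE (hpow u₁ hu₁P))]
    group
  have h1 : v' * e * v'⁻¹ = e * z := by
    have h2 : v' * e⁻¹ * v'⁻¹ = z⁻¹ * e⁻¹ := by
      calc v' * e⁻¹ * v'⁻¹ = t * (u₁ * (t⁻¹ * e⁻¹ * t) * u₁⁻¹) * t⁻¹ := by rw [hv']; group
        _ = t * (u₁ * e * u₁⁻¹) * t⁻¹ := by
            have h3 : t⁻¹ * e⁻¹ * t = e := by
              have := htinv e heE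
              calc t⁻¹ * e⁻¹ * t = t⁻¹ * (t * e * t⁻¹) * t := by rw [this]
                _ = e := by group
            rw [h3]
        _ = (t * z * t⁻¹) * (t * e * t⁻¹) := by rw [hu₁e]; group
        _ = z⁻¹ * e⁻¹ := by rw [htinv z hzE, htinv e heE]
    calc v' * e * v'⁻¹ = (v' * e⁻¹ * v'⁻¹)⁻¹ := by group
      _ = e * z := by rw [h2]; group
  have h2 : u₁⁻¹ * e * u₁ = z⁻¹ * e := by
    have h3 : u₁⁻¹ * z⁻¹ * u₁ = z⁻¹ := by
      calc u₁⁻¹ * z⁻¹ * u₁ = u₁⁻¹ * (u₁ * z * u₁⁻¹)⁻¹ * u₁ := by rw [hu₁z]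
        _ = z⁻¹ := by group
    calc u₁⁻¹ * e * u₁ = u₁⁻¹ * (z⁻¹ * (z * e)) * u₁ := by group
      _ = u₁⁻¹ * (z⁻¹ * (u₁ * e * u₁⁻¹)) * u₁ := by rw [hu₁e]
      _ = (u₁⁻¹ * z⁻¹ * u₁) * e := by group
      _ = z⁻¹ * e := by rw [h3]
  have h3 : v' * e * v'⁻¹ = z⁻¹ * e := by
    have h4 : z⁻¹ * e ∈ E := E.mul_mem (E.inv_mem hzE) heE
    have h5 := hEcomm _ hε _ h4
    calc v' * e * v'⁻¹ = (v' * u₁) * (u₁⁻¹ * e * u₁) * (v' * u₁)⁻¹ := by group
      _ = (v' * u₁) * (z⁻¹ * e) * (v' * u₁)⁻¹ := by rw [h2]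
      _ = z⁻¹ * e := by rw [h5]; group
  have h4 : z * z = 1 := by
    have h5 : e * z = z⁻¹ * e := h1.symm.trans h3
    rw [hez] at h5
    have h6 : z = z⁻¹ := mul_right_cancel h5
    calc z * z = z * z⁻¹ := by rw [← h6]
      _ = 1 := mul_inv_cancel z
  have h5 : orderOf z ∣ 2 := orderOf_dvd_of_pow_eq_one (by rw [pow_two]; exact h4)
  have h6 : orderOf z ∣ p := orderOf_dvd_of_pow_eq_one (hZpow z hz)
  have h7 : orderOf z = 1 := by
    have hcop : Nat.Coprime 2 p := (Nat.coprime_primes Nat.prime_two hp).2 (Ne.symm hp2)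
    exact Nat.eq_one_of_dvd_coprimes hcop h5 h6
  exact hz1 (orderOf_eq_one_iff.1 h7)
end

/-- Let p be an odd prime and G a finite group with a Sylow p-subgroup P that is extraspecial of order p³ and exponent p². Then the centre of P is strongly closed in P with respect to G: a G-conjugate of an element of Z(P) that lies in P already lies in Z(P). In particular a nontrivial central element of P is conjugate in G to no noncentral element of P. -/
theorem result {G : Type*} [Group G] [Finite G]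
    {p : ℕ} [Fact p.Prime] (hp : p ≠ 2) (P : Sylow p G) (hE : Cfsg.IsExtraspecial p ↥P)
    (hcard : Nat.card P = p ^ 3) (hexp : Monoid.exponent ↥P = p ^ 2) :
    Cfsg.IsStronglyClosed ((Subgroup.center ↥P).map (P : Subgroup G).subtype) (P : Subgroup G) := by
  have hpp : p.Prime := Fact.out
  refine ⟨Subgroup.map_subtype_le _, ?_⟩
  refine strongly_closed_aux hp P ((Subgroup.center ↥P).map (P : Subgroup G).subtype)
    ((powHom hp hE).ker.map (P : Subgroup G).subtype) ?_ ?_ ?_ ?_ ?_ ?_ ?_ hcard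
  · intro z
    constructor
    · rintro ⟨y, hy, rfl⟩
      refine ⟨y.2, ?_⟩
      intro x hx
      have := Subgroup.mem_center_iff.1 hy ⟨x, hx⟩
      exact congrArg Subtype.val this
    · rintro ⟨hz, hc⟩
      refine ⟨⟨z, hz⟩, ?_, rfl⟩
      apply Subgroup.mem_center_iff.2
      intro x
      exact Subtype.ext (hc x x.2)
  · rw [Subgroup.card_map_of_injective (Subgroup.subtype_injective _)]
    exact hE.2
  · intro x hx y hy
    exact ⟨⁅(⟨x, hx⟩ : ↥P), ⟨y, hy⟩⁆, comm_mem_center hE _ _, rfl⟩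
  · intro x hx
    exact ⟨(⟨x, hx⟩ : ↥P) ^ p, pow_mem_center hE hcard _, rfl⟩
  · intro x hx y hy
    exact congrArg Subtype.val (mul_pow_p hp hE (⟨x, hx⟩ : ↥P) ⟨y, hy⟩)
  · intro x
    constructor
    · rintro ⟨y, hy, rfl⟩
      refine ⟨y.2, ?_⟩
      have : y ^ p = 1 := hy
      exact congrArg Subtype.val this
    · rintro ⟨hx, hxp⟩
      refine ⟨⟨x, hx⟩, ?_, rfl⟩
      show (⟨x, hx⟩ : ↥P) ^ p = 1
      exact Subtype.ext hxp
  · rw [Subgroup.card_map_of_injective (Subgroup.subtype_injective _)]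
    exact card_ker_powHom hp hE hcard hexp

end Cfsg.Agent.S3053
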