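import Cfsg.Statements.S3054
import Cfsg.Agent.Lib.H41RVRow54

set_option autoImplicit false
open Cfsg

namespace Cfsg.Agent.S3054

/-- Let p be an odd prime and G a finite group with a Sylow p-subgroup P that is extraspecial of order p³ and exponent p. Suppose P contains three distinct subgroups A of order p² (each is elementary abelian of rank 2) such that every automorphism of A of order p is induced by conjugation by an element of G; equivalently the automorphism group induced on A by its normalizer contains the special linear group of A. Then p ≤ 13. -/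
theorem result {G : Type*} [Group G] [Finite G]
    {p : ℕ} [Fact p.Prime] (hp : p ≠ 2) (P : Sylow p G) (hE : Cfsg.IsExtraspecial p ↥P)
    (hcard : Nat.card P = p ^ 3) (hexp : Monoid.exponent ↥P = p)
    (A : Fin 3 → Subgroup G) (hA : Function.Injective A) (hAP : ∀ i, A i ≤ (P : Subgroup G))
    (hAcard : ∀ i, Nat.card ↥(A i) = p ^ 2)
    (hSL : ∀ i, ∀ φ : MulAut ↥(A i), orderOf φ = p → ∃ g : G, ∀ a : ↥(A i), (φ a : G) = g * (a : G) * g⁻¹) :
    p ≤ 13 := by
  have h : Cfsg.Agent.H41RV.ES p ↥(P : Subgroup G) :=
    ⟨hE, hcard, fun x => by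
      have h1 := Monoid.pow_exponent_eq_one x
      have hexp' : Monoid.exponent ↥(P : Subgroup G) = p := hexp
      rwa [hexp'] at h1⟩
  exact Cfsg.Agent.H41RV.row54 hp P h A hA hAP hAcard hSL

end Cfsg.Agent.S3054
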