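import Cfsg.Statements.S3057
import Mathlib
import Cfsg.Agent.Lib.Helper57Chain
import Cfsg.Agent.Lib.Helper57Coprime
import Cfsg.Agent.Lib.Helper60Core
import Cfsg.Agent.S0016

set_option autoImplicit false
open Cfsg

namespace Cfsg.Agent.S3057

open Subgroup
open scoped Pointwise
open Cfsg.Agent.Lib.Helper57SPE Cfsg.Agent.Lib.Helper57Chain Cfsg.Agent.Lib.Helper57Coprime

/-- all elements of order `p` lie in one cyclic subgroup -/
def U {G : Type*} [Group G] (p : ℕ) (Q : Subgroup G) : Prop :=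
  ∀ x ∈ Q, ∀ y ∈ Q, orderOf x = p → orderOf y = p → y ∈ zpowers x

theorem mem_zpowers_of_isCyclic {C : Type*} [Group C] [Finite C] [IsCyclic C] {p : ℕ} (hp : 0 < p)
    {x y : C} (hx : orderOf x = p) (hy : orderOf y = p) : y ∈ zpowers x := by
  classical
  have := Fintype.ofFinite C
  have h1 := IsCyclic.card_pow_eq_one_le (α := C) hp
  have hsub : (Finset.univ.filter (fun a : C => a ∈ zpowers x)) ⊆
      Finset.univ.filter (fun a : C => a ^ p = 1) := by
    intro a ha
    simp only [Finset.mem_filter, Finset.mem_univ, true_and] at ha ⊢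
    obtain ⟨k, rfl⟩ := ha
    rw [← zpow_natCast, ← zpow_mul, mul_comm, zpow_mul, zpow_natCast, ← hx, pow_orderOf_eq_one, one_zpow]
  have hcard : (Finset.univ.filter (fun a : C => a ∈ zpowers x)).card = p := by
    rw [← hx, ← Nat.card_zpowers, Nat.card_eq_fintype_card, Fintype.card_subtype]
  have heq := Finset.eq_of_subset_of_card_le hsub (by rw [hcard]; exact h1)
  have : y ∈ Finset.univ.filter (fun a : C => a ^ p = 1) := by
    simp only [Finset.mem_filter, Finset.mem_univ, true_and]
    rw [← hy, pow_orderOf_eq_one]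
  rw [← heq] at this
  simpa using this

theorem U_of_isCyclic {G : Type*} [Group G] [Finite G] {p : ℕ} (hp : 0 < p) {Q : Subgroup G}
    (h : IsCyclic Q) : U p Q := by
  intro x hx y hy hxo hyo
  have := mem_zpowers_of_isCyclic (C := Q) hp (x := ⟨x, hx⟩) (y := ⟨y, hy⟩)
    (by rw [Subgroup.orderOf_mk, hxo]) (by rw [Subgroup.orderOf_mk, hyo])
  obtain ⟨k, hk⟩ := this
  exact ⟨k, by simpa using congrArg Subtype.val hk⟩

theorem quat_invol {m : ℕ} [NeZero m] (q : QuaternionGroup m) (h : orderOf q = 2) :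
    q = QuaternionGroup.a m := by
  cases q with
  | a i =>
    have h2 : (QuaternionGroup.a i : QuaternionGroup m) ^ 2 = 1 := by rw [← h, pow_orderOf_eq_one]
    have h1 : (QuaternionGroup.a i : QuaternionGroup m) ≠ 1 := by
      intro h1
      rw [h1, orderOf_one] at h
      omega
    rw [sq, QuaternionGroup.a_mul_a, QuaternionGroup.one_def] at h2
    rw [QuaternionGroup.one_def] at h1
    have h2' : i + i = 0 := QuaternionGroup.a.inj h2
    have h1' : i ≠ 0 := fun h0 => h1 (by rw [h0])
    congr 1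
    have hm : 0 < m := Nat.pos_of_ne_zero (NeZero.ne m)
    have : NeZero (2 * m) := ⟨by omega⟩
    have hv : i.val < 2 * m := ZMod.val_lt i
    have hi : ((i.val + i.val : ℕ) : ZMod (2 * m)) = 0 := by
      push_cast
      rw [ZMod.natCast_zmod_val, h2']
    rw [ZMod.natCast_eq_zero_iff] at hi
    have hv0 : i.val ≠ 0 := fun h0 => h1' ((ZMod.val_eq_zero i).mp h0)
    obtain ⟨c, hc⟩ := hi
    have hc1 : c = 1 := by
      have : c < 2 := by
        by_contra hcon
        have : 2 * m * 2 ≤ 2 * m * c := Nat.mul_le_mul_left _ (by omega)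
        omega
      have : c ≠ 0 := by rintro rfl; omega
      omega
    subst hc1
    have : i.val = m := by omega
    calc i = ((i.val : ℕ) : ZMod (2 * m)) := (ZMod.natCast_zmod_val i).symm
      _ = (m : ZMod (2 * m)) := by rw [this]
  | xa i =>
    rw [QuaternionGroup.orderOf_xa] at h
    omega

theorem U_of_quaternion {G : Type*} [Group G] {Q : Subgroup G} {n : ℕ}
    (e : Q ≃* QuaternionGroup (2 ^ n)) : U 2 Q := by
  intro x hx y hy hxo hyo
  have : NeZero (2 ^ n) := ⟨by positivity⟩
  have h1 := quat_invol (e ⟨x, hx⟩) (by rw [MulEquiv.orderOf_eq, Subgroup.orderOf_mk, hxo])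
  have h2 := quat_invol (e ⟨y, hy⟩) (by rw [MulEquiv.orderOf_eq, Subgroup.orderOf_mk, hyo])
  have : (⟨x, hx⟩ : Q) = ⟨y, hy⟩ := e.injective (h1.trans h2.symm)
  have : x = y := congrArg Subtype.val this
  rw [this]; exact mem_zpowers y


theorem orderOf_conj' {G : Type*} [Group G] (g x : G) : orderOf (g⁻¹ * x * g) = orderOf x := by
  have e : g⁻¹ * x * g = MulAut.conj g⁻¹ x := by simp
  rw [e, MulEquiv.orderOf_eq]

theorem U_smul {G : Type*} [Group G] {p : ℕ} {P : Sylow p G} (h : U p (P : Subgroup G)) (g : G) :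
    U p ((g • P : Sylow p G) : Subgroup G) := by
  intro x hx y hy hxo hyo
  have hx' : g⁻¹ * x * g ∈ P := mem_smul_sylow.mp hx
  have hy' : g⁻¹ * y * g ∈ P := mem_smul_sylow.mp hy
  obtain ⟨k, hk⟩ := h _ hx' _ hy' (by rw [orderOf_conj', hxo]) (by rw [orderOf_conj', hyo])
  refine ⟨k, ?_⟩
  have e : ∀ w : G, g⁻¹ * w * g = MulAut.conj g⁻¹ w := by intro w; simp
  simp only [e] at hk
  rw [← map_zpow] at hk
  exact (MulAut.conj g⁻¹).injective hk

theorem spe_of_U {G : Type*} [Group G] [Finite G] {p : ℕ} [Fact p.Prime] (hdiv : p ∣ Nat.card G)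
    (P : Sylow p G) (hU : U p (P : Subgroup G)) (hO : Cfsg.pCore p G = ⊥) :
    ∃ H : Subgroup G, SPE p H := by
  have hp : p.Prime := Fact.out
  obtain ⟨z, hzP, hzo⟩ := exists_orderOf_eq P.isPGroup' (P.ne_bot_of_dvd_card hdiv)
  have hUall : ∀ Q : Sylow p G, U p (Q : Subgroup G) := by
    intro Q
    obtain ⟨g, rfl⟩ := MulAction.exists_smul_eq G P Q
    exact U_smul hU g
  have key : ∀ x ∈ normalizer (zpowers z : Set G), orderOf x = p → x ∈ zpowers z := by
    intro x hxN hxo
    have hpg : IsPGroup p (zpowers x ⊔ zpowers z : Subgroup G) :=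
      IsPGroup.to_sup_of_normal_right' (isPGroup_zpowers hxo) (isPGroup_zpowers hzo)
        (zpowers_le.mpr hxN)
    obtain ⟨Q, hQ⟩ := hpg.exists_le_sylow
    exact hUall Q z (hQ (le_sup_right (a := zpowers x) (mem_zpowers z))) x
      (hQ (le_sup_left (b := zpowers z) (mem_zpowers x))) hzo hxo
  have hz1 : z ≠ 1 := by
    rintro rfl
    rw [orderOf_one] at hzo
    exact hp.one_lt.ne hzo
  refine ⟨normalizer (zpowers z : Set G), ?_, ?_, ?_⟩
  · intro htop
    have hn : (zpowers z).Normal := normalizer_eq_top_iff.mp htop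
    have := Cfsg.Agent.Lib.Helper60Core.le_pCore hn (isPGroup_zpowers hzo)
    rw [hO] at this
    exact hz1 ((Subgroup.mem_bot).mp (this (mem_zpowers z)))
  · have h1 : zpowers z ≤ normalizer (zpowers z : Set G) := le_normalizer
    have := Subgroup.card_dvd_of_le h1
    rwa [Nat.card_zpowers, hzo] at this
  · intro g hg hd
    apply hg
    obtain ⟨x, hx, hxo⟩ := exists_orderOf_eq_of_dvd hd
    obtain ⟨hx1, w, hw, hwx⟩ := Subgroup.mem_inf.mp hx
    have hwx' : g * w * g⁻¹ = x := hwx
    have hwo : orderOf w = p := by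
      rw [← hxo, ← hwx]
      exact (MulEquiv.orderOf_eq (MulAut.conj g) w).symm
    have hxZ := key x hx1 hxo
    have hwZ := key w hw hwo
    have hZw : zpowers z = zpowers w := by
      symm
      apply Subgroup.eq_of_le_of_card_ge (zpowers_le.mpr hwZ)
      rw [Nat.card_zpowers, Nat.card_zpowers, hzo, hwo]
    apply mem_normalizer_fintype
    intro n hn
    have hn' : n ∈ zpowers z := hn
    rw [hZw] at hn'
    obtain ⟨k, rfl⟩ := hn'
    show g * w ^ k * g⁻¹ ∈ zpowers z
    rw [← conj_zpow, hwx']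
    exact zpow_mem hxZ k

theorem step {G : Type*} [Group G] [Finite G] {p : ℕ} [Fact p.Prime] {H : Subgroup G} (h : SPE p H)
    (hK : ∀ K : Subgroup G, K.Normal → (Nat.card K).Coprime p → K ≤ H)
    (hnd : ∀ N : Subgroup G, N.Normal → N ≤ H → (Nat.card N).Coprime p)
    {N M : Subgroup G} (hN : N.Normal) (hM : M.Normal) (hle : N ≤ M) (hNH : N ≤ H)
    (hfac : (∃ m : ℕ, N.relIndex M = p ^ m) ∨ (N.relIndex M).Coprime p) : M ≤ H := by
  have hp : p.Prime := Fact.out
  by_cases hd : p ∣ Nat.card M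
  · rcases hfac with ⟨m, hm⟩ | hc
    · obtain ⟨P, hPH, _⟩ := h.sup_normal_eq_top M hd
      rw [← Subgroup.relIndex_eq_one]
      have d1 : H.relIndex M ∣ p ^ m := hm ▸ Subgroup.relIndex_dvd_of_le_left M hNH
      have d2 : H.relIndex M ∣ (P : Subgroup M).index := by
        have h1 := Subgroup.relIndex_dvd_of_le_left M hPH
        have h2 : ((P : Subgroup M).map M.subtype).relIndex M = (P : Subgroup M).index := by
          rw [Subgroup.relIndex, ← Subgroup.comap_subtype,
            Subgroup.comap_map_eq_self_of_injective M.subtype_injective]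
        rwa [h2] at h1
      have c : ((P : Subgroup M).index).Coprime (p ^ m) :=
        Nat.Coprime.pow_right m ((Nat.Prime.coprime_iff_not_dvd hp).mpr P.not_dvd_index).symm
      exact Nat.eq_one_of_dvd_coprimes c d2 d1
    · exfalso
      have h1 : Nat.card M = Nat.card N * N.relIndex M := (Cfsg.Agent.Lib.Helper60Core.card_mul_relIndex hle).symm
      have h2 := hnd N hN hNH
      rw [h1] at hd
      rcases (Nat.Prime.dvd_mul hp).mp hd with h3 | h3
      · exact hp.one_lt.ne' (Nat.Coprime.eq_one_of_dvd h2.symm h3)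
      · exact hp.one_lt.ne' (Nat.Coprime.eq_one_of_dvd hc.symm h3)
  · exact hK M hM ((Nat.Prime.coprime_iff_not_dvd hp).mpr hd).symm

theorem false_of_rank_two {G : Type*} [Group G] [Finite G] {p : ℕ} [Fact p.Prime]
    (hsol : Cfsg.IsPSolvable p G) {H : Subgroup G} (h : SPE p H) {x y : G} (hxH : x ∈ H) (hyH : y ∈ H)
    (hxy : Commute x y) (hxo : orderOf x = p) (hyo : orderOf y = p) (hy : y ∉ zpowers x) : False := by
  have hp : p.Prime := Fact.out
  have hxp : x ^ p = 1 := by rw [← hxo]; exact pow_orderOf_eq_one x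
  have hyp : y ^ p = 1 := by rw [← hyo]; exact pow_orderOf_eq_one y
  have hT : ∀ t, IsT p x y t → t ∈ H ∧ orderOf t = p := by
    intro t ht
    have htp := ht.pow_eq_one hxy hxp hyp
    rcases ht with ⟨i, h0, hi, rfl⟩ | ⟨j, hj, rfl⟩
    · refine ⟨pow_mem hxH i, orderOf_eq_prime htp ?_⟩
      intro h1
      have := orderOf_dvd_of_pow_eq_one h1
      rw [hxo] at this
      exact absurd (Nat.le_of_dvd h0 this) (by omega)
    · refine ⟨mul_mem (pow_mem hxH j) hyH, orderOf_eq_prime htp ?_⟩
      intro h1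
      have hy1 : y = (x ^ j)⁻¹ := eq_inv_of_mul_eq_one_right h1
      apply hy
      rw [hy1]; exact inv_mem (pow_mem (mem_zpowers x) j)
  have hK : ∀ K : Subgroup G, K.Normal → (Nat.card K).Coprime p → K ≤ H := by
    intro K hKn hcop
    refine coprime_gen K hcop x y hxy hxp hyp H (fun t ht g _ hgt => ?_)
    exact h.mem_of_commute (hT t ht).1 (hT t ht).2 hgt
  have hnd : ∀ N : Subgroup G, N.Normal → N ≤ H → (Nat.card N).Coprime p := by
    intro N hN hNH
    by_contra hcon
    have hd : p ∣ Nat.card N := by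
      by_contra hnd
      exact hcon ((Nat.Prime.coprime_iff_not_dvd hp).mpr hnd).symm
    obtain ⟨g, hg⟩ : ∃ g : G, g ∉ H := by
      by_contra hall
      push Not at hall
      exact h.1 (eq_top_iff.mpr fun g _ => hall g)
    apply h.2.2 g hg
    refine hd.trans (Subgroup.card_dvd_of_le ?_)
    intro n hn
    refine Subgroup.mem_inf.mpr ⟨hNH hn, ⟨g⁻¹ * n * g, hNH ?_, ?_⟩⟩
    · have := hN.conj_mem n hn g⁻¹
      rwa [inv_inv] at this
    · simp [MulAut.conj_apply, mul_assoc]
  obtain ⟨n, Hc, h0, hn, hmono, hnorm, hfac⟩ := hsol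
  have hall : ∀ k : ℕ, ∀ hk : k < n + 1, Hc ⟨k, hk⟩ ≤ H := by
    intro k
    induction k with
    | zero =>
      intro hk
      have : Hc ⟨0, hk⟩ = ⊥ := h0
      rw [this]; exact bot_le
    | succ k ih =>
      intro hk
      have hk' : k < n := by omega
      have h1 : Hc (Fin.castSucc ⟨k, hk'⟩) ≤ H := ih (by omega)
      have h2 := hfac ⟨k, hk'⟩
      have h3 : (Fin.succ ⟨k, hk'⟩ : Fin (n + 1)) = ⟨k + 1, hk⟩ := rfl
      rw [h3] at h2
      have hle : Hc (Fin.castSucc ⟨k, hk'⟩) ≤ Hc ⟨k + 1, hk⟩ := by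
        apply hmono
        rw [← h3]
        exact Fin.castSucc_le_succ _
      exact step h hK hnd (hnorm _) (hnorm _) hle h1 h2
  have : Hc (Fin.last n) ≤ H := hall n (by omega)
  rw [hn] at this
  exact h.1 (top_le_iff.mp this)


/-- a `p`-group with two subgroups of order `p` contains a rank two configuration. -/
theorem exists_rank_two {Q : Type*} [Group Q] [Finite Q] {p : ℕ} [Fact p.Prime] (hQ : IsPGroup p Q)
    {A B : Subgroup Q} (hA : Nat.card A = p) (hB : Nat.card B = p) (hAB : A ≠ B) :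
    ∃ x y : Q, Commute x y ∧ orderOf x = p ∧ orderOf y = p ∧ y ∉ zpowers x := by
  have hp : p.Prime := Fact.out
  have hnt : Nontrivial Q := by
    by_contra hcon
    rw [not_nontrivial_iff_subsingleton] at hcon
    exact hAB (Subsingleton.elim _ _)
  have hc : Nontrivial (center Q) := hQ.center_nontrivial
  have hcne : center Q ≠ ⊥ := (Subgroup.nontrivial_iff_ne_bot _).mp hc
  obtain ⟨z, hz, hzo⟩ := exists_orderOf_eq (hQ.to_subgroup (center Q)) hcne
  have main : ∀ C : Subgroup Q, Nat.card C = p → C ≠ zpowers z →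
      ∃ x y : Q, Commute x y ∧ orderOf x = p ∧ orderOf y = p ∧ y ∉ zpowers x := by
    intro C hC hne
    obtain ⟨a, haC, hao⟩ := exists_orderOf_eq_of_dvd (K := C) (by rw [hC])
    refine ⟨z, a, ?_, hzo, hao, ?_⟩
    · exact ((Subgroup.mem_center_iff.mp hz) a).symm
    · intro haz
      apply hne
      have h1 : zpowers a = C :=
        Subgroup.eq_of_le_of_card_ge (zpowers_le.mpr haC) (by rw [Nat.card_zpowers, hao, hC])
      have h2 : zpowers a = zpowers z :=
        Subgroup.eq_of_le_of_card_ge (zpowers_le.mpr haz)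
          (by rw [Nat.card_zpowers, Nat.card_zpowers, hao, hzo])
      rw [← h1, h2]
  by_cases hAz : A = zpowers z
  · exact main B hB (fun h => hAB (hAz.trans h.symm))
  · exact main A hA hAz

universe u

theorem main {G : Type u} [Group G] [Finite G]
    (h16 : ∀ (Q : Type u) [Group Q] [Finite Q] (p : ℕ) [Fact p.Prime], IsPGroup p Q →
      (∀ H K : Subgroup Q, Nat.card H = p → Nat.card K = p → H = K) →
      IsCyclic Q ∨ (p = 2 ∧ ∃ n : ℕ, Nonempty (Q ≃* QuaternionGroup (2 ^ n))))
    (p : ℕ) [Fact p.Prime] (hdiv : p ∣ Nat.card G) (hsol : Cfsg.IsPSolvable p G) (P : Sylow p G) :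
    ¬ Cfsg.IsSylowChainConnected p G ↔
      Cfsg.pCore p G = ⊥ ∧ (IsCyclic ↥P ∨ (p = 2 ∧ ∃ n : ℕ, Nonempty (↥P ≃* QuaternionGroup (2 ^ n)))) := by
  have hp : p.Prime := Fact.out
  rw [not_chainConnected_iff]
  constructor
  · rintro ⟨H, h⟩
    obtain ⟨S, hS⟩ := h.exists_sylow_le
    constructor
    · by_contra hne
      obtain ⟨x, hx, hxo⟩ := exists_orderOf_eq (Cfsg.Agent.Lib.Helper60Core.pCore_isPGroup p) hne
      have hle : Cfsg.pCore p G ≤ H :=
        ((Cfsg.Agent.Lib.Helper60Core.pCore_isPGroup p).le_sylow_of_normal S).trans hS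
      apply h.1
      rw [eq_top_iff]
      intro g _
      refine h.mem_of_conj (hle hx) hxo (hle ?_)
      have := (Cfsg.pCore_normal p G).conj_mem x hx g⁻¹
      rwa [inv_inv] at this
    · have hS16 : IsCyclic ↥S ∨ (p = 2 ∧ ∃ n : ℕ, Nonempty (↥S ≃* QuaternionGroup (2 ^ n))) := by
        apply h16 (↥S) p S.isPGroup'
        intro A B hA hB
        by_contra hAB
        obtain ⟨x, y, hxy, hxo, hyo, hy⟩ := exists_rank_two S.isPGroup' hA hB hAB
        refine false_of_rank_two hsol h (hS x.2) (hS y.2) ?_ (by rw [Subgroup.orderOf_coe, hxo])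
          (by rw [Subgroup.orderOf_coe, hyo]) ?_
        · exact congrArg Subtype.val hxy
        · rintro ⟨k, hk⟩
          exact hy ⟨k, Subtype.ext (by simpa using hk)⟩
      rcases hS16 with hc | ⟨h2, n, ⟨e⟩⟩
      · left
        exact isCyclic_of_surjective (Sylow.equiv S P) (Sylow.equiv S P).surjective
      · right
        exact ⟨h2, n, ⟨(Sylow.equiv P S).trans e⟩⟩
  · rintro ⟨hO, hc | ⟨rfl, n, ⟨e⟩⟩⟩
    · exact spe_of_U hdiv P (U_of_isCyclic hp.pos hc) hO
    · exact spe_of_U hdiv P (U_of_quaternion e) hO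


/-- Let p be a prime and G a finite p-solvable group of order divisible by p, with Sylow p-subgroup P. Then the Sylow p-subgroups of G fail to be chain-connected through nontrivial intersections (equivalently, G has a strongly p-embedded subgroup) if and only if O_p(G) = 1 and P is cyclic or, for p = 2, generalized quaternion. -/
theorem result {G : Type*} [Group G] [Finite G]
    (p : ℕ) [Fact p.Prime] (hdiv : p ∣ Nat.card G) (hsol : Cfsg.IsPSolvable p G) (P : Sylow p G) :
    ¬ Cfsg.IsSylowChainConnected p G ↔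
      Cfsg.pCore p G = ⊥ ∧ (IsCyclic ↥P ∨ (p = 2 ∧ ∃ n : ℕ, Nonempty (↥P ≃* QuaternionGroup (2 ^ n)))) := by
  exact main (fun Q _ _ p _ hQ hu => Cfsg.Agent.S0016.result p hQ hu) p hdiv hsol P

end Cfsg.Agent.S3057
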