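import Cfsg.Statements.S3058
import Mathlib
import Cfsg.Agent.Lib.Helper57Chain
import Cfsg.Agent.Lib.Helper57Coprime

set_option autoImplicit false
open Cfsg

namespace Cfsg.Agent.S3058

open Subgroup
open scoped commutatorElement
open Cfsg.Agent.Lib.Helper57SPE Cfsg.Agent.Lib.Helper57Chain Cfsg.Agent.Lib.Helper57Coprime

/-- Let p be a prime and G a finite group whose Sylow p-subgroups are not chain-connected through nontrivial intersections (so G has a strongly p-embedded subgroup). If N and M are normal subgroups of G whose orders are both divisible by p, then the order of N ∩ M is divisible by p. Consequently, among the normal subgroups of G whose order is divisible by p there is a smallest one (the intersection of all of them). -/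
theorem result {G : Type*} [Group G] [Finite G]
    (p : ℕ) [Fact p.Prime] (hG : ¬ Cfsg.IsSylowChainConnected p G)
    (N M : Subgroup G) [N.Normal] [M.Normal] (hN : p ∣ Nat.card N) (hM : p ∣ Nat.card M) :
    p ∣ Nat.card ↥(N ⊓ M) := by
  have hp : p.Prime := Fact.out
  obtain ⟨H, h⟩ := not_chainConnected_iff.mp hG
  by_contra hnd
  have hcop : (Nat.card ↥(N ⊓ M)).Coprime p := ((Nat.Prime.coprime_iff_not_dvd hp).mpr hnd).symm
  obtain ⟨S, hS⟩ := h.exists_sylow_le
  have hNn : N.Normal := inferInstance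
  have hMn : M.Normal := inferInstance
  -- elements of order p in S ⊓ N' for normal N'
  have hex : ∀ N' : Subgroup G, N'.Normal → p ∣ Nat.card N' → ∃ x ∈ N', x ∈ S ∧ orderOf x = p := by
    intro N' hN' hd
    obtain ⟨x0, hx0, ho⟩ := exists_orderOf_eq_of_dvd hd
    obtain ⟨Q, hQ⟩ := (isPGroup_zpowers ho).exists_le_sylow
    obtain ⟨g, hg⟩ := MulAction.exists_smul_eq G S Q
    have h1 : x0 ∈ (g • S : Sylow p G) := by rw [hg]; exact hQ (mem_zpowers x0)
    refine ⟨g⁻¹ * x0 * g, ?_, mem_smul_sylow.mp h1, ?_⟩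
    · have := hN'.conj_mem x0 hx0 g⁻¹
      rwa [inv_inv] at this
    · have e : g⁻¹ * x0 * g = MulAut.conj g⁻¹ x0 := by simp
      rw [e, MulEquiv.orderOf_eq, ho]
  obtain ⟨x, hxN, hxS, hxo⟩ := hex N hNn hN
  obtain ⟨y, hyM, hyS, hyo⟩ := hex M hMn hM
  -- a p-element of N ⊓ M is trivial
  have htriv : ∀ z ∈ N ⊓ M, z ∈ S → z = 1 := by
    intro z hz hzS
    obtain ⟨k, hk⟩ := (IsPGroup.iff_orderOf.mp S.isPGroup') ⟨z, hzS⟩
    rw [Subgroup.orderOf_mk] at hk
    have h1 : orderOf z ∣ Nat.card ↥(N ⊓ M) := by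
      have := orderOf_dvd_natCard (⟨z, hz⟩ : ↥(N ⊓ M))
      rwa [Subgroup.orderOf_mk] at this
    have h2 : (orderOf z).Coprime (p ^ k) := Nat.Coprime.pow_right k (Nat.Coprime.coprime_dvd_left h1 hcop)
    rw [← hk] at h2
    exact orderOf_eq_one_iff.mp ((Nat.coprime_self _).mp h2)
  have hcomm_mem : ∀ a ∈ N, ∀ b ∈ M, ⁅a, b⁆ ∈ N ⊓ M := by
    intro a ha b hb
    refine Subgroup.mem_inf.mpr ⟨?_, ?_⟩
    · have e : ⁅a, b⁆ = a * (b * a⁻¹ * b⁻¹) := by simp only [commutatorElement_def]; group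
      rw [e]; exact mul_mem ha (hNn.conj_mem _ (inv_mem ha) b)
    · have e : ⁅a, b⁆ = (a * b * a⁻¹) * b⁻¹ := by simp only [commutatorElement_def]
      rw [e]; exact mul_mem (hMn.conj_mem _ hb a) (inv_mem hb)
  have hxy : Commute x y := by
    refine commutatorElement_eq_one_iff_commute.mp (htriv _ (hcomm_mem x hxN y hyM) ?_)
    have hxS' : x ∈ (S : Subgroup G) := hxS
    have hyS' : y ∈ (S : Subgroup G) := hyS
    show x * y * x⁻¹ * y⁻¹ ∈ (S : Subgroup G)
    exact mul_mem (mul_mem (mul_mem hxS' hyS') (inv_mem hxS')) (inv_mem hyS')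
  have hxp : x ^ p = 1 := by rw [← hxo]; exact pow_orderOf_eq_one x
  have hyp : y ^ p = 1 := by rw [← hyo]; exact pow_orderOf_eq_one y
  have hT : ∀ t, IsT p x y t → t ∈ H ∧ orderOf t = p := by
    intro t ht
    have htp := ht.pow_eq_one hxy hxp hyp
    rcases ht with ⟨i, h0, hi, rfl⟩ | ⟨j, hj, rfl⟩
    · refine ⟨hS (pow_mem hxS i), orderOf_eq_prime htp ?_⟩
      intro h1
      have := orderOf_dvd_of_pow_eq_one h1
      rw [hxo] at this
      exact absurd (Nat.le_of_dvd h0 this) (by omega)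
    · refine ⟨hS (mul_mem (pow_mem hxS j) hyS), orderOf_eq_prime htp ?_⟩
      intro h1
      have hy1 : y = (x ^ j)⁻¹ := eq_inv_of_mul_eq_one_right h1
      have hyN : y ∈ N := by rw [hy1]; exact inv_mem (pow_mem hxN j)
      have := htriv y ⟨hyN, hyM⟩ hyS
      rw [this, orderOf_one] at hyo
      exact hp.one_lt.ne hyo
  have hKH : N ⊓ M ≤ H := by
    refine coprime_gen (N ⊓ M) hcop x y hxy hxp hyp H (fun t ht g _ hgt => ?_)
    exact h.mem_of_commute (hT t ht).1 (hT t ht).2 hgt
  have hNH : N ≤ H := by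
    intro n hn
    have hyH : y ∈ H := hS hyS
    have h1 : n * y * n⁻¹ ∈ H := by
      have e : n * y * n⁻¹ = ⁅n, y⁆ * y := by simp [commutatorElement_def]
      rw [e]; exact mul_mem (hKH (hcomm_mem n hn y hyM)) hyH
    have ho : orderOf (n * y * n⁻¹) = p := by
      have e : n * y * n⁻¹ = MulAut.conj n y := rfl
      rw [e, MulEquiv.orderOf_eq, hyo]
    refine h.mem_of_conj h1 ho ?_
    have e : n⁻¹ * (n * y * n⁻¹) * n = y := by group
    rw [e]; exact hyH
  obtain ⟨_, _, htop⟩ := h.sup_normal_eq_top N hN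
  exact h.1 (by rw [← htop]; exact (sup_eq_left.mpr hNH).symm)

end Cfsg.Agent.S3058
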