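import Cfsg.Statements.S3059
import Mathlib
import Cfsg.Agent.Lib.Helper57SPE

set_option autoImplicit false
open Cfsg

namespace Cfsg.Agent.S3059

open Subgroup
open Cfsg.Agent.Lib.Helper57SPE

/-- Let p be a prime and H a strongly p-embedded subgroup of the finite group G in the classical sense: H is proper, p divides the order of H, and H ∩ gHg⁻¹ has order prime to p for every g outside H. Then for every normal subgroup N of G of order divisible by p, G = H · O^p(N), where O^p(N) is the subgroup generated by the elements of N of order prime to p. -/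
theorem result {G : Type*} [Group G] [Finite G]
    (p : ℕ) [Fact p.Prime] (H : Subgroup G) (hH : H ≠ ⊤) (hpH : p ∣ Nat.card H)
    (hse : ∀ g : G, g ∉ H → ¬ p ∣ Nat.card ↥(H ⊓ H.map (MulAut.conj g).toMonoidHom))
    (N : Subgroup G) [N.Normal] (hN : p ∣ Nat.card N) :
    H ⊔ Subgroup.closure {g : G | g ∈ N ∧ (orderOf g).Coprime p} = ⊤ := by
  have h : SPE p H := ⟨hH, hpH, hse⟩
  obtain ⟨P, hPH, htop⟩ := h.sup_normal_eq_top N hN
  suffices hNL : N ≤ H ⊔ closure {g : G | g ∈ N ∧ (orderOf g).Coprime p} from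
    top_le_iff.mp (htop ▸ sup_le le_sup_left hNL)
  have hmap : (closure {g : N | (orderOf g).Coprime p}).map N.subtype ≤
      closure {g : G | g ∈ N ∧ (orderOf g).Coprime p} := by
    rw [MonoidHom.map_closure]
    refine closure_mono ?_
    rintro _ ⟨g, hg, rfl⟩
    refine ⟨g.2, ?_⟩
    have hg' : (orderOf g).Coprime p := hg
    rwa [← Subgroup.orderOf_coe] at hg'
  intro n hn
  obtain ⟨q, hq, hqn⟩ := exists_mul_of_sylow P ⟨n, hn⟩
  have e : n = (q : G) * ((q : G)⁻¹ * n) := by group
  rw [e]
  exact mul_mem (le_sup_left (b := closure {g : G | g ∈ N ∧ (orderOf g).Coprime p}) (hPH ⟨q, hq, rfl⟩))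
    (le_sup_right (a := H) (hmap ⟨_, hqn, rfl⟩))

end Cfsg.Agent.S3059
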