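import Cfsg.Statements.S3060
import Mathlib
import Cfsg.Agent.Lib.Helper57DStar

set_option autoImplicit false
open Cfsg

namespace Cfsg.Agent.S3060


open Subgroup
open scoped commutatorElement
open Cfsg.Agent.Lib.Helper57DStar

section aux
variable {G : Type*} [Group G]

theorem pCore_isPGroup (p : ℕ) (G : Type*) [Group G] : IsPGroup p (Cfsg.pCore p G) :=
  Sylow.sSup_of_normal _ (fun _ h => h.2) (fun _ h => h.1)

theorem pCore_le_sylow {p : ℕ} (P : Sylow p G) : Cfsg.pCore p G ≤ P :=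
  (pCore_isPGroup p G).le_sylow_of_normal P

theorem le_pCore {p : ℕ} {N : Subgroup G} (hn : N.Normal) (h : IsPGroup p N) : N ≤ Cfsg.pCore p G :=
  le_sSup ⟨hn, h⟩

theorem mem_pCore_of_mk_mem {p : ℕ} (N : Subgroup G) [N.Normal] (hN : IsPGroup p N) (g : G)
    (hg : (QuotientGroup.mk g : G ⧸ N) ∈ Cfsg.pCore p (G ⧸ N)) : g ∈ Cfsg.pCore p G := by
  have h1 : ((Cfsg.pCore p (G ⧸ N)).comap (QuotientGroup.mk' N)).Normal := Subgroup.Normal.comap inferInstance _
  have h2 : IsPGroup p ((Cfsg.pCore p (G ⧸ N)).comap (QuotientGroup.mk' N)) :=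
    (pCore_isPGroup p (G ⧸ N)).comap_of_ker_isPGroup (QuotientGroup.mk' N)
      (by rw [QuotientGroup.ker_mk']; exact hN)
  exact le_pCore h1 h2 hg

theorem map_sup_zpowers (P : Subgroup G) (A : Subgroup P) (x : P) :
    (A ⊔ zpowers x).map P.subtype = A.map P.subtype ⊔ zpowers (x : G) := by
  rw [Subgroup.map_sup, MonoidHom.map_zpowers]; rfl

theorem class_two_iff (P : Subgroup G) (H : Subgroup P) :
    ⁅⁅H, H⁆, H⁆ = ⊥ ↔ ⁅⁅H.map P.subtype, H.map P.subtype⁆, H.map P.subtype⁆ = ⊥ := by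
  rw [← map_commutator, ← map_commutator, map_eq_bot_iff_of_injective _ P.subtype_injective]

theorem family_map {S : Type*} [Group S] (φ : S ≃* S) {A : Subgroup S} (hA : A ∈ Cfsg.dStarFamily S) :
    A.map φ.toMonoidHom ∈ Cfsg.dStarFamily S := by
  haveI := hA.1
  refine ⟨inferInstance, fun x hx a ha => ?_⟩
  obtain ⟨a0, ha0, rfl⟩ := ha
  have e : A.map φ.toMonoidHom ⊔ zpowers x = (A ⊔ zpowers (φ.symm x)).map φ.toMonoidHom := by
    rw [Subgroup.map_sup, MonoidHom.map_zpowers]; simp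
  rw [e, ← map_commutator, ← map_commutator, map_eq_bot_iff_of_injective _ φ.injective] at hx
  have h := congrArg φ (hA.2 _ hx a0 ha0)
  simpa using h

theorem dStar_normal (S : Type*) [Group S] [Finite S] [Group.IsNilpotent S] : (Cfsg.dStar S).Normal := by
  refine ⟨fun n hn g => ?_⟩
  have h : (Cfsg.dStar S).map (MulAut.conj g).toMonoidHom ≤ Cfsg.dStar S :=
    le_sSup (family_map (MulAut.conj g) dStar_mem_family)
  exact h ⟨n, hn, rfl⟩

theorem dStarOf_le (P : Subgroup G) : Cfsg.dStarOf P ≤ P := map_subtype_le _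

theorem dStarOf_comm (P : Subgroup G) [Finite P] [Group.IsNilpotent P] :
    IsMulCommutative (Cfsg.dStarOf P) := by
  haveI : IsMulCommutative (Cfsg.dStar P) := (dStar_mem_family (G := P)).1
  exact Subgroup.map_isMulCommutative _ _

theorem dStarOf_conj_mem (P : Subgroup G) [Finite P] [Group.IsNilpotent P] {s d : G} (hs : s ∈ P)
    (hd : d ∈ Cfsg.dStarOf P) : s * d * s⁻¹ ∈ Cfsg.dStarOf P := by
  obtain ⟨d0, hd0, rfl⟩ := hd
  exact ⟨⟨s, hs⟩ * d0 * ⟨s, hs⟩⁻¹, (dStar_normal P).conj_mem d0 hd0 ⟨s, hs⟩, rfl⟩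

theorem dStarOf_prop (P : Subgroup G) [Finite P] [Group.IsNilpotent P] {x : G} (hx : x ∈ P)
    (h : ⁅⁅Cfsg.dStarOf P ⊔ zpowers x, Cfsg.dStarOf P ⊔ zpowers x⁆, Cfsg.dStarOf P ⊔ zpowers x⁆ = ⊥) :
    ∀ d ∈ Cfsg.dStarOf P, d * x = x * d := by
  rintro _ ⟨d0, hd0, rfl⟩
  have e := map_sup_zpowers P (Cfsg.dStar P) ⟨x, hx⟩
  have h' : ⁅⁅Cfsg.dStar P ⊔ zpowers (⟨x, hx⟩ : P), Cfsg.dStar P ⊔ zpowers (⟨x, hx⟩ : P)⁆,
      Cfsg.dStar P ⊔ zpowers (⟨x, hx⟩ : P)⁆ = ⊥ := by
    rw [class_two_iff, e]; exact h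
  exact congrArg Subtype.val ((dStar_mem_family (G := P)).2 ⟨x, hx⟩ h' d0 hd0)

theorem le_dStarOf (P A : Subgroup G) (hAP : A ≤ P) (hAc : IsMulCommutative A)
    (h : ∀ x ∈ P, ⁅⁅A ⊔ zpowers x, A ⊔ zpowers x⁆, A ⊔ zpowers x⁆ = ⊥ → ∀ a ∈ A, a * x = x * a) :
    A ≤ Cfsg.dStarOf P := by
  have hm : A.subgroupOf P ∈ Cfsg.dStarFamily P := by
    refine ⟨inferInstance, fun x hx a ha => ?_⟩
    rw [class_two_iff, map_sup_zpowers, subgroupOf_map_subtype, inf_of_le_left hAP] at hx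
    exact Subtype.ext (h x x.2 hx a ha)
  have h2 : A.subgroupOf P ≤ Cfsg.dStar P := le_sSup hm
  have h3 := Subgroup.map_mono (f := P.subtype) h2
  rwa [subgroupOf_map_subtype, inf_of_le_left hAP] at h3

end aux

/-- The D*-Theorem. For a finite p-group S let D*(S) be the subgroup generated by the abelian subgroups A of S such that every x ∈ S with ⟨A, x⟩ of nilpotency class at most two centralizes A. Let p be an odd prime and H a finite p-stable group with Sylow p-subgroup S. Here H is p-stable in the following sense: the largest normal p-subgroup O_p(H) contains its centralizer in H, and for every normal p-subgroup P of H, every element acting quadratically on P has image in O_p(H/C_H(P)). Then D*(S) is a normal subgroup of H. -/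
theorem result {G : Type*} [Group G] [Finite G] {p : ℕ} [Fact p.Prime] (hp : p ≠ 2)
    (hc : Subgroup.centralizer (Cfsg.pCore p G : Set G) ≤ Cfsg.pCore p G)
    (hst : ∀ (P : Subgroup G) [P.Normal], IsPGroup p P → Cfsg.IsPStableOn p P) (S : Sylow p G) :
    (Cfsg.dStarOf (S : Subgroup G)).Normal := by
  classical
  have hnil : Group.IsNilpotent (S : Subgroup G) := S.isPGroup'.isNilpotent
  have hTp : IsPGroup p (Cfsg.pCore p G) := pCore_isPGroup p G
  have hTS : Cfsg.pCore p G ≤ S := pCore_le_sylow S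
  have hTn : (Cfsg.pCore p G).Normal := inferInstance
  have hDc : IsMulCommutative (Cfsg.dStarOf (S : Subgroup G)) := dStarOf_comm _
  have hDcomm : ∀ a ∈ Cfsg.dStarOf (S : Subgroup G), ∀ b ∈ Cfsg.dStarOf (S : Subgroup G), a * b = b * a :=
    fun a ha b hb => setLike_mul_comm (s := Cfsg.dStarOf (S : Subgroup G)) ha hb
  have hSD : ∀ s ∈ (S : Subgroup G), ∀ d ∈ Cfsg.dStarOf (S : Subgroup G),
      s * d * s⁻¹ ∈ Cfsg.dStarOf (S : Subgroup G) := fun s hs d hd => dStarOf_conj_mem _ hs hd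
  -- Step 1
  have hDT : Cfsg.dStarOf (S : Subgroup G) ≤ Cfsg.pCore p G := by
    intro d hd
    have h1 : ⁅Cfsg.pCore p G, zpowers d⁆ ≤ Cfsg.dStarOf (S : Subgroup G) := by
      rw [commutator_le]
      intro t ht e he
      have he' : e ∈ Cfsg.dStarOf (S : Subgroup G) := (zpowers_le.mpr hd) he
      have : ⁅t, e⁆ = (t * e * t⁻¹) * e⁻¹ := by simp [commutatorElement_def]
      rw [this]
      exact mul_mem (hSD t (hTS ht) e he') (inv_mem he')
    have h2 : ⁅Cfsg.dStarOf (S : Subgroup G), Cfsg.dStarOf (S : Subgroup G)⁆ = ⊥ :=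
      commutator_self_eq_bot_iff.mpr hDc
    have hq : ⁅⁅Cfsg.pCore p G, zpowers d⁆, zpowers d⁆ = ⊥ :=
      le_bot_iff.mp (h2 ▸ commutator_mono h1 (zpowers_le.mpr hd))
    have hm := hst (Cfsg.pCore p G) hTp d hq
    exact mem_pCore_of_mk_mem _ (hTp.to_le hc) d hm
  -- Step 2
  have hcomm : ∀ g : G, ∀ d ∈ Cfsg.dStarOf (S : Subgroup G), ∀ e ∈ Cfsg.dStarOf (S : Subgroup G),
      d * (g * e * g⁻¹) = (g * e * g⁻¹) * d := by
    intro g d hd e he
    have hxT : g * e * g⁻¹ ∈ Cfsg.pCore p G := hTn.conj_mem e (hDT he) g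
    have hxS : g * e * g⁻¹ ∈ (S : Subgroup G) := hTS hxT
    refine dStarOf_prop _ hxS (class_two_sup_zpowers _ hDcomm _ ?_ ?_) d hd
    · intro a ha
      have ha' : g⁻¹ * a * g ∈ (S : Subgroup G) := by
        have := hTn.conj_mem a (hDT ha) g⁻¹
        rw [inv_inv] at this
        exact hTS this
      have hw : (g⁻¹ * a * g) * e * (g⁻¹ * a * g)⁻¹ * e⁻¹ ∈ Cfsg.dStarOf (S : Subgroup G) :=
        mul_mem (hSD _ ha' e he) (inv_mem he)
      have hc1 : Commute ((g⁻¹ * a * g) * e * (g⁻¹ * a * g)⁻¹ * e⁻¹) e := hDcomm _ hw e he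
      have hc2 := (Commute.conj_iff g).mpr hc1
      have e1 : g * ((g⁻¹ * a * g) * e * (g⁻¹ * a * g)⁻¹ * e⁻¹) * g⁻¹ = ⁅a, g * e * g⁻¹⁆ := by
        simp only [commutatorElement_def]; group
      rwa [e1] at hc2
    · intro a ha b hb
      have hw : ⁅a, g * e * g⁻¹⁆ ∈ Cfsg.dStarOf (S : Subgroup G) := by
        have : ⁅a, g * e * g⁻¹⁆ = a * ((g * e * g⁻¹) * a⁻¹ * (g * e * g⁻¹)⁻¹) := by
          simp only [commutatorElement_def]; group
        rw [this]
        exact mul_mem ha (hSD _ hxS _ (inv_mem ha))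
      exact hDcomm _ hw b hb
  -- Step 3
  have hAgen : ∀ u ∈ Group.conjugatesOfSet (Cfsg.dStarOf (S : Subgroup G) : Set G),
      ∃ c : G, ∃ d ∈ Cfsg.dStarOf (S : Subgroup G), u = c * d * c⁻¹ := by
    intro u hu
    obtain ⟨d, hd, hdu⟩ := Group.mem_conjugatesOfSet_iff.mp hu
    obtain ⟨c, hc⟩ := isConj_iff.mp hdu
    exact ⟨c, d, hd, hc.symm⟩
  have hAc : IsMulCommutative (normalClosure (Cfsg.dStarOf (S : Subgroup G) : Set G)) := by
    refine isMulCommutative_closure (fun u hu v hv => ?_)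
    obtain ⟨c, d, hd, rfl⟩ := hAgen u hu
    obtain ⟨c', d', hd', rfl⟩ := hAgen v hv
    have h := hcomm (c⁻¹ * c') d hd d' hd'
    have h2 : c * (d * (c⁻¹ * c' * d' * (c⁻¹ * c')⁻¹)) * c⁻¹ = c * ((c⁻¹ * c' * d' * (c⁻¹ * c')⁻¹) * d) * c⁻¹ := by
      rw [h]
    have e1 : c * (d * (c⁻¹ * c' * d' * (c⁻¹ * c')⁻¹)) * c⁻¹ = c * d * c⁻¹ * (c' * d' * c'⁻¹) := by group
    have e2 : c * ((c⁻¹ * c' * d' * (c⁻¹ * c')⁻¹) * d) * c⁻¹ = c' * d' * c'⁻¹ * (c * d * c⁻¹) := by group
    rw [← e1, ← e2, h2]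
  have hAn : (normalClosure (Cfsg.dStarOf (S : Subgroup G) : Set G)).Normal := normalClosure_normal
  have hAT : normalClosure (Cfsg.dStarOf (S : Subgroup G) : Set G) ≤ Cfsg.pCore p G :=
    normalClosure_le_normal hDT
  have hAp : IsPGroup p (normalClosure (Cfsg.dStarOf (S : Subgroup G) : Set G)) := hTp.to_le hAT
  have hDA : Cfsg.dStarOf (S : Subgroup G) ≤ normalClosure (Cfsg.dStarOf (S : Subgroup G) : Set G) :=
    le_normalClosure
  have hAcomm : ∀ a ∈ normalClosure (Cfsg.dStarOf (S : Subgroup G) : Set G),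
      ∀ b ∈ normalClosure (Cfsg.dStarOf (S : Subgroup G) : Set G), a * b = b * a :=
    fun a ha b hb => setLike_mul_comm (s := normalClosure (Cfsg.dStarOf (S : Subgroup G) : Set G)) ha hb
  -- Step 5
  have claim : ∀ y : G, (QuotientGroup.mk y : G ⧸ centralizer (normalClosure (Cfsg.dStarOf (S : Subgroup G) : Set G) : Set G))
        ∈ Cfsg.pCore p (G ⧸ centralizer (normalClosure (Cfsg.dStarOf (S : Subgroup G) : Set G) : Set G)) →
      (∀ a ∈ normalClosure (Cfsg.dStarOf (S : Subgroup G) : Set G), Commute ⁅a, y⁆ y) →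
      ∀ d ∈ Cfsg.dStarOf (S : Subgroup G), d * y = y * d := by
    intro y hy hβ
    have hle := pCore_le_sylow (S.mapSurjective
      (QuotientGroup.mk'_surjective (centralizer (normalClosure (Cfsg.dStarOf (S : Subgroup G) : Set G) : Set G))))
    obtain ⟨s, hs, hsy⟩ := hle hy
    have hc0 : s⁻¹ * y ∈ centralizer (normalClosure (Cfsg.dStarOf (S : Subgroup G) : Set G) : Set G) :=
      QuotientGroup.eq.mp hsy
    obtain ⟨c, hcdef⟩ : ∃ c, c = s⁻¹ * y := ⟨_, rfl⟩
    rw [← hcdef] at hc0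
    have hy' : y = s * c := by rw [hcdef]; group
    have hcs : ∀ a ∈ normalClosure (Cfsg.dStarOf (S : Subgroup G) : Set G), ⁅a, s⁆ = ⁅a, y⁆ := by
      intro a ha
      have h1 : a⁻¹ * c = c * a⁻¹ := hc0 a⁻¹ (inv_mem ha)
      rw [hy']
      simp only [commutatorElement_def, mul_inv_rev]
      calc a * s * a⁻¹ * s⁻¹ = a * s * (a⁻¹ * c) * c⁻¹ * s⁻¹ := by group
        _ = a * s * (c * a⁻¹) * c⁻¹ * s⁻¹ := by rw [h1]
        _ = a * (s * c) * a⁻¹ * (c⁻¹ * s⁻¹) := by group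
    have hwA : ∀ a ∈ normalClosure (Cfsg.dStarOf (S : Subgroup G) : Set G),
        ⁅a, y⁆ ∈ normalClosure (Cfsg.dStarOf (S : Subgroup G) : Set G) := by
      intro a ha
      have : ⁅a, y⁆ = a * (y * a⁻¹ * y⁻¹) := by simp only [commutatorElement_def]; group
      rw [this]
      exact mul_mem ha (hAn.conj_mem _ (inv_mem ha) y)
    have hs' : s = y * c⁻¹ := by rw [hy']; group
    have hds : ∀ d ∈ Cfsg.dStarOf (S : Subgroup G), d * s = s * d := by
      refine dStarOf_prop _ hs (class_two_sup_zpowers _ hDcomm _ ?_ ?_)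
      · intro a ha
        rw [hcs a (hDA ha)]
        have h1 : Commute ⁅a, y⁆ c := hc0 _ (hwA a (hDA ha))
        rw [hs']
        exact (hβ a (hDA ha)).mul_right h1.inv_right
      · intro a ha b hb
        rw [hcs a (hDA ha)]
        exact hAcomm _ (hwA a (hDA ha)) b (hDA hb)
    intro d hd
    have h1 : d * c = c * d := hc0 d (hDA hd)
    rw [hy', ← mul_assoc, hds d hd, mul_assoc, h1, mul_assoc]
  -- Step 6
  have hAD : normalClosure (Cfsg.dStarOf (S : Subgroup G) : Set G) ≤ Cfsg.dStarOf (S : Subgroup G) := by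
    refine le_dStarOf _ _ (hAT.trans hTS) hAc (fun x hx hcl => ?_)
    have hxH : x ∈ normalClosure (Cfsg.dStarOf (S : Subgroup G) : Set G) ⊔ zpowers x :=
      le_sup_right (a := normalClosure (Cfsg.dStarOf (S : Subgroup G) : Set G)) (mem_zpowers x)
    have hq : ⁅⁅normalClosure (Cfsg.dStarOf (S : Subgroup G) : Set G), zpowers x⁆, zpowers x⁆ = ⊥ :=
      le_bot_iff.mp (hcl ▸ commutator_mono (commutator_mono le_sup_left le_sup_right) le_sup_right)
    have hm := hst _ hAp x hq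
    have hβ : ∀ a ∈ normalClosure (Cfsg.dStarOf (S : Subgroup G) : Set G), Commute ⁅a, x⁆ x := by
      intro a ha
      have h1 := commutator_eq_bot_iff_le_centralizer.mp hcl
      exact (h1 (commutator_mem_commutator (le_sup_left (b := zpowers x) ha) hxH) x hxH).symm
    have hle : normalClosure (Cfsg.dStarOf (S : Subgroup G) : Set G) ≤ centralizer ({x} : Set G) := by
      refine (closure_le _).mpr (fun u hu => ?_)
      obtain ⟨c, d, hd, rfl⟩ := hAgen u hu
      have hmy : (QuotientGroup.mk (c⁻¹ * x * c) : G ⧸ centralizer (normalClosure (Cfsg.dStarOf (S : Subgroup G) : Set G) : Set G))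
          ∈ Cfsg.pCore p (G ⧸ centralizer (normalClosure (Cfsg.dStarOf (S : Subgroup G) : Set G) : Set G)) := by
        have := (Cfsg.pCore_normal p (G ⧸ centralizer (normalClosure (Cfsg.dStarOf (S : Subgroup G) : Set G) : Set G))).conj_mem _ hm
          (QuotientGroup.mk c⁻¹)
        simpa using this
      have hβ' : ∀ a ∈ normalClosure (Cfsg.dStarOf (S : Subgroup G) : Set G), Commute ⁅a, c⁻¹ * x * c⁆ (c⁻¹ * x * c) := by
        intro a ha
        have h1 := hβ (c * a * c⁻¹) (hAn.conj_mem a ha c)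
        have h2 := (Commute.conj_iff c⁻¹).mpr h1
        have e1 : c⁻¹ * ⁅c * a * c⁻¹, x⁆ * c⁻¹⁻¹ = ⁅a, c⁻¹ * x * c⁆ := by
          simp only [commutatorElement_def]; group
        have e2 : c⁻¹ * x * c⁻¹⁻¹ = c⁻¹ * x * c := by group
        rwa [e1, e2] at h2
      have h := claim _ hmy hβ' d hd
      refine mem_centralizer_singleton_iff.mpr ?_
      calc c * d * c⁻¹ * x = c * (d * (c⁻¹ * x * c)) * c⁻¹ := by group
        _ = c * ((c⁻¹ * x * c) * d) * c⁻¹ := by rw [h]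
        _ = x * (c * d * c⁻¹) := by group
    intro a ha
    exact mem_centralizer_singleton_iff.mp (hle ha)
  have heq : Cfsg.dStarOf (S : Subgroup G) = normalClosure (Cfsg.dStarOf (S : Subgroup G) : Set G) :=
    le_antisymm hDA hAD
  rw [heq]
  exact hAn

end Cfsg.Agent.S3060
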