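import Cfsg.Statements.S3062
import Mathlib
import Cfsg.Agent.Lib.Helper57DStar
import Cfsg.Agent.Lib.Helper57Replace
import Cfsg.Agent.S3060

set_option autoImplicit false
open Cfsg

namespace Cfsg.Agent.S3062


open Subgroup
open scoped commutatorElement
open Cfsg.Agent.Lib.Helper57DStar
open Cfsg.Agent.Lib.Helper57Replace

theorem dStar_le_maxAbelian {S : Type*} [Group S] [Finite S] [Group.IsNilpotent S] :
    ∀ E ∈ Cfsg.maxAbelianSubgroups S, Cfsg.dStar S ≤ E := by
  classical
  have hDm := dStar_mem_family (G := S)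
  have hDc : IsMulCommutative (Cfsg.dStar S) := hDm.1
  have hDn : (Cfsg.dStar S).Normal := Cfsg.Agent.S3060.dStar_normal S
  have hDcomm : ∀ a ∈ Cfsg.dStar S, ∀ b ∈ Cfsg.dStar S, a * b = b * a :=
    fun a ha b hb => setLike_mul_comm (s := Cfsg.dStar S) ha hb
  by_contra hcon
  push Not at hcon
  have hfin : {E : Subgroup S | E ∈ Cfsg.maxAbelianSubgroups S ∧ ¬ Cfsg.dStar S ≤ E}.Finite := Set.toFinite _
  have hne : {E : Subgroup S | E ∈ Cfsg.maxAbelianSubgroups S ∧ ¬ Cfsg.dStar S ≤ E}.Nonempty := hcon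
  obtain ⟨E, ⟨hE, hDE⟩, hmax⟩ :=
    Set.exists_max_image _ (fun E : Subgroup S => Nat.card ↥(E ⊓ Cfsg.dStar S)) hfin hne
  have hEc : IsMulCommutative E := hE.1
  -- step a
  have ha : ¬ Cfsg.dStar S ≤ centralizer (E : Set S) := by
    intro h
    have h1 : IsMulCommutative ↥(E ⊔ Cfsg.dStar S) :=
      comm_sup E _ hEc hDc (fun a ha b hb => h hb a ha)
    have h2 := hE.2 _ h1
    have h3 := Subgroup.eq_of_le_of_card_ge (le_sup_left (a := E) (b := Cfsg.dStar S)) h2
    exact hDE (h3 ▸ le_sup_right)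
  -- step b
  have hb : ¬ Cfsg.dStar S ≤ normalizer (E : Set S) := by
    intro h
    apply ha
    intro d hd e he
    refine (hDm.2 e (class_two_sup_zpowers _ hDcomm e ?_ ?_) d hd).symm
    · intro a haD
      have hw : ⁅a, e⁆ ∈ E := by
        have e1 : ⁅a, e⁆ = (a * e * a⁻¹) * e⁻¹ := by simp [commutatorElement_def]
        rw [e1]
        exact mul_mem (((h haD) e).mp he) (inv_mem he)
      exact setLike_mul_comm (s := E) hw he
    · intro a haD b hbD
      have hw : ⁅a, e⁆ ∈ Cfsg.dStar S := by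
        have e1 : ⁅a, e⁆ = a * (e * a⁻¹ * e⁻¹) := by simp only [commutatorElement_def]; group
        rw [e1]
        exact mul_mem haD (hDn.conj_mem _ (inv_mem haD) e)
      exact hDcomm _ hw b hbD
  -- step c
  obtain ⟨n, hn⟩ := exists_iterCommutator_eq_bot (Cfsg.dStar S) E
  have hex : ∃ k, Cfsg.iterCommutator (Cfsg.dStar S) E k ≤ normalizer (E : Set S) := ⟨n, hn ▸ bot_le⟩
  have hk := Nat.find_spec hex
  have hmin := fun m => Nat.find_min hex (m := m)
  rcases hk0 : Nat.find hex with _ | m
  · rw [hk0] at hk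
    exact hb hk
  · rw [hk0] at hk
    have hm : ¬ Cfsg.iterCommutator (Cfsg.dStar S) E m ≤ normalizer (E : Set S) := hmin m (by omega)
    obtain ⟨x, hxm, hxN⟩ := SetLike.not_le_iff_exists.mp hm
    have hxD : x ∈ Cfsg.dStar S := iterCommutator_le_of_normal _ _ m hxm
    have hMk : commSub E x ≤ Cfsg.iterCommutator (Cfsg.dStar S) E (m + 1) :=
      commSub_le (fun e he => commutator_mem_commutator hxm he)
    have hMD : commSub E x ≤ Cfsg.dStar S := hMk.trans (iterCommutator_le_of_normal _ _ (m + 1))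
    have hMN : commSub E x ≤ normalizer (E : Set S) := hMk.trans hk
    have hM'D : commSub E x⁻¹ ≤ Cfsg.dStar S := by
      refine commSub_le (fun e _ => ?_)
      have e1 : ⁅x⁻¹, e⁆ = x⁻¹ * (e * x * e⁻¹) := by simp only [commutatorElement_def]; group
      rw [e1]
      exact mul_mem (inv_mem hxD) (hDn.conj_mem _ hxD e)
    have hstar := replacement_core hE x (Cfsg.Agent.Lib.Helper57Replace.isMulCommutative_of_le hMD hDc)
      (Cfsg.Agent.Lib.Helper57Replace.isMulCommutative_of_le hM'D hDc)
    have hMnotE : ¬ commSub E x ≤ E := by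
      intro h
      apply hxN
      refine mem_normalizer_fintype (fun e he => ?_)
      have e1 : x * e * x⁻¹ = ⁅x, e⁆ * e := by simp [commutatorElement_def]
      rw [e1]
      exact mul_mem (h (comm_mem_commSub E x he)) he
    by_cases hY : Cfsg.dStar S ≤ commSub E x ⊔ (E ⊓ centralizer (commSub E x : Set S))
    · exact hb (hY.trans (sup_le hMN (inf_le_left.trans le_normalizer)))
    · have h1 := hmax _ ⟨hstar, hY⟩
      have h2 : E ⊓ Cfsg.dStar S ≤ (commSub E x ⊔ (E ⊓ centralizer (commSub E x : Set S))) ⊓ Cfsg.dStar S := by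
        refine le_inf (le_sup_of_le_right (le_inf inf_le_left ?_)) inf_le_right
        intro b hb' m' hm'
        exact hDcomm _ (hMD hm') _ hb'.2
      have h3 := Subgroup.eq_of_le_of_card_ge h2 h1
      apply hMnotE
      intro y hy
      have h4 : y ∈ (commSub E x ⊔ (E ⊓ centralizer (commSub E x : Set S))) ⊓ Cfsg.dStar S :=
        ⟨le_sup_left (b := E ⊓ centralizer (commSub E x : Set S)) hy, hMD hy⟩
      rw [← h3] at h4
      exact h4.1

/-- Let S be a finite p-group, J(S) the subgroup generated by the abelian subgroups of S of largest order and Z(J(S)) its centre. Then Z(S) ≤ D*(S) ≤ Z(J(S)), and every maximal normal abelian subgroup of S contains D*(S). -/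
theorem result {S : Type*} [Group S] [Finite S] {p : ℕ} [Fact p.Prime]
    (hS : IsPGroup p S) :
    Subgroup.center S ≤ Cfsg.dStar S ∧
    Cfsg.dStar S ≤ Cfsg.thompsonSubgroupA S ⊓ Subgroup.centralizer (Cfsg.thompsonSubgroupA S : Set S) ∧
    ∀ A : Subgroup S, A.Normal → IsMulCommutative A →
      (∀ B : Subgroup S, B.Normal → IsMulCommutative B → A ≤ B → B = A) → Cfsg.dStar S ≤ A := by
  have hnil := hS.isNilpotent
  refine ⟨?_, ?_, ?_⟩
  · refine le_sSup ⟨inferInstance, fun x _ a ha => ?_⟩
    exact ((Subgroup.mem_center_iff.mp ha) x).symm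
  · have hcl := dStar_le_maxAbelian (S := S)
    refine le_inf ?_ ?_
    · obtain ⟨E, hE⟩ := exists_maxAbelian (S := S)
      exact (hcl E hE).trans (le_sSup hE)
    · refine le_centralizer_iff.mp (sSup_le (fun E hE e he d hd => ?_))
      have := hE.1
      exact setLike_mul_comm (s := E) (hcl E hE hd) he
  · intro A hAn hAc hmax
    exact dStar_le_of_maximal A hAn hAc hmax

end Cfsg.Agent.S3062
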