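import Cfsg.Statements.S3063
import Mathlib
import Cfsg.Agent.Lib.Helper57Replace

set_option autoImplicit false
open Cfsg

namespace Cfsg.Agent.S3063

open Subgroup
open scoped commutatorElement
open Cfsg.Agent.Lib.Helper57Replace

/-- A weak replacement Theorem for metabelian p-groups: let S be a finite p-group whose derived subgroup is abelian and A an abelian subgroup of S of largest possible order. Then the normal closure of A in S contains an abelian subgroup B of the same order as A that is normal in S. -/
theorem result {S : Type*} [Group S] [Finite S] {p : ℕ} [Fact p.Prime]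
    (hS : IsPGroup p S) (hmeta : IsMulCommutative ↥(commutator S))
    (A : Subgroup S) (hA : A ∈ Cfsg.maxAbelianSubgroups S) :
    ∃ B ∈ Cfsg.maxAbelianSubgroups S, B.Normal ∧ B ≤ Subgroup.normalClosure (A : Set S) := by
  classical
  have hfin : {A' : Subgroup S | A' ∈ Cfsg.maxAbelianSubgroups S ∧ A' ≤ normalClosure (A : Set S)}.Finite :=
    Set.toFinite _
  have hne : {A' : Subgroup S | A' ∈ Cfsg.maxAbelianSubgroups S ∧ A' ≤ normalClosure (A : Set S)}.Nonempty :=
    ⟨A, hA, le_normalClosure⟩
  obtain ⟨B, hB, hmax⟩ := Set.exists_max_image _ (fun B : Subgroup S => Nat.card ↥(B ⊓ commutator S)) hfin hne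
  refine ⟨B, hB.1, ?_, hB.2⟩
  have hcomm : ∀ x : S, commSub B x ≤ commutator S :=
    fun x => commSub_le (fun a _ => commutator_mem_commutator (mem_top x) (mem_top a))
  have hncn : (normalClosure (A : Set S)).Normal := normalClosure_normal
  have main : ∀ x : S, ∀ a ∈ B, ⁅x, a⁆ ∈ B := by
    intro x
    have hMc : IsMulCommutative (commSub B x) := isMulCommutative_of_le (hcomm x) hmeta
    have hM'c : IsMulCommutative (commSub B x⁻¹) := isMulCommutative_of_le (hcomm x⁻¹) hmeta
    have hstar := replacement_core hB.1 x hMc hM'c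
    have hle : commSub B x ⊔ (B ⊓ centralizer (commSub B x : Set S)) ≤ normalClosure (A : Set S) := by
      refine sup_le (commSub_le (fun a ha => ?_)) (inf_le_left.trans hB.2)
      have e : ⁅x, a⁆ = (x * a * x⁻¹) * a⁻¹ := by simp [commutatorElement_def]
      rw [e]
      exact mul_mem (hncn.conj_mem a (hB.2 ha) x) (inv_mem (hB.2 ha))
    have h1 := hmax _ ⟨hstar, hle⟩
    have h2 : B ⊓ commutator S ≤ (commSub B x ⊔ (B ⊓ centralizer (commSub B x : Set S))) ⊓ commutator S := by
      refine le_inf (le_sup_of_le_right (le_inf inf_le_left ?_)) inf_le_right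
      intro b hb m hm
      exact setLike_mul_comm (s := commutator S) (hcomm x hm) hb.2
    have h3 := Subgroup.eq_of_le_of_card_ge h2 h1
    intro a ha
    have h4 : ⁅x, a⁆ ∈ (commSub B x ⊔ (B ⊓ centralizer (commSub B x : Set S))) ⊓ commutator S :=
      ⟨le_sup_left (b := B ⊓ centralizer (commSub B x : Set S)) (comm_mem_commSub B x ha),
        hcomm x (comm_mem_commSub B x ha)⟩
    rw [← h3] at h4
    exact h4.1
  refine ⟨fun n hn g => ?_⟩
  have e : g * n * g⁻¹ = ⁅g, n⁆ * n := by simp [commutatorElement_def]
  rw [e]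
  exact mul_mem (main g n hn) hn

end Cfsg.Agent.S3063
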