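import Cfsg.Statements.S3064
import Cfsg.Agent.S0035
import Cfsg.Agent.Lib.Helper11Frobenius
import Cfsg.Agent.Lib.Helper40Sylow

set_option autoImplicit false
open Cfsg

namespace Cfsg.Agent.S3064

open Subgroup Cfsg.Agent.Lib.Helper11Frobenius Cfsg.Agent.Lib.Helper40Sylow

universe u

/-- Sylow-free form of the hypotheses. -/
def Hyp (p : ℕ) (G : Type u) [Group G] (x : G) : Prop :=
  (∃ k : ℕ, x ^ (p ^ k) = 1) ∧
  (∀ R : Subgroup G, IsPGroup p R → x ∈ R → ∀ g : G, g⁻¹ * x * g ∈ R → g⁻¹ * x * g = x) ∧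
  (∀ H : Subgroup G, (Nat.card H).Coprime p → (∀ h ∈ H, x * h * x⁻¹ ∈ H) → ∀ h ∈ H, x * h = h * x)

theorem Hyp.subgroup {p : ℕ} {G : Type u} [Group G] {x : G} (h : Hyp p G x) (M : Subgroup G) (hx : x ∈ M) :
    Hyp p M ⟨x, hx⟩ := by
  obtain ⟨⟨k, hk⟩, h1, h2⟩ := h
  refine ⟨⟨k, Subtype.ext (by simpa using hk)⟩, ?_, ?_⟩
  · intro R hR hxR m hm
    have := h1 (R.map M.subtype) (hR.map _) ⟨_, hxR, rfl⟩ (m : G) ⟨_, hm, by simp⟩
    exact Subtype.ext (by simpa using this)
  · intro H hH hinv y hy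
    have := h2 (H.map M.subtype) (by rwa [Subgroup.card_map_of_injective M.subtype_injective]) ?_ y ⟨y, hy, rfl⟩
    · exact Subtype.ext this
    · rintro _ ⟨z, hz, rfl⟩
      exact ⟨_, hinv z hz, by simp⟩

theorem mem_of_pow_mem_of_pow_mem {G : Type*} [Group G] {C : Subgroup G} {g : G} {a b : ℕ} (hab : a.Coprime b)
    (ha : g ^ a ∈ C) (hb : g ^ b ∈ C) : g ∈ C := by
  have h1 := Nat.gcd_eq_gcd_ab a b
  rw [hab.gcd_eq_one] at h1
  have h2 : g = (g ^ a) ^ (a.gcdA b) * (g ^ b) ^ (a.gcdB b) := by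
    rw [← zpow_natCast g a, ← zpow_natCast g b, ← zpow_mul, ← zpow_mul, ← zpow_add, ← h1]
    simp
  rw [h2]
  exact C.mul_mem (C.zpow_mem ha _) (C.zpow_mem hb _)

theorem isPGroup_zpowers_of_pow {G : Type*} [Group G] {p : ℕ} [Fact p.Prime] {x : G} {k : ℕ} (h : x ^ (p ^ k) = 1) :
    IsPGroup p (zpowers x) := by
  obtain ⟨j, -, hj⟩ := (Nat.dvd_prime_pow Fact.out).mp (orderOf_dvd_of_pow_eq_one h)
  exact IsPGroup.of_card (n := j) (by rw [Nat.card_zpowers, hj])

theorem aux (p : ℕ) [Fact p.Prime] : ∀ (n : ℕ) (G : Type u) [Group G] [Finite G], Nat.card G = n →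
    ∀ x : G, Hyp p G x → x ∈ center G := by
  intro n
  induction n using Nat.strong_induction_on with
  | _ n ih =>
  intro G _ _ hcard x hyp
  have hp : p.Prime := Fact.out
  by_contra hxc
  obtain ⟨⟨k, hk⟩, h1, h2⟩ := id hyp
  set C := centralizer ({x} : Set G) with hC
  have hxC : x ∈ C := mem_centralizer_singleton_iff.mpr rfl
  have hxp : IsPGroup p (zpowers x) := isPGroup_zpowers_of_pow hk
  -- Step 1
  have step1 : ∀ M : Subgroup G, M ≠ ⊤ → x ∈ M → ∀ m ∈ M, x * m = m * x := by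
    intro M hM hxM m hm
    have hlt : Nat.card M < n := by
      rw [← hcard]
      by_contra hcon
      apply hM
      apply Subgroup.eq_top_of_card_eq
      exact le_antisymm (Subgroup.card_le_card_group M) (not_lt.mp hcon)
    have := ih _ hlt M rfl ⟨x, hxM⟩ (hyp.subgroup M hxM)
    have h3 := mem_center_iff.mp this ⟨m, hm⟩
    exact (congrArg Subtype.val h3).symm
  -- Step 2
  have step2 : ∀ g : G, g ∉ C → closure ({x, g⁻¹ * x * g} : Set G) = ⊤ := by
    intro g hg
    by_contra hne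
    have hcomm := step1 _ hne (subset_closure (by simp)) (g⁻¹ * x * g) (subset_closure (by simp))
    have hyp' : IsPGroup p (zpowers (g⁻¹ * x * g)) := by
      apply isPGroup_zpowers_of_pow (k := k)
      have : g⁻¹ * x * g = g⁻¹ * x * g⁻¹⁻¹ := by simp
      rw [this, conj_pow, hk]; simp
    have hn : zpowers x ≤ normalizer ((zpowers (g⁻¹ * x * g) : Subgroup G) : Set G) := by
      refine le_trans ?_ (centralizer_le_normalizer _)
      rw [zpowers_le, mem_centralizer_iff]
      rintro _ ⟨i, rfl⟩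
      exact ((Commute.zpow_left (show Commute (g⁻¹ * x * g) x from hcomm.symm) i)).eq
    have hR : IsPGroup p (zpowers x ⊔ zpowers (g⁻¹ * x * g) : Subgroup G) :=
      hxp.to_sup_of_normal_right' hyp' hn
    have h3 := h1 _ hR (mem_sup_left (mem_zpowers x)) g (mem_sup_right (mem_zpowers _))
    apply hg
    rw [hC, mem_centralizer_singleton_iff]
    calc g * x = g * (g⁻¹ * x * g) := by rw [h3]
      _ = x * g := by group
  -- the quotient
  set Z := center G with hZ
  let π := QuotientGroup.mk' Z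
  have hπs : Function.Surjective π := QuotientGroup.mk'_surjective Z
  have hker : ∀ y, π y = 1 ↔ y ∈ Z := fun y => QuotientGroup.eq_one_iff y
  have hZC : Z ≤ C := by
    intro z hz
    rw [hC, mem_centralizer_singleton_iff]
    exact (mem_center_iff.mp hz x).symm
  set Cb := C.map π with hCb
  have hcomap : ∀ c, π c ∈ Cb → c ∈ C := by
    rintro c ⟨c', hc', hcc⟩
    have h3 : c'⁻¹ * c ∈ Z := (QuotientGroup.eq (s := Z)).mp hcc
    have : c = c' * (c'⁻¹ * c) := by group
    rw [this]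
    exact C.mul_mem hc' (hZC h3)
  have hCtop : C ≠ ⊤ := by
    intro h
    apply hxc
    rw [mem_center_iff]
    intro g
    have : g ∈ C := h ▸ mem_top g
    rw [hC, mem_centralizer_singleton_iff] at this
    exact this
  have hfrob : Cfsg.IsFrobeniusComplement Cb := by
    refine ⟨?_, ?_, ?_⟩
    · intro h
      have : π x ∈ Cb := ⟨x, hxC, rfl⟩
      rw [h, mem_bot, hker] at this
      exact hxc this
    · intro h
      apply hCtop
      rw [eq_top_iff]
      intro c _
      apply hcomap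
      rw [h]; exact mem_top _
    · intro g hg
      obtain ⟨g, rfl⟩ := hπs g
      have hgC : g ∉ C := fun h => hg ⟨g, h, rfl⟩
      have hgC' : g⁻¹ ∉ C := fun h => hgC (by simpa using C.inv_mem h)
      rw [eq_bot_iff]
      rintro c hc
      obtain ⟨hc1, hc2⟩ := mem_inf.mp hc
      obtain ⟨c, hcC, rfl⟩ := hc1
      rw [Subgroup.mem_pointwise_smul_iff_inv_smul_mem] at hc2
      have hc3 : π (g⁻¹ * c * g) ∈ Cb := by
        have : (MulAut.conj (π g))⁻¹ • π c = π (g⁻¹ * c * g) := by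
          rw [MulAut.smul_def, ← map_inv, MulAut.conj_apply, inv_inv]
          simp
        rwa [this] at hc2
      have hc4 := hcomap _ hc3
      have hcC : c ∈ C := hcC
      rw [hC, mem_centralizer_singleton_iff] at hc4 hcC
      have htop := step2 g⁻¹ hgC'
      rw [mem_bot, hker, hZ, ← centralizer_univ, ← Subgroup.coe_top, ← htop, centralizer_closure,
        mem_centralizer_iff]
      rintro y (rfl | rfl)
      · exact hcC.symm
      · have e1 : g⁻¹⁻¹ * x * g⁻¹ * c = g * (x * (g⁻¹ * c * g)) * g⁻¹ := by group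
        have e2 : c * (g⁻¹⁻¹ * x * g⁻¹) = g * (g⁻¹ * c * g * x) * g⁻¹ := by group
        rw [e1, e2, hc4]
  obtain ⟨N, -, hNn, hNc⟩ := Cfsg.Agent.S0035.result Cb hfrob
  -- `|N|` is prime to `p`
  have hNcop : (Nat.card N).Coprime p := by
    obtain ⟨S, hS⟩ := hxp.exists_le_sylow
    have hxS : x ∈ S := hS (mem_zpowers x)
    have hSC : (S : Subgroup G) ≤ C := by
      intro s hs
      have h3 := h1 S S.2 hxS s (S.mul_mem (S.mul_mem (S.inv_mem hs) hxS) hs)
      rw [hC, mem_centralizer_singleton_iff]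
      calc s * x = s * (s⁻¹ * x * s) := by rw [h3]
        _ = x * s := by group
    rw [← hNc.index_eq_card]
    have h4 : Cb.index ∣ (S : Subgroup G).index :=
      (C.index_map_dvd hπs).trans (index_dvd_of_le hSC)
    exact (((Nat.Prime.coprime_iff_not_dvd hp).mpr S.not_dvd_index).coprime_dvd_right h4).symm
  set K := N.comap π with hK
  have hKn : K.Normal := hNn.comap π
  -- `p`-elements of `K` are central
  have hpK : ∀ y ∈ K, ∀ j : ℕ, y ^ (p ^ j) = 1 → y ∈ Z := by
    intro y hy j hyj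
    rw [← hker]
    have e1 : (π y) ^ (p ^ j) = 1 := by rw [← map_pow, hyj, map_one]
    have e2 : (π y) ^ Nat.card N = 1 := by
      have := pow_card_eq_one' (G := N) (x := ⟨π y, hy⟩)
      exact congrArg Subtype.val this
    have e3 : orderOf (π y) ∣ Nat.gcd (p ^ j) (Nat.card N) :=
      Nat.dvd_gcd (orderOf_dvd_of_pow_eq_one e1) (orderOf_dvd_of_pow_eq_one e2)
    rw [(Nat.Coprime.pow_left j hNcop.symm).gcd_eq_one, Nat.dvd_one, orderOf_eq_one_iff] at e3
    exact e3
  have hFC : FrobCond p K := by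
    intro Q hQ g _ _
    rw [mem_centralizer_iff]
    intro q hq
    obtain ⟨j, hj⟩ := hQ ⟨q, hq⟩
    have h3 : (q : G) ∈ Z := hpK q q.2 j (by
      have := congrArg (fun t : Q => ((t : K) : G)) hj
      simpa using this)
    exact Subtype.ext (mem_center_iff.mp h3 g).symm
  obtain ⟨N₁, hN₁n, hN₁c, j, hj⟩ := frobenius hFC
  set K₀ := N₁.map K.subtype with hK₀
  have hK₀c : (Nat.card K₀).Coprime p := by
    rwa [hK₀, Subgroup.card_map_of_injective K.subtype_injective]
  have hK₀x : ∀ h ∈ K₀, x * h * x⁻¹ ∈ K₀ := by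
    rintro _ ⟨y, hy, rfl⟩
    have hmem : x * (y : G) * x⁻¹ ∈ K := hKn.conj_mem _ y.2 x
    refine ⟨⟨_, hmem⟩, ?_, rfl⟩
    have h3 := (mem_iff_coprime N₁ hN₁c j hj y).mp hy
    apply (mem_iff_coprime N₁ hN₁c j hj _).mpr
    rw [← Subgroup.orderOf_coe] at h3 ⊢
    have h4 : orderOf (x * (y : G) * x⁻¹) = orderOf (y : G) := by
      have := (MulAut.conj x).orderOf_eq (y : G)
      simpa using this
    show (orderOf (x * (y : G) * x⁻¹)).Coprime p
    rw [h4]; exact h3
  have hK₀C : K₀ ≤ C := by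
    intro h hh
    rw [hC, mem_centralizer_singleton_iff]
    exact (h2 K₀ hK₀c hK₀x h hh).symm
  have hKC : K ≤ C := by
    intro y hy
    have e1 : (⟨y, hy⟩ : K) ^ (p ^ j) ∈ N₁ := by
      rw [← hj]; exact N₁.pow_index_mem _
    apply mem_of_pow_mem_of_pow_mem (a := p ^ j) (b := Nat.card N₁) (Nat.Coprime.pow_left j hN₁c.symm)
    · exact hK₀C ⟨_, e1, by simp⟩
    · apply hZC
      apply hpK _ (K.pow_mem hy _) j
      have e2 := pow_card_eq_one' (G := N₁) (x := ⟨_, e1⟩)
      have e3 : ((y ^ (p ^ j)) ^ Nat.card N₁ : G) = 1 :=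
        congrArg (fun t : N₁ => ((t : K) : G)) e2
      rw [← pow_mul, mul_comm, pow_mul]
      exact e3
  have hNle : N ≤ Cb := by
    intro y hy
    obtain ⟨y, rfl⟩ := hπs y
    exact ⟨y, hKC hy, rfl⟩
  have hNbot : N = ⊥ := by
    have := hNc.disjoint.eq_bot
    rwa [inf_eq_left.mpr hNle] at this
  apply hfrob.2.1
  rw [← index_eq_one, hNc.index_eq_card, hNbot, card_bot]

/-- Let S be a Sylow p-subgroup of the finite group G and x an element of S such that (i) x is the only G-conjugate of x lying in S, and (ii) x centralizes every subgroup of order prime to p that it normalizes. Then x lies in the centre of G. -/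
theorem result {G : Type*} [Group G] [Finite G] {p : ℕ} [Fact p.Prime]
    (S : Sylow p G) (x : G) (hx : x ∈ S)
    (hU : ∀ g : G, g⁻¹ * x * g ∈ S → g⁻¹ * x * g = x)
    (hb : ∀ H : Subgroup G, (Nat.card H).Coprime p → (∀ h ∈ H, x * h * x⁻¹ ∈ H) → ∀ h ∈ H, x * h = h * x) :
    x ∈ Subgroup.center G := by
  apply aux p _ G rfl x
  refine ⟨?_, ?_, hb⟩
  · obtain ⟨k, hk⟩ := S.2 ⟨x, hx⟩
    exact ⟨k, by simpa using congrArg Subtype.val hk⟩
  · intro R hR hxR g hg
    obtain ⟨S', hS'⟩ := hR.exists_le_sylow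
    obtain ⟨h, rfl⟩ := MulAction.exists_smul_eq G S S'
    have e1 : x ∈ cj h (S : Subgroup G) := by rw [← sylow_smul_eq_cj]; exact hS' hxR
    have e2 : g⁻¹ * x * g ∈ cj h (S : Subgroup G) := by rw [← sylow_smul_eq_cj]; exact hS' hg
    rw [mem_cj] at e1 e2
    have e3 := hU h e1
    have e4 : (g * h)⁻¹ * x * (g * h) = x := by
      apply hU
      have : (g * h)⁻¹ * x * (g * h) = h⁻¹ * (g⁻¹ * x * g) * h := by group
      rw [this]; exact e2
    calc g⁻¹ * x * g = h * ((g * h)⁻¹ * x * (g * h)) * h⁻¹ := by group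
      _ = h * (h⁻¹ * x * h) * h⁻¹ := by rw [e4, e3]
      _ = x := by group

end Cfsg.Agent.S3064
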