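import Cfsg.Statements.S3073
import Cfsg.Agent.S1988
import Cfsg.Agent.S1978
import Cfsg.Agent.Lib.Helper40NPC
import Cfsg.Agent.Lib.Helper39KInfMap

set_option autoImplicit false
universe u
open Cfsg

namespace Cfsg.Agent.S3073

/-- For an odd prime p, every finite p-group S has a characteristic subgroup K with C_S(K) ≤ K such that, whenever S is (isomorphic to) a Sylow p-subgroup of a finite group G, G has a normal p-complement if and only if N_G(K)/C_G(K) is a p-group, i.e. every element of N_G(K) of order prime to p centralizes K (K transported into G along the isomorphism). -/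
theorem result (p : ℕ) [Fact p.Prime] (hp : p ≠ 2)
    (S : Type u) [Group S] [Finite S] (hS : IsPGroup p S) :
    ∃ K : Subgroup S, K.Characteristic ∧ Subgroup.centralizer (K : Set S) ≤ K ∧
      ∀ (G : Type u) [Group G] [Finite G] (P : Sylow p G) (e : ↥(P : Subgroup G) ≃* S),
        Cfsg.HasNormalPComplement p G ↔
          ∀ g ∈ Subgroup.normalizer (((K.comap (e : ↥(P : Subgroup G) →* S)).map (P : Subgroup G).subtype : Subgroup G) : Set G),
            (orderOf g).Coprime p →
              g ∈ Subgroup.centralizer (((K.comap (e : ↥(P : Subgroup G) →* S)).map (P : Subgroup G).subtype : Subgroup G) : Set G) := by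
  refine ⟨Cfsg.kInfLower S, ?_, (Cfsg.Agent.S1978.result hS).1, ?_⟩
  · rw [Subgroup.characteristic_iff_map_eq]
    intro φ
    exact Cfsg.Agent.Lib.Helper39KInfMap.map_kInfLower φ
  · intro G _ _ P e
    have h1 : ((Cfsg.kInfLower S).comap (e : ↥(P : Subgroup G) →* S)).map (P : Subgroup G).subtype =
        Cfsg.inducedFunctor Cfsg.kInfLower (P : Subgroup G) := by
      unfold Cfsg.inducedFunctor
      congr 1
      rw [← Cfsg.Agent.Lib.Helper39KInfMap.map_kInfLower e]
      exact Subgroup.comap_map_eq_self_of_injective e.injective _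
    rw [h1]
    constructor
    · intro h g hg hco
      obtain ⟨M, hMn, -, -, hM⟩ := Cfsg.Agent.Lib.Helper40NPC.exists_of_hasNormalPComplement h
      have hgM : g ∈ M := (hM g).2 hco
      intro k hk
      have hkP : k ∈ (P : Subgroup G) := Subgroup.map_subtype_le _ hk
      -- the commutator lies in `M` and in the `p`-group
      have hc1 : g * k * g⁻¹ * k⁻¹ ∈ M := by
        have : g * k * g⁻¹ * k⁻¹ = g * (k * g⁻¹ * k⁻¹) := by group
        rw [this]
        exact M.mul_mem hgM (hMn.conj_mem _ (M.inv_mem hgM) k)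
      have hc2 : g * k * g⁻¹ * k⁻¹ ∈ (P : Subgroup G) := by
        have h2 : g * k * g⁻¹ ∈ Cfsg.inducedFunctor Cfsg.kInfLower (P : Subgroup G) :=
          (Subgroup.mem_normalizer_iff.1 hg k).1 hk
        exact (P : Subgroup G).mul_mem (Subgroup.map_subtype_le _ h2) ((P : Subgroup G).inv_mem hkP)
      have hc3 : (orderOf (g * k * g⁻¹ * k⁻¹)).Coprime p := (hM _).1 hc1
      obtain ⟨j, hj⟩ := (IsPGroup.iff_orderOf.1 P.2) ⟨_, hc2⟩
      rw [Subgroup.orderOf_mk] at hj
      have h3 : orderOf (g * k * g⁻¹ * k⁻¹) = 1 := by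
        have h4 : (orderOf (g * k * g⁻¹ * k⁻¹)).Coprime (p ^ j) := Nat.Coprime.pow_right j hc3
        rw [← hj] at h4
        exact (Nat.coprime_self _).1 h4
      rw [orderOf_eq_one_iff] at h3
      have h5 : g * k = k * g := by
        have : g * k = (g * k * g⁻¹ * k⁻¹) * (k * g) := by group
        rw [this, h3, one_mul]
      exact h5.symm
    · intro h
      exact Cfsg.Agent.S1988.result hp P (Or.inr h)

end Cfsg.Agent.S3073
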