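import Mathlib
import Cfsg.Statements.S3074
import Cfsg.Agent.Lib.Helper51Qd
import Cfsg.Agent.Lib.Helper89PCube

set_option autoImplicit false
open Cfsg

namespace Cfsg.Agent.S3074

open Cfsg.Agent.Lib.Helper51Qd

theorem pow_card_eq_zero_of_nilp {n : Type*} [Fintype n] [DecidableEq n] {F : Type*} [Field F]
    (K : Matrix n n F) (h : IsNilpotent K) : K ^ Fintype.card n = 0 := by
  have h1 := Matrix.isNilpotent_charpoly_sub_pow_of_isNilpotent h
  have h2 : K.charpoly = Polynomial.X ^ Fintype.card n := sub_eq_zero.1 h1.eq_zero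
  have h3 := Matrix.aeval_self_charpoly K
  rw [h2] at h3
  simpa using h3

/-- an element of `p`-power order of `SL₃(p)`, `p ≥ 3`, has order dividing `p` -/
theorem pow_p_eq_one (p : ℕ) [Fact p.Prime] (hp : p ≠ 2)
    (M : Matrix.SpecialLinearGroup (Fin 3) (ZMod p)) (k : ℕ) (h : M ^ (p ^ k) = 1) : M ^ p = 1 := by
  have hp3 : 3 ≤ p := by
    have := (Fact.out : p.Prime).two_le
    omega
  have h1 : (M : Matrix (Fin 3) (Fin 3) (ZMod p)) ^ (p ^ k) = 1 := by
    have := congrArg (fun x : Matrix.SpecialLinearGroup (Fin 3) (ZMod p) =>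
      (x : Matrix (Fin 3) (Fin 3) (ZMod p))) h
    simpa using this
  have hnil : IsNilpotent ((M : Matrix (Fin 3) (Fin 3) (ZMod p)) - 1) := by
    refine ⟨p ^ k, ?_⟩
    rw [sub_pow_char_pow_of_commute _ _ (Commute.one_right _), h1, one_pow, sub_self]
  have h3 := pow_card_eq_zero_of_nilp _ hnil
  rw [Fintype.card_fin] at h3
  have h4 : ((M : Matrix (Fin 3) (Fin 3) (ZMod p)) - 1) ^ p = 0 := by
    obtain ⟨j, rfl⟩ := Nat.exists_eq_add_of_le hp3
    rw [pow_add, h3, zero_mul]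
  rw [sub_pow_char_of_commute _ (Commute.one_right _), one_pow, sub_eq_zero] at h4
  apply Matrix.SpecialLinearGroup.ext
  intro i j
  have : ((M ^ p : Matrix.SpecialLinearGroup (Fin 3) (ZMod p)) : Matrix (Fin 3) (Fin 3) (ZMod p))
      = 1 := by
    rw [Matrix.SpecialLinearGroup.coe_pow, h4]
  rw [this]; rfl

theorem card_ker (p : ℕ) [Fact p.Prime] :
    Nat.card (blk : ↥(Cfsg.qdOver (ZMod p)) →* _).ker = p ^ 2 := by
  have h1 := Subgroup.card_mul_index (blk : ↥(Cfsg.qdOver (ZMod p)) →* _).ker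
  rw [Subgroup.index_ker, MonoidHom.range_eq_top.2 blk_surjective, Subgroup.card_top,
    card_qdOver, Cfsg.Agent.Lib.Helper7SL.card_SL_two, ZMod.card] at h1
  have hp := (Fact.out : p.Prime).two_le
  have h2 : 0 < p * (p ^ 2 - 1) := by
    have : 4 ≤ p ^ 2 := by nlinarith
    apply Nat.mul_pos <;> omega
  apply Nat.eq_of_mul_eq_mul_right h2
  rw [h1]; ring

theorem card_sylow (p : ℕ) [Fact p.Prime] (P : Sylow p ↥(Cfsg.qdOver (ZMod p))) :
    Nat.card P = p ^ 3 := by
  have hpp := (Fact.out : p.Prime)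
  obtain ⟨k, hk⟩ := IsPGroup.iff_card.1 P.2
  have h1 := Subgroup.card_mul_index (P : Subgroup ↥(Cfsg.qdOver (ZMod p)))
  have h2 := P.not_dvd_index
  rw [card_qdOver, ZMod.card] at h1
  have hk' : Nat.card (P : Subgroup ↥(Cfsg.qdOver (ZMod p))) = p ^ k := hk
  rw [hk'] at h1
  have h3 : ¬ p ∣ p ^ 2 - 1 := by
    intro h
    have h4 : p ∣ p ^ 2 := dvd_pow_self p (by norm_num)
    have h5 : p ∣ p ^ 2 - (p ^ 2 - 1) := Nat.dvd_sub h4 h
    have h6 : p ^ 2 - (p ^ 2 - 1) = 1 := by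
      have : 1 ≤ p ^ 2 := Nat.one_le_pow _ _ hpp.pos
      omega
    rw [h6] at h5
    exact hpp.one_lt.ne' (Nat.dvd_one.1 h5)
  have h7 : p ^ k * (P : Subgroup ↥(Cfsg.qdOver (ZMod p))).index = p ^ 3 * (p ^ 2 - 1) := by
    rw [h1]; ring
  have h8 : p ^ k ∣ p ^ 3 :=
    (Nat.Coprime.pow_left k ((Nat.Prime.coprime_iff_not_dvd hpp).2 h3)).dvd_of_dvd_mul_right
      ⟨_, h7.symm⟩
  have h9 : p ^ 3 ∣ p ^ k :=
    (Nat.Coprime.pow_left 3 ((Nat.Prime.coprime_iff_not_dvd hpp).2 h2)).dvd_of_dvd_mul_right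
      ⟨_, h7⟩
  rw [hk]
  exact Nat.dvd_antisymm h8 h9

theorem main (p : ℕ) [Fact p.Prime] (hp : p ≠ 2) (P : Sylow p ↥(Cfsg.qdOver (ZMod p))) :
    Cfsg.IsExtraspecial p ↥P ∧ Nat.card P = p ^ 3 ∧ Monoid.exponent ↥P = p := by
  have hpp := (Fact.out : p.Prime)
  have hcard := card_sylow p P
  have hker : (blk : ↥(Cfsg.qdOver (ZMod p)) →* _).ker ≤ P :=
    (ker_blk_isPGroup (p := p)).le_sylow_of_normal P
  refine ⟨?_, hcard, ?_⟩
  · apply Cfsg.Agent.Lib.Helper89PCube.isExtraspecial_of_card_cube hcard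
    -- an element outside the kernel
    obtain ⟨x, hxP, hxk⟩ : ∃ x ∈ (P : Subgroup ↥(Cfsg.qdOver (ZMod p))),
        x ∉ (blk : ↥(Cfsg.qdOver (ZMod p)) →* _).ker := by
      by_contra hcon
      push Not at hcon
      have h1 : (P : Subgroup ↥(Cfsg.qdOver (ZMod p))) = (blk : ↥(Cfsg.qdOver (ZMod p)) →* _).ker :=
        le_antisymm hcon hker
      have h2 : Nat.card (P : Subgroup ↥(Cfsg.qdOver (ZMod p))) = p ^ 3 := hcard
      rw [h1, card_ker] at h2
      exact absurd (Nat.pow_right_injective hpp.two_le h2) (by norm_num)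
    by_contra hcon
    push Not at hcon
    apply hxk
    rw [MonoidHom.mem_ker, blk_apply]
    have hx := mk_blk_tr x
    set A := blkFun x with hA
    set b := trFun x with hb
    have key : ∀ v : Fin 2 → ZMod p, (A : Matrix (Fin 2) (Fin 2) (ZMod p)).mulVec v = v := by
      intro v
      have hv : mk 1 v ∈ (P : Subgroup ↥(Cfsg.qdOver (ZMod p))) :=
        hker ((mem_ker_blk_iff' _).2 ⟨v, rfl⟩)
      have h1 := hcon ⟨x, hxP⟩ ⟨mk 1 v, hv⟩
      have h2 : x * mk 1 v = mk 1 v * x := congrArg Subtype.val h1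
      rw [← hx, mk_mul_mk, mk_mul_mk] at h2
      have h3 := (mk_injective h2).2
      simp only [Matrix.SpecialLinearGroup.coe_one, Matrix.one_mulVec] at h3
      have h4 : (A : Matrix (Fin 2) (Fin 2) (ZMod p)).mulVec v + b = v + b := by
        rw [h3, add_comm]
      exact add_right_cancel h4
    apply Subtype.ext
    have : (A : Matrix (Fin 2) (Fin 2) (ZMod p)) = 1 := by
      apply Matrix.ext_of_mulVec_single
      intro i
      rw [key, Matrix.one_mulVec]
    exact this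
  · have h1 : ∀ x : ↥P, x ^ p = 1 := by
      intro x
      obtain ⟨k, hk⟩ := P.2 x
      have h2 : (x : ↥(Cfsg.qdOver (ZMod p))).1 ^ (p ^ k) = 1 := by
        have := congrArg (fun y : ↥P => (y : ↥(Cfsg.qdOver (ZMod p))).1) hk
        simpa using this
      have h3 := pow_p_eq_one p hp _ k h2
      apply Subtype.ext
      apply Subtype.ext
      simpa using h3
    have h2 : Monoid.exponent ↥P ∣ p := Monoid.exponent_dvd_of_forall_pow_eq_one h1
    rcases (Nat.dvd_prime hpp).1 h2 with h | h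
    · exfalso
      rw [Monoid.exp_eq_one_iff] at h
      have h3 : Nat.card ↥P = 1 := Nat.card_eq_one_iff_unique.2 ⟨h, ⟨1⟩⟩
      have h4 : p ^ 3 = 1 := hcard.symm.trans h3
      have : 1 < p ^ 3 := Nat.one_lt_pow (by norm_num) hpp.one_lt
      omega
    · exact h

/-- Let p be an odd prime. A Sylow p-subgroup of Qd(p), the split extension of an elementary abelian group of order p² by SL₂(p) acting naturally, is extraspecial of order p³ and exponent p. -/
theorem result (p : ℕ) [Fact p.Prime] (hp : p ≠ 2) (P : Sylow p ↥(Cfsg.qd p)) :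
    Cfsg.IsExtraspecial p ↥P ∧ Nat.card P = p ^ 3 ∧ Monoid.exponent ↥P = p := by
  exact main p hp P

end Cfsg.Agent.S3074
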