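import Cfsg.Statements.S3075
import Mathlib
-- import your own Cfsg.Agent.* helpers here

set_option autoImplicit false
open Cfsg

namespace Cfsg.Agent.S3075


open Subgroup
open scoped commutatorElement

/-- Commutators act trivially on a cyclic normal subgroup. -/
theorem comm_centralizes_cyclic {N : Type*} [Group N] (W : Subgroup N) (hW : W.Normal) (hc : IsCyclic W)
    (n m : N) : ∀ w ∈ W, ⁅n, m⁆ * w = w * ⁅n, m⁆ := by
  obtain ⟨g, hg⟩ := hc.exists_generator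
  have hpow : ∀ k : N, ∃ r : ℤ, k * (g : N) * k⁻¹ = (g : N) ^ r := by
    intro k
    have h1 : k * (g : N) * k⁻¹ ∈ W := hW.conj_mem g g.2 k
    obtain ⟨r, hr⟩ := Subgroup.mem_zpowers_iff.mp (hg ⟨_, h1⟩)
    exact ⟨r, by have := congrArg Subtype.val hr; simpa using this.symm⟩
  have hcg : ∀ a b : N, (a * b) * (g : N) * (a * b)⁻¹ = (b * a) * (g : N) * (b * a)⁻¹ := by
    intro a b
    obtain ⟨r, hr⟩ := hpow a
    obtain ⟨s, hs⟩ := hpow b
    have e1 : (a * b) * (g : N) * (a * b)⁻¹ = a * (b * (g : N) * b⁻¹) * a⁻¹ := by group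
    have e2 : (b * a) * (g : N) * (b * a)⁻¹ = b * (a * (g : N) * a⁻¹) * b⁻¹ := by group
    rw [e1, e2, hr, hs, ← conj_zpow, ← conj_zpow, hr, hs, ← zpow_mul, ← zpow_mul, mul_comm]
  have hg1 : ⁅n, m⁆ * (g : N) = (g : N) * ⁅n, m⁆ := by
    have h1 := hcg n⁻¹ m⁻¹
    have e : ⁅n, m⁆ = (m⁻¹ * n⁻¹)⁻¹ * (n⁻¹ * m⁻¹) := by simp only [commutatorElement_def]; group
    rw [e]
    have h2 : (m⁻¹ * n⁻¹)⁻¹ * ((n⁻¹ * m⁻¹) * (g : N) * (n⁻¹ * m⁻¹)⁻¹) * (m⁻¹ * n⁻¹) = g := by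
      rw [h1]; group
    calc (m⁻¹ * n⁻¹)⁻¹ * (n⁻¹ * m⁻¹) * (g : N)
        = ((m⁻¹ * n⁻¹)⁻¹ * ((n⁻¹ * m⁻¹) * (g : N) * (n⁻¹ * m⁻¹)⁻¹) * (m⁻¹ * n⁻¹)) *
            ((m⁻¹ * n⁻¹)⁻¹ * (n⁻¹ * m⁻¹)) := by group
      _ = (g : N) * ((m⁻¹ * n⁻¹)⁻¹ * (n⁻¹ * m⁻¹)) := by rw [h2]
  intro w hw
  obtain ⟨r, hr⟩ := Subgroup.mem_zpowers_iff.mp (hg ⟨w, hw⟩)
  have hw' : w = (g : N) ^ r := by have := congrArg Subtype.val hr; simpa using this.symm
  rw [hw']
  exact ((show Commute ⁅n, m⁆ (g : N) from hg1).zpow_right r).eq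

theorem isCyclic_of_lt {N : Type*} [Group N] [Finite N] {p : ℕ} [Fact p.Prime] (A W : Subgroup N)
    (hAcard : Nat.card A = p ^ 2) (hWA : W ≤ A) (hne : W ≠ A) : IsCyclic W := by
  have hp : p.Prime := Fact.out
  have hd := Subgroup.card_dvd_of_le hWA
  rw [hAcard] at hd
  obtain ⟨k, hk, hk'⟩ := (Nat.dvd_prime_pow hp).mp hd
  have : k = 0 ∨ k = 1 ∨ k = 2 := by omega
  rcases this with rfl | rfl | rfl
  · rw [pow_zero] at hk'
    have : Subsingleton W := (Nat.card_eq_one_iff_unique.mp hk').1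
    exact isCyclic_of_subsingleton
  · rw [pow_one] at hk'
    exact isCyclic_of_prime_card hk'
  · exact absurd (Subgroup.eq_of_le_of_card_ge hWA (by rw [hAcard, hk'])) hne

/-- Let p be an odd prime and N a finite group with a normal elementary abelian subgroup A of order p² that is its own centralizer in N, such that N/A is isomorphic to SL₂(p) (over any field F with p elements). Then N splits over A: some subgroup U of N satisfies A ∩ U = 1 and AU = N. -/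
theorem result {N : Type*} [Group N] [Finite N] {p : ℕ} [Fact p.Prime] (hp : p ≠ 2)
    (A : Subgroup N) [A.Normal] (hAcomm : IsMulCommutative A) (hAcard : Nat.card A = p ^ 2) (hAexp : Monoid.exponent ↥A = p)
    (hAself : Subgroup.centralizer (A : Set N) = A)
    {F : Type*} [Field F] [Fintype F] (hF : Fintype.card F = p) (e : N ⧸ A ≃* Matrix.SpecialLinearGroup (Fin 2) F) :
    ∃ U : Subgroup N, A ⊓ U = ⊥ ∧ A ⊔ U = ⊤ := by
  classical
  have hpp : p.Prime := Fact.out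
  obtain ⟨k, hk⟩ : ∃ k, p = 2 * k + 1 := by
    rcases hpp.eq_two_or_odd' with h | ⟨k, hk⟩
    · exact absurd h hp
    · exact ⟨k, hk⟩
  have hAn : A.Normal := inferInstance
  have hAcm : ∀ a ∈ A, ∀ b ∈ A, a * b = b * a := fun a ha b hb => setLike_mul_comm (s := A) ha hb
  have hApow : ∀ a ∈ A, a ^ p = 1 := by
    intro a ha
    have := Monoid.pow_exponent_eq_one (⟨a, ha⟩ : A)
    rw [hAexp] at this
    exact congrArg Subtype.val this
  have hsq : ∀ a ∈ A, (a * a) ^ (k + 1) = a := by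
    intro a ha
    have h1 := hApow a ha
    rw [← pow_two, ← pow_mul]
    have : 2 * (k + 1) = p + 1 := by omega
    rw [this, pow_succ, h1, one_mul]
  have h2F : (2 : F) ≠ 0 := by
    intro h2
    have h1 : ((Fintype.card F : ℕ) : F) = 0 := Nat.cast_card_eq_zero F
    rw [hF, hk] at h1
    push_cast at h1
    rw [h2] at h1
    simp at h1
  obtain ⟨negI, hnegI⟩ : ∃ M : Matrix.SpecialLinearGroup (Fin 2) F, (M : Matrix (Fin 2) (Fin 2) F) = -1 :=
    ⟨⟨-1, by simp [Matrix.det_neg]⟩, rfl⟩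
  have hnegc : ∀ M, negI * M = M * negI := by
    intro M
    apply Subtype.ext
    rw [Matrix.SpecialLinearGroup.coe_mul, Matrix.SpecialLinearGroup.coe_mul, hnegI]
    simp
  have hneg2 : negI * negI = 1 := by
    apply Subtype.ext
    rw [Matrix.SpecialLinearGroup.coe_mul, hnegI]
    simp
  have hneg1 : negI ≠ 1 := by
    intro h
    have h1 := congrArg (fun M : Matrix.SpecialLinearGroup (Fin 2) F => (M : Matrix (Fin 2) (Fin 2) F) 0 0) h
    simp only [hnegI] at h1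
    simp at h1
    apply h2F
    have : (2 : F) = 1 - (-1) := by ring
    rw [this, h1]; ring
  obtain ⟨z, hz⟩ : ∃ z, z = e.symm negI := ⟨_, rfl⟩
  have hzc : ∀ u, z * u = u * z := by
    intro u
    apply e.injective
    rw [map_mul, map_mul, hz, e.apply_symm_apply, hnegc]
  have hz2 : z * z = 1 := by
    apply e.injective
    rw [map_mul, hz, e.apply_symm_apply, hneg2, map_one]
  have hz1 : z ≠ 1 := by
    intro h
    apply hneg1
    have := congrArg e h
    rwa [hz, e.apply_symm_apply, map_one] at this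
  obtain ⟨n0, hn0⟩ := QuotientGroup.mk_surjective z
  obtain ⟨t, ht⟩ : ∃ t, t = n0 ^ p := ⟨_, rfl⟩
  have hmt : (QuotientGroup.mk t : N ⧸ A) = z := by
    rw [ht, QuotientGroup.mk_pow, hn0, hk, pow_succ, pow_mul, pow_two, hz2, one_pow, one_mul]
  have htA : t ∉ A := fun h => hz1 (hmt ▸ (QuotientGroup.eq_one_iff t).mpr h)
  have hn02 : n0 * n0 ∈ A :=
    (QuotientGroup.eq_one_iff _).mp (by rw [QuotientGroup.mk_mul, hn0, hz2])
  have ht2 : t * t = 1 := by
    have := hApow _ hn02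
    rw [← this, (Commute.refl n0).mul_pow, ht]
  have htinv : t⁻¹ = t := inv_eq_of_mul_eq_one_left ht2
  have hcomA : ∀ n : N, n * t * n⁻¹ * t⁻¹ ∈ A := by
    intro n
    apply (QuotientGroup.eq_one_iff _).mp
    rw [QuotientGroup.mk_mul, QuotientGroup.mk_mul, QuotientGroup.mk_mul, QuotientGroup.mk_inv,
      QuotientGroup.mk_inv, hmt, ← hzc]
    group
  have hτA : ∀ a ∈ A, t * a * t⁻¹ ∈ A := fun a ha => hAn.conj_mem a ha t
  have hτn : ∀ n : N, ∀ a ∈ A, t * (n * a * n⁻¹) * t⁻¹ = n * (t * a * t⁻¹) * n⁻¹ := by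
    intro n a ha
    have ha1 := hcomA n⁻¹
    have h1 : n⁻¹ * t * n = (n⁻¹ * t * n⁻¹⁻¹ * t⁻¹) * t := by group
    calc t * (n * a * n⁻¹) * t⁻¹ = n * ((n⁻¹ * t * n) * a * (n⁻¹ * t * n)⁻¹) * n⁻¹ := by group
      _ = n * (((n⁻¹ * t * n⁻¹⁻¹ * t⁻¹) * t) * a * ((n⁻¹ * t * n⁻¹⁻¹ * t⁻¹) * t)⁻¹) * n⁻¹ := by rw [h1]
      _ = n * ((n⁻¹ * t * n⁻¹⁻¹ * t⁻¹) * (t * a * t⁻¹) * (n⁻¹ * t * n⁻¹⁻¹ * t⁻¹)⁻¹) * n⁻¹ := by group
      _ = n * (t * a * t⁻¹) * n⁻¹ := by rw [hAcm _ ha1 _ (hτA a ha), mul_inv_cancel_right]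
  have hττ : ∀ a : N, t * (t * a * t⁻¹) * t⁻¹ = a := by
    intro a
    calc t * (t * a * t⁻¹) * t⁻¹ = (t * t) * a * (t * t)⁻¹ := by group
      _ = a := by rw [ht2]; group
  let Ap : Subgroup N :=
    { carrier := {a | a ∈ A ∧ t * a * t⁻¹ = a}
      one_mem' := ⟨one_mem _, by group⟩
      mul_mem' := by
        rintro a b ⟨ha, ha'⟩ ⟨hb, hb'⟩
        refine ⟨mul_mem ha hb, ?_⟩
        calc t * (a * b) * t⁻¹ = (t * a * t⁻¹) * (t * b * t⁻¹) := by group
          _ = a * b := by rw [ha', hb']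
      inv_mem' := by
        rintro a ⟨ha, ha'⟩
        refine ⟨inv_mem ha, ?_⟩
        calc t * a⁻¹ * t⁻¹ = (t * a * t⁻¹)⁻¹ := by group
          _ = a⁻¹ := by rw [ha'] }
  let Am : Subgroup N :=
    { carrier := {a | a ∈ A ∧ t * a * t⁻¹ = a⁻¹}
      one_mem' := ⟨one_mem _, by group⟩
      mul_mem' := by
        rintro a b ⟨ha, ha'⟩ ⟨hb, hb'⟩
        refine ⟨mul_mem ha hb, ?_⟩
        calc t * (a * b) * t⁻¹ = (t * a * t⁻¹) * (t * b * t⁻¹) := by group
          _ = a⁻¹ * b⁻¹ := by rw [ha', hb']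
          _ = (a * b)⁻¹ := by rw [mul_inv_rev, hAcm _ (inv_mem ha) _ (inv_mem hb)]
      inv_mem' := by
        rintro a ⟨ha, ha'⟩
        refine ⟨inv_mem ha, ?_⟩
        calc t * a⁻¹ * t⁻¹ = (t * a * t⁻¹)⁻¹ := by group
          _ = a⁻¹⁻¹ := by rw [ha'] }
  have hApn : Ap.Normal := by
    refine ⟨fun a ha n => ⟨hAn.conj_mem a ha.1 n, ?_⟩⟩
    rw [hτn n a ha.1, ha.2]
  have hAmn : Am.Normal := by
    refine ⟨fun a ha n => ⟨hAn.conj_mem a ha.1 n, ?_⟩⟩
    rw [hτn n a ha.1, ha.2]; group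
  have hApA : Ap ≤ A := fun a ha => ha.1
  have hAmA : Am ≤ A := fun a ha => ha.1
  have hu : ∀ a ∈ A, a * (t * a * t⁻¹) ∈ Ap := by
    intro a ha
    refine ⟨mul_mem ha (hτA a ha), ?_⟩
    calc t * (a * (t * a * t⁻¹)) * t⁻¹ = (t * a * t⁻¹) * (t * (t * a * t⁻¹) * t⁻¹) := by group
      _ = (t * a * t⁻¹) * a := by rw [hττ]
      _ = a * (t * a * t⁻¹) := hAcm _ (hτA a ha) _ ha
  have hv : ∀ a ∈ A, a * (t * a * t⁻¹)⁻¹ ∈ Am := by
    intro a ha
    refine ⟨mul_mem ha (inv_mem (hτA a ha)), ?_⟩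
    calc t * (a * (t * a * t⁻¹)⁻¹) * t⁻¹ = (t * a * t⁻¹) * (t * (t * a * t⁻¹) * t⁻¹)⁻¹ := by group
      _ = (t * a * t⁻¹) * a⁻¹ := by rw [hττ]
      _ = (a * (t * a * t⁻¹)⁻¹)⁻¹ := by group
  have hApbot : Ap = ⊥ := by
    by_contra hne
    have h1 : Ap ≠ A := by
      intro h
      apply htA
      rw [← hAself]
      intro a ha
      have ha' : a ∈ Ap := h ▸ ha
      have := ha'.2
      exact (mul_inv_eq_iff_eq_mul.mp this).symm
    have h2 : Am ≠ A := by
      intro h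
      obtain ⟨⟨a, ha⟩, hane⟩ := (Subgroup.ne_bot_iff_exists_ne_one).mp hne
      apply hane
      have ha' : a ∈ Am := h ▸ ha.1
      have h3 : a = a⁻¹ := ha.2.symm.trans ha'.2
      have h4 : a * a = 1 := by
        nth_rewrite 1 [h3]; group
      have h5 := hsq a ha.1
      rw [h4, one_pow] at h5
      exact Subtype.ext h5.symm
    have c1 := isCyclic_of_lt A Ap hAcard hApA h1
    have c2 := isCyclic_of_lt A Am hAcard hAmA h2
    have hcomm : ∀ n m : N, ⁅n, m⁆ ∈ A := by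
      intro n m
      rw [← hAself]
      intro a ha
      have e1 := comm_centralizes_cyclic Ap hApn c1 n m _ (hu a ha)
      have e2 := comm_centralizes_cyclic Am hAmn c2 n m _ (hv a ha)
      have e3 : a * a = (a * (t * a * t⁻¹)) * (a * (t * a * t⁻¹)⁻¹) := by
        have hc := hAcm _ (hτA a ha) a ha
        calc a * a = a * (a * (t * a * t⁻¹)) * (t * a * t⁻¹)⁻¹ := by group
          _ = a * ((t * a * t⁻¹) * a) * (t * a * t⁻¹)⁻¹ := by rw [hc]
          _ = (a * (t * a * t⁻¹)) * (a * (t * a * t⁻¹)⁻¹) := by group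
      have e4 : Commute ⁅n, m⁆ (a * a) := by
        rw [e3]
        exact Commute.mul_right e1 e2
      have e5 := e4.pow_right (k + 1)
      rw [hsq a ha] at e5
      exact e5.eq.symm
    have hab : ∀ u v : N ⧸ A, u * v = v * u := by
      intro u v
      obtain ⟨n, rfl⟩ := QuotientGroup.mk_surjective u
      obtain ⟨m, rfl⟩ := QuotientGroup.mk_surjective v
      have h3 := (QuotientGroup.eq_one_iff _).mpr (hcomm n m)
      rw [commutatorElement_def, QuotientGroup.mk_mul, QuotientGroup.mk_mul, QuotientGroup.mk_mul,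
        QuotientGroup.mk_inv, QuotientGroup.mk_inv] at h3
      exact commutatorElement_eq_one_iff_mul_comm.mp h3
    have hSL : ∀ M1 M2 : Matrix.SpecialLinearGroup (Fin 2) F, M1 * M2 = M2 * M1 := by
      intro M1 M2
      have := hab (e.symm M1) (e.symm M2)
      have h3 := congrArg e this
      simpa using h3
    have h3 := hSL ⟨!![1, 1; 0, 1], by simp [Matrix.det_fin_two]⟩ ⟨!![1, 0; 1, 1], by simp [Matrix.det_fin_two]⟩
    have h4 : (!![1, 1; 0, 1] * !![1, 0; 1, 1] : Matrix (Fin 2) (Fin 2) F) = !![1, 0; 1, 1] * !![1, 1; 0, 1] :=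
      congrArg Subtype.val h3
    have h5 := congrFun (congrFun h4 0) 0
    simp [Matrix.mul_apply, Fin.sum_univ_two] at h5
  have hinv : ∀ a ∈ A, t * a * t⁻¹ = a⁻¹ := by
    intro a ha
    have h1 := hu a ha
    rw [hApbot, Subgroup.mem_bot] at h1
    exact (inv_eq_of_mul_eq_one_right h1).symm
  refine ⟨centralizer {t}, ?_, ?_⟩
  · rw [eq_bot_iff]
    rintro a ⟨ha, ha'⟩
    have h1 : a ∈ Ap := by
      refine ⟨ha, ?_⟩
      have := mem_centralizer_singleton_iff.mp ha'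
      rw [← this, mul_inv_cancel_right]
    rwa [hApbot] at h1
  · rw [eq_top_iff]
    intro n _
    have ha0 := hcomA n
    have ha : (n * t * n⁻¹ * t⁻¹) ^ (k + 1) ∈ A := pow_mem ha0 _
    obtain ⟨a, haa⟩ : ∃ a, a = (n * t * n⁻¹ * t⁻¹) ^ (k + 1) := ⟨_, rfl⟩
    rw [← haa] at ha
    have ha2 : a * a = n * t * n⁻¹ * t⁻¹ := by
      rw [haa, ← (Commute.refl _).mul_pow, hsq _ ha0]
    have h1 : a * t * a⁻¹ = n * t * n⁻¹ := by
      have h2 := hinv a⁻¹ (inv_mem ha)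
      rw [inv_inv] at h2
      calc a * t * a⁻¹ = a * (t * a⁻¹ * t⁻¹) * t := by group
        _ = a * a * t := by rw [h2]
        _ = n * t * n⁻¹ := by rw [ha2]; group
    have h3 : a⁻¹ * n ∈ centralizer ({t} : Set N) := by
      rw [mem_centralizer_singleton_iff]
      calc a⁻¹ * n * t = a⁻¹ * (n * t * n⁻¹) * n := by group
        _ = a⁻¹ * (a * t * a⁻¹) * n := by rw [h1]
        _ = t * (a⁻¹ * n) := by group
    have e1 : n = a * (a⁻¹ * n) := by group
    rw [e1]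
    exact mul_mem (le_sup_left (b := centralizer ({t} : Set N)) ha) (le_sup_right (a := A) h3)

end Cfsg.Agent.S3075
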