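import Cfsg.Statements.S3076
import Cfsg.Agent.Lib.Helper53CR

set_option autoImplicit false
open Cfsg

namespace Cfsg.Agent.S3076

open Cfsg.Agent.Lib.Helper53Basic Cfsg.Agent.Lib.Helper53Rel Cfsg.Agent.Lib.Helper53Syl
open Cfsg.Agent.Lib.Helper53CR

/-- Let P be a Sylow p-subgroup of the finite group G and H ≤ P a subgroup with N_P(H) a Sylow p-subgroup of N_G(H). Let N be the preimage in N_G(H) of O_p(N_G(H)/C_G(H)). Then H is a Sylow p-subgroup of N if and only if C_P(H) ≤ H and O_{p',p}(N_G(H)) = H·C_G(H). -/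
theorem result {G : Type*} [Group G] [Finite G] {p : ℕ} [Fact p.Prime]
    (P : Sylow p G) (H : Subgroup G) (hHP : H ≤ (P : Subgroup G))
    (hSyl : ¬ p ∣ ((P : Subgroup G) ⊓ Subgroup.normalizer (H : Set G)).relIndex (Subgroup.normalizer (H : Set G)))
    [hC : ((Subgroup.centralizer (H : Set G)).subgroupOf (Subgroup.normalizer (H : Set G))).Normal] :
    (H ≤ ((Cfsg.pCore p (↥(Subgroup.normalizer (H : Set G)) ⧸
              (Subgroup.centralizer (H : Set G)).subgroupOf (Subgroup.normalizer (H : Set G)))).comap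
            (QuotientGroup.mk' _)).map (Subgroup.normalizer (H : Set G)).subtype ∧
      ¬ p ∣ H.relIndex (((Cfsg.pCore p (↥(Subgroup.normalizer (H : Set G)) ⧸
              (Subgroup.centralizer (H : Set G)).subgroupOf (Subgroup.normalizer (H : Set G)))).comap
            (QuotientGroup.mk' _)).map (Subgroup.normalizer (H : Set G)).subtype)) ↔
    ((P : Subgroup G) ⊓ Subgroup.centralizer (H : Set G) ≤ H ∧
      (Cfsg.pPrimePCore p ↥(Subgroup.normalizer (H : Set G))).map (Subgroup.normalizer (H : Set G)).subtype =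
        H ⊔ Subgroup.centralizer (H : Set G)) := by
  classical
  set L := Subgroup.normalizer (H : Set G) with hL
  set C' := (Subgroup.centralizer (H : Set G)).subgroupOf L with hC'
  have hHL : H ≤ L := Subgroup.le_normalizer
  have hCL : Subgroup.centralizer (H : Set G) ≤ L := centralizer_le_normalizer' H
  have hHn : (H.subgroupOf L).Normal := Subgroup.normal_subgroupOf_iff_le_normalizer hHL |>.2 le_rfl
  have hHp : IsPGroup p (H.subgroupOf L) := (P.2.to_le hHP).comap_subtype
  have hT : IsSyl p (((P : Subgroup G) ⊓ L).subgroupOf L) ⊤ := by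
    refine ⟨le_top, (P.2.to_inf_left).comap_subtype, ?_⟩
    rw [Subgroup.relIndex_top_right]
    exact hSyl
  have hCdef : ∀ x : L, x ∈ C' ↔ ∀ h ∈ H.subgroupOf L, h * x = x * h := by
    intro x
    rw [hC', Subgroup.mem_subgroupOf, Subgroup.mem_centralizer_iff]
    constructor
    · intro h y hy
      apply Subtype.ext
      exact h y hy
    · intro h y hy
      exact congrArg Subtype.val (h ⟨y, hHL hy⟩ hy)
  have hmain := main (p := p) (H := H.subgroupOf L) (C := C') hHp hCdef hT
  have key1 : ∀ (A : Subgroup G) (B : Subgroup L), A ≤ L → (A ≤ B.map L.subtype ↔ A.subgroupOf L ≤ B) := by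
    intro A B hA
    constructor
    · intro h x hx
      obtain ⟨y, hy, hyx⟩ := h hx
      have : y = x := Subtype.ext hyx
      rwa [← this]
    · intro h x hx
      exact ⟨⟨x, hA hx⟩, h hx, rfl⟩
  have key2 : ∀ (A : Subgroup G) (B : Subgroup L),
      A.relIndex (B.map L.subtype) = (A.subgroupOf L).relIndex B := by
    intro A B
    have h1 := Subgroup.relIndex_subgroupOf (H := A) (Subgroup.map_subtype_le B)
    rw [subgroupOf_map_subtype'] at h1
    exact h1.symm
  have key3 : ∀ (A : Subgroup G) (B : Subgroup L), A ≤ L → (B.map L.subtype = A ↔ B = A.subgroupOf L) := by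
    intro A B hA
    constructor
    · intro h
      rw [← h, subgroupOf_map_subtype']
    · intro h
      rw [h, Subgroup.subgroupOf_map_subtype, inf_eq_left.2 hA]
  have e1 : (((P : Subgroup G) ⊓ L).subgroupOf L ⊓ C' ≤ H.subgroupOf L) ↔
      ((P : Subgroup G) ⊓ Subgroup.centralizer (H : Set G) ≤ H) := by
    constructor
    · intro h x hx
      obtain ⟨hxP, hxC⟩ := Subgroup.mem_inf.1 hx
      exact h (x := ⟨x, hCL hxC⟩) (Subgroup.mem_inf.2 ⟨Subgroup.mem_inf.2 ⟨hxP, hCL hxC⟩, hxC⟩)
    · intro h x hx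
      obtain ⟨hx1, hx2⟩ := Subgroup.mem_inf.1 hx
      exact h (Subgroup.mem_inf.2 ⟨(Subgroup.mem_inf.1 hx1).1, hx2⟩)
  have e2 : H.subgroupOf L ⊔ C' = (H ⊔ Subgroup.centralizer (H : Set G)).subgroupOf L :=
    (Subgroup.subgroupOf_sup hHL hCL).symm
  show (H ≤ (pre p C').map L.subtype ∧ ¬ p ∣ H.relIndex ((pre p C').map L.subtype)) ↔ _
  rw [key1 H _ hHL, key2, hmain, e1, key3 _ _ (sup_le hHL hCL), e2]

end Cfsg.Agent.S3076
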