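import Cfsg.Statements.S3087
import Mathlib
-- import your own Cfsg.Agent.* helpers here

set_option autoImplicit false
open Cfsg

namespace Cfsg.Agent.S3087


/-- fixed points of a subgroup as a submodule -/
def fixSub {G V : Type*} [Group G] [AddCommGroup V] (p : ℕ) [Fact p.Prime] [Module (ZMod p) V]
    (ρ : Representation (ZMod p) G V) (B : Subgroup G) : Submodule (ZMod p) V where
  carrier := {v | ∀ b ∈ B, ρ b v = v}
  add_mem' := by
    intro x y hx hy b hb
    rw [map_add, hx b hb, hy b hb]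
  zero_mem' := by
    intro b _
    exact map_zero _
  smul_mem' := by
    intro c x hx b hb
    rw [map_smul, hx b hb]

theorem card_mul_le {V : Type*} [AddCommGroup V] [Finite V] (p : ℕ) [Fact p.Prime] [Module (ZMod p) V]
    (X Y Z T : Submodule (ZMod p) V) (h1 : X ⊔ Y ≤ Z) (h2 : X ⊓ Y ≤ T) :
    Nat.card X * Nat.card Y ≤ Nat.card Z * Nat.card T := by
  have hfin : Module.Finite (ZMod p) V := Module.Finite.of_finite
  have e := Submodule.finrank_sup_add_finrank_inf_eq (K := ZMod p) (V := V) X Y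
  have l1 := Submodule.finrank_mono h1
  have l2 := Submodule.finrank_mono h2
  rw [Module.natCard_eq_pow_finrank (K := ZMod p) (V := X), Module.natCard_eq_pow_finrank (K := ZMod p) (V := Y),
    Module.natCard_eq_pow_finrank (K := ZMod p) (V := Z), Module.natCard_eq_pow_finrank (K := ZMod p) (V := T),
    ← pow_add, ← pow_add]
  apply Nat.pow_le_pow_right
  · exact Nat.card_pos
  · omega

/-- Let p be a prime, G a finite group acting linearly on a finite vector space V over the field with p elements, W a G-invariant subspace, and A a subgroup of G with |A|·|C_V(A)| ≥ |B|·|C_V(B)| for every subgroup B of A. Then |A|·|C_W(A)| ≥ |B|·|C_W(B)| for every subgroup B of A that contains C_A(W); that is, the image of A in the group induced on W satisfies the same maximality condition. -/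
theorem result {G V : Type*} [Group G] [Finite G] [AddCommGroup V] [Finite V] (p : ℕ) [Fact p.Prime] [Module (ZMod p) V]
    (ρ : Representation (ZMod p) G V) (W : Submodule (ZMod p) V) (hW : ∀ g : G, ∀ w ∈ W, ρ g w ∈ W)
    (A : Subgroup G)
    (hP : ∀ B : Subgroup G, B ≤ A →
      Nat.card ↥B * Nat.card {v : V // ∀ b ∈ B, ρ b v = v} ≤ Nat.card ↥A * Nat.card {v : V // ∀ a ∈ A, ρ a v = v})
    (B : Subgroup G) (hBA : B ≤ A) (hCB : ∀ a ∈ A, (∀ w ∈ W, ρ a w = w) → a ∈ B) :
    Nat.card ↥B * Nat.card {w : W // ∀ b ∈ B, ρ b w = w} ≤ Nat.card ↥A * Nat.card {w : W // ∀ a ∈ A, ρ a w = w} := by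
  have hA : Nat.card {v : V // ∀ a ∈ A, ρ a v = v} = Nat.card (fixSub p ρ A) := rfl
  have hB : Nat.card {v : V // ∀ b ∈ B, ρ b v = v} = Nat.card (fixSub p ρ B) := rfl
  have hW' : ∀ C : Subgroup G, Nat.card {w : W // ∀ b ∈ C, ρ b w = w} = Nat.card ↥(fixSub p ρ C ⊓ W) := by
    intro C
    refine Nat.card_congr ⟨fun w => ⟨w.1.1, ⟨w.2, w.1.2⟩⟩, fun v => ⟨⟨v.1, v.2.2⟩, v.2.1⟩, ?_, ?_⟩
    · intro w; rfl
    · intro v; rfl
  rw [hW' A, hW' B]
  have hBA' : fixSub p ρ A ≤ fixSub p ρ B := fun v hv b hb => hv b (hBA hb)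
  have key := card_mul_le p (fixSub p ρ B ⊓ W) (fixSub p ρ A) (fixSub p ρ B) (fixSub p ρ A ⊓ W)
    (sup_le inf_le_left hBA') (by
      intro v hv
      exact ⟨hv.2, hv.1.2⟩)
  have h1 := hP B hBA
  rw [hA, hB] at h1
  have hpos : 0 < Nat.card (fixSub p ρ A) := Nat.card_pos
  apply Nat.le_of_mul_le_mul_right _ hpos
  calc Nat.card ↥B * Nat.card ↥(fixSub p ρ B ⊓ W) * Nat.card (fixSub p ρ A)
      = Nat.card ↥B * (Nat.card ↥(fixSub p ρ B ⊓ W) * Nat.card (fixSub p ρ A)) := by ring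
    _ ≤ Nat.card ↥B * (Nat.card (fixSub p ρ B) * Nat.card ↥(fixSub p ρ A ⊓ W)) := Nat.mul_le_mul_left _ key
    _ = (Nat.card ↥B * Nat.card (fixSub p ρ B)) * Nat.card ↥(fixSub p ρ A ⊓ W) := by ring
    _ ≤ (Nat.card ↥A * Nat.card (fixSub p ρ A)) * Nat.card ↥(fixSub p ρ A ⊓ W) := Nat.mul_le_mul_right _ h1
    _ = Nat.card ↥A * Nat.card ↥(fixSub p ρ A ⊓ W) * Nat.card (fixSub p ρ A) := by ring

end Cfsg.Agent.S3087
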