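import Cfsg.Statements.S3116
import Mathlib
-- import your own Cfsg.Agent.* helpers here

set_option autoImplicit false
open Cfsg

namespace Cfsg.Agent.S3116


open Subgroup

theorem exists_pow_of_mem_zpowers {X : Type*} [Group X] [Finite X] {x g : X} (h : g ∈ zpowers x) :
    ∃ k : ℕ, g = x ^ k := by
  obtain ⟨k, hk⟩ := (mem_powers_iff_mem_zpowers).mpr h
  exact ⟨k, hk.symm⟩

/-- A group with a cyclic subgroup of index two and order `2 ^ n` containing all elements of order `2 ^ n`
has a 2-group of automorphisms. -/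
theorem aut_isPGroup {X : Type*} [Group X] [Finite X] (n : ℕ) (hn : 0 < n) (x : X) (hx : orderOf x = 2 ^ n)
    (hidx : (zpowers x).index = 2) (hout : ∀ g, g ∉ zpowers x → orderOf g ≠ 2 ^ n) :
    IsPGroup 2 (MulAut X) := by
  intro φ
  have hmem : ∀ ψ : MulAut X, ψ x ∈ zpowers x := by
    intro ψ
    by_contra h
    exact hout _ h (by rw [MulEquiv.orderOf_eq, hx])
  obtain ⟨k, hk⟩ := exists_pow_of_mem_zpowers (hmem φ)
  obtain ⟨l, hl⟩ := exists_pow_of_mem_zpowers (hmem φ⁻¹)
  have hkl : k * l ≡ 1 [MOD 2 ^ n] := by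
    have h1 : x ^ (k * l) = x ^ 1 := by
      rw [pow_one, pow_mul, ← hk, ← map_pow, ← hl]
      simp
    rw [← hx]
    exact pow_eq_pow_iff_modEq.mp h1
  have hcop : k.Coprime (2 ^ n) := Nat.coprime_of_mul_modEq_one l hkl
  have hpow : ∀ m : ℕ, (φ ^ m) x = x ^ (k ^ m) := by
    intro m
    induction m with
    | zero => simp
    | succ m ih =>
      rw [pow_succ', MulAut.mul_apply, ih, map_pow, hk, ← pow_mul, pow_succ']
  have htot : Nat.totient (2 ^ n) = 2 ^ (n - 1) := by
    rw [Nat.totient_prime_pow Nat.prime_two hn]; simp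
  have hfix : (φ ^ (2 ^ (n - 1))) x = x := by
    rw [hpow]
    have h1 := Nat.ModEq.pow_totient hcop
    rw [htot, ← hx] at h1
    have := pow_eq_pow_iff_modEq.mpr h1
    rwa [pow_one] at this
  obtain ⟨ψ, hψ⟩ : ∃ ψ, ψ = φ ^ (2 ^ (n - 1)) := ⟨_, rfl⟩
  rw [← hψ] at hfix
  have hfixC : ∀ c ∈ zpowers x, ψ c = c := by
    intro c hc
    obtain ⟨j, rfl⟩ := exists_pow_of_mem_zpowers hc
    rw [map_pow, hfix]
  obtain ⟨y, hy⟩ : ∃ y, y ∉ zpowers x := by
    by_contra hcon
    push Not at hcon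
    have : zpowers x = ⊤ := eq_top_iff.mpr (fun g _ => hcon g)
    rw [this, Subgroup.index_top] at hidx
    omega
  have hψy : ψ y ∉ zpowers x := by
    intro h
    apply hy
    have h1 := hfixC _ h
    have h2 : ψ y = y := ψ.injective h1
    rwa [h2] at h
  have hc : ψ y * y⁻¹ ∈ zpowers x := by
    rw [mul_mem_iff_of_index_two hidx, inv_mem_iff]
    exact ⟨fun h => absurd h hψy, fun h => absurd h hy⟩
  have hψy' : ∀ m : ℕ, (ψ ^ m) y = (ψ y * y⁻¹) ^ m * y := by
    intro m
    induction m with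
    | zero => simp
    | succ m ih =>
      rw [pow_succ', MulAut.mul_apply, ih, map_mul, map_pow, hfixC _ hc, pow_succ]
      group
  have hc2 : (ψ y * y⁻¹) ^ (2 ^ n) = 1 := by
    obtain ⟨j, hj⟩ := exists_pow_of_mem_zpowers hc
    rw [hj, ← pow_mul, mul_comm, pow_mul, ← hx, pow_orderOf_eq_one, one_pow]
  have hθx : ∀ m : ℕ, (ψ ^ m) x = x := by
    intro m
    induction m with
    | zero => simp
    | succ m ih => rw [pow_succ', MulAut.mul_apply, ih, hfix]
  refine ⟨(n - 1) + n, ?_⟩
  rw [pow_add, pow_mul, ← hψ]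
  ext g
  have hθy : (ψ ^ (2 ^ n)) y = y := by rw [hψy', hc2, one_mul]
  have hθC : ∀ c ∈ zpowers x, (ψ ^ (2 ^ n)) c = c := by
    intro c hc'
    obtain ⟨j, rfl⟩ := exists_pow_of_mem_zpowers hc'
    rw [map_pow, hθx]
  by_cases hg : g ∈ zpowers x
  · rw [hθC g hg]; rfl
  · have h1 : g * y⁻¹ ∈ zpowers x := by
      rw [mul_mem_iff_of_index_two hidx, inv_mem_iff]
      exact ⟨fun h => absurd h hg, fun h => absurd h hy⟩
    have e : g = (g * y⁻¹) * y := by group
    rw [MulAut.one_apply]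
    conv_lhs => rw [e]
    rw [map_mul, hθC _ h1, hθy]
    group

theorem index_eq_two {X : Type*} [Group X] [Finite X] (n : ℕ) (x : X) (hx : orderOf x = 2 ^ n)
    (hcard : Nat.card X = 2 ^ (n + 1)) : (zpowers x).index = 2 := by
  have h := (zpowers x).card_mul_index
  rw [Nat.card_zpowers, hx, hcard, pow_succ] at h
  exact Nat.eq_of_mul_eq_mul_left (by positivity) h

/-- The automorphism group of a dihedral 2-group of order at least 8, or of a quasi-dihedral (semidihedral) 2-group of order at least 16, is a 2-group. -/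
theorem result {X : Type*} [Group X] [Finite X] (h2 : IsPGroup 2 X)
    (h : (∃ n : ℕ, 4 ≤ n ∧ Nonempty (X ≃* DihedralGroup n)) ∨ Cfsg.IsQuasiDihedral X) : IsPGroup 2 (MulAut X) := by
  rcases h with ⟨m, hm, ⟨e⟩⟩ | ⟨n, hn, hcard, x, y, hx, hy, hrel⟩
  · haveI : NeZero m := ⟨by omega⟩
    have hcard : Nat.card X = 2 * m := by
      rw [Nat.card_congr e.toEquiv, DihedralGroup.nat_card]
    obtain ⟨k, hk⟩ := IsPGroup.iff_card.mp h2
    rw [hcard] at hk
    obtain ⟨n, rfl⟩ : ∃ n, k = n + 1 := by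
      rcases k with _ | n
      · simp at hk
      · exact ⟨n, rfl⟩
    have hm2 : m = 2 ^ n := by
      rw [pow_succ] at hk; omega
    have hn2 : 2 ≤ n := by
      by_contra hlt
      have : n = 0 ∨ n = 1 := by omega
      rcases this with rfl | rfl <;> simp at hm2 <;> omega
    have hx : orderOf (e.symm (DihedralGroup.r 1)) = 2 ^ n := by
      rw [MulEquiv.orderOf_eq, DihedralGroup.orderOf_r_one, hm2]
    refine aut_isPGroup n (by omega) (e.symm (DihedralGroup.r 1)) hx
      (index_eq_two n _ hx (by rw [hcard, hm2, pow_succ]; ring)) ?_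
    intro g hg
    rcases hgg : e g with i | i
    · exfalso
      apply hg
      have h1 : g = (e.symm (DihedralGroup.r 1)) ^ i.val := by
        rw [← map_pow, DihedralGroup.r_one_pow, ZMod.natCast_zmod_val, ← hgg]; simp
      rw [h1]
      exact pow_mem (mem_zpowers _) _
    · have h1 : orderOf g = 2 := by
        rw [← MulEquiv.orderOf_eq e, hgg, DihedralGroup.orderOf_sr]
      rw [h1]
      intro h3
      have : 2 ^ 2 ≤ 2 ^ n := Nat.pow_le_pow_right (by norm_num) hn2
      omega
  · obtain ⟨n', rfl⟩ : ∃ n', n = n' + 1 := ⟨n - 1, by omega⟩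
    rw [Nat.add_sub_cancel] at hrel
    have hn' : 2 ≤ n' := by omega
    have h4 : 4 ≤ 2 ^ n' := by
      have : 2 ^ 2 ≤ 2 ^ n' := Nat.pow_le_pow_right (by norm_num) hn'
      omega
    have hidx := index_eq_two (n' + 1) x hx hcard
    have hyC : y ∉ zpowers x := by
      intro h
      obtain ⟨j, hj⟩ := exists_pow_of_mem_zpowers h
      have h1 : y * x * y⁻¹ = x := by
        rw [hj]
        have : x ^ j * x = x * x ^ j := by rw [← pow_succ, ← pow_succ']
        rw [this]; group
      rw [h1] at hrel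
      have h3 : x ^ 1 = x ^ (2 ^ n' - 1) := by rw [pow_one]; exact hrel
      have h5 := pow_eq_pow_iff_modEq.mp h3
      rw [hx] at h5
      have h6 := Nat.ModEq.eq_of_lt_of_lt h5 (by rw [pow_succ]; omega) (by rw [pow_succ]; omega)
      omega
    have hy2 : y * y = 1 := by
      rw [← pow_two, ← hy]; exact pow_orderOf_eq_one y
    refine aut_isPGroup (n' + 1) (by omega) x hx hidx ?_
    intro g hg
    have h1 : g * y⁻¹ ∈ zpowers x := by
      rw [mul_mem_iff_of_index_two hidx, inv_mem_iff]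
      exact ⟨fun h => absurd h hg, fun h => absurd h hyC⟩
    obtain ⟨i, hi⟩ := exists_pow_of_mem_zpowers h1
    have hg' : g = x ^ i * y := by rw [← hi]; group
    have hconj : y * x ^ i * y⁻¹ = x ^ ((2 ^ n' - 1) * i) := by
      rw [← conj_pow, hrel, ← pow_mul]
    have hg2 : g ^ 2 = x ^ (2 ^ n' * i) := by
      have e1 : g ^ 2 = x ^ i * (y * x ^ i * y⁻¹) * (y * y) := by
        rw [hg', pow_two]; simp only [mul_assoc, inv_mul_cancel_left]
      rw [e1, hconj, hy2, mul_one, ← pow_add]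
      congr 1
      have : 2 ^ n' = (2 ^ n' - 1) + 1 := by omega
      conv_rhs => rw [this]
      ring
    have hg4 : g ^ 4 = 1 := by
      have e1 : g ^ 4 = (g ^ 2) ^ 2 := by rw [← pow_mul]
      rw [e1, hg2, ← pow_mul]
      have : 2 ^ n' * i * 2 = 2 ^ (n' + 1) * i := by rw [pow_succ]; ring
      rw [this, pow_mul, ← hx, pow_orderOf_eq_one, one_pow]
    have h5 : orderOf g ≤ 4 := Nat.le_of_dvd (by norm_num) (orderOf_dvd_of_pow_eq_one hg4)
    intro h6
    rw [h6, pow_succ] at h5
    omega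

end Cfsg.Agent.S3116
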