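import Cfsg.Statements.S3155
import Mathlib

set_option autoImplicit false
open Cfsg

namespace Cfsg.Agent.S3155

/-- Let B be the direct product of three cyclic groups of order 4. Then the automorphism of B inverting every element is not the square of any automorphism of B. -/
theorem result {B : Type*} [CommGroup B] [Finite B] (hB : Nonempty (B ≃* Multiplicative (ZMod 4 × ZMod 4 × ZMod 4)))
    (τ : B ≃* B) : τ.trans τ ≠ MulEquiv.inv B := by
  intro h
  obtain ⟨e⟩ := hB
  haveI : Fact (1 < 4) := ⟨by norm_num⟩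
  haveI : Nontrivial (ZMod 4) := ZMod.nontrivial 4
  -- transport to an additive endomorphism of M
  let φ : Multiplicative (ZMod 4 × ZMod 4 × ZMod 4) →* Multiplicative (ZMod 4 × ZMod 4 × ZMod 4) :=
    (e.toMonoidHom.comp τ.toMonoidHom).comp e.symm.toMonoidHom
  let f : (ZMod 4 × ZMod 4 × ZMod 4) →+ (ZMod 4 × ZMod 4 × ZMod 4) := AddMonoidHom.toMultiplicative.symm φ
  let F : (ZMod 4 × ZMod 4 × ZMod 4) →ₗ[ZMod 4] (ZMod 4 × ZMod 4 × ZMod 4) := f.toZModLinearMap 4
  have hff : ∀ m, F (F m) = -m := by
    intro m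
    have h1 : τ (τ (e.symm (Multiplicative.ofAdd m))) = (e.symm (Multiplicative.ofAdd m))⁻¹ := by
      have := DFunLike.congr_fun h (e.symm (Multiplicative.ofAdd m))
      simpa using this
    show Multiplicative.toAdd (e (τ (e.symm (Multiplicative.ofAdd (Multiplicative.toAdd (e (τ (e.symm (Multiplicative.ofAdd m))))))))) = -m
    simp only [ofAdd_toAdd, MulEquiv.symm_apply_apply, h1, map_inv, MulEquiv.apply_symm_apply]
    rfl
  have hFF : F * F = (-1 : ZMod 4) • (1 : (ZMod 4 × ZMod 4 × ZMod 4) →ₗ[ZMod 4] (ZMod 4 × ZMod 4 × ZMod 4)) := by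
    apply LinearMap.ext
    intro m
    simp [hff]
  have hdet := congrArg LinearMap.det hFF
  rw [map_mul, LinearMap.det_smul, map_one] at hdet
  have hrank : Module.finrank (ZMod 4) (ZMod 4 × ZMod 4 × ZMod 4) = 3 := by
    rw [Module.finrank_prod, Module.finrank_prod, Module.finrank_self]
  rw [hrank] at hdet
  generalize LinearMap.det F = d at hdet
  revert d
  decide

end Cfsg.Agent.S3155
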