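import Cfsg.Statements.S3156
import Cfsg.Agent.Lib.Helper50SzS3
import Cfsg.Agent.Lib.Helper50SzFin

set_option autoImplicit false
open Cfsg

namespace Cfsg.Agent.S3156

open Cfsg.Agent.Lib.Helper95Herm Cfsg.Agent.Lib.Helper50SzM Cfsg.Agent.Lib.Helper50SzFin
  Cfsg.Agent.Lib.Helper50SzS3 Cfsg.Agent.Lib.Helper95SUStd


/-- If a finite group T is isomorphic to a Sylow 2-subgroup of the projective special unitary group of dimension 3 with parameter 4 (realised over the field with 16 elements), then no subgroup of the automorphism group of T is isomorphic to the symmetric group of degree 3. -/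
theorem result {T : Type*} [Group T] [Finite T] (hT : (∃ (F : Type) (_ : Field F) (_ : Fintype F), Fintype.card F = 16 ∧ ∃ S : Sylow 2 (Cfsg.PSU 3 F 4), Nonempty (T ≃* ↥(S : Subgroup (Cfsg.PSU 3 F 4))))) (H : Subgroup (MulAut T)) : ¬ Nonempty (↥H ≃* Equiv.Perm (Fin 3)) := by
  obtain ⟨F, _, _, hF, S, ⟨E0⟩⟩ := hT
  rintro ⟨e⟩
  have hF' : Fintype.card F = 4 ^ 2 := by rw [hF]; norm_num
  haveI : CharP F 2 := charP_two (m := 4) (by omega) (by rw [hF]; norm_num)
  obtain ⟨E⟩ := exists_equiv hF' 2 S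
  have h := herm_std hF' 3
  refine no_S3 h.trace_surj ?_
    ((MulAut.congr (E0.trans E)).toMonoidHom.comp (H.subtype.comp e.symm.toMonoidHom))
    ((MulAut.congr (E0.trans E)).injective.comp (H.subtype_injective.comp e.symm.injective))
  intro u h1 h3
  rw [sig_apply] at h1
  have h5 : u ^ 5 = 1 := by rw [← h1]; ring
  have h6 : u ^ 6 = 1 := by
    have : u ^ 6 = (u ^ 3) ^ 2 := by ring
    rw [this, h3, one_pow]
  have : u ^ 6 = u ^ 5 * u := by ring
  rw [h6, h5, one_mul] at this
  exact this.symm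

end Cfsg.Agent.S3156
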