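import Cfsg.Statements.S3157
import Cfsg.Agent.Lib.H90HsDefs
import Cfsg.Agent.Lib.H90HsSg
import Cfsg.Agent.Lib.H90HsIs
import Cfsg.Agent.Lib.H90HsSc
import Cfsg.Agent.Lib.H90HsO8
import Cfsg.Agent.Lib.H90HsGe
import Cfsg.Agent.Lib.H90HsPr
import Cfsg.Agent.Lib.H90HsNd

set_option autoImplicit false
open Cfsg

namespace Cfsg.Agent.S3157

/-- Let T be a non-abelian group of order 64 admitting automorphisms ρ of order 3 and x of order 2 with x ρ x⁻¹ = ρ⁻¹ (so they generate a symmetric group of degree 3), where ρ fixes only the identity. Then T is isomorphic to a Sylow 2-subgroup of the projective special linear group of dimension 3 over the field with 4 elements, and the subgroup of fixed points of x is dihedral of order 8 or quaternion of order 8. -/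
theorem result {T : Type*} [Group T] [Finite T] (hT : Nat.card T = 64) (hna : ¬ IsMulCommutative T) (ρ x : MulAut T) (hρ : orderOf ρ = 3) (hx : orderOf x = 2)
    (hxr : x * ρ * x⁻¹ = ρ⁻¹) (hfp : ∀ y : T, ρ y = y → y = 1) (C : Subgroup T) (hC : ∀ y : T, y ∈ C ↔ x y = y) :
    (∃ (F : Type) (_ : Field F) (_ : Fintype F), Fintype.card F = 4 ∧
        ∃ S : Sylow 2 (Matrix.ProjectiveSpecialLinearGroup (Fin 3) F), Nonempty (T ≃* ↥(S : Subgroup (Matrix.ProjectiveSpecialLinearGroup (Fin 3) F)))) ∧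
      (Nonempty (↥C ≃* DihedralGroup 4) ∨ Nonempty (↥C ≃* QuaternionGroup 2)) := by
  classical
  have hρ3 : ρ ^ 3 = 1 := by rw [← hρ]; exact pow_orderOf_eq_one ρ
  have hx2 : x ^ 2 = 1 := by rw [← hx]; exact pow_orderOf_eq_one x
  have hCR : Cfsg.Agent.Lib.H90HsDefs.CR ρ :=
    { card := hT
      na := by
        by_contra hcon
        push Not at hcon
        exact hna ⟨⟨hcon⟩⟩
      rho3 := fun t => by
        have := congrArg (fun f : MulAut T => f t) hρ3
        simpa [pow_succ, MulAut.mul_apply] using this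
      fp := hfp }
  have hCX : Cfsg.Agent.Lib.H90HsDefs.CX ρ x :=
    { toCR := hCR
      x2 := fun t => by
        have := congrArg (fun f : MulAut T => f t) hx2
        simpa [pow_succ, MulAut.mul_apply] using this
      xr := fun t => by
        have h1 : x * ρ = ρ⁻¹ * x := by
          rw [← hxr]; group
        have h2 : ρ⁻¹ = ρ * ρ := by
          rw [inv_eq_iff_mul_eq_one, ← hρ3, pow_succ, pow_succ, pow_one, mul_assoc]
        rw [h2] at h1
        have := congrArg (fun f : MulAut T => f t) h1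
        simpa [MulAut.mul_apply] using this }
  have hCeq : C = Cfsg.Agent.Lib.H90HsDefs.Fx x := by
    ext y
    rw [hC, Cfsg.Agent.Lib.H90HsDefs.mem_Fx]
  constructor
  · obtain ⟨a, b, ha, hb, ha2, hb2⟩ := Cfsg.Agent.Lib.H90HsSg.exists_singular hCX
    obtain ⟨e⟩ := Cfsg.Agent.Lib.H90HsIs.iso_heis hCR ha hb ha2 hb2
    obtain ⟨S, ⟨e'⟩⟩ := Cfsg.Agent.Lib.H90HsSc.exists_sylow
    exact ⟨Cfsg.Agent.Lib.Helper18F4.F4c, inferInstance, inferInstance,
      Cfsg.Agent.Lib.Helper18F4.F4c.card, S, ⟨e.trans e'⟩⟩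
  · subst hCeq
    apply Cfsg.Agent.Lib.H90HsO8.order8 (Cfsg.Agent.Lib.H90HsGe.card_fix hCX)
    obtain ⟨t1, t2, h1, h2, h3, h4⟩ := Cfsg.Agent.Lib.H90HsPr.exists_pair hCX
    refine ⟨⟨t2, h2⟩, ⟨t1, h1⟩, fun he => ?_⟩
    apply Cfsg.Agent.Lib.H90HsNd.nondeg hCR h3 h4
    rw [commutatorElement_eq_one_iff_mul_comm]
    exact congrArg Subtype.val he

end Cfsg.Agent.S3157
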