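import Cfsg.Statements.S3162
import Cfsg.Agent.Lib.Helper50SzOver
import Cfsg.Agent.Lib.Helper50SzAutMain

set_option autoImplicit false
open Cfsg

namespace Cfsg.Agent.S3162

open Cfsg.Agent.Lib.Helper95Herm Cfsg.Agent.Lib.Helper50SzM Cfsg.Agent.Lib.Helper50SzFin
  Cfsg.Agent.Lib.Helper50SzOver Cfsg.Agent.Lib.Helper95SUStd Cfsg.Agent.Lib.Helper50SzAutMain


/-- Let S be a Sylow 2-subgroup of the special unitary group of dimension 3 with parameter q = 2^n (n ≥ 2; realised over the field with q² elements). Then the largest normal 2-subgroup of the automorphism group of S is elementary abelian of order 2^(2n²), and the automorphism group has order 2^(2n²) · 2n(q² − 1). -/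
theorem result {S : Type*} [Group S] [Finite S] (n : ℕ) (hn : 2 ≤ n) {F : Type*} [Field F] [Fintype F] (hF : Fintype.card F = 4 ^ n)
    (P : Sylow 2 ↥(Cfsg.SU 3 F (2 ^ n))) (hS : Nonempty (S ≃* ↥(P : Subgroup ↥(Cfsg.SU 3 F (2 ^ n))))) :
    Cfsg.IsElementaryAbelian 2 (Cfsg.pCore 2 (MulAut S)) ∧ Nat.card ↥(Cfsg.pCore 2 (MulAut S)) = 2 ^ (2 * n ^ 2) ∧
      Nat.card (MulAut S) = 2 ^ (2 * n ^ 2) * (2 * n * ((2 ^ n) ^ 2 - 1)) := by
  have hF' : Fintype.card F = (2 ^ n) ^ 2 := by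
    rw [hF, ← pow_mul, mul_comm, pow_mul]; norm_num
  haveI : CharP F 2 := charP_two (m := n * 2) (by omega) (by rw [hF', pow_mul])
  obtain ⟨E0⟩ := hS
  obtain ⟨E⟩ := exists_equiv_SU hF' 2 P
  have h := herm_std hF' 3
  obtain ⟨t, ht⟩ := Cfsg.Agent.Lib.Helper17Herm.exists_ne_fix _ h.ne_id
  exact main_abs (fun τ x => by rw [sig_apply, sig_apply, map_pow]) h.trace_surj t ht
    (by rw [Nat.card_eq_fintype_card, hF', ← pow_mul, mul_comm]) (card_fixed hF') (E0.trans E)

end Cfsg.Agent.S3162
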