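import Cfsg.Statements.S3178
import Mathlib
import Cfsg.Agent.Lib.Helper58Sylow
import Cfsg.Agent.S0111

set_option autoImplicit false
open Cfsg

namespace Cfsg.Agent.S3178

open Cfsg.Agent.Lib.Helper58Sylow

/-- A normal subgroup `M` of index 2 containing an element of order `2 ^ n`, where `2 ^ (n+1)` is the order of a
Sylow 2-subgroup of `G`, forces a normal 2-complement. -/
theorem complement_of_index_two {G : Type*} [Group G] [Finite G] (S : Sylow 2 G) (n : ℕ) (hn : 1 ≤ n)
    (hS : Nat.card ↥(S : Subgroup G) = 2 ^ (n + 1)) (M : Subgroup G) (hMn : M.Normal) (hM2 : M.index = 2)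
    (c : G) (hcM : c ∈ M) (hc : orderOf c = 2 ^ n) : Cfsg.HasNormalPComplement 2 G := by
  have : Fact (Nat.Prime 2) := ⟨Nat.prime_two⟩
  set m := (S : Subgroup G).index with hm
  have hmodd : ¬ 2 ∣ m := S.not_dvd_index
  have hG : Nat.card G = 2 ^ (n + 1) * m := by rw [← hS, hm, Subgroup.card_mul_index]
  have hMcard : Nat.card M = 2 ^ n * m := by
    have h1 := Subgroup.card_mul_index M
    rw [hM2, hG, pow_succ] at h1
    nlinarith
  set c' : M := ⟨c, hcM⟩ with hc'
  have hc'o : orderOf c' = 2 ^ n := by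
    rw [← hc, ← Subgroup.orderOf_coe c']
  have hC0 : Nat.card (Subgroup.zpowers c') = 2 ^ n := by rw [Nat.card_zpowers, hc'o]
  have hC0p : IsPGroup 2 (Subgroup.zpowers c') := IsPGroup.of_card hC0
  obtain ⟨P, hP⟩ := hC0p.exists_le_sylow
  have hPcard : Nat.card (P : Subgroup M) = 2 ^ n := by
    obtain ⟨k, hk⟩ := P.2.exists_card_eq
    have h1 : 2 ^ k ∣ 2 ^ n * m := by
      rw [← hk, ← hMcard]; exact Subgroup.card_subgroup_dvd_card _
    have hcop : Nat.Coprime (2 ^ k) m :=
      Nat.Coprime.pow_left _ ((Nat.Prime.coprime_iff_not_dvd Nat.prime_two).mpr hmodd)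
    have h2 : 2 ^ k ∣ 2 ^ n := hcop.dvd_of_dvd_mul_right h1
    have h3 : 2 ^ n ≤ 2 ^ k := by
      rw [← hk, ← hC0]; exact Subgroup.card_le_of_le hP
    rw [hk]
    exact le_antisymm (Nat.le_of_dvd (by positivity) h2) h3
  have hPeq : Subgroup.zpowers c' = (P : Subgroup M) :=
    Subgroup.eq_of_le_of_card_ge hP (by rw [hPcard, hC0])
  have hPcyc : IsCyclic (P : Subgroup M) := by
    rw [← hPeq]; infer_instance
  have hmin : (Nat.card M).minFac = 2 := by
    rw [Nat.minFac_eq_two_iff, hMcard]
    exact Dvd.dvd.mul_right (dvd_pow_self 2 (by omega)) m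
  have hcompl := IsCyclic.isComplement' hmin hPcyc
  set K₀ := (MonoidHom.transferSylow P (hPcyc.normalizer_le_centralizer hmin)).ker with hK₀
  have hK₀card : Nat.card K₀ = m := by
    have h1 := hcompl.card_mul_card
    rw [hPcard, hMcard] at h1
    have h2 : 0 < 2 ^ n := by positivity
    nlinarith
  have hK₀n : K₀.Normal := by rw [hK₀]; infer_instance
  have hK₀idx : K₀.index = 2 ^ n := by
    have h1 := Subgroup.card_mul_index K₀
    rw [hK₀card, hMcard] at h1
    have hm0 : 0 < m := Nat.pos_of_ne_zero (fun h => hmodd (h ▸ dvd_zero 2))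
    nlinarith
  have hchar_iff : ∀ x : M, x ∈ K₀ ↔ x ^ m = 1 := by
    intro x
    constructor
    · intro hx
      have h1 : (⟨x, hx⟩ : K₀) ^ Nat.card K₀ = 1 := pow_card_eq_one'
      rw [hK₀card] at h1
      exact congrArg Subtype.val h1
    · intro hx
      rw [← QuotientGroup.eq_one_iff]
      have h1 : (QuotientGroup.mk x : M ⧸ K₀) ^ m = 1 := by
        rw [← QuotientGroup.mk_pow, hx]; rfl
      have h2 : (QuotientGroup.mk x : M ⧸ K₀) ^ (2 ^ n) = 1 := by
        rw [← hK₀idx, Subgroup.index_eq_card]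
        exact pow_card_eq_one'
      have h3 := pow_gcd_eq_one.mpr ⟨h1, h2⟩
      have hcop : Nat.gcd m (2 ^ n) = 1 :=
        Nat.Coprime.symm (Nat.Coprime.pow_left _ ((Nat.Prime.coprime_iff_not_dvd Nat.prime_two).mpr hmodd))
      rw [hcop, pow_one] at h3
      exact h3
  have hK₀char : K₀.Characteristic := by
    rw [Subgroup.characteristic_iff_map_le]
    rintro φ _ ⟨x, hx, rfl⟩
    rw [hchar_iff]
    have := (hchar_iff x).mp hx
    show (φ x) ^ m = 1
    rw [← map_pow, this, map_one]
  have hKn : (K₀.map M.subtype).Normal := ConjAct.normal_of_characteristic_of_normal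
  refine ⟨S, K₀.map M.subtype, hKn, ?_⟩
  have hKcard : Nat.card (K₀.map M.subtype) = m := by
    rw [Subgroup.card_map_of_injective M.subtype_injective, hK₀card]
  apply Subgroup.isComplement'_of_coprime
  · rw [hKcard, hS, hG, mul_comm]
  · rw [hKcard, hS]
    exact Nat.Coprime.symm (Nat.Coprime.pow_left _ ((Nat.Prime.coprime_iff_not_dvd Nat.prime_two).mpr hmodd))

/-- Groups with a modular Sylow 2-subgroup have a normal 2-complement. Let S, of order 2^(n+1) with n ≥ 3, be a Sylow 2-subgroup of a finite group G, and suppose S contains an element a of order 2^n and an involution b with b a b⁻¹ = a^(2^(n-1) + 1); so S is the non-abelian 2-group with a cyclic subgroup of index 2 that is neither dihedral, semidihedral nor generalized quaternion. Then G has a normal 2-complement. -/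
theorem result {G : Type*} [Group G] [Finite G]
    (S : Sylow 2 G) (n : ℕ) (hn : 3 ≤ n) (hS : Nat.card ↥(S : Subgroup G) = 2 ^ (n + 1))
    (a b : G) (ha : a ∈ (S : Subgroup G)) (hb : b ∈ (S : Subgroup G))
    (hao : orderOf a = 2 ^ n) (hbo : orderOf b = 2) (hrel : b * a * b⁻¹ = a ^ (2 ^ (n - 1) + 1)) :
    Cfsg.HasNormalPComplement 2 G := by
  have : Fact (Nat.Prime 2) := ⟨Nat.prime_two⟩
  obtain ⟨k, rfl⟩ : ∃ k, n = k + 3 := ⟨n - 3, by omega⟩
  set E := 2 ^ k with hE
  have hEpos : 0 < E := by positivity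
  have e3 : 2 ^ (k + 3) = 8 * E := by rw [hE]; ring
  have e2 : 2 ^ (k + 3 - 1) = 4 * E := by
    have : k + 3 - 1 = k + 2 := by omega
    rw [this, hE]; ring
  rw [e2] at hrel
  rw [e3] at hao
  have ha8 : a ^ (8 * E) = 1 := by rw [← hao]; exact pow_orderOf_eq_one a
  set z := a ^ (4 * E) with hz
  have hz2 : z * z = 1 := by
    rw [hz, ← pow_add, ← ha8]; congr 1; ring
  have hz1 : z ≠ 1 := by
    intro h
    have h1 := orderOf_dvd_of_pow_eq_one h
    rw [hao] at h1
    have := Nat.le_of_dvd (by positivity) h1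
    omega
  have hzo : orderOf z = 2 := by
    apply orderOf_eq_prime
    · rw [sq]; exact hz2
    · exact hz1
  have hb2 : b * b = 1 := by rw [← sq, ← hbo]; exact pow_orderOf_eq_one b
  have hbinv : b⁻¹ = b := inv_eq_of_mul_eq_one_left hb2
  have hconj : ∀ j : ℕ, b * a ^ j * b⁻¹ = a ^ ((4 * E + 1) * j) := by
    intro j; rw [← conj_pow, hrel, ← pow_mul]
  have hbz : b * z * b⁻¹ = z := by
    rw [hz, hconj]
    have : (4 * E + 1) * (4 * E) = 8 * E * (2 * E) + 4 * E := by ring
    rw [this, pow_add, pow_mul, ha8, one_pow, one_mul]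
  have hbz' : b * z = z * b := by
    calc b * z = b * z * b⁻¹ * b := by group
      _ = z * b := by rw [hbz]
  have hba2 : b * a ^ 2 * b⁻¹ = a ^ 2 := by
    rw [hconj]
    have : (4 * E + 1) * 2 = 8 * E + 2 := by ring
    rw [this, pow_add, ha8, one_mul]
  set Q := Subgroup.zpowers a with hQ
  have hQS : Q ≤ (S : Subgroup G) := by rw [hQ, Subgroup.zpowers_le]; exact ha
  have hQcard : Nat.card Q = 8 * E := by rw [hQ, Nat.card_zpowers, hao]
  have hQidx : (Q.subgroupOf (S : Subgroup G)).index = 2 := by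
    have h1 := Subgroup.card_mul_index (Q.subgroupOf (S : Subgroup G))
    rw [Nat.card_congr (Subgroup.subgroupOfEquivOfLe hQS).toEquiv, hQcard, hS] at h1
    have : 2 ^ (k + 3 + 1) = 8 * E * 2 := by rw [hE]; ring
    rw [this] at h1
    exact Nat.eq_of_mul_eq_mul_left (by positivity) h1
  have hQz : ∀ x ∈ Q, x * z = z * x := by
    intro x hx
    obtain ⟨i, rfl⟩ := Subgroup.mem_zpowers_iff.mp hx
    rw [hz]
    exact ((Commute.refl a).zpow_left i).pow_right _
  have hbQ : b ∉ Q := by
    intro h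
    obtain ⟨i, hi⟩ := Subgroup.mem_zpowers_iff.mp h
    have hc : b * a = a * b := by
      rw [← hi]; exact ((Commute.refl a).zpow_left i)
    have h1 : b * a * b⁻¹ = a := by rw [hc]; group
    rw [h1, pow_succ] at hrel
    apply hz1
    have : 1 * a = z * a := by rw [one_mul]; exact hrel
    exact (mul_right_cancel this).symm
  -- unique involution of Q
  have hF1 : ∀ x ∈ Q, orderOf x = 2 → x = z := by
    intro x hx hxo
    have hfin : IsOfFinOrder a := isOfFinOrder_of_finite a
    obtain ⟨i, hi⟩ := (hfin.mem_powers_iff_mem_zpowers.mpr hx)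
    have hi' : a ^ i = x := hi
    subst hi'
    clear hi
    have h1 : (a ^ i) ^ 2 = 1 := by rw [← hxo]; exact pow_orderOf_eq_one _
    rw [← pow_mul] at h1
    have h2 := orderOf_dvd_of_pow_eq_one h1
    rw [hao] at h2
    have h3 : 4 * E ∣ i := by
      obtain ⟨c, hc⟩ := h2
      exact ⟨c, by nlinarith⟩
    obtain ⟨j, rfl⟩ := h3
    rw [pow_mul] at hxo ⊢
    rcases Nat.even_or_odd' j with ⟨l, rfl | rfl⟩
    · exfalso
      have : (a ^ (4 * E)) ^ (2 * l) = 1 := by
        rw [pow_mul, sq]
        show (z * z) ^ l = 1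
        rw [hz2, one_pow]
      rw [this, orderOf_one] at hxo
      omega
    · show z ^ (2 * l + 1) = z
      rw [pow_succ, pow_mul, sq, hz2, one_pow, one_mul]
  rcases Cfsg.Agent.S0111.result S Q hQS hQidx b hbo hb hbQ with ⟨M, hMn, hM2, hbM⟩ | ⟨g, hg⟩
  · by_cases haM : a ∈ M
    · exact complement_of_index_two S (k + 3) (by omega) hS M hMn hM2 a haM (by rw [hao, e3])
    · have habM : a * b ∈ M := (Subgroup.mul_mem_iff_of_index_two hM2).mpr (iff_of_false haM hbM)
      refine complement_of_index_two S (k + 3) (by omega) hS M hMn hM2 (a * b) habM ?_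
      have hsq : (a * b) ^ 2 = a ^ (4 * E + 2) := by
        calc (a * b) ^ 2 = a * (b * a * b⁻¹) * (b * b) := by rw [sq]; group
          _ = a * a ^ (4 * E + 1) := by rw [hrel, hb2, mul_one]
          _ = a ^ (4 * E + 2) := by rw [← pow_succ']
      have h4 : (a * b) ^ (4 * E) = z := by
        have h1 : 4 * E = 2 * (2 * E) := by ring
        rw [h1, pow_mul, hsq, ← pow_mul]
        have h2 : (4 * E + 2) * (2 * E) = 8 * E * E + 4 * E := by ring
        rw [h2, pow_add, pow_mul, ha8, one_pow, one_mul]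
      apply orderOf_eq_prime_pow (n := k + 2)
      · have : 2 ^ (k + 2) = 4 * E := by rw [hE]; ring
        rw [this, h4]; exact hz1
      · have : 2 ^ (k + 2 + 1) = 4 * E * 2 := by rw [hE]; ring
        rw [this, pow_mul, h4, sq]; exact hz2
  · exfalso
    have hgo : orderOf (g * b * g⁻¹) = 2 := by
      rw [← hbo]
      exact orderOf_injective (MulAut.conj g).toMonoidHom (MulAut.conj g).injective b
    have hgz : g * b * g⁻¹ = z := hF1 _ hg hgo
    -- S centralizes z
    have hSz : ∀ s ∈ (S : Subgroup G), s * z = z * s := by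
      intro s hs
      by_cases hsQ : s ∈ Q
      · exact hQz s hsQ
      · have h1 : (⟨s, hs⟩ * ⟨b, hb⟩ : (S : Subgroup G)) ∈ Q.subgroupOf (S : Subgroup G) :=
          (Subgroup.mul_mem_iff_of_index_two hQidx).mpr
            (iff_of_false (by simpa [Subgroup.mem_subgroupOf] using hsQ)
              (by simpa [Subgroup.mem_subgroupOf] using hbQ))
        have h2 : s * b ∈ Q := by simpa [Subgroup.mem_subgroupOf] using h1
        have h3 := hQz _ h2
        have h4 : s * z * b = z * s * b := by
          calc s * z * b = s * (z * b) := by group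
            _ = s * (b * z) := by rw [hbz']
            _ = s * b * z := by group
            _ = z * (s * b) := h3
            _ = z * s * b := by group
        exact mul_right_cancel h4
    set C := Subgroup.centralizer ({b} : Set G) with hC
    set T : Sylow 2 G := g⁻¹ • S with hT
    have hTC : (T : Subgroup G) ≤ C := by
      intro x hx
      rw [hT, mem_smul_sylow, inv_inv] at hx
      have h1 := hSz _ hx
      rw [hC, Subgroup.mem_centralizer_singleton_iff]
      rw [← hgz] at h1
      have h2 : g * (x * b) * g⁻¹ = g * (b * x) * g⁻¹ := by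
        calc g * (x * b) * g⁻¹ = g * x * g⁻¹ * (g * b * g⁻¹) := by group
          _ = g * b * g⁻¹ * (g * x * g⁻¹) := h1
          _ = g * (b * x) * g⁻¹ := by group
      exact mul_left_cancel (mul_right_cancel h2)
    have hA₀p : IsPGroup 2 ((S : Subgroup G) ⊓ C : Subgroup G) := S.2.to_le inf_le_left
    obtain ⟨c, hcC, hc⟩ := exists_conj_le T hTC (inf_le_right : (S : Subgroup G) ⊓ C ≤ C) hA₀p
    have ha2C : a ^ 2 ∈ (S : Subgroup G) ⊓ C := by
      refine ⟨(S : Subgroup G).pow_mem ha 2, ?_⟩
      show a ^ 2 ∈ C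
      rw [hC, Subgroup.mem_centralizer_singleton_iff]
      calc a ^ 2 * b = (b * a ^ 2 * b⁻¹) * b := by rw [hba2]
        _ = b * a ^ 2 := by group
    have hw := hc _ ha2C
    rw [hT, mem_smul_sylow, inv_inv] at hw
    set w := g * (c * a ^ 2 * c⁻¹) * g⁻¹ with hwdef
    have hcb : c * b * c⁻¹ = b := by
      rw [hC, Subgroup.mem_centralizer_singleton_iff] at hcC
      rw [hcC]; group
    have hw2 : w * w ∈ Q := by
      have h1 : (⟨w, hw⟩ * ⟨w, hw⟩ : (S : Subgroup G)) ∈ Q.subgroupOf (S : Subgroup G) :=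
        Subgroup.mul_self_mem_of_index_two hQidx _
      simpa [Subgroup.mem_subgroupOf] using h1
    have hwE : w ^ (2 * E) = g * c * z * (g * c)⁻¹ := by
      have h1 : w = (g * c) * a ^ 2 * (g * c)⁻¹ := by rw [hwdef]; group
      rw [h1, conj_pow, ← pow_mul, hz]
      congr 3
      ring
    have hwQ : w ^ (2 * E) ∈ Q := by
      rw [pow_mul, sq]; exact Q.pow_mem hw2 E
    have hwo : orderOf (w ^ (2 * E)) = 2 := by
      rw [hwE, ← hzo]
      exact orderOf_injective (MulAut.conj (g * c)).toMonoidHom (MulAut.conj (g * c)).injective z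
    have h5 := hF1 _ hwQ hwo
    rw [hwE] at h5
    have h6 : g * c * b * (g * c)⁻¹ = z := by
      calc g * c * b * (g * c)⁻¹ = g * (c * b * c⁻¹) * g⁻¹ := by group
        _ = z := by rw [hcb, hgz]
    have h7 : z = b := by
      have : g * c * z * (g * c)⁻¹ = g * c * b * (g * c)⁻¹ := by rw [h5, h6]
      exact mul_left_cancel (mul_right_cancel this)
    apply hbQ
    rw [← h7, hz]
    exact Q.pow_mem (Subgroup.mem_zpowers a) _

end Cfsg.Agent.S3178
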