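import Cfsg.Statements.S3179
import Mathlib
import Cfsg.Agent.S1163
import Cfsg.Agent.S0280
import Cfsg.Agent.Lib.Helper41Dk11
import Cfsg.Agent.Lib.Helper41SL2Dic

set_option autoImplicit false
open Cfsg

namespace Cfsg.Agent.S3179


theorem nine_dvd {α : Type*} [Finite α] (σ : Equiv.Perm α) (h9 : orderOf σ = 9) :
    9 ∣ Nat.card {a : α // (σ ^ 3) a ≠ a} := by
  classical
  let G := Subgroup.zpowers σ
  have hG : Nat.card G = 9 := by rw [Nat.card_zpowers, h9]
  let S : SubMulAction G α :=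
    { carrier := {a | (σ ^ 3) a ≠ a}
      smul_mem' := by
        rintro ⟨c, hc⟩ a ha
        obtain ⟨k, rfl⟩ := Subgroup.mem_zpowers_iff.mp hc
        change (σ ^ 3) ((σ ^ k) a) ≠ (σ ^ k) a
        intro h
        apply ha
        have h1 : (σ ^ 3) ((σ ^ k) a) = (σ ^ k) ((σ ^ 3) a) := by
          rw [← Equiv.Perm.mul_apply, ← Equiv.Perm.mul_apply]
          congr 1
          exact ((Commute.refl σ).pow_left 3).zpow_right k
        rw [h1] at h
        exact (σ ^ k).injective h }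
  have hfree : ∀ b : S, MulAction.stabilizer G b = ⊥ := by
    rintro ⟨b, hb⟩
    rw [Subgroup.eq_bot_iff_forall]
    rintro ⟨c, hc⟩ hcb
    have hcb' : c b = b := congrArg Subtype.val (MulAction.mem_stabilizer_iff.mp hcb)
    have hfin : IsOfFinOrder σ := isOfFinOrder_of_finite σ
    obtain ⟨k, rfl⟩ := (hfin.mem_powers_iff_mem_zpowers.mpr hc)
    apply Subtype.ext
    change σ ^ k = 1
    have hb' : (σ ^ 3) b ≠ b := hb
    have p9 : Function.minimalPeriod σ b ∣ 9 := by
      rw [← Function.isPeriodicPt_iff_minimalPeriod_dvd]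
      change σ^[9] b = b
      rw [Equiv.Perm.iterate_eq_pow, ← h9, pow_orderOf_eq_one]; rfl
    have p3 : ¬ Function.minimalPeriod σ b ∣ 3 := by
      rw [← Function.isPeriodicPt_iff_minimalPeriod_dvd]
      change ¬ σ^[3] b = b
      rw [Equiv.Perm.iterate_eq_pow]; exact hb'
    have pk : Function.minimalPeriod σ b ∣ k := by
      rw [← Function.isPeriodicPt_iff_minimalPeriod_dvd]
      change σ^[k] b = b
      rw [Equiv.Perm.iterate_eq_pow]; exact hcb'
    have h : Function.minimalPeriod σ b = 9 := by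
      have hle : Function.minimalPeriod σ b ≤ 9 := Nat.le_of_dvd (by norm_num) p9
      generalize Function.minimalPeriod σ b = n at *
      interval_cases n <;> first | rfl | (exfalso; revert p9 p3; decide)
    rw [h, ← h9] at pk
    exact orderOf_dvd_iff_pow_eq_one.mp pk
  have e := MulAction.selfEquivOrbitsQuotientProd hfree
  have h1 : Nat.card S = Nat.card (Quotient (MulAction.orbitRel G S)) * 9 := by
    rw [Nat.card_congr e, Nat.card_prod, hG]
  exact ⟨_, (h1.trans (mul_comm _ _))⟩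

def rho : GL (Fin 5) (ZMod 2) →* Equiv.Perm (Fin 5 → ZMod 2) where
  toFun g :=
    { toFun := fun v => (g : Matrix (Fin 5) (Fin 5) (ZMod 2)).mulVec v
      invFun := fun v => ((g⁻¹ : GL (Fin 5) (ZMod 2)) : Matrix (Fin 5) (Fin 5) (ZMod 2)).mulVec v
      left_inv := fun v => by
        beta_reduce
        rw [Matrix.mulVec_mulVec, ← Units.val_mul, inv_mul_cancel, Units.val_one, Matrix.one_mulVec]
      right_inv := fun v => by
        beta_reduce
        rw [Matrix.mulVec_mulVec, ← Units.val_mul, mul_inv_cancel, Units.val_one, Matrix.one_mulVec] }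
  map_one' := by
    ext v
    simp
  map_mul' a b := by
    ext v
    simp [Matrix.mulVec_mulVec]

theorem rho_injective : Function.Injective rho := by
  rw [injective_iff_map_eq_one]
  intro g hg
  apply Units.ext
  apply Matrix.toLin'.injective
  apply LinearMap.ext
  intro v
  rw [Matrix.toLin'_apply]
  have : (g : Matrix (Fin 5) (Fin 5) (ZMod 2)).mulVec v = v :=
    congrArg (fun σ : Equiv.Perm (Fin 5 → ZMod 2) => σ v) hg
  rw [this]; simp

theorem no_nine (g : GL (Fin 5) (ZMod 2)) : orderOf g ≠ 9 := by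
  intro h9
  have h9' : orderOf (rho g) = 9 := by rw [orderOf_injective rho rho_injective, h9]
  obtain ⟨t, ht⟩ := nine_dvd (rho g) h9'
  let f : Module.End (ZMod 2) (Fin 5 → ZMod 2) :=
    Matrix.toLin' ((g ^ 3 : GL (Fin 5) (ZMod 2)) : Matrix (Fin 5) (Fin 5) (ZMod 2))
  have hmem : ∀ v, v ∈ LinearMap.ker (f - 1) ↔ (rho g ^ 3) v = v := by
    intro v
    rw [LinearMap.mem_ker, LinearMap.sub_apply, sub_eq_zero, ← map_pow]
    rfl
  have e : {v : Fin 5 → ZMod 2 // (rho g ^ 3) v = v} ≃ LinearMap.ker (f - 1) :=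
    Equiv.subtypeEquivRight (fun v => (hmem v).symm)
  have h1 : Nat.card {v : Fin 5 → ZMod 2 // (rho g ^ 3) v = v} =
      2 ^ Module.finrank (ZMod 2) (LinearMap.ker (f - 1)) := by
    rw [Nat.card_congr e, Module.natCard_eq_pow_finrank (K := ZMod 2), Nat.card_zmod]
  have h2 : Nat.card {v : Fin 5 → ZMod 2 // (rho g ^ 3) v = v} +
      Nat.card {v : Fin 5 → ZMod 2 // (rho g ^ 3) v ≠ v} = 32 := by
    rw [← Nat.card_sum, Nat.card_congr (Equiv.sumCompl _), Nat.card_eq_fintype_card]
    simp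
  have h3 : Module.finrank (ZMod 2) (LinearMap.ker (f - 1)) ≤ 5 := by
    have := Submodule.finrank_le (LinearMap.ker (f - 1))
    simpa using this
  rw [h1, ht] at h2
  have h4 : Module.finrank (ZMod 2) (LinearMap.ker (f - 1)) = 5 := by
    generalize Module.finrank (ZMod 2) (LinearMap.ker (f - 1)) = j at *
    interval_cases j <;> omega
  have h5 : LinearMap.ker (f - 1) = ⊤ := by
    apply Submodule.eq_top_of_finrank_eq
    rw [h4]; simp
  have h6 : rho g ^ 3 = 1 := by
    ext1 v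
    exact (hmem v).mp (by rw [h5]; trivial)
  have := orderOf_dvd_of_pow_eq_one h6
  rw [h9'] at this
  revert this; decide


theorem card_GL5 : Nat.card (GL (Fin 5) (ZMod 2)) = 9999360 := by
  rw [Matrix.card_GL_field, ZMod.card, Fin.prod_univ_five]
  rfl

theorem pow_two_bound {n N : ℕ} (h : 2 ^ n ∣ N) (hN : N ∣ 9999360) : n ≤ 10 := by
  by_contra hcon
  have h1 : 2 ^ 11 ∣ 2 ^ n := pow_dvd_pow 2 (by omega)
  have := (h1.trans h).trans hN
  revert this; decide

open Cfsg.Agent.Lib.Helper41Dk Cfsg.Agent.Lib.Helper41SL2 Cfsg.Agent.Lib.Helper46SL2 in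
theorem exists_order_nine {F : Type*} [Field F] [Fintype F] (hF : Fintype.card F = 8) :
    ∃ a : Matrix.ProjectiveSpecialLinearGroup (Fin 2) F, orderOf a = 9 := by
  obtain ⟨A, -, hA, -⟩ := exists_nonSplit_generator (F := F)
  refine ⟨proj F A, ?_⟩
  have hinj : Function.Injective (proj F) := by
    rw [← MonoidHom.ker_eq_bot_iff]
    have h1 : (proj F).ker = Subgroup.center _ := QuotientGroup.ker_mk' _
    rw [h1]
    exact Subgroup.eq_bot_of_card_eq _ (ee_eq_one (by rw [hF]; decide))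
  rw [orderOf_injective _ hinj, hA, hF]

open Cfsg.Agent.Lib.Helper41Dk in
theorem card_PSL2_even {F : Type*} [Field F] [Fintype F] {n : ℕ} (hn : 1 ≤ n)
    (hF : Fintype.card F = 2 ^ n) :
    Nat.card (Matrix.ProjectiveSpecialLinearGroup (Fin 2) F) = 2 ^ n * ((2 ^ n) ^ 2 - 1) := by
  have h1 := card_SL2_eq (F := F)
  rw [ee_eq_one (by rw [hF]; exact (Nat.even_pow.mpr ⟨even_two, by omega⟩)), one_mul,
    Cfsg.Agent.Lib.Helper7SL.card_SL_two, hF] at h1
  exact h1.symm


/-- Let X be a section of the general linear group GL(5, 2), that is, a quotient of a subgroup of it. If X is isomorphic to PSL(2, 2^n) for some n ≥ 2, to a Suzuki group over the field with 2^(2m+1) elements for some m ≥ 1, or to PSU(3, 2^n) for some n ≥ 2, then X is isomorphic to PSL(2, 4). -/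
theorem result {H : Subgroup (GL (Fin 5) (ZMod 2))}
    {K : Subgroup ↥H} [K.Normal]
    (hX : (∃ (n : ℕ) (F : Type) (_ : Field F) (_ : Fintype F), 2 ≤ n ∧ Fintype.card F = 2 ^ n ∧
        Nonempty (↥H ⧸ K ≃* Matrix.ProjectiveSpecialLinearGroup (Fin 2) F)) ∨
      (∃ (m : ℕ) (F : Type) (_ : Field F) (_ : Fintype F), 1 ≤ m ∧ Fintype.card F = 2 ^ (2 * m + 1) ∧
        Nonempty (↥H ⧸ K ≃* ↥(Cfsg.Lie.Sz F (2 ^ (m + 1))))) ∨
      (∃ (n : ℕ) (F : Type) (_ : Field F) (_ : Fintype F), 2 ≤ n ∧ Fintype.card F = 4 ^ n ∧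
        Nonempty (↥H ⧸ K ≃* Cfsg.PSU 3 F (2 ^ n)))) :
    ∃ (F : Type) (_ : Field F) (_ : Fintype F), Fintype.card F = 4 ∧
      Nonempty (↥H ⧸ K ≃* Matrix.ProjectiveSpecialLinearGroup (Fin 2) F) := by
  have hdvd : Nat.card (↥H ⧸ K) ∣ 9999360 := by
    rw [← card_GL5]
    exact (Subgroup.card_quotient_dvd_card K).trans (Subgroup.card_subgroup_dvd_card H)
  rcases hX with ⟨n, F, _, _, hn, hF, ⟨e⟩⟩ | ⟨m, F, _, _, hm, hF, ⟨e⟩⟩ | ⟨n, F, _, _, hn, hF, ⟨e⟩⟩
  · have hc := card_PSL2_even (by omega) hF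
    rw [← Nat.card_congr e.toEquiv] at hc
    have hb : n ≤ 10 := pow_two_bound (N := Nat.card (↥H ⧸ K)) (by rw [hc]; exact dvd_mul_right _ _) hdvd
    rw [hc] at hdvd
    have hn23 : n = 2 ∨ n = 3 := by
      interval_cases n <;> first | (left; rfl) | (right; rfl) | (exfalso; revert hdvd; decide)
    rcases hn23 with rfl | rfl
    · exact ⟨F, _, _, hF, ⟨e⟩⟩
    · exfalso
      obtain ⟨a, ha⟩ := exists_order_nine (F := F) hF
      obtain ⟨h, hh⟩ := QuotientGroup.mk_surjective (e.symm a)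
      have ha' : orderOf (e.symm a) = 9 := by rw [MulEquiv.orderOf_eq, ha]
      -- the element `h ^ 1111040`
      have h9 : ((h : GL (Fin 5) (ZMod 2)) ^ 1111040) ^ 9 = 1 := by
        rw [← pow_mul, show 1111040 * 9 = 9999360 by norm_num, ← card_GL5]
        exact pow_card_eq_one'
      have h3 : ((h : GL (Fin 5) (ZMod 2)) ^ 1111040) ^ 3 ≠ 1 := by
        intro h3
        have h4 : (h ^ 1111040) ^ 3 = 1 := Subtype.ext h3
        have h5 := congrArg (QuotientGroup.mk : ↥H → ↥H ⧸ K) h4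
        rw [QuotientGroup.mk_pow, QuotientGroup.mk_pow, hh, QuotientGroup.mk_one, ← pow_mul] at h5
        have := orderOf_dvd_of_pow_eq_one h5
        rw [ha'] at this
        revert this; decide
      apply no_nine ((h : GL (Fin 5) (ZMod 2)) ^ 1111040)
      have := Fact.mk Nat.prime_three
      exact orderOf_eq_prime_pow (p := 3) (n := 1) h3 h9
  · exfalso
    have hc := (Cfsg.Agent.S1163.result hm hF).1
    rw [← Nat.card_congr e.toEquiv] at hc
    have hb : 2 * (2 * m + 1) ≤ 10 := pow_two_bound (N := Nat.card (↥H ⧸ K)) (by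
      rw [hc, ← pow_mul, mul_comm (2 * m + 1) 2, mul_assoc]; exact dvd_mul_right _ _) hdvd
    rw [hc] at hdvd
    have : m = 1 ∨ m = 2 := by omega
    rcases this with rfl | rfl <;> (revert hdvd; decide)
  · exfalso
    have hF' : Fintype.card F = (2 ^ n) ^ 2 := by
      rw [hF, ← pow_mul, mul_comm, pow_mul]; norm_num
    have hc := Cfsg.Agent.S0280.result hF' 3 (by norm_num)
    rw [← Nat.card_congr e.toEquiv] at hc
    have hprod : ∏ i ∈ Finset.range 3, (if Even i then (2 ^ n) ^ (i + 1) + 1 else (2 ^ n) ^ (i + 1) - 1) =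
        ((2 ^ n) ^ 1 + 1) * ((2 ^ n) ^ 2 - 1) * ((2 ^ n) ^ 3 + 1) := by
      rw [Finset.prod_range_succ, Finset.prod_range_succ, Finset.prod_range_one,
        if_pos (by decide), if_neg (by decide), if_pos (by decide)]
    rw [hprod, show 3 * (3 - 1) / 2 = 3 by norm_num] at hc
    have hodd : Odd (2 ^ n + 1) := (Nat.even_pow.mpr ⟨even_two, by omega⟩).add_one
    have hodd2 : Odd (Nat.gcd 3 (2 ^ n + 1) * (2 ^ n + 1)) :=
      (Odd.of_dvd_nat hodd (Nat.gcd_dvd_right _ _)).mul hodd
    have hcop : Nat.Coprime (2 ^ (n * 3)) (Nat.gcd 3 (2 ^ n + 1) * (2 ^ n + 1)) :=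
      Nat.Coprime.pow_left _ (Nat.coprime_two_left.mpr hodd2)
    have hd2 : 2 ^ (n * 3) ∣ Nat.card (↥H ⧸ K) := by
      apply hcop.dvd_of_dvd_mul_left
      rw [mul_assoc, hc, ← pow_mul]
      exact dvd_mul_right _ _
    have hb : n * 3 ≤ 10 := pow_two_bound hd2 hdvd
    have : n = 2 ∨ n = 3 := by omega
    rcases this with rfl | rfl
    · have h1 : Nat.card (↥H ⧸ K) = 62400 := by
        norm_num at hc
        omega
      rw [h1] at hdvd
      revert hdvd; decide
    · have h1 : Nat.card (↥H ⧸ K) = 5515776 := by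
        norm_num at hc
        omega
      rw [h1] at hdvd
      revert hdvd; decide

end Cfsg.Agent.S3179
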