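import Cfsg.Statements.S3180
import Mathlib

set_option autoImplicit false
open Cfsg

namespace Cfsg.Agent.S3180

/-- Let P be a Sylow p-subgroup of a finite group J and P₁ a subgroup of P that is weakly closed in P with respect to J. If J acts on a set and two points, each fixed by every element of P₁, lie in one J-orbit, then they lie in one orbit of the normalizer of P₁ in J. -/
theorem result {J : Type*} [Group J] [Finite J]
    {p : ℕ} [Fact p.Prime] (P : Sylow p J) (P₁ : Subgroup J) (hW : Cfsg.IsWeaklyClosed P₁ (P : Subgroup J))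
    {Ω : Type*} [MulAction J Ω] (x y : Ω) (hx : ∀ g ∈ P₁, g • x = x) (hy : ∀ g ∈ P₁, g • y = y)
    (hc : ∃ g : J, g • x = y) :
    ∃ g ∈ Subgroup.normalizer (P₁ : Set J), g • x = y := by
  classical
  obtain ⟨g, hg⟩ := hc
  obtain ⟨hP₁P, hwc⟩ := hW
  -- the stabilizer of y
  set H : Subgroup J := MulAction.stabilizer J y with hH
  have hP₁H : P₁ ≤ H := fun a ha => by
    rw [hH, MulAction.mem_stabilizer_iff]; exact hy a ha
  set Q : Subgroup J := P₁.map (MulAut.conj g).toMonoidHom with hQ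
  have hQH : Q ≤ H := by
    rintro _ ⟨a, ha, rfl⟩
    rw [hH, MulAction.mem_stabilizer_iff]
    show (g * a * g⁻¹) • y = y
    rw [← hg, mul_smul, mul_smul, inv_smul_smul, hx a ha]
  have hP₁p : IsPGroup p P₁ := P.2.to_le hP₁P
  have hQp : IsPGroup p Q := hP₁p.map _
  -- Sylow subgroups of H containing P₁ and Q
  have h1 : IsPGroup p (P₁.subgroupOf H) := hP₁p.comap_subtype
  have h2 : IsPGroup p (Q.subgroupOf H) := hQp.comap_subtype
  obtain ⟨S1, hS1⟩ := h1.exists_le_sylow
  obtain ⟨S2, hS2⟩ := h2.exists_le_sylow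
  obtain ⟨h, hh⟩ := MulAction.exists_smul_eq H S2 S1
  -- the p-subgroup S1 of J is contained in a conjugate of P
  have h3 : IsPGroup p ((S1 : Subgroup H).map H.subtype) := S1.2.map _
  obtain ⟨R, hR⟩ := h3.exists_le_sylow
  obtain ⟨k, hk⟩ := MulAction.exists_smul_eq J R P
  -- P₁ ≤ R and (h g) P₁ (h g)⁻¹ ≤ R
  have hP₁R : P₁ ≤ R := fun a ha => hR ⟨⟨a, hP₁H ha⟩, hS1 (by simpa [Subgroup.mem_subgroupOf] using ha), rfl⟩
  have hQR : ∀ a ∈ P₁, (h : J) * g * a * ((h : J) * g)⁻¹ ∈ (R : Subgroup J) := by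
    intro a ha
    have hq : g * a * g⁻¹ ∈ Q := ⟨a, ha, rfl⟩
    have hq2 : (⟨g * a * g⁻¹, hQH hq⟩ : H) ∈ (S2 : Subgroup H) :=
      hS2 (by simpa [Subgroup.mem_subgroupOf] using hq)
    have hq3 : h * (⟨g * a * g⁻¹, hQH hq⟩ : H) * h⁻¹ ∈ (S1 : Subgroup H) := by
      rw [← hh, Sylow.coe_subgroup_smul]
      exact Subgroup.smul_mem_pointwise_smul _ _ _ hq2
    have := hR ⟨_, hq3, rfl⟩
    simpa [mul_assoc] using this
  have hRP : ∀ a ∈ (R : Subgroup J), k * a * k⁻¹ ∈ (P : Subgroup J) := by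
    intro a ha
    rw [← hk, Sylow.coe_subgroup_smul]
    exact Subgroup.smul_mem_pointwise_smul _ _ _ ha
  have e1 : P₁.map (MulAut.conj k).toMonoidHom = P₁ := by
    apply hwc
    rintro _ ⟨a, ha, rfl⟩
    exact hRP a (hP₁R ha)
  have e2 : P₁.map (MulAut.conj (k * ((h : J) * g))).toMonoidHom = P₁ := by
    apply hwc
    rintro _ ⟨a, ha, rfl⟩
    have := hRP _ (hQR a ha)
    show k * ((h : J) * g) * a * (k * ((h : J) * g))⁻¹ ∈ _
    simpa [mul_assoc] using this
  refine ⟨(h : J) * g, ?_, ?_⟩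
  · have e3 : P₁.map (MulAut.conj ((h : J) * g)).toMonoidHom = P₁ := by
      have : (P₁.map (MulAut.conj ((h : J) * g)).toMonoidHom).map (MulAut.conj k).toMonoidHom
          = P₁.map (MulAut.conj k).toMonoidHom := by
        rw [e1, Subgroup.map_map, ← e2]
        congr 1
        ext a
        simp [mul_assoc]
      exact Subgroup.map_injective (MulAut.conj k).injective this
    rw [Subgroup.mem_normalizer_iff]
    intro a
    constructor
    · intro ha
      rw [← e3]
      exact ⟨a, ha, rfl⟩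
    · intro ha
      rw [← e3] at ha
      obtain ⟨b, hb, hb2⟩ := ha
      have : b = a := by
        have : (h : J) * g * b * ((h : J) * g)⁻¹ = (h : J) * g * a * ((h : J) * g)⁻¹ := hb2
        simpa using this
      exact this ▸ hb
  · rw [mul_smul, hg]
    exact h.2

end Cfsg.Agent.S3180
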