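import Cfsg.Statements.S3183
import Mathlib
import Cfsg.Agent.Lib.Helper58Sylow

set_option autoImplicit false
open Cfsg

namespace Cfsg.Agent.S3183

open Cfsg.Agent.Lib.Helper58Sylow

theorem le_centralizer_of {G : Type*} [Group G] [Finite G]
    (hCI : ∀ S T : Sylow 2 G, S ≠ T → ∃ U : Sylow 2 G,
      (S : Subgroup G) ⊓ (T : Subgroup G) ≤ (Subgroup.center ↥(U : Subgroup G)).map (U : Subgroup G).subtype)
    (S U : Sylow 2 G) (x : G) (hxS : x ∈ (S : Subgroup G))
    (hU : (U : Subgroup G) ≤ Subgroup.centralizer ({x} : Set G)) :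
    (S : Subgroup G) ≤ Subgroup.centralizer ({x} : Set G) := by
  haveI : Fact (Nat.Prime 2) := ⟨Nat.prime_two⟩
  by_contra hS
  set C := Subgroup.centralizer ({x} : Set G) with hC
  set E := (S : Subgroup G) ⊓ C with hE
  have hES : E < (S : Subgroup G) := by
    refine lt_of_le_of_ne inf_le_left ?_
    intro h
    apply hS
    rw [← h]
    exact inf_le_right
  have hEp : IsPGroup 2 E := S.2.to_le inf_le_left
  obtain ⟨c, hcC, hc⟩ := exists_conj_le U hU (inf_le_right : E ≤ C) hEp
  -- R = c⁻¹ U c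
  set R : Sylow 2 G := c⁻¹ • U with hR
  have hER : E ≤ (R : Subgroup G) := by
    intro e he
    rw [hR, mem_smul_sylow]
    simpa using hc e he
  have hRC : (R : Subgroup G) ≤ C := by
    intro r hr
    rw [hR, mem_smul_sylow] at hr
    have h1 := hU hr
    have h2 : c⁻¹ * (c⁻¹⁻¹ * r * c⁻¹) * c ∈ C := C.mul_mem (C.mul_mem (C.inv_mem hcC) h1) hcC
    simpa [mul_assoc] using h2
  have hSR : S ≠ R := by
    intro h
    apply hS
    rw [h]
    exact hRC
  obtain ⟨U', hU'⟩ := hCI S R hSR
  have hEU' : ∀ e ∈ E, e ∈ (U' : Subgroup G) ∧ ∀ u ∈ (U' : Subgroup G), u * e = e * u := by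
    intro e he
    obtain ⟨z, hz, rfl⟩ := hU' (⟨hES.le he, hER he⟩ : e ∈ (S : Subgroup G) ⊓ (R : Subgroup G))
    refine ⟨z.2, fun u hu => ?_⟩
    rw [SetLike.mem_coe, Subgroup.mem_center_iff] at hz
    exact congrArg Subtype.val (hz ⟨u, hu⟩)
  obtain ⟨s, hsS, hsE, hsN⟩ := exists_normalizer_not_mem S.2 hES
  -- U' ≤ N_G(E)
  have hU'N : (U' : Subgroup G) ≤ Subgroup.normalizer (E : Set G) := by
    intro u hu
    rw [Subgroup.mem_normalizer_iff]
    intro h
    constructor
    · intro hh
      have := (hEU' h hh).2 u hu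
      rw [this]
      simpa using hh
    · intro hh
      have := (hEU' _ hh).2 u hu
      have h2 : u * h * u⁻¹ = h := by
        have h3 : u * (u * h * u⁻¹) = u * h := by
          rw [this]; group
        exact mul_left_cancel h3
      rwa [h2] at hh
  have hsp : IsPGroup 2 (Subgroup.zpowers s) := S.2.to_le (by simpa using hsS)
  obtain ⟨n, hnN, hn⟩ := exists_conj_le U' hU'N (by simpa using hsN : Subgroup.zpowers s ≤ _) hsp
  have hn1 := hn s (Subgroup.mem_zpowers s)
  have hxE : x ∈ E := ⟨hxS, by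
    show x ∈ C
    rw [hC, Subgroup.mem_centralizer_singleton_iff]⟩
  have hnx : n * x * n⁻¹ ∈ E := (Subgroup.mem_normalizer_iff.mp hnN x).mp hxE
  have h4 := (hEU' _ hnx).2 _ hn1
  apply hsE
  refine ⟨hsS, ?_⟩
  show s ∈ C
  rw [hC, Subgroup.mem_centralizer_singleton_iff]
  have h5 : n * (s * x) * n⁻¹ = n * (x * s) * n⁻¹ := by
    calc n * (s * x) * n⁻¹ = n * s * n⁻¹ * (n * x * n⁻¹) := by group
      _ = n * x * n⁻¹ * (n * s * n⁻¹) := h4
      _ = n * (x * s) * n⁻¹ := by group
  exact mul_left_cancel (mul_right_cancel h5)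

/-- Let G be a finite group in which the intersection of any two distinct Sylow 2-subgroups is contained in the centre of some Sylow 2-subgroup, and let S be a Sylow 2-subgroup. Then for every x in S the centralizer of x in S is a Sylow 2-subgroup of the centralizer of x in G (no 2-subgroup centralizing x is larger), and for every other Sylow 2-subgroup T the intersection S ∩ T lies in both the centre of S and the centre of T. -/
theorem result {G : Type*} [Group G] [Finite G]
    (hCI : ∀ S T : Sylow 2 G, S ≠ T → ∃ U : Sylow 2 G,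
      (S : Subgroup G) ⊓ (T : Subgroup G) ≤ (Subgroup.center ↥(U : Subgroup G)).map (U : Subgroup G).subtype)
    (S : Sylow 2 G) :
    (∀ x ∈ (S : Subgroup G), ∀ P : Subgroup G, IsPGroup 2 ↥P → P ≤ Subgroup.centralizer ({x} : Set G) →
        Nat.card ↥P ≤ Nat.card ↥((S : Subgroup G) ⊓ Subgroup.centralizer ({x} : Set G))) ∧
    (∀ T : Sylow 2 G, T ≠ S →
        (S : Subgroup G) ⊓ (T : Subgroup G) ≤
          (Subgroup.center ↥(S : Subgroup G)).map (S : Subgroup G).subtype ⊓
            (Subgroup.center ↥(T : Subgroup G)).map (T : Subgroup G).subtype) := by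
  haveI : Fact (Nat.Prime 2) := ⟨Nat.prime_two⟩
  have part2 : ∀ S T : Sylow 2 G, T ≠ S → ∀ x ∈ (S : Subgroup G) ⊓ (T : Subgroup G),
      (S : Subgroup G) ≤ Subgroup.centralizer ({x} : Set G) := by
    intro S T hTS x hx
    obtain ⟨U, hU⟩ := hCI S T hTS.symm
    obtain ⟨z, hz, rfl⟩ := hU hx
    apply le_centralizer_of hCI S U _ hx.1
    intro u hu
    rw [Subgroup.mem_centralizer_singleton_iff]
    rw [SetLike.mem_coe, Subgroup.mem_center_iff] at hz
    exact congrArg Subtype.val (hz ⟨u, hu⟩)
  have tocenter : ∀ (S : Sylow 2 G) (x : G), x ∈ (S : Subgroup G) →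
      (S : Subgroup G) ≤ Subgroup.centralizer ({x} : Set G) →
      x ∈ (Subgroup.center ↥(S : Subgroup G)).map (S : Subgroup G).subtype := by
    intro S x hxS hle
    refine ⟨⟨x, hxS⟩, ?_, rfl⟩
    rw [SetLike.mem_coe, Subgroup.mem_center_iff]
    intro g
    apply Subtype.ext
    have := hle g.2
    rw [Subgroup.mem_centralizer_singleton_iff] at this
    exact this
  constructor
  · intro x hxS P hP hPC
    set C := Subgroup.centralizer ({x} : Set G) with hC
    set E := (S : Subgroup G) ⊓ C with hE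
    have hEp : IsPGroup 2 (E.subgroupOf C) := (S.2.to_le inf_le_left).comap_subtype
    obtain ⟨R0, hR0⟩ := hEp.exists_le_sylow
    have hPR0 : Nat.card P ≤ Nat.card (R0 : Subgroup C) := by
      rw [← Nat.card_congr (Subgroup.subgroupOfEquivOfLe hPC).toEquiv]
      exact card_le_sylow R0 hP.comap_subtype
    have hR0p : IsPGroup 2 ((R0 : Subgroup C).map C.subtype) := R0.2.map _
    obtain ⟨R, hR⟩ := hR0p.exists_le_sylow
    by_cases hRS : R = S
    · have hle : (R0 : Subgroup C).map C.subtype ≤ E := by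
        intro y hy
        refine ⟨hRS ▸ hR hy, ?_⟩
        obtain ⟨w, _, rfl⟩ := hy
        exact w.2
      calc Nat.card P ≤ Nat.card (R0 : Subgroup C) := hPR0
        _ = Nat.card ((R0 : Subgroup C).map C.subtype) :=
          (Subgroup.card_map_of_injective C.subtype_injective).symm
        _ ≤ Nat.card E := Subgroup.card_le_of_le hle
    · have hxC : x ∈ C := by rw [hC, Subgroup.mem_centralizer_singleton_iff]
      have hxR : x ∈ (R : Subgroup G) := by
        apply hR
        refine ⟨⟨x, hxC⟩, hR0 ?_, rfl⟩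
        rw [Subgroup.mem_subgroupOf]
        exact ⟨hxS, hxC⟩
      have hSC := part2 S R hRS x ⟨hxS, hxR⟩
      have hES : E = S := inf_eq_left.mpr hSC
      rw [hES]
      exact card_le_sylow S hP
  · intro T hTS x hx
    refine ⟨tocenter S x hx.1 (part2 S T hTS x hx), tocenter T x hx.2 (part2 T S hTS.symm x ⟨hx.2, hx.1⟩)⟩

end Cfsg.Agent.S3183
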