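import Cfsg.Statements.S3190
import Mathlib
import Cfsg.Agent.Lib.Helper58Sylow

set_option autoImplicit false
open Cfsg

namespace Cfsg.Agent.S3190

open Cfsg.Agent.Lib.Helper58Sylow

theorem mem_Z_iff {X : Type*} [Group X] (R : Subgroup X) (z : X) :
    z ∈ (Subgroup.center ↥R).map R.subtype ↔ z ∈ R ∧ ∀ r ∈ R, r * z = z * r := by
  constructor
  · rintro ⟨w, hw, rfl⟩
    rw [SetLike.mem_coe, Subgroup.mem_center_iff] at hw
    exact ⟨w.2, fun r hr => congrArg Subtype.val (hw ⟨r, hr⟩)⟩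
  · rintro ⟨hz, h⟩
    refine ⟨⟨z, hz⟩, ?_, rfl⟩
    rw [SetLike.mem_coe, Subgroup.mem_center_iff]
    intro g
    exact Subtype.ext (h g g.2)

theorem conj_mem_Z {X : Type*} [Group X] (R : Subgroup X) (g z : X)
    (hg : g ∈ Subgroup.normalizer (R : Set X)) (hz : z ∈ (Subgroup.center ↥R).map R.subtype) :
    g * z * g⁻¹ ∈ (Subgroup.center ↥R).map R.subtype := by
  rw [mem_Z_iff] at hz ⊢
  obtain ⟨hzR, hzc⟩ := hz
  rw [Subgroup.mem_normalizer_iff] at hg
  refine ⟨(hg z).mp hzR, fun r hr => ?_⟩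
  have h1 : g⁻¹ * r * g ∈ R := by
    rw [hg]
    simpa [mul_assoc] using hr
  have h2 := hzc _ h1
  calc r * (g * z * g⁻¹) = g * (g⁻¹ * r * g * z) * g⁻¹ := by group
    _ = g * (z * (g⁻¹ * r * g)) * g⁻¹ := by rw [h2]
    _ = g * z * g⁻¹ * r := by group

/-- the elements of `Z(R)` inverted by `t` -/
def invSub {X : Type*} [Group X] (R : Subgroup X) (t : X) : Subgroup X where
  carrier := {z | z ∈ (Subgroup.center ↥R).map R.subtype ∧ t * z * t⁻¹ = z⁻¹}
  mul_mem' := by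
    rintro a b ⟨ha, ha'⟩ ⟨hb, hb'⟩
    refine ⟨Subgroup.mul_mem _ ha hb, ?_⟩
    have hc : b * a = a * b := ((mem_Z_iff R a).mp ha).2 b ((mem_Z_iff R b).mp hb).1
    calc t * (a * b) * t⁻¹ = (t * a * t⁻¹) * (t * b * t⁻¹) := by group
      _ = a⁻¹ * b⁻¹ := by rw [ha', hb']
      _ = (b * a)⁻¹ := by group
      _ = (a * b)⁻¹ := by rw [hc]
  one_mem' := ⟨Subgroup.one_mem _, by simp⟩
  inv_mem' := by
    rintro a ⟨ha, ha'⟩
    refine ⟨Subgroup.inv_mem _ ha, ?_⟩
    calc t * a⁻¹ * t⁻¹ = (t * a * t⁻¹)⁻¹ := by group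
      _ = a⁻¹⁻¹ := by rw [ha']

theorem mem_invSub {X : Type*} [Group X] (R : Subgroup X) (t z : X) :
    z ∈ invSub R t ↔ z ∈ (Subgroup.center ↥R).map R.subtype ∧ t * z * t⁻¹ = z⁻¹ := Iff.rfl

/-- Let p be an odd prime and, inside a finite group, let P be a p-subgroup normalized by a Klein four-group T. Let R be a subgroup of P, normal in P and normalized by T, such that P is the product of R with the centralizer of T in P. If T centralizes the centre of P, then T centralizes the centre of R. -/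
theorem result {X : Type*} [Group X] [Finite X]
    {p : ℕ} (hp : p.Prime) (hodd : Odd p) (P T R : Subgroup X) (hP : IsPGroup p ↥P) (hT : IsKleinFour ↥T)
    (hTP : T ≤ Subgroup.normalizer (P : Set X)) (hRP : R ≤ P) (hRn : (R.subgroupOf P).Normal)
    (hTR : T ≤ Subgroup.normalizer (R : Set X)) (hfac : R ⊔ (P ⊓ Subgroup.centralizer (T : Set X)) = P)
    (hZ : T ≤ Subgroup.centralizer (((Subgroup.center ↥P).map P.subtype : Subgroup X) : Set X)) :
    T ≤ Subgroup.centralizer (((Subgroup.center ↥R).map R.subtype : Subgroup X) : Set X) := by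
  haveI : Fact p.Prime := ⟨hp⟩
  intro t ht
  have ht2 : t * t = 1 := by
    have h1 : (⟨t, ht⟩ : T) ^ 2 = 1 := by
      rw [← hT.exponent_two]
      exact Monoid.pow_exponent_eq_one _
    have h2 := congrArg Subtype.val h1
    simpa [sq] using h2
  have htinv : t⁻¹ = t := inv_eq_of_mul_eq_one_left ht2
  have hPN : P ≤ Subgroup.normalizer (R : Set X) := (Subgroup.normal_subgroupOf_iff_le_normalizer hRP).mp hRn
  set W := invSub R t with hWdef
  have hWP : W ≤ P := fun w hw => hRP ((mem_Z_iff R w).mp hw.1).1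
  -- P normalizes W
  have hRN : R ≤ Subgroup.normalizer (W : Set X) := by
    apply le_normalizer_of
    intro x hx w hw
    have h1 := ((mem_Z_iff R w).mp hw.1).2 x hx
    have h2 : x * w * x⁻¹ = w := by rw [h1]; group
    rw [h2]; exact hw
  have hDN : P ⊓ Subgroup.centralizer (T : Set X) ≤ Subgroup.normalizer (W : Set X) := by
    apply le_normalizer_of
    intro x hx w hw
    obtain ⟨hxP, hxT⟩ := Subgroup.mem_inf.mp hx
    have h1 : t * x = x * t := (Subgroup.mem_centralizer_iff.mp hxT) t ht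
    refine ⟨conj_mem_Z R x w (hPN hxP) hw.1, ?_⟩
    have h3 : t * x⁻¹ = x⁻¹ * t := by
      calc t * x⁻¹ = x⁻¹ * (x * t) * x⁻¹ := by group
        _ = x⁻¹ * (t * x) * x⁻¹ := by rw [h1]
        _ = x⁻¹ * t := by group
    have h3' : x⁻¹ * t⁻¹ = t⁻¹ * x⁻¹ := by
      rw [htinv]; exact h3.symm
    calc t * (x * w * x⁻¹) * t⁻¹ = (t * x) * w * (x⁻¹ * t⁻¹) := by group
      _ = (x * t) * w * (t⁻¹ * x⁻¹) := by rw [h1, h3']
      _ = x * (t * w * t⁻¹) * x⁻¹ := by group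
      _ = x * w⁻¹ * x⁻¹ := by rw [hw.2]
      _ = (x * w * x⁻¹)⁻¹ := by group
  have hPNW : P ≤ Subgroup.normalizer (W : Set X) := by
    rw [← hfac]; exact sup_le hRN hDN
  have hnorm : ∀ g ∈ P, ∀ w ∈ W, g * w * g⁻¹ ∈ W := fun g hg w hw =>
    conj_mem_of_mem_normalizer (hPNW hg) hw
  have hWbot : W = ⊥ := by
    by_contra hW
    obtain ⟨w, hwW, hw1, hwc⟩ := exists_central_of_normal hP hWP hW hnorm
    have hwZP : w ∈ (Subgroup.center ↥P).map P.subtype := (mem_Z_iff P w).mpr ⟨hWP hwW, hwc⟩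
    have h1 : w * t = t * w := (Subgroup.mem_centralizer_iff.mp (hZ ht)) w hwZP
    have h2 : t * w * t⁻¹ = w := by rw [← h1]; group
    have h3 : w = w⁻¹ := by rw [← hwW.2, h2]
    have h4 : w ^ 2 = 1 := by
      rw [sq]
      nth_rewrite 1 [h3]
      group
    obtain ⟨k, hk⟩ := hP ⟨w, hWP hwW⟩
    have hk' : w ^ p ^ k = 1 := by simpa using congrArg Subtype.val hk
    have hcop : Nat.Coprime (p ^ k) 2 := Nat.Coprime.pow_left _ (Nat.coprime_two_right.mpr hodd)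
    apply hw1
    have := pow_gcd_eq_one.mpr ⟨hk', h4⟩
    rw [Nat.Coprime.gcd_eq_one hcop] at this
    simpa using this
  rw [Subgroup.mem_centralizer_iff]
  intro z hz
  have htz := conj_mem_Z R t z (hTR ht) hz
  have hw : z⁻¹ * (t * z * t⁻¹) ∈ W := by
    refine ⟨Subgroup.mul_mem _ (Subgroup.inv_mem _ hz) htz, ?_⟩
    have hc : z * (t * z * t⁻¹) = (t * z * t⁻¹) * z :=
      ((mem_Z_iff R _).mp htz).2 z ((mem_Z_iff R z).mp hz).1
    have hc' : z * (t * z * t⁻¹)⁻¹ = (t * z * t⁻¹)⁻¹ * z := by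
      calc z * (t * z * t⁻¹)⁻¹ = (t * z * t⁻¹)⁻¹ * ((t * z * t⁻¹) * z) * (t * z * t⁻¹)⁻¹ := by group
        _ = (t * z * t⁻¹)⁻¹ * (z * (t * z * t⁻¹)) * (t * z * t⁻¹)⁻¹ := by rw [hc]
        _ = (t * z * t⁻¹)⁻¹ * z := by group
    calc t * (z⁻¹ * (t * z * t⁻¹)) * t⁻¹ = (t * z * t⁻¹)⁻¹ * ((t * t) * z * (t * t)⁻¹) := by group
      _ = (t * z * t⁻¹)⁻¹ * z := by rw [ht2]; group
      _ = (z⁻¹ * (t * z * t⁻¹))⁻¹ := by group
  rw [hWbot, Subgroup.mem_bot] at hw
  have h5 : t * z * t⁻¹ = z := by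
    calc t * z * t⁻¹ = z * (z⁻¹ * (t * z * t⁻¹)) := by group
      _ = z := by rw [hw]; group
  calc z * t = (t * z * t⁻¹) * t := by rw [h5]
    _ = t * z := by group

end Cfsg.Agent.S3190
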