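import Cfsg.Statements.S3195
import Cfsg.Agent.Lib.Helper5BaerSuzuki
import Cfsg.Agent.Lib.Helper5Dihedral
import Mathlib

set_option autoImplicit false
open Cfsg

namespace Cfsg.Agent.S3195

open Cfsg.Agent.Lib.Helper5BaerSuzuki Cfsg.Agent.Lib.Helper5Dihedral

/-- An involution outside `O_2(G)` inverts a nontrivial element of odd order. -/
theorem exists_inverted {G : Type*} [Group G] [Finite G] (x : G) (hx : x * x = 1)
    (hxO : x ∉ Cfsg.pCore 2 G) :
    ∃ w : G, w ≠ 1 ∧ Odd (orderOf w) ∧ x * w * x⁻¹ = w⁻¹ := by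
  by_contra hno
  push Not at hno
  have : Fact (Nat.Prime 2) := ⟨Nat.prime_two⟩
  apply hxO
  let K : Set G := {y | ∃ g : G, y = g * x * g⁻¹}
  have hK : ∀ k ∈ K, ∀ g : G, g * k * g⁻¹ ∈ K := by
    rintro _ ⟨g', rfl⟩ g
    exact ⟨g * g', by group⟩
  have hpair : ∀ y₁ ∈ K, ∀ y₂ ∈ K, IsPGroup 2 (Subgroup.closure ({y₁, y₂} : Set G)) := by
    rintro y₁ ⟨g₁, rfl⟩ y₂ ⟨g₂, rfl⟩
    set y₁ := g₁ * x * g₁⁻¹ with hy₁
    set y₂ := g₂ * x * g₂⁻¹ with hy₂
    have h1 : y₁ * y₁ = 1 := by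
      rw [hy₁]
      calc g₁ * x * g₁⁻¹ * (g₁ * x * g₁⁻¹) = g₁ * (x * x) * g₁⁻¹ := by group
        _ = 1 := by rw [hx]; group
    have h2 : y₂ * y₂ = 1 := by
      rw [hy₂]
      calc g₂ * x * g₂⁻¹ * (g₂ * x * g₂⁻¹) = g₂ * (x * x) * g₂⁻¹ := by group
        _ = 1 := by rw [hx]; group
    obtain ⟨k, m, hm, hkm⟩ := Nat.exists_eq_two_pow_mul_odd (orderOf_pos (y₁ * y₂)).ne'
    have hord : orderOf ((y₁ * y₂) ^ 2 ^ k) = m := by
      rw [orderOf_pow_of_dvd (by positivity) (by rw [hkm]; exact Dvd.intro _ rfl), hkm]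
      exact Nat.mul_div_cancel_left _ (by positivity)
    have hinv : y₁ * (y₁ * y₂) ^ 2 ^ k * y₁⁻¹ = ((y₁ * y₂) ^ 2 ^ k)⁻¹ := by
      rw [x_mul_pow h1 h2, mul_assoc, mul_inv_cancel, mul_one, inv_pow]
    have hone : (y₁ * y₂) ^ 2 ^ k = 1 := by
      by_contra hne
      set c := (y₁ * y₂) ^ 2 ^ k with hc
      have hne' : g₁⁻¹ * c * g₁ ≠ 1 := by
        intro h
        apply hne
        have : c = g₁ * (g₁⁻¹ * c * g₁) * g₁⁻¹ := by group
        rw [this, h]; group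
      have hodd' : Odd (orderOf (g₁⁻¹ * c * g₁)) := by
        have h3 : g₁⁻¹ * c * g₁ = MulAut.conj (g₁⁻¹) c := by simp
        rw [h3, MulEquiv.orderOf_eq, hord]; exact hm
      apply hno _ hne' hodd'
      have : x = g₁⁻¹ * y₁ * g₁ := by rw [hy₁]; group
      calc x * (g₁⁻¹ * c * g₁) * x⁻¹ = g₁⁻¹ * (y₁ * c * y₁⁻¹) * g₁ := by rw [this]; group
        _ = (g₁⁻¹ * c * g₁)⁻¹ := by rw [hinv]; group
    intro d
    obtain ⟨j, hj⟩ := mem_closure_pair h1 h2 d.2
    rcases hj with hj | hj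
    · refine ⟨k, ?_⟩
      apply Subtype.ext
      rw [Subgroup.coe_pow, hj, Subgroup.coe_one, ← zpow_natCast, ← zpow_mul, mul_comm, zpow_mul,
        zpow_natCast, hone, one_zpow]
    · refine ⟨1, ?_⟩
      apply Subtype.ext
      rw [Subgroup.coe_pow, hj, Subgroup.coe_one, pow_one, pow_two]
      calc (y₁ * y₂) ^ j * y₁ * ((y₁ * y₂) ^ j * y₁)
          = (y₁ * y₂) ^ j * (y₁ * (y₁ * y₂) ^ j) * y₁ := by group
        _ = 1 := by rw [x_mul_zpow h1 h2]; simp [h1]
  have hP := isPGroup_closure K hK hpair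
  have hN : (Subgroup.closure K).Normal :=
    ⟨fun d hd g => conj_mem_closure (fun k hk => hK k hk g) hd⟩
  have hle : Subgroup.closure K ≤ Cfsg.pCore 2 G := le_sSup ⟨hN, hP⟩
  exact hle (Subgroup.subset_closure ⟨1, by simp⟩)


theorem eq_one_of_odd {G : Type*} [Group G] {w : G} (hodd : Odd (orderOf w)) (k : ℕ)
    (h : w ^ 2 ^ k = 1) : w = 1 := by
  have h1 : orderOf w ∣ 2 ^ k := orderOf_dvd_of_pow_eq_one h
  have h2 : Nat.Coprime (orderOf w) (2 ^ k) :=
    Nat.Coprime.pow_right k (Nat.coprime_two_right.mpr hodd)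
  exact orderOf_eq_one_iff.mp (Nat.Coprime.eq_one_of_dvd h2 h1)

theorem commute_of_pow {G : Type*} [Group G] {w y : G} (hodd : Odd (orderOf w)) (k : ℕ)
    (h : Commute y (w ^ 2 ^ k)) : Commute y w := by
  have h2 : Nat.Coprime (2 ^ k) (orderOf w) :=
    (Nat.Coprime.pow_right k (Nat.coprime_two_right.mpr hodd)).symm
  obtain ⟨m, hm⟩ := exists_pow_eq_self_of_coprime h2
  rw [← hm]
  exact h.pow_right m

theorem klein_cases {G : Type*} [Group G] (A : Subgroup G) (hA : IsKleinFour ↥A) {x y z : G}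
    (hx : x ∈ A) (hy : y ∈ A) (hz : z ∈ A) (hx1 : x ≠ 1) (hy1 : y ≠ 1) (hxy : x ≠ y)
    (hz1 : z ≠ 1) : z = x ∨ z = y ∨ z = x * y := by
  by_cases h1 : z = x
  · exact Or.inl h1
  by_cases h2 : z = y
  · exact Or.inr (Or.inl h2)
  right; right
  have := IsKleinFour.eq_mul_of_ne_all (G := ↥A) (x := ⟨x, hx⟩) (y := ⟨y, hy⟩) (z := ⟨z, hz⟩)
    (by simpa [Subtype.ext_iff] using hx1) (by simpa [Subtype.ext_iff] using hy1)
    (by simpa [Subtype.ext_iff] using hxy) (by simpa [Subtype.ext_iff] using hz1)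
    (by simpa [Subtype.ext_iff] using h1) (by simpa [Subtype.ext_iff] using h2)
  simpa [Subtype.ext_iff] using this

/-- From the hypothesis: a nonidentity element of `A` commuting with a given conjugate. -/
theorem exists_commuting {G : Type*} [Group G] (A : Subgroup G)
    (h : ∀ a ∈ A, a ≠ 1 → ∀ g : G, A ⊓ Subgroup.centralizer ({g * a * g⁻¹} : Set G) ≠ ⊥)
    {a : G} (ha : a ∈ A) (ha1 : a ≠ 1) (g : G) :
    ∃ y ∈ A, y ≠ 1 ∧ Commute y (g * a * g⁻¹) := by
  have := h a ha ha1 g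
  rw [Ne, Subgroup.eq_bot_iff_forall] at this
  push Not at this
  obtain ⟨y, hy, hy1⟩ := this
  refine ⟨y, hy.1, hy1, ?_⟩
  have h2 := Subgroup.mem_centralizer_singleton_iff.mp hy.2
  exact h2

theorem step1 {G : Type*} [Group G] [Finite G] (A : Subgroup G)
    (hsq : ∀ x ∈ A, x * x = 1) (hcomm : ∀ x ∈ A, ∀ y ∈ A, Commute x y)
    (h : ∀ a ∈ A, a ≠ 1 → ∀ g : G, A ⊓ Subgroup.centralizer ({g * a * g⁻¹} : Set G) ≠ ⊥)
    (hO : ∀ x ∈ A, x ≠ 1 → x ∉ Cfsg.pCore 2 G) {x : G} (hx : x ∈ A) (hx1 : x ≠ 1) :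
    ∃ y ∈ A, ∃ w : G, y ≠ 1 ∧ y ≠ x ∧ w ≠ 1 ∧ Odd (orderOf w) ∧ MulAut.conj x w = w⁻¹ ∧
      Commute y w := by
  obtain ⟨w, hw1, hodd, hinv⟩ := exists_inverted x (hsq x hx) (hO x hx hx1)
  obtain ⟨y, hy, hy1, hyc⟩ := exists_commuting A h hx hx1 w
  have hxinv : x⁻¹ = x := inv_eq_of_mul_eq_one_left (hsq x hx)
  have e1 : w * x * w⁻¹ = w ^ 2 ^ 1 * x := by
    have : x * w⁻¹ = w * x := by
      have h3 : x * w⁻¹ * x⁻¹ = w := by
        have := congrArg (·⁻¹) hinv
        simpa [mul_assoc] using this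
      calc x * w⁻¹ = (x * w⁻¹ * x⁻¹) * x := by group
        _ = w * x := by rw [h3]
    calc w * x * w⁻¹ = w * (x * w⁻¹) := by group
      _ = w ^ 2 ^ 1 * x := by rw [this]; simp [pow_two, mul_assoc]
  rw [e1] at hyc
  have hyw2 : Commute y (w ^ 2 ^ 1) := by
    have := hyc.mul_right (hcomm y hy x hx).inv_right
    simpa using this
  have hyw : Commute y w := commute_of_pow hodd 1 hyw2
  refine ⟨y, hy, w, hy1, ?_, hw1, hodd, by simpa using hinv, hyw⟩
  rintro rfl
  apply hw1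
  apply eq_one_of_odd hodd 1
  have h4 : y * w * y⁻¹ = w := by rw [hyw.eq]; group
  rw [h4] at hinv
  calc w ^ 2 ^ 1 = w * w := by simp [pow_two]
    _ = w * w⁻¹ := by rw [← hinv]
    _ = 1 := by group


theorem conj_of_commute {G : Type*} [Group G] {y w : G} (h : Commute y w) :
    MulAut.conj y w = w := by
  rw [MulAut.conj_apply, h.eq]; group

theorem commute_cancel {G : Type*} [Group G] {y s c : G} (h : Commute y (s * c))
    (hc : Commute y c) : Commute y s := by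
  have := h.mul_right hc.inv_right
  rwa [mul_inv_cancel_right] at this

theorem core {G : Type*} [Group G] (a b u v : G) (hab : Commute a b)
    (hu1 : u ≠ 1) (hv1 : v ≠ 1) (huodd : Odd (orderOf u)) (hvodd : Odd (orderOf v))
    (hau : MulAut.conj a u = u⁻¹) (hbu : MulAut.conj b u = u)
    (hav : MulAut.conj a v = v) (hbv : MulAut.conj b v = v⁻¹)
    (H : ∀ x : G, (x = a ∨ x = b ∨ x = a * b) → ∀ g : G,
      ∃ y : G, (y = a ∨ y = b ∨ y = a * b) ∧ Commute y (g * x * g⁻¹)) : False := by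
  have h1 : a * u⁻¹ = u * a := by
    have : a * u⁻¹ * a⁻¹ = u := by
      have := congrArg (·⁻¹) hau
      simpa [MulAut.conj_apply, mul_assoc] using this
    calc a * u⁻¹ = (a * u⁻¹ * a⁻¹) * a := by group
      _ = u * a := by rw [this]
  have h2 : a * v = v * a := by
    calc a * v = (a * v * a⁻¹) * a := by group
      _ = v * a := by rw [← MulAut.conj_apply, hav]
  have h3 : b * v⁻¹ = v * b := by
    have : b * v⁻¹ * b⁻¹ = v := by
      have := congrArg (·⁻¹) hbv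
      simpa [MulAut.conj_apply, mul_assoc] using this
    calc b * v⁻¹ = (b * v⁻¹ * b⁻¹) * b := by group
      _ = v * b := by rw [this]
  have h4 : b * u⁻¹ = u⁻¹ * b := by
    have : b * u⁻¹ * b⁻¹ = u⁻¹ := by
      have := congrArg (·⁻¹) hbu
      simpa [MulAut.conj_apply, mul_assoc] using this
    calc b * u⁻¹ = (b * u⁻¹ * b⁻¹) * b := by group
      _ = u⁻¹ * b := by rw [this]
  have hu4 : u * u = u⁻¹ * u⁻¹ → False := by
    intro h
    apply hu1
    apply eq_one_of_odd huodd 2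
    calc u ^ 2 ^ 2 = (u * u) * (u * u) := by norm_num [pow_succ, mul_assoc]
      _ = (u * u) * (u⁻¹ * u⁻¹) := by rw [← h]
      _ = 1 := by group
  have hv4 : v * v = v⁻¹ * v⁻¹ → False := by
    intro h
    apply hv1
    apply eq_one_of_odd hvodd 2
    calc v ^ 2 ^ 2 = (v * v) * (v * v) := by norm_num [pow_succ, mul_assoc]
      _ = (v * v) * (v⁻¹ * v⁻¹) := by rw [← h]
      _ = 1 := by group
  -- step 3 : u and v commute
  have huv : Commute u v := by
    obtain ⟨y, hy, hyc⟩ := H a (Or.inl rfl) (v⁻¹ * u)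
    have e : (v⁻¹ * u) * a * (v⁻¹ * u)⁻¹ = (v⁻¹ * (u * u) * v) * a := by
      calc (v⁻¹ * u) * a * (v⁻¹ * u)⁻¹ = v⁻¹ * u * (a * u⁻¹) * v := by group
        _ = v⁻¹ * u * (u * a) * v := by rw [h1]
        _ = v⁻¹ * u * u * (a * v) := by group
        _ = v⁻¹ * u * u * (v * a) := by rw [h2]
        _ = (v⁻¹ * (u * u) * v) * a := by group
    rw [e] at hyc
    have hya : Commute y a := by
      rcases hy with rfl | rfl | rfl
      · exact Commute.refl _
      · exact hab.symm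
      · exact (Commute.refl a).mul_left hab.symm
    have hys : Commute y (v⁻¹ * (u * u) * v) := commute_cancel hyc hya
    have hcs := conj_of_commute hys
    rcases hy with rfl | rfl | rfl
    · exfalso
      simp only [map_mul, map_inv, hau, hav] at hcs
      apply hu4
      have := mul_left_cancel (mul_right_cancel hcs)
      exact this.symm
    · simp only [map_mul, map_inv, hbu, hbv, inv_inv] at hcs
      have h5 : Commute (u ^ 2 ^ 1) (v ^ 2 ^ 1) := by
        show u ^ 2 ^ 1 * v ^ 2 ^ 1 = v ^ 2 ^ 1 * u ^ 2 ^ 1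
        calc u ^ 2 ^ 1 * v ^ 2 ^ 1 = v * (v⁻¹ * (u * u) * v) * v := by
              simp only [pow_one, pow_two]; group
          _ = v * (v * (u * u) * v⁻¹) * v := by rw [hcs]
          _ = v ^ 2 ^ 1 * u ^ 2 ^ 1 := by simp only [pow_one, pow_two]; group
      exact (commute_of_pow huodd 1 (commute_of_pow hvodd 1 h5).symm).symm
    · exfalso
      simp only [map_mul, MulAut.mul_apply, map_inv, hbu, hbv, hau, hav, inv_inv] at hcs
      have h6 : MulAut.conj ((v * v)⁻¹) (u * u) = (u * u)⁻¹ := by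
        rw [MulAut.conj_apply]
        calc (v * v)⁻¹ * (u * u) * ((v * v)⁻¹)⁻¹ = v⁻¹ * (v⁻¹ * (u * u) * v) * v := by
              simp only [mul_inv_rev, inv_inv, mul_assoc]
          _ = v⁻¹ * (v * (u⁻¹ * u⁻¹) * v⁻¹) * v := by rw [hcs]
          _ = (u * u)⁻¹ := by group
      have h7 : MulAut.conj ((v * v)⁻¹ * (v * v)⁻¹) (u * u) = u * u := by
        rw [map_mul (MulAut.conj), MulAut.mul_apply, h6, map_inv, h6, inv_inv]
      have h8 : Commute (u * u) (v ^ 2 ^ 2) := by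
        have h9 : (v * v)⁻¹ * (v * v)⁻¹ = (v ^ 2 ^ 2)⁻¹ := by
          have : v ^ 2 ^ 2 = v * v * (v * v) := by norm_num [pow_succ, mul_assoc]
          rw [this]; group
        rw [h9, MulAut.conj_apply] at h7
        have h10 : (v ^ 2 ^ 2)⁻¹ * (u * u) = (u * u) * (v ^ 2 ^ 2)⁻¹ := by
          calc (v ^ 2 ^ 2)⁻¹ * (u * u)
              = ((v ^ 2 ^ 2)⁻¹ * (u * u) * ((v ^ 2 ^ 2)⁻¹)⁻¹) * (v ^ 2 ^ 2)⁻¹ := by
                rw [inv_mul_cancel_right]
            _ = (u * u) * (v ^ 2 ^ 2)⁻¹ := by rw [h7]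
        have h11 : Commute ((v ^ 2 ^ 2)⁻¹) (u * u) := h10
        exact (Commute.inv_left_iff.mp h11).symm
      have h12 : Commute (u * u) v := commute_of_pow hvodd 2 h8
      have h13 : MulAut.conj ((v * v)⁻¹) (u * u) = u * u :=
        conj_of_commute ((h12.mul_right h12).inv_right).symm
      rw [h13] at h6
      apply hu4
      rw [h6]; group
  -- step 4
  obtain ⟨y, hy, hyc⟩ := H (a * b) (Or.inr (Or.inr rfl)) (u * v)
  have e : (u * v) * (a * b) * (u * v)⁻¹ = ((u * u) * (v * v)) * (a * b) := by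
    have huv' : v * u = u * v := huv.eq.symm
    calc (u * v) * (a * b) * (u * v)⁻¹ = u * v * a * (b * v⁻¹) * u⁻¹ := by group
      _ = u * v * a * (v * b) * u⁻¹ := by rw [h3]
      _ = u * v * (a * v) * (b * u⁻¹) := by group
      _ = u * v * (v * a) * (u⁻¹ * b) := by rw [h2, h4]
      _ = u * v * v * (a * u⁻¹) * b := by group
      _ = u * v * v * (u * a) * b := by rw [h1]
      _ = u * v * (v * u) * a * b := by group
      _ = u * v * (u * v) * a * b := by rw [huv']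
      _ = u * (v * u) * v * a * b := by group
      _ = u * (u * v) * v * a * b := by rw [huv']
      _ = ((u * u) * (v * v)) * (a * b) := by group
  rw [e] at hyc
  have hyab : Commute y (a * b) := by
    rcases hy with rfl | rfl | rfl
    · exact (Commute.refl y).mul_right hab
    · exact hab.symm.mul_right (Commute.refl y)
    · exact Commute.refl _
  have hys : Commute y ((u * u) * (v * v)) := commute_cancel hyc hyab
  have hcs := conj_of_commute hys
  rcases hy with rfl | rfl | rfl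
  · simp only [map_mul, hau, hav] at hcs
    exact hu4 (mul_right_cancel hcs).symm
  · simp only [map_mul, hbu, hbv] at hcs
    exact hv4 (mul_left_cancel hcs).symm
  · simp only [map_mul, MulAut.mul_apply, map_inv, hbu, hbv, hau, hav] at hcs
    have hcs2 := congrArg (MulAut.conj a) hcs
    simp only [map_mul, map_inv, hau, hav, inv_inv] at hcs2
    apply hu1
    apply eq_one_of_odd huodd 3
    have k1 : (v⁻¹ * v⁻¹) * (v * v)⁻¹ = (u * u) * (u * u) := by
      calc (v⁻¹ * v⁻¹) * (v * v)⁻¹ = (u * u) * ((u⁻¹ * u⁻¹) * (v⁻¹ * v⁻¹)) * (v * v)⁻¹ := by group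
        _ = (u * u) * ((u * u) * (v * v)) * (v * v)⁻¹ := by rw [hcs]
        _ = (u * u) * (u * u) := by group
    have k2 : (v⁻¹ * v⁻¹) * (v * v)⁻¹ = (u⁻¹ * u⁻¹) * (u⁻¹ * u⁻¹) := by
      calc (v⁻¹ * v⁻¹) * (v * v)⁻¹ = (u⁻¹ * u⁻¹) * ((u * u) * (v⁻¹ * v⁻¹)) * (v * v)⁻¹ := by group
        _ = (u⁻¹ * u⁻¹) * ((u⁻¹ * u⁻¹) * (v * v)) * (v * v)⁻¹ := by rw [hcs2]
        _ = (u⁻¹ * u⁻¹) * (u⁻¹ * u⁻¹) := by group
    calc u ^ 2 ^ 3 = ((u * u) * (u * u)) * ((u * u) * (u * u)) := by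
          norm_num [pow_succ, mul_assoc]
      _ = ((u * u) * (u * u)) * ((u⁻¹ * u⁻¹) * (u⁻¹ * u⁻¹)) := by rw [← k1, k2]
      _ = 1 := by group

/-- Let A be a Klein four-subgroup of a finite group G. If every G-conjugate of every involution of A commutes with some involution of A (its centralizer meets A nontrivially), then A meets the largest normal 2-subgroup O₂(G) nontrivially. -/
theorem result {G : Type*} [Group G] [Finite G]
    (A : Subgroup G) (hA : IsKleinFour ↥A)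
    (h : ∀ a ∈ A, a ≠ 1 → ∀ g : G, A ⊓ Subgroup.centralizer ({g * a * g⁻¹} : Set G) ≠ ⊥) :
    A ⊓ Cfsg.pCore 2 G ≠ ⊥ := by
  intro hbot
  have hsq : ∀ x ∈ A, x * x = 1 := fun x hx => by
    have := IsKleinFour.mul_self (⟨x, hx⟩ : A)
    simpa [Subtype.ext_iff] using this
  have hcomm : ∀ x ∈ A, ∀ y ∈ A, Commute x y := by
    intro x hx y hy
    have h1 := inv_eq_of_mul_eq_one_left (hsq x hx)
    have h2 := inv_eq_of_mul_eq_one_left (hsq y hy)
    have h3 := inv_eq_of_mul_eq_one_left (hsq (x * y) (A.mul_mem hx hy))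
    show x * y = y * x
    rw [← h3, mul_inv_rev, h1, h2]
  have hO : ∀ x ∈ A, x ≠ 1 → x ∉ Cfsg.pCore 2 G := fun x hx hx1 hxO =>
    hx1 ((Subgroup.eq_bot_iff_forall _).mp hbot x ⟨hx, hxO⟩)
  have hnt : Nontrivial ↥A := by
    rw [← Finite.one_lt_card_iff_nontrivial, hA.card_four]; norm_num
  obtain ⟨⟨a, ha⟩, ha1⟩ := exists_ne (1 : ↥A)
  have ha1 : a ≠ 1 := by simpa [Subtype.ext_iff] using ha1
  obtain ⟨b, hb, u, hb1, hba, hu1, huodd, hau, hbu⟩ := step1 A hsq hcomm h hO ha ha1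
  obtain ⟨a', ha', v, ha'1, ha'b, hv1, hvodd, hbv, ha'v⟩ := step1 A hsq hcomm h hO hb hb1
  have ha'u : MulAut.conj a' u = u⁻¹ := by
    rcases klein_cases A hA ha hb ha' ha1 hb1 hba.symm ha'1 with rfl | rfl | rfl
    · exact hau
    · exact absurd rfl ha'b
    · rw [map_mul, MulAut.mul_apply, conj_of_commute hbu, hau]
  refine core a' b u v (hcomm a' ha' b hb) hu1 hv1 huodd hvodd ha'u (conj_of_commute hbu)
    (conj_of_commute ha'v) hbv ?_
  intro x hx g
  have hxA : x ∈ A := by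
    rcases hx with rfl | rfl | rfl
    · exact ha'
    · exact hb
    · exact A.mul_mem ha' hb
  have hx1 : x ≠ 1 := by
    rcases hx with rfl | rfl | rfl
    · exact ha'1
    · exact hb1
    · intro h0
      apply ha'b
      have := inv_eq_of_mul_eq_one_left h0
      rw [inv_eq_of_mul_eq_one_left (hsq b hb)] at this
      exact this.symm
  obtain ⟨y, hy, hy1, hyc⟩ := exists_commuting A h hxA hx1 g
  exact ⟨y, klein_cases A hA ha' hb hy ha'1 hb1 ha'b hy1, hyc⟩

end Cfsg.Agent.S3195
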