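import Cfsg.Statements.S3196
import Mathlib

set_option autoImplicit false
open Cfsg

namespace Cfsg.Agent.S3196

section general

variable {G : Type*} [Group G]

theorem commute_of_mem_zpowers {a b x : G} (h : Commute a b) (hx : x ∈ Subgroup.zpowers a) :
    Commute x b := by
  obtain ⟨k, rfl⟩ := Subgroup.mem_zpowers_iff.mp hx
  exact h.zpow_left k

theorem commute_cancel_right {y s c : G} (h : Commute (s * c) y) (hc : Commute c y) :
    Commute s y := by
  have := h.mul_left hc.inv_left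
  rwa [mul_inv_cancel_right] at this

theorem commute_cancel_left {y s c : G} (h : Commute (s * c) y) (hs : Commute s y) :
    Commute c y := by
  have := hs.inv_left.mul_left h
  rwa [inv_mul_cancel_left] at this

theorem mem_sup_of_commute {X Y : Subgroup G} (hc : ∀ x ∈ X, ∀ y ∈ Y, Commute x y) {z : G}
    (hz : z ∈ X ⊔ Y) : ∃ x ∈ X, ∃ y ∈ Y, z = x * y := by
  rw [Subgroup.sup_eq_closure] at hz
  induction hz using Subgroup.closure_induction with
  | mem a ha =>
    rcases ha with ha | ha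
    · exact ⟨a, ha, 1, Y.one_mem, by simp⟩
    · exact ⟨1, X.one_mem, a, ha, by simp⟩
  | one => exact ⟨1, X.one_mem, 1, Y.one_mem, by simp⟩
  | mul a b _ _ iha ihb =>
    obtain ⟨x₁, hx₁, y₁, hy₁, rfl⟩ := iha
    obtain ⟨x₂, hx₂, y₂, hy₂, rfl⟩ := ihb
    refine ⟨x₁ * x₂, X.mul_mem hx₁ hx₂, y₁ * y₂, Y.mul_mem hy₁ hy₂, ?_⟩
    have := (hc x₂ hx₂ y₁ hy₁).eq
    calc x₁ * y₁ * (x₂ * y₂) = x₁ * (y₁ * x₂) * y₂ := by simp only [mul_assoc]
      _ = x₁ * (x₂ * y₁) * y₂ := by rw [this]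
      _ = x₁ * x₂ * (y₁ * y₂) := by simp only [mul_assoc]
  | inv a _ iha =>
    obtain ⟨x₁, hx₁, y₁, hy₁, rfl⟩ := iha
    refine ⟨x₁⁻¹, X.inv_mem hx₁, y₁⁻¹, Y.inv_mem hy₁, ?_⟩
    rw [mul_inv_rev]
    exact ((hc x₁ hx₁ y₁ hy₁).inv_inv).eq.symm

end general

section core

variable {G : Type*} [Group G] (KK : Set G)

/-- The element-level hypotheses. -/
structure Hyp : Prop where
  ne_one : ∀ x ∈ KK, x ≠ 1
  conj : ∀ x ∈ KK, ∀ g : G, g * x * g⁻¹ ∈ KK
  gen : ∀ x ∈ KK, ∀ y ∈ Subgroup.zpowers x, y ≠ 1 → y ∈ KK ∧ x ∈ Subgroup.zpowers y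
  mul : ∀ x ∈ KK, ∀ y ∈ KK, Commute x y → x * y ≠ 1 → x * y ∈ KK
  b : ∀ x ∈ KK, ∀ y ∈ KK, Commute x y → y ∉ Subgroup.zpowers x → ∀ w ∈ KK,
    ∃ x' ∈ Subgroup.zpowers x, ∃ y' ∈ Subgroup.zpowers y, x' * y' ≠ 1 ∧ Commute (x' * y') w

/-- abelian subgroups all of whose nonidentity elements lie in `KK`. -/
def AA : Set (Subgroup G) :=
  {A | (∀ a ∈ A, ∀ b ∈ A, Commute a b) ∧ ∀ a ∈ A, a ≠ 1 → a ∈ KK}

variable {KK}

theorem sup_zpowers_mem_AA (H : Hyp KK) {A : Subgroup G} (hA : A ∈ AA KK) {w : G} (hw : w ∈ KK)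
    (hc : ∀ a ∈ A, Commute a w) : A ⊔ Subgroup.zpowers w ∈ AA KK := by
  have hc' : ∀ a ∈ A, ∀ y ∈ Subgroup.zpowers w, Commute a y := fun a ha y hy =>
    (commute_of_mem_zpowers (hc a ha).symm hy).symm
  constructor
  · intro a ha b hb
    obtain ⟨a₁, ha₁, w₁, hw₁, rfl⟩ := mem_sup_of_commute hc' ha
    obtain ⟨a₂, ha₂, w₂, hw₂, rfl⟩ := mem_sup_of_commute hc' hb
    have h1 : Commute w₁ w₂ := by
      obtain ⟨k, rfl⟩ := Subgroup.mem_zpowers_iff.mp hw₁
      obtain ⟨l, rfl⟩ := Subgroup.mem_zpowers_iff.mp hw₂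
      exact ((Commute.refl w).zpow_left k).zpow_right l
    exact ((hA.1 a₁ ha₁ a₂ ha₂).mul_right (hc' a₁ ha₁ w₂ hw₂)).mul_left
      ((hc' a₂ ha₂ w₁ hw₁).symm.mul_right h1)
  · intro a ha ha1
    obtain ⟨a₁, ha₁, w₁, hw₁, rfl⟩ := mem_sup_of_commute hc' ha
    by_cases h1 : a₁ = 1
    · subst h1
      rw [one_mul] at ha1 ⊢
      exact (H.gen w hw w₁ hw₁ ha1).1
    by_cases h2 : w₁ = 1
    · subst h2
      rw [mul_one]
      exact hA.2 a₁ ha₁ h1
    exact H.mul a₁ (hA.2 a₁ ha₁ h1) w₁ (H.gen w hw w₁ hw₁ h2).1 (hc' a₁ ha₁ w₁ hw₁) ha1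

theorem mem_of_maximal (H : Hyp KK) {A : Subgroup G} (hA : Maximal (· ∈ AA KK) A) {w : G}
    (hw : w ∈ KK) (hc : ∀ a ∈ A, Commute a w) : w ∈ A := by
  have h1 := sup_zpowers_mem_AA H hA.1 hw hc
  have h2 : A ⊔ Subgroup.zpowers w ≤ A := hA.2 h1 le_sup_left
  exact h2 (Subgroup.mem_sup_right (Subgroup.mem_zpowers w))

theorem F1 (H : Hyp KK) {A : Subgroup G} (hA : A ∈ AA KK) {a b w : G} (ha : a ∈ A) (hb : b ∈ A)
    (hw : w ∈ KK) (haw : ¬ Commute a w) : ∃ a' ∈ Subgroup.zpowers a, Commute (b * a') w := by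
  by_cases hbw : Commute b w
  · exact ⟨1, Subgroup.one_mem _, by simpa using hbw⟩
  have ha1 : a ≠ 1 := by rintro rfl; exact haw (Commute.one_left w)
  have hb1 : b ≠ 1 := by rintro rfl; exact hbw (Commute.one_left w)
  by_cases hba : b ∈ Subgroup.zpowers a
  · exact ⟨b⁻¹, Subgroup.inv_mem _ hba, by simp⟩
  obtain ⟨x', hx', y', hy', hne, hcom⟩ :=
    H.b a (hA.2 a ha ha1) b (hA.2 b hb hb1) (hA.1 a ha b hb) hba w hw
  have hy'1 : y' ≠ 1 := by
    rintro rfl
    rw [mul_one] at hne hcom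
    exact haw (commute_of_mem_zpowers hcom (H.gen a (hA.2 a ha ha1) x' hx' hne).2)
  obtain ⟨m, hm⟩ := Subgroup.mem_zpowers_iff.mp (H.gen b (hA.2 b hb hb1) y' hy' hy'1).2
  have hx'A : x' ∈ A := (Subgroup.zpowers_le.mpr ha) hx'
  have hy'A : y' ∈ A := (Subgroup.zpowers_le.mpr hb) hy'
  refine ⟨x' ^ m, Subgroup.zpow_mem _ hx' m, ?_⟩
  have h1 : (x' * y') ^ m = b * x' ^ m := by
    rw [(hA.1 x' hx'A y' hy'A).mul_zpow, hm]
    exact (hA.1 _ (A.zpow_mem hx'A m) b hb).eq
  rw [← h1]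
  exact hcom.zpow_left m

theorem commute_comm4 {a b y : G} (ha : Commute a y) (hb : Commute b y) :
    Commute (a * b * a⁻¹ * b⁻¹) y :=
  ((ha.mul_left hb).mul_left ha.inv_left).mul_left hb.inv_left

theorem commute_comm4' {a b y : G} (ha : Commute a y) (hb : Commute b y) :
    Commute (a⁻¹ * b⁻¹ * a * b) y :=
  ((ha.inv_left.mul_left hb.inv_left).mul_left ha).mul_left hb

theorem keyL (H : Hyp KK) {A : Subgroup G} (hA : A ∈ AA KK) {w' w z a0 : G}
    (hw' : w' ∈ KK) (hw : w ∈ KK) (hz : z ∈ A) (ha0 : a0 ∈ A)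
    (hzw' : Commute z w') (hzw : ¬ Commute z w) (ha0w' : ¬ Commute a0 w') :
    Commute (w * z * w⁻¹ * z⁻¹) z ∧ Commute (w * z * w⁻¹ * z⁻¹) w ∧
      Commute (w * z * w⁻¹ * z⁻¹) w' := by
  have hz1 : z ≠ 1 := by rintro rfl; exact hzw (Commute.one_left w)
  have hzK : z ∈ KK := hA.2 z hz hz1
  -- step 1
  obtain ⟨z'', hz'', hz2w⟩ := F1 H hA hz ha0 hw hzw
  set z2 := a0 * z'' with hz2
  have hz''A : z'' ∈ A := (Subgroup.zpowers_le.mpr hz) hz''
  have hz2A : z2 ∈ A := A.mul_mem ha0 hz''A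
  have hz2w' : ¬ Commute z2 w' := fun h =>
    ha0w' (commute_cancel_right h (commute_of_mem_zpowers hzw' hz''))
  have hz21 : z2 ≠ 1 := by intro h; rw [h] at hz2w'; exact hz2w' (Commute.one_left _)
  have hz2K : z2 ∈ KK := hA.2 z2 hz2A hz21
  -- step 2
  have hw'z : w' ∉ Subgroup.zpowers z := fun h =>
    ha0w' (hA.1 a0 ha0 w' ((Subgroup.zpowers_le.mpr hz) h))
  obtain ⟨z', hz', w'', hw'', hu1, huw⟩ := H.b z hzK w' hw' hzw' hw'z w hw
  have hw''1 : w'' ≠ 1 := by
    rintro rfl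
    rw [mul_one] at hu1 huw
    exact hzw (commute_of_mem_zpowers huw (H.gen z hzK z' hz' hu1).2)
  have hz'A : z' ∈ A := (Subgroup.zpowers_le.mpr hz) hz'
  have hw''K := H.gen w' hw' w'' hw'' hw''1
  have hz'w'' : Commute z' w'' :=
    (commute_of_mem_zpowers (commute_of_mem_zpowers hzw' hz').symm hw'').symm
  set u := z' * w'' with hu
  have huK : u ∈ KK := by
    by_cases h : z' = 1
    · rw [hu, h, one_mul]; exact hw''K.1
    · exact H.mul z' (hA.2 z' hz'A h) w'' hw''K.1 hz'w'' hu1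
  have huz : Commute u z :=
    (hA.1 z' hz'A z hz).mul_left (commute_of_mem_zpowers hzw'.symm hw'')
  have huz2 : ¬ Commute u z2 := by
    intro h
    have h1 : Commute w'' z2 := commute_cancel_left h (hA.1 z' hz'A z2 hz2A)
    exact hz2w' (commute_of_mem_zpowers h1 hw''K.2).symm
  -- step 3
  have huw1 : u * w ≠ 1 := by
    intro h
    have h1 : u = w⁻¹ := eq_inv_of_mul_eq_one_left h
    rw [h1] at huz
    exact hzw (Commute.inv_left_iff.mp huz).symm
  have huwK : u * w ∈ KK := H.mul u huK w hw huw huw1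
  -- step 4
  have hz2z : z2 ∉ Subgroup.zpowers z := fun h => hz2w' (commute_of_mem_zpowers hzw' h)
  obtain ⟨s, hs, t, ht, hst1, hstc⟩ := H.b z hzK z2 hz2K (hA.1 z hz z2 hz2A) hz2z (u * w) huwK
  have hsA : s ∈ A := (Subgroup.zpowers_le.mpr hz) hs
  have htA : t ∈ A := (Subgroup.zpowers_le.mpr hz2A) ht
  have hst : Commute s t := hA.1 s hsA t htA
  have hsu : Commute s u := commute_of_mem_zpowers huz.symm hs
  have htw : Commute t w := commute_of_mem_zpowers hz2w ht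
  -- step 5
  have E : (t * u) * (s * w) = (u * t) * (w * s) := by
    calc (t * u) * (s * w) = t * (u * s) * w := by simp only [mul_assoc]
      _ = t * (s * u) * w := by rw [hsu.eq]
      _ = (t * s) * (u * w) := by simp only [mul_assoc]
      _ = (s * t) * (u * w) := by rw [hst.eq]
      _ = (u * w) * (s * t) := hstc.eq
      _ = u * w * (t * s) := by rw [hst.eq]
      _ = u * (w * t) * s := by simp only [mul_assoc]
      _ = u * (t * w) * s := by rw [htw.eq]
      _ = (u * t) * (w * s) := by simp only [mul_assoc]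
  set c := w * s * w⁻¹ * s⁻¹ with hc
  have hc2 : c = t⁻¹ * u⁻¹ * t * u := by
    calc c = (u * t)⁻¹ * ((u * t) * (w * s)) * (s * w)⁻¹ := by
          rw [hc]; simp only [mul_inv_rev, mul_assoc, inv_mul_cancel_left]
      _ = (u * t)⁻¹ * ((t * u) * (s * w)) * (s * w)⁻¹ := by rw [E]
      _ = t⁻¹ * u⁻¹ * t * u := by
          simp only [mul_inv_rev, mul_assoc, mul_inv_cancel_left, mul_inv_cancel, mul_one]
  have hcs : Commute c s := by rw [hc2]; exact commute_comm4' hst.symm hsu.symm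
  have hcw : Commute c w := by rw [hc2]; exact commute_comm4' htw huw
  have hcu : Commute c u := commute_comm4 huw.symm hsu
  -- step 6
  have hs1 : s ≠ 1 := by
    intro h
    have hc1 : c = 1 := by rw [hc, h]; simp
    have ht1 : t ≠ 1 := by rw [h, one_mul] at hst1; exact hst1
    have htu : Commute t u := by
      rw [hc1] at hc2
      show t * u = u * t
      calc t * u = (u * t) * (t⁻¹ * u⁻¹ * t * u) := by
            simp only [mul_assoc, mul_inv_cancel_left]
        _ = u * t := by rw [← hc2, mul_one]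
    exact huz2 (commute_of_mem_zpowers htu (H.gen z2 hz2K t ht ht1).2).symm
  -- step 7
  obtain ⟨m, hm⟩ := Subgroup.mem_zpowers_iff.mp (H.gen z hzK s hs hs1).2
  have hd : w * z * w⁻¹ * z⁻¹ = c ^ m := by
    have h1 : w * s * w⁻¹ = c * s := by rw [hc]; simp
    calc w * z * w⁻¹ * z⁻¹ = (w * s * w⁻¹) ^ m * (s ^ m)⁻¹ := by rw [conj_zpow, hm]
      _ = c ^ m := by rw [h1, hcs.mul_zpow]; simp
  rw [hd]
  have hcz : Commute c z := by rw [← hm]; exact hcs.zpow_right m
  refine ⟨hcz.zpow_left m, hcw.zpow_left m, ?_⟩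
  have h1 : Commute z' c := commute_of_mem_zpowers hcz.symm hz'
  have h2 : Commute w'' c := commute_cancel_left hcu.symm h1
  exact ((commute_of_mem_zpowers h2 hw''K.2).symm).zpow_left m

theorem core_thm [Finite G] (H : Hyp KK) {x0 y0 : G} (hx0 : x0 ∈ KK) (hy0 : y0 ∈ KK)
    (hxy : Commute x0 y0) (hy0x0 : y0 ∉ Subgroup.zpowers x0) :
    ∃ c ∈ KK, ∀ w ∈ KK, Commute c w := by
  have hA0 : Subgroup.zpowers x0 ⊔ Subgroup.zpowers y0 ∈ AA KK := by
    apply sup_zpowers_mem_AA H _ hy0 _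
    · constructor
      · intro a ha b hb
        exact (commute_of_mem_zpowers (commute_of_mem_zpowers (Commute.refl x0) ha).symm hb).symm
      · intro a ha ha1
        exact (H.gen x0 hx0 a ha ha1).1
    · intro a ha
      exact commute_of_mem_zpowers hxy ha
  obtain ⟨A, hA0A, hAmax⟩ := (Set.toFinite (AA KK)).exists_le_maximal hA0
  have hA := hAmax.1
  have hx0A : x0 ∈ A := hA0A (Subgroup.mem_sup_left (Subgroup.mem_zpowers x0))
  have hy0A : y0 ∈ A := hA0A (Subgroup.mem_sup_right (Subgroup.mem_zpowers y0))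
  by_cases h1 : ∀ w ∈ KK, ∀ a ∈ A, Commute a w
  · exact ⟨x0, hx0, fun w hw => h1 w hw x0 hx0A⟩
  push Not at h1
  obtain ⟨w1, hw1, a0, ha0, ha0w1⟩ := h1
  obtain ⟨x', hx', y', hy', hne, hcom⟩ := H.b x0 hx0 y0 hy0 hxy hy0x0 w1 hw1
  have hhA : x' * y' ∈ A :=
    A.mul_mem ((Subgroup.zpowers_le.mpr hx0A) hx') ((Subgroup.zpowers_le.mpr hy0A) hy')
  by_cases h2 : ∀ w ∈ KK, ∀ z ∈ A, Commute z w1 → Commute z w
  · exact ⟨x' * y', hA.2 _ hhA hne, fun w hw => h2 w hw _ hhA hcom⟩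
  push Not at h2
  obtain ⟨w2, hw2, z1, hz1, hz1w1, hz1w2⟩ := h2
  obtain ⟨hcz1, hcw2, hcw1⟩ := keyL H hA hw1 hw2 hz1 ha0 hz1w1 hz1w2 ha0w1
  set c := w2 * z1 * w2⁻¹ * z1⁻¹ with hc
  have hz11 : z1 ≠ 1 := by rintro rfl; exact hz1w2 (Commute.one_left w2)
  have hz1K : z1 ∈ KK := hA.2 z1 hz1 hz11
  have hcz : w2 * z1 * w2⁻¹ = c * z1 := by rw [hc]; simp
  have hc1 : c ≠ 1 := by
    intro h
    apply hz1w2
    rw [h, one_mul] at hcz
    show z1 * w2 = w2 * z1
    calc z1 * w2 = (w2 * z1 * w2⁻¹) * w2 := by rw [hcz]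
      _ = w2 * z1 := by simp
  have hcK : c ∈ KK := by
    have h3 : w2 * z1 * w2⁻¹ ∈ KK := H.conj z1 hz1K w2
    have h4 : z1⁻¹ ∈ KK :=
      (H.gen z1 hz1K z1⁻¹ (inv_mem (Subgroup.mem_zpowers z1)) (inv_ne_one.mpr hz11)).1
    have h5 : Commute (w2 * z1 * w2⁻¹) z1⁻¹ := by
      rw [hcz]; exact (hcz1.mul_left (Commute.refl z1)).inv_right
    exact H.mul _ h3 _ h4 h5 hc1
  have hcA' : ∀ a ∈ A, Commute a c := by
    intro a ha
    obtain ⟨z', hz', hh⟩ := F1 H hA hz1 ha hw2 hz1w2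
    have hz'A : z' ∈ A := (Subgroup.zpowers_le.mpr hz1) hz'
    have h6 : Commute (a * z') c :=
      (commute_comm4 hh.symm (hA.1 z1 hz1 (a * z') (A.mul_mem ha hz'A))).symm
    have h7 : Commute z' c := commute_of_mem_zpowers hcz1.symm hz'
    exact commute_cancel_right h6 h7
  have hcA : c ∈ A := mem_of_maximal H hAmax hcK hcA'
  refine ⟨c, hcK, ?_⟩
  intro w' hw'
  by_cases h3 : ∀ a ∈ A, Commute a w'
  · exact h3 c hcA
  push Not at h3
  obtain ⟨a0', ha0', ha0'w'⟩ := h3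
  by_cases h4 : ∃ z' ∈ A, Commute z' w' ∧ ¬ Commute z' w2
  · obtain ⟨z', hz'A, hz'w', hz'w2⟩ := h4
    obtain ⟨-, -, hd'w'⟩ := keyL H hA hw' hw2 hz'A ha0' hz'w' hz'w2 ha0'w'
    have hd'1 : w2 * z' * w2⁻¹ * z'⁻¹ ≠ 1 := by
      intro h
      apply hz'w2
      show z' * w2 = w2 * z'
      have h5 : w2 * z' * w2⁻¹ = z' := by
        calc w2 * z' * w2⁻¹ = (w2 * z' * w2⁻¹ * z'⁻¹) * z' := by simp
          _ = z' := by rw [h, one_mul]
      calc z' * w2 = (w2 * z' * w2⁻¹) * w2 := by rw [h5]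
        _ = w2 * z' := by simp
    have hd'c : w2 * z' * w2⁻¹ * z'⁻¹ ∈ Subgroup.zpowers c := by
      obtain ⟨z1', hz1', hh⟩ := F1 H hA hz1 hz'A hw2 hz1w2
      obtain ⟨k, rfl⟩ := Subgroup.mem_zpowers_iff.mp hz1'
      have hP : w2 * z1 ^ k * w2⁻¹ = c ^ k * z1 ^ k := by
        rw [← conj_zpow, hcz, hcz1.mul_zpow]
      have hh' : w2 * (z' * z1 ^ k) * w2⁻¹ = z' * z1 ^ k := by
        rw [← hh.eq]; simp
      have e1 : w2 * z' * w2⁻¹ = z' * (c ^ k)⁻¹ := by
        calc w2 * z' * w2⁻¹ = (w2 * (z' * z1 ^ k) * w2⁻¹) * (w2 * z1 ^ k * w2⁻¹)⁻¹ := by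
              simp only [mul_inv_rev, inv_inv, mul_assoc, inv_mul_cancel_left, mul_inv_cancel_left]
          _ = (z' * z1 ^ k) * (c ^ k * z1 ^ k)⁻¹ := by rw [hh', hP]
          _ = z' * (c ^ k)⁻¹ := by
              simp only [mul_inv_rev, mul_assoc, mul_inv_cancel_left]
      have e2 : w2 * z' * w2⁻¹ * z'⁻¹ = (c ^ k)⁻¹ := by
        rw [e1, ((hcA' z' hz'A).zpow_right k).inv_right.eq]; simp
      rw [e2]
      exact Subgroup.inv_mem _ (Subgroup.zpow_mem _ (Subgroup.mem_zpowers c) k)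
    exact commute_of_mem_zpowers hd'w' (H.gen c hcK _ hd'c hd'1).2
  · push Not at h4
    by_contra hcw'
    obtain ⟨c', hc', hh⟩ := F1 H hA hcA hz1 hw' hcw'
    have h5 := h4 (z1 * c') (A.mul_mem hz1 ((Subgroup.zpowers_le.mpr hcA) hc')) hh
    exact hz1w2 (commute_cancel_right h5 (commute_of_mem_zpowers hcw2 hc'))

end core

theorem zpowers_eq_of_mem {G : Type*} [Group G] [Finite G] {p : ℕ} (hp : p.Prime)
    {X : Subgroup G} (hX : Nat.card X = p) {x : G} (hx : x ∈ X) (hx1 : x ≠ 1) :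
    Subgroup.zpowers x = X := by
  have hle : Subgroup.zpowers x ≤ X := Subgroup.zpowers_le.mpr hx
  apply Subgroup.eq_of_le_of_card_ge hle
  have hdvd : Nat.card (Subgroup.zpowers x) ∣ Nat.card X := Subgroup.card_dvd_of_le hle
  rw [hX] at hdvd ⊢
  rcases (Nat.dvd_prime hp).mp hdvd with h | h
  · exfalso
    rw [Nat.card_zpowers, orderOf_eq_one_iff] at h
    exact hx1 h
  · exact h.ge

/-- Let p be a prime and K a set of subgroups of order p of a finite group G, closed under conjugation, such that at least two distinct members of K commute elementwise, and whenever two distinct members X, Y of K commute: every subgroup of order p of the group XY they generate belongs to K, and every member W of K has centralizer meeting XY nontrivially. Then some member V of K commutes elementwise with every member of K and lies in O_p(G); in particular G is not simple. -/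
theorem result {G : Type*} [Group G] [Finite G]
    {p : ℕ} (hp : p.Prime) (K : Set (Subgroup G)) (hK : ∀ X ∈ K, Nat.card ↥X = p)
    (hKc : ∀ X ∈ K, ∀ g : G, X.map (MulAut.conj g).toMonoidHom ∈ K)
    (hex : ∃ X ∈ K, ∃ Y ∈ K, X ≠ Y ∧ ∀ x ∈ X, ∀ y ∈ Y, x * y = y * x)
    (ha : ∀ X ∈ K, ∀ Y ∈ K, X ≠ Y → (∀ x ∈ X, ∀ y ∈ Y, x * y = y * x) →
      ∀ Z : Subgroup G, Z ≤ X ⊔ Y → Nat.card ↥Z = p → Z ∈ K)
    (hb : ∀ X ∈ K, ∀ Y ∈ K, X ≠ Y → (∀ x ∈ X, ∀ y ∈ Y, x * y = y * x) →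
      ∀ W ∈ K, (X ⊔ Y) ⊓ Subgroup.centralizer (W : Set G) ≠ ⊥) :
    (∃ V ∈ K, (∀ W ∈ K, ∀ v ∈ V, ∀ w ∈ W, v * w = w * v) ∧ V ≤ Cfsg.pCore p G) ∧ ¬ IsSimpleGroup G := by
  classical
  have : Fact p.Prime := ⟨hp⟩
  let KK : Set G := {x | Subgroup.zpowers x ∈ K}
  have hord : ∀ x ∈ KK, orderOf x = p := fun x hx => by
    rw [← Nat.card_zpowers]; exact hK _ hx
  have hcz : ∀ x y : G, Commute x y → ∀ x' ∈ Subgroup.zpowers x, ∀ y' ∈ Subgroup.zpowers y,
      x' * y' = y' * x' := fun x y hc x' hx' y' hy' =>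
    (commute_of_mem_zpowers (commute_of_mem_zpowers hc hx').symm hy').symm.eq
  have H : Hyp KK :=
    { ne_one := by
        intro x hx h1
        have := hord x hx
        rw [h1, orderOf_one] at this
        exact hp.one_lt.ne this
      conj := by
        intro x hx g
        have := hKc _ hx g
        rw [MonoidHom.map_zpowers] at this
        show Subgroup.zpowers (g * x * g⁻¹) ∈ K
        simpa using this
      gen := by
        intro x hx y hy hy1
        have := zpowers_eq_of_mem hp (hK _ hx) hy hy1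
        refine ⟨?_, ?_⟩
        · show Subgroup.zpowers y ∈ K
          rw [this]; exact hx
        · rw [this]; exact Subgroup.mem_zpowers x
      mul := by
        intro x hx y hy hc hne
        show Subgroup.zpowers (x * y) ∈ K
        by_cases h : Subgroup.zpowers x = Subgroup.zpowers y
        · have hxy : x * y ∈ Subgroup.zpowers x :=
            mul_mem (Subgroup.mem_zpowers x) (h ▸ Subgroup.mem_zpowers y)
          rw [zpowers_eq_of_mem hp (hK _ hx) hxy hne]; exact hx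
        · apply ha _ hx _ hy h (hcz x y hc) (Subgroup.zpowers (x * y))
          · rw [Subgroup.zpowers_le]
            exact mul_mem (Subgroup.mem_sup_left (Subgroup.mem_zpowers x))
              (Subgroup.mem_sup_right (Subgroup.mem_zpowers y))
          · rw [Nat.card_zpowers]
            apply orderOf_eq_prime _ hne
            rw [hc.mul_pow, ← hord x hx, pow_orderOf_eq_one, hord x hx, ← hord y hy,
              pow_orderOf_eq_one, one_mul]
      b := by
        intro x hx y hy hc hyx w hw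
        have hne : Subgroup.zpowers x ≠ Subgroup.zpowers y := fun h =>
          hyx (h ▸ Subgroup.mem_zpowers y)
        have h1 := hb _ hx _ hy hne (hcz x y hc) _ hw
        rw [Ne, Subgroup.eq_bot_iff_forall] at h1
        push Not at h1
        obtain ⟨e, he, he1⟩ := h1
        obtain ⟨x', hx', y', hy', rfl⟩ :=
          mem_sup_of_commute (fun a ha b hb => (hcz x y hc a ha b hb : Commute a b)) he.1
        refine ⟨x', hx', y', hy', he1, ?_⟩
        exact ((Subgroup.mem_centralizer_iff.mp he.2) w (Subgroup.mem_zpowers w)).symm }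
  obtain ⟨X, hX, Y, hY, hXY, hXYc⟩ := hex
  -- generators
  have hgen : ∀ X ∈ K, ∃ x ∈ X, x ≠ 1 ∧ Subgroup.zpowers x = X := by
    intro X hX
    have hnt : Nontrivial ↥X := by
      rw [← Finite.one_lt_card_iff_nontrivial, hK X hX]; exact hp.one_lt
    obtain ⟨⟨x, hx⟩, hx1⟩ := exists_ne (1 : ↥X)
    have hx1 : x ≠ 1 := by simpa [Subtype.ext_iff] using hx1
    exact ⟨x, hx, hx1, zpowers_eq_of_mem hp (hK X hX) hx hx1⟩
  obtain ⟨x0, hx0X, hx01, hx0⟩ := hgen X hX
  obtain ⟨y0, hy0Y, hy01, hy0⟩ := hgen Y hY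
  have hx0K : x0 ∈ KK := by show Subgroup.zpowers x0 ∈ K; rw [hx0]; exact hX
  have hy0K : y0 ∈ KK := by show Subgroup.zpowers y0 ∈ K; rw [hy0]; exact hY
  have hy0x0 : y0 ∉ Subgroup.zpowers x0 := by
    intro h
    rw [hx0] at h
    exact hXY ((zpowers_eq_of_mem hp (hK X hX) h hy01).symm.trans hy0)
  obtain ⟨c, hcK, hc⟩ := core_thm H hx0K hy0K (hXYc x0 hx0X y0 hy0Y) hy0x0
  -- the normal p-subgroup
  let N : Subgroup G :=
    { carrier := {x | (x = 1 ∨ x ∈ KK) ∧ ∀ w ∈ KK, Commute x w}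
      one_mem' := ⟨Or.inl rfl, fun w _ => Commute.one_left w⟩
      mul_mem' := by
        rintro x y ⟨hx, hxc⟩ ⟨hy, hyc⟩
        refine ⟨?_, fun w hw => (hxc w hw).mul_left (hyc w hw)⟩
        rcases hx with rfl | hx
        · rw [one_mul]; exact hy
        rcases hy with rfl | hy
        · rw [mul_one]; exact Or.inr hx
        by_cases h : x * y = 1
        · exact Or.inl h
        · exact Or.inr (H.mul x hx y hy (hxc y hy) h)
      inv_mem' := by
        rintro x ⟨hx, hxc⟩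
        refine ⟨?_, fun w hw => (hxc w hw).inv_left⟩
        rcases hx with rfl | hx
        · left; simp
        · right
          exact (H.gen x hx x⁻¹ (inv_mem (Subgroup.mem_zpowers x))
            (inv_ne_one.mpr (H.ne_one x hx))).1 }
  have hNn : N.Normal := by
    constructor
    rintro x ⟨hx, hxc⟩ g
    refine ⟨?_, ?_⟩
    · rcases hx with rfl | hx
      · left; simp
      · right; exact H.conj x hx g
    · intro w hw
      have h1 : g⁻¹ * w * g ∈ KK := by simpa using H.conj w hw g⁻¹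
      have h2 := hxc _ h1
      show g * x * g⁻¹ * w = w * (g * x * g⁻¹)
      calc g * x * g⁻¹ * w = g * (x * (g⁻¹ * w * g)) * g⁻¹ := by
            simp only [mul_assoc, mul_inv_cancel, mul_one]
        _ = g * ((g⁻¹ * w * g) * x) * g⁻¹ := by rw [h2.eq]
        _ = w * (g * x * g⁻¹) := by simp only [mul_assoc, mul_inv_cancel_left]
  have hNp : IsPGroup p N := by
    rintro ⟨x, hx, -⟩
    refine ⟨1, ?_⟩
    apply Subtype.ext
    rw [Subgroup.coe_pow, pow_one, Subgroup.coe_one]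
    rcases hx with rfl | hx
    · simp
    · rw [← hord x hx, pow_orderOf_eq_one]
  have hcN : c ∈ N := ⟨Or.inr hcK, hc⟩
  refine ⟨⟨Subgroup.zpowers c, hcK, ?_, ?_⟩, ?_⟩
  · intro W hW v hv w hw
    by_cases hw1 : w = 1
    · rw [hw1]; simp
    have hwK : w ∈ KK := by
      show Subgroup.zpowers w ∈ K
      rw [zpowers_eq_of_mem hp (hK W hW) hw hw1]; exact hW
    exact (commute_of_mem_zpowers (hc w hwK) hv).eq
  · exact (Subgroup.zpowers_le.mpr hcN).trans (le_sSup ⟨hNn, hNp⟩)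
  · intro hs
    rcases hs.eq_bot_or_eq_top_of_normal N hNn with h | h
    · have : c ∈ (⊥ : Subgroup G) := h ▸ hcN
      exact H.ne_one c hcK (Subgroup.mem_bot.mp this)
    · have hall : ∀ g : G, Commute g x0 := fun g => by
        have : g ∈ N := h ▸ Subgroup.mem_top g
        exact this.2 x0 hx0K
      have hn : (Subgroup.zpowers x0).Normal := by
        constructor
        intro n hn g
        have h1 : Commute g n := (commute_of_mem_zpowers (hall g).symm hn).symm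
        rw [h1.eq]; simpa using hn
      rcases hs.eq_bot_or_eq_top_of_normal _ hn with h' | h'
      · exact hx01 (Subgroup.zpowers_eq_bot.mp h')
      · exact hy0x0 (h' ▸ Subgroup.mem_top y0)

end Cfsg.Agent.S3196
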