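import Cfsg.Statements.S3200
import Cfsg.Agent.Lib.Helper4Burnside
import Cfsg.Agent.S0003
import Cfsg.Agent.S0004
import Cfsg.Agent.S0005
import Mathlib

set_option autoImplicit false
open Cfsg

namespace Cfsg.Agent.S3200

universe u

/-- `H` has an abelian Hall `2'`-subgroup. -/
def Q (H : Type*) [Group H] : Prop :=
  ∃ D : Subgroup H, IsMulCommutative ↥D ∧ Odd (Nat.card D) ∧ ∃ n : ℕ, D.index = 2 ^ n

theorem Q_of_complement {H : Type*} [Group H] [Finite H] (S : Sylow 2 H) (C : Subgroup H)
    (hC : IsMulCommutative ↥C) (hSC : Subgroup.IsComplement' (S : Subgroup H) C) : Q H := by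
  have : Fact (Nat.Prime 2) := ⟨Nat.prime_two⟩
  have h1 := hSC.card_mul_card
  obtain ⟨n, hn⟩ := (IsPGroup.iff_card).mp S.2
  have h2 := Subgroup.card_mul_index C
  have h3 := Subgroup.card_mul_index (S : Subgroup H)
  refine ⟨C, hC, ?_, n, ?_⟩
  · have h4 : Nat.card C = (S : Subgroup H).index := by
      have : Nat.card (S : Subgroup H) * Nat.card C = Nat.card (S : Subgroup H) * (S : Subgroup H).index := by
        rw [h1, h3]
      exact Nat.eq_of_mul_eq_mul_left Nat.card_pos this
    rw [h4, ← Nat.not_even_iff_odd, even_iff_two_dvd]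
    exact S.not_dvd_index
  · have : Nat.card C * C.index = Nat.card C * Nat.card (S : Subgroup H) := by
      rw [h2, ← h1, mul_comm]
    rw [← hn]
    exact Nat.eq_of_mul_eq_mul_left Nat.card_pos this

theorem complement_of_Q {H : Type*} [Group H] [Finite H] (D : Subgroup H)
    (hodd : Odd (Nat.card D)) {n : ℕ} (hn : D.index = 2 ^ n) (P : Sylow 2 H) :
    Subgroup.IsComplement' (P : Subgroup H) D := by
  have : Fact (Nat.Prime 2) := ⟨Nat.prime_two⟩
  obtain ⟨k, hk⟩ := (IsPGroup.iff_card).mp P.2
  have h2 := Subgroup.card_mul_index D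
  have h3 := Subgroup.card_mul_index (P : Subgroup H)
  have hcop : ∀ j : ℕ, Nat.Coprime (2 ^ j) (Nat.card D) := fun j =>
    Nat.Coprime.pow_left j (Nat.coprime_two_left.mpr hodd)
  have hPodd : Nat.Coprime (2 ^ n) (P : Subgroup H).index :=
    Nat.Coprime.pow_left n ((Nat.Prime.coprime_iff_not_dvd Nat.prime_two).mpr P.not_dvd_index)
  have hkn : k = n := by
    rw [hn] at h2
    rw [hk] at h3
    have e : Nat.card D * 2 ^ n = 2 ^ k * (P : Subgroup H).index := by rw [h2, h3]
    have d1 : 2 ^ k ∣ 2 ^ n := (hcop k).dvd_of_dvd_mul_left (Dvd.intro _ e.symm)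
    have d2 : 2 ^ n ∣ 2 ^ k := hPodd.dvd_of_dvd_mul_right (Dvd.intro_left _ e)
    exact Nat.pow_right_injective (le_refl 2) (Nat.dvd_antisymm d1 d2)
  apply Subgroup.isComplement'_of_coprime
  · rw [hk, hkn, ← h2, hn, mul_comm]
  · rw [hk]; exact hcop k

theorem Q_quotient {H : Type*} [Group H] [Finite H] (hQ : Q H) (N : Subgroup H) [N.Normal] :
    Q (H ⧸ N) := by
  obtain ⟨D, hD, hodd, n, hn⟩ := hQ
  refine ⟨D.map (QuotientGroup.mk' N), ?_, ?_, ?_⟩
  · exact Subgroup.map_isMulCommutative D _
  · exact Odd.of_dvd_nat hodd (Subgroup.card_map_dvd D _)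
  · have h1 : (D.map (QuotientGroup.mk' N)).index ∣ D.index :=
      Subgroup.index_map_dvd D (QuotientGroup.mk'_surjective N)
    rw [hn] at h1
    obtain ⟨k, -, hk⟩ := (Nat.dvd_prime_pow Nat.prime_two).mp h1
    exact ⟨k, hk⟩

theorem Q_normal {H : Type*} [Group H] [Finite H] (hQ : Q H) (N : Subgroup H) [N.Normal] :
    Q ↥N := by
  obtain ⟨D, hD, hodd, n, hn⟩ := hQ
  refine ⟨D.subgroupOf N, ?_, ?_, ?_⟩
  · exact Subgroup.subgroupOf_isMulCommutative N D
  · have h1 : Nat.card (D.subgroupOf N) = Nat.card (D ⊓ N : Subgroup H) := by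
      rw [← Subgroup.subgroupOf_map_subtype, Subgroup.card_map_of_injective N.subtype_injective]
    rw [h1]
    exact Odd.of_dvd_nat hodd (Subgroup.card_dvd_of_le inf_le_left)
  · have e1 := Subgroup.card_mul_index (D.subgroupOf N)
    have e2 := Subgroup.card_mul_index (N.subgroupOf D)
    have e3 := Subgroup.card_mul_index (N.subgroupOf (D ⊔ N))
    have e4 := Subgroup.card_mul_index (D ⊔ N)
    have e5 := Subgroup.card_mul_index D
    have c1 : Nat.card (D.subgroupOf N) = Nat.card (D ⊓ N : Subgroup H) := by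
      rw [← Subgroup.subgroupOf_map_subtype, Subgroup.card_map_of_injective N.subtype_injective]
    have c2 : Nat.card (N.subgroupOf D) = Nat.card (D ⊓ N : Subgroup H) := by
      rw [inf_comm, ← Subgroup.subgroupOf_map_subtype,
        Subgroup.card_map_of_injective D.subtype_injective]
    have c3 : Nat.card (N.subgroupOf (D ⊔ N)) = Nat.card N :=
      Nat.card_congr (Subgroup.subgroupOfEquivOfLe le_sup_right).toEquiv
    have c4 : (N.subgroupOf (D ⊔ N)).index = (N.subgroupOf D).index :=
      Subgroup.relIndex_sup_right D N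
    rw [c1] at e1
    rw [c2] at e2
    rw [c3, c4] at e3
    rw [hn] at e5
    set a := Nat.card (D ⊓ N : Subgroup H)
    set r := (D.subgroupOf N).index
    set t := (N.subgroupOf D).index
    set i := (D ⊔ N).index
    have ha : 0 < a := Nat.card_pos
    have ht : 0 < t := Nat.pos_of_ne_zero Subgroup.index_ne_zero_of_finite
    have key : r * i = 2 ^ n := by
      have : (a * t) * (r * i) = (a * t) * 2 ^ n := by
        calc (a * t) * (r * i) = ((a * r) * t) * i := by ring
          _ = Nat.card H := by rw [e1, e3, e4]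
          _ = (a * t) * 2 ^ n := by rw [e2, e5]
      exact Nat.eq_of_mul_eq_mul_left (Nat.mul_pos ha ht) this
    obtain ⟨k, -, hk⟩ := (Nat.dvd_prime_pow Nat.prime_two).mp (Dvd.intro _ key)
    exact ⟨k, hk⟩

theorem solvable_aux : ∀ (n : ℕ) (H : Type u) [Group H] [Finite H], Nat.card H = n → Q H →
    Group.IsSolvable H := by
  intro n
  induction n using Nat.strong_induction_on with
  | _ n ih =>
    intro H _ _ hn hQ
    by_cases hsub : Subsingleton H
    · exact Group.isSolvable_of_comm (fun x y => Subsingleton.elim _ _)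
    have hnt : Nontrivial H := not_subsingleton_iff_nontrivial.mp hsub
    by_cases hsimple : IsSimpleGroup H
    · obtain ⟨D, hD, hodd, k, hk⟩ := hQ
      by_cases hDbot : D = ⊥
      · apply Cfsg.Agent.Lib.Helper4Burnside.burnside_paqb 2 2 k 0 Nat.prime_two Nat.prime_two
        rw [← hk, hDbot, Subgroup.index_bot]; simp
      · rw [Subgroup.eq_bot_iff_forall] at hDbot
        push Not at hDbot
        obtain ⟨c, hc, hc1⟩ := hDbot
        have hle : D ≤ Subgroup.centralizer ({c} : Set H) := by
          intro d hd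
          rw [Subgroup.mem_centralizer_singleton_iff]
          have := hD.is_comm.comm ⟨d, hd⟩ ⟨c, hc⟩
          exact congrArg Subtype.val this
        have hdvd := Subgroup.index_dvd_of_le hle
        rw [hk] at hdvd
        obtain ⟨j, -, hj⟩ := (Nat.dvd_prime_pow Nat.prime_two).mp hdvd
        have hprime := Cfsg.Agent.Lib.Helper4Burnside.prime_card_of_prime_power_class 2 j
          Nat.prime_two c hc1 hj
        have : Fact (Nat.card H).Prime := ⟨hprime⟩
        have hcyc : IsCyclic H := isCyclic_of_prime_card rfl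
        have hcomm : IsMulCommutative H := hcyc.isMulCommutative
        exact Group.isSolvable_of_comm (fun x y => mul_comm' x y)
    · have hex : ∃ N : Subgroup H, N.Normal ∧ N ≠ ⊥ ∧ N ≠ ⊤ := by
        by_contra hcon
        push Not at hcon
        exact hsimple ⟨fun N hN => or_iff_not_imp_left.mpr (hcon N hN)⟩
      obtain ⟨N, hN, hbot, htop⟩ := hex
      have hmul := Subgroup.card_mul_index N
      have hNpos : 0 < Nat.card N := Nat.card_pos
      have hidx : 0 < N.index := Nat.pos_of_ne_zero (Subgroup.index_ne_zero_of_finite)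
      have hN1 : 1 < Nat.card N := by
        rcases Nat.lt_or_ge 1 (Nat.card N) with h | h
        · exact h
        · exact absurd (Subgroup.card_eq_one.mp (le_antisymm h hNpos)) hbot
      have hi1 : 1 < N.index := by
        rcases Nat.lt_or_ge 1 N.index with h | h
        · exact h
        · exact absurd (Subgroup.index_eq_one.mp (le_antisymm h hidx)) htop
      have hlt1 : Nat.card N < n := by rw [← hn, ← hmul]; nlinarith
      have hlt2 : Nat.card (H ⧸ N) < n := by
        rw [← Subgroup.index_eq_card, ← hn, ← hmul]; nlinarith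
      have hs1 : Group.IsSolvable N := ih _ hlt1 N rfl (Q_normal hQ N)
      have hs2 : Group.IsSolvable (H ⧸ N) := ih _ hlt2 (H ⧸ N) rfl (Q_quotient hQ N)
      exact Group.isSolvable_of_ker_le_range N.subtype (QuotientGroup.mk' N) (by simp)

/-- Let H be a finite group in which a Sylow 2-subgroup has an abelian complement (an abelian subgroup meeting it trivially whose product with it is all of H). Then H is solvable, and every subgroup and every quotient group of H again has a Sylow 2-subgroup with an abelian complement. -/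
theorem result {H : Type*} [Group H] [Finite H]
    (S : Sylow 2 H) (C : Subgroup H) (hC : IsMulCommutative ↥C) (hSC : Subgroup.IsComplement' (S : Subgroup H) C) :
    Group.IsSolvable H ∧
    (∀ L : Subgroup H, ∃ (P : Sylow 2 ↥L) (D : Subgroup ↥L), IsMulCommutative ↥D ∧ Subgroup.IsComplement' (P : Subgroup ↥L) D) ∧
    (∀ (N : Subgroup H) [N.Normal], ∃ (P : Sylow 2 (H ⧸ N)) (D : Subgroup (H ⧸ N)),
      IsMulCommutative ↥D ∧ Subgroup.IsComplement' (P : Subgroup (H ⧸ N)) D) := by
  have hQ := Q_of_complement S C hC hSC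
  have hsol : Group.IsSolvable H := solvable_aux _ H rfl hQ
  refine ⟨hsol, ?_, ?_⟩
  · intro L
    obtain ⟨k, m, hm, hkm⟩ := Nat.exists_eq_two_pow_mul_odd (Nat.card_pos (α := L)).ne'
    have hcop : ∀ j : ℕ, Nat.Coprime m (2 ^ j) := fun j =>
      Nat.Coprime.pow_right j (Nat.coprime_two_right.mpr hm)
    obtain ⟨D, hDcard⟩ := Cfsg.Agent.S0003.result (G := L) m (2 ^ k) (by rw [hkm, mul_comm])
      (hcop k)
    have hDidx : D.index = 2 ^ k := by
      have h1 := Subgroup.card_mul_index D
      rw [hDcard, hkm, mul_comm (2 ^ k)] at h1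
      exact Nat.eq_of_mul_eq_mul_left hm.pos h1
    have hDab : IsMulCommutative D := by
      obtain ⟨-, -, hCodd, n, hn⟩ : ∃ D' : Subgroup H, D' = C ∧ Odd (Nat.card C) ∧
          ∃ n : ℕ, C.index = 2 ^ n := by
        have : Fact (Nat.Prime 2) := ⟨Nat.prime_two⟩
        have h1 := hSC.card_mul_card
        obtain ⟨n, hn⟩ := (IsPGroup.iff_card).mp S.2
        have h2 := Subgroup.card_mul_index C
        have h3 := Subgroup.card_mul_index (S : Subgroup H)
        refine ⟨C, rfl, ?_, n, ?_⟩
        · have h4 : Nat.card C = (S : Subgroup H).index := by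
            have : Nat.card (S : Subgroup H) * Nat.card C =
                Nat.card (S : Subgroup H) * (S : Subgroup H).index := by
              rw [h1, h3]
            exact Nat.eq_of_mul_eq_mul_left Nat.card_pos this
          rw [h4, ← Nat.not_even_iff_odd, even_iff_two_dvd]
          exact S.not_dvd_index
        · have : Nat.card C * C.index = Nat.card C * Nat.card (S : Subgroup H) := by
            rw [h2, ← h1, mul_comm]
          rw [← hn]
          exact Nat.eq_of_mul_eq_mul_left Nat.card_pos this
      have hG : Nat.card H = Nat.card C * 2 ^ n := by rw [← hn, Subgroup.card_mul_index]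
      have hcopC : Nat.Coprime (Nat.card C) (2 ^ n) :=
        Nat.Coprime.pow_right n (Nat.coprime_two_right.mpr hCodd)
      have hKcard : Nat.card (D.map L.subtype) = m := by
        rw [Subgroup.card_map_of_injective L.subtype_injective, hDcard]
      obtain ⟨H', hH'card, hKH'⟩ := Cfsg.Agent.S0005.result (G := H) (Nat.card C) (2 ^ n) hG hcopC
        (D.map L.subtype) (by rw [hKcard]; exact hcop n)
      obtain ⟨g, hg⟩ := Cfsg.Agent.S0004.result (G := H) (Nat.card C) (2 ^ n) hG hcopC H' C
        hH'card rfl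
      have hH'comm : ∀ x ∈ H', ∀ y ∈ H', x * y = y * x := by
        intro x hx y hy
        have hx' : g * x * g⁻¹ ∈ C := by
          rw [← hg]
          have := Subgroup.smul_mem_pointwise_smul x (MulAut.conj g) H' hx
          simpa [MulAut.smul_def] using this
        have hy' : g * y * g⁻¹ ∈ C := by
          rw [← hg]
          have := Subgroup.smul_mem_pointwise_smul y (MulAut.conj g) H' hy
          simpa [MulAut.smul_def] using this
        have h5 := congrArg Subtype.val (hC.is_comm.comm ⟨_, hx'⟩ ⟨_, hy'⟩)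
        have h6 : g * x * g⁻¹ * (g * y * g⁻¹) = g * y * g⁻¹ * (g * x * g⁻¹) := h5
        have h7 : g * (x * y) * g⁻¹ = g * (y * x) * g⁻¹ := by
          calc g * (x * y) * g⁻¹ = g * x * g⁻¹ * (g * y * g⁻¹) := by
                simp only [mul_assoc, inv_mul_cancel_left]
            _ = g * y * g⁻¹ * (g * x * g⁻¹) := h6
            _ = g * (y * x) * g⁻¹ := by simp only [mul_assoc, inv_mul_cancel_left]
        exact mul_left_cancel (mul_right_cancel h7)
      refine ⟨⟨fun a b => ?_⟩⟩
      apply Subtype.ext
      apply Subtype.ext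
      exact hH'comm _ (hKH' ⟨a.1, a.2, rfl⟩) _ (hKH' ⟨b.1, b.2, rfl⟩)
    exact ⟨default, D, hDab, complement_of_Q D (hDcard ▸ hm) hDidx _⟩
  · intro N _
    obtain ⟨D, hD, hodd, n, hn⟩ := Q_quotient hQ N
    exact ⟨default, D, hD, complement_of_Q D hodd hn _⟩

end Cfsg.Agent.S3200
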