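import Cfsg.Statements.S3202
import Cfsg.Agent.Lib.Helper76QuatQuot

set_option autoImplicit false
open Cfsg

namespace Cfsg.Agent.S3202

/-- Let S be a finite 2-group of 2-rank exactly 2 and D a maximal subgroup of the centre of S such that S/D is a non-abelian group with exactly one involution (a generalized quaternion group). Then S has a nontrivial cyclic characteristic subgroup. -/
theorem result {S : Type*} [Group S]
    [Finite S] (hS : IsPGroup 2 S) (hr2 : Cfsg.PRankLE 2 2 S) (hr1 : ¬ Cfsg.PRankLE 2 1 S)
    (D : Subgroup ↥(Subgroup.center S)) (hD : IsCoatom D)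
    (hq : ∃ (_ : (D.map (Subgroup.center S).subtype).Normal),
      ¬ IsMulCommutative (S ⧸ D.map (Subgroup.center S).subtype) ∧
      ∃! x : S ⧸ D.map (Subgroup.center S).subtype, orderOf x = 2) :
    ∃ C : Subgroup S, C ≠ ⊥ ∧ IsCyclic ↥C ∧ C.Characteristic := by
  obtain ⟨hN, hna, hu⟩ := hq
  obtain ⟨k, ab, bb, hcard, hoa, -, -, -⟩ :=
    Cfsg.Agent.Lib.Helper76QuatQuot.quat_structure (hS.to_quotient _) hna hu
  obtain ⟨x, rfl⟩ := QuotientGroup.mk_surjective ab
  have hNc : D.map (Subgroup.center S).subtype ≤ Subgroup.center S := by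
    rintro _ ⟨d, -, rfl⟩
    exact d.2
  have hi : (Subgroup.zpowers (x : S ⧸ D.map (Subgroup.center S).subtype)).index = 2 := by
    have h1 := (Subgroup.zpowers (x : S ⧸ D.map (Subgroup.center S).subtype)).card_mul_index
    rw [Nat.card_zpowers, hoa, hcard, pow_succ 2 (k + 2)] at h1
    exact Nat.eq_of_mul_eq_mul_left (by positivity) h1
  refine ⟨commutator S, ?_, Cfsg.Agent.Lib.Helper76QuatQuot.isCyclic_commutator _ hNc x hi,
    inferInstance⟩
  intro h
  apply hna
  rw [isMulCommutative_iff]
  intro a b
  induction a using QuotientGroup.induction_on with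
  | H a =>
    induction b using QuotientGroup.induction_on with
    | H b =>
      rw [commutator_eq_bot_iff_center_eq_top] at h
      have : a ∈ Subgroup.center S := h ▸ Subgroup.mem_top a
      rw [← QuotientGroup.mk_mul, ← QuotientGroup.mk_mul, Subgroup.mem_center_iff.mp this b]

end Cfsg.Agent.S3202
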