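import Cfsg.Statements.S3208
import Mathlib

set_option autoImplicit false
open Cfsg

namespace Cfsg.Agent.S3208

theorem mem_zpowers_of_order_two {G : Type*} [Group G] {j x : G} (hj : orderOf j = 2)
    (hx : x ∈ Subgroup.zpowers j) : x = 1 ∨ x = j := by
  obtain ⟨i, rfl⟩ := Subgroup.mem_zpowers_iff.mp hx
  have h2 : j ^ (2 : ℤ) = 1 := by
    have := pow_orderOf_eq_one j
    rw [hj] at this
    exact_mod_cast this
  rcases Int.even_or_odd' i with ⟨m, rfl | rfl⟩
  · left
    rw [zpow_mul, h2, one_zpow]
  · right
    rw [zpow_add, zpow_mul, h2, one_zpow, one_mul, zpow_one]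

/-- Let j be an involution of a finite group G, H a subgroup of G, and T a Sylow 2-subgroup of H ∩ C_G(j) containing j such that ⟨j⟩ is a characteristic subgroup of T. Then T is a Sylow 2-subgroup of H. -/
theorem result {G : Type*} [Group G] [Finite G]
    (j : G) (hj : orderOf j = 2) (H T : Subgroup G) (hT : T ≤ H ⊓ Subgroup.centralizer ({j} : Set G)) (h2 : IsPGroup 2 ↥T)
    (hSyl : ¬ 2 ∣ T.relIndex (H ⊓ Subgroup.centralizer ({j} : Set G))) (hjT : j ∈ T)
    (hchar : ((Subgroup.zpowers j).subgroupOf T).Characteristic) :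
    ¬ 2 ∣ T.relIndex H := by
  intro hdvd
  have : Fact (Nat.Prime 2) := ⟨Nat.prime_two⟩
  obtain ⟨n, hn⟩ := (IsPGroup.iff_card).mp h2
  have hTH : T ≤ H := hT.trans inf_le_left
  have hT'card : Nat.card (T.subgroupOf H) = 2 ^ n := by
    rw [← hn]; exact Nat.card_congr (Subgroup.subgroupOfEquivOfLe hTH).toEquiv
  have hdvd' : 2 ^ (n + 1) ∣ Nat.card H := by
    rw [← Subgroup.card_mul_index (T.subgroupOf H), hT'card, pow_succ]
    exact Nat.mul_dvd_mul_left _ hdvd
  obtain ⟨K', hK'card, hK'le⟩ := Sylow.exists_subgroup_card_pow_succ hdvd' hT'card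
  have hidx : ((T.subgroupOf H).subgroupOf K').index = 2 := by
    have h1 := Subgroup.card_mul_index ((T.subgroupOf H).subgroupOf K')
    have h3 : Nat.card ((T.subgroupOf H).subgroupOf K') = 2 ^ n := by
      rw [← hT'card]; exact Nat.card_congr (Subgroup.subgroupOfEquivOfLe hK'le).toEquiv
    rw [h3, hK'card, pow_succ] at h1
    exact Nat.eq_of_mul_eq_mul_left (by positivity) h1
  have hnorm : ((T.subgroupOf H).subgroupOf K').Normal := Subgroup.normal_of_index_eq_two hidx
  -- the image of K' in G
  have hKnorm : ∀ k ∈ K'.map H.subtype, ∀ t ∈ T, k * t * k⁻¹ ∈ T := by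
    rintro _ ⟨k, hk, rfl⟩ t ht
    have := hnorm.conj_mem ⟨⟨t, hTH ht⟩, hK'le (by simpa [Subgroup.mem_subgroupOf] using ht)⟩
      (by simpa [Subgroup.mem_subgroupOf] using ht) ⟨k, hk⟩
    simpa [Subgroup.mem_subgroupOf] using this
  have hKcent : K'.map H.subtype ≤ H ⊓ Subgroup.centralizer ({j} : Set G) := by
    intro k hk
    refine ⟨?_, ?_⟩
    · obtain ⟨k', _, rfl⟩ := hk
      exact k'.2
    · have hkN : k ∈ Subgroup.normalizer (T : Set G) := by
        rw [Subgroup.mem_normalizer_iff]
        intro t
        constructor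
        · exact hKnorm k hk t
        · intro h
          have := hKnorm k⁻¹ (inv_mem hk) _ h
          simpa [mul_assoc] using this
      have hfix := hchar.fixed (T.normalizerMonoidHom ⟨k, hkN⟩)
      have hjmem : (⟨j, hjT⟩ : T) ∈ (Subgroup.zpowers j).subgroupOf T := by
        simp [Subgroup.mem_subgroupOf]
      rw [← hfix] at hjmem
      have h3 : k * j * k⁻¹ ∈ Subgroup.zpowers j := by
        simpa [Subgroup.mem_subgroupOf, Subgroup.mem_comap] using hjmem
      rcases mem_zpowers_of_order_two hj h3 with h4 | h4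
      · exfalso
        have : j = 1 := by
          have h5 : k * j = k := by
            have := congrArg (· * k) h4
            simpa using this
          simpa using h5
        rw [this, orderOf_one] at hj
        norm_num at hj
      · show k ∈ Subgroup.centralizer ({j} : Set G)
        rw [Subgroup.mem_centralizer_iff]
        intro x hx
        rw [Set.mem_singleton_iff] at hx
        subst hx
        have := congrArg (· * k) h4
        simpa using this.symm
  have hTK : T ≤ K'.map H.subtype := by
    intro t ht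
    exact ⟨⟨t, hTH ht⟩, hK'le (by simpa [Subgroup.mem_subgroupOf] using ht), rfl⟩
  have hrel : T.relIndex (K'.map H.subtype) = 2 := by
    have h1 := Subgroup.card_mul_index (T.subgroupOf (K'.map H.subtype))
    have h3 : Nat.card (T.subgroupOf (K'.map H.subtype)) = 2 ^ n := by
      rw [← hn]; exact Nat.card_congr (Subgroup.subgroupOfEquivOfLe hTK).toEquiv
    have h4 : Nat.card (K'.map H.subtype) = 2 ^ (n + 1) := by
      rw [← hK'card]
      exact Subgroup.card_map_of_injective H.subtype_injective
    rw [h3, h4, pow_succ] at h1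
    exact Nat.eq_of_mul_eq_mul_left (by positivity) h1
  apply hSyl
  rw [← Subgroup.relIndex_mul_relIndex T _ _ hTK hKcent, hrel]
  exact Dvd.intro _ rfl

end Cfsg.Agent.S3208
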