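import Cfsg.Statements.S3209
import Mathlib

set_option autoImplicit false
open Cfsg

namespace Cfsg.Agent.S3209

section SL2
variable {F : Type*} [Field F]

/-- the central involution of `SL₂`. -/
def J0 : Matrix.SpecialLinearGroup (Fin 2) F :=
  ⟨!![-1, 0; 0, -1], by simp [Matrix.det_fin_two]⟩

/-- the standard element of order four. -/
def W0 : Matrix.SpecialLinearGroup (Fin 2) F :=
  ⟨!![0, -1; 1, 0], by simp [Matrix.det_fin_two]⟩

lemma sl2_det (g : Matrix.SpecialLinearGroup (Fin 2) F) :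
    g 0 0 * g 1 1 - g 0 1 * g 1 0 = 1 := by
  have := g.2
  rw [Matrix.det_fin_two] at this
  exact this

lemma sl2_mul_entries (g h : Matrix.SpecialLinearGroup (Fin 2) F) (i j : Fin 2) :
    (g * h) i j = g i 0 * h 0 j + g i 1 * h 1 j := by
  simp [Matrix.mul_apply, Fin.sum_univ_two]

lemma W0_sq : (W0 * W0 : Matrix.SpecialLinearGroup (Fin 2) F) = J0 := by
  ext i j
  rw [sl2_mul_entries]
  fin_cases i <;> fin_cases j <;> simp [W0, J0]

lemma sq_one (h2 : (2 : F) ≠ 0) (g : Matrix.SpecialLinearGroup (Fin 2) F) (hg : g * g = 1) :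
    g = 1 ∨ g = J0 := by
  have hd := sl2_det g
  have e00 : g 0 0 * g 0 0 + g 0 1 * g 1 0 = 1 := by
    rw [← sl2_mul_entries, hg]; simp
  have e01 : g 0 0 * g 0 1 + g 0 1 * g 1 1 = 0 := by
    rw [← sl2_mul_entries, hg]; simp
  have e10 : g 1 0 * g 0 0 + g 1 1 * g 1 0 = 0 := by
    rw [← sl2_mul_entries, hg]; simp
  have e11 : g 1 0 * g 0 1 + g 1 1 * g 1 1 = 1 := by
    rw [← sl2_mul_entries, hg]; simp
  have ht : g 0 0 * (g 0 0 + g 1 1) = 2 := by linear_combination e00 + hd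
  have ht0 : g 0 0 + g 1 1 ≠ 0 := by
    intro h
    rw [h, mul_zero] at ht
    exact h2 ht.symm
  have hb : g 0 1 = 0 := by
    have : g 0 1 * (g 0 0 + g 1 1) = 0 := by linear_combination e01
    rcases mul_eq_zero.mp this with h | h
    · exact h
    · exact absurd h ht0
  have hc : g 1 0 = 0 := by
    have : g 1 0 * (g 0 0 + g 1 1) = 0 := by linear_combination e10
    rcases mul_eq_zero.mp this with h | h
    · exact h
    · exact absurd h ht0
  have ha : (g 0 0 - 1) * (g 0 0 + 1) = 0 := by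
    rw [hb] at e00
    linear_combination e00
  have had : g 0 0 * g 1 1 = 1 := by
    rw [hb] at hd
    linear_combination hd
  rcases mul_eq_zero.mp ha with h | h
  · left
    have ha1 : g 0 0 = 1 := by linear_combination h
    have hd1 : g 1 1 = 1 := by rw [ha1] at had; linear_combination had
    ext i j
    fin_cases i <;> fin_cases j <;> simp [ha1, hb, hc, hd1]
  · right
    have ha1 : g 0 0 = -1 := by linear_combination h
    have hd1 : g 1 1 = -1 := by rw [ha1] at had; linear_combination -had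
    ext i j
    fin_cases i <;> fin_cases j <;> simp [ha1, hb, hc, hd1, J0]

lemma J0_ne_one (h2 : (2 : F) ≠ 0) : (J0 : Matrix.SpecialLinearGroup (Fin 2) F) ≠ 1 := by
  intro h
  have : (J0 : Matrix.SpecialLinearGroup (Fin 2) F) 0 0 = (1 : Matrix.SpecialLinearGroup (Fin 2) F) 0 0 := by
    rw [h]
  simp [J0] at this
  apply h2
  linear_combination -this

lemma sum_sq [Fintype F] (hF : Odd (Fintype.card F)) (c : F) : ∃ X Y : F, X ^ 2 + Y ^ 2 = c := by
  classical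
  let f : Polynomial F := Polynomial.X ^ 2
  let g : Polynomial F := Polynomial.X ^ 2 - Polynomial.C c
  obtain ⟨a, b, hab⟩ : ∃ a b, f.eval a + g.eval b = 0 :=
    FiniteField.exists_root_sum_quadratic (f := f) (g := g) (Polynomial.degree_X_pow 2)
      (Polynomial.degree_X_pow_sub_C (by decide) _) (Nat.odd_iff.mp hF)
  refine ⟨a, b, ?_⟩
  rw [← sub_eq_zero]
  simpa only [f, g, Polynomial.eval_C, Polynomial.eval_X, Polynomial.eval_pow, Polynomial.eval_sub,
    ← add_sub_assoc] using hab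

lemma conj_W0 [Fintype F] (hF : Odd (Fintype.card F)) (h2 : (2 : F) ≠ 0)
    (g : Matrix.SpecialLinearGroup (Fin 2) F) (hg : g * g = J0) :
    ∃ P : Matrix.SpecialLinearGroup (Fin 2) F, P * W0 * P⁻¹ = g := by
  have hd := sl2_det g
  have e00 : g 0 0 * g 0 0 + g 0 1 * g 1 0 = -1 := by
    rw [← sl2_mul_entries, hg]; simp [J0]
  have e11 : g 1 0 * g 0 1 + g 1 1 * g 1 1 = -1 := by
    rw [← sl2_mul_entries, hg]; simp [J0]
  have ht : (g 0 0 + g 1 1) ^ 2 = 0 := by linear_combination e00 + e11 + 2 * hd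
  have hda : g 1 1 = - g 0 0 := by
    have := pow_eq_zero_iff (two_ne_zero) |>.mp ht
    linear_combination this
  -- find the vector
  obtain ⟨v1, v2, hv⟩ : ∃ v1 v2 : F,
      v1 * (g 1 0 * v1 + g 1 1 * v2) - (g 0 0 * v1 + g 0 1 * v2) * v2 = 1 := by
    by_cases hc : g 1 0 = 0
    · have ha : g 0 0 ≠ 0 := by
        intro h
        rw [h, hc] at e00
        simp at e00
      refine ⟨-(1 + g 0 1) / (2 * g 0 0), 1, ?_⟩
      rw [hc, hda]
      field_simp
      ring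
    · obtain ⟨X, Y, hXY⟩ := sum_sq hF (g 1 0)
      refine ⟨(X + g 0 0 * Y) / g 1 0, Y, ?_⟩
      rw [hda]
      field_simp
      rw [hda] at hd
      linear_combination hXY + Y ^ 2 * hd
  let P : Matrix.SpecialLinearGroup (Fin 2) F :=
    ⟨!![v1, g 0 0 * v1 + g 0 1 * v2; v2, g 1 0 * v1 + g 1 1 * v2], by
      rw [Matrix.det_fin_two]; simpa using hv⟩
  refine ⟨P, ?_⟩
  rw [mul_inv_eq_iff_eq_mul]
  ext i j
  rw [sl2_mul_entries, sl2_mul_entries]
  fin_cases i <;> fin_cases j <;> simp [P, W0]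
  · linear_combination (-v1) * e00 - g 0 1 * v2 * (hda)
  · linear_combination (-v2) * e11 - g 1 0 * v1 * (hda)

lemma two_ne_zero_of_odd [Fintype F] (hF : Odd (Fintype.card F)) : (2 : F) ≠ 0 := by
  intro h
  have hchar : ringChar F = 2 := by
    have hdvd : ringChar F ∣ 2 := by
      apply (ringChar.spec F 2).mp
      exact_mod_cast h
    rcases (Nat.dvd_prime Nat.prime_two).mp hdvd with h1 | h1
    · exact absurd h1 (CharP.ringChar_ne_one)
    · exact h1
  have := FiniteField.even_card_of_char_two hchar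
  have h3 := Nat.odd_iff.mp hF
  omega

end SL2

section transport

variable {G : Type*} [Group G]

theorem mem_sup_of_commute {X Y : Subgroup G} (hc : ∀ x ∈ X, ∀ y ∈ Y, x * y = y * x) {z : G}
    (hz : z ∈ X ⊔ Y) : ∃ x ∈ X, ∃ y ∈ Y, z = x * y := by
  rw [Subgroup.sup_eq_closure] at hz
  induction hz using Subgroup.closure_induction with
  | mem a ha =>
    rcases ha with ha | ha
    · exact ⟨a, ha, 1, Y.one_mem, by simp⟩
    · exact ⟨1, X.one_mem, a, ha, by simp⟩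
  | one => exact ⟨1, X.one_mem, 1, Y.one_mem, by simp⟩
  | mul a b _ _ iha ihb =>
    obtain ⟨x₁, hx₁, y₁, hy₁, rfl⟩ := iha
    obtain ⟨x₂, hx₂, y₂, hy₂, rfl⟩ := ihb
    refine ⟨x₁ * x₂, X.mul_mem hx₁ hx₂, y₁ * y₂, Y.mul_mem hy₁ hy₂, ?_⟩
    have := hc x₂ hx₂ y₁ hy₁
    calc x₁ * y₁ * (x₂ * y₂) = x₁ * (y₁ * x₂) * y₂ := by simp only [mul_assoc]
      _ = x₁ * (x₂ * y₁) * y₂ := by rw [this]
      _ = x₁ * x₂ * (y₁ * y₂) := by simp only [mul_assoc]
  | inv a _ iha =>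
    obtain ⟨x₁, hx₁, y₁, hy₁, rfl⟩ := iha
    refine ⟨x₁⁻¹, X.inv_mem hx₁, y₁⁻¹, Y.inv_mem hy₁, ?_⟩
    rw [mul_inv_rev]
    exact (hc x₁⁻¹ (X.inv_mem hx₁) y₁⁻¹ (Y.inv_mem hy₁)).symm

/-- The three properties of a copy of `SL₂(q)` that are used. -/
theorem sl2_props {F : Type*} [Field F] [Fintype F] (hF : Odd (Fintype.card F)) (L : Subgroup G)
    (e : ↥L ≃* Matrix.SpecialLinearGroup (Fin 2) F) (j : G) (hjL : j ∈ L) (hj1 : j ≠ 1)
    (hj2 : j * j = 1) :
    (∀ g ∈ L, g * g = 1 → g = 1 ∨ g = j) ∧ (∃ w ∈ L, w * w = j) ∧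
      (∀ g ∈ L, ∀ h ∈ L, g * g = j → h * h = j → ∃ k ∈ L, k * g * k⁻¹ = h) := by
  have h2 := two_ne_zero_of_odd hF
  have hej : e ⟨j, hjL⟩ = J0 := by
    have h1 : e ⟨j, hjL⟩ * e ⟨j, hjL⟩ = 1 := by
      rw [← map_mul, ← map_one e]
      congr 1
      exact Subtype.ext hj2
    rcases sq_one h2 _ h1 with h | h
    · exfalso
      apply hj1
      have : (⟨j, hjL⟩ : L) = 1 := by
        apply e.injective
        rw [h, map_one]
      exact congrArg Subtype.val this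
    · exact h
  have hconj : ∀ g ∈ L, g * g = j → ∃ k ∈ L, k * (e.symm W0 : G) * k⁻¹ = g := by
    intro g hg hgj
    have h1 : e ⟨g, hg⟩ * e ⟨g, hg⟩ = J0 := by
      rw [← map_mul, ← hej]
      congr 1
      exact Subtype.ext hgj
    obtain ⟨P, hP⟩ := conj_W0 hF h2 _ h1
    refine ⟨(e.symm P : G), (e.symm P).2, ?_⟩
    have : e.symm P * e.symm W0 * (e.symm P)⁻¹ = ⟨g, hg⟩ := by
      apply e.injective
      simp [hP]
    exact congrArg Subtype.val this
  refine ⟨?_, ?_, ?_⟩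
  · intro g hg hgg
    have h1 : e ⟨g, hg⟩ * e ⟨g, hg⟩ = 1 := by
      rw [← map_mul, ← map_one e]
      congr 1
      exact Subtype.ext hgg
    rcases sq_one h2 _ h1 with h | h
    · left
      have : (⟨g, hg⟩ : L) = 1 := by
        apply e.injective
        rw [h, map_one]
      exact congrArg Subtype.val this
    · right
      have : (⟨g, hg⟩ : L) = ⟨j, hjL⟩ := by
        apply e.injective
        rw [h, hej]
      exact congrArg Subtype.val this
  · refine ⟨(e.symm W0 : G), (e.symm W0).2, ?_⟩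
    have : e.symm W0 * e.symm W0 = ⟨j, hjL⟩ := by
      apply e.injective
      rw [map_mul, hej]
      simp [W0_sq]
    exact congrArg Subtype.val this
  · intro g hg h hh hgj hhj
    obtain ⟨k₁, hk₁, hk₁'⟩ := hconj g hg hgj
    obtain ⟨k₂, hk₂, hk₂'⟩ := hconj h hh hhj
    refine ⟨k₂ * k₁⁻¹, L.mul_mem hk₂ (L.inv_mem hk₁), ?_⟩
    rw [← hk₁', ← hk₂']
    simp only [mul_assoc, mul_inv_rev, inv_inv, inv_mul_cancel_left]

end transport

/-- Let L₁ ≅ SL₂(q₁) and L₂ ≅ SL₂(q₂), q₁ and q₂ odd, be elementwise-commuting subgroups of a finite group meeting in ⟨j⟩ for an involution j. Then L₁L₂ has exactly two conjugacy classes of involutions: the central involution j, and one further class (there is an involution x ≠ j in L₁L₂, and every involution of L₁L₂ other than j is conjugate to x by an element of L₁L₂). -/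
theorem result {G : Type*} [Group G] [Finite G]
    {F₁ : Type*} [Field F₁] [Fintype F₁] {F₂ : Type*} [Field F₂] [Fintype F₂]
    (hF₁ : Odd (Fintype.card F₁)) (hF₂ : Odd (Fintype.card F₂)) (L₁ L₂ : Subgroup G)
    (e₁ : ↥L₁ ≃* Matrix.SpecialLinearGroup (Fin 2) F₁) (e₂ : ↥L₂ ≃* Matrix.SpecialLinearGroup (Fin 2) F₂)
    (hc : ∀ x ∈ L₁, ∀ y ∈ L₂, x * y = y * x) (j : G) (hj : orderOf j = 2) (hm : L₁ ⊓ L₂ = Subgroup.zpowers j) :
    ∃ x ∈ L₁ ⊔ L₂, orderOf x = 2 ∧ x ≠ j ∧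
      ∀ y ∈ L₁ ⊔ L₂, orderOf y = 2 → y = j ∨ ∃ g ∈ L₁ ⊔ L₂, g * x * g⁻¹ = y := by
  have hj1 : j ≠ 1 := by
    intro h
    rw [h, orderOf_one] at hj
    omega
  have hj2 : j * j = 1 := by
    rw [← pow_two, ← hj]
    exact pow_orderOf_eq_one j
  have hjm : j ∈ L₁ ⊓ L₂ := by
    rw [hm]
    exact Subgroup.mem_zpowers j
  have hmem : ∀ g, g ∈ L₁ → g ∈ L₂ → g = 1 ∨ g = j := by
    intro g h1 h2
    have : g ∈ Subgroup.zpowers j := by
      rw [← hm]
      exact ⟨h1, h2⟩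
    obtain ⟨n, rfl⟩ := Subgroup.mem_zpowers_iff.mp this
    rcases Int.even_or_odd' n with ⟨k, rfl | rfl⟩
    · left
      rw [zpow_mul, zpow_two, hj2, one_zpow]
    · right
      rw [zpow_add, zpow_mul, zpow_two, hj2, one_zpow, one_mul, zpow_one]
  obtain ⟨a1, ⟨w₁, hw₁, hw₁j⟩, c1⟩ := sl2_props hF₁ L₁ e₁ j hjm.1 hj1 hj2
  obtain ⟨a2, ⟨w₂, hw₂, hw₂j⟩, c2⟩ := sl2_props hF₂ L₂ e₂ j hjm.2 hj1 hj2
  have hord : ∀ y : G, orderOf y = 2 ↔ (y * y = 1 ∧ y ≠ 1) := by
    intro y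
    constructor
    · intro h
      refine ⟨?_, ?_⟩
      · rw [← pow_two, ← h]
        exact pow_orderOf_eq_one y
      · intro h1
        rw [h1, orderOf_one] at h
        omega
    · rintro ⟨h1, h2⟩
      exact orderOf_eq_prime (by rw [pow_two]; exact h1) h2
  have hw12 : w₁ * w₂ = w₂ * w₁ := hc w₁ hw₁ w₂ hw₂
  have hw₁nm : w₁ ∉ L₂ := by
    intro h
    rcases hmem w₁ hw₁ h with h1 | h1
    · rw [h1, one_mul] at hw₁j
      exact hj1 hw₁j.symm
    · rw [h1, hj2] at hw₁j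
      exact hj1 hw₁j.symm
  refine ⟨w₁ * w₂, mul_mem (Subgroup.mem_sup_left hw₁) (Subgroup.mem_sup_right hw₂), ?_, ?_, ?_⟩
  · rw [hord]
    refine ⟨?_, ?_⟩
    · calc w₁ * w₂ * (w₁ * w₂) = w₁ * (w₂ * w₁) * w₂ := by simp only [mul_assoc]
        _ = w₁ * (w₁ * w₂) * w₂ := by rw [hw12]
        _ = (w₁ * w₁) * (w₂ * w₂) := by simp only [mul_assoc]
        _ = 1 := by rw [hw₁j, hw₂j, hj2]
    · intro h
      apply hw₁nm
      rw [mul_eq_one_iff_eq_inv.mp h]
      exact L₂.inv_mem hw₂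
  · intro h
    apply hw₁nm
    rw [eq_mul_inv_of_mul_eq h]
    exact L₂.mul_mem hjm.2 (L₂.inv_mem hw₂)
  · intro y hy hy2
    obtain ⟨hyy, hy1⟩ := (hord y).mp hy2
    obtain ⟨a, ha, b, hb, rfl⟩ := mem_sup_of_commute hc hy
    have hab := hc a ha b hb
    have h1 : (a * a) * (b * b) = 1 := by
      calc (a * a) * (b * b) = a * (a * b) * b := by simp only [mul_assoc]
        _ = a * (b * a) * b := by rw [hab]
        _ = a * b * (a * b) := by simp only [mul_assoc]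
        _ = 1 := hyy
    have haa : a * a = (b * b)⁻¹ := mul_eq_one_iff_eq_inv.mp h1
    rcases hmem (a * a) (L₁.mul_mem ha ha) (by rw [haa]; exact L₂.inv_mem (L₂.mul_mem hb hb))
      with h | h
    · left
      have hbb : b * b = 1 := by rw [h, one_mul] at h1; exact h1
      rcases a1 a ha h with rfl | rfl <;> rcases a2 b hb hbb with rfl | rfl
      · simp at hy1
      · simp
      · simp
      · exact absurd hj2 hy1
    · right
      have hbb : b * b = j := by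
        rw [h] at h1
        have : b * b = j⁻¹ := (mul_eq_one_iff_inv_eq.mp h1).symm
        rw [this]
        exact (mul_eq_one_iff_inv_eq.mp hj2)
      obtain ⟨k₁, hk₁, rfl⟩ := c1 w₁ hw₁ a ha hw₁j h
      obtain ⟨k₂, hk₂, rfl⟩ := c2 w₂ hw₂ b hb hw₂j hbb
      refine ⟨k₁ * k₂, mul_mem (Subgroup.mem_sup_left hk₁) (Subgroup.mem_sup_right hk₂), ?_⟩
      have e1 : k₂ * w₁ = w₁ * k₂ := (hc w₁ hw₁ k₂ hk₂).symm
      have e2 : k₂ * w₂ * k₂⁻¹ * k₁⁻¹ = k₁⁻¹ * (k₂ * w₂ * k₂⁻¹) :=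
        (hc k₁⁻¹ (L₁.inv_mem hk₁) _ (L₂.mul_mem (L₂.mul_mem hk₂ hw₂) (L₂.inv_mem hk₂))).symm
      calc k₁ * k₂ * (w₁ * w₂) * (k₁ * k₂)⁻¹ = k₁ * (k₂ * w₁) * w₂ * k₂⁻¹ * k₁⁻¹ := by
            simp only [mul_assoc, mul_inv_rev]
        _ = k₁ * (w₁ * k₂) * w₂ * k₂⁻¹ * k₁⁻¹ := by rw [e1]
        _ = k₁ * w₁ * (k₂ * w₂ * k₂⁻¹ * k₁⁻¹) := by simp only [mul_assoc]
        _ = k₁ * w₁ * (k₁⁻¹ * (k₂ * w₂ * k₂⁻¹)) := by rw [e2]
        _ = k₁ * w₁ * k₁⁻¹ * (k₂ * w₂ * k₂⁻¹) := by simp only [mul_assoc]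

end Cfsg.Agent.S3209
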