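import Cfsg.Statements.S3213
import Mathlib

set_option autoImplicit false
open Cfsg

namespace Cfsg.Agent.S3213


section lin
variable {F : Type*} [Field F] [Fintype F]

theorem three_eq_zero (hF : Fintype.card F = 3) : (3 : F) = 0 := by
  have := Nat.cast_card_eq_zero F
  rw [hF] at this
  exact_mod_cast this

theorem sq_ne_neg_one (hF : Fintype.card F = 3) (a : F) : a * a ≠ -1 := by
  intro h
  have h3 := FiniteField.pow_card a
  rw [hF] at h3
  have h4 : a ^ 3 = -a := by rw [pow_succ, pow_two, h]; ring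
  rw [h3] at h4
  have h5 : a = 0 := by linear_combination (three_eq_zero hF) * a - h4
  rw [h5] at h
  simp at h

theorem eq_one_of_pow_five (hF : Fintype.card F = 3) {W : Type*} [AddCommGroup W] [Module F W]
    [FiniteDimensional F W] (hW : Module.finrank F W ≤ 3) (f : Module.End F W) (hf : f ^ 5 = 1) :
    f = 1 := by
  classical
  have : Finite W := Module.finite_of_finite F
  have := Fintype.ofFinite W
  let g : Function.End W := fun w => f w
  have hpow : ∀ n : ℕ, g ^ n = fun w => (f ^ n) w := by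
    intro n
    induction n with
    | zero => rfl
    | succ n ih =>
      rw [pow_succ, ih, pow_succ]
      rfl
  have hg : g ^ 5 ^ 1 = 1 := by
    rw [pow_one, hpow, hf]; rfl
  have := Fact.mk Nat.prime_five
  have h1 := Equiv.Perm.card_fixedPoints_modEq (p := 5) (n := 1) hg
  have e : Function.fixedPoints g ≃ LinearMap.ker (f - 1) :=
    { toFun := fun w => ⟨w.1, by
        rw [LinearMap.mem_ker, LinearMap.sub_apply, sub_eq_zero]; exact w.2⟩
      invFun := fun w => ⟨w.1, by
        have := w.2
        rw [LinearMap.mem_ker, LinearMap.sub_apply, sub_eq_zero] at this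
        exact this⟩
      left_inv := fun w => rfl
      right_inv := fun w => rfl }
  rw [Fintype.card_congr e, Module.card_eq_pow_finrank (K := F) (V := W),
    Module.card_eq_pow_finrank (K := F) (V := LinearMap.ker (f - 1)), hF] at h1
  have h2 : Module.finrank F (LinearMap.ker (f - 1)) ≤ Module.finrank F W :=
    Submodule.finrank_le _
  have h3 : Module.finrank F (LinearMap.ker (f - 1)) = Module.finrank F W := by
    generalize Module.finrank F (LinearMap.ker (f - 1)) = j at *
    generalize Module.finrank F W = k at *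
    interval_cases k <;> interval_cases j <;> first | rfl | (exfalso; revert h1; decide)
  have h4 := Submodule.eq_top_of_finrank_eq h3
  ext w
  have : w ∈ LinearMap.ker (f - 1) := by rw [h4]; trivial
  rw [LinearMap.mem_ker, LinearMap.sub_apply, sub_eq_zero] at this
  exact this

variable {V : Type*} [AddCommGroup V] [Module F V] [FiniteDimensional F V]

theorem fix_on_ker (hF : Fintype.card F = 3) (hV : Module.finrank F V = 4)
    (U c : Module.End F V) (hU5 : U ^ 5 = 1) (hc : c * U = U * c) (hc0 : c ≠ 0) :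
    ∀ v, c v = 0 → U v = v := by
  have hinv : ∀ v ∈ LinearMap.ker c, U v ∈ LinearMap.ker c := by
    intro v hv
    rw [LinearMap.mem_ker] at hv ⊢
    have : c (U v) = U (c v) := congrArg (fun f : Module.End F V => f v) hc
    rw [this, hv, map_zero]
  have hne : LinearMap.ker c ≠ ⊤ := by
    intro h
    exact hc0 (LinearMap.ker_eq_top.mp h)
  have hlt := Submodule.finrank_lt hne
  rw [hV] at hlt
  have h5 : (U.restrict hinv : Module.End F (LinearMap.ker c)) ^ 5 = 1 := by
    rw [Module.End.pow_restrict]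
    ext w
    simp [hU5]
  have h1 := eq_one_of_pow_five hF (by omega) _ h5
  intro v hv
  have := congrArg (fun f : Module.End F (LinearMap.ker c) => ((f ⟨v, hv⟩ : LinearMap.ker c) : V)) h1
  exact this

theorem eq_neg_one (hF : Fintype.card F = 3) (hV : Module.finrank F V = 4)
    (Z U : Module.End F V) (hZ2 : Z * Z = 1) (hZ1 : Z ≠ 1) (hZU : Z * U = U * Z) (hU5 : U ^ 5 = 1)
    (hU1 : U ≠ 1) : Z = -1 := by
  by_contra hZ
  apply hU1
  have k1 := fix_on_ker hF hV U (Z - 1) hU5 (by rw [sub_mul, mul_sub, hZU, one_mul, mul_one])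
    (sub_ne_zero.mpr hZ1)
  have k2 := fix_on_ker hF hV U (Z + 1) hU5 (by rw [add_mul, mul_add, hZU, one_mul, mul_one])
    (by intro h; exact hZ (eq_neg_of_add_eq_zero_left h))
  have hZZ : ∀ v, Z (Z v) = v := fun v => congrArg (fun f : Module.End F V => f v) hZ2
  ext v
  have a1 := k1 (v + Z v) (by
    simp only [LinearMap.sub_apply, map_add, hZZ, Module.End.one_apply]; abel)
  have a2 := k2 (v - Z v) (by
    simp only [LinearMap.add_apply, map_sub, hZZ, Module.End.one_apply]; abel)
  have h3 : (3 : F) • v = 0 := by rw [three_eq_zero hF, zero_smul]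
  have h3' : (3 : F) • U v = 0 := by rw [three_eq_zero hF, zero_smul]
  rw [map_add] at a1
  rw [map_sub] at a2
  have h4 : (2 : F) • U v = (2 : F) • v := by
    rw [two_smul, two_smul]
    calc U v + U v = (U v + U (Z v)) + (U v - U (Z v)) := by abel
      _ = (v + Z v) + (v - Z v) := by rw [a1, a2]
      _ = v + v := by abel
  have h5 : U v = (3 : F) • U v - (2 : F) • U v := by
    rw [← sub_smul]; norm_num
  have h6 : v = (3 : F) • v - (2 : F) • v := by
    rw [← sub_smul]; norm_num
  rw [Module.End.one_apply, h5, h4, h3', ← h3, ← h6]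

omit [FiniteDimensional F V] in
theorem nil_cube (hF : Fintype.card F = 3) (X : Module.End F V) (hX3 : X ^ 3 = 1) :
    (X - 1) ^ 3 = 0 := by
  have h3 : (3 : Module.End F V) = 0 := by
    have : (3 : Module.End F V) = algebraMap F _ 3 := (map_ofNat _ 3).symm
    rw [this, three_eq_zero hF, map_zero]
  have : (X - 1) ^ 3 = X ^ 3 - 1 - 3 * (X ^ 2 - X) := by noncomm_ring
  rw [this, hX3, h3]; simp

theorem finrank_ker (hF : Fintype.card F = 3) (hV : Module.finrank F V = 4)
    (X X' Y : Module.End F V) (hX3 : X ^ 3 = 1) (hX1 : X ≠ 1) (hXX' : X * X' = 1)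
    (hY : X' * Y = Y * X) (hYY : Y * Y = -1) :
    Module.finrank F (LinearMap.ker (X - 1)) = 2 := by
  have hmem : ∀ w, w ∈ LinearMap.ker (X - 1) ↔ X w = w := by
    intro w
    rw [LinearMap.mem_ker, LinearMap.sub_apply, sub_eq_zero]; rfl
  have hinv : ∀ w ∈ LinearMap.ker (X - 1), Y w ∈ LinearMap.ker (X - 1) := by
    intro w hw
    rw [hmem] at hw ⊢
    have h1 : X' (Y w) = Y (X w) := congrArg (fun f : Module.End F V => f w) hY
    have h2 : X (X' (Y w)) = Y w := congrArg (fun f : Module.End F V => f (Y w)) hXX'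
    rw [h1, hw] at h2
    exact h2
  set g : Module.End F (LinearMap.ker (X - 1)) := Y.restrict hinv with hg
  have hgg : g * g = (-1 : F) • 1 := by
    ext w
    have : Y (Y w.1) = - w.1 := congrArg (fun f : Module.End F V => f w.1) hYY
    simpa [hg] using this
  have hdet := congrArg LinearMap.det hgg
  rw [map_mul, LinearMap.det_smul, map_one, mul_one] at hdet
  have heven : Even (Module.finrank F (LinearMap.ker (X - 1))) := by
    by_contra hodd
    rw [Nat.not_even_iff_odd] at hodd
    rw [hodd.neg_one_pow] at hdet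
    exact sq_ne_neg_one hF _ hdet
  have hne : LinearMap.ker (X - 1) ≠ ⊤ := by
    intro h
    exact hX1 (sub_eq_zero.mp (LinearMap.ker_eq_top.mp h))
  have hlt := Submodule.finrank_lt hne
  rw [hV] at hlt
  have hpos : Module.finrank F (LinearMap.ker (X - 1)) ≠ 0 := by
    intro h0
    have hbot : LinearMap.ker (X - 1) = ⊥ := Submodule.finrank_eq_zero.mp h0
    have hinj : Function.Injective ⇑(X - 1) := LinearMap.ker_eq_bot.mp hbot
    have : Nontrivial V := Module.nontrivial_of_finrank_pos (R := F) (by rw [hV]; norm_num)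
    obtain ⟨v, hv⟩ := exists_ne (0 : V)
    have h3 := congrArg (fun f : Module.End F V => f v) (nil_cube hF X hX3)
    have h4 : (X - 1) ((X - 1) ((X - 1) v)) = 0 := by
      simpa [pow_succ] using h3
    apply hv
    apply hinj; apply hinj; apply hinj
    rw [h4, map_zero, map_zero, map_zero]
  obtain ⟨k, hk⟩ := heven
  omega

theorem isotropic (hF : Fintype.card F = 3) (X : Module.End F V) (B : LinearMap.BilinForm F V)
    (halt : ∀ v, B v v = 0) (hB : ∀ v w, B (X v) (X w) = B v w) (hX3 : X ^ 3 = 1) (hX1 : X ≠ 1)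
    (h2 : Module.finrank F (LinearMap.ker (X - 1)) = 2) :
    ∀ v w, X v = v → X w = w → B v w = 0 := by
  have hmem : ∀ w, w ∈ LinearMap.ker (X - 1) ↔ X w = w := by
    intro w
    rw [LinearMap.mem_ker, LinearMap.sub_apply, sub_eq_zero]; rfl
  have hskew : ∀ a b, B a b = - B b a := by
    intro a b
    have := halt (a + b)
    simp only [map_add, LinearMap.add_apply, halt, zero_add, add_zero] at this
    linear_combination this
  -- a nonzero vector in the kernel and the image
  obtain ⟨b, hb0, hb1⟩ : ∃ b, (X - 1) b ≠ 0 ∧ (X - 1) ((X - 1) b) = 0 := by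
    by_cases hN2 : ∀ a, (X - 1) ((X - 1) a) = 0
    · have : X - 1 ≠ 0 := sub_ne_zero.mpr hX1
      obtain ⟨a, ha⟩ : ∃ a, (X - 1) a ≠ 0 := by
        by_contra hcon
        push Not at hcon
        exact this (LinearMap.ext hcon)
      exact ⟨a, ha, hN2 a⟩
    · push Not at hN2
      obtain ⟨a, ha⟩ := hN2
      refine ⟨(X - 1) a, ha, ?_⟩
      have h3 := congrArg (fun f : Module.End F V => f a) (nil_cube hF X hX3)
      simpa [pow_succ] using h3
  set w0 := (X - 1) b with hw0
  have hperp : ∀ w, X w = w → B w w0 = 0 := by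
    intro w hw
    rw [hw0, LinearMap.sub_apply, map_sub, Module.End.one_apply]
    nth_rewrite 1 [← hw]
    rw [hB, sub_self]
  intro v w hv hw
  have hw0' : w0 ∈ LinearMap.ker (X - 1) := hb1
  let fam : Fin 3 → LinearMap.ker (X - 1) := ![⟨w0, hw0'⟩, ⟨v, (hmem v).mpr hv⟩, ⟨w, (hmem w).mpr hw⟩]
  have hdep : ¬ LinearIndependent F fam := by
    intro hli
    have := hli.fintype_card_le_finrank
    rw [h2] at this
    simp at this
  rw [Fintype.not_linearIndependent_iff] at hdep
  obtain ⟨c, hc, hc0⟩ := hdep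
  rw [Fin.sum_univ_three] at hc
  have hc' : c 0 • w0 + c 1 • v + c 2 • w = 0 := congrArg Subtype.val hc
  by_contra hvw
  have e1 : c 2 = 0 := by
    have := congrArg (fun z => B v z) hc'
    simp only [map_add, map_smul, hperp v hv, halt, smul_eq_mul, mul_zero, zero_add, map_zero] at this
    exact (mul_eq_zero.mp this).resolve_right hvw
  have e2 : c 1 = 0 := by
    have := congrArg (fun z => B z w) hc'
    simp only [map_add, map_smul, LinearMap.add_apply, LinearMap.smul_apply, hskew w0 w, hperp w hw,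
      halt, smul_eq_mul, mul_zero, zero_add, map_zero, neg_zero, add_zero, LinearMap.zero_apply] at this
    exact (mul_eq_zero.mp this).resolve_right hvw
  have e3 : c 0 = 0 := by
    rw [e1, e2, zero_smul, zero_smul, add_zero, add_zero] at hc'
    exact (smul_eq_zero.mp hc').resolve_right hb0
  obtain ⟨i, hi⟩ := hc0
  fin_cases i
  · exact hi e3
  · exact hi e2
  · exact hi e1

end lin



set_option maxRecDepth 100000 in
theorem exists_y5 : ∀ x : Matrix.SpecialLinearGroup (Fin 2) (ZMod 5), x ^ 3 = 1 →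
    ∃ y : Matrix.SpecialLinearGroup (Fin 2) (ZMod 5), y * y = -1 ∧ x⁻¹ * y = y * x := by
  decide +kernel

def u5 : Matrix.SpecialLinearGroup (Fin 2) (ZMod 5) := ⟨!![1, 1; 0, 1], by decide⟩

theorem u5_facts : u5 ^ 5 = 1 ∧ u5 ≠ 1 ∧ (-1 : Matrix.SpecialLinearGroup (Fin 2) (ZMod 5)) * u5 = u5 * (-1) ∧
    (-1 : Matrix.SpecialLinearGroup (Fin 2) (ZMod 5)) * (-1) = 1 ∧
    (-1 : Matrix.SpecialLinearGroup (Fin 2) (ZMod 5)) ≠ 1 := by
  decide +kernel


/-- Let F be the field with 3 elements and K the field with 5 elements. For every injective homomorphism φ from SL₂(K) into the symplectic group Sp₄(F) (4 × 4 matrices g with g J gᵀ = J for the standard alternating matrix J) and every element x of order 3 of SL₂(K), the vectors of F⁴ fixed by φ(x) form a 2-dimensional subspace that is totally isotropic for the alternating form defined by J. -/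
theorem result {F : Type*} [Field F] [Fintype F] (hF : Fintype.card F = 3)
    {K : Type*} [Field K] [Fintype K] (hK : Fintype.card K = 5)
    (φ : Matrix.SpecialLinearGroup (Fin 2) K →* ↥(Matrix.symplecticGroup (Fin 2) F)) (hφ : Function.Injective φ)
    (x : Matrix.SpecialLinearGroup (Fin 2) K) (hx : orderOf x = 3) :
    Module.finrank F ↥(LinearMap.ker (Matrix.toLin' ((φ x : Matrix (Fin 2 ⊕ Fin 2) (Fin 2 ⊕ Fin 2) F)) - LinearMap.id)) = 2 ∧
      ∀ v w : Fin 2 ⊕ Fin 2 → F, (φ x : Matrix (Fin 2 ⊕ Fin 2) (Fin 2 ⊕ Fin 2) F).mulVec v = v →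
        (φ x : Matrix (Fin 2 ⊕ Fin 2) (Fin 2 ⊕ Fin 2) F).mulVec w = w →
          dotProduct v ((Matrix.J (Fin 2) F).mulVec w) = 0 := by
  classical
  let f : ZMod 5 ≃+* K := ZMod.ringEquivOfPrime K Nat.prime_five hK
  let m : Matrix.SpecialLinearGroup (Fin 2) (ZMod 5) →* Matrix.SpecialLinearGroup (Fin 2) K :=
    Matrix.SpecialLinearGroup.map (f : ZMod 5 →+* K)
  have hm : Function.Injective m := by
    intro a b hab
    ext i j
    have := congrArg (fun g : Matrix.SpecialLinearGroup (Fin 2) K => g i j) hab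
    exact f.injective this
  let x' : Matrix.SpecialLinearGroup (Fin 2) (ZMod 5) :=
    Matrix.SpecialLinearGroup.map (f.symm : K →+* ZMod 5) x
  have hx' : m x' = x := by
    ext i j
    exact f.apply_symm_apply (x i j)
  have hx3 : x' ^ 3 = 1 := by
    apply hm
    rw [map_pow, hx', map_one, ← hx, pow_orderOf_eq_one]
  have hx1 : x' ≠ 1 := by
    intro h
    rw [h, map_one] at hx'
    rw [← hx', orderOf_one] at hx
    omega
  obtain ⟨y', hyy, hyx⟩ := exists_y5 x' hx3
  obtain ⟨hu5, hu1, hzu, hzz, hz1⟩ := u5_facts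
  let T : Matrix.SpecialLinearGroup (Fin 2) (ZMod 5) →* Module.End F (Fin 2 ⊕ Fin 2 → F) :=
    { toFun := fun g => Matrix.toLin' ((φ (m g) : Matrix (Fin 2 ⊕ Fin 2) (Fin 2 ⊕ Fin 2) F))
      map_one' := by
        rw [map_one, map_one]
        exact Matrix.toLin'_one
      map_mul' := by
        intro a b
        rw [map_mul, map_mul]
        exact Matrix.toLin'_mul _ _ }
  have hT : Function.Injective T := by
    intro a b hab
    exact hm (hφ (Subtype.ext (Matrix.toLin'.injective hab)))
  have hV : Module.finrank F (Fin 2 ⊕ Fin 2 → F) = 4 := by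
    rw [Module.finrank_fintype_fun_eq_card]; rfl
  have hZ : T (-1) = -1 := eq_neg_one hF hV (T (-1)) (T u5) (by rw [← map_mul, hzz, map_one])
    (by rw [← map_one T]; exact fun h => hz1 (hT h)) (by rw [← map_mul, ← map_mul, hzu])
    (by rw [← map_pow, hu5, map_one]) (by rw [← map_one T]; exact fun h => hu1 (hT h))
  have hX3 : T x' ^ 3 = 1 := by rw [← map_pow, hx3, map_one]
  have hX1 : T x' ≠ 1 := by rw [← map_one T]; exact fun h => hx1 (hT h)
  have hfin := finrank_ker hF hV (T x') (T x'⁻¹) (T y') hX3 hX1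
    (by rw [← map_mul, mul_inv_cancel, map_one]) (by rw [← map_mul, ← map_mul, hyx])
    (by rw [← map_mul, hyy, hZ])
  have hTx : T x' = Matrix.toLin' ((φ x : Matrix (Fin 2 ⊕ Fin 2) (Fin 2 ⊕ Fin 2) F)) := by
    change Matrix.toLin' ((φ (m x') : Matrix (Fin 2 ⊕ Fin 2) (Fin 2 ⊕ Fin 2) F)) = _
    rw [hx']
  refine ⟨?_, ?_⟩
  · rw [← hTx]; exact hfin
  · have h2 : (2 : F) ≠ 0 := by
      intro h
      have h3 := three_eq_zero hF
      exact one_ne_zero (α := F) (by linear_combination h3 - h)
    have hBapp : ∀ v w, Matrix.toBilin' (Matrix.J (Fin 2) F) v w =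
        dotProduct v ((Matrix.J (Fin 2) F).mulVec w) := fun v w => Matrix.toBilin'_apply' _ _ _
    have halt : ∀ v, Matrix.toBilin' (Matrix.J (Fin 2) F) v v = 0 := by
      intro v
      rw [hBapp]
      have h1 : dotProduct v ((Matrix.J (Fin 2) F).mulVec v) =
          - dotProduct v ((Matrix.J (Fin 2) F).mulVec v) := by
        conv_lhs => rw [Matrix.dotProduct_mulVec, ← Matrix.mulVec_transpose, Matrix.J_transpose,
          Matrix.neg_mulVec, neg_dotProduct, dotProduct_comm]
      have h4 : (2 : F) * dotProduct v ((Matrix.J (Fin 2) F).mulVec v) = 0 := by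
        linear_combination h1
      exact (mul_eq_zero.mp h4).resolve_left h2
    have hB : ∀ v w, Matrix.toBilin' (Matrix.J (Fin 2) F) (T x' v) (T x' w) =
        Matrix.toBilin' (Matrix.J (Fin 2) F) v w := by
      intro v w
      rw [hBapp, hBapp, hTx, Matrix.toLin'_apply, Matrix.toLin'_apply, ← Matrix.vecMul_transpose,
        ← Matrix.dotProduct_mulVec, Matrix.mulVec_mulVec, Matrix.mulVec_mulVec,
        (SymplecticGroup.mem_iff'.mp (φ x).2)]
    intro v w hv hw
    rw [← hBapp]
    apply isotropic hF (T x') _ halt hB hX3 hX1 hfin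
    · rw [hTx, Matrix.toLin'_apply]; exact hv
    · rw [hTx, Matrix.toLin'_apply]; exact hw

end Cfsg.Agent.S3213
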