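import Mathlib
import Cfsg.Statements.S3215
import Cfsg.Agent.Lib.Helper11Frobenius
import Cfsg.Agent.Lib.Helper54CharP
import Cfsg.Agent.Lib.Helper31PConstr
import Cfsg.Agent.Lib.Helper3RankTwo
import Cfsg.Agent.S0058
import Cfsg.Agent.S0043

set_option autoImplicit false
open Cfsg

namespace Cfsg.Agent.S3215

open Subgroup Cfsg.Agent.Lib.Helper11Frobenius Cfsg.Agent.Lib.Helper1Fitting

variable {H : Type*} [Group H] [Finite H]

theorem no_comm (hsol : Group.IsSolvable H) (hO : Cfsg.oddCore H = ⊥)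
    (hI : ∀ t : H, orderOf t = 2 → Cfsg.HasNormalPComplement 2 ↥(Subgroup.centralizer ({t} : Set H)))
    (x t : H) (hx : Odd (orderOf x)) (ht : orderOf t = 2) (hc : x * t = t * x) : x = 1 := by
  have hYn : (pCore 2 H).Normal := Cfsg.Agent.Lib.Helper1Fitting.pCore_normal 2
  have hYp : IsPGroup 2 (pCore 2 H) := Cfsg.Agent.Lib.Helper1Fitting.pCore_isPGroup 2
  set Y := pCore 2 H with hY
  set C := centralizer ({t} : Set H) with hC
  have hF : FrobCond 2 C := frobCond_of_hasNPC (hasNPC_iff.2 (hI t ht))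
  have hxC : x ∈ C := by
    rw [hC, mem_centralizer_singleton_iff]; exact hc
  have hQ : IsPGroup 2 (Y.subgroupOf C) := hYp.comap_subtype
  have hcop : (orderOf x).Coprime 2 := Nat.coprime_two_right.2 hx
  have h1 := hF (Y.subgroupOf C) hQ ⟨x, hxC⟩ (by
    rw [normalizer_eq_top]; exact mem_top _) (by rw [Subgroup.orderOf_mk]; exact hcop)
  have h2 : Y ≤ centralizer (zpowers x : Set H) := by
    apply Cfsg.Agent.Lib.Helper54CharP.thompson_AxB Y (zpowers x) (zpowers t) hYp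
    · apply IsPGroup.of_card (n := 1)
      rw [Nat.card_zpowers, ht, pow_one]
    · rw [Nat.card_zpowers]; exact hcop
    · rw [normalizer_eq_top]; exact le_top
    · rw [normalizer_eq_top]; exact le_top
    · rw [commutator_eq_bot_iff_le_centralizer, zpowers_le, mem_centralizer_iff]
      intro h hh
      obtain ⟨k, rfl⟩ := mem_zpowers_iff.1 hh
      exact ((Commute.zpow_right (show Commute x t from hc) k).eq).symm
    · rintro y ⟨hyY, hyt⟩
      have hyt' : y * t = t * y := by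
        have := (mem_centralizer_iff.1 hyt) t (mem_zpowers t)
        exact this.symm
      have hyC : y ∈ C := by
        rw [hC, mem_centralizer_singleton_iff]; exact hyt'
      have h3 := (mem_centralizer_iff.1 h1) ⟨y, hyC⟩ (mem_subgroupOf.2 hyY)
      have h4 : y * x = x * y := congrArg Subtype.val h3
      rw [mem_centralizer_iff]
      intro h hh
      obtain ⟨k, rfl⟩ := mem_zpowers_iff.1 hh
      exact ((Commute.zpow_right (show Commute y x from h4) k).eq).symm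
  have h3 : x ∈ centralizer (Y : Set H) := by
    rw [mem_centralizer_iff]
    intro y hy
    have := (mem_centralizer_iff.1 (h2 hy)) x (mem_zpowers x)
    exact this.symm
  have h4 : x ∈ Y := Cfsg.Agent.Lib.Helper31PConstr.centralizer_pCore_le 2 hO h3
  obtain ⟨k, hk⟩ := hYp ⟨x, h4⟩
  have h5 : x ^ 2 ^ k = 1 := congrArg Subtype.val hk
  have h6 : orderOf x ∣ 2 ^ k := orderOf_dvd_of_pow_eq_one h5
  have h7 : orderOf x = 1 := Nat.Coprime.eq_one_of_dvd (Nat.Coprime.pow_right k hcop) h6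
  exact orderOf_eq_one_iff.1 h7


/-- the standing hypotheses -/
structure Hyp (H : Type*) [Group H] : Prop where
  sol : Group.IsSolvable H
  core : Cfsg.oddCore H = ⊥
  inv : ∀ t : H, orderOf t = 2 → Cfsg.HasNormalPComplement 2 ↥(Subgroup.centralizer ({t} : Set H))

theorem two_elt (h : Hyp H) (x s : H) (hx : Odd (orderOf x)) (hx1 : x ≠ 1)
    (hs : ∃ k : ℕ, s ^ 2 ^ k = 1) (hc : x * s = s * x) : s = 1 := by
  by_contra hs1
  obtain ⟨k, hk⟩ := hs
  obtain ⟨j, hj, hjo⟩ := (Nat.dvd_prime_pow Nat.prime_two).1 (orderOf_dvd_of_pow_eq_one hk)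
  have hj0 : j ≠ 0 := by
    rintro rfl
    rw [pow_zero, orderOf_eq_one_iff] at hjo
    exact hs1 hjo
  obtain ⟨i, rfl⟩ := Nat.exists_eq_succ_of_ne_zero hj0
  have ht : orderOf (s ^ 2 ^ i) = 2 := by
    rw [orderOf_pow_of_dvd (by positivity) (by rw [hjo]; exact pow_dvd_pow 2 (Nat.le_succ i)), hjo,
      pow_succ, Nat.mul_div_cancel_left _ (by positivity)]
  exact hx1 (no_comm h.sol h.core h.inv x _ hx ht
    ((Commute.pow_right (show Commute x s from hc) _).eq))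

theorem mem_of_comm_mod (h : Hyp H) (x s : H) (hx : Odd (orderOf x)) (hx1 : x ≠ 1)
    (hs : ∃ k : ℕ, s ^ 2 ^ k = 1) (hmod : s⁻¹ * x * s * x⁻¹ ∈ pCore 2 H) : s ∈ pCore 2 H := by
  have hYn : (pCore 2 H).Normal := Cfsg.Agent.Lib.Helper1Fitting.pCore_normal 2
  have hYp : IsPGroup 2 (pCore 2 H) := Cfsg.Agent.Lib.Helper1Fitting.pCore_isPGroup 2
  set Y := pCore 2 H with hY
  let f : Y → Y := fun y => ⟨(y : H)⁻¹ * (x * y * x⁻¹), Y.mul_mem (Y.inv_mem y.2) (hYn.conj_mem _ y.2 x)⟩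
  have hinj : Function.Injective f := by
    intro y z hyz
    have h1 : (y : H)⁻¹ * (x * y * x⁻¹) = (z : H)⁻¹ * (x * z * x⁻¹) := congrArg Subtype.val hyz
    have h2 : x * ((z : H) * (y : H)⁻¹) = ((z : H) * (y : H)⁻¹) * x := by
      have e1 : (z : H) * (y : H)⁻¹ * (x * y * x⁻¹) = x * z * x⁻¹ := by
        rw [mul_assoc, h1]; group
      have e2 : (z : H) * (y : H)⁻¹ * x = x * z * x⁻¹ * (x * (y : H)⁻¹) := by
        rw [← e1]; group
      rw [e2]; group
    obtain ⟨k, hk⟩ := hYp (z * y⁻¹)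
    have h3 : ((z : H) * (y : H)⁻¹) ^ 2 ^ k = 1 := congrArg Subtype.val hk
    have h4 := two_elt h x _ hx hx1 ⟨k, h3⟩ h2
    apply Subtype.ext
    exact (mul_inv_eq_one.1 h4).symm
  have hsurj : Function.Surjective f := Finite.injective_iff_surjective.1 hinj
  obtain ⟨y', hy'⟩ := hsurj ⟨_, hmod⟩
  have h1 : (y' : H)⁻¹ * (x * y' * x⁻¹) = s⁻¹ * x * s * x⁻¹ := congrArg Subtype.val hy'
  have h2 : x * (s * (y' : H)⁻¹) = (s * (y' : H)⁻¹) * x := by
    have e1 : x * s = s * ((y' : H)⁻¹ * (x * y' * x⁻¹)) * x := by rw [h1]; group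
    calc x * (s * (y' : H)⁻¹) = (x * s) * (y' : H)⁻¹ := by group
      _ = s * ((y' : H)⁻¹ * (x * y' * x⁻¹)) * x * (y' : H)⁻¹ := by rw [e1]
      _ = (s * (y' : H)⁻¹) * x := by group
  have hsp : IsPGroup 2 (zpowers s) := by
    obtain ⟨k, hk⟩ := hs
    obtain ⟨j, -, hjo⟩ := (Nat.dvd_prime_pow Nat.prime_two).1 (orderOf_dvd_of_pow_eq_one hk)
    apply IsPGroup.of_card (n := j)
    rw [Nat.card_zpowers, hjo]
  have hsup : IsPGroup 2 (zpowers s ⊔ Y : Subgroup H) := hsp.to_sup_of_normal_right hYp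
  have hmem : s * (y' : H)⁻¹ ∈ zpowers s ⊔ Y :=
    mul_mem (mem_sup_left (mem_zpowers s)) (mem_sup_right (Y.inv_mem y'.2))
  obtain ⟨k, hk⟩ := hsup ⟨_, hmem⟩
  have h3 : (s * (y' : H)⁻¹) ^ 2 ^ k = 1 := congrArg Subtype.val hk
  have h4 := two_elt h x _ hx hx1 ⟨k, h3⟩ h2
  rw [mul_inv_eq_one] at h4
  rw [h4]; exact y'.2

theorem cyc (h : Hyp H) (B : Subgroup H) [IsMulCommutative B] (hB : Odd (Nat.card B)) :
    IsCyclic B := by
  by_contra hnc
  have hYn : (pCore 2 H).Normal := Cfsg.Agent.Lib.Helper1Fitting.pCore_normal 2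
  have hYp : IsPGroup 2 (pCore 2 H) := Cfsg.Agent.Lib.Helper1Fitting.pCore_isPGroup 2
  set Y := pCore 2 H with hY
  obtain ⟨n, hn⟩ := IsPGroup.iff_card.1 hYp
  have h1 := Cfsg.Agent.S0058.result B Y hnc (by rw [normalizer_eq_top]; exact le_top)
    (by rw [hn]; exact Nat.Coprime.pow_right n (Nat.coprime_two_right.2 hB))
  have h2 : Y = ⊥ := by
    rw [← h1, eq_bot_iff]
    apply iSup₂_le
    rintro a ⟨haB, ha1⟩ y ⟨hyY, hya⟩
    rw [mem_bot]
    obtain ⟨k, hk⟩ := hYp ⟨y, hyY⟩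
    have h3 : y ^ 2 ^ k = 1 := congrArg Subtype.val hk
    have hao : Odd (orderOf a) := by
      have : orderOf a ∣ Nat.card B := by
        have := orderOf_dvd_natCard (⟨a, haB⟩ : B)
        rwa [Subgroup.orderOf_mk] at this
      exact Odd.of_dvd_nat hB this
    apply two_elt h a y hao ha1 ⟨k, h3⟩
    exact (mem_centralizer_singleton_iff.1 hya).symm
  have := h.sol
  have h3 := Cfsg.Agent.Lib.Helper31PConstr.centralizer_pCore_le (G := H) 2 h.core
  rw [← hY, h2] at h3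
  have h4 : ∀ g : H, g = 1 := by
    intro g
    have : g ∈ centralizer (((⊥ : Subgroup H) : Subgroup H) : Set H) := by
      rw [mem_centralizer_iff]
      intro y hy
      have : y = 1 := hy
      rw [this]; simp
    exact h3 this
  apply hnc
  have : Subsingleton B := ⟨fun a b => Subtype.ext ((h4 a).trans (h4 b).symm)⟩
  infer_instance


theorem of_hom {A' : Type*} [Group A'] [IsCyclic A'] (θ : H →* A') (N : Subgroup H)
    (hker : θ.ker ≤ N) : N.Normal ∧ ∀ hN : N.Normal, IsCyclic (H ⧸ N) := by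
  have hcomm : ∀ a b : A', a * b = b * a := fun a b => (IsCyclic.commGroup (α := A')).mul_comm a b
  have hN : N.Normal := by
    have h1 : (N.map θ).comap θ = N := comap_map_eq_self hker
    have h2 : (N.map θ).Normal := ⟨fun n hn g => by rw [hcomm g n, mul_inv_cancel_right]; exact hn⟩
    rw [← h1]
    exact h2.comap θ
  refine ⟨hN, fun hN => ?_⟩
  have h1 : IsCyclic (H ⧸ θ.ker) :=
    isCyclic_of_surjective (QuotientGroup.quotientKerEquivRange θ).symm
      (QuotientGroup.quotientKerEquivRange θ).symm.surjective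
  apply isCyclic_of_surjective (QuotientGroup.map θ.ker N (MonoidHom.id H) hker)
  intro q
  obtain ⟨g, rfl⟩ := QuotientGroup.mk_surjective q
  exact ⟨(g : H ⧸ θ.ker), rfl⟩

/-- odd and 2-parts of an element -/
theorem exists_parts (g : H) : ∃ a m : ℕ, Odd m ∧ (g ^ m) ^ 2 ^ a = 1 ∧ (g ^ 2 ^ a) ^ m = 1 := by
  obtain ⟨a, m, hm, hom⟩ := Nat.exists_eq_two_pow_mul_odd (orderOf_pos g).ne'
  refine ⟨a, m, hm, ?_, ?_⟩
  · rw [← pow_mul, mul_comm, ← hom, pow_orderOf_eq_one]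
  · rw [← pow_mul, ← hom, pow_orderOf_eq_one]


theorem key (h : Hyp H) (X : Subgroup H) (hXodd : Odd (Nat.card X))
    (hXidx : ∃ k : ℕ, X.index = 2 ^ k) :
    (X ⊔ pCore 2 H).Normal ∧ ∀ hN : (X ⊔ pCore 2 H).Normal, IsCyclic (H ⧸ (X ⊔ pCore 2 H)) := by
  have hYn : (pCore 2 H).Normal := Cfsg.Agent.Lib.Helper1Fitting.pCore_normal 2
  have hYp : IsPGroup 2 (pCore 2 H) := Cfsg.Agent.Lib.Helper1Fitting.pCore_isPGroup 2
  set Y := pCore 2 H with hY
  by_cases htriv : Y = ⊤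
  · exact of_hom (A' := Multiplicative (ZMod 1)) 1 (X ⊔ Y) (by rw [htriv]; exact le_top.trans le_sup_right)
  have hsol := h.sol
  set π := QuotientGroup.mk' Y with hπ
  have hπs : Function.Surjective π := QuotientGroup.mk'_surjective Y
  have hπker : ∀ g : H, π g = 1 ↔ g ∈ Y := fun g => QuotientGroup.eq_one_iff g
  have hnt : Nontrivial (H ⧸ Y) := by
    by_contra hcon
    rw [not_nontrivial_iff_subsingleton] at hcon
    apply htriv
    rw [eq_top_iff]
    intro g _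
    exact (hπker g).1 (Subsingleton.elim _ _)
  obtain ⟨R, hR⟩ := Set.Finite.exists_minimal (s := {M : Subgroup (H ⧸ Y) | M.Normal ∧ M ≠ ⊥})
    (Set.toFinite _) ⟨⊤, inferInstance, top_ne_bot⟩
  have hRn : R.Normal := hR.1.1
  obtain ⟨hRc, r, hr, hRr⟩ := Cfsg.Agent.S0043.result R hR.1.2 (by
    intro M' hM'n hle
    by_cases hb : M' = ⊥
    · exact Or.inl hb
    · exact Or.inr (le_antisymm hle (hR.2 ⟨hM'n, hb⟩ hle)))
  -- r is odd
  have hr2 : r ≠ 2 := by
    rintro rfl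
    apply hR.1.2
    have h1 : IsPGroup 2 (R.comap π) := by
      rintro ⟨g, hg⟩
      have h2 : π (g ^ 2) = 1 := by rw [map_pow]; exact hRr _ hg
      obtain ⟨k, hk⟩ := hYp ⟨g ^ 2, (hπker _).1 h2⟩
      have h3 : (g ^ 2) ^ 2 ^ k = 1 := congrArg Subtype.val hk
      refine ⟨k + 1, Subtype.ext ?_⟩
      show g ^ 2 ^ (k + 1) = 1
      rw [pow_succ', pow_mul]; exact h3
    have h2 : R.comap π ≤ Y := Cfsg.Agent.Lib.Helper1Fitting.le_pCore (hRn.comap π) h1
    rw [eq_bot_iff]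
    intro ρ hρ
    obtain ⟨g, rfl⟩ := hπs ρ
    exact (hπker g).2 (h2 hρ)
  have hrodd : Odd r := hr.odd_of_ne_two hr2
  have hfr : Fact r.Prime := ⟨hr⟩
  have hRp : IsPGroup r R := fun x => ⟨1, Subtype.ext (by simpa using hRr x x.2)⟩
  have hRodd : Odd (Nat.card R) := by
    obtain ⟨n, hn⟩ := IsPGroup.iff_card.1 hRp
    rw [hn]; exact hrodd.pow
  -- Hall lemma
  have hXbodd : Odd (Nat.card (X.map π)) := Odd.of_dvd_nat hXodd (card_map_dvd X π)
  obtain ⟨k, hk⟩ := hXidx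
  have hXbidx : (X.map π).index ∣ 2 ^ k := hk ▸ index_map_dvd X hπs
  have hall : ∀ N : Subgroup (H ⧸ Y), N.Normal → Odd (Nat.card N) → N ≤ X.map π := by
    intro N hN hNodd
    have h1 : Nat.card (N ⊔ X.map π : Subgroup (H ⧸ Y)) ∣ Nat.card N * Nat.card (X.map π) :=
      Cfsg.Agent.Lib.Helper1Fitting.card_sup_dvd_of_normal N (X.map π)
    have h2 : Odd (Nat.card (N ⊔ X.map π : Subgroup (H ⧸ Y))) := Odd.of_dvd_nat (hNodd.mul hXbodd) h1
    have h3 : (X.map π).relIndex (N ⊔ X.map π) ∣ 2 ^ k :=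
      (relIndex_dvd_index_of_le le_sup_right).trans hXbidx
    have h4 : (X.map π).relIndex (N ⊔ X.map π) ∣ Nat.card (N ⊔ X.map π : Subgroup (H ⧸ Y)) :=
      relIndex_dvd_card _ _
    have h5 : (X.map π).relIndex (N ⊔ X.map π) = 1 :=
      Nat.eq_one_of_dvd_coprimes (Nat.Coprime.pow_left k (Nat.coprime_two_left.2 h2)) h3 h4
    exact le_sup_left.trans (relIndex_eq_one.1 h5)
  have hXY : X ⊓ Y = ⊥ := by
    obtain ⟨n, hn⟩ := IsPGroup.iff_card.1 hYp
    apply (disjoint_iff.1 (disjoint_of_coprime_natCard ?_))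
    rw [hn]; exact Nat.Coprime.pow_right n (Nat.coprime_two_right.2 hXodd)
  -- R has order r
  have hRX : R ≤ X.map π := hall R hRn hRodd
  have hRcard : Nat.card R = r := by
    set B := X ⊓ R.comap π with hB
    have hBc : IsMulCommutative B := by
      refine ⟨⟨fun a b => Subtype.ext ?_⟩⟩
      show (a : H) * b = b * a
      have h1 : π a * π b = π b * π a := by
        have := hRc.is_comm.comm ⟨π a, a.2.2⟩ ⟨π b, b.2.2⟩
        exact congrArg Subtype.val this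
      have h2 : (a : H) * b * ((b : H) * a)⁻¹ ∈ X ⊓ Y := by
        refine ⟨X.mul_mem (X.mul_mem a.2.1 b.2.1) (X.inv_mem (X.mul_mem b.2.1 a.2.1)), ?_⟩
        apply (hπker _).1
        rw [map_mul, map_inv, map_mul, map_mul, h1, mul_inv_cancel]
      rw [hXY, mem_bot, mul_inv_eq_one] at h2
      exact h2
    have hBodd : Odd (Nat.card B) := Odd.of_dvd_nat hXodd (card_dvd_of_le inf_le_left)
    obtain ⟨⟨b₀, hb₀⟩⟩ := cyc h B hBodd
    have hb₀R : π b₀ ∈ R := b₀.2.2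
    have h1 : R = zpowers (π b₀) := by
      apply le_antisymm
      · intro ρ hρ
        obtain ⟨x, hx, rfl⟩ := hRX hρ
        obtain ⟨j, hj⟩ := hb₀ ⟨x, hx, hρ⟩
        have h2 : (b₀ : H) ^ j = x := congrArg Subtype.val hj
        rw [← h2, map_zpow]
        exact zpow_mem (mem_zpowers _) j
      · rw [zpowers_le]; exact hb₀R
    have h2 : Nat.card R = orderOf (π b₀) := by rw [h1, Nat.card_zpowers]
    have h3 : orderOf (π b₀) ∣ r := orderOf_dvd_of_pow_eq_one (hRr _ hb₀R)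
    rcases (Nat.dvd_prime hr).1 h3 with h4 | h4
    · exfalso
      apply hR.1.2
      rw [h1, zpowers_eq_bot, ← orderOf_eq_one_iff]; exact h4
    · rw [h2, h4]
  have hRcyc : IsCyclic R := isCyclic_of_prime_card hRcard
  have hfc : Fact (Nat.card R).Prime := ⟨hRcard ▸ hr⟩
  have hAcyc : IsCyclic (MulAut R) :=
    isCyclic_of_surjective (IsCyclic.mulAutMulEquiv R).symm (IsCyclic.mulAutMulEquiv R).symm.surjective
  set θ : (H ⧸ Y) →* MulAut R := MulAut.conjNormal with hθ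
  have hθker : ∀ c : H ⧸ Y, c ∈ θ.ker → ∀ ρ ∈ R, c * ρ * c⁻¹ = ρ := by
    intro c hc ρ hρ
    have h1 : θ c ⟨ρ, hρ⟩ = ⟨ρ, hρ⟩ := by rw [MonoidHom.mem_ker.1 hc]; rfl
    have h2 := congrArg Subtype.val h1
    rwa [hθ, MulAut.conjNormal_apply] at h2
  -- an odd order element of H mapping into R
  obtain ⟨x₀, hx₀odd, hx₀1, hx₀R⟩ : ∃ x₀ : H, Odd (orderOf x₀) ∧ x₀ ≠ 1 ∧ π x₀ ∈ R := by
    obtain ⟨ρ, hρ, hρ1⟩ : ∃ ρ ∈ R, ρ ≠ 1 := by
      obtain ⟨x, hx⟩ := (R.ne_bot_iff_exists_ne_one).1 hR.1.2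
      exact ⟨x.1, x.2, fun e => hx (Subtype.ext e)⟩
    obtain ⟨g, rfl⟩ := hπs ρ
    obtain ⟨a, m, hm, -, h2⟩ := exists_parts g
    refine ⟨g ^ 2 ^ a, Odd.of_dvd_nat hm (orderOf_dvd_of_pow_eq_one h2), ?_, ?_⟩
    · intro e
      have h3 : (π g) ^ 2 ^ a = 1 := by rw [← map_pow, e, map_one]
      have h4 : orderOf (π g) = r := orderOf_eq_prime (hRr _ hρ) hρ1
      have h5 : r ∣ 2 ^ a := h4 ▸ orderOf_dvd_of_pow_eq_one h3
      exact hr2 ((Nat.prime_dvd_prime_iff_eq hr Nat.prime_two).1 (hr.dvd_of_dvd_pow h5))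
    · rw [map_pow]; exact R.pow_mem hρ _
  have hCodd : Odd (Nat.card θ.ker) := by
    by_contra hcon
    rw [Nat.not_odd_iff_even, even_iff_two_dvd] at hcon
    obtain ⟨⟨sb, hsb⟩, hso⟩ := exists_prime_orderOf_dvd_card' 2 hcon
    rw [Subgroup.orderOf_mk] at hso
    obtain ⟨g, rfl⟩ := hπs sb
    obtain ⟨a, m, hm, h1, -⟩ := exists_parts g
    have hsq : (π g) ^ 2 = 1 := by rw [← hso, pow_orderOf_eq_one]
    have h2 : π (g ^ m) = π g := by
      obtain ⟨j, rfl⟩ := hm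
      rw [map_pow, pow_succ, pow_mul, hsq, one_pow, one_mul]
    have h3 : (g ^ m)⁻¹ * x₀ * (g ^ m) * x₀⁻¹ ∈ Y := by
      rw [← hπker, map_mul, map_mul, map_mul, map_inv, map_inv, h2]
      have h4 := hθker _ (θ.ker.inv_mem hsb) _ hx₀R
      rw [inv_inv] at h4
      rw [h4, mul_inv_cancel]
    have h4 := mem_of_comm_mod h x₀ (g ^ m) hx₀odd hx₀1 ⟨a, h1⟩ h3
    rw [← hY, ← hπker, h2] at h4
    rw [h4, orderOf_one] at hso
    omega
  have hCX : θ.ker ≤ X.map π := hall _ inferInstance hCodd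
  refine of_hom (θ.comp π) (X ⊔ Y) ?_
  intro g hg
  have h1 : π g ∈ θ.ker := hg
  obtain ⟨x, hx, hxg⟩ := hCX h1
  have h2 : x⁻¹ * g ∈ Y := by
    rw [← hπker, map_mul, map_inv, hxg, inv_mul_cancel]
  have h3 : g = x * (x⁻¹ * g) := by group
  rw [h3]
  exact mul_mem (mem_sup_left hx) (mem_sup_right h2)


theorem sylow_cyclic (h : Hyp H) (X : Subgroup H) (hXodd : Odd (Nat.card X))
    (p : ℕ) [hp : Fact p.Prime] (P : Sylow p ↥X) : IsCyclic ↥(P : Subgroup ↥X) := by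
  by_contra hnc
  have hPodd : Odd (Nat.card (P : Subgroup X)) := Odd.of_dvd_nat hXodd (card_subgroup_dvd_card _)
  have hp2 : p ≠ 2 := by
    rintro rfl
    obtain ⟨n, hn⟩ := IsPGroup.iff_card.1 P.isPGroup'
    have hn0 : n = 0 := by
      by_contra h0
      rw [hn] at hPodd
      exact (Nat.not_even_iff_odd.2 hPodd) ((Nat.even_pow.2 ⟨even_two, h0⟩))
    rw [hn0, pow_zero] at hn
    apply hnc
    have : Subsingleton (P : Subgroup X) := (Nat.card_eq_one_iff_unique.1 hn).1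
    infer_instance
  obtain ⟨A, -, hAe, hAc⟩ := Cfsg.Agent.Lib.Helper3RankTwo.main hp2 (Nat.card (P : Subgroup X))
    (P : Subgroup X) le_rfl P.isPGroup' hnc
  set f : (P : Subgroup X) →* H := X.subtype.comp (P : Subgroup X).subtype with hf
  have hfinj : Function.Injective f :=
    (Subtype.val_injective).comp (Subtype.val_injective)
  have hBc : IsMulCommutative (A.map f) := by
    have := hAe.1
    refine ⟨⟨?_⟩⟩
    rintro ⟨_, a, ha, rfl⟩ ⟨_, b, hb, rfl⟩
    apply Subtype.ext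
    show f a * f b = f b * f a
    have h1 := hAe.1.is_comm.comm ⟨a, ha⟩ ⟨b, hb⟩
    have h2 : a * b = b * a := congrArg Subtype.val h1
    rw [← map_mul, h2, map_mul]
  have hBcard : Nat.card (A.map f) = p ^ 2 := by
    rw [card_map_of_injective hfinj, hAc]
  have hpodd : Odd p := hp.out.odd_of_ne_two hp2
  obtain ⟨⟨⟨b₀, hb₀m⟩, hb₀⟩⟩ := cyc h (A.map f) (by rw [hBcard]; exact hpodd.pow)
  have h1 : orderOf (⟨b₀, hb₀m⟩ : A.map f) = p ^ 2 := by
    rw [orderOf_eq_card_of_forall_mem_zpowers (fun x => mem_zpowers_iff.2 (hb₀ x)), hBcard]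
  rw [Subgroup.orderOf_mk] at h1
  obtain ⟨a, ha, rfl⟩ := hb₀m
  have h2 : (f a) ^ p = 1 := by rw [← map_pow, hAe.2 a ha, map_one]
  have h3 : p ^ 2 ∣ p := h1 ▸ orderOf_dvd_of_pow_eq_one h2
  have h4 := Nat.le_of_dvd hp.out.pos h3
  have h5 := hp.out.two_le
  nlinarith

/-- Let H be a finite solvable group with no nontrivial normal subgroup of odd order in which the centralizer of every involution has a normal 2-complement. Let X be a Hall 2'-subgroup of H (odd order, index a power of 2) and Y = O₂(H). Then no non-identity element of X commutes with a non-identity element of Y (so for X ≠ 1 the group XY is a Frobenius group with kernel Y), every Sylow subgroup of X is cyclic, XY is normal in H, and H/XY is a cyclic 2-group. -/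
theorem result {H : Type*} [Group H] [Finite H] (hsol : Group.IsSolvable H)
    (hO : Cfsg.oddCore H = ⊥)
    (hI : ∀ t : H, orderOf t = 2 → Cfsg.HasNormalPComplement 2 ↥(Subgroup.centralizer ({t} : Set H)))
    (X : Subgroup H) (hXodd : Odd (Nat.card X)) (hXidx : ∃ k : ℕ, X.index = 2 ^ k) :
    (∀ x ∈ X, x ≠ 1 → ∀ y ∈ Cfsg.pCore 2 H, y ≠ 1 → x * y ≠ y * x) ∧
      (∀ (p : ℕ) [Fact p.Prime] (P : Sylow p ↥X), IsCyclic ↥(P : Subgroup ↥X)) ∧
      (X ⊔ Cfsg.pCore 2 H).Normal ∧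
      ∀ hN : (X ⊔ Cfsg.pCore 2 H).Normal, IsCyclic (H ⧸ (X ⊔ Cfsg.pCore 2 H)) ∧ IsPGroup 2 (H ⧸ (X ⊔ Cfsg.pCore 2 H)) := by
  have h : Hyp H := ⟨hsol, hO, hI⟩
  have hYp : IsPGroup 2 (pCore 2 H) := Cfsg.Agent.Lib.Helper1Fitting.pCore_isPGroup 2
  obtain ⟨hn, hcyc⟩ := key h X hXodd hXidx
  refine ⟨?_, fun p _ P => sylow_cyclic h X hXodd p P, hn, fun hN => ⟨hcyc hN, ?_⟩⟩
  · intro x hx hx1 y hy hy1 hxy
    obtain ⟨k, hk⟩ := hYp ⟨y, hy⟩
    have h3 : y ^ 2 ^ k = 1 := congrArg Subtype.val hk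
    have hxo : Odd (orderOf x) := by
      have : orderOf x ∣ Nat.card X := by
        have := orderOf_dvd_natCard (⟨x, hx⟩ : X)
        rwa [Subgroup.orderOf_mk] at this
      exact Odd.of_dvd_nat hXodd this
    exact hy1 (two_elt h x y hxo hx1 ⟨k, h3⟩ hxy)
  · obtain ⟨k, hk⟩ := hXidx
    have h1 : (X ⊔ pCore 2 H).index ∣ 2 ^ k := hk ▸ index_dvd_of_le le_sup_left
    obtain ⟨j, -, hj⟩ := (Nat.dvd_prime_pow Nat.prime_two).1 h1
    apply IsPGroup.of_card (n := j)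
    rw [← hj, index_eq_card]

end Cfsg.Agent.S3215
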