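import Cfsg.Statements.S3247
import Cfsg.Agent.Lib.Helper27Constr3

set_option autoImplicit false
open Cfsg

namespace Cfsg.Agent.S3247

/-- Let G be a finite group and p a prime; here a p-local subgroup means the normalizer of a nontrivial p-subgroup, other than G itself. If every p-local subgroup of G that is maximal among p-local subgroups is p-constrained, or if the centralizer of every element of order p of G is p-constrained, then every p-local subgroup of G is p-constrained. -/
theorem result {G : Type*} [Group G] [Finite G] (p : ℕ) [hp : Fact p.Prime]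
    (h : (∀ M : Subgroup G, (∃ T : Subgroup G, IsPGroup p ↥T ∧ T ≠ ⊥ ∧ M = Subgroup.normalizer (T : Set G)) → M ≠ ⊤ →
        (∀ M' : Subgroup G, (∃ T' : Subgroup G, IsPGroup p ↥T' ∧ T' ≠ ⊥ ∧ M' = Subgroup.normalizer (T' : Set G)) → M' ≠ ⊤ → M ≤ M' → M = M') →
        Cfsg.IsPConstrained p ↥M) ∨
      (∀ x : G, orderOf x = p → Cfsg.IsPConstrained p ↥(Subgroup.centralizer ({x} : Set G))))
    (T : Subgroup G) (hT : IsPGroup p ↥T) (hT1 : T ≠ ⊥) (hTG : Subgroup.normalizer (T : Set G) ≠ ⊤) :
    Cfsg.IsPConstrained p ↥(Subgroup.normalizer (T : Set G)) := by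
  rw [Cfsg.Agent.Lib.Helper27Constr.isPConstrained_iff]
  rcases h with h | h
  · let 𝒮 : Set (Subgroup G) := {M | (∃ T' : Subgroup G, IsPGroup p ↥T' ∧ T' ≠ ⊥ ∧
      M = Subgroup.normalizer (T' : Set G)) ∧ M ≠ ⊤ ∧ Subgroup.normalizer (T : Set G) ≤ M}
    have hne : 𝒮.Nonempty := ⟨_, ⟨T, hT, hT1, rfl⟩, hTG, le_rfl⟩
    obtain ⟨M, hM, hmax⟩ := WellFounded.has_min (wellFounded_gt (α := Subgroup G)) 𝒮 hne
    obtain ⟨hM1, hM2, hM3⟩ := hM
    have hc := h M hM1 hM2 (fun M' h1 h2 hle => by
      by_contra hne'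
      exact hmax M' ⟨h1, h2, hM3.trans hle⟩ (lt_of_le_of_ne hle hne'))
    rw [Cfsg.Agent.Lib.Helper27Constr.isPConstrained_iff] at hc
    exact Cfsg.Agent.Lib.Helper27Constr3.pLayer_normalizer_eq_bot_of_le hT hM3 hc
  · apply Cfsg.Agent.Lib.Helper27Constr3.pLayer_normalizer_eq_bot_of_centralizer hT
    have hnt : Nontrivial ↥T := (Subgroup.nontrivial_iff_ne_bot T).mpr hT1
    have hcn : Nontrivial ↥(Subgroup.center ↥T) := hT.center_nontrivial
    have hcp : IsPGroup p ↥(Subgroup.center ↥T) := hT.to_subgroup _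
    obtain ⟨n, hn⟩ := IsPGroup.iff_card.mp hcp
    have hdvd : p ∣ Nat.card ↥(Subgroup.center ↥T) := by
      rw [hn]
      apply dvd_pow_self
      rintro rfl
      rw [pow_zero] at hn
      exact (Finite.one_lt_card (α := ↥(Subgroup.center ↥T))).ne' hn
    obtain ⟨z, hz⟩ := exists_prime_orderOf_dvd_card' p hdvd
    have hx : orderOf ((z : ↥T) : G) = p := by
      rw [Subgroup.orderOf_coe, Subgroup.orderOf_coe]; exact hz
    have hc := h _ hx
    rw [Cfsg.Agent.Lib.Helper27Constr.isPConstrained_iff] at hc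
    apply Cfsg.Agent.Lib.Helper27Constr3.pLayer_centralizer_eq_bot_of_le hT _ _ hc
    · intro t ht
      rw [Subgroup.mem_centralizer_singleton_iff]
      have := (Subgroup.mem_center_iff.mp z.2) ⟨t, ht⟩
      exact congrArg Subtype.val this
    · apply Subgroup.centralizer_le
      rw [Set.singleton_subset_iff]
      exact (z : ↥T).2

end Cfsg.Agent.S3247
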