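import Cfsg.Statements.S3276
import Mathlib
import Cfsg.Agent.S0208
import Cfsg.Agent.S0209

set_option autoImplicit false
open Cfsg

namespace Cfsg.Agent.S3276

theorem orderOf_conj' {G : Type*} [Group G] (g y : G) : orderOf (g * y * g⁻¹) = orderOf y := by
  have := orderOf_injective (MulAut.conj g).toMonoidHom (MulAut.conj g).injective y
  simpa using this

/-- Let x and y be commuting, non-conjugate involutions of a finite group G, and suppose that for every involution u commuting with x, each conjugate of y that commutes with u also commutes with y. Then the normal closure of y is a proper, normal, elementary abelian 2-subgroup of G; and if y is the only involution of that normal closure commuting with x, it has order at most 4. -/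
theorem result {G : Type*} [Group G] [Finite G] (x y : G) (hx : orderOf x = 2) (hy : orderOf y = 2)
    (hxy : Commute x y) (hnc : ¬ IsConj x y)
    (hstar : ∀ u : G, orderOf u = 2 → Commute u x → ∀ g : G, Commute (g * y * g⁻¹) u → Commute (g * y * g⁻¹) y) :
    Subgroup.normalClosure ({y} : Set G) ≠ ⊤ ∧ Cfsg.IsElementaryAbelian 2 (Subgroup.normalClosure ({y} : Set G)) ∧
      ((∀ u ∈ Subgroup.normalClosure ({y} : Set G), orderOf u = 2 → Commute u x → u = y) →
        Nat.card ↥(Subgroup.normalClosure ({y} : Set G)) ≤ 4) := by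
  classical
  have hx2 : x * x = 1 := by rw [← sq, ← hx]; exact pow_orderOf_eq_one x
  have hy2 : y * y = 1 := by rw [← sq, ← hy]; exact pow_orderOf_eq_one y
  have hxinv : x⁻¹ = x := inv_eq_of_mul_eq_one_left hx2
  -- Step 1
  have h1 : ∀ g : G, Commute (g * y * g⁻¹) y := by
    intro g
    have ho : orderOf (g * y * g⁻¹) = 2 := by rw [orderOf_conj', hy]
    have heven : Even (orderOf (x * (g * y * g⁻¹))) := by
      by_contra hodd
      rw [Nat.not_even_iff_odd] at hodd
      obtain ⟨d, -, hd⟩ := Cfsg.Agent.S0208.result x (g * y * g⁻¹) hx ho hodd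
      apply hnc
      rw [isConj_iff]
      refine ⟨g⁻¹ * d, ?_⟩
      calc g⁻¹ * d * x * (g⁻¹ * d)⁻¹ = g⁻¹ * (d * x * d⁻¹) * g := by group
        _ = g⁻¹ * (g * y * g⁻¹) * g := by rw [hd]
        _ = y := by group
    obtain ⟨hu, hux, huy⟩ := Cfsg.Agent.S0209.result x (g * y * g⁻¹) hx ho heven
    exact hstar _ hu hux g huy.symm
  -- Step 2
  have h2 : ∀ g h : G, (g * y * g⁻¹) * (h * y * h⁻¹) = (h * y * h⁻¹) * (g * y * g⁻¹) := by
    intro g h
    have := (h1 (h⁻¹ * g)).eq
    calc (g * y * g⁻¹) * (h * y * h⁻¹) = h * ((h⁻¹ * g) * y * (h⁻¹ * g)⁻¹ * y) * h⁻¹ := by group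
      _ = h * (y * ((h⁻¹ * g) * y * (h⁻¹ * g)⁻¹)) * h⁻¹ := by rw [this]
      _ = (h * y * h⁻¹) * (g * y * g⁻¹) := by group
  have hconj : ∀ a ∈ Group.conjugatesOfSet ({y} : Set G), ∃ g : G, a = g * y * g⁻¹ := by
    intro a ha
    rw [Group.mem_conjugatesOfSet_iff] at ha
    obtain ⟨b, hb, hba⟩ := ha
    rw [Set.mem_singleton_iff] at hb
    subst hb
    rw [isConj_iff] at hba
    obtain ⟨c, hc⟩ := hba
    exact ⟨c, hc.symm⟩
  have hcomm : IsMulCommutative (Subgroup.normalClosure ({y} : Set G)) := by
    unfold Subgroup.normalClosure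
    apply Subgroup.isMulCommutative_closure
    intro a ha b hb
    obtain ⟨g, rfl⟩ := hconj a ha
    obtain ⟨h, rfl⟩ := hconj b hb
    exact h2 g h
  have hexp : ∀ a ∈ Subgroup.normalClosure ({y} : Set G), a ^ 2 = 1 := by
    intro a ha
    have hle : Subgroup.normalClosure ({y} : Set G) ≤ Subgroup.normalClosure ({y} : Set G) := le_rfl
    have key : ∀ a ∈ Subgroup.closure (Group.conjugatesOfSet ({y} : Set G)),
        a ∈ Subgroup.normalClosure ({y} : Set G) ∧ a ^ 2 = 1 := by
      intro a ha
      induction ha using Subgroup.closure_induction with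
      | mem a ha =>
        refine ⟨Subgroup.subset_closure ha, ?_⟩
        obtain ⟨g, rfl⟩ := hconj a ha
        rw [← hy, ← orderOf_conj' g y]
        exact pow_orderOf_eq_one _
      | one => exact ⟨Subgroup.one_mem _, one_pow 2⟩
      | mul a b _ _ iha ihb =>
        refine ⟨Subgroup.mul_mem _ iha.1 ihb.1, ?_⟩
        have hab : Commute a b := setLike_mul_comm iha.1 ihb.1
        rw [hab.mul_pow, iha.2, ihb.2, one_mul]
      | inv a _ iha => exact ⟨Subgroup.inv_mem _ iha.1, by rw [inv_pow, iha.2, inv_one]⟩
    exact (key a ha).2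
  have hyN : y ∈ Subgroup.normalClosure ({y} : Set G) :=
    Subgroup.subset_normalClosure (Set.mem_singleton y)
  refine ⟨?_, ⟨hcomm, hexp⟩, ?_⟩
  · intro htop
    have hG : ∀ a b : G, a * b = b * a := by
      intro a b
      exact setLike_mul_comm (s := Subgroup.normalClosure ({y} : Set G))
        (htop ▸ Subgroup.mem_top a) (htop ▸ Subgroup.mem_top b)
    have hn : (Subgroup.zpowers y).Normal := by
      constructor
      intro n hn g
      rw [hG g n, mul_inv_cancel_right]
      exact hn
    have hle : Subgroup.normalClosure ({y} : Set G) ≤ Subgroup.zpowers y :=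
      Subgroup.normalClosure_le_normal (by
        rw [Set.singleton_subset_iff]; exact Subgroup.mem_zpowers y)
    have hxz : x ∈ Subgroup.zpowers y := hle (htop ▸ Subgroup.mem_top x)
    obtain ⟨k, hk⟩ := Subgroup.mem_zpowers_iff.1 hxz
    rw [← zpow_mod_orderOf, hy] at hk
    have hk2 : k % (2 : ℕ) = 0 ∨ k % (2 : ℕ) = 1 := by
      have := Int.emod_two_eq_zero_or_one k
      simpa using this
    rcases hk2 with h | h
    · rw [h, zpow_zero] at hk
      rw [← hk, orderOf_one] at hx
      omega
    · rw [h, zpow_one] at hk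
      exact hnc (hk ▸ IsConj.refl _)
  · intro huniq
    set N := Subgroup.normalClosure ({y} : Set G) with hN
    have hNn : N.Normal := Subgroup.normalClosure_normal
    -- elements of N commuting with x
    have hfix : ∀ n ∈ N, Commute n x → n = 1 ∨ n = y := by
      intro n hn hc
      by_cases h : n = 1
      · exact Or.inl h
      · right
        apply huniq n hn _ hc
        exact orderOf_eq_prime (hexp n hn) h
    let φ : G → G := fun n => n * (x * n * x⁻¹)
    have hφN : ∀ n ∈ N, φ n ∈ N := fun n hn => N.mul_mem hn (hNn.conj_mem n hn x)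
    have hφc : ∀ n ∈ N, Commute (φ n) x := by
      intro n hn
      have hc : n * (x * n * x⁻¹) = (x * n * x⁻¹) * n :=
        setLike_mul_comm hn (hNn.conj_mem n hn x)
      change n * (x * n * x⁻¹) * x = x * (n * (x * n * x⁻¹))
      calc n * (x * n * x⁻¹) * x = (x * n * x⁻¹ * n) * x := by rw [hc]
        _ = x * (n * (x⁻¹ * n * x)) := by group
        _ = x * (n * (x * n * x⁻¹)) := by rw [hxinv]
    have hφ : ∀ n ∈ N, φ n = 1 ∨ φ n = y := fun n hn => hfix _ (hφN n hn) (hφc n hn)
    have hφ1 : ∀ n ∈ N, φ n = 1 → n = 1 ∨ n = y := by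
      intro n hn h
      apply hfix n hn
      have hn2 : n * n = 1 := by rw [← sq]; exact hexp n hn
      change n * (x * n * x⁻¹) = 1 at h
      have h3 : x * n * x⁻¹ = n := by
        calc x * n * x⁻¹ = (n * n) * (x * n * x⁻¹) := by rw [hn2, one_mul]
          _ = n * (n * (x * n * x⁻¹)) := by group
          _ = n := by rw [h, mul_one]
      change n * x = x * n
      calc n * x = (x * n * x⁻¹) * x := by rw [h3]
        _ = x * n := by group
    have hφmul : ∀ n ∈ N, ∀ m ∈ N, φ (n * m) = φ n * φ m := by
      intro n hn m hm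
      have hc : m * (x * n * x⁻¹) = (x * n * x⁻¹) * m :=
        setLike_mul_comm hm (hNn.conj_mem n hn x)
      change n * m * (x * (n * m) * x⁻¹) = n * (x * n * x⁻¹) * (m * (x * m * x⁻¹))
      calc n * m * (x * (n * m) * x⁻¹) = n * (m * (x * n * x⁻¹)) * (x * m * x⁻¹) := by group
        _ = n * ((x * n * x⁻¹) * m) * (x * m * x⁻¹) := by rw [hc]
        _ = n * (x * n * x⁻¹) * (m * (x * m * x⁻¹)) := by group
    by_cases hall : ∀ n ∈ N, φ n = 1
    · have hsub : (N : Set G) ⊆ (({1, y} : Finset G) : Set G) := by
        intro n hn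
        rcases hφ1 n hn (hall n hn) with h | h <;> simp [h]
      calc Nat.card N = (N : Set G).ncard := Nat.card_coe_set_eq _
        _ ≤ ((({1, y} : Finset G) : Set G)).ncard := Set.ncard_le_ncard hsub (Finset.finite_toSet _)
        _ = ({1, y} : Finset G).card := Set.ncard_coe_finset _
        _ ≤ 2 := Finset.card_le_two
        _ ≤ 4 := by norm_num
    · push Not at hall
      obtain ⟨a, haN, ha⟩ := hall
      have hay : φ a = y := (hφ a haN).resolve_left ha
      have ha2 : a * a = 1 := by rw [← sq]; exact hexp a haN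
      have hsub : (N : Set G) ⊆ (({1, y, a, y * a} : Finset G) : Set G) := by
        intro n hn
        rcases hφ n hn with h | h
        · rcases hφ1 n hn h with h | h <;> simp [h]
        · have h3 : φ (n * a) = 1 := by rw [hφmul n hn a haN, h, hay, hy2]
          rcases hφ1 (n * a) (N.mul_mem hn haN) h3 with h4 | h4
          · have : n = a := by
              calc n = n * (a * a) := by rw [ha2, mul_one]
                _ = (n * a) * a := by group
                _ = a := by rw [h4, one_mul]
            simp [this]
          · have : n = y * a := by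
              calc n = n * (a * a) := by rw [ha2, mul_one]
                _ = (n * a) * a := by group
                _ = y * a := by rw [h4]
            simp [this]
      calc Nat.card N = (N : Set G).ncard := Nat.card_coe_set_eq _
        _ ≤ ((({1, y, a, y * a} : Finset G) : Set G)).ncard :=
            Set.ncard_le_ncard hsub (Finset.finite_toSet _)
        _ = ({1, y, a, y * a} : Finset G).card := Set.ncard_coe_finset _
        _ ≤ 4 := Finset.card_le_four

end Cfsg.Agent.S3276
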