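import Cfsg.Statements.S3279
import Mathlib
import Cfsg.Agent.Lib.Helper5Dihedral
import Cfsg.Agent.S0208
import Cfsg.Agent.S0209
import Cfsg.Agent.S3276

set_option autoImplicit false
open Cfsg

namespace Cfsg.Agent.S3279

open Cfsg.Agent.Lib.Helper5Dihedral

variable {G : Type*} [Group G]

theorem orderOf_conj' (g y : G) : orderOf (g * y * g⁻¹) = orderOf y := by
  have := orderOf_injective (MulAut.conj g).toMonoidHom (MulAut.conj g).injective y
  simpa using this

theorem orderOf_of_isConj {a b : G} (h : IsConj a b) : orderOf b = orderOf a := by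
  obtain ⟨c, rfl⟩ := isConj_iff.1 h
  exact orderOf_conj' c a

/-- reflections with even rotation part -/
theorem isConj_even {x t : G} (hx : x * x = 1) (ht : t * t = 1) (i : ℕ) :
    IsConj x (x * (x * t) ^ (2 * i)) := by
  rw [isConj_iff]
  refine ⟨((x * t) ^ i)⁻¹, ?_⟩
  rw [inv_inv, ← inv_pow, ← x_mul_pow hx ht, mul_assoc, ← pow_add, two_mul]

theorem isConj_odd {x t : G} (hx : x * x = 1) (ht : t * t = 1) (i : ℕ) :
    IsConj t (x * (x * t) ^ (2 * i + 1)) := by
  rw [isConj_iff]
  refine ⟨((x * t) ^ i)⁻¹, ?_⟩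
  have h1 : t = x * (x * t) := by rw [← mul_assoc, hx, one_mul]
  rw [inv_inv, ← inv_pow]
  calc ((x * t)⁻¹) ^ i * t * (x * t) ^ i = ((x * t)⁻¹) ^ i * (x * (x * t)) * (x * t) ^ i := by
        rw [← h1]
    _ = (((x * t)⁻¹) ^ i * x) * ((x * t) * (x * t) ^ i) := by simp only [mul_assoc]
    _ = (x * (x * t) ^ i) * ((x * t) * (x * t) ^ i) := by rw [← x_mul_pow hx ht]
    _ = x * ((x * t) ^ i * ((x * t) * (x * t) ^ i)) := by simp only [mul_assoc]
    _ = x * (x * t) ^ (2 * i + 1) := by
        congr 1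
        rw [← pow_succ', ← pow_add]
        congr 1
        omega

theorem pair_analysis [Finite G] {x t : G} (hx : orderOf x = 2) (ht : orderOf t = 2)
    (heven : Even (orderOf (x * t))) :
    ∃ u : G, orderOf u = 2 ∧ Commute u x ∧ Commute u t ∧
      (IsConj x (x * u) ∨ (IsConj t (x * u) ∧ IsConj x (t * u))) := by
  obtain ⟨hu, hux, hut⟩ := Cfsg.Agent.S0209.result x t hx ht heven
  have hx2 := mul_self_of_orderOf hx
  have ht2 := mul_self_of_orderOf ht
  refine ⟨_, hu, hux, hut, ?_⟩
  rcases Nat.even_or_odd' (orderOf (x * t) / 2) with ⟨i, hi | hi⟩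
  · left
    rw [hi]
    exact isConj_even hx2 ht2 i
  · right
    rw [hi]
    refine ⟨isConj_odd hx2 ht2 i, ?_⟩
    have h1 : t = x * (x * t) := by rw [← mul_assoc, hx2, one_mul]
    have h2 : t * (x * t) ^ (2 * i + 1) = x * (x * t) ^ (2 * (i + 1)) := by
      calc t * (x * t) ^ (2 * i + 1) = x * (x * t) * (x * t) ^ (2 * i + 1) := by rw [← h1]
        _ = x * ((x * t) * (x * t) ^ (2 * i + 1)) := by rw [mul_assoc]
        _ = x * (x * t) ^ (2 * (i + 1)) := by rw [← pow_succ']; rfl
    rw [h2]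
    exact isConj_even hx2 ht2 (i + 1)

/-- `x, y` commuting distinct involutions, and `x, y, xy` are the only involutions commuting with `x`. -/
def Three (x y : G) : Prop :=
  orderOf x = 2 ∧ orderOf y = 2 ∧ Commute x y ∧ x ≠ y ∧
    ∀ v, orderOf v = 2 → Commute v x → v = x ∨ v = y ∨ v = x * y

theorem Three.orderOf_mul {x y : G} (h : Three x y) : orderOf (x * y) = 2 := by
  obtain ⟨hx, hy, hxy, hne, -⟩ := h
  have hx2 := mul_self_of_orderOf hx
  have hy2 := mul_self_of_orderOf hy
  apply orderOf_eq_two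
  · calc x * y * (x * y) = x * (y * x) * y := by group
      _ = x * (x * y) * y := by rw [hxy.eq]
      _ = (x * x) * (y * y) := by group
      _ = 1 := by rw [hx2, hy2, one_mul]
  · intro h1
    apply hne
    calc x = x * (y * y) := by rw [hy2, mul_one]
      _ = (x * y) * y := by group
      _ = y := by rw [h1, one_mul]

theorem Three.mul_mul {x y : G} (h : Three x y) : x * (x * y) = y := by
  rw [← mul_assoc, mul_self_of_orderOf h.1, one_mul]

theorem Three.swap {x y : G} (h : Three x y) : Three x (x * y) := by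
  refine ⟨h.1, h.orderOf_mul, ?_, ?_, ?_⟩
  · exact (Commute.refl x).mul_right h.2.2.1
  · intro h1
    have : y = 1 := by
      have := h.mul_mul
      rw [← h1, mul_self_of_orderOf h.1] at this
      exact this.symm
    exact ne_one_of_orderOf h.2.1 this
  · intro v hv hvx
    rw [h.mul_mul]
    rcases h.2.2.2.2 v hv hvx with h1 | h1 | h1
    · exact Or.inl h1
    · exact Or.inr (Or.inr h1)
    · exact Or.inr (Or.inl h1)

theorem not_isConj_one {x : G} (hx : orderOf x = 2) : ¬ IsConj x 1 := by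
  intro h
  have := orderOf_of_isConj h
  rw [orderOf_one, hx] at this
  omega

theorem no_conj {x y : G} (h : Three x y) (h1 : ¬ IsConj x y) (h2 : ¬ IsConj x (x * y))
    {u : G} (hu : orderOf u = 2) (hux : Commute u x) : ¬ IsConj x (x * u) := by
  intro hc
  rcases h.2.2.2.2 u hu hux with rfl | rfl | rfl
  · rw [mul_self_of_orderOf hu] at hc
    exact not_isConj_one hu hc
  · exact h2 hc
  · rw [h.mul_mul] at hc
    exact h1 hc

theorem odd_of_isConj [Finite G] {x y : G} (h : Three x y) (h1 : ¬ IsConj x y)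
    (h2 : ¬ IsConj x (x * y)) {z : G} (hz : IsConj x z) : Odd (orderOf (x * z)) := by
  by_contra hodd
  rw [Nat.not_odd_iff_even] at hodd
  have hzo : orderOf z = 2 := (orderOf_of_isConj hz).trans h.1
  obtain ⟨u, hu, hux, -, hc | ⟨hc, -⟩⟩ := pair_analysis h.1 hzo hodd
  · exact no_conj h h1 h2 hu hux hc
  · exact no_conj h h1 h2 hu hux (hz.trans hc)

/-- the set `{u z : z ∈ x^G ∩ C(u)}` -/
def A (x u : G) : Set G := {t | ∃ z, IsConj x z ∧ Commute z u ∧ t = u * z}

theorem K2 [Finite G] {x y : G} (h : Three x y) (h1 : ¬ IsConj x y) (h2 : ¬ IsConj x (x * y))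
    {t : G} (ht : IsConj y t) :
    (t ∈ A x y ∧ IsConj t (x * y)) ∨ t ∈ A x (x * y) := by
  have hto : orderOf t = 2 := (orderOf_of_isConj ht).trans h.2.1
  have heven : Even (orderOf (x * t)) := by
    by_contra hodd
    rw [Nat.not_even_iff_odd] at hodd
    obtain ⟨d, -, hd⟩ := Cfsg.Agent.S0208.result x t h.1 hto hodd
    exact h1 ((isConj_iff.2 ⟨d, hd⟩).trans ht.symm)
  obtain ⟨u, hu, hux, hut, hc | ⟨hc, hc'⟩⟩ := pair_analysis h.1 hto heven
  · exact absurd hc (no_conj h h1 h2 hu hux)
  · have hu2 := mul_self_of_orderOf hu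
    have hmem : t ∈ A x u := by
      refine ⟨t * u, hc', ?_, ?_⟩
      · exact (hut.symm.mul_left (Commute.refl u))
      · calc t = t * (u * u) := by rw [hu2, mul_one]
          _ = (t * u) * u := by group
          _ = (u * t) * u := by rw [hut.eq]
          _ = u * (t * u) := by group
    rcases h.2.2.2.2 u hu hux with rfl | rfl | rfl
    · rw [hu2] at hc
      exact absurd hc (not_isConj_one hto)
    · exact Or.inl ⟨hmem, hc⟩
    · exact Or.inr hmem

theorem pow_odd_of_order_two {u : G} (hu : orderOf u = 2) {m : ℕ} (hm : Odd m) : u ^ m = u := by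
  obtain ⟨k, rfl⟩ := hm
  rw [pow_succ, pow_mul, sq, mul_self_of_orderOf hu, one_pow, one_mul]

theorem pow_lemma {x u z : G} (hu : orderOf u = 2) (hux : Commute u x) (huz : Commute u z)
    (hodd : Odd (orderOf (x * z))) : (x * (u * z)) ^ (orderOf (x * z)) = u := by
  have h1 : x * (u * z) = u * (x * z) := by
    rw [← mul_assoc, ← hux.eq, mul_assoc]
  have h2 : Commute u (x * z) := hux.mul_right huz
  rw [h1, h2.mul_pow, pow_orderOf_eq_one, mul_one, pow_odd_of_order_two hu hodd]

theorem K3 [Finite G] {x y : G} (h : Three x y) (h1 : ¬ IsConj x y) (h2 : ¬ IsConj x (x * y))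
    {t : G} (hty : t ∈ A x y) (htw : t ∈ A x (x * y)) : False := by
  obtain ⟨z₁, hz₁, hc₁, rfl⟩ := hty
  obtain ⟨z₂, hz₂, hc₂, he⟩ := htw
  have ho₁ := odd_of_isConj h h1 h2 hz₁
  have ho₂ := odd_of_isConj h h1 h2 hz₂
  have e₁ := pow_lemma h.2.1 h.2.2.1.symm hc₁.symm ho₁
  have e₂ := pow_lemma h.orderOf_mul h.swap.2.2.1.symm hc₂.symm ho₂
  rw [← he] at e₂
  have e₃ : (x * (y * z₁)) ^ (orderOf (x * z₁) * orderOf (x * z₂)) = y := by
    rw [pow_mul, e₁, pow_odd_of_order_two h.2.1 ho₂]
  have e₄ : (x * (y * z₁)) ^ (orderOf (x * z₁) * orderOf (x * z₂)) = x * y := by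
    rw [mul_comm, pow_mul, e₂, pow_odd_of_order_two h.orderOf_mul ho₁]
  have e₅ : y = x * y := e₃.symm.trans e₄
  have : x = 1 := by
    calc x = (x * y) * y⁻¹ := by group
      _ = y * y⁻¹ := by rw [← e₅]
      _ = 1 := by group
  exact ne_one_of_orderOf h.1 this

theorem K4 [Finite G] {x y : G} (h : Three x y) (h1 : ¬ IsConj x y) (h2 : ¬ IsConj x (x * y))
    {u t : G} (hux : Commute u x) (ht : t ∈ A x u) :
    ∃ c, Commute c u ∧ c * (u * x) * c⁻¹ = t := by
  obtain ⟨z, hz, hzu, rfl⟩ := ht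
  have hzo : orderOf z = 2 := (orderOf_of_isConj hz).trans h.1
  obtain ⟨d, hd, hdx⟩ := Cfsg.Agent.S0208.result x z h.1 hzo (odd_of_isConj h h1 h2 hz)
  have hle : Subgroup.closure ({x, z} : Set G) ≤ Subgroup.centralizer ({u} : Set G) := by
    rw [Subgroup.closure_le]
    intro a ha
    rw [SetLike.mem_coe, Subgroup.mem_centralizer_singleton_iff]
    rcases ha with rfl | ha
    · exact hux.eq.symm
    · rw [Set.mem_singleton_iff] at ha
      subst ha
      exact hzu.eq
  have hdu : d * u = u * d := Subgroup.mem_centralizer_singleton_iff.1 (hle hd)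
  refine ⟨d, hdu, ?_⟩
  calc d * (u * x) * d⁻¹ = (d * u) * x * d⁻¹ := by group
    _ = (u * d) * x * d⁻¹ := by rw [hdu]
    _ = u * (d * x * d⁻¹) := by group
    _ = u * z := by rw [hdx]

theorem conj_mem_A {x u t : G} (g : G) (ht : t ∈ A x u) : g * t * g⁻¹ ∈ A x (g * u * g⁻¹) := by
  obtain ⟨z, hz, hzu, rfl⟩ := ht
  refine ⟨g * z * g⁻¹, hz.trans (isConj_iff.2 ⟨g, rfl⟩), ?_, by group⟩
  change g * z * g⁻¹ * (g * u * g⁻¹) = g * u * g⁻¹ * (g * z * g⁻¹)
  calc g * z * g⁻¹ * (g * u * g⁻¹) = g * (z * u) * g⁻¹ := by group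
    _ = g * (u * z) * g⁻¹ := by rw [hzu.eq]
    _ = g * u * g⁻¹ * (g * z * g⁻¹) := by group

theorem conj_mem_A_of_commute {x u t c : G} (hc : Commute c u) (ht : t ∈ A x u) :
    c * t * c⁻¹ ∈ A x u := by
  have := conj_mem_A c ht
  rwa [hc.eq, mul_inv_cancel_right] at this

theorem caseB [Finite G] {x y : G} (h : Three x y) (h1 : ¬ IsConj x y) (h2 : ¬ IsConj x (x * y))
    {s : G} (hs : s * y * s⁻¹ = x * y) :
    ∃ H : Subgroup G, H.index = 2 ∧ x * y ∈ H := by
  have hx2 := mul_self_of_orderOf h.1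
  have hwx : x * y * x = y := by
    rw [mul_assoc, ← h.2.2.1.eq, ← mul_assoc, hx2, one_mul]
  have hyw : IsConj y (x * y) := isConj_iff.2 ⟨s, hs⟩
  -- y ∈ A x w, w ∈ A x y
  have hyA : y ∈ A x (x * y) := ⟨x, IsConj.refl x, h.swap.2.2.1, hwx.symm⟩
  have hwA : x * y ∈ A x y := ⟨x, IsConj.refl x, h.2.2.1, h.2.2.1.eq⟩
  -- elements of A x w are conjugates of y
  have hAw : ∀ t ∈ A x (x * y), ∃ c, Commute c (x * y) ∧ c * y * c⁻¹ = t := by
    intro t ht
    obtain ⟨c, hc, hct⟩ := K4 h h1 h2 h.swap.2.2.1.symm ht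
    rw [hwx] at hct
    exact ⟨c, hc, hct⟩
  have hstab : ∀ c : G, (Commute c y ∨ Commute c (x * y)) → ∀ t ∈ A x (x * y),
      c * t * c⁻¹ ∈ A x (x * y) := by
    intro c hc t ht
    rcases hc with hc | hc
    · obtain ⟨d, -, hd⟩ := hAw t ht
      have hconj : IsConj y (c * t * c⁻¹) := by
        rw [isConj_iff]
        exact ⟨c * d, by rw [← hd]; group⟩
      rcases K2 h h1 h2 hconj with ⟨h3, -⟩ | h3
      · exfalso
        have h4 := conj_mem_A_of_commute hc.inv_left h3
        have h5 : c⁻¹ * (c * t * c⁻¹) * c⁻¹⁻¹ = t := by group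
        rw [h5] at h4
        exact K3 h h1 h2 h4 ht
      · exact h3
    · exact conj_mem_A_of_commute hc ht
  have hmemH : ∀ c : G, (Commute c y ∨ Commute c (x * y)) →
      c ∈ Subgroup.normalizer (A x (x * y)) := by
    intro c hc
    rw [Subgroup.mem_set_normalizer_iff]
    intro t
    constructor
    · exact hstab c hc t
    · intro ht
      have hc' : Commute c⁻¹ y ∨ Commute c⁻¹ (x * y) := hc.imp Commute.inv_left Commute.inv_left
      have := hstab c⁻¹ hc' _ ht
      have h5 : c⁻¹ * (c * t * c⁻¹) * c⁻¹⁻¹ = t := by group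
      rwa [h5] at this
  have hkey : ∀ g : G, g * y * g⁻¹ ∈ A x (x * y) → g ∈ Subgroup.normalizer (A x (x * y)) := by
    intro g hg
    obtain ⟨c, hc, hcg⟩ := hAw _ hg
    have h3 : Commute (c⁻¹ * g) y := by
      change c⁻¹ * g * y = y * (c⁻¹ * g)
      calc c⁻¹ * g * y = c⁻¹ * (g * y * g⁻¹) * g := by group
        _ = c⁻¹ * (c * y * c⁻¹) * g := by rw [hcg]
        _ = y * (c⁻¹ * g) := by group
    have h4 := Subgroup.mul_mem _ (hmemH c (Or.inr hc)) (hmemH _ (Or.inl h3))
    rwa [mul_inv_cancel_left] at h4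
  have hsn : s ∉ Subgroup.normalizer (A x (x * y)) := by
    intro hsH
    have := (Subgroup.mem_set_normalizer_iff.1 hsH y).1 hyA
    rw [hs] at this
    exact K3 h h1 h2 hwA this
  refine ⟨Subgroup.normalizer (A x (x * y)), ?_, hmemH _ (Or.inr (Commute.refl _))⟩
  rw [Subgroup.index_eq_two_iff']
  refine ⟨s, fun b => ?_⟩
  have hor : s * b ∈ Subgroup.normalizer (A x (x * y)) ∨ b ∈ Subgroup.normalizer (A x (x * y)) := by
    rcases K2 h h1 h2 (isConj_iff.2 ⟨b, rfl⟩ : IsConj y (b * y * b⁻¹)) with ⟨h3, -⟩ | h3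
    · left
      apply hkey
      have := conj_mem_A s h3
      rw [hs] at this
      have h5 : s * b * y * (s * b)⁻¹ = s * (b * y * b⁻¹) * s⁻¹ := by group
      rwa [h5]
    · exact Or.inr (hkey b h3)
  rw [xor_iff_or_and_not_and]
  refine ⟨hor, ?_⟩
  rintro ⟨h3, h4⟩
  apply hsn
  have := Subgroup.mul_mem _ h3 (Subgroup.inv_mem _ h4)
  rwa [mul_inv_cancel_right] at this

theorem mem_zpowers_two {w a : G} (hw : orderOf w = 2) (ha : a ∈ Subgroup.zpowers w) :
    a = 1 ∨ a = w := by
  obtain ⟨k, hk⟩ := Subgroup.mem_zpowers_iff.1 ha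
  rw [← zpow_mod_orderOf, hw] at hk
  have hk2 : k % (2 : ℕ) = 0 ∨ k % (2 : ℕ) = 1 := by
    have := Int.emod_two_eq_zero_or_one k
    simpa using this
  rcases hk2 with h | h
  · rw [h, zpow_zero] at hk
    exact Or.inl hk.symm
  · rw [h, zpow_one] at hk
    exact Or.inr hk.symm

theorem caseA [Finite G] [IsSimpleGroup G] {x y : G} (h : Three x y) (h1 : ¬ IsConj x y)
    (h2 : ¬ IsConj x (x * y)) (h3 : ¬ IsConj y (x * y)) : False := by
  have hall : ∀ t, IsConj y t → t * (x * y) = (x * y) * t := by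
    intro t ht
    rcases K2 h h1 h2 ht with ⟨-, h4⟩ | ⟨z, -, hz, rfl⟩
    · exact absurd (ht.trans h4) h3
    · rw [mul_assoc, hz.eq]
  have hle : Subgroup.normalClosure ({y} : Set G) ≤ Subgroup.centralizer ({x * y} : Set G) := by
    unfold Subgroup.normalClosure
    rw [Subgroup.closure_le]
    intro a ha
    rw [Group.mem_conjugatesOfSet_iff] at ha
    obtain ⟨b, hb, hba⟩ := ha
    rw [Set.mem_singleton_iff] at hb
    subst hb
    rw [SetLike.mem_coe, Subgroup.mem_centralizer_singleton_iff]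
    exact hall a hba
  have htop : Subgroup.normalClosure ({y} : Set G) = ⊤ := by
    refine (Subgroup.normalClosure_normal.eq_bot_or_eq_top).resolve_left ?_
    intro hbot
    have : y ∈ Subgroup.normalClosure ({y} : Set G) :=
      Subgroup.subset_normalClosure (Set.mem_singleton y)
    rw [hbot, Subgroup.mem_bot] at this
    exact ne_one_of_orderOf h.2.1 this
  have hcent : ∀ g : G, g * (x * y) = (x * y) * g := by
    intro g
    have : g ∈ Subgroup.centralizer ({x * y} : Set G) := hle (htop ▸ Subgroup.mem_top g)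
    exact Subgroup.mem_centralizer_singleton_iff.1 this
  have hn : (Subgroup.zpowers (x * y)).Normal := by
    constructor
    intro n hn g
    obtain ⟨k, rfl⟩ := Subgroup.mem_zpowers_iff.1 hn
    have : Commute g ((x * y) ^ k) := Commute.zpow_right (hcent g) k
    rw [this.eq, mul_inv_cancel_right]
    exact Subgroup.zpow_mem_zpowers _ _
  have hz : Subgroup.zpowers (x * y) = ⊤ := by
    refine (hn.eq_bot_or_eq_top).resolve_left ?_
    intro hbot
    have : x * y ∈ Subgroup.zpowers (x * y) := Subgroup.mem_zpowers _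
    rw [hbot, Subgroup.mem_bot] at this
    exact ne_one_of_orderOf h.orderOf_mul this
  rcases mem_zpowers_two h.orderOf_mul (hz ▸ Subgroup.mem_top x : x ∈ Subgroup.zpowers (x * y))
    with h4 | h4
  · exact ne_one_of_orderOf h.1 h4
  · exact h.swap.2.2.2.1 h4

theorem Three.commute {x y a b : G} (h : Three x y) (ha : orderOf a = 2) (hb : orderOf b = 2)
    (hax : Commute a x) (hbx : Commute b x) : Commute a b := by
  have hxy := h.2.2.1
  have hxw : Commute x (x * y) := h.swap.2.2.1
  have hyw : Commute y (x * y) := hxy.symm.mul_right (Commute.refl y)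
  rcases h.2.2.2.2 a ha hax with rfl | rfl | rfl <;> rcases h.2.2.2.2 b hb hbx with rfl | rfl | rfl
  · exact Commute.refl _
  · exact hxy
  · exact hxw
  · exact hxy.symm
  · exact Commute.refl _
  · exact hyw
  · exact hxw.symm
  · exact hyw.symm
  · exact Commute.refl _

theorem commute_conj_iff {a b : G} (c : G) :
    Commute (c * a * c⁻¹) (c * b * c⁻¹) ↔ Commute a b := by
  constructor
  · intro h
    have h1 : c * a * c⁻¹ * (c * b * c⁻¹) = c * b * c⁻¹ * (c * a * c⁻¹) := h
    change a * b = b * a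
    calc a * b = c⁻¹ * (c * a * c⁻¹ * (c * b * c⁻¹)) * c := by group
      _ = c⁻¹ * (c * b * c⁻¹ * (c * a * c⁻¹)) * c := by rw [h1]
      _ = b * a := by group
  · intro h
    have h1 : a * b = b * a := h
    change c * a * c⁻¹ * (c * b * c⁻¹) = c * b * c⁻¹ * (c * a * c⁻¹)
    calc c * a * c⁻¹ * (c * b * c⁻¹) = c * (a * b) * c⁻¹ := by group
      _ = c * (b * a) * c⁻¹ := by rw [h1]
      _ = c * b * c⁻¹ * (c * a * c⁻¹) := by group

theorem commute_conj_left {a x : G} (c : G) (h : Commute a (c * x * c⁻¹)) :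
    Commute (c⁻¹ * a * c) x := by
  have h1 : a = c * (c⁻¹ * a * c) * c⁻¹ := by group
  rw [h1] at h
  exact (commute_conj_iff c).1 h

theorem orderOf_conj'' (g y : G) : orderOf (g⁻¹ * y * g) = orderOf y := by
  have := orderOf_conj' g⁻¹ y
  rwa [inv_inv] at this

theorem case2b [Finite G] [IsSimpleGroup G] {x y : G} (h : Three x y) (h1 : ¬ IsConj x y)
    (h2 : IsConj x (x * y)) : False := by
  have hstar : ∀ u : G, orderOf u = 2 → Commute u x → ∀ g : G, Commute (g * y * g⁻¹) u →
      Commute (g * y * g⁻¹) y := by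
    intro u hu hux g hg
    have ho : orderOf (g * y * g⁻¹) = 2 := (orderOf_conj' g y).trans h.2.1
    rcases h.2.2.2.2 u hu hux with rfl | rfl | rfl
    · exact h.commute ho h.2.1 hg h.2.2.1.symm
    · exact hg
    · obtain ⟨c, hc⟩ := isConj_iff.1 h2
      rw [← hc] at hg
      have e1 := commute_conj_left c hg
      have hyw : Commute y (c * x * c⁻¹) := by
        rw [hc]; exact h.2.2.1.symm.mul_right (Commute.refl y)
      have e2 := commute_conj_left c hyw
      have e3 := h.commute ((orderOf_conj'' c _).trans ho) ((orderOf_conj'' c _).trans h.2.1) e1 e2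
      have e4 := (commute_conj_iff c).2 e3
      have e5 : c * (c⁻¹ * (g * y * g⁻¹) * c) * c⁻¹ = g * y * g⁻¹ := by group
      have e6 : c * (c⁻¹ * y * c) * c⁻¹ = y := by group
      rwa [e5, e6] at e4
  obtain ⟨hne, -, -⟩ := Cfsg.Agent.S3276.result x y h.1 h.2.1 h.2.2.1 h1 hstar
  apply hne
  refine (Subgroup.normalClosure_normal.eq_bot_or_eq_top).resolve_left ?_
  intro hbot
  have : y ∈ Subgroup.normalClosure ({y} : Set G) :=
    Subgroup.subset_normalClosure (Set.mem_singleton y)
  rw [hbot, Subgroup.mem_bot] at this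
  exact ne_one_of_orderOf h.2.1 this

theorem case2a [Finite G] {x y : G} (h : Three x y) (h1 : IsConj x y)
    (h2 : IsConj x (x * y)) {t : G} (ht : orderOf t = 2) : IsConj x t := by
  rcases Nat.even_or_odd (orderOf (x * t)) with heven | hodd
  · obtain ⟨hu, hux, hut⟩ := Cfsg.Agent.S0209.result x t h.1 ht heven
    set u := (x * t) ^ (orderOf (x * t) / 2) with hudef
    have hxu : IsConj x u := by
      rcases h.2.2.2.2 u hu hux with e | e | e
      · rw [e]
      · rw [e]; exact h1
      · rw [e]; exact h2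
    obtain ⟨c, hc⟩ := isConj_iff.1 hxu
    have e1 : Commute t (c * x * c⁻¹) := by rw [hc]; exact hut.symm
    have e2 := commute_conj_left c e1
    have e3 : IsConj x (c⁻¹ * t * c) := by
      rcases h.2.2.2.2 _ ((orderOf_conj'' c t).trans ht) e2 with e | e | e
      · rw [e]
      · rw [e]; exact h1
      · rw [e]; exact h2
    refine e3.trans (isConj_iff.2 ⟨c, by group⟩)
  · obtain ⟨d, -, hd⟩ := Cfsg.Agent.S0208.result x t h.1 ht hodd
    exact isConj_iff.2 ⟨d, hd⟩

theorem case1 [Finite G] {x : G} (hx : orderOf x = 2)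
    (h : ∀ v, orderOf v = 2 → Commute v x → v = x) {t : G} (ht : orderOf t = 2) : IsConj x t := by
  rcases Nat.even_or_odd (orderOf (x * t)) with heven | hodd
  · obtain ⟨hu, hux, hut⟩ := Cfsg.Agent.S0209.result x t hx ht heven
    have e := h _ hu hux
    rw [e] at hut
    rw [h t ht hut.symm]
  · obtain ⟨d, -, hd⟩ := Cfsg.Agent.S0208.result x t hx ht hodd
    exact isConj_iff.2 ⟨d, hd⟩

theorem sylow_part [Finite G] {x : G} (hx : orderOf x = 2)
    (h : ∀ t, orderOf t = 2 → IsConj x t) :
    ∃ S : Sylow 2 G, (S : Subgroup G) ≤ Subgroup.centralizer ({x} : Set G) := by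
  let P : Sylow 2 G := Sylow.nonempty.some
  have h2 : 2 ∣ Nat.card G := hx ▸ orderOf_dvd_natCard x
  have hPne : (P : Subgroup G) ≠ ⊥ := P.ne_bot_of_dvd_card h2
  have : Nontrivial (P : Subgroup G) := (Subgroup.nontrivial_iff_ne_bot _).2 hPne
  have hcn : Nontrivial (Subgroup.center (P : Subgroup G)) := P.2.center_nontrivial
  have hcp : IsPGroup 2 (Subgroup.center (P : Subgroup G)) := P.2.to_subgroup _
  have hdvd : 2 ∣ Nat.card (Subgroup.center (P : Subgroup G)) := by
    rcases hcp.card_eq_or_dvd with h1 | h1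
    · exact absurd h1 (Finite.one_lt_card (α := Subgroup.center (P : Subgroup G))).ne'
    · exact h1
  obtain ⟨z₀, hz₀⟩ := exists_prime_orderOf_dvd_card' 2 hdvd
  have hz : orderOf ((z₀ : (P : Subgroup G)) : G) = 2 := by
    rw [Subgroup.orderOf_coe, Subgroup.orderOf_coe, hz₀]
  obtain ⟨g, hg⟩ := isConj_iff.1 (h _ hz).symm
  refine ⟨g • P, ?_⟩
  intro a ha
  rw [Sylow.coe_subgroup_smul, Subgroup.mem_smul_pointwise_iff_exists] at ha
  obtain ⟨b, hb, rfl⟩ := ha
  rw [Subgroup.mem_centralizer_singleton_iff, MulAut.smul_def, MulAut.conj_apply, ← hg]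
  have hcomm : b * ((z₀ : (P : Subgroup G)) : G) = ((z₀ : (P : Subgroup G)) : G) * b := by
    have := Subgroup.mem_center_iff.1 z₀.2 ⟨b, hb⟩
    exact congrArg Subtype.val this
  calc g * b * g⁻¹ * (g * ((z₀ : (P : Subgroup G)) : G) * g⁻¹)
      = g * (b * ((z₀ : (P : Subgroup G)) : G)) * g⁻¹ := by group
    _ = g * (((z₀ : (P : Subgroup G)) : G) * b) * g⁻¹ := by rw [hcomm]
    _ = g * ((z₀ : (P : Subgroup G)) : G) * g⁻¹ * (g * b * g⁻¹) := by group

theorem three_of_card [Finite G] {x y : G} (hx : orderOf x = 2)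
    (h3 : Nat.card {u : ↥(Subgroup.centralizer ({x} : Set G)) // orderOf u = 2} ≤ 3)
    (hy : orderOf y = 2) (hyx : Commute y x) (hne : y ≠ x) : Three x y := by
  have hx2 := mul_self_of_orderOf hx
  have hy2 := mul_self_of_orderOf hy
  have hw2 : x * y * (x * y) = 1 := by
    calc x * y * (x * y) = x * (y * x) * y := by group
      _ = x * (x * y) * y := by rw [hyx.eq]
      _ = (x * x) * (y * y) := by group
      _ = 1 := by rw [hx2, hy2, one_mul]
  have hw1 : x * y ≠ 1 := by
    intro h1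
    apply hne
    calc y = (x * x) * y := by rw [hx2, one_mul]
      _ = x * (x * y) := by group
      _ = x := by rw [h1, mul_one]
  have hw : orderOf (x * y) = 2 := orderOf_eq_two hw2 hw1
  have hwx : Commute (x * y) x := (Commute.refl x).mul_left hyx
  refine ⟨hx, hy, hyx.symm, hne.symm, ?_⟩
  intro v hv hvx
  by_contra hcon
  push Not at hcon
  obtain ⟨c1, c2, c3⟩ := hcon
  let mk : (a : G) → orderOf a = 2 → Commute a x →
      {u : ↥(Subgroup.centralizer ({x} : Set G)) // orderOf u = 2} := fun a ha hax =>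
    ⟨⟨a, Subgroup.mem_centralizer_singleton_iff.2 hax.eq⟩, by rw [Subgroup.orderOf_mk]; exact ha⟩
  let f : Fin 4 → {u : ↥(Subgroup.centralizer ({x} : Set G)) // orderOf u = 2} :=
    ![mk x hx (Commute.refl x), mk y hy hyx, mk (x * y) hw hwx, mk v hv hvx]
  have hval : ∀ i, (((f i : ↥(Subgroup.centralizer ({x} : Set G))) : G)) = ![x, y, x * y, v] i := by
    intro i
    fin_cases i <;> rfl
  have hxw : x ≠ x * y := by
    intro e
    apply ne_one_of_orderOf hy
    calc y = (x * x) * y := by rw [hx2, one_mul]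
      _ = x * (x * y) := by group
      _ = x * x := by rw [← e]
      _ = 1 := hx2
  have hyw : y ≠ x * y := by
    intro e
    apply ne_one_of_orderOf hx
    calc x = (x * y) * y⁻¹ := by group
      _ = y * y⁻¹ := by rw [← e]
      _ = 1 := by group
  have hx1 : x ≠ 1 := ne_one_of_orderOf hx
  have hy1 : y ≠ 1 := ne_one_of_orderOf hy
  have hinj : Function.Injective f := by
    intro i j hij
    have h1 : ![x, y, x * y, v] i = ![x, y, x * y, v] j := by
      rw [← hval i, ← hval j, hij]
    fin_cases i <;> fin_cases j <;> first | rfl | (exfalso; simp at h1; tauto)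
  have := Nat.card_le_card_of_injective f hinj
  rw [Nat.card_fin] at this
  omega

/-- Let G be a finite simple group and x an involution of G whose centralizer contains at most three involutions. Then C_G(x) contains a Sylow 2-subgroup of G, and all involutions of G are conjugate. -/
theorem result {G : Type*} [Group G] [Finite G] [IsSimpleGroup G] (x : G) (hx : orderOf x = 2)
    (h3 : Nat.card {u : ↥(Subgroup.centralizer ({x} : Set G)) // orderOf u = 2} ≤ 3) :
    (∃ S : Sylow 2 G, (S : Subgroup G) ≤ Subgroup.centralizer ({x} : Set G)) ∧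
      ∀ u v : G, orderOf u = 2 → orderOf v = 2 → IsConj u v := by
  have hall : ∀ t : G, orderOf t = 2 → IsConj x t := by
    by_cases hy : ∃ y, orderOf y = 2 ∧ Commute y x ∧ y ≠ x
    · obtain ⟨y, hy, hyx, hne⟩ := hy
      have h := three_of_card hx h3 hy hyx hne
      by_cases h1 : IsConj x y
      · by_cases h2 : IsConj x (x * y)
        · intro t ht
          exact case2a h h1 h2 ht
        · exfalso
          have h' := h.swap
          have h1' : IsConj x (x * (x * y)) := by rw [h.mul_mul]; exact h1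
          exact case2b h' h2 h1'
      · by_cases h2 : IsConj x (x * y)
        · exact (case2b h h1 h2).elim
        · exfalso
          by_cases h4 : IsConj y (x * y)
          · obtain ⟨s, hs⟩ := isConj_iff.1 h4
            obtain ⟨H, hH2, hwH⟩ := caseB h h1 h2 hs
            have hn : H.Normal := Subgroup.normal_of_index_eq_two hH2
            rcases hn.eq_bot_or_eq_top with e | e
            · rw [e, Subgroup.mem_bot] at hwH
              exact ne_one_of_orderOf h.orderOf_mul hwH
            · rw [e, Subgroup.index_top] at hH2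
              omega
          · exact caseA h h1 h2 h4
    · push Not at hy
      intro t ht
      exact case1 hx (fun v hv hvx => by_contra fun hne => hne (hy v hv hvx)) ht
  exact ⟨sylow_part hx hall, fun u v hu hv => (hall u hu).symm.trans (hall v hv)⟩

end Cfsg.Agent.S3279
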