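import Cfsg.Statements.S3299
import Cfsg.Agent.Lib.Helper92Transfer3
import Cfsg.Agent.Lib.Helper92ES

set_option autoImplicit false
open Cfsg

namespace Cfsg.Agent.S3299

open Cfsg.Agent.Lib.Helper92Basic Cfsg.Agent.Lib.Helper92ES Cfsg.Agent.Lib.Helper92Transfer3

/-- A homomorphism to `ℤˣ` with prescribed kernel of index 2. -/
theorem exists_hom_of_index_two {H : Type*} [Group H] (K : Subgroup H) (hK : K.index = 2) :
    ∃ ψ : H →* ℤˣ, ∀ h, ψ h = 1 ↔ h ∈ K := by
  have : Fact (Nat.Prime 2) := ⟨Nat.prime_two⟩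
  have := Subgroup.normal_of_index_eq_two hK
  have hcard : Nat.card (H ⧸ K) = 2 := hK
  have hcard' : Nat.card ℤˣ = 2 := by simp
  let e := mulEquivOfPrimeCardEq hcard hcard'
  refine ⟨e.toMonoidHom.comp (QuotientGroup.mk' K), ?_⟩
  intro h
  change e (QuotientGroup.mk' K h) = 1 ↔ _
  rw [EmbeddingLike.map_eq_one_iff]
  exact QuotientGroup.eq_one_iff h

theorem hom_trivial_of_pResidual {G : Type*} [Group G] [Finite G] (hres : Cfsg.pResidual 2 G = ⊤)
    (ψ : G →* ℤˣ) (x : G) : ψ x = 1 := by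
  have hle : Cfsg.pResidual 2 G ≤ ψ.ker := by
    unfold Cfsg.pResidual
    rw [Subgroup.closure_le]
    intro g hg
    rw [SetLike.mem_coe, MonoidHom.mem_ker]
    have hodd : Odd (orderOf g) := (Nat.coprime_two_right).mp hg
    rcases Int.units_eq_one_or (ψ g) with h | h
    · exact h
    · exfalso
      have h1 : ψ g ^ orderOf g = 1 := by rw [← map_pow, pow_orderOf_eq_one, map_one]
      rw [h, hodd.neg_one_pow] at h1
      exact absurd h1 (by decide)
  have : x ∈ ψ.ker := hle (by rw [hres]; trivial)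
  exact this

/-- The core of the argument in elementwise form. -/
theorem core {G : Type*} [Group G] [Finite G] (z : G) (E K H : Subgroup G)
    (memH : ∀ x, x ∈ H ↔ x * z = z * x) (hES : ES E z) (hEH : E ≤ H) (hcard : 8 < Nat.card E)
    (hE2 : IsPGroup 2 E)
    (ψ : H →* ℤˣ) (hψ : ∀ h : H, ψ h = 1 ↔ (h : G) ∈ K)
    (hV : ∀ (ψ' : G →* ℤˣ) (x : G), ψ' x = 1) : E ≤ K := by
  have : Fact (Nat.Prime 2) := ⟨Nat.prime_two⟩
  have hzz := hES.zz
  have hz1 := hES.z1
  -- basic properties of K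
  have hψK : ∀ a (ha : a ∈ H), ψ ⟨a, ha⟩ = 1 ↔ a ∈ K := fun a ha => hψ ⟨a, ha⟩
  have hKmul : ∀ a ∈ H, ∀ b ∈ H, a ∉ K → b ∉ K → a * b ∈ K := by
    intro a ha b hb haK hbK
    rw [← hψK _ (H.mul_mem ha hb)]
    have e : (⟨a * b, H.mul_mem ha hb⟩ : H) = ⟨a, ha⟩ * ⟨b, hb⟩ := rfl
    rw [e, map_mul]
    rcases Int.units_eq_one_or (ψ ⟨a, ha⟩) with h1 | h1
    · exact absurd ((hψK a ha).mp h1) haK
    · rcases Int.units_eq_one_or (ψ ⟨b, hb⟩) with h2 | h2
      · exact absurd ((hψK b hb).mp h2) hbK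
      · rw [h1, h2]; decide
  have hKcomm : ∀ a ∈ H, ∀ b ∈ H, a * b * a⁻¹ * b⁻¹ ∈ K := by
    intro a ha b hb
    have hm : a * b * a⁻¹ * b⁻¹ ∈ H :=
      H.mul_mem (H.mul_mem (H.mul_mem ha hb) (H.inv_mem ha)) (H.inv_mem hb)
    rw [← hψK _ hm]
    have e : (⟨a * b * a⁻¹ * b⁻¹, hm⟩ : H) = ⟨a, ha⟩ * ⟨b, hb⟩ * ⟨a, ha⟩⁻¹ * ⟨b, hb⟩⁻¹ := rfl
    rw [e, map_mul, map_mul, map_mul, map_inv, map_inv, mul_comm (ψ ⟨a, ha⟩), mul_assoc (ψ ⟨b, hb⟩),
      mul_inv_cancel, mul_one, mul_inv_cancel]
  have hKconj : ∀ a ∈ H, ∀ b ∈ H, a * b * a⁻¹ ∈ K → b ∈ K := by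
    intro a ha b hb h
    have hm : a * b * a⁻¹ ∈ H := H.mul_mem (H.mul_mem ha hb) (H.inv_mem ha)
    rw [← hψK _ hm] at h
    have e : (⟨a * b * a⁻¹, hm⟩ : H) = ⟨a, ha⟩ * ⟨b, hb⟩ * ⟨a, ha⟩⁻¹ := rfl
    rw [e, map_mul, map_mul, map_inv, mul_comm (ψ ⟨a, ha⟩), mul_assoc, mul_inv_cancel, mul_one] at h
    exact (hψK b hb).mp h
  have h1K : (1 : G) ∈ K := by
    rw [← hψK 1 H.one_mem]
    exact map_one ψ
  have hzK : z ∈ K := by
    obtain ⟨p, hp, p', hp', -, -, hpp⟩ := hES.exists_comm_eq hES.zQ hcard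
    rw [← hpp]
    exact hKcomm p (hEH hp) p' (hEH hp')
  by_contra hEK
  obtain ⟨x, hxE, hxK⟩ := SetLike.not_le_iff_exists.mp hEK
  -- Step 3 : an involution of E outside K
  have step3 : ∃ t ∈ E, t * t = 1 ∧ t ∉ K := by
    by_contra hcon
    push Not at hcon
    have hxx : x * x = z := by
      rcases hES.sq x hxE with h | h
      · exact absurd (hcon x hxE h) hxK
      · exact h
    obtain ⟨p, hp, p', hp', hpx, hp'x, hpp⟩ := hES.exists_comm_eq hxE hcard
    have hA : ∀ c ∈ E, c * x = x * c → c ∈ K → c * c = 1 := by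
      intro c hc hcx hcK
      rcases hES.sq c hc with h | h
      · exact h
      · exfalso
        have h1 : (x * c) * (x * c) = 1 := by
          calc x * c * (x * c) = x * (c * x) * c := by group
            _ = x * (x * c) * c := by rw [hcx]
            _ = (x * x) * (c * c) := by group
            _ = 1 := by rw [hxx, h, hzz]
        have h2 := hcon _ (E.mul_mem hxE hc) h1
        apply hxK
        have h3 : x = (x * c) * c⁻¹ := by group
        rw [h3]
        exact K.mul_mem h2 (K.inv_mem hcK)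
    have hB : ∀ c ∈ E, c ∉ K → c * c = z := by
      intro c hc hcK
      rcases hES.sq c hc with h | h
      · exact absurd (hcon c hc h) hcK
      · exact h
    have hform : (p * p') * (p * p') = z * p' * (p * p) * p' := by
      calc (p * p') * (p * p') = (p * p' * p⁻¹ * p'⁻¹) * p' * (p * p) * p' := by group
        _ = z * p' * (p * p) * p' := by rw [hpp]
    have hpp'x : (p * p') * x = x * (p * p') := by
      rw [mul_assoc, hp'x, ← mul_assoc, hpx, mul_assoc]
    have hpp'E : p * p' ∈ E := E.mul_mem hp hp'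
    by_cases hpK : p ∈ K
    · have e1 := hA p hp hpx hpK
      rw [e1, mul_one, mul_assoc z p' p'] at hform
      by_cases hp'K : p' ∈ K
      · have e2 := hA p' hp' hp'x hp'K
        have e3 := hA _ hpp'E hpp'x (K.mul_mem hpK hp'K)
        rw [e2, e3, mul_one] at hform
        exact hz1 hform.symm
      · have e2 := hB p' hp' hp'K
        have h4 : p * p' ∉ K := by
          intro h5
          apply hp'K
          have : p' = p⁻¹ * (p * p') := by group
          rw [this]; exact K.mul_mem (K.inv_mem hpK) h5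
        have e3 := hB _ hpp'E h4
        rw [e2, e3, hzz] at hform
        exact hz1 hform
    · have e1 := hB p hp hpK
      have e4 : z * p' * z * p' = p' * p' := by
        calc z * p' * z * p' = z * (p' * z) * p' := by group
          _ = z * (z * p') * p' := by rw [hES.zc p' hp']
          _ = (z * z) * (p' * p') := by group
          _ = p' * p' := by rw [hzz, one_mul]
      rw [e1, e4] at hform
      by_cases hp'K : p' ∈ K
      · have e2 := hA p' hp' hp'x hp'K
        have h4 : p * p' ∉ K := by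
          intro h5
          apply hpK
          have : p = (p * p') * p'⁻¹ := by group
          rw [this]; exact K.mul_mem h5 (K.inv_mem hp'K)
        have e3 := hB _ hpp'E h4
        rw [e2, e3] at hform
        exact hz1 hform
      · have e2 := hB p' hp' hp'K
        have e3 := hA _ hpp'E hpp'x (hKmul p (hEH hp) p' (hEH hp') hpK hp'K)
        rw [e2, e3] at hform
        exact hz1 hform.symm
  obtain ⟨t, htE, htt, htK⟩ := step3
  have ht1 : t ≠ 1 := by rintro rfl; exact htK h1K
  have htz : t ≠ z := by rintro rfl; exact htK hzK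
  have htinv : t⁻¹ = t := inv_eq_of_mul_eq_one_left htt
  have hzt : t * z = z * t := hES.zc t htE
  -- Sylow subgroup
  obtain ⟨S, hES'⟩ := hE2.exists_le_sylow
  have hSz : ∀ s ∈ S, s * z = z * s := by
    have : Nontrivial (S : Subgroup G) := ⟨⟨⟨z, hES' hES.zQ⟩, 1, fun h => hz1 (congrArg Subtype.val h)⟩⟩
    have hnt := S.2.center_nontrivial
    obtain ⟨⟨c, hc⟩, hc1⟩ := exists_ne (1 : Subgroup.center (S : Subgroup G))
    have hc' := Subgroup.mem_center_iff.mp hc
    have h2 : (c : G) = 1 ∨ (c : G) = z := by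
      apply hES.cent
      intro q hq
      exact congrArg Subtype.val (hc' ⟨q, hES' hq⟩)
    have h3 : (c : G) = z := by
      rcases h2 with h | h
      · exfalso; apply hc1
        apply Subtype.ext; apply Subtype.ext; exact h
      · exact h
    intro s hs
    rw [← h3]
    exact congrArg Subtype.val (hc' ⟨s, hs⟩)
  have hSH : (S : Subgroup G) ≤ H := fun s hs => (memH s).mpr (hSz s hs)
  let φ : (S : Subgroup G) →* ℤˣ := ψ.comp (Subgroup.inclusion hSH)
  have hφK : ∀ a (ha : a ∈ (S : Subgroup G)), φ ⟨a, ha⟩ = 1 ↔ a ∈ K := fun a ha => hψK a (hSH ha)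
  have hodd : Odd (S : Subgroup G).index := by
    rw [← Nat.not_even_iff_odd, even_iff_two_dvd]
    exact S.not_dvd_index
  have htS : t ∈ (S : Subgroup G) := hES' htE
  have hσ : φ ⟨t, htS⟩ ≠ 1 := fun h => htK ((hφK t htS).mp h)
  obtain ⟨g, ⟨hsS, hsφ⟩, hgC⟩ := thompson_extremal (S : Subgroup G) S.2 hodd φ t htS htt
    (by
      intro h
      rcases Int.units_eq_one_or (φ h) with h1 | h1
      · left; exact h1
      · right; rw [h1]
        rcases Int.units_eq_one_or (φ ⟨t, htS⟩) with h2 | h2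
        · exact absurd h2 hσ
        · exact h2.symm)
    hσ (hV _ _)
  have hsK : g⁻¹ * t * g ∈ K := (hφK _ hsS).mp hsφ
  -- Step 5
  set c := g * z * g⁻¹ with hc
  have hcX : ∀ x ∈ E, x * t = t * x → x * c = c * x := by
    intro x hx hxt
    have h1 := hSz _ (hgC x (hES' hx) hxt)
    calc x * c = g * ((g⁻¹ * x * g) * z) * g⁻¹ := by rw [hc]; group
      _ = g * (z * (g⁻¹ * x * g)) * g⁻¹ := by rw [h1]
      _ = c * x := by rw [hc]; group
  have hcz : c * z = z * c := (hcX z hES.zQ hzt.symm).symm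
  have hczc : c * z * c⁻¹ = z := by rw [hcz]; group
  have hESb := hES.conj g
  have hc1 : c ≠ 1 := hESb.z1
  have hcc : c * c = 1 := hESb.zz
  obtain ⟨y, hyE, hyt⟩ := hES.exists_conj htE ht1 htz
  have hyz : y * z = z * y := hES.zc y hyE
  have hcy : c * y * c⁻¹ ∈ E := hES.norm c hcz y hyE
  set k := y⁻¹ * (c * y * c⁻¹) with hk
  have hkE : k ∈ E := E.mul_mem (E.inv_mem hyE) hcy
  have hcyk : c * y * c⁻¹ = y * k := by rw [hk]; group
  have hkX : ∀ p ∈ E, p * t = t * p → p * k = k * p := by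
    intro p hp hpt
    have hpc := hcX p hp hpt
    have key : p * k * p⁻¹ = (p * y * p⁻¹)⁻¹ * (c * (p * y * p⁻¹) * c⁻¹) := by
      calc p * k * p⁻¹ = (p * y * p⁻¹)⁻¹ * ((p * c) * y * (p * c)⁻¹) := by rw [hk]; group
        _ = (p * y * p⁻¹)⁻¹ * ((c * p) * y * (c * p)⁻¹) := by rw [hpc]
        _ = _ := by group
    have key2 : p * k * p⁻¹ = k := by
      rcases hES.conj_cases hp hyE with h1 | h1
      · rw [key, h1]
      · rw [key, h1]
        calc (y * z)⁻¹ * (c * (y * z) * c⁻¹) = z⁻¹ * (y⁻¹ * (c * y * c⁻¹)) * (c * z * c⁻¹) := by group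
          _ = z⁻¹ * (k * z) := by rw [hczc, ← hk]; group
          _ = z⁻¹ * (z * k) := by rw [hES.zc k hkE]
          _ = k := by group
    calc p * k = (p * k * p⁻¹) * p := by group
      _ = k * p := by rw [key2]
  have hyt' : y⁻¹ * t * y = t * z := by
    calc y⁻¹ * t * y = y⁻¹ * (t * (z * z)) * y := by rw [hzz, mul_one]
      _ = y⁻¹ * ((t * z) * z) * y := by group
      _ = y⁻¹ * ((y * t * y⁻¹) * z) * y := by rw [hyt]
      _ = t * y⁻¹ * (z * y) := by group
      _ = t * y⁻¹ * (y * z) := by rw [hyz]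
      _ = t * z := by group
  have hsq : (y * k) * (y * k) = y * y := by
    rw [← hcyk]
    calc c * y * c⁻¹ * (c * y * c⁻¹) = c * (y * y) * c⁻¹ := by group
      _ = y * y := by
        rcases hES.sq y hyE with h | h
        · rw [h]; group
        · rw [h]; exact hczc
  have hdecomp : ∀ e ∈ E, e * t = t * e ∨ (y⁻¹ * e) * t = t * (y⁻¹ * e) := by
    intro e he
    rcases hES.conj_cases he htE with h1 | h1
    · left
      calc e * t = (e * t * e⁻¹) * e := by group
        _ = t * e := by rw [h1]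
    · right
      calc y⁻¹ * e * t = y⁻¹ * (e * t * e⁻¹) * e := by group
        _ = y⁻¹ * (t * z) * e := by rw [h1]
        _ = (y⁻¹ * t * y) * y⁻¹ * z * e := by group
        _ = t * z * y⁻¹ * z * e := by rw [hyt']
        _ = t * (z * y⁻¹) * z * e := by group
        _ = t * (y⁻¹ * z) * z * e := by rw [hES.zc _ (E.inv_mem hyE)]
        _ = t * y⁻¹ * (z * z) * e := by group
        _ = t * (y⁻¹ * e) := by rw [hzz]; group
  have hcent_of : ∀ d : G, (∀ x ∈ E, x * t = t * x → x * d = d * x) → y * d = d * y →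
      d = 1 ∨ d = z := by
    intro d hd hyd
    apply hES.cent
    intro q hq
    rcases hdecomp q hq with h | h
    · exact hd q hq h
    · have h1 := hd _ (E.mul_mem (E.inv_mem hyE) hq) h
      calc q * d = y * ((y⁻¹ * q) * d) := by group
        _ = y * (d * (y⁻¹ * q)) := by rw [h1]
        _ = (y * d) * (y⁻¹ * q) := by group
        _ = (d * y) * (y⁻¹ * q) := by rw [hyd]
        _ = d * q := by group
  have hc_cases : c = t ∨ c = t * z := by
    rcases hES.double_cent htE hkE hkX with h | h | h | h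
    · -- k = 1
      exfalso
      rw [h, mul_one] at hcyk
      have hyc : y * c = c * y := by
        calc y * c = (c * y * c⁻¹) * c := by rw [hcyk]
          _ = c * y := by group
      rcases hcent_of c hcX hyc with h1 | h1
      · exact hc1 h1
      · have hgH : g ∈ H := by
          rw [memH]
          calc g * z = (g * z * g⁻¹) * g := by group
            _ = z * g := by rw [← hc, h1]
        apply htK
        apply hKconj g⁻¹ (H.inv_mem hgH) t (hEH htE)
        simpa using hsK
    · -- k = z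
      rw [h] at hcyk
      have hty : t * y * t⁻¹ = y * z := by
        apply hES.conj_eq_of_not_comm htE hyE
        intro hcomm
        apply hz1
        have : y * t * y⁻¹ = t := by rw [← hcomm]; group
        rw [this] at hyt
        calc z = t⁻¹ * (t * z) := by group
          _ = 1 := by rw [← hyt]; group
      have h2 : y * (t * c) = (t * c) * y := by
        have h3 : (t * c) * y * (t * c)⁻¹ = y := by
          calc (t * c) * y * (t * c)⁻¹ = t * (c * y * c⁻¹) * t⁻¹ := by group
            _ = t * (y * z) * t⁻¹ := by rw [hcyk]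
            _ = (t * y * t⁻¹) * (t * z) * t⁻¹ := by group
            _ = (y * z) * (z * t) * t⁻¹ := by rw [hty, hzt]
            _ = y * (z * z) := by group
            _ = y := by rw [hzz, mul_one]
        calc y * (t * c) = ((t * c) * y * (t * c)⁻¹) * (t * c) := by rw [h3]
          _ = (t * c) * y := by group
      have h4 : ∀ x ∈ E, x * t = t * x → x * (t * c) = (t * c) * x := by
        intro x hx hxt
        calc x * (t * c) = (x * t) * c := by group
          _ = (t * x) * c := by rw [hxt]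
          _ = t * (x * c) := by group
          _ = t * (c * x) := by rw [hcX x hx hxt]
          _ = (t * c) * x := by group
      rcases hcent_of (t * c) h4 h2 with h1 | h1
      · left
        calc c = (t * t) * c := by rw [htt, one_mul]
          _ = t * (t * c) := by group
          _ = t := by rw [h1, mul_one]
      · right
        calc c = (t * t) * c := by rw [htt, one_mul]
          _ = t * (t * c) := by group
          _ = t * z := by rw [h1]
    · -- k = t
      exfalso
      apply hz1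
      rw [h] at hsq
      have h5 : (y * t) * (y * t) = y * y * z := by
        calc (y * t) * (y * t) = y * y * (y⁻¹ * t * y) * t := by group
          _ = y * y * (t * z) * t := by rw [hyt']
          _ = y * y * t * (z * t) := by group
          _ = y * y * t * (t * z) := by rw [hzt]
          _ = y * y * (t * t) * z := by group
          _ = y * y * z := by rw [htt, mul_one]
      rw [h5] at hsq
      exact mul_eq_left.mp hsq
    · -- k = t * z
      exfalso
      apply hz1
      rw [h] at hsq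
      have h5 : (y * (t * z)) * (y * (t * z)) = y * y * z := by
        calc (y * (t * z)) * (y * (t * z)) = y * y * (y⁻¹ * t * y) * y⁻¹ * (z * y) * t * z := by group
          _ = y * y * (t * z) * y⁻¹ * (y * z) * t * z := by rw [hyt', hyz]
          _ = y * y * t * (z * z) * t * z := by group
          _ = y * y * (t * t) * z := by rw [hzz]; group
          _ = y * y * z := by rw [htt, mul_one]
      rw [h5] at hsq
      exact mul_eq_left.mp hsq
  have hcE : c ∈ E := by
    rcases hc_cases with h | h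
    · rw [h]; exact htE
    · rw [h]; exact E.mul_mem htE hES.zQ
  have hcK : c ∉ K := by
    rcases hc_cases with h | h
    · rw [h]; exact htK
    · rw [h]
      intro h1
      apply htK
      have : t = (t * z) * z⁻¹ := by group
      rw [this]; exact K.mul_mem h1 (K.inv_mem hzK)
  have hcz' : c ≠ z := by
    intro h; apply hcK; rw [h]; exact hzK
  -- Step 6
  have hzmem := z_mem_conj hES g hcE hcz' hcard
  obtain ⟨y', hy', hy'z⟩ := hESb.exists_conj hzmem hz1 (Ne.symm hcz')
  obtain ⟨y₁, hy₁, hy₁c⟩ := hES.exists_conj hcE hc1 hcz'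
  have hy'c : y' * c = c * y' := hESb.zc y' hy'
  have hy₁z : y₁ * z = z * y₁ := hES.zc y₁ hy₁
  have hy₁c' : y₁⁻¹ * c * y₁ = c * z := by
    calc y₁⁻¹ * c * y₁ = y₁⁻¹ * (c * (z * z)) * y₁ := by rw [hzz, mul_one]
      _ = y₁⁻¹ * ((c * z) * z) * y₁ := by group
      _ = y₁⁻¹ * ((y₁ * c * y₁⁻¹) * z) * y₁ := by rw [hy₁c]
      _ = c * y₁⁻¹ * (z * y₁) := by group
      _ = c * y₁⁻¹ * (y₁ * z) := by rw [hy₁z]
      _ = c * z := by group
  set b := y₁ * y' * y₁⁻¹ with hb
  have hbz : b * z * b⁻¹ = c := by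
    calc b * z * b⁻¹ = y₁ * y' * y₁⁻¹ * (z * y₁) * y'⁻¹ * y₁⁻¹ := by rw [hb]; group
      _ = y₁ * y' * y₁⁻¹ * (y₁ * z) * y'⁻¹ * y₁⁻¹ := by rw [hy₁z]
      _ = y₁ * (y' * z * y'⁻¹) * y₁⁻¹ := by group
      _ = y₁ * (z * c) * y₁⁻¹ := by rw [hy'z]
      _ = (y₁ * z) * y₁⁻¹ * (y₁ * c * y₁⁻¹) := by group
      _ = (z * y₁) * y₁⁻¹ * (c * z) := by rw [hy₁z, hy₁c]
      _ = (z * c) * z := by group
      _ = (c * z) * z := by rw [hcz]
      _ = c * (z * z) := by group
      _ = c := by rw [hzz, mul_one]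
  have hbc : b * c * b⁻¹ = z := by
    calc b * c * b⁻¹ = y₁ * y' * (y₁⁻¹ * c * y₁) * y'⁻¹ * y₁⁻¹ := by rw [hb]; group
      _ = y₁ * y' * (c * z) * y'⁻¹ * y₁⁻¹ := by rw [hy₁c']
      _ = y₁ * (y' * c) * y'⁻¹ * (y' * z * y'⁻¹) * y₁⁻¹ := by group
      _ = y₁ * (c * y') * y'⁻¹ * (z * c) * y₁⁻¹ := by rw [hy'c, hy'z]
      _ = y₁ * (c * z) * c * y₁⁻¹ := by group
      _ = y₁ * (z * c) * c * y₁⁻¹ := by rw [hcz]
      _ = y₁ * z * (c * c) * y₁⁻¹ := by group
      _ = (y₁ * z) * y₁⁻¹ := by rw [hcc, mul_one]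
      _ = (z * y₁) * y₁⁻¹ := by rw [hy₁z]
      _ = z := by group
  obtain ⟨p, hp, p', hp', hpc, hp'c, hpp⟩ := hES.exists_comm_eq hcE hcard
  have hmemH : ∀ q : G, q * c = c * q → b⁻¹ * q * b ∈ H := by
    intro q hq
    rw [memH]
    calc b⁻¹ * q * b * z = b⁻¹ * (q * (b * z * b⁻¹)) * b := by group
      _ = b⁻¹ * (q * c) * b := by rw [hbz]
      _ = b⁻¹ * (c * q) * b := by rw [hq]
      _ = b⁻¹ * ((b * z * b⁻¹) * q) * b := by rw [hbz]
      _ = z * (b⁻¹ * q * b) := by group
  have hfin := hKcomm _ (hmemH p hpc) _ (hmemH p' hp'c)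
  apply hcK
  have e : b⁻¹ * p * b * (b⁻¹ * p' * b) * (b⁻¹ * p * b)⁻¹ * (b⁻¹ * p' * b)⁻¹ = c := by
    calc b⁻¹ * p * b * (b⁻¹ * p' * b) * (b⁻¹ * p * b)⁻¹ * (b⁻¹ * p' * b)⁻¹
        = b⁻¹ * (p * p' * p⁻¹ * p'⁻¹) * b := by group
      _ = b⁻¹ * z * b := by rw [hpp]
      _ = b⁻¹ * (b * c * b⁻¹) * b := by rw [hbc]
      _ = c := by group
  rw [← e]
  exact hfin

/-- Let G be a finite group with no nontrivial 2-group quotient (O^2(G) = G), z an involution of G with H = C_G(z), and suppose E = O_2(H) is extraspecial with C_G(E) ≤ E and of order 2^(2n+1) with n ≥ 2. Then E is contained in every normal subgroup of H of index 2. -/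
theorem result {G : Type*} [Group G] [Finite G] (hres : Cfsg.pResidual 2 G = ⊤) (z : G) (hz : orderOf z = 2)
    (E : Subgroup G) (hE : E = (Cfsg.pCore 2 ↥(Subgroup.centralizer ({z} : Set G))).map (Subgroup.centralizer ({z} : Set G)).subtype)
    (hext : Cfsg.IsExtraspecial 2 ↥E) (hcent : Subgroup.centralizer (E : Set G) ≤ E) (n : ℕ) (hn : 2 ≤ n) (hcard : Nat.card ↥E = 2 ^ (2 * n + 1))
    (K : Subgroup G) (hKH : K ≤ Subgroup.centralizer ({z} : Set G))
    (hKn : ∀ h ∈ Subgroup.centralizer ({z} : Set G), K.map (MulAut.conj h).toMonoidHom = K)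
    (hKi : K.relIndex (Subgroup.centralizer ({z} : Set G)) = 2) : E ≤ K := by
  have : Fact (Nat.Prime 2) := ⟨Nat.prime_two⟩
  set H := Subgroup.centralizer ({z} : Set G) with hH
  have memH : ∀ x, x ∈ H ↔ x * z = z * x := fun x => Subgroup.mem_centralizer_singleton_iff
  have hzz : z * z = 1 := by rw [← pow_two, ← hz]; exact pow_orderOf_eq_one z
  have hz1 : z ≠ 1 := by rintro rfl; simp at hz
  have hzH : z ∈ H := (memH z).mpr rfl
  have hEH : E ≤ H := by rw [hE]; exact Subgroup.map_subtype_le _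
  have hEn : ∀ h ∈ H, ∀ x ∈ E, h * x * h⁻¹ ∈ E := by
    intro h hh x hx
    rw [hE] at hx ⊢
    obtain ⟨y, hy, rfl⟩ := hx
    exact ⟨⟨h, hh⟩ * y * ⟨h, hh⟩⁻¹, (pCore_normal 2 H).conj_mem y hy _, rfl⟩
  have hzE : z ∈ E := by
    have hN : (Subgroup.zpowers (⟨z, hzH⟩ : H)).Normal := by
      constructor
      intro n hn g
      have h1 : g * n * g⁻¹ = n := by
        obtain ⟨k, rfl⟩ := Subgroup.mem_zpowers_iff.mp hn
        have hc : Commute g (⟨z, hzH⟩ : H) := Subtype.ext ((memH g).mp g.2)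
        have h2 := (hc.zpow_right k).eq
        rw [h2]; group
      rw [h1]; exact hn
    have hp : IsPGroup 2 (Subgroup.zpowers (⟨z, hzH⟩ : H)) := by
      apply IsPGroup.of_card (n := 1)
      rw [Nat.card_zpowers, Subgroup.orderOf_mk, hz, pow_one]
    rw [hE]
    exact ⟨⟨z, hzH⟩, le_pCore hN hp (Subgroup.mem_zpowers _), rfl⟩
  have hzcen : z ∈ cen E := mem_cen_iff.mpr ⟨hzE, fun q hq => (memH q).mp (hEH hq)⟩
  have hL2 : Subgroup.centralizer (E : Set G) = cen E := by
    ext c
    rw [mem_cen_iff, Subgroup.mem_centralizer_iff]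
    constructor
    · intro h
      exact ⟨hcent (Subgroup.mem_centralizer_iff.mpr h), h⟩
    · intro h; exact h.2
  have hL3 : Subgroup.centralizer ((cen E : Subgroup G) : Set G) ≤ Subgroup.normalizer (E : Set G) := by
    intro c hc
    have hcH : c ∈ H := by
      rw [memH]
      exact ((Subgroup.mem_centralizer_iff.mp hc) z hzcen).symm
    apply Subgroup.mem_normalizer_fintype
    intro n hn
    exact hEn c hcH n hn
  obtain ⟨z₀, hES, hcen⟩ := exists_ES hext hL2 hL3
  have hzz₀ : z₀ = z := by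
    rcases (hcen z).mp hzcen with h | h
    · exact absurd h hz1
    · exact h.symm
  rw [hzz₀] at hES
  have hcard8 : 8 < Nat.card E := by
    rw [hcard]
    calc 8 < 2 ^ 5 := by norm_num
      _ ≤ 2 ^ (2 * n + 1) := Nat.pow_le_pow_right (by norm_num) (by omega)
  obtain ⟨ψ, hψ⟩ := exists_hom_of_index_two (K.subgroupOf H) hKi
  exact core z E K H memH hES hEH hcard8 hext.1.1 ψ
    (fun h => by rw [hψ, Subgroup.mem_subgroupOf])
    (fun ψ' x => hom_trivial_of_pResidual hres ψ' x)

end Cfsg.Agent.S3299
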