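import Cfsg.Statements.S3305
import Cfsg.Agent.Lib.Helper60Sylow

set_option autoImplicit false
open Cfsg

namespace Cfsg.Agent.S3305

open Cfsg.Agent.Lib.Helper60Sylow

/-- If any two distinct Sylow 2-subgroups of the finite group G intersect in a cyclic group, then the same holds in every quotient group G/H, H a normal subgroup of G. -/
theorem result {G : Type*} [Group G] [Finite G]
    (hC : ∀ S T : Sylow 2 G, S ≠ T → IsCyclic ↥((S : Subgroup G) ⊓ (T : Subgroup G))) (H : Subgroup G) [H.Normal] :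
    ∀ S T : Sylow 2 (G ⧸ H), S ≠ T → IsCyclic ↥((S : Subgroup (G ⧸ H)) ⊓ (T : Subgroup (G ⧸ H))) := by
  intro S T hST
  have hf : Function.Surjective (QuotientGroup.mk' H) := QuotientGroup.mk'_surjective H
  have hD : IsPGroup 2 ↥((S : Subgroup (G ⧸ H)) ⊓ (T : Subgroup (G ⧸ H))) :=
    S.2.to_le inf_le_left
  obtain ⟨R, hR, hRD⟩ := exists_pgroup_lift hf _ hD
  obtain ⟨S', hRS, hS'⟩ := exists_sylow_lift hf S R hR (hRD ▸ inf_le_left)
  obtain ⟨T', hRT, hT'⟩ := exists_sylow_lift hf T R hR (hRD ▸ inf_le_right)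
  have hne : S' ≠ T' := by
    rintro rfl
    exact hST (Sylow.ext (hS'.symm.trans hT'))
  have := hC S' T' hne
  have : IsCyclic R := isCyclic_of_le (le_inf hRS hRT)
  rw [← hRD]
  exact isCyclic_map _ R

end Cfsg.Agent.S3305
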