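import Cfsg.Statements.S3303
import Cfsg.Agent.Lib.Helper60Core
import Cfsg.Agent.Lib.Helper60Sylow
import Cfsg.Agent.S3305

set_option autoImplicit false
open Cfsg

namespace Cfsg.Agent.S3303

open Cfsg.Agent.Lib.Helper60Core Cfsg.Agent.Lib.Helper60Sylow

/-- A finite solvable group with trivial odd core in which distinct Sylow 2-subgroups meet in cyclic
groups has a normal Sylow 2-subgroup. -/
theorem aux {Q : Type*} [Group Q] [Finite Q] [Group.IsSolvable Q] (hO : pPrimeCore 2 Q = ⊥)
    (hC : ∀ S T : Sylow 2 Q, S ≠ T → IsCyclic ↥((S : Subgroup Q) ⊓ (T : Subgroup Q))) :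
    ∃ P : Sylow 2 Q, (P : Subgroup Q).Normal := by
  let P : Sylow 2 Q := Sylow.nonempty.some
  by_cases hsub : ∀ P' : Sylow 2 Q, P' = P
  · have : Subsingleton (Sylow 2 Q) := ⟨fun a b => (hsub a).trans (hsub b).symm⟩
    exact ⟨P, P.normal_of_subsingleton⟩
  · push Not at hsub
    obtain ⟨P', hP'⟩ := hsub
    have := hC P' P hP'
    have hle : pCore 2 Q ≤ (P' : Subgroup Q) ⊓ (P : Subgroup Q) :=
      le_inf ((pCore_isPGroup 2).le_sylow_of_normal P') ((pCore_isPGroup 2).le_sylow_of_normal P)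
    have hcyc : IsCyclic (pCore 2 Q) := isCyclic_of_le hle
    have h2 : IsPGroup 2 Q := isPGroup_of_isPGroup_mulAut (pCore 2 Q)
      (isPGroup_two_mulAut_of_isCyclic (pCore_isPGroup 2))
      ((pCore_isPGroup 2).to_le (centralizer_pCore_le hO))
    have htop : (⊤ : Subgroup Q) = P := P.is_maximal' (h2.to_subgroup ⊤) le_top
    exact ⟨P, htop ▸ inferInstance⟩

/-- Let G be a finite solvable group in which the intersection of any two distinct Sylow 2-subgroups is cyclic. Then G/O(G) has a normal Sylow 2-subgroup, where O(G) is the largest normal subgroup of odd order. -/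
theorem result {G : Type*} [Group G] [Finite G] (hs : Group.IsSolvable G)
    (hC : ∀ S T : Sylow 2 G, S ≠ T → IsCyclic ↥((S : Subgroup G) ⊓ (T : Subgroup G))) :
    ∃ P : Sylow 2 (G ⧸ Cfsg.oddCore G), (P : Subgroup (G ⧸ Cfsg.oddCore G)).Normal := by
  exact aux (pPrimeCore_quotient_eq_bot 2) (Cfsg.Agent.S3305.result hC (Cfsg.oddCore G))

end Cfsg.Agent.S3303
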