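import Cfsg.Statements.S3349

set_option autoImplicit false
open Cfsg

namespace Cfsg.Agent.S3349

/-- Let Q be a finite extraspecial p-group and α an automorphism of Q fixing every element of some maximal abelian subgroup of Q. Then the order of α is a power of p. -/
theorem result {Q : Type*} [Group Q] [Finite Q]
    (p : ℕ) [Fact p.Prime] (hQ : Cfsg.IsExtraspecial p Q) (α : MulAut Q)
    (A : Subgroup Q) (hA : IsMulCommutative A) (hmax : ∀ B : Subgroup Q, A ≤ B → IsMulCommutative B → B = A)
    (hfix : ∀ a ∈ A, α a = a) :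
    ∃ k : ℕ, orderOf α = p ^ k := by
  have hp : IsPGroup p Q := hQ.1.1
  have hcomm : commutator Q = Subgroup.center Q := hQ.1.2.2
  -- the centralizer of A lies in A
  have hCA : ∀ c : Q, (∀ a ∈ A, c * a = a * c) → c ∈ A := by
    intro c hc
    have hB : IsMulCommutative (Subgroup.closure ((A : Set Q) ∪ {c})) := by
      apply Subgroup.isMulCommutative_closure
      intro x hx y hy
      rcases hx with hx | hx <;> rcases hy with hy | hy
      · exact setLike_mul_comm hx hy
      · rw [Set.mem_singleton_iff.1 hy]; exact (hc x hx).symm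
      · rw [Set.mem_singleton_iff.1 hx]; exact hc y hy
      · rw [Set.mem_singleton_iff.1 hx, Set.mem_singleton_iff.1 hy]
    have hle : A ≤ Subgroup.closure ((A : Set Q) ∪ {c}) := fun a ha =>
      Subgroup.subset_closure (Or.inl ha)
    have := hmax _ hle hB
    rw [← this]
    exact Subgroup.subset_closure (Or.inr rfl)
  have hZA : Subgroup.center Q ≤ A := by
    intro c hc
    exact hCA c (fun a _ => ((Subgroup.mem_center_iff.1 hc) a).symm)
  -- A is normalised by Q
  have hnorm : ∀ q : Q, ∀ a ∈ A, q * a * q⁻¹ ∈ A := by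
    intro q a ha
    have h1 : q * a * q⁻¹ * a⁻¹ ∈ commutator Q := by
      rw [commutator_def]
      exact Subgroup.commutator_mem_commutator (Subgroup.mem_top q) (Subgroup.mem_top a)
    rw [hcomm] at h1
    have h2 := A.mul_mem (hZA h1) ha
    simpa using h2
  have hdiff : ∀ q : Q, q⁻¹ * α q ∈ A := by
    intro q
    apply hCA
    intro a ha
    have h1 := hfix _ (hnorm q a ha)
    rw [map_mul, map_mul, map_inv, hfix a ha] at h1
    -- α q * a * (α q)⁻¹ = q * a * q⁻¹
    have h2 : α q * a = q * a * q⁻¹ * α q := by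
      rw [← h1]; group
    calc q⁻¹ * α q * a = q⁻¹ * (α q * a) := by group
      _ = q⁻¹ * (q * a * q⁻¹ * α q) := by rw [h2]
      _ = a * (q⁻¹ * α q) := by group
  have hpow : ∀ (k : ℕ) (q : Q), (α ^ k) q = q * (q⁻¹ * α q) ^ k := by
    intro k
    induction k with
    | zero => intro q; simp
    | succ k ih =>
      intro q
      rw [pow_succ', MulAut.mul_apply, ih q, map_mul, map_pow, hfix _ (hdiff q), pow_succ',
        ← mul_assoc, mul_inv_cancel_left]
  have hone : α ^ (Nat.card A) = 1 := by
    ext q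
    rw [hpow]
    have h1 : (q⁻¹ * α q) ^ (Nat.card A) = 1 := by
      have := pow_card_eq_one' (G := A) (x := ⟨_, hdiff q⟩)
      exact congrArg Subtype.val this
    rw [h1]; simp
  have hdvd : orderOf α ∣ Nat.card A := orderOf_dvd_of_pow_eq_one hone
  obtain ⟨m, hm⟩ := (hp.to_subgroup A).exists_card_eq
  rw [hm] at hdvd
  obtain ⟨k, _, hk⟩ := (Nat.dvd_prime_pow (Fact.out : p.Prime)).1 hdvd
  exact ⟨k, hk⟩

end Cfsg.Agent.S3349
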