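import Cfsg.Statements.S3376
import Cfsg.Agent.Lib.Helper50W162G

set_option autoImplicit false
open Cfsg

namespace Cfsg.Agent.S3376



/-- Let G be a group of order 162 = 3⁴·2 with Sylow 3-subgroup S and Sylow 2-subgroup T, having an elementary abelian normal subgroup J of order 27, such that Z = Z(S) has order 3, Z centralizes T, and C_S(T) ≠ S. Then G is isomorphic to the centralizer in Sym(9) of a product of three disjoint 3-cycles. -/
theorem result {G : Type*} [Group G] [Finite G] (hG : Nat.card G = 162)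
    (S : Sylow 3 G) (T : Sylow 2 G) (J : Subgroup G) [hJn : J.Normal] (hJcomm : IsMulCommutative J)
    (hJexp : ∀ a ∈ J, a ^ 3 = 1) (hJcard : Nat.card J = 27)
    (Z : Subgroup G) (hZ : Z = (S : Subgroup G) ⊓ Subgroup.centralizer ((S : Subgroup G) : Set G)) (hZcard : Nat.card Z = 3)
    (hZT : Z ≤ Subgroup.centralizer ((T : Subgroup G) : Set G))
    (hST : (S : Subgroup G) ⊓ Subgroup.centralizer ((T : Subgroup G) : Set G) ≠ S) :
    Nonempty (G ≃* Subgroup.centralizer ({Equiv.swap (0 : Fin 9) 1 * Equiv.swap 1 2 * Equiv.swap 3 4 * Equiv.swap 4 5 * Equiv.swap 6 7 * Equiv.swap 7 8} : Set (Equiv.Perm (Fin 9)))) := by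
  classical
  obtain ⟨c, H, hc3, hcG, hcH, hHi, hcore⟩ := Cfsg.Agent.Lib.Helper50W162G.exists_H hG S T J hJcomm
    hJexp hJcard Z hZ hZcard hZT hST
  set σ0 : Equiv.Perm (Fin 9) := Equiv.swap (0 : Fin 9) 1 * Equiv.swap 1 2 * Equiv.swap 3 4 *
    Equiv.swap 4 5 * Equiv.swap 6 7 * Equiv.swap 7 8 with hσ0
  have hcard : Nat.card (G ⧸ H) = 9 := hHi
  let e : (G ⧸ H) ≃ Fin 9 := Finite.equivFinOfCardEq hcard
  let φ := MulAction.toPermHom G (G ⧸ H)
  have hφ : Function.Injective φ := by
    rw [← MonoidHom.ker_eq_bot_iff, ← Subgroup.normalCore_eq_ker]; exact hcore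
  let Φ : G →* Equiv.Perm (Fin 9) := (e.permCongrHom).toMonoidHom.comp φ
  have hΦ : Function.Injective Φ := (e.permCongrHom).injective.comp hφ
  have h9 : Fintype.card (Fin 9) = 9 := Fintype.card_fin 9
  have hτ3 : (Φ c) ^ 3 = 1 := by rw [← map_pow, hc3, map_one]
  have hτfix : ∀ i, Φ c i ≠ i := by
    intro i hi
    apply hcH
    have h1 : e (c • e.symm i) = i := hi
    have h2 : c • e.symm i = e.symm i := by
      apply e.injective; rw [h1]; simp
    generalize e.symm i = x at h2
    induction x using QuotientGroup.induction_on with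
    | H g =>
      rw [MulAction.Quotient.smul_mk, QuotientGroup.eq] at h2
      have h3 : (c • g)⁻¹ * g = c⁻¹ := by
        rw [smul_eq_mul, ← hcG g]; group
      rw [h3] at h2
      simpa using inv_mem h2
  have hct1 := Cfsg.Agent.Lib.Helper50W162.cycleType_333 h9 (Φ c) hτ3 hτfix
  have hct2 := Cfsg.Agent.Lib.Helper50W162.cycleType_333 h9 σ0 (by rw [hσ0]; decide)
    (by rw [hσ0]; decide)
  have hconj : IsConj (Φ c) σ0 := by
    rw [Equiv.Perm.isConj_iff_cycleType_eq, hct1, hct2]
  obtain ⟨u, hu⟩ := isConj_iff.1 hconj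
  let Φ' : G →* Equiv.Perm (Fin 9) := (MulAut.conj u).toMonoidHom.comp Φ
  have hΦ' : Function.Injective Φ' := (MulAut.conj u).injective.comp hΦ
  have hΦc : Φ' c = σ0 := hu
  have hle : Φ'.range ≤ Subgroup.centralizer ({σ0} : Set (Equiv.Perm (Fin 9))) := by
    rintro _ ⟨g, rfl⟩
    rw [Subgroup.mem_centralizer_iff]
    intro x hx
    rw [Set.mem_singleton_iff] at hx
    rw [hx, ← hΦc, ← map_mul, ← map_mul, hcG g]
  have hcr : Nat.card Φ'.range = 162 := by
    rw [← hG]; exact (Nat.card_congr (MonoidHom.ofInjective hΦ').toEquiv).symm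
  have heq : Φ'.range = Subgroup.centralizer ({σ0} : Set (Equiv.Perm (Fin 9))) :=
    Subgroup.eq_of_le_of_card_ge hle
      (by rw [hcr, Cfsg.Agent.Lib.Helper50W162.card_centralizer_333 h9 σ0 hct2])
  exact ⟨(MonoidHom.ofInjective hΦ').trans (MulEquiv.subgroupCongr heq)⟩

end Cfsg.Agent.S3376
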