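import Cfsg.Statements.S3389
import Mathlib

set_option autoImplicit false
open Cfsg

namespace Cfsg.Agent.S3389

open MulAction

variable {G : Type*} [Group G] [Finite G] {Ω : Type*} [Fintype Ω] [MulAction G Ω]

/-- fixed points of a subgroup containing `x` lie among the fixed points of `x`. -/
theorem card_fixedPoints_le (P : Subgroup G) (x : G) (hx : x ∈ P) :
    Nat.card (fixedPoints P Ω) ≤ Nat.card (fixedBy Ω x) := by
  apply Nat.card_mono (Set.toFinite _)
  intro ω hω
  exact hω ⟨x, hx⟩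

theorem pow_fix (g : G) (ω : Ω) (h : g • ω = ω) (m : ℕ) : g ^ m • ω = ω := by
  have hle : g ^ m ∈ stabilizer G ω := Subgroup.pow_mem _ h m
  exact hle

theorem center_part [FaithfulSMul G Ω] (htr : IsPretransitive G Ω) (g : G) :
    Nat.card (Subgroup.center G) ∣ Nat.card (fixedBy Ω g) := by
  let F : SubMulAction (Subgroup.center G) Ω :=
    { carrier := fixedBy Ω g
      smul_mem' := by
        intro z ω hω
        have hω' : g • ω = ω := hω
        show g • ((z : G) • ω) = (z : G) • ω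
        rw [← mul_smul, (Subgroup.mem_center_iff.mp z.2 g), mul_smul, hω'] }
  have hfree : ∀ b : F, stabilizer (Subgroup.center G) b = ⊥ := by
    intro b
    rw [eq_bot_iff]
    intro z hz
    have hz' : (z : G) • (b : Ω) = b := by
      exact congrArg Subtype.val (mem_stabilizer_iff.mp hz)
    rw [Subgroup.mem_bot]
    apply Subtype.ext
    apply FaithfulSMul.eq_of_smul_eq_smul (α := Ω)
    intro ω
    obtain ⟨h, rfl⟩ := htr.exists_smul_eq (b : Ω) ω
    show (z : G) • h • (b : Ω) = (1 : G) • h • (b : Ω)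
    rw [one_smul, ← mul_smul, ← (Subgroup.mem_center_iff.mp z.2 h), mul_smul, hz']
  have e := selfEquivOrbitsQuotientProd hfree
  have h1 : Nat.card F = Nat.card (Quotient (orbitRel (Subgroup.center G) F)) * Nat.card (Subgroup.center G) := by
    rw [Nat.card_congr e, Nat.card_prod]
  have h2 : Nat.card F = Nat.card (fixedBy Ω g) := rfl
  rw [← h2, h1]
  exact Dvd.intro_left _ rfl

theorem prime_part (htr : IsPretransitive G Ω) (k : ℕ)
    (hfix : ∀ g : G, g ≠ 1 → Nat.card (fixedBy Ω g) ≤ k)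
    (p : ℕ) (hp : p.Prime) (hkp : k < p) (α : Ω)
    (h1 : p ∣ Nat.card (stabilizer G α)) : ¬ p ∣ (stabilizer G α).index := by
  have : Fact p.Prime := ⟨hp⟩
  obtain ⟨x, hx⟩ := exists_prime_orderOf_dvd_card' p h1
  have hx' : orderOf (x : G) = p := by rw [Subgroup.orderOf_coe]; exact hx
  have hx1 : (x : G) ≠ 1 := by
    intro h
    rw [h, orderOf_one] at hx'
    exact hp.one_lt.ne hx'
  have hP : IsPGroup p (Subgroup.zpowers (x : G)) := by
    apply IsPGroup.of_card (n := 1)
    rw [Nat.card_zpowers, hx', pow_one]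
  have hmod := hP.card_modEq_card_fixedPoints Ω
  have hle : Nat.card (fixedPoints (Subgroup.zpowers (x : G)) Ω) ≤ k :=
    (card_fixedPoints_le _ (x : G) (Subgroup.mem_zpowers _)).trans (hfix _ hx1)
  have hpos : 0 < Nat.card (fixedPoints (Subgroup.zpowers (x : G)) Ω) := by
    rw [Finite.card_pos_iff]
    refine ⟨⟨α, ?_⟩⟩
    rintro ⟨y, hy⟩
    have : y ∈ stabilizer G α := by
      have hle : Subgroup.zpowers (x : G) ≤ stabilizer G α := by
        rw [Subgroup.zpowers_le]; exact x.2
      exact hle hy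
    exact this
  intro hdvd
  rw [index_stabilizer_of_transitive] at hdvd
  have h0 : Nat.card (fixedPoints (Subgroup.zpowers (x : G)) Ω) ≡ 0 [MOD p] :=
    hmod.symm.trans hdvd.modEq_zero_nat
  have := Nat.le_of_dvd hpos (Nat.modEq_zero_iff_dvd.mp h0)
  omega

theorem even_part (htr : IsPretransitive G Ω)
    (hfix : ∀ g : G, g ≠ 1 → Nat.card (fixedBy Ω g) ≤ 2)
    (g : G) (hg1 : g ≠ 1) (hg : Nat.card (fixedBy Ω g) = 2) : 2 ∣ Nat.card G := by
  classical
  by_contra hodd
  -- a prime order power of g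
  have hog : orderOf g ≠ 1 := by
    intro h; exact hg1 (orderOf_eq_one_iff.mp h)
  obtain ⟨p, hp, hpd⟩ := Nat.exists_prime_and_dvd hog
  have : Fact p.Prime := ⟨hp⟩
  obtain ⟨m, hm⟩ := hpd
  set x := g ^ m with hxdef
  have hm0 : m ≠ 0 := by
    rintro rfl
    have : orderOf g = 0 := by simpa using hm
    exact (orderOf_pos g).ne' this
  have hxo : orderOf x = p := by
    have : orderOf (g ^ m) = orderOf g / m := orderOf_pow_of_dvd hm0 ⟨p, by rw [hm, mul_comm]⟩
    rw [hxdef, this, hm, Nat.mul_div_cancel _ (Nat.pos_of_ne_zero hm0)]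
  have hx1 : x ≠ 1 := by
    intro h
    rw [h, orderOf_one] at hxo
    exact hp.one_lt.ne hxo
  have hp2 : p ≠ 2 := by
    rintro rfl
    apply hodd
    rw [← hxo]; exact orderOf_dvd_natCard x
  have hp3 : 3 ≤ p := by
    have := hp.two_le
    omega
  have hsub : fixedBy Ω g ⊆ fixedBy Ω x := by
    intro ω hω
    exact pow_fix g ω hω m
  have hxcard : Nat.card (fixedBy Ω x) = 2 := by
    apply le_antisymm (hfix x hx1)
    rw [← hg]
    exact Nat.card_mono (Set.toFinite _) hsub
  have hPx : IsPGroup p (Subgroup.zpowers x) := by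
    apply IsPGroup.of_card (n := 1)
    rw [Nat.card_zpowers, hxo, pow_one]
  obtain ⟨S, hS⟩ := hPx.exists_le_sylow
  have hxS : x ∈ (S : Subgroup G) := hS (Subgroup.mem_zpowers x)
  have hfx : fixedPoints (Subgroup.zpowers x) Ω = fixedBy Ω x := by
    ext ω
    constructor
    · intro h; exact h ⟨x, Subgroup.mem_zpowers x⟩
    · rintro h ⟨y, hy⟩
      have hle : Subgroup.zpowers x ≤ stabilizer G ω := by
        rw [Subgroup.zpowers_le]; exact h
      exact hle hy
  have hmod1 := hPx.card_modEq_card_fixedPoints Ω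
  rw [hfx, hxcard] at hmod1
  have hmod2 := S.2.card_modEq_card_fixedPoints Ω
  have hle2 : Nat.card (fixedPoints (S : Subgroup G) Ω) ≤ 2 := by
    rw [← hxcard]; exact card_fixedPoints_le _ x hxS
  have hScard : Nat.card (fixedPoints (S : Subgroup G) Ω) = 2 := by
    have h3 : Nat.card (fixedPoints (S : Subgroup G) Ω) ≡ 2 [MOD p] := hmod2.symm.trans hmod1
    have h4 := Nat.ModEq.eq_of_lt_of_lt h3 (by omega) (by omega)
    exact h4
  have hSfix : (fixedPoints (S : Subgroup G) Ω : Set Ω) = fixedBy Ω x := by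
    apply Set.eq_of_subset_of_ncard_le (ht := Set.toFinite _)
    · intro ω hω; exact hω ⟨x, hxS⟩
    · rw [← Nat.card_coe_set_eq, ← Nat.card_coe_set_eq, hxcard, hScard]
  -- two fixed points
  obtain ⟨α, β, hαβ, hset⟩ : ∃ α β : Ω, α ≠ β ∧ fixedBy Ω x = {α, β} := by
    rw [Nat.card_coe_set_eq, Set.ncard_eq_two] at hxcard
    exact hxcard
  have hSmem : ∀ ω, (∀ s ∈ (S : Subgroup G), s • ω = ω) ↔ (ω = α ∨ ω = β) := by
    intro ω
    have : ω ∈ fixedPoints (S : Subgroup G) Ω ↔ ω ∈ ({α, β} : Set Ω) := by rw [hSfix, hset]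
    rw [Set.mem_insert_iff, Set.mem_singleton_iff] at this
    rw [← this]
    constructor
    · intro h s; exact h s.1 s.2
    · intro h s hs; exact h ⟨s, hs⟩
  obtain ⟨h, hh⟩ := htr.exists_smul_eq α β
  have h1 : (S : Subgroup G) ≤ stabilizer G β := fun s hs => (hSmem β).mpr (Or.inr rfl) s hs
  have h2 : ((h • S : Sylow p G) : Subgroup G) ≤ stabilizer G β := by
    intro y hy
    rw [Sylow.coe_subgroup_smul, Subgroup.mem_pointwise_smul_iff_inv_smul_mem] at hy
    have hy' : h⁻¹ * y * h ∈ (S : Subgroup G) := by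
      simpa [MulAut.smul_def, MulAut.conj_apply, ← map_inv] using hy
    have := (hSmem α).mpr (Or.inl rfl) _ hy'
    rw [mem_stabilizer_iff, ← hh]
    rw [mul_smul, mul_smul, inv_smul_eq_iff] at this
    exact this
  obtain ⟨c, hc⟩ := exists_smul_eq (stabilizer G β) ((h • S).subtype h2) (S.subtype h1)
  simp_rw [Sylow.smul_subtype, Subgroup.smul_def, smul_smul] at hc
  have hn : (c : G) * h ∈ Subgroup.normalizer ((S : Subgroup G) : Set G) :=
    Sylow.smul_eq_iff_mem_normalizer.mp (Sylow.subtype_injective hc)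
  set n := (c : G) * h with hndef
  have hnα : n • α = β := by
    rw [hndef, mul_smul, hh]; exact c.2
  have hnβ : n • β = α := by
    have : ∀ s ∈ (S : Subgroup G), s • (n • β) = n • β := by
      intro s hs
      have h3 : n⁻¹ * s * n ∈ (S : Subgroup G) := by
        have := (Subgroup.mem_normalizer_iff.mp (Subgroup.inv_mem _ hn) s).mp hs
        simpa using this
      have h4 := (hSmem β).mpr (Or.inr rfl) _ h3
      rw [mul_smul, mul_smul, inv_smul_eq_iff] at h4
      exact h4
    rcases (hSmem _).mp this with h5 | h5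
    · exact h5
    · exfalso
      apply hαβ
      have : n • α = n • β := by rw [hnα, h5]
      exact smul_left_cancel n this
  -- n has even order
  apply hodd
  have hdvd : 2 ∣ orderOf n := by
    by_contra hno
    have hodd' : Odd (orderOf n) := Nat.not_even_iff_odd.mp (fun he => hno he.two_dvd)
    obtain ⟨t, ht⟩ := hodd'
    have hsq : (n ^ 2) • α = α := by rw [pow_two, mul_smul, hnα, hnβ]
    have h6 : (n ^ 2) ^ (t + 1) • α = α := pow_fix _ _ hsq (t + 1)
    have h7 : (n ^ 2) ^ (t + 1) = n := by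
      rw [← pow_mul]
      have : 2 * (t + 1) = orderOf n + 1 := by omega
      rw [this, pow_succ, pow_orderOf_eq_one, one_mul]
    rw [h7, hnα] at h6
    exact hαβ h6.symm
  exact hdvd.trans (orderOf_dvd_natCard n)

theorem result {G : Type*} [Group G] [Finite G] {Ω : Type*} [Fintype Ω] [MulAction G Ω] [FaithfulSMul G Ω]
    (htr : MulAction.IsPretransitive G Ω) (k : ℕ) (hk : 1 ≤ k)
    (hfix : ∀ g : G, g ≠ 1 → Nat.card (MulAction.fixedBy Ω g) ≤ k) (hex : ∃ g : G, g ≠ 1 ∧ Nat.card (MulAction.fixedBy Ω g) = k) :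
    Nat.card (Subgroup.center G) ∣ k ∧ (k = 2 → 2 ∣ Nat.card G) ∧
      ∀ (p : ℕ), p.Prime → k < p → p ∣ Nat.card G → ∀ α : Ω,
        ¬ p ∣ Nat.card (MulAction.stabilizer G α) ∨ ¬ p ∣ (MulAction.stabilizer G α).index := by
  obtain ⟨g, hg1, hg⟩ := hex
  refine ⟨?_, ?_, ?_⟩
  · rw [← hg]; exact center_part htr g
  · rintro rfl
    exact even_part htr hfix g hg1 hg
  · intro p hp hkp _ α
    by_cases h1 : p ∣ Nat.card (stabilizer G α)
    · right; exact prime_part htr k hfix p hp hkp α h1
    · left; exact h1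

end Cfsg.Agent.S3389
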