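import Cfsg.Statements.S3391
import Cfsg.Agent.Lib.Helper61SzTori
import Cfsg.Agent.Lib.Helper8SzIso

set_option autoImplicit false
open Cfsg

namespace Cfsg.Agent.S3391

/-- Let q = 2^{2m+1} ≥ 8 and let G be isomorphic to the Suzuki group Sz(q). If G acts faithfully and transitively on a finite set Ω with fixity 2 (every non-identity element fixes at most two points, and some fixes exactly two), then either |Ω| = q² + 1 and the action is 2-transitive, or |Ω| = q²(q² + 1) and the point stabilizers have order q − 1. -/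
theorem result {G : Type*} [Group G] [Finite G] (F : Type) [Field F] [Fintype F] (m : ℕ) (hm : 1 ≤ m) (hF : Fintype.card F = 2 ^ (2 * m + 1))
    (e : G ≃* ↥(Cfsg.Lie.Sz F (2 ^ (m + 1)))) {Ω : Type*} [Fintype Ω] [MulAction G Ω] [FaithfulSMul G Ω] (htr : MulAction.IsPretransitive G Ω)
    (hfix : ∀ g : G, g ≠ 1 → Nat.card (MulAction.fixedBy Ω g) ≤ 2) (hex : ∃ g : G, g ≠ 1 ∧ Nat.card (MulAction.fixedBy Ω g) = 2) :
    (Fintype.card Ω = Fintype.card F ^ 2 + 1 ∧ MulAction.IsMultiplyPretransitive G Ω 2) ∨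
    (Fintype.card Ω = Fintype.card F ^ 2 * (Fintype.card F ^ 2 + 1) ∧ ∀ α : Ω, Nat.card (MulAction.stabilizer G α) = Fintype.card F - 1) := by
  classical
  let ε : G ≃* ↥(Cfsg.Sz F m) := e.trans (Cfsg.Agent.Lib.Helper8SzIso.szIso hF hm).symm
  let _ : MulAction ↥(Cfsg.Sz F m) Ω := MulAction.compHom Ω ε.symm.toMonoidHom
  have hsm : ∀ (s : ↥(Cfsg.Sz F m)) (ω : Ω), s • ω = ε.symm s • ω := fun _ _ => rfl
  have hfixed : ∀ s : ↥(Cfsg.Sz F m), MulAction.fixedBy Ω s = MulAction.fixedBy Ω (ε.symm s) := by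
    intro s
    ext ω
    rfl
  have hfix' : ∀ s : ↥(Cfsg.Sz F m), s ≠ 1 → Nat.card (MulAction.fixedBy Ω s) ≤ 2 := by
    intro s hs
    rw [hfixed]
    apply hfix
    intro h
    apply hs
    have := congrArg ε h
    rwa [MulEquiv.apply_symm_apply, map_one] at this
  have htr' : MulAction.IsPretransitive ↥(Cfsg.Sz F m) Ω := by
    refine ⟨fun a b => ?_⟩
    obtain ⟨g, hg⟩ := MulAction.exists_smul_eq G a b
    refine ⟨ε g, ?_⟩
    rw [hsm, MulEquiv.symm_apply_apply, hg]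
  have hex' : ∃ s : ↥(Cfsg.Sz F m), s ≠ 1 ∧ Nat.card (MulAction.fixedBy Ω s) = 2 := by
    obtain ⟨g, hg, hc⟩ := hex
    refine ⟨ε g, ?_, ?_⟩
    · intro h
      apply hg
      have := congrArg ε.symm h
      rwa [MulEquiv.symm_apply_apply, map_one] at this
    · rw [hfixed, MulEquiv.symm_apply_apply, hc]
  have key := Cfsg.Agent.Lib.Helper61Fix2.fixity_two
    (Cfsg.Agent.Lib.Helper61SzTori.szData hF hm) (Cfsg.Agent.Lib.Helper61SzTori.szQData hF hm)
    (Ω := Ω) hfix' htr' hex'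
  rw [Nat.card_eq_fintype_card, ← hF] at key
  rcases key with ⟨h1, h2⟩ | ⟨h1, h2⟩
  · left
    refine ⟨h1, ?_⟩
    rw [MulAction.is_two_pretransitive_iff] at h2 ⊢
    intro a b c d hab hcd
    obtain ⟨s, hs1, hs2⟩ := h2 hab hcd
    exact ⟨ε.symm s, hs1, hs2⟩
  · right
    refine ⟨h1, fun α => ?_⟩
    rw [← h2 α]
    apply Nat.card_congr
    exact ε.toEquiv.subtypeEquiv (fun g => by
      show g • α = α ↔ ε.symm (ε g) • α = α
      rw [MulEquiv.symm_apply_apply])

end Cfsg.Agent.S3391
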