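import Cfsg.Statements.S3498
-- import your own Cfsg.Agent.* helpers here
import Mathlib
import Cfsg.Agent.Lib.Helper12Card

set_option autoImplicit false
open Cfsg

namespace Cfsg.Agent.S3498

theorem mem_smul {G : Type*} [Group G] {p : ℕ} (g x : G) (P : Sylow p G) :
    x ∈ ((g • P : Sylow p G) : Subgroup G) ↔ g⁻¹ * x * g ∈ (P : Subgroup G) := by
  rw [Sylow.coe_subgroup_smul, Subgroup.mem_pointwise_smul_iff_inv_smul_mem, MulAut.smul_def,
    MulAut.conj_inv_apply]

theorem zpowers_eq {G : Type*} [Group G] [Finite G] (p : ℕ) (P : Subgroup G) (hP : Nat.card P = p)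
    (a : G) (ha : a ∈ P) (hoa : orderOf a = p) : Subgroup.zpowers a = P := by
  apply Subgroup.eq_of_le_of_card_ge
  · rw [Subgroup.zpowers_le]; exact ha
  · rw [Nat.card_zpowers, hoa, hP]

theorem mem_zpowers_of_ne {G : Type*} [Group G] (p : ℕ) [Fact p.Prime] (P : Subgroup G)
    (hP : Nat.card P = p) (c u : G) (hc : c ∈ P) (hu : u ∈ P) (hc1 : c ≠ 1) :
    u ∈ Subgroup.zpowers c := by
  have h := mem_zpowers_of_prime_card (G := P) hP (g := ⟨c, hc⟩) (g' := ⟨u, hu⟩)
    (fun h => hc1 (congrArg Subtype.val h))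
  obtain ⟨k, hk⟩ := Subgroup.mem_zpowers_iff.1 h
  exact Subgroup.mem_zpowers_iff.2 ⟨k, by simpa using congrArg Subtype.val hk⟩

theorem comm_of_prime {G : Type*} [Group G] (p : ℕ) [Fact p.Prime] (P : Subgroup G)
    (hP : Nat.card P = p) : ∀ a ∈ P, ∀ b ∈ P, a * b = b * a := by
  intro a ha b hb
  by_cases h1 : a = 1
  · rw [h1]; simp
  · obtain ⟨k, rfl⟩ := Subgroup.mem_zpowers_iff.1 (mem_zpowers_of_ne p P hP a b ha hb h1)
    exact ((Commute.refl a).zpow_right k).eq

theorem norm_conj {G : Type*} [Group G] (Q : Subgroup G) (x g : G)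
    (hx : x ∈ Subgroup.normalizer (Q : Set G)) :
    g * x * g⁻¹ ∈ Subgroup.normalizer ((Q.map (MulAut.conj g).toMonoidHom : Subgroup G) : Set G) := by
  rw [Subgroup.mem_normalizer_iff_map_conj_eq] at hx ⊢
  have h1 : (MulAut.conj (g * x * g⁻¹) : G ≃* G) = MulAut.conj g * MulAut.conj x * (MulAut.conj g)⁻¹ := by
    simp
  ext y
  constructor
  · rintro ⟨_, ⟨z, hz, rfl⟩, rfl⟩
    refine ⟨x * z * x⁻¹, ?_, ?_⟩
    · rw [← hx]; exact ⟨z, hz, rfl⟩
    · simp [MulAut.conj_apply]; group
  · rintro ⟨z, hz, rfl⟩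
    rw [SetLike.mem_coe, ← hx] at hz
    obtain ⟨w, hw, rfl⟩ := hz
    refine ⟨g * w * g⁻¹, ⟨w, hw, rfl⟩, ?_⟩
    simp [MulAut.conj_apply]; group


/-- A maximal subgroup of a finite almost simple group does not have prime order. Here G is almost simple in the sense that it has a non-abelian simple normal subgroup T with trivial centralizer. -/
theorem result {G : Type*} [Group G] [Finite G] (T : Subgroup G) [T.Normal] (hT : IsSimpleGroup T) (hTc : ¬ IsMulCommutative T)
    (hC : Subgroup.centralizer (T : Set G) = ⊥) (H : Subgroup G) (hmax : IsCoatom H) : ¬ (Nat.card H).Prime := by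
  intro hp
  haveI : Fact (Nat.card H).Prime := ⟨hp⟩
  obtain ⟨p, hpdef⟩ : ∃ p, Nat.card H = p := ⟨_, rfl⟩
  haveI hpf : Fact p.Prime := hpdef ▸ ⟨hp⟩
  have hpp : p.Prime := hpf.out
  have hTns : ¬ Group.IsSolvable T := by
    intro h
    apply hTc
    exact ⟨⟨IsSimpleGroup.comm_iff_isSolvable.2 h⟩⟩
  have hGns : ¬ Group.IsSolvable G := fun h => hTns inferInstance
  have hHc := comm_of_prime p H hpdef
  have hHp : IsPGroup p H := by
    apply IsPGroup.of_card (n := 1)
    rw [hpdef, pow_one]
  have hHbot : H ≠ ⊥ := by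
    intro h
    rw [h, Subgroup.card_bot] at hpdef
    exact hpp.one_lt.ne hpdef
  obtain ⟨P, hP⟩ := hHp.exists_le_sylow
  have hPH : (P : Subgroup G) = H := by
    by_contra hne
    have hlt : H < (P : Subgroup G) := lt_of_le_of_ne hP (Ne.symm hne)
    have htop := hmax.2 _ hlt
    apply hGns
    have h1 : IsPGroup p G := by
      have h2 := P.2
      rw [htop] at h2
      exact h2.of_equiv Subgroup.topEquiv
    haveI := h1.isNilpotent
    infer_instance
  have hnorm : Subgroup.normalizer (H : Set G) = H := by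
    by_contra hne
    have hlt : H < Subgroup.normalizer (H : Set G) := lt_of_le_of_ne Subgroup.le_normalizer (Ne.symm hne)
    have htop := hmax.2 _ hlt
    haveI hHn : H.Normal := Subgroup.normalizer_eq_top_iff.1 htop
    by_cases hHT : H ≤ T
    · have hn : (H.subgroupOf T).Normal := inferInstance
      rcases IsSimpleGroup.eq_bot_or_eq_top_of_normal _ hn with h | h
      · rw [Subgroup.subgroupOf_eq_bot] at h
        exact hHbot (disjoint_self.1 (h.mono_right hHT))
      · rw [Subgroup.subgroupOf_eq_top] at h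
        have hTH : T = H := le_antisymm h hHT
        apply hTc
        subst hTH
        exact ⟨⟨fun a b => Subtype.ext (hHc a a.2 b b.2)⟩⟩
    · have h1 : H ⊓ T = ⊥ := by
        have h2 : Nat.card (H ⊓ T : Subgroup G) ∣ p := by
          rw [← hpdef]; exact Subgroup.card_dvd_of_le inf_le_left
        rcases (Nat.dvd_prime hpp).1 h2 with h3 | h3
        · exact Subgroup.card_eq_one.1 h3
        · exfalso
          apply hHT
          have h4 : H ⊓ T = H := Subgroup.eq_of_le_of_card_ge inf_le_left (by rw [h3, hpdef])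
          rw [← h4]; exact inf_le_right
      have h2 : ⁅H, T⁆ = ⊥ := by
        rw [eq_bot_iff, ← h1]
        exact Subgroup.commutator_le_inf H T
      rw [Subgroup.commutator_eq_bot_iff_le_centralizer, hC] at h2
      exact hHbot (le_bot_iff.1 h2)
  have hNC : Subgroup.normalizer ((P : Subgroup G) : Set G) ≤ Subgroup.centralizer ((P : Subgroup G) : Set G) := by
    rw [hPH, hnorm]
    intro a ha
    rw [Subgroup.mem_centralizer_iff]
    intro b hb
    exact hHc b hb a ha
  set N := (MonoidHom.transferSylow P hNC).ker with hN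
  have hcompl : Subgroup.IsComplement' N (P : Subgroup G) := MonoidHom.ker_transferSylow_isComplement' P hNC
  have hNp : ¬ p ∣ Nat.card N := MonoidHom.not_dvd_card_ker_transferSylow P hNC
  have hcard : Nat.card N * p = Nat.card G := by
    have := hcompl.card_mul_card
    rwa [hPH, hpdef] at this
  have hN1 : Nat.card N ≠ 1 := by
    intro h
    rw [h, one_mul] at hcard
    apply hGns
    haveI := isCyclic_of_prime_card hcard.symm
    exact Group.isSolvable_of_comm (fun a b => (IsCyclic.commGroup (α := G)).mul_comm a b)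
  obtain ⟨q, hq, hqN⟩ := Nat.exists_prime_and_dvd hN1
  haveI : Fact q.Prime := ⟨hq⟩
  have hqp : q ≠ p := fun h => hNp (h ▸ hqN)
  obtain ⟨Q⟩ : Nonempty (Sylow q N) := inferInstance
  set Q' : Subgroup G := (Q : Subgroup N).map N.subtype with hQ'
  have hfrat : Subgroup.normalizer (Q' : Set G) ⊔ N = ⊤ := Sylow.normalizer_sup_eq_top Q
  set L := Subgroup.normalizer (Q' : Set G) with hL
  have hpL : p ∣ Nat.card L := by
    have h1 := Cfsg.Agent.Lib.Helper12Card.card_sup_mul_card_inf_of_normal L N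
    rw [hfrat, Subgroup.card_top, ← hcard] at h1
    have hpos : 0 < Nat.card N := Nat.card_pos
    have h2 : p * Nat.card (L ⊓ N : Subgroup G) = Nat.card L := by
      apply Nat.eq_of_mul_eq_mul_left hpos
      rw [← mul_assoc, h1, mul_comm]
    exact ⟨_, h2.symm⟩
  obtain ⟨x, hx⟩ := exists_prime_orderOf_dvd_card' (G := L) p hpL
  have hxo : orderOf (x : G) = p := by rw [Subgroup.orderOf_coe, hx]
  have hxp : IsPGroup p (Subgroup.zpowers (x : G)) := by
    apply IsPGroup.of_card (n := 1)
    rw [Nat.card_zpowers, hxo, pow_one]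
  obtain ⟨R, hR⟩ := hxp.exists_le_sylow
  obtain ⟨g, rfl⟩ := MulAction.exists_smul_eq G P R
  have hxH : g⁻¹ * (x : G) * g ∈ H := by
    rw [← hPH, ← mem_smul]
    exact hR (Subgroup.mem_zpowers _)
  have hxo' : orderOf (g⁻¹ * (x : G) * g) = p := by
    have : g⁻¹ * (x : G) * g = MulAut.conj g⁻¹ (x : G) := by simp
    rw [this, MulEquiv.orderOf_eq, hxo]
  have hHz := zpowers_eq p H hpdef _ hxH hxo'
  set Q'' : Subgroup G := Q'.map (MulAut.conj g⁻¹).toMonoidHom with hQ''
  have hHQ : H ≤ Subgroup.normalizer (Q'' : Set G) := by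
    rw [← hHz, Subgroup.zpowers_le]
    have := norm_conj Q' (x : G) g⁻¹ x.2
    rwa [inv_inv] at this
  have hQcard : Nat.card Q'' = Nat.card Q := by
    rw [hQ'', Nat.card_congr (Subgroup.equivMapOfInjective _ _ (MulAut.conj g⁻¹).injective).symm.toEquiv,
      hQ', Nat.card_congr (Subgroup.equivMapOfInjective _ _ N.subtype_injective).symm.toEquiv]
  have hqQ : q ∣ Nat.card Q'' := by
    rw [hQcard]
    exact Q.dvd_card_of_dvd_card hqN
  have hQp : IsPGroup q Q'' := by
    rw [hQ'']
    exact (Q.2.map N.subtype).map _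
  have hM : H ⊔ Q'' = H ∨ H ⊔ Q'' = ⊤ := by
    by_cases h : H ⊔ Q'' = H
    · exact Or.inl h
    · exact Or.inr (hmax.2 _ (lt_of_le_of_ne le_sup_left (Ne.symm h)))
  rcases hM with h | h
  · have h1 : Q'' ≤ H := by rw [← h]; exact le_sup_right
    have h2 : q ∣ p := by
      rw [← hpdef]; exact hqQ.trans (Subgroup.card_dvd_of_le h1)
    exact hqp ((Nat.prime_dvd_prime_iff_eq hq hpp).1 h2)
  · haveI hQn : Q''.Normal := by
      rw [← Subgroup.normalizer_eq_top_iff, eq_top_iff, ← h]
      exact sup_le hHQ Subgroup.le_normalizer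
    apply hGns
    haveI : Group.IsSolvable Q'' := by
      haveI := hQp.isNilpotent
      infer_instance
    haveI : Group.IsSolvable (G ⧸ Q'') := by
      apply Group.isSolvable_of_comm
      have hrep : ∀ a : G ⧸ Q'', ∃ h ∈ H, (QuotientGroup.mk h : G ⧸ Q'') = a := by
        intro a
        obtain ⟨a, rfl⟩ := QuotientGroup.mk_surjective a
        have ha : a ∈ H ⊔ Q'' := by rw [h]; exact Subgroup.mem_top a
        obtain ⟨u, hu, v, hv, rfl⟩ := Subgroup.mem_sup_of_normal_right.1 ha
        refine ⟨u, hu, ?_⟩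
        rw [QuotientGroup.eq]
        simpa using hv
      intro a b
      obtain ⟨u, hu, rfl⟩ := hrep a
      obtain ⟨v, hv, rfl⟩ := hrep b
      rw [← QuotientGroup.mk_mul, ← QuotientGroup.mk_mul, hHc u hu v hv]
    exact Group.isSolvable_of_ker_le_range Q''.subtype (QuotientGroup.mk' Q'') (by simp)

end Cfsg.Agent.S3498
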