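import Cfsg.Statements.S3504
import Mathlib

set_option autoImplicit false
open Cfsg

namespace Cfsg.Agent.S3504

open Equiv.Perm

/-- for a prime divisor `p` of `n` a fixed-point-free permutation all of whose cycles have length `p` -/
theorem exists_perm (n p : ℕ) (hp : p.Prime) (hpn : p ∣ n) :
    ∃ g : Equiv.Perm (Fin n), g.cycleType = Multiset.replicate (n / p) p := by
  rw [Equiv.Perm.exists_with_cycleType_iff]
  constructor
  · simp [Nat.div_mul_cancel hpn]
  · intro a ha
    rw [Multiset.eq_of_mem_replicate ha]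
    exact hp.two_le

theorem props (n p : ℕ) (hn : 0 < n) (hp : p.Prime) (hpn : p ∣ n) (g : Equiv.Perm (Fin n))
    (hg : g.cycleType = Multiset.replicate (n / p) p) : orderOf g = p ∧ ∀ i : Fin n, g i ≠ i := by
  have hk : 0 < n / p := Nat.div_pos (Nat.le_of_dvd hn hpn) hp.pos
  constructor
  · rw [← lcm_cycleType, hg]
    apply Nat.dvd_antisymm
    · rw [Multiset.lcm_dvd]
      intro b hb
      rw [Multiset.eq_of_mem_replicate hb]
    · apply Multiset.dvd_lcm
      rw [Multiset.mem_replicate]
      exact ⟨hk.ne', rfl⟩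
  · have hs : g.support.card = n := by
      rw [← sum_cycleType, hg]
      simp [Nat.div_mul_cancel hpn]
    have hu : g.support = Finset.univ := by
      apply Finset.eq_univ_of_card
      rw [hs, Fintype.card_fin]
    intro i
    rw [← Equiv.Perm.mem_support, hu]
    exact Finset.mem_univ i

theorem cycleType_of (n : ℕ) (g : Equiv.Perm (Fin n)) (hg : (orderOf g).Prime) (hfix : ∀ i : Fin n, g i ≠ i) :
    orderOf g ∣ n ∧ g.cycleType = Multiset.replicate (n / orderOf g) (orderOf g) := by
  obtain ⟨k, hk⟩ := cycleType_prime_order hg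
  have hu : g.support = Finset.univ := by
    ext i
    simp [Equiv.Perm.mem_support, hfix i]
  have hs : g.cycleType.sum = n := by
    rw [sum_cycleType, hu, Finset.card_univ, Fintype.card_fin]
  rw [hk, Multiset.sum_replicate, smul_eq_mul] at hs
  generalize orderOf g = o at *
  have h1 : n / o = k + 1 := by
    rw [← hs]
    exact Nat.mul_div_cancel _ hg.pos
  exact ⟨⟨k + 1, by rw [← hs, mul_comm]⟩, by rw [h1, hk]⟩

/-- For n ≥ 5, the fixed-point-free permutations of prime order in the symmetric group of degree n form a single conjugacy class if and only if n is a prime power. -/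
theorem result (n : ℕ) (hn : 5 ≤ n) :
    Nat.card {c : ConjClasses (Equiv.Perm (Fin n)) // ∃ g : Equiv.Perm (Fin n), ConjClasses.mk g = c ∧ (orderOf g).Prime ∧ ∀ i : Fin n, g i ≠ i} = 1 ↔ IsPrimePow n := by
  classical
  rw [isPrimePow_iff_card_primeFactors_eq_one]
  have hn0 : 0 < n := by omega
  have hpf : ∀ p : n.primeFactors, (p : ℕ).Prime ∧ (p : ℕ) ∣ n := fun p =>
    ⟨Nat.prime_of_mem_primeFactors p.2, Nat.dvd_of_mem_primeFactors p.2⟩
  let gp : n.primeFactors → Equiv.Perm (Fin n) := fun p =>
    (exists_perm n p (hpf p).1 (hpf p).2).choose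
  have hgp : ∀ p : n.primeFactors, (gp p).cycleType = Multiset.replicate (n / (p : ℕ)) (p : ℕ) := fun p =>
    (exists_perm n p (hpf p).1 (hpf p).2).choose_spec
  let f : n.primeFactors → {c : ConjClasses (Equiv.Perm (Fin n)) // ∃ g : Equiv.Perm (Fin n), ConjClasses.mk g = c ∧ (orderOf g).Prime ∧ ∀ i : Fin n, g i ≠ i} :=
    fun p => ⟨ConjClasses.mk (gp p), gp p, rfl, by
      have := props n p hn0 (hpf p).1 (hpf p).2 (gp p) (hgp p)
      rw [this.1]
      exact ⟨(hpf p).1, this.2⟩⟩
  have hf : Function.Bijective f := by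
    constructor
    · intro p q hpq
      have h1 : ConjClasses.mk (gp p) = ConjClasses.mk (gp q) := congrArg Subtype.val hpq
      rw [ConjClasses.mk_eq_mk_iff_isConj, isConj_iff_cycleType_eq] at h1
      have h2 := (props n p hn0 (hpf p).1 (hpf p).2 (gp p) (hgp p)).1
      have h3 := (props n q hn0 (hpf q).1 (hpf q).2 (gp q) (hgp q)).1
      apply Subtype.ext
      rw [← h2, ← h3, ← lcm_cycleType, ← lcm_cycleType, h1]
    · rintro ⟨_, g, rfl, hg, hfix⟩
      obtain ⟨hd, hc⟩ := cycleType_of n g hg hfix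
      refine ⟨⟨orderOf g, Nat.mem_primeFactors.mpr ⟨hg, hd, hn0.ne'⟩⟩, ?_⟩
      apply Subtype.ext
      show ConjClasses.mk (gp _) = ConjClasses.mk g
      rw [ConjClasses.mk_eq_mk_iff_isConj, isConj_iff_cycleType_eq, hgp, hc]
  rw [← Nat.card_congr (Equiv.ofBijective f hf), Nat.card_eq_fintype_card, Fintype.card_coe]

end Cfsg.Agent.S3504
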