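import Cfsg.Statements.S3508

set_option autoImplicit false
open Cfsg

namespace Cfsg.Agent.S3508

open Polynomial Finset

/-- pure linear algebra -/
theorem lin_key (p : ℕ) [Fact p.Prime] {V : Type*} [AddCommGroup V] [Module (ZMod p) V]
    [FiniteDimensional (ZMod p) V] (c : Module.End (ZMod p) V) (r : ℕ) (hc : c ^ (p ^ r) = 1)
    (s : ℕ) (hs : Module.finrank (ZMod p) V < p ^ s) :
    c ^ (p ^ s) = 1 ∧ ∑ i ∈ range (p ^ s), c ^ i = 0 := by
  have hP : ∀ e : ℕ, (X - 1 : (ZMod p)[X]) ^ (p ^ e) = X ^ (p ^ e) - 1 := by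
    intro e
    rw [sub_pow_char_pow_of_commute _ _ (Commute.one_right _), one_pow]
  have hδ : ∀ e : ℕ, (c - 1) ^ (p ^ e) = c ^ (p ^ e) - 1 := by
    intro e
    have := congrArg (aeval c) (hP e)
    simpa using this
  have h0 : (c - 1) ^ (p ^ r) = 0 := by rw [hδ, hc, sub_self]
  have hfin : (c - 1) ^ Module.finrank (ZMod p) V = 0 := by
    rcases le_total (Module.finrank (ZMod p) V) (p ^ r) with hle | hle
    · have h1 := Module.End.ker_pow_eq_ker_pow_finrank_of_le (f := c - 1) hle
      rw [h0, LinearMap.ker_zero] at h1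
      exact LinearMap.ker_eq_top.mp h1.symm
    · exact pow_eq_zero_of_le hle h0
  constructor
  · have h1 : (c - 1) ^ (p ^ s) = 0 := pow_eq_zero_of_le hs.le hfin
    rw [hδ, sub_eq_zero] at h1
    exact h1
  · have hQ : ∑ i ∈ range (p ^ s), (X : (ZMod p)[X]) ^ i = (X - 1) ^ (p ^ s - 1) := by
      have hX : (X - 1 : (ZMod p)[X]) ≠ 0 := by simpa using X_sub_C_ne_zero (1 : ZMod p)
      apply mul_left_cancel₀ hX
      rw [mul_geom_sum, ← pow_succ', Nat.sub_add_cancel (Nat.one_le_two_pow.trans
        (Nat.pow_le_pow_left (Fact.out : p.Prime).two_le s)), hP]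
    have := congrArg (aeval c) hQ
    simp only [map_sum, map_pow, aeval_X, map_sub, map_one] at this
    rw [this]
    exact pow_eq_zero_of_le (by omega) hfin

/-- multiplicative version -/
theorem mul_key (p : ℕ) [Fact p.Prime] {N : Type*} [CommGroup N] [Finite N] (m : ℕ)
    (hcard : Nat.card N = p ^ m) (hexp : ∀ x : N, x ^ p = 1) (c : N →* N) (r : ℕ)
    (hc : ∀ x, c^[p ^ r] x = x) (s : ℕ) (hs : m < p ^ s) :
    (∀ x, c^[p ^ s] x = x) ∧ ∀ x, ∏ i ∈ range (p ^ s), c^[i] x = 1 := by
  let _ : Module (ZMod p) (Additive N) := AddCommGroup.zmodModule (n := p) (fun x => hexp x.toMul)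
  have : Finite (Additive N) := inferInstanceAs (Finite N)
  have : FiniteDimensional (ZMod p) (Additive N) := Module.Finite.of_finite
  have hfr : Module.finrank (ZMod p) (Additive N) = m := by
    have h1 := Module.natCard_eq_pow_finrank (K := ZMod p) (V := Additive N)
    rw [Nat.card_zmod] at h1
    have h2 : Nat.card (Additive N) = p ^ m := hcard
    rw [h2] at h1
    exact (Nat.pow_right_injective (Fact.out : p.Prime).two_le h1).symm
  let C : Module.End (ZMod p) (Additive N) := AddMonoidHom.toZModLinearMap p (MonoidHom.toAdditive c)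
  have hCi : ∀ (i : ℕ) (x : Additive N), (C ^ i) x = Additive.ofMul (c^[i] x.toMul) := by
    intro i x
    induction i with
    | zero => rfl
    | succ i ih =>
      rw [pow_succ', Module.End.mul_apply, ih, Function.iterate_succ_apply']
      rfl
  have hC : C ^ (p ^ r) = 1 := by
    ext x
    rw [hCi, hc]
    rfl
  obtain ⟨h1, h2⟩ := lin_key p C r hC s (by rw [hfr]; exact hs)
  constructor
  · intro x
    have := congrArg (fun f => f (Additive.ofMul x)) h1
    simp only [hCi] at this
    exact this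
  · intro x
    have := congrArg (fun f => f (Additive.ofMul x)) h2
    simp only [LinearMap.sum_apply, hCi] at this
    rw [← ofMul_prod] at this
    exact this

theorem result {G : Type*} [Group G] [Finite G] {Ω : Type*} [Fintype Ω] [MulAction G Ω] [FaithfulSMul G Ω] (p m : ℕ) (hp : p.Prime) (hcard : Fintype.card Ω = p ^ m)
    (N : Subgroup G) [N.Normal] (hNc : IsMulCommutative N) (hNp : ∀ n ∈ N, n ^ p = 1)
    (hNtr : MulAction.IsPretransitive N Ω) (hNreg : ∀ ω : Ω, MulAction.stabilizer N ω = ⊥)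
    (g : G) (r : ℕ) (hr : 1 ≤ r) (hg : orderOf g = p ^ r) :
    p ^ (r - 1) ≤ m ∧ (r = m → m ≤ 2 ∧ (2 < p → m ≤ 1)) := by
  have : Fact p.Prime := ⟨hp⟩
  have main : p ^ (r - 1) ≤ m := by
    by_contra hlt
    push Not at hlt
    have : Nonempty Ω := by
      rw [← Fintype.card_pos_iff, hcard]; exact pow_pos hp.pos m
    obtain ⟨ω₀⟩ := this
    let _ : CommGroup N := { (inferInstance : Group N) with mul_comm := hNc.is_comm.comm }
    have hcN : Nat.card N = p ^ m := by
      have h1 := MulAction.index_stabilizer_of_transitive N ω₀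
      rw [hNreg, Subgroup.index_bot, Nat.card_eq_fintype_card (α := Ω), hcard] at h1
      exact h1
    let c : N →* N := (MulAut.conjNormal g : MulAut N).toMonoidHom
    have hci : ∀ (i : ℕ) (x : N), c^[i] x = MulAut.conjNormal (g ^ i) x := by
      intro i x
      induction i with
      | zero => simp
      | succ i ih =>
        rw [Function.iterate_succ_apply', ih, pow_succ', map_mul, MulAut.mul_apply]
        rfl
    obtain ⟨h1, h2⟩ := mul_key p m hcN (fun x => Subtype.ext (hNp x x.2)) c r (by
      intro x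
      rw [hci, ← hg, pow_orderOf_eq_one, map_one]; rfl) (r - 1) hlt
    obtain ⟨n₀, hn₀⟩ := MulAction.exists_smul_eq N ω₀ (g • ω₀)
    have hconj : ∀ (x : N) (ω : Ω) (u : G), u • (x • ω) = (MulAut.conjNormal u x) • (u • ω) := by
      intro x ω u
      rw [Subgroup.smul_def, Subgroup.smul_def, MulAut.conjNormal_apply, smul_smul, smul_smul]
      congr 1
      group
    have horb : ∀ j : ℕ, g ^ j • ω₀ = (∏ i ∈ range j, c^[i] n₀) • ω₀ := by
      intro j
      induction j with
      | zero => simp
      | succ j ih =>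
        rw [pow_succ', mul_smul, ih, hconj, ← hn₀, smul_smul, Finset.prod_range_succ', map_prod]
        congr 2
        apply Finset.prod_congr rfl
        intro i _
        rw [Function.iterate_succ_apply']
        rfl
    have hfix : g ^ (p ^ (r - 1)) • ω₀ = ω₀ := by rw [horb, h2, one_smul]
    have hone : g ^ (p ^ (r - 1)) = 1 := by
      apply FaithfulSMul.eq_of_smul_eq_smul (α := Ω)
      intro ω
      obtain ⟨x, rfl⟩ := MulAction.exists_smul_eq N ω₀ ω
      rw [hconj, hfix, ← hci, h1, one_smul]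
    have h3 := orderOf_dvd_of_pow_eq_one hone
    rw [hg] at h3
    have h4 := (Nat.pow_dvd_pow_iff_le_right hp.one_lt).mp h3
    omega
  refine ⟨main, ?_⟩
  rintro rfl
  have hm2 : r ≤ 2 := by
    by_contra hcon
    obtain ⟨j, rfl⟩ : ∃ j, r = j + 3 := ⟨r - 3, by omega⟩
    have h1 : 2 ^ (j + 3 - 1) ≤ p ^ (j + 3 - 1) := Nat.pow_le_pow_left hp.two_le _
    have h2 : j < 2 ^ j := Nat.lt_two_pow_self
    have h3 : 2 ^ (j + 3 - 1) = 4 * 2 ^ j := by
      have : j + 3 - 1 = j + 2 := by omega
      rw [this, pow_add]; ring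
    omega
  refine ⟨hm2, ?_⟩
  intro hp2
  by_contra hcon
  have : r = 2 := by omega
  subst this
  simp at main
  omega

end Cfsg.Agent.S3508
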