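import Cfsg.Statements.S3511
-- import your own Cfsg.Agent.* helpers here

set_option autoImplicit false
open Cfsg

namespace Cfsg.Agent.S3511

theorem squarefree_rad (n : ℕ) : Squarefree (∏ p ∈ n.primeFactors, p) := by
  refine Finset.squarefree_prod_of_pairwise_isCoprime (fun _ hp _ hq hpq ↦ ?_)
    fun _ hp ↦ (Nat.prime_of_mem_primeFactors hp).squarefree
  simp only [Function.onFun, ← Nat.coprime_iff_isRelPrime]
  exact (Nat.coprime_primes (Nat.prime_of_mem_primeFactors hp)
    (Nat.prime_of_mem_primeFactors hq)).mpr hpq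

/-- Let a finite group G act faithfully on a set Ω. If every element of G of square-free order has a regular cycle (an orbit of the cyclic group it generates with trivial stabilizer), then every element of G has a regular cycle. -/
theorem result {G : Type*} [Group G] [Finite G] {Ω : Type*} [MulAction G Ω] [FaithfulSMul G Ω]
    (h : ∀ g : G, Squarefree (orderOf g) → ∃ ω : Ω, MulAction.stabilizer (Subgroup.zpowers g) ω = ⊥) (g : G) :
    ∃ ω : Ω, MulAction.stabilizer (Subgroup.zpowers g) ω = ⊥ := by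
  classical
  set n := orderOf g with hn
  have hn0 : 0 < n := orderOf_pos g
  set r := ∏ p ∈ n.primeFactors, p with hr
  have hrn : r ∣ n := Nat.prod_primeFactors_dvd n
  obtain ⟨k, hk⟩ := hrn
  have hk0 : k ≠ 0 := by
    rintro rfl
    simp at hk
    omega
  have hr0 : r ≠ 0 := by
    rintro h0
    rw [h0] at hk
    simp at hk
    omega
  have hkn : k ∣ orderOf g := ⟨r, by rw [← hn, hk, mul_comm]⟩
  have hord : orderOf (g ^ k) = r := by
    rw [orderOf_pow_of_dvd hk0 hkn, ← hn, hk]
    exact Nat.mul_div_cancel _ (Nat.pos_of_ne_zero hk0)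
  obtain ⟨ω, hω⟩ := h (g ^ k) (by rw [hord]; exact squarefree_rad n)
  refine ⟨ω, ?_⟩
  rw [eq_bot_iff]
  intro x hx
  rw [Subgroup.mem_bot]
  by_contra hx1
  have hox : orderOf x ≠ 1 := by
    rwa [Ne, orderOf_eq_one_iff]
  obtain ⟨p, hp, hpx⟩ := Nat.exists_prime_and_dvd hox
  have hox0 : 0 < orderOf x := orderOf_pos x
  obtain ⟨d, hd⟩ := hpx
  have hd0 : d ≠ 0 := by
    rintro rfl
    rw [mul_zero] at hd
    omega
  have hy : orderOf (x ^ d) = p := by
    rw [orderOf_pow_of_dvd hd0 ⟨p, by rw [hd, mul_comm]⟩, hd]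
    exact Nat.mul_div_cancel _ (Nat.pos_of_ne_zero hd0)
  have hyfix : (x ^ d) ∈ MulAction.stabilizer (Subgroup.zpowers g) ω := Subgroup.pow_mem _ hx d
  have hyG : orderOf ((x ^ d : Subgroup.zpowers g) : G) = p := by
    rw [Subgroup.orderOf_coe, hy]
  obtain ⟨i, hi⟩ : ∃ i : ℕ, g ^ i = ((x ^ d : Subgroup.zpowers g) : G) := by
    have := (x ^ d : Subgroup.zpowers g).2
    rw [← mem_powers_iff_mem_zpowers] at this
    exact this
  have hpn : p ∣ n := by
    rw [← hyG, ← hi]
    exact orderOf_pow_dvd i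
  have hpr : p ∣ r := Finset.dvd_prod_of_mem (fun p => p)
    (Nat.mem_primeFactors.mpr ⟨hp, hpn, by omega⟩)
  have h1 : g ^ (i * p) = 1 := by
    rw [pow_mul, hi, ← hyG, pow_orderOf_eq_one]
  have h2 : n ∣ i * p := orderOf_dvd_of_pow_eq_one h1
  obtain ⟨r', hr'⟩ := hpr
  have h3 : k ∣ i := by
    have : (k * r') * p ∣ i * p := by
      have e : (k * r') * p = n := by rw [hk, hr']; ring
      rw [e]; exact h2
    have := Nat.dvd_of_mul_dvd_mul_right hp.pos this
    exact Dvd.dvd.trans ⟨r', rfl⟩ this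
  obtain ⟨j, hj⟩ := h3
  have hmem : ((x ^ d : Subgroup.zpowers g) : G) ∈ Subgroup.zpowers (g ^ k) := by
    rw [← hi, hj, pow_mul]
    exact Subgroup.pow_mem _ (Subgroup.mem_zpowers _) j
  have hstab : (⟨((x ^ d : Subgroup.zpowers g) : G), hmem⟩ : Subgroup.zpowers (g ^ k)) ∈
      MulAction.stabilizer (Subgroup.zpowers (g ^ k)) ω := by
    rw [MulAction.mem_stabilizer_iff] at hyfix ⊢
    exact hyfix
  rw [hω, Subgroup.mem_bot] at hstab
  have h4 : ((x ^ d : Subgroup.zpowers g) : G) = 1 := by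
    have := congrArg Subtype.val hstab
    simpa using this
  rw [h4, orderOf_one] at hyG
  exact hp.one_lt.ne hyG

end Cfsg.Agent.S3511
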