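import Cfsg.Statements.S3514
import Cfsg.Agent.Lib.Helper63Derange

set_option autoImplicit false
open Cfsg

namespace Cfsg.Agent.S3514

open MulAction in
theorem ncard_orbit_eq_relIndex {𝔾 X : Type*} [Group 𝔾] [MulAction 𝔾 X] (A : Subgroup 𝔾) (x : X) :
    (orbit A x).ncard = (stabilizer 𝔾 x).relIndex A := by
  rw [← index_stabilizer]
  rfl

open MulAction in
theorem ncard_orbit_dvd_card {𝔾 X : Type*} [Group 𝔾] [MulAction 𝔾 X] (A : Subgroup 𝔾) (x : X) :
    (orbit A x).ncard ∣ Nat.card A := by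
  rw [← index_stabilizer]
  exact Subgroup.index_dvd_card _

open MulAction in
theorem orbit_sup_eq {𝔾 X : Type*} [Group 𝔾] [MulAction 𝔾 X] (N H : Subgroup 𝔾)
    (hN : H ≤ Subgroup.normalizer (N : Set 𝔾)) (q : X) (hq : ∀ h ∈ H, h • q = q) :
    orbit (N ⊔ H : Subgroup 𝔾) q = orbit N q := by
  ext r
  constructor
  · rintro ⟨⟨x, hx⟩, rfl⟩
    have hx' : x ∈ ((N ⊔ H : Subgroup 𝔾) : Set 𝔾) := hx
    rw [Subgroup.coe_mul_of_right_le_normalizer_left N H hN] at hx'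
    obtain ⟨n, hn, h, hh, rfl⟩ := hx'
    refine ⟨⟨n, hn⟩, ?_⟩
    change n • q = (n * h) • q
    rw [mul_smul, hq h hh]
  · rintro ⟨⟨n, hn⟩, rfl⟩
    exact ⟨⟨n, (le_sup_left : N ≤ N ⊔ H) hn⟩, rfl⟩

open MulAction in
theorem relIndex_sup_dvd {𝔾 : Type*} [Group 𝔾] (N H : Subgroup 𝔾)
    (hN : H ≤ Subgroup.normalizer (N : Set 𝔾)) : H.relIndex (N ⊔ H) ∣ Nat.card N := by
  have h1 : stabilizer 𝔾 ((1 : 𝔾) : 𝔾 ⧸ H) = H := stabilizer_quotient H
  have h2 := ncard_orbit_eq_relIndex (N ⊔ H) ((1 : 𝔾) : 𝔾 ⧸ H)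
  rw [h1] at h2
  rw [← h2, orbit_sup_eq N H hN]
  · exact ncard_orbit_dvd_card N _
  · intro h hh
    have : h ∈ stabilizer 𝔾 ((1 : 𝔾) : 𝔾 ⧸ H) := by rw [h1]; exact hh
    exact this

open MulAction in
theorem part_one {𝔾 X : Type*} [Group 𝔾] [MulAction 𝔾 X] [Finite X] (K H : Subgroup 𝔾) (hKH : K ≤ H)
    (hK : H ≤ Subgroup.normalizer (K : Set 𝔾)) (v : X) :
    (orbit K v).ncard ∣ (orbit H v).ncard := by
  apply Cfsg.Agent.Lib.Helper63Derange.dvd_ncard_of_invariant (H := K)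
  · rintro k _ ⟨h, rfl⟩
    exact ⟨⟨k, hKH k.2⟩ * h, by simp [mul_smul]; rfl⟩
  · rintro _ ⟨h, rfl⟩
    have : orbit K (h • v) = (fun u => (h : 𝔾) • u) '' orbit K v := by
      ext u
      constructor
      · rintro ⟨k, rfl⟩
        refine ⟨((h : 𝔾)⁻¹ * k * h) • v, ⟨⟨(h : 𝔾)⁻¹ * k * h, ?_⟩, rfl⟩, ?_⟩
        · exact (Subgroup.mem_normalizer_iff''.mp (hK h.2) k).mp k.2
        · simp only [mul_smul, smul_inv_smul]
          rfl
      · rintro ⟨_, ⟨k, rfl⟩, rfl⟩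
        refine ⟨⟨(h : 𝔾) * k * (h : 𝔾)⁻¹, ?_⟩, ?_⟩
        · exact (Subgroup.mem_normalizer_iff.mp (hK h.2) k).mp k.2
        · change ((h : 𝔾) * k * (h : 𝔾)⁻¹) • (h : 𝔾) • v = (h : 𝔾) • (k : 𝔾) • v
          simp only [mul_smul, inv_smul_smul]
    rw [this, Set.ncard_image_of_injective _ (MulAction.injective (h : 𝔾))]

open MulAction in
theorem part_two {𝔾 X : Type*} [Group 𝔾] [MulAction 𝔾 X] (N H : Subgroup 𝔾)
    (hN : H ≤ Subgroup.normalizer (N : Set 𝔾)) (v : X) :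
    (orbit (N ⊔ H : Subgroup 𝔾) v).ncard ∣ (orbit H v).ncard * Nat.card N := by
  rw [ncard_orbit_eq_relIndex, ncard_orbit_eq_relIndex]
  set S := stabilizer 𝔾 v
  have h1 : S.relIndex (N ⊔ H) ∣ (S ⊓ H).relIndex (N ⊔ H) :=
    Subgroup.relIndex_dvd_of_le_left _ inf_le_left
  have h2 : (S ⊓ H).relIndex H * H.relIndex (N ⊔ H) = (S ⊓ H).relIndex (N ⊔ H) :=
    Subgroup.relIndex_mul_relIndex _ _ _ inf_le_right le_sup_right
  rw [← h2, Subgroup.inf_relIndex_right] at h1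
  exact h1.trans (Nat.mul_dvd_mul_left _ (relIndex_sup_dvd N H hN))

theorem set_eq {p : ℕ} {V : Type*} [AddCommGroup V] [Module (ZMod p) V]
    (H : Subgroup (V ≃ₗ[ZMod p] V)) (v : V) :
    Nat.card {u : V | ∃ h ∈ H, h v = u} = (MulAction.orbit H v).ncard := by
  rw [← Nat.card_coe_set_eq]
  congr 2
  ext u
  constructor
  · rintro ⟨h, hh, rfl⟩
    exact ⟨⟨h, hh⟩, rfl⟩
  · rintro ⟨h, rfl⟩
    exact ⟨h, h.2, rfl⟩

/-- Let p be a prime, V a finite vector space over the field with p elements, and H a group of linear transformations of V all of whose orbits on V have size coprime to p. (i) Every normal subgroup K of H has all its orbits on V of size coprime to p. (ii) If N is a group of linear transformations of V of order coprime to p that is normalized by H, then the group generated by N and H has all its orbits on V of size coprime to p. -/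
theorem result (p : ℕ) [Fact p.Prime] {V : Type*} [AddCommGroup V] [Module (ZMod p) V] [Finite V]
    (H : Subgroup (V ≃ₗ[ZMod p] V)) (hH : ∀ v : V, ¬ p ∣ Nat.card {u : V | ∃ h ∈ H, h v = u}) :
    (∀ K : Subgroup (V ≃ₗ[ZMod p] V), K ≤ H → H ≤ Subgroup.normalizer (K : Set (V ≃ₗ[ZMod p] V)) →
        ∀ v : V, ¬ p ∣ Nat.card {u : V | ∃ k ∈ K, k v = u}) ∧
    (∀ N : Subgroup (V ≃ₗ[ZMod p] V), ¬ p ∣ Nat.card N → H ≤ Subgroup.normalizer (N : Set (V ≃ₗ[ZMod p] V)) →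
        ∀ v : V, ¬ p ∣ Nat.card {u : V | ∃ x ∈ N ⊔ H, x v = u}) := by
  have hp : p.Prime := Fact.out
  refine ⟨?_, ?_⟩
  · intro K hKH hK v hdiv
    apply hH v
    rw [set_eq] at hdiv ⊢
    exact hdiv.trans (part_one K H hKH hK v)
  · intro N hNp hN v hdiv
    rw [set_eq] at hdiv
    have h1 := hdiv.trans (part_two N H hN v)
    rcases (Nat.Prime.dvd_mul hp).mp h1 with h | h
    · apply hH v
      rw [set_eq]; exact h
    · exact hNp h

end Cfsg.Agent.S3514
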