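import Cfsg.Statements.S3515
import Cfsg.Agent.Lib.Helper63Affine

set_option autoImplicit false
open Cfsg

namespace Cfsg.Agent.S3515

theorem four : ∀ y : Fin 2 → ZMod 2, y = 0 ∨ y = Pi.single 0 1 ∨ y = Pi.single 1 1 ∨
    y = Pi.single 0 1 + Pi.single 1 1 := by
  decide

theorem ne0 : (Pi.single 0 1 + Pi.single 1 1 : Fin 2 → ZMod 2) ≠ 0 := by decide
theorem ne1 : (Pi.single 0 1 + Pi.single 1 1 : Fin 2 → ZMod 2) ≠ Pi.single 0 1 := by decide
theorem ne2 : (Pi.single 0 1 + Pi.single 1 1 : Fin 2 → ZMod 2) ≠ Pi.single 1 1 := by decide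

/-- Every primitive affine permutation group of degree p² is 3-closed. Let p be a prime and G a group of permutations of the plane V = F_p² consisting of affine maps x ↦ Ax + b, containing all translations, and acting primitively on V. Then any permutation σ of V that agrees on every triple of points with some element of G (σ preserves every G-orbit on ordered triples) already lies in G. -/
theorem result (p : ℕ) [Fact p.Prime] (G : Subgroup (Equiv.Perm (Fin 2 → ZMod p)))
    (haff : (G : Set (Equiv.Perm (Fin 2 → ZMod p))) ⊆ {τ : Equiv.Perm (Fin 2 → ZMod p) | ∃ (A : (Fin 2 → ZMod p) ≃ₗ[ZMod p] (Fin 2 → ZMod p)) (b : Fin 2 → ZMod p), ∀ x, τ x = A x + b})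
    (htrans : ∀ b : Fin 2 → ZMod p, ∃ g ∈ G, ∀ x, g x = x + b) (hprim : MulAction.IsPreprimitive G (Fin 2 → ZMod p))
    (σ : Equiv.Perm (Fin 2 → ZMod p)) (hσ : (∀ t : Fin 3 → (Fin 2 → ZMod p), ∃ g ∈ G, ∀ i, σ (t i) = g (t i))) : σ ∈ G := by
  obtain ⟨g, hg, hgt⟩ := hσ ![0, Pi.single 0 1, Pi.single 1 1]
  have h0 : σ 0 = g 0 := hgt 0
  have h1 : σ (Pi.single 0 1) = g (Pi.single 0 1) := hgt 1
  have h2 : σ (Pi.single 1 1) = g (Pi.single 1 1) := hgt 2
  suffices hs : σ = g by rw [hs]; exact hg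
  by_cases hp : p = 2
  · subst hp
    ext1 x
    rcases four x with rfl | rfl | rfl | rfl
    · exact h0
    · exact h1
    · exact h2
    · set x : Fin 2 → ZMod 2 := Pi.single 0 1 + Pi.single 1 1 with hx
      have hx0 : x ≠ 0 := ne0
      have hx1 : x ≠ Pi.single 0 1 := ne1
      have hx2 : x ≠ Pi.single 1 1 := ne2
      obtain ⟨y, hy⟩ := g.surjective (σ x)
      rcases four y with rfl | rfl | rfl | rfl
      · rw [← h0] at hy; exact (hx0 (σ.injective hy).symm).elim
      · rw [← h1] at hy; exact (hx1 (σ.injective hy).symm).elim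
      · rw [← h2] at hy; exact (hx2 (σ.injective hy).symm).elim
      · exact hy.symm
  · obtain ⟨A, b, hAb⟩ := Cfsg.Agent.Lib.Helper63Affine.affine_of_three_closed p hp σ (by
      intro t
      obtain ⟨g', hg', hgt'⟩ := hσ t
      obtain ⟨A, b, hAb⟩ := haff hg'
      exact ⟨A, b, fun i => by rw [hgt' i, hAb]⟩)
    obtain ⟨A', b', hAb'⟩ := haff hg
    rw [hAb, hAb'] at h0 h1 h2
    simp only [map_zero, zero_add] at h0
    subst h0
    have e1 : A (Pi.single 0 1) = A' (Pi.single 0 1) := add_right_cancel h1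
    have e2 : A (Pi.single 1 1) = A' (Pi.single 1 1) := add_right_cancel h2
    ext1 x
    have hx : x = x 0 • Pi.single 0 1 + x 1 • Pi.single 1 1 := by
      funext i
      fin_cases i <;> simp
    rw [hAb, hAb', hx]
    simp only [map_add, map_smul, e1, e2]

end Cfsg.Agent.S3515
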