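import Cfsg.Statements.S3516
import Cfsg.Agent.Lib.Helper63Affine

set_option autoImplicit false
open Cfsg

namespace Cfsg.Agent.S3516

/-- Let p be an odd prime, d ≥ 3, and G a group of affine permutations x ↦ Ax + b of V = F_p^d containing all translations and all maps x ↦ Ax with A of determinant 1. Then the 3-closure of G is the full affine group: a permutation σ of V agrees on every triple of points with some element of G if and only if σ is an affine map. -/
theorem result (p : ℕ) [Fact p.Prime] (hp : p ≠ 2) (d : ℕ) (hd : 3 ≤ d) (G : Subgroup (Equiv.Perm (Fin d → ZMod p)))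
    (haff : (G : Set (Equiv.Perm (Fin d → ZMod p))) ⊆ {τ : Equiv.Perm (Fin d → ZMod p) | ∃ (A : (Fin d → ZMod p) ≃ₗ[ZMod p] (Fin d → ZMod p)) (b : Fin d → ZMod p), ∀ x, τ x = A x + b})
    (htrans : ∀ b : Fin d → ZMod p, ∃ g ∈ G, ∀ x, g x = x + b)
    (hsl : ∀ A : (Fin d → ZMod p) ≃ₗ[ZMod p] (Fin d → ZMod p), LinearMap.det (A : (Fin d → ZMod p) →ₗ[ZMod p] (Fin d → ZMod p)) = 1 → ∃ g ∈ G, ∀ x, g x = A x)
    (σ : Equiv.Perm (Fin d → ZMod p)) :
    (∀ t : Fin 3 → (Fin d → ZMod p), ∃ g ∈ G, ∀ i, σ (t i) = g (t i)) ↔ σ ∈ {τ : Equiv.Perm (Fin d → ZMod p) | ∃ (A : (Fin d → ZMod p) ≃ₗ[ZMod p] (Fin d → ZMod p)) (b : Fin d → ZMod p), ∀ x, τ x = A x + b} := by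
  classical
  constructor
  · intro h
    apply Cfsg.Agent.Lib.Helper63Affine.affine_of_three_closed p hp σ
    intro t
    obtain ⟨g, hg, hgt⟩ := h t
    obtain ⟨A, b, hAb⟩ := haff hg
    exact ⟨A, b, fun i => by rw [hgt i, hAb]⟩
  · rintro ⟨A, b, hAb⟩ t
    set W : Submodule (ZMod p) (Fin d → ZMod p) :=
      Submodule.span (ZMod p) (Set.range ![t 1 - t 0, t 2 - t 0]) with hW
    have hWtop : W < ⊤ := by
      rw [lt_top_iff_ne_top]
      intro htop
      have h1 : Module.finrank (ZMod p) W ≤ 2 := by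
        have := finrank_range_le_card (R := ZMod p) ![t 1 - t 0, t 2 - t 0]
        simpa [Set.finrank] using this
      rw [htop, finrank_top, Module.finrank_fin_fun] at h1
      omega
    have hdet : LinearMap.det (A : (Fin d → ZMod p) →ₗ[ZMod p] (Fin d → ZMod p)) ≠ 0 :=
      (LinearEquiv.isUnit_det' A).ne_zero
    obtain ⟨B, hB, hBdet⟩ := Cfsg.Agent.Lib.Helper63Affine.exists_linearEquiv_det W hWtop
      (LinearMap.det (A : (Fin d → ZMod p) →ₗ[ZMod p] (Fin d → ZMod p)))⁻¹ (inv_ne_zero hdet)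
    obtain ⟨g₁, hg₁, hg₁'⟩ := hsl (B ≪≫ₗ A) (by
      rw [LinearEquiv.coe_trans, LinearMap.det_comp, hBdet, mul_inv_cancel₀ hdet])
    obtain ⟨g₂, hg₂, hg₂'⟩ := htrans (σ (t 0) - A (B (t 0)))
    refine ⟨g₂ * g₁, G.mul_mem hg₂ hg₁, fun i => ?_⟩
    have hmem : t i - t 0 ∈ W := by
      fin_cases i
      · simp
      · exact Submodule.subset_span ⟨0, rfl⟩
      · exact Submodule.subset_span ⟨1, rfl⟩
    rw [Equiv.Perm.mul_apply, hg₂', hg₁', LinearEquiv.trans_apply]
    have h1 : B (t i) = (t i - t 0) + B (t 0) := by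
      rw [← hB _ hmem, ← map_add]; simp
    rw [h1, map_add, hAb, hAb, map_sub]
    abel

end Cfsg.Agent.S3516
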