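import Cfsg.Statements.S3517
import Cfsg.Agent.Lib.Helper63Affine

set_option autoImplicit false
open Cfsg

namespace Cfsg.Agent.S3517

theorem key {d : ℕ} (a b c : Fin d → ZMod 2) : (b - a) + (c - a) = 0 ↔ b = c := by
  have h2 : ∀ z : ZMod 2, z + z = 0 := by decide
  have hV : ∀ x : Fin d → ZMod 2, x + x = 0 := fun x => funext fun i => h2 (x i)
  have e : (b - a) + (c - a) = (b + c) - (a + a) := by abel
  rw [e, hV a, sub_zero]
  constructor
  · intro h
    calc b = (b + c) + c - (c + c) := by abel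
      _ = c := by rw [h, hV c]; simp
  · rintro rfl
    exact hV b

/-- For d ≥ 3, the 3-closure of the affine group AGL_d(2) acting on F_2^d is the full symmetric group: every permutation of F_2^d agrees on every ordered triple of points with some affine map (AGL_d(2) is 3-transitive). -/
theorem result (d : ℕ) (hd : 3 ≤ d) (σ : Equiv.Perm (Fin d → ZMod 2)) (t : Fin 3 → (Fin d → ZMod 2)) :
    ∃ (A : (Fin d → ZMod 2) ≃ₗ[ZMod 2] (Fin d → ZMod 2)) (b : Fin d → ZMod 2), ∀ i, σ (t i) = A (t i) + b := by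
  classical
  set u1 := t 1 - t 0 with hu1
  set u2 := t 2 - t 0 with hu2
  set w1 := σ (t 1) - σ (t 0) with hw1
  set w2 := σ (t 2) - σ (t 0) with hw2
  let U : (Fin 2 → ZMod 2) →ₗ[ZMod 2] (Fin d → ZMod 2) :=
    (LinearMap.proj 0).smulRight u1 + (LinearMap.proj 1).smulRight u2
  let W : (Fin 2 → ZMod 2) →ₗ[ZMod 2] (Fin d → ZMod 2) :=
    (LinearMap.proj 0).smulRight w1 + (LinearMap.proj 1).smulRight w2
  have hU : ∀ c, U c = c 0 • u1 + c 1 • u2 := fun c => rfl
  have hW : ∀ c, W c = c 0 • w1 + c 1 • w2 := fun c => rfl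
  have hz : ∀ z : ZMod 2, z = 0 ∨ z = 1 := by decide
  have hker : LinearMap.ker U = LinearMap.ker W := by
    ext c
    rw [LinearMap.mem_ker, LinearMap.mem_ker, hU, hW]
    rcases hz (c 0) with h0 | h0 <;> rcases hz (c 1) with h1 | h1 <;> rw [h0, h1] <;>
      simp only [zero_smul, one_smul, add_zero, zero_add]
    · rw [hu2, hw2, sub_eq_zero, sub_eq_zero]
      exact σ.injective.eq_iff.symm
    · rw [hu1, hw1, sub_eq_zero, sub_eq_zero]
      exact σ.injective.eq_iff.symm
    · rw [hu1, hu2, hw1, hw2, key, key]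
      exact σ.injective.eq_iff.symm
  obtain ⟨g, hg⟩ := Cfsg.Agent.Lib.Helper63Affine.exists_linearEquiv_of_ker_eq U W hker
  have g1 : g u1 = w1 := by
    have := hg ![1, 0]
    rw [hU, hW] at this
    simpa using this
  have g2 : g u2 = w2 := by
    have := hg ![0, 1]
    rw [hU, hW] at this
    simpa using this
  refine ⟨g, σ (t 0) - g (t 0), fun i => ?_⟩
  fin_cases i
  · simp
  · have : g (t 1) = g u1 + g (t 0) := by rw [← map_add, hu1]; simp
    simp only [Fin.mk_one]
    rw [this, g1, hw1]; abel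
  · have : g (t 2) = g u2 + g (t 0) := by rw [← map_add, hu2]; simp
    simp only [Fin.reduceFinMk]
    rw [this, g2, hw2]; abel

end Cfsg.Agent.S3517
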