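import Cfsg.Statements.S3518
import Cfsg.Agent.Lib.Helper63Redei
import Cfsg.Agent.S3524

set_option autoImplicit false
open Cfsg

namespace Cfsg.Agent.S3518

theorem part_one (p : ℕ) [Fact p.Prime] (G : Subgroup (Equiv.Perm (ZMod p)))
    (hG : G ≤ Cfsg.affineGroup (ZMod p))
    (htrans : ∀ b : ZMod p, ∃ g ∈ G, ∀ x, g x = x + b) (hne : G ≠ Cfsg.affineGroup (ZMod p))
    (σ : Equiv.Perm (ZMod p)) (hσ : ∀ t : Fin 2 → ZMod p, ∃ g ∈ G, ∀ i, σ (t i) = g (t i)) :
    σ ∈ G := by
  classical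
  have hp : p.Prime := Fact.out
  let μ : (ZMod p)ˣ →* Equiv.Perm (ZMod p) := MulAction.toPermHom (ZMod p)ˣ (ZMod p)
  have hμ : ∀ (a : (ZMod p)ˣ) (x : ZMod p), μ a x = (a : ZMod p) * x := fun a x => rfl
  set A : Subgroup (ZMod p)ˣ := G.comap μ with hA
  have hmemA : ∀ (g : Equiv.Perm (ZMod p)) (a : (ZMod p)ˣ) (b : ZMod p), g ∈ G →
      (∀ x, g x = (a : ZMod p) * x + b) → a ∈ A := by
    intro g a b hg hgab
    obtain ⟨T, hT, hT'⟩ := htrans (-b)
    have : μ a = T * g := by
      ext1 x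
      rw [Equiv.Perm.mul_apply, hT', hgab, hμ]
      ring
    rw [hA, Subgroup.mem_comap, this]
    exact G.mul_mem hT hg
  have hAtop : A ≠ ⊤ := by
    intro htop
    apply hne
    apply le_antisymm hG
    rintro τ ⟨a, b, hτ⟩
    obtain ⟨T, hT, hT'⟩ := htrans b
    have ha : μ a ∈ G := by
      have : a ∈ A := by rw [htop]; trivial
      exact this
    have : τ = T * μ a := by
      ext1 x
      rw [Equiv.Perm.mul_apply, hT', hμ, hτ]
    rw [this]
    exact G.mul_mem hT ha
  have hAcard : 2 * Nat.card A ≤ p - 1 := by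
    have h1 := A.card_mul_index
    rw [Nat.card_eq_fintype_card (α := (ZMod p)ˣ), ZMod.card_units] at h1
    have h2 : A.index ≠ 1 := fun h => hAtop (Subgroup.index_eq_one.mp h)
    have h3 : A.index ≠ 0 := Subgroup.index_ne_zero_of_finite
    have h4 : 2 ≤ A.index := by omega
    calc 2 * Nat.card A = Nat.card A * 2 := by ring
      _ ≤ Nat.card A * A.index := Nat.mul_le_mul_left _ h4
      _ = p - 1 := h1
  set S : Finset (ZMod p) := Finset.univ.filter (fun c => ∃ a ∈ A, (a : ZMod p) = c) with hS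
  set U : Finset (ZMod p) := Finset.univ.filter (fun c => ¬ ∃ a ∈ A, (a : ZMod p) = c) with hU
  have hScard : S.card ≤ Nat.card A := by
    haveI : Fintype A := Fintype.ofFinite A
    have : S = (Finset.univ : Finset ↥A).image (fun a : ↥A => ((a : (ZMod p)ˣ) : ZMod p)) := by
      ext c
      simp only [hS, Finset.mem_filter, Finset.mem_univ, true_and, Finset.mem_image]
      constructor
      · rintro ⟨a, ha, rfl⟩
        exact ⟨⟨a, ha⟩, rfl⟩
      · rintro ⟨a, rfl⟩
        exact ⟨a, a.2, rfl⟩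
    rw [this, Nat.card_eq_fintype_card, ← Finset.card_univ]
    exact Finset.card_image_le
  have hSU : S.card + U.card = p := by
    rw [hS, hU, Finset.card_filter_add_card_filter_not, Finset.card_univ, ZMod.card]
  have hUcard : p + 1 ≤ 2 * U.card := by
    have := hp.one_le
    omega
  have hinj : ∀ c ∈ U, Function.Injective (fun x => σ x - c * x) := by
    intro c hc x y hxy
    by_contra hne'
    obtain ⟨g, hg, hgt⟩ := hσ ![x, y]
    obtain ⟨a, b, hgab⟩ := hG hg
    have h0 : σ x = g x := hgt 0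
    have h1 : σ y = g y := hgt 1
    have hxy' : σ x - c * x = σ y - c * y := hxy
    rw [h0, h1, hgab, hgab] at hxy'
    have h2 : ((a : ZMod p) - c) * (x - y) = 0 := by linear_combination hxy'
    rcases mul_eq_zero.mp h2 with h | h
    · have hc' : ¬ ∃ a ∈ A, (a : ZMod p) = c := by
        simpa [hU] using hc
      exact hc' ⟨a, hmemA g a b hg hgab, sub_eq_zero.mp h⟩
    · exact hne' (sub_eq_zero.mp h)
  obtain ⟨a, b, hab⟩ := Cfsg.Agent.Lib.Helper63Redei.affine_of_few_directions p σ U hinj hUcard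
  obtain ⟨g, hg, hgt⟩ := hσ ![0, 1]
  obtain ⟨a', b', hgab⟩ := hG hg
  have h0 : σ 0 = g 0 := hgt 0
  have h1 : σ 1 = g 1 := hgt 1
  rw [hab, hgab] at h0 h1
  simp only [mul_zero, zero_add, mul_one] at h0 h1
  have : σ = g := by
    ext1 x
    rw [hab, hgab, h0]
    rw [h0] at h1
    rw [add_right_cancel h1]
  rw [this]; exact hg

theorem part_two (p : ℕ) [Fact p.Prime] (σ : Equiv.Perm (ZMod p)) (t : Fin 2 → ZMod p) :
    ∃ g ∈ Cfsg.affineGroup (ZMod p), ∀ i, σ (t i) = g (t i) := by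
  let μ : (ZMod p)ˣ →* Equiv.Perm (ZMod p) := MulAction.toPermHom (ZMod p)ˣ (ZMod p)
  have hμ : ∀ (a : (ZMod p)ˣ) (x : ZMod p), μ a x = (a : ZMod p) * x := fun a x => rfl
  have main : ∃ (a : (ZMod p)ˣ) (b : ZMod p), ∀ i, σ (t i) = (a : ZMod p) * t i + b := by
    by_cases h : t 0 = t 1
    · refine ⟨1, σ (t 0) - t 0, fun i => ?_⟩
      fin_cases i
      · simp
      · simp [← h]
    · have h1 : t 1 - t 0 ≠ 0 := fun hc => h (sub_eq_zero.mp hc).symm
      have h2 : σ (t 1) - σ (t 0) ≠ 0 := fun hc => h (σ.injective (sub_eq_zero.mp hc)).symm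
      refine ⟨Units.mk0 ((σ (t 1) - σ (t 0)) / (t 1 - t 0)) (div_ne_zero h2 h1),
        σ (t 0) - (σ (t 1) - σ (t 0)) / (t 1 - t 0) * t 0, fun i => ?_⟩
      fin_cases i
      · simp
      · simp only [Units.val_mk0, Fin.mk_one]
        field_simp
        ring
  obtain ⟨a, b, hab⟩ := main
  refine ⟨Equiv.addRight b * μ a, ⟨a, b, fun x => ?_⟩, fun i => ?_⟩
  · rw [Equiv.Perm.mul_apply, hμ]; rfl
  · rw [Equiv.Perm.mul_apply, hμ, hab i]; rfl

/-- Closures of subgroups of the one-dimensional affine group. Let p be a prime and G a group of permutations of F_p lying in the affine group AGL₁(p) = {x ↦ ax + b, a ≠ 0} and containing all translations. (1) If G is a proper subgroup of AGL₁(p), then G is 2-closed: a permutation of F_p agreeing on every ordered pair of points with some element of G lies in G. (2) Every permutation of F_p agrees on every ordered pair with some element of AGL₁(p) (the 2-closure of AGL₁(p) is the symmetric group). (3) AGL₁(p) is 3-closed: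 a permutation agreeing on every ordered triple with some affine map is affine. -/
theorem result (p : ℕ) [Fact p.Prime] (G : Subgroup (Equiv.Perm (ZMod p))) (hG : G ≤ Cfsg.affineGroup (ZMod p))
    (htrans : ∀ b : ZMod p, ∃ g ∈ G, ∀ x, g x = x + b) :
    (G ≠ Cfsg.affineGroup (ZMod p) → ∀ σ : Equiv.Perm (ZMod p), (∀ t : Fin 2 → ZMod p, ∃ g ∈ G, ∀ i, σ (t i) = g (t i)) → σ ∈ G) ∧
    (∀ σ : Equiv.Perm (ZMod p), (∀ t : Fin 2 → ZMod p, ∃ g ∈ Cfsg.affineGroup (ZMod p), ∀ i, σ (t i) = g (t i))) ∧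
    (∀ σ : Equiv.Perm (ZMod p), (∀ t : Fin 3 → ZMod p, ∃ g ∈ Cfsg.affineGroup (ZMod p), ∀ i, σ (t i) = g (t i)) → σ ∈ Cfsg.affineGroup (ZMod p)) := by
  refine ⟨fun hne σ hσ => part_one p G hG htrans hne σ hσ, fun σ t => part_two p σ t, ?_⟩
  intro σ hσ
  apply Cfsg.Agent.S3524.result (Cfsg.affineGroup (ZMod p)) 2 ![0, 1] _ σ hσ
  rintro g ⟨a, b, hab⟩ hfix
  have h0 : g 0 = 0 := hfix 0
  have h1 : g 1 = 1 := hfix 1
  rw [hab] at h0 h1
  simp only [mul_zero, zero_add, mul_one] at h0 h1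
  rw [h0, add_zero] at h1
  ext1 x
  rw [hab, h0, h1]
  simp

end Cfsg.Agent.S3518
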