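import Cfsg.Statements.S3559
import Cfsg.Agent.Lib.Helper75SchurC

set_option autoImplicit false
open Cfsg

namespace Cfsg.Agent.S3559

/-- Let G act faithfully and transitively on a finite set whose number of points n ≥ 2 is not a prime power, and suppose G has a cyclic subgroup acting regularly (transitively with trivial point stabilizers). Then G is imprimitive or doubly transitive. -/
theorem result {G Ω : Type*} [Group G] [Finite G] [MulAction G Ω] [FaithfulSMul G Ω] [Finite Ω]
    (htrans : MulAction.IsPretransitive G Ω) (hn : 2 ≤ Nat.card Ω) (hnp : ¬ IsPrimePow (Nat.card Ω))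
    (C : Subgroup G) (hcyc : IsCyclic ↥C) (hC : MulAction.IsPretransitive ↥C Ω ∧ ∀ a : Ω, MulAction.stabilizer ↥C a = ⊥) :
    ¬ MulAction.IsPreprimitive G Ω ∨ MulAction.IsMultiplyPretransitive G Ω 2 := by
  classical
  by_cases hprim : MulAction.IsPreprimitive G Ω
  swap
  · exact Or.inl hprim
  right
  obtain ⟨c0, hc0⟩ := hcyc.exists_generator
  have htr : MulAction.IsPretransitive (Subgroup.zpowers (c0 : G)) Ω := by
    constructor
    intro x y
    obtain ⟨z, hz⟩ := hC.1.exists_smul_eq x y
    obtain ⟨i, hi⟩ := Subgroup.mem_zpowers_iff.1 (hc0 z)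
    refine ⟨⟨(c0 : G) ^ i, Subgroup.zpow_mem_zpowers _ _⟩, ?_⟩
    rw [← hz, ← hi]
    rfl
  obtain ⟨p, hp, hpn⟩ := Nat.exists_prime_and_dvd (n := Nat.card Ω) (by omega)
  obtain ⟨k, hk⟩ := hpn
  have hk2 : 2 ≤ k := by
    by_contra h
    have : k = 0 ∨ k = 1 := by omega
    rcases this with rfl | rfl
    · omega
    · apply hnp
      rw [hk, mul_one]
      exact hp.isPrimePow
  exact Cfsg.Agent.Lib.Helper75Schur.schur hprim (c0 : G) htr hp hk2 hk

end Cfsg.Agent.S3559
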