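import Cfsg.Statements.S3560

set_option autoImplicit false
open Cfsg

namespace Cfsg.Agent.S3560

open MulAction
open scoped Pointwise

theorem exists_equiv2 {A B : Type*} [Finite A] [Finite B] (h : Nat.card A = Nat.card B)
    (u u' : A) (v v' : B) (huv : u' = u ↔ v' = v) : ∃ β : A ≃ B, β u = v ∧ β u' = v' := by
  classical
  let β₀ : A ≃ B := (Finite.card_eq.mp h).some
  let β₁ : A ≃ B := β₀.trans (Equiv.swap (β₀ u) v)
  have h1 : β₁ u = v := by simp [β₁]
  by_cases hu : u' = u
  · refine ⟨β₁, h1, ?_⟩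
    rw [hu, h1, huv.mp hu]
  · have hv : v' ≠ v := fun h => hu (huv.mpr h)
    have h2 : β₁ u' ≠ v := by
      rw [← h1]
      exact fun h => hu (β₁.injective h)
    refine ⟨β₁.trans (Equiv.swap (β₁ u') v'), ?_, ?_⟩
    · rw [Equiv.trans_apply, h1]
      exact Equiv.swap_apply_of_ne_of_ne h2.symm hv.symm
    · simp

section Hamming
variable {ι : Type*} [Fintype ι] [DecidableEq ι] {F : ι → Type*} [∀ i, DecidableEq (F i)]

/-- The group of isometries of the Hamming space. -/
def isoGroup (F : ι → Type*) [∀ i, DecidableEq (F i)] : Subgroup (Equiv.Perm (∀ i, F i)) where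
  carrier := {σ | ∀ x y, hammingDist (σ x) (σ y) = hammingDist x y}
  one_mem' := fun x y => rfl
  mul_mem' := fun {a b} ha hb x y => by
    rw [Equiv.Perm.mul_apply, Equiv.Perm.mul_apply, ha, hb]
  inv_mem' := fun {a} ha x y => by
    have := ha (a⁻¹ x) (a⁻¹ y)
    rw [← Equiv.Perm.mul_apply, ← Equiv.Perm.mul_apply, mul_inv_cancel] at this
    exact this.symm

theorem piCongr_mem (τ : Equiv.Perm ι) (h : ∀ a, F a ≃ F (τ a)) :
    (Equiv.piCongr τ h : Equiv.Perm (∀ i, F i)) ∈ isoGroup F := by
  intro x y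
  unfold hammingDist
  symm
  apply Finset.card_bij (fun a _ => τ a)
  · intro a ha
    simp only [Finset.mem_filter, Finset.mem_univ, true_and] at ha ⊢
    rw [Equiv.piCongr_apply_apply, Equiv.piCongr_apply_apply]
    exact fun hc => ha ((h a).injective hc)
  · intro a _ b _ hab
    exact τ.injective hab
  · intro b hb
    obtain ⟨a, rfl⟩ := τ.surjective b
    simp only [Finset.mem_filter, Finset.mem_univ, true_and] at hb ⊢
    rw [Equiv.piCongr_apply_apply, Equiv.piCongr_apply_apply] at hb
    exact ⟨a, fun hc => hb (by rw [hc]), rfl⟩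

theorem exists_iso [∀ i, Finite (F i)] (hF : ∀ i j, Nat.card (F i) = Nat.card (F j))
    (τ : Equiv.Perm ι) (a x b y : ∀ i, F i)
    (h : ∀ k, x k = a k ↔ y (τ k) = b (τ k)) : ∃ T ∈ isoGroup F, T a = b ∧ T x = y := by
  choose h₂ h₃ h₄ using fun k => exists_equiv2 (hF k (τ k)) (a k) (x k) (b (τ k)) (y (τ k)) (h k)
  refine ⟨Equiv.piCongr τ h₂, piCongr_mem τ h₂, ?_, ?_⟩
  · funext l
    obtain ⟨k, rfl⟩ := τ.surjective l
    rw [Equiv.piCongr_apply_apply, h₃]
  · funext l
    obtain ⟨k, rfl⟩ := τ.surjective l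
    rw [Equiv.piCongr_apply_apply, h₄]

theorem block_step {B : Set (∀ i, F i)} (hB : IsBlock (isoGroup F) B) {T : Equiv.Perm (∀ i, F i)}
    (hT : T ∈ isoGroup F) {p q : ∀ i, F i} (hp : p ∈ B) (hTp : T p ∈ B) (hq : q ∈ B) : T q ∈ B := by
  have h1 : (⟨T, hT⟩ : isoGroup F) • B = B := hB.smul_eq_of_mem hp hTp
  rw [← h1]
  exact Set.smul_mem_smul_set (a := (⟨T, hT⟩ : isoGroup F)) hq

theorem isoGroup_pretransitive [∀ i, Finite (F i)] (hF : ∀ i j, Nat.card (F i) = Nat.card (F j)) :
    IsPretransitive (isoGroup F) (∀ i, F i) := by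
  refine ⟨fun a b => ?_⟩
  obtain ⟨T, hT, h1, _⟩ := exists_iso hF 1 a a b b (fun k => by simp)
  exact ⟨⟨T, hT⟩, h1⟩

theorem isoGroup_preprimitive [∀ i, Finite (F i)] (hF : ∀ i j, Nat.card (F i) = Nat.card (F j))
    (h3 : ∀ i, 3 ≤ Nat.card (F i)) (a : ∀ i, F i) :
    IsPreprimitive (isoGroup F) (∀ i, F i) := by
  haveI := isoGroup_pretransitive hF
  apply IsPreprimitive.of_isTrivialBlock_base a
  intro B ha hB
  by_cases hsub : B.Subsingleton
  · exact Or.inl hsub
  right
  rw [Set.not_subsingleton_iff] at hsub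
  obtain ⟨b, hb, hba⟩ := hsub.exists_ne a
  -- a coordinate where they differ
  obtain ⟨i, hi⟩ : ∃ i, b i ≠ a i := by
    by_contra hcon
    push Not at hcon
    exact hba (funext hcon)
  -- a third value
  obtain ⟨c, hc1, hc2⟩ : ∃ c : F i, c ≠ a i ∧ c ≠ b i := by
    haveI := Fintype.ofFinite (F i)
    have h := h3 i
    rw [Nat.card_eq_fintype_card] at h
    have : ({a i, b i} : Finset (F i)).card < Fintype.card (F i) := by
      have := Finset.card_le_two (a := a i) (b := b i)
      omega
    obtain ⟨c, hc⟩ := Finset.exists_mem_notMem_of_card_lt_card (s := {a i, b i})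
      (t := Finset.univ) (by rwa [Finset.card_univ])
    simp only [Finset.mem_univ, Finset.mem_insert, Finset.mem_singleton, not_or, true_and] at hc
    exact ⟨c, hc.1, hc.2⟩
  -- the point b' is in B
  have hb' : Function.update b i c ∈ B := by
    obtain ⟨T, hT, h1, h2⟩ := exists_iso hF 1 a b a (Function.update b i c) (fun k => by
      by_cases hk : k = i
      · subst hk
        simp [hi, hc1]
      · simp [Function.update_of_ne hk])
    rw [← h2]
    exact block_step hB hT ha (by rw [h1]; exact ha) hb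
  -- neighbours
  have hnb : ∀ y ∈ B, ∀ (j : ι) (e : F j), Function.update y j e ∈ B := by
    intro y hy j e
    by_cases he : e = y j
    · rw [he, Function.update_eq_self]; exact hy
    obtain ⟨T, hT, h1, h2⟩ := exists_iso hF (Equiv.swap i j) b (Function.update b i c) y
      (Function.update y j e) (fun k => by
      by_cases hk : k = i
      · subst hk
        have key : ∀ l, l = j → ¬ (Function.update y j e l = y l) := by
          rintro l rfl
          simpa using he
        exact iff_of_false (by simpa using hc2) (key _ (Equiv.swap_apply_left k j))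
      · have : Equiv.swap i j k ≠ j := by
          intro h
          apply hk
          have := congrArg (Equiv.swap i j) h
          simpa using this
        simp [Function.update_of_ne hk, Function.update_of_ne this])
    rw [← h2]
    exact block_step hB hT hb (by rw [h1]; exact hy) hb'
  -- connectivity
  rw [Set.eq_univ_iff_forall]
  intro x
  have hs : ∀ s : Finset ι, (fun k => if k ∈ s then x k else a k) ∈ B := by
    intro s
    induction s using Finset.induction_on with
    | empty => simpa using ha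
    | insert j s hj ih =>
      have := hnb _ ih j (x j)
      convert this using 1
      funext k
      by_cases hk : k = j
      · subst hk; simp
      · simp [Function.update_of_ne hk, hk]
  simpa using hs Finset.univ

theorem mul_left_mem [∀ i, Group (F i)] (k : ∀ i, F i) :
    (MulAction.toPermHom (∀ i, F i) (∀ i, F i) k) ∈ isoGroup F := by
  intro x y
  unfold hammingDist
  congr 1
  ext i
  simp [MulAction.toPermHom_apply, MulAction.toPerm_apply]

theorem not_two_trans (i j : ι) (hij : i ≠ j) (a : ∀ i, F i) (u : F i) (hu : u ≠ a i) (v : F j)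
    (hv : v ≠ a j) : ¬ IsMultiplyPretransitive (isoGroup F) (∀ i, F i) 2 := by
  intro h
  rw [is_two_pretransitive_iff] at h
  have h1 : a ≠ Function.update a i u := by
    intro hc
    have := congrFun hc i
    simp at this
    exact hu this.symm
  have h2 : a ≠ Function.update (Function.update a i u) j v := by
    intro hc
    have := congrFun hc j
    simp at this
    exact hv this.symm
  obtain ⟨⟨T, hT⟩, h3, h4⟩ := h h1 h2
  have h3' : T a = a := h3
  have h4' : T (Function.update a i u) = Function.update (Function.update a i u) j v := h4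
  have h5 := hT a (Function.update a i u)
  rw [h3', h4'] at h5
  have d1 : hammingDist a (Function.update a i u) = 1 := by
    unfold hammingDist
    rw [Finset.card_eq_one]
    refine ⟨i, ?_⟩
    ext k
    by_cases hk : k = i
    · subst hk; simpa using hu.symm
    · simp [Function.update_of_ne hk, hk]
  have d2 : hammingDist a (Function.update (Function.update a i u) j v) = 2 := by
    unfold hammingDist
    rw [Finset.card_eq_two]
    refine ⟨i, j, hij, ?_⟩
    ext k
    by_cases hk : k = j
    · subst hk; simpa using hv.symm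
    · by_cases hk' : k = i
      · subst hk'; simpa [Function.update_of_ne hk] using hu.symm
      · simp [Function.update_of_ne hk, Function.update_of_ne hk', hk, hk']
  rw [d1, d2] at h5
  omega

end Hamming

theorem transport {X : Type*} [Finite X] (G₀ R₀ : Subgroup (Equiv.Perm X)) (hle : R₀ ≤ G₀)
    {K : Type*} [Group K] (hK : Nonempty (R₀ ≃* K)) (h1 : IsPretransitive R₀ X)
    (h2 : ∀ a : X, stabilizer R₀ a = ⊥) (h3 : IsPreprimitive G₀ X)
    (h4 : ¬ IsMultiplyPretransitive G₀ X 2) :
    ∃ (n : ℕ) (G R : Subgroup (Equiv.Perm (Fin n))), R ≤ G ∧ Nonempty (↥R ≃* K) ∧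
      MulAction.IsPretransitive ↥R (Fin n) ∧ (∀ a : Fin n, MulAction.stabilizer ↥R a = ⊥) ∧
      MulAction.IsPreprimitive ↥G (Fin n) ∧ ¬ MulAction.IsMultiplyPretransitive ↥G (Fin n) 2 := by
  let φ : X ≃ Fin (Nat.card X) := Finite.equivFin X
  let ψ : Equiv.Perm X ≃* Equiv.Perm (Fin (Nat.card X)) := φ.permCongrHom
  have hψ : ∀ (g : Equiv.Perm X) (x : X), ψ g (φ x) = φ (g x) := by
    intro g x
    simp [ψ, Equiv.permCongrHom]
  let σG : G₀ → G₀.map (ψ : Equiv.Perm X →* Equiv.Perm (Fin (Nat.card X))) :=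
    fun g => ψ.subgroupMap G₀ g
  let σR : R₀ → R₀.map (ψ : Equiv.Perm X →* Equiv.Perm (Fin (Nat.card X))) :=
    fun g => ψ.subgroupMap R₀ g
  let fG : X →ₑ[σG] Fin (Nat.card X) :=
    { toFun := φ, map_smul' := fun g x => (hψ g x).symm }
  let fR : X →ₑ[σR] Fin (Nat.card X) :=
    { toFun := φ, map_smul' := fun g x => (hψ g x).symm }
  refine ⟨Nat.card X, G₀.map (ψ : Equiv.Perm X →* _), R₀.map (ψ : Equiv.Perm X →* _),
    Subgroup.map_mono hle, ?_, ?_, ?_, ?_, ?_⟩
  · obtain ⟨e⟩ := hK
    exact ⟨(ψ.subgroupMap R₀).symm.trans e⟩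
  · exact IsPretransitive.of_surjective_map (f := fR) φ.surjective h1
  · intro a
    rw [eq_bot_iff]
    rintro ⟨r, hr⟩ hra
    obtain ⟨r₀, hr₀, rfl⟩ := hr
    obtain ⟨x, rfl⟩ := φ.surjective a
    have h5 : ψ r₀ (φ x) = φ x := hra
    rw [hψ] at h5
    have h6 : (⟨r₀, hr₀⟩ : R₀) ∈ stabilizer R₀ x := φ.injective h5
    rw [h2, Subgroup.mem_bot] at h6
    have h7 : r₀ = 1 := congrArg Subtype.val h6
    rw [Subgroup.mem_bot]
    apply Subtype.ext
    simp [h7]
  · exact IsPreprimitive.of_surjective (f := fG) φ.surjective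
  · intro h
    apply h4
    rw [is_two_pretransitive_iff] at h ⊢
    intro a b c d hab hcd
    obtain ⟨⟨g, hg⟩, h5, h6⟩ := h (a := φ a) (b := φ b) (c := φ c) (d := φ d)
      (fun h => hab (φ.injective h)) (fun h => hcd (φ.injective h))
    obtain ⟨g₀, hg₀, rfl⟩ := hg
    have h5' : ψ g₀ (φ a) = φ c := h5
    have h6' : ψ g₀ (φ b) = φ d := h6
    rw [hψ] at h5' h6'
    exact ⟨⟨g₀, hg₀⟩, φ.injective h5', φ.injective h6'⟩

/-- Let K be a finite group isomorphic to a direct product of r ≥ 2 groups all of the same order m ≥ 3. Then K is not a B-group: there is a primitive but not doubly transitive permutation group (on some finite set) containing a regular subgroup isomorphic to K. -/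
theorem result {K : Type*} [Group K] [Finite K] {ι : Type*} [Fintype ι] (F : ι → Type*) [∀ i, Group (F i)]
    (hr : 2 ≤ Fintype.card ι) (m : ℕ) (hm : 3 ≤ m) (hcard : ∀ i, Nat.card (F i) = m) (e : K ≃* (∀ i, F i)) :
    ∃ (n : ℕ) (G R : Subgroup (Equiv.Perm (Fin n))), R ≤ G ∧ Nonempty (↥R ≃* K) ∧
      MulAction.IsPretransitive ↥R (Fin n) ∧ (∀ a : Fin n, MulAction.stabilizer ↥R a = ⊥) ∧
      MulAction.IsPreprimitive ↥G (Fin n) ∧ ¬ MulAction.IsMultiplyPretransitive ↥G (Fin n) 2 := by
  classical
  haveI hfin : ∀ i, Finite (F i) := fun i => by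
    apply Nat.finite_of_card_ne_zero
    rw [hcard i]; omega
  have hF : ∀ i j, Nat.card (F i) = Nat.card (F j) := fun i j => by rw [hcard i, hcard j]
  have h3 : ∀ i, 3 ≤ Nat.card (F i) := fun i => by rw [hcard i]; exact hm
  obtain ⟨i, j, hij⟩ := Fintype.exists_pair_of_one_lt_card (α := ι) (by omega)
  have hne : ∀ k : ι, ∃ u : F k, u ≠ 1 := by
    intro k
    haveI : Nontrivial (F k) := by
      rw [← Finite.one_lt_card_iff_nontrivial]
      have := h3 k; omega
    exact exists_ne 1
  obtain ⟨u, hu⟩ := hne i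
  obtain ⟨v, hv⟩ := hne j
  let ρ : (∀ i, F i) →* Equiv.Perm (∀ i, F i) := MulAction.toPermHom (∀ i, F i) (∀ i, F i)
  have hρ : Function.Injective ρ := MulAction.toPerm_injective
  apply transport (isoGroup F) ρ.range
  · rintro _ ⟨k, rfl⟩
    exact mul_left_mem k
  · exact ⟨(MonoidHom.ofInjective hρ).symm.trans e.symm⟩
  · refine ⟨fun x y => ⟨⟨ρ (y * x⁻¹), ⟨_, rfl⟩⟩, ?_⟩⟩
    change (y * x⁻¹) * x = y
    simp
  · intro a
    rw [eq_bot_iff]
    rintro ⟨_, ⟨k, rfl⟩⟩ hk
    have hk' : k * a = a := hk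
    have hk1 : k = 1 := by simpa using hk'
    rw [Subgroup.mem_bot]
    apply Subtype.ext
    simp [hk1]
  · exact isoGroup_preprimitive hF h3 1
  · exact not_two_trans i j hij 1 u hu v hv

end Cfsg.Agent.S3560
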