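import Cfsg.Statements.S3573

set_option autoImplicit false
open Cfsg

namespace Cfsg.Agent.S3573

open Equiv Equiv.Perm Finset

theorem image_eq_of_maps {n : ℕ} (σ : Perm (Fin n)) (s : Finset (Fin n))
    (h : ∀ x ∈ s, σ x ∈ s) : s.image σ = s := by
  apply Finset.eq_of_subset_of_card_le
  · intro y hy
    obtain ⟨x, hx, rfl⟩ := Finset.mem_image.mp hy
    exact h x hx
  · rw [Finset.card_image_of_injective _ σ.injective]

/-- forward: a worst-case permutation -/
theorem fwd (n k r : ℕ) [Fact r.Prime] (hrn : r ≤ n)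
    (h : ∀ σ : Perm (Fin n), orderOf σ = r → ∃ s : Finset (Fin n), s.card = k ∧ s.image σ = s) :
    k % r ≤ n % r := by
  have hr : r.Prime := Fact.out
  obtain ⟨σ, hσ⟩ := (exists_with_cycleType_iff (Fin n) (m := Multiset.replicate (n / r) r)).mpr (by
    constructor
    · rw [Multiset.sum_replicate, Fintype.card_fin, smul_eq_mul]
      exact Nat.div_mul_le_self n r
    · intro a ha
      rw [Multiset.eq_of_mem_replicate ha]
      exact hr.two_le)
  have hpow : σ ^ r = 1 := by
    rw [pow_prime_eq_one_iff, hσ]
    intro c hc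
    exact Multiset.eq_of_mem_replicate hc
  have hne : σ ≠ 1 := by
    intro h1
    rw [h1, cycleType_one] at hσ
    have := congrArg Multiset.card hσ
    rw [Multiset.card_replicate, Multiset.card_zero] at this
    have : 0 < n / r := Nat.div_pos hrn hr.pos
    omega
  have hsupp : σ.support.card = n / r * r := by
    rw [← sum_cycleType, hσ, Multiset.sum_replicate, smul_eq_mul]
  have hfix : σ.supportᶜ.card = n % r := by
    rw [Finset.card_compl, Fintype.card_fin, hsupp]
    have := Nat.div_add_mod n r
    have h2 : n / r * r = r * (n / r) := mul_comm _ _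
    omega
  obtain ⟨s, hsk, hs⟩ := h σ (orderOf_eq_prime hpow hne)
  have hmem : ∀ x, x ∈ s ↔ σ x ∈ s := by
    intro x
    constructor
    · intro hx
      rw [← hs]; exact Finset.mem_image_of_mem _ hx
    · intro hx
      rw [← hs] at hx
      obtain ⟨y, hy, hyx⟩ := Finset.mem_image.mp hx
      rw [← σ.injective hyx]; exact hy
  let τ : Perm {x // x ∈ s} := σ.subtypePerm (fun x => (hmem x).symm)
  have hτ : τ ^ r ^ 1 = 1 := by
    rw [pow_one]
    ext x
    simp [τ, hpow]
  have h1 := card_compl_support_modEq hτ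
  rw [Fintype.card_coe, hsk] at h1
  have h2 : τ.supportᶜ.card ≤ σ.supportᶜ.card := by
    apply Finset.card_le_card_of_injOn (fun x => x.1)
    · intro x hx
      simp only [Finset.coe_compl, Set.mem_compl_iff, Finset.mem_coe, mem_support, not_not] at hx ⊢
      have := congrArg Subtype.val hx
      simpa [τ] using this
    · intro x _ y _ hxy
      exact Subtype.ext hxy
  rw [hfix] at h2
  have h3 : n % r < r := Nat.mod_lt _ hr.pos
  have h4 : τ.supportᶜ.card % r = k % r := h1
  rw [Nat.mod_eq_of_lt (by omega)] at h4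
  omega

/-- backward -/
theorem bwd (n k r : ℕ) [Fact r.Prime] (hkn : k ≤ n) (hmod : k % r ≤ n % r)
    (σ : Perm (Fin n)) (hσ : orderOf σ = r) :
    ∃ s : Finset (Fin n), s.card = k ∧ s.image σ = s := by
  have hr : r.Prime := Fact.out
  have hpow : σ ^ r = 1 := by rw [← hσ, pow_orderOf_eq_one]
  have hcyc := pow_prime_eq_one_iff.mp hpow
  set c := σ.cycleFactorsFinset.card with hc
  have hcard : ∀ f ∈ σ.cycleFactorsFinset, f.support.card = r := by
    intro f hf
    apply hcyc
    rw [cycleType_def]
    exact Multiset.mem_map.mpr ⟨f, hf, rfl⟩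
  have hsupp : σ.support.card = c * r := by
    rw [← sum_cycleType, cycleType_def, hc]
    have h1 : Multiset.map (Finset.card ∘ support) σ.cycleFactorsFinset.val
        = Multiset.map (fun _ => r) σ.cycleFactorsFinset.val :=
      Multiset.map_congr rfl (fun f hf => hcard f hf)
    rw [h1]
    simp
  have hle : c * r ≤ n := by
    rw [← hsupp]
    calc σ.support.card ≤ Fintype.card (Fin n) := Finset.card_le_univ _
      _ = n := Fintype.card_fin n
  set a := min c (k / r) with ha
  obtain ⟨F, hF, hFa⟩ := Finset.exists_subset_card_eq (s := σ.cycleFactorsFinset) (n := a)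
    (by rw [← hc]; exact min_le_left _ _)
  set T := F.biUnion (fun f => f.support) with hT
  have hTcard : T.card = a * r := by
    rw [hT, Finset.card_biUnion]
    · rw [Finset.sum_congr rfl (fun f hf => hcard f (hF hf)), Finset.sum_const, hFa, smul_eq_mul]
    · intro f hf g hg hfg
      exact (cycleFactorsFinset_pairwise_disjoint σ (hF hf) (hF hg) hfg).disjoint_support
  have hTsub : T ⊆ σ.support := by
    intro x hx
    obtain ⟨f, hf, hxf⟩ := Finset.mem_biUnion.mp hx
    exact mem_cycleFactorsFinset_support_le (hF hf) hxf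
  have hTinv : ∀ x ∈ T, σ x ∈ T := by
    intro x hx
    obtain ⟨f, hf, hxf⟩ := Finset.mem_biUnion.mp hx
    refine Finset.mem_biUnion.mpr ⟨f, hf, ?_⟩
    rw [← (mem_cycleFactorsFinset_iff.mp (hF hf)).2 x hxf]
    exact apply_mem_support.mpr hxf
  have hfix : σ.supportᶜ.card = n - c * r := by
    rw [Finset.card_compl, Fintype.card_fin, hsupp]
  have hb : k - a * r ≤ n - c * r := by
    rcases le_total c (k / r) with h1 | h1
    · rw [ha, min_eq_left h1]; omega
    · rw [ha, min_eq_right h1]
      have h2 := Nat.div_add_mod k r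
      have h3 : k / r * r = r * (k / r) := mul_comm _ _
      have h4 : k - k / r * r = k % r := by omega
      rw [h4]
      have h5 : (n - c * r) % r = n % r := by
        conv_rhs => rw [← Nat.sub_add_cancel hle]
        rw [Nat.add_mul_mod_self_right]
      calc k % r ≤ n % r := hmod
        _ = (n - c * r) % r := h5.symm
        _ ≤ n - c * r := Nat.mod_le _ _
  obtain ⟨B, hB, hBb⟩ := Finset.exists_subset_card_eq (s := σ.supportᶜ) (n := k - a * r)
    (by rw [hfix]; exact hb)
  have har : a * r ≤ k := by
    calc a * r ≤ k / r * r := Nat.mul_le_mul_right r (min_le_right _ _)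
      _ ≤ k := Nat.div_mul_le_self k r
  refine ⟨T ∪ B, ?_, ?_⟩
  · rw [Finset.card_union_of_disjoint, hTcard, hBb]
    · omega
    · rw [Finset.disjoint_left]
      intro x hxT hxB
      have := hB hxB
      rw [Finset.mem_compl] at this
      exact this (hTsub hxT)
  · apply image_eq_of_maps
    intro x hx
    rcases Finset.mem_union.mp hx with h1 | h1
    · exact Finset.mem_union_left _ (hTinv x h1)
    · have := hB h1
      rw [Finset.mem_compl, mem_support, not_not] at this
      rw [this]; exact hx

theorem result (n k : ℕ) (hk : 1 ≤ k) (hkn : 2 * k < n) (r : ℕ) (hr : r.Prime) (hrd : r ∣ Nat.choose n k) :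
    (r ≠ 2 → ((∀ σ : Equiv.Perm (Fin n), orderOf σ = r → ∃ s : Finset (Fin n), s.card = k ∧ s.image σ = s) ↔
      (r ≤ k ∧ k % r ≤ n % r))) ∧
    (r = 2 → ((∀ σ : Equiv.Perm (Fin n), orderOf σ = 2 → ∃ s : Finset (Fin n), s.card = k ∧ s.image σ = s) ↔
      (Even k ∨ Odd n))) := by
  have : Fact r.Prime := ⟨hr⟩
  have hle : ∀ a b : ℕ, b ≤ a → r ∣ Nat.choose a b → r ≤ a := by
    intro a b hba h
    have h1 := Nat.choose_mul_factorial_mul_factorial hba
    have h2 : r ∣ a.factorial := by
      rw [← h1, mul_assoc]; exact Dvd.dvd.mul_right h _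
    exact (Nat.Prime.dvd_factorial hr).mp h2
  have hrn : r ≤ n := hle n k (by omega) hrd
  constructor
  · intro _
    constructor
    · intro h
      have h1 := fwd n k r hrn h
      refine ⟨?_, h1⟩
      by_contra hlt
      push Not at hlt
      have h2 := Choose.choose_modEq_choose_mod_mul_choose_div_nat (n := n) (k := k) (p := r)
      rw [Nat.mod_eq_of_lt hlt, Nat.div_eq_of_lt hlt, Nat.choose_zero_right, mul_one] at h2
      have h3 : r ∣ Nat.choose (n % r) k := (Nat.ModEq.dvd_iff h2 (dvd_refl r)).mp hrd
      rw [Nat.mod_eq_of_lt hlt] at h1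
      have h4 := hle _ _ h1 h3
      have h5 := Nat.mod_lt n hr.pos
      omega
    · rintro ⟨-, h1⟩ σ hσ
      exact bwd n k r (by omega) h1 σ hσ
  · rintro rfl
    constructor
    · intro h
      have h1 := fwd n k 2 hrn h
      rcases Nat.even_or_odd k with h2 | h2
      · exact Or.inl h2
      · right
        rw [Nat.odd_iff] at h2 ⊢
        omega
    · intro h σ hσ
      refine bwd n k 2 (by omega) ?_ σ hσ
      rcases h with h | h
      · rw [Nat.even_iff] at h; omega
      · rw [Nat.odd_iff] at h; omega

end Cfsg.Agent.S3573
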