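import Cfsg.Statements.S3575
import Cfsg.Agent.Lib.H90UpDefs
import Cfsg.Agent.Lib.H90UpNec
import Cfsg.Agent.Lib.H90UpModel
import Cfsg.Agent.Lib.H90UpTr
import Cfsg.Agent.Lib.H90UpEx
import Cfsg.Agent.Lib.H90UpAr2
import Cfsg.Agent.Lib.H90UpAr3

set_option autoImplicit false
open Cfsg

namespace Cfsg.Agent.S3575

open Cfsg.Agent.Lib.H90UpDefs Cfsg.Agent.Lib.H90UpNec Cfsg.Agent.Lib.H90UpModel Cfsg.Agent.Lib.H90UpTr
  Cfsg.Agent.Lib.H90UpEx Cfsg.Agent.Lib.H90UpAr2 Cfsg.Agent.Lib.H90UpAr3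

/-- Let a, b ≥ 2 and consider the symmetric group of degree a·b acting on the partitions of an (a·b)-set into b parts of size a (encoded as maps onto a b-element set all of whose fibres have a elements; a permutation fixes such a partition when it permutes the fibres). Let r be a prime dividing the number (ab)!/((a!)^b·b!) of such partitions, and let ℓ and k be the remainders of a and b modulo r. Then every permutation of order r fixes some such partition if and only if r ≤ a and one of the following holds: ℓ = 0; or k = 0 and ℓ = 1; or ℓ and k are non-zero, k·ℓ < r, and either b < r or (k + r)·ℓ ≤ k·a + r. -/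
theorem result (a b : ℕ) (ha : 2 ≤ a) (hb : 2 ≤ b) (r : ℕ) (hr : r.Prime)
    (hrd : r ∣ (a * b).factorial / (a.factorial ^ b * b.factorial)) :
    (∀ σ : Equiv.Perm (Fin (a * b)), orderOf σ = r →
        ∃ f : Fin (a * b) → Fin b, (∀ j : Fin b, Nat.card {x : Fin (a * b) // f x = j} = a) ∧
          ∃ π : Equiv.Perm (Fin b), ∀ x : Fin (a * b), f (σ x) = π (f x)) ↔
      (r ≤ a ∧ (a % r = 0 ∨ (b % r = 0 ∧ a % r = 1) ∨
        (a % r ≠ 0 ∧ b % r ≠ 0 ∧ (b % r) * (a % r) < r ∧ (b < r ∨ (b % r + r) * (a % r) ≤ (b % r) * a + r)))) := by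
  have hrN : r ≤ a * b := le_of_dvd (by omega) hr hrd
  constructor
  · intro H
    apply rhs_of_good ha hb hr hrN
    intro c hc hcN
    obtain ⟨σ, hσ, hsupp⟩ := exists_perm hr hc hcN
    exact nec (by omega) hr (Fintype.card_fin _) σ (hσ ▸ pow_orderOf_eq_one σ) hsupp (H σ hσ)
  · intro H σ hσ
    obtain ⟨c, hc, hcN, hsupp⟩ := exists_count hr σ hσ
    obtain ⟨t, h1, h2, h3⟩ := good_of_rhs ha hb hr H c hc hcN
    obtain ⟨τ, hτ, hτs, hF⟩ := exists_model hr hc hcN h1 h2 h3
    exact fixP_of_same hr σ τ hσ hτ (by rw [hsupp, hτs]) hF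

end Cfsg.Agent.S3575
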