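import Cfsg.Statements.S3599
import Cfsg.Agent.Lib.H98CritMain

set_option autoImplicit false
open Cfsg

namespace Cfsg.Agent.S3599

/-- A finite group is critical with respect to a set Ω of natural numbers when its set of element orders is Ω while no proper section H/N (H a subgroup, N normal in H, (H, N) ≠ (whole group, 1)) has Ω as its set of element orders. Let s ≥ 1 and let p(j,0), p(j,1) (j < s) be 2s pairwise distinct primes, and let Ω be the set of all products c(0)·…·c(s−1) with each c(j) ∈ {1, p(j,0), p(j,1)}. Then there are 2^s pairwise non-isomorphic finite groups critical with respect to Ω. -/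
theorem result (s : ℕ) (hs : 1 ≤ s) (p : Fin s → Fin 2 → ℕ)
    (hp : ∀ j i, (p j i).Prime) (hinj : ∀ j i j' i', p j i = p j' i' → j = j' ∧ i = i') :
    ∃ (G : Fin (2 ^ s) → Type) (_ : ∀ a, Group (G a)) (_ : ∀ a, Fintype (G a)),
      (∀ a b, a ≠ b → ¬ Nonempty (G a ≃* G b)) ∧
      ∀ a, Set.range (orderOf : (G a) → ℕ) = {m : ℕ | ∃ c : Fin s → ℕ, (∀ j, c j = 1 ∨ c j = p j 0 ∨ c j = p j 1) ∧ m = ∏ j, c j} ∧
      ∀ (H : Subgroup (G a)) (N : Subgroup ↥H) [N.Normal], (H ≠ ⊤ ∨ N ≠ ⊥) → Set.range (orderOf : (↥H ⧸ N) → ℕ) ≠ {m : ℕ | ∃ c : Fin s → ℕ, (∀ j, c j = 1 ∨ c j = p j 0 ∨ c j = p j 1) ∧ m = ∏ j, c j} := by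
  classical
  have hrev : ∀ i : Fin 2, i ≠ i.rev := by decide
  have hrev2 : ∀ x y : Fin 2, x ≠ y → y.rev = x := by decide
  have hne : ∀ j i, p j i ≠ p j i.rev := fun j i h => hrev i (hinj _ _ _ _ h).2
  have hex := fun (j : Fin s) (i : Fin 2) =>
    Cfsg.Agent.Lib.H98CritMain.exists_crit (p j i) (p j i.rev) (hp j i) (hp j i.rev) (hne j i)
  choose F iG iF V hV using hex
  letI : ∀ j i, Group (F j i) := iG
  letI : ∀ j i, Fintype (F j i) := iF
  let d : Fin (2 ^ s) → Fin s → Fin 2 := fun a => finFunctionFinEquiv.symm a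
  have hd : Function.Injective d := fun a b h => finFunctionFinEquiv.symm.injective h
  have hfam : ∀ a : Fin (2 ^ s), Cfsg.Agent.Lib.Helper98CritDefs.Fam (fun j => F j (d a j))
      (fun j => p j (d a j)) (fun j => p j (d a j).rev) (fun j => V j (d a j)) := by
    intro a
    refine ⟨fun j => hV j (d a j), fun j => hp _ _, fun j => hp _ _, ?_, ?_, ?_⟩
    · intro j j' h
      obtain ⟨rfl, h2⟩ := hinj _ _ _ _ h
      exact hrev _ h2
    · intro j j' h
      exact (hinj _ _ _ _ h).1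
    · intro j j' h
      exact (hinj _ _ _ _ h).1
  have hset : ∀ a : Fin (2 ^ s),
      {m : ℕ | ∃ c : Fin s → ℕ, (∀ j, c j = 1 ∨ c j = p j (d a j) ∨ c j = p j (d a j).rev) ∧ m = ∏ j, c j} =
      {m : ℕ | ∃ c : Fin s → ℕ, (∀ j, c j = 1 ∨ c j = p j 0 ∨ c j = p j 1) ∧ m = ∏ j, c j} := by
    intro a
    have key : ∀ (j : Fin s) (i : Fin 2) (x : ℕ), (x = 1 ∨ x = p j i ∨ x = p j i.rev) ↔ (x = 1 ∨ x = p j 0 ∨ x = p j 1) := by
      intro j i x
      fin_cases i
      · exact Iff.rfl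
      · change (x = 1 ∨ x = p j 1 ∨ x = p j 0) ↔ _
        tauto
    ext m
    constructor
    · rintro ⟨c, hc, hm⟩
      exact ⟨c, fun j => (key j _ _).1 (hc j), hm⟩
    · rintro ⟨c, hc, hm⟩
      exact ⟨c, fun j => (key j _ _).2 (hc j), hm⟩
  refine ⟨fun a => ∀ j, F j (d a j), fun a => inferInstance, fun a => inferInstance, ?_, ?_⟩
  · intro a b hab ⟨e⟩
    have hdab : d a ≠ d b := fun h => hab (hd h)
    obtain ⟨j, hj⟩ := Function.ne_iff.1 hdab
    have h1 := Cfsg.Agent.Lib.H98CritInv.inv_P (hfam a) j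
    have h2 := Cfsg.Agent.Lib.H98CritInv.not_inv_Q (hfam b) j
    have h3 := Cfsg.Agent.Lib.H98CritInv.inv_of_equiv e _ h1
    apply h2
    have h4 : (d b j).rev = d a j := hrev2 _ _ hj
    simp only [h4]
    exact h3
  · intro a
    refine ⟨?_, ?_⟩
    · rw [← hset a]
      exact Cfsg.Agent.Lib.H98CritSpec.range_orderOf (hfam a)
    · intro H N _ hHN
      rw [← hset a]
      exact Cfsg.Agent.Lib.H98CritMain.section_ne (hfam a) H N hHN

end Cfsg.Agent.S3599
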