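import Cfsg.Statements.S3619
-- import your own Cfsg.Agent.* helpers here

set_option autoImplicit false
open Cfsg

namespace Cfsg.Agent.S3619

section aux
open scoped Pointwise

theorem preprimitive_of_jordan {G Ω : Type*} [Group G] [MulAction G Ω] [Finite Ω]
    (hqp : ∀ N : Subgroup G, N.Normal → N ≠ ⊥ → MulAction.IsPretransitive ↥N Ω)
    (Γ : Set Ω) (hΓ1 : 1 < Γ.ncard)
    (hJ : MulAction.IsPretransitive ↥(fixingSubgroup G Γᶜ) ↥(SubMulAction.ofFixingSubgroup G Γᶜ))
    (hJp : MulAction.IsPreprimitive ↥(fixingSubgroup G Γᶜ) ↥(SubMulAction.ofFixingSubgroup G Γᶜ)) :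
    MulAction.IsPreprimitive G Ω := by
  classical
  -- two distinct points of Γ
  obtain ⟨a, ha, b, hb, hab⟩ := (Set.one_lt_ncard (Set.toFinite Γ)).mp hΓ1
  have memJ : ∀ x : Ω, x ∈ Γ → x ∈ SubMulAction.ofFixingSubgroup G Γᶜ := by
    intro x hx
    rw [SubMulAction.mem_ofFixingSubgroup_iff]
    simpa using hx
  -- transitivity of the fixing subgroup on Γ, in elementary terms
  have htr : ∀ x ∈ Γ, ∀ y ∈ Γ, ∃ h ∈ fixingSubgroup G Γᶜ, h • x = y := by
    intro x hx y hy
    obtain ⟨h, hh⟩ := hJ.exists_smul_eq ⟨x, memJ x hx⟩ ⟨y, memJ y hy⟩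
    refine ⟨h.1, h.2, ?_⟩
    exact congrArg Subtype.val hh
  have hfix : ∀ h ∈ fixingSubgroup G Γᶜ, ∀ x, x ∉ Γ → h • x = x := by
    intro h hh x hx
    rw [mem_fixingSubgroup_iff] at hh
    exact hh x (by simpa using hx)
  obtain ⟨h0, hh0, h0ab⟩ := htr a ha b hb
  have hne : h0 ≠ 1 := by
    rintro rfl
    exact hab (by simpa using h0ab)
  -- G is transitive
  have hGtr : MulAction.IsPretransitive G Ω := by
    have htop : (⊤ : Subgroup G) ≠ ⊥ := by
      intro h
      apply hne
      have : h0 ∈ (⊥ : Subgroup G) := h ▸ Subgroup.mem_top h0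
      simpa using this
    have := hqp ⊤ inferInstance htop
    refine ⟨fun x y => ?_⟩
    obtain ⟨g, hg⟩ := this.exists_smul_eq x y
    exact ⟨g.1, hg⟩
  apply MulAction.IsPreprimitive.of_isTrivialBlock_base a
  intro B haB hB
  have hB' : MulAction.IsBlock ↥(fixingSubgroup G Γᶜ)
      (Subtype.val ⁻¹' B : Set ↥(SubMulAction.ofFixingSubgroup G Γᶜ)) :=
    (hB.subgroup (H := fixingSubgroup G Γᶜ)).subtype_val_preimage
  rcases hJp.isTrivialBlock_of_isBlock hB' with hsub | huniv
  · -- B meets Γ only in a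
    left
    intro x hx y hy
    have key : ∀ z ∈ B, z = a := by
      intro z hz
      by_contra hza
      have hzΓ : z ∉ Γ := by
        intro hzΓ
        have := @hsub ⟨z, memJ z hzΓ⟩ hz ⟨a, memJ a ha⟩ haB
        exact hza (congrArg Subtype.val this)
      have h1 : h0 • B = B := by
        apply hB.smul_eq_of_mem hz
        rw [hfix h0 hh0 z hzΓ]
        exact hz
      have h2 : b ∈ B := by
        rw [← h1, ← h0ab]
        exact Set.smul_mem_smul_set haB
      have := @hsub ⟨b, memJ b hb⟩ h2 ⟨a, memJ a ha⟩ haB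
      exact hab (congrArg Subtype.val this).symm
    rw [key x hx, key y hy]
  · -- Γ ⊆ B
    right
    have hΓB : Γ ⊆ B := by
      intro x hx
      have : (⟨x, memJ x hx⟩ : ↥(SubMulAction.ofFixingSubgroup G Γᶜ)) ∈
          (Subtype.val ⁻¹' B : Set ↥(SubMulAction.ofFixingSubgroup G Γᶜ)) := by
        rw [huniv]; trivial
      simpa using this
    have hcore : h0 ∈ (MulAction.stabilizer G B).normalCore := by
      intro g
      rw [MulAction.mem_stabilizer_iff, mul_smul, mul_smul, smul_eq_iff_eq_inv_smul]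
      rcases hB.smul_eq_or_disjoint g⁻¹ with h1 | h1
      · rw [h1]
        apply hB.smul_eq_of_mem haB
        rw [h0ab]
        exact hΓB hb
      · ext x
        constructor
        · rintro ⟨y, hy, rfl⟩
          have hyΓ : y ∉ Γ := fun hyΓ => Set.disjoint_left.mp h1 hy (hΓB hyΓ)
          change h0 • y ∈ _
          rw [hfix h0 hh0 y hyΓ]
          exact hy
        · intro hx
          have hxΓ : x ∉ Γ := fun hxΓ => Set.disjoint_left.mp h1 hx (hΓB hxΓ)
          exact ⟨x, hx, hfix h0 hh0 x hxΓ⟩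
    have hNne : (MulAction.stabilizer G B).normalCore ≠ ⊥ := by
      intro h
      rw [h] at hcore
      exact hne (by simpa using hcore)
    have hNtr := hqp _ (Subgroup.normalCore_normal _) hNne
    ext x
    simp only [Set.mem_univ, iff_true]
    obtain ⟨g, hg⟩ := hNtr.exists_smul_eq a x
    have hgB : (g : G) • B = B := by
      have := Subgroup.normalCore_le _ g.2
      simpa [MulAction.mem_stabilizer_iff] using this
    rw [← hg]
    have h3 : (g : G) • a ∈ (g : G) • B := Set.smul_mem_smul_set haB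
    rw [hgB] at h3
    exact h3

end aux


/-- Let G act faithfully on a finite set in such a way that every non-trivial normal subgroup of G is transitive (G is quasiprimitive). Let Γ be a subset with more than one point and not the whole set, such that the pointwise stabilizer of the complement of Γ acts transitively on Γ (a Jordan set). If that pointwise stabilizer acts primitively on Γ, then G is k-fold transitive where k is one more than the number of points outside Γ (the Jordan set is a trivial one). -/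
theorem result {G Ω : Type*} [Group G] [Finite G] [MulAction G Ω] [FaithfulSMul G Ω] [Finite Ω]
    (hqp : ∀ N : Subgroup G, N.Normal → N ≠ ⊥ → MulAction.IsPretransitive ↥N Ω)
    (Γ : Set Ω) (hΓ1 : 1 < Γ.ncard) (hΓ2 : Γ.ncard < Nat.card Ω)
    (hJ : MulAction.IsPretransitive ↥(fixingSubgroup G Γᶜ) ↥(SubMulAction.ofFixingSubgroup G Γᶜ))
    (hJp : MulAction.IsPreprimitive ↥(fixingSubgroup G Γᶜ) ↥(SubMulAction.ofFixingSubgroup G Γᶜ)) :
    MulAction.IsMultiplyPretransitive G Ω (Nat.card Ω - Γ.ncard + 1) := by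
  have hGprim := preprimitive_of_jordan hqp Γ hΓ1 hJ hJp
  have hcard : Γᶜ.ncard + Γ.ncard = Nat.card Ω := by
    rw [add_comm]; exact Set.ncard_add_ncard_compl Γ
  obtain ⟨n, hn⟩ : ∃ n, Γᶜ.ncard = n + 1 := ⟨Γᶜ.ncard - 1, by omega⟩
  have hmp := hGprim.isMultiplyPreprimitive (s := Γᶜ) (n := n) hn (by omega) hJp
  have heq : Nat.card Ω - Γ.ncard + 1 = n + 2 := by omega
  rw [heq]
  exact hmp.isMultiplyPretransitive

end Cfsg.Agent.S3619
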