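import Cfsg.Statements.S3633
-- import your own Cfsg.Agent.* helpers here
import Cfsg.Agent.Lib.Helper64Coclique

set_option autoImplicit false
open Cfsg

namespace Cfsg.Agent.S3633

open Cfsg.Agent.Lib.Helper64Coclique

theorem solvable_sup_zpowers {G : Type*} [Group G] (K : Subgroup G) [K.Normal]
    (hK : Group.IsSolvable ↥K) (x : G) : Group.IsSolvable ↥(K ⊔ Subgroup.zpowers x) := by
  set T := K ⊔ Subgroup.zpowers x with hT
  let π := QuotientGroup.mk' K
  have hmem : ∀ t : ↥T, (π.comp T.subtype) t ∈ Subgroup.zpowers (π x) := by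
    intro t
    have ht : (t : G) ∈ ((K ⊔ Subgroup.zpowers x : Subgroup G) : Set G) := t.2
    rw [Subgroup.normal_mul, Set.mem_mul] at ht
    obtain ⟨k, hk, z, hz, hkz⟩ := ht
    obtain ⟨i, rfl⟩ := Subgroup.mem_zpowers_iff.mp hz
    rw [Subgroup.mem_zpowers_iff]
    refine ⟨i, ?_⟩
    change π x ^ i = π (t : G)
    rw [← hkz, map_mul, map_zpow]
    have : π k = 1 := (QuotientGroup.eq_one_iff k).mpr hk
    rw [this, one_mul]
  let g' : ↥T →* ↥(Subgroup.zpowers (π x)) := (π.comp T.subtype).codRestrict _ hmem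
  let f : ↥K →* ↥T := Subgroup.inclusion le_sup_left
  have hs : Group.IsSolvable ↥(Subgroup.zpowers (π x)) := by
    apply Group.isSolvable_of_comm
    rintro ⟨a, ha⟩ ⟨b, hb⟩
    obtain ⟨i, rfl⟩ := Subgroup.mem_zpowers_iff.mp ha
    obtain ⟨j, rfl⟩ := Subgroup.mem_zpowers_iff.mp hb
    apply Subtype.ext
    exact zpow_mul_comm _ _ _
  apply Group.isSolvable_of_ker_le_range f g'
  intro t ht
  rw [MonoidHom.mem_ker] at ht
  have h1 : π (t : G) = 1 := congrArg Subtype.val ht
  have h2 : (t : G) ∈ K := (QuotientGroup.eq_one_iff _).mp h1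
  exact ⟨⟨t, h2⟩, rfl⟩


/-- Let G be a finite group and ρ a set of at least three prime divisors of the order of G that are pairwise non-adjacent in the prime graph (no element of order rs for distinct r, s ∈ ρ). Then at most one prime of ρ divides the order of any given solvable normal subgroup of G; in particular G is not solvable. -/
theorem result {G : Type*} [Group G] [Finite G] (ρ : Finset ℕ) (hρ : 3 ≤ ρ.card) (hc : ((∀ r ∈ ρ, r.Prime ∧ r ∣ Nat.card G) ∧ (∀ r ∈ ρ, ∀ s ∈ ρ, r ≠ s → ¬ ∃ x : G, orderOf x = r * s)))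
    (K : Subgroup G) [K.Normal] (hK : Group.IsSolvable ↥K) :
    (∀ r ∈ ρ, ∀ s ∈ ρ, r ∣ Nat.card ↥K → s ∣ Nat.card ↥K → r = s) ∧ ¬ Group.IsSolvable G := by
  classical
  obtain ⟨hc1, hc2⟩ := hc
  constructor
  · intro r hr s hs hrK hsK
    by_contra hrs
    have hcard : 1 ≤ ((ρ.erase r).erase s).card := by
      have h1 := Finset.card_erase_of_mem hr
      have h2 : s ∈ ρ.erase r := Finset.mem_erase.mpr ⟨fun h => hrs h.symm, hs⟩
      have h3 := Finset.card_erase_of_mem h2
      omega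
    obtain ⟨t, ht⟩ := Finset.card_pos.mp hcard
    rw [Finset.mem_erase, Finset.mem_erase] at ht
    obtain ⟨hts, htr, htρ⟩ := ht
    have : Fact t.Prime := ⟨(hc1 t htρ).1⟩
    obtain ⟨x, hx⟩ := exists_prime_orderOf_dvd_card' t (hc1 t htρ).2
    have hsol := solvable_sup_zpowers K hK x
    have hrT : r ∣ Nat.card ↥(K ⊔ Subgroup.zpowers x) :=
      hrK.trans (Subgroup.card_dvd_of_le le_sup_left)
    have hsT : s ∣ Nat.card ↥(K ⊔ Subgroup.zpowers x) :=
      hsK.trans (Subgroup.card_dvd_of_le le_sup_left)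
    have htT : t ∣ Nat.card ↥(K ⊔ Subgroup.zpowers x) := by
      have h1 : Nat.card (Subgroup.zpowers x) = t := by rw [Nat.card_zpowers, hx]
      rw [← h1]
      exact Subgroup.card_dvd_of_le le_sup_right
    obtain ⟨a, b, ha, hb, hab, y, hy⟩ := solvable_three_primes _ ↥(K ⊔ Subgroup.zpowers x) rfl r s t
      (hc1 r hr).1 (hc1 s hs).1 (hc1 t htρ).1 hrs (Ne.symm htr) (Ne.symm hts) hrT hsT htT
    have haρ : a ∈ ρ := by rcases ha with rfl | rfl | rfl <;> assumption
    have hbρ : b ∈ ρ := by rcases hb with rfl | rfl | rfl <;> assumption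
    exact hc2 a haρ b hbρ hab ⟨(y : G), by rw [Subgroup.orderOf_coe, hy]⟩
  · intro hsol
    obtain ⟨p, hp, q, hq, r, hr, hpq, hpr, hqr⟩ := Finset.two_lt_card.mp (by omega : 2 < ρ.card)
    obtain ⟨a, b, ha, hb, hab, hy⟩ := solvable_three_primes _ G rfl p q r
      (hc1 p hp).1 (hc1 q hq).1 (hc1 r hr).1 hpq hpr hqr (hc1 p hp).2 (hc1 q hq).2 (hc1 r hr).2
    have haρ : a ∈ ρ := by rcases ha with rfl | rfl | rfl <;> assumption
    have hbρ : b ∈ ρ := by rcases hb with rfl | rfl | rfl <;> assumption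
    exact hc2 a haρ b hbρ hab hy

end Cfsg.Agent.S3633
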