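import Cfsg.Statements.S3639
-- import your own Cfsg.Agent.* helpers here
import Cfsg.Agent.Lib.Helper64Affine
import Cfsg.Agent.Lib.Helper64Suzuki

set_option autoImplicit false
open Cfsg

namespace Cfsg.Agent.S3639


/-- Let S be the Suzuki group over the field with q = 2^(2m+1) ≥ 8 elements. Then there are finite groups of arbitrarily large order with the same prime graph as S. -/
theorem result {F : Type*} [Field F] [Fintype F] {m : ℕ} (hm : 1 ≤ m) (hF : Fintype.card F = 2 ^ (2 * m + 1)) (N : ℕ) :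
    ∃ (H : Type) (_ : Group H) (_ : Fintype H), N < Fintype.card H ∧ ((∀ r : ℕ, r.Prime → (r ∣ Nat.card ↥(Cfsg.Lie.Sz F (2 ^ (m + 1))) ↔ r ∣ Nat.card H)) ∧
      (∀ r s : ℕ, r.Prime → s.Prime → r ≠ s → ((∃ x : ↥(Cfsg.Lie.Sz F (2 ^ (m + 1))), orderOf x = r * s) ↔ (∃ y : H, orderOf y = r * s)))) := by
  have : Fact (Nat.Prime 2) := ⟨Nat.prime_two⟩
  have : CharP F 2 := charP_of_card_eq_prime_pow hF
  have h2 : (2 : F) = 0 := by exact_mod_cast CharP.cast_eq_zero F 2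
  let θ : F →+* F := iterateFrobenius F 2 (m + 1)
  have hθ : ∀ x, θ x = x ^ (2 ^ (m + 1)) := fun x => iterateFrobenius_def 2 (m + 1) x
  apply Cfsg.Agent.Lib.Helper64Affine.exists_large
    (Subgroup.subtype (Cfsg.Lie.Sz F (2 ^ (m + 1)))) 2 Nat.prime_two
  · have h3 := orderOf_dvd_natCard
      (⟨Cfsg.Agent.Lib.Helper64Suzuki.jG,
        Cfsg.Agent.Lib.Helper64Suzuki.jG_mem h2 _ (by positivity)⟩ : ↥(Cfsg.Lie.Sz F (2 ^ (m + 1))))
    rwa [Subgroup.orderOf_mk, Cfsg.Agent.Lib.Helper64Suzuki.orderOf_jG] at h3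
  · intro g v hv hgv
    refine ⟨2, ?_⟩
    obtain ⟨hsp, hstar⟩ := Cfsg.Agent.Lib.Helper64Suzuki.mem_Sz_aux h2 _ θ hθ g.1 g.2
    have h4 := Cfsg.Agent.Lib.Helper64Suzuki.pow_four_eq_one h2 θ
      (Cfsg.Agent.Lib.Helper64Suzuki.isSp_of_mem_Sp4 _ hsp) hstar v hv hgv
    apply Subtype.ext
    apply Units.ext
    simpa using h4

end Cfsg.Agent.S3639
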