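import Cfsg.Statements.S3662
import Cfsg.Agent.Lib.Helper62G24d
import Cfsg.Agent.Lib.Helper62ChevTransport

set_option autoImplicit false
open Cfsg

namespace Cfsg.Agent.S3662

theorem transfer {L G : Type*} [Group L] [Group G] (e : L ≃* G) (N : ℕ)
    (h : ∃ (H : Type) (_ : Group H) (_ : Fintype H), N < Fintype.card H ∧
      ((∀ r : ℕ, r.Prime → (r ∣ Nat.card G ↔ r ∣ Nat.card H)) ∧
      (∀ r s : ℕ, r.Prime → s.Prime → r ≠ s →
        ((∃ x : G, orderOf x = r * s) ↔ (∃ y : H, orderOf y = r * s))))) :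
    ∃ (H : Type) (_ : Group H) (_ : Finite H), N < Nat.card H ∧
      ((∀ p : ℕ, p.Prime → (p ∣ Nat.card L ↔ p ∣ Nat.card H)) ∧
      (∀ p q : ℕ, p.Prime → q.Prime → p ≠ q →
        ((∃ g : L, orderOf g = p * q) ↔ (∃ g : H, orderOf g = p * q)))) := by
  obtain ⟨H, iG, iF, hM, h1, h2⟩ := h
  refine ⟨H, iG, inferInstance, ?_, ?_, ?_⟩
  · rw [Nat.card_eq_fintype_card]; exact hM
  · intro p hp
    rw [Nat.card_congr e.toEquiv]
    exact h1 p hp
  · intro p q hp hq hpq
    rw [← h2 p q hp hq hpq]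
    constructor
    · rintro ⟨g, hg⟩
      exact ⟨e g, by rw [MulEquiv.orderOf_eq, hg]⟩
    · rintro ⟨g, hg⟩
      exact ⟨e.symm g, by rw [MulEquiv.orderOf_eq, hg]⟩

/-- The prime graph of a finite group has the prime divisors of its order as vertices, two distinct primes p, q being joined when the group has an element of order pq; two groups have the same prime graph when they have the same prime divisors and the same joined pairs. Let F be the field with 4 elements and L the Chevalley group of type G₂ over F. There are finite groups of arbitrarily large order with the same prime graph as L. -/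
theorem result {F : Type*} [Field F] [Fintype F] (hF : Fintype.card F = 4) (N : ℕ) :
    ∃ (H : Type) (_ : Group H) (_ : Finite H), N < Nat.card H ∧
      ((∀ p : ℕ, p.Prime → (p ∣ Nat.card ↥(Cfsg.Lie.chevG2.group F) ↔ p ∣ Nat.card H)) ∧
      (∀ p q : ℕ, p.Prime → q.Prime → p ≠ q → ((∃ g : ↥(Cfsg.Lie.chevG2.group F), orderOf g = p * q) ↔ (∃ g : H, orderOf g = p * q)))) := by
  obtain ⟨e⟩ : Nonempty (↥(Cfsg.Lie.chevG2.group F) ≃* Cfsg.Agent.Lib.Helper62G24b.Gam) :=
    ⟨(Cfsg.Agent.Lib.Helper62ChevTransport.groupEquiv Cfsg.Lie.chevG2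
      (Cfsg.Agent.Lib.Helper62F4.equivF4 hF)).trans Cfsg.Agent.Lib.Helper62G24b.iso.symm⟩
  exact transfer e N (Cfsg.Agent.Lib.Helper62G24d.large N)

end Cfsg.Agent.S3662
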