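import Cfsg.Statements.S3678
-- import your own Cfsg.Agent.* helpers here
import Cfsg.Agent.Lib.Helper64SL2
import Cfsg.Agent.Lib.Helper64Trace

set_option autoImplicit false
open Cfsg

namespace Cfsg.Agent.S3678

open Matrix Cfsg.Agent.Lib.Helper64Trace

section eight

variable {K : Type*} [Field K]

theorem scalar_eq_one (h2 : (2 : K) = 0) (A : Matrix (Fin 2) (Fin 2) K) (hA : A.det = 1) (c : K)
    (hc : A = c • (1 : Matrix (Fin 2) (Fin 2) K)) : A = 1 := by
  have h1 : c ^ 2 = 1 := by
    rw [hc, Matrix.det_smul, Matrix.det_one] at hA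
    simpa using hA
  have h3 : (c - 1) ^ 2 = 0 := by linear_combination h1 + (1 - c) * h2
  have h4 : c = 1 := by
    have := pow_eq_zero_iff (two_ne_zero) |>.mp h3
    linear_combination this
  rw [hc, h4, one_smul]

theorem sl_pow_eq_one (h2 : (2 : K) = 0) (g : Matrix.SpecialLinearGroup (Fin 2) K) (n : ℕ)
    (hU : U (g : Matrix (Fin 2) (Fin 2) K).trace (n + 1) = 0) : g ^ (n + 1) = 1 := by
  apply Matrix.SpecialLinearGroup.ext
  intro i j
  rw [Matrix.SpecialLinearGroup.coe_pow, Matrix.SpecialLinearGroup.coe_one]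
  have h1 := pow_eq_smul_one (g : Matrix (Fin 2) (Fin 2) K) g.2 n hU
  have h3 : ((g : Matrix (Fin 2) (Fin 2) K) ^ (n + 1)).det = 1 := by
    rw [Matrix.det_pow, g.2, one_pow]
  rw [scalar_eq_one h2 _ h3 _ h1]

theorem eppo8 [Fintype K] (hK : Fintype.card K = 8) (h2 : (2 : K) = 0)
    (g : Matrix.SpecialLinearGroup (Fin 2) K) : g ^ 2 = 1 ∨ g ^ 7 = 1 ∨ g ^ 9 = 1 := by
  set t := (g : Matrix (Fin 2) (Fin 2) K).trace with ht
  have h8 : t ^ 8 = t := by
    have := FiniteField.pow_card t
    rwa [hK] at this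
  by_cases h0 : t = 0
  · left
    apply sl_pow_eq_one h2 g 1
    rw [← ht, h0]; simp [U]
  · have h7 : t ^ 7 = 1 := by
      have : t * (t ^ 7 - 1) = 0 := by linear_combination h8
      rcases mul_eq_zero.mp this with h | h
      · exact absurd h h0
      · linear_combination h
    have hw : (t ^ 5 + t ^ 3 + t ^ 6) * ((t ^ 5 + t ^ 3 + t ^ 6) - 1) = 0 := by
      linear_combination (t ^ 3 + t ^ 5) * h7 + (t ^ 8 + t ^ 11 + t ^ 9) * h2
    rcases mul_eq_zero.mp hw with h | h
    · right; left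
      apply sl_pow_eq_one h2 g 6
      rw [← ht]
      simp only [U]
      linear_combination t * h - h7 + (-3 * t ^ 4 + 3 * t ^ 2 - 1) * h2
    · right; right
      apply sl_pow_eq_one h2 g 8
      rw [← ht]
      simp only [U]
      linear_combination t * h - h7 + h8 + (-4 * t ^ 6 + 7 * t ^ 4 - 5 * t ^ 2 + t) * h2

def b3 (h2 : (2 : K) = 0) : Matrix.SpecialLinearGroup (Fin 2) K :=
  ⟨!![0, 1; 1, 1], by simp [Matrix.det_fin_two]; linear_combination -h2⟩

theorem orderOf_b3 (h2 : (2 : K) = 0) : orderOf (b3 h2) = 3 := by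
  have : Fact (Nat.Prime 3) := ⟨by norm_num⟩
  apply orderOf_eq_prime
  · apply sl_pow_eq_one h2 _ 2
    simp [U, b3, Matrix.trace, Fin.sum_univ_two]
  · intro h
    have := congrArg (fun A : Matrix.SpecialLinearGroup (Fin 2) K => (A : Matrix (Fin 2) (Fin 2) K) 0 1) h
    simp [b3] at this

def b7 (l : K) (hl : l ≠ 0) : Matrix.SpecialLinearGroup (Fin 2) K :=
  ⟨Matrix.diagonal ![l, l⁻¹], by simp [Matrix.det_diagonal, Fin.prod_univ_two, hl]⟩

theorem orderOf_b7 (l : K) (hl : l ≠ 0) (hl1 : l ≠ 1) (h7 : l ^ 7 = 1) : orderOf (b7 l hl) = 7 := by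
  have : Fact (Nat.Prime 7) := ⟨by norm_num⟩
  apply orderOf_eq_prime
  · apply Matrix.SpecialLinearGroup.ext
    intro i j
    rw [Matrix.SpecialLinearGroup.coe_pow, Matrix.SpecialLinearGroup.coe_one]
    have h1 : (![l, l⁻¹] ^ 7 : Fin 2 → K) = 1 := by
      funext k
      fin_cases k <;> simp [h7]
    have h3 : (Matrix.diagonal ![l, l⁻¹] : Matrix (Fin 2) (Fin 2) K) ^ 7 = 1 := by
      rw [Matrix.diagonal_pow, h1]; exact Matrix.diagonal_one
    change ((Matrix.diagonal ![l, l⁻¹] : Matrix (Fin 2) (Fin 2) K) ^ 7) i j = _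
    rw [h3]
  · intro h
    have := congrArg (fun A : Matrix.SpecialLinearGroup (Fin 2) K => (A : Matrix (Fin 2) (Fin 2) K) 0 0) h
    simp [b7] at this
    exact hl1 this

theorem exists_order7 [Fintype K] (hK : Fintype.card K = 8) :
    ∃ g : Matrix.SpecialLinearGroup (Fin 2) K, orderOf g = 7 := by
  classical
  obtain ⟨l, hl0, hl1⟩ : ∃ l : K, l ≠ 0 ∧ l ≠ 1 := by
    by_contra hcon
    push Not at hcon
    have hsub : (Finset.univ : Finset K) ⊆ {0, 1} := by
      intro x _
      by_cases hx : x = 0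
      · simp [hx]
      · simp [hcon x hx]
    have := Finset.card_le_card hsub
    rw [Finset.card_univ, hK] at this
    have h3 : ({0, 1} : Finset K).card ≤ 2 := Finset.card_le_two
    omega
  refine ⟨b7 l hl0, orderOf_b7 l hl0 hl1 ?_⟩
  have := FiniteField.pow_card_sub_one_eq_one l hl0
  rwa [hK] at this

end eight

section seven

variable {F : Type*} [Field F]

theorem mk_pow_eq_one (g : Matrix.SpecialLinearGroup (Fin 2) F) (n : ℕ)
    (hU : U (g : Matrix (Fin 2) (Fin 2) F).trace (n + 1) = 0) :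
    (QuotientGroup.mk g : Matrix.ProjectiveSpecialLinearGroup (Fin 2) F) ^ (n + 1) = 1 := by
  rw [← QuotientGroup.mk_pow, QuotientGroup.eq_one_iff, Matrix.SpecialLinearGroup.mem_center_iff]
  have h1 := pow_eq_smul_one (g : Matrix (Fin 2) (Fin 2) F) g.2 n hU
  have h3 : ((g : Matrix (Fin 2) (Fin 2) F) ^ (n + 1)).det = 1 := by
    rw [Matrix.det_pow, g.2, one_pow]
  refine ⟨- U (g : Matrix (Fin 2) (Fin 2) F).trace n, ?_, ?_⟩
  · rw [h1, Matrix.det_smul, Matrix.det_one] at h3
    simpa using h3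
  · rw [Matrix.SpecialLinearGroup.coe_pow, h1]
    ext i j
    simp [Matrix.scalar_apply, Matrix.one_apply, Matrix.diagonal_apply]

theorem mk_ne_one (g : Matrix.SpecialLinearGroup (Fin 2) F)
    (hg : (g : Matrix (Fin 2) (Fin 2) F) 0 1 ≠ 0 ∨ (g : Matrix (Fin 2) (Fin 2) F) 1 0 ≠ 0) :
    (QuotientGroup.mk g : Matrix.ProjectiveSpecialLinearGroup (Fin 2) F) ≠ 1 := by
  rw [Ne, QuotientGroup.eq_one_iff, Matrix.SpecialLinearGroup.mem_center_iff]
  rintro ⟨r, _, hr⟩
  rcases hg with h | h
  · apply h; rw [← hr]; simp [Matrix.scalar_apply]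
  · apply h; rw [← hr]; simp [Matrix.scalar_apply]

theorem eppo7 [Fintype F] (hF : Fintype.card F = 7) (h7 : (7 : F) = 0)
    (x : Matrix.ProjectiveSpecialLinearGroup (Fin 2) F) : x ^ 3 = 1 ∨ x ^ 4 = 1 ∨ x ^ 7 = 1 := by
  obtain ⟨g, rfl⟩ := QuotientGroup.mk_surjective x
  set t := (g : Matrix (Fin 2) (Fin 2) F).trace with ht
  have h : t ^ 7 = t := by
    have := FiniteField.pow_card t
    rwa [hF] at this
  have hprod : (t ^ 2 - 1) * ((t ^ 3 - 2 * t) * (t ^ 6 - 5 * t ^ 4 + 6 * t ^ 2 - 1)) = 0 := by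
    linear_combination (t ^ 4 - 8 * t ^ 2 + 23) * h + (3 * t + t ^ 3 - 4 * t ^ 5) * h7
  rcases mul_eq_zero.mp hprod with h1 | h1
  · left
    apply mk_pow_eq_one g 2
    rw [← ht]; simp only [U]; linear_combination h1
  · rcases mul_eq_zero.mp h1 with h1 | h1
    · right; left
      apply mk_pow_eq_one g 3
      rw [← ht]; simp only [U]; linear_combination h1
    · right; right
      apply mk_pow_eq_one g 6
      rw [← ht]; simp only [U]; linear_combination h1

def a2 : Matrix.SpecialLinearGroup (Fin 2) F := ⟨!![0, -1; 1, 0], by simp [Matrix.det_fin_two]⟩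
def a3 : Matrix.SpecialLinearGroup (Fin 2) F := ⟨!![0, -1; 1, 1], by simp [Matrix.det_fin_two]⟩
def a7 : Matrix.SpecialLinearGroup (Fin 2) F := ⟨!![1, 1; 0, 1], by simp [Matrix.det_fin_two]⟩

theorem orderOf_a2 :
    orderOf (QuotientGroup.mk a2 : Matrix.ProjectiveSpecialLinearGroup (Fin 2) F) = 2 := by
  apply orderOf_eq_prime
  · apply mk_pow_eq_one _ 1
    simp [U, a2, Matrix.trace, Fin.sum_univ_two]
  · apply mk_ne_one; right; simp [a2]

theorem orderOf_a3 :
    orderOf (QuotientGroup.mk a3 : Matrix.ProjectiveSpecialLinearGroup (Fin 2) F) = 3 := by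
  have : Fact (Nat.Prime 3) := ⟨by norm_num⟩
  apply orderOf_eq_prime
  · apply mk_pow_eq_one _ 2
    simp [U, a3, Matrix.trace, Fin.sum_univ_two]
  · apply mk_ne_one; right; simp [a3]

theorem orderOf_a7 (h7 : (7 : F) = 0) :
    orderOf (QuotientGroup.mk a7 : Matrix.ProjectiveSpecialLinearGroup (Fin 2) F) = 7 := by
  have : Fact (Nat.Prime 7) := ⟨by norm_num⟩
  apply orderOf_eq_prime
  · apply mk_pow_eq_one _ 6
    simp only [U, a7, Matrix.trace, Fin.sum_univ_two, Matrix.diag]
    simp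
    linear_combination h7
  · apply mk_ne_one; left; simp [a7]

end seven


/-- The prime graph of a finite group has the prime divisors of its order as vertices, two distinct primes p, q being joined when the group has an element of order pq; two groups have the same prime graph when they have the same prime divisors and the same joined pairs. Let F be the field with 7 elements. There are finite groups of arbitrarily large order with the same prime graph as PSL(2,F) (the graph on {2, 3, 7} with no edges, which is also the prime graph of PSL(2,8)). -/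
theorem result {F : Type*} [Field F] [Fintype F] (hF : Fintype.card F = 7) (N : ℕ) :
    ∃ (H : Type) (_ : Group H) (_ : Finite H), N < Nat.card H ∧
      ((∀ p : ℕ, p.Prime → (p ∣ Nat.card (Matrix.ProjectiveSpecialLinearGroup (Fin 2) F) ↔ p ∣ Nat.card H)) ∧
      (∀ p q : ℕ, p.Prime → q.Prime → p ≠ q → ((∃ g : (Matrix.ProjectiveSpecialLinearGroup (Fin 2) F), orderOf g = p * q) ↔ (∃ g : H, orderOf g = p * q)))) := by
  have : Fact (Nat.Prime 7) := ⟨by norm_num⟩
  have : CharP F 7 := charP_of_card_eq_prime hF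
  have h7 : (7 : F) = 0 := by exact_mod_cast CharP.cast_eq_zero F 7
  -- the field with 8 elements
  let K := GaloisField 2 3
  letI : Fintype K := Fintype.ofFinite K
  have hK : Fintype.card K = 8 := by
    have := GaloisField.card 2 3 (by norm_num)
    rw [Nat.card_eq_fintype_card] at this
    simpa using this
  have h2 : (2 : K) = 0 := by exact_mod_cast CharP.cast_eq_zero K 2
  have pg7 := pg_of_eppo (G := Matrix.ProjectiveSpecialLinearGroup (Fin 2) F)
    (by
      intro x
      rcases eppo7 hF h7 x with h | h | h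
      · exact ⟨3, 1, by simp, by simpa using h⟩
      · exact ⟨2, 2, by simp, by simpa using h⟩
      · exact ⟨7, 1, by simp, by simpa using h⟩)
    ⟨_, orderOf_a2⟩ ⟨_, orderOf_a3⟩ ⟨_, orderOf_a7 h7⟩
  have pg8 := pg_of_eppo (G := Matrix.SpecialLinearGroup (Fin 2) K)
    (by
      intro x
      rcases eppo8 hK h2 x with h | h | h
      · exact ⟨2, 1, by simp, by simpa using h⟩
      · exact ⟨7, 1, by simp, by simpa using h⟩
      · exact ⟨3, 2, by simp, by simpa using h⟩)
    ⟨_, Cfsg.Agent.Lib.Helper64SL2.orderOf_tv⟩ ⟨_, orderOf_b3 h2⟩ (exists_order7 hK)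
  obtain ⟨H, iG, iF, hM, h1, h3⟩ := Cfsg.Agent.Lib.Helper64SL2.sl2_large (F := K) N
  refine ⟨H, iG, inferInstance, ?_, ?_, ?_⟩
  · rw [Nat.card_eq_fintype_card]; exact hM
  · intro p hp
    rw [← h1 p hp, pg7.1 p hp, pg8.1 p hp]
  · intro p q hp hq hpq
    rw [← h3 p q hp hq hpq]
    constructor
    · intro h; exact absurd h (pg7.2 p q hp hq hpq)
    · intro h; exact absurd h (pg8.2 p q hp hq hpq)

end Cfsg.Agent.S3678
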