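import Cfsg.Statements.S3680
import Cfsg.Agent.S0550
import Cfsg.Agent.S0721
import Cfsg.Agent.Lib.Helper15TwoTrans
import Mathlib

set_option autoImplicit false
open Cfsg

namespace Cfsg.Agent.S3680

open MulAction Cfsg.Agent.Lib.Helper15TwoTrans

def prodPow (T : Type*) [Group T] (m : ℕ) : (Fin m → T) × (Fin m → T) ≃* (Fin (m + m) → T) where
  toFun p := Fin.append p.1 p.2
  invFun f := (fun i => f (Fin.castAdd m i), fun i => f (Fin.natAdd m i))
  left_inv p := by
    refine Prod.ext ?_ ?_
    · funext i; exact Fin.append_left _ _ i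
    · funext i; exact Fin.append_right _ _ i
  right_inv f := by
    funext i
    refine Fin.addCases ?_ ?_ i <;> intro j
    · exact Fin.append_left _ _ j
    · exact Fin.append_right _ _ j
  map_mul' p q := by
    funext i
    refine Fin.addCases ?_ ?_ i <;> intro j
    · rw [Pi.mul_apply, Fin.append_left, Fin.append_left, Fin.append_left]; rfl
    · rw [Pi.mul_apply, Fin.append_right, Fin.append_right, Fin.append_right]; rfl

/-- internal direct product of two normal subgroups meeting trivially -/
theorem sup_equiv_prod {G : Type*} [Group G] (A B : Subgroup G) [hA : A.Normal] [hB : B.Normal]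
    (h : Disjoint A B) : Nonempty (↥(A ⊔ B) ≃* A × B) := by
  have comm : ∀ (a : A) (b : B), Commute (A.subtype a) (B.subtype b) := fun a b =>
    Subgroup.commute_of_normal_of_disjoint A B hA hB h a b a.2 b.2
  have hinj : Function.Injective (MonoidHom.noncommCoprod A.subtype B.subtype comm) := by
    rw [MonoidHom.noncommCoprod_injective]
    refine ⟨A.subtype_injective, B.subtype_injective, ?_⟩
    rwa [Subgroup.range_subtype, Subgroup.range_subtype]
  have hr : (MonoidHom.noncommCoprod A.subtype B.subtype comm).range = A ⊔ B := by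
    rw [MonoidHom.noncommCoprod_range, Subgroup.range_subtype, Subgroup.range_subtype]
  exact ⟨((MonoidHom.ofInjective hinj).trans (MulEquiv.subgroupCongr hr)).symm⟩

theorem comm_of_pow {T : Type*} [Group T] {m : ℕ} (hm : 0 < m)
    (h : ∀ f g : Fin m → T, f * g = g * f) (s t : T) : s * t = t * s := by
  have := congrFun (h (fun _ => s) (fun _ => t)) ⟨0, hm⟩
  simpa using this

/-- The socle of a finite primitive permutation group. Let a finite group G act faithfully and primitively on a set Ω, and let N be the subgroup generated by the minimal normal subgroups of G. Then either N is an elementary abelian p-group for some prime p and acts regularly on Ω (transitively with trivial point stabilizers), or N is isomorphic to a direct product of m ≥ 1 copies of a non-abelian simple group. -/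
theorem result {G Ω : Type*} [Group G] [Finite G] [MulAction G Ω] [FaithfulSMul G Ω] [Finite Ω]
    (hprim : MulAction.IsPreprimitive G Ω) (N : Subgroup G)
    (hN : N = sSup {V : Subgroup G | V.Normal ∧ V ≠ ⊥ ∧ ∀ M : Subgroup G, M.Normal → M ≤ V → M = ⊥ ∨ M = V}) :
    (∃ p : ℕ, p.Prime ∧ IsMulCommutative N ∧ (∀ x : N, x ^ p = 1) ∧
      MulAction.IsPretransitive N Ω ∧ ∀ ω : Ω, MulAction.stabilizer N ω = ⊥) ∨
    (∃ (T : Type) (_ : Group T) (m : ℕ), 1 ≤ m ∧ IsSimpleGroup T ∧ ¬ IsMulCommutative T ∧ Nonempty (N ≃* (Fin m → T))) := by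
  classical
  set S : Set (Subgroup G) := {V : Subgroup G | V.Normal ∧ V ≠ ⊥ ∧
    ∀ M : Subgroup G, M.Normal → M ≤ V → M = ⊥ ∨ M = V} with hS
  rcases subsingleton_or_nontrivial G with hs | hnt
  · -- trivial group
    left
    have hΩ : Subsingleton Ω := by
      constructor
      intro a b
      obtain ⟨g, hg⟩ := exists_smul_eq G a b
      rw [Subsingleton.elim g 1, one_smul] at hg
      exact hg
    refine ⟨2, Nat.prime_two, ⟨⟨fun a b => Subsingleton.elim _ _⟩⟩, fun x => Subsingleton.elim _ _,
      ⟨fun a b => ⟨1, Subsingleton.elim _ _⟩⟩, fun ω => Subsingleton.elim _ _⟩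
  have hΩnt : Nontrivial Ω := by
    by_contra hcon
    rw [not_nontrivial_iff_subsingleton] at hcon
    obtain ⟨g, hg⟩ := exists_ne (1 : G)
    apply hg
    apply FaithfulSMul.eq_of_smul_eq_smul (α := Ω)
    intro a
    exact Subsingleton.elim _ _
  obtain ⟨a₀⟩ : Nonempty Ω := inferInstance
  -- a minimal normal subgroup exists
  obtain ⟨M, hMS⟩ : S.Nonempty := by
    obtain ⟨M, hM⟩ := (Set.toFinite {V : Subgroup G | V.Normal ∧ V ≠ ⊥}).exists_minimal
      ⟨⊤, inferInstance, top_ne_bot⟩
    refine ⟨M, hM.1.1, hM.1.2, ?_⟩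
    intro K hK hKM
    by_cases hK1 : K = ⊥
    · exact Or.inl hK1
    · exact Or.inr (le_antisymm hKM (hM.2 ⟨hK, hK1⟩ hKM))
  have hU : IsCoatom (stabilizer G a₀) := IsPreprimitive.isCoatom_stabilizer_of_isPreprimitive G a₀
  have hcore : (stabilizer G a₀).normalCore = ⊥ := by
    rw [eq_bot_iff]
    intro x hx
    rw [Subgroup.mem_bot]
    apply FaithfulSMul.eq_of_smul_eq_smul (α := Ω)
    intro b
    obtain ⟨g, rfl⟩ := exists_smul_eq G a₀ b
    have h1 : g⁻¹ * x * g⁻¹⁻¹ ∈ stabilizer G a₀ := hx g⁻¹
    rw [inv_inv, mem_stabilizer_iff, mul_smul, mul_smul, inv_smul_eq_iff] at h1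
    rw [one_smul]; exact h1
  have htwo := fun (A B : Subgroup G) (hA : A ∈ S) (hB : B ∈ S) (hAB : A ≠ B) =>
    @Cfsg.Agent.S0550.result G _ _ (stabilizer G a₀) hU hcore A B hA.1 hB.1 hA.2.1 hB.2.1 hA.2.2
      hB.2.2 hAB
  have hMn : M.Normal := hMS.1
  obtain ⟨T, hT, m, hTs, hm, ⟨e⟩⟩ := Cfsg.Agent.S0721.result M hMS.2.1 hMS.2.2
  by_cases huniq : ∀ B ∈ S, B = M
  · -- unique minimal normal subgroup
    have hNM : N = M := by
      rw [hN]
      apply le_antisymm
      · exact sSup_le fun B hB => (huniq B hB).le
      · exact le_sSup hMS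
    subst hNM
    by_cases hab : IsMulCommutative N
    · left
      have hTc : ∀ s t : T, s * t = t * s := by
        apply comm_of_pow hm
        intro f g
        have := hab.is_comm.comm (e.symm f) (e.symm g)
        rw [← map_mul, ← map_mul] at this
        exact e.symm.injective this
      let _ : CommGroup T := { hT with mul_comm := hTc }
      have hp : (Nat.card T).Prime := IsSimpleGroup.prime_card
      obtain ⟨⟨h, hh⟩, h1⟩ := Subgroup.ne_bot_iff_exists_ne_one.1 hMS.2.1
      have h1' : h ≠ 1 := fun e => h1 (Subtype.ext e)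
      have htr : IsPretransitive N Ω := normal_trans N h hh h1'
      refine ⟨Nat.card T, hp, hab, ?_, htr, ?_⟩
      · intro x
        apply e.injective
        rw [map_pow, map_one]
        funext i
        exact pow_card_eq_one'
      · intro ω
        rw [eq_bot_iff]
        rintro ⟨x, hx⟩ hxω
        rw [Subgroup.mem_bot]
        apply Subtype.ext
        apply FaithfulSMul.eq_of_smul_eq_smul (α := Ω)
        intro b
        obtain ⟨y, rfl⟩ := exists_smul_eq N ω b
        have hc := hab.is_comm.comm ⟨x, hx⟩ y
        have h2 : (⟨x, hx⟩ : N) • y • ω = y • ω := by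
          rw [← mul_smul, hc, mul_smul]
          congr 1
        change x • (y • ω) = (1 : G) • (y • ω)
        rw [one_smul]
        exact h2
    · right
      refine ⟨T, hT, m, hm, hTs, ?_, ⟨e⟩⟩
      intro hTc
      apply hab
      refine ⟨⟨fun x y => ?_⟩⟩
      apply e.injective
      rw [map_mul, map_mul]
      funext i
      exact hTc.is_comm.comm _ _
  · push Not at huniq
    obtain ⟨B, hBS, hBM⟩ := huniq
    right
    have hBn : B.Normal := hBS.1
    obtain ⟨hcB, hcM, -, -, hnab, ⟨f⟩, -⟩ := htwo M B hMS hBS hBM.symm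
    have hSeq : S = {M, B} := by
      ext C
      constructor
      · intro hC
        by_contra hcon
        simp only [Set.mem_insert_iff, Set.mem_singleton_iff, not_or] at hcon
        have h1 := (htwo C B hC hBS hcon.2).1
        exact hcon.1 (h1.symm.trans hcB)
      · rintro (rfl | rfl)
        exacts [hMS, hBS]
    have hNsup : N = M ⊔ B := by rw [hN, hSeq, sSup_pair]
    have hdisj : Disjoint M B := by
      rw [disjoint_iff]
      rcases hMS.2.2 (M ⊓ B) inferInstance inf_le_left with h1 | h1
      · exact h1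
      · exfalso
        rcases hBS.2.2 (M ⊓ B) inferInstance inf_le_right with h2 | h2
        · rw [h2] at h1; exact hMS.2.1 h1.symm
        · exact hBM (h2.symm.trans h1)
    obtain ⟨g⟩ := sup_equiv_prod M B hdisj
    refine ⟨T, hT, m + m, by omega, hTs, ?_, ?_⟩
    · intro hTc
      apply hnab
      refine ⟨⟨fun x y => ?_⟩⟩
      apply e.injective
      rw [map_mul, map_mul]
      funext i
      exact hTc.is_comm.comm _ _
    · exact ⟨(MulEquiv.subgroupCongr hNsup).trans (g.trans
        ((MulEquiv.prodCongr e (f.symm.trans e)).trans (prodPow T m)))⟩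

end Cfsg.Agent.S3680
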