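import Cfsg.Statements.S3681
-- import your own Cfsg.Agent.* helpers here

set_option autoImplicit false
open Cfsg

namespace Cfsg.Agent.S3681

open Equiv Equiv.Perm

theorem isThreeCycle_commutator {Ω : Type*} [Fintype Ω] [DecidableEq Ω] (x y : Perm Ω) (δ : Ω)
    (hxδ : x δ ≠ δ) (hyδ : y δ ≠ δ) (hdisj : ∀ z, z ≠ δ → x z = z ∨ y z = z) :
    (x * y * x⁻¹ * y⁻¹).IsThreeCycle := by
  have hxy : x δ ≠ y δ := by
    intro h
    rcases hdisj (x δ) hxδ with h1 | h1
    · exact hxδ (x.injective h1)
    · rw [h] at h1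
      exact hyδ (y.injective h1)
  have key : x * y * x⁻¹ * y⁻¹ = swap δ (y δ) * swap δ (x δ) := by
    ext z
    simp only [Perm.mul_apply]
    by_cases hz1 : z = δ
    · subst hz1
      rw [swap_apply_left, swap_apply_of_ne_of_ne hxδ hxy]
      have h1 : y⁻¹ z ≠ z := by
        intro h
        apply hyδ
        have := congrArg y h
        simpa using this.symm
      have h2 : x (y⁻¹ z) = y⁻¹ z := by
        rcases hdisj _ h1 with h | h
        · exact h
        · exfalso
          apply h1
          have : y (y⁻¹ z) = z := by simp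
          rw [← h, this]
      have h3 : x⁻¹ (y⁻¹ z) = y⁻¹ z := by
        rw [Perm.inv_eq_iff_eq, h2]
      rw [h3]
      simp
    by_cases hz2 : z = x δ
    · subst hz2
      rw [swap_apply_right, swap_apply_left]
      have h1 : y (x δ) = x δ := by
        rcases hdisj _ hxδ with h | h
        · exact absurd (x.injective h) hxδ
        · exact h
      have h2 : y⁻¹ (x δ) = x δ := by rw [Perm.inv_eq_iff_eq, h1]
      rw [h2]
      have h3 : x⁻¹ (x δ) = δ := by simp
      rw [h3]
      rcases hdisj _ hyδ with h | h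
      · exact h
      · exact absurd (y.injective h) hyδ
    by_cases hz3 : z = y δ
    · subst hz3
      rw [swap_apply_of_ne_of_ne hyδ hz2, swap_apply_right]
      have h0 : y⁻¹ (y δ) = δ := by simp
      rw [h0]
      have h1 : x⁻¹ δ ≠ δ := by
        intro h
        apply hxδ
        have := congrArg x h
        simpa using this.symm
      have h2 : y (x⁻¹ δ) = x⁻¹ δ := by
        rcases hdisj _ h1 with h | h
        · exfalso
          apply h1
          have : x (x⁻¹ δ) = δ := by simp
          rw [← h, this]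
        · exact h
      rw [h2]
      simp
    rw [swap_apply_of_ne_of_ne hz1 hz2, swap_apply_of_ne_of_ne hz1 hz3]
    by_cases hyz : y z = z
    · have h1 : y⁻¹ z = z := by rw [Perm.inv_eq_iff_eq, hyz]
      rw [h1]
      have h2 : x⁻¹ z ≠ δ := by
        intro h
        apply hz2
        rw [← h]; simp
      rcases hdisj _ h2 with h | h
      · have h3 : x⁻¹ z = z := by
          have : x (x⁻¹ z) = z := by simp
          rw [← h, this]
        rw [h3, hyz]
        rw [Perm.inv_eq_iff_eq] at h3
        exact h3.symm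
      · rw [h]; simp
    · have hxz : x z = z := (hdisj z hz1).resolve_right hyz
      have h2 : y⁻¹ z ≠ δ := by
        intro h
        apply hz3
        rw [← h]; simp
      have h3 : x (y⁻¹ z) = y⁻¹ z := by
        rcases hdisj _ h2 with h | h
        · exact h
        · exfalso
          apply hyz
          have h4 : y (y⁻¹ z) = z := by simp
          have h5 : y⁻¹ z = z := by rw [← h, h4]
          rw [Perm.inv_eq_iff_eq] at h5
          exact h5.symm
      have h4 : x⁻¹ (y⁻¹ z) = y⁻¹ z := by rw [Perm.inv_eq_iff_eq, h3]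
      rw [h4]
      simp [hxz]
  rw [key]
  exact isThreeCycle_swap_mul_swap_same hyδ.symm hxδ.symm hxy.symm

theorem exists_small_base {Ω : Type*} [Fintype Ω] [DecidableEq Ω] (K : Subgroup (Perm Ω))
    (hprim : MulAction.IsPreprimitive K Ω) (hA : ¬ alternatingGroup Ω ≤ K) :
    ∃ Δ : Finset Ω, 2 * Δ.card ≤ Fintype.card Ω ∧ ∀ g ∈ K, (∀ z ∈ Δ, g z = z) → g = 1 := by
  classical
  let P : ℕ → Prop := fun k => ∃ Δ : Finset Ω, Δ.card = k ∧ ∀ g ∈ K, (∀ z ∈ Δ, g z = z) → g = 1
  have hP : ∃ k, P k := ⟨_, Finset.univ, rfl, fun g _ h => Perm.ext fun z => h z (Finset.mem_univ z)⟩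
  obtain ⟨Δ, hΔc, hΔ⟩ := Nat.find_spec hP
  have hmin : ∀ Δ' : Finset Ω, Δ'.card < Δ.card → ∃ g ∈ K, (∀ z ∈ Δ', g z = z) ∧ g ≠ 1 := by
    intro Δ' hlt
    by_contra hcon
    push Not at hcon
    rw [hΔc] at hlt
    exact Nat.find_min hP hlt ⟨Δ', rfl, fun g hg h => hcon g hg h⟩
  refine ⟨Δ, ?_, hΔ⟩
  by_contra hlt
  push Not at hlt
  have hc : Δᶜ.card < Δ.card := by
    rw [Finset.card_compl]; omega
  obtain ⟨x, hxK, hxfix, hx1⟩ := hmin _ hc
  obtain ⟨δ, hδ⟩ : ∃ δ, x δ ≠ δ := by
    by_contra hcon
    push Not at hcon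
    exact hx1 (Perm.ext hcon)
  have hδΔ : δ ∈ Δ := by
    by_contra h
    exact hδ (hxfix δ (Finset.mem_compl.mpr h))
  obtain ⟨y, hyK, hyfix, hy1⟩ := hmin (Δ.erase δ) (Finset.card_erase_lt_of_mem hδΔ)
  have hyδ : y δ ≠ δ := by
    intro h
    apply hy1
    apply hΔ y hyK
    intro z hz
    by_cases hzδ : z = δ
    · rw [hzδ, h]
    · exact hyfix z (Finset.mem_erase.mpr ⟨hzδ, hz⟩)
  have h3 := isThreeCycle_commutator x y δ hδ hyδ (by
    intro z hz
    by_cases hzΔ : z ∈ Δ
    · exact Or.inr (hyfix z (Finset.mem_erase.mpr ⟨hz, hzΔ⟩))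
    · exact Or.inl (hxfix z (Finset.mem_compl.mpr hzΔ)))
  apply hA
  exact alternatingGroup_le_of_isPreprimitive_of_isThreeCycle_mem hprim h3
    (K.mul_mem (K.mul_mem (K.mul_mem hxK hyK) (K.inv_mem hxK)) (K.inv_mem hyK))

theorem bochert_perm {Ω : Type*} [Fintype Ω] [DecidableEq Ω] (K : Subgroup (Perm Ω))
    (hprim : MulAction.IsPreprimitive K Ω) (hA : ¬ alternatingGroup Ω ≤ K) :
    Nat.card K * Nat.factorial ((Fintype.card Ω + 1) / 2) ≤ Nat.factorial (Fintype.card Ω) := by
  classical
  obtain ⟨Δ, hΔc, hΔ⟩ := exists_small_base K hprim hA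
  let f : K × Perm {z // z ∉ Δ} → Perm Ω := fun p => (p.1 : Perm Ω) * ofSubtype p.2
  have hf : Function.Injective f := by
    rintro ⟨k, σ⟩ ⟨k', τ⟩ h
    simp only [f] at h
    have h1 : (k' : Perm Ω)⁻¹ * k = ofSubtype τ * (ofSubtype σ)⁻¹ := by
      rw [eq_mul_inv_iff_mul_eq, mul_assoc, h, inv_mul_cancel_left]
    have h2 : (k' : Perm Ω)⁻¹ * k = 1 := by
      apply hΔ _ (K.mul_mem (K.inv_mem k'.2) k.2)
      intro z hz
      rw [h1, ← map_inv, ← map_mul]
      exact ofSubtype_apply_of_not_mem _ (by simpa using hz)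
    have h3 : k = k' := by
      apply Subtype.ext
      rw [inv_mul_eq_one] at h2
      exact h2.symm
    subst h3
    have h4 : ofSubtype σ = ofSubtype τ := mul_left_cancel h
    rw [ofSubtype_injective h4]
  have hcard := Nat.card_le_card_of_injective f hf
  rw [Nat.card_prod, Nat.card_perm, Nat.card_perm, Nat.card_eq_fintype_card (α := Ω),
    Nat.card_eq_fintype_card (α := {z // z ∉ Δ})] at hcard
  have h5 : Fintype.card {z // z ∉ Δ} = Fintype.card Ω - Δ.card := by
    rw [Fintype.card_subtype_compl, Fintype.card_coe]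
  rw [h5] at hcard
  refine le_trans (Nat.mul_le_mul_left _ (Nat.factorial_le ?_)) hcard
  omega

/-- Bochert's bound for primitive groups. Let a finite group G act faithfully and primitively on a finite set Ω with n elements, and suppose the image of G in the symmetric group of Ω does not contain the alternating group of Ω. Then |G| · ⌊(n + 1)/2⌋! ≤ n!, that is, the index of G in the symmetric group is at least ⌊(n + 1)/2⌋!. -/
theorem result {G Ω : Type*} [Group G] [Finite G] [MulAction G Ω] [FaithfulSMul G Ω] [Fintype Ω] [DecidableEq Ω]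
    (hprim : MulAction.IsPreprimitive G Ω) (hA : ¬ alternatingGroup Ω ≤ (MulAction.toPermHom G Ω).range) :
    Nat.card G * Nat.factorial ((Fintype.card Ω + 1) / 2) ≤ Nat.factorial (Fintype.card Ω) := by
  classical
  have hinj : Function.Injective (MulAction.toPermHom G Ω) := MulAction.toPerm_injective
  have hcard : Nat.card G = Nat.card (MulAction.toPermHom G Ω).range :=
    Nat.card_congr (MonoidHom.ofInjective hinj).toEquiv
  rw [hcard]
  apply bochert_perm _ _ hA
  let f : Ω →ₑ[(MulAction.toPermHom G Ω).rangeRestrict] Ω :=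
    { toFun := id
      map_smul' := fun g x => rfl }
  exact MulAction.IsPreprimitive.of_surjective (f := f) Function.surjective_id

end Cfsg.Agent.S3681
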