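import Cfsg.Statements.S3682
import Cfsg.Agent.Lib.Helper60TWPrim
-- import your own Cfsg.Agent.* helpers here

set_option autoImplicit false
open Cfsg

namespace Cfsg.Agent.S3682

/-- Wielandt's bound toward the Sims conjecture. Let a finite group G act faithfully and primitively on a set Ω, let a and b be points, and suppose the orbit of b under the stabilizer of a has length d ≥ 2. Then there are a prime p and a normal p-subgroup P of the stabilizer of a, all of whose elements fix b, such that the index of P in the stabilizer of a divides d! · ((d - 1)!)^d. -/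
theorem result {G Ω : Type*} [Group G] [Finite G] [MulAction G Ω] [FaithfulSMul G Ω] [Finite Ω]
    (hprim : MulAction.IsPreprimitive G Ω) (a b : Ω) (d : ℕ) (hd : Nat.card (MulAction.orbit (MulAction.stabilizer G a) b) = d) (h2 : 2 ≤ d) :
    ∃ p : ℕ, p.Prime ∧ ∃ P : Subgroup (MulAction.stabilizer G a), P.Normal ∧ IsPGroup p P ∧ (∀ g : P, ((g : MulAction.stabilizer G a) : G) • b = b) ∧
      P.index ∣ Nat.factorial d * (Nat.factorial (d - 1)) ^ d := by
  classical
  obtain ⟨A₁, B₁, A₂, B₂, hcfg, h1, h3, hc⟩ :=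
    Cfsg.Agent.Lib.Helper60TWPrim.exists_cfg hprim a b d hd h2
  rcases Cfsg.Agent.Lib.Helper60TWPrim.card_dvd_or hcfg h1 h3 hc with h | ⟨hA, hB⟩
  · refine ⟨2, Nat.prime_two, ⊥, inferInstance, IsPGroup.of_bot, ?_, ?_⟩
    · rintro ⟨g, hg⟩
      rw [Subgroup.mem_bot] at hg
      subst hg
      simp
    · rw [Subgroup.index_bot]
      exact h
  · obtain ⟨p, hp, hpA, -, -, -⟩ := hcfg.main hA hB
    refine ⟨p, hp, A₂.subgroupOf (MulAction.stabilizer G a), ?_, ?_, ?_, ?_⟩
    · exact (Cfsg.Agent.Lib.Helper28Comp.normIn_iff_subgroupOf hcfg.a2.le_left).mp hcfg.a2.normIn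
    · exact hpA.comap_subtype
    · rintro ⟨g, hg⟩
      have h4 : ((g : MulAction.stabilizer G a) : G) ∈ MulAction.stabilizer G b :=
        hcfg.b1.le_left (hcfg.a2.le_right hg)
      exact h4
    · have := Cfsg.Agent.Lib.Helper60TWIdx.relIndex_a2_dvd hcfg.a1 hcfg.b1 hcfg.a2
      rw [h1, h3] at this
      exact this

end Cfsg.Agent.S3682
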