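import Cfsg.Statements.S3683
-- import your own Cfsg.Agent.* helpers here

set_option autoImplicit false
open Cfsg

namespace Cfsg.Agent.S3683

/-- Let a finite group G act faithfully and primitively on a set Ω, and suppose the stabilizer of a point a fixes a second point b ≠ a (a suborbit of length 1 other than {a}). Then the stabilizer of a is trivial and G is cyclic of prime order. -/
theorem result {G Ω : Type*} [Group G] [Finite G] [MulAction G Ω] [FaithfulSMul G Ω] [Finite Ω]
    (hprim : MulAction.IsPreprimitive G Ω) (a b : Ω) (hab : a ≠ b) (hfix : ∀ g : G, g • a = a → g • b = b) :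
    MulAction.stabilizer G a = ⊥ ∧ IsCyclic G ∧ (Nat.card G).Prime := by
  classical
  have : Nontrivial Ω := ⟨a, b, hab⟩
  have hca : IsCoatom (MulAction.stabilizer G a) :=
    MulAction.IsPreprimitive.isCoatom_stabilizer_of_isPreprimitive G a
  have hcb : IsCoatom (MulAction.stabilizer G b) :=
    MulAction.IsPreprimitive.isCoatom_stabilizer_of_isPreprimitive G b
  have hle : MulAction.stabilizer G a ≤ MulAction.stabilizer G b := by
    intro g hg
    rw [MulAction.mem_stabilizer_iff] at hg ⊢
    exact hfix g hg
  have heq : MulAction.stabilizer G a = MulAction.stabilizer G b := by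
    rcases eq_or_lt_of_le hle with h | h
    · exact h
    · exact absurd (hca.2 _ h) hcb.1
  obtain ⟨g, hg⟩ := MulAction.exists_smul_eq G a b
  have hgn : g ∈ Subgroup.normalizer (MulAction.stabilizer G a : Set G) := by
    rw [Subgroup.mem_normalizer_iff]
    intro h
    constructor
    · intro hh
      have : g * h * g⁻¹ ∈ MulAction.stabilizer G b := by
        rw [MulAction.mem_stabilizer_iff] at hh ⊢
        rw [← hg, mul_smul, mul_smul, inv_smul_smul, hh]
      rwa [heq]
    · intro hh
      rw [heq, MulAction.mem_stabilizer_iff, ← hg, mul_smul, mul_smul, inv_smul_smul] at hh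
      rw [MulAction.mem_stabilizer_iff]
      exact smul_left_cancel g hh
  have hgS : g ∉ MulAction.stabilizer G a := by
    intro h
    rw [MulAction.mem_stabilizer_iff] at h
    exact hab (h.symm.trans hg)
  have hnorm : Subgroup.normalizer (MulAction.stabilizer G a : Set G) = ⊤ := by
    apply hca.2
    refine lt_of_le_of_ne Subgroup.le_normalizer ?_
    intro h
    apply hgS
    rw [h]
    exact hgn
  have hbot : MulAction.stabilizer G a = ⊥ := by
    rw [eq_bot_iff]
    intro s hs
    rw [Subgroup.mem_bot]
    apply FaithfulSMul.eq_of_smul_eq_smul (α := Ω)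
    intro x
    obtain ⟨h, rfl⟩ := MulAction.exists_smul_eq G a x
    have hh : h⁻¹ ∈ Subgroup.normalizer (MulAction.stabilizer G a : Set G) := by
      rw [hnorm]; trivial
    have := (Subgroup.mem_normalizer_iff.mp hh s).mp hs
    rw [MulAction.mem_stabilizer_iff, inv_inv, mul_smul, mul_smul] at this
    rw [one_smul]
    have h2 := congrArg (fun y => h • y) this
    simpa using h2
  have hcbot : IsCoatom (⊥ : Subgroup G) := hbot ▸ hca
  have key : ∀ x : G, x ≠ 1 → Subgroup.zpowers x = ⊤ := by
    intro x hx
    apply hcbot.2
    rw [bot_lt_iff_ne_bot]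
    intro h
    exact hx (Subgroup.zpowers_eq_bot.mp h)
  have hg1 : g ≠ 1 := by
    rintro rfl
    exact hgS (Subgroup.one_mem _)
  refine ⟨hbot, ?_, ?_⟩
  · exact isCyclic_iff_exists_zpowers_eq_top.mpr ⟨g, key g hg1⟩
  · have : Nontrivial G := ⟨g, 1, hg1⟩
    have h1 : Nat.card G ≠ 1 := by
      intro h
      have := Finite.one_lt_card (α := G)
      omega
    obtain ⟨p, hp, hpd⟩ := Nat.exists_prime_and_dvd h1
    have := Fact.mk hp
    obtain ⟨x, hx⟩ := exists_prime_orderOf_dvd_card' p hpd
    have hx1 : x ≠ 1 := by
      rintro rfl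
      rw [orderOf_one] at hx
      exact hp.one_lt.ne hx
    have := key x hx1
    have h3 : Nat.card G = orderOf x := by
      rw [← Nat.card_zpowers, this, Subgroup.card_top]
    rw [h3, hx]
    exact hp

end Cfsg.Agent.S3683
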