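import Cfsg.Statements.S3684
import Cfsg.Agent.S0206

set_option autoImplicit false
open Cfsg

namespace Cfsg.Agent.S3684

open MulAction Subgroup

/-- Let a finite group G act faithfully and primitively on a set Ω, and suppose the stabilizer of a point a has an orbit of length 2. Then the stabilizer of a has order 2 and G is isomorphic to the dihedral group of order 2p for some prime p. -/
theorem result {G Ω : Type*} [Group G] [Finite G] [MulAction G Ω] [FaithfulSMul G Ω] [Finite Ω]
    (hprim : MulAction.IsPreprimitive G Ω) (a b : Ω) (h2 : Nat.card (MulAction.orbit (MulAction.stabilizer G a) b) = 2) :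
    Nat.card (MulAction.stabilizer G a) = 2 ∧ ∃ p : ℕ, p.Prime ∧ Nonempty (G ≃* DihedralGroup p) := by
  classical
  have htr : IsPretransitive G Ω := hprim.toIsPretransitive
  set A := stabilizer G a with hA
  set B := stabilizer G b with hB
  set K := A ⊓ B with hK
  have hKA : K.relIndex A = 2 := by
    have h1 : K.subgroupOf A = stabilizer A b := by
      ext x
      simp [hK, mem_subgroupOf, hB, mem_stabilizer_iff, Subgroup.smul_def]
    rw [relIndex, h1, index_stabilizer, ← Nat.card_coe_set_eq, h2]
  have hidx : A.index = B.index := by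
    rw [hA, hB, index_stabilizer_of_transitive, index_stabilizer_of_transitive]
  have hA0 : A.index ≠ 0 := Subgroup.index_ne_zero_of_finite
  have hKB : K.relIndex B = 2 := by
    have h1 := relIndex_mul_index (inf_le_left : K ≤ A)
    have h3 := relIndex_mul_index (inf_le_right : K ≤ B)
    rw [← hidx, ← h1, hKA] at h3
    exact Nat.eq_of_mul_eq_mul_right (Nat.pos_of_ne_zero hA0) h3
  have hnA : A ≤ normalizer (K : Set G) := by
    have : (K.subgroupOf A).Normal := normal_of_index_eq_two hKA
    exact (normal_subgroupOf_iff_le_normalizer inf_le_left).mp this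
  have hnB : B ≤ normalizer (K : Set G) := by
    have : (K.subgroupOf B).Normal := normal_of_index_eq_two hKB
    exact (normal_subgroupOf_iff_le_normalizer inf_le_right).mp this
  have hab : a ≠ b := by
    rintro rfl
    have : K = A := inf_idem A
    rw [this, relIndex_self] at hKA
    omega
  have : Nontrivial Ω := ⟨a, b, hab⟩
  have hco : IsCoatom A := IsPreprimitive.isCoatom_stabilizer_of_isPreprimitive (G := G) a
  have hBA : ¬ B ≤ A := by
    intro h
    have : K = B := by rw [hK]; exact inf_eq_right.mpr h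
    rw [this, relIndex_self] at hKB
    omega
  have hKn : K.Normal := by
    rw [← normalizer_eq_top_iff]
    by_contra hne
    have h1 : normalizer (K : Set G) = A := by
      by_contra h3
      exact hne (hco.2 _ (lt_of_le_of_ne hnA (Ne.symm h3)))
    exact hBA (h1 ▸ hnB)
  have hKbot : K = ⊥ := by
    rw [eq_bot_iff]
    intro k hk
    rw [mem_bot]
    apply FaithfulSMul.eq_of_smul_eq_smul (α := Ω)
    intro x
    obtain ⟨g, rfl⟩ := exists_smul_eq G a x
    have h1 : g⁻¹ * k * g⁻¹⁻¹ ∈ K := hKn.conj_mem k hk g⁻¹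
    have h3 : g⁻¹ * k * g⁻¹⁻¹ ∈ A := h1.1
    rw [hA, mem_stabilizer_iff, inv_inv, mul_smul, mul_smul, inv_smul_eq_iff] at h3
    rw [h3, one_smul]
  have hcA : Nat.card A = 2 := by rw [← relIndex_bot_left, ← hKbot, hKA]
  have hcB : Nat.card B = 2 := by rw [← relIndex_bot_left, ← hKbot, hKB]
  refine ⟨hcA, ?_⟩
  have key : ∀ C : Subgroup G, Nat.card C = 2 → ∃ t : G, orderOf t = 2 ∧ t ∈ C ∧ C = zpowers t := by
    intro C hC
    have : Fact (Nat.Prime 2) := ⟨Nat.prime_two⟩
    obtain ⟨t, ht⟩ := exists_prime_orderOf_dvd_card' (G := C) 2 (by rw [hC])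
    have ht' : orderOf (t : G) = 2 := by rw [Subgroup.orderOf_coe, ht]
    refine ⟨t, ht', t.2, ?_⟩
    symm
    apply eq_of_le_of_card_ge
    · rw [zpowers_le]; exact t.2
    · rw [Nat.card_zpowers, ht', hC]
  obtain ⟨t, hto, htA, hAt⟩ := key A hcA
  obtain ⟨s, hso, hsB, hBs⟩ := key B hcB
  have hsA : s ∉ A := by
    intro h
    apply hBA
    rw [hBs, zpowers_le]; exact h
  have hts : t ≠ s := by
    rintro rfl
    exact hsA htA
  have hcl : closure ({t, s} : Set G) = ⊤ := by
    apply hco.2
    refine lt_of_le_of_ne ?_ ?_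
    · rw [hAt, zpowers_le]; exact subset_closure (by simp)
    · intro h
      apply hsA
      rw [h]; exact subset_closure (by simp)
  obtain ⟨e⟩ := Cfsg.Agent.S0206.result t s hto hso hts
  set n := orderOf (t * s) with hn
  have e' : G ≃* DihedralGroup n :=
    (Subgroup.topEquiv.symm.trans (MulEquiv.subgroupCongr hcl.symm)).trans e
  have hcG : Nat.card G = 2 * n := by
    rw [Nat.card_congr e'.toEquiv, DihedralGroup.nat_card]
  have hcΩ : Nat.card Ω = n := by
    have h1 := A.card_mul_index
    rw [hcA, hcG, hA, index_stabilizer_of_transitive] at h1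
    omega
  have hn0 : 0 < n := orderOf_pos _
  have hn1 : n ≠ 1 := by
    intro h
    rw [hn, orderOf_eq_one_iff] at h
    apply hts
    have hs2 : s * s = 1 := by rw [← sq, ← hso, pow_orderOf_eq_one]
    calc t = t * (s * s) := by rw [hs2, mul_one]
      _ = s := by rw [← mul_assoc, h, one_mul]
  refine ⟨n, ?_, ⟨e'⟩⟩
  set p := n.minFac with hp
  have hpp : p.Prime := Nat.minFac_prime hn1
  have hpn : p ∣ n := Nat.minFac_dvd n
  set c := (t * s) ^ (n / p) with hc
  have hco' : orderOf c = p := orderOf_pow_orderOf_div (by omega) hpn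
  have ht2 : t * t = 1 := by rw [← sq, ← hto, pow_orderOf_eq_one]
  have hs2 : s * s = 1 := by rw [← sq, ← hso, pow_orderOf_eq_one]
  have htinv : t⁻¹ = t := inv_eq_of_mul_eq_one_left ht2
  have hsinv : s⁻¹ = s := inv_eq_of_mul_eq_one_left hs2
  have hct : t * c * t⁻¹ = c⁻¹ := by
    rw [hc, ← conj_pow, ← inv_pow]
    congr 1
    rw [mul_inv_rev, htinv, hsinv]
    calc t * (t * s) * t = (t * t) * s * t := by group
      _ = s * t := by rw [ht2, one_mul]
  have hcs : s * c * s⁻¹ = c⁻¹ := by
    rw [hc, ← conj_pow, ← inv_pow]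
    congr 1
    rw [mul_inv_rev, htinv, hsinv]
    calc s * (t * s) * s = s * t * (s * s) := by group
      _ = s * t := by rw [hs2, mul_one]
  have hNn : (zpowers c).Normal := by
    rw [← normalizer_eq_top_iff, eq_top_iff, ← hcl, closure_le]
    have aux : ∀ u : G, u * c * u⁻¹ = c⁻¹ → u ∈ normalizer ((zpowers c : Subgroup G) : Set G) := by
      intro u hu
      have hle : ∀ v : G, v * c * v⁻¹ = c⁻¹ → ∀ x ∈ zpowers c, v * x * v⁻¹ ∈ zpowers c := by
        intro v hv x hx
        obtain ⟨k, rfl⟩ := hx
        change v * c ^ k * v⁻¹ ∈ zpowers c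
        rw [← conj_zpow, hv]
        exact zpow_mem (inv_mem (mem_zpowers c)) k
      have hu' : u⁻¹ * c * u⁻¹⁻¹ = c⁻¹ := by
        rw [inv_inv]
        have : c = u⁻¹ * c⁻¹ * u := by rw [← hu]; group
        calc u⁻¹ * c * u = (u⁻¹ * c⁻¹ * u)⁻¹ := by group
          _ = c⁻¹ := by rw [← this]
      rw [mem_normalizer_iff]
      intro x
      constructor
      · exact hle u hu x
      · intro hx
        have := hle u⁻¹ hu' _ hx
        simpa [mul_assoc] using this
    intro u hu
    rcases hu with rfl | rfl
    · exact aux _ hct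
    · exact aux _ hcs
  have hfix : fixedPoints (zpowers c) Ω ≠ Set.univ := by
    intro h
    have h1 : c = 1 := by
      apply FaithfulSMul.eq_of_smul_eq_smul (α := Ω)
      intro x
      have hx : x ∈ fixedPoints (zpowers c) Ω := by rw [h]; trivial
      have := hx ⟨c, mem_zpowers c⟩
      rw [one_smul]
      exact this
    rw [h1, orderOf_one] at hco'
    exact hpp.one_lt.ne hco'
  have htrN : IsPretransitive (zpowers c) Ω :=
    IsQuasiPreprimitive.isPretransitive_of_normal hfix
  have hdvd : n ∣ p := by
    have h1 := index_stabilizer_of_transitive (zpowers c) a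
    rw [hcΩ] at h1
    rw [← h1, ← hco', ← Nat.card_zpowers]
    exact Subgroup.index_dvd_card _
  rw [Nat.dvd_antisymm hdvd hpn]
  exact hpp

end Cfsg.Agent.S3684
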