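import Cfsg.Statements.S3693
import Cfsg.Agent.Lib.Helper60TWPrim
-- import your own Cfsg.Agent.* helpers here

set_option autoImplicit false
open Cfsg

namespace Cfsg.Agent.S3693

open Subgroup MulAction
open Cfsg.Agent.Lib.Helper28Comp (NormIn Sn CompIn)
open Cfsg.Agent.Lib.Helper28Layer (layerIn fittingIn gfitIn)
open Cfsg.Agent.Lib.Helper27Rel (pcoreIn CP)
open Cfsg.Agent.Lib.Helper60TW
open Cfsg.Agent.Lib

/-- a normal `p`-subgroup of the two point stabiliser acts trivially on the orbit -/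
theorem fixes_orbit {G Ω : Type*} [Group G] [Finite G] [MulAction G Ω] [Finite Ω] (a b : Ω)
    (hF : Cfsg.fittingSubgroup ↥(((MulAction.stabilizer G b).subgroupOf (MulAction.stabilizer G a)).map (MulAction.toPermHom (MulAction.stabilizer G a) (MulAction.orbit (MulAction.stabilizer G a) b))) = ⊥)
    (p : ℕ) [Fact p.Prime] (J : Subgroup G) (hJ : NormIn J (stabilizer G a ⊓ stabilizer G b))
    (hp : IsPGroup p J) (x : G) (hx : x ∈ J) (m : G) (hm : m ∈ stabilizer G a) :
    x • (m • b) = m • b := by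
  set φ := MulAction.toPermHom (MulAction.stabilizer G a) (MulAction.orbit (MulAction.stabilizer G a) b) with hφ
  set T := ((MulAction.stabilizer G b).subgroupOf (MulAction.stabilizer G a)).map φ with hT
  have hN : (((J.subgroupOf (stabilizer G a)).map φ).subgroupOf T).Normal := by
    constructor
    rintro ⟨n, hn⟩ hn' ⟨t, ht⟩
    rw [mem_subgroupOf] at hn' ⊢
    obtain ⟨j, hj, rfl⟩ := hn'
    obtain ⟨h, hh, rfl⟩ := ht
    refine ⟨h * j * h⁻¹, ?_, by simp⟩
    have hj' : (j : G) ∈ J := hj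
    have hh' : (h : G) ∈ stabilizer G b := hh
    exact conj_mem_of_normIn hJ ⟨h.2, hh'⟩ hj'
  have hPg : IsPGroup p (((J.subgroupOf (stabilizer G a)).map φ).subgroupOf T) := by
    apply IsPGroup.comap_of_injective _ _ T.subtype_injective
    apply IsPGroup.map
    exact IsPGroup.comap_of_injective hp _ (stabilizer G a).subtype_injective
  have hle := Helper28Fitting.le_fitting hN hPg.isNilpotent
  rw [hF] at hle
  have hxa : x ∈ stabilizer G a := (hJ.1 hx).1
  have hxT : φ ⟨x, hxa⟩ ∈ T := ⟨⟨x, hxa⟩, (hJ.1 hx).2, rfl⟩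
  have h1 : (⟨φ ⟨x, hxa⟩, hxT⟩ : T) ∈ ((J.subgroupOf (stabilizer G a)).map φ).subgroupOf T := by
    rw [mem_subgroupOf]
    exact ⟨⟨x, hxa⟩, hx, rfl⟩
  have h2 := hle h1
  rw [mem_bot] at h2
  have h3 : φ ⟨x, hxa⟩ = 1 := congrArg Subtype.val h2
  have hmem : m • b ∈ orbit (stabilizer G a) b := ⟨⟨m, hm⟩, rfl⟩
  have h4 := congrArg (fun f => ((f ⟨m • b, hmem⟩ : orbit (stabilizer G a) b) : Ω)) h3
  exact h4

/-- Let a finite group G act faithfully and primitively on a set Ω, let a and b be points such that the orbit Δ of b under the stabilizer H of a has length d ≥ 2, and consider the permutation group induced on Δ by the elements of H fixing b. If that induced group has trivial Fitting subgroup (no non-trivial nilpotent normal subgroup), then the two-point stabilizer of a and b has trivial Fitting subgroup and the order of H divides d! · ((d - 1)!)^d. -/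
theorem result {G Ω : Type*} [Group G] [Finite G] [MulAction G Ω] [FaithfulSMul G Ω] [Finite Ω]
    (hprim : MulAction.IsPreprimitive G Ω) (a b : Ω) (d : ℕ) (hd : Nat.card (MulAction.orbit (MulAction.stabilizer G a) b) = d) (h2 : 2 ≤ d)
    (hF : Cfsg.fittingSubgroup ↥(((MulAction.stabilizer G b).subgroupOf (MulAction.stabilizer G a)).map (MulAction.toPermHom (MulAction.stabilizer G a) (MulAction.orbit (MulAction.stabilizer G a) b))) = ⊥) :
    Cfsg.fittingSubgroup ↥(MulAction.stabilizer G a ⊓ MulAction.stabilizer G b) = ⊥ ∧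
      Nat.card (MulAction.stabilizer G a) ∣ Nat.factorial d * (Nat.factorial (d - 1)) ^ d := by
  classical
  obtain ⟨A₁, B₁, A₂, B₂, hcfg, h1, h3, hc⟩ :=
    Cfsg.Agent.Lib.Helper60TWPrim.exists_cfg hprim a b d hd h2
  set M₁ := stabilizer G a with hM₁
  set M₂ := stabilizer G b with hM₂
  have hA1H : A₁ ≤ M₁ ⊓ M₂ := le_inf hcfg.a1.le_left hcfg.a1.le_right
  have key : ∀ p : ℕ, p.Prime → pcoreIn p (M₁ ⊓ M₂) = ⊥ := by
    intro p hp
    have : Fact p.Prime := ⟨hp⟩
    by_contra hne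
    set J := pcoreIn p (M₁ ⊓ M₂) with hJ
    have hJn : NormIn J (M₁ ⊓ M₂) := Helper27Rel.pcoreIn_normIn _
    have hJp : IsPGroup p J := Helper27Rel.pcoreIn_isPGroup _
    have hJA : J ≤ A₁ := by
      intro x hx
      refine (hcfg.a1 x).mpr ⟨(hJn.1 hx).1, fun m hm => ?_⟩
      have := fixes_orbit a b hF p J hJn hJp x hx m⁻¹ (M₁.inv_mem hm)
      show (m * x * m⁻¹) • b = b
      rw [mul_smul, mul_smul, this, smul_inv_smul]
    have hJeq : J = pcoreIn p A₁ := by
      apply le_antisymm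
      · exact Helper27Rel.le_pcoreIn ⟨hJA, hA1H.trans hJn.2⟩ hJp
      · apply Helper27Rel.le_pcoreIn _ (Helper27Rel.pcoreIn_isPGroup _)
        refine ⟨(Helper27Rel.pcoreIn_le _).trans hA1H, ?_⟩
        exact (inf_le_left.trans hcfg.a1.normIn.2).trans
          (Helper27Rel.normalizer_le_normalizer_pcoreIn _)
    have hJ1 : NormIn J M₁ := by
      rw [hJeq]
      exact ⟨(Helper27Rel.pcoreIn_le _).trans hcfg.a1.le_left,
        hcfg.a1.normIn.2.trans (Helper27Rel.normalizer_le_normalizer_pcoreIn _)⟩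
    have hN := hcfg.n1 J hJ1 hne
    set Q := pcoreIn p M₂ with hQ
    have hQn : NormIn Q M₂ := Helper27Rel.pcoreIn_normIn _
    have hQp : IsPGroup p Q := Helper27Rel.pcoreIn_isPGroup _
    have hJQ : J ≤ normalizer (Q : Set G) := (hJn.1.trans inf_le_right).trans hQn.2
    have hWp : IsPGroup p (J ⊔ Q : Subgroup G) := hJp.to_sup_of_normal_right' hQp hJQ
    have hW2 : J ⊔ Q ≤ M₂ := sup_le (hJn.1.trans inf_le_right) hQn.1
    have hWn : M₁ ⊓ M₂ ≤ normalizer ((J ⊔ Q : Subgroup G) : Set G) := by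
      apply le_normalizer_of
      intro c hc x hx
      have hcJ : J.map (MulAut.conj c).toMonoidHom ≤ J := by
        rintro _ ⟨y, hy, rfl⟩
        exact conj_mem_of_normIn hJn hc hy
      have hcQ : Q.map (MulAut.conj c).toMonoidHom ≤ Q := by
        rintro _ ⟨y, hy, rfl⟩
        exact conj_mem_of_normIn hQn hc.2 hy
      have : (J ⊔ Q).map (MulAut.conj c).toMonoidHom ≤ J ⊔ Q := by
        rw [Subgroup.map_sup]
        exact sup_le_sup hcJ hcQ
      exact this ⟨x, hx, rfl⟩
    have hWH : (J ⊔ Q) ⊓ (M₁ ⊓ M₂) ≤ J := by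
      apply Helper27Rel.le_pcoreIn _ (hWp.to_le inf_le_left)
      refine ⟨inf_le_right, ?_⟩
      apply le_normalizer_of
      intro c hc x hx
      exact ⟨(mem_normalizer_iff.mp (hWn hc) x).mp hx.1,
        (M₁ ⊓ M₂).mul_mem ((M₁ ⊓ M₂).mul_mem hc hx.2) ((M₁ ⊓ M₂).inv_mem hc)⟩
    have hWJ : J ⊔ Q = J := by
      by_contra hlt
      have hlt' : J < J ⊔ Q := lt_of_le_of_ne le_sup_left (Ne.symm hlt)
      obtain ⟨x, hxW, hxN, hxJ⟩ := lt_inf_normalizer hWp hlt'
      exact hxJ (hWH ⟨hxW, hN hxN, hW2 hxW⟩)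
    have hQJ : Q ≤ J := by rw [← hWJ]; exact le_sup_right
    have hJP : J ≤ pcoreIn p M₁ := Helper27Rel.le_pcoreIn hJ1 hJp
    have hQP : Q = pcoreIn p M₁ :=
      Subgroup.eq_of_le_of_card_ge (hQJ.trans hJP) (hcfg.cardP p hp).le
    have hJQ' : J = Q := le_antisymm (by rw [hQP]; exact hJP) hQJ
    exact hne (hcfg.both J hJ1 (by rw [hJQ']; exact hQn))
  refine ⟨?_, ?_⟩
  · have h4 : fittingIn (M₁ ⊓ M₂) = ⊥ := by
      rw [Helper27Bender.fittingIn_eq_iSup]
      apply le_antisymm _ bot_le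
      apply iSup_le
      intro q
      rw [key q q.2]
    rw [← Helper28Layer.map_fitting] at h4
    exact (Subgroup.map_eq_bot_iff_of_injective _ (M₁ ⊓ M₂).subtype_injective).mp h4
  · rcases Cfsg.Agent.Lib.Helper60TWPrim.card_dvd_or hcfg h1 h3 hc with h | ⟨hA, hB⟩
    · exact h
    · obtain ⟨p, hp, hAp, -, -, -⟩ := hcfg.main hA hB
      have : Fact p.Prime := ⟨hp⟩
      exfalso
      apply hA
      rw [eq_bot_iff, ← key p hp]
      apply Helper27Rel.le_pcoreIn _ hAp
      exact ⟨le_inf hcfg.a2.le_left (hcfg.a2.le_right.trans hcfg.b1.le_left),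
        inf_le_left.trans hcfg.a2.normIn.2⟩

end Cfsg.Agent.S3693
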