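import Cfsg.Statements.S3696

set_option autoImplicit false
open Cfsg

namespace Cfsg.Agent.S3696

/-- AM-GM for lists of naturals. -/
theorem amgm (l : List ℕ) : l.prod * l.length ^ l.length ≤ l.sum ^ l.length := by
  rcases Nat.eq_zero_or_pos l.length with h0 | hpos
  · simp [List.length_eq_zero_iff.1 h0]
  set k := l.length with hk
  have key := Real.geom_mean_le_arith_mean (Finset.univ : Finset (Fin k)) (fun _ => (1:ℝ))
    (fun i => ((l[i.1] : ℕ) : ℝ)) (fun _ _ => zero_le_one) (by simp; exact hpos)
    (fun _ _ => Nat.cast_nonneg _)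
  simp only [Real.rpow_one, one_mul, Finset.sum_const, Finset.card_univ, Fintype.card_fin,
    nsmul_eq_mul, mul_one] at key
  have hprod : (∏ i : Fin k, ((l[i.1] : ℕ) : ℝ)) = (l.prod : ℝ) := by
    rw [← Nat.cast_prod]
    congr 1
    exact Fin.prod_univ_getElem l
  have hsum : (∑ i : Fin k, ((l[i.1] : ℕ) : ℝ)) = (l.sum : ℝ) := by
    rw [← Nat.cast_sum]
    congr 1
    exact Fin.sum_univ_getElem l
  rw [hprod, hsum] at key
  have hk0 : (0:ℝ) < k := by exact_mod_cast hpos
  have h2 : ((l.prod : ℝ) ^ ((k:ℝ)⁻¹)) ^ k ≤ ((l.sum : ℝ) / k) ^ k :=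
    pow_le_pow_left₀ (Real.rpow_nonneg (Nat.cast_nonneg _) _) key k
  rw [← Real.rpow_natCast, ← Real.rpow_mul (Nat.cast_nonneg _), inv_mul_cancel₀ hk0.ne',
    Real.rpow_one, div_pow, le_div_iff₀ (pow_pos hk0 k)] at h2
  exact_mod_cast h2

/-- splitting `p^e` into `d` factors with small sum. -/
theorem split (p : ℕ) (hp : 2 ≤ p) : ∀ d e : ℕ, 1 ≤ d → d ≤ e →
    ∃ m : List ℕ, m.length = d ∧ m.prod = p ^ e ∧ m.sum ≤ p ^ e := by
  intro d
  induction d with
  | zero => intro e h; omega
  | succ d ih =>
    intro e _ hde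
    rcases Nat.eq_zero_or_pos d with rfl | hd
    · exact ⟨[p ^ e], by simp, by simp, by simp⟩
    · obtain ⟨e', rfl⟩ : ∃ e', e = e' + 1 := ⟨e - 1, by omega⟩
      obtain ⟨m, h1, h2, h3⟩ := ih e' hd (by omega)
      refine ⟨p :: m, by simp [h1], by simp [h2, pow_succ, mul_comm], ?_⟩
      have h4 : 2 ≤ p ^ e' := by
        calc 2 ≤ p := hp
          _ = p ^ 1 := (pow_one p).symm
          _ ≤ p ^ e' := Nat.pow_le_pow_right (by omega) (by omega)
      simp only [List.sum_cons]
      have : p + p ^ e' ≤ p ^ e' * p := by nlinarith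
      rw [pow_succ]
      omega


section main
variable {G : Type*} [Group G] {Ω : Type*} [MulAction G Ω]

/-- elements of order dividing `p` in a commutative group. -/
def om (hc : ∀ x y : G, x * y = y * x) (p : ℕ) : Subgroup G where
  carrier := {x | x ^ p = 1}
  mul_mem' := by
    intro a b ha hb
    have ha' : a ^ p = 1 := ha
    have hb' : b ^ p = 1 := hb
    show (a * b) ^ p = 1
    rw [(show Commute a b from hc a b).mul_pow, ha', hb', one_mul]
  one_mem' := one_pow p
  inv_mem' := by
    intro a ha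
    have ha' : a ^ p = 1 := ha
    show (a⁻¹) ^ p = 1
    rw [inv_pow, ha', inv_one]

/-- the support of a subgroup. -/
def supp (K : Subgroup G) : Set Ω := {x | ∃ κ ∈ K, κ • x ≠ x}

theorem card_eq_relIndex_mul (K S : Subgroup G) :
    Nat.card K = Nat.card (K ⊓ S : Subgroup G) * S.relIndex K := by
  have := Subgroup.relIndex_mul_relIndex ⊥ (K ⊓ S) K bot_le inf_le_left
  rw [Subgroup.relIndex_bot_left, Subgroup.relIndex_bot_left, Subgroup.inf_relIndex_left] at this
  exact this.symm

theorem orbit_ncard (K : Subgroup G) (ω : Ω) :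
    (MulAction.orbit K ω).ncard = (MulAction.stabilizer G ω).relIndex K := by
  rw [← MulAction.index_stabilizer, Subgroup.relIndex]
  congr 1

theorem claim [Finite G] [Finite Ω] [FaithfulSMul G Ω] (hc : ∀ x y : G, x * y = y * x)
    (p : ℕ) [hp : Fact p.Prime] (hG : IsPGroup p G) :
    ∀ (n : ℕ) (K : Subgroup G), Nat.card K = n →
      ∃ l : List ℕ, p ^ l.length = Nat.card (K ⊓ om hc p : Subgroup G) ∧
        l.sum ≤ (supp K : Set Ω).ncard ∧ Nat.card K ≤ l.prod := by
  intro n
  induction n using Nat.strong_induction_on with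
  | _ n ih =>
    intro K hK
    by_cases hbot : K = ⊥
    · subst hbot
      refine ⟨[], ?_, by simp, by simp⟩
      simp
    · -- an element of order p
      have hKp : IsPGroup p K := hG.to_subgroup K
      haveI : Nontrivial K := (Subgroup.nontrivial_iff_ne_bot K).2 hbot
      obtain ⟨a, ha⟩ := hKp.exists_card_eq
      have ha0 : a ≠ 0 := by
        rintro rfl
        have : 1 < Nat.card K := Finite.one_lt_card
        rw [ha, pow_zero] at this
        omega
      have hdvd : p ∣ Nat.card K := by rw [ha]; exact dvd_pow_self p ha0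
      obtain ⟨s, hs⟩ := exists_prime_orderOf_dvd_card' p hdvd
      have hs1 : (s : G) ≠ 1 := by
        intro h
        have : s = 1 := Subtype.ext h
        rw [this, orderOf_one] at hs
        exact hp.out.one_lt.ne hs
      have hsp : (s : G) ^ p = 1 := by
        have := pow_orderOf_eq_one s
        rw [hs] at this
        exact_mod_cast congrArg Subtype.val this
      obtain ⟨ω, hω⟩ : ∃ ω : Ω, (s : G) • ω ≠ ω := by
        by_contra hcon
        push Not at hcon
        exact hs1 (FaithfulSMul.eq_of_smul_eq_smul (α := Ω) (fun x => by rw [hcon x, one_smul]))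
      set S := MulAction.stabilizer G ω with hS
      have hsS : (s : G) ∉ S := fun h => hω (MulAction.mem_stabilizer_iff.1 h)
      -- cardinalities
      have c1 := card_eq_relIndex_mul K S
      have c2 := card_eq_relIndex_mul (K ⊓ om hc p) S
      have hq1ne : S.relIndex (K ⊓ om hc p) ≠ 1 := by
        intro h
        rw [Subgroup.relIndex_eq_one] at h
        exact hsS (h ⟨s.2, hsp⟩)
      have hqne0 : S.relIndex K ≠ 0 := by
        intro h
        rw [h, mul_zero] at c1
        exact Nat.card_pos.ne' c1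
      have hq1le : S.relIndex (K ⊓ om hc p) ≤ S.relIndex K :=
        Subgroup.relIndex_le_of_le_right inf_le_left hqne0
      obtain ⟨e, -, he⟩ := (Nat.dvd_prime_pow hp.out).1 (ha ▸ (Dvd.intro_left _ c1.symm))
      obtain ⟨b, hb⟩ := (hG.to_subgroup (K ⊓ om hc p)).exists_card_eq
      obtain ⟨d, -, hd⟩ := (Nat.dvd_prime_pow hp.out).1 (hb ▸ (Dvd.intro_left _ c2.symm))
      have hd1 : 1 ≤ d := by
        rcases Nat.eq_zero_or_pos d with rfl | h
        · exact absurd (by simpa using hd) hq1ne
        · exact h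
      have hde : d ≤ e := by
        rw [hd, he] at hq1le
        exact (Nat.pow_le_pow_iff_right hp.out.one_lt).1 hq1le
      obtain ⟨m, m1, m2, m3⟩ := split p hp.out.two_le d e hd1 hde
      have hlt : Nat.card (K ⊓ S : Subgroup G) < n := by
        rw [← hK, c1, he]
        have h1 : 0 < Nat.card (K ⊓ S : Subgroup G) := Nat.card_pos
        have h2 : 1 < p ^ e := Nat.one_lt_pow (by omega) hp.out.one_lt
        nlinarith
      obtain ⟨l', l1, l2, l3⟩ := ih _ hlt (K ⊓ S) rfl
      refine ⟨m ++ l', ?_, ?_, ?_⟩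
      · rw [List.length_append, pow_add, m1, l1, c2, hd, mul_comm]
        congr 2
        rw [inf_right_comm]
      · rw [List.sum_append]
        have hsub : (supp (K ⊓ S) : Set Ω) ∪ MulAction.orbit K ω ⊆ supp K := by
          rintro x (⟨κ, hκ, hx⟩ | ⟨κ, rfl⟩)
          · exact ⟨κ, hκ.1, hx⟩
          · refine ⟨s, s.2, ?_⟩
            intro h
            apply hω
            have : (κ : G) • ((s : G) • ω) = (κ : G) • ω := by
              rw [smul_smul, hc, ← smul_smul]
              exact h
            exact smul_left_cancel _ this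
        have hdisj : Disjoint (supp (K ⊓ S) : Set Ω) (MulAction.orbit K ω) := by
          rw [Set.disjoint_left]
          rintro x ⟨κ', hκ', hx⟩ ⟨κ, rfl⟩
          apply hx
          show κ' • ((κ : G) • ω) = (κ : G) • ω
          rw [smul_smul, hc, ← smul_smul, MulAction.mem_stabilizer_iff.1 hκ'.2]
        have h3 := Set.ncard_le_ncard hsub (Set.toFinite _)
        rw [Set.ncard_union_eq hdisj (Set.toFinite _) (Set.toFinite _), orbit_ncard, he] at h3
        omega
      · rw [List.prod_append, m2, c1, he, mul_comm]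
        exact Nat.mul_le_mul_left _ l3

end main

/-- Let p be a prime, Ω a finite set with n ≥ p elements, and A an abelian p-subgroup of the symmetric group on Ω whose elements of order dividing p number p^k (so k is the rank of A). Then |A| · k^k ≤ n^k, that is, |A| ≤ (n/k)^k. -/
theorem result {Ω : Type*} [Fintype Ω] [DecidableEq Ω]
    (p : ℕ) (hp : p.Prime) (hn : p ≤ Fintype.card Ω) (A : Subgroup (Equiv.Perm Ω)) (hA : IsPGroup p A) (hab : IsMulCommutative A)
    (k : ℕ) (hk : Nat.card {x : A // x ^ p = 1} = p ^ k) :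
    Nat.card A * k ^ k ≤ Fintype.card Ω ^ k := by
  haveI : Fact p.Prime := ⟨hp⟩
  have hc : ∀ x y : A, x * y = y * x := fun x y => mul_comm' x y
  obtain ⟨l, l1, l2, l3⟩ := claim (Ω := Ω) hc p hA _ (⊤ : Subgroup A) rfl
  have h1 : Nat.card ((⊤ : Subgroup A) ⊓ om hc p : Subgroup A) = p ^ k := by
    rw [top_inf_eq, ← hk]
    rfl
  rw [h1] at l1
  have hlk : l.length = k := Nat.pow_right_injective hp.two_le l1
  have h2 : Nat.card (⊤ : Subgroup A) = Nat.card A := Subgroup.card_top
  rw [h2] at l3
  have h3 : (supp (⊤ : Subgroup A) : Set Ω).ncard ≤ Fintype.card Ω := by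
    rw [← Nat.card_eq_fintype_card]
    exact Set.ncard_le_card _
  have h4 := amgm l
  rw [hlk] at h4
  calc Nat.card A * k ^ k ≤ l.prod * k ^ k := Nat.mul_le_mul_right _ l3
    _ ≤ l.sum ^ k := h4
    _ ≤ Fintype.card Ω ^ k := Nat.pow_le_pow_left (l2.trans h3) k

end Cfsg.Agent.S3696
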