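import Cfsg.Statements.S3703
import Cfsg.Agent.Lib.Helper65Trace2
import Cfsg.Agent.Lib.Helper1Frob
import Cfsg.Agent.Lib.Helper30Gen
import Cfsg.Agent.S0023
import Cfsg.Agent.S0024

set_option autoImplicit false
open Cfsg

namespace Cfsg.Agent.S3703


open Cfsg.Agent.Lib.Helper1Frob

theorem mem_normalizer_of_conj {G : Type*} [Group G] [Finite G] {U : Subgroup G} {g : G}
    (h : ∀ x ∈ U, g * x * g⁻¹ ∈ U) : g ∈ Subgroup.normalizer (U : Set G) := by
  rw [Subgroup.mem_normalizer_iff_map_conj_eq]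
  apply Subgroup.eq_of_le_of_card_ge
  · rintro _ ⟨x, hx, rfl⟩
    exact h x hx
  · rw [Subgroup.card_map_of_injective (MulAut.conj g).injective]

theorem conj_mem_of_normalizer {G : Type*} [Group G] {U : Subgroup G} {g : G}
    (h : g ∈ Subgroup.normalizer (U : Set G)) {x : G} (hx : x ∈ U) : g * x * g⁻¹ ∈ U :=
  (Subgroup.mem_normalizer_iff.mp h x).mp hx

theorem mem_conjNormal_smul {G : Type*} [Group G] {N : Subgroup G} [N.Normal] {p : ℕ}
    (P : Sylow p ↥N) (h z : G) :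
    z ∈ (((MulAut.conjNormal h : MulAut ↥N) • P : Sylow p ↥N) : Subgroup ↥N).map N.subtype ↔
      h⁻¹ * z * h ∈ (P : Subgroup ↥N).map N.subtype := by
  rw [Sylow.pointwise_smul_def]
  constructor
  · rintro ⟨x, hx, rfl⟩
    have hx' := Subgroup.mem_pointwise_smul_iff_inv_smul_mem.mp hx
    refine ⟨_, hx', ?_⟩
    simp [MulAut.smul_def]
  · rintro ⟨x, hx, hxz⟩
    have hz : z = h * x * h⁻¹ := by
      have : (x : G) = h⁻¹ * z * h := hxz
      rw [this]; group
    refine ⟨(MulAut.conjNormal h : MulAut ↥N) x, ?_, ?_⟩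
    · exact Subgroup.smul_mem_pointwise_smul x (MulAut.conjNormal h : MulAut ↥N) _ hx
    · rw [hz]; simp

/-- An element whose image mod `N` has order `m` but whose `m`-th power is nontrivial yields an
element of order `r * m` for a prime divisor `r` of `|N|`. -/
theorem exists_order {G : Type*} [Group G] [Finite G] (N : Subgroup G) [N.Normal] (m : ℕ)
    (hm : 0 < m) (y : G) (hy : orderOf (y : G ⧸ N) = m) (hne : y ^ m ≠ 1) :
    ∃ p : ℕ, p.Prime ∧ p ∣ Nat.card N ∧ ∃ g : G, orderOf g = p * m := by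
  have hyN : y ^ m ∈ N := by
    apply (QuotientGroup.eq_one_iff _).mp
    rw [QuotientGroup.mk_pow, ← hy, pow_orderOf_eq_one]
  have hdvd : m ∣ orderOf y := hy ▸ orderOf_map_dvd (QuotientGroup.mk' N) y
  have ho : orderOf (y ^ m) = orderOf y / m := orderOf_pow_of_dvd hm.ne' hdvd
  have hne1 : orderOf (y ^ m) ≠ 1 := fun h => hne (orderOf_eq_one_iff.mp h)
  have hr : (orderOf (y ^ m)).minFac.Prime := Nat.minFac_prime hne1
  obtain ⟨k, hk⟩ := Nat.minFac_dvd (orderOf (y ^ m))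
  have hrN : (orderOf (y ^ m)).minFac ∣ Nat.card N :=
    (Nat.minFac_dvd _).trans (Subgroup.orderOf_dvd_natCard N hyN)
  set r := (orderOf (y ^ m)).minFac with hrdef
  have hoy : orderOf y = m * (r * k) := by rw [← hk, ho, Nat.mul_div_cancel' hdvd]
  have hk0 : k ≠ 0 := by
    rintro rfl
    rw [mul_zero] at hk
    exact (orderOf_pos (y ^ m)).ne' hk
  refine ⟨r, hr, hrN, y ^ k, ?_⟩
  rw [orderOf_pow_of_dvd hk0 (by rw [hoy]; exact ⟨m * r, by ring⟩), hoy]
  rw [show m * (r * k) = (r * m) * k by ring, Nat.mul_div_cancel _ (Nat.pos_of_ne_zero hk0)]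

/-- Let N be a normal subgroup of the finite group G such that G/N is a Frobenius group with kernel F and cyclic complement H, where the order of F is coprime to that of N and F is not contained in the image of C_G(N) in G/N. Then G has an element of order p·#H for some prime p dividing the order of N. (A standard tool in recognising groups by their element orders.) -/
theorem result {G : Type*} [Group G] [Finite G] (N : Subgroup G) [N.Normal]
    (Fb Hb : Subgroup (G ⧸ N)) [Fb.Normal] (hHb : Cfsg.IsFrobeniusComplement Hb) (hker : Cfsg.frobeniusKernel Hb = (Fb : Set (G ⧸ N)))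
    (hcyc : IsCyclic Hb) (hcop : (Nat.card Fb).Coprime (Nat.card N))
    (hnot : ¬ Fb ≤ (Subgroup.centralizer (N : Set G)).map (QuotientGroup.mk' N)) :
    ∃ p : ℕ, p.Prime ∧ p ∣ Nat.card N ∧ ∃ g : G, orderOf g = p * Nat.card Hb := by
  classical
  set m := Nat.card Hb with hmdef
  have hm : 0 < m := Nat.card_pos
  by_contra hno
  have hA : ∀ y : G, orderOf (y : G ⧸ N) = m → y ^ m = 1 := by
    intro y hy
    by_contra hne
    exact hno (exists_order N m hm y hy hne)
  -- Frobenius facts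
  have hFmem : ∀ x : G ⧸ N, x ∈ Fb ↔ x ∈ frobeniusKernel Hb := by
    intro x; rw [hker]; rfl
  have hF1 : ∀ x ∈ Fb, ∀ g : G ⧸ N, g⁻¹ * x * g ∈ Hb → x = 1 := by
    intro x hx g hg
    rcases mem_kernel_iff.mp ((hFmem x).mp hx) with h | h
    · exact h
    · exact absurd hg (h g)
  have hF2 : ∀ x : G ⧸ N, x ∉ Fb → ∃ g : G ⧸ N, g⁻¹ * x * g ∈ Hb := by
    intro x hx
    exact (not_mem_kernel_iff.mp (fun h => hx ((hFmem x).mpr h))).2
  have hF3 : ∀ f ∈ Fb, ∀ x g : G ⧸ N, g⁻¹ * x * g ∈ Hb → x ≠ 1 → f * x = x * f → f = 1 := by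
    intro f hf x g hg hx1 hfx
    have ha1 : g⁻¹ * x * g ≠ 1 := by
      intro h
      apply hx1
      have : x = g * (g⁻¹ * x * g) * g⁻¹ := by group
      rw [this, h]; simp
    have hf' : g⁻¹ * f * g ∈ Fb := by
      have := (inferInstance : Fb.Normal).conj_mem f hf g⁻¹
      simpa using this
    have hconj : (g⁻¹ * f * g) * (g⁻¹ * x * g) * (g⁻¹ * f * g)⁻¹ ∈ Hb := by
      have : (g⁻¹ * f * g) * (g⁻¹ * x * g) * (g⁻¹ * f * g)⁻¹ = g⁻¹ * (f * x) * f⁻¹ * g := by group
      rw [this, hfx]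
      have : g⁻¹ * (x * f) * f⁻¹ * g = g⁻¹ * x * g := by group
      rw [this]; exact hg
    have hfH := mem_of_conj_mem' hHb hg ha1 hconj
    have h1 := hF1 _ hf' 1 (by simpa using hfH)
    have : f = g * (g⁻¹ * f * g) * g⁻¹ := by group
    rw [this, h1]; simp
  -- the full preimage of the kernel
  set Fh : Subgroup G := Fb.comap (QuotientGroup.mk' N) with hFh
  have hFhn : Fh.Normal := inferInstance
  have hmemFh : ∀ x : G, x ∈ Fh ↔ (x : G ⧸ N) ∈ Fb := fun x => Iff.rfl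
  have hmemN : ∀ x : G, (x : G ⧸ N) = 1 ↔ x ∈ N := fun x => QuotientGroup.eq_one_iff x
  -- Step 2: a Sylow subgroup of `Fh` acting nontrivially on `N`
  have hstep2 : ∃ (q : ℕ) (_ : Fact q.Prime) (S : Sylow q ↥Fh), ¬ q ∣ Nat.card N ∧
      ¬ (S : Subgroup ↥Fh).map Fh.subtype ≤ Subgroup.centralizer (N : Set G) := by
    by_contra hcon
    apply hnot
    have hle : Fh ≤ N ⊔ Subgroup.centralizer (N : Set G) := by
      apply Cfsg.Agent.Lib.Helper30Gen.le_of_forall_sylow_le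
      intro r hr
      obtain ⟨S⟩ : Nonempty (Sylow r ↥Fh) := inferInstance
      refine ⟨S, ?_⟩
      by_cases hrN : r ∣ Nat.card N
      · refine le_trans ?_ le_sup_left
        rintro _ ⟨x, hx, rfl⟩
        obtain ⟨k, hk⟩ := S.isPGroup' ⟨x, hx⟩
        have hk' : (x : G) ^ r ^ k = 1 := by
          have := congrArg (fun z : ↥(S : Subgroup ↥Fh) => ((z : ↥Fh) : G)) hk
          simpa using this
        have h1 : orderOf (((x : G) : G ⧸ N)) ∣ r ^ k := by
          apply orderOf_dvd_of_pow_eq_one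
          rw [← QuotientGroup.mk_pow, hk']; rfl
        have h2 : orderOf (((x : G) : G ⧸ N)) ∣ Nat.card Fb :=
          Subgroup.orderOf_dvd_natCard Fb ((hmemFh x).mp x.2)
        have h3 : (Nat.card Fb).Coprime (r ^ k) :=
          (Nat.Coprime.coprime_dvd_right hrN hcop).pow_right k
        have h4 : orderOf (((x : G) : G ⧸ N)) = 1 := Nat.eq_one_of_dvd_coprimes h3 h2 h1
        exact (hmemN x).mp (orderOf_eq_one_iff.mp h4)
      · refine le_trans ?_ le_sup_right
        by_contra hS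
        exact hcon ⟨r, hr, S, hrN, hS⟩
    intro xb hxb
    obtain ⟨x, rfl⟩ := QuotientGroup.mk_surjective xb
    have hx : x ∈ ((N ⊔ Subgroup.centralizer (N : Set G) : Subgroup G) : Set G) := hle hxb
    rw [Subgroup.normal_mul] at hx
    obtain ⟨n, hn, c, hc, rfl⟩ := Set.mem_mul.mp hx
    refine ⟨c, hc, ?_⟩
    change ((c : G) : G ⧸ N) = ((n * c : G) : G ⧸ N)
    rw [QuotientGroup.mk_mul, (hmemN n).mpr hn, one_mul]
  obtain ⟨q, hq, S, hqN, hSC⟩ := hstep2
  set Q₀ : Subgroup G := (S : Subgroup ↥Fh).map Fh.subtype with hQ₀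
  have hQ₀p : IsPGroup q Q₀ := S.isPGroup'.map _
  have hQ₀F : Q₀ ≤ Fh := Subgroup.map_subtype_le _
  have hQ₀N : (Nat.card Q₀).Coprime (Nat.card N) := by
    obtain ⟨k, hk⟩ := IsPGroup.iff_card.mp hQ₀p
    rw [hk]
    exact Nat.Coprime.pow_left k ((Nat.Prime.coprime_iff_not_dvd hq.out).mpr hqN)
  have hQ₀inf : ∀ f ∈ Q₀, f ∈ N → f = 1 := by
    intro f hf hfN
    have := (Subgroup.disjoint_of_coprime_natCard hQ₀N).le_bot (Subgroup.mem_inf.mpr ⟨hf, hfN⟩)
    exact Subgroup.mem_bot.mp this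
  -- Step 3: an element `h` normalizing `Q₀` whose image generates a conjugate of `Hb`
  obtain ⟨ab, hab⟩ := hcyc.exists_generator
  have hab_ord : orderOf (ab : G ⧸ N) = m := by
    rw [Subgroup.orderOf_coe, orderOf_eq_card_of_forall_mem_zpowers hab]
  obtain ⟨a, ha⟩ := QuotientGroup.mk_surjective (ab : G ⧸ N)
  have hfrat := Sylow.normalizer_sup_eq_top S
  have ha_mem : a ∈ ((Subgroup.normalizer (Q₀ : Set G) ⊔ Fh : Subgroup G) : Set G) := by
    rw [hQ₀, hfrat]; trivial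
  rw [Subgroup.mul_normal] at ha_mem
  obtain ⟨h, hhQ, y, hy, hhy⟩ := Set.mem_mul.mp ha_mem
  have hm1 : m ≠ 1 := by
    intro h1
    exact hHb.1 (Hb.eq_bot_iff_card.mpr h1)
  have hab1 : (ab : G ⧸ N) ≠ 1 := by
    intro h1
    rw [h1, orderOf_one] at hab_ord
    exact hm1 hab_ord.symm
  have hrel : (ab : G ⧸ N) = (h : G ⧸ N) * (y : G ⧸ N) := by
    rw [← ha, ← hhy]; rfl
  have hhF : (h : G ⧸ N) ∉ Fb := by
    intro hh
    have : (ab : G ⧸ N) ∈ Fb := by
      rw [hrel]; exact Fb.mul_mem hh hy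
    exact hab1 (hF1 _ this 1 (by simp))
  obtain ⟨g, hg⟩ := hF2 _ hhF
  have hhm : (h : G ⧸ N) ^ m = 1 := by
    have h1 : (⟨g⁻¹ * (h : G ⧸ N) * g, hg⟩ : ↥Hb) ^ m = 1 := pow_card_eq_one'
    have h2 : (g⁻¹ * (h : G ⧸ N) * g) ^ m = 1 := by simpa using congrArg Subtype.val h1
    have h3 : (g⁻¹ * (h : G ⧸ N) * g) ^ m = g⁻¹ * (h : G ⧸ N) ^ m * g := by
      have := conj_pow (a := g⁻¹) (b := (h : G ⧸ N)) (i := m)
      simpa using this
    rw [h3] at h2
    have : (h : G ⧸ N) ^ m = g * (g⁻¹ * (h : G ⧸ N) ^ m * g) * g⁻¹ := by group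
    rw [this, h2]; simp
  have hh_ord : orderOf (h : G ⧸ N) = m := by
    apply Nat.dvd_antisymm (orderOf_dvd_of_pow_eq_one hhm)
    rw [← hab_ord]
    apply orderOf_dvd_of_pow_eq_one
    have h1 : (QuotientGroup.mk' Fb) (ab : G ⧸ N) = (QuotientGroup.mk' Fb) (h : G ⧸ N) := by
      rw [hrel, map_mul]
      have : (QuotientGroup.mk' Fb) (y : G ⧸ N) = 1 := (QuotientGroup.eq_one_iff _).mpr hy
      rw [this, mul_one]
    have h2 : (QuotientGroup.mk' Fb) ((ab : G ⧸ N) ^ orderOf (h : G ⧸ N)) = 1 := by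
      rw [map_pow, h1, ← map_pow, pow_orderOf_eq_one, map_one]
    have h3 : (ab : G ⧸ N) ^ orderOf (h : G ⧸ N) ∈ Fb := (QuotientGroup.eq_one_iff _).mp h2
    exact hF1 _ h3 1 (by simpa using Hb.pow_mem ab.2 _)
  have hfp : ∀ z : G, (z : G ⧸ N) = (h : G ⧸ N) → ∀ i, 0 < i → i < m → ∀ f ∈ Q₀,
      f * z ^ i = z ^ i * f → f = 1 := by
    intro z hz i hi0 him f hf hcomm
    apply hQ₀inf f hf
    apply (hmemN f).mp
    apply hF3 _ ((hmemFh f).mp (hQ₀F hf)) ((h : G ⧸ N) ^ i) g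
    · have h3 : g⁻¹ * (h : G ⧸ N) ^ i * g = (g⁻¹ * (h : G ⧸ N) * g) ^ i := by
        have := conj_pow (a := g⁻¹) (b := (h : G ⧸ N)) (i := i)
        simpa using this.symm
      rw [h3]; exact Hb.pow_mem hg i
    · intro h1
      have := orderOf_dvd_of_pow_eq_one h1
      rw [hh_ord] at this
      exact absurd (Nat.le_of_dvd hi0 this) (not_le.mpr him)
    · rw [← hz, ← QuotientGroup.mk_pow, ← QuotientGroup.mk_mul, ← QuotientGroup.mk_mul, hcomm]
  -- Step 4: a `Q₀`-invariant Sylow subgroup of `N` on which `Q₀` acts nontrivially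
  have hQ₀nN : Q₀ ≤ Subgroup.normalizer (N : Set G) := fun x _ =>
    mem_normalizer_of_conj (fun z hz => (inferInstance : N.Normal).conj_mem z hz x)
  have hsolv : Group.IsSolvable ↥Q₀ := by
    have : Group.IsNilpotent ↥Q₀ := hQ₀p.isNilpotent
    infer_instance
  have hstep4 : ∃ (p : ℕ) (_ : Fact p.Prime) (P : Sylow p ↥N),
      Q₀ ≤ Subgroup.normalizer ((P : Subgroup ↥N).map N.subtype : Set G) ∧
      ¬ Q₀ ≤ Subgroup.centralizer ((P : Subgroup ↥N).map N.subtype : Set G) := by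
    by_contra hcon
    apply hSC
    rw [Subgroup.le_centralizer_iff]
    apply Cfsg.Agent.Lib.Helper30Gen.le_of_forall_sylow_le
    intro p hp
    obtain ⟨P, hP⟩ := Cfsg.Agent.S0023.result Q₀ N hQ₀nN hQ₀N (Or.inl hsolv) p
    refine ⟨P, ?_⟩
    rw [Subgroup.le_centralizer_iff]
    by_contra hc
    exact hcon ⟨p, hp, P, hP, hc⟩
  obtain ⟨p, hp, P, hPn, hPc⟩ := hstep4
  set PG : Subgroup G := (P : Subgroup ↥N).map N.subtype with hPG
  -- Step 5: adjust `h` so that it normalizes `P`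
  have hP' : Q₀ ≤ Subgroup.normalizer
      ((((MulAut.conjNormal h : MulAut ↥N) • P : Sylow p ↥N) : Subgroup ↥N).map N.subtype : Set G) := by
    intro f hf
    apply mem_normalizer_of_conj
    intro z hz
    rw [mem_conjNormal_smul] at hz ⊢
    have hf' : h⁻¹ * f * h ∈ Q₀ := by
      have := conj_mem_of_normalizer (Subgroup.inv_mem _ hhQ) hf
      simpa using this
    have := conj_mem_of_normalizer (hPn hf') hz
    have e : h⁻¹ * (f * z * f⁻¹) * h = h⁻¹ * f * h * (h⁻¹ * z * h) * (h⁻¹ * f * h)⁻¹ := by group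
    rw [e]; exact this
  obtain ⟨c, hcC, hcP⟩ := Cfsg.Agent.S0024.result Q₀ N hQ₀nN hQ₀N (Or.inl hsolv) p P _ hPn hP'
  rw [← MulAut.conjNormal_val] at hcP
  set h₁ : G := (c : G)⁻¹ * h with hh₁
  have hh₁P : h₁ ∈ Subgroup.normalizer (PG : Set G) := by
    have : h₁⁻¹ ∈ Subgroup.normalizer (PG : Set G) := by
      apply mem_normalizer_of_conj
      intro x hx
      have h1 : (c : G) * x * (c : G)⁻¹ ∈
          (((MulAut.conjNormal (c : G) : MulAut ↥N) • P : Sylow p ↥N) : Subgroup ↥N).map N.subtype := by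
        rw [mem_conjNormal_smul]
        have : (c : G)⁻¹ * ((c : G) * x * (c : G)⁻¹) * (c : G) = x := by group
        rw [this]; exact hx
      rw [hcP, mem_conjNormal_smul] at h1
      have e : h₁⁻¹ * x * h₁⁻¹⁻¹ = h⁻¹ * ((c : G) * x * (c : G)⁻¹) * h := by
        rw [hh₁]; group
      rw [e]; exact h1
    simpa using Subgroup.inv_mem _ this
  have hh₁Q : h₁ ∈ Subgroup.normalizer (Q₀ : Set G) := by
    apply Subgroup.mul_mem _ (Subgroup.inv_mem _ _) hhQ
    exact Subgroup.centralizer_le_normalizer _ hcC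
  have hh₁b : (h₁ : G ⧸ N) = (h : G ⧸ N) := by
    rw [hh₁, QuotientGroup.mk_mul, QuotientGroup.mk_inv, (hmemN c).mpr c.2]; simp
  -- Step 6: the trace argument
  apply hPc
  have hPGN : PG ≤ N := Subgroup.map_subtype_le _
  have hPGp : IsPGroup p PG := P.isPGroup'.map _
  have hcopp : (Nat.card Q₀).Coprime p := by
    by_cases hPb : PG = ⊥
    · exfalso
      apply hPc
      rw [hPb]
      intro f _
      rw [Subgroup.mem_centralizer_iff]
      intro x hx
      have : x = 1 := Subgroup.mem_bot.mp hx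
      rw [this]; simp
    · have h1 : p ∣ Nat.card PG := by
        rcases hPGp.card_eq_or_dvd with h | h
        · exact absurd (PG.eq_bot_iff_card.mpr h) hPb
        · exact h
      exact Nat.Coprime.coprime_dvd_right (h1.trans (Subgroup.card_dvd_of_le hPGN)) hQ₀N
  apply Cfsg.Agent.Lib.Helper65Trace2.core PG Q₀ h₁ m hm hPGp hPn hh₁P hh₁Q hcopp (hfp h₁ hh₁b)
  intro x hx f hf
  apply hA
  rw [QuotientGroup.mk_mul, (hmemN x).mpr (hPGN hx), one_mul, QuotientGroup.mk_mul,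
    QuotientGroup.mk_mul, QuotientGroup.mk_inv, hh₁b]
  rw [← hh_ord]
  exact (MulAut.conj (f : G ⧸ N)).orderOf_eq (h : G ⧸ N)

end Cfsg.Agent.S3703
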