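import Cfsg.Statements.S3802
import Cfsg.Agent.Lib.Helper66Subnormal

set_option autoImplicit false
open Cfsg

namespace Cfsg.Agent.S3802

open Cfsg.Agent.Lib.Helper66Subnormal

theorem core_free {Q : Type*} [Group Q] [Finite Q] (M N : Subgroup Q) (hM : IsCoatom M)
    (hcore : M.normalCore = ⊥) (hN : N.IsSubnormal) (hNM : N ≤ M) : N = ⊥ := by
  have htop : (⊤ : Subgroup Q) ≠ ⊥ := by
    intro h
    apply hM.1
    rw [eq_top_iff, h]; exact bot_le
  obtain ⟨A, _, hA⟩ := exists_isMinNormal_le (⊤ : Subgroup Q) htop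
  have : A.Normal := hA.1
  have hAM : ¬ A ≤ M := by
    intro h
    have : A ≤ M.normalCore := Subgroup.normal_le_normalCore.2 h
    rw [hcore] at this
    exact hA.2.1 (eq_bot_iff.2 this)
  have hsup : M ⊔ A = ⊤ := by
    apply hM.2
    exact lt_of_le_of_ne le_sup_left (fun h => hAM (by rw [h]; exact le_sup_right))
  have hAN := hA.le_normalizer_of_isSubnormal hN
  have hcl : Subgroup.normalClosure (N : Set Q) ≤ M := by
    rw [Subgroup.normalClosure, Subgroup.closure_le]
    intro x hx
    rw [Group.mem_conjugatesOfSet_iff] at hx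
    obtain ⟨n, hn, hconj⟩ := hx
    obtain ⟨g, hg⟩ := isConj_iff.1 hconj
    have hgtop : g ∈ M ⊔ A := by rw [hsup]; trivial
    obtain ⟨m, hm, a, ha, rfl⟩ := Subgroup.mem_sup_of_normal_right.1 hgtop
    have h1 : a * n * a⁻¹ ∈ N := conj_mem_of_mem_normalizer (hAN ha) hn
    have e : x = m * (a * n * a⁻¹) * m⁻¹ := by rw [← hg]; group
    rw [e]
    exact M.mul_mem (M.mul_mem hm (hNM h1)) (M.inv_mem hm)
  have h2 : Subgroup.normalClosure (N : Set Q) ≤ M.normalCore :=
    Subgroup.normal_le_normalCore.2 hcl
  rw [hcore] at h2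
  exact eq_bot_iff.2 (Subgroup.le_normalClosure.trans h2)

theorem aux {G : Type*} [Group G] [Finite G] (M N C : Subgroup G) [C.Normal] (hM : IsCoatom M)
    (hN : N.IsSubnormal) (hNM : N ≤ M) (hCM : C ≤ M)
    (hmax : ∀ D : Subgroup G, D.Normal → D ≤ M → D ≤ C) : N ≤ C := by
  have hcm : (M.map (QuotientGroup.mk' C)).comap (QuotientGroup.mk' C) = M := by
    rw [Subgroup.comap_map_eq, QuotientGroup.ker_mk', sup_eq_left.2 hCM]
  have hsurj := QuotientGroup.mk'_surjective C
  have hM' : IsCoatom (M.map (QuotientGroup.mk' C)) := by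
    constructor
    · intro h
      apply hM.1
      rw [← hcm, h, Subgroup.comap_top]
    · intro X hX
      have h1 : M < X.comap (QuotientGroup.mk' C) := by
        rw [← hcm]
        exact (Subgroup.comap_lt_comap_of_surjective hsurj).2 hX
      have h2 := hM.2 _ h1
      rw [← Subgroup.map_comap_eq_self_of_surjective hsurj X, h2,
        Subgroup.map_top_of_surjective _ hsurj]
  have hcore : (M.map (QuotientGroup.mk' C)).normalCore = ⊥ := by
    set D := (M.map (QuotientGroup.mk' C)).normalCore with hD
    have h1 : D.comap (QuotientGroup.mk' C) ≤ M := by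
      rw [← hcm]
      exact Subgroup.comap_mono (Subgroup.normalCore_le _)
    have h2 : D.comap (QuotientGroup.mk' C) ≤ C := hmax _ inferInstance h1
    rw [← Subgroup.map_comap_eq_self_of_surjective hsurj D, eq_bot_iff]
    refine (Subgroup.map_mono h2).trans ?_
    rw [Subgroup.map_le_iff_le_comap, MonoidHom.comap_bot, QuotientGroup.ker_mk']
  have := core_free _ (N.map (QuotientGroup.mk' C)) hM' hcore hN.quotient (Subgroup.map_mono hNM)
  rw [Subgroup.map_eq_bot_iff, QuotientGroup.ker_mk'] at this
  exact this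

/-- Let G be a finite group, M a maximal subgroup of G and N a subnormal subgroup of G contained in M. Then N is contained in every conjugate of M, that is, N lies in the core of M in G. -/
theorem result {G : Type*} [Group G] [Finite G] (M N : Subgroup G) (hM : IsCoatom M) (hN : N.IsSubnormal) (hNM : N ≤ M) :
    N ≤ Subgroup.normalCore M :=
  aux M N _ hM hN hNM (Subgroup.normalCore_le M)
    (fun _ hD h => (@Subgroup.normal_le_normalCore _ _ _ _ hD).2 h)

end Cfsg.Agent.S3802
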