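import Mathlib
import Cfsg.Statements.S3815

set_option autoImplicit false
open Cfsg

namespace Cfsg.Agent.S3815

/-- The subgroup of all `d` with `d * g` a `p'`-element for each `p'`-element `g`. -/
def goodSub (G : Type*) [Group G] [Finite G] (p : ℕ) : Subgroup G where
  carrier := {d | ∀ g : G, (orderOf g).Coprime p → (orderOf (d * g)).Coprime p}
  one_mem' := by
    intro g hg
    simpa using hg
  mul_mem' := by
    intro a b ha hb g hg
    rw [mul_assoc]
    exact ha _ (hb _ hg)
  inv_mem' := by
    intro a ha
    have hpow : ∀ n : ℕ, ∀ g : G, (orderOf g).Coprime p → (orderOf (a ^ n * g)).Coprime p := by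
      intro n
      induction n with
      | zero => intro g hg; simpa using hg
      | succ n ih =>
        intro g hg
        rw [pow_succ', mul_assoc]
        exact ha _ (ih _ hg)
    have hinv : a⁻¹ = a ^ (orderOf a - 1) := by
      have hpos : 0 < orderOf a := orderOf_pos a
      rw [inv_eq_iff_mul_eq_one, ← pow_succ']
      rw [Nat.sub_add_cancel hpos]
      exact pow_orderOf_eq_one a
    show ∀ g : G, (orderOf g).Coprime p → (orderOf (a⁻¹ * g)).Coprime p
    rw [hinv]
    exact hpow _

theorem goodSub_normal (G : Type*) [Group G] [Finite G] (p : ℕ) : (goodSub G p).Normal := by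
  constructor
  intro d hd h g hg
  have h1 : h * d * h⁻¹ * g = h * (d * (h⁻¹ * g * h)) * h⁻¹ := by group
  have h2 : ∀ x : G, orderOf (h * x * h⁻¹) = orderOf x := fun x => by
    have := orderOf_injective (MulAut.conj h).toMonoidHom (MulAut.conj h).injective x
    simpa using this
  have h3 : orderOf (h⁻¹ * g * h) = orderOf g := by
    have := orderOf_injective (MulAut.conj h⁻¹).toMonoidHom (MulAut.conj h⁻¹).injective g
    simpa using this
  rw [h1, h2]
  apply hd
  rw [h3]
  exact hg

theorem goodSub_card (G : Type*) [Group G] [Finite G] (p : ℕ) [Fact p.Prime] :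
    (Nat.card (goodSub G p)).Coprime p := by
  have hp : p.Prime := Fact.out
  rw [Nat.coprime_comm, Nat.Prime.coprime_iff_not_dvd hp]
  intro hdvd
  obtain ⟨x, hx⟩ := exists_prime_orderOf_dvd_card' p hdvd
  have h1 := x.2 1 (by simp)
  rw [mul_one, Subgroup.orderOf_coe, hx] at h1
  exact hp.one_lt.ne' (by simpa using h1)

/-- Let G be a finite group, p a prime and d ∈ G an element of order prime to p. If dg has order prime to p for every element g ∈ G of order prime to p, then d ∈ O_{p'}(G). -/
theorem result {G : Type*} [Group G] [Finite G] {p : ℕ} [Fact p.Prime]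
    (d : G) (hd : (orderOf d).Coprime p)
    (h : ∀ g : G, (orderOf g).Coprime p → (orderOf (d * g)).Coprime p) :
    d ∈ Cfsg.pPrimeCore p G := by
  have hle : goodSub G p ≤ Cfsg.pPrimeCore p G :=
    le_sSup ⟨goodSub_normal G p, goodSub_card G p⟩
  exact hle h

end Cfsg.Agent.S3815
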