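import Mathlib
import Cfsg.Statements.S3820

set_option autoImplicit false
open Cfsg

namespace Cfsg.Agent.S3820

theorem map_conj_mul {G : Type*} [Group G] (H : Subgroup G) (a b : G) :
    H.map (MulAut.conj (a * b)).toMonoidHom =
      (H.map (MulAut.conj b).toMonoidHom).map (MulAut.conj a).toMonoidHom := by
  rw [Subgroup.map_map]
  congr 1
  ext x
  simp [mul_assoc]

theorem map_conj_le_of_mem {G : Type*} [Group G] (H J : Subgroup G) (a : G) (ha : a ∈ J)
    (hH : H ≤ J) : H.map (MulAut.conj a).toMonoidHom ≤ J := by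
  rintro _ ⟨y, hy, rfl⟩
  simpa using J.mul_mem (J.mul_mem ha (hH hy)) (J.inv_mem ha)

/-- Call a subgroup H of G pronormal if H and gHg⁻¹ are conjugate inside ⟨H, gHg⁻¹⟩ for every g ∈ G. Let S ≤ H ≤ G be subgroups of a finite group with S pronormal in G (for instance S a Sylow subgroup). Then H is pronormal in G if and only if H and gHg⁻¹ are conjugate inside ⟨H, gHg⁻¹⟩ for every g ∈ N_G(S). In particular H is pronormal whenever N_G(S) ≤ H. -/
theorem result {G : Type*} [Group G] [Finite G] (S H : Subgroup G) (hSH : S ≤ H)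
    (hS : Cfsg.IsPronormal S) :
    Cfsg.IsPronormal H ↔
      ∀ g ∈ Subgroup.normalizer (S : Set G), ∃ w ∈ H ⊔ H.map (MulAut.conj g).toMonoidHom,
        H.map (MulAut.conj g).toMonoidHom = H.map (MulAut.conj w).toMonoidHom := by
  constructor
  · intro h g _
    exact h g
  · intro h g
    obtain ⟨x, hx, hxe⟩ := hS g
    have hxJ : x ∈ H ⊔ H.map (MulAut.conj g).toMonoidHom :=
      (sup_le_sup hSH (Subgroup.map_mono hSH)) hx
    have hn : x⁻¹ * g ∈ Subgroup.normalizer (S : Set G) := by
      rw [Subgroup.mem_normalizer_iff_map_conj_eq]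
      have := map_conj_mul S x⁻¹ g
      rw [hxe, ← map_conj_mul, inv_mul_cancel] at this
      have h1 : S.map (MulAut.conj (1 : G)).toMonoidHom = S := by
        ext y; simp
      rw [h1] at this
      exact this
    obtain ⟨w, hw, hwe⟩ := h _ hn
    refine ⟨x * w, ?_, ?_⟩
    · refine Subgroup.mul_mem _ hxJ ?_
      have hle : H ⊔ H.map (MulAut.conj (x⁻¹ * g)).toMonoidHom ≤
          H ⊔ H.map (MulAut.conj g).toMonoidHom := by
        refine sup_le le_sup_left ?_
        rw [map_conj_mul]
        exact map_conj_le_of_mem _ _ _ (Subgroup.inv_mem _ hxJ) le_sup_right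
      exact hle hw
    · rw [map_conj_mul H x w, ← hwe, ← map_conj_mul]
      simp

end Cfsg.Agent.S3820
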