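import Mathlib
import Cfsg.Statements.S3821

set_option autoImplicit false
open Cfsg

namespace Cfsg.Agent.S3821

theorem map_conj_mul {G : Type*} [Group G] (H : Subgroup G) (a b : G) :
    H.map (MulAut.conj (a * b)).toMonoidHom =
      (H.map (MulAut.conj b).toMonoidHom).map (MulAut.conj a).toMonoidHom := by
  rw [Subgroup.map_map]
  congr 1
  ext x
  simp [mul_assoc]

theorem map_conj_one {G : Type*} [Group G] (H : Subgroup G) :
    H.map (MulAut.conj (1 : G)).toMonoidHom = H := by
  ext y; simp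

theorem map_conj_le_of_mem {G : Type*} [Group G] (H J : Subgroup G) (a : G) (ha : a ∈ J)
    (hH : H ≤ J) : H.map (MulAut.conj a).toMonoidHom ≤ J := by
  rintro _ ⟨y, hy, rfl⟩
  simpa using J.mul_mem (J.mul_mem ha (hH hy)) (J.inv_mem ha)

theorem map_conj_le_normal {G : Type*} [Group G] (H A : Subgroup G) [hA : A.Normal] (a : G)
    (hH : H ≤ A) : H.map (MulAut.conj a).toMonoidHom ≤ A := by
  rintro _ ⟨y, hy, rfl⟩
  simpa using hA.conj_mem y (hH hy) a

theorem subgroupOf_map_conj {G : Type*} [Group G] (H A : Subgroup G) (a : A) :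
    (H.subgroupOf A).map (MulAut.conj a).toMonoidHom =
      (H.map (MulAut.conj (a : G)).toMonoidHom).subgroupOf A := by
  ext y
  simp only [Subgroup.mem_map, Subgroup.mem_subgroupOf, MulEquiv.coe_toMonoidHom,
    MulAut.conj_apply]
  constructor
  · rintro ⟨z, hz, rfl⟩
    exact ⟨z, hz, by simp⟩
  · rintro ⟨z, hz, hzy⟩
    have hzA : z ∈ A := by
      have : z = (a : G)⁻¹ * y * a := by rw [← hzy]; group
      rw [this]
      exact A.mul_mem (A.mul_mem (A.inv_mem a.2) y.2) a.2
    exact ⟨⟨z, hzA⟩, hz, Subtype.ext (by simpa using hzy)⟩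

theorem mem_normalizer_of_map_eq {G : Type*} [Group G] (H : Subgroup G) (g x : G)
    (h : H.map (MulAut.conj g).toMonoidHom = H.map (MulAut.conj x).toMonoidHom) :
    x⁻¹ * g ∈ Subgroup.normalizer (H : Set G) := by
  rw [Subgroup.mem_normalizer_iff_map_conj_eq]
  have := map_conj_mul H x⁻¹ g
  rw [h, ← map_conj_mul, inv_mul_cancel, map_conj_one] at this
  exact this

/-- Let A be a normal subgroup of the finite group G and H a subgroup of A. Then H is pronormal in G (H and gHg⁻¹ conjugate inside ⟨H, gHg⁻¹⟩ for every g ∈ G) if and only if H is pronormal in A and G = A · N_G(H). -/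
theorem result {G : Type*} [Group G] [Finite G] (A H : Subgroup G) [A.Normal] (hHA : H ≤ A) :
    Cfsg.IsPronormal H ↔ (Cfsg.IsPronormal (H.subgroupOf A) ∧ A ⊔ Subgroup.normalizer (H : Set G) = ⊤) := by
  constructor
  · intro h
    refine ⟨?_, ?_⟩
    · intro g
      obtain ⟨x, hx, hxe⟩ := h (g : G)
      have hle : H ⊔ H.map (MulAut.conj (g : G)).toMonoidHom ≤ A :=
        sup_le hHA (map_conj_le_normal H A _ hHA)
      refine ⟨⟨x, hle hx⟩, ?_, ?_⟩
      · rw [subgroupOf_map_conj, ← Subgroup.subgroupOf_sup hHA (map_conj_le_normal H A _ hHA)]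
        exact hx
      · rw [subgroupOf_map_conj, subgroupOf_map_conj, hxe]
    · rw [eq_top_iff]
      intro g _
      obtain ⟨x, hx, hxe⟩ := h g
      have hle : H ⊔ H.map (MulAut.conj g).toMonoidHom ≤ A :=
        sup_le hHA (map_conj_le_normal H A _ hHA)
      have hn := mem_normalizer_of_map_eq H g x hxe
      have : g = x * (x⁻¹ * g) := by group
      rw [this]
      exact Subgroup.mul_mem_sup (hle hx) hn
  · rintro ⟨h, htop⟩ g
    have hg : g ∈ A ⊔ Subgroup.normalizer (H : Set G) := by rw [htop]; trivial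
    obtain ⟨a, ha, n, hn, rfl⟩ := Subgroup.mem_sup_of_normal_left.mp hg
    have hn' : H.map (MulAut.conj n).toMonoidHom = H :=
      Subgroup.mem_normalizer_iff_map_conj_eq.mp hn
    have hga : H.map (MulAut.conj (a * n)).toMonoidHom = H.map (MulAut.conj a).toMonoidHom := by
      rw [map_conj_mul, hn']
    obtain ⟨x, hx, hxe⟩ := h ⟨a, ha⟩
    rw [subgroupOf_map_conj, ← Subgroup.subgroupOf_sup hHA (map_conj_le_normal H A _ hHA)] at hx
    rw [subgroupOf_map_conj, subgroupOf_map_conj, Subgroup.subgroupOf_inj,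
      inf_of_le_left (map_conj_le_normal H A _ hHA), inf_of_le_left (map_conj_le_normal H A _ hHA)] at hxe
    refine ⟨x, ?_, ?_⟩
    · rw [hga]; exact hx
    · rw [hga]; exact hxe

end Cfsg.Agent.S3821
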