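import Cfsg.Statements.S3825
-- import your own Cfsg.Agent.* helpers here
import Mathlib

set_option autoImplicit false
open Cfsg

namespace Cfsg.Agent.S3825

open scoped commutatorElement


/-- Let U be a subgroup of a finite group H and w an involution of H normalizing U and commuting with exactly two elements of U, the identity and y. If V is a non-cyclic elementary abelian 2-subgroup of U containing y which is normal in U and invariant under w, then V is a Sylow 2-subgroup of U, V has order 4, and U/V is abelian. -/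
theorem result {H : Type*} [Group H] [Finite H] (U : Subgroup H) (w : H) (hw : orderOf w = 2)
    (hwU : w ∈ Subgroup.normalizer (U : Set H)) (y : H) (hy : y ≠ 1) (hyU : y ∈ U)
    (hfix : ∀ u ∈ U, w * u * w⁻¹ = u ↔ (u = 1 ∨ u = y))
    (V : Subgroup H) (hVU : V ≤ U) (hVn : (V.subgroupOf U).Normal) (hVw : ∀ v ∈ V, w * v * w⁻¹ ∈ V)
    (hVe : Cfsg.IsElementaryAbelian 2 V) (hVc : ¬ IsCyclic ↥V) (hyV : y ∈ V) :
    ¬ 2 ∣ V.relIndex U ∧ Nat.card ↥V = 4 ∧ ⁅U, U⁆ ≤ V := by
  classical
  have hww : w * w = 1 := by rw [← pow_two, ← hw]; exact pow_orderOf_eq_one w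
  have hwi : w⁻¹ = w := inv_eq_of_mul_eq_one_left hww
  have hc : ∀ a ∈ V, ∀ b ∈ V, a * b = b * a := fun a ha b hb =>
    congrArg Subtype.val (hVe.1.is_comm.comm ⟨a, ha⟩ ⟨b, hb⟩)
  have hsq : ∀ a ∈ V, a * a = 1 := fun a ha => by rw [← pow_two]; exact hVe.2 a ha
  have hinv : ∀ a ∈ V, a⁻¹ = a := fun a ha => inv_eq_of_mul_eq_one_left (hsq a ha)
  have hss : ∀ a : H, w * (w * a * w⁻¹) * w⁻¹ = a := by
    intro a
    rw [hwi]
    calc w * (w * a * w) * w = (w * w) * a * (w * w) := by group
      _ = a := by rw [hww, one_mul, mul_one]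
  have hsm : ∀ a b : H, w * (a * b) * w⁻¹ = (w * a * w⁻¹) * (w * b * w⁻¹) := by intro a b; group
  -- an element outside {1,y}
  obtain ⟨v0, hv0V, hv01, hv0y⟩ : ∃ v0 ∈ V, v0 ≠ 1 ∧ v0 ≠ y := by
    by_contra hcon
    push Not at hcon
    apply hVc
    refine ⟨⟨⟨y, hyV⟩, ?_⟩⟩
    intro x
    by_cases hx : (x : H) = 1
    · have : x = 1 := Subtype.ext hx
      rw [this]; exact (Subgroup.zpowers (⟨y, hyV⟩ : ↥V)).one_mem
    · have : x = ⟨y, hyV⟩ := Subtype.ext (hcon x x.2 hx)
      rw [this]; exact Subgroup.mem_zpowers _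
  have key : ∀ v ∈ V, v ≠ 1 → v ≠ y → w * v * w⁻¹ = v * y := by
    intro v hv h1 h2
    have hσ := hVw v hv
    have hfixed : w * (v * (w * v * w⁻¹)) * w⁻¹ = v * (w * v * w⁻¹) := by
      rw [hsm, hss]
      exact hc _ hσ _ hv
    rcases (hfix _ (hVU (V.mul_mem hv hσ))).mp hfixed with h | h
    · exfalso
      have h3 : w * v * w⁻¹ = v⁻¹ := eq_inv_of_mul_eq_one_right h
      rw [hinv v hv] at h3
      rcases (hfix v (hVU hv)).mp h3 with h4 | h4
      · exact h1 h4
      · exact h2 h4
    · calc w * v * w⁻¹ = (v * v) * (w * v * w⁻¹) := by rw [hsq v hv, one_mul]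
        _ = v * (v * (w * v * w⁻¹)) := by group
        _ = v * y := by rw [h]
  have hfy : w * y * w⁻¹ = y := (hfix y hyU).mpr (Or.inr rfl)
  have hVset : (V : Set H) = {1, y, v0, y * v0} := by
    ext v
    simp only [SetLike.mem_coe, Set.mem_insert_iff, Set.mem_singleton_iff]
    constructor
    · intro hv
      by_cases h1 : v = 1
      · exact Or.inl h1
      by_cases h2 : v = y
      · exact Or.inr (Or.inl h2)
      right; right
      have e1 := key v hv h1 h2
      have e2 := key v0 hv0V hv01 hv0y
      have e3 : w * (v * v0) * w⁻¹ = v * v0 := by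
        rw [hsm, e1, e2]
        calc v * y * (v0 * y) = v * (y * v0) * y := by group
          _ = v * (v0 * y) * y := by rw [hc y hyV v0 hv0V]
          _ = v * v0 * (y * y) := by group
          _ = v * v0 := by rw [hsq y hyV, mul_one]
      rcases (hfix _ (hVU (V.mul_mem hv hv0V))).mp e3 with h | h
      · left
        have : v = v0⁻¹ := eq_inv_of_mul_eq_one_left h
        rw [this, hinv v0 hv0V]
      · right
        calc v = v * (v0 * v0) := by rw [hsq v0 hv0V, mul_one]
          _ = (v * v0) * v0 := by group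
          _ = y * v0 := by rw [h]
    · rintro (h | h | h | h)
      · rw [h]; exact V.one_mem
      · rw [h]; exact hyV
      · rw [h]; exact hv0V
      · rw [h]; exact V.mul_mem hyV hv0V
  have hcard : Nat.card ↥V = 4 := by
    have e : Nat.card ↥V = (V : Set H).ncard := Nat.card_coe_set_eq _
    rw [e, hVset]
    have n1 : (y * v0) ≠ v0 := by
      intro h; exact hy (by simpa using h)
    have n2 : (y * v0) ≠ y := by
      intro h; exact hv01 (by simpa using h)
    have n3 : (y * v0) ≠ 1 := by
      intro h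
      have : y = v0⁻¹ := eq_inv_of_mul_eq_one_left h
      rw [hinv v0 hv0V] at this
      exact hv0y this.symm
    rw [Set.ncard_insert_of_notMem, Set.ncard_insert_of_notMem, Set.ncard_pair]
    · exact fun h => n1 h.symm
    · simp only [Set.mem_insert_iff, Set.mem_singleton_iff, not_or]
      exact ⟨fun h => hv0y h.symm, fun h => n2 h.symm⟩
    · simp only [Set.mem_insert_iff, Set.mem_singleton_iff, not_or]
      exact ⟨fun h => hy h.symm, fun h => hv01 h.symm, fun h => n3 h.symm⟩
  -- the quotient
  set N : Subgroup ↥U := V.subgroupOf U with hN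
  haveI : N.Normal := hVn
  let φ : ↥U →* ↥U := (U.normalizerMonoidHom ⟨w, hwU⟩).toMonoidHom
  have hφ : ∀ u : ↥U, ((φ u : ↥U) : H) = w * u * w⁻¹ := fun u => rfl
  have hNφ : N ≤ N.comap φ := by
    intro u hu
    rw [Subgroup.mem_comap, hN, Subgroup.mem_subgroupOf, hφ]
    exact hVw _ (Subgroup.mem_subgroupOf.mp hu)
  let ψ : (↥U ⧸ N) →* (↥U ⧸ N) := QuotientGroup.map N N φ hNφ
  have hψ : ∀ u : ↥U, ψ (QuotientGroup.mk u) = QuotientGroup.mk (φ u) := fun u => rfl
  have hinvol : Function.Involutive ψ := by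
    intro x
    induction x using QuotientGroup.induction_on with
    | H u =>
      rw [hψ, hψ]
      congr 1
      apply Subtype.ext
      rw [hφ, hφ, hss]
  have hfpf : MonoidHom.FixedPointFree ψ := by
    intro x hx
    induction x using QuotientGroup.induction_on with
    | H u =>
      rw [hψ] at hx
      have h1 : u⁻¹ * φ u ∈ N := QuotientGroup.eq.mp hx.symm
      rw [hN, Subgroup.mem_subgroupOf] at h1
      rw [QuotientGroup.eq_one_iff, hN, Subgroup.mem_subgroupOf]
      set a : H := (u : H) with ha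
      have haU : a ∈ U := u.2
      have h2 : a⁻¹ * (w * a * w⁻¹) ∈ V := by simpa [hφ] using h1
      set v := a⁻¹ * (w * a * w⁻¹) with hv
      have h3 : w * a * w⁻¹ = a * v := by rw [hv]; group
      have h4 : a * v * (w * v * w⁻¹) = a := by
        have := hss a
        rw [h3, hsm, h3] at this
        exact this
      have h5 : v * (w * v * w⁻¹) = 1 := by
        have : a * (v * (w * v * w⁻¹)) = a * 1 := by rw [mul_one, ← mul_assoc]; exact h4
        exact mul_left_cancel this
      have h6 : w * v * w⁻¹ = v := by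
        have : w * v * w⁻¹ = v⁻¹ := eq_inv_of_mul_eq_one_right h5
        rw [this, hinv v h2]
      rcases (hfix v (hVU h2)).mp h6 with h7 | h7
      · rw [h7, mul_one] at h3
        rcases (hfix a haU).mp h3 with h8 | h8
        · rw [h8]; exact V.one_mem
        · rw [h8]; exact hyV
      · have e2 := key v0 hv0V hv01 hv0y
        have e3 : w * (a * v0) * w⁻¹ = a * v0 := by
          rw [hsm, h3, h7, e2]
          calc a * y * (v0 * y) = a * (y * v0) * y := by group
            _ = a * (v0 * y) * y := by rw [hc y hyV v0 hv0V]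
            _ = a * v0 * (y * y) := by group
            _ = a * v0 := by rw [hsq y hyV, mul_one]
        have h9 : a * v0 ∈ V := by
          rcases (hfix _ (U.mul_mem haU (hVU hv0V))).mp e3 with h8 | h8
          · rw [h8]; exact V.one_mem
          · rw [h8]; exact hyV
        have : a = (a * v0) * v0⁻¹ := by group
        rw [this]
        exact V.mul_mem h9 (V.inv_mem hv0V)
  refine ⟨?_, hcard, ?_⟩
  · have hodd := hfpf.odd_card_of_involutive hinvol
    have : V.relIndex U = Nat.card (↥U ⧸ N) := rfl
    rw [this]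
    exact hodd.not_two_dvd_nat
  · rw [Subgroup.commutator_le]
    intro a ha b hb
    have hcm := hfpf.commute_all_of_involutive hinvol (QuotientGroup.mk (⟨a, ha⟩ : ↥U)) (QuotientGroup.mk (⟨b, hb⟩ : ↥U))
    have h1 : (QuotientGroup.mk (⁅(⟨a, ha⟩ : ↥U), (⟨b, hb⟩ : ↥U)⁆) : ↥U ⧸ N) = 1 := by
      rw [commutatorElement_def]
      simp only [QuotientGroup.mk_mul, QuotientGroup.mk_inv]
      rw [hcm.eq]
      group
    rw [QuotientGroup.eq_one_iff, hN, Subgroup.mem_subgroupOf] at h1
    simpa [commutatorElement_def] using h1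

end Cfsg.Agent.S3825
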