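import Cfsg.Statements.S3835
import Cfsg.Agent.S2231
import Cfsg.Agent.Lib.Helper51Qd
import Cfsg.Agent.Lib.Helper6Transport

set_option autoImplicit false
open Cfsg

namespace Cfsg.Agent.S3835

open Cfsg.Agent.S2231 Cfsg.Agent.Lib.Helper51Qd

/-- in a finite `p`-group a subgroup of index dividing `p` contains all commutators -/
theorem comm_mem {p : ℕ} [Fact p.Prime] {P : Type*} [Group P] [Finite P] (hP : IsPGroup p P)
    (H : Subgroup P) (h : H.index ∣ p) (a b : P) : a * b * (b * a)⁻¹ ∈ H := by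
  have hp : p.Prime := Fact.out
  rcases (Nat.dvd_prime hp).1 h with h1 | h1
  · rw [Subgroup.index_eq_one] at h1
    rw [h1]; exact Subgroup.mem_top _
  · obtain ⟨k, hk⟩ := IsPGroup.iff_card.1 hP
    have hk0 : k ≠ 0 := by
      rintro rfl
      have := H.index_dvd_card
      rw [hk, h1, pow_zero] at this
      exact hp.one_lt.ne' (Nat.dvd_one.1 this)
    have : H.Normal := by
      apply Subgroup.normal_of_index_eq_minFac_card
      rw [h1, hk, hp.pow_minFac hk0]
    have : Fact (Nat.card (P ⧸ H)).Prime := ⟨by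
      rw [← Subgroup.index_eq_card, h1]; exact hp⟩
    have : IsCyclic (P ⧸ H) := isCyclic_of_prime_card rfl
    rw [← QuotientGroup.eq_one_iff]
    have hc : ∀ x y : P ⧸ H, x * y = y * x := fun x y => IsCyclic.commGroup.mul_comm x y
    rw [QuotientGroup.mk_mul, QuotientGroup.mk_inv, QuotientGroup.mk_mul, QuotientGroup.mk_mul,
      hc (a : P ⧸ H) b, mul_inv_cancel]

theorem abP_perm {p : ℕ} [Fact p.Prime] {n : ℕ} (hn : n < p ^ 2) : AbP p (Equiv.Perm (Fin n)) := by
  have hp : p.Prime := Fact.out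
  intro P hP a ha b hb
  have key : ∀ x : Fin n, (a * b * (b * a)⁻¹) x = x := by
    intro x
    have h1 : (MulAction.stabilizer P x).index ∣ p := by
      rw [MulAction.index_stabilizer]
      obtain ⟨k, hk⟩ := hP.card_orbit x
      rw [Nat.card_coe_set_eq] at hk
      have h2 : (MulAction.orbit P x).ncard ≤ n := by
        have := Set.ncard_le_card (MulAction.orbit P x)
        simpa using this
      rw [hk] at h2 ⊢
      have h3 : k < 2 := (Nat.pow_lt_pow_iff_right hp.one_lt).1 (lt_of_le_of_lt h2 hn)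
      have : p ^ k ∣ p ^ 1 := pow_dvd_pow p (by omega)
      simpa using this
    have h2 := comm_mem hP (MulAction.stabilizer P x) h1 ⟨a, ha⟩ ⟨b, hb⟩
    rw [MulAction.mem_stabilizer_iff] at h2
    exact h2
  have : a * b * (b * a)⁻¹ = 1 := Equiv.ext key
  exact mul_inv_eq_one.1 this

theorem abP_alt {p : ℕ} [Fact p.Prime] {n : ℕ} (hn : n < p ^ 2) :
    AbP p (alternatingGroup (Fin n)) :=
  abP_of_injective (alternatingGroup (Fin n)).subtype (Subgroup.subtype_injective _) (abP_perm hn)

/-- an element of odd order is killed by every homomorphism to `ℤˣ` -/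
theorem hom_eq_one_of_pow {G : Type*} [Group G] (φ : G →* ℤˣ) {p : ℕ} (hp : Odd p) {g : G}
    (hg : g ^ p = 1) : φ g = 1 := by
  have h1 : φ g ^ p = 1 := by rw [← map_pow, hg, map_one]
  rcases Int.units_eq_one_or (φ g) with h | h
  · exact h
  · rw [h, hp.neg_one_pow] at h1
    exact absurd h1 (by decide)

theorem transvection_pow {p : ℕ} [Fact p.Prime] {i j : Fin 2} (h : i ≠ j) :
    (Matrix.SpecialLinearGroup.transvection h (1 : ZMod p)) ^ p = 1 := by
  have hpow : ∀ k : ℕ, Matrix.SpecialLinearGroup.transvection h ((k : ℕ) : ZMod p)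
        = (Matrix.SpecialLinearGroup.transvection h (1 : ZMod p)) ^ k := by
    intro k
    induction k with
    | zero => simp
    | succ k ih => rw [Nat.cast_succ, Matrix.SpecialLinearGroup.transvection_add, ih, pow_succ]
  rw [← hpow, CharP.cast_eq_zero]
  simp

theorem hom_trivial {p : ℕ} [Fact p.Prime] (hp : p ≠ 2) (φ : ↥(Cfsg.qdOver (ZMod p)) →* ℤˣ)
    (g : ↥(Cfsg.qdOver (ZMod p))) : φ g = 1 := by
  have hpp : p.Prime := Fact.out
  have hodd : Odd p := hpp.odd_of_ne_two hp
  have h1 : g = tra (Multiplicative.ofAdd (trFun g)) * lin (blkFun g) := by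
    rw [tra_apply, lin_apply, mk_mul_mk]
    simp [mk_blk_tr]
  have h2 : φ (tra (Multiplicative.ofAdd (trFun g))) = 1 := by
    apply hom_eq_one_of_pow φ hodd
    rw [← map_pow, ← ofAdd_nsmul]
    have h2 : p • trFun g = 0 := by
      ext i
      simp [CharP.cast_eq_zero (ZMod p) p]
    rw [h2]
    exact mk_one_zero
  have h3 : (φ.comp lin).ker = ⊤ := by
    rw [eq_top_iff, ← Cfsg.Agent.Lib.Helper6Transport.closure_SL2_zmod p, Subgroup.closure_le]
    rintro t (rfl | rfl)
    · change φ (lin _) = 1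
      apply hom_eq_one_of_pow φ hodd
      rw [← map_pow, transvection_pow, map_one]
    · change φ (lin _) = 1
      apply hom_eq_one_of_pow φ hodd
      rw [← map_pow, transvection_pow, map_one]
  have h4 : φ (lin (blkFun g)) = 1 := by
    have : blkFun g ∈ (φ.comp lin).ker := by rw [h3]; exact Subgroup.mem_top _
    exact this
  rw [h1, map_mul, h2, h4, mul_one]

theorem exists_embed {p : ℕ} [Fact p.Prime] (hp : p ≠ 2) {n : ℕ} (hn : p ^ 2 ≤ n) :
    ∃ H : Subgroup (alternatingGroup (Fin n)), Nonempty (↥H ≃* ↥(Cfsg.qd p)) := by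
  obtain ⟨ι⟩ : Nonempty ((Fin 2 → ZMod p) ↪ Fin n) := by
    apply Function.Embedding.nonempty_of_card_le
    simpa [ZMod.card] using hn
  let f : ↥(Cfsg.qdOver (ZMod p)) →* Equiv.Perm (Fin n) :=
    (Equiv.Perm.viaEmbeddingHom ι).comp affHom
  have hf : Function.Injective f :=
    (Equiv.Perm.viaEmbeddingHom_injective ι).comp affHom_injective
  have hmem : ∀ x, f x ∈ alternatingGroup (Fin n) := by
    intro x
    rw [Equiv.Perm.mem_alternatingGroup]
    exact hom_trivial hp (Equiv.Perm.sign.comp f) x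
  let g : ↥(Cfsg.qdOver (ZMod p)) →* alternatingGroup (Fin n) := f.codRestrict _ hmem
  have hg : Function.Injective g := by
    intro x y hxy
    exact hf (congrArg Subtype.val hxy)
  exact ⟨g.range, ⟨(MonoidHom.ofInjective hg).symm⟩⟩

/-- Let p be an odd prime and n a natural number. The alternating group of degree n has a subgroup isomorphic to Qd(p) (the natural semidirect product of an elementary abelian group of order p² by SL₂(p)) if and only if n ≥ p²; and if n < p² then Qd(p) is not even involved in it. -/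
theorem result {p : ℕ} [Fact p.Prime] (hp : p ≠ 2) (n : ℕ) : ((∃ H : Subgroup (alternatingGroup (Fin n)), Nonempty (↥H ≃* ↥(Cfsg.qd p))) ↔ p ^ 2 ≤ n) ∧ (n < p ^ 2 → ¬ Cfsg.Involves ↥(Cfsg.qd p) ↥(alternatingGroup (Fin n))) := by
  refine ⟨⟨?_, exists_embed hp⟩, ?_⟩
  · rintro ⟨H, ⟨e⟩⟩
    by_contra hn
    rw [not_le] at hn
    have h3 : AbP p H := abP_of_injective H.subtype (Subgroup.subtype_injective _) (abP_alt hn)
    exact not_abP_qd p (abP_of_injective e.symm.toMonoidHom e.symm.injective h3)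
  · rintro hn ⟨K₀, R, hN, ⟨e⟩⟩
    have h3 : AbP p K₀ := abP_of_injective K₀.subtype (Subgroup.subtype_injective _) (abP_alt hn)
    have h4 : AbP p (K₀ ⧸ R.subgroupOf K₀) :=
      abP_of_surjective (QuotientGroup.mk' _) (QuotientGroup.mk'_surjective _) h3
    exact not_abP_qd p (abP_of_injective e.symm.toMonoidHom e.symm.injective h4)

end Cfsg.Agent.S3835
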