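import Mathlib
import Cfsg.Statements.S3838
import Cfsg.Agent.Lib.Helper11Frobenius
import Cfsg.Agent.Lib.Helper1Coprime
import Cfsg.Agent.Lib.Helper67PGroup
import Cfsg.Agent.Lib.Helper40Sylow

set_option autoImplicit false
open Cfsg
open Cfsg.Agent.Lib.Helper11Frobenius
open scoped Pointwise commutatorElement

namespace Cfsg.Agent.S3838

theorem mem_normalizer_of_conj_mem {G : Type*} [Group G] [Finite G] (K : Subgroup G) (g : G)
    (h : ∀ x ∈ K, g * x * g⁻¹ ∈ K) : g ∈ Subgroup.normalizer (K : Set G) := by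
  rw [Cfsg.Agent.Lib.Helper40Sylow.mem_normalizer_iff_cj]
  apply Cfsg.Agent.Lib.Helper40Sylow.cj_eq_of_le
  rintro _ ⟨x, hx, rfl⟩
  exact h x hx

/-- If `M/Q` is `p`-nilpotent and `Q` consists of non-generators of the Sylow subgroup `P`,
then `M` is `p`-nilpotent. -/
theorem hasNPC_of_quotient {M : Type*} [Group M] [Finite M] {p : ℕ} [hp : Fact p.Prime]
    (P : Sylow p M) (Q : Subgroup M) [hQn : Q.Normal] (hQP : Q ≤ P)
    (hΦ : ∀ H : Subgroup M, H ≤ P → (P : Subgroup M) ≤ Q ⊔ H → (P : Subgroup M) ≤ H)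
    (hquot : HasNPC p (M ⧸ Q)) : HasNPC p M := by
  obtain ⟨Kb, hKbn, hKbc, k, hKbi⟩ := hquot
  set L : Subgroup M := Kb.comap (QuotientGroup.mk' Q) with hL
  have hLn : L.Normal := hKbn.comap _
  have hQL : Q ≤ L := by
    intro x hx
    rw [hL, Subgroup.mem_comap]
    have : QuotientGroup.mk' Q x = 1 := (QuotientGroup.eq_one_iff x).mpr hx
    rw [this]; exact Kb.one_mem
  have hLi : L.index = p ^ k := by
    rw [hL, Subgroup.index_comap_of_surjective _ (QuotientGroup.mk'_surjective Q), hKbi]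
  have hQp : IsPGroup p Q := P.2.to_le hQP
  obtain ⟨a, ha⟩ := IsPGroup.iff_card.mp hQp
  -- `|L : Q| = |Kb|`
  have hrel : Q.relIndex L = Nat.card Kb := by
    have h1 : Q.relIndex L = Nat.card (L.map (QuotientGroup.mk' Q)) := by
      rw [← Subgroup.relIndex_ker, QuotientGroup.ker_mk']
    rw [h1, hL, Subgroup.map_comap_eq_self_of_surjective (QuotientGroup.mk'_surjective Q)]
  -- complement of `Q` in `L`
  have hQLn : (Q.subgroupOf L).Normal := hQn.subgroupOf L
  have hcopL : (Nat.card (Q.subgroupOf L)).Coprime (Q.subgroupOf L).index := by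
    have e1 : Nat.card (Q.subgroupOf L) = p ^ a := by
      rw [Cfsg.Agent.Lib.Helper1Basic.card_subgroupOf_of_le hQL, ha]
    have e2 : (Q.subgroupOf L).index = Nat.card Kb := hrel
    rw [e1, e2]
    exact Nat.Coprime.pow_left _ hKbc.symm
  obtain ⟨H, hH⟩ := Subgroup.exists_right_complement'_of_coprime hcopL
  set K : Subgroup M := H.map L.subtype with hK
  have hKL : K ≤ L := Subgroup.map_subtype_le H
  have hKcard : Nat.card K = Nat.card Kb := by
    rw [hK, Subgroup.card_map_of_injective L.subtype_injective, ← hrel]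
    exact hH.symm.index_eq_card.symm
  have hKcop : (Nat.card K).Coprime p := by rw [hKcard]; exact hKbc
  have hsup : Q ⊔ K = L := by
    have h1 := hH.sup_eq_top
    have h2 := congrArg (Subgroup.map L.subtype) h1
    rw [Subgroup.map_sup, Subgroup.subgroupOf_map_subtype, inf_of_le_left hQL,
      ← MonoidHom.range_eq_map, Subgroup.range_subtype] at h2
    exact h2
  have hKQ : K ≤ Subgroup.normalizer (Q : Set M) := by
    rw [Subgroup.normalizer_eq_top]; exact le_top
  have hcopKQ : (Nat.card K).Coprime (Nat.card Q) := by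
    rw [ha]; exact Nat.Coprime.pow_right _ hKcop
  have hQsolv : Group.IsSolvable Q := by
    have : Group.IsNilpotent Q := hQp.isNilpotent
    infer_instance
  -- Frattini argument
  have hfrat : ∀ m : M, ∃ u ∈ Q, u * m ∈ Subgroup.normalizer (K : Set M) := by
    intro m
    have hB : MulAut.conj m • K ≤ Q ⊔ K := by
      rw [hsup]
      intro b hb
      rw [Cfsg.Agent.Lib.Helper1Basic.mem_conj_smul] at hb
      have h1 := hLn.conj_mem _ (hKL hb) m
      have e : m * (m⁻¹ * b * m) * m⁻¹ = b := by group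
      rwa [e] at h1
    obtain ⟨u, hu, hub⟩ := Cfsg.Agent.Lib.Helper1Coprime.sz_rel hKQ hcopKQ (Or.inr hQsolv) hB
      (Cfsg.Agent.Lib.Helper1Basic.card_conj_smul m K)
    refine ⟨u, hu, ?_⟩
    apply mem_normalizer_of_conj_mem
    intro x hx
    have h2 := hub _ (Cfsg.Agent.Lib.Helper1Basic.conj_mem_conj_smul (g := m) hx)
    have e : u * m * x * (u * m)⁻¹ = u * (m * x * m⁻¹) * u⁻¹ := by group
    rw [e]; exact h2
  -- `P` normalizes `K`
  have hPN : (P : Subgroup M) ≤ (P : Subgroup M) ⊓ Subgroup.normalizer (K : Set M) := by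
    apply hΦ _ inf_le_left
    intro y hy
    obtain ⟨u, hu, hum⟩ := hfrat y
    have e : y = u⁻¹ * (u * y) := by group
    rw [e]
    exact Subgroup.mul_mem_sup (Q.inv_mem hu)
      ⟨Subgroup.mul_mem _ (hQP hu) hy, hum⟩
  have hQN : Q ≤ Subgroup.normalizer (K : Set M) := hQP.trans (hPN.trans inf_le_right)
  have hKn : K.Normal := by
    rw [← Subgroup.normalizer_eq_top_iff, eq_top_iff]
    intro m _
    obtain ⟨u, hu, hum⟩ := hfrat m
    have e : m = u⁻¹ * (u * m) := by group
    rw [e]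
    exact Subgroup.mul_mem _ (Subgroup.inv_mem _ (hQN hu)) hum
  refine ⟨K, hKn, hKcop, a + k, ?_⟩
  have h1 : K.relIndex L * L.index = K.index := Subgroup.relIndex_mul_index hKL
  have h2 : Nat.card K * K.relIndex L = Nat.card L :=
    Cfsg.Agent.Lib.Helper67PGroup.card_mul_relIndex hKL
  have h3 : Nat.card Q * Q.relIndex L = Nat.card L :=
    Cfsg.Agent.Lib.Helper67PGroup.card_mul_relIndex hQL
  rw [hrel, ← hKcard, mul_comm, ← h2] at h3
  have h4 : Nat.card Q = K.relIndex L := Nat.eq_of_mul_eq_mul_left Nat.card_pos h3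
  rw [← h1, ← h4, ha, hLi, pow_add]

/-- Burnside's transfer theorem applied to `M/Q`. -/
theorem hasNPC_quotient {M : Type*} [Group M] [Finite M] {p : ℕ} [hp : Fact p.Prime]
    (P : Sylow p M) (Q : Subgroup M) [hQn : Q.Normal] (hQP : Q ≤ P)
    (hcomm : ∀ x ∈ Subgroup.normalizer ((P : Subgroup M) : Set M), ∀ y ∈ (P : Subgroup M),
      x * y * x⁻¹ * y⁻¹ ∈ Q) :
    HasNPC p (M ⧸ Q) := by
  let Pb : Sylow p (M ⧸ Q) := P.mapSurjective (QuotientGroup.mk'_surjective Q)
  have hPb : ∀ z : M ⧸ Q, z ∈ Pb ↔ ∃ y ∈ (P : Subgroup M), QuotientGroup.mk' Q y = z := by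
    intro z; rfl
  have hNC : Subgroup.normalizer (Pb : Set (M ⧸ Q)) ≤ Subgroup.centralizer (Pb : Set (M ⧸ Q)) := by
    intro xb hxb
    obtain ⟨x, rfl⟩ := QuotientGroup.mk'_surjective Q xb
    have hx : x ∈ Subgroup.normalizer ((P : Subgroup M) : Set M) := by
      apply mem_normalizer_of_conj_mem
      intro y hy
      have h1 : QuotientGroup.mk' Q x * QuotientGroup.mk' Q y * (QuotientGroup.mk' Q x)⁻¹ ∈ Pb :=
        (hxb (QuotientGroup.mk' Q y)).mp ((hPb _).mpr ⟨y, hy, rfl⟩)
      obtain ⟨z, hz, hzy⟩ := (hPb _).mp h1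
      have h2 : z⁻¹ * (x * y * x⁻¹) ∈ Q := by
        rw [← QuotientGroup.eq]
        simpa using hzy
      have e : x * y * x⁻¹ = z * (z⁻¹ * (x * y * x⁻¹)) := by group
      rw [e]
      exact Subgroup.mul_mem _ hz (hQP h2)
    rw [Subgroup.mem_centralizer_iff]
    intro yb hyb
    obtain ⟨y, hy, rfl⟩ := (hPb _).mp hyb
    have h3 := hcomm x hx y hy
    rw [← QuotientGroup.eq_one_iff] at h3
    have h4 : QuotientGroup.mk' Q x * QuotientGroup.mk' Q y * (QuotientGroup.mk' Q x)⁻¹ *
        (QuotientGroup.mk' Q y)⁻¹ = 1 := by simpa using h3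
    rw [mul_inv_eq_one, mul_inv_eq_iff_eq_mul] at h4
    exact h4.symm
  exact (hasNPC_iff_sylow Pb).mpr
    ⟨_, inferInstance, MonoidHom.ker_transferSylow_isComplement' Pb hNC⟩

/-- In a `p`-nilpotent `N_G(P)`, commutators `[x, y]` with `y ∈ P` are commutators of `P`. -/
theorem comm_mem {G : Type*} [Group G] [Finite G] {p : ℕ} [Fact p.Prime] (P : Sylow p G)
    (hN : Cfsg.HasNormalPComplement p ↥(Subgroup.normalizer ((P : Subgroup G) : Set G)))
    (x : G) (hx : x ∈ Subgroup.normalizer ((P : Subgroup G) : Set G)) (y : G)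
    (hy : y ∈ (P : Subgroup G)) :
    ∃ z ∈ (P : Subgroup G), x * y * x⁻¹ * y⁻¹ = z * y * z⁻¹ * y⁻¹ := by
  set N := Subgroup.normalizer ((P : Subgroup G) : Set G) with hNdef
  have hPN : (P : Subgroup G) ≤ N := Subgroup.le_normalizer
  obtain ⟨K, hKn, hK⟩ := (hasNPC_iff_sylow (P.subtype hPN)).mp (hasNPC_iff.mpr hN)
  have hPn : ((P.subtype hPN : Sylow p N) : Subgroup N).Normal := by
    rw [Sylow.coe_subtype]
    infer_instance
  have hmem : (⟨x, hx⟩ : N) ∈ ((K : Subgroup N) : Set N) * (((P.subtype hPN : Sylow p N) : Subgroup N) : Set N) := by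
    rw [hK.mul_eq]; trivial
  obtain ⟨k, hk, z, hz, hkz⟩ := hmem
  have hzP : (z : G) ∈ (P : Subgroup G) := hz
  refine ⟨z, hzP, ?_⟩
  have hw : (z * ⟨y, hPN hy⟩ * z⁻¹ : N) ∈ ((P.subtype hPN : Sylow p N) : Subgroup N) :=
    Subgroup.mul_mem _ (Subgroup.mul_mem _ hz hy) (Subgroup.inv_mem _ hz)
  have hc := Subgroup.commute_of_normal_of_disjoint K _ hKn hPn hK.disjoint k _ hk hw
  have hc' : (k : G) * ((z : G) * y * (z : G)⁻¹) = ((z : G) * y * (z : G)⁻¹) * k := by
    have := congrArg Subtype.val hc.eq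
    simpa using this
  have hx' : x = (k : G) * z := by
    have := congrArg Subtype.val hkz
    simpa using this.symm
  calc x * y * x⁻¹ * y⁻¹ = (k : G) * ((z : G) * y * (z : G)⁻¹) * (k : G)⁻¹ * y⁻¹ := by
        rw [hx']; group
    _ = (z : G) * y * (z : G)⁻¹ * y⁻¹ := by rw [hc']; group

/-- Let G be a finite group with Sylow p-subgroup P such that N_G(P) has a normal p-complement. Then N_G(Q) has a normal p-complement for every subgroup Q with [P, P] ≤ Q ≤ Φ(P). -/
theorem result {G : Type*} [Group G] [Finite G] {p : ℕ} [Fact p.Prime] (P : Sylow p G) (hN : Cfsg.HasNormalPComplement p ↥(Subgroup.normalizer ((P : Subgroup G) : Set G))) (Q : Subgroup G) (h1 : (commutator ↥(P : Subgroup G)).map (P : Subgroup G).subtype ≤ Q) (h2 : Q ≤ (frattini ↥(P : Subgroup G)).map (P : Subgroup G).subtype) : Cfsg.HasNormalPComplement p ↥(Subgroup.normalizer (Q : Set G)) := by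
  have hQP : Q ≤ (P : Subgroup G) := h2.trans (Subgroup.map_subtype_le _)
  have hcommPQ : ∀ y ∈ (P : Subgroup G), ∀ z ∈ (P : Subgroup G), z * y * z⁻¹ * y⁻¹ ∈ Q := by
    intro y hy z hz
    apply h1
    refine ⟨⁅(⟨z, hz⟩ : (P : Subgroup G)), ⟨y, hy⟩⁆, ?_, ?_⟩
    · exact Subgroup.commutator_mem_commutator (Subgroup.mem_top _) (Subgroup.mem_top _)
    · simp [commutatorElement_def]
  set M := Subgroup.normalizer (Q : Set G) with hM
  have hPM : (P : Subgroup G) ≤ M := by
    rw [hM, Subgroup.le_normalizer_iff]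
    intro y hy q hq
    have e : y * q * y⁻¹ = (y * q * y⁻¹ * q⁻¹) * q := by group
    rw [e]
    exact Q.mul_mem (hcommPQ q (hQP hq) y hy) hq
  have hQn : (Q.subgroupOf M).Normal := by rw [hM]; infer_instance
  have hQP' : Q.subgroupOf M ≤ ((P.subtype hPM : Sylow p M) : Subgroup M) := by
    intro x hx
    exact hQP hx
  have hΦ : ∀ H : Subgroup M, H ≤ ((P.subtype hPM : Sylow p M) : Subgroup M) →
      ((P.subtype hPM : Sylow p M) : Subgroup M) ≤ Q.subgroupOf M ⊔ H →
      ((P.subtype hPM : Sylow p M) : Subgroup M) ≤ H := by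
    intro H hHP hle
    set H0 : Subgroup (P : Subgroup G) := (H.map M.subtype).subgroupOf (P : Subgroup G) with hH0
    have htop : H0 ⊔ frattini (P : Subgroup G) = ⊤ := by
      rw [eq_top_iff]
      intro y _
      have hy : (⟨(y : G), hPM y.2⟩ : M) ∈ Q.subgroupOf M ⊔ H := hle y.2
      obtain ⟨q, hq, h, hh, hqh⟩ := Subgroup.mem_sup_of_normal_left.mp hy
      obtain ⟨f, hf, hfq⟩ := h2 hq
      have hhP : (h : G) ∈ (P : Subgroup G) := hHP hh
      have e : y = f * ⟨(h : G), hhP⟩ := by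
        apply Subtype.ext
        have := congrArg Subtype.val hqh
        simp only [Subgroup.coe_mul] at this ⊢
        rw [← this]
        congr 1
        exact hfq.symm
      rw [e, sup_comm]
      refine Subgroup.mul_mem_sup hf ?_
      rw [hH0, Subgroup.mem_subgroupOf]
      exact ⟨h, hh, rfl⟩
    have hH0top := frattini_nongenerating htop
    intro y hy
    have hyP : (y : G) ∈ (P : Subgroup G) := hy
    have : (⟨(y : G), hyP⟩ : (P : Subgroup G)) ∈ H0 := by rw [hH0top]; trivial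
    rw [hH0, Subgroup.mem_subgroupOf] at this
    obtain ⟨h, hh, hhy⟩ := this
    have : h = y := Subtype.ext hhy
    rwa [← this]
  have hcomm : ∀ x ∈ Subgroup.normalizer (((P.subtype hPM : Sylow p M) : Subgroup M) : Set M),
      ∀ y ∈ ((P.subtype hPM : Sylow p M) : Subgroup M), x * y * x⁻¹ * y⁻¹ ∈ Q.subgroupOf M := by
    intro x hx y hy
    have hyP : (y : G) ∈ (P : Subgroup G) := hy
    have hxN : (x : G) ∈ Subgroup.normalizer ((P : Subgroup G) : Set G) := by
      apply mem_normalizer_of_conj_mem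
      intro w hw
      have := (Subgroup.mem_normalizer_iff.mp hx ⟨w, hPM hw⟩).mp hw
      exact this
    obtain ⟨z, hz, hzy⟩ := comm_mem P hN x hxN y hyP
    rw [Subgroup.mem_subgroupOf]
    simp only [Subgroup.coe_mul, Subgroup.coe_inv]
    rw [hzy]
    exact hcommPQ _ hyP _ hz
  exact hasNPC_iff.mp (hasNPC_of_quotient (P.subtype hPM) (Q.subgroupOf M) hQP' hΦ
    (hasNPC_quotient (P.subtype hPM) (Q.subgroupOf M) hQP' hcomm))

end Cfsg.Agent.S3838
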