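import Cfsg.Statements.S3857
import Cfsg.Agent.Lib.Helper72Frob
import Cfsg.Agent.Lib.Helper71Solv
import Cfsg.Agent.Lib.Helper1FpfSylow
import Cfsg.Agent.Lib.Helper14CoreB

set_option autoImplicit false
open Cfsg

namespace Cfsg.Agent.S3857

/-- no element of order `a * b` with `a ∈ A`, `b ∉ A` primes -/
def NoAB (A : Set ℕ) (X : Type*) [Group X] : Prop :=
  ∀ a ∈ A, ∀ b ∉ A, a.Prime → b.Prime → ¬ ∃ g : X, orderOf g = a * b

/-- all prime divisors of `n` lie in `A` -/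
def IsA (A : Set ℕ) (n : ℕ) : Prop := ∀ p : ℕ, p.Prime → p ∣ n → p ∈ A

theorem IsA.mul {A : Set ℕ} {m n : ℕ} (hm : IsA A m) (hn : IsA A n) : IsA A (m * n) := by
  intro p hp hd
  rcases (Nat.Prime.dvd_mul hp).1 hd with h | h
  · exact hm p hp h
  · exact hn p hp h

theorem IsA.of_dvd {A : Set ℕ} {m n : ℕ} (hn : IsA A n) (h : m ∣ n) : IsA A m :=
  fun p hp hd => hn p hp (hd.trans h)

theorem IsA.coprime {A : Set ℕ} {m n : ℕ} (hm : IsA A m) (hn : IsA Aᶜ n) : m.Coprime n := by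
  by_contra h
  obtain ⟨p, hp, h1, h2⟩ := Nat.Prime.not_coprime_iff_dvd.1 h
  exact hn p hp h2 (hm p hp h1)

theorem isA_compl_compl {A : Set ℕ} {n : ℕ} (h : IsA A n) : IsA Aᶜᶜ n := by
  rwa [compl_compl]

theorem isA_prime_pow {A : Set ℕ} {p k : ℕ} (hp : p.Prime) (hA : p ∈ A) : IsA A (p ^ k) := by
  intro q hq hd
  rw [(Nat.prime_dvd_prime_iff_eq hq hp).1 (hq.dvd_of_dvd_pow hd)]
  exact hA

theorem NoAB.compl {A : Set ℕ} {X : Type*} [Group X] (h : NoAB A X) : NoAB Aᶜ X := by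
  intro a ha b hb hpa hpb
  rw [Set.mem_compl_iff, not_not] at hb
  rw [mul_comm]
  exact h b hb a ha hpb hpa

theorem NoAB.sep {A : Set ℕ} {X : Type*} [Group X] [Finite X] (h : NoAB A X) {x y : X}
    (hc : Commute x y) (hx : x ≠ 1) (hy : y ≠ 1) (hxA : IsA A (orderOf x))
    (hyA : IsA Aᶜ (orderOf y)) : False := by
  have hx1 : orderOf x ≠ 1 := fun h => hx (orderOf_eq_one_iff.1 h)
  have hy1 : orderOf y ≠ 1 := fun h => hy (orderOf_eq_one_iff.1 h)
  obtain ⟨a, ha, hax⟩ := Nat.exists_prime_and_dvd hx1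
  obtain ⟨b, hb, hby⟩ := Nat.exists_prime_and_dvd hy1
  have h1 := orderOf_pow_orderOf_div (orderOf_pos x).ne' hax
  have h2 := orderOf_pow_orderOf_div (orderOf_pos y).ne' hby
  have haA := hxA a ha hax
  have hbA := hyA b hb hby
  have hne : a ≠ b := fun e => hbA (e ▸ haA)
  have hcop : (orderOf (x ^ (orderOf x / a))).Coprime (orderOf (y ^ (orderOf y / b))) := by
    rw [h1, h2]; exact (Nat.coprime_primes ha hb).2 hne
  have h3 := (hc.pow_pow (orderOf x / a) (orderOf y / b)).orderOf_mul_eq_mul_orderOf_of_coprime hcop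
  rw [h1, h2] at h3
  exact h a haA b hbA ha hb ⟨_, h3⟩

theorem NoAB.subgroup {A : Set ℕ} {X : Type*} [Group X] (h : NoAB A X) (L : Subgroup X) :
    NoAB A L := by
  rintro a ha b hb hpa hpb ⟨g, hg⟩
  exact h a ha b hb hpa hpb ⟨(g : X), by rw [Subgroup.orderOf_coe, hg]⟩

theorem NoAB.quotient {A : Set ℕ} {X : Type*} [Group X] [Finite X] (h : NoAB A X) (N : Subgroup X)
    [N.Normal] : NoAB A (X ⧸ N) := by
  rintro a ha b hb hpa hpb ⟨g, hg⟩
  obtain ⟨x, rfl⟩ := QuotientGroup.mk_surjective g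
  have h1 : a * b ∣ orderOf x := by
    rw [← hg]; exact orderOf_map_dvd (QuotientGroup.mk' N) x
  exact h a ha b hb hpa hpb ⟨_, orderOf_pow_orderOf_div (orderOf_pos x).ne' h1⟩

/-- Schur–Zassenhaus plus fixed-point-freeness: a Frobenius group. -/
theorem frob_of_split {X : Type*} [Group X] [Finite X] {A : Set ℕ} (h : NoAB A X) (N : Subgroup X)
    [N.Normal] (hN : IsA A (Nat.card N)) (hI : IsA Aᶜ N.index) (h1 : N ≠ ⊥) (h2 : N ≠ ⊤) :
    ∃ C : Subgroup X, IsFrobeniusComplement C ∧ frobeniusKernel C = (N : Set X) := by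
  obtain ⟨C, hC⟩ := Subgroup.exists_right_complement'_of_coprime (hN.coprime hI)
  refine ⟨C, Cfsg.Agent.Lib.Helper72Frob.frobenius_of_fixedPointFree N C h1 ?_ ?_ ?_ ?_⟩
  · rintro rfl
    exact h2 (Subgroup.isComplement'_bot_right.1 hC)
  · intro g
    obtain ⟨⟨n, c⟩, hnc⟩ := hC.2 g
    exact ⟨n, n.2, c, c.2, hnc⟩
  · intro z hz1 hz2
    have := hC.disjoint.le_bot ⟨hz1, hz2⟩
    simpa using this
  · intro c hc hc1 n hn hfix
    by_contra hn1
    have hcomm : Commute n c := by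
      have : n * c = c * n := by
        calc n * c = n * c * n⁻¹ * n := by group
          _ = c * n := by rw [hfix]
      exact this
    refine h.sep hcomm hn1 hc1 (hN.of_dvd (N.orderOf_dvd_natCard hn)) (hI.of_dvd ?_)
    rw [hC.symm.index_eq_card]
    exact C.orderOf_dvd_natCard hc

/-- the elements of order dividing `p` in a commutative subgroup -/
def tors {X : Type*} [Group X] (M : Subgroup X) (hM : ∀ a ∈ M, ∀ b ∈ M, a * b = b * a) (p : ℕ) :
    Subgroup X where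
  carrier := {m | m ∈ M ∧ m ^ p = 1}
  one_mem' := ⟨M.one_mem, one_pow _⟩
  mul_mem' := by
    rintro a b ⟨ha, ha'⟩ ⟨hb, hb'⟩
    refine ⟨M.mul_mem ha hb, ?_⟩
    have hc : Commute a b := hM a ha b hb
    rw [hc.mul_pow, ha', hb', one_mul]
  inv_mem' := by
    rintro a ⟨ha, ha'⟩
    exact ⟨M.inv_mem ha, by rw [inv_pow, ha', inv_one]⟩

theorem tors_normal {X : Type*} [Group X] (M : Subgroup X) [hn : M.Normal]
    (hM : ∀ a ∈ M, ∀ b ∈ M, a * b = b * a) (p : ℕ) : (tors M hM p).Normal := by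
  refine ⟨fun m hm g => ⟨hn.conj_mem m hm.1 g, ?_⟩⟩
  rw [conj_pow, hm.2]; simp

theorem tors_ne_bot {X : Type*} [Group X] [Finite X] (M : Subgroup X)
    (hM : ∀ a ∈ M, ∀ b ∈ M, a * b = b * a) {p : ℕ} (hp : p.Prime) (hd : p ∣ Nat.card M) :
    tors M hM p ≠ ⊥ := by
  have : Fact p.Prime := ⟨hp⟩
  obtain ⟨x, hx⟩ := exists_prime_orderOf_dvd_card' p hd
  intro h
  have h1 : (x : X) ∈ tors M hM p := by
    refine ⟨x.2, ?_⟩
    rw [← Subgroup.orderOf_coe] at hx
    rw [← hx, pow_orderOf_eq_one]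
  rw [h, Subgroup.mem_bot] at h1
  have h2 : x = 1 := Subtype.ext h1
  rw [h2, orderOf_one] at hx
  exact hp.one_lt.ne hx

theorem tors_isA {X : Type*} [Group X] [Finite X] (M : Subgroup X)
    (hM : ∀ a ∈ M, ∀ b ∈ M, a * b = b * a) {p : ℕ} (hp : p.Prime) {A : Set ℕ} (hA : p ∈ A) :
    IsA A (Nat.card (tors M hM p)) := by
  have : Fact p.Prime := ⟨hp⟩
  have h1 : IsPGroup p (tors M hM p) := by
    rintro ⟨m, hm⟩
    exact ⟨1, Subtype.ext (by simpa using hm.2)⟩
  obtain ⟨k, hk⟩ := IsPGroup.iff_card.1 h1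
  rw [hk]
  exact isA_prime_pow hp hA

theorem exists_max {X : Type*} [Group X] [Finite X] (P : Subgroup X → Prop) (N₀ : Subgroup X)
    (h0 : P N₀) : ∃ N, P N ∧ N₀ ≤ N ∧ ∀ N', P N' → N ≤ N' → N' = N := by
  have : Nonempty {N : Subgroup X // P N ∧ N₀ ≤ N} := ⟨⟨N₀, h0, le_rfl⟩⟩
  obtain ⟨⟨N, hN1, hN2⟩, hmax⟩ :=
    Finite.exists_max (fun N : {N : Subgroup X // P N ∧ N₀ ≤ N} => Nat.card (N : Subgroup X))
  refine ⟨N, hN1, hN2, fun N' hP hle => ?_⟩
  exact (Subgroup.eq_of_le_of_card_ge hle (hmax ⟨N', hP, hN2.trans hle⟩)).symm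

theorem card_comap_mk {G : Type*} [Group G] (K : Subgroup G) [K.Normal] (E' : Subgroup (G ⧸ K)) :
    Nat.card (E'.comap (QuotientGroup.mk' K)) = Nat.card K * Nat.card E' := by
  rw [Cfsg.Agent.Lib.Helper14CoreB.card_comap_of_surjective (QuotientGroup.mk'_surjective K),
    QuotientGroup.ker_mk']

theorem exists_lift {G : Type*} [Group G] [Finite G] (K : Subgroup G) [K.Normal]
    (E' : Subgroup (G ⧸ K)) (hcop : (Nat.card K).Coprime (Nat.card E')) :
    ∃ E : Subgroup G, E ⊓ K = ⊥ ∧ E.map (QuotientGroup.mk' K) = E' := by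
  set W := E'.comap (QuotientGroup.mk' K) with hW
  have hKW : K ≤ W := by
    intro k hk
    rw [hW, Subgroup.mem_comap]
    have : QuotientGroup.mk' K k = 1 := (QuotientGroup.eq_one_iff k).2 hk
    rw [this]; exact E'.one_mem
  have hc1 : Nat.card (K.subgroupOf W) = Nat.card K :=
    Nat.card_congr (Subgroup.subgroupOfEquivOfLe hKW).toEquiv
  have hc2 : (K.subgroupOf W).index = Nat.card E' := by
    have h1 := Cfsg.Agent.Lib.Helper14CoreB.card_mul_relIndex hKW
    rw [card_comap_mk] at h1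
    exact Nat.eq_of_mul_eq_mul_left Nat.card_pos h1
  obtain ⟨H, hH⟩ := Subgroup.exists_right_complement'_of_coprime (N := K.subgroupOf W)
    (by rw [hc1, hc2]; exact hcop)
  refine ⟨H.map W.subtype, ?_, ?_⟩
  · rw [eq_bot_iff]
    rintro x ⟨⟨y, hy, rfl⟩, hxK⟩
    have : y ∈ K.subgroupOf W ⊓ H := ⟨Subgroup.mem_subgroupOf.2 hxK, hy⟩
    rw [hH.disjoint.eq_bot, Subgroup.mem_bot] at this
    rw [this]; simp
  · apply le_antisymm
    · rintro _ ⟨_, ⟨y, -, rfl⟩, rfl⟩
      exact y.2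
    · intro e he
      obtain ⟨w, rfl⟩ := QuotientGroup.mk'_surjective K e
      obtain ⟨⟨n, c⟩, hnc⟩ := hH.2 ⟨w, he⟩
      refine ⟨c.1, ⟨c.1, c.2, rfl⟩, ?_⟩
      have h1 : ((n : W) : G) * ((c : W) : G) = w := congrArg Subtype.val hnc
      have h2 : QuotientGroup.mk' K ((n : W) : G) = 1 :=
        (QuotientGroup.eq_one_iff _).2 (Subgroup.mem_subgroupOf.1 n.2)
      rw [← h1, map_mul, h2, one_mul]

/-- abelian `A'`-subgroups of `G / K` are cyclic -/
theorem ac_quotient {G : Type*} [Group G] [Finite G] {A : Set ℕ} (h : NoAB A G) (K : Subgroup G)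
    [K.Normal] (hK : IsA A (Nat.card K)) (hK1 : K ≠ ⊥) (E' : Subgroup (G ⧸ K))
    (hab : ∀ a ∈ E', ∀ b ∈ E', a * b = b * a) (hE' : IsA Aᶜ (Nat.card E')) : IsCyclic E' := by
  obtain ⟨E, hE1, hE2⟩ := exists_lift K E' (hK.coprime hE')
  let f : E →* G ⧸ K := (QuotientGroup.mk' K).comp E.subtype
  have hf : Function.Injective f := by
    rw [injective_iff_map_eq_one]
    intro x hx
    have h1 : (x : G) ∈ K := (QuotientGroup.eq_one_iff _).1 hx
    have h2 : (x : G) ∈ E ⊓ K := ⟨x.2, h1⟩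
    rw [hE1, Subgroup.mem_bot] at h2
    exact Subtype.ext h2
  have hr : f.range = E' := by
    rw [MonoidHom.range_comp, Subgroup.range_subtype, hE2]
  have e : E ≃* E' := (MonoidHom.ofInjective hf).trans (MulEquiv.subgroupCongr hr)
  have hEc : IsMulCommutative E := by
    refine ⟨⟨fun a b => ?_⟩⟩
    apply e.injective
    rw [map_mul, map_mul]
    exact Subtype.ext (hab _ (e a).2 _ (e b).2)
  have hcard : Nat.card E = Nat.card E' := Nat.card_congr e.toEquiv
  have hcyc : IsCyclic E := by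
    apply Cfsg.Agent.Lib.Helper1FpfSylow.isCyclic_of_abelian E K _ hK1
    · intro c hc hc1
      rw [eq_bot_iff]
      rintro n ⟨hn, hn2⟩
      rw [Subgroup.mem_bot]
      by_contra hn1
      have hcomm : Commute n c := by
        have := Subgroup.mem_centralizer_iff.1 hn2 c (Set.mem_singleton c)
        exact this.symm
      exact h.sep hcomm hn1 hc1 (hK.of_dvd (K.orderOf_dvd_natCard hn))
        (hE'.of_dvd (hcard ▸ E.orderOf_dvd_natCard hc))
    · rw [Subgroup.normalizer_eq_top]; exact le_top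
  exact isCyclic_of_surjective e e.surjective

/-- commutators centralize a cyclic normal subgroup -/
theorem comm_centralizes {X : Type*} [Group X] (Z : Subgroup X) [hZ : Z.Normal] [hc : IsCyclic Z]
    (g k : X) : g * k * (k * g)⁻¹ ∈ Subgroup.centralizer (Z : Set X) := by
  obtain ⟨⟨z, hz⟩, hgen⟩ := hc.exists_generator
  have hpow : ∀ x ∈ Z, ∃ i : ℤ, z ^ i = x := by
    intro x hx
    obtain ⟨i, hi⟩ := Subgroup.mem_zpowers_iff.1 (hgen ⟨x, hx⟩)
    exact ⟨i, by simpa using congrArg Subtype.val hi⟩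
  obtain ⟨i, hi⟩ := hpow _ (hZ.conj_mem z hz g)
  obtain ⟨j, hj⟩ := hpow _ (hZ.conj_mem z hz k)
  have h1 : (g * k) * z * (g * k)⁻¹ = z ^ (i * j) := by
    calc (g * k) * z * (g * k)⁻¹ = g * (k * z * k⁻¹) * g⁻¹ := by group
      _ = g * z ^ j * g⁻¹ := by rw [hj]
      _ = (g * z * g⁻¹) ^ j := by rw [conj_zpow]
      _ = z ^ (i * j) := by rw [← hi, zpow_mul]
  have h2 : (k * g) * z * (k * g)⁻¹ = z ^ (i * j) := by
    calc (k * g) * z * (k * g)⁻¹ = k * (g * z * g⁻¹) * k⁻¹ := by group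
      _ = k * z ^ i * k⁻¹ := by rw [hi]
      _ = (k * z * k⁻¹) ^ i := by rw [conj_zpow]
      _ = z ^ (i * j) := by rw [← hj, mul_comm i j, zpow_mul]
  have h3 : ∀ y ∈ Z, (g * k) * y * (g * k)⁻¹ = (k * g) * y * (k * g)⁻¹ := by
    intro y hy
    obtain ⟨n, rfl⟩ := hpow y hy
    rw [← conj_zpow, ← conj_zpow, h1, h2]
  rw [Subgroup.mem_centralizer_iff]
  intro x hx
  have hy : (k * g)⁻¹ * x * (k * g) ∈ Z := by
    have := hZ.conj_mem x hx (k * g)⁻¹
    simpa using this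
  have h4 := h3 _ hy
  have h5 : (k * g) * ((k * g)⁻¹ * x * (k * g)) * (k * g)⁻¹ = x := by group
  rw [h5] at h4
  calc x * (g * k * (k * g)⁻¹) = (g * k) * ((k * g)⁻¹ * x * (k * g)) * (g * k)⁻¹ * (g * k * (k * g)⁻¹) := by
        rw [h4]
    _ = g * k * (k * g)⁻¹ * x := by group

theorem frob_quot {X : Type*} [Group X] [Finite X] [Group.IsSolvable X] {A : Set ℕ} (h : NoAB A X)
    (hOA : ∀ N : Subgroup X, N.Normal → IsA A (Nat.card N) → N = ⊥)
    (hAC : ∀ E : Subgroup X, (∀ a ∈ E, ∀ b ∈ E, a * b = b * a) → IsA Aᶜ (Nat.card E) → IsCyclic E)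
    (hr : ¬ IsA Aᶜ (Nat.card X)) :
    ∃ L : Subgroup X, L.Normal ∧ L ≠ ⊥ ∧ IsA Aᶜ (Nat.card L) ∧
      ∃ C : Subgroup X, IsFrobeniusComplement C ∧ frobeniusKernel C = (L : Set X) := by
  have hnt : Nontrivial X := by
    by_contra hnt
    rw [not_nontrivial_iff_subsingleton] at hnt
    apply hr
    intro p hp hd
    rw [Nat.card_of_subsingleton (1 : X)] at hd
    exact absurd (Nat.dvd_one.1 hd) hp.one_lt.ne'
  obtain ⟨M, hMchar, hM1, hMc⟩ := Cfsg.Agent.Lib.Helper71Solv.exists_abelian_normal (G := X)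
  have hMn : M.Normal := Subgroup.normal_of_characteristic M
  have hMA : IsA Aᶜ (Nat.card M) := by
    intro p hp hd hpA
    exact tors_ne_bot M hMc hp hd (hOA _ (tors_normal M hMc p) (tors_isA M hMc hp hpA))
  have hMcyc : IsCyclic M := hAC M hMc hMA
  set D := Subgroup.centralizer (M : Set X) with hD
  have hDn : D.Normal := inferInstance
  have hMD : M ≤ D := by
    intro m hm
    rw [hD, Subgroup.mem_centralizer_iff]
    intro x hx
    exact hMc x hx m hm
  have hDA : IsA Aᶜ (Nat.card D) := by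
    intro a ha hd haA
    have : Fact a.Prime := ⟨ha⟩
    obtain ⟨x, hx⟩ := exists_prime_orderOf_dvd_card' a hd
    obtain ⟨z, hz, hz1⟩ : ∃ z ∈ M, z ≠ 1 := by
      by_contra hcon
      push Not at hcon
      exact hM1 ((Subgroup.eq_bot_iff_forall M).2 hcon)
    have hx' : orderOf (x : X) = a := by rw [Subgroup.orderOf_coe, hx]
    have hx1 : (x : X) ≠ 1 := by
      intro h1
      rw [h1, orderOf_one] at hx'
      exact ha.one_lt.ne hx'
    have hcomm : Commute (x : X) z := (Subgroup.mem_centralizer_iff.1 x.2 z hz).symm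
    refine h.sep hcomm hx1 hz1 ?_ (hMA.of_dvd (M.orderOf_dvd_natCard hz))
    rw [hx']
    have := isA_prime_pow (k := 1) ha haA
    simpa using this
  obtain ⟨L, ⟨hLn, hLA⟩, hDL, hLmax⟩ :=
    exists_max (fun N : Subgroup X => N.Normal ∧ IsA Aᶜ (Nat.card N)) D ⟨hDn, hDA⟩
  have hLI : IsA Aᶜᶜ L.index := by
    intro q hq hd
    rw [compl_compl]
    by_contra hqA
    have : Fact q.Prime := ⟨hq⟩
    rw [Subgroup.index_eq_card] at hd
    obtain ⟨y, hy⟩ := exists_prime_orderOf_dvd_card' q hd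
    set N' := (Subgroup.zpowers y).comap (QuotientGroup.mk' L) with hN'
    have hLN : L ≤ N' := by
      intro l hl
      rw [hN', Subgroup.mem_comap]
      have : QuotientGroup.mk' L l = 1 := (QuotientGroup.eq_one_iff l).2 hl
      rw [this]; exact Subgroup.one_mem _
    have hNn : N'.Normal := by
      refine ⟨fun n hn g => ?_⟩
      have h1 : g * n * g⁻¹ = (g * n * (n * g)⁻¹) * n := by group
      rw [h1]
      exact N'.mul_mem (hLN (hDL (comm_centralizes M g n))) hn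
    have hcard : Nat.card N' = Nat.card L * q := by
      rw [hN', card_comap_mk, Nat.card_zpowers, hy]
    have hNA : IsA Aᶜ (Nat.card N') := by
      rw [hcard]
      refine hLA.mul ?_
      have := isA_prime_pow (A := Aᶜ) (k := 1) hq hqA
      simpa using this
    have heq := hLmax N' ⟨hNn, hNA⟩ hLN
    rw [heq] at hcard
    have hpos : 0 < Nat.card L := Nat.card_pos
    have : q = 1 := by
      have h2 : Nat.card L * 1 = Nat.card L * q := by rw [mul_one]; exact hcard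
      exact (Nat.eq_of_mul_eq_mul_left hpos h2).symm
    exact hq.one_lt.ne' this
  have hL1 : L ≠ ⊥ := by
    intro h1
    apply hM1
    rw [eq_bot_iff, ← h1]
    exact hMD.trans hDL
  have hL2 : L ≠ ⊤ := by
    intro h1
    apply hr
    rw [h1, Subgroup.card_top] at hLA
    exact hLA
  exact ⟨L, hLn, hL1, hLA, frob_of_split h.compl L hLA hLI hL1 hL2⟩

theorem main' {G : Type*} [Group G] [Finite G] [Group.IsSolvable G] {A : Set ℕ} (h : NoAB A G)
    (N₀ : Subgroup G) (hN0n : N₀.Normal) (hN0A : IsA A (Nat.card N₀)) (hN01 : N₀ ≠ ⊥)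
    (hb : ¬ IsA A (Nat.card G)) :
    (∃ C : Subgroup G, Cfsg.IsFrobeniusComplement C) ∨
    (∃ (H K : Subgroup G) (_ : H.Normal), K.Normal ∧ H < K ∧
      (∃ C : Subgroup ↥K, Cfsg.IsFrobeniusComplement C ∧ Cfsg.frobeniusKernel C = (H.subgroupOf K : Set ↥K)) ∧
      (∃ C : Subgroup (G ⧸ H), Cfsg.IsFrobeniusComplement C ∧ Cfsg.frobeniusKernel C = (K.map (QuotientGroup.mk' H) : Set (G ⧸ H)))) := by
  obtain ⟨K, ⟨hKn, hKA⟩, hN0K, hKmax⟩ :=
    exists_max (fun N : Subgroup G => N.Normal ∧ IsA A (Nat.card N)) N₀ ⟨hN0n, hN0A⟩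
  have hK1 : K ≠ ⊥ := by
    intro h1
    apply hN01
    rw [eq_bot_iff, ← h1]
    exact hN0K
  have hK2 : K ≠ ⊤ := by
    intro h1
    apply hb
    rw [h1, Subgroup.card_top] at hKA
    exact hKA
  have hle : ∀ N' : Subgroup (G ⧸ K), K ≤ N'.comap (QuotientGroup.mk' K) := by
    intro N' k hk
    rw [Subgroup.mem_comap]
    have : QuotientGroup.mk' K k = 1 := (QuotientGroup.eq_one_iff k).2 hk
    rw [this]; exact N'.one_mem
  have hmapK : K.map (QuotientGroup.mk' K) = ⊥ := by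
    rw [eq_bot_iff]
    rintro _ ⟨k, hk, rfl⟩
    exact (QuotientGroup.eq_one_iff k).2 hk
  have hOA : ∀ N : Subgroup (G ⧸ K), N.Normal → IsA A (Nat.card N) → N = ⊥ := by
    intro N hNn hNA
    have h1 := hKmax (N.comap (QuotientGroup.mk' K))
      ⟨hNn.comap _, by rw [card_comap_mk]; exact hKA.mul hNA⟩ (hle N)
    rw [← Subgroup.map_comap_eq_self_of_surjective (QuotientGroup.mk'_surjective K) N, h1, hmapK]
  by_cases hX : IsA Aᶜ (Nat.card (G ⧸ K))
  · left
    obtain ⟨C, hC, -⟩ := frob_of_split h K hKA (by rw [Subgroup.index_eq_card]; exact hX) hK1 hK2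
    exact ⟨C, hC⟩
  · right
    obtain ⟨L', hLn, hL1, hLA, C', hC', hC'k⟩ := frob_quot (h.quotient K) hOA
      (fun E hE hEA => ac_quotient h K hKA hK1 E hE hEA) hX
    set L := L'.comap (QuotientGroup.mk' K) with hL
    have hmapL : L.map (QuotientGroup.mk' K) = L' :=
      Subgroup.map_comap_eq_self_of_surjective (QuotientGroup.mk'_surjective K) L'
    have hKL : K ≤ L := hle L'
    have hne : K ≠ L := by
      intro he
      apply hL1
      rw [← hmapL, ← he, hmapK]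
    refine ⟨K, L, hKn, hLn.comap _, lt_of_le_of_ne hKL hne, ?_, ⟨C', hC', by rw [hmapL]; exact hC'k⟩⟩
    have hc1 : Nat.card (K.subgroupOf L) = Nat.card K :=
      Nat.card_congr (Subgroup.subgroupOfEquivOfLe hKL).toEquiv
    have hc2 : (K.subgroupOf L).index = Nat.card L' := by
      have h1 := Cfsg.Agent.Lib.Helper14CoreB.card_mul_relIndex hKL
      rw [hL, card_comap_mk] at h1
      exact Nat.eq_of_mul_eq_mul_left Nat.card_pos h1
    apply frob_of_split (h.subgroup L) (K.subgroupOf L) (by rw [hc1]; exact hKA)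
      (by rw [hc2]; exact hLA)
    · intro h1
      rw [h1, Subgroup.card_bot] at hc1
      exact hK1 (Subgroup.card_eq_one.1 hc1.symm)
    · intro h1
      rw [Subgroup.subgroupOf_eq_top] at h1
      exact hne (le_antisymm hKL h1)

/-- A finite solvable group whose prime graph (prime divisors of the order, two distinct primes joined when there is an element of order their product) is disconnected is a Frobenius group or a 2-Frobenius group (it has normal subgroups H < K with K a Frobenius group with kernel H and G/H a Frobenius group with kernel K/H). -/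
theorem result {G : Type*} [Group G] [Finite G] (hsol : Group.IsSolvable G)
    (hdisc : (∃ A : Set ℕ, (∃ a ∈ A, a.Prime ∧ a ∣ Nat.card G) ∧ (∃ b ∉ A, b.Prime ∧ b ∣ Nat.card G) ∧
      ∀ a ∈ A, ∀ b ∉ A, a.Prime → b.Prime → a ∣ Nat.card G → b ∣ Nat.card G → ¬ ∃ g : G, orderOf g = a * b)) :
    (∃ C : Subgroup G, Cfsg.IsFrobeniusComplement C) ∨
    (∃ (H K : Subgroup G) (_ : H.Normal), K.Normal ∧ H < K ∧
      (∃ C : Subgroup ↥K, Cfsg.IsFrobeniusComplement C ∧ Cfsg.frobeniusKernel C = (H.subgroupOf K : Set ↥K)) ∧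
      (∃ C : Subgroup (G ⧸ H), Cfsg.IsFrobeniusComplement C ∧ Cfsg.frobeniusKernel C = (K.map (QuotientGroup.mk' H) : Set (G ⧸ H)))) := by
  obtain ⟨A, ⟨a, haA, ha, hda⟩, ⟨b, hbA, hb, hdb⟩, hno⟩ := hdisc
  have h : NoAB A G := by
    rintro a' ha' b' hb' hpa hpb ⟨g, hg⟩
    have h1 : a' * b' ∣ Nat.card G := hg ▸ orderOf_dvd_natCard g
    exact hno a' ha' b' hb' hpa hpb ((Dvd.intro _ rfl).trans h1) ((Dvd.intro_left _ rfl).trans h1)
      ⟨g, hg⟩
  have hnt : Nontrivial G := by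
    by_contra hnt
    rw [not_nontrivial_iff_subsingleton] at hnt
    rw [Nat.card_of_subsingleton (1 : G)] at hda
    exact absurd (Nat.dvd_one.1 hda) ha.one_lt.ne'
  obtain ⟨M, hMchar, hM1, hMc⟩ := Cfsg.Agent.Lib.Helper71Solv.exists_abelian_normal (G := G)
  have hMn : M.Normal := Subgroup.normal_of_characteristic M
  have hMcard : Nat.card M ≠ 1 := fun h1 => hM1 (Subgroup.card_eq_one.1 h1)
  obtain ⟨p, hp, hpd⟩ := Nat.exists_prime_and_dvd hMcard
  by_cases hpA : p ∈ A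
  · exact main' h (tors M hMc p) (tors_normal M hMc p) (tors_isA M hMc hp hpA)
      (tors_ne_bot M hMc hp hpd) (fun hc => hbA (hc b hb hdb))
  · exact main' h.compl (tors M hMc p) (tors_normal M hMc p) (tors_isA M hMc hp hpA)
      (tors_ne_bot M hMc hp hpd) (fun hc => hc a ha hda haA)

end Cfsg.Agent.S3857
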