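import Mathlib
import Cfsg.Statements.S3858
import Cfsg.Agent.Lib.Helper67Basic

set_option autoImplicit false
open Cfsg
open Cfsg.Agent.Lib.Helper67Basic

namespace Cfsg.Agent.S3858

theorem inf_not_normal {G : Type*} [Group G] [Finite G] (T : Subgroup G) [T.Normal]
    (hT : IsSimpleGroup T) (hna : ¬ IsMulCommutative T) {r : ℕ} [Fact r.Prime] (R : Sylow r G)
    (hR0 : (R : Subgroup G) ⊓ T ≠ ⊥) :
    Subgroup.normalizer (((R : Subgroup G) ⊓ T : Subgroup G) : Set G) ≠ ⊤ := by
  intro htop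
  have hn : ((R : Subgroup G) ⊓ T).Normal := Subgroup.normalizer_eq_top_iff.mp htop
  have hn' : (((R : Subgroup G) ⊓ T).subgroupOf T).Normal := hn.subgroupOf T
  rcases hT.eq_bot_or_eq_top_of_normal _ hn' with h | h
  · rw [Subgroup.subgroupOf_eq_bot, disjoint_iff, inf_assoc, inf_idem] at h
    exact hR0 h
  · rw [Subgroup.subgroupOf_eq_top] at h
    have hTR : T ≤ (R : Subgroup G) := h.trans inf_le_left
    have hp : IsPGroup r T := R.2.to_le hTR
    exact hna (isMulCommutative_of_simple_pGroup hT hp)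

theorem map_conj_mul {G : Type*} [Group G] (H : Subgroup G) (a b : G) :
    H.map (MulAut.conj (a * b)).toMonoidHom =
      (H.map (MulAut.conj b).toMonoidHom).map (MulAut.conj a).toMonoidHom := by
  rw [Subgroup.map_map]
  congr 1
  ext x
  simp [mul_assoc]

theorem map_conj_one {G : Type*} [Group G] (H : Subgroup G) :
    H.map (MulAut.conj (1 : G)).toMonoidHom = H := by
  ext y; simp

theorem isCoatom_map_conj {G : Type*} [Group G] (M : Subgroup G) (g : G) (hM : IsCoatom M) :
    IsCoatom (M.map (MulAut.conj g).toMonoidHom) :=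
  ((MulAut.conj g).mapSubgroup.isCoatom_iff M).mpr hM

theorem index_map_conj {G : Type*} [Group G] (M : Subgroup G) (g : G) :
    (M.map (MulAut.conj g).toMonoidHom).index = M.index :=
  Subgroup.index_map_equiv M (MulAut.conj g)

/-- A subgroup of index prime to `r` has a conjugate containing the Sylow subgroup `R`. -/
theorem exists_le_map_conj {G : Type*} [Group G] [Finite G] {r : ℕ} [Fact r.Prime] (R : Sylow r G)
    (K : Subgroup G) (hK : ¬ r ∣ K.index) :
    ∃ g : G, (R : Subgroup G) ≤ K.map (MulAut.conj g).toMonoidHom := by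
  have hfix := R.2.nonempty_fixed_point_of_prime_not_dvd_card (G ⧸ K)
    (by rwa [← Subgroup.index_eq_card])
  obtain ⟨q, hq⟩ := hfix
  obtain ⟨g, rfl⟩ := QuotientGroup.mk_surjective q
  refine ⟨g, fun a ha => ?_⟩
  have h1 := hq ⟨a, ha⟩
  have h2 : ((a * g : G) : G ⧸ K) = (g : G ⧸ K) := h1
  rw [eq_comm, QuotientGroup.eq] at h2
  refine ⟨g⁻¹ * (a * g), h2, ?_⟩
  simp [mul_assoc]

/-- Let G be a finite group with a normal non-abelian simple subgroup T whose centralizer is trivial (G almost simple with socle T), r a prime and R a Sylow r-subgroup of G meeting T nontrivially. Then R lies in exactly one maximal subgroup of G if and only if G has exactly one conjugacy class of maximal subgroups whose index is prime to r. -/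
theorem result {G : Type*} [Group G] [Finite G] (T : Subgroup G) [T.Normal] (hT : IsSimpleGroup T) (hna : ¬ IsMulCommutative T)
    (hC : Subgroup.centralizer (T : Set G) = ⊥) {r : ℕ} [Fact r.Prime] (R : Sylow r G) (hR0 : (R : Subgroup G) ⊓ T ≠ ⊥) :
    (∃! M : Subgroup G, IsCoatom M ∧ (R : Subgroup G) ≤ M) ↔
      ((∃ M : Subgroup G, IsCoatom M ∧ ¬ r ∣ M.index) ∧
        ∀ M₁ M₂ : Subgroup G, IsCoatom M₁ → ¬ r ∣ M₁.index → IsCoatom M₂ → ¬ r ∣ M₂.index → ∃ g : G, M₂ = M₁.map (MulAut.conj g).toMonoidHom) := by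
  have hidx : ∀ M : Subgroup G, (R : Subgroup G) ≤ M → ¬ r ∣ M.index := fun M hRM h =>
    R.not_dvd_index (h.trans (Subgroup.index_dvd_of_le hRM))
  constructor
  · rintro ⟨M, ⟨hM, hRM⟩, hMu⟩
    refine ⟨⟨M, hM, hidx M hRM⟩, ?_⟩
    intro M₁ M₂ h1 h1' h2 h2'
    obtain ⟨g₁, hg₁⟩ := exists_le_map_conj R M₁ h1'
    obtain ⟨g₂, hg₂⟩ := exists_le_map_conj R M₂ h2'
    have e1 := hMu _ ⟨isCoatom_map_conj M₁ g₁ h1, hg₁⟩
    have e2 := hMu _ ⟨isCoatom_map_conj M₂ g₂ h2, hg₂⟩
    refine ⟨g₂⁻¹ * g₁, ?_⟩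
    rw [map_conj_mul, e1, ← e2, ← map_conj_mul, inv_mul_cancel, map_conj_one]
  · rintro ⟨-, hconj⟩
    have hNN : Subgroup.normalizer ((R : Subgroup G) : Set G) ≤
        Subgroup.normalizer (((R : Subgroup G) ⊓ T : Subgroup G) : Set G) := by
      have h1 := Subgroup.inf_normalizer_le_normalizer_inf (H := (R : Subgroup G)) (K := T)
      rw [Subgroup.normalizer_eq_top T, inf_top_eq] at h1
      exact h1
    have hNne : Subgroup.normalizer ((R : Subgroup G) : Set G) ≠ ⊤ := by
      intro h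
      rw [h, top_le_iff] at hNN
      exact inf_not_normal T hT hna R hR0 hNN
    obtain ⟨M, hM, hNM⟩ := (eq_top_or_exists_le_coatom _).resolve_left hNne
    have hRM : (R : Subgroup G) ≤ M := Subgroup.le_normalizer.trans hNM
    refine ⟨M, ⟨hM, hRM⟩, ?_⟩
    rintro M' ⟨hM', hRM'⟩
    obtain ⟨g, hg⟩ := hconj M M' hM (hidx M hRM) hM' (hidx M' hRM')
    -- `g⁻¹ • R ≤ M`
    have hQM : ((g⁻¹ • R : Sylow r G) : Subgroup G) ≤ M := by
      intro y hy
      rw [Sylow.coe_subgroup_smul, Subgroup.mem_pointwise_smul_iff_inv_smul_mem] at hy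
      have hy' : g * y * g⁻¹ ∈ (R : Subgroup G) := by simpa using hy
      have := hRM' hy'
      rw [hg] at this
      obtain ⟨z, hz, hzy⟩ := this
      have : z = y := by
        have h3 : g * z * g⁻¹ = g * y * g⁻¹ := by simpa using hzy
        simpa using h3
      rwa [← this]
    obtain ⟨m, hm⟩ := MulAction.exists_smul_eq M ((g⁻¹ • R : Sylow r G).subtype hQM) (R.subtype hRM)
    rw [Sylow.smul_subtype] at hm
    have hm' := Sylow.subtype_injective hm
    have hm'' : ((m : G) * g⁻¹) • R = R := by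
      rw [mul_smul]; exact hm'
    rw [Sylow.smul_eq_iff_mem_normalizer] at hm''
    have hmg : (m : G) * g⁻¹ ∈ M := hNM hm''
    have hgM : g ∈ M := by
      have : g = ((m : G) * g⁻¹)⁻¹ * m := by group
      rw [this]
      exact M.mul_mem (M.inv_mem hmg) m.2
    rw [hg]
    ext y
    constructor
    · rintro ⟨z, hz, rfl⟩
      simpa using M.mul_mem (M.mul_mem hgM hz) (M.inv_mem hgM)
    · intro hy
      exact ⟨g⁻¹ * y * g, M.mul_mem (M.mul_mem (M.inv_mem hgM) hy) hgM, by simp [mul_assoc]⟩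

end Cfsg.Agent.S3858
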