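import Mathlib
import Cfsg.Statements.S3859
import Cfsg.Agent.Lib.Helper67Basic

set_option autoImplicit false
open Cfsg
open Cfsg.Agent.Lib.Helper67Basic

namespace Cfsg.Agent.S3859

theorem inf_not_normal {G : Type*} [Group G] [Finite G] (T : Subgroup G) [T.Normal]
    (hT : IsSimpleGroup T) (hna : ¬ IsMulCommutative T) {r : ℕ} [Fact r.Prime] (R : Sylow r G)
    (hR0 : (R : Subgroup G) ⊓ T ≠ ⊥) :
    Subgroup.normalizer (((R : Subgroup G) ⊓ T : Subgroup G) : Set G) ≠ ⊤ := by
  intro htop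
  have hn : ((R : Subgroup G) ⊓ T).Normal := Subgroup.normalizer_eq_top_iff.mp htop
  have hn' : (((R : Subgroup G) ⊓ T).subgroupOf T).Normal := hn.subgroupOf T
  rcases hT.eq_bot_or_eq_top_of_normal _ hn' with h | h
  · rw [Subgroup.subgroupOf_eq_bot, disjoint_iff, inf_assoc, inf_idem] at h
    exact hR0 h
  · rw [Subgroup.subgroupOf_eq_top] at h
    have hTR : T ≤ (R : Subgroup G) := h.trans inf_le_left
    have hp : IsPGroup r T := R.2.to_le hTR
    exact hna (isMulCommutative_of_simple_pGroup hT hp)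

/-- Let G be a finite group with a normal non-abelian simple subgroup T whose centralizer is trivial (G almost simple with socle T), r a prime and R a Sylow r-subgroup of G meeting T nontrivially. If R lies in exactly one maximal subgroup of G, then G/T is an r-group. -/
theorem result {G : Type*} [Group G] [Finite G] (T : Subgroup G) [T.Normal] (hT : IsSimpleGroup T) (hna : ¬ IsMulCommutative T)
    (hC : Subgroup.centralizer (T : Set G) = ⊥) {r : ℕ} [Fact r.Prime] (R : Sylow r G) (hR0 : (R : Subgroup G) ⊓ T ≠ ⊥)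
    (huniq : ∃! M : Subgroup G, IsCoatom M ∧ (R : Subgroup G) ≤ M) : IsPGroup r (G ⧸ T) := by
  obtain ⟨M, ⟨hM, hRM⟩, hMu⟩ := huniq
  have hle : ∀ K : Subgroup G, (R : Subgroup G) ≤ K → K ≠ ⊤ → K ≤ M := by
    intro K hRK hK
    obtain ⟨M', hM', hKM'⟩ := (eq_top_or_exists_le_coatom K).resolve_left hK
    have := hMu M' ⟨hM', hRK.trans hKM'⟩
    rwa [this] at hKM'
  have hRN : (R : Subgroup G) ≤
      Subgroup.normalizer (((R : Subgroup G) ⊓ T : Subgroup G) : Set G) := by
    rw [Subgroup.le_normalizer_iff]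
    intro h hh k hk
    exact ⟨(R : Subgroup G).mul_mem ((R : Subgroup G).mul_mem hh hk.1) ((R : Subgroup G).inv_mem hh),
      ‹T.Normal›.conj_mem k hk.2 h⟩
  have hNM := hle _ hRN (inf_not_normal T hT hna R hR0)
  have hRT : (R : Subgroup G) ⊔ T = ⊤ := by
    by_contra hne
    have hRTM := hle _ le_sup_left hne
    have hTM : T ≤ M := le_sup_right.trans hRTM
    have := normalizer_inf_sup_eq_top R T
    exact hM.1 (top_le_iff.mp (this ▸ sup_le hNM hTM))
  intro g
  obtain ⟨x, rfl⟩ := QuotientGroup.mk_surjective g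
  have hx : x ∈ (R : Subgroup G) ⊔ T := by rw [hRT]; trivial
  obtain ⟨a, ha, t, ht, rfl⟩ := Subgroup.mem_sup_of_normal_right.mp hx
  obtain ⟨k, hk⟩ := R.2 ⟨a, ha⟩
  refine ⟨k, ?_⟩
  have h1 : ((a * t : G) : G ⧸ T) = (a : G ⧸ T) := by
    rw [QuotientGroup.mk_mul, (QuotientGroup.eq_one_iff t).mpr ht, mul_one]
  rw [h1, ← QuotientGroup.mk_pow]
  have h2 : a ^ r ^ k = 1 := by simpa using congrArg Subtype.val hk
  rw [h2]; rfl

end Cfsg.Agent.S3859
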