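import Mathlib
import Cfsg.Statements.S3863

set_option autoImplicit false
open Cfsg

namespace Cfsg.Agent.S3863

theorem conj_odd_pow {G : Type*} [Group G] (g x : G) (h : g * x * g⁻¹ = x⁻¹) (k : ℕ) :
    g ^ (2 * k + 1) * x * (g ^ (2 * k + 1))⁻¹ = x⁻¹ := by
  induction k with
  | zero => simpa using h
  | succ k ih =>
    have h2 : g * x⁻¹ * g⁻¹ = x := by
      calc g * x⁻¹ * g⁻¹ = (g * x * g⁻¹)⁻¹ := by group
        _ = x := by rw [h, inv_inv]
    have e : g ^ (2 * (k + 1) + 1) = g * g * g ^ (2 * k + 1) := by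
      rw [show 2 * (k + 1) + 1 = 1 + 1 + (2 * k + 1) by ring, pow_add, pow_add, pow_one]
    calc g ^ (2 * (k + 1) + 1) * x * (g ^ (2 * (k + 1) + 1))⁻¹
        = g * (g * (g ^ (2 * k + 1) * x * (g ^ (2 * k + 1))⁻¹) * g⁻¹) * g⁻¹ := by
          rw [e]; group
      _ = x⁻¹ := by rw [ih, h2, h]

theorem exists_two_elt {G : Type*} [Group G] [Finite G] (x : G) (hx : IsConj x x⁻¹) :
    ∃ t : G, (∃ j : ℕ, orderOf t = 2 ^ j) ∧ t * x * t⁻¹ = x⁻¹ := by
  obtain ⟨g, hg⟩ := isConj_iff.mp hx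
  obtain ⟨k, m, hm, hkm⟩ := Nat.exists_eq_two_pow_mul_odd (orderOf_pos g).ne'
  obtain ⟨r, rfl⟩ := hm
  refine ⟨g ^ (2 * r + 1), ⟨k, ?_⟩, conj_odd_pow g x hg r⟩
  rw [orderOf_pow, hkm, Nat.gcd_eq_right (Dvd.intro_left _ rfl)]
  exact Nat.mul_div_cancel _ (by omega)

theorem card_orbit {G : Type*} [Group G] (x : G) :
    Nat.card (MulAction.orbit (ConjAct G) x) = (Subgroup.centralizer ({x} : Set G)).index := by
  have h1 : (Subgroup.centralizer ({x} : Set G)).index =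
      (MulAction.stabilizer (ConjAct G) x).index := by
    rw [Subgroup.centralizer_eq_comap_stabilizer]
    exact Subgroup.index_comap_of_surjective _ (ConjAct.toConjAct (G := G)).surjective
  rw [h1, MulAction.index_stabilizer]; rfl

theorem sq_eq_one {G : Type*} [Group G] [Finite G] (x : G) (hx : IsConj x x⁻¹)
    (hodd : Odd (Subgroup.centralizer ({x} : Set G)).index) : x ^ 2 = 1 := by
  classical
  rw [← card_orbit] at hodd
  have hmem : ∀ y : G, y ∈ MulAction.orbit (ConjAct G) x → y⁻¹ ∈ MulAction.orbit (ConjAct G) x := by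
    intro y hy
    rw [ConjAct.mem_orbit_conjAct] at hy ⊢
    have h1 : IsConj y⁻¹ x⁻¹ := by
      obtain ⟨c, hc⟩ := isConj_iff.mp hy
      exact isConj_iff.mpr ⟨c, by rw [← hc]; group⟩
    exact h1.trans hx.symm
  let σ : Equiv.Perm (MulAction.orbit (ConjAct G) x) :=
    { toFun := fun y => ⟨(y : G)⁻¹, hmem _ y.2⟩
      invFun := fun y => ⟨(y : G)⁻¹, hmem _ y.2⟩
      left_inv := fun y => by simp
      right_inv := fun y => by simp }
  let _ : Fintype (MulAction.orbit (ConjAct G) x) := Fintype.ofFinite _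
  have hσ : σ ^ 2 ^ 1 = 1 := by
    ext y
    simp [σ, pow_two]
  have : Fact (Nat.Prime 2) := ⟨Nat.prime_two⟩
  have hnd : ¬ 2 ∣ Fintype.card (MulAction.orbit (ConjAct G) x) := by
    rw [← Nat.card_eq_fintype_card]
    exact hodd.not_two_dvd_nat
  obtain ⟨a, ha⟩ := Equiv.Perm.exists_fixed_point_of_prime hnd hσ
  have ha' : (a : G)⁻¹ = a := congrArg Subtype.val ha
  have ha2 : (a : G) ^ 2 = 1 := by
    rw [pow_two]
    nth_rewrite 1 [← ha']
    exact inv_mul_cancel _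
  obtain ⟨c, hc⟩ := isConj_iff.mp (ConjAct.mem_orbit_conjAct.mp a.2)
  rw [← hc, conj_pow, ha2]
  simp

/-- Let x be an element of the finite group G that is conjugate to its inverse. Then some 2-element conjugates x to its inverse; if the conjugacy class of x has odd size then x ^ 2 = 1; and x lies in, and is conjugate to its inverse inside, every normal subgroup of odd index. -/
theorem result {G : Type*} [Group G] [Finite G] (x : G) (hx : IsConj x x⁻¹) : (∃ t : G, (∃ j : ℕ, orderOf t = 2 ^ j) ∧ t * x * t⁻¹ = x⁻¹) ∧ (Odd (Subgroup.centralizer ({x} : Set G)).index → x ^ 2 = 1) ∧ ∀ (N : Subgroup G) [N.Normal], Odd N.index → ∃ hxN : x ∈ N, IsConj (⟨x, hxN⟩ : N) (⟨x, hxN⟩ : N)⁻¹ := by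
  refine ⟨exists_two_elt x hx, sq_eq_one x hx, ?_⟩
  intro N _ hN
  obtain ⟨t, ⟨j, hj⟩, ht⟩ := exists_two_elt x hx
  -- an element whose 2-power is in N lies in N
  have key : ∀ y : G, ∀ i : ℕ, y ^ 2 ^ i ∈ N → y ∈ N := by
    intro y i hy
    rw [← QuotientGroup.eq_one_iff] at hy ⊢
    have h1 : orderOf (y : G ⧸ N) ∣ 2 ^ i := by
      apply orderOf_dvd_of_pow_eq_one
      simpa using hy
    have h2 : orderOf (y : G ⧸ N) ∣ N.index := by
      rw [Subgroup.index_eq_card]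
      exact orderOf_dvd_natCard _
    have h3 : Nat.Coprime (2 ^ i) N.index :=
      Nat.Coprime.pow_left _ (Nat.coprime_two_left.mpr hN)
    have h4 : orderOf (y : G ⧸ N) = 1 := Nat.eq_one_of_dvd_coprimes h3 h1 h2
    exact orderOf_eq_one_iff.mp h4
  have htN : t ∈ N := key t j (by rw [← hj, pow_orderOf_eq_one]; exact N.one_mem)
  have hxN : x ∈ N := by
    apply key x 1
    have h2 : t * x⁻¹ * t⁻¹ = x := by
      calc t * x⁻¹ * t⁻¹ = (t * x * t⁻¹)⁻¹ := by group
        _ = x := by rw [ht, inv_inv]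
    have h3 : x ^ 2 ^ 1 = t * (x⁻¹ * t⁻¹ * x⁻¹⁻¹) := by
      calc x ^ 2 ^ 1 = x * x := by rw [pow_one, pow_two]
        _ = (t * x⁻¹ * t⁻¹) * x := by rw [h2]
        _ = t * (x⁻¹ * t⁻¹ * x⁻¹⁻¹) := by group
    rw [h3]
    exact N.mul_mem htN (‹N.Normal›.conj_mem _ (N.inv_mem htN) _)
  refine ⟨hxN, isConj_iff.mpr ⟨⟨t, htN⟩, ?_⟩⟩
  exact Subtype.ext (by simpa using ht)

end Cfsg.Agent.S3863
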