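import Mathlib
import Cfsg.Statements.S3861
import Cfsg.Agent.S3863
import Cfsg.Agent.Lib.Helper5BaerSuzuki
import Cfsg.Agent.Lib.Helper5Dihedral
import Cfsg.Agent.Lib.Helper40Sylow
import Cfsg.Agent.Lib.Helper67Basic

set_option autoImplicit false
open Cfsg
open Cfsg.Agent.Lib.Helper40Sylow

namespace Cfsg.Agent.S3861

variable {G : Type*} [Group G] [Finite G]

/-- Lifting a real element of odd prime order modulo a normal 2-subgroup. -/
theorem lift_real (N : Subgroup G) [hNn : N.Normal] (hN : IsPGroup 2 N) (a x : G) (q : ℕ)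
    [hq : Fact q.Prime] (hq2 : q ≠ 2) (hx : orderOf x = q) (hax : a * x * a⁻¹ * x ∈ N) :
    IsConj x x⁻¹ := by
  set X := Subgroup.zpowers x with hX
  have hXcard : Nat.card X = q := by rw [hX, Nat.card_zpowers, hx]
  obtain ⟨j, hj⟩ := IsPGroup.iff_card.mp hN
  have hcop : Nat.Coprime q 2 := (Nat.coprime_primes hq.out Nat.prime_two).mpr hq2
  have hXN : X ⊓ N = ⊥ := (Subgroup.disjoint_of_coprime_natCard (by
    rw [hXcard, hj]; exact Nat.Coprime.pow_right _ hcop)).eq_bot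
  have hXp : IsPGroup q X := IsPGroup.of_card (n := 1) (by rw [hXcard, pow_one])
  have hSyl : IsSylowIn q X (X ⊔ N) := by
    refine ⟨le_sup_left, hXp, ?_⟩
    rw [← Cfsg.Agent.Lib.Helper67Basic.relIndex_eq_relIndex_sup]
    intro hd
    have h1 : q ∣ 2 ^ j := by
      rw [← hj]; exact hd.trans (Subgroup.relIndex_dvd_card _ _)
    have h2 := (Nat.prime_dvd_prime_iff_eq hq.out Nat.prime_two).mp (hq.out.dvd_of_dvd_pow h1)
    exact hq2 h2
  have hxX : x ∈ X := Subgroup.mem_zpowers x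
  have haxH : a * x * a⁻¹ ∈ X ⊔ N := by
    have : a * x * a⁻¹ = (a * x * a⁻¹ * x) * x⁻¹ := by group
    rw [this]
    exact Subgroup.mul_mem _ (Subgroup.mem_sup_right hax)
      (Subgroup.mem_sup_left (X.inv_mem hxX))
  have hcjle : cj a X ≤ X ⊔ N := by
    rintro _ ⟨y, hy, rfl⟩
    obtain ⟨k, rfl⟩ := Subgroup.mem_zpowers_iff.mp hy
    have : (MulAut.conj a).toMonoidHom (x ^ k) = (a * x * a⁻¹) ^ k := by
      simp [conj_zpow]
    rw [this]
    exact Subgroup.zpow_mem _ haxH k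
  have hSyl' : IsSylowIn q (cj a X) (X ⊔ N) :=
    isSylowIn_of_card hcjle (by rw [card_cj, hSyl.card_eq])
  obtain ⟨h, hh, hhe⟩ := hSyl.exists_conj_eq hSyl'
  have hs1 : h * (a * x * a⁻¹) * h⁻¹ ∈ X := by
    rw [← hhe]
    exact conj_mem_cj (conj_mem_cj hxX)
  obtain ⟨c, hc, n, hn, rfl⟩ := Subgroup.mem_sup_of_normal_right.mp hh
  obtain ⟨k, rfl⟩ := Subgroup.mem_zpowers_iff.mp hc
  have hs2 : (x ^ k * n) * (a * x * a⁻¹) * (x ^ k * n)⁻¹ * x ∈ N := by
    rw [← QuotientGroup.eq_one_iff] at hax hn ⊢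
    simp only [QuotientGroup.mk_mul, QuotientGroup.mk_inv, QuotientGroup.mk_zpow] at hax hn ⊢
    rw [hn, mul_one]
    have e1 : (a : G ⧸ N) * x * (a : G ⧸ N)⁻¹ = (x : G ⧸ N)⁻¹ := eq_inv_of_mul_eq_one_left hax
    rw [e1]
    have e2 : Commute ((x : G ⧸ N) ^ k) (x : G ⧸ N)⁻¹ :=
      ((Commute.refl (x : G ⧸ N)).zpow_left k).inv_right
    rw [e2.eq]
    group
  have hs3 : (x ^ k * n) * (a * x * a⁻¹) * (x ^ k * n)⁻¹ * x ∈ X ⊓ N :=
    ⟨X.mul_mem hs1 hxX, hs2⟩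
  rw [hXN, Subgroup.mem_bot] at hs3
  refine isConj_iff.mpr ⟨(x ^ k * n) * a, ?_⟩
  rw [← eq_inv_of_mul_eq_one_left hs3]
  group

theorem exists_real_of_inverted (N : Subgroup G) [hNn : N.Normal] (hN : IsPGroup 2 N) (a u : G)
    (hau : a * u * a⁻¹ * u ∈ N) (hu : ∀ k : ℕ, u ^ 2 ^ k ∉ N) :
    ∃ x : G, x ≠ 1 ∧ Odd (orderOf x) ∧ IsConj x x⁻¹ := by
  obtain ⟨k, m, hm, hkm⟩ := Nat.exists_eq_two_pow_mul_odd (orderOf_pos u).ne'
  have hm1 : m ≠ 1 := by
    rintro rfl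
    apply hu k
    rw [mul_one] at hkm
    rw [← hkm, pow_orderOf_eq_one]
    exact N.one_mem
  have hqp : (Nat.minFac m).Prime := Nat.minFac_prime hm1
  have : Fact (Nat.minFac m).Prime := ⟨hqp⟩
  have hqm : Nat.minFac m ∣ m := Nat.minFac_dvd m
  have hq2 : Nat.minFac m ≠ 2 := by
    intro h
    rw [h] at hqm
    exact hm.not_two_dvd_nat hqm
  have hqo : Nat.minFac m ∣ orderOf u := by rw [hkm]; exact hqm.mul_left _
  set e := orderOf u / Nat.minFac m with he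
  have hxo : orderOf (u ^ e) = Nat.minFac m := orderOf_pow_orderOf_div (orderOf_pos u).ne' hqo
  have hax : a * u ^ e * a⁻¹ * u ^ e ∈ N := by
    rw [← QuotientGroup.eq_one_iff] at hau ⊢
    simp only [QuotientGroup.mk_mul, QuotientGroup.mk_inv, QuotientGroup.mk_pow] at hau ⊢
    have e1 : (a : G ⧸ N) * u * (a : G ⧸ N)⁻¹ = (u : G ⧸ N)⁻¹ := eq_inv_of_mul_eq_one_left hau
    rw [← conj_pow, e1, inv_pow, inv_mul_cancel]
  refine ⟨u ^ e, ?_, ?_, lift_real N hN a (u ^ e) _ hq2 hxo hax⟩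
  · intro h
    rw [h, orderOf_one] at hxo
    exact hqp.one_lt.ne hxo
  · rw [hxo]
    exact hqp.odd_of_ne_two hq2

theorem isPGroup_closure_pair (N : Subgroup G) [hNn : N.Normal] (hN : IsPGroup 2 N) (a b : G)
    (ha : a * a ∈ N) (hb : b * b ∈ N) (k : ℕ) (hab : (a * b) ^ 2 ^ k ∈ N) :
    IsPGroup 2 (Subgroup.closure ({a, b} : Set G)) := by
  rw [← QuotientGroup.eq_one_iff] at ha hb hab
  simp only [QuotientGroup.mk_mul, QuotientGroup.mk_pow] at ha hb hab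
  rintro ⟨d, hd⟩
  have hd' : (d : G ⧸ N) ∈ Subgroup.closure ({(a : G ⧸ N), (b : G ⧸ N)} : Set (G ⧸ N)) := by
    have h1 : (QuotientGroup.mk' N) d ∈ (Subgroup.closure ({a, b} : Set G)).map (QuotientGroup.mk' N) :=
      ⟨d, hd, rfl⟩
    rw [MonoidHom.map_closure, Set.image_pair] at h1
    exact h1
  have hd2 : (d : G ⧸ N) ^ 2 ^ (k + 1) = 1 := by
    obtain ⟨i, hi | hi⟩ := Cfsg.Agent.Lib.Helper5Dihedral.mem_closure_pair ha hb hd'
    · have h3 : (((a : G ⧸ N) * b) ^ i) ^ 2 ^ k = 1 := by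
        rw [← zpow_natCast, ← zpow_mul, mul_comm, zpow_mul, zpow_natCast, hab, one_zpow]
      rw [hi, pow_succ, pow_mul, h3, one_pow]
    · have h2 : (d : G ⧸ N) ^ 2 = 1 := by
        rw [hi, pow_two, mul_assoc, ← mul_assoc (a : G ⧸ N),
          Cfsg.Agent.Lib.Helper5Dihedral.x_mul_zpow ha hb, mul_assoc, ha, mul_one, ← zpow_add]
        simp
      rw [pow_succ', pow_mul, h2, one_pow]
  have hd3 : d ^ 2 ^ (k + 1) ∈ N := by
    rw [← QuotientGroup.eq_one_iff, QuotientGroup.mk_pow]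
    exact hd2
  obtain ⟨j, hj⟩ := hN ⟨_, hd3⟩
  refine ⟨k + 1 + j, Subtype.ext ?_⟩
  have hj' : (d ^ 2 ^ (k + 1)) ^ 2 ^ j = 1 := by simpa using congrArg Subtype.val hj
  simpa [pow_add, pow_mul] using hj'

theorem forward (P : Sylow 2 G) (h : ∀ x : G, x ≠ 1 → Odd (orderOf x) → ¬ IsConj x x⁻¹) :
    (P : Subgroup G).Normal := by
  have : Fact (Nat.Prime 2) := ⟨Nat.prime_two⟩
  set N := (P : Subgroup G).normalCore with hNdef
  have hNP : N ≤ P := Subgroup.normalCore_le _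
  have hN : IsPGroup 2 N := P.2.to_le hNP
  by_cases hPN : (P : Subgroup G) ≤ N
  · have : (P : Subgroup G) = N := le_antisymm hPN hNP
    rw [this]
    infer_instance
  exfalso
  obtain ⟨y, hyP, hyN⟩ := SetLike.not_le_iff_exists.mp hPN
  -- an element `t ∉ N` with `t * t ∈ N`
  obtain ⟨t, htN, htt⟩ : ∃ t : G, t ∉ N ∧ t * t ∈ N := by
    classical
    have hex : ∃ k : ℕ, y ^ 2 ^ k ∈ N := by
      obtain ⟨k, hk⟩ := P.2 ⟨y, hyP⟩
      refine ⟨k, ?_⟩
      have : y ^ 2 ^ k = 1 := by simpa using congrArg Subtype.val hk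
      rw [this]; exact N.one_mem
    have hk0 : Nat.find hex ≠ 0 := by
      intro h0
      have := Nat.find_spec hex
      rw [h0] at this
      exact hyN (by simpa using this)
    obtain ⟨k, hk⟩ := Nat.exists_eq_succ_of_ne_zero hk0
    refine ⟨y ^ 2 ^ k, Nat.find_min hex (by omega), ?_⟩
    have := Nat.find_spec hex
    rw [hk, Nat.succ_eq_add_one, pow_succ, pow_mul, pow_two] at this
    exact this
  set K : Set G := {z | ∃ g : G, z = g * t * g⁻¹} with hK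
  have hKn : ∀ k ∈ K, ∀ g : G, g * k * g⁻¹ ∈ K := by
    rintro _ ⟨g', rfl⟩ g
    exact ⟨g * g', by group⟩
  have hKsq : ∀ k ∈ K, k * k ∈ N := by
    rintro _ ⟨g, rfl⟩
    have : g * t * g⁻¹ * (g * t * g⁻¹) = g * (t * t) * g⁻¹ := by group
    rw [this]
    exact (inferInstance : N.Normal).conj_mem _ htt g
  by_cases hpair : ∀ x ∈ K, ∀ y ∈ K, IsPGroup 2 (Subgroup.closure ({x, y} : Set G))
  · have h1 := Cfsg.Agent.Lib.Helper5BaerSuzuki.isPGroup_closure K hKn hpair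
    have h2 : (Subgroup.closure K).Normal := by
      constructor
      intro n hn g
      exact Cfsg.Agent.Lib.Helper5BaerSuzuki.conj_mem_closure (fun k hk => hKn k hk g) hn
    have h3 : Subgroup.closure K ≤ P := h1.le_sylow_of_normal P
    have h4 : Subgroup.closure K ≤ N := (Subgroup.normal_le_normalCore).mpr h3
    exact htN (h4 (Subgroup.subset_closure ⟨1, by simp⟩))
  · push Not at hpair
    obtain ⟨a, ha, b, hb, hab⟩ := hpair
    have hu : ∀ k : ℕ, (a * b) ^ 2 ^ k ∉ N := fun k hk =>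
      hab (isPGroup_closure_pair N hN a b (hKsq a ha) (hKsq b hb) k hk)
    have hau : a * (a * b) * a⁻¹ * (a * b) ∈ N := by
      have : a * (a * b) * a⁻¹ * (a * b) = (a * a) * (b * b) := by group
      rw [this]
      exact N.mul_mem (hKsq a ha) (hKsq b hb)
    obtain ⟨x, hx1, hx2, hx3⟩ := exists_real_of_inverted N hN a (a * b) hau hu
    exact h x hx1 hx2 hx3

theorem backward (P : Sylow 2 G) (hP : (P : Subgroup G).Normal) (x : G) (hx1 : x ≠ 1)
    (hx2 : Odd (orderOf x)) : ¬ IsConj x x⁻¹ := by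
  have : Fact (Nat.Prime 2) := ⟨Nat.prime_two⟩
  intro hx
  obtain ⟨t, ⟨j, hj⟩, ht⟩ := Cfsg.Agent.S3863.exists_two_elt x hx
  have htP : t ∈ (P : Subgroup G) := by
    have h1 : IsPGroup 2 (Subgroup.zpowers t) :=
      IsPGroup.of_card (n := j) (by rw [Nat.card_zpowers, hj])
    obtain ⟨Q, hQ⟩ := h1.exists_le_sylow
    obtain ⟨g, hg⟩ := MulAction.exists_smul_eq G P Q
    rw [Sylow.smul_eq_of_normal] at hg
    rw [hg]
    exact hQ (Subgroup.mem_zpowers t)
  have h1 : x⁻¹ * x⁻¹ ∈ (P : Subgroup G) := by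
    have : x⁻¹ * x⁻¹ = t * (x * t⁻¹ * x⁻¹) := by
      rw [← ht]; group
    rw [this]
    exact Subgroup.mul_mem _ htP (hP.conj_mem _ (Subgroup.inv_mem _ htP) x)
  obtain ⟨k, hk⟩ := P.2 ⟨_, h1⟩
  have hk' : (x⁻¹ * x⁻¹) ^ 2 ^ k = 1 := by simpa using congrArg Subtype.val hk
  have hk'' : x ^ 2 ^ (k + 1) = 1 := by
    have e : (x⁻¹ * x⁻¹) ^ 2 ^ k = (x ^ 2 ^ (k + 1))⁻¹ := by
      rw [← pow_two, ← pow_mul, inv_pow, pow_succ']
    rw [e, inv_eq_one] at hk'
    exact hk'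
  have h2 : orderOf x ∣ 2 ^ (k + 1) := orderOf_dvd_of_pow_eq_one hk''
  have h3 : Nat.Coprime (orderOf x) (2 ^ (k + 1)) :=
    Nat.Coprime.pow_right _ (Nat.coprime_two_right.mpr hx2)
  have h4 : orderOf x = 1 := Nat.Coprime.eq_one_of_dvd h3 h2
  exact hx1 (orderOf_eq_one_iff.mp h4)

/-- A finite group G has no non-identity element of odd order that is conjugate to its inverse if and only if the Sylow 2-subgroups of G are normal. -/
theorem result {G : Type*} [Group G] [Finite G] (P : Sylow 2 G) : (∀ x : G, x ≠ 1 → Odd (orderOf x) → ¬ IsConj x x⁻¹) ↔ (P : Subgroup G).Normal := by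
  exact ⟨forward P, fun hP x hx1 hx2 => backward P hP x hx1 hx2⟩

end Cfsg.Agent.S3861
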