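import Mathlib
import Cfsg.Statements.S3862
import Cfsg.Agent.Lib.Helper11Frobenius
import Cfsg.Agent.Lib.Helper30Coprime
import Cfsg.Agent.Lib.Helper40Sylow
import Cfsg.Agent.Lib.Helper5BaerSuzuki

set_option autoImplicit false
open Cfsg
open Cfsg.Agent.Lib.Helper11Frobenius
open scoped commutatorElement

namespace Cfsg.Agent.S3862

variable {G : Type*} [Group G] [Finite G]

theorem mem_normalizer_of_conj_mem (K : Subgroup G) (g : G)
    (h : ∀ x ∈ K, g * x * g⁻¹ ∈ K) : g ∈ Subgroup.normalizer (K : Set G) := by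
  rw [Cfsg.Agent.Lib.Helper40Sylow.mem_normalizer_iff_cj]
  apply Cfsg.Agent.Lib.Helper40Sylow.cj_eq_of_le
  rintro _ ⟨x, hx, rfl⟩
  exact h x hx

theorem core (hreal : ∀ x : G, (∃ j : ℕ, orderOf x = 2 ^ j) → IsConj x x⁻¹ → x ∈ Subgroup.center G)
    (g : G) (hg : Odd (orderOf g)) :
    ∀ (n : ℕ) (Q : Subgroup G), Nat.card Q = n → IsPGroup 2 Q →
      (∀ x ∈ Q, g * x * g⁻¹ ∈ Q) → ∀ x ∈ Q, g * x * g⁻¹ = x := by
  have : Fact (Nat.Prime 2) := ⟨Nat.prime_two⟩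
  intro n
  induction n using Nat.strong_induction_on with
  | _ n ih =>
  intro Q hQn hQ hgQ
  by_contra hcon
  push Not at hcon
  obtain ⟨x0, hx0Q, hx0⟩ := hcon
  have IH : ∀ R : Subgroup G, R ≤ Q → R ≠ Q → (∀ r ∈ R, g * r * g⁻¹ ∈ R) →
      ∀ r ∈ R, g * r * g⁻¹ = r := by
    intro R hRQ hne hgR
    exact ih (Nat.card R) (by rw [← hQn]; exact card_lt_of_lt (lt_of_le_of_ne hRQ hne)) R rfl
      (hQ.to_le hRQ) hgR
  have hgQ' : ∀ x ∈ Q, g⁻¹ * x * g ∈ Q := by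
    intro x hx
    have h1 := Subgroup.inv_mem _ (mem_normalizer_of_conj_mem Q g hgQ)
    have h2 := (Subgroup.mem_normalizer_iff.mp h1 x).mp hx
    simpa using h2
  have h2el : ∀ d ∈ Q, ∃ k : ℕ, d ^ 2 ^ k = 1 := by
    intro d hd
    obtain ⟨k, hk⟩ := hQ ⟨d, hd⟩
    exact ⟨k, by simpa using congrArg Subtype.val hk⟩
  -- coprime action lemma
  have CL : ∀ x ∈ Q, g * (x⁻¹ * (g * x * g⁻¹)) * g⁻¹ = x⁻¹ * (g * x * g⁻¹) → g * x * g⁻¹ = x := by
    intro x hx hd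
    set d := x⁻¹ * (g * x * g⁻¹) with hddef
    have hdQ : d ∈ Q := Q.mul_mem (Q.inv_mem hx) (hgQ x hx)
    obtain ⟨k, hk⟩ := h2el d hdQ
    have e : g * x * g⁻¹ = x * d := by rw [hddef]; group
    have hc : Commute g d := by
      show g * d = d * g
      calc g * d = (g * d * g⁻¹) * g := by group
        _ = d * g := by rw [hd]
    have hd1 : d = 1 := Cfsg.Agent.Lib.Helper30Coprime.eq_one_of_conj e hc (pow_orderOf_eq_one g) hk
      (Nat.Coprime.pow_right _ (Nat.coprime_two_right.mpr hg))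
    rw [e, hd1, mul_one]
  -- Step A
  set S : Set G := {d | ∃ x ∈ Q, d = x⁻¹ * (g * x * g⁻¹)} with hS
  have hSg : ∀ d ∈ S, g * d * g⁻¹ ∈ S := by
    rintro _ ⟨x, hx, rfl⟩
    exact ⟨g * x * g⁻¹, hgQ x hx, by group⟩
  have hDQ : Subgroup.closure S ≤ Q := by
    rw [Subgroup.closure_le]
    rintro _ ⟨x, hx, rfl⟩
    exact Q.mul_mem (Q.inv_mem hx) (hgQ x hx)
  have hD : Subgroup.closure S = Q := by
    by_contra hne
    have h1 := IH _ hDQ hne (fun r hr => Cfsg.Agent.Lib.Helper5BaerSuzuki.conj_mem_closure hSg hr)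
    exact hx0 (CL x0 hx0Q (h1 _ (Subgroup.subset_closure ⟨x0, hx0Q, rfl⟩)))
  -- Step B: the fixed points
  set C : Subgroup G := Q ⊓ Subgroup.centralizer {g} with hCdef
  have hC : ∀ c : G, c ∈ C ↔ c ∈ Q ∧ g * c * g⁻¹ = c := by
    intro c
    rw [hCdef, Subgroup.mem_inf, Subgroup.mem_centralizer_singleton_iff]
    constructor
    · rintro ⟨h1, h2⟩
      exact ⟨h1, by rw [← h2]; group⟩
    · rintro ⟨h1, h2⟩
      refine ⟨h1, ?_⟩
      calc c * g = (g * c * g⁻¹) * g := by rw [h2]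
        _ = g * c := by group
  have hCQ : C ≤ Q := inf_le_left
  have hx0C : x0 ∉ C := fun h => hx0 ((hC x0).mp h).2
  have hCltQ : C < Q := lt_of_le_of_ne hCQ (fun h => hx0C (h ▸ hx0Q))
  have IH' : ∀ R : Subgroup G, R ≤ Q → (∀ r ∈ R, g * r * g⁻¹ ∈ R) → ¬ R ≤ C → R = Q := by
    intro R hRQ hgR hRC
    by_contra hne
    exact hRC (fun r hr => (hC r).mpr ⟨hRQ hr, IH R hRQ hne hgR r hr⟩)
  have hgC : g ∈ Subgroup.normalizer (C : Set G) :=
    mem_normalizer_of_conj_mem C g (fun c hc => by rw [((hC c).mp hc).2]; exact hc)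
  have hCn : ∀ y ∈ Q, ∀ c ∈ C, y * c * y⁻¹ ∈ C := by
    have hlt := exists_mem_normalizer_not_mem Q C hQ hCltQ
    have hN : Q ⊓ Subgroup.normalizer (C : Set G) = Q := by
      apply IH' _ inf_le_left
      · intro r hr
        exact ⟨hgQ r hr.1, Subgroup.mul_mem _ (Subgroup.mul_mem _ hgC hr.2) (Subgroup.inv_mem _ hgC)⟩
      · exact not_le_of_gt hlt
    intro y hy c hc
    have hyN : y ∈ Subgroup.normalizer (C : Set G) := by
      have : y ∈ Q ⊓ Subgroup.normalizer (C : Set G) := by rw [hN]; exact hy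
      exact this.2
    exact (Subgroup.mem_normalizer_iff.mp hyN c).mp hc
  -- Step C: `C` is central in `Q`
  have hCcent : ∀ c ∈ C, ∀ y ∈ Q, y * c = c * y := by
    intro c hc
    have hle : Subgroup.closure S ≤ Subgroup.centralizer {c} := by
      rw [Subgroup.closure_le]
      rintro _ ⟨x, hx, rfl⟩
      rw [SetLike.mem_coe, Subgroup.mem_centralizer_singleton_iff]
      have h1 := ((hC _).mp (hCn x hx c hc)).2
      have h2 : g⁻¹ * c * g = c := by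
        have := ((hC c).mp hc).2
        calc g⁻¹ * c * g = g⁻¹ * (g * c * g⁻¹) * g := by rw [this]
          _ = c := by group
      have h3 : (g * x * g⁻¹) * c * (g * x * g⁻¹)⁻¹ = x * c * x⁻¹ := by
        calc (g * x * g⁻¹) * c * (g * x * g⁻¹)⁻¹ = g * (x * (g⁻¹ * c * g) * x⁻¹) * g⁻¹ := by group
          _ = x * c * x⁻¹ := by rw [h2, h1]
      calc x⁻¹ * (g * x * g⁻¹) * c
          = x⁻¹ * ((g * x * g⁻¹) * c * (g * x * g⁻¹)⁻¹) * (g * x * g⁻¹) := by group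
        _ = c * (x⁻¹ * (g * x * g⁻¹)) := by rw [h3]; group
    rw [hD] at hle
    intro y hy
    exact Subgroup.mem_centralizer_singleton_iff.mp (hle hy)
  -- Step D: commutators lie in `C`
  have hcommC : ∀ a ∈ Q, ∀ b ∈ Q, a * b * a⁻¹ * b⁻¹ ∈ C := by
    have hEQ : ⁅Q, Q⁆ ≤ Q := by
      rw [Subgroup.commutator_le]
      intro a ha b hb
      exact Q.mul_mem (Q.mul_mem (Q.mul_mem ha hb) (Q.inv_mem ha)) (Q.inv_mem hb)
    have hEne : ⁅Q, Q⁆ ≠ Q := by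
      intro h
      have hnt : Nontrivial Q := by
        refine ⟨⟨⟨x0, hx0Q⟩, 1, ?_⟩⟩
        intro h1
        have : x0 = 1 := congrArg Subtype.val h1
        apply hx0
        rw [this]; group
      have hnil : Group.IsNilpotent Q := hQ.isNilpotent
      have hlt := Group.IsSolvable.commutator_lt_top_of_nontrivial (G := Q)
      have h2 : (commutator Q).map Q.subtype = (⊤ : Subgroup Q).map Q.subtype := by
        rw [Subgroup.map_subtype_commutator, h, ← MonoidHom.range_eq_map, Subgroup.range_subtype]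
      exact hlt.ne (Subgroup.map_injective Q.subtype_injective h2)
    have hEg : ∀ r ∈ ⁅Q, Q⁆, g * r * g⁻¹ ∈ ⁅Q, Q⁆ := by
      intro r hr
      have h1 : (MulAut.conj g).toMonoidHom r ∈ (⁅Q, Q⁆).map (MulAut.conj g).toMonoidHom :=
        ⟨r, hr, rfl⟩
      rw [Subgroup.map_commutator] at h1
      have h2 : Q.map (MulAut.conj g).toMonoidHom ≤ Q := by
        rintro _ ⟨y, hy, rfl⟩
        exact hgQ y hy
      exact Subgroup.commutator_mono h2 h2 h1
    have h3 := IH _ hEQ hEne hEg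
    intro a ha b hb
    have hab : a * b * a⁻¹ * b⁻¹ ∈ ⁅Q, Q⁆ := Subgroup.commutator_mem_commutator ha hb
    exact (hC _).mpr ⟨hEQ hab, h3 _ hab⟩
  -- Step E: squares lie in `C`
  let W : Subgroup G :=
    { carrier := {w | w ∈ Q ∧ w * w ∈ C}
      one_mem' := ⟨Q.one_mem, by simpa using C.one_mem⟩
      mul_mem' := by
        rintro a b ⟨ha, ha2⟩ ⟨hb, hb2⟩
        refine ⟨Q.mul_mem ha hb, ?_⟩
        have e : a * b * (a * b) = (a * a) * (a⁻¹ * b * a⁻¹⁻¹ * b⁻¹) * (b * b) := by group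
        rw [e]
        exact C.mul_mem (C.mul_mem ha2 (hcommC _ (Q.inv_mem ha) _ hb)) hb2
      inv_mem' := by
        rintro a ⟨ha, ha2⟩
        exact ⟨Q.inv_mem ha, by have := C.inv_mem ha2; simpa [mul_inv_rev] using this⟩ }
  have hsq : ∀ w ∈ Q, w * w ∈ C := by
    have hWQ : W = Q := by
      apply IH' W (fun w hw => hw.1)
      · rintro w ⟨hw, hw2⟩
        refine ⟨hgQ w hw, ?_⟩
        have e : g * w * g⁻¹ * (g * w * g⁻¹) = g * (w * w) * g⁻¹ := by group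
        rw [e, ((hC _).mp hw2).2]
        exact hw2
      · intro hWC
        classical
        have hex : ∃ k : ℕ, x0 ^ 2 ^ k ∈ C := by
          obtain ⟨k, hk⟩ := h2el x0 hx0Q
          exact ⟨k, by rw [hk]; exact C.one_mem⟩
        have hk0 : Nat.find hex ≠ 0 := by
          intro h0
          have := Nat.find_spec hex
          rw [h0] at this
          exact hx0C (by simpa using this)
        obtain ⟨k, hk⟩ := Nat.exists_eq_succ_of_ne_zero hk0
        have h1 : x0 ^ 2 ^ k ∉ C := Nat.find_min hex (by omega)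
        have h2 := Nat.find_spec hex
        rw [hk, Nat.succ_eq_add_one, pow_succ, pow_mul, pow_two] at h2
        exact h1 (hWC ⟨Q.pow_mem hx0Q _, h2⟩)
    intro w hw
    have : w ∈ W := by rw [hWQ]; exact hw
    exact this.2
  -- Step F
  let B : Subgroup G :=
    { carrier := {b | ∃ y ∈ Q, b = x0 * y * x0⁻¹ * y⁻¹}
      one_mem' := ⟨1, Q.one_mem, by group⟩
      mul_mem' := by
        rintro _ _ ⟨y, hy, rfl⟩ ⟨z, hz, rfl⟩
        refine ⟨y * z, Q.mul_mem hy hz, ?_⟩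
        have hc := hCcent _ (hcommC x0 hx0Q z hz) y⁻¹ (Q.inv_mem hy)
        calc x0 * y * x0⁻¹ * y⁻¹ * (x0 * z * x0⁻¹ * z⁻¹)
            = x0 * y * x0⁻¹ * (y⁻¹ * (x0 * z * x0⁻¹ * z⁻¹)) := by group
          _ = x0 * y * x0⁻¹ * ((x0 * z * x0⁻¹ * z⁻¹) * y⁻¹) := by rw [hc]
          _ = x0 * (y * z) * x0⁻¹ * (y * z)⁻¹ := by group
      inv_mem' := by
        rintro _ ⟨y, hy, rfl⟩
        refine ⟨y⁻¹, Q.inv_mem hy, ?_⟩
        have hc := hCcent _ (hcommC y hy x0 hx0Q) y hy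
        calc (x0 * y * x0⁻¹ * y⁻¹)⁻¹ = y⁻¹ * (y * (y * x0 * y⁻¹ * x0⁻¹)) := by group
          _ = y⁻¹ * ((y * x0 * y⁻¹ * x0⁻¹) * y) := by rw [hc]
          _ = x0 * y⁻¹ * x0⁻¹ * y⁻¹⁻¹ := by group }
  have hBC : B ≤ C := by
    rintro _ ⟨y, hy, rfl⟩
    exact hcommC x0 hx0Q y hy
  let R : Subgroup G :=
    { carrier := {r | r ∈ Q ∧ ∀ y ∈ Q, r * y * r⁻¹ * y⁻¹ ∈ B}
      one_mem' := ⟨Q.one_mem, fun y _ => by
        have : (1 : G) * y * 1⁻¹ * y⁻¹ = 1 := by group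
        rw [this]; exact B.one_mem⟩
      mul_mem' := by
        rintro r s ⟨hr, hr2⟩ ⟨hs, hs2⟩
        refine ⟨Q.mul_mem hr hs, fun y hy => ?_⟩
        have hc := hCcent _ (hcommC s hs y hy) r hr
        have e : r * s * y * (r * s)⁻¹ * y⁻¹ = (s * y * s⁻¹ * y⁻¹) * (r * y * r⁻¹ * y⁻¹) := by
          calc r * s * y * (r * s)⁻¹ * y⁻¹ = (r * (s * y * s⁻¹ * y⁻¹)) * y * r⁻¹ * y⁻¹ := by group
            _ = ((s * y * s⁻¹ * y⁻¹) * r) * y * r⁻¹ * y⁻¹ := by rw [hc]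
            _ = _ := by group
        rw [e]; exact B.mul_mem (hs2 y hy) (hr2 y hy)
      inv_mem' := by
        rintro r ⟨hr, hr2⟩
        refine ⟨Q.inv_mem hr, fun y hy => ?_⟩
        have hc := hCcent _ (hcommC r hr y hy) r hr
        have e : r⁻¹ * y * r⁻¹⁻¹ * y⁻¹ = (r * y * r⁻¹ * y⁻¹)⁻¹ := by
          calc r⁻¹ * y * r⁻¹⁻¹ * y⁻¹ = ((r * y * r⁻¹ * y⁻¹) * r)⁻¹ * r := by group
            _ = (r * (r * y * r⁻¹ * y⁻¹))⁻¹ * r := by rw [hc]
            _ = _ := by group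
        rw [e]; exact B.inv_mem (hr2 y hy) }
  have hcommB : ∀ a ∈ Q, ∀ b ∈ Q, a * b * a⁻¹ * b⁻¹ ∈ B := by
    have hRQ : R = Q := by
      apply IH' R (fun r hr => hr.1)
      · rintro r ⟨hr, hr2⟩
        refine ⟨hgQ r hr, fun y hy => ?_⟩
        have hb := hr2 _ (hgQ' y hy)
        have e : g * r * g⁻¹ * y * (g * r * g⁻¹)⁻¹ * y⁻¹ =
            g * (r * (g⁻¹ * y * g) * r⁻¹ * (g⁻¹ * y * g)⁻¹) * g⁻¹ := by group
        rw [e, ((hC _).mp (hBC hb)).2]
        exact hb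
      · intro hRC
        exact hx0C (hRC ⟨hx0Q, fun y hy => ⟨y, hy, rfl⟩⟩)
    intro a ha b hb
    have : a ∈ R := by rw [hRQ]; exact ha
    exact this.2 b hb
  -- Step G
  let W' : Subgroup G :=
    { carrier := {w | w ∈ Q ∧ w * w ∈ B}
      one_mem' := ⟨Q.one_mem, by simpa using B.one_mem⟩
      mul_mem' := by
        rintro a b ⟨ha, ha2⟩ ⟨hb, hb2⟩
        refine ⟨Q.mul_mem ha hb, ?_⟩
        have e : a * b * (a * b) = (a * a) * (a⁻¹ * b * a⁻¹⁻¹ * b⁻¹) * (b * b) := by group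
        rw [e]
        exact B.mul_mem (B.mul_mem ha2 (hcommB _ (Q.inv_mem ha) _ hb)) hb2
      inv_mem' := by
        rintro a ⟨ha, ha2⟩
        exact ⟨Q.inv_mem ha, by have := B.inv_mem ha2; simpa [mul_inv_rev] using this⟩ }
  have hSW : Subgroup.closure S ≤ W' := by
    rw [Subgroup.closure_le]
    rintro _ ⟨w, hw, rfl⟩
    refine ⟨Q.mul_mem (Q.inv_mem hw) (hgQ w hw), ?_⟩
    have hb := hcommB _ (hgQ w hw) w⁻¹ (Q.inv_mem hw)
    have hcen := hCcent _ (hBC hb) w⁻¹ (Q.inv_mem hw)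
    have hw2 : g * w * g⁻¹ * (g * w * g⁻¹) = w * w := by
      calc g * w * g⁻¹ * (g * w * g⁻¹) = g * (w * w) * g⁻¹ := by group
        _ = w * w := ((hC _).mp (hsq w hw)).2
    have e : w⁻¹ * (g * w * g⁻¹) * (w⁻¹ * (g * w * g⁻¹)) =
        g * w * g⁻¹ * w⁻¹ * (g * w * g⁻¹)⁻¹ * w⁻¹⁻¹ := by
      calc w⁻¹ * (g * w * g⁻¹) * (w⁻¹ * (g * w * g⁻¹))
          = (w⁻¹ * (g * w * g⁻¹ * w⁻¹ * (g * w * g⁻¹)⁻¹ * w⁻¹⁻¹)) * w⁻¹ *
              (g * w * g⁻¹ * (g * w * g⁻¹)) := by group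
        _ = ((g * w * g⁻¹ * w⁻¹ * (g * w * g⁻¹)⁻¹ * w⁻¹⁻¹) * w⁻¹) * w⁻¹ * (w * w) := by
            rw [hcen, hw2]
        _ = _ := by group
    rw [e]
    exact hb
  rw [hD] at hSW
  obtain ⟨y, hy, hxy⟩ := (hSW hx0Q).2
  have hconj : IsConj x0 x0⁻¹ := by
    refine isConj_iff.mpr ⟨y, ?_⟩
    have h1 : x0 = y * x0⁻¹ * y⁻¹ := by
      calc x0 = x0⁻¹ * (x0 * x0) := by group
        _ = x0⁻¹ * (x0 * y * x0⁻¹ * y⁻¹) := by rw [hxy]
        _ = y * x0⁻¹ * y⁻¹ := by group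
    calc y * x0 * y⁻¹ = (y * x0⁻¹ * y⁻¹)⁻¹ := by group
      _ = x0⁻¹ := by rw [← h1]
  have h2 : ∃ j : ℕ, orderOf x0 = 2 ^ j := by
    obtain ⟨j, hj⟩ := (IsPGroup.iff_orderOf.mp hQ) ⟨x0, hx0Q⟩
    exact ⟨j, by rwa [Subgroup.orderOf_mk] at hj⟩
  have hcen := hreal x0 h2 hconj
  apply hx0
  rw [Subgroup.mem_center_iff] at hcen
  rw [hcen g]; group

/-- If every 2-element of the finite group G that is conjugate to its inverse lies in the centre of G, then G has a normal 2-complement. -/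
theorem result {G : Type*} [Group G] [Finite G] (h : ∀ x : G, (∃ j : ℕ, orderOf x = 2 ^ j) → IsConj x x⁻¹ → x ∈ Subgroup.center G) : Cfsg.HasNormalPComplement 2 G := by
  have : Fact (Nat.Prime 2) := ⟨Nat.prime_two⟩
  apply hasNPC_iff.mp
  apply Cfsg.Agent.Lib.Helper11Frobenius.frobenius
  intro Q hQ g hg hgp
  have hodd : Odd (orderOf g) := Nat.coprime_two_right.mp hgp
  have h1 := core h g hodd _ Q rfl hQ (fun x hx => (Subgroup.mem_normalizer_iff.mp hg x).mp hx)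
  rw [Subgroup.mem_centralizer_iff]
  intro x hx
  calc x * g = (g * x * g⁻¹) * g := by rw [h1 x hx]
    _ = g * x := by group

end Cfsg.Agent.S3862
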