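import Mathlib
import Cfsg.Statements.S3864
import Cfsg.Agent.S0111
import Cfsg.Agent.S1254

set_option autoImplicit false
open Cfsg

namespace Cfsg.Agent.S3864

open DihedralGroup Subgroup

theorem two_torsion (j : ℕ) (i : ZMod (2 ^ (j + 2))) (h2 : i * 2 = 0) (h0 : i ≠ 0) :
    i = ((2 ^ (j + 1) : ℕ) : ZMod (2 ^ (j + 2))) := by
  haveI : NeZero (2 ^ (j + 2)) := ⟨by positivity⟩
  have h1 : ((i.val * 2 : ℕ) : ZMod (2 ^ (j + 2))) = 0 := by
    rw [Nat.cast_mul, ZMod.natCast_zmod_val]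
    exact_mod_cast h2
  rw [ZMod.natCast_eq_zero_iff] at h1
  have h1' : 2 ^ (j + 1) * 2 ∣ i.val * 2 := by rw [← pow_succ]; exact h1
  have h3 : 2 ^ (j + 1) ∣ i.val := Nat.dvd_of_mul_dvd_mul_right (by norm_num) h1'
  obtain ⟨c, hc⟩ := h3
  have hlt : i.val < 2 ^ (j + 2) := ZMod.val_lt i
  have hc2 : c < 2 := by
    have hlt' : 2 ^ (j + 1) * c < 2 ^ (j + 1) * 2 := by rw [← hc, ← pow_succ]; exact hlt
    exact Nat.lt_of_mul_lt_mul_left hlt'
  have hi : i = ((i.val : ℕ) : ZMod (2 ^ (j + 2))) := (ZMod.natCast_zmod_val i).symm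
  interval_cases c
  · exfalso
    apply h0
    rw [hi, hc]; simp
  · rw [hi, hc, mul_one]

/-- the central involution of the dihedral group -/
def z₀ (j : ℕ) : DihedralGroup (2 ^ (j + 2)) := r ((2 ^ (j + 1) : ℕ) : ZMod (2 ^ (j + 2)))

theorem half_add_half (j : ℕ) :
    ((2 ^ (j + 1) : ℕ) : ZMod (2 ^ (j + 2))) + ((2 ^ (j + 1) : ℕ) : ZMod (2 ^ (j + 2))) = 0 := by
  rw [← Nat.cast_add, ZMod.natCast_eq_zero_iff]
  exact ⟨1, by ring⟩

theorem half_ne_zero (j : ℕ) : ((2 ^ (j + 1) : ℕ) : ZMod (2 ^ (j + 2))) ≠ 0 := by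
  rw [Ne, ZMod.natCast_eq_zero_iff]
  intro h
  have := Nat.le_of_dvd (by positivity) h
  have h2 : 2 ^ (j + 1) < 2 ^ (j + 2) := Nat.pow_lt_pow_right (by norm_num) (by omega)
  omega

theorem orderOf_z₀ (j : ℕ) : orderOf (z₀ j) = 2 := by
  apply orderOf_eq_prime
  · rw [z₀, pow_two, r_mul_r, half_add_half, r_zero]
  · rw [z₀, one_def]
    intro h
    injection h with h
    exact half_ne_zero j h

theorem inv_cases (j : ℕ) (d : DihedralGroup (2 ^ (j + 2))) (hd : orderOf d = 2) :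
    d = z₀ j ∨ ∃ i, d = sr i := by
  rcases d with i | i
  · left
    have h1 : (r i : DihedralGroup (2 ^ (j + 2))) ^ 2 = 1 := by
      have := pow_orderOf_eq_one (r i : DihedralGroup (2 ^ (j + 2)))
      rwa [hd] at this
    rw [r_pow, one_def] at h1
    have h2 : i * ((2 : ℕ) : ZMod (2 ^ (j + 2))) = 0 := by injection h1
    have h3 : i ≠ 0 := by
      rintro rfl
      rw [r_zero, orderOf_one] at hd
      omega
    rw [z₀, two_torsion j i (by exact_mod_cast h2) h3]
  · exact Or.inr ⟨i, rfl⟩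

theorem sr_conj (j : ℕ) (i : ZMod (2 ^ (j + 2))) :
    (∃ c : DihedralGroup (2 ^ (j + 2)), c * sr i * c⁻¹ = sr 0) ∨
      (∃ c : DihedralGroup (2 ^ (j + 2)), c * sr i * c⁻¹ = sr 1) := by
  haveI : NeZero (2 ^ (j + 2)) := ⟨by positivity⟩
  have hi : i = ((i.val : ℕ) : ZMod (2 ^ (j + 2))) := (ZMod.natCast_zmod_val i).symm
  rcases Nat.even_or_odd' i.val with ⟨c, hc | hc⟩
  · left
    refine ⟨r (c : ZMod (2 ^ (j + 2))), ?_⟩
    rw [r_mul_sr, inv_r, sr_mul_r, hi, hc]
    congr 1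
    push_cast
    ring
  · right
    refine ⟨r (c : ZMod (2 ^ (j + 2))), ?_⟩
    rw [r_mul_sr, inv_r, sr_mul_r, hi, hc]
    congr 1
    push_cast
    ring

section
variable {G : Type*} [Group G] [Finite G] {P : Sylow 2 G} {j : ℕ}

/-- the embedding of the dihedral group -/
def io (e : ↥(P : Subgroup G) ≃* DihedralGroup (2 ^ (j + 2))) : DihedralGroup (2 ^ (j + 2)) →* G :=
  (P : Subgroup G).subtype.comp e.symm.toMonoidHom

variable (e : ↥(P : Subgroup G) ≃* DihedralGroup (2 ^ (j + 2)))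

theorem io_injective : Function.Injective (io e) :=
  (P : Subgroup G).subtype_injective.comp e.symm.injective

theorem io_mem (d : DihedralGroup (2 ^ (j + 2))) : io e d ∈ (P : Subgroup G) := (e.symm d).2

theorem exists_io {x : G} (hx : x ∈ (P : Subgroup G)) : ∃ d, io e d = x :=
  ⟨e ⟨x, hx⟩, by simp [io]⟩

theorem orderOf_io (d : DihedralGroup (2 ^ (j + 2))) : orderOf (io e d) = orderOf d :=
  orderOf_injective (io e) (io_injective e) d

theorem orderOf_conj (g u : G) : orderOf (g * u * g⁻¹) = orderOf u := by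
  have : g * u * g⁻¹ = MulAut.conj g u := by simp
  rw [this, MulEquiv.orderOf_eq]

/-- every involution is conjugate to one of three -/
theorem inv_conj (u : G) (hu : orderOf u = 2) :
    ∃ g : G, g * u * g⁻¹ = io e (z₀ j) ∨ g * u * g⁻¹ = io e (sr 0) ∨ g * u * g⁻¹ = io e (sr 1) := by
  have hpg : IsPGroup 2 (zpowers u) := by
    apply IsPGroup.of_card (n := 1)
    rw [Nat.card_zpowers, hu, pow_one]
  obtain ⟨T', hT'⟩ := hpg.exists_le_sylow
  obtain ⟨h, hh⟩ := MulAction.exists_smul_eq G T' P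
  have h1 : h * u * h⁻¹ ∈ (P : Subgroup G) := by
    rw [← hh, Sylow.coe_subgroup_smul]
    exact ⟨u, hT' (mem_zpowers u), rfl⟩
  obtain ⟨d, hd⟩ := exists_io e h1
  have hd2 : orderOf d = 2 := by rw [← orderOf_io e, hd, orderOf_conj, hu]
  rcases inv_cases j d hd2 with rfl | ⟨i, rfl⟩
  · exact ⟨h, Or.inl hd.symm⟩
  · rcases sr_conj j i with ⟨c, hc⟩ | ⟨c, hc⟩
    · refine ⟨io e c * h, Or.inr (Or.inl ?_)⟩
      rw [← hc, map_mul, map_mul, map_inv, hd]; group
    · refine ⟨io e c * h, Or.inr (Or.inr ?_)⟩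
      rw [← hc, map_mul, map_mul, map_inv, hd]; group


theorem orderOf_z : orderOf (io e (z₀ j)) = 2 := by rw [orderOf_io, orderOf_z₀]

theorem orderOf_s (i : ZMod (2 ^ (j + 2))) : orderOf (io e (sr i)) = 2 := by
  rw [orderOf_io, orderOf_sr]

/-- if all involutions are conjugate there is no normal subgroup of index two -/
theorem no_index_two (hall : ∀ u : G, orderOf u = 2 → ∃ g : G, g * io e (z₀ j) * g⁻¹ = u)
    (M : Subgroup G) (hM : M.Normal) (hi : M.index = 2) : False := by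
  have hz : io e (z₀ j) ∈ M := by
    have h1 : z₀ j = (r ((2 ^ j : ℕ) : ZMod (2 ^ (j + 2)))) ^ 2 := by
      rw [z₀, pow_two, r_mul_r, ← Nat.cast_add]
      congr 2
      ring
    rw [h1, map_pow]
    exact sq_mem_of_index_two hi _
  have hinv : ∀ u : G, orderOf u = 2 → u ∈ M := by
    intro u hu
    obtain ⟨g, rfl⟩ := hall u hu
    exact hM.conj_mem _ hz g
  have hPM : (P : Subgroup G) ≤ M := by
    intro x hx
    obtain ⟨d, rfl⟩ := exists_io e hx
    rcases d with i | i
    · have : (r i : DihedralGroup (2 ^ (j + 2))) = sr 0 * sr i := by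
        rw [sr_mul_sr, sub_zero]
      rw [this, map_mul]
      exact mul_mem (hinv _ (orderOf_s e 0)) (hinv _ (orderOf_s e i))
    · exact hinv _ (orderOf_s e i)
  have := index_dvd_of_le hPM
  rw [hi] at this
  exact P.not_dvd_index this

/-- Thompson transfer: without a normal subgroup of index two all involutions are conjugate -/
theorem all_conj (h : ∀ N : Subgroup G, N.Normal → N.index ≠ 2) (u : G) (hu : orderOf u = 2) :
    ∃ g : G, g * u * g⁻¹ = io e (z₀ j) := by
  haveI : NeZero (2 ^ (j + 2)) := ⟨by positivity⟩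
  set R₀ : Subgroup (DihedralGroup (2 ^ (j + 2))) := zpowers (r 1) with hR₀
  have hR₀i : R₀.index = 2 := by
    have h1 := R₀.card_mul_index
    rw [hR₀, Nat.card_zpowers, orderOf_r_one, nat_card, mul_comm] at h1
    exact Nat.eq_of_mul_eq_mul_right (by positivity) h1
  set Q' : Subgroup ↥(P : Subgroup G) := R₀.comap e.toMonoidHom with hQ'
  set Q : Subgroup G := Q'.map (P : Subgroup G).subtype with hQ
  have hQT : Q ≤ (P : Subgroup G) := map_subtype_le _
  have hQi : Q.relIndex (P : Subgroup G) = 2 := by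
    have h1 : Q.subgroupOf (P : Subgroup G) = Q' := by
      rw [← comap_subtype]
      exact comap_map_eq_self_of_injective (P : Subgroup G).subtype_injective Q'
    rw [relIndex, h1, hQ', index_comap_of_surjective _ e.surjective, hR₀i]
  have hA : ∀ v ∈ Q, orderOf v = 2 → v = io e (z₀ j) := by
    rintro _ ⟨v, hv, rfl⟩ hv2
    have hv' : e v ∈ R₀ := hv
    obtain ⟨i, hi⟩ := mem_zpowers_iff.mp hv'
    rw [r_one_zpow] at hi
    have ho : orderOf (e v) = 2 := by
      rw [MulEquiv.orderOf_eq]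
      exact (Subgroup.orderOf_coe v).symm.trans hv2
    rcases inv_cases j _ ho with h1 | ⟨i', h1⟩
    · have h6 : v = e.symm (z₀ j) := by rw [← h1, MulEquiv.symm_apply_apply]
      rw [h6]; rfl
    · rw [← hi] at h1
      exact absurd h1 (by simp)
  have hB : ∀ i, ∃ g : G, g * io e (sr i) * g⁻¹ = io e (z₀ j) := by
    intro i
    have hnQ : io e (sr i) ∉ Q := by
      rintro ⟨v, hv, hvi⟩
      have hv' : e v ∈ R₀ := hv
      have h1 : v = e.symm (sr i) := Subtype.ext hvi
      rw [h1, MulEquiv.apply_symm_apply] at hv'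
      obtain ⟨i', hi'⟩ := mem_zpowers_iff.mp hv'
      rw [r_one_zpow] at hi'
      exact absurd hi' (by simp)
    rcases Cfsg.Agent.S0111.result P Q hQT hQi _ (orderOf_s e i) (io_mem e _) hnQ with
      ⟨M, hMn, hMi, -⟩ | ⟨g, hg⟩
    · exact absurd hMi (h M hMn)
    · exact ⟨g, hA _ hg (by rw [orderOf_conj, orderOf_s])⟩
  obtain ⟨g, hg | hg | hg⟩ := inv_conj e u hu
  · exact ⟨g, hg⟩
  · obtain ⟨g', hg'⟩ := hB 0
    exact ⟨g' * g, by rw [← hg', ← hg]; group⟩
  · obtain ⟨g', hg'⟩ := hB 1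
    exact ⟨g' * g, by rw [← hg', ← hg]; group⟩


/-- a normal subgroup of index four separates the three classes -/
theorem not_conj_of_index_four (M : Subgroup G) (hM : M.Normal) (hi : M.index = 4) :
    (∀ g : G, g * io e (z₀ j) * g⁻¹ ≠ io e (sr 0)) ∧ (∀ g : G, g * io e (z₀ j) * g⁻¹ ≠ io e (sr 1)) ∧
      (∀ g : G, g * io e (sr 0) * g⁻¹ ≠ io e (sr 1)) := by
  haveI := hM
  haveI : NeZero (2 ^ (j + 2)) := ⟨by positivity⟩
  have hcard : Nat.card (G ⧸ M) = 4 := hi
  have hcomm : ∀ a b : G ⧸ M, a * b = b * a :=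
    IsPGroup.commutative_of_card_eq_prime_sq (p := 2) (by rw [hcard]; norm_num)
  set φ := QuotientGroup.mk' M with hφ
  set ψ : DihedralGroup (2 ^ (j + 2)) →* G ⧸ M := φ.comp (io e) with hψ
  set ρ := ψ (r 1) with hρ
  set σ := ψ (sr 0) with hσ
  have hσ2 : σ * σ = 1 := by rw [hσ, ← map_mul, sr_mul_self, map_one]
  have hρ2 : ρ * ρ = 1 := by
    have h1 : σ * ρ * σ = ρ⁻¹ := by
      rw [hσ, hρ, ← map_mul, ← map_mul, ← map_inv, sr_mul_r, sr_mul_sr, inv_r]
      congr 2
      ring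
    rw [hcomm σ ρ, mul_assoc, hσ2, mul_one] at h1
    rw [eq_inv_iff_mul_eq_one] at h1
    exact h1
  have hr : ∀ i, ψ (r i) = 1 ∨ ψ (r i) = ρ := by
    intro i
    have hi' : (r i : DihedralGroup (2 ^ (j + 2))) = (r 1) ^ i.val := by
      rw [r_one_pow, ZMod.natCast_zmod_val]
    rw [hi', map_pow, ← hρ]
    rcases Nat.even_or_odd' i.val with ⟨c, hc | hc⟩
    · left; rw [hc, pow_mul, pow_two, hρ2, one_pow]
    · right; rw [hc, pow_succ, pow_mul, pow_two, hρ2, one_pow, one_mul]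
  have hs : ∀ i, ψ (sr i) = σ ∨ ψ (sr i) = σ * ρ := by
    intro i
    have hi' : (sr i : DihedralGroup (2 ^ (j + 2))) = sr 0 * r i := by rw [sr_mul_r, zero_add]
    rw [hi', map_mul, ← hσ]
    rcases hr i with h | h
    · left; rw [h, mul_one]
    · right; rw [h]
  have hsurj : Function.Surjective ψ := by
    have hT : ((P : Subgroup G).map φ).index = 1 := by
      have h1 : ((P : Subgroup G).map φ).index ∣ (P : Subgroup G).index := by
        rw [index_map, MonoidHom.range_eq_top.mpr (QuotientGroup.mk'_surjective M), index_top, mul_one]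
        exact index_dvd_of_le le_sup_left
      have h2 : ((P : Subgroup G).map φ).index ∣ 2 ^ 2 := by
        have := ((P : Subgroup G).map φ).index_dvd_card
        rwa [hcard] at this
      obtain ⟨i, -, hi'⟩ := (Nat.dvd_prime_pow Nat.prime_two).mp h2
      rcases Nat.eq_zero_or_pos i with rfl | hpos
      · simpa using hi'
      · exfalso
        apply P.not_dvd_index
        refine dvd_trans ?_ h1
        rw [hi']; exact dvd_pow_self 2 hpos.ne'
    rw [index_eq_one] at hT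
    intro q
    have : q ∈ (P : Subgroup G).map φ := hT ▸ mem_top q
    obtain ⟨x, hx, rfl⟩ := this
    obtain ⟨d, rfl⟩ := exists_io e hx
    exact ⟨d, rfl⟩
  let h4 : Fin 4 → G ⧸ M := ![1, ρ, σ, σ * ρ]
  have h4s : Function.Surjective h4 := by
    intro q
    obtain ⟨d, rfl⟩ := hsurj q
    rcases d with i | i
    · rcases hr i with h | h
      · exact ⟨0, h.symm⟩
      · exact ⟨1, h.symm⟩
    · rcases hs i with h | h
      · exact ⟨2, h.symm⟩
      · exact ⟨3, h.symm⟩
  have h4i : Function.Injective h4 :=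
    (h4s.bijective_of_nat_card_le (by rw [hcard]; simp)).1
  have n02 : (1 : G ⧸ M) ≠ σ := fun h => absurd (h4i (show h4 0 = h4 2 from h)) (by decide)
  have n03 : (1 : G ⧸ M) ≠ σ * ρ := fun h => absurd (h4i (show h4 0 = h4 3 from h)) (by decide)
  have n23 : σ ≠ σ * ρ := fun h => absurd (h4i (show h4 2 = h4 3 from h)) (by decide)
  have hz : φ (io e (z₀ j)) = 1 := by
    have h1 : z₀ j = (r ((2 ^ j : ℕ) : ZMod (2 ^ (j + 2)))) * (r ((2 ^ j : ℕ) : ZMod (2 ^ (j + 2)))) := by
      rw [z₀, r_mul_r, ← Nat.cast_add]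
      congr 2
      ring
    show ψ (z₀ j) = 1
    rw [h1, map_mul]
    rcases hr ((2 ^ j : ℕ) : ZMod (2 ^ (j + 2))) with h | h
    · rw [h, mul_one]
    · rw [h, hρ2]
  have ha : φ (io e (sr 0)) = σ := rfl
  have hb : φ (io e (sr 1)) = σ * ρ := by
    show ψ (sr 1) = _
    rw [hσ, hρ, ← map_mul, sr_mul_r, zero_add]
  have hconj : ∀ g u : G, φ (g * u * g⁻¹) = φ u := by
    intro g u
    rw [map_mul, map_mul, map_inv, hcomm (φ g) (φ u), mul_inv_cancel_right]
  refine ⟨fun g h => n02 ?_, fun g h => n03 ?_, fun g h => n23 ?_⟩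
  · rw [← ha, ← h, hconj, hz]
  · rw [← hb, ← h, hconj, hz]
  · rw [← hb, ← h, hconj, ha]


theorem exists_two_ne (U : Type*) [Group U] [IsKleinFour U] :
    ∃ u₁ u₂ : U, u₁ ≠ 1 ∧ u₂ ≠ 1 ∧ u₁ ≠ u₂ := by
  obtain ⟨φ⟩ := IsKleinFour.nonempty_mulEquiv (G₁ := Multiplicative (ZMod 2 × ZMod 2)) (G₂ := U)
  refine ⟨φ (Multiplicative.ofAdd (1, 0)), φ (Multiplicative.ofAdd (0, 1)), ?_, ?_, ?_⟩
  · rw [Ne, MulEquiv.map_eq_one_iff]; decide
  · rw [Ne, MulEquiv.map_eq_one_iff]; decide
  · intro h; exact absurd (φ.injective h) (by decide)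

/-- the shape of a four-subgroup of `P` -/
theorem four_shape (U : Subgroup G) (hU : U ≤ (P : Subgroup G)) (hK : IsKleinFour U) :
    ∃ i, io e (z₀ j) ∈ U ∧ io e (sr i) ∈ U ∧ ∀ u ∈ U, u = io e (sr i) * io e (z₀ j) ∨
      u = io e (sr i) ∨ u = io e (z₀ j) ∨ u = 1 := by
  classical
  have hord : ∀ u ∈ U, u ≠ 1 → orderOf u = 2 := by
    intro u hu hu1
    apply orderOf_eq_prime
    · have := IsKleinFour.mul_self (⟨u, hu⟩ : U)
      rw [pow_two]
      exact congrArg Subtype.val this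
    · exact hu1
  have htype : ∀ u ∈ U, u ≠ 1 → u = io e (z₀ j) ∨ ∃ i, u = io e (sr i) := by
    intro u hu hu1
    obtain ⟨d, rfl⟩ := exists_io e (hU hu)
    have := hord _ hu hu1
    rw [orderOf_io] at this
    rcases inv_cases j d this with rfl | ⟨i, rfl⟩
    · exact Or.inl rfl
    · exact Or.inr ⟨i, rfl⟩
  obtain ⟨⟨u₁, h₁⟩, ⟨u₂, h₂⟩, n₁, n₂, n₁₂⟩ := exists_two_ne U
  have n₁' : u₁ ≠ 1 := fun h => n₁ (Subtype.ext h)
  have n₂' : u₂ ≠ 1 := fun h => n₂ (Subtype.ext h)
  have n₁₂' : u₁ ≠ u₂ := fun h => n₁₂ (Subtype.ext h)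
  have hex : ∃ i, io e (z₀ j) ∈ U ∧ io e (sr i) ∈ U := by
    rcases htype u₁ h₁ n₁' with rfl | ⟨i, rfl⟩
    · rcases htype u₂ h₂ n₂' with rfl | ⟨i, rfl⟩
      · exact absurd rfl n₁₂'
      · exact ⟨i, h₁, h₂⟩
    · rcases htype u₂ h₂ n₂' with rfl | ⟨i', rfl⟩
      · exact ⟨i, h₂, h₁⟩
      · refine ⟨i, ?_, h₁⟩
        have h3 : io e (sr i) * io e (sr i') ∈ U := mul_mem h₁ h₂
        have h4 : io e (sr i) * io e (sr i') ≠ 1 := by
          rw [← map_mul, sr_mul_sr]
          intro h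
          have h5 := io_injective e (h.trans (map_one _).symm)
          rw [one_def] at h5
          injection h5 with h5
          apply n₁₂'
          rw [sub_eq_zero.mp h5]
        rcases htype _ h3 h4 with h | ⟨i'', h⟩
        · rwa [h] at h3
        · rw [← map_mul, sr_mul_sr] at h
          exact absurd (io_injective e h) (by simp)
  obtain ⟨i, hz, hx⟩ := hex
  refine ⟨i, hz, hx, ?_⟩
  intro u hu
  letI := Fintype.ofFinite U
  have hX : (⟨_, hx⟩ : U) ≠ 1 := by
    intro h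
    have h1 := congrArg Subtype.val h
    have h2 := orderOf_s e i
    simp only [OneMemClass.coe_one] at h1
    rw [h1, orderOf_one] at h2
    omega
  have hZ : (⟨_, hz⟩ : U) ≠ 1 := by
    intro h
    have h1 := congrArg Subtype.val h
    have h2 := orderOf_z e
    simp only [OneMemClass.coe_one] at h1
    rw [h1, orderOf_one] at h2
    omega
  have hXZ : (⟨_, hx⟩ : U) ≠ ⟨_, hz⟩ := by
    intro h
    have h1 := congrArg Subtype.val h
    exact absurd (io_injective e h1) (by simp [z₀])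
  have h5 := IsKleinFour.eq_finset_univ hX hZ hXZ
  have h6 : (⟨u, hu⟩ : U) ∈ ({(⟨_, hx⟩ : U) * ⟨_, hz⟩, ⟨_, hx⟩, ⟨_, hz⟩, 1} : Finset U) := by
    rw [h5]; exact Finset.mem_univ _
  simp only [Finset.mem_insert, Finset.mem_singleton] at h6
  rcases h6 with h | h | h | h
  · exact Or.inl (congrArg Subtype.val h)
  · exact Or.inr (Or.inl (congrArg Subtype.val h))
  · exact Or.inr (Or.inr (Or.inl (congrArg Subtype.val h)))
  · exact Or.inr (Or.inr (Or.inr (congrArg Subtype.val h)))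


theorem quarter_add (j : ℕ) :
    ((2 ^ j : ℕ) : ZMod (2 ^ (j + 2))) + ((2 ^ j : ℕ) : ZMod (2 ^ (j + 2))) =
      ((2 ^ (j + 1) : ℕ) : ZMod (2 ^ (j + 2))) := by
  rw [← Nat.cast_add]
  congr 1
  ring

/-- if the central involution is isolated there is a normal `2`-complement -/
theorem npc (h1 : ∀ g : G, g * io e (z₀ j) * g⁻¹ ≠ io e (sr 0))
    (h2 : ∀ g : G, g * io e (z₀ j) * g⁻¹ ≠ io e (sr 1)) : Cfsg.HasNormalPComplement 2 G := by
  have hm : 2 ≤ 2 ^ (j + 2) := by
    calc 2 = 2 ^ 1 := by norm_num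
      _ ≤ 2 ^ (j + 2) := Nat.pow_le_pow_right (by norm_num) (by omega)
  rw [Cfsg.Agent.S1254.result P (2 ^ (j + 2)) hm e]
  intro U hU hK
  apply le_antisymm _ (sup_le (centralizer_le_normalizer _) inf_le_right)
  intro g hg
  have hzs : ∀ i (g : G), g * io e (z₀ j) * g⁻¹ ≠ io e (sr i) := by
    intro i g hgi
    rcases sr_conj j i with ⟨c, hc⟩ | ⟨c, hc⟩
    · apply h1 (io e c * g)
      rw [← hc, map_mul, map_mul, map_inv, ← hgi]; group
    · apply h2 (io e c * g)
      rw [← hc, map_mul, map_mul, map_inv, ← hgi]; group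
  obtain ⟨i, hz, hx, h4⟩ := four_shape e U hU hK
  set z := io e (z₀ j) with hzdef
  set x := io e (sr i) with hxdef
  have hz1 : z ≠ 1 := by
    intro h
    have := orderOf_z e
    rw [← hzdef, h, orderOf_one] at this
    omega
  have hx1 : x ≠ 1 := by
    intro h
    have := orderOf_s e i
    rw [← hxdef, h, orderOf_one] at this
    omega
  have hxz : x * z = io e (sr (i + ((2 ^ (j + 1) : ℕ) : ZMod (2 ^ (j + 2))))) := by
    rw [hxdef, hzdef, ← map_mul, z₀, sr_mul_r]
  have hzz : z * z = 1 := by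
    rw [hzdef, ← map_mul, z₀, r_mul_r, half_add_half, r_zero, map_one]
  have hcomm : x * z = z * x := by
    rw [hxz, hxdef, hzdef, ← map_mul, z₀, r_mul_sr]
    congr 2
    have := half_add_half j
    linear_combination this
  have hcent : ∀ c : G, c * x * c⁻¹ = x → c * z * c⁻¹ = z → c ∈ centralizer (U : Set G) := by
    intro c hcx hcz
    rw [mul_inv_eq_iff_eq_mul] at hcx hcz
    rw [mem_centralizer_iff]
    intro u hu
    rcases h4 u hu with rfl | rfl | rfl | rfl
    · rw [mul_assoc, ← hcz, ← mul_assoc, ← hcx, mul_assoc]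
    · exact hcx.symm
    · exact hcz.symm
    · simp
  have hgz : g * z * g⁻¹ = z := by
    rcases h4 _ ((mem_normalizer_iff.mp hg z).mp hz) with h | h | h | h
    · rw [hxz] at h; exact absurd h (hzs _ g)
    · exact absurd h (hzs _ g)
    · exact h
    · exfalso
      apply hz1
      rw [mul_inv_eq_iff_eq_mul, one_mul] at h
      exact mul_left_cancel (h.trans (mul_one g).symm)
  rcases h4 _ ((mem_normalizer_iff.mp hg x).mp hx) with h | h | h | h
  · -- the swap
    set q := io e (r ((2 ^ j : ℕ) : ZMod (2 ^ (j + 2)))) with hq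
    have hqx : q * x * q⁻¹ = x * z := by
      rw [hxz, hq, hxdef, ← map_inv, ← map_mul, ← map_mul, r_mul_sr, inv_r, sr_mul_r]
      congr 2
      have e1 := quarter_add j
      have e2 := half_add_half j
      linear_combination (-1 : ZMod (2 ^ (j + 2))) * e1 - e2
    have hqz : q * z * q⁻¹ = z := by
      rw [hq, hzdef, ← map_inv, ← map_mul, ← map_mul, z₀, r_mul_r, inv_r, r_mul_r]
      congr 2
      ring
    have hqN : q ∈ normalizer (U : Set G) := by
      apply Cfsg.Agent.Lib.Helper11OddAut.mem_normalizer_of_conj_mem U q (isOfFinOrder_of_finite q)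
      intro u hu
      rcases h4 u hu with rfl | rfl | rfl | rfl
      · have : q * (x * z) * q⁻¹ = (q * x * q⁻¹) * (q * z * q⁻¹) := by group
        rw [this, hqx, hqz, mul_assoc, hzz, mul_one]; exact hx
      · rw [hqx]; exact mul_mem hx hz
      · rw [hqz]; exact hz
      · simp
    have hc : q⁻¹ * g ∈ centralizer (U : Set G) := by
      apply hcent
      · have e1 : q⁻¹ * g * x * (q⁻¹ * g)⁻¹ = q⁻¹ * (g * x * g⁻¹) * q := by group
        rw [e1, h, ← hqx]; group
      · have e1 : q⁻¹ * g * z * (q⁻¹ * g)⁻¹ = q⁻¹ * (g * z * g⁻¹) * q := by group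
        have e3 : q * z = z * q := by
          rw [mul_inv_eq_iff_eq_mul] at hqz; exact hqz
        rw [e1, hgz, mul_assoc, ← e3, inv_mul_cancel_left]
    have e5 : g = q * (q⁻¹ * g) := by group
    rw [e5]
    exact mul_mem (mem_sup_right ⟨io_mem e _, hqN⟩) (mem_sup_left hc)
  · exact mem_sup_left (hcent g h hgz)
  · exfalso
    have : g * x * g⁻¹ = g * z * g⁻¹ := h.trans hgz.symm
    have h5 : x = z := by
      have := mul_right_cancel this
      exact mul_left_cancel this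
    exact absurd (io_injective e h5) (by simp [z₀])
  · exfalso
    apply hx1
    rw [mul_inv_eq_iff_eq_mul, one_mul] at h
    exact mul_left_cancel (h.trans (mul_one g).symm)


/-- classes of involutions -/
abbrev Inv (G : Type*) [Group G] :=
  {C : ConjClasses G // ∃ g : G, ConjClasses.mk g = C ∧ orderOf g = 2}

/-- the class of an involution -/
def cl (u : G) (hu : orderOf u = 2) : Inv G := ⟨ConjClasses.mk u, u, rfl, hu⟩

theorem cl_eq_iff {u v : G} (hu : orderOf u = 2) (hv : orderOf v = 2) :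
    cl u hu = cl v hv ↔ ∃ g : G, g * u * g⁻¹ = v := by
  rw [Subtype.ext_iff]
  show ConjClasses.mk u = ConjClasses.mk v ↔ _
  rw [ConjClasses.mk_eq_mk_iff_isConj, isConj_iff]

/-- the three candidate classes -/
def f3 : Fin 3 → Inv G :=
  ![cl _ (orderOf_z e), cl _ (orderOf_s e 0), cl _ (orderOf_s e 1)]

theorem f3_surjective : Function.Surjective (f3 e) := by
  rintro ⟨C, u, rfl, hu⟩
  obtain ⟨g, hg | hg | hg⟩ := inv_conj e u hu
  · exact ⟨0, ((cl_eq_iff hu (orderOf_z e)).mpr ⟨g, hg⟩).symm⟩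
  · exact ⟨1, ((cl_eq_iff hu (orderOf_s e 0)).mpr ⟨g, hg⟩).symm⟩
  · exact ⟨2, ((cl_eq_iff hu (orderOf_s e 1)).mpr ⟨g, hg⟩).symm⟩

include e in
theorem main : (Nat.card (Inv G) = 1 ∧ ∀ N : Subgroup G, N.Normal → N.index ≠ 2) ∨
    (Nat.card (Inv G) = 2 ∧ (∃ N : Subgroup G, N.Normal ∧ N.index = 2) ∧
      ∀ N : Subgroup G, N.Normal → N.index ≠ 4) ∨
    (Nat.card (Inv G) = 3 ∧ Cfsg.HasNormalPComplement 2 G) := by
  have hle : Nat.card (Inv G) ≤ 3 := by
    have := Nat.card_le_card_of_surjective _ (f3_surjective e)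
    simpa using this
  haveI : Nonempty (Inv G) := ⟨cl _ (orderOf_z e)⟩
  have hpos : 0 < Nat.card (Inv G) := Nat.card_pos
  have hcases : Nat.card (Inv G) = 1 ∨ Nat.card (Inv G) = 2 ∨ Nat.card (Inv G) = 3 := by omega
  rcases hcases with hc | hc | hc
  · left
    refine ⟨hc, fun N hN hi => ?_⟩
    haveI : Subsingleton (Inv G) := Finite.card_le_one_iff_subsingleton.mp hc.le
    apply no_index_two e _ N hN hi
    intro u hu
    exact (cl_eq_iff (orderOf_z e) hu).mp (Subsingleton.elim _ _)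
  · right; left
    refine ⟨hc, ?_, ?_⟩
    · by_contra hcon
      push_neg at hcon
      have hsub : Subsingleton (Inv G) := by
        constructor
        have hall : ∀ a : Inv G, a = cl _ (orderOf_z e) := by
          rintro ⟨C, u, rfl, hu⟩
          exact (cl_eq_iff hu (orderOf_z e)).mpr (all_conj e hcon u hu)
        intro a b
        rw [hall a, hall b]
      have := Finite.card_le_one_iff_subsingleton.mpr hsub
      omega
    · intro N hN hi
      obtain ⟨n1, n2, n3⟩ := not_conj_of_index_four e N hN hi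
      have hinj : Function.Injective (f3 e) := by
        have e01 : f3 e 0 ≠ f3 e 1 := fun h =>
          (by obtain ⟨g, hg⟩ := (cl_eq_iff (orderOf_z e) (orderOf_s e 0)).mp h; exact n1 g hg)
        have e02 : f3 e 0 ≠ f3 e 2 := fun h =>
          (by obtain ⟨g, hg⟩ := (cl_eq_iff (orderOf_z e) (orderOf_s e 1)).mp h; exact n2 g hg)
        have e12 : f3 e 1 ≠ f3 e 2 := fun h =>
          (by obtain ⟨g, hg⟩ := (cl_eq_iff (orderOf_s e 0) (orderOf_s e 1)).mp h; exact n3 g hg)
        intro a b hab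
        fin_cases a <;> fin_cases b <;> first | rfl | (exfalso; revert hab; simp only []; first | exact e01 | exact e02 | exact e12 | exact e01.symm | exact e02.symm | exact e12.symm)
      have := Nat.card_le_card_of_injective _ hinj
      simp at this
      omega
  · right; right
    refine ⟨hc, ?_⟩
    have hinj : Function.Injective (f3 e) :=
      ((f3_surjective e).bijective_of_nat_card_le (by rw [hc]; simp)).1
    apply npc e
    · intro g hg
      have : f3 e 0 = f3 e 1 := (cl_eq_iff (orderOf_z e) (orderOf_s e 0)).mpr ⟨g, hg⟩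
      exact absurd (hinj this) (by decide)
    · intro g hg
      have : f3 e 0 = f3 e 2 := (cl_eq_iff (orderOf_z e) (orderOf_s e 1)).mpr ⟨g, hg⟩
      exact absurd (hinj this) (by decide)

end

theorem result {G : Type*} [Group G] [Finite G] (P : Sylow 2 G) (n : ℕ) (hn : 3 ≤ n) (hdih : Nonempty (↥(P : Subgroup G) ≃* DihedralGroup (2 ^ (n - 1)))) : (Nat.card {C : ConjClasses G // ∃ g : G, ConjClasses.mk g = C ∧ orderOf g = 2} = 1 ∧ ∀ N : Subgroup G, N.Normal → N.index ≠ 2) ∨ (Nat.card {C : ConjClasses G // ∃ g : G, ConjClasses.mk g = C ∧ orderOf g = 2} = 2 ∧ (∃ N : Subgroup G, N.Normal ∧ N.index = 2) ∧ ∀ N : Subgroup G, N.Normal → N.index ≠ 4) ∨ (Nat.card {C : ConjClasses G // ∃ g : G, ConjClasses.mk g = C ∧ orderOf g = 2} = 3 ∧ Cfsg.HasNormalPComplement 2 G) := by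
  obtain ⟨j, rfl⟩ : ∃ j, n = j + 3 := ⟨n - 3, by omega⟩
  obtain ⟨e⟩ := hdih
  have e' : ↥(P : Subgroup G) ≃* DihedralGroup (2 ^ (j + 2)) := e
  exact main e'

end Cfsg.Agent.S3864
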