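import Mathlib
import Cfsg.Statements.S3866

set_option autoImplicit false
open Cfsg

namespace Cfsg.Agent.S3866

open Subgroup

variable {G : Type*} [Group G]

/-- the commutator map `a ↦ x a x⁻¹ a⁻¹` -/
def theta (A : Subgroup G) [A.Normal] (hA : IsMulCommutative A) (x : G) : A →* G where
  toFun a := x * a * x⁻¹ * (a : G)⁻¹
  map_one' := by simp
  map_mul' a b := by
    have h1 : x * b * x⁻¹ ∈ A := Normal.conj_mem inferInstance _ b.2 x
    have h2 : (a : G)⁻¹ * (x * b * x⁻¹) = (x * b * x⁻¹) * (a : G)⁻¹ :=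
      congrArg Subtype.val (hA.is_comm.comm (a⁻¹ : A) ⟨_, h1⟩)
    have h3 : (a : G)⁻¹ * (b : G)⁻¹ = (b : G)⁻¹ * (a : G)⁻¹ :=
      congrArg Subtype.val (hA.is_comm.comm (a⁻¹ : A) (b⁻¹ : A))
    show x * ((a : G) * b) * x⁻¹ * ((a : G) * b)⁻¹ = _
    calc x * ((a : G) * b) * x⁻¹ * ((a : G) * b)⁻¹
        = x * a * x⁻¹ * ((x * b * x⁻¹) * (a : G)⁻¹) * (b : G)⁻¹ := by
          rw [mul_inv_rev, ← h3]; group
      _ = x * a * x⁻¹ * ((a : G)⁻¹ * (x * b * x⁻¹)) * (b : G)⁻¹ := by rw [h2]
      _ = _ := by group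

theorem range_le (A : Subgroup G) [A.Normal] (hA : IsMulCommutative A) (x : G) :
    (theta A hA x).range ≤ A := by
  rintro _ ⟨a, rfl⟩
  exact A.mul_mem (Normal.conj_mem inferInstance _ a.2 x) (A.inv_mem a.2)

theorem range_normal (A : Subgroup G) [A.Normal] (hA : IsMulCommutative A) (x : G)
    (hgen : A ⊔ Subgroup.zpowers x = ⊤) : (theta A hA x).range.Normal := by
  rw [← normalizer_eq_top_iff, eq_top_iff, ← hgen]
  apply sup_le
  · intro a ha
    rw [mem_normalizer_iff]
    intro b
    have key : ∀ b ∈ A, a * b * a⁻¹ = b := by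
      intro b hb
      have : a * b = b * a := congrArg Subtype.val (hA.is_comm.comm (⟨a, ha⟩ : A) ⟨b, hb⟩)
      rw [this, mul_inv_cancel_right]
    constructor
    · intro hb
      rwa [key b (range_le A hA x hb)]
    · intro hb
      have h1 : a * b * a⁻¹ ∈ A := range_le A hA x hb
      have h2 : b ∈ A := by
        have := A.mul_mem (A.mul_mem (A.inv_mem ha) h1) ha
        simpa [mul_assoc] using this
      rwa [key b h2] at hb
  · rw [zpowers_le, mem_normalizer_iff]
    intro b
    constructor
    · rintro ⟨a, rfl⟩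
      refine ⟨⟨x * a * x⁻¹, Normal.conj_mem inferInstance _ a.2 x⟩, ?_⟩
      show x * (x * a * x⁻¹) * x⁻¹ * (x * a * x⁻¹)⁻¹ = x * (x * a * x⁻¹ * (a : G)⁻¹) * x⁻¹
      group
    · rintro ⟨a, ha⟩
      refine ⟨⟨x⁻¹ * a * x, by
        have := Normal.conj_mem (inferInstance : A.Normal) _ a.2 x⁻¹
        simpa using this⟩, ?_⟩
      have ha' : x * a * x⁻¹ * (a : G)⁻¹ = x * b * x⁻¹ := ha
      show x * (x⁻¹ * a * x) * x⁻¹ * (x⁻¹ * a * x)⁻¹ = b
      have : b = x⁻¹ * (x * b * x⁻¹) * x := by group
      rw [this, ← ha']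
      group

theorem commutator_le_range (A : Subgroup G) [A.Normal] (hA : IsMulCommutative A) (x : G)
    (hgen : A ⊔ Subgroup.zpowers x = ⊤) : commutator G ≤ (theta A hA x).range := by
  haveI := range_normal A hA x hgen
  set B := (theta A hA x).range with hB
  let π := QuotientGroup.mk' B
  have hxa : ∀ a ∈ A, π x * π a = π a * π x := by
    intro a ha
    have : x * a * x⁻¹ * a⁻¹ ∈ B := ⟨⟨a, ha⟩, rfl⟩
    have h1 : π (x * a * x⁻¹ * a⁻¹) = 1 := (QuotientGroup.eq_one_iff _).mpr this
    simp only [map_mul, map_inv] at h1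
    rw [mul_inv_eq_one, mul_inv_eq_iff_eq_mul] at h1
    exact h1
  have haa : ∀ a ∈ A, ∀ b ∈ A, π a * π b = π b * π a := by
    intro a ha b hb
    have : a * b = b * a := congrArg Subtype.val (hA.is_comm.comm (⟨a, ha⟩ : A) ⟨b, hb⟩)
    rw [← map_mul, this, map_mul]
  have h1 : ∀ a ∈ A, ∀ h : G, π h * π a = π a * π h := by
    intro a ha h
    have : (⊤ : Subgroup G) ≤ (centralizer {π a}).comap π := by
      rw [← hgen]
      apply sup_le
      · intro b hb
        rw [mem_comap, mem_centralizer_singleton_iff]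
        exact haa b hb a ha
      · rw [zpowers_le, mem_comap, mem_centralizer_singleton_iff]
        exact hxa a ha
    have := this (mem_top h)
    rwa [mem_comap, mem_centralizer_singleton_iff] at this
  have h2 : ∀ h : G, π h * π x = π x * π h := by
    intro h
    have : (⊤ : Subgroup G) ≤ (centralizer {π x}).comap π := by
      rw [← hgen]
      apply sup_le
      · intro b hb
        rw [mem_comap, mem_centralizer_singleton_iff]
        exact (hxa b hb).symm
      · rw [zpowers_le, mem_comap, mem_centralizer_singleton_iff]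
    have := this (mem_top h)
    rwa [mem_comap, mem_centralizer_singleton_iff] at this
  have h3 : ∀ g h : G, π h * π g = π g * π h := by
    intro g h
    have : (⊤ : Subgroup G) ≤ (centralizer {π h}).comap π := by
      rw [← hgen]
      apply sup_le
      · intro b hb
        rw [mem_comap, mem_centralizer_singleton_iff]
        exact (h1 b hb h).symm
      · rw [zpowers_le, mem_comap, mem_centralizer_singleton_iff]
        exact (h2 h).symm
    have := this (mem_top g)
    rw [mem_comap, mem_centralizer_singleton_iff] at this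
    exact this.symm
  rw [commutator_def, commutator_le]
  intro g _ h _
  rw [← QuotientGroup.eq_one_iff, commutatorElement_def]
  show π (g * h * g⁻¹ * h⁻¹) = 1
  simp only [map_mul, map_inv]
  rw [h3 h g]
  group

/-- Let A be a commutative normal subgroup of the finite group G with G generated by A and an element x. Then a ↦ x a x⁻¹ a⁻¹ is a surjective homomorphism from A onto the commutator subgroup of G whose kernel is the centralizer of x in A; in particular the commutator subgroup has order equal to the index in A of that centralizer. -/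
theorem result {G : Type*} [Group G] [Finite G] (A : Subgroup G) [A.Normal] (hA : IsMulCommutative A) (x : G) (hgen : A ⊔ Subgroup.zpowers x = ⊤) : (∀ a ∈ A, x * a * x⁻¹ * a⁻¹ ∈ commutator G) ∧ (∀ c ∈ commutator G, ∃ a ∈ A, x * a * x⁻¹ * a⁻¹ = c) ∧ (∀ a ∈ A, ∀ b ∈ A, x * (a * b) * x⁻¹ * (a * b)⁻¹ = (x * a * x⁻¹ * a⁻¹) * (x * b * x⁻¹ * b⁻¹)) ∧ Nat.card (commutator G) * Nat.card ↥(A ⊓ Subgroup.centralizer ({x} : Set G)) = Nat.card A := by
  have h1 : ∀ a ∈ A, x * a * x⁻¹ * a⁻¹ ∈ commutator G := by
    intro a _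
    rw [commutator_def, ← commutatorElement_def]
    exact commutator_mem_commutator (mem_top x) (mem_top a)
  have hrange : (theta A hA x).range = commutator G := by
    apply le_antisymm
    · rintro _ ⟨a, rfl⟩
      exact h1 a a.2
    · exact commutator_le_range A hA x hgen
  refine ⟨h1, ?_, ?_, ?_⟩
  · intro c hc
    rw [← hrange] at hc
    obtain ⟨a, rfl⟩ := hc
    exact ⟨a, a.2, rfl⟩
  · intro a ha b hb
    exact (theta A hA x).map_mul ⟨a, ha⟩ ⟨b, hb⟩
  · have hker : (theta A hA x).ker = (centralizer ({x} : Set G)).subgroupOf A := by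
      ext a
      rw [MonoidHom.mem_ker, mem_subgroupOf, mem_centralizer_singleton_iff]
      show x * a * x⁻¹ * (a : G)⁻¹ = 1 ↔ _
      rw [mul_inv_eq_one, mul_inv_eq_iff_eq_mul, eq_comm]
    have h2 := (theta A hA x).ker.card_mul_index
    rw [index_ker, hrange, hker] at h2
    rw [mul_comm, ← h2]
    congr 1
    rw [inf_comm, ← Nat.card_congr (subgroupOfEquivOfLe (inf_le_right : centralizer ({x} : Set G) ⊓ A ≤ A)).toEquiv, inf_subgroupOf_right]

end Cfsg.Agent.S3866
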