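import Mathlib
import Cfsg.Statements.S3867
import Cfsg.Agent.Lib.Helper76SylowCount

set_option autoImplicit false
open Cfsg

namespace Cfsg.Agent.S3867

open Subgroup Cfsg.Agent.Lib.Helper76SylowCount

variable {G : Type*} [Group G] [Finite G]

theorem card_inf_mul_relIndex (H K : Subgroup G) :
    Nat.card ↥(H ⊓ K) * H.relIndex K = Nat.card K := by
  have := relIndex_mul_relIndex ⊥ (H ⊓ K) K bot_le inf_le_right
  rwa [relIndex_bot_left, relIndex_bot_left, inf_relIndex_right] at this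

theorem card_sup_of_disjoint (A B : Subgroup G) (h : A ≤ normalizer (B : Set G)) (hAB : A ⊓ B = ⊥) :
    Nat.card ↥(A ⊔ B) = Nat.card A * Nat.card B := by
  have h1 := relIndex_mul_relIndex ⊥ B (A ⊔ B) bot_le le_sup_right
  rw [relIndex_bot_left, relIndex_bot_left, relIndex_sup_of_le_normalizer A B h,
    ← inf_relIndex_left, hAB, relIndex_bot_left] at h1
  rw [← h1, mul_comm]

variable {p : ℕ} [Fact p.Prime]

/-- the subgroup `PK` -/
def PK (P : Sylow p G) (K : Subgroup G) [K.Normal] : Subgroup G :=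
  ((P : Subgroup G).map (QuotientGroup.mk' K)).comap (QuotientGroup.mk' K)

theorem le_PK (P : Sylow p G) (K : Subgroup G) [K.Normal] : (P : Subgroup G) ≤ PK P K :=
  le_comap_map _ _

theorem le_PK' (P : Sylow p G) (K : Subgroup G) [K.Normal] : K ≤ PK P K := by
  intro k hk
  show QuotientGroup.mk' K k ∈ (P : Subgroup G).map (QuotientGroup.mk' K)
  have : QuotientGroup.mk' K k = 1 := (QuotientGroup.eq_one_iff k).mpr hk
  rw [this]; exact one_mem _

theorem normalizer_le_PK (P : Sylow p G) (K : Subgroup G) [K.Normal] :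
    normalizer ((P : Subgroup G) : Set G) ≤ normalizer ((PK P K : Subgroup G) : Set G) := by
  intro g hg
  apply le_normalizer_comap (QuotientGroup.mk' K)
  exact le_normalizer_map (QuotientGroup.mk' K) ⟨g, hg, rfl⟩

theorem exists_pow_mem (P : Sylow p G) (K : Subgroup G) [K.Normal] (y : G) (hy : y ∈ PK P K) :
    ∃ a : ℕ, y ^ p ^ a ∈ K := by
  have hy' : QuotientGroup.mk' K y ∈ (P : Subgroup G).map (QuotientGroup.mk' K) := hy
  obtain ⟨a, ha⟩ := (P.2.map (QuotientGroup.mk' K)) ⟨_, hy'⟩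
  refine ⟨a, ?_⟩
  have h1 := congrArg Subtype.val ha
  simp only [SubmonoidClass.mk_pow, OneMemClass.coe_one] at h1
  rw [← map_pow] at h1
  exact (QuotientGroup.eq_one_iff _).mp h1

theorem PK_inf (P : Sylow p G) (M N : Subgroup G) [M.Normal] [N.Normal] (hMN : M ⊓ N = ⊥) :
    PK P M ⊓ PK P N = P := by
  apply P.is_maximal' _ (le_inf (le_PK P M) (le_PK P N))
  rintro ⟨y, hy⟩
  obtain ⟨a, ha⟩ := exists_pow_mem P M y hy.1
  obtain ⟨b, hb⟩ := exists_pow_mem P N y hy.2
  refine ⟨a + b, ?_⟩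
  apply Subtype.ext
  simp only [SubmonoidClass.mk_pow, OneMemClass.coe_one]
  have h1 : y ^ p ^ (a + b) ∈ M := by
    rw [pow_add, pow_mul]; exact pow_mem ha _
  have h2 : y ^ p ^ (a + b) ∈ N := by
    rw [pow_add, mul_comm, pow_mul]; exact pow_mem hb _
  have h3 : y ^ p ^ (a + b) ∈ M ⊓ N := ⟨h1, h2⟩
  rwa [hMN, mem_bot] at h3

theorem mem_normalizer_left (P : Sylow p G) (M N : Subgroup G) [M.Normal] [N.Normal]
    (hMN : M ⊓ N = ⊥) (m n : G) (hm : m ∈ M) (hn : n ∈ N)
    (h : m * n ∈ normalizer ((P : Subgroup G) : Set G)) :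
    m ∈ normalizer ((P : Subgroup G) : Set G) := by
  have h1 : m ∈ normalizer ((PK P M : Subgroup G) : Set G) := le_normalizer (le_PK' P M hm)
  have h2 : m ∈ normalizer ((PK P N : Subgroup G) : Set G) := by
    have h3 := normalizer_le_PK P N h
    have h4 : n ∈ normalizer ((PK P N : Subgroup G) : Set G) := le_normalizer (le_PK' P N hn)
    have := mul_mem h3 (inv_mem h4)
    rwa [mul_inv_cancel_right] at this
  have h3 := inf_normalizer_le_normalizer_inf (H := PK P M) (K := PK P N) ⟨h1, h2⟩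
  rwa [PK_inf P M N hMN] at h3

theorem result {G : Type*} [Group G] [Finite G] (p : ℕ) [Fact p.Prime] (M N : Subgroup G) [M.Normal] [N.Normal] (hM : M ≠ ⊥) (hN : N ≠ ⊥) (hMN : M ⊓ N = ⊥) : Nat.card (Sylow p G) * Nat.card (Sylow p (G ⧸ (M ⊔ N))) = Nat.card (Sylow p (G ⧸ M)) * Nat.card (Sylow p (G ⧸ N)) := by
  obtain ⟨P⟩ : Nonempty (Sylow p G) := inferInstance
  set H : Subgroup G := normalizer ((P : Subgroup G) : Set G) with hH
  have e1 := card_sylow_eq_mul M P
  have e2 := card_sylow_eq_mul N P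
  have e3 := card_sylow_eq_mul (M ⊔ N) P
  rw [← hH] at e1 e2 e3
  have hC : H ⊓ (M ⊔ N) = (H ⊓ M) ⊔ (H ⊓ N) := by
    apply le_antisymm
    · rintro g ⟨hgH, hg⟩
      have hg : g ∈ ((M ⊔ N : Subgroup G) : Set G) := hg
      have hgH : g ∈ H := hgH
      rw [mul_normal] at hg
      obtain ⟨m, hm, n, hn, rfl⟩ := hg
      have h1 : m ∈ H := mem_normalizer_left P M N hMN m n hm hn hgH
      have h2 : n ∈ H := by
        have := mul_mem (inv_mem h1) hgH
        rwa [inv_mul_cancel_left] at this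
      exact mul_mem (mem_sup_left ⟨h1, hm⟩) (mem_sup_right ⟨h2, hn⟩)
    · exact sup_le (inf_le_inf_left _ le_sup_left) (inf_le_inf_left _ le_sup_right)
  have c1 := card_inf_mul_relIndex H M
  have c2 := card_inf_mul_relIndex H N
  have c3 := card_inf_mul_relIndex H (M ⊔ N)
  have c4 : Nat.card ↥(M ⊔ N) = Nat.card M * Nat.card N :=
    card_sup_of_disjoint M N le_normalizer_of_normal hMN
  have c5 : Nat.card ↥((H ⊓ M) ⊔ (H ⊓ N)) = Nat.card ↥(H ⊓ M) * Nat.card ↥(H ⊓ N) := by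
    apply card_sup_of_disjoint
    · intro x hx
      rw [mem_normalizer_iff]
      intro y
      have hxn : ∀ y, y ∈ N ↔ x * y * x⁻¹ ∈ N := fun y =>
        (mem_normalizer_iff.mp (le_normalizer_of_normal (H := N) (K := ⊤) (mem_top x)) y)
      have hxh : ∀ y, y ∈ H ↔ x * y * x⁻¹ ∈ H := fun y =>
        (mem_normalizer_iff.mp (le_normalizer hx.1) y)
      rw [mem_inf, mem_inf, ← hxn, ← hxh]
    · apply le_bot_iff.mp
      rw [← hMN]
      exact inf_le_inf inf_le_right inf_le_right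
  rw [hC, c5, c4] at c3
  have hpos1 : 0 < Nat.card ↥(H ⊓ M) := Nat.card_pos
  have hpos2 : 0 < Nat.card ↥(H ⊓ N) := Nat.card_pos
  have hrel : H.relIndex (M ⊔ N) = H.relIndex M * H.relIndex N := by
    apply Nat.eq_of_mul_eq_mul_left (Nat.mul_pos hpos1 hpos2)
    rw [c3, ← c1, ← c2]; ring
  have hα : 0 < H.relIndex M := Nat.pos_of_ne_zero index_ne_zero_of_finite
  have hβ : 0 < H.relIndex N := Nat.pos_of_ne_zero index_ne_zero_of_finite
  rw [hrel] at e3
  apply Nat.eq_of_mul_eq_mul_right (Nat.mul_pos hα hβ)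
  calc Nat.card (Sylow p G) * Nat.card (Sylow p (G ⧸ (M ⊔ N))) * (H.relIndex M * H.relIndex N)
      = Nat.card (Sylow p G) * (Nat.card (Sylow p (G ⧸ (M ⊔ N))) * (H.relIndex M * H.relIndex N)) := by
        ring
    _ = Nat.card (Sylow p G) * Nat.card (Sylow p G) := by rw [← e3]
    _ = (Nat.card (Sylow p (G ⧸ M)) * H.relIndex M) * (Nat.card (Sylow p (G ⧸ N)) * H.relIndex N) := by
        rw [← e1, ← e2]
    _ = _ := by ring

end Cfsg.Agent.S3867
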