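import Cfsg.Statements.S3878
import Mathlib

set_option autoImplicit false
open Cfsg

namespace Cfsg.Agent.S3878

open Equiv Equiv.Perm MulAction

/-- A Hall `π`-subgroup contains a conjugate of every `p`-element, `p ∈ π`. -/
lemma hall_contains_conj {G : Type*} [Group G] [Finite G] {π : Set ℕ} {H : Subgroup G}
    (hH : IsPiHall π H) {p : ℕ} (hpp : p.Prime) (hp : p ∈ π) (x : G)
    (hx : IsPGroup p (Subgroup.zpowers x)) : ∃ g : G, g * x * g⁻¹ ∈ H := by
  have : Fact p.Prime := ⟨hpp⟩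
  have h1 : ¬ p ∣ Nat.card (G ⧸ H) := hH.2 p hpp hp
  obtain ⟨y, hy⟩ := hx.nonempty_fixed_point_of_prime_not_dvd_card (G ⧸ H) h1
  induction y using QuotientGroup.induction_on with
  | H g =>
    have h2 := hy ⟨x, Subgroup.mem_zpowers x⟩
    have h3 : ((x * g : G) : G ⧸ H) = (g : G ⧸ H) := h2
    rw [QuotientGroup.eq] at h3
    refine ⟨g⁻¹, ?_⟩
    have h4 := H.inv_mem h3
    simpa [mul_assoc] using h4

lemma prime_dvd_card_hall {G : Type*} [Group G] [Finite G] {π : Set ℕ} {H : Subgroup G}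
    (hH : IsPiHall π H) {p : ℕ} (hpp : p.Prime) (hp : p ∈ π) (hd : p ∣ Nat.card G) :
    p ∣ Nat.card H := by
  rw [← H.card_mul_index] at hd
  exact (hpp.dvd_mul.1 hd).resolve_right (hH.2 p hpp hp)

/-- In `S_p`, a Hall `π`-subgroup with `p ∈ π` contains a full `p`-cycle. -/
lemma exists_full_cycle {p : ℕ} (hpp : p.Prime) {π : Set ℕ} (hp : p ∈ π)
    {H : Subgroup (Perm (Fin p))} (hH : IsPiHall π H) :
    ∃ σ ∈ H, σ.IsCycle ∧ σ.support = Finset.univ := by
  have : Fact p.Prime := ⟨hpp⟩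
  have h1 : p ∣ Nat.card H := by
    apply prime_dvd_card_hall hH hpp hp
    rw [Nat.card_perm, Nat.card_eq_fintype_card, Fintype.card_fin]
    exact Nat.dvd_factorial hpp.pos le_rfl
  obtain ⟨x, hx⟩ := exists_prime_orderOf_dvd_card' p h1
  have hx' : orderOf (x : Perm (Fin p)) = p := by rw [Subgroup.orderOf_coe]; exact hx
  have hc : (x : Perm (Fin p)).IsCycle :=
    isCycle_of_prime_order'' (by rw [Fintype.card_fin]; exact hpp) (by rw [Fintype.card_fin]; exact hx')
  refine ⟨x, x.2, hc, ?_⟩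
  apply Finset.eq_univ_of_card
  rw [← hc.orderOf, hx', Fintype.card_fin]

lemma isPreprimitive_of_full_cycle {p : ℕ} (hpp : p.Prime)
    {H : Subgroup (Perm (Fin p))} {σ : Perm (Fin p)} (hσ : σ ∈ H) (hc : σ.IsCycle)
    (hs : σ.support = Finset.univ) : IsPreprimitive H (Fin p) := by
  have : IsPretransitive H (Fin p) := by
    constructor
    intro a b
    have ha : σ a ≠ a := by
      rw [← mem_support, hs]; exact Finset.mem_univ _
    have hb : σ b ≠ b := by
      rw [← mem_support, hs]; exact Finset.mem_univ _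
    obtain ⟨i, hi⟩ := hc.exists_zpow_eq ha hb
    exact ⟨⟨σ ^ i, H.zpow_mem hσ i⟩, hi⟩
  apply IsPreprimitive.of_prime_card
  rw [Nat.card_eq_fintype_card, Fintype.card_fin]
  exact hpp

lemma two_dvd_orderOf_of_swap {α G : Type*} [Group G] [MulAction G α] (h : G) {a b : α}
    (hab : a ≠ b) (h1 : h • a = b) (h2 : h • b = a) : 2 ∣ orderOf h := by
  by_contra hodd
  have hO : Odd (orderOf h) := Nat.not_even_iff_odd.1 (fun he => hodd he.two_dvd)
  obtain ⟨k, hk⟩ := hO
  have hsq : ∀ j : ℕ, (h ^ (2 * j)) • a = a := by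
    intro j
    induction j with
    | zero => simp
    | succ j ih => rw [Nat.mul_succ, pow_add, mul_smul, pow_two, mul_smul, h1, h2, ih]
  have h3 : h ^ (orderOf h) • a = b := by rw [hk, pow_succ', mul_smul, hsq, h1]
  rw [pow_orderOf_eq_one, one_smul] at h3
  exact hab h3

lemma card_perm_fin (n : ℕ) : Nat.card (Perm (Fin n)) = n.factorial := by
  rw [Nat.card_perm, Nat.card_eq_fintype_card, Fintype.card_fin]

lemma no_hall_case2 {π : Set ℕ} {p r : ℕ} (hpp : p.Prime) (hp : p ∈ π) (h2 : 2 ∈ π)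
    (hrp : r.Prime) (hr : r ∉ π) (hlt : r < p) : ¬ IsEPiGroup π (Perm (Fin p)) := by
  rintro ⟨H, hH⟩
  obtain ⟨σ, hσ, hc, hs⟩ := exists_full_cycle hpp hp hH
  have hp2 : 2 ≤ p := hpp.two_le
  let a : Fin p := ⟨0, by omega⟩
  let b : Fin p := ⟨1, by omega⟩
  have hab : a ≠ b := by simp [a, b, Fin.ext_iff]
  have hord : orderOf (swap a b) = 2 := orderOf_eq_prime (by rw [pow_two, swap_mul_self])
    (fun h => hab (swap_eq_one_iff.1 h))
  obtain ⟨g, hg⟩ := hall_contains_conj hH Nat.prime_two h2 (swap a b)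
    (IsPGroup.of_card (n := 1) (by rw [Nat.card_zpowers, hord, pow_one]))
  have hsw : IsSwap (g * swap a b * g⁻¹) :=
    ⟨g a, g b, g.injective.ne hab, (swap_apply_apply g a b).symm⟩
  have htop : H = ⊤ := by
    rw [eq_top_iff, ← closure_prime_cycle_swap (by rw [Fintype.card_fin]; exact hpp) hc hs hsw,
      Subgroup.closure_le]
    rintro x (rfl | rfl) <;> assumption
  apply hr
  apply hH.1 r hrp
  rw [htop, Nat.card_congr Subgroup.topEquiv.toEquiv, card_perm_fin]
  exact Nat.dvd_factorial hrp.pos hlt.le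

lemma no_hall_case1 {π : Set ℕ} {p q : ℕ} (hpp : p.Prime) (hp : p ∈ π) (hqp : q.Prime)
    (hq : q ∈ π) (hlt : q < p) (h2 : 2 ∉ π) : ¬ IsEPiGroup π (Perm (Fin p)) := by
  classical
  rintro ⟨H, hH⟩
  obtain ⟨σ, hσ, hc, hs⟩ := exists_full_cycle hpp hp hH
  have hprim := isPreprimitive_of_full_cycle hpp hσ hc hs
  have : NeZero p := ⟨hpp.ne_zero⟩
  have hq2 : 2 ≤ q := hqp.two_le
  let i : Fin p := ⟨q - 1, by omega⟩
  have hi0 : i ≠ 0 := by
    intro h
    have := congrArg Fin.val h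
    simp [i] at this
    omega
  have hcyc := Fin.isCycle_cycleRange hi0
  have hct := Fin.cycleType_cycleRange hi0
  have hcard : (Fin.cycleRange i).support.card = q := by
    rw [← sum_cycleType, hct]
    simp [i]
    omega
  obtain ⟨g, hg⟩ := hall_contains_conj hH hqp hq (Fin.cycleRange i)
    (IsPGroup.of_card (n := 1) (by rw [Nat.card_zpowers, hcyc.orderOf, hcard, pow_one]))
  set τ := g * Fin.cycleRange i * g⁻¹ with hτ
  have hτc : τ.IsCycle := hcyc.conj
  have hτs : τ.support.card = q := by rw [hτ, card_support_conj, hcard]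
  obtain ⟨n, hn⟩ : ∃ n, p = q + (n + 1) := ⟨p - q - 1, by omega⟩
  have hmp : IsMultiplyPreprimitive H (Fin p) (n + 2) := by
    apply hprim.isMultiplyPreprimitive (s := ((τ.support : Set (Fin p))ᶜ))
    · apply Nat.add_left_cancel (n := q)
      rw [← hτs, ← Set.ncard_coe_finset, Set.ncard_add_ncard_compl, Set.ncard_coe_finset, hτs,
        Nat.card_eq_fintype_card, Fintype.card_fin, hn]
    · rw [Nat.card_eq_fintype_card, Fintype.card_fin]; omega
    have := isPretransitive_of_isCycle_mem hτc hg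
    apply IsPreprimitive.of_prime_card
    convert hqp
    rw [Nat.card_eq_fintype_card, Fintype.card_subtype, ← hτs]
    apply congr_arg
    ext x
    simp [SubMulAction.mem_ofFixingSubgroup_iff]
  have h2t : IsMultiplyPretransitive H (Fin p) 2 := by
    have := hmp.isMultiplyPretransitive
    exact isMultiplyPretransitive_of_le (n := n + 2) (by omega)
      (by rw [Nat.card_eq_fintype_card, Fintype.card_fin]; omega)
  rw [is_two_pretransitive_iff] at h2t
  let a : Fin p := ⟨0, by omega⟩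
  let b : Fin p := ⟨1, by omega⟩
  have hab : a ≠ b := by simp [a, b, Fin.ext_iff]
  obtain ⟨h, h1, h2'⟩ := h2t (a := a) (b := b) (c := b) (d := a) hab hab.symm
  have h3 := two_dvd_orderOf_of_swap h hab h1 h2'
  exact h2 (hH.1 2 Nat.prime_two (h3.trans (orderOf_dvd_natCard h)))

lemma not_sq_dvd_factorial {r : ℕ} (hrp : r.Prime) : ¬ r ^ 2 ∣ (r + 1).factorial := by
  obtain ⟨m, rfl⟩ : ∃ m, r = m + 1 := ⟨r - 1, by have := hrp.pos; omega⟩
  intro h
  rw [Nat.factorial_succ, Nat.factorial_succ, pow_two] at h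
  have h1 : (m + 1) * (m + 1) ∣ (m + 1) * ((m + 1 + 1) * m.factorial) := by
    convert h using 1; ring
  have h2 := Nat.dvd_of_mul_dvd_mul_left (Nat.succ_pos m) h1
  rcases (hrp.dvd_mul).1 h2 with h3 | h3
  · have h4 : (m + 1) ∣ 1 := (Nat.dvd_add_right (dvd_refl (m + 1))).1 h3
    exact hrp.one_lt.ne' (Nat.dvd_one.1 h4)
  · have := (hrp.dvd_factorial).1 h3
    omega

lemma no_hall_case3 {π : Set ℕ} {r : ℕ} (hrp : r.Prime) (hr : r ∉ π) (h5 : 5 ≤ r)
    (hsmall : ∀ s : ℕ, s.Prime → s < r → s ∈ π) : ¬ IsEPiGroup π (Perm (Fin (r + 1))) := by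
  rintro ⟨H, hH⟩
  have hidx : H.index ∣ (r + 1).factorial := card_perm_fin (r + 1) ▸ H.index_dvd_card
  have hprimes : ∀ s : ℕ, s.Prime → s ∣ H.index → s = r := by
    intro s hs hd
    have hsle : s ≤ r + 1 := (hs.dvd_factorial).1 (hd.trans hidx)
    by_contra hne
    rcases lt_or_ge s r with h | h
    · exact hH.2 s hs (hsmall s hs h) hd
    · have h1 : s = r + 1 := by omega
      have hodd : Odd r := hrp.odd_of_ne_two (by omega)
      have h2 : Even s := by rw [h1]; exact hodd.add_one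
      have := hs.even_iff.1 h2
      omega
  have hle : H.index ≤ r := by
    have hk := Nat.eq_prime_pow_of_unique_prime_dvd H.index_ne_zero_of_finite
      (fun {s} hs hd => hprimes s hs hd)
    set k := H.index.primeFactorsList.length
    have hk1 : k ≤ 1 := by
      by_contra hk2
      exact not_sq_dvd_factorial hrp (((pow_dvd_pow r (by omega : 2 ≤ k)).trans hk.symm.dvd).trans hidx)
    rw [hk]
    calc r ^ k ≤ r ^ 1 := Nat.pow_le_pow_right hrp.pos hk1
      _ = r := pow_one r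
  by_cases hN : H.normalCore = ⊥
  · rw [Subgroup.normalCore_eq_ker, MonoidHom.ker_eq_bot_iff] at hN
    have h1 := Nat.card_le_card_of_injective _ hN
    rw [card_perm_fin, Nat.card_perm] at h1
    have h2 : (Nat.card (Perm (Fin (r + 1)) ⧸ H)).factorial ≤ r.factorial := Nat.factorial_le hle
    have h3 : r.factorial < (r + 1).factorial := Nat.factorial_lt_of_lt (by omega) (by omega)
    omega
  · have hnt : Nontrivial H.normalCore := (Subgroup.nontrivial_iff_ne_bot _).2 hN
    have h1 : alternatingGroup (Fin (r + 1)) ≤ H :=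
      (alternatingGroup_le_of_normal (by rw [Nat.card_eq_fintype_card, Fintype.card_fin]; omega)
        hnt).trans H.normalCore_le
    have h2 := Subgroup.card_dvd_of_le h1
    have h3 : 2 * Nat.card (alternatingGroup (Fin (r + 1))) = (r + 1).factorial := by
      have : Nontrivial (Fin (r + 1)) := Fin.nontrivial_iff_two_le.2 (by omega)
      rw [Nat.card_eq_fintype_card, two_mul_card_alternatingGroup, Fintype.card_perm,
        Fintype.card_fin]
    have h4 : r ∣ 2 * Nat.card (alternatingGroup (Fin (r + 1))) := by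
      rw [h3]; exact Nat.dvd_factorial hrp.pos (by omega)
    have h5' : r ∣ Nat.card (alternatingGroup (Fin (r + 1))) := by
      rcases (hrp.dvd_mul).1 h4 with h | h
      · have := Nat.le_of_dvd (by norm_num) h
        omega
      · exact h
    exact hr (hH.1 r hrp (h5'.trans h2))

lemma exists_maximal_ge {G : Type*} [Group G] [Finite G] (π : Set ℕ) (K : Subgroup G)
    (hK : IsPiSubgroup π K) : ∃ H, K ≤ H ∧ Maximal (IsPiSubgroup π) H :=
  Set.Finite.exists_le_maximal (s := {H | IsPiSubgroup π H}) (Set.toFinite _) hK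

lemma isPiSubgroup_bot {G : Type*} [Group G] (π : Set ℕ) : IsPiSubgroup π (⊥ : Subgroup G) := by
  intro p hp hd
  rw [Subgroup.card_bot] at hd
  exact absurd (Nat.dvd_one.1 hd) hp.one_lt.ne'

lemma isPiSubgroup_of_isPGroup {G : Type*} [Group G] [Finite G] {π : Set ℕ} {p : ℕ}
    (hp : p.Prime) (hpπ : p ∈ π) {K : Subgroup G} (hK : IsPGroup p K) : IsPiSubgroup π K := by
  have : Fact p.Prime := ⟨hp⟩
  intro q hq hqd
  obtain ⟨n, hn⟩ := IsPGroup.iff_card.1 hK
  rw [hn] at hqd
  rw [(Nat.prime_dvd_prime_iff_eq hq hp).1 (hq.dvd_of_dvd_pow hqd)]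
  exact hpπ

lemma E_of_D {G : Type*} [Group G] [Finite G] {π : Set ℕ} (hD : IsDPiGroup π G) :
    IsEPiGroup π G := by
  obtain ⟨H, -, hH⟩ := exists_maximal_ge π (⊥ : Subgroup G) (isPiSubgroup_bot π)
  refine ⟨H, hH.prop, ?_⟩
  intro p hp hpπ hd
  have : Fact p.Prime := ⟨hp⟩
  obtain ⟨P⟩ : Nonempty (Sylow p G) := inferInstance
  obtain ⟨K, hPK, hK⟩ := exists_maximal_ge π (P : Subgroup G)
    (isPiSubgroup_of_isPGroup hp hpπ P.2)
  obtain ⟨g, hg⟩ := hD H K hH hK
  have hidx : K.index = H.index := by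
    rw [hg]
    exact Subgroup.index_map_of_bijective (MulAut.conj g).bijective H
  have h1 : ¬ p ∣ K.index := fun h => P.not_dvd_index (h.trans (Subgroup.index_dvd_of_le hPK))
  exact h1 (hidx ▸ hd)

lemma ED_of_all {G : Type*} [Group G] [Finite G] {π : Set ℕ} (h : ∀ p : ℕ, p.Prime → p ∈ π) :
    IsEPiGroup π G ∧ IsDPiGroup π G := by
  have htop : IsPiSubgroup π (⊤ : Subgroup G) := fun p hp _ => h p hp
  constructor
  · exact ⟨⊤, htop, fun p hp _ hd => by
      rw [Subgroup.index_top] at hd; exact hp.one_lt.ne' (Nat.dvd_one.1 hd)⟩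
  · intro H K hH hK
    have h1 : H = ⊤ := eq_top_iff.2 (hH.le_of_ge htop le_top)
    have h2 : K = ⊤ := eq_top_iff.2 (hK.le_of_ge htop le_top)
    refine ⟨1, ?_⟩
    rw [h1, h2]
    exact (Subgroup.map_top_of_surjective _ (MulAut.conj (1 : G)).surjective).symm

lemma ED_of_unique {G : Type*} [Group G] [Finite G] {π : Set ℕ}
    (h : ∀ p q : ℕ, p.Prime → q.Prime → p ∈ π → q ∈ π → p = q) :
    IsEPiGroup π G ∧ IsDPiGroup π G := by
  by_cases hex : ∃ p : ℕ, p.Prime ∧ p ∈ π
  · obtain ⟨p, hp, hpπ⟩ := hex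
    have : Fact p.Prime := ⟨hp⟩
    have key : ∀ K : Subgroup G, IsPiSubgroup π K → IsPGroup p K := by
      intro K hK
      have := Nat.eq_prime_pow_of_unique_prime_dvd (n := Nat.card K) (p := p) Nat.card_pos.ne'
        (fun {d} hd hdd => h d p hd hp (hK d hd hdd) hpπ)
      exact IsPGroup.of_card this
    have hsyl : ∀ H : Subgroup G, Maximal (IsPiSubgroup π) H →
        ∃ P : Sylow p G, (P : Subgroup G) = H := by
      intro H hH
      obtain ⟨P, hP⟩ := (key H hH.prop).exists_le_sylow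
      exact ⟨P, le_antisymm (hH.le_of_ge (isPiSubgroup_of_isPGroup hp hpπ P.2) hP) hP⟩
    constructor
    · obtain ⟨P⟩ : Nonempty (Sylow p G) := inferInstance
      exact ⟨P, isPiSubgroup_of_isPGroup hp hpπ P.2, fun q hq hqπ hd => by
        rw [h q p hq hp hqπ hpπ] at hd; exact P.not_dvd_index hd⟩
    · intro H K hH hK
      obtain ⟨P, rfl⟩ := hsyl H hH
      obtain ⟨Q, rfl⟩ := hsyl K hK
      obtain ⟨g, hg⟩ := MulAction.exists_smul_eq G P Q
      refine ⟨g, ?_⟩
      rw [← hg]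
      rfl
  · push Not at hex
    have key : ∀ K : Subgroup G, IsPiSubgroup π K → K = ⊥ := by
      intro K hK
      rw [← Subgroup.card_eq_one]
      by_contra hne
      obtain ⟨q, hq, hqd⟩ := Nat.exists_prime_and_dvd hne
      exact hex q hq (hK q hq hqd)
    constructor
    · exact ⟨⊥, isPiSubgroup_bot π, fun p hp hpπ _ => hex p hp hpπ⟩
    · intro H K hH hK
      rw [key H hH.prop, key K hK.prop]
      exact ⟨1, by simp⟩

lemma cond_of_E (π : Set ℕ) (hE : ∀ (G : Type) [Group G] [Finite G], Cfsg.IsEPiGroup π G) :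
    (∀ p q : ℕ, p.Prime → q.Prime → p ∈ π → q ∈ π → p = q) ∨ ∀ p : ℕ, p.Prime → p ∈ π := by
  classical
  by_contra hcon
  push Not at hcon
  obtain ⟨⟨p, q, hp, hq, hpπ, hqπ, hpq⟩, ⟨r', hr', hr'π⟩⟩ := hcon
  have hex : ∃ r : ℕ, r.Prime ∧ r ∉ π := ⟨r', hr', hr'π⟩
  obtain ⟨hrp, hrπ⟩ := Nat.find_spec hex
  have hmin : ∀ s : ℕ, s.Prime → s < Nat.find hex → s ∈ π := by
    intro s hs hlt
    by_contra hsπ
    exact Nat.find_min hex hlt ⟨hs, hsπ⟩
  set r := Nat.find hex with hr
  by_cases hr2 : r = 2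
  · rw [hr2] at hrπ
    rcases lt_or_gt_of_ne hpq with h | h
    · exact no_hall_case1 hq hqπ hp hpπ h hrπ (hE _)
    · exact no_hall_case1 hp hpπ hq hqπ h hrπ (hE _)
  · have h2π : 2 ∈ π := hmin 2 Nat.prime_two (lt_of_le_of_ne hrp.two_le (Ne.symm hr2))
    by_cases hbig : ∃ s : ℕ, s.Prime ∧ s ∈ π ∧ r < s
    · obtain ⟨s, hs, hsπ, hlt⟩ := hbig
      exact no_hall_case2 hs hsπ h2π hrp hrπ hlt (hE _)
    · push Not at hbig
      have hp1 : p ≤ r := hbig p hp hpπ
      have hq1 : q ≤ r := hbig q hq hqπ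
      have hp2 : p ≠ r := fun h => hrπ (h ▸ hpπ)
      have hq2 : q ≠ r := fun h => hrπ (h ▸ hqπ)
      have hp3 := hp.two_le
      have hq3 := hq.two_le
      have h4 : r ≠ 4 := by
        intro h
        rw [h] at hrp
        exact absurd hrp (by norm_num)
      exact no_hall_case3 hrp hrπ (by omega) hmin (hE _)

/-- For a set of primes π the following are equivalent: every finite group has a Hall π-subgroup; in every finite group the maximal π-subgroups are pairwise conjugate; π contains at most one prime or contains every prime. -/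
theorem result (π : Set ℕ) :
    ((∀ (G : Type) [Group G] [Finite G], Cfsg.IsEPiGroup π G) ↔
      ((∀ p q : ℕ, p.Prime → q.Prime → p ∈ π → q ∈ π → p = q) ∨ ∀ p : ℕ, p.Prime → p ∈ π)) ∧
    ((∀ (G : Type) [Group G] [Finite G], Cfsg.IsDPiGroup π G) ↔
      ((∀ p q : ℕ, p.Prime → q.Prime → p ∈ π → q ∈ π → p = q) ∨ ∀ p : ℕ, p.Prime → p ∈ π)) := by
  refine ⟨⟨cond_of_E π, ?_⟩, ⟨fun h => cond_of_E π (fun G _ _ => E_of_D (h G)), ?_⟩⟩
  · rintro (h | h) G _ _
    · exact (ED_of_unique h).1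
    · exact (ED_of_all h).1
  · rintro (h | h) G _ _
    · exact (ED_of_unique h).2
    · exact (ED_of_all h).2

end Cfsg.Agent.S3878
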