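import Cfsg.Statements.S3880
import Cfsg.Agent.Lib.Helper98MetaD

set_option autoImplicit false
open Cfsg

namespace Cfsg.Agent.S3880

/-- Let p be an odd prime and G a finite metacyclic p-group (G has a cyclic normal subgroup with cyclic quotient). Then a subgroup L of G is abelian if and only if |L| ≤ |G : G'|, and L is a maximal abelian subgroup of G if and only if |L| = |G : G'|. -/
theorem result {G : Type*} [Group G] [Finite G] {p : ℕ} [Fact p.Prime] (hp : p ≠ 2) (hG : IsPGroup p G) (hmc : Cfsg.IsMetacyclic G) (L : Subgroup G) :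
    (IsMulCommutative ↥L ↔ Nat.card ↥L ≤ (commutator G).index) ∧
      (Maximal (fun K : Subgroup G => IsMulCommutative ↥K) L ↔ Nat.card ↥L = (commutator G).index) := by
  have hpr : p.Prime := Fact.out
  obtain ⟨n, hn⟩ := IsPGroup.iff_card.mp (hG.to_subgroup (commutator G))
  have habel : ∀ K : Subgroup G, IsMulCommutative ↥K ↔ Nat.card ↥K ≤ (commutator G).index := by
    intro K
    obtain ⟨u, hu⟩ := hG.index K
    rw [Cfsg.Agent.Lib.Helper98MetaD.isMulCommutative_subgroup_iff hp hG hmc n hn K u hu,
      Cfsg.Agent.Lib.Helper98MetaD.card_le_index_commutator_iff n hn K u hu]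
  refine ⟨habel L, ?_⟩
  constructor
  · intro hmax
    have h1 : Nat.card ↥L ≤ (commutator G).index := (habel L).mp hmax.prop
    by_contra hne
    have hlt : Nat.card ↥L < (commutator G).index := lt_of_le_of_ne h1 hne
    obtain ⟨w, hw⟩ := IsPGroup.iff_card.mp (hG.to_subgroup L)
    obtain ⟨v, hv⟩ := hG.index (commutator G)
    rw [hw, hv] at hlt
    have hwv : w < v := (Nat.pow_lt_pow_iff_right hpr.one_lt).mp hlt
    have hdvd : p ^ (w + 1) ∣ Nat.card G :=
      (pow_dvd_pow p hwv).trans (hv ▸ (commutator G).index_dvd_card)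
    obtain ⟨K, hK, hLK⟩ := Sylow.exists_subgroup_card_pow_succ hdvd hw
    have hKab : IsMulCommutative ↥K := by
      rw [habel K, hK, hv]
      exact Nat.pow_le_pow_right hpr.pos hwv
    have hKL : K ≤ L := hmax.le_of_ge hKab hLK
    have := Subgroup.card_le_of_le hKL
    rw [hK, hw] at this
    exact absurd this (not_le.mpr (Nat.pow_lt_pow_right hpr.one_lt (Nat.lt_succ_self w)))
  · intro hcard
    refine ⟨(habel L).mpr hcard.le, ?_⟩
    intro K hK hLK
    have h1 := (habel K).mp hK
    rw [← hcard] at h1
    exact (Subgroup.eq_of_le_of_card_ge hLK h1).ge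

end Cfsg.Agent.S3880
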