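import Cfsg.Statements.S3881
import Cfsg.Agent.Lib.Helper98MetaC

set_option autoImplicit false
open Cfsg

namespace Cfsg.Agent.S3881

/-- Let p be an odd prime and G a finite metacyclic p-group (G has a cyclic normal subgroup with cyclic quotient). Suppose G is non-abelian with |G'| = p^n. Then for 1 ≤ i ≤ n the number of elements of G whose conjugacy class has exactly p^i elements is |Z(G)| · (p^(2i) − p^(2i−2)). -/
theorem result {G : Type*} [Group G] [Finite G] {p : ℕ} [Fact p.Prime] (hp : p ≠ 2) (hG : IsPGroup p G) (hmc : Cfsg.IsMetacyclic G) (n : ℕ) (hn : n ≠ 0) (hGn : Nat.card ↥(commutator G) = p ^ n) (i : ℕ) (hi : 1 ≤ i) (hin : i ≤ n) :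
    Nat.card {g : G // (Subgroup.centralizer ({g} : Set G)).index = p ^ i} =
      Nat.card ↥(Subgroup.center G) * (p ^ (2 * i) - p ^ (2 * i - 2)) := by
  classical
  have hpos : 0 < p := (Fact.out : p.Prime).pos
  have hA := Cfsg.Agent.Lib.Helper98MetaC.agemo_main hp hG hmc n hGn (n - i) (Nat.sub_le _ _)
  have hB := Cfsg.Agent.Lib.Helper98MetaC.agemo_main hp hG hmc n hGn (n - i + 1) (by omega)
  have hZ := Cfsg.Agent.Lib.Helper98MetaB.index_center hp hG hmc
  set A := Cfsg.Agent.Lib.Helper98MetaC.agemo G (p ^ (n - i)) with hAdef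
  set B := Cfsg.Agent.Lib.Helper98MetaC.agemo G (p ^ (n - i + 1)) with hBdef
  have e1 : n - (n - i) = i := by omega
  have e2 : n - (n - i + 1) = i - 1 := by omega
  rw [e1] at hA
  rw [e2] at hB
  have hBA : (B : Set G) ⊆ A := by
    intro g hg
    rw [SetLike.mem_coe, hB.2] at hg
    rw [SetLike.mem_coe, hA.2]
    exact hg.trans (Nat.pow_le_pow_right hpos (Nat.sub_le _ _))
  have hset : {g : G | (Subgroup.centralizer ({g} : Set G)).index = p ^ i} = (A : Set G) \ B := by
    ext g
    simp only [Set.mem_setOf_eq, Set.mem_diff, SetLike.mem_coe]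
    rw [hA.2, hB.2]
    constructor
    · intro h
      rw [h]
      refine ⟨le_rfl, ?_⟩
      rw [not_le]
      exact Nat.pow_lt_pow_right (Fact.out : p.Prime).one_lt (by omega)
    · rintro ⟨h1, h2⟩
      obtain ⟨k, hk⟩ := hG.index (Subgroup.centralizer ({g} : Set G))
      rw [hk] at h1 h2 ⊢
      have h3 : k ≤ i := (Nat.pow_le_pow_iff_right (Fact.out : p.Prime).one_lt).mp h1
      have h4 : ¬ k ≤ i - 1 := fun h => h2 (Nat.pow_le_pow_right hpos h)
      congr 1
      omega
  have hcA : Nat.card A = Nat.card (Subgroup.center G) * p ^ (2 * i) := by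
    have h1 := Subgroup.card_mul_index A
    have h2 := Subgroup.card_mul_index (Subgroup.center G)
    rw [hA.1] at h1
    rw [hZ, hGn, ← pow_mul] at h2
    have h3 : Nat.card A * p ^ (2 * (n - i)) = Nat.card (Subgroup.center G) * p ^ (2 * i) * p ^ (2 * (n - i)) := by
      rw [h1, ← h2, mul_assoc, ← pow_add]
      congr 2
      omega
    exact Nat.eq_of_mul_eq_mul_right (pow_pos hpos _) h3
  have hcB : Nat.card B = Nat.card (Subgroup.center G) * p ^ (2 * i - 2) := by
    have h1 := Subgroup.card_mul_index B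
    have h2 := Subgroup.card_mul_index (Subgroup.center G)
    rw [hB.1] at h1
    rw [hZ, hGn, ← pow_mul] at h2
    have h3 : Nat.card B * p ^ (2 * (n - i + 1)) = Nat.card (Subgroup.center G) * p ^ (2 * i - 2) * p ^ (2 * (n - i + 1)) := by
      rw [h1, ← h2, mul_assoc, ← pow_add]
      congr 2
      omega
    exact Nat.eq_of_mul_eq_mul_right (pow_pos hpos _) h3
  have h5 : Nat.card {g : G // (Subgroup.centralizer ({g} : Set G)).index = p ^ i}
      = ((A : Set G) \ B).ncard := by
    rw [← hset]; rfl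
  rw [h5, Set.ncard_diff hBA (Set.toFinite _), Nat.mul_sub]
  have h6 : (A : Set G).ncard = Nat.card A := rfl
  have h7 : (B : Set G).ncard = Nat.card B := rfl
  rw [h6, h7, hcA, hcB]

end Cfsg.Agent.S3881
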