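import Cfsg.Statements.S3885
import Cfsg.Agent.Lib.Helper98MetaE

set_option autoImplicit false
open Cfsg

namespace Cfsg.Agent.S3885

/-- Let p be an odd prime and G a finite metacyclic p-group (G has a cyclic normal subgroup with cyclic quotient). Then every abelian subgroup K of G containing the center of G is the center of its own centralizer: K = Z(C_G(K)). -/
theorem result {G : Type*} [Group G] [Finite G] {p : ℕ} [Fact p.Prime] (hp : p ≠ 2) (hG : IsPGroup p G) (hmc : Cfsg.IsMetacyclic G) (K : Subgroup G) (hK : IsMulCommutative ↥K) (hZ : Subgroup.center G ≤ K) :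
    K = Subgroup.centralizer (K : Set G) ⊓ Subgroup.centralizer (Subgroup.centralizer (K : Set G) : Set G) := by
  have hpr : p.Prime := Fact.out
  obtain ⟨n, hn⟩ := IsPGroup.iff_card.mp (hG.to_subgroup (commutator G))
  have hCD := Cfsg.Agent.Lib.Helper98MetaE.card_mul_card_centralizer hp (Nat.card G) G rfl hG hmc K hZ
  set C := Subgroup.centralizer (K : Set G) with hC
  obtain ⟨u, hu⟩ := hG.index C
  have hKC : K ≤ C := by
    intro x hx
    rw [hC, Subgroup.mem_centralizer_iff]
    intro y hy
    exact congrArg Subtype.val (hK.is_comm.comm ⟨y, hy⟩ ⟨x, hx⟩)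
  have hKCC : K ≤ Subgroup.centralizer (C : Set G) := by
    intro x hx
    rw [Subgroup.mem_centralizer_iff]
    intro y hy
    exact (Subgroup.mem_centralizer_iff.mp hy x hx).symm
  have hle : K ≤ C ⊓ Subgroup.centralizer (C : Set G) := le_inf hKC hKCC
  apply Subgroup.eq_of_le_of_card_ge hle
  rw [inf_comm, ← Cfsg.Agent.Lib.Helper98MetaE.card_center]
  rcases Nat.lt_or_ge n u with hun | hun
  · exfalso
    have h1 : Nat.card ↥C ≤ (commutator G).index :=
      (Cfsg.Agent.Lib.Helper98MetaD.card_le_index_commutator_iff n hn C u hu).mpr hun.le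
    have h2 : Nat.card ↥C ≠ (commutator G).index := fun h =>
      hun.ne' ((Cfsg.Agent.Lib.Helper98MetaD.card_eq_index_commutator_iff n hn C u hu).mp h)
    have h3 : Nat.card ↥C < (commutator G).index := lt_of_le_of_ne h1 h2
    have h4 : Nat.card ↥K * Nat.card ↥C < (commutator G).index ^ 2 := by
      calc Nat.card ↥K * Nat.card ↥C ≤ Nat.card ↥C * Nat.card ↥C :=
            Nat.mul_le_mul_right _ (Subgroup.card_le_of_le hKC)
        _ < (commutator G).index ^ 2 := by rw [sq]; exact Nat.mul_self_lt_mul_self h3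
    rw [hCD, Cfsg.Agent.Lib.Helper98MetaD.index_commutator_sq hp hG hmc] at h4
    exact lt_irrefl _ h4
  · have hF := Cfsg.Agent.Lib.Helper98MetaD.card_mul_card_center hp hG hmc n hn C u hu hun
    rw [← hCD, mul_comm (Nat.card ↥K)] at hF
    exact (Nat.eq_of_mul_eq_mul_left Nat.card_pos hF).le

end Cfsg.Agent.S3885
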