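import Cfsg.Statements.S3886
import Cfsg.Agent.Lib.Helper98MetaD
import Cfsg.Agent.S3880

set_option autoImplicit false
open Cfsg

namespace Cfsg.Agent.S3886

/-- Let p be an odd prime and G a finite metacyclic p-group (G has a cyclic normal subgroup with cyclic quotient). Then the largest value of |R| · |Z(R)| over subgroups R of G is |G : G'|², and the subgroups attaining it (the centrally large subgroups) are exactly the non-abelian subgroups together with the maximal abelian subgroups of G. -/
theorem result {G : Type*} [Group G] [Finite G] {p : ℕ} [Fact p.Prime] (hp : p ≠ 2) (hG : IsPGroup p G) (hmc : Cfsg.IsMetacyclic G) : Cfsg.maxCentralProduct G = (commutator G).index ^ 2 ∧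
    ∀ R : Subgroup G, Cfsg.IsCentrallyLarge R ↔ (¬ IsMulCommutative ↥R ∨ Maximal (fun K : Subgroup G => IsMulCommutative ↥K) R) := by
  have hpr : p.Prime := Fact.out
  obtain ⟨n, hn⟩ := IsPGroup.iff_card.mp (hG.to_subgroup (commutator G))
  have hsq := Cfsg.Agent.Lib.Helper98MetaD.index_commutator_sq hp hG hmc
  -- the value of `|R| |Z(R)|`
  have hval : ∀ (R : Subgroup G) (u : ℕ), R.index = p ^ u →
      (u ≤ n → Nat.card ↥R * Nat.card ↥(Subgroup.center ↥R) = (commutator G).index ^ 2) ∧
      (n < u → Nat.card ↥R * Nat.card ↥(Subgroup.center ↥R) < (commutator G).index ^ 2) := by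
    intro R u hu
    constructor
    · intro hun
      rw [hsq]
      exact Cfsg.Agent.Lib.Helper98MetaD.card_mul_card_center hp hG hmc n hn R u hu hun
    · intro hun
      have h1 : Nat.card ↥R ≤ (commutator G).index :=
        (Cfsg.Agent.Lib.Helper98MetaD.card_le_index_commutator_iff n hn R u hu).mpr hun.le
      have h2 : Nat.card ↥R ≠ (commutator G).index := fun h =>
        hun.ne' ((Cfsg.Agent.Lib.Helper98MetaD.card_eq_index_commutator_iff n hn R u hu).mp h)
      have h3 : Nat.card ↥R < (commutator G).index := lt_of_le_of_ne h1 h2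
      have h4 : Nat.card ↥(Subgroup.center ↥R) ≤ Nat.card ↥R := Subgroup.card_le_card_group _
      calc Nat.card ↥R * Nat.card ↥(Subgroup.center ↥R) ≤ Nat.card ↥R * Nat.card ↥R :=
            Nat.mul_le_mul_left _ h4
        _ < (commutator G).index ^ 2 := by rw [sq]; exact Nat.mul_self_lt_mul_self h3
  have hmax : Cfsg.maxCentralProduct G = (commutator G).index ^ 2 := by
    unfold Cfsg.maxCentralProduct
    apply IsGreatest.csSup_eq
    constructor
    · exact ⟨⊤, ((hval ⊤ 0 (by simp)).1 (Nat.zero_le _))⟩
    · rintro k ⟨R, rfl⟩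
      obtain ⟨u, hu⟩ := hG.index R
      rcases Nat.lt_or_ge n u with h | h
      · exact ((hval R u hu).2 h).le
      · exact ((hval R u hu).1 h).le
  refine ⟨hmax, fun R => ?_⟩
  obtain ⟨u, hu⟩ := hG.index R
  unfold Cfsg.IsCentrallyLarge
  rw [hmax, (Cfsg.Agent.S3880.result hp hG hmc R).2,
    Cfsg.Agent.Lib.Helper98MetaD.isMulCommutative_subgroup_iff hp hG hmc n hn R u hu,
    Cfsg.Agent.Lib.Helper98MetaD.card_eq_index_commutator_iff n hn R u hu]
  constructor
  · intro h
    rcases Nat.lt_or_ge n u with h1 | h1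
    · exact absurd h ((hval R u hu).2 h1).ne
    · omega
  · intro h
    exact (hval R u hu).1 (by omega)

end Cfsg.Agent.S3886
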