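import Cfsg.Statements.S3887
import Cfsg.Agent.Lib.Helper98MetaE

set_option autoImplicit false
open Cfsg

namespace Cfsg.Agent.S3887

/-- Let p be an odd prime and G a finite metacyclic p-group (G has a cyclic normal subgroup with cyclic quotient). Then a subgroup R of G maximizes |R| · |C_G(R)| over all subgroups of G if and only if R contains the center of G. -/
theorem result {G : Type*} [Group G] [Finite G] {p : ℕ} [Fact p.Prime] (hp : p ≠ 2) (hG : IsPGroup p G) (hmc : Cfsg.IsMetacyclic G) (R : Subgroup G) : Cfsg.IsCentralizerLarge R ↔ Subgroup.center G ≤ R := by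
  have hCD := fun (R : Subgroup G) (hR : Subgroup.center G ≤ R) =>
    Cfsg.Agent.Lib.Helper98MetaE.card_mul_card_centralizer hp (Nat.card G) G rfl hG hmc R hR
  have hcen : ∀ R : Subgroup G, Subgroup.centralizer ((R ⊔ Subgroup.center G : Subgroup G) : Set G)
      = Subgroup.centralizer (R : Set G) := by
    intro R
    apply le_antisymm
    · exact Subgroup.centralizer_le (show (R : Set G) ⊆ (R ⊔ Subgroup.center G : Subgroup G) from
        (le_sup_left : R ≤ R ⊔ Subgroup.center G))
    · intro x hx
      have h1 : R ⊔ Subgroup.center G ≤ Subgroup.centralizer ({x} : Set G) := by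
        rw [sup_le_iff]
        constructor
        · intro y hy
          rw [Subgroup.mem_centralizer_singleton_iff]
          exact Subgroup.mem_centralizer_iff.mp hx y hy
        · intro y hy
          rw [Subgroup.mem_centralizer_singleton_iff]
          exact (Subgroup.mem_center_iff.mp hy x).symm
      rw [Subgroup.mem_centralizer_iff]
      intro y hy
      exact Subgroup.mem_centralizer_singleton_iff.mp (h1 hy)
  have hle : ∀ R : Subgroup G, Nat.card ↥R * Nat.card ↥(Subgroup.centralizer (R : Set G))
      ≤ Nat.card G * Nat.card ↥(Subgroup.center G) := by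
    intro R
    rw [← hCD (R ⊔ Subgroup.center G) le_sup_right, hcen]
    exact Nat.mul_le_mul_right _ (Subgroup.card_le_of_le le_sup_left)
  have hmax : Cfsg.maxCentralizerProduct G = Nat.card G * Nat.card ↥(Subgroup.center G) := by
    unfold Cfsg.maxCentralizerProduct
    apply IsGreatest.csSup_eq
    constructor
    · exact ⟨⊤, hCD ⊤ le_top⟩
    · rintro k ⟨R, rfl⟩
      exact hle R
  unfold Cfsg.IsCentralizerLarge
  rw [hmax]
  constructor
  · intro h
    rw [← hCD (R ⊔ Subgroup.center G) le_sup_right, hcen] at h
    have h1 := Nat.eq_of_mul_eq_mul_right Nat.card_pos h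
    have h2 : R = R ⊔ Subgroup.center G := Subgroup.eq_of_le_of_card_ge le_sup_left h1.ge
    rw [h2]
    exact le_sup_right
  · exact hCD R

end Cfsg.Agent.S3887
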