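import Mathlib
import Cfsg.Statements.S3895
import Cfsg.Agent.S3897
import Cfsg.Agent.Lib.Helper11Frobenius

set_option autoImplicit false
open Cfsg

namespace Cfsg.Agent.S3895

open Subgroup Cfsg.Agent.Lib.Helper11Frobenius

variable {G : Type*} [Group G] [Finite G]

/-- a `2`-subgroup normalized but not centralized by an element of odd order -/
def Bad (Q : Subgroup G) (a : G) : Prop :=
  IsPGroup 2 Q ∧ (∀ x ∈ Q, a * x * a⁻¹ ∈ Q) ∧ Odd (orderOf a) ∧ ∃ x ∈ Q, a * x * a⁻¹ ≠ x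

theorem exists_bad (h : ¬ Cfsg.HasNormalPComplement 2 G) : ∃ (Q : Subgroup G) (a : G), Bad Q a := by
  rw [← hasNPC_iff, hasNPC_iff_frobCond] at h
  unfold FrobCond at h
  push_neg at h
  obtain ⟨Q, hQ, g, hg, hg2, hgc⟩ := h
  refine ⟨Q, g, hQ, fun x hx => (mem_normalizer_iff.mp hg x).mp hx, ?_, ?_⟩
  · exact Nat.Coprime.odd_of_right hg2
  · by_contra hcon
    push_neg at hcon
    apply hgc
    rw [mem_centralizer_iff]
    intro x hx
    have := hcon x hx
    rw [mul_inv_eq_iff_eq_mul] at this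
    exact this.symm

theorem conj_pow_mem {Q : Subgroup G} {a : G} (h : ∀ x ∈ Q, a * x * a⁻¹ ∈ Q) (k : ℕ) :
    ∀ x ∈ Q, a ^ k * x * (a ^ k)⁻¹ ∈ Q := by
  induction k with
  | zero => intro x hx; simpa using hx
  | succ k ih =>
    intro x hx
    have := h _ (ih x hx)
    have e : a ^ (k + 1) * x * (a ^ (k + 1))⁻¹ = a * (a ^ k * x * (a ^ k)⁻¹) * a⁻¹ := by
      rw [pow_succ']; group
    rw [e]; exact this

theorem conj_pow_eq {Q : Subgroup G} {a b : G} (h : ∀ x ∈ Q, a * x * a⁻¹ ∈ Q)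
    (hab : ∀ x ∈ Q, b * x * b⁻¹ = a * x * a⁻¹) (k : ℕ) :
    ∀ x ∈ Q, b ^ k * x * (b ^ k)⁻¹ = a ^ k * x * (a ^ k)⁻¹ := by
  induction k with
  | zero => intro x hx; simp
  | succ k ih =>
    intro x hx
    have e : a ^ (k + 1) * x * (a ^ (k + 1))⁻¹ = a * (a ^ k * x * (a ^ k)⁻¹) * a⁻¹ := by
      rw [pow_succ']; group
    have e' : b ^ (k + 1) * x * (b ^ (k + 1))⁻¹ = b * (b ^ k * x * (b ^ k)⁻¹) * b⁻¹ := by
      rw [pow_succ']; group
    rw [e, e', ih x hx, hab _ (conj_pow_mem h k x hx)]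

/-- if a power `a ^ k` with `k` prime to the order of `a` fixes `x`, so does `a` -/
theorem fix_of_pow_fix {a x : G} {k : ℕ} (hk : (orderOf a).Coprime k)
    (h : a ^ k * x * (a ^ k)⁻¹ = x) : a * x * a⁻¹ = x := by
  obtain ⟨j, hj⟩ := exists_pow_eq_self_of_coprime hk.symm
  have h1 : Commute (a ^ k) x := by
    rw [mul_inv_eq_iff_eq_mul] at h; exact h
  have h2 : Commute a x := by
    rw [← hj]; exact h1.pow_left j
  rw [mul_inv_eq_iff_eq_mul]; exact h2


theorem conj_inv_mem {Q : Subgroup G} {a : G} (h : ∀ x ∈ Q, a * x * a⁻¹ ∈ Q) :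
    ∀ x ∈ Q, a⁻¹ * x * a ∈ Q := by
  intro x hx
  have h1 := conj_pow_mem h (orderOf a - 1) x hx
  have h2 : a ^ (orderOf a - 1) = a⁻¹ := by
    rw [eq_inv_iff_mul_eq_one, ← pow_succ, Nat.sub_add_cancel (orderOf_pos a), pow_orderOf_eq_one]
  rw [h2, inv_inv] at h1
  exact h1

theorem mem_of_centralizes {Q : Subgroup G} {a : G} (hB : Bad Q a)
    (hmax : ∀ (Q' : Subgroup G) (a' : G), Bad Q' a' → Nat.card Q' ≤ Nat.card Q)
    (t : G) (ht : ∀ x ∈ Q, x * t = t * x) (k : ℕ) (hk : orderOf t = 2 ^ k) : t ∈ Q := by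
  obtain ⟨hQ, hn, hodd, x₀, hx₀, hx₀'⟩ := hB
  set C : Subgroup G := centralizer (Q : Set G) with hC
  have htC : t ∈ C := by
    rw [hC, mem_centralizer_iff]; exact ht
  have hpt : IsPGroup 2 (zpowers t) := by
    rw [IsPGroup.iff_card]
    exact ⟨k, by rw [Nat.card_zpowers, hk]⟩
  obtain ⟨T', hT'⟩ := (hpt.comap_subtype (K := C)).exists_le_sylow
  set T : Subgroup G := (T' : Subgroup C).map C.subtype with hT
  have hTC : T ≤ C := map_subtype_le _
  have hTp : IsPGroup 2 T := T'.2.map _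
  have htT : t ∈ T := ⟨⟨t, htC⟩, hT' (show t ∈ zpowers t from mem_zpowers t), rfl⟩
  have hTmax : ∀ U : Subgroup G, IsPGroup 2 U → T ≤ U → U ≤ C → U = T := by
    intro U hU hTU hUC
    have h1 : (T' : Subgroup C) ≤ U.subgroupOf C := by
      intro s hs
      rw [mem_subgroupOf]
      exact hTU ⟨s, hs, rfl⟩
    have h2 := T'.is_maximal' (hU.comap_subtype (K := C)) h1
    rw [hT, ← h2]
    have h3 := subgroupOf_map_subtype U C
    rw [inf_eq_left.mpr hUC] at h3
    exact h3.symm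
  obtain ⟨hconj, -⟩ := rel_sylow C T hTC hTp hTmax
  obtain ⟨n, hnC, hnT⟩ := hconj (T.map (MulAut.conj a).toMonoidHom) (hTp.map _) (by
    rintro _ ⟨s, hs, rfl⟩
    have hsC := hTC hs
    rw [hC, mem_centralizer_iff] at hsC ⊢
    intro x hx
    have h1 := hsC _ (conj_inv_mem hn x hx)
    simp only [MulEquiv.coe_toMonoidHom, MulAut.conj_apply]
    calc x * (a * s * a⁻¹) = a * ((a⁻¹ * x * a) * s) * a⁻¹ := by group
      _ = a * (s * (a⁻¹ * x * a)) * a⁻¹ := by rw [h1]
      _ = a * s * a⁻¹ * x := by group)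
  set b : G := n * a with hb
  have hbQ : ∀ x ∈ Q, b * x * b⁻¹ = a * x * a⁻¹ := by
    intro x hx
    have h1 := (mem_centralizer_iff.mp hnC) _ (hn x hx)
    calc b * x * b⁻¹ = n * (a * x * a⁻¹) * n⁻¹ := by rw [hb]; group
      _ = a * x * a⁻¹ := by rw [← h1]; group
  have hbT : ∀ s ∈ T, b * s * b⁻¹ ∈ T := by
    intro s hs
    have h1 := hnT _ ⟨s, hs, rfl⟩
    simp only [MulEquiv.coe_toMonoidHom, MulAut.conj_apply] at h1
    have e : b * s * b⁻¹ = n * (a * s * a⁻¹) * n⁻¹ := by rw [hb]; group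
    rw [e]; exact h1
  -- the odd part of `b`
  obtain ⟨j, m, hm, hjm⟩ := Nat.exists_eq_two_pow_mul_odd (orderOf_pos b).ne'
  set a' : G := b ^ (2 ^ j) with ha'
  have hodd' : Odd (orderOf a') := by
    have : orderOf a' = m := by
      rw [ha', orderOf_pow_of_dvd (by positivity) (by rw [hjm]; exact dvd_mul_right _ _), hjm]
      exact Nat.mul_div_cancel_left _ (by positivity)
    rw [this]; exact hm
  have hbn : ∀ x ∈ Q, b * x * b⁻¹ ∈ Q := fun x hx => by rw [hbQ x hx]; exact hn x hx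
  have hbad : Bad (Q ⊔ T) a' := by
    refine ⟨?_, ?_, hodd', x₀, le_sup_left (a := Q) hx₀, ?_⟩
    · refine IsPGroup.to_sup_of_normal_left' hQ hTp ?_
      exact hTC.trans (centralizer_le_normalizer _)
    · have h1 : (Q ⊔ T).map (MulAut.conj a').toMonoidHom ≤ Q ⊔ T := by
        rw [Subgroup.map_sup]
        apply sup_le_sup
        · rintro _ ⟨x, hx, rfl⟩
          exact conj_pow_mem hbn _ x hx
        · rintro _ ⟨x, hx, rfl⟩
          exact conj_pow_mem hbT _ x hx
      intro x hx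
      exact h1 ⟨x, hx, rfl⟩
    · intro h1
      rw [ha', conj_pow_eq hn hbQ _ x₀ hx₀] at h1
      apply hx₀'
      refine fix_of_pow_fix ?_ h1
      exact Nat.Coprime.pow_right _ (Nat.coprime_two_right.mpr hodd)
  have h1 := hmax _ _ hbad
  have h2 : Q = Q ⊔ T := by
    apply SetLike.coe_injective
    apply Set.eq_of_subset_of_ncard_le (show (Q : Set G) ⊆ ((Q ⊔ T : Subgroup G) : Set G) from
      (le_sup_left : Q ≤ Q ⊔ T)) ?_ (Set.toFinite _)
    exact h1
  rw [h2]
  exact le_sup_right (a := Q) htT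


theorem mem_F {Q : Subgroup G} {a x : G} :
    x ∈ Q ⊓ centralizer ({a} : Set G) ↔ x ∈ Q ∧ a * x * a⁻¹ = x := by
  rw [mem_inf, mem_centralizer_singleton_iff, mul_inv_eq_iff_eq_mul, eq_comm]

theorem conj_pow_of_conj {a x c : G} (h1 : a * x * a⁻¹ = x * c) (h2 : a * c * a⁻¹ = c) (k : ℕ) :
    a ^ k * x * (a ^ k)⁻¹ = x * c ^ k := by
  induction k with
  | zero => simp
  | succ k ih =>
    have e : a ^ (k + 1) * x * (a ^ (k + 1))⁻¹ = a * (a ^ k * x * (a ^ k)⁻¹) * a⁻¹ := by
      rw [pow_succ']; group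
    have h3 : a * c ^ k * a⁻¹ = c ^ k := by
      rw [mul_inv_eq_iff_eq_mul] at h2 ⊢
      exact (Commute.pow_right (show Commute a c from h2) k)
    calc a ^ (k + 1) * x * (a ^ (k + 1))⁻¹ = a * (x * c ^ k) * a⁻¹ := by rw [e, ih]
      _ = (a * x * a⁻¹) * (a * c ^ k * a⁻¹) := by group
      _ = x * c ^ (k + 1) := by rw [h1, h3, pow_succ', mul_assoc]

theorem four_mul_card_le {Q : Subgroup G} {a : G} (hB : Bad Q a) :
    4 * Nat.card ↥(Q ⊓ centralizer ({a} : Set G) : Subgroup G) ≤ Nat.card Q := by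
  obtain ⟨hQ, hn, hodd, x₀, hx₀, hx₀'⟩ := hB
  set F : Subgroup G := Q ⊓ centralizer ({a} : Set G) with hF
  have hFQ : F ≤ Q := inf_le_left
  have hcard : Nat.card (F.subgroupOf Q) = Nat.card F :=
    Nat.card_congr (subgroupOfEquivOfLe hFQ).toEquiv
  have hmul := (F.subgroupOf Q).card_mul_index
  rw [hcard] at hmul
  obtain ⟨n, hn'⟩ := IsPGroup.iff_card.mp hQ
  have hdvd : (F.subgroupOf Q).index ∣ 2 ^ n := hn' ▸ (F.subgroupOf Q).index_dvd_card
  obtain ⟨i, -, hi⟩ := (Nat.dvd_prime_pow Nat.prime_two).mp hdvd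
  have hx₀F : x₀ ∉ F := fun h => hx₀' (mem_F.mp h).2
  have hi2 : 2 ≤ i := by
    by_contra hlt
    push_neg at hlt
    interval_cases i
    · rw [pow_zero, index_eq_one, subgroupOf_eq_top] at hi
      exact hx₀F (hi hx₀)
    · rw [pow_one] at hi
      have h1 : a * x₀ * a⁻¹ ∉ F := by
        intro h
        have h2 := (mem_F.mp h).2
        apply hx₀'
        have h3 : a * (a * x₀ * a⁻¹) * a⁻¹ = a * x₀ * a⁻¹ := h2
        have h4 : a * (a * x₀ * a⁻¹) = a * x₀ := by
          rw [mul_inv_eq_iff_eq_mul] at h3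
          rw [h3]; group
        exact mul_left_cancel h4
      have h2 := mul_mem_iff_of_index_two hi (a := (⟨x₀, hx₀⟩ : Q)⁻¹)
        (b := ⟨a * x₀ * a⁻¹, hn x₀ hx₀⟩)
      rw [inv_mem_iff] at h2
      simp only [mem_subgroupOf] at h2
      have h3 : x₀⁻¹ * (a * x₀ * a⁻¹) ∈ F := h2.mpr ⟨fun h => absurd h hx₀F, fun h => absurd h h1⟩
      set c := x₀⁻¹ * (a * x₀ * a⁻¹) with hc
      have h4 : a * x₀ * a⁻¹ = x₀ * c := by rw [hc]; group
      have h5 := conj_pow_of_conj h4 (mem_F.mp h3).2 (orderOf a)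
      rw [pow_orderOf_eq_one] at h5
      have h6 : c ^ orderOf a = 1 := by simpa using h5
      obtain ⟨j, hj⟩ := (IsPGroup.iff_orderOf.mp hQ) ⟨c, hFQ h3⟩
      rw [Subgroup.orderOf_mk] at hj
      have h7 : orderOf c ∣ orderOf a := orderOf_dvd_of_pow_eq_one h6
      have h8 : c = 1 := by
        rw [← orderOf_eq_one_iff]
        have h9 : (orderOf c).Coprime (orderOf a) := by
          rw [hj]; exact Nat.Coprime.pow_left _ (Nat.coprime_two_left.mpr hodd)
        exact Nat.Coprime.eq_one_of_dvd h9 h7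
      apply hx₀'
      rw [h4, h8, mul_one]
  have h4 : 4 ≤ (F.subgroupOf Q).index := by
    rw [hi]
    calc 4 = 2 ^ 2 := by norm_num
      _ ≤ 2 ^ i := Nat.pow_le_pow_right (by norm_num) hi2
  rw [← hmul, mul_comm]
  exact Nat.mul_le_mul_left _ h4


open Classical in
theorem sum_ind (P H : Subgroup G) (h : H ≤ P) [Fintype P] :
    ∑ x : ↥P, (if (x : G) ∈ H then 1 else 0) = Nat.card H := by
  rw [Finset.sum_boole, ← Nat.card_congr (subgroupOfEquivOfLe h).toEquiv, Nat.cast_id,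
    Nat.card_eq_fintype_card, Fintype.card_subtype]
  rfl

theorem cls_eq_iff (P : Sylow 2 G) (x y : ↥(P : Subgroup G)) :
    S3897.cls P x = S3897.cls P y ↔ ∃ g : G, g * x * g⁻¹ = y := by
  rw [Subtype.ext_iff]
  show ConjClasses.mk (x : G) = ConjClasses.mk (y : G) ↔ _
  rw [ConjClasses.mk_eq_mk_iff_isConj, isConj_iff]

open Classical in
theorem key (P : Sylow 2 G) {Q : Subgroup G} {a : G} (hB : Bad Q a) (hQP : Q ≤ P)
    (hC : ∀ t : G, (∀ x ∈ Q, x * t = t * x) → ∀ k : ℕ, orderOf t = 2 ^ k → t ∈ Q) :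
    2 * Nat.card {c : ConjClasses G // ∀ x ∈ c.carrier, ∃ k : ℕ, orderOf x = 2 ^ k} ≤
      Nat.card ↥(P : Subgroup G) := by
  have h4 := four_mul_card_le hB
  obtain ⟨hQ, hn, hodd, x₀, hx₀, hx₀'⟩ := hB
  set F : Subgroup G := Q ⊓ centralizer ({a} : Set G) with hF
  have hFQ : F ≤ Q := inf_le_left
  letI := Fintype.ofFinite ↥(P : Subgroup G)
  letI := Fintype.ofFinite {c : ConjClasses G // ∀ x ∈ c.carrier, ∃ k : ℕ, orderOf x = 2 ^ k}
  let w : ↥(P : Subgroup G) → ℕ := fun x => if (x : G) ∈ F then 6 else if (x : G) ∈ Q then 2 else 3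
  have hfib : ∀ c : {c : ConjClasses G // ∀ x ∈ c.carrier, ∃ k : ℕ, orderOf x = 2 ^ k},
      6 ≤ ∑ x ∈ Finset.univ.filter (fun x => S3897.cls P x = c), w x := by
    intro c
    by_cases h1 : ∃ x, S3897.cls P x = c ∧ (x : G) ∈ F
    · obtain ⟨x, hx, hxF⟩ := h1
      have h2 : w x = 6 := if_pos hxF
      rw [← h2]
      exact Finset.single_le_sum (f := w) (fun _ _ => Nat.zero_le _) (by simp [hx])
    · push_neg at h1
      by_cases h2 : ∃ x, S3897.cls P x = c ∧ (x : G) ∈ Q
      · obtain ⟨x, hx, hxQ⟩ := h2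
        have hx1Q := hn _ hxQ
        have hx2Q := hn _ hx1Q
        set x1 : ↥(P : Subgroup G) := ⟨a * x * a⁻¹, hQP hx1Q⟩ with hx1
        set x2 : ↥(P : Subgroup G) := ⟨a * (a * x * a⁻¹) * a⁻¹, hQP hx2Q⟩ with hx2
        have hc1 : S3897.cls P x1 = c := by
          rw [← hx, eq_comm, cls_eq_iff]; exact ⟨a, rfl⟩
        have hc2 : S3897.cls P x2 = c := by
          rw [← hc1, eq_comm, cls_eq_iff]; exact ⟨a, rfl⟩
        have hw0 : w x = 2 := by
          simp only [w]; rw [if_neg (h1 x hx), if_pos hxQ]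
        have hw1 : w x1 = 2 := by
          simp only [w]; rw [if_neg (h1 x1 hc1), if_pos hx1Q]
        have hw2 : w x2 = 2 := by
          simp only [w]; rw [if_neg (h1 x2 hc2), if_pos hx2Q]
        have hne01 : x ≠ x1 := by
          intro h
          apply h1 x hx
          rw [hF, mem_F]
          exact ⟨hxQ, (congrArg Subtype.val h).symm⟩
        have hne12 : x1 ≠ x2 := by
          intro h
          apply h1 x1 hc1
          rw [hF, mem_F]
          exact ⟨hx1Q, (congrArg Subtype.val h).symm⟩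
        have hne02 : x ≠ x2 := by
          intro h
          apply h1 x hx
          rw [hF, mem_F]
          refine ⟨hxQ, ?_⟩
          have h3 : a ^ 2 * x * (a ^ 2)⁻¹ = x := by
            have h5 : a * (a * (x : G) * a⁻¹) * a⁻¹ = x := (congrArg Subtype.val h).symm
            calc a ^ 2 * (x : G) * (a ^ 2)⁻¹ = a * (a * (x : G) * a⁻¹) * a⁻¹ := by
                  rw [pow_two, mul_inv_rev]; simp only [mul_assoc]
              _ = x := h5
          exact fix_of_pow_fix (Nat.coprime_two_right.mpr hodd) h3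
        calc 6 = 2 + (2 + 2) := rfl
          _ = ∑ y ∈ ({x, x1, x2} : Finset ↥(P : Subgroup G)), w y := by
              rw [Finset.sum_insert (by simp [hne01, hne02]), Finset.sum_insert (by simp [hne12]),
                Finset.sum_singleton, hw0, hw1, hw2]
          _ ≤ _ := by
              apply Finset.sum_le_sum_of_subset
              intro y hy
              simp only [Finset.mem_insert, Finset.mem_singleton] at hy
              rcases hy with rfl | rfl | rfl <;> simp [hx, hc1, hc2]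
      · push_neg at h2
        obtain ⟨x, hx⟩ := S3897.cls_surjective P c
        have hxQ := h2 x hx
        obtain ⟨k, hk⟩ := (IsPGroup.iff_orderOf.mp P.2) x
        rw [← Subgroup.orderOf_coe] at hk
        have h3 : ¬ ∀ u ∈ Q, u * (x : G) = x * u := fun h => hxQ (hC _ h k hk)
        push_neg at h3
        obtain ⟨u, hu, hux⟩ := h3
        set x1 : ↥(P : Subgroup G) := ⟨u * x * u⁻¹, mul_mem (mul_mem (hQP hu) x.2) (inv_mem (hQP hu))⟩
          with hx1
        have hc1 : S3897.cls P x1 = c := by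
          rw [← hx, eq_comm, cls_eq_iff]; exact ⟨u, rfl⟩
        have hw0 : w x = 3 := by
          simp only [w]; rw [if_neg (h1 x hx), if_neg hxQ]
        have hw1 : w x1 = 3 := by
          simp only [w]; rw [if_neg (h1 x1 hc1), if_neg (h2 x1 hc1)]
        have hne01 : x ≠ x1 := by
          intro h
          apply hux
          have := (congrArg Subtype.val h).symm
          simp only [hx1] at this
          rwa [mul_inv_eq_iff_eq_mul] at this
        calc 6 = ∑ y ∈ ({x, x1} : Finset ↥(P : Subgroup G)), w y := by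
              rw [Finset.sum_insert (by simp [hne01]), Finset.sum_singleton, hw0, hw1]
          _ ≤ _ := by
              apply Finset.sum_le_sum_of_subset
              intro y hy
              simp only [Finset.mem_insert, Finset.mem_singleton] at hy
              rcases hy with rfl | rfl <;> simp [hx, hc1]
  have hsum : ∑ c, ∑ x ∈ Finset.univ.filter (fun x => S3897.cls P x = c), w x = ∑ x, w x :=
    Finset.sum_fiberwise Finset.univ (S3897.cls P) w
  have hge : 6 * Nat.card {c : ConjClasses G // ∀ x ∈ c.carrier, ∃ k : ℕ, orderOf x = 2 ^ k} ≤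
      ∑ x, w x := by
    rw [← hsum, Nat.card_eq_fintype_card, mul_comm, ← smul_eq_mul, ← Finset.card_univ,
      ← Finset.sum_const]
    exact Finset.sum_le_sum (fun c _ => hfib c)
  have hw : ∀ x : ↥(P : Subgroup G), w x + (if (x : G) ∈ Q then 1 else 0) =
      3 + 4 * (if (x : G) ∈ F then 1 else 0) := by
    intro x
    simp only [w]
    by_cases hxF : (x : G) ∈ F
    · rw [if_pos hxF, if_pos (hFQ hxF), if_pos hxF]
    · by_cases hxQ : (x : G) ∈ Q
      · rw [if_neg hxF, if_pos hxQ, if_pos hxQ, if_neg hxF]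
      · rw [if_neg hxF, if_neg hxQ, if_neg hxQ, if_neg hxF]
  have htot : ∑ x, w x + Nat.card Q = 3 * Nat.card ↥(P : Subgroup G) + 4 * Nat.card F := by
    rw [← sum_ind P Q hQP, ← sum_ind P F (hFQ.trans hQP), ← Finset.sum_add_distrib,
      Finset.sum_congr rfl (fun x _ => hw x), Finset.sum_add_distrib, Finset.mul_sum,
      Finset.sum_const, Finset.card_univ, Nat.card_eq_fintype_card, smul_eq_mul, mul_comm]
  omega


theorem two_mul_le_of_not_npc (P : Sylow 2 G) (h : ¬ Cfsg.HasNormalPComplement 2 G) :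
    2 * Nat.card {c : ConjClasses G // ∀ x ∈ c.carrier, ∃ k : ℕ, orderOf x = 2 ^ k} ≤
      Nat.card ↥(P : Subgroup G) := by
  obtain ⟨Q₀, a₀, h₀⟩ := exists_bad h
  obtain ⟨Q, ⟨a, hB⟩, hmax⟩ := Set.exists_max_image {Q : Subgroup G | ∃ a, Bad Q a}
    (fun Q => Nat.card Q) (Set.toFinite _) ⟨Q₀, a₀, h₀⟩
  obtain ⟨P₀, hP₀⟩ := hB.1.exists_le_sylow
  have h1 := key P₀ hB hP₀ (fun t ht k hk =>
    mem_of_centralizes hB (fun Q' a' h' => hmax Q' ⟨a', h'⟩) t ht k hk)
  rwa [P₀.card_eq_multiplicity, ← P.card_eq_multiplicity] at h1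

/-- the map from the classes of `P` to the classes of `2`-elements of `G` -/
def clsMap (P : Sylow 2 G) : ConjClasses ↥(P : Subgroup G) →
    {c : ConjClasses G // ∀ x ∈ c.carrier, ∃ k : ℕ, orderOf x = 2 ^ k} :=
  Quotient.lift (S3897.cls P) (by
    intro x y hxy
    obtain ⟨g, hg⟩ := isConj_iff.mp hxy
    rw [cls_eq_iff]
    exact ⟨g, congrArg Subtype.val hg⟩)

theorem clsMap_surjective (P : Sylow 2 G) : Function.Surjective (clsMap P) := by
  intro c
  obtain ⟨x, hx⟩ := S3897.cls_surjective P c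
  exact ⟨ConjClasses.mk x, hx⟩

theorem clsMap_injective (P : Sylow 2 G) (h : Cfsg.HasNormalPComplement 2 G) :
    Function.Injective (clsMap P) := by
  rw [← hasNPC_iff, hasNPC_iff_frobCond] at h
  intro c d hcd
  obtain ⟨x, rfl⟩ := ConjClasses.exists_rep c
  obtain ⟨y, rfl⟩ := ConjClasses.exists_rep d
  have h1 : S3897.cls P x = S3897.cls P y := hcd
  rw [cls_eq_iff] at h1
  obtain ⟨g, hg⟩ := h1
  obtain ⟨u, hu, hux⟩ := fusion h P x x.2 g (by rw [hg]; exact y.2)
  rw [ConjClasses.mk_eq_mk_iff_isConj, isConj_iff]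
  refine ⟨⟨u, hu⟩, ?_⟩
  apply Subtype.ext
  show u * x * u⁻¹ = y
  rw [← hux, hg]

theorem result {G : Type*} [Group G] [Finite G] (P : Sylow 2 G) :
    Nat.card ↥(P : Subgroup G) < 2 * Nat.card {c : ConjClasses G // ∀ x ∈ c.carrier, ∃ k : ℕ, orderOf x = 2 ^ k} ↔
      Cfsg.HasNormalPComplement 2 G ∧ Nat.card ↥(P : Subgroup G) < 2 * Nat.card (ConjClasses ↥(P : Subgroup G)) := by
  constructor
  · intro h
    refine ⟨?_, ?_⟩
    · by_contra hn
      have := two_mul_le_of_not_npc P hn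
      omega
    · have := Nat.card_le_card_of_surjective _ (clsMap_surjective P)
      omega
  · rintro ⟨h1, h2⟩
    have := Nat.card_le_card_of_injective _ (clsMap_injective P h1)
    omega

end Cfsg.Agent.S3895
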