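import Cfsg.Statements.S3899
import Cfsg.Agent.S3897

set_option autoImplicit false
open Cfsg

namespace Cfsg.Agent.S3899

open Subgroup

/-- classes of `π`-elements -/
abbrev Kpi (G : Type*) [Group G] (π : Finset ℕ) :=
  {c : ConjClasses G // ∀ x ∈ c.carrier, ∀ r : ℕ, r.Prime → r ∣ orderOf x → r ∈ π}

/-- classes of `p`-elements -/
abbrev Kp (G : Type*) [Group G] (p : ℕ) :=
  {c : ConjClasses G // ∀ x ∈ c.carrier, ∃ k : ℕ, orderOf x = p ^ k}

theorem orderOf_conj' {G : Type*} [Group G] (t g : G) : orderOf (t * g * t⁻¹) = orderOf g := by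
  have := orderOf_injective (MulAut.conj t).toMonoidHom (MulAut.conj t).injective g
  simpa using this

theorem orderOf_of_mem_carrier {G : Type*} [Group G] {g x : G}
    (hx : x ∈ (ConjClasses.mk g).carrier) : orderOf x = orderOf g := by
  rw [ConjClasses.mem_carrier_iff_mk_eq, ConjClasses.mk_eq_mk_iff_isConj] at hx
  obtain ⟨c, hc⟩ := isConj_iff.mp hx
  rw [← hc, orderOf_conj']

/-- a chosen representative -/
noncomputable def rep {G : Type*} [Group G] (c : ConjClasses G) : G :=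
  Classical.choose (ConjClasses.exists_rep c)

theorem mk_rep {G : Type*} [Group G] (c : ConjClasses G) : ConjClasses.mk (rep c) = c :=
  Classical.choose_spec (ConjClasses.exists_rep c)

theorem rep_mem {G : Type*} [Group G] (c : ConjClasses G) : rep c ∈ c.carrier := by
  rw [ConjClasses.mem_carrier_iff_mk_eq, mk_rep]

/-- the map used for counting -/
noncomputable def Phi {G : Type*} [Group G] (r : ℕ) (hr : r.Prime) (σ : Finset ℕ) :
    (Σ c : Kp G r, Kpi ↥(centralizer ({rep c.1} : Set G)) σ) → Kpi G (insert r σ) :=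
  fun cd => ⟨ConjClasses.mk (rep cd.1.1 * (rep cd.2.1).1), by
    intro x hx s hs hsx
    rw [orderOf_of_mem_carrier hx] at hsx
    have hcomm : Commute (rep cd.1.1) (rep cd.2.1).1 := by
      have := (rep cd.2.1).2
      rw [mem_centralizer_singleton_iff] at this
      exact this.symm
    have h1 := hsx.trans hcomm.orderOf_mul_dvd_mul_orderOf
    rcases (Nat.Prime.dvd_mul hs).mp h1 with h | h
    · obtain ⟨k, hk⟩ := cd.1.2 _ (rep_mem _)
      rw [hk] at h
      have := (Nat.prime_dvd_prime_iff_eq hs hr).mp (hs.dvd_of_dvd_pow h)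
      rw [this]; exact Finset.mem_insert_self _ _
    · rw [Subgroup.orderOf_coe] at h
      exact Finset.mem_insert_of_mem (cd.2.2 _ (rep_mem _) s hs h)⟩

theorem exists_decomp {G : Type*} [Group G] [Finite G] (r : ℕ) (hr : r.Prime) (g : G) :
    ∃ x y : G, g = x * y ∧ Commute x y ∧ (∃ k, orderOf x = r ^ k) ∧ orderOf y ∣ orderOf g ∧
      ¬ r ∣ orderOf y := by
  set n := orderOf g with hn
  have hn0 : n ≠ 0 := (orderOf_pos g).ne'
  set a := r ^ n.factorization r with ha
  set m := n / r ^ n.factorization r with hm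
  have hcop : Nat.Coprime a m := Nat.Coprime.pow_left _ (Nat.coprime_ordCompl hr hn0)
  have ham : a * m = n := Nat.ordProj_mul_ordCompl_eq_self n r
  have hb := Nat.gcd_eq_gcd_ab a m
  rw [hcop] at hb
  refine ⟨(g ^ m) ^ (Nat.gcdB a m), (g ^ a) ^ (Nat.gcdA a m), ?_, ?_, ?_, ?_, ?_⟩
  · rw [← zpow_natCast, ← zpow_natCast, ← zpow_mul, ← zpow_mul, ← zpow_add, add_comm, ← hb]
    simp
  · rw [← zpow_natCast, ← zpow_natCast, ← zpow_mul, ← zpow_mul]
    exact (Commute.refl g).zpow_zpow _ _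
  · have : orderOf ((g ^ m) ^ (Nat.gcdB a m)) ∣ r ^ n.factorization r := by
      apply orderOf_dvd_of_pow_eq_one
      rw [← ha, ← zpow_natCast, ← zpow_natCast, ← zpow_mul, ← zpow_mul,
        ← orderOf_dvd_iff_zpow_eq_one, ← hn, ← ham]
      exact ⟨Nat.gcdB a m, by push_cast; ring⟩
    obtain ⟨k, _, hk⟩ := (Nat.dvd_prime_pow hr).mp this
    exact ⟨k, hk⟩
  · have : orderOf ((g ^ a) ^ (Nat.gcdA a m)) ∣ m := by
      apply orderOf_dvd_of_pow_eq_one
      rw [← zpow_natCast, ← zpow_natCast, ← zpow_mul, ← zpow_mul, ← orderOf_dvd_iff_zpow_eq_one,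
        ← hn, ← ham]
      exact ⟨Nat.gcdA a m, by push_cast; ring⟩
    exact this.trans ⟨a, by rw [← ham, mul_comm]⟩
  · have : orderOf ((g ^ a) ^ (Nat.gcdA a m)) ∣ m := by
      apply orderOf_dvd_of_pow_eq_one
      rw [← zpow_natCast, ← zpow_natCast, ← zpow_mul, ← zpow_mul, ← orderOf_dvd_iff_zpow_eq_one,
        ← hn, ← ham]
      exact ⟨Nat.gcdA a m, by push_cast; ring⟩
    intro h
    exact Nat.not_dvd_ordCompl hr hn0 (h.trans this)

theorem Phi_surjective {G : Type*} [Group G] [Finite G] (r : ℕ) (hr : r.Prime) (σ : Finset ℕ) :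
    Function.Surjective (Phi (G := G) r hr σ) := by
  rintro ⟨c, hc⟩
  obtain ⟨g, rfl⟩ := ConjClasses.exists_rep c
  obtain ⟨x, y, hg, hxy, ⟨k, hk⟩, hyg, hry⟩ := exists_decomp r hr g
  -- the class of x
  let c1 : Kp G r := ⟨ConjClasses.mk x, fun z hz => ⟨k, by rw [orderOf_of_mem_carrier hz, hk]⟩⟩
  have h1 : IsConj x (rep c1.1) := by
    rw [← ConjClasses.mk_eq_mk_iff_isConj, mk_rep]
  obtain ⟨t, ht⟩ := isConj_iff.mp h1
  have hy' : t * y * t⁻¹ ∈ centralizer ({rep c1.1} : Set G) := by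
    rw [mem_centralizer_singleton_iff, ← ht]
    have := hxy.eq
    calc t * y * t⁻¹ * (t * x * t⁻¹) = t * (y * x) * t⁻¹ := by group
      _ = t * (x * y) * t⁻¹ := by rw [this]
      _ = _ := by group
  let y' : ↥(centralizer ({rep c1.1} : Set G)) := ⟨_, hy'⟩
  have hy'ord : orderOf y' = orderOf y := by
    rw [← Subgroup.orderOf_coe]; exact orderOf_conj' t y
  let c2 : Kpi ↥(centralizer ({rep c1.1} : Set G)) σ := ⟨ConjClasses.mk y', by
    intro z hz s hs hsz
    rw [orderOf_of_mem_carrier hz, hy'ord] at hsz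
    have := hc g (by rw [ConjClasses.mem_carrier_iff_mk_eq]) s hs (hsz.trans hyg)
    rcases Finset.mem_insert.mp this with h | h
    · exact absurd (h ▸ hsz) hry
    · exact h⟩
  refine ⟨⟨c1, c2⟩, ?_⟩
  apply Subtype.ext
  show ConjClasses.mk (rep c1.1 * (rep c2.1).1) = ConjClasses.mk g
  have h2 : IsConj y' (rep c2.1) := by
    rw [← ConjClasses.mk_eq_mk_iff_isConj, mk_rep]
  obtain ⟨s, hs⟩ := isConj_iff.mp h2
  have hs' : (s : G) * (t * y * t⁻¹) * (s : G)⁻¹ = (rep c2.1).1 := congrArg Subtype.val hs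
  have hsc : (s : G) * rep c1.1 = rep c1.1 * s := by
    have := s.2
    rw [mem_centralizer_singleton_iff] at this
    exact this
  rw [ConjClasses.mk_eq_mk_iff_isConj]
  refine (isConj_iff.mpr ⟨(s : G) * t, ?_⟩).symm
  rw [← hs', hg]
  calc (s : G) * t * (x * y) * ((s : G) * t)⁻¹
      = (s : G) * (t * x * t⁻¹) * (t * y * t⁻¹) * (s : G)⁻¹ := by group
    _ = (s : G) * rep c1.1 * (t * y * t⁻¹) * (s : G)⁻¹ := by rw [ht]
    _ = rep c1.1 * (s : G) * (t * y * t⁻¹) * (s : G)⁻¹ := by rw [hsc]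
    _ = _ := by group

theorem card_insert_le {G : Type*} [Group G] [Finite G] (r : ℕ) (hr : r.Prime) (σ : Finset ℕ)
    (B : ℕ) (hB : ∀ x : G, Nat.card (Kpi ↥(centralizer ({x} : Set G)) σ) ≤ B) :
    Nat.card (Kpi G (insert r σ)) ≤ Nat.card (Kp G r) * B := by
  classical
  letI := Fintype.ofFinite (Kp G r)
  calc Nat.card (Kpi G (insert r σ))
      ≤ Nat.card (Σ c : Kp G r, Kpi ↥(centralizer ({rep c.1} : Set G)) σ) :=
        Nat.card_le_card_of_surjective _ (Phi_surjective r hr σ)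
    _ = ∑ c : Kp G r, Nat.card (Kpi ↥(centralizer ({rep c.1} : Set G)) σ) := Nat.card_sigma
    _ ≤ ∑ _c : Kp G r, B := Finset.sum_le_sum (fun c _ => hB _)
    _ = Nat.card (Kp G r) * B := by
        rw [Finset.sum_const, smul_eq_mul, Finset.card_univ, Nat.card_eq_fintype_card]

/-- the `σ`-part -/
def part (σ : Finset ℕ) (n : ℕ) : ℕ := σ.prod (fun r => r ^ n.factorization r)

theorem part_le {σ : Finset ℕ} (hσ : ∀ r ∈ σ, r.Prime) {m n : ℕ} (hmn : m ∣ n) (hn : n ≠ 0) :
    part σ m ≤ part σ n := by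
  apply Finset.prod_le_prod (fun _ _ => Nat.zero_le _)
  intro r hr
  exact Nat.pow_le_pow_right (hσ r hr).pos
    ((Nat.factorization_le_iff_dvd (fun h => hn (by simpa [h] using hmn)) hn).mpr hmn r)

theorem card_Kp_le {G : Type*} [Group G] [Finite G] (r : ℕ) (hr : r.Prime) :
    Nat.card (Kp G r) ≤ r ^ (Nat.card G).factorization r := by
  haveI : Fact r.Prime := ⟨hr⟩
  obtain ⟨P⟩ : Nonempty (Sylow r G) := inferInstance
  rw [← Sylow.card_eq_multiplicity P]
  exact Nat.card_le_card_of_surjective _ (S3897.cls_surjective P)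

theorem card_Kpi_le (σ : Finset ℕ) : (∀ r ∈ σ, r.Prime) →
    ∀ (G : Type*) [Group G] [Finite G], Nat.card (Kpi G σ) ≤ part σ (Nat.card G) := by
  classical
  induction σ using Finset.induction_on with
  | empty =>
    intro _ G _ _
    have : Subsingleton (Kpi G ∅) := by
      constructor
      rintro ⟨a, ha⟩ ⟨b, hb⟩
      apply Subtype.ext
      obtain ⟨x, rfl⟩ := ConjClasses.exists_rep a
      obtain ⟨y, rfl⟩ := ConjClasses.exists_rep b
      have hx : orderOf x = 1 := by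
        by_contra h
        obtain ⟨s, hs, hsx⟩ := Nat.exists_prime_and_dvd h
        exact absurd (ha x (by rw [ConjClasses.mem_carrier_iff_mk_eq]) s hs hsx) (by simp)
      have hy : orderOf y = 1 := by
        by_contra h
        obtain ⟨s, hs, hsx⟩ := Nat.exists_prime_and_dvd h
        exact absurd (hb y (by rw [ConjClasses.mem_carrier_iff_mk_eq]) s hs hsx) (by simp)
      rw [orderOf_eq_one_iff] at hx hy
      subst hx hy
      rfl
    simpa [part] using Finite.card_le_one_iff_subsingleton.mpr this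
  | insert r σ hr ih =>
    intro hσ G _ _
    have hσ' : ∀ s ∈ σ, s.Prime := fun s hs => hσ s (Finset.mem_insert_of_mem hs)
    have hrp : r.Prime := hσ r (Finset.mem_insert_self _ _)
    have h1 := card_insert_le (G := G) r hrp σ (part σ (Nat.card G)) (fun x =>
      (ih hσ' _).trans (part_le hσ' (Subgroup.card_subgroup_dvd_card _) Nat.card_pos.ne'))
    refine h1.trans ?_
    rw [part, part, Finset.prod_insert hr]
    exact Nat.mul_le_mul_right _ (card_Kp_le r hrp)

theorem local_step {G : Type*} [Group G] [Finite G] (π : Finset ℕ) (hπ : ∀ r ∈ π, r.Prime)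
    (h2 : 2 ∉ π) (p : ℕ) (hp : p ∈ π) (hmin : ∀ r ∈ π, p ≤ r)
    (hk : (p + 1) * part π (Nat.card G) < 2 * p * Nat.card (Kpi G π)) (r : ℕ) (hr : r ∈ π) :
    ∃ N : Subgroup G, N.Normal ∧ ¬ r ∣ Nat.card N ∧ (∃ k, N.index = r ^ k) ∧
      ∀ a b : G, a * b * a⁻¹ * b⁻¹ ∈ N := by
  classical
  have hrp : r.Prime := hπ r hr
  haveI : Fact r.Prime := ⟨hrp⟩
  have hσ' : ∀ s ∈ π.erase r, s.Prime := fun s hs => hπ s (Finset.mem_of_mem_erase hs)
  have h1 := card_insert_le (G := G) r hrp (π.erase r) (part (π.erase r) (Nat.card G)) (fun x =>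
      (card_Kpi_le _ hσ' _).trans (part_le hσ' (Subgroup.card_subgroup_dvd_card _) Nat.card_pos.ne'))
  rw [Finset.insert_erase hr] at h1
  have h3 : part π (Nat.card G) = r ^ (Nat.card G).factorization r * part (π.erase r) (Nat.card G) := by
    rw [part, part, Finset.mul_prod_erase π (fun r => r ^ (Nat.card G).factorization r) hr]
  have hE : 0 < part (π.erase r) (Nat.card G) :=
    Finset.prod_pos (fun s hs => pow_pos (hσ' s hs).pos _)
  obtain ⟨P⟩ : Nonempty (Sylow r G) := inferInstance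
  have hPc := Sylow.card_eq_multiplicity P
  rw [h3, ← hPc] at hk
  have hpr := hmin r hr
  have hp0 : 0 < p := (hπ p hp).pos
  have key : (r + 1) * Nat.card ↥(P : Subgroup G) < 2 * r * Nat.card (Kp G r) := by
    generalize Nat.card ↥(P : Subgroup G) = n at *
    generalize Nat.card (Kp G r) = K at *
    generalize part (π.erase r) (Nat.card G) = E at *
    generalize Nat.card (Kpi G π) = K' at *
    have e1 : (p + 1) * n * E < 2 * p * K * E := by
      calc (p + 1) * n * E = (p + 1) * (n * E) := by ring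
        _ < 2 * p * K' := hk
        _ ≤ 2 * p * (K * E) := Nat.mul_le_mul_left _ h1
        _ = 2 * p * K * E := by ring
    have e2 : (p + 1) * n < 2 * p * K := Nat.lt_of_mul_lt_mul_right e1
    have e3 : (r + 1) * n * p < 2 * r * K * p := by
      calc (r + 1) * n * p = (r * p + p) * n := by ring
        _ ≤ (r * p + r) * n := Nat.mul_le_mul_right _ (by omega)
        _ = ((p + 1) * n) * r := by ring
        _ < (2 * p * K) * r := Nat.mul_lt_mul_of_pos_right e2 hrp.pos
        _ = 2 * r * K * p := by ring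
    exact Nat.lt_of_mul_lt_mul_right e3
  have hr2 : r ≠ 2 := fun h => h2 (h ▸ hr)
  obtain ⟨⟨P', N, hN, hc⟩, -⟩ := (S3897.result hr2 P).mp key
  have hk' : (r + 1) * Nat.card ↥(P' : Subgroup G) < 2 * r * Nat.card (Kp G r) := by
    rw [Sylow.card_eq_multiplicity P', ← hPc]; exact key
  obtain ⟨-, hab⟩ := (S3897.result hr2 P').mp hk'
  refine ⟨N, hN, ?_, ?_, ?_⟩
  · rw [← hc.index_eq_card]; exact P'.not_dvd_index
  · rw [hc.symm.index_eq_card]; exact ⟨_, Sylow.card_eq_multiplicity P'⟩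
  · intro a b
    obtain ⟨⟨⟨n1, hn1⟩, ⟨u1, hu1⟩⟩, ha⟩ := hc.2 a
    obtain ⟨⟨⟨n2, hn2⟩, ⟨u2, hu2⟩⟩, hb⟩ := hc.2 b
    simp only at ha hb
    rw [← QuotientGroup.eq_one_iff]
    have e1 : ((n1 : G) : G ⧸ N) = 1 := (QuotientGroup.eq_one_iff _).mpr hn1
    have e2 : ((n2 : G) : G ⧸ N) = 1 := (QuotientGroup.eq_one_iff _).mpr hn2
    have e3 : u1 * u2 = u2 * u1 :=
      congrArg Subtype.val (hab.is_comm.comm (⟨u1, hu1⟩ : ↥(P' : Subgroup G)) ⟨u2, hu2⟩)
    rw [← ha, ← hb]
    simp only [QuotientGroup.mk_mul, QuotientGroup.mk_inv, e1, e2, one_mul]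
    rw [← QuotientGroup.mk_mul, e3, QuotientGroup.mk_mul]
    group

/-- Let π be a finite non-empty set of odd primes with smallest member p and G a finite group. Write k_π(G) for the number of conjugacy classes of G consisting of π-elements (elements all of whose order's prime divisors lie in π) and |G|_π for the π-part of the order of G. If k_π(G) > (p + 1)|G|_π/(2p), then G has a normal π-complement (a normal subgroup of order prime to π whose index is a π-number) and an abelian Hall π-subgroup. -/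
theorem result {G : Type*} [Group G] [Finite G] (π : Finset ℕ) (hπ : ∀ r ∈ π, r.Prime) (h2 : 2 ∉ π) (p : ℕ) (hp : p ∈ π)
    (hmin : ∀ r ∈ π, p ≤ r) (hk : (p + 1) * π.prod (fun r => r ^ (Nat.card G).factorization r) < 2 * p * Nat.card {c : ConjClasses G // ∀ x ∈ c.carrier, ∀ r : ℕ, r.Prime → r ∣ orderOf x → r ∈ π}) :
    (∃ N : Subgroup G, N.Normal ∧ (∀ r : ℕ, r.Prime → r ∣ Nat.card ↥N → r ∉ π) ∧ ∀ r : ℕ, r.Prime → r ∣ N.index → r ∈ π) ∧ ∃ H : Subgroup G, Cfsg.IsPiHall (↑π : Set ℕ) H ∧ IsMulCommutative ↥H := by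
  have H := local_step π hπ h2 p hp hmin hk
  choose Nf h1 h3 h4 h5 using H
  let N : Subgroup G := ⨅ r : π, Nf r.1 r.2
  have hNn : N.Normal := Subgroup.normal_iInf_normal (fun r => h1 r.1 r.2)
  have hNle : ∀ r (hr : r ∈ π), N ≤ Nf r hr := fun r hr => iInf_le (fun r : π => Nf r.1 r.2) ⟨r, hr⟩
  have hA : ∀ r : ℕ, r.Prime → r ∣ Nat.card ↥N → r ∉ π := by
    intro r _ hrN hr
    exact h3 r hr (hrN.trans (Subgroup.card_dvd_of_le (hNle r hr)))
  have hB : ∀ r : ℕ, r.Prime → r ∣ N.index → r ∈ π := by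
    intro s hs hsN
    haveI : Fact s.Prime := ⟨hs⟩
    obtain ⟨x, hx⟩ := exists_prime_orderOf_dvd_card' (G := G ⧸ N) s hsN
    obtain ⟨g, rfl⟩ := QuotientGroup.mk_surjective x
    have hg1 : g ∉ N := by
      intro h
      rw [(QuotientGroup.eq_one_iff g).mpr h, orderOf_one] at hx
      exact hs.one_lt.ne hx
    have hg2 : g ^ s ∈ N := by
      rw [← QuotientGroup.eq_one_iff, QuotientGroup.mk_pow, ← hx, pow_orderOf_eq_one]
    obtain ⟨⟨r, hr⟩, hgr⟩ : ∃ r : π, g ∉ Nf r.1 r.2 := by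
      by_contra hcon
      push Not at hcon
      exact hg1 ((Subgroup.mem_iInf).mpr hcon)
    haveI := h1 r hr
    have ho : orderOf (g : G ⧸ Nf r hr) = s := by
      apply orderOf_eq_prime
      · rw [← QuotientGroup.mk_pow, QuotientGroup.eq_one_iff]; exact hNle r hr hg2
      · rwa [Ne, QuotientGroup.eq_one_iff]
    obtain ⟨k, hk'⟩ := h4 r hr
    have hd : s ∣ r ^ k := by
      rw [← hk', ← ho]; exact orderOf_dvd_natCard _
    have := (Nat.prime_dvd_prime_iff_eq hs (hπ r hr)).mp (hs.dvd_of_dvd_pow hd)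
    rw [this]; exact hr
  refine ⟨⟨N, hNn, hA, hB⟩, ?_⟩
  have hcop : Nat.Coprime (Nat.card N) N.index :=
    Nat.coprime_of_dvd (fun k hk1 hk2 hk3 => hA k hk1 hk2 (hB k hk1 hk3))
  obtain ⟨K, hK⟩ := Subgroup.exists_right_complement'_of_coprime hcop
  refine ⟨K, ⟨?_, ?_⟩, ?_⟩
  · intro s hs hsK
    rw [← hK.symm.index_eq_card] at hsK
    exact hB s hs hsK
  · intro s hs hsπ hsK
    rw [hK.index_eq_card] at hsK
    exact hA s hs hsK hsπ
  · refine ⟨⟨fun a b => ?_⟩⟩
    have hmem : (a : G) * b * (a : G)⁻¹ * (b : G)⁻¹ ∈ N :=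
      (Subgroup.mem_iInf).mpr (fun r => h5 r.1 r.2 _ _)
    have hmemK : (a : G) * b * (a : G)⁻¹ * (b : G)⁻¹ ∈ K :=
      K.mul_mem (K.mul_mem (K.mul_mem a.2 b.2) (K.inv_mem a.2)) (K.inv_mem b.2)
    have := hK.disjoint.le_bot ⟨hmem, hmemK⟩
    rw [Subgroup.mem_bot, mul_inv_eq_one, mul_inv_eq_iff_eq_mul] at this
    exact Subtype.ext this

end Cfsg.Agent.S3899
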