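import Mathlib
import Cfsg.Statements.S3898
import Cfsg.Agent.S3895
import Cfsg.Agent.S3899
import Cfsg.Agent.Lib.Helper76SylowCount

set_option autoImplicit false
open Cfsg

namespace Cfsg.Agent.S3898

open Subgroup MulAction Cfsg.Agent.Lib.Helper11Frobenius

section
variable {G : Type*} [Group G] [Finite G] {p : ℕ} [Fact p.Prime]

open S3897 in
/-- orbit counting for the action of `N_G(P)` on `P`, with `m = |N_G(P) : C_G(P)|` -/
theorem keyM (P : Sylow p G) :
    p * (centralizer ((P : Subgroup G) : Set G)).relIndex (normalizer ((P : Subgroup G) : Set G)) *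
      Nat.card {c : ConjClasses G // ∀ x ∈ c.carrier, ∃ k : ℕ, orderOf x = p ^ k} +
        Nat.card ↥(P : Subgroup G) ≤
      (p + (centralizer ((P : Subgroup G) : Set G)).relIndex (normalizer ((P : Subgroup G) : Set G))) *
        Nat.card ↥(P : Subgroup G) := by
  classical
  letI := act (P : Subgroup G)
  letI := Fintype.ofFinite ↥(normalizer ((P : Subgroup G) : Set G))
  have hB : ∑ g : ↥(normalizer ((P : Subgroup G) : Set G)), Nat.card (fixedBy ↥(P : Subgroup G) g) =
      Nat.card (orbitRel.Quotient ↥(normalizer ((P : Subgroup G) : Set G)) ↥(P : Subgroup G)) *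
        Nat.card ↥(normalizer ((P : Subgroup G) : Set G)) := by
    letI := Fintype.ofFinite
      (orbitRel.Quotient ↥(normalizer ((P : Subgroup G) : Set G)) ↥(P : Subgroup G))
    letI : ∀ g : ↥(normalizer ((P : Subgroup G) : Set G)), Fintype (fixedBy ↥(P : Subgroup G) g) :=
      fun g => Fintype.ofFinite _
    have := sum_card_fixedBy_eq_card_orbits_mul_card_group
      ↥(normalizer ((P : Subgroup G) : Set G)) ↥(P : Subgroup G)
    simp only [Nat.card_eq_fintype_card]
    exact this
  have hk := card_le_orbits P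
  generalize Nat.card (orbitRel.Quotient ↥(normalizer ((P : Subgroup G) : Set G))
    ↥(P : Subgroup G)) = o at hB hk
  let C : Subgroup ↥(normalizer ((P : Subgroup G) : Set G)) :=
    (centralizer ((P : Subgroup G) : Set G)).subgroupOf (normalizer ((P : Subgroup G) : Set G))
  have hm : (centralizer ((P : Subgroup G) : Set G)).relIndex (normalizer ((P : Subgroup G) : Set G))
      = C.index := rfl
  have hCm : Nat.card C * C.index = Nat.card ↥(normalizer ((P : Subgroup G) : Set G)) :=
    C.card_mul_index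
  have hsum : p * ∑ g : ↥(normalizer ((P : Subgroup G) : Set G)),
      Nat.card (fixedBy ↥(P : Subgroup G) g) ≤
      ∑ g : ↥(normalizer ((P : Subgroup G) : Set G)),
        if g ∈ C then p * Nat.card ↥(P : Subgroup G) else Nat.card ↥(P : Subgroup G) := by
    rw [Finset.mul_sum]
    apply Finset.sum_le_sum
    intro g _
    have := card_fixedBy P g
    have e : (g ∈ C) = ((g : G) ∈ centralizer ((P : Subgroup G) : Set G)) := rfl
    simp only [e]
    convert this
  have hsum2 : (∑ g : ↥(normalizer ((P : Subgroup G) : Set G)),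
        if g ∈ C then p * Nat.card ↥(P : Subgroup G) else Nat.card ↥(P : Subgroup G)) =
      Nat.card C * (p * Nat.card ↥(P : Subgroup G)) +
        (Nat.card ↥(normalizer ((P : Subgroup G) : Set G)) - Nat.card C) *
          Nat.card ↥(P : Subgroup G) := by
    rw [Finset.sum_ite, Finset.sum_const, Finset.sum_const, smul_eq_mul, smul_eq_mul]
    have e1 : (Finset.univ.filter (fun g : ↥(normalizer ((P : Subgroup G) : Set G)) => g ∈ C)).card
        = Nat.card C := by
      rw [Nat.card_eq_fintype_card, Fintype.card_subtype]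
    rw [Finset.filter_not, Finset.card_sdiff_of_subset (Finset.filter_subset _ _),
        Finset.card_univ, e1, Nat.card_eq_fintype_card (α := ↥(normalizer ((P : Subgroup G) : Set G)))]
  have hCpos : 0 < Nat.card C := Nat.card_pos
  have hmpos : 0 < C.index := Nat.pos_of_ne_zero C.index_ne_zero_of_finite
  rw [hB, hsum2, ← hCm] at hsum
  rw [hm]
  generalize Nat.card {c : ConjClasses G // ∀ x ∈ c.carrier, ∃ k : ℕ, orderOf x = p ^ k} = kk at *
  generalize Nat.card ↥(P : Subgroup G) = n at *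
  generalize Nat.card C = nC at *
  generalize C.index = m at *
  obtain ⟨m', rfl⟩ : ∃ m', m = m' + 1 := ⟨m - 1, by omega⟩
  have e2 : nC * (m' + 1) - nC = nC * m' := by
    rw [Nat.mul_succ]; omega
  rw [e2] at hsum
  have h3 : (p * (m' + 1) * o + n) * nC ≤ ((p + (m' + 1)) * n) * nC := by
    nlinarith [hsum]
  have h4 := Nat.le_of_mul_le_mul_right h3 hCpos
  have h5 : p * (m' + 1) * kk ≤ p * (m' + 1) * o := Nat.mul_le_mul_left _ hk
  omega


theorem le_centralizer_of_relIndex_le (P : Sylow p G)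
    (h : (centralizer ((P : Subgroup G) : Set G)).relIndex (P : Subgroup G) ≤ p) :
    (P : Subgroup G) ≤ centralizer ((P : Subgroup G) : Set G) := by
  have hp : p.Prime := Fact.out
  set C := centralizer ((P : Subgroup G) : Set G) with hC
  have hZ : C.subgroupOf P ≤ center ↥(P : Subgroup G) := by
    intro z hz
    rw [mem_subgroupOf, hC, mem_centralizer_iff] at hz
    rw [mem_center_iff]
    intro g
    exact Subtype.ext (hz g g.2)
  have h1 : (center ↥(P : Subgroup G)).index ∣ (C.subgroupOf P).index := index_dvd_of_le hZ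
  have h2 : (center ↥(P : Subgroup G)).index ≤ p :=
    (Nat.le_of_dvd (Nat.pos_of_ne_zero index_ne_zero_of_finite) h1).trans h
  obtain ⟨n, hn⟩ := IsPGroup.iff_card.mp P.2
  have h3 : (center ↥(P : Subgroup G)).index ∣ p ^ n := hn ▸ (center ↥(P : Subgroup G)).index_dvd_card
  obtain ⟨i, -, hi⟩ := (Nat.dvd_prime_pow hp).mp h3
  have hcomm : ∀ a b : ↥(P : Subgroup G), a * b = b * a := by
    have hi1 : i ≤ 1 := by
      by_contra hlt
      push_neg at hlt
      have : p ^ 2 ≤ p ^ i := Nat.pow_le_pow_right hp.pos hlt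
      have h5 : p < p ^ 2 := by nlinarith [hp.one_lt]
      omega
    interval_cases i
    · rw [pow_zero, index_eq_one] at hi
      intro a b
      have : b ∈ center ↥(P : Subgroup G) := hi ▸ mem_top b
      exact (mem_center_iff.mp this a)
    · rw [pow_one] at hi
      haveI : IsCyclic (↥(P : Subgroup G) ⧸ center ↥(P : Subgroup G)) :=
        isCyclic_of_prime_card (p := p) hi
      exact commutative_of_cyclic_center_quotient (QuotientGroup.mk' (center ↥(P : Subgroup G)))
        (by rw [QuotientGroup.ker_mk'])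
  intro x hx
  rw [hC, mem_centralizer_iff]
  intro y hy
  exact congrArg Subtype.val (hcomm ⟨y, hy⟩ ⟨x, hx⟩)

theorem card_centralizer_mul (P : Sylow p G) :
    Nat.card ↥(centralizer ((P : Subgroup G) : Set G)) *
      (centralizer ((P : Subgroup G) : Set G)).relIndex (normalizer ((P : Subgroup G) : Set G)) =
      Nat.card ↥(normalizer ((P : Subgroup G) : Set G)) := by
  have := relIndex_mul_relIndex ⊥ (centralizer ((P : Subgroup G) : Set G))
    (normalizer ((P : Subgroup G) : Set G)) bot_le (centralizer_le_normalizer _)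
  rwa [relIndex_bot_left, relIndex_bot_left] at this

/-- `|N_G(P) : C_G(P)|` is never equal to `p` -/
theorem relIndex_ne (P : Sylow p G) :
    (centralizer ((P : Subgroup G) : Set G)).relIndex (normalizer ((P : Subgroup G) : Set G)) ≠ p := by
  intro hm
  have hp : p.Prime := Fact.out
  have hPC : (P : Subgroup G) ≤ centralizer ((P : Subgroup G) : Set G) := by
    apply le_centralizer_of_relIndex_le
    exact (relIndex_le_of_le_right le_normalizer (by rw [hm]; exact hp.ne_zero)).trans hm.le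
  have h1 := card_centralizer_mul P
  rw [hm] at h1
  have h2 : Nat.card ↥(P : Subgroup G) * p ∣ Nat.card G := by
    refine dvd_trans ?_ (card_subgroup_dvd_card (normalizer ((P : Subgroup G) : Set G)))
    rw [← h1]
    exact Nat.mul_dvd_mul_right (card_dvd_of_le hPC) p
  rw [← (P : Subgroup G).card_mul_index] at h2
  exact P.not_dvd_index (Nat.dvd_of_mul_dvd_mul_left Nat.card_pos h2)

/-- if `|N_G(P) : C_G(P)| ≥ 3` and `p` is odd then there are at most `|P|/2` classes of `p`-elements -/
theorem two_mul_card_le (hp2 : p ≠ 2) (P : Sylow p G)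
    (hm : 3 ≤ (centralizer ((P : Subgroup G) : Set G)).relIndex
      (normalizer ((P : Subgroup G) : Set G))) :
    2 * Nat.card {c : ConjClasses G // ∀ x ∈ c.carrier, ∃ k : ℕ, orderOf x = p ^ k} ≤
      Nat.card ↥(P : Subgroup G) := by
  have hp : p.Prime := Fact.out
  have h1 := keyM P
  have h2 := relIndex_ne P
  have hp3 : 3 ≤ p := by
    have := hp.two_le
    omega
  generalize (centralizer ((P : Subgroup G) : Set G)).relIndex
      (normalizer ((P : Subgroup G) : Set G)) = m at *
  generalize Nat.card {c : ConjClasses G // ∀ x ∈ c.carrier, ∃ k : ℕ, orderOf x = p ^ k} = kk at *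
  generalize Nat.card ↥(P : Subgroup G) = n at *
  have h3 : 2 * (p + m) ≤ p * m + 2 := by
    obtain ⟨a, rfl⟩ : ∃ a, p = a + 3 := ⟨p - 3, by omega⟩
    obtain ⟨b, rfl⟩ : ∃ b, m = b + 3 := ⟨m - 3, by omega⟩
    have : a ≠ b := fun h => h2 (by rw [h])
    rcases Nat.eq_zero_or_pos a with rfl | ha
    · have : 0 < b := by omega
      nlinarith
    · nlinarith
  have h4 : (p * m) * (2 * kk) ≤ (p * m) * n := by
    nlinarith [Nat.mul_le_mul_right n h3]
  exact Nat.le_of_mul_le_mul_left h4 (by positivity)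

theorem card_inf_mul_relIndex (H K : Subgroup G) :
    Nat.card ↥(H ⊓ K) * H.relIndex K = Nat.card K := by
  have := relIndex_mul_relIndex ⊥ (H ⊓ K) K bot_le inf_le_right
  rwa [relIndex_bot_left, relIndex_bot_left, inf_relIndex_right] at this

/-- Frattini: the number of Sylow subgroups of `L` is odd -/
theorem odd_relIndex (S : Sylow p G) (N : Subgroup G) [N.Normal]
    (hN1 : (Nat.card N).Coprime 2) (hSN : (S : Subgroup G) ≤ N) (L : Subgroup G)
    (hSL : (S : Subgroup G) ≤ L) :
    ((normalizer ((S : Subgroup G) : Set G)).relIndex L).Coprime 2 := by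
  have h1 : ((S.subtype hSL : Sylow p L) : Subgroup L) ≤ N.subgroupOf L := by
    intro x hx
    exact hSN hx
  have h2 := Sylow.normalizer_sup_eq_top' (S.subtype hSL) h1
  have h3 := Cfsg.Agent.Lib.Helper76SylowCount.relIndex_sup_self
    (normalizer (((S.subtype hSL : Sylow p L) : Subgroup L) : Set L)) (N.subgroupOf L)
    le_normalizer_of_normal
  have h2' : normalizer (((S.subtype hSL : Sylow p L) : Subgroup L) : Set L) ⊔ N.subgroupOf L = ⊤ := h2
  rw [h2', relIndex_top_right] at h3
  have h4 : (normalizer ((S : Subgroup G) : Set G)).relIndex L =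
      (normalizer (((S.subtype hSL : Sylow p L) : Subgroup L) : Set L)).index := by
    rw [relIndex, subgroupOf_normalizer_eq hSL]
    rfl
  rw [h4, h3]
  have h5 : (normalizer (((S.subtype hSL : Sylow p L) : Subgroup L) : Set L)).relIndex
      (N.subgroupOf L) ∣ Nat.card N :=
    (relIndex_dvd_card _ _).trans (card_comap_dvd_of_injective N L.subtype L.subtype_injective)
  exact Nat.Coprime.coprime_dvd_left h5 hN1

theorem fixed_of_full (hp2 : p ≠ 2) (S : Sylow p G) (N : Subgroup G) [N.Normal]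
    (hN1 : (Nat.card N).Coprime 2) (k : ℕ) (hN2 : N.index = 2 ^ k)
    (hm : (centralizer ((S : Subgroup G) : Set G)).relIndex
      (normalizer ((S : Subgroup G) : Set G)) = 2) (y : G) (hy : y ∈ S)
    (hfull : 2 ^ (Nat.card G).factorization 2 ∣ Nat.card ↥(centralizer ({y} : Set G))) :
    ∀ g ∈ normalizer ((S : Subgroup G) : Set G), g * y * g⁻¹ = y := by
  have hp : p.Prime := Fact.out
  set CS := centralizer ((S : Subgroup G) : Set G) with hCS
  set NS := normalizer ((S : Subgroup G) : Set G) with hNS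
  have hSC : (S : Subgroup G) ≤ CS := by
    apply le_centralizer_of_relIndex_le
    exact (relIndex_le_of_le_right le_normalizer (by rw [← hCS, ← hNS, hm]; norm_num)).trans
      (by rw [← hCS, ← hNS, hm]; exact hp.two_le)
  set L := centralizer ({y} : Set G) with hL
  have hCL : CS ≤ L := centralizer_le (by simpa using hy)
  have hSL : (S : Subgroup G) ≤ L := hSC.trans hCL
  have hSN : (S : Subgroup G) ≤ N := by
    intro x hx
    rw [mem_iff_coprime N hN1 k hN2]
    obtain ⟨j, hj⟩ := (IsPGroup.iff_orderOf.mp S.2) ⟨x, hx⟩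
    rw [Subgroup.orderOf_mk] at hj
    rw [hj]
    exact Nat.Coprime.pow_left _ ((Nat.coprime_primes hp Nat.prime_two).mpr hp2)
  have hodd := odd_relIndex S N hN1 hSN L hSL
  rw [← hNS] at hodd
  have h1 := card_inf_mul_relIndex NS L
  have h2 : 2 ^ (Nat.card G).factorization 2 ∣ Nat.card ↥(NS ⊓ L) := by
    rw [← h1] at hfull
    exact (Nat.Coprime.dvd_mul_right (Nat.Coprime.pow_left _ hodd.symm)).mp hfull
  have h3 : ¬ NS ⊓ L ≤ CS := by
    intro hle
    have h4 := card_centralizer_mul S
    rw [← hCS, ← hNS, hm] at h4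
    have h5 : 2 ^ ((Nat.card G).factorization 2 + 1) ∣ Nat.card G := by
      refine dvd_trans ?_ (card_subgroup_dvd_card NS)
      rw [← h4, pow_succ]
      exact Nat.mul_dvd_mul_right (h2.trans (card_dvd_of_le hle)) 2
    exact Nat.pow_succ_factorization_not_dvd Nat.card_pos.ne' Nat.prime_two h5
  obtain ⟨g₀, hg₀, hg₀C⟩ := SetLike.not_le_iff_exists.mp h3
  have hfix : ∀ g ∈ L, g * y * g⁻¹ = y := by
    intro g hg
    rw [hL, mem_centralizer_singleton_iff] at hg
    rw [hg, mul_inv_cancel_right]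
  intro g hg
  by_cases hgC : g ∈ CS
  · exact hfix g (hCL hgC)
  · have h6 := mul_mem_iff_of_index_two (H := CS.subgroupOf NS) hm
      (a := (⟨g₀, hg₀.1⟩ : NS)⁻¹) (b := ⟨g, hg⟩)
    rw [inv_mem_iff] at h6
    simp only [mem_subgroupOf] at h6
    have h7 : g₀⁻¹ * g ∈ CS := h6.mpr ⟨fun h => absurd h hg₀C, fun h => absurd h hgC⟩
    have h8 : g ∈ L := by
      have := mul_mem hg₀.2 (hCL h7)
      rwa [mul_inv_cancel_left] at this
    exact hfix g h8


theorem card_centralizer_conj (t x : G) :
    Nat.card ↥(centralizer ({t * x * t⁻¹} : Set G)) = Nat.card ↥(centralizer ({x} : Set G)) := by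
  refine Nat.card_congr ⟨fun z => ⟨t⁻¹ * z * t, ?_⟩, fun z => ⟨t * z * t⁻¹, ?_⟩, ?_, ?_⟩
  · have := z.2
    rw [mem_centralizer_singleton_iff] at this ⊢
    calc t⁻¹ * z * t * x = t⁻¹ * (z * (t * x * t⁻¹)) * t := by group
      _ = t⁻¹ * ((t * x * t⁻¹) * z) * t := by rw [this]
      _ = x * (t⁻¹ * z * t) := by group
  · have := z.2
    rw [mem_centralizer_singleton_iff] at this ⊢
    calc t * z * t⁻¹ * (t * x * t⁻¹) = t * (z * x) * t⁻¹ := by group
      _ = t * (x * z) * t⁻¹ := by rw [this]
      _ = t * x * t⁻¹ * (t * z * t⁻¹) := by group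
  · intro z; apply Subtype.ext; simp only; group
  · intro z; apply Subtype.ext; simp only; group

theorem cls_eq_iff' (P : Sylow p G) (x y : ↥(P : Subgroup G)) :
    S3897.cls P x = S3897.cls P y ↔ ∃ g : G, g * x * g⁻¹ = y := by
  rw [Subtype.ext_iff]
  show ConjClasses.mk (x : G) = ConjClasses.mk (y : G) ↔ _
  rw [ConjClasses.mk_eq_mk_iff_isConj, isConj_iff]

open Classical in
theorem sum_need_le (hp2 : p ≠ 2) (S : Sylow p G) (N : Subgroup G) [N.Normal]
    (hN1 : (Nat.card N).Coprime 2) (k : ℕ) (hN2 : N.index = 2 ^ k)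
    (hm : (centralizer ((S : Subgroup G) : Set G)).relIndex
      (normalizer ((S : Subgroup G) : Set G)) = 2) [Fintype (S3899.Kp G p)] :
    ∑ c : S3899.Kp G p, (if 2 ^ (Nat.card G).factorization 2 ∣
      Nat.card ↥(centralizer ({S3899.rep c.1} : Set G)) then 2 else 1) ≤
      Nat.card ↥(S : Subgroup G) := by
  have hp : p.Prime := Fact.out
  set NS := normalizer ((S : Subgroup G) : Set G) with hNS
  set F : Subgroup G := (S : Subgroup G) ⊓ centralizer (NS : Set G) with hF
  have hFS : F ≤ S := inf_le_left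
  have hFne : ¬ (S : Subgroup G) ≤ F := by
    intro hle
    have h1 : NS ≤ centralizer ((S : Subgroup G) : Set G) := by
      intro g hg
      rw [mem_centralizer_iff]
      intro x hx
      have := (mem_inf.mp (hle hx)).2
      rw [mem_centralizer_iff] at this
      exact (this g hg).symm
    rw [relIndex_eq_one.mpr h1] at hm
    norm_num at hm
  have h3F : 3 * Nat.card F ≤ Nat.card ↥(S : Subgroup G) := by
    have hcard : Nat.card (F.subgroupOf S) = Nat.card F :=
      Nat.card_congr (subgroupOfEquivOfLe hFS).toEquiv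
    have hmul := (F.subgroupOf S).card_mul_index
    rw [hcard] at hmul
    obtain ⟨n, hn'⟩ := IsPGroup.iff_card.mp S.2
    have hdvd : (F.subgroupOf S).index ∣ p ^ n := hn' ▸ (F.subgroupOf S).index_dvd_card
    obtain ⟨i, -, hi⟩ := (Nat.dvd_prime_pow hp).mp hdvd
    have hi0 : i ≠ 0 := by
      rintro rfl
      rw [pow_zero, index_eq_one, subgroupOf_eq_top] at hi
      exact hFne hi
    have h3 : 3 ≤ (F.subgroupOf S).index := by
      rw [hi]
      have h4 : p ≤ p ^ i := Nat.le_self_pow hi0 p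
      have := hp.two_le
      omega
    rw [← hmul, mul_comm]
    exact Nat.mul_le_mul_left _ h3
  letI := Fintype.ofFinite ↥(S : Subgroup G)
  let w : ↥(S : Subgroup G) → ℕ := fun x => if (x : G) ∈ F then 4 else 1
  have hfib : ∀ c : S3899.Kp G p, 2 * (if 2 ^ (Nat.card G).factorization 2 ∣
      Nat.card ↥(centralizer ({S3899.rep c.1} : Set G)) then 2 else 1) ≤
      ∑ x ∈ Finset.univ.filter (fun x => S3897.cls S x = c), w x := by
    intro c
    by_cases h1 : ∃ x, S3897.cls S x = c ∧ (x : G) ∈ F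
    · obtain ⟨x, hx, hxF⟩ := h1
      have h2 : w x = 4 := if_pos hxF
      calc _ ≤ 4 := by split_ifs <;> norm_num
        _ = w x := h2.symm
        _ ≤ _ := Finset.single_le_sum (f := w) (fun _ _ => Nat.zero_le _) (by simp [hx])
    · push_neg at h1
      obtain ⟨x, hx⟩ := S3897.cls_surjective S c
      have hxF := h1 x hx
      have hconj : IsConj (x : G) (S3899.rep c.1) := by
        rw [← ConjClasses.mk_eq_mk_iff_isConj, S3899.mk_rep, ← hx]
        rfl
      obtain ⟨t, ht⟩ := isConj_iff.mp hconj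
      have hnf : ¬ 2 ^ (Nat.card G).factorization 2 ∣
          Nat.card ↥(centralizer ({S3899.rep c.1} : Set G)) := by
        intro hfull
        rw [← ht, card_centralizer_conj] at hfull
        apply hxF
        refine mem_inf.mpr ⟨x.2, ?_⟩
        rw [mem_centralizer_iff]
        intro g hg
        have := fixed_of_full hp2 S N hN1 k hN2 hm x x.2 hfull g hg
        rwa [mul_inv_eq_iff_eq_mul] at this
      rw [if_neg hnf]
      have h3 : ¬ ∀ g ∈ NS, g * (x : G) = x * g := by
        intro h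
        apply hxF
        refine mem_inf.mpr ⟨x.2, ?_⟩
        rw [mem_centralizer_iff]
        exact h
      push_neg at h3
      obtain ⟨u, hu, hux⟩ := h3
      set x1 : ↥(S : Subgroup G) := ⟨u * x * u⁻¹, (mem_normalizer_iff.mp hu x).mp x.2⟩ with hx1
      have hc1 : S3897.cls S x1 = c := by
        rw [← hx, eq_comm, cls_eq_iff']; exact ⟨u, rfl⟩
      have hw0 : w x = 1 := if_neg hxF
      have hw1 : w x1 = 1 := if_neg (h1 x1 hc1)
      have hne01 : x ≠ x1 := by
        intro h
        apply hux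
        have := (congrArg Subtype.val h).symm
        simp only [hx1] at this
        rwa [mul_inv_eq_iff_eq_mul] at this
      calc 2 * 1 = 1 + 1 := rfl
        _ = ∑ y ∈ ({x, x1} : Finset ↥(S : Subgroup G)), w y := by
            rw [Finset.sum_insert (by simp [hne01]), Finset.sum_singleton, hw0, hw1]
        _ ≤ _ := by
            apply Finset.sum_le_sum_of_subset
            intro y hy
            simp only [Finset.mem_insert, Finset.mem_singleton] at hy
            rcases hy with rfl | rfl <;> simp [hx, hc1]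
  have hsum : ∑ c, ∑ x ∈ Finset.univ.filter (fun x => S3897.cls S x = c), w x = ∑ x, w x :=
    Finset.sum_fiberwise Finset.univ (S3897.cls S) w
  have hge : 2 * ∑ c : S3899.Kp G p, (if 2 ^ (Nat.card G).factorization 2 ∣
      Nat.card ↥(centralizer ({S3899.rep c.1} : Set G)) then 2 else 1) ≤ ∑ x, w x := by
    rw [← hsum, Finset.mul_sum]
    exact Finset.sum_le_sum (fun c _ => hfib c)
  have hw : ∀ x : ↥(S : Subgroup G), w x = 1 + 3 * (if (x : G) ∈ F then 1 else 0) := by
    intro x
    simp only [w]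
    split_ifs <;> rfl
  have htot : ∑ x, w x = Nat.card ↥(S : Subgroup G) + 3 * Nat.card F := by
    rw [← S3895.sum_ind S F hFS, Finset.sum_congr rfl (fun x _ => hw x), Finset.sum_add_distrib,
      Finset.mul_sum, Finset.sum_const, Finset.card_univ, Nat.card_eq_fintype_card, smul_eq_mul,
      mul_one]
  omega

end

open S3899 in
theorem part_half {σ : Finset ℕ} (hσ : ∀ r ∈ σ, r.Prime) (h2 : 2 ∈ σ) {m n : ℕ} (hmn : m ∣ n)
    (hn : n ≠ 0) (hnf : ¬ 2 ^ n.factorization 2 ∣ m) : 2 * part σ m ≤ part σ n := by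
  have hσ' : ∀ s ∈ σ.erase 2, s.Prime := fun s hs => hσ s (Finset.mem_of_mem_erase hs)
  have e1 : ∀ j : ℕ, part σ j = 2 ^ j.factorization 2 * part (σ.erase 2) j := by
    intro j
    rw [part, part, Finset.mul_prod_erase σ (fun r => r ^ j.factorization r) h2]
  have h1 : m.factorization 2 < n.factorization 2 := by
    by_contra hle
    push_neg at hle
    exact hnf ((pow_dvd_pow 2 hle).trans (Nat.ordProj_dvd m 2))
  have h3 : 2 * 2 ^ m.factorization 2 ≤ 2 ^ n.factorization 2 := by
    rw [← pow_succ']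
    exact Nat.pow_le_pow_right (by norm_num) h1
  rw [e1 m, e1 n, ← mul_assoc]
  exact Nat.mul_le_mul h3 (part_le hσ' hmn hn)

open S3899 in
theorem step_two {G : Type*} [Group G] [Finite G] (π : Finset ℕ) (hπ : ∀ r ∈ π, r.Prime)
    (h2 : 2 ∈ π) (hk : part π (Nat.card G) < 2 * Nat.card (Kpi G π)) : HasNPC 2 G := by
  classical
  have hσ' : ∀ s ∈ π.erase 2, s.Prime := fun s hs => hπ s (Finset.mem_of_mem_erase hs)
  have h1 := card_insert_le (G := G) 2 Nat.prime_two (π.erase 2) (part (π.erase 2) (Nat.card G))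
    (fun x => (card_Kpi_le _ hσ' _).trans
      (part_le hσ' (Subgroup.card_subgroup_dvd_card _) Nat.card_pos.ne'))
  rw [Finset.insert_erase h2] at h1
  have h3 : part π (Nat.card G) = 2 ^ (Nat.card G).factorization 2 * part (π.erase 2) (Nat.card G) := by
    rw [part, part, Finset.mul_prod_erase π (fun r => r ^ (Nat.card G).factorization r) h2]
  obtain ⟨P⟩ : Nonempty (Sylow 2 G) := inferInstance
  have hPc := Sylow.card_eq_multiplicity P
  rw [h3, ← hPc] at hk
  have key : Nat.card ↥(P : Subgroup G) < 2 * Nat.card (Kp G 2) := by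
    have e1 : Nat.card ↥(P : Subgroup G) * part (π.erase 2) (Nat.card G) <
        2 * Nat.card (Kp G 2) * part (π.erase 2) (Nat.card G) := by
      calc _ < 2 * Nat.card (Kpi G π) := hk
        _ ≤ 2 * (Nat.card (Kp G 2) * part (π.erase 2) (Nat.card G)) := Nat.mul_le_mul_left _ h1
        _ = _ := by ring
    exact Nat.lt_of_mul_lt_mul_right e1
  exact hasNPC_iff.mpr ((S3895.result P).mp key).1

open S3899 in
theorem step_odd {G : Type*} [Group G] [Finite G] (π : Finset ℕ) (hπ : ∀ r ∈ π, r.Prime)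
    (h2 : 2 ∈ π) (hk : part π (Nat.card G) < 2 * Nat.card (Kpi G π)) (r : ℕ) (hr : r ∈ π)
    (hr2 : r ≠ 2) :
    ∃ N : Subgroup G, N.Normal ∧ ¬ r ∣ Nat.card N ∧ (∃ k, N.index = r ^ k) ∧
      ∀ a b : G, a * b * a⁻¹ * b⁻¹ ∈ N := by
  classical
  have hrp : r.Prime := hπ r hr
  haveI : Fact r.Prime := ⟨hrp⟩
  have hσ' : ∀ s ∈ π.erase r, s.Prime := fun s hs => hπ s (Finset.mem_of_mem_erase hs)
  have h2σ : 2 ∈ π.erase r := Finset.mem_erase.mpr ⟨fun h => hr2 h.symm, h2⟩
  have h3 : part π (Nat.card G) = r ^ (Nat.card G).factorization r * part (π.erase r) (Nat.card G) := by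
    rw [part, part, Finset.mul_prod_erase π (fun r => r ^ (Nat.card G).factorization r) hr]
  obtain ⟨S⟩ : Nonempty (Sylow r G) := inferInstance
  have hSc := Sylow.card_eq_multiplicity S
  rw [h3, ← hSc] at hk
  have hm0 : (centralizer ((S : Subgroup G) : Set G)).relIndex
      (normalizer ((S : Subgroup G) : Set G)) ≠ 0 := index_ne_zero_of_finite
  have hm1 : (centralizer ((S : Subgroup G) : Set G)).relIndex
      (normalizer ((S : Subgroup G) : Set G)) = 1 := by
    by_contra hne1
    by_cases hm2 : (centralizer ((S : Subgroup G) : Set G)).relIndex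
      (normalizer ((S : Subgroup G) : Set G)) = 2
    · -- the case `m = 2`
      obtain ⟨N, hN, hN1, k, hN2⟩ := step_two π hπ h2 (by rw [h3, ← hSc]; exact hk)
      letI := Fintype.ofFinite (Kp G r)
      have hs := sum_need_le hr2 S N hN1 k hN2 hm2
      have h5 : Nat.card (Kpi G π) ≤
          ∑ c : Kp G r, part (π.erase r) (Nat.card ↥(centralizer ({rep c.1} : Set G))) := by
        calc Nat.card (Kpi G π) = Nat.card (Kpi G (insert r (π.erase r))) := by
              rw [Finset.insert_erase hr]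
          _ ≤ Nat.card (Σ c : Kp G r, Kpi ↥(centralizer ({rep c.1} : Set G)) (π.erase r)) :=
              Nat.card_le_card_of_surjective _ (Phi_surjective r hrp (π.erase r))
          _ = ∑ c : Kp G r, Nat.card (Kpi ↥(centralizer ({rep c.1} : Set G)) (π.erase r)) :=
              Nat.card_sigma
          _ ≤ _ := Finset.sum_le_sum (fun c _ => card_Kpi_le _ hσ' _)
      have h6 : 2 * ∑ c : Kp G r, part (π.erase r) (Nat.card ↥(centralizer ({rep c.1} : Set G))) ≤
          (∑ c : Kp G r, (if 2 ^ (Nat.card G).factorization 2 ∣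
            Nat.card ↥(centralizer ({rep c.1} : Set G)) then 2 else 1)) *
            part (π.erase r) (Nat.card G) := by
        rw [Finset.mul_sum, Finset.sum_mul]
        apply Finset.sum_le_sum
        intro c _
        split_ifs with hf
        · exact Nat.mul_le_mul_left _
            (part_le hσ' (Subgroup.card_subgroup_dvd_card _) Nat.card_pos.ne')
        · rw [one_mul]
          exact part_half hσ' h2σ (Subgroup.card_subgroup_dvd_card _) Nat.card_pos.ne' hf
      have h7 := Nat.mul_le_mul_right (part (π.erase r) (Nat.card G)) hs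
      have h8 := Nat.mul_le_mul_left 2 h5
      omega
    · have hm3 : 3 ≤ (centralizer ((S : Subgroup G) : Set G)).relIndex
          (normalizer ((S : Subgroup G) : Set G)) := by omega
      have h4 := two_mul_card_le hr2 S hm3
      have h1 := card_insert_le (G := G) r hrp (π.erase r) (part (π.erase r) (Nat.card G))
        (fun x => (card_Kpi_le _ hσ' _).trans
          (part_le hσ' (Subgroup.card_subgroup_dvd_card _) Nat.card_pos.ne'))
      rw [Finset.insert_erase hr] at h1
      have h5 : 2 * Nat.card (Kpi G π) ≤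
          Nat.card ↥(S : Subgroup G) * part (π.erase r) (Nat.card G) := by
        calc 2 * Nat.card (Kpi G π) ≤ 2 * (Nat.card (Kp G r) * part (π.erase r) (Nat.card G)) :=
              Nat.mul_le_mul_left _ h1
          _ = (2 * Nat.card (Kp G r)) * part (π.erase r) (Nat.card G) := by ring
          _ ≤ _ := Nat.mul_le_mul_right _ h4
      omega
  have hP : normalizer ((S : Subgroup G) : Set G) ≤ centralizer ((S : Subgroup G) : Set G) :=
    relIndex_eq_one.mp hm1
  have hc := MonoidHom.ker_transferSylow_isComplement' S hP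
  refine ⟨(MonoidHom.transferSylow S hP).ker, inferInstance, ?_, ?_, ?_⟩
  · rw [← hc.index_eq_card]; exact S.not_dvd_index
  · rw [hc.symm.index_eq_card]; exact ⟨_, Sylow.card_eq_multiplicity S⟩
  · intro a b
    obtain ⟨⟨⟨n1, hn1⟩, ⟨u1, hu1⟩⟩, ha⟩ := hc.2 a
    obtain ⟨⟨⟨n2, hn2⟩, ⟨u2, hu2⟩⟩, hb⟩ := hc.2 b
    simp only at ha hb
    rw [← QuotientGroup.eq_one_iff]
    have e1 : ((n1 : G) : G ⧸ (MonoidHom.transferSylow S hP).ker) = 1 :=
      (QuotientGroup.eq_one_iff _).mpr hn1
    have e2 : ((n2 : G) : G ⧸ (MonoidHom.transferSylow S hP).ker) = 1 :=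
      (QuotientGroup.eq_one_iff _).mpr hn2
    have e3 : u1 * u2 = u2 * u1 := (hP (le_normalizer hu2) u1 hu1)
    rw [← ha, ← hb]
    simp only [QuotientGroup.mk_mul, QuotientGroup.mk_inv, e1, e2, one_mul]
    rw [← QuotientGroup.mk_mul, e3, QuotientGroup.mk_mul]
    group

theorem assemble {G : Type*} [Group G] [Finite G] (τ : Finset ℕ) (hτ : ∀ r ∈ τ, r.Prime)
    (Nf : ∀ r ∈ τ, Subgroup G) (h1 : ∀ r hr, (Nf r hr).Normal)
    (h3 : ∀ r hr, ¬ r ∣ Nat.card (Nf r hr)) (h4 : ∀ r hr, ∃ k : ℕ, (Nf r hr).index = r ^ k) :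
    ∃ N : Subgroup G, N.Normal ∧ (∀ r : ℕ, r.Prime → r ∣ Nat.card ↥N → r ∉ τ) ∧
      (∀ r : ℕ, r.Prime → r ∣ N.index → r ∈ τ) ∧ ∀ g : G, (∀ r hr, g ∈ Nf r hr) → g ∈ N := by
  let N : Subgroup G := ⨅ r : τ, Nf r.1 r.2
  have hNn : N.Normal := Subgroup.normal_iInf_normal (fun r => h1 r.1 r.2)
  have hNle : ∀ r (hr : r ∈ τ), N ≤ Nf r hr := fun r hr => iInf_le (fun r : τ => Nf r.1 r.2) ⟨r, hr⟩
  have hA : ∀ r : ℕ, r.Prime → r ∣ Nat.card ↥N → r ∉ τ := by
    intro r _ hrN hr
    exact h3 r hr (hrN.trans (Subgroup.card_dvd_of_le (hNle r hr)))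
  have hB : ∀ r : ℕ, r.Prime → r ∣ N.index → r ∈ τ := by
    intro s hs hsN
    haveI : Fact s.Prime := ⟨hs⟩
    obtain ⟨x, hx⟩ := exists_prime_orderOf_dvd_card' (G := G ⧸ N) s hsN
    obtain ⟨g, rfl⟩ := QuotientGroup.mk_surjective x
    have hg1 : g ∉ N := by
      intro h
      rw [(QuotientGroup.eq_one_iff g).mpr h, orderOf_one] at hx
      exact hs.one_lt.ne hx
    have hg2 : g ^ s ∈ N := by
      rw [← QuotientGroup.eq_one_iff, QuotientGroup.mk_pow, ← hx, pow_orderOf_eq_one]
    obtain ⟨⟨r, hr⟩, hgr⟩ : ∃ r : τ, g ∉ Nf r.1 r.2 := by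
      by_contra hcon
      push Not at hcon
      exact hg1 ((Subgroup.mem_iInf).mpr hcon)
    haveI := h1 r hr
    have ho : orderOf (g : G ⧸ Nf r hr) = s := by
      apply orderOf_eq_prime
      · rw [← QuotientGroup.mk_pow, QuotientGroup.eq_one_iff]; exact hNle r hr hg2
      · rwa [Ne, QuotientGroup.eq_one_iff]
    obtain ⟨k, hk'⟩ := h4 r hr
    have hd : s ∣ r ^ k := by
      rw [← hk', ← ho]; exact orderOf_dvd_natCard _
    have := (Nat.prime_dvd_prime_iff_eq hs (hτ r hr)).mp (hs.dvd_of_dvd_pow hd)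
    rw [this]; exact hr
  exact ⟨N, hNn, hA, hB, fun g hg => (Subgroup.mem_iInf).mpr (fun r => hg r.1 r.2)⟩

theorem result {G : Type*} [Group G] [Finite G] (π : Finset ℕ) (hπ : ∀ r ∈ π, r.Prime) (h2 : 2 ∈ π)
    (hk : π.prod (fun r => r ^ (Nat.card G).factorization r) < 2 * Nat.card {c : ConjClasses G // ∀ x ∈ c.carrier, ∀ r : ℕ, r.Prime → r ∣ orderOf x → r ∈ π}) :
    (∃ N : Subgroup G, N.Normal ∧ (∀ r : ℕ, r.Prime → r ∣ Nat.card ↥N → r ∉ π) ∧ ∀ r : ℕ, r.Prime → r ∣ N.index → r ∈ π) ∧ ∃ H : Subgroup G, Cfsg.IsPiHall ((↑π : Set ℕ) \ {2}) H ∧ IsMulCommutative ↥H := by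
  have Hodd := step_odd π hπ h2 hk
  have Htwo := step_two π hπ h2 hk
  constructor
  · have H : ∀ r ∈ π, ∃ N : Subgroup G, N.Normal ∧ ¬ r ∣ Nat.card N ∧ ∃ k : ℕ, N.index = r ^ k := by
      intro r hr
      by_cases hr2 : r = 2
      · subst hr2
        obtain ⟨N, hN, hN1, hN2⟩ := Htwo
        refine ⟨N, hN, ?_, hN2⟩
        intro hd
        have := Nat.Coprime.eq_one_of_dvd hN1.symm hd
        norm_num at this
      · obtain ⟨N, hN, hN1, hN2, -⟩ := Hodd r hr hr2
        exact ⟨N, hN, hN1, hN2⟩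
    choose Nf h1 h3 h4 using H
    obtain ⟨N, hN, hA, hB, -⟩ := assemble π hπ Nf h1 h3 h4
    exact ⟨N, hN, hA, hB⟩
  · have H : ∀ r ∈ π.erase 2, ∃ N : Subgroup G, N.Normal ∧ ¬ r ∣ Nat.card N ∧
        (∃ k : ℕ, N.index = r ^ k) ∧ ∀ a b : G, a * b * a⁻¹ * b⁻¹ ∈ N := by
      intro r hr
      exact Hodd r (Finset.mem_of_mem_erase hr) (Finset.ne_of_mem_erase hr)
    choose Nf h1 h3 h4 h5 using H
    obtain ⟨N, hN, hA, hB, hC⟩ := assemble (π.erase 2)
      (fun r hr => hπ r (Finset.mem_of_mem_erase hr)) Nf h1 h3 h4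
    have hcop : Nat.Coprime (Nat.card N) N.index :=
      Nat.coprime_of_dvd (fun k hk1 hk2 hk3 => hA k hk1 hk2 (hB k hk1 hk3))
    obtain ⟨K, hK⟩ := Subgroup.exists_right_complement'_of_coprime hcop
    refine ⟨K, ⟨?_, ?_⟩, ?_⟩
    · intro s hs hsK
      rw [← hK.symm.index_eq_card] at hsK
      have := hB s hs hsK
      rw [Finset.mem_erase] at this
      exact ⟨this.2, this.1⟩
    · intro s hs hsπ hsK
      rw [hK.index_eq_card] at hsK
      exact hA s hs hsK (Finset.mem_erase.mpr ⟨hsπ.2, hsπ.1⟩)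
    · refine ⟨⟨fun a b => ?_⟩⟩
      have hmem : (a : G) * b * (a : G)⁻¹ * (b : G)⁻¹ ∈ N := hC _ (fun r hr => h5 r hr _ _)
      have hmemK : (a : G) * b * (a : G)⁻¹ * (b : G)⁻¹ ∈ K :=
        K.mul_mem (K.mul_mem (K.mul_mem a.2 b.2) (K.inv_mem a.2)) (K.inv_mem b.2)
      have := hK.disjoint.le_bot ⟨hmem, hmemK⟩
      rw [Subgroup.mem_bot, mul_inv_eq_one, mul_inv_eq_iff_eq_mul] at this
      exact Subtype.ext this

end Cfsg.Agent.S3898
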