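import Cfsg.Statements.S3905
import Cfsg.Agent.Lib.H99McCaseA
import Cfsg.Agent.Lib.H99McTransEA
import Cfsg.Agent.Lib.H99McKBig
import Cfsg.Agent.Lib.H99McKEq
import Cfsg.Agent.Lib.H99McKPow
import Cfsg.Agent.Lib.H99McOutK
import Cfsg.Agent.Lib.H99McCKx
import Cfsg.Agent.Lib.H99McTransFrob
import Cfsg.Agent.Lib.H99McPerfect
import Cfsg.Agent.Lib.H99McCommLe

set_option autoImplicit false
open Cfsg

namespace Cfsg.Agent.S3905

open Cfsg.Agent.Lib.H99Mc in
/-- Let N be a normal subgroup of the finite group G such that for every element x of N outside the center of N the centralizer C_G(x) is a maximal subgroup of G. Then N/Z(N) is either an elementary abelian p-group for some prime p, or a Frobenius group whose kernel is an elementary abelian normal subgroup and whose complement has prime order. -/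
theorem result {G : Type*} [Group G] [Finite G] (N : Subgroup G) [N.Normal]
    (h : ∀ x : G, x ∈ N → x ∉ Subgroup.centralizer (N : Set G) → IsCoatom (Subgroup.centralizer ({x} : Set G))) :
    (∃ p : ℕ, p.Prime ∧ Cfsg.IsElementaryAbelian p (⊤ : Subgroup (↥N ⧸ Subgroup.center ↥N))) ∨
    (∃ (Q K : Subgroup (↥N ⧸ Subgroup.center ↥N)) (p : ℕ), p.Prime ∧ Cfsg.IsFrobeniusComplement Q ∧ (Nat.card ↥Q).Prime ∧
      K.Normal ∧ (K : Set (↥N ⧸ Subgroup.center ↥N)) = Cfsg.frobeniusKernel Q ∧ Cfsg.IsElementaryAbelian p K) := by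
  classical
  have hH : Hyp N := h
  have hN'N : ⁅N, N⁆ ≤ N := Subgroup.commutator_le_left N N
  by_cases hc : ⁅N, N⁆ ≤ Subgroup.centralizer (N : Set G)
  · left
    obtain ⟨p, hp, hpow⟩ := caseA N hH hc
    exact ⟨p, hp, transEA N p hc hpow⟩
  · right
    by_cases hs : ⁅⁅N, N⁆, ⁅N, N⁆⁆ ≤ Subgroup.centralizer (N : Set G)
    · have hK := kBig N hH hc hs
      obtain ⟨p, hp, hpow⟩ := kPow N hH hc hK
      obtain ⟨y, hy, hy'⟩ := SetLike.not_le_iff_exists.mp hK
      obtain ⟨hDy, hq⟩ := kEq N hH hc hy hy'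
      have hKN : KK N ≤ N := inf_le_left
      have hex : ∃ x ∈ N, x ∉ KK N := by
        by_contra hcon
        simp only [not_exists, not_and, not_not] at hcon
        apply hc
        intro c hcm
        rw [Subgroup.mem_centralizer_iff]
        intro n hn
        have h1 : n ∈ Subgroup.centralizer ((⁅N, N⁆ : Subgroup G) : Set G) := (hcon n hn).2
        rw [Subgroup.mem_centralizer_iff] at h1
        exact (h1 c hcm).symm
      obtain ⟨x, hx, hxK⟩ := hex
      obtain ⟨hsn, hx'⟩ := outK N hH hx hxK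
      have hKnorm : (KK N).Normal := by
        unfold KK
        infer_instance
      refine transFrob N (KK N) x p hp hKN (fun n _ k hk => hKnorm.conj_mem k hk n) ?_ hK ?_ hpow hq hx hxK ?_ hsn
      · intro z hz
        exact ⟨hz.1, Subgroup.centralizer_le hN'N hz.2⟩
      · intro a ha b hb
        by_cases ha' : a ∈ Subgroup.centralizer (N : Set G)
        · rw [Subgroup.mem_centralizer_iff] at ha'
          exact (ha' b (hKN hb)).symm
        · have h1 := (kEq N hH hc ha ha').1
          have h2 : b ∈ D N a := h1 ▸ hb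
          have h3 : b ∈ Subgroup.centralizer ({a} : Set G) := h2.2
          rw [Subgroup.mem_centralizer_iff] at h3
          exact h3 a rfl
      · intro z hz
        have h3 : z ∈ Subgroup.centralizer ({x} : Set G) := hz.1.2
        rw [Subgroup.mem_centralizer_iff] at h3
        exact cKx N hH hx hxK hz.2 (h3 x rfl)
    · exfalso
      have hle : ⁅⁅N, N⁆, ⁅N, N⁆⁆ ≤ ⁅N, N⁆ := Subgroup.commutator_le_left _ _
      have h1 : ⁅N, N⁆ ≤ ⁅⁅N, N⁆, ⁅N, N⁆⁆ := commLe N hH _ (hle.trans hN'N) hs
      have h2 : ⁅⁅N, N⁆, ⁅N, N⁆⁆ = ⁅N, N⁆ := le_antisymm hle h1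
      have hL : Hyp ⁅N, N⁆ := fun x hx hx' =>
        hH x (hN'N hx) (fun hcon => hx' (Subgroup.centralizer_le hN'N hcon))
      have h3 := perfect ⁅N, N⁆ hL h2
      exact hc (h3 ▸ bot_le)

end Cfsg.Agent.S3905
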