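import Cfsg.Statements.S3908
import Cfsg.Agent.S0016

set_option autoImplicit false
open Cfsg

namespace Cfsg.Agent.S3908

open Subgroup

theorem exists_rank_two {X : Type*} [Group X] [Finite X] (p : ℕ) [Fact p.Prime]
    (hX : IsPGroup p X) (A B : Subgroup X) (hA : Nat.card A = p) (hB : Nat.card B = p)
    (hAB : A ≠ B) :
    ∃ E : Subgroup X, IsMulCommutative E ∧ Nat.card E = p ^ 2 ∧ ∀ e ∈ E, e ^ p = 1 := by
  have hp : p.Prime := Fact.out
  have hnt : Nontrivial X := by
    by_contra h
    rw [not_nontrivial_iff_subsingleton] at h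
    exact hAB (Subsingleton.elim _ _)
  have hcn : Nontrivial (center X) := hX.center_nontrivial
  have hcd : p ∣ Nat.card (center X) := by
    obtain ⟨k, hk⟩ := IsPGroup.iff_card.mp (hX.to_subgroup (center X))
    rw [hk]
    apply dvd_pow_self
    rintro rfl
    rw [pow_zero] at hk
    have := (Nat.card_eq_one_iff_unique.mp hk).1
    exact not_subsingleton (center X) this
  obtain ⟨z, hz⟩ := exists_prime_orderOf_dvd_card' (G := center X) p hcd
  have hzo : orderOf (z : X) = p := by rw [Subgroup.orderOf_coe]; exact hz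
  set Z := zpowers (z : X) with hZ
  have hZcard : Nat.card Z = p := by rw [hZ, Nat.card_zpowers, hzo]
  have hZc : Z ≤ center X := zpowers_le.mpr z.2
  have hZn : Z.Normal := by
    constructor
    intro n hn g
    have := mem_center_iff.mp (hZc hn) g
    rw [this]; simpa using hn
  obtain ⟨A', hA', hA'Z⟩ : ∃ A' : Subgroup X, Nat.card A' = p ∧ A' ≠ Z := by
    by_cases h : A = Z
    · exact ⟨B, hB, fun h' => hAB (h.trans h'.symm)⟩
    · exact ⟨A, hA, h⟩
  have hdisj : Z ⊓ A' = ⊥ := by
    have h1 : Nat.card (Z ⊓ A' : Subgroup X) ∣ p := hZcard ▸ card_dvd_of_le inf_le_left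
    rcases (Nat.dvd_prime hp).mp h1 with h | h
    · exact card_eq_one.mp h
    · exfalso
      have e1 : Z ⊓ A' = Z := eq_of_le_of_card_ge inf_le_left (by rw [h, hZcard])
      have e2 : Z ⊓ A' = A' := eq_of_le_of_card_ge inf_le_right (by rw [h, hA'])
      exact hA'Z (e2.symm.trans e1)
  have hdec : ∀ e ∈ A' ⊔ Z, ∃ a ∈ A', ∃ w ∈ Z, a * w = e := by
    intro e he
    have he' : e ∈ ((A' ⊔ Z : Subgroup X) : Set X) := he
    rw [mul_normal] at he'
    exact Set.mem_mul.mp he'
  have hA'cyc : IsCyclic A' := isCyclic_of_prime_card hA'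
  have hA'comm : ∀ a ∈ A', ∀ b ∈ A', a * b = b * a := fun a ha b hb =>
    congrArg Subtype.val (hA'cyc.isMulCommutative.is_comm.comm ⟨a, ha⟩ ⟨b, hb⟩)
  refine ⟨A' ⊔ Z, ⟨⟨fun x y => ?_⟩⟩, ?_, ?_⟩
  · apply Subtype.ext
    obtain ⟨a, ha, w, hw, h1⟩ := hdec x x.2
    obtain ⟨b, hb, v, hv, h2⟩ := hdec y y.2
    show (x : X) * y = y * x
    have cw := mem_center_iff.mp (hZc hw)
    have cv := mem_center_iff.mp (hZc hv)
    rw [← h1, ← h2]
    calc a * w * (b * v) = a * (w * b) * v := by group
      _ = a * (b * w) * v := by rw [cw b]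
      _ = (a * b) * (w * v) := by group
      _ = (b * a) * (v * w) := by rw [hA'comm a ha b hb, cw v]
      _ = b * (a * v) * w := by group
      _ = b * (v * a) * w := by rw [cv a]
      _ = b * v * (a * w) := by group
  · have h1 := relIndex_mul_relIndex (⊥ : Subgroup X) Z (A' ⊔ Z) bot_le le_sup_right
    rw [relIndex_bot_left, relIndex_bot_left, relIndex_sup_right, ← inf_relIndex_right, hdisj,
      relIndex_bot_left, hZcard, hA'] at h1
    rw [← h1]; ring
  · intro e he
    obtain ⟨a, ha, w, hw, rfl⟩ := hdec e he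
    have cw : Commute a w := mem_center_iff.mp (hZc hw) a
    rw [cw.mul_pow]
    have e1 : a ^ p = 1 := by
      have := pow_card_eq_one' (G := A') (x := ⟨a, ha⟩)
      rw [hA'] at this
      exact congrArg Subtype.val this
    have e2 : w ^ p = 1 := by
      have := pow_card_eq_one' (G := Z) (x := ⟨w, hw⟩)
      rw [hZcard] at this
      exact congrArg Subtype.val this
    rw [e1, e2, one_mul]

theorem key {G : Type*} [Group G] [Finite G]
    (hB : ∀ A B : Subgroup G, IsMulCommutative ↥A → IsMulCommutative ↥B →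
      Nat.card ↥A = Nat.card ↥B → ∃ g : G, B = A.map (MulAut.conj g).toMonoidHom)
    (p : ℕ) [Fact p.Prime] (P : Sylow p G) :
    (∀ x ∈ (P : Subgroup G), x ^ p = 1) ∨ IsCyclic ↥(P : Subgroup G) ∨
      (p = 2 ∧ ∃ k : ℕ, Nonempty (↥(P : Subgroup G) ≃* QuaternionGroup (2 ^ k))) := by
  have hp : p.Prime := Fact.out
  by_cases hexp : ∀ x ∈ (P : Subgroup G), x ^ p = 1
  · exact Or.inl hexp
  right
  push Not at hexp
  obtain ⟨x, hxP, hx⟩ := hexp
  -- an element of order p^2
  obtain ⟨k, hk⟩ := P.isPGroup'.exists_orderOf_eq_pow ⟨x, hxP⟩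
  rw [Subgroup.orderOf_mk] at hk
  have hk2 : 2 ≤ k := by
    by_contra hlt
    apply hx
    apply orderOf_dvd_iff_pow_eq_one.mp
    rw [hk]
    calc p ^ k ∣ p ^ 1 := pow_dvd_pow p (by omega)
      _ = p := pow_one p
  set y := x ^ p ^ (k - 2) with hy
  have hyo : orderOf y = p ^ 2 := by
    rw [hy, orderOf_pow_of_dvd (pow_ne_zero _ hp.ne_zero) (by rw [hk]; exact pow_dvd_pow p (by omega)),
      hk, Nat.pow_div (by omega) hp.pos]
    congr 1
    omega
  have hYcomm : IsMulCommutative (zpowers y) := IsCyclic.isMulCommutative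
  have huniq : ∀ A B : Subgroup (P : Subgroup G), Nat.card A = p → Nat.card B = p → A = B := by
    intro A B hA hB'
    by_contra hAB
    obtain ⟨E, hEc, hEcard, hEe⟩ := exists_rank_two p P.isPGroup' A B hA hB' hAB
    set E' := E.map (P : Subgroup G).subtype with hE'
    have hE'c : IsMulCommutative E' := by
      refine ⟨⟨fun a b => ?_⟩⟩
      obtain ⟨a', ha', ha⟩ := a.2
      obtain ⟨b', hb', hb⟩ := b.2
      apply Subtype.ext
      show (a : G) * b = b * a
      rw [← ha, ← hb]
      have := hEc.is_comm.comm ⟨a', ha'⟩ ⟨b', hb'⟩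
      have h2 : a' * b' = b' * a' := congrArg Subtype.val this
      exact congrArg Subtype.val h2
    have hE'card : Nat.card E' = Nat.card (zpowers y) := by
      rw [hE', card_map_of_injective (P : Subgroup G).subtype_injective, hEcard, Nat.card_zpowers,
        hyo]
    obtain ⟨g, hg⟩ := hB E' (zpowers y) hE'c hYcomm hE'card
    have hyY : y ∈ E'.map (MulAut.conj g).toMonoidHom := hg ▸ mem_zpowers y
    obtain ⟨_, ⟨e, he, rfl⟩, hey⟩ := hyY
    have h1 : y ^ p = 1 := by
      rw [← hey, ← map_pow]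
      have : ((P : Subgroup G).subtype e) ^ p = 1 := by
        rw [← map_pow, hEe e he, map_one]
      rw [this, map_one]
    have h2 := orderOf_dvd_of_pow_eq_one h1
    rw [hyo] at h2
    have h3 := Nat.le_of_dvd hp.pos h2
    have h4 := hp.one_lt
    nlinarith
  exact Cfsg.Agent.S0016.result p P.isPGroup' huniq

/-- Let G be a finite group in which any two abelian subgroups of the same order are conjugate. Then a Sylow 2-subgroup of G is cyclic, elementary abelian or generalized quaternion, and for an odd prime p a Sylow p-subgroup of G is cyclic or has exponent dividing p. -/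
theorem result {G : Type*} [Group G] [Finite G] (hB : ∀ A B : Subgroup G, IsMulCommutative ↥A → IsMulCommutative ↥B → Nat.card ↥A = Nat.card ↥B → ∃ g : G, B = A.map (MulAut.conj g).toMonoidHom) :
    (∀ P : Sylow 2 G, IsCyclic ↥(P : Subgroup G) ∨ Cfsg.IsElementaryAbelian 2 (P : Subgroup G) ∨ ∃ k : ℕ, Nonempty (↥(P : Subgroup G) ≃* QuaternionGroup (2 ^ k))) ∧
    ∀ (p : ℕ) [Fact p.Prime], p ≠ 2 → ∀ P : Sylow p G, IsCyclic ↥(P : Subgroup G) ∨ ∀ x ∈ (P : Subgroup G), x ^ p = 1 := by
  constructor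
  · intro P
    rcases key hB 2 P with h | h | ⟨_, h⟩
    · right; left
      refine ⟨⟨⟨fun a b => ?_⟩⟩, h⟩
      apply Subtype.ext
      show (a : G) * b = b * a
      have ha := h a a.2
      have hb := h b b.2
      have hab := h (a * b) ((P : Subgroup G).mul_mem a.2 b.2)
      have e1 : (a : G)⁻¹ = a := by rw [inv_eq_iff_mul_eq_one, ← sq]; exact ha
      have e2 : (b : G)⁻¹ = b := by rw [inv_eq_iff_mul_eq_one, ← sq]; exact hb
      have e3 : ((a : G) * b)⁻¹ = a * b := by rw [inv_eq_iff_mul_eq_one, ← sq]; exact hab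
      rw [← e3, mul_inv_rev, e1, e2]
    · exact Or.inl h
    · exact Or.inr (Or.inr h)
  · intro p _ hp2 P
    rcases key hB p P with h | h | ⟨h2, _⟩
    · exact Or.inr h
    · exact Or.inl h
    · exact absurd h2 hp2

end Cfsg.Agent.S3908
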