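import Mathlib
import Cfsg.Statements.S3909

set_option autoImplicit false
open Cfsg

namespace Cfsg.Agent.S3909

open Subgroup

/-- Let G be a finite group in which any two abelian subgroups of the same order are conjugate. Let M be a normal subgroup of G. If M contains an element of the same order as a ∈ G, then a ∈ M; and if M is elementary abelian of order p^t with p prime and t ≥ 2, then M is the unique Sylow p-subgroup of G. -/
theorem result {G : Type*} [Group G] [Finite G] (hB : ∀ A B : Subgroup G, IsMulCommutative ↥A → IsMulCommutative ↥B → Nat.card ↥A = Nat.card ↥B → ∃ g : G, B = A.map (MulAut.conj g).toMonoidHom) (M : Subgroup G) [M.Normal] :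
    (∀ a : G, (∃ m ∈ M, orderOf m = orderOf a) → a ∈ M) ∧
    ∀ (p t : ℕ) [Fact p.Prime], 2 ≤ t → Nat.card ↥M = p ^ t → Cfsg.IsElementaryAbelian p M → ∀ P : Sylow p G, (P : Subgroup G) = M := by
  have h1 : ∀ a : G, (∃ m ∈ M, orderOf m = orderOf a) → a ∈ M := by
    rintro a ⟨m, hm, hma⟩
    obtain ⟨g, hg⟩ := hB (zpowers m) (zpowers a) inferInstance inferInstance
      (by rw [Nat.card_zpowers, Nat.card_zpowers, hma])
    have : a ∈ (zpowers m).map (MulAut.conj g).toMonoidHom := hg ▸ mem_zpowers a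
    obtain ⟨y, hy, rfl⟩ := this
    have hyM : y ∈ M := (zpowers_le.mpr hm) hy
    exact Normal.conj_mem inferInstance y hyM g
  refine ⟨h1, ?_⟩
  intro p t _ ht hcard hel P
  have hpp : p.Prime := Fact.out
  have hMp : IsPGroup p M := IsPGroup.of_card hcard
  apply le_antisymm _ (hMp.le_sylow_of_normal P)
  intro x hx
  by_contra hxM
  obtain ⟨k, hk⟩ := (IsPGroup.iff_orderOf.mp P.2) ⟨x, hx⟩
  rw [Subgroup.orderOf_mk] at hk
  -- an element of order p in M
  have hMne : M ≠ ⊥ := by
    intro h
    rw [h, Subgroup.card_bot] at hcard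
    have : 1 < p ^ t := Nat.one_lt_pow (by omega) hpp.one_lt
    omega
  obtain ⟨m, hm, hm1⟩ : ∃ m : G, m ∈ M ∧ m ≠ 1 := by
    by_contra hcon
    push Not at hcon
    exact hMne (eq_bot_iff.mpr (fun z hz => hcon z hz))
  have hmo : orderOf m = p := orderOf_eq_prime (hel.2 m hm) hm1
  rcases Nat.lt_or_ge k 2 with hk2 | hk2
  · interval_cases k
    · rw [pow_zero, orderOf_eq_one_iff] at hk
      exact hxM (hk ▸ M.one_mem)
    · exact hxM (h1 x ⟨m, hm, by rw [hmo, hk, pow_one]⟩)
  · set y := x ^ p ^ (k - 2) with hy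
    have hyo : orderOf y = p ^ 2 := by
      rw [hy, orderOf_pow_of_dvd (pow_ne_zero _ hpp.ne_zero) (hk ▸ pow_dvd_pow p (by omega)), hk,
        Nat.pow_div (by omega) hpp.pos]
      congr 1; omega
    obtain ⟨E', hE'⟩ := Sylow.exists_subgroup_card_pow_prime (G := M) p
      (show p ^ 2 ∣ Nat.card M from hcard ▸ pow_dvd_pow p ht)
    set E : Subgroup G := E'.map M.subtype with hE
    have hEM : E ≤ M := map_subtype_le _
    have hEc : Nat.card E = p ^ 2 := by
      rw [hE, Subgroup.card_map_of_injective M.subtype_injective, hE']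
    have hEcomm : IsMulCommutative E := by
      refine ⟨⟨fun a b => Subtype.ext ?_⟩⟩
      exact congrArg (Subtype.val : M → G) (hel.1.is_comm.comm (⟨a, hEM a.2⟩ : M) ⟨b, hEM b.2⟩)
    obtain ⟨g, hg⟩ := hB E (zpowers y) hEcomm inferInstance (by rw [hEc, Nat.card_zpowers, hyo])
    have : y ∈ E.map (MulAut.conj g).toMonoidHom := hg ▸ mem_zpowers y
    obtain ⟨e, he, hey⟩ := this
    have hep : e ^ p = 1 := hel.2 e (hEM he)
    have hyp : y ^ p = 1 := by
      rw [← hey, ← map_pow, hep, map_one]
    have := orderOf_dvd_of_pow_eq_one hyp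
    rw [hyo] at this
    have h2 : p ^ 2 ≤ p := Nat.le_of_dvd hpp.pos this
    nlinarith [hpp.two_le]

end Cfsg.Agent.S3909
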