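import Mathlib
import Cfsg.Statements.S3910

set_option autoImplicit false
open Cfsg

namespace Cfsg.Agent.S3910

open Subgroup

theorem sup_centralizer_eq_top {G : Type*} [Group G] [Finite G]
    (hn : ∀ (q : ℕ) [Fact q.Prime] (Q : Sylow q G), (Q : Subgroup G).Normal)
    {p : ℕ} [Fact p.Prime] (P : Sylow p G) :
    (P : Subgroup G) ⊔ centralizer ((P : Subgroup G) : Set G) = ⊤ := by
  rw [← index_eq_one, Nat.eq_one_iff_not_exists_prime_dvd]
  intro q hq hdvd
  haveI : Fact q.Prime := ⟨hq⟩
  obtain ⟨Q⟩ : Nonempty (Sylow q G) := inferInstance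
  have hle : (Q : Subgroup G) ≤ (P : Subgroup G) ⊔ centralizer ((P : Subgroup G) : Set G) := by
    by_cases hqp : q = p
    · subst hqp
      haveI := hn q Q
      exact le_trans (Q.2.le_sylow_of_normal P) le_sup_left
    · refine le_trans ?_ le_sup_right
      intro y hy
      rw [mem_centralizer_iff]
      intro x hx
      exact (commute_of_normal_of_disjoint _ _ (hn p P) (hn q Q)
        (IsPGroup.disjoint_of_ne p q (Ne.symm hqp) _ _ P.2 Q.2) x y hx hy).eq
  exact Q.not_dvd_index (hdvd.trans (index_dvd_of_le hle))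

/-- A finite nilpotent group in which any two abelian subgroups of the same order are conjugate is cyclic. -/
theorem result {G : Type*} [Group G] [Finite G] (hB : ∀ A B : Subgroup G, IsMulCommutative ↥A → IsMulCommutative ↥B → Nat.card ↥A = Nat.card ↥B → ∃ g : G, B = A.map (MulAut.conj g).toMonoidHom) (hnil : Group.IsNilpotent G) : IsCyclic G := by
  have hn : ∀ (q : ℕ) [Fact q.Prime] (Q : Sylow q G), (Q : Subgroup G).Normal :=
    ((Group.isNilpotent_of_finite_tfae (G := G)).out 0 3).mp hnil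
  haveI : IsZGroup G := by
    refine ⟨fun p hp P => ?_⟩
    haveI : Fact p.Prime := ⟨hp⟩
    haveI hPn := hn p P
    obtain ⟨g, hg⟩ := Finite.exists_max (fun x : ↥(P : Subgroup G) => orderOf x)
    rw [isCyclic_iff_exists_zpowers_eq_top]
    refine ⟨g, ?_⟩
    by_contra hne
    obtain ⟨M, hM, hgM⟩ := (eq_top_or_exists_le_coatom (zpowers g)).resolve_left hne
    haveI : Group.IsNilpotent ↥(P : Subgroup G) := P.2.isNilpotent
    have hMn : M.Normal :=
      NormalizerCondition.normal_of_coatom M Group.normalizerCondition_of_isNilpotent hM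
    apply hM.1
    rw [eq_top_iff]
    intro x _
    obtain ⟨i, hi⟩ := (IsPGroup.iff_orderOf.mp P.2) x
    obtain ⟨j, hj⟩ := (IsPGroup.iff_orderOf.mp P.2) g
    have hij : i ≤ j := by
      have := hg x
      simp only [hi, hj] at this
      exact (Nat.pow_le_pow_iff_right hp.one_lt).mp this
    set y := g ^ p ^ (j - i) with hy
    have hyo : orderOf y = p ^ i := by
      rw [hy, orderOf_pow_of_dvd (pow_ne_zero _ hp.ne_zero) (hj ▸ pow_dvd_pow p (by omega)), hj,
        Nat.pow_div (by omega) hp.pos]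
      congr 1; omega
    have hyM : y ∈ M := M.pow_mem (hgM (mem_zpowers g)) _
    obtain ⟨t, ht⟩ := hB (zpowers (y : G)) (zpowers (x : G)) inferInstance inferInstance
      (by rw [Nat.card_zpowers, Nat.card_zpowers, Subgroup.orderOf_coe, Subgroup.orderOf_coe, hyo, hi])
    have hx : (x : G) ∈ (zpowers (y : G)).map (MulAut.conj t).toMonoidHom := ht ▸ mem_zpowers _
    obtain ⟨z, ⟨k, rfl⟩, hz⟩ := hx
    have htop : t ∈ (P : Subgroup G) ⊔ centralizer ((P : Subgroup G) : Set G) :=
      (sup_centralizer_eq_top hn P) ▸ mem_top t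
    obtain ⟨u, hu, c, hc, rfl⟩ := mem_sup_of_normal_left.mp htop
    have hyk : ((y : G) ^ k) ∈ (P : Subgroup G) := (P : Subgroup G).zpow_mem y.2 k
    have hcy : c * ((y : G) ^ k) * c⁻¹ = (y : G) ^ k := by
      rw [mem_centralizer_iff] at hc
      rw [← hc _ hyk, mul_inv_cancel_right]
    have hx2 : (x : G) = u * ((y : G) ^ k) * u⁻¹ := by
      rw [← hz]
      show u * c * ((y : G) ^ k) * (u * c)⁻¹ = _
      calc u * c * ((y : G) ^ k) * (u * c)⁻¹ = u * (c * ((y : G) ^ k) * c⁻¹) * u⁻¹ := by group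
        _ = _ := by rw [hcy]
    have hx3 : x = (⟨u, hu⟩ : ↥(P : Subgroup G)) * y ^ k * (⟨u, hu⟩ : ↥(P : Subgroup G))⁻¹ :=
      Subtype.ext (by simpa using hx2)
    rw [hx3]
    exact hMn.conj_mem _ (M.zpow_mem hyM k) _
  infer_instance

end Cfsg.Agent.S3910
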