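import Cfsg.Statements.S3920
-- no helpers

set_option autoImplicit false
open Cfsg

namespace Cfsg.Agent.S3920

open DihedralGroup

theorem tors {n : ℕ} [NeZero n] (x : ZMod n) (h : 2 * x = 0) : 2 * x.val = 0 ∨ 2 * x.val = n := by
  have h1 : ((2 * x.val : ℕ) : ZMod n) = 0 := by
    push_cast
    rw [ZMod.natCast_zmod_val]
    exact h
  rw [ZMod.natCast_eq_zero_iff] at h1
  obtain ⟨c, hc⟩ := h1
  have h2 := ZMod.val_lt x
  have h3 : c < 2 := by
    by_contra h4
    push_neg at h4
    have : n * 2 ≤ n * c := Nat.mul_le_mul_left n h4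
    omega
  interval_cases c
  · left; omega
  · right; omega

theorem uniq {n : ℕ} [NeZero n] {x y : ZMod n} (hx : 2 * x = 0) (hy : 2 * y = 0) (hx0 : x ≠ 0)
    (hy0 : y ≠ 0) : x = y := by
  apply ZMod.val_injective
  have h1 : x.val ≠ 0 := fun h => hx0 ((ZMod.val_eq_zero x).1 h)
  have h2 : y.val ≠ 0 := fun h => hy0 ((ZMod.val_eq_zero y).1 h)
  rcases tors x hx with h3 | h3 <;> rcases tors y hy with h4 | h4 <;> omega

theorem nc {n : ℕ} [NeZero n] (H : Subgroup (DihedralGroup n)) (hH : ¬ IsCyclic ↥H) :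
    ∃ i j : ZMod n, sr i ∈ H ∧ r j ∈ H ∧ j ≠ 0 := by
  have h1 : ∃ i : ZMod n, sr i ∈ H := by
    by_contra hcon
    push_neg at hcon
    apply hH
    have hle : H ≤ Subgroup.zpowers (r 1 : DihedralGroup n) := by
      intro g hg
      cases g with
      | r i =>
        rw [Subgroup.mem_zpowers_iff]
        refine ⟨(i.val : ℤ), ?_⟩
        rw [zpow_natCast, r_one_pow, ZMod.natCast_zmod_val]
      | sr i => exact absurd hg (hcon i)
    exact Subgroup.isCyclic_of_le hle
  obtain ⟨i, hi⟩ := h1
  have h2 : ∃ h ∈ H, h ∉ Subgroup.zpowers (sr i : DihedralGroup n) := by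
    by_contra hcon
    push_neg at hcon
    apply hH
    exact Subgroup.isCyclic_of_le (H' := Subgroup.zpowers (sr i : DihedralGroup n)) hcon
  obtain ⟨h, hh, hh'⟩ := h2
  cases h with
  | r j =>
    refine ⟨i, j, hi, hh, ?_⟩
    rintro rfl
    apply hh'
    rw [r_zero]
    exact one_mem _
  | sr j =>
    refine ⟨i, j - i, hi, ?_, ?_⟩
    · rw [← sr_mul_sr]
      exact mul_mem hi hh
    · intro h0
      apply hh'
      rw [sub_eq_zero] at h0
      rw [h0]
      exact Subgroup.mem_zpowers _

theorem bwd {n : ℕ} [NeZero n] (hn : Odd n ∨ ∃ k : ℕ, n = 2 ^ k) (H : Subgroup (DihedralGroup n))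
    (hH : ¬ IsCyclic ↥H) : Subgroup.centralizer (H : Set (DihedralGroup n)) ≤ H := by
  obtain ⟨i, j, hi, hj, hj0⟩ := nc H hH
  intro c hc
  rw [Subgroup.mem_centralizer_iff] at hc
  have h1 := hc _ hi
  have h2 := hc _ hj
  cases c with
  | r k =>
    rw [sr_mul_r, r_mul_sr, sr.injEq] at h1
    have hk : 2 * k = 0 := by linear_combination h1
    by_cases hk0 : k = 0
    · subst hk0; rw [r_zero]; exact one_mem _
    · rcases hn with hodd | ⟨m, hm⟩
      · exfalso
        rcases tors k hk with h3 | h3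
        · apply hk0; rw [← ZMod.val_eq_zero]; omega
        · obtain ⟨t, ht⟩ := hodd; omega
      · have hd : addOrderOf j ∣ 2 ^ m := by
          have := addOrderOf_dvd_natCard j
          rw [Nat.card_zmod] at this
          exact hm ▸ this
        obtain ⟨b, hb, hbo⟩ := (Nat.dvd_prime_pow Nat.prime_two).1 hd
        have hb0 : b ≠ 0 := by
          rintro rfl
          rw [pow_zero, AddMonoid.addOrderOf_eq_one_iff] at hbo
          exact hj0 hbo
        have h3 : (2 ^ (b - 1)) • j ≠ 0 := by
          apply nsmul_ne_zero_of_lt_addOrderOf (by positivity)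
          rw [hbo]
          exact Nat.pow_lt_pow_right (by norm_num) (by omega)
        have h4 : 2 * ((2 ^ (b - 1)) • j) = 0 := by
          have h5 : (2 ^ b) • j = 0 := by rw [← hbo]; exact addOrderOf_nsmul_eq_zero j
          have h6 : 2 ^ b = 2 * 2 ^ (b - 1) := by
            rw [← pow_succ']
            congr 1
            omega
          rw [h6, mul_nsmul', two_nsmul] at h5
          rw [two_mul]
          exact h5
        have h5 := uniq hk h4 hk0 h3
        rw [h5, nsmul_eq_mul, mul_comm, ← r_pow]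
        exact pow_mem hj _
  | sr k =>
    rw [r_mul_sr, sr_mul_r, sr.injEq] at h2
    rw [sr_mul_sr, sr_mul_sr, r.injEq] at h1
    have hj2 : 2 * j = 0 := by linear_combination -h2
    have hd : 2 * (i - k) = 0 := by linear_combination -h1
    by_cases hd0 : i - k = 0
    · have : i = k := sub_eq_zero.1 hd0
      rw [← this]; exact hi
    · have h3 := uniq hd hj2 hd0 hj0
      have h4 : (sr k : DihedralGroup n) = sr i * r j := by
        rw [sr_mul_r]
        congr 1
        linear_combination -h3 - hj2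
      rw [h4]
      exact mul_mem hi hj

/-- the index of an element. -/
def idx {n : ℕ} : DihedralGroup n → ZMod n
  | r i => i
  | sr i => i

/-- the dihedral subgroup on the kernel of multiplication by `m`. -/
def HS (n m : ℕ) : Subgroup (DihedralGroup n) where
  carrier := {g | (m : ZMod n) * idx g = 0}
  mul_mem' := by
    rintro (i | i) (j | j) hi hj <;>
      simp only [Set.mem_setOf_eq, idx, r_mul_r, r_mul_sr, sr_mul_r, sr_mul_sr] at *
    · rw [mul_add, hi, hj, add_zero]
    · rw [mul_sub, hi, hj, sub_zero]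
    · rw [mul_add, hi, hj, add_zero]
    · rw [mul_sub, hi, hj, sub_zero]
  one_mem' := by
    show (m : ZMod n) * idx (r 0 : DihedralGroup n) = 0
    show (m : ZMod n) * 0 = 0
    rw [mul_zero]
  inv_mem' := by
    rintro (i | i) hi <;> simp only [Set.mem_setOf_eq, idx, inv_r, inv_sr] at *
    · rw [mul_neg, hi, neg_zero]
    · exact hi

theorem fwd {n : ℕ} [NeZero n] (hn3 : 3 ≤ n)
    (h : ∀ H : Subgroup (DihedralGroup n), ¬ IsCyclic ↥H →
      Subgroup.centralizer (H : Set (DihedralGroup n)) ≤ H) : Odd n ∨ ∃ k : ℕ, n = 2 ^ k := by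
  by_contra hcon
  push_neg at hcon
  obtain ⟨hodd, hpow⟩ := hcon
  obtain ⟨a, m, hm, hnam⟩ := Nat.exists_eq_two_pow_mul_odd (n := n) (by omega)
  have hm1 : m ≠ 1 := by
    rintro rfl
    exact hpow a (by simpa using hnam)
  have hm3 : 3 ≤ m := by
    obtain ⟨t, rfl⟩ := hm
    omega
  have heven : Even n := Nat.not_odd_iff_even.1 hodd
  have hn2 : 2 * (n / 2) = n := Nat.two_mul_div_two_of_even heven
  have hnc : ¬ IsCyclic ↥(HS n m) := by
    intro hc
    have h1 : (sr 0 : DihedralGroup n) ∈ HS n m := by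
      show (m : ZMod n) * 0 = 0
      rw [mul_zero]
    have h2 : (r ((2 ^ a : ℕ) : ZMod n) : DihedralGroup n) ∈ HS n m := by
      show (m : ZMod n) * ((2 ^ a : ℕ) : ZMod n) = 0
      rw [← Nat.cast_mul, mul_comm, ← hnam]
      exact ZMod.natCast_self n
    have h3 := (IsCyclic.isMulCommutative (α := ↥(HS n m))).is_comm.comm ⟨_, h1⟩ ⟨_, h2⟩
    have h4 := congrArg Subtype.val h3
    simp only [Subgroup.coe_mul, sr_mul_r, r_mul_sr, sr.injEq] at h4
    have h5 : ((2 * 2 ^ a : ℕ) : ZMod n) = 0 := by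
      push_cast
      push_cast at h4
      linear_combination h4
    rw [ZMod.natCast_eq_zero_iff] at h5
    have h6 := Nat.le_of_dvd (by positivity) h5
    have h7 : 2 ^ a * 3 ≤ 2 ^ a * m := Nat.mul_le_mul_left _ hm3
    have h8 : 0 < 2 ^ a := by positivity
    omega
  have hh2 : 2 * ((n / 2 : ℕ) : ZMod n) = 0 := by
    have : ((2 * (n / 2) : ℕ) : ZMod n) = 0 := by rw [hn2]; exact ZMod.natCast_self n
    push_cast at this
    exact this
  have hcen : (r ((n / 2 : ℕ) : ZMod n) : DihedralGroup n) ∈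
      Subgroup.centralizer (HS n m : Set (DihedralGroup n)) := by
    rw [Subgroup.mem_centralizer_iff]
    rintro (i | i) -
    · rw [r_mul_r, r_mul_r, add_comm]
    · rw [sr_mul_r, r_mul_sr]
      congr 1
      linear_combination hh2
  have hmem := h _ hnc hcen
  have h1 : (m : ZMod n) * ((n / 2 : ℕ) : ZMod n) = 0 := hmem
  rw [← Nat.cast_mul, ZMod.natCast_eq_zero_iff] at h1
  have h2 : 2 * (n / 2) ∣ m * (n / 2) := by rw [hn2]; exact h1
  have h3 : 2 ∣ m := Nat.dvd_of_mul_dvd_mul_right (by omega) h2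
  obtain ⟨t, rfl⟩ := hm
  omega

/-- Say that a group has self-centralizing non-cyclic subgroups when every non-cyclic subgroup H satisfies C_G(H) ≤ H. For n ≥ 3, the dihedral group of order 2n has self-centralizing non-cyclic subgroups if and only if n is odd or a power of 2. -/
theorem result (n : ℕ) (hn : 3 ≤ n) : (∀ H : Subgroup (DihedralGroup n), ¬ IsCyclic ↥H → Subgroup.centralizer (H : Set (DihedralGroup n)) ≤ H) ↔ (Odd n ∨ ∃ k : ℕ, n = 2 ^ k) := by
  haveI : NeZero n := ⟨by omega⟩
  exact ⟨fwd hn, fun h H hH => bwd h H hH⟩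

end Cfsg.Agent.S3920
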