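import Cfsg.Statements.S3927
import Cfsg.Agent.Lib.Helper27EngA

set_option autoImplicit false
open Cfsg

namespace Cfsg.Agent.S3927

open Cfsg.Agent.Lib.Helper27EngA

/-- Let G be a finite group and α an automorphism of G with [G, α] = G, that is, the elements g·α(g)⁻¹ generate G. Then for every k ≥ 1 the iterated commutators [g, α, …, α] with k entries α — the values of the k-th iterate of the map c ↦ c·α(c)⁻¹ — also generate G. -/
theorem result {G : Type*} [Group G] [Finite G] (α : MulAut G) (hG : Subgroup.closure (Set.range (fun c : G => c * (α c)⁻¹)) = ⊤) (k : ℕ) (hk : 1 ≤ k) :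
    Subgroup.closure (Set.range ((fun c : G => c * (α c)⁻¹)^[k])) = ⊤ := by
  obtain ⟨f, hf⟩ : ∃ f : G → G, f = fun c : G => c * (α c)⁻¹ := ⟨_, rfl⟩
  rw [← hf] at hG ⊢
  have hfa : ∀ c, f c = c * (α c)⁻¹ := fun c => by rw [hf]
  let φ : (Subgroup.zpowers α) →* MulAut G := (Subgroup.zpowers α).subtype
  have : Finite (G ⋊[φ] (Subgroup.zpowers α)) := Finite.of_equiv _ SemidirectProduct.equivProd.symm
  let a' : Subgroup.zpowers α := ⟨α, Subgroup.mem_zpowers α⟩
  let a : G ⋊[φ] (Subgroup.zpowers α) := SemidirectProduct.inr a'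
  -- the commutator map
  have hcomm : ∀ z : Subgroup.zpowers α, z * a' = a' * z := by
    intro z
    obtain ⟨i, hi⟩ := Subgroup.mem_zpowers_iff.mp z.2
    apply Subtype.ext
    show (z : MulAut G) * α = α * (z : MulAut G)
    rw [← hi]
    exact ((Commute.refl α).zpow_left i).eq
  have hF : ∀ x : G ⋊[φ] (Subgroup.zpowers α), F a x = SemidirectProduct.inl (f x.left) := by
    intro x
    have hx := SemidirectProduct.inl_left_mul_inr_right x
    have h1 : (SemidirectProduct.inr x.right : G ⋊[φ] (Subgroup.zpowers α)) * a =
        a * SemidirectProduct.inr x.right := by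
      show SemidirectProduct.inr x.right * SemidirectProduct.inr a' =
        SemidirectProduct.inr a' * SemidirectProduct.inr x.right
      rw [← map_mul, ← map_mul, hcomm]
    have h2 : (SemidirectProduct.inl (φ a' (x.left)⁻¹) : G ⋊[φ] (Subgroup.zpowers α)) =
        a * SemidirectProduct.inl (x.left)⁻¹ * a⁻¹ := by
      rw [SemidirectProduct.inl_aut]
      show _ = SemidirectProduct.inr a' * SemidirectProduct.inl (x.left)⁻¹ *
        (SemidirectProduct.inr a')⁻¹
      rw [map_inv SemidirectProduct.inr]
    have h3 : φ a' (x.left)⁻¹ = (α x.left)⁻¹ := by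
      show α (x.left)⁻¹ = (α x.left)⁻¹
      rw [map_inv]
    rw [hfa, map_mul, ← h3, h2]
    unfold F
    conv_lhs => rw [← hx]
    rw [map_inv]
    have e : ∀ (p q r : G ⋊[φ] (Subgroup.zpowers α)), q * r = r * q →
        p * q * r * (p * q)⁻¹ * r⁻¹ = p * (r * p⁻¹ * r⁻¹) := by
      intro p q r hqr
      have : p * q * r * (p * q)⁻¹ * r⁻¹ = p * (q * r) * q⁻¹ * p⁻¹ * r⁻¹ := by group
      rw [this, hqr]
      group
    exact e _ _ _ h1
  have hFi : ∀ (j : ℕ) (h : G), (F a)^[j] (SemidirectProduct.inl h) =
      SemidirectProduct.inl (f^[j] h) := by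
    intro j
    induction j with
    | zero => intro h; rfl
    | succ j ih =>
      intro h
      rw [Function.iterate_succ_apply, Function.iterate_succ_apply, hF, ih]
      rfl
  -- normal generation
  have hgen : ∀ N : Subgroup (G ⋊[φ] (Subgroup.zpowers α)), N.Normal → a ∈ N → N = ⊤ := by
    intro N hN haN
    have h1 : Subgroup.closure (Set.range f) ≤ N.comap SemidirectProduct.inl := by
      rw [Subgroup.closure_le]
      rintro _ ⟨g, rfl⟩
      show SemidirectProduct.inl (f g) ∈ N
      have h2 := hF (SemidirectProduct.inl g)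
      rw [SemidirectProduct.left_inl] at h2
      rw [← h2]
      unfold F
      exact N.mul_mem (hN.conj_mem a haN _) (N.inv_mem haN)
    rw [hG] at h1
    rw [eq_top_iff]
    intro x _
    rw [← SemidirectProduct.inl_left_mul_inr_right x]
    refine N.mul_mem (h1 (Subgroup.mem_top x.left)) ?_
    obtain ⟨i, hi⟩ := Subgroup.mem_zpowers_iff.mp x.right.2
    have h3 : x.right = a' ^ i := by
      apply Subtype.ext
      rw [Subgroup.coe_zpow]
      exact hi.symm
    rw [h3, map_zpow]
    exact N.zpow_mem haN i
  have hmain := gen a hgen k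
  -- invariance of the target subgroup
  have hinv : ∀ (z : Subgroup.zpowers α) (y : G), y ∈ Subgroup.closure (Set.range (f^[k])) →
      φ z y ∈ Subgroup.closure (Set.range (f^[k])) := by
    intro z
    have hzf : ∀ c, φ z (f c) = f (φ z c) := by
      intro c
      rw [hfa, hfa, map_mul, map_inv]
      have h1 : φ z (α c) = α (φ z c) := by
        have := congrArg (fun w : Subgroup.zpowers α => (w : MulAut G) c) (hcomm z)
        exact this
      rw [h1]
    have hzi : ∀ (j : ℕ) (c : G), φ z (f^[j] c) = f^[j] (φ z c) := by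
      intro j
      induction j with
      | zero => intro c; rfl
      | succ j ih =>
        intro c
        rw [Function.iterate_succ_apply, Function.iterate_succ_apply, ih, hzf]
    have hle : Subgroup.closure (Set.range (f^[k])) ≤
        (Subgroup.closure (Set.range (f^[k]))).comap (φ z).toMonoidHom := by
      rw [Subgroup.closure_le]
      rintro _ ⟨c, rfl⟩
      have h5 : φ z (f^[k] c) ∈ Subgroup.closure (Set.range (f^[k])) := by
        rw [hzi]
        exact Subgroup.subset_closure ⟨_, rfl⟩
      exact h5
    intro y hy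
    exact hle hy
  have hleft : ∀ x ∈ Subgroup.closure ({a} ∪ Set.range ((F a)^[k])),
      x.left ∈ Subgroup.closure (Set.range (f^[k])) := by
    intro x hx
    induction hx using Subgroup.closure_induction with
    | mem x hx =>
      rcases hx with hx | ⟨y, rfl⟩
      · rw [Set.mem_singleton_iff] at hx
        rw [hx]
        exact Subgroup.one_mem _
      · obtain ⟨j, rfl⟩ : ∃ j, k = j + 1 := ⟨k - 1, by omega⟩
        rw [Function.iterate_succ_apply, hF, hFi, SemidirectProduct.left_inl,
          ← Function.iterate_succ_apply]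
        exact Subgroup.subset_closure ⟨_, rfl⟩
    | one => exact Subgroup.one_mem _
    | mul x y _ _ hx hy =>
      rw [SemidirectProduct.mul_left]
      exact Subgroup.mul_mem _ hx (hinv _ _ hy)
    | inv x _ hx =>
      rw [SemidirectProduct.inv_left]
      exact hinv _ _ (Subgroup.inv_mem _ hx)
  rw [eq_top_iff]
  intro g _
  have := hleft (SemidirectProduct.inl g) (by rw [hmain]; trivial)
  exact this

end Cfsg.Agent.S3927
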