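import Cfsg.Statements.S3928
import Cfsg.Agent.Lib.H27InvMain
import Cfsg.Agent.Lib.H27InvJ

set_option autoImplicit false
open Cfsg

namespace Cfsg.Agent.S3928

open Cfsg.Agent.Lib Cfsg.Agent.Lib.H27InvDefs

/-- There is a function f such that for every non-trivial finite group G and every automorphism α of G of order 2 with [G, α] = G (the elements g·α(g)⁻¹ generate G), the order of G is at most f(m), where m is the number of elements of odd order inverted by α. -/
theorem result : ∃ f : ℕ → ℕ, ∀ (G : Type) [Group G] [Finite G] [Nontrivial G] (α : MulAut G), orderOf α = 2 →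
    Subgroup.closure (Set.range (fun c : G => c * (α c)⁻¹)) = ⊤ →
      Nat.card G ≤ f (Nat.card {g : G // Odd (orderOf g) ∧ α g = g⁻¹}) := by
  refine ⟨fun n => Classical.choose (H27InvMain.main n), ?_⟩
  intro G _ _ _ α h2 hG
  obtain ⟨Γ, _, _, a, ha, hg, hn, hc⟩ := H27InvJ.translate G α h2 hG
  exact hc.trans (Classical.choose_spec (H27InvMain.main _) Γ a ha hg hn)

end Cfsg.Agent.S3928
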