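import Cfsg.Statements.S3937
import Cfsg.Agent.Lib.Helper58Zipper
import Cfsg.Agent.Lib.Helper28Layer
import Cfsg.Agent.S0064

set_option autoImplicit false
open Cfsg

namespace Cfsg.Agent.S3937

open Subgroup Cfsg.Agent.Lib.Helper58Subnormal Cfsg.Agent.Lib.Helper58Zipper

/-- the Engel word `[x, g, …, g]` -/
def eng {G : Type*} [Group G] (g : G) (n : ℕ) (x : G) : G :=
  (List.replicate n g).foldl (fun a b => a * b * a⁻¹ * b⁻¹) x

theorem eng_zero {G : Type*} [Group G] (g x : G) : eng g 0 x = x := rfl

theorem eng_succ {G : Type*} [Group G] (g x : G) (n : ℕ) :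
    eng g (n + 1) x = eng g n (x * g * x⁻¹ * g⁻¹) := by
  simp [eng, List.replicate_succ]

theorem eng_succ' {G : Type*} [Group G] (g x : G) (n : ℕ) :
    eng g (n + 1) x = eng g n x * g * (eng g n x)⁻¹ * g⁻¹ := by
  simp [eng, List.replicate_succ', List.foldl_append]

theorem map_eng {G H : Type*} [Group G] [Group H] (f : G →* H) (g : G) (n : ℕ) (x : G) :
    f (eng g n x) = eng (f g) n (f x) := by
  induction n generalizing x with
  | zero => rfl
  | succ n ih => rw [eng_succ, eng_succ, ih]; simp

theorem eng_mem_lcs {G : Type*} [Group G] (F : Subgroup G) {g y : G} (hg : g ∈ F) (hy : y ∈ F)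
    (n : ℕ) : eng g n y ∈ F.lowerCentralSeries n := by
  induction n with
  | zero => exact hy
  | succ n ih =>
    rw [eng_succ', Subgroup.lowerCentralSeries_succ]
    exact Subgroup.commutator_mem_commutator ih hg

theorem engel_of_mem_fitting {G : Type*} [Group G] [Finite G] {g : G}
    (hg : g ∈ Cfsg.fittingSubgroup G) (x : G) : ∃ n : ℕ, eng g n x = 1 := by
  have hnil : Group.IsNilpotent (Cfsg.fittingSubgroup G) :=
    Cfsg.Agent.Lib.Helper28Fitting.fitting_isNilpotent
  have hnorm : (Cfsg.fittingSubgroup G).Normal := Cfsg.Agent.Lib.Helper28Fitting.fitting_normal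
  obtain ⟨c, hc⟩ := (Subgroup.isNilpotent_iff_lowerCentralSeries _).mp hnil
  have hy : x * g * x⁻¹ * g⁻¹ ∈ Cfsg.fittingSubgroup G :=
    mul_mem (hnorm.conj_mem g hg x) (inv_mem hg)
  refine ⟨c + 1, ?_⟩
  rw [eng_succ]
  have h1 := eng_mem_lcs _ hg hy c
  rwa [hc, mem_bot] at h1

theorem baer_aux : ∀ (n : ℕ) (G : Type*) [Group G] [Finite G], Nat.card G = n → ∀ g : G,
    (∀ x : G, ∃ k : ℕ, eng g k x = 1) → (zpowers g).IsSubnormal := by
  intro n
  induction n using Nat.strong_induction_on with
  | _ n ih =>
    intro G _ _ hG g hE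
    by_contra hns
    have hprop : ∀ V : Subgroup G, zpowers g ≤ V → V ≠ ⊤ → Sn (zpowers g) V := by
      intro V hV hVt
      have hgV : g ∈ V := hV (mem_zpowers g)
      have hcard : Nat.card V < n := by
        rw [← hG, ← Subgroup.card_top (G := G)]
        exact card_lt_of_ne le_top hVt
      have h1 := ih _ hcard V rfl ⟨g, hgV⟩ (by
        intro x
        obtain ⟨k, hk⟩ := hE x
        refine ⟨k, ?_⟩
        apply Subtype.ext
        have := map_eng V.subtype ⟨g, hgV⟩ k x
        simpa [hk] using this)
      have h2 := sn_map_subtype_iff.mpr h1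
      rwa [MonoidHom.map_zpowers] at h2
    obtain ⟨M, hM, hgM, hmax⟩ := zipper hns hprop
    have hgM' : g ∈ M := hgM (mem_zpowers g)
    have hNM : normalizer (M : Set G) ≤ M := by
      apply hmax _ (hgM.trans le_normalizer)
      intro htop
      apply hns
      rw [← sn_top_iff]
      exact (hprop M hgM hM.1).trans (NormIn.sn ⟨le_top, by rw [htop]⟩)
    have hstep : ∀ x : G, x ∉ M → x * g * x⁻¹ * g⁻¹ ∉ M := by
      intro x hx hc
      apply hx
      have h1 : x * g * x⁻¹ ∈ M := by
        have := M.mul_mem hc hgM'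
        simpa using this
      have h2 : zpowers g ≤ cj x⁻¹ M := by
        rw [zpowers_le]
        exact ⟨x * g * x⁻¹, h1, by simp [mul_assoc]⟩
      have h3 : cj x⁻¹ M ≤ M := hmax _ h2 (fun h => hM.1 ((cj_eq_top_iff _ _).mp h))
      have h4 : cj x⁻¹ M = M := by
        apply eq_of_le_of_card_ge h3
        rw [Subgroup.card_map_of_injective (MulAut.conj x⁻¹).injective]
      have h5 : x⁻¹ ∈ normalizer (M : Set G) := by
        rw [mem_normalizer_iff]
        intro m
        constructor
        · intro hm
          rw [← h4]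
          exact ⟨m, hm, rfl⟩
        · intro hm
          rw [← h4] at hm
          obtain ⟨m', hm', he⟩ := hm
          have : m' = m := by
            simpa using he
          rwa [← this]
      have := hNM h5
      simpa using this
    have hall : ∀ (k : ℕ) (x : G), x ∉ M → eng g k x ∉ M := by
      intro k
      induction k with
      | zero => intro x hx; exact hx
      | succ k ihk => intro x hx; rw [eng_succ]; exact ihk _ (hstep x hx)
    obtain ⟨x, hx⟩ : ∃ x : G, x ∉ M := by
      by_contra hc
      push Not at hc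
      exact hM.1 (eq_top_iff.mpr fun x _ => hc x)
    obtain ⟨k, hk⟩ := hE x
    exact hall k x hx (hk ▸ M.one_mem)

/-- Baer's characterization of the Fitting subgroup: in a finite group G, an element g lies in the Fitting subgroup if and only if g is a left Engel element, that is, for every x there is n with [x, g, g, …, g] = 1 (n entries g, [a, b] = aba⁻¹b⁻¹). -/
theorem result {G : Type*} [Group G] [Finite G] (g : G) :
    g ∈ Cfsg.fittingSubgroup G ↔ ∀ x : G, ∃ n : ℕ, (List.replicate n g).foldl (fun a b => a * b * a⁻¹ * b⁻¹) x = 1 := by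
  constructor
  · intro hg x
    exact engel_of_mem_fitting hg x
  · intro h
    have h1 : (zpowers g).IsSubnormal := baer_aux _ G rfl g h
    have h2 := Cfsg.Agent.Lib.Helper28Layer.le_fittingIn_of_sn
      (Cfsg.Agent.Lib.Helper28Comp.sn_top_iff.mpr h1) (by
        letI : CommGroup (zpowers g) := IsCyclic.commGroup
        exact CommGroup.isNilpotent)
    rw [← Cfsg.Agent.Lib.Helper28Layer.fitting_eq] at h2
    exact h2 (mem_zpowers g)

end Cfsg.Agent.S3937
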