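import Cfsg.Statements.S3939
import Cfsg.Agent.S3937
import Cfsg.Agent.Lib.Helper27Core
import Cfsg.Agent.Lib.Helper31Nilpotent
import Cfsg.Agent.Lib.Helper58Sylow

set_option autoImplicit false
open Cfsg

namespace Cfsg.Agent.S3939

open Subgroup

/-- `⟨x, g⟩` is nilpotent for all `x` -/
def RR {G : Type*} [Group G] (g : G) : Prop :=
  ∀ x : G, Group.IsNilpotent ↥(closure ({x, g} : Set G))

theorem nilp_of_le {G : Type*} [Group G] {H K : Subgroup G} (h : H ≤ K)
    (hK : Group.IsNilpotent K) : Group.IsNilpotent H :=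
  Group.nilpotent_of_mulEquiv (subgroupOfEquivOfLe h)

theorem RR.pow {G : Type*} [Group G] {g : G} (h : RR g) (k : ℕ) : RR (g ^ k) := by
  intro x
  refine nilp_of_le ?_ (h x)
  rw [closure_le]
  rintro y (rfl | rfl)
  · exact subset_closure (by simp)
  · exact pow_mem (subset_closure (by simp)) k

theorem RR.map {G G' : Type*} [Group G] [Group G'] {g : G} (h : RR g) (f : G →* G')
    (hf : Function.Surjective f) : RR (f g) := by
  intro x'
  obtain ⟨x, rfl⟩ := hf x'
  have e : closure ({f x, f g} : Set G') = (closure ({x, g} : Set G)).map f := by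
    rw [MonoidHom.map_closure, Set.image_pair]
  rw [e]
  have := h x
  exact Group.nilpotent_of_surjective (f.subgroupMap _) (f.subgroupMap_surjective _)

theorem RR.engel {G : Type*} [Group G] {g : G} (h : RR g) (x : G) :
    ∃ k : ℕ, Cfsg.Agent.S3937.eng g k x = 1 := by
  obtain ⟨c, hc⟩ := (Subgroup.isNilpotent_iff_lowerCentralSeries _).mp (h x)
  refine ⟨c, ?_⟩
  have := Cfsg.Agent.S3937.eng_mem_lcs (closure ({x, g} : Set G)) (g := g) (y := x)
    (subset_closure (by simp)) (subset_closure (by simp)) c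
  rwa [hc, mem_bot] at this

theorem RR.commute {G : Type*} [Group G] {g : G} (h : RR g) (x : G)
    (hx : (orderOf x).Coprime (orderOf g)) : x * g = g * x := by
  have := h x
  have hxm : x ∈ closure ({x, g} : Set G) := subset_closure (by simp)
  have hgm : g ∈ closure ({x, g} : Set G) := subset_closure (by simp)
  have := Cfsg.Agent.Lib.Helper31Nilpotent.coprime_commute (closure ({x, g} : Set G))
    ⟨x, hxm⟩ ⟨g, hgm⟩ (by simpa [Subgroup.orderOf_mk] using hx)
  exact congrArg Subtype.val this

theorem exists_central {G : Type*} [Group G] [Finite G] {g : G} (h : RR g) (hg : g ≠ 1) :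
    ∃ z ∈ center G, z ≠ 1 := by
  obtain ⟨p, hp, hdvd⟩ := Nat.exists_prime_and_dvd (orderOf_eq_one_iff.not.mpr hg)
  have : Fact p.Prime := ⟨hp⟩
  set g' := g ^ (orderOf g / p) with hg'
  have ho : orderOf g' = p := orderOf_pow_orderOf_div (orderOf_pos g).ne' hdvd
  have hR : RR g' := h.pow _
  have hsub : (zpowers g').IsSubnormal := Cfsg.Agent.S3937.baer_aux _ G rfl g' hR.engel
  have hpg : IsPGroup p (zpowers g') := IsPGroup.of_card (n := 1) (by rw [Nat.card_zpowers, ho, pow_one])
  have hle : zpowers g' ≤ Cfsg.pCore p G := Cfsg.Agent.Lib.Helper27Core.subnormal_le_pCore hsub hpg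
  have hcoreN : (Cfsg.pCore p G).Normal := Subgroup.sSup_normal _ fun N hN => hN.1
  set T : Set G := {x | (orderOf x).Coprime p} with hT
  set N : Subgroup G := Cfsg.pCore p G ⊓ centralizer T with hN
  have hg'N : g' ∈ N := by
    refine mem_inf.mpr ⟨hle (mem_zpowers g'), ?_⟩
    rw [mem_centralizer_iff]
    intro x hx
    exact hR.commute x (by rw [ho]; exact hx)
  have hg'1 : g' ≠ 1 := by
    intro h1
    rw [h1, orderOf_one] at ho
    exact hp.one_lt.ne ho
  have hNbot : N ≠ ⊥ := by
    intro hb
    rw [hb, mem_bot] at hg'N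
    exact hg'1 hg'N
  have hNconj : ∀ y : G, ∀ w ∈ N, y * w * y⁻¹ ∈ N := by
    intro y w hw
    refine mem_inf.mpr ⟨hcoreN.conj_mem w hw.1 y, ?_⟩
    rw [mem_centralizer_iff]
    intro x hx
    have h1 : y⁻¹ * x * y ∈ T := by
      have : orderOf (y⁻¹ * x * y) = orderOf x := by
        have := orderOf_injective (MulAut.conj y⁻¹).toMonoidHom (MulAut.conj y⁻¹).injective x
        simpa using this
      rw [hT, Set.mem_setOf_eq, this]
      exact hx
    have h2 := (mem_centralizer_iff.mp hw.2) _ h1
    calc x * (y * w * y⁻¹) = y * ((y⁻¹ * x * y) * w) * y⁻¹ := by group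
      _ = y * (w * (y⁻¹ * x * y)) * y⁻¹ := by rw [h2]
      _ = y * w * y⁻¹ * x := by group
  let P' : ∀ q : Nat.Primes, Sylow (q : ℕ) G := fun q => default
  set P : Sylow p G := P' ⟨p, hp⟩ with hP
  have hNP : N ≤ P :=
    inf_le_left.trans ((Cfsg.Agent.Lib.Helper27Core.pCore_isPGroup p).le_sylow_of_normal P)
  obtain ⟨z, hzN, hz1, hzP⟩ := Cfsg.Agent.Lib.Helper58Sylow.exists_central_of_normal
    (P := (P : Subgroup G)) (W := N) P.isPGroup' hNP hNbot (fun y _ w hw => hNconj y w hw)
  refine ⟨z, ?_, hz1⟩
  have htop : (⨆ q : Nat.Primes, (P' q : Subgroup G)) ≤ centralizer {z} := by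
    apply iSup_le
    intro q y hy
    rw [mem_centralizer_iff]
    rintro _ rfl
    by_cases hq : q = ⟨p, hp⟩
    · subst hq
      exact (hzP y hy).symm
    · have hyT : y ∈ T := by
        obtain ⟨k, hk⟩ := (P' q).isPGroup' ⟨y, hy⟩
        have h1 : y ^ ((q : ℕ) ^ k) = 1 := by
          simpa using congrArg Subtype.val hk
        have h2 : orderOf y ∣ (q : ℕ) ^ k := orderOf_dvd_of_pow_eq_one h1
        have h3 : ((q : ℕ) ^ k).Coprime p := by
          apply Nat.Coprime.pow_left
          rw [Nat.coprime_primes q.2 hp]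
          intro he
          exact hq (Subtype.ext he)
        exact Nat.Coprime.coprime_dvd_left h2 h3
      exact ((mem_centralizer_iff.mp hzN.2) y hyT).symm
  rw [Cfsg.Agent.Lib.Helper28Fitting.iSup_sylow_eq_top] at htop
  rw [mem_center_iff]
  intro y
  have := (mem_centralizer_iff.mp (htop (mem_top y))) z rfl
  exact this.symm

theorem main_aux : ∀ (n : ℕ) (G : Type*) [Group G] [Finite G], Nat.card G = n → ∀ g : G,
    RR g → ∃ k : ℕ, g ∈ Subgroup.upperCentralSeries G k := by
  intro n
  induction n using Nat.strong_induction_on with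
  | _ n ih =>
    intro G _ _ hG g hR
    by_cases hg : g = 1
    · exact ⟨0, hg ▸ one_mem _⟩
    obtain ⟨z, hz, hz1⟩ := exists_central hR hg
    have hcard : Nat.card (G ⧸ center G) < n := by
      rw [← hG, Subgroup.card_eq_card_quotient_mul_card_subgroup (center G)]
      have h1 : 1 < Nat.card (center G) := by
        rw [Finite.one_lt_card_iff_nontrivial]
        exact ⟨⟨⟨z, hz⟩, 1, fun h => hz1 (congrArg Subtype.val h)⟩⟩
      have h2 : 0 < Nat.card (G ⧸ center G) := Nat.card_pos
      nlinarith
    obtain ⟨k, hk⟩ := ih _ hcard (G ⧸ center G) rfl (QuotientGroup.mk' (center G) g)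
      (hR.map _ (QuotientGroup.mk'_surjective _))
    refine ⟨k + 1, ?_⟩
    rw [← Nat.succ_eq_add_one, ← Subgroup.comap_upperCentralSeries_quotient_center]
    exact hk

theorem lcs_le {G : Type*} [Group G] (H : Subgroup G) (n : ℕ)
    (h : ⁅H, H⁆ ≤ Subgroup.upperCentralSeries G n) :
    ∀ i ≤ n, H.lowerCentralSeries (1 + i) ≤ Subgroup.upperCentralSeries G (n - i) := by
  intro i
  induction i with
  | zero => intro _; exact h
  | succ i ih =>
    intro hi
    have h1 := ih (by omega)
    rw [← add_assoc, Subgroup.lowerCentralSeries_succ, Subgroup.commutator_le]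
    intro a ha b _
    have h2 : a ∈ Subgroup.upperCentralSeries G ((n - (i + 1)) + 1) := by
      have : n - (i + 1) + 1 = n - i := by omega
      rw [this]
      exact h1 ha
    exact (Subgroup.upperCentralSeries_isAscendingCentralSeries G).2 a _ h2 b

theorem nilp_of_mem {G : Type*} [Group G] {g : G} {n : ℕ} (hg : g ∈ Subgroup.upperCentralSeries G n)
    (x : G) : Group.IsNilpotent ↥(closure ({x, g} : Set G)) := by
  set H := closure ({x, g} : Set G) with hH
  set Z := Subgroup.upperCentralSeries G n with hZ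
  have hmap : H ≤ (zpowers (QuotientGroup.mk' Z x)).comap (QuotientGroup.mk' Z) := by
    rw [hH, closure_le]
    rintro y (rfl | rfl)
    · exact mem_zpowers _
    · have : QuotientGroup.mk' Z y = 1 := (QuotientGroup.eq_one_iff y).mpr hg
      simp only [coe_comap, Set.mem_preimage, SetLike.mem_coe, this]
      exact one_mem _
  have hcomm : ⁅H, H⁆ ≤ Z := by
    rw [Subgroup.commutator_le]
    intro a ha b hb
    obtain ⟨i, hi⟩ := mem_zpowers_iff.mp (hmap ha)
    obtain ⟨j, hj⟩ := mem_zpowers_iff.mp (hmap hb)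
    rw [← QuotientGroup.eq_one_iff, ← QuotientGroup.mk'_apply, map_commutatorElement, ← hi, ← hj,
      commutatorElement_eq_one_iff_commute]
    exact (Commute.refl _).zpow_zpow i j
  rw [Subgroup.isNilpotent_iff_lowerCentralSeries]
  refine ⟨1 + n, ?_⟩
  have := lcs_le H n hcomm n le_rfl
  rwa [Nat.sub_self, Subgroup.upperCentralSeries_zero, le_bot_iff] at this

/-- In a finite group G the set of elements g such that the subgroup generated by g and x is nilpotent for every x ∈ G is exactly the hypercenter of G (the last term of the upper central series). -/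
theorem result {G : Type*} [Group G] [Finite G] (g : G) :
    (∀ x : G, Group.IsNilpotent ↥(Subgroup.closure ({x, g} : Set G))) ↔ g ∈ ⨆ n : ℕ, Subgroup.upperCentralSeries G n := by
  rw [Subgroup.mem_iSup_of_directed (Monotone.directed_le (Subgroup.upperCentralSeries_mono G))]
  constructor
  · intro h
    exact main_aux _ G rfl g h
  · rintro ⟨n, hn⟩ x
    exact nilp_of_mem hn x

end Cfsg.Agent.S3939
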