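import Cfsg.Statements.S3941

set_option autoImplicit false
open Cfsg

namespace Cfsg.Agent.S3941

open Equiv Equiv.Perm

theorem order_mul_of_closed {K : Type*} [Group K] [Finite K] (p : ℕ) [Fact p.Prime]
    (hK : Cfsg.IsPClosed p K) (x y : K) (hx : orderOf x = p) (hy : orderOf y = p) :
    ∃ k, orderOf (x * y) = p ^ k := by
  have key : ∀ z : K, orderOf z = p → ∃ Q : Sylow p K, z ∈ Q := by
    intro z hz
    have hpg : IsPGroup p (Subgroup.zpowers z) := by
      apply IsPGroup.of_card (n := 1)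
      rw [Nat.card_zpowers, hz, pow_one]
    obtain ⟨Q, hQ⟩ := hpg.exists_le_sylow
    exact ⟨Q, hQ (Subgroup.mem_zpowers z)⟩
  obtain ⟨Q, hxQ⟩ := key x hx
  obtain ⟨Q', hyQ⟩ := key y hy
  have hu := Sylow.unique_of_normal Q (hK Q)
  have hQQ : Q' = Q := Subsingleton.elim _ _
  rw [hQQ] at hyQ
  obtain ⟨k, hk⟩ := (IsPGroup.iff_orderOf.mp Q.2) ⟨x * y, Q.mul_mem hxQ hyQ⟩
  refine ⟨k, ?_⟩
  rw [← hk, ← Subgroup.orderOf_coe]

theorem sign_via {α β : Type*} [Fintype α] [DecidableEq α] [Fintype β] [DecidableEq β]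
    (ι : α ↪ β) (e : Perm α) : sign (viaEmbeddingHom ι e) = sign e := by
  rw [viaEmbeddingHom_apply]
  unfold viaEmbedding
  exact @sign_extendDomain α _ β _ _ _ e _ (fun _ => Classical.propDecidable _) _

/-- the abstract contradiction -/
theorem contra (n p : ℕ) [Fact p.Prime] (hn : 5 ≤ n)
    (h : ∀ H : Subgroup ↥(alternatingGroup (Fin n)), H ≠ ⊤ → p ∣ Nat.card ↥H → Cfsg.IsPClosed p ↥H)
    (a : Fin n) (π₁ π₂ : Perm (Fin n)) (h1 : sign π₁ = 1) (h2 : sign π₂ = 1) (h1a : π₁ a = a)
    (h2a : π₂ a = a) (ho1 : orderOf π₁ = p) (ho2 : orderOf π₂ = p) (q : ℕ) (hq : q.Prime)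
    (hqp : q ≠ p) (ho : orderOf (π₁ * π₂) = q) : False := by
  let H : Subgroup ↥(alternatingGroup (Fin n)) := MulAction.stabilizer _ a
  have hH : H ≠ ⊤ := by
    intro htop
    obtain ⟨b, c, hab, hac, hbc⟩ : ∃ b c : Fin n, a ≠ b ∧ a ≠ c ∧ b ≠ c := by
      by_cases h0 : a.val = 0
      · exact ⟨⟨1, by omega⟩, ⟨2, by omega⟩, by simp [Fin.ext_iff, h0], by simp [Fin.ext_iff, h0],
          by simp [Fin.ext_iff]⟩
      · by_cases h1 : a.val = 1
        · exact ⟨⟨0, by omega⟩, ⟨2, by omega⟩, by simp [Fin.ext_iff, h1], by simp [Fin.ext_iff, h1],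
            by simp [Fin.ext_iff]⟩
        · exact ⟨⟨0, by omega⟩, ⟨1, by omega⟩, by simpa [Fin.ext_iff] using h0,
            by simpa [Fin.ext_iff] using h1, by simp [Fin.ext_iff]⟩
    have hs : sign (swap a b * swap a c) = 1 := by
      rw [map_mul, sign_swap hab, sign_swap hac]; rfl
    have hmem : (⟨swap a b * swap a c, mem_alternatingGroup.mpr hs⟩ : alternatingGroup (Fin n)) ∈ H := by
      rw [htop]; trivial
    have h3 : (swap a b * swap a c) a = a := hmem
    rw [Perm.mul_apply, swap_apply_left, swap_apply_of_ne_of_ne hac.symm hbc.symm] at h3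
    exact hac h3.symm
  let x : H := ⟨⟨π₁, mem_alternatingGroup.mpr h1⟩, h1a⟩
  let y : H := ⟨⟨π₂, mem_alternatingGroup.mpr h2⟩, h2a⟩
  have hx : orderOf x = p := by
    rw [← ho1, ← Subgroup.orderOf_coe, ← Subgroup.orderOf_coe]
  have hy : orderOf y = p := by
    rw [← ho2, ← Subgroup.orderOf_coe, ← Subgroup.orderOf_coe]
  have hxy : orderOf (x * y) = q := by
    rw [← ho, ← Subgroup.orderOf_coe, ← Subgroup.orderOf_coe]
    rfl
  have hdvd : p ∣ Nat.card H := by
    rw [← hx]; exact orderOf_dvd_natCard x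
  obtain ⟨k, hk⟩ := order_mul_of_closed p (h H hH hdvd) x y hx hy
  rw [hxy] at hk
  have hp : p.Prime := Fact.out
  have hk0 : k ≠ 0 := by
    rintro rfl
    rw [pow_zero] at hk
    exact hq.one_lt.ne' hk
  have : p ∣ q := by rw [hk]; exact dvd_pow_self p hk0
  exact hqp ((Nat.prime_dvd_prime_iff_eq hp hq).mp this).symm

theorem result (n p : ℕ) (hn : 5 ≤ n) [Fact p.Prime] (hp : p ≠ 2) (hpn : p ≤ n)
    (h : ∀ H : Subgroup ↥(alternatingGroup (Fin n)), H ≠ ⊤ → p ∣ Nat.card ↥H → Cfsg.IsPClosed p ↥H) : n = p := by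
  by_contra hne
  have hlt : p < n := by omega
  have hpp : p.Prime := Fact.out
  have hp2 : 2 ≤ p := hpp.two_le
  let a : Fin n := ⟨n - 1, by omega⟩
  by_cases hp3 : p = 3
  · subst hp3
    let ι : Fin 4 ↪ Fin n := Fin.castLEEmb (by omega)
    have hinj := viaEmbeddingHom_injective ι
    have ha : a ∉ Set.range ι := by
      rintro ⟨i, hi⟩
      have := congrArg Fin.val hi
      simp [ι, a] at this
      omega
    let s : Perm (Fin 4) := swap 0 1 * swap 1 2
    let t : Perm (Fin 4) := swap 0 1 * swap 1 3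
    refine contra n 3 hn h a (viaEmbeddingHom ι s) (viaEmbeddingHom ι t) ?_ ?_ ?_ ?_ ?_ ?_ 2
      Nat.prime_two (by norm_num) ?_
    · rw [sign_via]; decide
    · rw [sign_via]; decide
    · exact viaEmbedding_apply_of_notMem _ _ _ ha
    · exact viaEmbedding_apply_of_notMem _ _ _ ha
    · rw [orderOf_injective _ hinj]
      exact orderOf_eq_prime (by decide) (by decide)
    · rw [orderOf_injective _ hinj]
      exact orderOf_eq_prime (by decide) (by decide)
    · rw [← map_mul, orderOf_injective _ hinj]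
      exact orderOf_eq_prime (by decide) (by decide)
  · let ι : Fin p ↪ Fin n := Fin.castLEEmb hpn
    have hinj := viaEmbeddingHom_injective ι
    have ha : a ∉ Set.range ι := by
      rintro ⟨i, hi⟩
      have := congrArg Fin.val hi
      simp [ι, a] at this
      omega
    set σ : Perm (Fin n) := viaEmbeddingHom ι (finRotate p) with hσ
    have hσo : orderOf σ = p := by
      rw [hσ, orderOf_injective _ hinj, (isCycle_finRotate_of_le hp2).orderOf,
        support_finRotate_of_le hp2, Finset.card_univ, Fintype.card_fin]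
    have hσs : sign σ = 1 := by
      rw [hσ, sign_via, sign_finRotate]
      have hodd : Odd p := hpp.odd_of_ne_two hp
      obtain ⟨k, hk⟩ := hodd
      have : p - 1 = 2 * k := by omega
      rw [this, pow_mul]; simp
    have hσa : σ a = a := viaEmbedding_apply_of_notMem _ _ _ ha
    obtain ⟨x, hx⟩ : ∃ x, σ x ≠ x := by
      by_contra hcon
      push Not at hcon
      have : σ = 1 := Perm.ext hcon
      rw [this, orderOf_one] at hσo
      omega
    have hxa : x ≠ a := by rintro rfl; exact hx hσa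
    have hσxa : σ x ≠ a := by
      intro h1
      apply hxa
      apply σ.injective
      rw [h1, hσa]
    have hx2 : σ (σ x) ≠ x := by
      intro h1
      apply hx
      obtain ⟨k, hk⟩ := hpp.odd_of_ne_two hp
      have h2 : (σ ^ 2) x = x := by rw [pow_two, Perm.mul_apply, h1]
      have h3 : ((σ ^ 2) ^ k) x = x := pow_apply_eq_self_of_apply_eq_self h2 k
      have h4 : σ ^ p = 1 := by rw [← hσo, pow_orderOf_eq_one]
      rw [hk, pow_succ, pow_mul] at h4
      have h5 := congrArg (fun f : Perm (Fin n) => f x) h4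
      simp only [Perm.mul_apply, Perm.one_apply] at h5
      have h6 : ((σ ^ 2) ^ k) (σ x) = σ x := by
        apply pow_apply_eq_self_of_apply_eq_self
        rw [pow_two, Perm.mul_apply, h1]
      rw [h6] at h5
      exact h5
    set s : Perm (Fin n) := swap x (σ x) with hs
    have hsa : s a = a := swap_apply_of_ne_of_ne hxa.symm hσxa.symm
    have hsinv : s⁻¹ = s := swap_inv _ _
    have hprod : σ * (s * σ⁻¹ * s) = swap (σ x) (σ (σ x)) * swap (σ x) x := by
      rw [swap_apply_apply, swap_comm (σ x) x, ← hs]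
      group
    refine contra n p hn h a σ (s * σ⁻¹ * s) hσs ?_ hσa ?_ hσo ?_ 3 Nat.prime_three
      (fun h3 => hp3 h3.symm) ?_
    · rw [map_mul, map_mul, map_inv, hσs, hs, sign_swap hx.symm]; rfl
    · rw [Perm.mul_apply, Perm.mul_apply, hsa, Perm.inv_eq_iff_eq.mpr hσa.symm, hsa]
    · have h1 : s * σ⁻¹ * s = MulAut.conj s σ⁻¹ := by
        rw [MulAut.conj_apply, hsinv]
      rw [h1, MulEquiv.orderOf_eq, orderOf_inv, hσo]
    · rw [hprod]
      exact (isThreeCycle_swap_mul_swap_same (fun h1 => hx (σ.injective h1.symm)) hx hx2).orderOf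

end Cfsg.Agent.S3941
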