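import Cfsg.Statements.S3947
import Cfsg.Agent.Lib.Helper27FlavC

set_option autoImplicit false
open Cfsg

namespace Cfsg.Agent.S3947

open Cfsg.Agent.Lib.Helper58Subnormal Cfsg.Agent.Lib.Helper27FlavA

/-- Let G be a finite group and A a proper subgroup of G whose normal closure is G. Let Y be the join of all proper subgroups H of G that contain A and are generated by their own conjugates of A (the normal closure of A in H is H). Then either Y = G, or A is contained in exactly one maximal subgroup of G. -/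
theorem result {G : Type*} [Group G] [Finite G] (A : Subgroup G) (hA : Subgroup.normalClosure (A : Set G) = ⊤) (hAG : A ≠ ⊤) :
    sSup {H : Subgroup G | A ≤ H ∧ H ≠ ⊤ ∧ Subgroup.normalClosure ((A.subgroupOf H : Subgroup ↥H) : Set ↥H) = ⊤} = ⊤ ∨
      ∃! M : Subgroup G, IsCoatom M ∧ A ≤ M := by
  have hgen : ∀ N : Subgroup G, N.Normal → A ≤ N → N = ⊤ := by
    intro N hN hAN
    have h1 : Subgroup.normalClosure (A : Set G) ≤ N := Subgroup.normalClosure_le_normal hAN
    rw [hA] at h1
    exact top_le_iff.mp h1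
  rcases Cfsg.Agent.Lib.Helper27FlavC.main A hAG hgen with h | ⟨M, hM, hAM, huniq⟩
  · left
    rw [eq_top_iff]
    refine le_trans (le_of_eq h.symm) ?_
    apply sSup_le_sSup
    rintro H ⟨hH, hHt⟩
    refine ⟨hH.1, hHt, ?_⟩
    have hn : (Subgroup.normalClosure ((A.subgroupOf H : Subgroup ↥H) : Set ↥H)).Normal :=
      Subgroup.normalClosure_normal
    have h1 : NormIn ((Subgroup.normalClosure ((A.subgroupOf H : Subgroup ↥H) : Set ↥H)).map
        H.subtype) H := by
      refine ⟨Subgroup.map_subtype_le _, ?_⟩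
      apply le_normalizer_of
      rintro g hg _ ⟨w, hw, rfl⟩
      exact ⟨(⟨g, hg⟩ : H) * w * (⟨g, hg⟩ : H)⁻¹, hn.conj_mem w hw _, rfl⟩
    have h2 : A ≤ (Subgroup.normalClosure ((A.subgroupOf H : Subgroup ↥H) : Set ↥H)).map
        H.subtype := by
      intro a ha
      refine ⟨⟨a, hH.1 ha⟩, Subgroup.subset_normalClosure ?_, rfl⟩
      exact Subgroup.mem_subgroupOf.mpr ha
    have h3 := hH.2 _ h1 h2
    rw [eq_top_iff]
    intro y _
    have hy : (y : G) ∈ (Subgroup.normalClosure ((A.subgroupOf H : Subgroup ↥H) : Set ↥H)).map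
        H.subtype := by
      rw [h3]; exact y.2
    obtain ⟨w, hw, hwy⟩ := hy
    have : w = y := Subtype.ext hwy
    rw [← this]; exact hw
  · right
    exact ⟨M, ⟨hM, hAM⟩, fun K hK => huniq K hK.1 hK.2⟩

end Cfsg.Agent.S3947
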