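import Cfsg.Statements.S3949

set_option autoImplicit false
open Cfsg

namespace Cfsg.Agent.S3949

theorem iter_inv {G : Type*} [Group G] (α : MulAut G) (g : G) (hg : α g = g⁻¹) (j : ℕ) :
    ((fun c : G => c * (α c)⁻¹)^[j]) g = g ^ (2 ^ j) := by
  induction j generalizing g with
  | zero => simp
  | succ j ih =>
    rw [Function.iterate_succ_apply]
    have h1 : g * (α g)⁻¹ = g ^ 2 := by rw [hg, inv_inv, pow_two]
    rw [h1, ih (g ^ 2) (by rw [map_pow, hg, inv_pow]), ← pow_mul, pow_succ 2 j, mul_comm]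

/-- Let G be a finite group and α an automorphism of G of order 2 such that the elements g·α(g)⁻¹ generate G. Let j be a positive integer such that 2^j divides the order of no element inverted by α. Then the set of values of the j-th iterate of the map c ↦ c·α(c)⁻¹ is exactly the set of elements of odd order inverted by α. -/
theorem result {G : Type*} [Group G] [Finite G] (α : MulAut G) (hα : orderOf α = 2) (hG : Subgroup.closure (Set.range (fun c : G => c * (α c)⁻¹)) = ⊤)
    (j : ℕ) (hj : ∀ g : G, α g = g⁻¹ → ¬ 2 ^ j ∣ orderOf g) :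
    Set.range ((fun c : G => c * (α c)⁻¹)^[j]) = {g : G | Odd (orderOf g) ∧ α g = g⁻¹} := by
  have hαα : ∀ x : G, α (α x) = x := by
    intro x
    have h2 : α ^ 2 = 1 := by rw [← hα]; exact pow_orderOf_eq_one α
    have := congrArg (fun f : MulAut G => f x) h2
    simpa [pow_two, MulAut.mul_apply] using this
  have hj0 : j ≠ 0 := by
    rintro rfl
    exact hj 1 (by simp) (by simp)
  obtain ⟨i, rfl⟩ := Nat.exists_eq_succ_of_ne_zero hj0
  ext g
  simp only [Set.mem_range, Set.mem_ofPred_eq]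
  constructor
  · rintro ⟨c, rfl⟩
    rw [Function.iterate_succ_apply]
    have hinv : α (c * (α c)⁻¹) = (c * (α c)⁻¹)⁻¹ := by
      rw [map_mul, map_inv, hαα, mul_inv_rev, inv_inv]
    rw [iter_inv α _ hinv]
    set d := c * (α c)⁻¹ with hd
    refine ⟨?_, by rw [map_pow, hinv, inv_pow]⟩
    have hnd := hj d hinv
    rw [orderOf_pow]
    by_contra hodd
    rw [Nat.not_odd_iff_even] at hodd
    apply hnd
    have hpos : 0 < orderOf d := orderOf_pos d
    obtain ⟨k, hk⟩ := hodd.two_dvd
    -- orderOf d = gcd * 2k ; gcd (orderOf d) (2^i) = 2^a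
    have hg : Nat.gcd (orderOf d) (2 ^ i) ∣ orderOf d := Nat.gcd_dvd_left _ _
    have heq : orderOf d = Nat.gcd (orderOf d) (2 ^ i) * (2 * k) := by
      rw [← hk, Nat.mul_div_cancel' hg]
    obtain ⟨a, ha, hga⟩ := (Nat.dvd_prime_pow Nat.prime_two).1 (Nat.gcd_dvd_right (orderOf d) (2 ^ i))
    by_cases hai : a = i
    · rw [heq, hga, hai, pow_succ, ← mul_assoc]
      exact Dvd.intro _ rfl
    · exfalso
      have hlt : a < i := lt_of_le_of_ne ha hai
      have h1 : 2 ^ (a + 1) ∣ orderOf d := by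
        rw [heq, hga, pow_succ, ← mul_assoc]
        exact Dvd.intro _ rfl
      have h2 : 2 ^ (a + 1) ∣ 2 ^ i := pow_dvd_pow 2 hlt
      have h3 : 2 ^ (a + 1) ∣ 2 ^ a := by
        rw [← hga]; exact Nat.dvd_gcd h1 h2
      have := Nat.pow_dvd_pow_iff_le_right (x := 2) (by norm_num) |>.1 h3
      omega
  · rintro ⟨hodd, hinv⟩
    have hcop : Nat.Coprime (orderOf g) (2 ^ (i + 1)) :=
      Nat.Coprime.pow_right _ (Nat.coprime_two_right.2 hodd)
    obtain ⟨m, hm⟩ := exists_pow_eq_self_of_coprime hcop.symm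
    refine ⟨g ^ m, ?_⟩
    rw [iter_inv α (g ^ m) (by rw [map_pow, hinv, inv_pow]), ← pow_mul, mul_comm, pow_mul]
    exact hm

end Cfsg.Agent.S3949
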