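import Cfsg.Statements.S3982
import Cfsg.Agent.S0065
import Cfsg.Agent.S0068
import Cfsg.Agent.Lib.Helper2Nilp
import Cfsg.Agent.Lib.Helper1SylowInv

set_option autoImplicit false
open Cfsg

namespace Cfsg.Agent.S3982

open Subgroup

/-- relative form of: a fixed-point-free involution inverts -/
theorem inverts_rel {G : Type*} [Group G] [Finite G] (R : Subgroup G) (t : G)
    (htN : t ∈ normalizer (R : Set G)) (ht : orderOf t = 2)
    (hfpf : R ⊓ centralizer {t} = ⊥) : ∀ r ∈ R, t * r * t⁻¹ = r⁻¹ := by
  have hn : (R.subgroupOf (normalizer (R : Set G))).Normal := normal_in_normalizer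
  have h1 := (Cfsg.Agent.S0068.inverts (R.subgroupOf (normalizer (R : Set G))) ⟨t, htN⟩
    (by rw [Subgroup.orderOf_mk]; exact ht) (by
      rw [eq_bot_iff]
      intro x hx
      obtain ⟨hx1, hx2⟩ := mem_inf.1 hx
      rw [mem_centralizer_singleton_iff] at hx2
      have h3 : (x : G) ∈ R ⊓ centralizer {t} := by
        refine mem_inf.2 ⟨hx1, ?_⟩
        rw [mem_centralizer_singleton_iff]
        exact congrArg Subtype.val hx2
      rw [hfpf, mem_bot] at h3
      rw [mem_bot]
      exact Subtype.ext h3)).1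
  intro r hr
  have h2 := h1 ⟨r, le_normalizer hr⟩ hr
  exact congrArg Subtype.val h2

/-- Let p be an odd prime and G a finite group of even order divisible by p in which the centralizer of every non-identity p-element has odd order. If some nontrivial p-subgroup of G has a normalizer of even order, then the normalizer of every Sylow p-subgroup of G has even order. -/
theorem result {G : Type*} [Group G] [Finite G] (p : ℕ) [Fact p.Prime] (hp2 : p ≠ 2) (hpG : p ∣ Nat.card G) (h2G : 2 ∣ Nat.card G) (hC : ∀ g : G, g ≠ 1 → (∃ k : ℕ, orderOf g = p ^ k) → Odd (Nat.card ↥(Subgroup.centralizer ({g} : Set G)))) (Q : Subgroup G) (hQ : IsPGroup p ↥Q) (hQ1 : Q ≠ ⊥) (hev : Even (Nat.card ↥(Subgroup.normalizer (Q : Set G)))) (P : Sylow p G) : Even (Nat.card ↥(Subgroup.normalizer ((P : Subgroup G) : Set G))) := by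
  classical
  set 𝒮 : Set (Subgroup G) := {R | IsPGroup p R ∧ R ≠ ⊥ ∧ Even (Nat.card (normalizer (R : Set G)))}
    with h𝒮
  obtain ⟨R, ⟨hRp, hR1, hRev⟩, hmax⟩ := Set.exists_max_image 𝒮 (fun R => Nat.card R)
    (Set.toFinite _) ⟨Q, hQ, hQ1, hev⟩
  obtain ⟨P', hP'⟩ := hRp.exists_le_sylow
  have hord : ∀ (X : Subgroup G), IsPGroup p X → ∀ r ∈ X, ∃ k : ℕ, orderOf r = p ^ k := by
    intro X hX r hr
    obtain ⟨k, hk⟩ := (IsPGroup.iff_orderOf.1 hX) ⟨r, hr⟩
    exact ⟨k, by rw [← hk, Subgroup.orderOf_mk]⟩
  by_cases hRP : R = P'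
  · have h1 : (normalizer ((P : Subgroup G) : Set G)).index =
        (normalizer ((P' : Subgroup G) : Set G)).index := by
      exact (Sylow.card_eq_index_normalizer P).symm.trans (Sylow.card_eq_index_normalizer P')
    have h2 := (normalizer ((P : Subgroup G) : Set G)).card_mul_index
    have h3 := (normalizer ((P' : Subgroup G) : Set G)).card_mul_index
    rw [h1] at h2
    have h4 : Nat.card (normalizer ((P : Subgroup G) : Set G)) =
        Nat.card (normalizer ((P' : Subgroup G) : Set G)) := by
      apply Nat.eq_of_mul_eq_mul_right (Nat.pos_of_ne_zero (index_ne_zero_of_finite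
        (H := normalizer ((P' : Subgroup G) : Set G))))
      rw [h2, h3]
    rw [h4, ← hRP]; exact hRev
  · exfalso
    have hlt : R < P' := lt_of_le_of_ne hP' hRP
    obtain ⟨x, hxP, hxN, hxR⟩ := Cfsg.Agent.Lib.Helper2Nilp.exists_mem_normalizer_not_mem
      (P'.2.isNilpotent) hlt
    set S : Subgroup G := (P' : Subgroup G) ⊓ normalizer (R : Set G) with hS
    have hSp : IsPGroup p S := P'.2.to_le inf_le_left
    have hRS : R ≤ S := le_inf hP' le_normalizer
    have hRSlt : R < S := lt_of_le_of_ne hRS (fun h => hxR (h ▸ mem_inf.2 ⟨hxP, hxN⟩))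
    -- a central element of S inside R
    have hSn : Group.IsNilpotent S := hSp.isNilpotent
    have hRn : (R.subgroupOf S).Normal := by
      have : S ≤ normalizer (R : Set G) := inf_le_right
      exact normal_subgroupOf_of_le_normalizer this
    have hz := Cfsg.Agent.S0065.result (R.subgroupOf S) (by
      intro h
      apply hR1
      rw [subgroupOf_eq_bot, disjoint_iff, inf_eq_left.2 hRS] at h
      exact h)
    obtain ⟨⟨z', hz'⟩, hz'1⟩ := (Subgroup.ne_bot_iff_exists_ne_one).1 hz
    obtain ⟨hz'R, hz'Z⟩ := mem_inf.1 hz'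
    set z : G := (z' : G) with hzdef
    have hzR : z ∈ R := hz'R
    have hz1 : z ≠ 1 := by
      intro h
      apply hz'1
      apply Subtype.ext
      apply Subtype.ext
      exact h
    have hzS : S ≤ centralizer {z} := by
      intro s hs
      rw [mem_centralizer_singleton_iff]
      have := (mem_center_iff.1 hz'Z) ⟨s, hs⟩
      exact congrArg Subtype.val this
    -- the involution
    obtain ⟨t', ht'⟩ := exists_prime_orderOf_dvd_card' (G := normalizer (R : Set G)) 2
      (even_iff_two_dvd.1 hRev)
    set t : G := (t' : G) with htdef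
    have htN : t ∈ normalizer (R : Set G) := t'.2
    have ht : orderOf t = 2 := by rw [htdef, Subgroup.orderOf_coe]; exact ht'
    have hnocomm : ∀ r : G, r ≠ 1 → (∃ k : ℕ, orderOf r = p ^ k) → r * t ≠ t * r := by
      intro r hr1 hrp hcomm
      have h1 := hC r hr1 hrp
      have h2 : t ∈ centralizer {r} := by
        rw [mem_centralizer_singleton_iff]; exact hcomm.symm
      have h3 : orderOf (⟨t, h2⟩ : centralizer {r}) ∣ Nat.card (centralizer {r}) :=
        orderOf_dvd_natCard _
      rw [Subgroup.orderOf_mk, ht] at h3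
      exact (Nat.not_even_iff_odd.2 h1) (even_iff_two_dvd.2 h3)
    have hfpf : R ⊓ centralizer {t} = ⊥ := by
      rw [eq_bot_iff]
      intro r hr
      obtain ⟨hr1, hr2⟩ := mem_inf.1 hr
      rw [mem_bot]
      by_contra hne
      rw [mem_centralizer_singleton_iff] at hr2
      exact hnocomm r hne (hord R hRp r hr1) hr2
    have hinv := inverts_rel R t htN ht hfpf z hzR
    set D : Subgroup G := centralizer {z} with hD
    have hDodd : Odd (Nat.card D) := hC z hz1 (hord R hRp z hzR)
    have htD : zpowers t ≤ normalizer (D : Set G) := by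
      rw [zpowers_le]
      have key : ∀ s : G, s * z * s⁻¹ = z⁻¹ → ∀ d ∈ D, s * d * s⁻¹ ∈ D := by
        intro s hs d hd
        rw [hD, mem_centralizer_singleton_iff] at hd ⊢
        have h1 : s⁻¹ * z * s = z⁻¹ := by
          have : z = s⁻¹ * z⁻¹ * s := by rw [← hs]; group
          calc s⁻¹ * z * s = (s⁻¹ * z⁻¹ * s)⁻¹ := by group
            _ = z⁻¹ := by rw [← this]
        have h2 : d * z⁻¹ = z⁻¹ * d := by
          calc d * z⁻¹ = z⁻¹ * (z * d) * z⁻¹ := by group
            _ = z⁻¹ * (d * z) * z⁻¹ := by rw [hd]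
            _ = z⁻¹ * d := by group
        calc s * d * s⁻¹ * z = s * (d * (s⁻¹ * z * s)) * s⁻¹ := by group
          _ = s * (d * z⁻¹) * s⁻¹ := by rw [h1]
          _ = s * (z⁻¹ * d) * s⁻¹ := by rw [h2]
          _ = s * ((s⁻¹ * z * s) * d) * s⁻¹ := by rw [h1]
          _ = z * (s * d * s⁻¹) := by group
      rw [mem_normalizer_iff]
      intro d
      constructor
      · exact key t hinv d
      · intro hd
        have hinv' : t⁻¹ * z * t⁻¹⁻¹ = z⁻¹ := by
          have : z = t⁻¹ * z⁻¹ * t := by rw [← hinv]; group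
          calc t⁻¹ * z * t⁻¹⁻¹ = (t⁻¹ * z⁻¹ * t)⁻¹ := by group
            _ = z⁻¹ := by rw [← this]
        have := key t⁻¹ hinv' _ hd
        simpa [mul_assoc] using this
    have hcop : (Nat.card (zpowers t)).Coprime (Nat.card D) := by
      rw [Nat.card_zpowers, ht]
      exact (Nat.coprime_two_left).2 hDodd
    obtain ⟨P'', hP''⟩ := Cfsg.Agent.Lib.Helper1SylowInv.exists_invariant_sylow (zpowers t) D htD
      hcop (Or.inl inferInstance) p
    set S₁ : Subgroup G := (P'' : Subgroup D).map D.subtype with hS₁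
    have hS₁p : IsPGroup p S₁ := P''.2.map D.subtype
    have hS₁card : Nat.card S₁ = Nat.card (P'' : Subgroup D) :=
      (Nat.card_congr ((P'' : Subgroup D).equivMapOfInjective D.subtype
        D.subtype_injective).toEquiv).symm
    have hScard : Nat.card S ≤ Nat.card S₁ := by
      obtain ⟨P₃, hP₃⟩ := (hSp.comap_subtype (K := D)).exists_le_sylow
      have h1 : Nat.card (S.subgroupOf D) = Nat.card S :=
        Nat.card_congr (subgroupOfEquivOfLe hzS).toEquiv
      have h2 : Nat.card (S.subgroupOf D) ≤ Nat.card (P₃ : Subgroup D) :=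
        card_le_of_le hP₃
      rw [hS₁card, P''.card_eq_multiplicity, ← P₃.card_eq_multiplicity, ← h1]
      exact h2
    have hRScard : Nat.card R < Nat.card S := by
      by_contra h
      push Not at h
      exact hRSlt.ne (eq_of_le_of_card_ge hRS h)
    have hS₁mem : S₁ ∈ 𝒮 := by
      refine ⟨hS₁p, ?_, ?_⟩
      · intro h
        rw [h] at hScard
        simp at hScard
        have : 0 < Nat.card R := Nat.card_pos
        omega
      · have h1 : t ∈ normalizer (S₁ : Set G) := hP'' (mem_zpowers t)
        have h3 : orderOf (⟨t, h1⟩ : normalizer (S₁ : Set G)) ∣ Nat.card (normalizer (S₁ : Set G)) :=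
          orderOf_dvd_natCard _
        rw [Subgroup.orderOf_mk, ht] at h3
        exact even_iff_two_dvd.2 h3
    have := hmax S₁ hS₁mem
    omega

end Cfsg.Agent.S3982
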