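import Cfsg.Statements.S3983
import Cfsg.Agent.Lib.Helper2Conj
import Cfsg.Agent.Lib.Helper2Sylow

set_option autoImplicit false
open Pointwise
open Cfsg

namespace Cfsg.Agent.S3983

open Subgroup Cfsg.Agent.Lib.Helper2Conj Cfsg.Agent.Lib.Helper2Sylow

/-- Let P be a Sylow p-subgroup of the finite group G that meets each conjugate g P g⁻¹ with g outside N_G(P) trivially, and let U be a subgroup of G of order divisible by p. Then a Sylow p-subgroup Q of U has the same property inside U: Q meets each conjugate u Q u⁻¹ with u ∈ U outside N_U(Q) trivially. -/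
theorem result {G : Type*} [Group G] [Finite G] (p : ℕ) [Fact p.Prime] (P : Sylow p G) (hTI : ∀ g : G, g ∉ Subgroup.normalizer ((P : Subgroup G) : Set G) → (P : Subgroup G) ⊓ (MulAut.conj g • (P : Subgroup G)) = ⊥) (U : Subgroup G) (hU : p ∣ Nat.card ↥U) (Q : Sylow p ↥U) : ∀ u : ↥U, u ∉ Subgroup.normalizer ((Q : Subgroup ↥U) : Set ↥U) → (Q : Subgroup ↥U) ⊓ (MulAut.conj u • (Q : Subgroup ↥U)) = ⊥ := by
  intro u hu
  obtain ⟨x, -, hx⟩ := exists_conj_le_of_le (S := P) (N := ⊤) (Q := (Q : Subgroup U).map U.subtype)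
    le_top (Q.2.map _) le_top
  -- `w ∈ Q ↔ x w x⁻¹ ∈ P`
  have hchar : ∀ w : U, w ∈ Q ↔ x * (w : G) * x⁻¹ ∈ P := by
    let R : Subgroup U := ((P : Subgroup G).comap (MulAut.conj x).toMonoidHom).subgroupOf U
    have hRp : IsPGroup p R := by
      apply P.2.comap_of_injective ((MulAut.conj x).toMonoidHom.comp U.subtype)
      exact (MulAut.conj x).injective.comp U.subtype_injective
    have hQR : (Q : Subgroup U) ≤ R := fun w hw => hx _ ⟨w, hw, rfl⟩
    have hR : R = Q := Q.is_maximal' hRp hQR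
    intro w
    have : w ∈ Q ↔ w ∈ R := by rw [hR]; rfl
    rw [this]; rfl
  rw [eq_bot_iff]
  intro y hy
  obtain ⟨hy1, hy2⟩ := mem_inf.1 hy
  rw [mem_conj_smul] at hy2
  have h1 := (hchar y).1 hy1
  have h2 := (hchar _).1 hy2
  by_cases hg : x * (u : G) * x⁻¹ ∈ normalizer ((P : Subgroup G) : Set G)
  · exfalso
    apply hu
    rw [mem_normalizer_iff]
    intro w
    have e1 : w ∈ (Q : Subgroup U) ↔ x * (w : G) * x⁻¹ ∈ P := hchar w
    have e2 : u * w * u⁻¹ ∈ (Q : Subgroup U) ↔ x * ((u * w * u⁻¹ : U) : G) * x⁻¹ ∈ P := hchar _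
    rw [e1, e2]
    have e3 := (mem_normalizer_iff.1 hg) (x * (w : G) * x⁻¹)
    have e4 : x * (u : G) * x⁻¹ * (x * (w : G) * x⁻¹) * (x * (u : G) * x⁻¹)⁻¹
        = x * ((u * w * u⁻¹ : U) : G) * x⁻¹ := by
      simp only [coe_mul, coe_inv]; group
    rw [e4] at e3
    exact e3
  · have h3 : x * (y : G) * x⁻¹ ∈ (P : Subgroup G) ⊓ MulAut.conj (x * (u : G) * x⁻¹) • (P : Subgroup G) := by
      refine mem_inf.2 ⟨h1, ?_⟩
      rw [mem_conj_smul]
      have e : (x * (u : G) * x⁻¹)⁻¹ * (x * (y : G) * x⁻¹) * (x * (u : G) * x⁻¹)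
          = x * ((u⁻¹ * y * u : U) : G) * x⁻¹ := by
        simp only [coe_mul, coe_inv]; group
      rw [e]; exact h2
    rw [hTI _ hg, mem_bot] at h3
    rw [mem_bot]
    apply Subtype.ext
    have := congrArg (fun t => x⁻¹ * t * x) h3
    simpa [mul_assoc] using this

end Cfsg.Agent.S3983
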