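import Cfsg.Statements.S3984
import Cfsg.Agent.Lib.Helper2Sylow

set_option autoImplicit false
open Cfsg

namespace Cfsg.Agent.S3984

open Subgroup Pointwise
open Cfsg.Agent.Lib.Helper2Sylow

/-- the TI property in terms of pairs of Sylow subgroups -/
theorem ti_pairs {G : Type*} [Group G] [Finite G] (p : ℕ) [Fact p.Prime] (P : Sylow p G)
    (hTI : ∀ g : G, g ∉ Subgroup.normalizer ((P : Subgroup G) : Set G) →
      (P : Subgroup G) ⊓ (MulAut.conj g • (P : Subgroup G)) = ⊥)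
    (P₁ P₂ : Sylow p G) (y : G) (hy1 : y ∈ P₁) (hy2 : y ∈ P₂) (hy : y ≠ 1) : P₁ = P₂ := by
  obtain ⟨a, rfl⟩ := MulAction.exists_smul_eq G P P₁
  obtain ⟨b, rfl⟩ := MulAction.exists_smul_eq G P P₂
  by_contra hne
  have h1 : a⁻¹ * b ∉ normalizer ((P : Subgroup G) : Set G) := by
    intro h
    apply hne
    have := Sylow.smul_eq_iff_mem_normalizer.2 h
    rw [mul_smul, inv_smul_eq_iff] at this
    exact this.symm
  have h2 := hTI _ h1
  rw [mem_sylow_smul_iff] at hy1 hy2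
  have h3 : a⁻¹ * y * a ∈ (P : Subgroup G) ⊓ (MulAut.conj (a⁻¹ * b) • (P : Subgroup G)) := by
    refine mem_inf.2 ⟨hy1, ?_⟩
    have : a⁻¹ * y * a ∈ ((a⁻¹ * b) • P : Sylow p G) := by
      rw [mem_sylow_smul_iff]
      have e : (a⁻¹ * b)⁻¹ * (a⁻¹ * y * a) * (a⁻¹ * b) = b⁻¹ * y * b := by group
      rw [e]; exact hy2
    exact this
  rw [h2, mem_bot] at h3
  apply hy
  have : y = a * (a⁻¹ * y * a) * a⁻¹ := by group
  rw [this, h3]; group

/-- Let P be a Sylow p-subgroup of the finite group G that meets each conjugate g P g⁻¹ with g outside N_G(P) trivially, and let N be a normal subgroup of G of order prime to p. Then every Sylow p-subgroup Q of G ⧸ N meets each conjugate x Q x⁻¹ with x outside its normalizer trivially. -/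
theorem result {G : Type*} [Group G] [Finite G] (p : ℕ) [Fact p.Prime] (P : Sylow p G) (hTI : ∀ g : G, g ∉ Subgroup.normalizer ((P : Subgroup G) : Set G) → (P : Subgroup G) ⊓ (MulAut.conj g • (P : Subgroup G)) = ⊥) (N : Subgroup G) [N.Normal] (hN : (Nat.card ↥N).Coprime p) (Q : Sylow p (G ⧸ N)) : ∀ x : G ⧸ N, x ∉ Subgroup.normalizer ((Q : Subgroup (G ⧸ N)) : Set (G ⧸ N)) → (Q : Subgroup (G ⧸ N)) ⊓ (MulAut.conj x • (Q : Subgroup (G ⧸ N))) = ⊥ := by
  intro x hx
  set π := QuotientGroup.mk' N with hπ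
  have hπs : Function.Surjective π := QuotientGroup.mk'_surjective N
  -- every Sylow subgroup of the quotient is the image of a Sylow subgroup
  have himg : ∀ Q' : Sylow p (G ⧸ N), ∃ P' : Sylow p G, (Q' : Subgroup (G ⧸ N)) = (P' : Subgroup G).map π := by
    intro Q'
    obtain ⟨c, hc⟩ := MulAction.exists_smul_eq (G ⧸ N) (P.mapSurjective hπs) Q'
    obtain ⟨c', rfl⟩ := hπs c
    refine ⟨c' • P, ?_⟩
    rw [← hc]
    ext z
    constructor
    · intro hz
      have hz' : z ∈ (π c' • P.mapSurjective hπs : Sylow p (G ⧸ N)) := hz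
      rw [mem_sylow_smul_iff] at hz'
      obtain ⟨w, hw, hwz⟩ := hz'
      refine ⟨c' * w * c'⁻¹, ?_, ?_⟩
      · have : c' * w * c'⁻¹ ∈ (c' • P : Sylow p G) := by
          rw [mem_sylow_smul_iff]
          simpa [mul_assoc] using hw
        exact this
      · rw [map_mul, map_mul, map_inv, hwz]; group
    · rintro ⟨w, hw, rfl⟩
      have hw' : w ∈ (c' • P : Sylow p G) := hw
      rw [mem_sylow_smul_iff] at hw'
      have : π w ∈ (π c' • P.mapSurjective hπs : Sylow p (G ⧸ N)) := by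
        rw [mem_sylow_smul_iff]
        exact ⟨_, hw', by simp⟩
      exact this
  rw [eq_bot_iff]
  intro y hy
  rw [mem_bot]
  by_contra hy1
  apply hx
  apply Sylow.smul_eq_iff_mem_normalizer.1
  obtain ⟨hyQ, hyxQ⟩ := mem_inf.1 hy
  obtain ⟨P₁, hP₁⟩ := himg Q
  obtain ⟨P₂, hP₂⟩ := himg (x • Q)
  have hyxQ' : y ∈ ((x • Q : Sylow p (G ⧸ N)) : Subgroup (G ⧸ N)) := hyxQ
  rw [hP₁] at hyQ
  rw [hP₂] at hyxQ'
  obtain ⟨u, hu, huy⟩ := hyQ
  obtain ⟨v, hv, hvy⟩ := hyxQ'
  have hvL : v ∈ (P₁ : Subgroup G) ⊔ N := by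
    have h1 : u⁻¹ * v ∈ N := by
      rw [← QuotientGroup.eq_one_iff]
      show π (u⁻¹ * v) = 1
      rw [map_mul, map_inv, huy, hvy, inv_mul_cancel]
    have : v = u * (u⁻¹ * v) := by group
    rw [this]
    exact mul_mem ((le_sup_left : (P₁ : Subgroup G) ≤ _) hu) ((le_sup_right : N ≤ _) h1)
  have hvp : IsPGroup p (zpowers v) := P₂.2.to_le (by rw [zpowers_le]; exact hv)
  obtain ⟨m, hm, hmv⟩ := exists_conj_le_of_le (S := P₁) (N := (P₁ : Subgroup G) ⊔ N)
    (Q := zpowers v) le_sup_left hvp (by rw [zpowers_le]; exact hvL)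
  have hv1 : v ≠ 1 := by
    rintro rfl
    apply hy1
    rw [← hvy, map_one]
  have h2 : P₁ = m • P₂ := by
    apply ti_pairs p P hTI P₁ (m • P₂) (m * v * m⁻¹) (hmv v (mem_zpowers v))
    · rw [mem_sylow_smul_iff]
      simpa [mul_assoc] using hv
    · intro h
      apply hv1
      have : v = m⁻¹ * (m * v * m⁻¹) * m := by group
      rw [this, h]; group
  have hπm : π m ∈ (Q : Subgroup (G ⧸ N)) := by
    rw [hP₁]
    have h3 : ((P₁ : Subgroup G) ⊔ N).map π = (P₁ : Subgroup G).map π := by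
      rw [Subgroup.map_sup]
      have : N.map π = ⊥ := by
        rw [hπ, QuotientGroup.map_mk'_self]
      rw [this, sup_bot_eq]
    rw [← h3]
    exact mem_map_of_mem π hm
  have hle : ((x • Q : Sylow p (G ⧸ N)) : Subgroup (G ⧸ N)) ≤ Q := by
    rw [hP₂]
    rintro _ ⟨w, hw, rfl⟩
    have h4 : m * w * m⁻¹ ∈ P₁ := by
      rw [h2, mem_sylow_smul_iff]
      simpa [mul_assoc] using hw
    have h5 : π (m * w * m⁻¹) ∈ (Q : Subgroup (G ⧸ N)) := by
      rw [hP₁]; exact mem_map_of_mem π h4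
    rw [map_mul, map_mul, map_inv] at h5
    have h6 := (Q : Subgroup (G ⧸ N)).mul_mem ((Q : Subgroup (G ⧸ N)).mul_mem
      ((Q : Subgroup (G ⧸ N)).inv_mem hπm) h5) hπm
    simpa [mul_assoc] using h6
  exact Sylow.ext ((x • Q).3 Q.2 hle).symm

end Cfsg.Agent.S3984
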