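import Cfsg.Statements.S3986
import Cfsg.Agent.Lib.Helper57Coprime

set_option autoImplicit false
open Cfsg

namespace Cfsg.Agent.S3986

open Subgroup

theorem forward {G : Type*} [Group G] [Finite G] (p : ℕ) [Fact p.Prime]
    (P : Sylow p G) (K : Subgroup G) (hP : (P : Subgroup G).Normal) (hK : K.Normal)
    (hPK : (P : Subgroup G) ⊓ K = ⊥) (hsup : (P : Subgroup G) ⊔ K = ⊤) (x y : G)
    (hx : ∃ a : ℕ, orderOf x = p ^ a) (hy : ∃ q b : ℕ, q.Prime ∧ q ≠ p ∧ orderOf y = q ^ b) :
    x ∈ (P : Subgroup G) ∧ y ∈ K ∧ x * y = y * x := by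
  have hp : p.Prime := Fact.out
  have hcomm : ∀ u ∈ (P : Subgroup G), ∀ k ∈ K, Commute u k := fun u hu k hk =>
    commute_of_normal_of_disjoint _ _ hP hK (disjoint_iff.2 hPK) u k hu hk
  have hxP : x ∈ (P : Subgroup G) := by
    obtain ⟨a, ha⟩ := hx
    have h1 : IsPGroup p (zpowers x) := by
      rw [IsPGroup.iff_card]
      exact ⟨a, by rw [Nat.card_zpowers, ha]⟩
    obtain ⟨Q, hQ⟩ := h1.exists_le_sylow
    have : Subsingleton (Sylow p G) := by
      have := Sylow.unique_of_normal P hP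
      infer_instance
    rw [Subsingleton.elim P Q]
    exact hQ (mem_zpowers x)
  have hyK : y ∈ K := by
    obtain ⟨q, b, hq, hqp, hb⟩ := hy
    have h1 : y ∈ (P : Subgroup G) ⊔ K := by rw [hsup]; exact mem_top y
    rw [mem_sup_of_normal_left] at h1
    obtain ⟨u, hu, k, hk, rfl⟩ := h1
    have h2 : (u * k) ^ (q ^ b) = 1 := by rw [← hb]; exact pow_orderOf_eq_one _
    rw [(hcomm u hu k hk).mul_pow] at h2
    have h3 : u ^ (q ^ b) ∈ (P : Subgroup G) ⊓ K := by
      refine mem_inf.2 ⟨(P : Subgroup G).pow_mem hu _, ?_⟩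
      rw [eq_inv_of_mul_eq_one_left h2]
      exact K.inv_mem (K.pow_mem hk _)
    rw [hPK, mem_bot] at h3
    obtain ⟨c, hc⟩ := P.2 ⟨u, hu⟩
    have hc' : u ^ (p ^ c) = 1 := by
      have := congrArg Subtype.val hc
      simpa using this
    have h4 : u ^ (Nat.gcd (q ^ b) (p ^ c)) = 1 := pow_gcd_eq_one.2 ⟨h3, hc'⟩
    have h5 : Nat.Coprime (q ^ b) (p ^ c) :=
      Nat.Coprime.pow _ _ ((Nat.coprime_primes hq hp).2 hqp)
    rw [h5, pow_one] at h4
    rw [h4, one_mul]; exact hk
  exact ⟨hxP, hyK, hcomm x hxP y hyK⟩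

/-- Let p be a prime and G a finite group. Then some Sylow p-subgroup of G is a direct factor of G (it is normal and has a normal complement) if and only if every element of p-power order commutes with every element whose order is a power of a prime other than p. -/
theorem result {G : Type*} [Group G] [Finite G] (p : ℕ) [Fact p.Prime] : (∃ (P : Sylow p G) (K : Subgroup G), (P : Subgroup G).Normal ∧ K.Normal ∧ (P : Subgroup G) ⊓ K = ⊥ ∧ (P : Subgroup G) ⊔ K = ⊤) ↔ ∀ x y : G, (∃ a : ℕ, orderOf x = p ^ a) → (∃ q b : ℕ, q.Prime ∧ q ≠ p ∧ orderOf y = q ^ b) → x * y = y * x := by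
  have hp : p.Prime := Fact.out
  constructor
  · rintro ⟨P, K, hP, hK, hPK, hsup⟩ x y hx hy
    exact (forward p P K hP hK hPK hsup x y hx hy).2.2
  · intro h
    obtain ⟨P⟩ : Nonempty (Sylow p G) := inferInstance
    have hPord : ∀ x ∈ (P : Subgroup G), ∃ a : ℕ, orderOf x = p ^ a := by
      intro x hx
      obtain ⟨a, ha⟩ := (IsPGroup.iff_orderOf.1 P.2) ⟨x, hx⟩
      exact ⟨a, by rw [← ha, Subgroup.orderOf_mk]⟩
    have hnorm : normalizer ((P : Subgroup G) : Set G) = ⊤ := by
      apply Cfsg.Agent.Lib.Helper57Coprime.eq_top_of_sylow_le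
      intro q hq _
      by_cases hqp : q = p
      · subst hqp
        exact ⟨P, le_normalizer⟩
      · have : Fact q.Prime := ⟨hq⟩
        obtain ⟨Q⟩ : Nonempty (Sylow q G) := inferInstance
        refine ⟨Q, fun y hy => centralizer_le_normalizer _ ?_⟩
        rw [mem_centralizer_iff]
        intro x hx
        obtain ⟨b, hb⟩ := (IsPGroup.iff_orderOf.1 Q.2) ⟨y, hy⟩
        exact h x y (hPord x hx) ⟨q, b, hq, hqp, by rw [← hb, Subgroup.orderOf_mk]⟩
    have hPn : (P : Subgroup G).Normal := normalizer_eq_top_iff.1 hnorm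
    obtain ⟨K, hK⟩ := (P : Subgroup G).exists_right_complement'_of_coprime P.card_coprime_index
    have hKcard : Nat.card K = (P : Subgroup G).index := by
      have h1 := hK.card_mul_card
      have h2 := (P : Subgroup G).card_mul_index
      exact Nat.eq_of_mul_eq_mul_left Nat.card_pos (h1.trans h2.symm)
    have hKc : K ≤ centralizer ((P : Subgroup G) : Set G) := by
      have h1 : (centralizer ((P : Subgroup G) : Set G)).subgroupOf K = ⊤ := by
        apply Cfsg.Agent.Lib.Helper57Coprime.eq_top_of_sylow_le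
        intro q hq hqK
        have hqp : q ≠ p := by
          rintro rfl
          rw [hKcard] at hqK
          exact P.not_dvd_index hqK
        have : Fact q.Prime := ⟨hq⟩
        obtain ⟨Q⟩ : Nonempty (Sylow q K) := inferInstance
        refine ⟨Q, fun y hy => ?_⟩
        rw [mem_subgroupOf, mem_centralizer_iff]
        intro x hx
        obtain ⟨b, hb⟩ := (IsPGroup.iff_orderOf.1 Q.2) ⟨y, hy⟩
        exact h x y (hPord x hx) ⟨q, b, hq, hqp, by rw [← hb, Subgroup.orderOf_mk, Subgroup.orderOf_coe]⟩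
      exact subgroupOf_eq_top.1 h1
    refine ⟨P, K, hPn, ?_, hK.disjoint.eq_bot, hK.sup_eq_top⟩
    constructor
    intro k hk g
    have hg : g ∈ (P : Subgroup G) ⊔ K := by rw [hK.sup_eq_top]; exact mem_top g
    rw [mem_sup_of_normal_left] at hg
    obtain ⟨u, hu, c, hc, rfl⟩ := hg
    have h1 : c * k * c⁻¹ ∈ K := K.mul_mem (K.mul_mem hc hk) (K.inv_mem hc)
    have h2 := (mem_centralizer_iff.1 (hKc h1)) u hu
    have h3 : u * c * k * (u * c)⁻¹ = (u * (c * k * c⁻¹)) * u⁻¹ := by group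
    rw [h3, h2, mul_inv_cancel_right]
    exact h1

end Cfsg.Agent.S3986
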