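import Cfsg.Statements.S3987
import Cfsg.Agent.S3986
import Cfsg.Agent.Lib.Helper12Coprime

set_option autoImplicit false
open Cfsg

namespace Cfsg.Agent.S3987

open Subgroup

/-- the conjugacy class of `x` as a set -/
def cls {G : Type*} [Group G] (x : G) : Set G := Set.range (fun g : G => g * x * g⁻¹)

theorem ncard_cls {G : Type*} [Group G] (x : G) :
    (cls x).ncard = (centralizer ({x} : Set G)).index := by
  have h1 := MulAction.index_stabilizer (ConjAct G) x
  have h2 : MulAction.orbit (ConjAct G) x = cls x := by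
    ext y
    constructor
    · rintro ⟨g, rfl⟩
      exact ⟨ConjAct.ofConjAct g, by simp [ConjAct.smul_def]⟩
    · rintro ⟨g, rfl⟩
      exact ⟨ConjAct.toConjAct g, by simp [ConjAct.smul_def]⟩
  rw [← h2, ← h1, centralizer_eq_comap_stabilizer]
  exact (index_comap_of_surjective _ ConjAct.toConjAct.surjective).symm

/-- Let p be a prime and G a finite group. Then some Sylow p-subgroup of G is a direct factor of G (normal with a normal complement) if and only if for every element x of p-power order and every element y whose order is a power of a prime other than p, the conjugacy class of x y has as many elements as the product of the sizes of the classes of x and of y. -/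
theorem result {G : Type*} [Group G] [Finite G] (p : ℕ) [Fact p.Prime] : (∃ (P : Sylow p G) (K : Subgroup G), (P : Subgroup G).Normal ∧ K.Normal ∧ (P : Subgroup G) ⊓ K = ⊥ ∧ (P : Subgroup G) ⊔ K = ⊤) ↔ ∀ x y : G, (∃ a : ℕ, orderOf x = p ^ a) → (∃ q b : ℕ, q.Prime ∧ q ≠ p ∧ orderOf y = q ^ b) → (Subgroup.centralizer ({x * y} : Set G)).index = (Subgroup.centralizer ({x} : Set G)).index * (Subgroup.centralizer ({y} : Set G)).index := by
  constructor
  · rintro ⟨P, K, hP, hK, hPK, hsup⟩ x y hx hy
    obtain ⟨hxP, hyK, hxy⟩ := Cfsg.Agent.S3986.forward p P K hP hK hPK hsup x y hx hy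
    have hcomm : ∀ u ∈ (P : Subgroup G), ∀ k ∈ K, Commute u k := fun u hu k hk =>
      commute_of_normal_of_disjoint _ _ hP hK (disjoint_iff.2 hPK) u k hu hk
    have h1 : centralizer ({x * y} : Set G) = centralizer {x} ⊓ centralizer {y} := by
      ext g
      rw [mem_inf, mem_centralizer_singleton_iff, mem_centralizer_singleton_iff,
        mem_centralizer_singleton_iff]
      constructor
      · intro h
        have h2 : x⁻¹ * (g * x * g⁻¹) = y * (g * y * g⁻¹)⁻¹ := by
          have : g * x * g⁻¹ * (g * y * g⁻¹) = x * y := by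
            calc g * x * g⁻¹ * (g * y * g⁻¹) = (g * (x * y)) * g⁻¹ := by group
              _ = x * y := by rw [h]; group
          rw [eq_mul_inv_iff_mul_eq, mul_assoc, this]; group
        have h3 : x⁻¹ * (g * x * g⁻¹) ∈ (P : Subgroup G) ⊓ K := by
          refine mem_inf.2 ⟨(P : Subgroup G).mul_mem ((P : Subgroup G).inv_mem hxP) (hP.conj_mem x hxP g), ?_⟩
          rw [h2]
          exact K.mul_mem hyK (K.inv_mem (hK.conj_mem y hyK g))
        have h4 := h3
        rw [hPK, mem_bot] at h3
        rw [h2, hPK, mem_bot] at h4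
        constructor
        · have : g * x * g⁻¹ = x := by rw [inv_mul_eq_one] at h3; exact h3.symm
          exact mul_inv_eq_iff_eq_mul.1 this
        · have : g * y * g⁻¹ = y := by rw [mul_inv_eq_one] at h4; exact h4.symm
          exact mul_inv_eq_iff_eq_mul.1 this
      · rintro ⟨h2, h3⟩
        rw [← mul_assoc, h2, mul_assoc, h3, mul_assoc]
    rw [h1]
    apply Cfsg.Agent.Lib.Helper12Coprime.index_inf_of_coprime
    have hKx : K ≤ centralizer {x} := by
      intro k hk
      rw [mem_centralizer_singleton_iff]
      exact (hcomm x hxP k hk).symm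
    have hPy : (P : Subgroup G) ≤ centralizer {y} := by
      intro u hu
      rw [mem_centralizer_singleton_iff]
      exact (hcomm u hu y hyK)
    have hKidx : K.index ∣ Nat.card (P : Subgroup G) := by
      have hc : IsComplement' (P : Subgroup G) K :=
        isComplement'_of_disjoint_and_mul_eq_univ (disjoint_iff.2 hPK) (by
          rw [← normal_mul, hsup]; rfl)
      have h1 := hc.card_mul_card
      have h2 := K.card_mul_index
      have : K.index = Nat.card (P : Subgroup G) := by
        apply Nat.eq_of_mul_eq_mul_left (Nat.card_pos (α := K))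
        rw [h2, ← h1, mul_comm]
      rw [this]
    have h5 : (centralizer ({x} : Set G)).index ∣ Nat.card (P : Subgroup G) :=
      (index_dvd_of_le hKx).trans hKidx
    have h6 : (centralizer ({y} : Set G)).index ∣ (P : Subgroup G).index := index_dvd_of_le hPy
    exact Nat.Coprime.coprime_dvd_left h5 (Nat.Coprime.coprime_dvd_right h6 P.card_coprime_index)
  · intro h
    rw [Cfsg.Agent.S3986.result]
    intro x y hx hy
    have h1 := h x y hx hy
    rw [← ncard_cls, ← ncard_cls, ← ncard_cls] at h1
    set m : G × G → G := fun ab => ab.1 * ab.2 with hm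
    have hsub : cls (x * y) ⊆ m '' (cls x ×ˢ cls y) := by
      rintro _ ⟨g, rfl⟩
      exact ⟨(g * x * g⁻¹, g * y * g⁻¹), ⟨⟨g, rfl⟩, ⟨g, rfl⟩⟩, by simp [hm]⟩
    have h2 : (m '' (cls x ×ˢ cls y)).ncard = (cls x ×ˢ cls y).ncard := by
      apply le_antisymm (Set.ncard_image_le (Set.toFinite _))
      rw [Set.ncard_prod, ← h1]
      exact Set.ncard_le_ncard hsub (Set.toFinite _)
    have hinj : Set.InjOn m (cls x ×ˢ cls y) := (Set.ncard_image_iff (Set.toFinite _)).1 h2
    have h3 := hinj (x₁ := (x, y)) (x₂ := ((x * y) * x * (x * y)⁻¹, (x * y) * y * (x * y)⁻¹))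
      ⟨⟨1, by simp⟩, ⟨1, by simp⟩⟩ ⟨⟨x * y, rfl⟩, ⟨x * y, rfl⟩⟩ (by simp only [hm]; group)
    have h4 : x = (x * y) * x * (x * y)⁻¹ := congrArg Prod.fst h3
    have h5 : x * (x * y) = (x * y) * x := (mul_inv_eq_iff_eq_mul.1 h4.symm).symm
    rw [mul_assoc] at h5
    exact mul_left_cancel h5

end Cfsg.Agent.S3987
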