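import Cfsg.Statements.S4013
import Mathlib

set_option autoImplicit false
open Cfsg

namespace Cfsg.Agent.S4013

/-- Let G be a finite p-group (p prime) and N < M normal subgroups of G such that for some g ∈ M ∖ N the conjugacy class of g is exactly M ∖ N. Then p = 2 and N has index 2 in M. -/
theorem result {G : Type*} [Group G] [Finite G] (p : ℕ) [Fact p.Prime] (hG : IsPGroup p G) (N M : Subgroup G) [N.Normal] [M.Normal] (hNM : N < M) (g : G) (hgM : g ∈ M) (hgN : g ∉ N) (hcl : {h : G | IsConj g h} = (M : Set G) \ (N : Set G)) : p = 2 ∧ N.relIndex M = 2 := by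
  have hp : p.Prime := Fact.out
  -- class size is a power of p
  have hG' : IsPGroup p (ConjAct G) := hG
  have h1 : ∃ k : ℕ, Nat.card (MulAction.orbit (ConjAct G) g) = p ^ k :=
    hG'.card_orbit g
  obtain ⟨k, hk⟩ := h1
  have h2 : (MulAction.orbit (ConjAct G) g : Set G) = (M : Set G) \ (N : Set G) := by
    rw [← hcl]
    ext h
    rw [ConjAct.mem_orbit_conjAct, Set.mem_ofPred_eq, isConj_comm]
  have h3 : ((M : Set G) \ (N : Set G)).ncard = p ^ k := by
    rw [← h2]; exact hk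
  have h4 : ((M : Set G) \ (N : Set G)).ncard = Nat.card M - Nat.card N := by
    rw [Set.ncard_sdiff (by exact_mod_cast hNM.le) (Set.toFinite _)]
    rfl
  have h5 : Nat.card N * N.relIndex M = Nat.card M := by
    have := Subgroup.relIndex_mul_relIndex ⊥ N M bot_le hNM.le
    simpa [Subgroup.relIndex_bot_left] using this
  obtain ⟨a, ha⟩ := (hG.to_subgroup N).exists_card_eq
  have h6 : ∃ b, N.relIndex M = p ^ b := by
    have hd : N.relIndex M ∣ Nat.card M := Subgroup.relIndex_dvd_card N M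
    obtain ⟨c, hc⟩ := (hG.to_subgroup M).exists_card_eq
    rw [hc] at hd
    obtain ⟨b, _, hb⟩ := (Nat.dvd_prime_pow hp).mp hd
    exact ⟨b, hb⟩
  obtain ⟨b, hb⟩ := h6
  have hb0 : b ≠ 0 := by
    rintro rfl
    rw [pow_zero, Subgroup.relIndex_eq_one] at hb
    exact absurd hb (not_le_of_gt hNM)
  have h7 : p ^ a * (p ^ b - 1) = p ^ k := by
    rw [← h3, h4, ← h5, ha, hb, Nat.mul_sub, mul_one]
  have h8 : (p ^ b - 1) ∣ p ^ k := Dvd.intro_left _ h7
  obtain ⟨j, _, hj⟩ := (Nat.dvd_prime_pow hp).mp h8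
  have hpb : 1 ≤ p ^ b := Nat.one_le_pow _ _ hp.pos
  have hj0 : j = 0 := by
    by_contra hj0
    have d1 : p ∣ p ^ j := dvd_pow_self p hj0
    have d2 : p ∣ p ^ b := dvd_pow_self p hb0
    have d3 : p ∣ p ^ b - p ^ j := Nat.dvd_sub d2 d1
    have : p ^ b - p ^ j = 1 := by omega
    rw [this] at d3
    exact hp.one_lt.ne' (Nat.dvd_one.mp d3)
  subst hj0
  have h9 : p ^ b = 2 := by simp at hj; omega
  have h10 : p ∣ 2 := by rw [← h9]; exact dvd_pow_self p hb0
  have h11 : p = 2 := (Nat.prime_dvd_prime_iff_eq hp Nat.prime_two).mp h10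
  exact ⟨h11, by rw [hb, h9]⟩

end Cfsg.Agent.S4013
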