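import Cfsg.Statements.S4015
-- import your own Cfsg.Agent.* helpers here
import Mathlib
import Cfsg.Agent.Lib.Helper73LinP
import Cfsg.Agent.S4014

set_option autoImplicit false
open Cfsg

namespace Cfsg.Agent.S4015


open RegularWreathProduct in
/-- the imprimitive representation of a wreath product -/
noncomputable def wrRep {F : Type*} [Field F] {W : Type*} [Group W] {C : Type*} [Group C]
    {Y : Type*} [AddCommGroup Y] [Module F Y] (σ : W →* Module.End F Y) :
    (W ≀ᵣ C) →* Module.End F (C → Y) where
  toFun w := LinearMap.pi (fun i => (σ (w.left i)).comp (LinearMap.proj (w.right⁻¹ * i)))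
  map_one' := by
    ext y i
    simp
  map_mul' a b := by
    ext y i
    simp [mul_assoc]

open RegularWreathProduct in
theorem wrRep_apply {F : Type*} [Field F] {W : Type*} [Group W] {C : Type*} [Group C]
    {Y : Type*} [AddCommGroup Y] [Module F Y] (σ : W →* Module.End F Y) (w : W ≀ᵣ C)
    (y : C → Y) (i : C) : wrRep σ w y i = σ (w.left i) (y (w.right⁻¹ * i)) := rfl

open RegularWreathProduct in
theorem wrRep_injective {F : Type*} [Field F] {W : Type*} [Group W] {C : Type*} [Group C]
    {Y : Type*} [AddCommGroup Y] [Module F Y] [Nontrivial Y] (σ : W →* Module.End F Y)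
    (hσ : Function.Injective σ) : Function.Injective (wrRep (C := C) σ) := by
  classical
  rw [injective_iff_map_eq_one]
  intro w hw
  have h : ∀ (y : C → Y) (i : C), σ (w.left i) (y (w.right⁻¹ * i)) = y i := by
    intro y i
    rw [← wrRep_apply, hw]
    rfl
  obtain ⟨y0, hy0⟩ := exists_ne (0 : Y)
  have hr : w.right = 1 := by
    by_contra hne
    have h1 := h (Pi.single 1 y0) 1
    rw [mul_one, Pi.single_eq_same, Pi.single_eq_of_ne (inv_ne_one.2 hne), map_zero] at h1
    exact hy0 h1.symm
  have hl : w.left = 1 := by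
    funext i
    apply hσ
    rw [Pi.one_apply, map_one]
    ext y
    have h1 := h (fun _ => y) i
    simpa using h1
  cases w
  simp only at hr hl
  subst hr
  subst hl
  rfl

theorem embed_GL {F : Type*} [Field F] {W : Type*} [Group W] {Y : Type*} [AddCommGroup Y]
    [Module F Y] [FiniteDimensional F Y] (σ : W →* Module.End F Y) (hσ : Function.Injective σ)
    (n : ℕ) (hn : Module.finrank F Y ≤ n) :
    ∃ τ : W →* Matrix.GeneralLinearGroup (Fin n) F, Function.Injective τ := by
  classical
  let σ' : W →* Module.End F (Y × (Fin (n - Module.finrank F Y) → F)) :=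
    { toFun := fun g => LinearMap.prodMap (σ g) LinearMap.id
      map_one' := by ext <;> simp
      map_mul' := fun a b => by ext <;> simp }
  have hσ' : Function.Injective σ' := by
    intro a b hab
    apply hσ
    ext y
    have := congrArg (fun f : Module.End F (Y × (Fin (n - Module.finrank F Y) → F)) => (f (y, 0)).1)
      hab
    simpa [σ'] using this
  have hfr : Module.finrank F (Y × (Fin (n - Module.finrank F Y) → F))
      = Module.finrank F (Fin n → F) := by
    rw [Module.finrank_prod, Module.finrank_fin_fun, Module.finrank_fin_fun]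
    omega
  let e : (Y × (Fin (n - Module.finrank F Y) → F)) ≃ₗ[F] (Fin n → F) :=
    LinearEquiv.ofFinrankEq _ _ hfr
  let τ₀ : W →* Matrix (Fin n) (Fin n) F :=
    (MonoidHomClass.toMonoidHom (LinearMap.toMatrixAlgEquiv' : Module.End F (Fin n → F) ≃ₐ[F] _)).comp
      ((MonoidHomClass.toMonoidHom e.conjRingEquiv).comp σ')
  have hτ₀ : Function.Injective τ₀ := by
    intro a b hab
    apply hσ'
    apply e.conjRingEquiv.injective
    exact (LinearMap.toMatrixAlgEquiv' : Module.End F (Fin n → F) ≃ₐ[F] _).injective hab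
  refine ⟨τ₀.toHomUnits, ?_⟩
  intro a b hab
  apply hτ₀
  have := congrArg Units.val hab
  simpa using this

open RegularWreathProduct in
theorem lowerLin {F : Type*} [Field F] [Fintype F] (p : ℕ) [Fact p.Prime]
    (hpq : ¬ p ∣ Fintype.card F) (k : ℕ) :
    ∃ (W : Type) (_ : Group W) (_ : Finite W) (Y : Type) (_ : AddCommGroup Y) (_ : Module F Y)
      (_ : FiniteDimensional F Y) (σ : W →* Module.End F Y),
      Function.Injective σ ∧ IsPGroup p W ∧
      Module.finrank F Y = orderOf ((Fintype.card F : ℕ) : ZMod p) * p ^ k ∧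
      derivedSeries W k ≠ ⊥ := by
  have hp : p.Prime := Fact.out
  have he0 := Cfsg.Agent.Lib.Helper73LinP.e_pos p _ hpq
  induction k with
  | zero =>
    obtain ⟨ℓ, hℓ⟩ := CharP.exists F
    haveI := hℓ
    haveI : Fact ℓ.Prime := ⟨CharP.char_is_prime F ℓ⟩
    haveI : NeZero (orderOf ((Fintype.card F : ℕ) : ZMod p)) := ⟨he0.ne'⟩
    let E := FiniteField.Extension F ℓ (orderOf ((Fintype.card F : ℕ) : ZMod p))
    haveI : Fintype E := Fintype.ofFinite E
    have hcardE : Nat.card E = Fintype.card F ^ orderOf ((Fintype.card F : ℕ) : ZMod p) := by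
      rw [FiniteField.natCard_extension, Nat.card_eq_fintype_card]
    have hdvd : p ∣ Nat.card Eˣ := by
      rw [Nat.card_units, hcardE, ← ZMod.natCast_eq_zero_iff,
        Nat.cast_sub (Nat.one_le_pow _ _ Fintype.card_pos)]
      push_cast
      rw [pow_orderOf_eq_one, sub_self]
    obtain ⟨ζ, hζ⟩ := exists_prime_orderOf_dvd_card' p hdvd
    refine ⟨Subgroup.zpowers ζ, inferInstance, inferInstance, E, inferInstance, inferInstance,
      inferInstance,
      (MonoidHomClass.toMonoidHom (Algebra.lmul F E)).comp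
        ((Units.coeHom E).comp (Subgroup.zpowers ζ).subtype), ?_, ?_, ?_, ?_⟩
    · intro a b hab
      apply Subtype.ext
      apply Units.ext
      have := congrArg (fun f : Module.End F E => f 1) hab
      simpa using this
    · exact IsPGroup.of_card (n := 1) (by rw [Nat.card_zpowers, hζ, pow_one])
    · rw [pow_zero, mul_one]
      exact FiniteField.finrank_extension F ℓ _
    · rw [derivedSeries_zero]
      haveI : Nontrivial (Subgroup.zpowers ζ) := by
        rw [← Finite.one_lt_card_iff_nontrivial, Nat.card_zpowers, hζ]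
        exact hp.one_lt
      exact top_ne_bot
  | succ k ih =>
    obtain ⟨W, _, _, Y, _, _, _, σ, hσ, hW, hY, hd⟩ := ih
    haveI : Nontrivial Y := by
      apply Module.nontrivial_of_finrank_pos (R := F)
      rw [hY]
      exact Nat.mul_pos he0 (pow_pos hp.pos k)
    refine ⟨W ≀ᵣ Multiplicative (ZMod p), inferInstance, inferInstance,
      Multiplicative (ZMod p) → Y, inferInstance, inferInstance, inferInstance,
      wrRep σ, wrRep_injective σ hσ, ?_, ?_, ?_⟩
    · obtain ⟨b, hb⟩ := IsPGroup.iff_card.mp hW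
      refine IsPGroup.of_card (n := b * p + 1) ?_
      rw [RegularWreathProduct.card, hb]
      simp [pow_succ, pow_mul]
    · rw [Module.finrank_pi_fintype]
      simp [hY, pow_succ]
      ring
    · haveI : Nontrivial (Multiplicative (ZMod p)) := inferInstanceAs (Nontrivial (ZMod p))
      obtain ⟨q, hq⟩ := exists_ne (1 : Multiplicative (ZMod p))
      exact Cfsg.Agent.S4014.wreath_ne_bot hq k hd


/-- Let p be an odd prime, F a finite field with q elements where p does not divide q, and e the multiplicative order of q modulo p. Let n ≥ e and write w = ⌊n/e⌋ and k = ⌊log_p w⌋. Then a Sylow p-subgroup of GL(n, F) has derived length exactly k + 1: its (k+1)-st derived subgroup is trivial and its k-th is not. -/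
theorem result (p : ℕ) [Fact p.Prime] (hp : p ≠ 2) (F : Type*) [Field F] [Fintype F] (q : ℕ) (hq : Fintype.card F = q) (hpq : ¬ p ∣ q) (n : ℕ) (hn : orderOf (q : ZMod p) ≤ n) (P : Sylow p (Matrix.GeneralLinearGroup (Fin n) F)) : derivedSeries ↥(P : Subgroup (Matrix.GeneralLinearGroup (Fin n) F)) (Nat.log p (n / orderOf (q : ZMod p)) + 1) = ⊥ ∧ derivedSeries ↥(P : Subgroup (Matrix.GeneralLinearGroup (Fin n) F)) (Nat.log p (n / orderOf (q : ZMod p))) ≠ ⊥ := by
  subst hq
  have hpp : p.Prime := Fact.out
  refine ⟨Cfsg.Agent.Lib.Helper73LinP.mainGL p hpq n _ P.2, ?_⟩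
  have he0 := Cfsg.Agent.Lib.Helper73LinP.e_pos p _ hpq
  obtain ⟨W, _, _, Y, _, _, _, σ, hσ, hW, hY, hd⟩ :=
    lowerLin (F := F) p hpq (Nat.log p (n / orderOf ((Fintype.card F : ℕ) : ZMod p)))
  have hle : Module.finrank F Y ≤ n := by
    rw [hY]
    have h1 : n / orderOf ((Fintype.card F : ℕ) : ZMod p) ≠ 0 :=
      (Nat.div_pos hn he0).ne'
    have h2 := Nat.pow_log_le_self p h1
    calc _ ≤ orderOf ((Fintype.card F : ℕ) : ZMod p) * (n / orderOf ((Fintype.card F : ℕ) : ZMod p)) :=
          Nat.mul_le_mul_left _ h2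
      _ ≤ n := Nat.mul_div_le _ _
  obtain ⟨τ, hτ⟩ := embed_GL σ hσ n hle
  have hQ : IsPGroup p τ.range := hW.of_surjective τ.rangeRestrict τ.rangeRestrict_surjective
  obtain ⟨P', hP'⟩ := hQ.exists_le_sylow
  let τ' : W →* ↥(P' : Subgroup (Matrix.GeneralLinearGroup (Fin n) F)) :=
    τ.codRestrict _ (fun w => hP' ⟨w, rfl⟩)
  have hτ' : Function.Injective τ' := by
    intro a b hab
    apply hτ
    exact congrArg Subtype.val hab
  have h1 := Cfsg.Agent.S4014.ne_bot_of_injective τ' hτ' _ hd
  exact Cfsg.Agent.S4014.ne_bot_of_injective (Sylow.equiv P' P).toMonoidHom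
    (Sylow.equiv P' P).injective _ h1

end Cfsg.Agent.S4015
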