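import Cfsg.Statements.S4022
import Cfsg.Agent.Lib.H31EqDefs
import Cfsg.Agent.Lib.H31EqCase1
import Cfsg.Agent.Lib.H31EqCase2
import Cfsg.Agent.Lib.H31EqPdQuot
import Cfsg.Agent.Lib.H31EqPcQuot
import Cfsg.Agent.Lib.H31EqSylBig
import Cfsg.Agent.Lib.H31EqCardPrime
import Cfsg.Agent.Lib.H19WinSect

set_option autoImplicit false
open Cfsg

namespace Cfsg.Agent.S4022

open Cfsg.Agent.Lib.H31EqDefs Cfsg.Agent.Lib.H31EqCase1 Cfsg.Agent.Lib.H31EqCase2
  Cfsg.Agent.Lib.H31EqPdQuot Cfsg.Agent.Lib.H31EqPcQuot Cfsg.Agent.Lib.H31EqSylBig
  Cfsg.Agent.Lib.H31EqCardPrime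

universe u

theorem main (r : ℕ) : ∀ (n : ℕ) (G : Type u) [Group G] [Finite G] [Group.IsSolvable G],
    Nat.card G = n → PD G → PC r G → AllCj G := by
  intro n
  induction n using Nat.strong_induction_on with
  | _ n ih =>
    intro G _ _ hsol hn hD hC
    rcases subsingleton_or_nontrivial G with hsub | hnt
    · intro H K _
      rw [Subsingleton.elim K H]
      exact Cj.refl H
    · obtain ⟨s, N, hs, hNn, hN1, -, hexp⟩ :=
        Cfsg.Agent.Lib.H19WinSect.exists_normal_elementary (H := G) hsol
      haveI := hNn
      haveI : Fact s.Prime := ⟨hs⟩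
      have hNp : IsPGroup s N := by
        intro x
        refine ⟨1, ?_⟩
        rw [pow_one]
        exact Subtype.ext (by simpa using hexp x x.2)
      obtain ⟨m, hm⟩ := hNp.exists_card_eq
      have hN2 : 1 < Nat.card N := by
        haveI : Nontrivial N := (Subgroup.nontrivial_iff_ne_bot N).2 hN1
        exact Finite.one_lt_card
      by_cases hm1 : m = 1
      · rw [hm1, pow_one] at hm
        refine case1 hD N s hs hm ?_
        have hlt : Nat.card (G ⧸ N) < n := by
          rw [← hn, Subgroup.card_eq_card_quotient_mul_card_subgroup N]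
          have : 0 < Nat.card (G ⧸ N) := Nat.card_pos
          nlinarith
        exact ih _ hlt (G ⧸ N) rfl (pd_quot N hD) (pc_quot N r hC)
      · have hm2 : 2 ≤ m := by
          rcases Nat.lt_or_ge m 2 with h | h
          · interval_cases m
            · rw [pow_zero] at hm
              omega
            · exact absurd rfl hm1
          · exact h
        have hsr : s = r := by
          by_contra hne
          have h1 := card_eq_prime r hC s hs hne N hN1 hexp
          rw [hm] at h1
          have h2 : s ^ m = s ^ 1 := by rw [h1, pow_one]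
          exact hm1 (Nat.pow_right_injective hs.two_le h2)
        subst hsr
        have hsyl := sylow_of_big hD s hs N hexp m hm2 hm
        refine case2 s hs hD hC N hN1 hNp hsyl ?_
        intro L hL hDL hCL
        exact ih _ (hn ▸ hL) L rfl hDL hCL

/-- Let G be a finite solvable group in which, for every prime p, any two p-subgroups of the same order are conjugate, and suppose the Sylow p-subgroups of G are cyclic for all primes p with at most one exception. Then any two subgroups of G of the same order are conjugate. -/
theorem result {G : Type*} [Group G] [Finite G]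
    [Group.IsSolvable G] (hD : ∀ p : ℕ, p.Prime → ∀ H K : Subgroup G, IsPGroup p H → IsPGroup p K → Nat.card H = Nat.card K →
      ∃ g : G, K = H.map (MulAut.conj g).toMonoidHom)
    (r : ℕ) (hcyc : ∀ p : ℕ, p.Prime → p ≠ r → ∀ P : Sylow p G, IsCyclic P) :
    ∀ H K : Subgroup G, Nat.card H = Nat.card K → ∃ g : G, K = H.map (MulAut.conj g).toMonoidHom :=
  main r _ G rfl hD hcyc

end Cfsg.Agent.S4022
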