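import Cfsg.Statements.S4023
import Mathlib
import Cfsg.Agent.S0016
import Cfsg.Agent.Lib.Helper70Basic
import Cfsg.Agent.Lib.Helper70Frobenius

set_option autoImplicit false
open Cfsg

namespace Cfsg.Agent.S4023

open Cfsg.Agent.Lib.Helper70Basic

def SameIso (P : Type*) [Group P] : Prop :=
  ∀ A B : Subgroup P, Nat.card A = Nat.card B → Nonempty (A ≃* B)

theorem sameIso_of_equiv {P Q : Type*} [Group P] [Group Q] (e : P ≃* Q) (h : SameIso P) :
    SameIso Q := by
  intro A B hAB
  have eA := e.symm.subgroupMap A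
  have eB := e.symm.subgroupMap B
  obtain ⟨f⟩ := h _ _ ((Nat.card_congr eA.toEquiv).symm.trans (hAB.trans (Nat.card_congr eB.toEquiv)))
  exact ⟨(eA.trans f).trans eB.symm⟩

theorem card_sup_zpowers {P : Type*} [Group P] [Finite P] {p : ℕ} (hp : p.Prime) (N : Subgroup P)
    (w : P) (hw : orderOf w = p) (hwN : w ∉ N) (hnorm : ∀ n ∈ N, w * n * w⁻¹ ∈ N) :
    Nat.card (N ⊔ Subgroup.zpowers w : Subgroup P) = Nat.card N * p := by
  have hLE : Subgroup.zpowers w ≤ Subgroup.normalizer (N : Set P) := by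
    rw [Subgroup.zpowers_le]
    exact mem_normalizer_of_conj_le w N hnorm
  have := Subgroup.normal_subgroupOf_of_le_normalizer hLE
  have := Subgroup.normal_subgroupOf_sup_of_le_normalizer hLE
  have h1 : N.relIndex (Subgroup.zpowers w) = N.relIndex (Subgroup.zpowers w ⊔ N) :=
    Nat.card_congr
      (QuotientGroup.quotientInfEquivProdNormalizerQuotient (Subgroup.zpowers w) N hLE).toEquiv
  have h2 : N.relIndex (Subgroup.zpowers w) = p := by
    have h3 : N.relIndex (Subgroup.zpowers w) ∣ p := by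
      have := Subgroup.relIndex_dvd_card N (Subgroup.zpowers w)
      rwa [Nat.card_zpowers, hw] at this
    rcases (Nat.dvd_prime hp).mp h3 with h4 | h4
    · exfalso
      rw [Subgroup.relIndex_eq_one] at h4
      exact hwN (h4 (Subgroup.mem_zpowers w))
    · exact h4
  rw [sup_comm, ← card_mul_relIndex' (le_sup_right : N ≤ Subgroup.zpowers w ⊔ N), ← h1, h2]

theorem comm_sup_zpowers {P : Type*} [Group P] (B : Subgroup P)
    (hB : ∀ a ∈ B, ∀ b ∈ B, a * b = b * a) (x : P)
    (hx : ∀ b ∈ B, b * x = x * b) :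
    ∀ a ∈ B ⊔ Subgroup.zpowers x, ∀ b ∈ B ⊔ Subgroup.zpowers x, a * b = b * a := by
  have h1 : B ⊔ Subgroup.zpowers x = Subgroup.closure ((B : Set P) ∪ {x}) := by
    rw [Subgroup.closure_union, Subgroup.closure_eq, Subgroup.zpowers_eq_closure]
  have h2 : IsMulCommutative (Subgroup.closure ((B : Set P) ∪ {x})) := by
    apply Subgroup.isMulCommutative_closure
    rintro s (hs | hs) t (ht | ht)
    · exact hB s hs t ht
    · rw [Set.mem_singleton_iff.mp ht]; exact hx s hs
    · rw [Set.mem_singleton_iff.mp hs]; exact (hx t ht).symm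
    · rw [Set.mem_singleton_iff.mp hs, Set.mem_singleton_iff.mp ht]
  rw [h1]
  intro a ha b hb
  exact congrArg Subtype.val (h2.is_comm.comm ⟨a, ha⟩ ⟨b, hb⟩)

/-- parity homomorphism on a generalized quaternion group -/
noncomputable def parity (m : ℕ) (hm : Even m) : QuaternionGroup m →* Multiplicative (ZMod 2) :=
  MonoidHom.mk' (fun g => match g with
    | .a i => Multiplicative.ofAdd (ZMod.castHom (dvd_mul_right 2 m) (ZMod 2) i)
    | .xa i => Multiplicative.ofAdd (ZMod.castHom (dvd_mul_right 2 m) (ZMod 2) i)) (by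
    have hm0 : ((m : ℕ) : ZMod 2) = 0 := by
      rw [ZMod.natCast_eq_zero_iff]; exact hm.two_dvd
    rintro (i | i) (j | j)
    · simp only [QuaternionGroup.a_mul_a, map_add, ofAdd_add]
    · simp only [QuaternionGroup.a_mul_xa, map_sub, CharTwo.sub_eq_add, ofAdd_add]
      rw [mul_comm]
    · simp only [QuaternionGroup.xa_mul_a, map_add, ofAdd_add]
    · simp only [QuaternionGroup.xa_mul_xa, map_sub, map_add, map_natCast, hm0, zero_add,
        CharTwo.sub_eq_add, ofAdd_add]
      rw [mul_comm])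

theorem parity_a (m : ℕ) (hm : Even m) (i : ZMod (2 * m)) : parity m hm (QuaternionGroup.a i) =
    Multiplicative.ofAdd (ZMod.castHom (dvd_mul_right 2 m) (ZMod 2) i) := rfl

theorem parity_xa (m : ℕ) (hm : Even m) (i : ZMod (2 * m)) : parity m hm (QuaternionGroup.xa i) =
    Multiplicative.ofAdd (ZMod.castHom (dvd_mul_right 2 m) (ZMod 2) i) := rfl

theorem not_sameIso_quaternion (n : ℕ) (hn : 2 ≤ n) : ¬ SameIso (QuaternionGroup (2 ^ n)) := by
  intro h
  have hm4 : 4 ≤ 2 ^ n := by
    calc 4 = 2 ^ 2 := by norm_num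
      _ ≤ 2 ^ n := Nat.pow_le_pow_right (by norm_num) hn
  obtain ⟨m, hm⟩ : ∃ m, m = 2 ^ n := ⟨_, rfl⟩
  rw [← hm] at h hm4
  have hme : Even m := by
    rw [hm]; exact (Nat.even_pow.mpr ⟨even_two, by omega⟩)
  have : NeZero m := ⟨by omega⟩
  have hcardQ : Nat.card (QuaternionGroup m) = 4 * m := by
    rw [Nat.card_eq_fintype_card, QuaternionGroup.card]
  have hsurj : Function.Surjective (parity m hme) := by
    intro y
    obtain ⟨t, rfl⟩ := Multiplicative.ofAdd.surjective y
    have ht : t = 0 ∨ t = 1 := by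
      fin_cases t
      · left; rfl
      · right; rfl
    rcases ht with rfl | rfl
    · exact ⟨QuaternionGroup.a 0, by rw [parity_a, map_zero]⟩
    · exact ⟨QuaternionGroup.a 1, by rw [parity_a, map_one]⟩
  have hidx : (parity m hme).ker.index = 2 := by
    rw [Subgroup.index_ker, MonoidHom.range_eq_top.mpr hsurj, Subgroup.card_top]
    simp
  have hcardK : Nat.card (parity m hme).ker = 2 * m := by
    have := (parity m hme).ker.card_mul_index
    rw [hidx, hcardQ] at this
    omega
  have hcardA : Nat.card (Subgroup.zpowers (QuaternionGroup.a 1 : QuaternionGroup m)) = 2 * m := by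
    rw [Nat.card_zpowers, QuaternionGroup.orderOf_a_one]
  obtain ⟨f⟩ := h _ _ (hcardK.trans hcardA.symm)
  have h1 : (QuaternionGroup.a 2 : QuaternionGroup m) ∈ (parity m hme).ker := by
    rw [MonoidHom.mem_ker, parity_a, map_ofNat]
    rfl
  have h2 : (QuaternionGroup.xa 0 : QuaternionGroup m) ∈ (parity m hme).ker := by
    rw [MonoidHom.mem_ker, parity_xa, map_zero]
    rfl
  have hc : (⟨_, h1⟩ : (parity m hme).ker) * ⟨_, h2⟩ = ⟨_, h2⟩ * ⟨_, h1⟩ := by
    apply f.injective
    rw [map_mul, map_mul]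
    exact mul_comm' _ _
  have hc' := congrArg Subtype.val hc
  simp only [Subgroup.coe_mul, QuaternionGroup.a_mul_xa, QuaternionGroup.xa_mul_a,
    QuaternionGroup.xa.injEq] at hc'
  have h4 : ((4 : ℕ) : ZMod (2 * m)) = 0 := by
    have : (0 : ZMod (2 * m)) - 2 = 0 + 2 := hc'
    push_cast
    linear_combination -this
  rw [ZMod.natCast_eq_zero_iff] at h4
  have := Nat.le_of_dvd (by norm_num) h4
  omega

theorem exists_central_order_p {P : Type*} [Group P] [Finite P] {p : ℕ} [Fact p.Prime]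
    (hP : IsPGroup p P) [Nontrivial P] : ∃ z : P, z ∈ Subgroup.center P ∧ orderOf z = p := by
  have := hP.center_nontrivial
  have hc : IsPGroup p (Subgroup.center P) := hP.to_subgroup _
  obtain ⟨n, hn⟩ := IsPGroup.iff_card.mp hc
  have hn0 : n ≠ 0 := by
    rintro rfl
    rw [pow_zero] at hn
    exact (Finite.one_lt_card (α := Subgroup.center P)).ne' hn
  have hd : p ∣ Nat.card (Subgroup.center P) := by rw [hn]; exact dvd_pow_self p hn0
  obtain ⟨z, hz⟩ := exists_prime_orderOf_dvd_card' p hd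
  exact ⟨z, z.2, by rw [← hz, Subgroup.orderOf_coe]⟩

theorem exists_central_mod {P : Type*} [Group P] [Finite P] {p : ℕ} [Fact p.Prime]
    (hP : IsPGroup p P) (N : Subgroup P) [N.Normal] (hN : N ≠ ⊤) :
    ∃ y : P, y ∉ N ∧ ∀ g : P, g * y * g⁻¹ * y⁻¹ ∈ N := by
  have hnt : Nontrivial (P ⧸ N) := by
    rw [← Finite.one_lt_card_iff_nontrivial]
    have h1 : N.index ≠ 1 := fun h => hN (Subgroup.index_eq_one.mp h)
    have h2 : N.index ≠ 0 := Subgroup.index_ne_zero_of_finite
    have h3 : Nat.card (P ⧸ N) = N.index := rfl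
    omega
  obtain ⟨y, hyc, hyo⟩ := exists_central_order_p (hP.to_quotient N)
  obtain ⟨y, rfl⟩ := QuotientGroup.mk_surjective y
  refine ⟨y, ?_, ?_⟩
  · intro hy
    rw [(QuotientGroup.eq_one_iff y).mpr hy, orderOf_one] at hyo
    exact (Fact.out : p.Prime).one_lt.ne hyo
  · intro g
    rw [← QuotientGroup.eq_one_iff]
    have := Subgroup.mem_center_iff.mp hyc (g : P ⧸ N)
    rw [QuotientGroup.mk_mul, QuotientGroup.mk_mul, QuotientGroup.mk_mul, this,
      QuotientGroup.mk_inv, QuotientGroup.mk_inv]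
    group

theorem normal_of_central {P : Type*} [Group P] {z : P} (hz : z ∈ Subgroup.center P) :
    (Subgroup.zpowers z).Normal := by
  refine ⟨fun n hn g => ?_⟩
  have hn' : n ∈ Subgroup.center P := (Subgroup.zpowers_le.mpr hz) hn
  rw [Subgroup.mem_center_iff.mp hn' g]
  simpa using hn

theorem pow_eq_one_of_mem_zpowers {P : Type*} [Group P] {y a : P} {p : ℕ} (hy : y ^ p = 1)
    (ha : a ∈ Subgroup.zpowers y) : a ^ p = 1 := by
  obtain ⟨k, rfl⟩ := ha
  show (y ^ k) ^ p = 1
  rw [← zpow_natCast, ← zpow_mul, mul_comm, zpow_mul, zpow_natCast, hy, one_zpow]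

theorem pgroup_main {P : Type*} [Group P] [Finite P] {p : ℕ} [hp : Fact p.Prime]
    (hP : IsPGroup p P) (h : SameIso P) :
    IsCyclic P ∨ (IsMulCommutative P ∧ ∀ a : P, a ^ p = 1) ∨
      (p = 2 ∧ Nonempty (P ≃* QuaternionGroup 2)) ∨
      (p ≠ 2 ∧ ¬ IsMulCommutative P ∧ Nat.card P = p ^ 3 ∧ Monoid.exponent P = p) := by
  have hpp := hp.out
  by_cases huniq : ∀ H K : Subgroup P, Nat.card H = p → Nat.card K = p → H = K
  · rcases Cfsg.Agent.S0016.result p hP huniq with hc | ⟨h2, n, ⟨e⟩⟩
    · exact Or.inl hc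
    · rcases Nat.lt_or_ge n 2 with hn | hn
      · interval_cases n
        · left
          have : IsCyclic (QuaternionGroup (2 ^ 0)) := QuaternionGroup.quaternionGroup_one_isCyclic
          exact isCyclic_of_surjective e.symm e.symm.surjective
        · right; right; left
          exact ⟨h2, ⟨e⟩⟩
      · exact absurd (sameIso_of_equiv e h) (not_sameIso_quaternion n hn)
  push Not at huniq
  obtain ⟨H, K, hH, hK, hHK⟩ := huniq
  have hnt : Nontrivial P := by
    by_contra hcon
    rw [not_nontrivial_iff_subsingleton] at hcon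
    exact hHK (Subsingleton.elim _ _)
  obtain ⟨z, hzc, hzo⟩ := exists_central_order_p hP
  have hzn := normal_of_central hzc
  have hzle : Subgroup.zpowers z ≤ Subgroup.center P := Subgroup.zpowers_le.mpr hzc
  -- an element of order p outside ⟨z⟩
  have hex : ∃ y : P, orderOf y = p ∧ y ∉ Subgroup.zpowers z := by
    have key : ∀ L : Subgroup P, Nat.card L = p → L ≠ Subgroup.zpowers z →
        ∃ y : P, orderOf y = p ∧ y ∉ Subgroup.zpowers z := by
      intro L hL hne
      by_contra hcon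
      push Not at hcon
      apply hne
      apply Subgroup.eq_of_le_of_card_ge
      · intro y hy
        by_cases hy1 : y = 1
        · rw [hy1]; exact Subgroup.one_mem _
        · apply hcon
          have h1 : orderOf (⟨y, hy⟩ : L) ∣ p := hL ▸ orderOf_dvd_natCard _
          rw [← Subgroup.orderOf_coe] at h1
          rcases (Nat.dvd_prime hpp).mp h1 with h2 | h2
          · exact absurd (orderOf_eq_one_iff.mp h2) hy1
          · exact h2
      · rw [hL, Nat.card_zpowers, hzo]
    by_cases hHz : H = Subgroup.zpowers z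
    · exact key K hK (fun hKz => hHK (hHz.trans hKz.symm))
    · exact key H hH hHz
  obtain ⟨y, hyo, hyz⟩ := hex
  have hcent : ∀ n ∈ Subgroup.zpowers z, ∀ g : P, g * n * g⁻¹ = n := by
    intro n hn g
    rw [Subgroup.mem_center_iff.mp (hzle hn) g]; simp
  have hEcard : Nat.card (Subgroup.zpowers z ⊔ Subgroup.zpowers y : Subgroup P) = p ^ 2 := by
    rw [card_sup_zpowers hpp _ y hyo hyz (fun n hn => by rw [hcent n hn]; exact hn),
      Nat.card_zpowers, hzo, sq]
  have hEexp : ∀ e ∈ Subgroup.zpowers z ⊔ Subgroup.zpowers y, e ^ p = 1 := by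
    intro e he
    rw [sup_comm, Subgroup.mem_sup_of_normal_right] at he
    obtain ⟨a, ha, b, hb, rfl⟩ := he
    have hab : Commute a b := (Subgroup.mem_center_iff.mp (hzle hb) a)
    rw [hab.mul_pow, pow_eq_one_of_mem_zpowers (hyo ▸ pow_orderOf_eq_one y) ha,
      pow_eq_one_of_mem_zpowers (hzo ▸ pow_orderOf_eq_one z) hb, one_mul]
  -- exponent p
  have hexp : ∀ g : P, g ^ p = 1 := by
    intro g
    by_contra hg
    obtain ⟨k, hk⟩ := (IsPGroup.iff_orderOf.mp hP) g
    have hk2 : 2 ≤ k := by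
      by_contra hlt
      apply hg
      rw [← orderOf_dvd_iff_pow_eq_one, hk]
      have : k ≤ 1 := by omega
      calc p ^ k ∣ p ^ 1 := pow_dvd_pow p this
        _ = p := pow_one p
    have ho : orderOf (g ^ (p ^ (k - 2))) = p ^ 2 := by
      rw [orderOf_pow_of_dvd (pow_ne_zero _ hpp.ne_zero) (hk ▸ pow_dvd_pow p (by omega)), hk,
        Nat.pow_div (by omega) hpp.pos]
      congr 1; omega
    obtain ⟨f⟩ := h (Subgroup.zpowers (g ^ (p ^ (k - 2)))) _
      ((Nat.card_zpowers _).trans (ho.trans hEcard.symm))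
    have h1 : (f ⟨_, Subgroup.mem_zpowers _⟩) ^ p = 1 := Subtype.ext (hEexp _ (f _).2)
    rw [← map_pow, map_eq_one_iff f f.injective] at h1
    have h2 : (g ^ (p ^ (k - 2))) ^ p = 1 := congrArg Subtype.val h1
    rw [← orderOf_dvd_iff_pow_eq_one, ho] at h2
    have := Nat.le_of_dvd hpp.pos h2
    nlinarith [hpp.two_le]
  have hord : ∀ g : P, g ≠ 1 → orderOf g = p := fun g hg => orderOf_eq_prime (hexp g) hg
  by_cases hcomm : IsMulCommutative P
  · exact Or.inr (Or.inl ⟨hcomm, hexp⟩)
  right; right; right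
  have hp2 : p ≠ 2 := by
    rintro rfl
    apply hcomm
    refine ⟨⟨fun a b => ?_⟩⟩
    have h1 := hexp (a * b)
    have h2 := hexp a
    have h3 := hexp b
    rw [sq] at h1 h2 h3
    calc a * b = (a * b)⁻¹ := eq_inv_of_mul_eq_one_left h1
      _ = b⁻¹ * a⁻¹ := mul_inv_rev a b
      _ = b * a := by rw [← eq_inv_of_mul_eq_one_left h2, ← eq_inv_of_mul_eq_one_left h3]
  -- nonabelian subgroup of order p^3
  have hcne : Subgroup.center P ≠ ⊤ := by
    intro htop
    apply hcomm
    refine ⟨⟨fun a b => ?_⟩⟩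
    have : b ∈ Subgroup.center P := by rw [htop]; trivial
    exact Subgroup.mem_center_iff.mp this a
  obtain ⟨y1, hy1c, hy1⟩ := exists_central_mod hP (Subgroup.center P) hcne
  obtain ⟨x1, hx1⟩ : ∃ x1 : P, x1 * y1 ≠ y1 * x1 := by
    by_contra hcon
    push Not at hcon
    exact hy1c (Subgroup.mem_center_iff.mpr hcon)
  obtain ⟨z1, hz1def⟩ : ∃ z1, z1 = x1 * y1 * x1⁻¹ * y1⁻¹ := ⟨_, rfl⟩
  have hz1c : z1 ∈ Subgroup.center P := hz1def ▸ hy1 x1
  have hz1ne : z1 ≠ 1 := by
    intro h1
    apply hx1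
    rw [hz1def, mul_inv_eq_one, mul_inv_eq_iff_eq_mul] at h1
    exact h1
  have hz1le : Subgroup.zpowers z1 ≤ Subgroup.center P := Subgroup.zpowers_le.mpr hz1c
  have hcent1 : ∀ n ∈ Subgroup.zpowers z1, ∀ g : P, g * n * g⁻¹ = n := by
    intro n hn g
    rw [Subgroup.mem_center_iff.mp (hz1le hn) g]; simp
  have hy1ne : y1 ≠ 1 := fun h1 => hy1c (h1 ▸ Subgroup.one_mem _)
  have hx1ne : x1 ≠ 1 := fun h1 => hx1 (by rw [h1]; simp)
  obtain ⟨N2, hN2⟩ : ∃ N2, N2 = Subgroup.zpowers z1 ⊔ Subgroup.zpowers y1 := ⟨_, rfl⟩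
  have hN2card : Nat.card N2 = p * p := by
    rw [hN2, card_sup_zpowers hpp _ y1 (hord y1 hy1ne) (fun hh => hy1c (hz1le hh))
      (fun n hn => by rw [hcent1 n hn]; exact hn), Nat.card_zpowers, hord z1 hz1ne]
  have hN2comm : ∀ a ∈ N2, ∀ b ∈ N2, a * b = b * a := by
    rw [hN2]
    apply comm_sup_zpowers
    · intro a ha b _
      exact (Subgroup.mem_center_iff.mp (hz1le ha) b).symm
    · intro b hb
      exact (Subgroup.mem_center_iff.mp (hz1le hb) y1).symm
  have hy1N2 : y1 ∈ N2 := hN2 ▸ (le_sup_right : _ ≤ Subgroup.zpowers z1 ⊔ Subgroup.zpowers y1)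
    (Subgroup.mem_zpowers y1)
  have hz1N2 : z1 ∈ N2 := hN2 ▸ (le_sup_left : _ ≤ Subgroup.zpowers z1 ⊔ Subgroup.zpowers y1)
    (Subgroup.mem_zpowers z1)
  have hx1N2 : x1 ∉ N2 := fun hh => hx1 (hN2comm x1 hh y1 hy1N2)
  have hx1norm : ∀ n ∈ N2, x1 * n * x1⁻¹ ∈ N2 := by
    have hle : N2 ≤ N2.comap (MulAut.conj x1).toMonoidHom := by
      conv_lhs => rw [hN2]
      refine sup_le ?_ ?_
      · rw [Subgroup.zpowers_le, Subgroup.mem_comap]
        show x1 * z1 * x1⁻¹ ∈ N2
        rw [hcent1 z1 (Subgroup.mem_zpowers z1)]; exact hz1N2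
      · rw [Subgroup.zpowers_le, Subgroup.mem_comap]
        show x1 * y1 * x1⁻¹ ∈ N2
        have : x1 * y1 * x1⁻¹ = z1 * y1 := by rw [hz1def]; group
        rw [this]; exact N2.mul_mem hz1N2 hy1N2
    intro n hn
    exact hle hn
  have hN3card : Nat.card (N2 ⊔ Subgroup.zpowers x1 : Subgroup P) = p ^ 3 := by
    rw [card_sup_zpowers hpp _ x1 (hord x1 hx1ne) hx1N2 hx1norm, hN2card]; ring
  have hN3nc : ¬ IsMulCommutative (N2 ⊔ Subgroup.zpowers x1 : Subgroup P) := by
    intro hc
    apply hx1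
    have hx : x1 ∈ N2 ⊔ Subgroup.zpowers x1 := (le_sup_right : _ ≤ N2 ⊔ Subgroup.zpowers x1)
      (Subgroup.mem_zpowers x1)
    have hy : y1 ∈ N2 ⊔ Subgroup.zpowers x1 := (le_sup_left : _ ≤ N2 ⊔ Subgroup.zpowers x1) hy1N2
    exact congrArg Subtype.val (hc.is_comm.comm ⟨x1, hx⟩ ⟨y1, hy⟩)
  obtain ⟨n, hn⟩ := IsPGroup.iff_card.mp hP
  have hn3 : 3 ≤ n := by
    have h1 := Subgroup.card_subgroup_dvd_card (N2 ⊔ Subgroup.zpowers x1 : Subgroup P)
    rw [hN3card, hn] at h1
    exact (Nat.pow_dvd_pow_iff_le_right hpp.one_lt).mp h1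
  have hn4 : n < 4 := by
    by_contra hn4
    push Not at hn4
    -- abelian subgroup of order p^3
    have hzne : Subgroup.zpowers z ≠ ⊤ := by
      intro htop
      have h1 : Nat.card (Subgroup.zpowers z) = Nat.card P := by rw [htop, Subgroup.card_top]
      rw [Nat.card_zpowers, hzo, hn] at h1
      have : p ^ 1 = p ^ n := by rw [pow_one]; exact h1
      have := Nat.pow_right_injective hpp.two_le this
      omega
    obtain ⟨y2, hy2z, hy2⟩ := exists_central_mod hP (Subgroup.zpowers z) hzne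
    have hy2ne : y2 ≠ 1 := fun h1 => hy2z (h1 ▸ Subgroup.one_mem _)
    obtain ⟨A, hA⟩ : ∃ A, A = Subgroup.zpowers z ⊔ Subgroup.zpowers y2 := ⟨_, rfl⟩
    have hAcard : Nat.card A = p * p := by
      rw [hA, card_sup_zpowers hpp _ y2 (hord y2 hy2ne) hy2z
        (fun n hn => by rw [hcent n hn]; exact hn), Nat.card_zpowers, hzo]
    have hAcomm : ∀ a ∈ A, ∀ b ∈ A, a * b = b * a := by
      rw [hA]
      apply comm_sup_zpowers
      · intro a ha b _
        exact (Subgroup.mem_center_iff.mp (hzle ha) b).symm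
      · intro b hb
        exact (Subgroup.mem_center_iff.mp (hzle hb) y2).symm
    have hclass : Nat.card {y' : P // IsConj y2 y'} ≤ p := by
      have h1 : Nat.card {y' : P // IsConj y2 y'} ≤ Nat.card (Subgroup.zpowers z) := by
        refine Nat.card_le_card_of_injective
          (fun y' => (⟨y'.1 * y2⁻¹, by
            obtain ⟨g, hg⟩ := isConj_iff.mp y'.2
            rw [← hg]; exact hy2 g⟩ : Subgroup.zpowers z)) ?_
        intro a b hab
        have := congrArg Subtype.val hab
        exact Subtype.ext (mul_right_cancel this)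
      rwa [Nat.card_zpowers, hzo] at h1
    have hCcard : p ^ 3 ≤ Nat.card (Subgroup.centralizer ({y2} : Set P)) := by
      have h1 := Cfsg.Agent.Lib.Helper70Frobenius.card_class_mul_card_centralizer y2
      rw [hn] at h1
      have h2 : p ^ n ≤ p * Nat.card (Subgroup.centralizer ({y2} : Set P)) := by
        rw [h1]; exact Nat.mul_le_mul_right _ hclass
      have h3 : p ^ 4 ≤ p ^ n := Nat.pow_le_pow_right hpp.pos hn4
      have h4 : p * p ^ 3 ≤ p * Nat.card (Subgroup.centralizer ({y2} : Set P)) := by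
        calc p * p ^ 3 = p ^ 4 := by ring
          _ ≤ _ := h3.trans h2
      exact Nat.le_of_mul_le_mul_left h4 hpp.pos
    obtain ⟨w, hwC, hwA⟩ : ∃ w, w ∈ Subgroup.centralizer ({y2} : Set P) ∧ w ∉ A := by
      by_contra hcon
      push Not at hcon
      have h1 : Nat.card (Subgroup.centralizer ({y2} : Set P)) ≤ Nat.card A :=
        Subgroup.card_le_of_le hcon
      rw [hAcard] at h1
      have : p * p < p ^ 3 := by
        have := hpp.two_le
        calc p * p = p * p * 1 := by ring
          _ < p * p * p := by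
            apply Nat.mul_lt_mul_of_pos_left (by omega) (by positivity)
          _ = p ^ 3 := by ring
      omega
    have hwy : w * y2 = y2 * w := by
      have := Subgroup.mem_centralizer_iff.mp hwC y2 (Set.mem_singleton y2)
      exact this.symm
    have hwne : w ≠ 1 := fun h1 => hwA (h1 ▸ Subgroup.one_mem _)
    have hwcent : ∀ a ∈ A, a * w = w * a := by
      have hle : A ≤ Subgroup.centralizer ({w} : Set P) := by
        rw [hA]
        refine sup_le ?_ ?_
        · rw [Subgroup.zpowers_le, Subgroup.mem_centralizer_singleton_iff]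
          exact (Subgroup.mem_center_iff.mp hzc w).symm
        · rw [Subgroup.zpowers_le, Subgroup.mem_centralizer_singleton_iff]
          exact hwy.symm
      intro a ha
      exact (Subgroup.mem_centralizer_singleton_iff.mp (hle ha))
    have hBcard : Nat.card (A ⊔ Subgroup.zpowers w : Subgroup P) = p ^ 3 := by
      rw [card_sup_zpowers hpp _ w (hord w hwne) hwA (fun a ha => by
        rw [← hwcent a ha]; simpa using ha), hAcard]; ring
    have hBcomm := comm_sup_zpowers A hAcomm w hwcent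
    obtain ⟨f⟩ := h _ _ (hN3card.trans hBcard.symm)
    apply hN3nc
    refine ⟨⟨fun a b => ?_⟩⟩
    apply f.injective
    rw [map_mul, map_mul]
    exact Subtype.ext (hBcomm _ (f a).2 _ (f b).2)
  have hn3' : n = 3 := by omega
  refine ⟨hp2, hcomm, by rw [hn, hn3'], ?_⟩
  have h1 : Monoid.exponent P ∣ p := Monoid.exponent_dvd_of_forall_pow_eq_one hexp
  rcases (Nat.dvd_prime hpp).mp h1 with h2 | h2
  · exfalso
    rw [Monoid.exp_eq_one_iff] at h2
    exact not_subsingleton P h2
  · exact h2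

/-- Let p be a prime and G a finite group in which any two p-subgroups of the same order are conjugate, with Sylow p-subgroup P. Then P is cyclic, or elementary abelian, or p = 2 and P is a quaternion group of order 8, or p is odd and P is non-abelian of order p³ and exponent p. -/
theorem result {G : Type*} [Group G] [Finite G]
    {p : ℕ} [Fact p.Prime] (hC : ∀ H K : Subgroup G, IsPGroup p H → IsPGroup p K → Nat.card H = Nat.card K →
      ∃ g : G, K = H.map (MulAut.conj g).toMonoidHom) (P : Sylow p G) :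
    IsCyclic P ∨ Cfsg.IsElementaryAbelian p (P : Subgroup G) ∨
      (p = 2 ∧ Nonempty ((P : Subgroup G) ≃* QuaternionGroup 2)) ∨
      (p ≠ 2 ∧ ¬ IsMulCommutative P ∧ Nat.card P = p ^ 3 ∧ Monoid.exponent P = p) := by
  have hS : SameIso (P : Subgroup G) := by
    intro A B hAB
    have eA := (Subgroup.equivMapOfInjective A (P : Subgroup G).subtype
      (P : Subgroup G).subtype_injective)
    have eB := (Subgroup.equivMapOfInjective B (P : Subgroup G).subtype
      (P : Subgroup G).subtype_injective)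
    obtain ⟨g, hg⟩ := hC (A.map (P : Subgroup G).subtype) (B.map (P : Subgroup G).subtype)
      ((P.2.to_subgroup A).map _) ((P.2.to_subgroup B).map _)
      ((Nat.card_congr eA.toEquiv).symm.trans (hAB.trans (Nat.card_congr eB.toEquiv)))
    have e1 := Subgroup.equivMapOfInjective (A.map (P : Subgroup G).subtype)
      (MulAut.conj g).toMonoidHom (MulAut.conj g).injective
    exact ⟨(eA.trans e1).trans ((MulEquiv.subgroupCongr hg.symm).trans eB.symm)⟩
  rcases pgroup_main P.2 hS with h1 | ⟨h1, h2⟩ | h1 | h1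
  · exact Or.inl h1
  · exact Or.inr (Or.inl ⟨h1, fun a ha => congrArg Subtype.val (h2 ⟨a, ha⟩)⟩)
  · exact Or.inr (Or.inr (Or.inl h1))
  · exact Or.inr (Or.inr (Or.inr h1))

end Cfsg.Agent.S4023
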