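import Cfsg.Statements.S4024
import Mathlib
import Cfsg.Agent.S4023
import Cfsg.Agent.Lib.Helper38PSolv
import Cfsg.Agent.Lib.Helper12Hall

set_option autoImplicit false
open Cfsg

namespace Cfsg.Agent.S4024

open Cfsg.Agent.Lib.Helper70Basic Cfsg.Agent.Lib.Helper38PSolv Cfsg.Agent.Lib.Helper12Hall

theorem eq_one_of_mem {X : Type*} [Group X] [Finite X] {p : ℕ} [Fact p.Prime] (P : Sylow p X)
    (K : Subgroup X) (hK : (Nat.card K).Coprime p) {a : X} (haP : a ∈ P) (haK : a ∈ K) : a = 1 := by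
  obtain ⟨n, hn⟩ := IsPGroup.iff_card.mp P.2
  have hco : (Nat.card (P : Subgroup X)).Coprime (Nat.card K) := by
    rw [hn]; exact (Nat.Coprime.pow_right n hK).symm
  have := (Subgroup.disjoint_of_coprime_natCard hco).eq_bot
  have h1 : a ∈ (P : Subgroup X) ⊓ K := ⟨haP, haK⟩
  rw [this] at h1
  exact h1

theorem mem_zpowers_of_ne_one {X : Type*} [Group X] {p : ℕ} [Fact p.Prime] {z c : X}
    (hz : orderOf z = p) (hc : c ∈ Subgroup.zpowers z) (hc1 : c ≠ 1) : z ∈ Subgroup.zpowers c := by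
  have hcard : Nat.card (Subgroup.zpowers z) = p := by rw [Nat.card_zpowers, hz]
  have h1 := mem_zpowers_of_prime_card hcard (g := ⟨c, hc⟩) (g' := ⟨z, Subgroup.mem_zpowers z⟩)
    (fun h => hc1 (congrArg Subtype.val h))
  obtain ⟨k, hk⟩ := h1
  exact ⟨k, by simpa using congrArg Subtype.val hk⟩

theorem lemA {X : Type*} [Group X] [Finite X] {p : ℕ} [Fact p.Prime] (hX : IsPSolvable p X)
    (P : Sylow p X) (z : X) (hzo : orderOf z = p) (hzP : z ∈ P)
    (hzc : ∀ b ∈ P, b * z = z * b)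
    (hconj : ∀ a ∈ P, ∃ g : X, g * a * g⁻¹ ∈ Subgroup.zpowers z) :
    ∀ a ∈ P, ∀ b ∈ P, b * a = a * b := by
  classical
  have hpp : p.Prime := Fact.out
  have hz1 : z ≠ 1 := by
    rintro rfl
    rw [orderOf_one] at hzo
    exact hpp.one_lt.ne hzo
  obtain ⟨K, ⟨hKn, hKp⟩, hKmax⟩ := Set.exists_max_image
    {K : Subgroup X | K.Normal ∧ (Nat.card K).Coprime p}
    (fun K => Nat.card K) (Set.toFinite _) ⟨⊥, inferInstance, by simp⟩
  have hzK : z ∉ K := fun h => hz1 (eq_one_of_mem P K hKp hzP h)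
  have hnt : Nontrivial (X ⧸ K) := by
    refine ⟨⟨(z : X ⧸ K), 1, ?_⟩⟩
    rw [Ne, QuotientGroup.eq_one_iff]
    exact hzK
  obtain ⟨Qb, hQn, hQne, hQ⟩ := exists_normal_of_isPSolvable (isPSolvable_quotient K hX)
  have hQp : IsPGroup p Qb := by
    rcases hQ with hQ | hQ
    · exact hQ
    · exfalso
      have h1 := hKmax (Qb.comap (QuotientGroup.mk' K)) ⟨inferInstance, by
        rw [card_comap_mk']; exact Nat.Coprime.mul_left hKp hQ⟩
      simp only [card_comap_mk'] at h1
      have h2 : Nat.card Qb ≠ 1 := fun h => hQne (Subgroup.card_eq_one.mp h)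
      have h3 : 0 < Nat.card Qb := Nat.card_pos
      have h4 : 0 < Nat.card K := Nat.card_pos
      have h5 : Nat.card K * 2 ≤ Nat.card K * Nat.card Qb := Nat.mul_le_mul_left _ (by omega)
      omega
  have hQle : Qb ≤ (P : Subgroup X).map (QuotientGroup.mk' K) :=
    normal_le_sylow Qb hQp (P.mapSurjective (QuotientGroup.mk'_surjective K))
  obtain ⟨Q, hQdef⟩ : ∃ Q, Q = Qb.comap (QuotientGroup.mk' K) := ⟨_, rfl⟩
  have hQnorm : Q.Normal := by rw [hQdef]; infer_instance
  -- decomposition of elements of Q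
  have hdec : ∀ q ∈ Q, ∃ u ∈ P, u⁻¹ * q ∈ K := by
    intro q hq
    rw [hQdef, Subgroup.mem_comap] at hq
    obtain ⟨u, hu, hueq⟩ := hQle hq
    refine ⟨u, hu, ?_⟩
    rw [← QuotientGroup.eq]
    exact hueq
  have hzQ : z ∈ Q := by
    obtain ⟨qb, hqb, hqb1⟩ : ∃ qb ∈ Qb, qb ≠ 1 := by
      by_contra hcon
      push Not at hcon
      exact hQne ((Subgroup.eq_bot_iff_forall _).mpr hcon)
    obtain ⟨u, hu, hueq⟩ := hQle hqb
    have huQ : u ∈ Q := by rw [hQdef, Subgroup.mem_comap, hueq]; exact hqb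
    have hu1 : u ≠ 1 := by
      rintro rfl
      rw [map_one] at hueq
      exact hqb1 hueq.symm
    obtain ⟨g, hg⟩ := hconj u hu
    have hgQ : g * u * g⁻¹ ∈ Q := hQnorm.conj_mem u huQ g
    have hg1 : g * u * g⁻¹ ≠ 1 := by
      intro h
      apply hu1
      have : u = g⁻¹ * (g * u * g⁻¹) * g := by group
      rw [this, h]; group
    have := mem_zpowers_of_ne_one hzo hg hg1
    exact (Subgroup.zpowers_le.mpr hgQ) this
  have hPQ : (P : Subgroup X) ≤ Q := by
    intro a ha
    obtain ⟨g, hg⟩ := hconj a ha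
    have h1 : g * a * g⁻¹ ∈ Q := (Subgroup.zpowers_le.mpr hzQ) hg
    have h2 := hQnorm.conj_mem _ h1 g⁻¹
    have h3 : g⁻¹ * (g * a * g⁻¹) * g⁻¹⁻¹ = a := by group
    rwa [h3] at h2
  have hfr := Sylow.normalizer_sup_eq_top' P hPQ
  have hcen : ∀ c ∈ Subgroup.zpowers z, c ∈ P ∧ ∀ b ∈ P, b * c = c * b := by
    intro c hc
    refine ⟨(Subgroup.zpowers_le.mpr hzP) hc, ?_⟩
    intro b hb
    have hle : Subgroup.zpowers z ≤ Subgroup.centralizer ({b} : Set X) := by
      rw [Subgroup.zpowers_le, Subgroup.mem_centralizer_singleton_iff]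
      exact (hzc b hb).symm
    exact (Subgroup.mem_centralizer_singleton_iff.mp (hle hc)).symm
  intro a ha
  obtain ⟨g, hg⟩ := hconj a ha
  have hgtop : g ∈ Subgroup.normalizer ((P : Subgroup X) : Set X) ⊔ Q := by
    have h0 : g ∈ (⊤ : Subgroup X) := trivial
    rw [← hfr] at h0
    exact h0
  rw [Subgroup.mem_sup_of_normal_right] at hgtop
  obtain ⟨n, hn, q, hq, rfl⟩ := hgtop
  obtain ⟨u, hu, huk⟩ := hdec q hq
  obtain ⟨k, hk⟩ : ∃ k, k = u⁻¹ * q := ⟨_, rfl⟩
  rw [← hk] at huk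
  have hnu : n * u ∈ Subgroup.normalizer ((P : Subgroup X) : Set X) :=
    Subgroup.mul_mem _ hn (Subgroup.le_normalizer hu)
  obtain ⟨m, hm⟩ : ∃ m, m = n * u := ⟨_, rfl⟩
  rw [← hm] at hnu
  have hq' : n * q = m * k := by rw [hm, hk]; group
  rw [hq'] at hg
  obtain ⟨c, hc⟩ : ∃ c, c = m * k * a * (m * k)⁻¹ := ⟨_, rfl⟩
  rw [← hc] at hg
  obtain ⟨hcP, hcc⟩ := hcen c hg
  have hkak : k * a * k⁻¹ = m⁻¹ * c * m := by rw [hc]; group
  have hmem : ∀ x, x ∈ (P : Subgroup X) ↔ m * x * m⁻¹ ∈ (P : Subgroup X) :=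
    fun x => (Subgroup.mem_normalizer_iff.mp hnu) x
  have hc'P : m⁻¹ * c * m ∈ (P : Subgroup X) := by
    rw [hmem]
    have : m * (m⁻¹ * c * m) * m⁻¹ = c := by group
    rw [this]; exact hcP
  have hc'c : ∀ b ∈ P, b * (m⁻¹ * c * m) = (m⁻¹ * c * m) * b := by
    intro b hb
    have h1 := hcc (m * b * m⁻¹) ((hmem b).mp hb)
    have h2 : b * (m⁻¹ * c * m) = m⁻¹ * ((m * b * m⁻¹) * c) * m := by group
    rw [h2, h1]; group
  have hK1 : (m⁻¹ * c * m) * a⁻¹ ∈ K := by
    rw [← hkak]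
    have h1 : k * a * k⁻¹ * a⁻¹ = k * (a * k⁻¹ * a⁻¹) := by group
    rw [h1]
    exact K.mul_mem huk (hKn.conj_mem _ (K.inv_mem huk) a)
  have hP1 : (m⁻¹ * c * m) * a⁻¹ ∈ (P : Subgroup X) :=
    Subgroup.mul_mem _ hc'P (Subgroup.inv_mem _ ha)
  have h1 := eq_one_of_mem P K hKp hP1 hK1
  have h2 : a = m⁻¹ * c * m := (mul_inv_eq_one.mp h1).symm
  rw [h2]
  exact hc'c

theorem center_card {P : Type*} [Group P] [Finite P] {p : ℕ} [Fact p.Prime]
    (hcard : Nat.card P = p ^ 3) (hnc : ¬ IsMulCommutative P) :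
    Nat.card (Subgroup.center P) = p := by
  have hpp : p.Prime := Fact.out
  have hP : IsPGroup p P := IsPGroup.of_card hcard
  have hnt : Nontrivial P := by
    rw [← Finite.one_lt_card_iff_nontrivial, hcard]
    exact Nat.one_lt_pow (by norm_num) hpp.one_lt
  have h1 := hP.center_nontrivial
  have h2 : Nat.card (Subgroup.center P) ∣ p ^ 3 := hcard ▸ Subgroup.card_subgroup_dvd_card _
  obtain ⟨k, hk, hkc⟩ := (Nat.dvd_prime_pow hpp).mp h2
  have hidx := (Subgroup.center P).card_mul_index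
  rw [hkc, hcard] at hidx
  interval_cases k
  · exfalso
    rw [pow_zero] at hkc
    exact (Finite.one_lt_card (α := Subgroup.center P)).ne' hkc
  · rw [hkc, pow_one]
  · exfalso
    have h3 : (Subgroup.center P).index = p := by
      have : p ^ 2 * (Subgroup.center P).index = p ^ 2 * p := by rw [hidx]; ring
      exact Nat.eq_of_mul_eq_mul_left (pow_pos hpp.pos 2) this
    have h4 : Nat.card (P ⧸ Subgroup.center P) = p := h3
    have := isCyclic_of_prime_card h4
    exact hnc (MonoidHom.isMulCommutative_of_isCyclic_of_ker_le_center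
      (QuotientGroup.mk' (Subgroup.center P)) (by simp))
  · exfalso
    have h3 : Subgroup.center P = ⊤ := by
      apply Subgroup.eq_top_of_card_eq
      rw [hkc, hcard]
    apply hnc
    refine ⟨⟨fun a b => ?_⟩⟩
    have : b ∈ Subgroup.center P := by rw [h3]; trivial
    exact Subgroup.mem_center_iff.mp this a

/-- Let p be an odd prime and G a finite group in which any two p-subgroups of the same order are conjugate, with Sylow p-subgroup P. If H is a normal p-solvable subgroup of G whose order is divisible by p, then P is abelian, and either P ≤ H or P is cyclic. -/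
theorem result {G : Type*} [Group G] [Finite G]
    {p : ℕ} [Fact p.Prime] (hp : p ≠ 2) (hC : ∀ H K : Subgroup G, IsPGroup p H → IsPGroup p K → Nat.card H = Nat.card K →
      ∃ g : G, K = H.map (MulAut.conj g).toMonoidHom) (P : Sylow p G)
    (H : Subgroup G) [H.Normal] (hsolv : Cfsg.IsPSolvable p H) (hdiv : p ∣ Nat.card H) :
    IsMulCommutative P ∧ ((P : Subgroup G) ≤ H ∨ IsCyclic P) := by
  have hpp : p.Prime := Fact.out
  have hHn : H.Normal := inferInstance
  -- conjugacy of elements of order p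
  have hcj : ∀ a b : G, orderOf a = p → orderOf b = p →
      ∃ g : G, g * a * g⁻¹ ∈ Subgroup.zpowers b := by
    intro a b ha hb
    obtain ⟨g, hg⟩ := hC (Subgroup.zpowers a) (Subgroup.zpowers b)
      (isPGroup_zpowers p a 1 (by rw [ha, pow_one])) (isPGroup_zpowers p b 1 (by rw [hb, pow_one]))
      (by rw [Nat.card_zpowers, Nat.card_zpowers, ha, hb])
    refine ⟨g, ?_⟩
    rw [hg]
    exact ⟨a, Subgroup.mem_zpowers a, rfl⟩
  obtain ⟨x, hx⟩ := exists_prime_orderOf_dvd_card' p hdiv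
  have hxo : orderOf (x : G) = p := by rw [Subgroup.orderOf_coe]; exact hx
  have hle : (∀ a ∈ P, a ^ p = 1) → (P : Subgroup G) ≤ H := by
    intro hexp a ha
    by_cases ha1 : a = 1
    · rw [ha1]; exact H.one_mem
    obtain ⟨g, hg⟩ := hcj a x (orderOf_eq_prime (hexp a ha) ha1) hxo
    have h1 : g * a * g⁻¹ ∈ H := (Subgroup.zpowers_le.mpr x.2) hg
    have h2 := hHn.conj_mem _ h1 g⁻¹
    have h3 : g⁻¹ * (g * a * g⁻¹) * g⁻¹⁻¹ = a := by group
    rwa [h3] at h2
  rcases Cfsg.Agent.S4023.result hC P with h1 | ⟨h1, h2⟩ | ⟨h1, -⟩ | ⟨-, hnc, hcard, hexp⟩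
  · exact ⟨h1.isMulCommutative, Or.inr h1⟩
  · exact ⟨h1, Or.inl (hle h2)⟩
  · exact absurd h1 hp
  · exfalso
    have hexp' : ∀ a ∈ P, a ^ p = 1 := by
      intro a ha
      have := Monoid.pow_exponent_eq_one (⟨a, ha⟩ : (P : Subgroup G))
      rw [hexp] at this
      exact congrArg Subtype.val this
    have hPH := hle hexp'
    have hZ := center_card hcard hnc
    obtain ⟨z, hz⟩ := exists_prime_orderOf_dvd_card' (G := Subgroup.center (P : Subgroup G)) p
      (by rw [hZ])
    have hzo : orderOf ((z : (P : Subgroup G)) : G) = p := by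
      rw [Subgroup.orderOf_coe, Subgroup.orderOf_coe]; exact hz
    have hzP : ((z : (P : Subgroup G)) : G) ∈ P := (z : (P : Subgroup G)).2
    have hzc : ∀ b ∈ P, b * ((z : (P : Subgroup G)) : G) = ((z : (P : Subgroup G)) : G) * b := by
      intro b hb
      exact congrArg Subtype.val (Subgroup.mem_center_iff.mp z.2 ⟨b, hb⟩)
    -- central elements of P are powers of z
    have hZgen : ∀ c ∈ P, (∀ b ∈ P, b * c = c * b) → c ∈ Subgroup.zpowers ((z : (P : Subgroup G)) : G) := by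
      intro c hc hcc
      have hcz : (⟨c, hc⟩ : (P : Subgroup G)) ∈ Subgroup.center (P : Subgroup G) := by
        rw [Subgroup.mem_center_iff]
        intro b
        exact Subtype.ext (hcc b b.2)
      have hz1 : z ≠ 1 := by
        rintro rfl
        rw [orderOf_one] at hz
        exact hpp.one_lt.ne hz
      obtain ⟨k, hk⟩ := mem_zpowers_of_prime_card hZ (g := z) (g' := ⟨⟨c, hc⟩, hcz⟩) hz1
      exact ⟨k, by simpa using congrArg (fun t : Subgroup.center (P : Subgroup G) => ((t : (P : Subgroup G)) : G)) hk⟩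
    have hfr := Sylow.normalizer_sup_eq_top' P hPH
    have hconjH : ∀ a ∈ P, ∃ h ∈ H, h * a * h⁻¹ ∈ Subgroup.zpowers ((z : (P : Subgroup G)) : G) := by
      intro a ha
      by_cases ha1 : a = 1
      · exact ⟨1, H.one_mem, by rw [ha1]; simp⟩
      obtain ⟨g, hg⟩ := hcj a _ (orderOf_eq_prime (hexp' a ha) ha1) hzo
      have hgtop : g ∈ Subgroup.normalizer ((P : Subgroup G) : Set G) ⊔ H := by
        have h0 : g ∈ (⊤ : Subgroup G) := trivial
        rw [← hfr] at h0
        exact h0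
      rw [Subgroup.mem_sup_of_normal_right] at hgtop
      obtain ⟨n, hn, h, hh, rfl⟩ := hgtop
      refine ⟨h, hh, ?_⟩
      have hmem : ∀ x, x ∈ (P : Subgroup G) ↔ n * x * n⁻¹ ∈ (P : Subgroup G) :=
        fun x => (Subgroup.mem_normalizer_iff.mp hn) x
      obtain ⟨c, hc⟩ : ∃ c, c = n * h * a * (n * h)⁻¹ := ⟨_, rfl⟩
      rw [← hc] at hg
      have hcP : c ∈ P := (Subgroup.zpowers_le.mpr hzP) hg
      have hcc : ∀ b ∈ P, b * c = c * b := by
        intro b hb
        have hle : Subgroup.zpowers ((z : (P : Subgroup G)) : G) ≤ Subgroup.centralizer ({b} : Set G) := by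
          rw [Subgroup.zpowers_le, Subgroup.mem_centralizer_singleton_iff]
          exact (hzc b hb).symm
        exact (Subgroup.mem_centralizer_singleton_iff.mp (hle hg)).symm
      have heq : h * a * h⁻¹ = n⁻¹ * c * n := by rw [hc]; group
      rw [heq]
      apply hZgen
      · apply (hmem _).mpr
        have : n * (n⁻¹ * c * n) * n⁻¹ = c := by group
        rw [this]; exact hcP
      · intro b hb
        have h1 := hcc (n * b * n⁻¹) ((hmem b).mp hb)
        have h2 : b * (n⁻¹ * c * n) = n⁻¹ * ((n * b * n⁻¹) * c) * n := by group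
        rw [h2, h1]; group
    have key := lemA hsolv (P.subtype hPH) ⟨((z : (P : Subgroup G)) : G), hPH hzP⟩
      (by rw [← Subgroup.orderOf_coe]; exact hzo)
      (by exact hzP)
      (by
        intro b hb
        exact Subtype.ext (hzc b hb))
      (by
        intro a ha
        obtain ⟨h, hh, k, hk⟩ := hconjH a ha
        exact ⟨⟨h, hh⟩, k, Subtype.ext (by simpa using hk)⟩)
    apply hnc
    refine ⟨⟨fun a b => ?_⟩⟩
    have := key ⟨b, hPH b.2⟩ b.2 ⟨a, hPH a.2⟩ a.2
    have h2 : (a : G) * (b : G) = (b : G) * (a : G) := congrArg Subtype.val this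
    exact Subtype.ext h2

end Cfsg.Agent.S4024
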