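import Cfsg.Statements.S4027
import Mathlib
import Cfsg.Agent.S0199
import Cfsg.Agent.Lib.Helper40Sylow

set_option autoImplicit false
open Cfsg

namespace Cfsg.Agent.S4027

open Cfsg.Agent.Lib.Helper40Sylow

universe u

/-- no nontrivial real element of odd order -/
def RealFree (G : Type u) [Group G] : Prop :=
  ∀ x g : G, Odd (orderOf x) → g * x * g⁻¹ = x⁻¹ → x = 1

theorem mem_normalizer_zpowers {G : Type u} [Group G] [Finite G] (g x : G)
    (h : g * x * g⁻¹ ∈ Subgroup.zpowers x) :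
    g ∈ Subgroup.normalizer ((Subgroup.zpowers x : Subgroup G) : Set G) := by
  rw [mem_normalizer_iff_cj]
  apply cj_eq_of_le
  rw [cj, MonoidHom.map_zpowers, Subgroup.zpowers_le]
  simpa [MulAut.conj_apply] using h

theorem two_pow_order {G : Type u} [Group G] [Finite G] (hG : RealFree G) (s x : G)
    (hinv : s * x * s⁻¹ = x⁻¹) : ∃ k : ℕ, orderOf x = 2 ^ k := by
  obtain ⟨k, m, hm, hkm⟩ := Nat.exists_eq_two_pow_mul_odd (orderOf_pos x).ne'
  have h1 : orderOf (x ^ (2 ^ k)) = m := by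
    rw [orderOf_pow, hkm, Nat.gcd_eq_right (Dvd.intro _ rfl)]
    exact Nat.mul_div_cancel_left _ (by positivity)
  have h2 : s * x ^ (2 ^ k) * s⁻¹ = (x ^ (2 ^ k))⁻¹ := by
    rw [← conj_pow, hinv, inv_pow]
  have h3 := hG _ s (h1 ▸ hm) h2
  rw [h3, orderOf_one] at h1
  exact ⟨k, by rw [hkm, ← h1, mul_one]⟩

theorem isPGroup_zpowers {G : Type u} [Group G] (p : ℕ) (x : G) (k : ℕ) (h : orderOf x = p ^ k) :
    IsPGroup p (Subgroup.zpowers x) := by
  apply IsPGroup.of_card (n := k)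
  rw [Nat.card_zpowers, h]

theorem dihedral {G : Type u} [Group G] [Finite G] (hG : RealFree G) (s u : G)
    (hs : s * s = 1) (hu : u * u = 1) :
    IsPGroup 2 ↥(Subgroup.zpowers s ⊔ Subgroup.zpowers u) := by
  have hs' : s⁻¹ = s := inv_eq_of_mul_eq_one_left hs
  have hu' : u⁻¹ = u := inv_eq_of_mul_eq_one_left hu
  have hinv : s * (s * u) * s⁻¹ = (s * u)⁻¹ := by
    rw [mul_inv_rev, hs', hu', ← mul_assoc, hs, one_mul]
  obtain ⟨k, hk⟩ := two_pow_order hG s (s * u) hinv
  have h1 : IsPGroup 2 (Subgroup.zpowers (s * u)) := isPGroup_zpowers 2 _ k hk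
  have h2 : IsPGroup 2 (Subgroup.zpowers s) := by
    have : orderOf s ∣ 2 := orderOf_dvd_of_pow_eq_one (by rw [pow_two, hs])
    obtain ⟨j, _, hj⟩ := (Nat.dvd_prime_pow Nat.prime_two (m := 1)).mp (by simpa using this)
    exact isPGroup_zpowers 2 _ j hj
  have h3 : Subgroup.zpowers s ≤
      Subgroup.normalizer ((Subgroup.zpowers (s * u) : Subgroup G) : Set G) := by
    rw [Subgroup.zpowers_le]
    apply mem_normalizer_zpowers
    rw [hinv]
    exact inv_mem (Subgroup.mem_zpowers _)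
  have h4 := h2.to_sup_of_normal_right' h1 h3
  refine h4.to_le ?_
  rw [sup_le_iff]
  refine ⟨le_sup_left, ?_⟩
  rw [Subgroup.zpowers_le]
  have h5 : s⁻¹ * (s * u) ∈ Subgroup.zpowers s ⊔ Subgroup.zpowers (s * u) :=
    mul_mem (inv_mem (Subgroup.mem_sup_left (Subgroup.mem_zpowers _)))
      (Subgroup.mem_sup_right (Subgroup.mem_zpowers _))
  simpa using h5

theorem lift {G : Type u} [Group G] [Finite G] (N : Subgroup G) [N.Normal] (hN : IsPGroup 2 N)
    (hG : RealFree G) : RealFree (G ⧸ N) := by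
  intro X Γ hodd hinv
  by_contra hX
  have h1 : orderOf X ≠ 1 := by rwa [Ne, orderOf_eq_one_iff]
  obtain ⟨q, hq, hqX⟩ := Nat.exists_prime_and_dvd h1
  have : Fact q.Prime := ⟨hq⟩
  have hq2 : q ≠ 2 := by
    rintro rfl
    exact (Nat.not_even_iff_odd.mpr hodd) (even_iff_two_dvd.mpr hqX)
  obtain ⟨x0, rfl⟩ := QuotientGroup.mk_surjective X
  obtain ⟨g, rfl⟩ := QuotientGroup.mk_surjective Γ
  obtain ⟨a, m, hm, ham⟩ := Nat.exists_eq_pow_mul_and_not_dvd (orderOf_pos x0).ne' q hq.ne_one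
  obtain ⟨x, hx⟩ : ∃ x, x = x0 ^ m := ⟨_, rfl⟩
  have hm0 : 0 < m := Nat.pos_of_ne_zero (by rintro rfl; exact hm (dvd_zero q))
  have hox : orderOf x = q ^ a := by
    rw [hx, orderOf_pow, ham, Nat.gcd_eq_right (Dvd.intro_left _ rfl)]
    exact Nat.mul_div_cancel _ hm0
  have hxN : (x : G ⧸ N) ≠ 1 := by
    intro h
    rw [hx, QuotientGroup.mk_pow] at h
    exact hm (hqX.trans (orderOf_dvd_of_pow_eq_one h))
  have hinv' : (g : G ⧸ N) * (x : G ⧸ N) * (g : G ⧸ N)⁻¹ = (x : G ⧸ N)⁻¹ := by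
    rw [hx, QuotientGroup.mk_pow, ← conj_pow, hinv, inv_pow]
  -- intersection trivial
  have hdisj : ∀ z, z ∈ N → z ∈ Subgroup.zpowers x → z = 1 := by
    intro z hzN hzx
    obtain ⟨k, hk⟩ := (IsPGroup.iff_orderOf.mp hN) ⟨z, hzN⟩
    rw [Subgroup.orderOf_mk] at hk
    have h2 : orderOf z ∣ q ^ a := by
      rw [← hox]
      exact orderOf_dvd_of_mem_zpowers hzx
    rw [hk] at h2
    have hcop : Nat.Coprime (2 ^ k) (q ^ a) :=
      Nat.Coprime.pow _ _ ((Nat.coprime_primes Nat.prime_two hq).mpr (Ne.symm hq2))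
    have : 2 ^ k = 1 := Nat.Coprime.eq_one_of_dvd hcop h2
    rw [this] at hk
    exact orderOf_eq_one_iff.mp hk
  obtain ⟨T, hT⟩ : ∃ T, T = Subgroup.zpowers x := ⟨_, rfl⟩
  obtain ⟨Y, hY⟩ : ∃ Y, Y = N ⊔ T := ⟨_, rfl⟩
  have hxT : x ∈ T := by rw [hT]; exact Subgroup.mem_zpowers x
  have hTY : T ≤ Y := by rw [hY]; exact le_sup_right
  have hNY : N ≤ Y := by rw [hY]; exact le_sup_left
  have hTp : IsPGroup q T := by rw [hT]; exact isPGroup_zpowers q x a hox
  have hTcard : Nat.card T = q ^ a := by rw [hT, Nat.card_zpowers, hox]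
  have hsyl : IsSylowIn q T Y := by
    refine ⟨hTY, hTp, ?_⟩
    intro hd
    have e1 : Nat.card T * T.relIndex Y = Nat.card Y := by
      have := Subgroup.relIndex_mul_relIndex ⊥ T Y bot_le hTY
      simpa [Subgroup.relIndex_bot_left] using this
    have e2 : Nat.card N * N.relIndex Y = Nat.card Y := by
      have := Subgroup.relIndex_mul_relIndex ⊥ N Y bot_le hNY
      simpa [Subgroup.relIndex_bot_left] using this
    have e3 : N.relIndex Y = N.relIndex T := by rw [hY]; exact Subgroup.relIndex_sup_left T N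
    obtain ⟨c, hc⟩ := hN.exists_card_eq
    obtain ⟨b, hb, hb'⟩ := (Nat.dvd_prime_pow hq).mp (hTcard ▸ Subgroup.relIndex_dvd_card N T)
    have e4 : q ^ (a + 1) ∣ 2 ^ c * q ^ b := by
      rw [← hc, ← hb', ← e3, e2, ← e1, hTcard, pow_succ]
      exact Nat.mul_dvd_mul_left _ hd
    have hcop : Nat.Coprime (q ^ (a + 1)) (2 ^ c) :=
      Nat.Coprime.pow _ _ ((Nat.coprime_primes hq Nat.prime_two).mpr hq2)
    have e5 := hcop.dvd_of_dvd_mul_left e4
    have := (Nat.pow_dvd_pow_iff_le_right hq.one_lt).mp e5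
    omega
  have hgx : g * x * g⁻¹ * x ∈ N := by
    rw [← QuotientGroup.eq_one_iff]
    simp only [QuotientGroup.mk_mul, QuotientGroup.mk_inv]
    rw [hinv']; simp
  have hcjY : cj g Y = Y := by
    apply cj_eq_of_le
    rw [hY, cj, Subgroup.map_sup, sup_le_iff]
    constructor
    · rintro _ ⟨n, hn, rfl⟩
      apply Subgroup.mem_sup_left
      simpa [MulAut.conj_apply] using (inferInstance : N.Normal).conj_mem n hn g
    · rw [hT, MonoidHom.map_zpowers, Subgroup.zpowers_le]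
      have : g * x * g⁻¹ = (g * x * g⁻¹ * x) * x⁻¹ := by group
      simp only [MulEquiv.coe_toMonoidHom, MulAut.conj_apply]
      rw [this]
      exact mul_mem (Subgroup.mem_sup_left hgx)
        (Subgroup.mem_sup_right (inv_mem (Subgroup.mem_zpowers x)))
  have hsyl' : IsSylowIn q (cj g T) Y := by
    have := hsyl.cj g
    rwa [hcjY] at this
  obtain ⟨y, hyY, hy⟩ := hsyl'.exists_conj_eq hsyl
  have hyY' : y ∈ ((N ⊔ T : Subgroup G) : Set G) := by rw [← hY]; exact hyY
  rw [Subgroup.normal_mul, Set.mem_mul] at hyY'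
  obtain ⟨n, hn, t, ht, rfl⟩ := hyY'
  rw [cj_mul, cj_eq_self_of_mem ht] at hy
  have hh : cj (n⁻¹ * g) T = T := by rw [cj_mul, ← hy, cj_inv_cj]
  have hw : (n⁻¹ * g) * x * (n⁻¹ * g)⁻¹ ∈ T := by
    have := conj_mem_cj (g := n⁻¹ * g) hxT
    rwa [hh] at this
  have hwN : (n⁻¹ * g) * x * (n⁻¹ * g)⁻¹ * x ∈ N := by
    rw [← QuotientGroup.eq_one_iff]
    have hn1 : (n : G ⧸ N) = 1 := (QuotientGroup.eq_one_iff n).mpr hn
    simp only [QuotientGroup.mk_mul, QuotientGroup.mk_inv, hn1]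
    simp only [inv_one, one_mul]
    rw [hinv']; simp
  have hfin := hdisj _ hwN (by rw [← hT]; exact mul_mem hw hxT)
  have hfin' : (n⁻¹ * g) * x * (n⁻¹ * g)⁻¹ = x⁻¹ := eq_inv_of_mul_eq_one_left hfin
  have hoddx : Odd (orderOf x) := by rw [hox]; exact (hq.odd_of_ne_two hq2).pow
  have := hG x _ hoddx hfin'
  rw [this] at hxN
  exact hxN rfl

theorem normal_le_sylow {G : Type u} [Group G] [Finite G] {p : ℕ} [Fact p.Prime] (N : Subgroup G)
    [N.Normal] (hN : IsPGroup p N) (P : Sylow p G) : N ≤ P := by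
  obtain ⟨Q, hQ⟩ := hN.exists_le_sylow
  obtain ⟨g, rfl⟩ := MulAction.exists_smul_eq G Q P
  intro n hn
  rw [sylow_smul_eq_cj, mem_cj]
  apply hQ
  have := (inferInstance : N.Normal).conj_mem n hn g⁻¹
  simpa using this

theorem main : ∀ (n : ℕ) (G : Type u) [Group G] [Finite G], Nat.card G = n → RealFree G →
    ∀ P : Sylow 2 G, (P : Subgroup G).Normal := by
  intro n
  induction n using Nat.strong_induction_on with
  | _ n ih =>
  intro G _ _ hn hG P
  by_cases h2 : 2 ∣ Nat.card G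
  · obtain ⟨t, ht⟩ := exists_prime_orderOf_dvd_card' 2 h2
    have htt : t * t = 1 := by rw [← pow_two, ← ht]; exact pow_orderOf_eq_one t
    have hX : IsPGroup 2 (Subgroup.zpowers t) := isPGroup_zpowers 2 t 1 (by simpa using ht)
    obtain ⟨N, hNn, hNp, hle⟩ := Cfsg.Agent.S0199.result (p := 2) (Subgroup.zpowers t) hX (by
      intro g
      rw [MonoidHom.map_zpowers]
      apply dihedral hG t _ htt
      simp only [MulEquiv.coe_toMonoidHom, MulAut.conj_apply]
      calc g * t * g⁻¹ * (g * t * g⁻¹) = g * (t * t) * g⁻¹ := by group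
        _ = 1 := by rw [htt]; group)
    have htN : t ∈ N := hle (Subgroup.mem_zpowers t)
    have hlt : Nat.card (G ⧸ N) < n := by
      have h1 := N.card_mul_index
      rw [Subgroup.index_eq_card, hn] at h1
      have h3 : 1 < Nat.card N := by
        rw [Subgroup.one_lt_card_iff_ne_bot]
        intro hb
        rw [hb, Subgroup.mem_bot] at htN
        rw [htN, orderOf_one] at ht
        omega
      have h4 : 0 < Nat.card (G ⧸ N) := Nat.card_pos
      nlinarith
    have hq := ih _ hlt (G ⧸ N) rfl (lift N hNp hG)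
    have hNP : N ≤ P := normal_le_sylow N hNp P
    have h3 := hq (P.mapSurjective (QuotientGroup.mk'_surjective N))
    have h4 : ((P : Subgroup G).map (QuotientGroup.mk' N)).comap (QuotientGroup.mk' N) = P := by
      rw [Subgroup.comap_map_eq, QuotientGroup.ker_mk']; exact sup_eq_left.mpr hNP
    rw [← h4]
    exact Subgroup.Normal.comap h3 _
  · have h1 : Nat.card (P : Subgroup G) = 1 := by
      rw [P.card_eq_multiplicity, Nat.factorization_eq_zero_of_not_dvd h2, pow_zero]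
    rw [Subgroup.eq_bot_of_card_eq _ h1]
    infer_instance

/-- Let G be a finite group in which every element x of odd order satisfies N_G(⟨x⟩) = C_G(x). Then the Sylow 2-subgroups of G are normal. -/
theorem result {G : Type*} [Group G] [Finite G]
    (hirr : ∀ x : G, (∀ r : ℕ, r.Prime → r ∣ orderOf x → r ≠ 2) →
      Subgroup.normalizer ((Subgroup.zpowers x : Subgroup G) : Set G) ≤ Subgroup.centralizer {x}) (P : Sylow 2 G) :
    (P : Subgroup G).Normal := by
  refine main _ G rfl ?_ P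
  intro x g hodd hinv
  have h1 : g ∈ Subgroup.normalizer ((Subgroup.zpowers x : Subgroup G) : Set G) := by
    apply mem_normalizer_zpowers
    rw [hinv]; exact inv_mem (Subgroup.mem_zpowers x)
  have h2 := hirr x (by
    rintro r _ hr rfl
    exact (Nat.not_even_iff_odd.mpr hodd) (even_iff_two_dvd.mpr hr)) h1
  rw [Subgroup.mem_centralizer_singleton_iff] at h2
  have h3 : x = x⁻¹ := by rw [← hinv, h2]; group
  have h4 : x ^ 2 = 1 := by
    rw [pow_two]; nth_rewrite 1 [h3]; group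
  have h5 : orderOf x ∣ 2 := orderOf_dvd_of_pow_eq_one h4
  rcases (Nat.dvd_prime Nat.prime_two).mp h5 with h6 | h6
  · exact orderOf_eq_one_iff.mp h6
  · rw [h6] at hodd; exact absurd hodd (by decide)

end Cfsg.Agent.S4027
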