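import Cfsg.Statements.S4028
-- import your own Cfsg.Agent.* helpers here
import Mathlib

set_option autoImplicit false
open Cfsg

namespace Cfsg.Agent.S4028

theorem mem_smul {G : Type*} [Group G] {p : ℕ} (g x : G) (P : Sylow p G) :
    x ∈ ((g • P : Sylow p G) : Subgroup G) ↔ g⁻¹ * x * g ∈ (P : Subgroup G) := by
  rw [Sylow.coe_subgroup_smul, Subgroup.mem_pointwise_smul_iff_inv_smul_mem, MulAut.smul_def,
    MulAut.conj_inv_apply]

theorem coe_mem_zpowers {G : Type*} [Group G] (H : Subgroup G) (y w : H) :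
    w ∈ Subgroup.zpowers y ↔ (w : G) ∈ Subgroup.zpowers (y : G) := by
  rw [Subgroup.mem_zpowers_iff, Subgroup.mem_zpowers_iff]
  constructor
  · rintro ⟨k, rfl⟩; exact ⟨k, by simp⟩
  · rintro ⟨k, hk⟩; exact ⟨k, Subtype.ext (by simpa using hk)⟩

theorem norm_coe {G : Type*} [Group G] (H : Subgroup G) (y z : H) :
    z ∈ Subgroup.normalizer ((Subgroup.zpowers y : Subgroup H) : Set H) ↔
      (z : G) ∈ Subgroup.normalizer ((Subgroup.zpowers (y : G) : Subgroup G) : Set G) := by
  rw [Subgroup.mem_normalizer_iff, Subgroup.mem_normalizer_iff]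
  have hle : Subgroup.zpowers (y : G) ≤ H := by
    rw [Subgroup.zpowers_le]; exact y.2
  constructor
  · intro h w
    constructor
    · intro hw
      have := (h ⟨w, hle hw⟩).1 ((coe_mem_zpowers H y _).2 hw)
      exact (coe_mem_zpowers H y _).1 this
    · intro hw
      have hwH : w ∈ H := by
        have h1 := H.mul_mem (H.mul_mem (H.inv_mem z.2) (hle hw)) z.2
        have h2 : (z : G)⁻¹ * ((z : G) * w * (z : G)⁻¹) * (z : G) = w := by group
        rwa [h2] at h1
      have := (h ⟨w, hwH⟩).2 ((coe_mem_zpowers H y _).2 hw)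
      exact (coe_mem_zpowers H y _).1 this
  · intro h w
    rw [coe_mem_zpowers, coe_mem_zpowers]
    exact h w

theorem mem_zpowers_equiv {G : Type*} [Group G] (c : G ≃* G) (x u : G) :
    c u ∈ Subgroup.zpowers (c x) ↔ u ∈ Subgroup.zpowers x := by
  rw [Subgroup.mem_zpowers_iff, Subgroup.mem_zpowers_iff]
  constructor
  · rintro ⟨k, hk⟩
    refine ⟨k, c.injective ?_⟩
    rw [map_zpow, hk]
  · rintro ⟨k, rfl⟩
    exact ⟨k, by rw [map_zpow]⟩

theorem norm_equiv {G : Type*} [Group G] (c : G ≃* G) (x a : G)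
    (h : a ∈ Subgroup.normalizer ((Subgroup.zpowers x : Subgroup G) : Set G)) :
    c a ∈ Subgroup.normalizer ((Subgroup.zpowers (c x) : Subgroup G) : Set G) := by
  rw [Subgroup.mem_normalizer_iff] at h ⊢
  intro w
  obtain ⟨u, rfl⟩ := c.surjective w
  rw [← map_inv, ← map_mul, ← map_mul, mem_zpowers_equiv, mem_zpowers_equiv]
  exact h u

theorem mem_cent {G : Type*} [Group G] (x g : G) :
    g ∈ Subgroup.centralizer ({x} : Set G) ↔ x * g = g * x := by
  rw [Subgroup.mem_centralizer_iff]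
  constructor
  · intro h; exact h x rfl
  · intro h w hw
    rw [Set.mem_singleton_iff] at hw
    subst hw
    exact h


/-- Let G be a finite group with Sylow 2-subgroup P. Then N_G(⟨x⟩) = C_G(x) holds for every 2-element x of G if and only if N_P(⟨y⟩) = C_P(y) holds for every y ∈ P (computed inside P). -/
theorem result {G : Type*} [Group G] [Finite G] (P : Sylow 2 G) :
    (∀ x : G, (∀ r : ℕ, r.Prime → r ∣ orderOf x → r = 2) →
      Subgroup.normalizer ((Subgroup.zpowers x : Subgroup G) : Set G) ≤ Subgroup.centralizer {x}) ↔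
    (∀ y : ↥(P : Subgroup G), Subgroup.normalizer ((Subgroup.zpowers y : Subgroup ↥(P : Subgroup G)) : Set ↥(P : Subgroup G)) ≤
        Subgroup.centralizer {y}) := by
  constructor
  · intro hG y z hz
    have h1 : ∀ r : ℕ, r.Prime → r ∣ orderOf (y : G) → r = 2 := by
      intro r hr hd
      obtain ⟨k, hk⟩ := P.2 y
      have h2 : orderOf (y : G) ∣ 2 ^ k := by
        rw [Subgroup.orderOf_coe]
        exact orderOf_dvd_of_pow_eq_one hk
      exact (Nat.prime_dvd_prime_iff_eq hr Nat.prime_two).1 (hr.dvd_of_dvd_pow (hd.trans h2))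
    have h2 := hG (y : G) h1 ((norm_coe _ y z).1 hz)
    rw [mem_cent] at h2 ⊢
    exact Subtype.ext h2
  · intro hP x hx g hg
    set N := Subgroup.normalizer ((Subgroup.zpowers x : Subgroup G) : Set G) with hN
    have hox : orderOf x ≠ 0 := (orderOf_pos x).ne'
    have hxpow : orderOf x = 2 ^ (orderOf x).primeFactorsList.length :=
      Nat.eq_prime_pow_of_unique_prime_dvd hox (fun {d} hd hdv => hx d hd hdv)
    set j := (orderOf x).primeFactorsList.length with hj
    obtain ⟨k, m, hm, hgo⟩ := Nat.exists_eq_pow_mul_and_not_dvd (orderOf_pos g).ne' 2 (by norm_num)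
    have hcop : Nat.Coprime (2 ^ k) m := by
      apply Nat.Coprime.pow_left
      exact (Nat.Prime.coprime_iff_not_dvd Nat.prime_two).2 hm
    -- odd part
    have hb : g ^ (2 ^ k) ∈ Subgroup.centralizer ({x} : Set G) := by
      have hbN : g ^ (2 ^ k) ∈ N := N.pow_mem hg _
      set φ := (Subgroup.zpowers x).normalizerMonoidHom with hφ
      have h1 : (φ ⟨g ^ (2 ^ k), hbN⟩) ^ m = 1 := by
        rw [← map_pow]
        have : (⟨g ^ (2 ^ k), hbN⟩ : N) ^ m = 1 := by
          apply Subtype.ext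
          show (g ^ (2 ^ k)) ^ m = 1
          rw [← pow_mul, ← hgo, pow_orderOf_eq_one]
        rw [this, map_one]
      have hcard : ∃ i, Nat.card (MulAut (Subgroup.zpowers x)) = 2 ^ i := by
        rw [IsCyclic.card_mulAut, Nat.card_zpowers, hxpow]
        rcases Nat.eq_zero_or_pos j with h0 | h0
        · exact ⟨0, by rw [h0]; simp⟩
        · exact ⟨j - 1, by rw [Nat.totient_prime_pow Nat.prime_two h0]; simp⟩
      obtain ⟨i, hi⟩ := hcard
      have h2 : (φ ⟨g ^ (2 ^ k), hbN⟩) ^ (2 ^ i) = 1 := by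
        rw [← hi]; exact pow_card_eq_one'
      have h3 : φ ⟨g ^ (2 ^ k), hbN⟩ = 1 := by
        have h4 := pow_gcd_eq_one.2 ⟨h1, h2⟩
        have h5 : Nat.gcd m (2 ^ i) = 1 := by
          apply Nat.Coprime.pow_right
          exact ((Nat.Prime.coprime_iff_not_dvd Nat.prime_two).2 hm).symm
        rwa [h5, pow_one] at h4
      have h4 : (⟨g ^ (2 ^ k), hbN⟩ : N) ∈ φ.ker := h3
      rw [hφ, Subgroup.normalizerMonoidHom_ker, Subgroup.mem_subgroupOf,
        Subgroup.mem_centralizer_iff] at h4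
      rw [mem_cent]
      exact h4 x (Subgroup.mem_zpowers x)
    -- 2-part
    have ha : g ^ m ∈ Subgroup.centralizer ({x} : Set G) := by
      set a := g ^ m with ha
      have haN : a ∈ N := N.pow_mem hg _
      have hpa : IsPGroup 2 (Subgroup.zpowers a) := by
        have h1 : orderOf a ∣ 2 ^ k := by
          apply orderOf_dvd_of_pow_eq_one
          rw [ha, ← pow_mul, mul_comm, ← hgo, pow_orderOf_eq_one]
        obtain ⟨i, -, hi⟩ := (Nat.dvd_prime_pow Nat.prime_two).1 h1
        apply IsPGroup.of_card (n := i)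
        rw [Nat.card_zpowers, hi]
      have hpx : IsPGroup 2 (Subgroup.zpowers x) := by
        apply IsPGroup.of_card (n := j)
        rw [Nat.card_zpowers, hxpow]
      have hle : Subgroup.zpowers a ≤ Subgroup.normalizer ((Subgroup.zpowers x : Subgroup G) : Set G) := by
        rw [Subgroup.zpowers_le]; exact haN
      have hT := hpa.to_sup_of_normal_right' hpx hle
      obtain ⟨Q, hQ⟩ := hT.exists_le_sylow
      obtain ⟨h, rfl⟩ := MulAction.exists_smul_eq G P Q
      have hxP : h⁻¹ * x * h ∈ (P : Subgroup G) := by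
        rw [← mem_smul]
        exact hQ (Subgroup.mem_sup_right (Subgroup.mem_zpowers x))
      have haP : h⁻¹ * a * h ∈ (P : Subgroup G) := by
        rw [← mem_smul]
        exact hQ (Subgroup.mem_sup_left (Subgroup.mem_zpowers a))
      have h1 := norm_equiv (MulAut.conj h⁻¹) x a haN
      simp only [MulAut.conj_apply, inv_inv] at h1
      have h2 := hP ⟨h⁻¹ * x * h, hxP⟩ ((norm_coe _ ⟨h⁻¹ * x * h, hxP⟩ ⟨h⁻¹ * a * h, haP⟩).2 h1)
      rw [mem_cent] at h2 ⊢
      have h3 : (h⁻¹ * x * h) * (h⁻¹ * a * h) = (h⁻¹ * a * h) * (h⁻¹ * x * h) :=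
        congrArg Subtype.val h2
      calc x * a = h * ((h⁻¹ * x * h) * (h⁻¹ * a * h)) * h⁻¹ := by group
        _ = h * ((h⁻¹ * a * h) * (h⁻¹ * x * h)) * h⁻¹ := by rw [h3]
        _ = a * x := by group
    -- combine
    have hbez : g = (g ^ (2 ^ k)) ^ (Nat.gcdA (2 ^ k) m) * (g ^ m) ^ (Nat.gcdB (2 ^ k) m) := by
      have h1 := Nat.gcd_eq_gcd_ab (2 ^ k) m
      rw [hcop.gcd_eq_one] at h1
      rw [← zpow_natCast, ← zpow_natCast, ← zpow_mul, ← zpow_mul, ← zpow_add, ← h1]
      simp
    rw [hbez]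
    exact Subgroup.mul_mem _ (Subgroup.zpow_mem _ hb _) (Subgroup.zpow_mem _ ha _)

end Cfsg.Agent.S4028
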