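import Cfsg.Statements.S4029
import Mathlib
import Cfsg.Agent.Lib.Helper70Frobenius
import Cfsg.Agent.Lib.Helper72PiCount
import Cfsg.Agent.Lib.Helper3PGroup
import Cfsg.Agent.Lib.Helper70Basic

set_option autoImplicit false
open Cfsg

namespace Cfsg.Agent.S4029

open Cfsg.Agent.Lib.Helper70Frobenius

theorem card_eq_sum_fibers {α β : Type*} [Finite α] [Fintype β] (f : α → β) :
    Nat.card α = ∑ b, Nat.card {a // f a = b} := by
  rw [← Nat.card_congr (Equiv.sigmaFiberEquiv f), Nat.card_sigma]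

/-- Cauchy-Schwarz count of pairs with equal squares. -/
theorem card_sq_pairs {P : Type*} [Group P] [Finite P] (F : Subgroup P) (hF : ∀ a : P, a ^ 2 ∈ F) :
    Nat.card P ^ 2 ≤ Nat.card F * Nat.card {z : P × P // z.1 ^ 2 = z.2 ^ 2} := by
  classical
  have := Fintype.ofFinite F
  have h1 : Nat.card P = ∑ c : F, Nat.card {a : P // (⟨a ^ 2, hF a⟩ : F) = c} :=
    card_eq_sum_fibers (fun a : P => (⟨a ^ 2, hF a⟩ : F))
  have h2 : Nat.card {z : P × P // z.1 ^ 2 = z.2 ^ 2} =
      ∑ c : F, Nat.card {a : P // (⟨a ^ 2, hF a⟩ : F) = c} ^ 2 := by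
    rw [card_eq_sum_fibers (fun z : {z : P × P // z.1 ^ 2 = z.2 ^ 2} => (⟨z.1.1 ^ 2, hF z.1.1⟩ : F))]
    refine Finset.sum_congr rfl ?_
    intro c _
    rw [pow_two, ← Nat.card_prod]
    refine Nat.card_congr ?_
    refine
      { toFun := fun z => (⟨z.1.1.1, z.2⟩, ⟨z.1.1.2, ?_⟩)
        invFun := fun w => ⟨⟨(w.1.1, w.2.1), ?_⟩, w.1.2⟩
        left_inv := fun z => rfl
        right_inv := fun w => rfl }
    · refine Eq.trans ?_ z.2
      apply Subtype.ext; exact z.1.2.symm
    · have e1 := congrArg Subtype.val w.1.2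
      have e2 := congrArg Subtype.val w.2.2
      simp only at e1 e2
      show w.1.1 ^ 2 = w.2.1 ^ 2
      rw [e1, e2]
  rw [h1, h2, Nat.card_eq_fintype_card, ← Finset.card_univ]
  exact sq_sum_le_card_mul_sum_sq

/-- pairs with equal squares correspond to inverting pairs. -/
theorem card_sq_pairs_eq {P : Type*} [Group P] :
    Nat.card {z : P × P // z.1 ^ 2 = z.2 ^ 2} =
      Nat.card {z : P × P // z.2 * z.1 * z.2⁻¹ = z.1⁻¹} := by
  refine Nat.card_congr ?_
  refine
    { toFun := fun z => ⟨(z.1.1⁻¹ * z.1.2, z.1.1), ?_⟩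
      invFun := fun w => ⟨(w.1.2, w.1.2 * w.1.1), ?_⟩
      left_inv := ?_
      right_inv := ?_ }
  · have h := z.2
    show z.1.1 * (z.1.1⁻¹ * z.1.2) * z.1.1⁻¹ = (z.1.1⁻¹ * z.1.2)⁻¹
    rw [pow_two, pow_two] at h
    have h2 : z.1.2 * z.1.1⁻¹ = z.1.2⁻¹ * z.1.1 := by
      have : z.1.2⁻¹ * (z.1.1 * z.1.1) * z.1.1⁻¹ = z.1.2⁻¹ * (z.1.2 * z.1.2) * z.1.1⁻¹ := by rw [h]
      simp only [mul_assoc, mul_inv_cancel, mul_one, inv_mul_cancel_left] at this
      exact this.symm
    simp only [mul_inv_rev, inv_inv, mul_assoc, mul_inv_cancel_left]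
    exact h2
  · have h := w.2
    show w.1.2 ^ 2 = (w.1.2 * w.1.1) ^ 2
    rw [pow_two, pow_two]
    have h2 : w.1.2 * w.1.1 = w.1.1⁻¹ * w.1.2 := by
      have : w.1.2 * w.1.1 * w.1.2⁻¹ * w.1.2 = w.1.1⁻¹ * w.1.2 := by rw [h]
      simpa [mul_assoc] using this
    calc w.1.2 * w.1.2 = w.1.2 * (w.1.1 * (w.1.1⁻¹ * w.1.2)) := by simp
      _ = w.1.2 * (w.1.1 * (w.1.2 * w.1.1)) := by rw [h2]
      _ = w.1.2 * w.1.1 * (w.1.2 * w.1.1) := by simp only [mul_assoc]
  · intro z; apply Subtype.ext; simp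
  · intro w; apply Subtype.ext; simp

theorem card_comm_pairs {P : Type*} [Group P] [Finite P] :
    Nat.card {z : P × P // z.1 ^ 2 = 1 ∧ Commute z.1 z.2} =
      Nat.card {c : ConjClasses P // ∃ y : P, ConjClasses.mk y = c ∧ y ^ 2 = 1} * Nat.card P := by
  refine card_eq_of_fibers (fun z : {z : P × P // z.1 ^ 2 = 1 ∧ Commute z.1 z.2} =>
    (⟨ConjClasses.mk z.1.1, ⟨z.1.1, rfl, z.2.1⟩⟩ :
      {c : ConjClasses P // ∃ y : P, ConjClasses.mk y = c ∧ y ^ 2 = 1})) _ ?_
  rintro ⟨c, y, rfl, hy⟩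
  rw [← Cfsg.Agent.Lib.Helper72PiCount.card_class_pairs y]
  refine Nat.card_congr ?_
  refine
    { toFun := fun a => ⟨a.1.1, congrArg Subtype.val a.2, a.1.2.2⟩
      invFun := fun z => ⟨⟨z.1, ?_, z.2.2⟩, Subtype.ext z.2.1⟩
      left_inv := fun a => rfl
      right_inv := fun z => rfl }
  obtain ⟨g, hg⟩ := isConj_iff.mp (ConjClasses.mk_eq_mk_iff_isConj.mp z.2.1)
  have h2 := conj_pow (a := g) (b := z.1.1) (i := 2)
  rw [hg, hy] at h2
  have h3 : g⁻¹ * (g * z.1.1 ^ 2 * g⁻¹) * g = g⁻¹ * 1 * g := by rw [← h2]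
  simpa [mul_assoc] using h3

/-- Let P be a finite 2-group in which N_P(⟨y⟩) = C_P(y) for every y ∈ P. If s is the number of conjugacy classes of involutions of P, then #(P/Φ(P)) ≤ s + 1; in particular the subgroup generated by the involutions of P has order at least #(P/Φ(P)). -/
theorem result {P : Type*} [Group P] [Finite P] (hP : IsPGroup 2 P)
    (hirr : ∀ y : P, Subgroup.normalizer ((Subgroup.zpowers y : Subgroup P) : Set P) ≤ Subgroup.centralizer {y}) :
    Nat.card (P ⧸ frattini P) ≤ Nat.card {c : ConjClasses P // ∃ y : P, ConjClasses.mk y = c ∧ orderOf y = 2} + 1 ∧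
    Nat.card (P ⧸ frattini P) ≤ Nat.card (Subgroup.closure {y : P | orderOf y = 2}) := by
  classical
  have hA := card_sq_pairs (frattini P)
    (fun a => Cfsg.Agent.Lib.Helper3PGroup.pow_mem_frattini (p := 2) hP a)
  have hC : Nat.card {z : P × P // z.2 * z.1 * z.2⁻¹ = z.1⁻¹} =
      Nat.card {z : P × P // z.1 ^ 2 = 1 ∧ Commute z.1 z.2} := by
    refine Nat.card_congr (Equiv.subtypeEquivRight ?_)
    rintro ⟨x, a⟩
    simp only
    constructor
    · intro h
      have h1 : a ∈ Subgroup.normalizer ((Subgroup.zpowers x : Subgroup P) : Set P) := by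
        apply Cfsg.Agent.Lib.Helper70Basic.mem_normalizer_zpowers
        rw [h]; exact inv_mem (Subgroup.mem_zpowers x)
      have h2 := Subgroup.mem_centralizer_singleton_iff.mp (hirr x h1)
      have h3 : x = x⁻¹ := by rw [← h, h2]; group
      refine ⟨?_, h2.symm⟩
      rw [pow_two]; nth_rewrite 1 [h3]; group
    · rintro ⟨h1, h2⟩
      have h3 : x⁻¹ = x := by
        rw [pow_two] at h1; exact inv_eq_of_mul_eq_one_left h1
      rw [h3, ← h2.eq]; group
  rw [card_sq_pairs_eq, hC, card_comm_pairs] at hA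
  have hE : Nat.card {c : ConjClasses P // ∃ y : P, ConjClasses.mk y = c ∧ y ^ 2 = 1} ≤
      Nat.card {c : ConjClasses P // ∃ y : P, ConjClasses.mk y = c ∧ orderOf y = 2} + 1 := by
    rw [← Finite.card_option]
    refine Nat.card_le_card_of_surjective
      (fun o : Option {c : ConjClasses P // ∃ y : P, ConjClasses.mk y = c ∧ orderOf y = 2} =>
        match o with
        | none => (⟨ConjClasses.mk 1, ⟨1, rfl, one_pow 2⟩⟩ :
            {c : ConjClasses P // ∃ y : P, ConjClasses.mk y = c ∧ y ^ 2 = 1})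
        | some c => ⟨c.1, by
            obtain ⟨y, hy, hy2⟩ := c.2
            exact ⟨y, hy, by rw [← hy2]; exact pow_orderOf_eq_one y⟩⟩) ?_
    rintro ⟨c, y, rfl, hy⟩
    by_cases h1 : y = 1
    · exact ⟨none, by subst h1; rfl⟩
    · exact ⟨some ⟨ConjClasses.mk y, y, rfl, orderOf_eq_prime hy h1⟩, rfl⟩
  have hq : Nat.card (P ⧸ frattini P) * Nat.card (frattini P) = Nat.card P :=
    (Subgroup.card_eq_card_quotient_mul_card_subgroup (frattini P)).symm
  have hgpos : 0 < Nat.card P := Nat.card_pos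
  have hfpos : 0 < Nat.card (frattini P) := Nat.card_pos
  have hmain : Nat.card (P ⧸ frattini P) ≤
      Nat.card {c : ConjClasses P // ∃ y : P, ConjClasses.mk y = c ∧ y ^ 2 = 1} := by
    have h1 : Nat.card P * Nat.card P ≤ (Nat.card (frattini P) *
        Nat.card {c : ConjClasses P // ∃ y : P, ConjClasses.mk y = c ∧ y ^ 2 = 1}) * Nat.card P := by
      rw [← pow_two, mul_assoc]; exact hA
    have h2 := Nat.le_of_mul_le_mul_right h1 hgpos
    rw [← hq, mul_comm] at h2
    exact Nat.le_of_mul_le_mul_left h2 hfpos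
  have hfirst := hmain.trans hE
  refine ⟨hfirst, hfirst.trans ?_⟩
  rw [← Finite.card_option]
  refine Nat.card_le_card_of_injective
    (fun o : Option {c : ConjClasses P // ∃ y : P, ConjClasses.mk y = c ∧ orderOf y = 2} =>
      match o with
      | none => (1 : Subgroup.closure {y : P | orderOf y = 2})
      | some c => ⟨c.2.choose, Subgroup.subset_closure c.2.choose_spec.2⟩) ?_
  intro o1 o2 h
  rcases o1 with _ | c1 <;> rcases o2 with _ | c2
  · rfl
  · exfalso
    have h1 : (1 : P) = c2.2.choose := congrArg Subtype.val h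
    have h2 := c2.2.choose_spec.2
    rw [← h1, orderOf_one] at h2
    omega
  · exfalso
    have h1 : c1.2.choose = (1 : P) := congrArg Subtype.val h
    have h2 := c1.2.choose_spec.2
    rw [h1, orderOf_one] at h2
    omega
  · have h1 : c1.2.choose = c2.2.choose := congrArg Subtype.val h
    congr 1
    apply Subtype.ext
    rw [← c1.2.choose_spec.1, ← c2.2.choose_spec.1, h1]

end Cfsg.Agent.S4029
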