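import Cfsg.Statements.S4032
import Mathlib
-- import your own Cfsg.Agent.* helpers here

set_option autoImplicit false
open Cfsg

namespace Cfsg.Agent.S4032

theorem mem_normalizer_zpowers {G : Type*} [Group G] [Finite G] (g x : G)
    (h : g * x * g⁻¹ ∈ Subgroup.zpowers x) :
    g ∈ Subgroup.normalizer ((Subgroup.zpowers x : Subgroup G) : Set G) := by
  apply Subgroup.mem_normalizer_fintype
  intro n hn
  obtain ⟨i, rfl⟩ := Subgroup.mem_zpowers_iff.1 hn
  have : g * x ^ i * g⁻¹ = (g * x * g⁻¹) ^ i := by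
    rw [conj_zpow]
  rw [this]
  exact Subgroup.zpow_mem _ h i

theorem primePow {G : Type*} [Group G] [Finite G] (π : Set ℕ)
    (hirr : ∀ x : G, (∀ r : ℕ, r.Prime → r ∣ orderOf x → r ∈ π) →
      Subgroup.normalizer ((Subgroup.zpowers x : Subgroup G) : Set G) ≤ Subgroup.centralizer {x})
    (N : Subgroup G) [N.Normal] (hN : ∀ r : ℕ, r.Prime → r ∣ Nat.card N → r ∉ π)
    (r : ℕ) [hrp : Fact r.Prime] (hr : r ∈ π) (y : G ⧸ N) (k : ℕ) (hy : orderOf y = r ^ k) (w : G ⧸ N)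
    (hw : w ∈ Subgroup.normalizer ((Subgroup.zpowers y : Subgroup (G ⧸ N)) : Set (G ⧸ N))) :
    w * y = y * w := by
  have hsurj := QuotientGroup.mk'_surjective N
  have hyp : IsPGroup r (Subgroup.zpowers y) := by
    rw [IsPGroup.iff_card]
    exact ⟨k, by rw [Nat.card_zpowers, hy]⟩
  obtain ⟨P', hP'⟩ := hyp.exists_le_sylow
  obtain ⟨P, rfl⟩ := Sylow.mapSurjective_surjective hsurj r P'
  have hyP : y ∈ (P : Subgroup G).map (QuotientGroup.mk' N) := hP' (Subgroup.mem_zpowers y)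
  obtain ⟨x, hxP, hxy⟩ := Subgroup.mem_map.1 hyP
  obtain ⟨j, hj⟩ := P.isPGroup' ⟨x, hxP⟩
  have hj' : x ^ (r ^ j) = 1 := congrArg Subtype.val hj
  have hxπ : ∀ q : ℕ, q.Prime → q ∣ orderOf x → q ∈ π := by
    intro q hq hqx
    have : q ∣ r ^ j := hqx.trans (orderOf_dvd_of_pow_eq_one hj')
    have := (Nat.prime_dvd_prime_iff_eq hq hrp.out).1 (hq.dvd_of_dvd_pow this)
    rw [this]; exact hr
  obtain ⟨h, rfl⟩ := hsurj w
  set M : Subgroup G := (Subgroup.zpowers y).comap (QuotientGroup.mk' N) with hM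
  have hxM : x ∈ M := by
    rw [hM, Subgroup.mem_comap, hxy]; exact Subgroup.mem_zpowers y
  have hx'M : h * x * h⁻¹ ∈ M := by
    rw [hM, Subgroup.mem_comap, map_mul, map_mul, map_inv, hxy]
    exact (Subgroup.mem_normalizer_iff.1 hw y).1 (Subgroup.mem_zpowers y)
  have hpx : ∀ u : M, (∃ i : ℕ, u ^ (r ^ i) = 1) → IsPGroup r (Subgroup.zpowers u) := by
    rintro u ⟨i, hi⟩
    intro v
    obtain ⟨t, ht⟩ := Subgroup.mem_zpowers_iff.1 v.2
    refine ⟨i, Subtype.ext ?_⟩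
    show (v : M) ^ (r ^ i) = 1
    rw [← ht, ← zpow_natCast, ← zpow_mul, mul_comm, zpow_mul, zpow_natCast, hi, one_zpow]
  have key : ∀ P₁ : Sylow r M, (⟨x, hxM⟩ : M) ∈ P₁ → ∀ u : M, u ∈ P₁ → (u : G) ∈ Subgroup.zpowers x := by
    intro P₁ hx₁ u hu
    have hu' : QuotientGroup.mk' N (u : G) ∈ Subgroup.zpowers y := u.2
    obtain ⟨i, hi⟩ := Subgroup.mem_zpowers_iff.1 hu'
    set v : M := u * (⟨x, hxM⟩ : M) ^ (-i) with hv
    have hvP : v ∈ P₁ := P₁.mul_mem hu (P₁.zpow_mem hx₁ _)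
    have hvN : (v : G) ∈ N := by
      rw [← QuotientGroup.eq_one_iff]
      have : ((v : G) : G ⧸ N) = QuotientGroup.mk' N (u : G) * (QuotientGroup.mk' N x) ^ (-i) := by
        rw [hv]; simp
      rw [this, hxy, ← hi, ← zpow_add, add_neg_cancel, zpow_zero]
    obtain ⟨t, ht⟩ := P₁.isPGroup' ⟨v, hvP⟩
    have ht' : (v : G) ^ (r ^ t) = 1 := by
      have := congrArg Subtype.val (congrArg Subtype.val ht)
      simpa using this
    have h1 : orderOf (v : G) ∣ r ^ t := orderOf_dvd_of_pow_eq_one ht'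
    have h2 : orderOf (v : G) ∣ Nat.card N := Subgroup.orderOf_dvd_natCard N hvN
    have hcop : Nat.Coprime (r ^ t) (Nat.card N) := by
      apply Nat.Coprime.pow_left
      rw [Nat.Prime.coprime_iff_not_dvd hrp.out]
      intro hd
      exact hN r hrp.out hd hr
    have h3 : (v : G) = 1 := orderOf_eq_one_iff.1 (Nat.eq_one_of_dvd_coprimes hcop h1 h2)
    have h4 : (u : G) = x ^ i := by
      have : (v : G) = (u : G) * x ^ (-i) := by rw [hv]; simp
      rw [h3, zpow_neg] at this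
      exact (mul_inv_eq_one.1 this.symm)
    rw [h4]
    exact Subgroup.zpow_mem_zpowers x i
  obtain ⟨P₁, hP₁⟩ := (hpx ⟨x, hxM⟩ ⟨j, Subtype.ext (by simpa using hj')⟩).exists_le_sylow
  obtain ⟨P₂, hP₂⟩ := (hpx ⟨h * x * h⁻¹, hx'M⟩ ⟨j, Subtype.ext (by
    show (h * x * h⁻¹) ^ (r ^ j) = 1
    rw [conj_pow, hj']; group)⟩).exists_le_sylow
  obtain ⟨m, hm⟩ := MulAction.exists_smul_eq M P₂ P₁
  have h1 : m * (⟨h * x * h⁻¹, hx'M⟩ : M) * m⁻¹ ∈ P₁ := by
    rw [← hm]
    have : (⟨h * x * h⁻¹, hx'M⟩ : M) ∈ (P₂ : Subgroup M) := hP₂ (Subgroup.mem_zpowers _)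
    have h2 := Subgroup.smul_mem_pointwise_smul _ (MulAut.conj m) _ this
    exact h2
  have h2 := key P₁ (hP₁ (Subgroup.mem_zpowers _)) _ h1
  have h3 : ((m : G) * h) * x * ((m : G) * h)⁻¹ ∈ Subgroup.zpowers x := by
    have : ((m : G) * h) * x * ((m : G) * h)⁻¹ = ((m * (⟨h * x * h⁻¹, hx'M⟩ : M) * m⁻¹ : M) : G) := by
      simp only [Subgroup.coe_mul, Subgroup.coe_inv]; group
    rw [this]; exact h2
  have h4 := hirr x hxπ (mem_normalizer_zpowers _ _ h3)
  rw [Subgroup.mem_centralizer_singleton_iff] at h4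
  have h5 : QuotientGroup.mk' N ((m : G) * h) * y = y * QuotientGroup.mk' N ((m : G) * h) := by
    rw [← hxy, ← map_mul, ← map_mul, h4]
  have hm' : QuotientGroup.mk' N (m : G) ∈ Subgroup.zpowers y := m.2
  obtain ⟨i, hi⟩ := Subgroup.mem_zpowers_iff.1 hm'
  rw [map_mul, ← hi] at h5
  have h6 : y ^ i * y = y * y ^ i := by rw [← zpow_add_one, ← zpow_one_add, add_comm]
  have h7 : y ^ i * (QuotientGroup.mk' N h * y) = y ^ i * (y * QuotientGroup.mk' N h) := by
    rw [← mul_assoc, h5, ← mul_assoc, ← mul_assoc, h6]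
  exact mul_left_cancel h7

theorem general {G : Type*} [Group G] [Finite G] (π : Set ℕ)
    (hirr : ∀ x : G, (∀ r : ℕ, r.Prime → r ∣ orderOf x → r ∈ π) →
      Subgroup.normalizer ((Subgroup.zpowers x : Subgroup G) : Set G) ≤ Subgroup.centralizer {x})
    (N : Subgroup G) [N.Normal] (hN : ∀ r : ℕ, r.Prime → r ∣ Nat.card N → r ∉ π) (w : G ⧸ N) :
    ∀ (n : ℕ) (y : G ⧸ N), orderOf y = n → (∀ r : ℕ, r.Prime → r ∣ orderOf y → r ∈ π) →
      w ∈ Subgroup.normalizer ((Subgroup.zpowers y : Subgroup (G ⧸ N)) : Set (G ⧸ N)) → w * y = y * w := by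
  intro n
  induction n using Nat.strong_induction_on with
  | _ n ih =>
    intro y hn hπ hw
    have hn0 : n ≠ 0 := hn ▸ (orderOf_pos y).ne'
    by_cases hn1 : n = 1
    · rw [hn1, orderOf_eq_one_iff] at hn
      rw [hn, mul_one, one_mul]
    set p := n.minFac with hp
    have hpp : p.Prime := Nat.minFac_prime hn1
    haveI := Fact.mk hpp
    set a := p ^ n.factorization p with ha
    set b := n / a with hb
    have hab : a * b = n := Nat.ordProj_mul_ordCompl_eq_self n p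
    have hcop : a.Coprime b := (Nat.coprime_ordCompl hpp hn0).pow_left _
    have ha0 : a ≠ 0 := by intro h0; rw [h0, zero_mul] at hab; exact hn0 hab.symm
    have hb0 : b ≠ 0 := by intro h0; rw [h0, mul_zero] at hab; exact hn0 hab.symm
    have ha1 : 1 < a := by
      rw [ha]
      exact Nat.one_lt_pow (Nat.Prime.factorization_pos_of_dvd hpp hn0 (Nat.minFac_dvd n)).ne' hpp.one_lt
    have hoa : orderOf (y ^ a) = b := by
      rw [orderOf_pow_of_dvd ha0 (hn ▸ Dvd.intro _ hab), hn]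
    have hob : orderOf (y ^ b) = a := by
      rw [orderOf_pow_of_dvd hb0 (hn ▸ Dvd.intro_left _ hab), hn, ← hab]
      exact Nat.mul_div_cancel _ (Nat.pos_of_ne_zero hb0)
    have hwpow : ∀ t : ℕ, w ∈ Subgroup.normalizer ((Subgroup.zpowers (y ^ t) : Subgroup (G ⧸ N)) : Set (G ⧸ N)) := by
      intro t
      apply mem_normalizer_zpowers
      have h1 := (Subgroup.mem_normalizer_iff.1 hw y).1 (Subgroup.mem_zpowers y)
      obtain ⟨i, hi⟩ := Subgroup.mem_zpowers_iff.1 h1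
      have e : (y ^ i) ^ t = (y ^ t) ^ i := by
        rw [← zpow_natCast (y ^ i) t, ← zpow_mul, mul_comm, zpow_mul, zpow_natCast]
      rw [← conj_pow, ← hi, e]
      exact Subgroup.zpow_mem_zpowers _ i
    have h1 : w * y ^ b = y ^ b * w :=
      primePow π hirr N hN p (hπ p hpp (hn ▸ Nat.minFac_dvd n)) (y ^ b) _ hob w (hwpow b)
    have h2 : w * y ^ a = y ^ a * w := by
      refine ih b ?_ (y ^ a) hoa ?_ (hwpow a)
      · rw [← hab]; nlinarith [Nat.pos_of_ne_zero hb0]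
      · intro r hr hrd
        exact hπ r hr (hrd.trans (hoa ▸ hn ▸ Dvd.intro_left _ hab))
    have hcop' : IsCoprime (a : ℤ) (b : ℤ) := Nat.isCoprime_iff_coprime.2 hcop
    obtain ⟨s, t, hst⟩ := hcop'
    have hy : y = (y ^ a) ^ s * (y ^ b) ^ t := by
      rw [← zpow_natCast y a, ← zpow_natCast y b, ← zpow_mul, ← zpow_mul, ← zpow_add, mul_comm (a : ℤ),
        mul_comm (b : ℤ), hst, zpow_one]
    have c1 : Commute w ((y ^ a) ^ s) := (show Commute w (y ^ a) from h2).zpow_right s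
    have c2 : Commute w ((y ^ b) ^ t) := (show Commute w (y ^ b) from h1).zpow_right t
    rw [hy]
    exact (c1.mul_right c2)

/-- Let π be a set of primes and G a finite group in which N_G(⟨x⟩) = C_G(x) for every π-element x. If N is a normal subgroup of G whose order is divisible by no prime of π, then G/N has the same property: N_{G/N}(⟨y⟩) = C_{G/N}(y) for every π-element y of G/N. -/
theorem result {G : Type*} [Group G] [Finite G] (π : Set ℕ)
    (hirr : ∀ x : G, (∀ r : ℕ, r.Prime → r ∣ orderOf x → r ∈ π) →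
      Subgroup.normalizer ((Subgroup.zpowers x : Subgroup G) : Set G) ≤ Subgroup.centralizer {x})
    (N : Subgroup G) [N.Normal] (hN : ∀ r : ℕ, r.Prime → r ∣ Nat.card N → r ∉ π) :
    ∀ y : G ⧸ N, (∀ r : ℕ, r.Prime → r ∣ orderOf y → r ∈ π) →
      Subgroup.normalizer ((Subgroup.zpowers y : Subgroup (G ⧸ N)) : Set (G ⧸ N)) ≤ Subgroup.centralizer {y} := by
  intro y hy w hw
  rw [Subgroup.mem_centralizer_singleton_iff]
  exact general π hirr N hN w _ y rfl hy hw

end Cfsg.Agent.S4032
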