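import Cfsg.Statements.S4034
import Cfsg.Agent.Lib.Helper71Ind
import Cfsg.Agent.Lib.Helper1Fitting
import Cfsg.Agent.Lib.Helper73Class
import Cfsg.Agent.S0143
import Cfsg.Agent.S0003
import Cfsg.Agent.S0004
import Cfsg.Agent.S0005
import Cfsg.Agent.S0044
-- import your own Cfsg.Agent.* helpers here

set_option autoImplicit false
open Cfsg

namespace Cfsg.Agent.S4034

open Cfsg.Agent.Lib.Helper71Ind

universe u

/-- all `p`-regular classes have `p`-power size. -/
def Hyp (p : ℕ) (G : Type u) [Group G] : Prop :=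
  ∀ x : G, (orderOf x).Coprime p → ∃ k : ℕ, (Subgroup.centralizer ({x} : Set G)).index = p ^ k

/-- there is an abelian `p`-complement. -/
def AC (p : ℕ) (G : Type u) [Group G] : Prop :=
  ∃ H : Subgroup G, IsMulCommutative H ∧ ¬ p ∣ Nat.card H ∧ ∃ k : ℕ, H.index = p ^ k

theorem centralizer_subtype {G : Type u} [Group G] (N : Subgroup G) (x : N) :
    Subgroup.centralizer ({x} : Set N) = (Subgroup.centralizer ({(x : G)} : Set G)).subgroupOf N := by
  ext y
  rw [Subgroup.mem_subgroupOf, Subgroup.mem_centralizer_singleton_iff,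
    Subgroup.mem_centralizer_singleton_iff]
  exact Subtype.ext_iff

theorem hyp_sub {p : ℕ} (hp : p.Prime) (G : Type u) [Group G] [Finite G] (N : Subgroup G) [N.Normal]
    (h : Hyp p G) : Hyp p N := by
  intro x hx
  obtain ⟨k, hk⟩ := h (x : G) (by rwa [Subgroup.orderOf_coe])
  have h1 : (Subgroup.centralizer ({x} : Set N)).index ∣ p ^ k := by
    rw [centralizer_subtype, ← hk]
    exact relIndex_dvd_index_of_normal_right _ N
  obtain ⟨j, -, hj⟩ := (Nat.dvd_prime_pow hp).1 h1
  exact ⟨j, hj⟩

theorem hyp_quot {p : ℕ} (hp : p.Prime) (G : Type u) [Group G] [Finite G] (N : Subgroup G) [N.Normal]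
    (h : Hyp p G) : Hyp p (G ⧸ N) := by
  intro y hy
  obtain ⟨x, rfl, hx⟩ := exists_lift_coprime (QuotientGroup.mk' N) (QuotientGroup.mk'_surjective N) hp y hy
  obtain ⟨k, hk⟩ := h x hx
  have hle : (Subgroup.centralizer ({x} : Set G)).map (QuotientGroup.mk' N) ≤
      Subgroup.centralizer ({QuotientGroup.mk' N x} : Set (G ⧸ N)) := by
    rintro _ ⟨c, hc, rfl⟩
    rw [Subgroup.mem_centralizer_singleton_iff, ← map_mul, ← map_mul]
    rw [SetLike.mem_coe, Subgroup.mem_centralizer_singleton_iff] at hc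
    rw [hc]
  have h1 : (Subgroup.centralizer ({QuotientGroup.mk' N x} : Set (G ⧸ N))).index ∣ p ^ k := by
    rw [← hk]
    exact (Subgroup.index_dvd_of_le hle).trans
      (Subgroup.index_map_dvd _ (QuotientGroup.mk'_surjective N))
  obtain ⟨j, -, hj⟩ := (Nat.dvd_prime_pow hp).1 h1
  exact ⟨j, hj⟩

theorem solvable_of_prime_pow {G : Type u} [Group G] [Finite G] {q k : ℕ} (hq : q.Prime)
    (h : Nat.card G = q ^ k) : Group.IsSolvable G := by
  have := Fact.mk hq
  have : Group.IsNilpotent G := (IsPGroup.of_card h).isNilpotent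
  infer_instance

theorem hyp_simple {p : ℕ} (hp : p.Prime) (G : Type u) [Group G] [Finite G] [IsSimpleGroup G]
    (h : Hyp p G) : Group.IsSolvable G := by
  by_cases hex : ∃ x : G, x ≠ 1 ∧ (orderOf x).Coprime p
  · obtain ⟨x, hx1, hx⟩ := hex
    obtain ⟨k, hk⟩ := h x hx
    have := Cfsg.Agent.S0143.result p k hp x hx1 hk
    exact solvable_of_prime_pow this (pow_one _).symm
  · have hex : ∀ x : G, x ≠ 1 → ¬ (orderOf x).Coprime p := fun x hx hc => hex ⟨x, hx, hc⟩
    have hpg : IsPGroup p G := by
      have := Fact.mk hp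
      rw [IsPGroup.iff_card]
      refine ⟨(Nat.card G).primeFactorsList.length, ?_⟩
      apply Nat.eq_prime_pow_of_unique_prime_dvd Nat.card_pos.ne'
      intro q hq hqd
      by_contra hne
      have := Fact.mk hq
      obtain ⟨x, hx⟩ := exists_prime_orderOf_dvd_card' q hqd
      have hx1 : x ≠ 1 := by
        rintro rfl
        rw [orderOf_one] at hx
        exact hq.one_lt.ne hx
      apply hex x hx1
      rw [hx]
      exact (Nat.coprime_primes hq hp).2 hne
    have := Fact.mk hp
    have : Group.IsNilpotent G := hpg.isNilpotent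
    infer_instance

theorem ac_sub {p : ℕ} (hp : p.Prime) (G : Type u) [Group G] [Finite G] (N : Subgroup G) [N.Normal]
    (h : AC p G) : AC p N := by
  obtain ⟨H, hc, hH, k, hk⟩ := h
  refine ⟨H.subgroupOf N, inferInstance, ?_, ?_⟩
  · intro hd
    apply hH
    refine hd.trans ?_
    have : Nat.card (H.subgroupOf N) = Nat.card (H ⊓ N : Subgroup G) := by
      rw [← Subgroup.inf_subgroupOf_right]
      exact Nat.card_congr (Subgroup.subgroupOfEquivOfLe inf_le_right).toEquiv
    rw [this]
    exact Subgroup.card_dvd_of_le inf_le_left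
  · have h1 : (H.subgroupOf N).index ∣ p ^ k := by
      rw [← hk]
      exact relIndex_dvd_index_of_normal_right _ N
    obtain ⟨j, -, hj⟩ := (Nat.dvd_prime_pow hp).1 h1
    exact ⟨j, hj⟩

theorem ac_quot {p : ℕ} (hp : p.Prime) (G : Type u) [Group G] [Finite G] (N : Subgroup G) [N.Normal]
    (h : AC p G) : AC p (G ⧸ N) := by
  obtain ⟨H, hc, hH, k, hk⟩ := h
  refine ⟨H.map (QuotientGroup.mk' N), inferInstance, ?_, ?_⟩
  · intro hd
    exact hH (hd.trans (Subgroup.card_map_dvd _ _))
  · have h1 : (H.map (QuotientGroup.mk' N)).index ∣ p ^ k := by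
      rw [← hk]
      exact Subgroup.index_map_dvd _ (QuotientGroup.mk'_surjective N)
    obtain ⟨j, -, hj⟩ := (Nat.dvd_prime_pow hp).1 h1
    exact ⟨j, hj⟩

theorem ac_simple {p : ℕ} (hp : p.Prime) (G : Type u) [Group G] [Finite G] [IsSimpleGroup G]
    (h : AC p G) : Group.IsSolvable G := by
  obtain ⟨H, hc, hH, k, hk⟩ := h
  by_cases hb : H = ⊥
  · rw [hb, Subgroup.index_bot] at hk
    exact solvable_of_prime_pow hp hk
  · obtain ⟨x, hx, hx1⟩ : ∃ x ∈ H, x ≠ 1 := by
      by_contra hcon
      push Not at hcon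
      exact hb ((Subgroup.eq_bot_iff_forall _).2 hcon)
    have hle : H ≤ Subgroup.centralizer ({x} : Set G) := by
      intro y hy
      rw [Subgroup.mem_centralizer_singleton_iff]
      exact setLike_mul_comm hy hx
    have h1 : (Subgroup.centralizer ({x} : Set G)).index ∣ p ^ k := hk ▸ Subgroup.index_dvd_of_le hle
    obtain ⟨j, -, hj⟩ := (Nat.dvd_prime_pow hp).1 h1
    have := Cfsg.Agent.S0143.result p j hp x hx1 hj
    exact solvable_of_prime_pow this (pow_one _).symm

theorem hyp_solvable {p : ℕ} (hp : p.Prime) (G : Type u) [Group G] [Finite G] (h : Hyp p G) :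
    Group.IsSolvable G :=
  solvable_of_inherited (fun G _ => Hyp p G) (fun G _ _ N _ => hyp_sub hp G N)
    (fun G _ _ N _ => hyp_quot hp G N) (fun G _ _ _ => hyp_simple hp G) _ G rfl h

theorem ac_solvable {p : ℕ} (hp : p.Prime) (G : Type u) [Group G] [Finite G] (h : AC p G) :
    Group.IsSolvable G :=
  solvable_of_inherited (fun G _ => AC p G) (fun G _ _ N _ => ac_sub hp G N)
    (fun G _ _ N _ => ac_quot hp G N) (fun G _ _ _ => ac_simple hp G) _ G rfl h

/-- with trivial `p`-core, any two `p`-regular elements commute. -/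
theorem commute_of_core_trivial {p : ℕ} (hp : p.Prime) (Q : Type u) [Group Q] [Finite Q]
    [Group.IsSolvable Q] (h : Hyp p Q)
    (hOp : ∀ R : Subgroup Q, R.Normal → IsPGroup p R → R = ⊥)
    (a b : Q) (ha : (orderOf a).Coprime p) (hb : (orderOf b).Coprime p) : a * b = b * a := by
  have := Fact.mk hp
  set F := Cfsg.fittingSubgroup Q with hF
  have hFn : F.Normal := Cfsg.Agent.Lib.Helper1Fitting.fitting_normal
  have hFnil : Group.IsNilpotent F := Cfsg.Agent.Lib.Helper1Fitting.fitting_isNilpotent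
  have hpF : ¬ p ∣ Nat.card F := by
    intro hd
    obtain ⟨P⟩ : Nonempty (Sylow p F) := inferInstance
    have hPn : (P : Subgroup F).Normal := inferInstance
    have hPc : (P : Subgroup F).Characteristic := P.characteristic_of_normal hPn
    have h1 : ((P : Subgroup F).map F.subtype).Normal :=
      Cfsg.Agent.Lib.Helper1Char.normal_map_of_characteristic _
    have h2 := hOp _ h1 (P.isPGroup'.map _)
    have h3 : (P : Subgroup F) = ⊥ := by
      rw [← Subgroup.map_bot F.subtype] at h2
      exact Subgroup.map_injective F.subtype_injective h2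
    exact P.ne_bot_of_dvd_card hd h3
  have key : ∀ y : Q, (orderOf y).Coprime p → F ≤ Subgroup.centralizer ({y} : Set Q) := by
    intro y hy
    obtain ⟨k, hk⟩ := h y hy
    rw [← Subgroup.relIndex_eq_one]
    have h1 : (Subgroup.centralizer ({y} : Set Q)).relIndex F ∣ p ^ k :=
      hk ▸ relIndex_dvd_index_of_normal_right _ F
    have h2 : (Subgroup.centralizer ({y} : Set Q)).relIndex F ∣ Nat.card F := Subgroup.relIndex_dvd_card _ _
    have hcop : Nat.Coprime (p ^ k) (Nat.card F) :=
      Nat.Coprime.pow_left _ ((Nat.Prime.coprime_iff_not_dvd hp).2 hpF)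
    exact Nat.eq_one_of_dvd_coprimes hcop h1 h2
  have hbF : b ∈ F := by
    apply Cfsg.Agent.S0044.result
    rw [Subgroup.mem_centralizer_iff]
    intro f hf
    have := key b hb hf
    rw [Subgroup.mem_centralizer_singleton_iff] at this
    exact this
  have := key a ha hbF
  rw [Subgroup.mem_centralizer_singleton_iff] at this
  exact this.symm

theorem ac_of_hyp {p : ℕ} (hp : p.Prime) (G : Type u) [Group G] [Finite G] (h : Hyp p G) : AC p G := by
  have := Fact.mk hp
  have hsol : Group.IsSolvable G := hyp_solvable hp G h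
  set c := Nat.card G with hc
  have hc0 : c ≠ 0 := Nat.card_pos.ne'
  have hmn : c = (c / p ^ c.factorization p) * p ^ c.factorization p :=
    (Nat.div_mul_cancel (Nat.ordProj_dvd c p)).symm
  have hcop : (c / p ^ c.factorization p).Coprime (p ^ c.factorization p) :=
    ((Nat.coprime_ordCompl hp hc0).symm).pow_right _
  obtain ⟨H, hH⟩ := Cfsg.Agent.S0003.result (G := G) _ _ hmn hcop
  have hpH : ¬ p ∣ Nat.card H := by
    rw [hH]; exact Nat.not_dvd_ordCompl hp hc0
  refine ⟨H, ?_, hpH, c.factorization p, ?_⟩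
  · set R := Cfsg.pCore p G with hR
    have hRn : R.Normal := Cfsg.Agent.Lib.Helper1Fitting.pCore_normal p
    have hRp : IsPGroup p R := Cfsg.Agent.Lib.Helper1Fitting.pCore_isPGroup p
    have hOp : ∀ T : Subgroup (G ⧸ R), T.Normal → IsPGroup p T → T = ⊥ := by
      intro T hTn hTp
      have h1 : IsPGroup p (T.comap (QuotientGroup.mk' R)) := by
        apply hTp.comap_of_ker_isPGroup
        rw [QuotientGroup.ker_mk']
        exact hRp
      have h2 : T.comap (QuotientGroup.mk' R) ≤ R :=
        Cfsg.Agent.Lib.Helper1Fitting.le_pCore (hTn.comap _) h1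
      rw [Subgroup.eq_bot_iff_forall]
      intro t ht
      obtain ⟨g, rfl⟩ := QuotientGroup.mk'_surjective R t
      exact (QuotientGroup.eq_one_iff g).2 (h2 ht)
    have hcopH : ∀ a ∈ H, (orderOf a).Coprime p := by
      intro a ha
      have h1 : orderOf a ∣ Nat.card H := Subgroup.orderOf_dvd_natCard H ha
      exact Nat.Coprime.coprime_dvd_left h1 ((Nat.Prime.coprime_iff_not_dvd hp).2 hpH).symm
    refine isMulCommutative_iff.2 fun a b => Subtype.ext ?_
    show (a : G) * b = b * a
    have h1 := commute_of_core_trivial hp (G ⧸ R) (hyp_quot hp G R h) hOp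
      (QuotientGroup.mk' R a) (QuotientGroup.mk' R b)
      (Nat.Coprime.coprime_dvd_left (orderOf_map_dvd _ _) (hcopH a a.2))
      (Nat.Coprime.coprime_dvd_left (orderOf_map_dvd _ _) (hcopH b b.2))
    set d : G := (a : G) * b * ((b : G) * a)⁻¹ with hd
    have hdR : d ∈ R := by
      rw [← QuotientGroup.eq_one_iff]
      show QuotientGroup.mk' R d = 1
      rw [hd, map_mul, map_inv, map_mul, map_mul, h1, mul_inv_cancel]
    have hdH : d ∈ H := H.mul_mem (H.mul_mem a.2 b.2) (H.inv_mem (H.mul_mem b.2 a.2))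
    obtain ⟨j, hj⟩ := hRp ⟨d, hdR⟩
    have hj' : d ^ (p ^ j) = 1 := congrArg Subtype.val hj
    have h2 : orderOf d ∣ p ^ j := orderOf_dvd_of_pow_eq_one hj'
    have h3 : (orderOf d).Coprime (p ^ j) := (hcopH d hdH).pow_right _
    have h4 : orderOf d = 1 := Nat.eq_one_of_dvd_coprimes h3 dvd_rfl h2
    rw [orderOf_eq_one_iff] at h4
    exact mul_inv_eq_one.1 h4
  · have h1 := Subgroup.card_mul_index H
    rw [hH, ← hc] at h1
    have h2 : 0 < c / p ^ c.factorization p := Nat.pos_of_ne_zero (by
      intro h0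
      rw [h0, zero_mul] at hmn
      exact hc0 hmn)
    apply Nat.eq_of_mul_eq_mul_left h2
    rw [h1]
    exact hmn

theorem hyp_of_ac {p : ℕ} (hp : p.Prime) (G : Type u) [Group G] [Finite G] (h : AC p G) : Hyp p G := by
  have hsol : Group.IsSolvable G := ac_solvable hp G h
  obtain ⟨H, hc, hH, k, hk⟩ := h
  intro x hx
  have hmn : Nat.card G = Nat.card H * p ^ k := by rw [← hk, Subgroup.card_mul_index]
  have hcop : (Nat.card H).Coprime (p ^ k) :=
    Nat.Coprime.pow_right _ ((Nat.Prime.coprime_iff_not_dvd hp).2 hH).symm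
  obtain ⟨H', hH', hxH'⟩ := Cfsg.Agent.S0005.result (G := G) _ _ hmn hcop (Subgroup.zpowers x)
    (by rw [Nat.card_zpowers]; exact hx.pow_right _)
  obtain ⟨g, hg⟩ := Cfsg.Agent.S0004.result (G := G) _ _ hmn hcop H H' rfl hH'
  have hle : H' ≤ Subgroup.centralizer ({x} : Set G) := by
    intro y hy
    rw [Subgroup.mem_centralizer_singleton_iff]
    have hx' : x ∈ H' := hxH' (Subgroup.mem_zpowers x)
    rw [← hg] at hy hx'
    obtain ⟨y', hy', rfl⟩ := hy
    obtain ⟨x', hx'', rfl⟩ := hx'
    have : y' * x' = x' * y' := setLike_mul_comm hy' hx''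
    show (MulAut.conj g) y' * (MulAut.conj g) x' = (MulAut.conj g) x' * (MulAut.conj g) y'
    rw [← map_mul, ← map_mul, this]
  have hidx : H'.index = p ^ k := by
    have h1 := Subgroup.card_mul_index H'
    rw [hH', hmn] at h1
    exact Nat.eq_of_mul_eq_mul_left Nat.card_pos h1
  have h1 : (Subgroup.centralizer ({x} : Set G)).index ∣ p ^ k := hidx ▸ Subgroup.index_dvd_of_le hle
  obtain ⟨j, -, hj⟩ := (Nat.dvd_prime_pow hp).1 h1
  exact ⟨j, hj⟩

/-- Let G be a finite group and p a prime. Every conjugacy class of p-regular elements of G (elements of order prime to p) has p-power size if and only if G has an abelian p-complement, i.e. an abelian subgroup of order prime to p and p-power index. -/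
theorem result {G : Type*} [Group G] [Finite G] {p : ℕ} (hp : p.Prime) :
    (∀ x : G, (orderOf x).Coprime p → ∃ k : ℕ, (ConjClasses.mk x).carrier.ncard = p ^ k) ↔
    (∃ H : Subgroup G, IsMulCommutative H ∧ ¬ p ∣ Nat.card H ∧ ∃ k : ℕ, H.index = p ^ k) := by
  have e : ∀ x : G, (ConjClasses.mk x).carrier.ncard = (Subgroup.centralizer ({x} : Set G)).index := by
    intro x
    rw [Cfsg.Agent.Lib.Helper73Class.index_centralizer_eq_card_carrier, Nat.card_coe_set_eq]
  simp only [e]
  exact ⟨fun h => ac_of_hyp hp G h, fun h => hyp_of_ac hp G h⟩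

end Cfsg.Agent.S4034
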