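import Cfsg.Statements.S4035
import Cfsg.Agent.Lib.Helper72Class
import Cfsg.Agent.Lib.Helper73Class
-- import your own Cfsg.Agent.* helpers here

set_option autoImplicit false
open Cfsg

namespace Cfsg.Agent.S4035

/-- Let G be a finite group and p a prime such that p divides the size of no conjugacy class of p-regular elements (elements of order prime to p). Then G is the internal direct product of a Sylow p-subgroup P and a normal subgroup H of order prime to p: P is normal, P ⊓ H = 1 and PH = G. -/
theorem result {G : Type*} [Group G] [Finite G] {p : ℕ} [Fact p.Prime]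
    (h : ∀ x : G, (orderOf x).Coprime p → ¬ p ∣ (ConjClasses.mk x).carrier.ncard) (P : Sylow p G) :
    (P : Subgroup G).Normal ∧ ∃ H : Subgroup G, H.Normal ∧ ¬ p ∣ Nat.card H ∧
      (P : Subgroup G) ⊓ H = ⊥ ∧ (P : Subgroup G) ⊔ H = ⊤ := by
  have hp : p.Prime := Fact.out
  have h' : ∀ y : G, (orderOf y).Coprime p →
      ¬ p ∣ (Subgroup.centralizer ({y} : Set G)).index := by
    intro y hy
    rw [Lib.Helper73Class.index_centralizer_eq_card_carrier, Nat.card_coe_set_eq]
    exact h y hy
  obtain ⟨hPn, -⟩ := Lib.Helper72Class.sylow_normal_of_pPrime_index p h' P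
  obtain ⟨K, hmem, ⟨n, hidx⟩, hcop, -⟩ := Lib.Helper72Class.exists_pPrime_subgroup p h'
  have hKn : K.Normal := by
    constructor
    intro y hy g
    rw [hmem] at hy ⊢
    have : orderOf (g * y * g⁻¹) = orderOf y := by
      have := (MulAut.conj g).orderOf_eq y
      simpa [MulAut.conj_apply] using this
    rw [this]; exact hy
  have hnd : ¬ p ∣ Nat.card K := by
    intro hd
    exact hp.one_lt.ne' (Nat.Coprime.eq_one_of_dvd hcop.symm hd)
  have hdisj : (P : Subgroup G) ⊓ K = ⊥ := by
    have hc : (Nat.card (P : Subgroup G)).Coprime (Nat.card K) := by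
      obtain ⟨k, hk⟩ := IsPGroup.iff_card.mp P.isPGroup'
      rw [hk]
      exact (Nat.Coprime.pow_left k hcop.symm)
    exact (Subgroup.disjoint_of_coprime_natCard hc).eq_bot
  refine ⟨hPn, K, hKn, hnd, hdisj, ?_⟩
  rw [← Subgroup.index_eq_one]
  have h1 : ((P : Subgroup G) ⊔ K).index ∣ (P : Subgroup G).index :=
    Subgroup.index_dvd_of_le le_sup_left
  have h2 : ((P : Subgroup G) ⊔ K).index ∣ p ^ n := by
    rw [← hidx]; exact Subgroup.index_dvd_of_le le_sup_right
  have h3 : ((P : Subgroup G).index).Coprime (p ^ n) := by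
    apply Nat.Coprime.pow_right
    rw [Nat.coprime_comm, Nat.Prime.coprime_iff_not_dvd hp]
    exact P.not_dvd_index
  exact Nat.eq_one_of_dvd_coprimes h3 h1 h2

end Cfsg.Agent.S4035
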