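import Cfsg.Statements.S4036
import Cfsg.Agent.Lib.Helper71PAct
-- import your own Cfsg.Agent.* helpers here

set_option autoImplicit false
open Cfsg

namespace Cfsg.Agent.S4036

/-- Let P be a finite abelian p-group and K a group of automorphisms of P (a subgroup of Aut P) whose order is divisible by p. If all non-identity elements of K have the same fixed-point subgroup on P, then K has no non-trivial normal subgroup of order prime to p. -/
theorem result {P : Type*} [CommGroup P] [Finite P] {p : ℕ}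
    [Fact p.Prime] (hP : IsPGroup p P) (K : Subgroup (MulAut P)) (hK : p ∣ Nat.card K)
    (hfix : ∀ x y : MulAut P, x ∈ K → y ∈ K → x ≠ 1 → y ≠ 1 → ∀ v : P, x v = v ↔ y v = v) :
    ∀ N : Subgroup ↥K, N.Normal → ¬ p ∣ Nat.card N → N = ⊥ := by
  classical
  intro N hN hpN
  by_contra hne
  obtain ⟨n₀, hn₀N, hn₀1⟩ : ∃ n₀ : K, n₀ ∈ N ∧ n₀ ≠ 1 := by
    obtain ⟨a, ha⟩ := (Subgroup.ne_bot_iff_exists_ne_one).1 hne
    exact ⟨(a : K), a.2, fun h => ha (Subtype.ext h)⟩
  haveI : Finite (MulAut P) := inferInstance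
  haveI := Fintype.ofFinite N
  let θ : P →* P := ∏ n : N, (((n : K) : MulAut P)).toMonoidHom
  have θ_apply : ∀ v, θ v = ∏ n : N, ((n : K) : MulAut P) v := by
    intro v
    simp [θ]
  have hequiv : ∀ k : K, ∀ v : P, (k : MulAut P) (θ v) = θ ((k : MulAut P) v) := by
    intro k v
    rw [θ_apply, θ_apply, map_prod]
    refine Fintype.prod_equiv (MulAut.conjNormal k : MulAut N).toEquiv _ _ fun n => ?_
    have : (((MulAut.conjNormal k : MulAut N) n : K) : MulAut P) = (k : MulAut P) * ((n : K) : MulAut P) * (k : MulAut P)⁻¹ := by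
      rw [MulAut.conjNormal_apply]; rfl
    show _ = (((MulAut.conjNormal k : MulAut N) n : K) : MulAut P) _
    rw [this]
    simp
  have hinvN : ∀ n : N, ∀ v : P, θ (((n : K) : MulAut P) v) = θ v := by
    intro n v
    rw [θ_apply, θ_apply]
    refine Fintype.prod_equiv (Equiv.mulRight n) _ _ fun m => ?_
    simp
  obtain ⟨x, hx⟩ := exists_prime_orderOf_dvd_card' p hK
  have hx1 : (x : MulAut P) ≠ 1 := by
    intro h
    have : x = 1 := Subtype.ext h
    rw [this, orderOf_one] at hx
    exact (Fact.out : p.Prime).one_lt.ne hx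
  have hn₀1' : ((n₀ : K) : MulAut P) ≠ 1 := fun h => hn₀1 (Subtype.ext h)
  -- kernel meets the fixed points trivially
  have hWC : ∀ v : P, θ v = 1 → (x : MulAut P) v = v → v = 1 := by
    intro v hv hxv
    have hfixall : ∀ n : N, ((n : K) : MulAut P) v = v := by
      intro n
      by_cases hn : ((n : K) : MulAut P) = 1
      · rw [hn]; rfl
      · exact (hfix _ _ x.2 (n : K).2 hx1 hn v).1 hxv
    have h1 : v ^ Nat.card N = 1 := by
      rw [← hv, θ_apply, Finset.prod_congr rfl (fun n _ => hfixall n), Finset.prod_const,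
        Finset.card_univ, Nat.card_eq_fintype_card]
    obtain ⟨k, hk⟩ := hP v
    have hcop : Nat.Coprime (p ^ k) (Nat.card N) :=
      Nat.Coprime.pow_left _ ((Nat.Prime.coprime_iff_not_dvd Fact.out).2 hpN)
    have := orderOf_dvd_of_pow_eq_one h1
    have h2 := orderOf_dvd_of_pow_eq_one hk
    exact orderOf_eq_one_iff.1 (Nat.eq_one_of_dvd_coprimes hcop h2 this)
  have hker : θ.ker = ⊥ := by
    by_contra hW
    have hA : IsPGroup p (Subgroup.zpowers x) := by
      rw [IsPGroup.iff_card]
      exact ⟨1, by rw [Nat.card_zpowers, hx, pow_one]⟩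
    obtain ⟨w, hw, hw1, hwfix⟩ := Cfsg.Agent.Lib.Helper71PAct.exists_fixed_ne_one hA
      (K.subtype.comp (Subgroup.zpowers x).subtype) θ.ker (hP.to_subgroup _) hW
      (by
        intro a w hw
        rw [MonoidHom.mem_ker] at hw ⊢
        show θ (((a : K) : MulAut P) w) = 1
        rw [← hequiv, hw, map_one])
    exact hw1 (hWC w hw (hwfix ⟨x, Subgroup.mem_zpowers x⟩))
  apply hn₀1'
  ext v
  have := hinvN ⟨n₀, hn₀N⟩ v
  exact (MonoidHom.ker_eq_bot_iff θ).1 hker this

end Cfsg.Agent.S4036
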