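import Cfsg.Statements.S4039
import Cfsg.Agent.Lib.Helper71MaxNil
-- import your own Cfsg.Agent.* helpers here

set_option autoImplicit false
open Cfsg

namespace Cfsg.Agent.S4039

theorem comm_central {L : Type*} [Group L] [Group.IsNilpotent L]
    (h : Group.nilpotencyClass L ≤ 2) (x y z : L) :
    (x * y * x⁻¹ * y⁻¹) * z = z * (x * y * x⁻¹ * y⁻¹) := by
  have h1 : Subgroup.upperCentralSeries L 2 = ⊤ :=
    Subgroup.upperCentralSeries_eq_top_iff_nilpotencyClass_le.mpr h
  have h2 : x ∈ Subgroup.upperCentralSeries L (1 + 1) := by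
    show x ∈ Subgroup.upperCentralSeries L 2
    rw [h1]; exact Subgroup.mem_top x
  rw [Subgroup.mem_upperCentralSeries_succ_iff] at h2
  have h3 := h2 y
  rw [Subgroup.upperCentralSeries_one] at h3
  exact (Subgroup.mem_center_iff.mp h3 z).symm

theorem coreFree {G : Type*} [Group G] [Finite G] (M : Subgroup G) (hmax : IsCoatom M)
    (hnil : Group.IsNilpotent M) (hcore : M.normalCore = ⊥)
    (hcl : Group.nilpotencyClass ↥M ≤ 2) : Group.IsSolvable G := by
  apply Lib.Helper71MaxNil.solvable_of_npc M hmax hnil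
  · intro p hp hpM
    have : Fact p.Prime := ⟨hp⟩
    obtain ⟨P, hP⟩ := Lib.Helper71MaxNil.exists_data M hmax hnil hcore p hpM
    exact hP.not_dvd_index
  · intro p hp hpM
    have : Fact p.Prime := ⟨hp⟩
    obtain ⟨P, hP⟩ := Lib.Helper71MaxNil.exists_data M hmax hnil hcore p hpM
    apply hP.card_pResidual_coprime hnil
    intro x hx y hy z hz
    have := comm_central hcl (⟨x, hP.le hx⟩ : M) ⟨y, hP.le hy⟩ ⟨z, hP.le hz⟩
    exact congrArg Subtype.val this

/-- A finite group possessing a maximal subgroup that is nilpotent of class at most 2 is solvable. -/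
theorem result {G : Type*} [Group G] [Finite G]
    (M : Subgroup G) (hmax : IsCoatom M) (hnil : Group.IsNilpotent M) (hcl : Group.nilpotencyClass ↥M ≤ 2) :
    Group.IsSolvable G := by
  refine Lib.Helper71MaxNil.solvable_of_coreFree
    (fun G _ M => Group.nilpotencyClass ↥M ≤ 2) ?_ ?_ _ G M rfl hmax hnil hcl
  · intro G _ _ M N _ _ hnil h
    exact le_trans (Group.nilpotencyClass_le_of_surjective ((QuotientGroup.mk' N).subgroupMap M)
      (MonoidHom.subgroupMap_surjective _ _)) h
  · intro G _ _ M hmax hnil hcore h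
    exact coreFree M hmax hnil hcore h

end Cfsg.Agent.S4039
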