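import Cfsg.Statements.S4043
import Cfsg.Agent.Lib.Helper30SZ
import Cfsg.Agent.Lib.Helper40NPC
import Cfsg.Agent.Lib.Helper71PAct
-- import your own Cfsg.Agent.* helpers here

set_option autoImplicit false
open Cfsg

namespace Cfsg.Agent.S4043

theorem npc_data {G : Type*} [Group G] [Finite G] {p : ℕ} [Fact p.Prime] (A : Subgroup G)
    (hAp : Cfsg.HasNormalPComplement p A) :
    ∃ K P : Subgroup G, K ≤ A ∧ P ≤ A ∧ (∀ x ∈ A, x ∈ K ↔ (orderOf x).Coprime p) ∧
      (Nat.card K).Coprime p ∧ IsPGroup p P ∧ K ⊔ P = A := by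
  have hp : p.Prime := Fact.out
  obtain ⟨K', hKn, hnd, hq, hmem⟩ := Lib.Helper40NPC.exists_of_hasNormalPComplement hAp
  let P' : Sylow p A := default
  have htop : K' ⊔ (P' : Subgroup A) = ⊤ := by
    rw [← Subgroup.index_eq_one]
    obtain ⟨j, hj⟩ := IsPGroup.iff_card.mp hq
    have h1 : (K' ⊔ (P' : Subgroup A)).index ∣ p ^ j := by
      rw [← hj, ← Subgroup.index_eq_card]; exact Subgroup.index_dvd_of_le le_sup_left
    have h2 : (K' ⊔ (P' : Subgroup A)).index ∣ (P' : Subgroup A).index :=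
      Subgroup.index_dvd_of_le le_sup_right
    have h3 : ((P' : Subgroup A).index).Coprime (p ^ j) := by
      apply Nat.Coprime.pow_right
      rw [Nat.coprime_comm, Nat.Prime.coprime_iff_not_dvd hp]
      exact P'.not_dvd_index
    exact Nat.eq_one_of_dvd_coprimes h3 h2 h1
  refine ⟨K'.map A.subtype, (P' : Subgroup A).map A.subtype, ?_, ?_, ?_, ?_, ?_, ?_⟩
  · rintro _ ⟨x, -, rfl⟩; exact x.2
  · rintro _ ⟨x, -, rfl⟩; exact x.2
  · intro x hx
    have : x ∈ K'.map A.subtype ↔ (⟨x, hx⟩ : A) ∈ K' := by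
      constructor
      · rintro ⟨y, hy, hyx⟩
        have : y = ⟨x, hx⟩ := Subtype.ext hyx
        rwa [← this]
      · intro h; exact ⟨_, h, rfl⟩
    rw [this, hmem, Subgroup.orderOf_mk]
  · rw [Subgroup.card_map_of_injective A.subtype_injective, Nat.coprime_comm,
      Nat.Prime.coprime_iff_not_dvd hp]
    exact hnd
  · exact P'.isPGroup'.map _
  · rw [← Subgroup.map_sup, htop, ← MonoidHom.range_eq_map, Subgroup.range_subtype]

theorem key {G : Type*} [Group G] [Finite G] {p : ℕ} (N : Subgroup G) [N.Normal]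
    (A A₁ K K₁ : Subgroup G) (hA : A.IsComplement' N) (hK₁ : K₁ ≤ A₁)
    (hKmem : ∀ x ∈ A, x ∈ K ↔ (orderOf x).Coprime p)
    (hKmem₁ : ∀ x ∈ A₁, x ∈ K₁ ↔ (orderOf x).Coprime p) : K₁ ≤ N ⊔ K := by
  intro k hk
  obtain ⟨⟨⟨a, ha⟩, ⟨n, hn⟩⟩, hak, -⟩ := hA.existsUnique k
  have hak' : a * n = k := hak
  have hkc := (hKmem₁ k (hK₁ hk)).mp hk
  have h1 : (QuotientGroup.mk a : G ⧸ N) = QuotientGroup.mk k := by
    rw [← hak', QuotientGroup.mk_mul, (QuotientGroup.eq_one_iff n).mpr hn, mul_one]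
  have h2 : a ^ orderOf k ∈ N := by
    rw [← QuotientGroup.eq_one_iff, QuotientGroup.mk_pow, h1, ← QuotientGroup.mk_pow,
      pow_orderOf_eq_one, QuotientGroup.mk_one]
  have h3 : a ^ orderOf k = 1 := by
    have : a ^ orderOf k ∈ A ⊓ N := ⟨A.pow_mem ha _, h2⟩
    rwa [hA.disjoint.eq_bot, Subgroup.mem_bot] at this
  have h4 : orderOf a ∣ orderOf k := orderOf_dvd_of_pow_eq_one h3
  have h5 : a ∈ K := (hKmem a ha).mpr (Nat.Coprime.coprime_dvd_left h4 hkc)
  rw [← hak']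
  exact (N ⊔ K).mul_mem (Subgroup.mem_sup_right h5) (Subgroup.mem_sup_left hn)

/-- Let G be a finite group that is the semidirect product of a normal p-subgroup N by a subgroup A, and also of N by a subgroup A₁, where p is a prime and A and A₁ both have normal p-complements. If C_N(A) = C_N(A₁) = 1, then A₁ is conjugate to A by an element of N. -/
theorem result {G : Type*} [Group G] [Finite G] {p : ℕ}
    [Fact p.Prime] (N : Subgroup G) [N.Normal] (hN : IsPGroup p N) (A A₁ : Subgroup G)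
    (hA : A.IsComplement' N) (hA₁ : A₁.IsComplement' N)
    (hAp : Cfsg.HasNormalPComplement p A) (hA₁p : Cfsg.HasNormalPComplement p A₁)
    (hC : ∀ n : G, n ∈ N → (∀ a : G, a ∈ A → a * n * a⁻¹ = n) → n = 1)
    (hC₁ : ∀ n : G, n ∈ N → (∀ a : G, a ∈ A₁ → a * n * a⁻¹ = n) → n = 1) :
    ∃ n : G, n ∈ N ∧ A₁ = A.map (MulAut.conj n).toMonoidHom := by
  have hp : p.Prime := Fact.out
  obtain ⟨K, P, hKA, hPA, hKmem, hKcop, hPp, hKP⟩ := npc_data A hAp
  obtain ⟨K₁, P₁, hKA₁, hPA₁, hKmem₁, hKcop₁, hPp₁, hKP₁⟩ := npc_data A₁ hA₁p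
  have hle1 : K₁ ≤ N ⊔ K := key N A A₁ K K₁ hA hKA₁ hKmem hKmem₁
  have hle2 : K ≤ N ⊔ K₁ := key N A₁ A K₁ K hA₁ hKA hKmem₁ hKmem
  have hsup : N ⊔ K = N ⊔ K₁ :=
    le_antisymm (sup_le le_sup_left hle2) (sup_le le_sup_left hle1)
  have hnN : ∀ H : Subgroup G, H ≤ Subgroup.normalizer (N : Set G) := by
    intro H
    rw [Subgroup.normalizer_eq_top]; exact le_top
  obtain ⟨e, he⟩ := IsPGroup.iff_card.mp hN
  have hc : (Nat.card K).Coprime (Nat.card N) := by rw [he]; exact hKcop.pow_right e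
  have hc₁ : (Nat.card K₁).Coprime (Nat.card N) := by rw [he]; exact hKcop₁.pow_right e
  have hcard : Nat.card K₁ = Nat.card K := by
    have h1 := Lib.Helper30SZ.card_sup (hnN K) hc
    have h2 := Lib.Helper30SZ.card_sup (hnN K₁) hc₁
    rw [hsup, h2] at h1
    exact Nat.eq_of_mul_eq_mul_left Nat.card_pos h1
  have hsolv : Group.IsSolvable N := by
    have := hN.isNilpotent
    infer_instance
  obtain ⟨n, hn, hconj⟩ := Lib.Helper30SZ.sz_conj (hnN K) hc (Or.inr hsolv) hle1 hcard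
  -- normality of the complements
  have hord : ∀ g x : G, orderOf (g * x * g⁻¹) = orderOf x := by
    intro g x
    have := (MulAut.conj g).orderOf_eq x
    simpa [MulAut.conj_apply] using this
  have hKn : ∀ a ∈ A, ∀ k ∈ K, a * k * a⁻¹ ∈ K := by
    intro a ha k hk
    rw [hKmem _ (A.mul_mem (A.mul_mem ha (hKA hk)) (A.inv_mem ha)), hord]
    exact (hKmem k (hKA hk)).mp hk
  have hKn₁ : ∀ a ∈ A₁, ∀ k ∈ K₁, a * k * a⁻¹ ∈ K₁ := by
    intro a ha k hk
    rw [hKmem₁ _ (A₁.mul_mem (A₁.mul_mem ha (hKA₁ hk)) (A₁.inv_mem ha)), hord]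
    exact (hKmem₁ k (hKA₁ hk)).mp hk
  -- the centraliser of K₁ in N is trivial
  have hW : N ⊓ Subgroup.centralizer (K₁ : Set G) = ⊥ := by
    by_contra hne
    have hWp : IsPGroup p ↥(N ⊓ Subgroup.centralizer (K₁ : Set G)) :=
      hN.to_le inf_le_left
    obtain ⟨w, hw, hw1, hfix⟩ := Lib.Helper71PAct.exists_fixed_ne_one hPp₁
      ((MulAut.conj : G →* MulAut G).comp P₁.subtype) _ hWp hne (by
        intro a w hw
        have ha : (a : G) ∈ A₁ := hPA₁ a.2
        refine Subgroup.mem_inf.mpr ⟨?_, ?_⟩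
        · simpa [MulAut.conj_apply] using ‹N.Normal›.conj_mem w hw.1 a
        · rw [Subgroup.mem_centralizer_iff]
          intro k hk
          have h1 : (a : G)⁻¹ * k * (a : G)⁻¹⁻¹ ∈ K₁ := hKn₁ _ (A₁.inv_mem ha) k hk
          have h2 := (Subgroup.mem_centralizer_iff.mp hw.2) _ h1
          simp only [MonoidHom.comp_apply, Subgroup.coe_subtype, MulAut.conj_apply]
          calc k * ((a : G) * w * (a : G)⁻¹)
              = a * (((a : G)⁻¹ * k * (a : G)⁻¹⁻¹) * w) * (a : G)⁻¹ := by group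
            _ = a * (w * ((a : G)⁻¹ * k * (a : G)⁻¹⁻¹)) * (a : G)⁻¹ := by rw [h2]
            _ = (a : G) * w * (a : G)⁻¹ * k := by group)
    apply hw1
    apply hC₁ w hw.1
    have hle : A₁ ≤ Subgroup.centralizer ({w} : Set G) := by
      rw [← hKP₁]
      apply sup_le
      · intro k hk
        rw [Subgroup.mem_centralizer_singleton_iff]
        exact (Subgroup.mem_centralizer_iff.mp hw.2) k hk
      · intro a ha
        rw [Subgroup.mem_centralizer_singleton_iff]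
        have := hfix ⟨a, ha⟩
        simp only [MonoidHom.comp_apply, Subgroup.coe_subtype, MulAut.conj_apply] at this
        calc a * w = (a * w * a⁻¹) * a := by group
          _ = w * a := by rw [this]
    intro a ha
    have := Subgroup.mem_centralizer_singleton_iff.mp (hle ha)
    rw [this]; group
  have hsub : A.map (MulAut.conj n).toMonoidHom ≤ A₁ := by
    rintro _ ⟨a, ha, rfl⟩
    show n * a * n⁻¹ ∈ A₁
    obtain ⟨⟨⟨a₁, ha₁⟩, ⟨m, hm⟩⟩, ham, -⟩ := hA₁.existsUnique (n * a * n⁻¹)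
    have ham' : a₁ * m = n * a * n⁻¹ := ham
    have hgn : ∀ k ∈ K₁, (n * a * n⁻¹) * k * (n * a * n⁻¹)⁻¹ ∈ K₁ := by
      intro k hk
      rw [hconj]
      have := hKn a ha _ ((hconj k).mp hk)
      have e : n⁻¹ * (n * a * n⁻¹ * k * (n * a * n⁻¹)⁻¹) * n = a * (n⁻¹ * k * n) * a⁻¹ := by
        group
      rw [e]; exact this
    have hmn : ∀ k ∈ K₁, m * k * m⁻¹ ∈ K₁ := by
      intro k hk
      have h1 := hKn₁ _ (A₁.inv_mem ha₁) _ (hgn k hk)
      have e : m * k * m⁻¹ = a₁⁻¹ * ((a₁ * m) * k * (a₁ * m)⁻¹) * a₁⁻¹⁻¹ := by group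
      rw [e, ham']; exact h1
    have hdisj : ∀ x, x ∈ K₁ → x ∈ N → x = 1 := by
      intro x hx1 hx2
      exact Lib.Helper30SZ.eq_one_of_mem_of_mem hc₁ hx2 hx1
    have hmW : m ∈ N ⊓ Subgroup.centralizer (K₁ : Set G) := by
      refine Subgroup.mem_inf.mpr ⟨hm, ?_⟩
      rw [Subgroup.mem_centralizer_iff]
      intro k hk
      have h1 : m * k * m⁻¹ * k⁻¹ ∈ K₁ := K₁.mul_mem (hmn k hk) (K₁.inv_mem hk)
      have h2 : m * k * m⁻¹ * k⁻¹ ∈ N := by
        have := N.mul_mem hm (‹N.Normal›.conj_mem _ (N.inv_mem hm) k)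
        simpa [mul_assoc] using this
      have h3 := hdisj _ h1 h2
      calc k * m = (m * k * m⁻¹ * k⁻¹)⁻¹ * (m * k) := by group
        _ = m * k := by rw [h3]; simp
    rw [hW, Subgroup.mem_bot] at hmW
    rw [← ham', hmW, mul_one]; exact ha₁
  refine ⟨n, hn, ?_⟩
  symm
  apply Subgroup.eq_of_le_of_card_ge hsub
  rw [Subgroup.card_map_of_injective (MulAut.conj n).injective]
  have h1 := hA.card_mul_card
  have h2 := hA₁.card_mul_card
  rw [← h2] at h1
  exact (Nat.eq_of_mul_eq_mul_right Nat.card_pos h1).ge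

end Cfsg.Agent.S4043
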