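import Cfsg.Statements.S4049
import Cfsg.Agent.Lib.Helper30SZ
-- import your own Cfsg.Agent.* helpers here

set_option autoImplicit false
open Cfsg

namespace Cfsg.Agent.S4049

theorem centralizes {G : Type*} [Group G] [Finite G] (H : Subgroup G)
    (hodd : ¬ 2 ∣ (Subgroup.centralizer (H : Set G)).relIndex (Subgroup.normalizer (H : Set G)))
    (x : G) (hx : x ∈ Subgroup.normalizer (H : Set G)) (k : ℕ) (hk : x ^ 2 ^ k = 1) :
    x ∈ Subgroup.centralizer (H : Set G) := by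
  have hker := H.normalizerMonoidHom_ker
  have hidx : H.normalizerMonoidHom.ker.index =
      (Subgroup.centralizer (H : Set G)).relIndex (Subgroup.normalizer (H : Set G)) := by
    rw [hker]; rfl
  rw [Subgroup.index_ker] at hidx
  set f := H.normalizerMonoidHom
  have h1 : orderOf (f ⟨x, hx⟩) ∣ 2 ^ k := by
    apply orderOf_dvd_of_pow_eq_one
    rw [← map_pow]
    have : (⟨x, hx⟩ : Subgroup.normalizer (H : Set G)) ^ 2 ^ k = 1 :=
      Subtype.ext (by simpa using hk)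
    rw [this, map_one]
  have h2 : orderOf (f ⟨x, hx⟩) ∣ Nat.card f.range := by
    have := orderOf_dvd_natCard (⟨f ⟨x, hx⟩, ⟨_, rfl⟩⟩ : f.range)
    rwa [← Subgroup.orderOf_coe] at this
  have h3 : (2 ^ k).Coprime (Nat.card f.range) := by
    rw [hidx]
    apply Nat.Coprime.pow_left
    exact (Nat.Prime.coprime_iff_not_dvd Nat.prime_two).mpr hodd
  have h4 : orderOf (f ⟨x, hx⟩) = 1 := Nat.eq_one_of_dvd_coprimes h3 h1 h2
  rw [orderOf_eq_one_iff] at h4
  have h5 : (⟨x, hx⟩ : Subgroup.normalizer (H : Set G)) ∈ f.ker := h4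
  rw [hker, Subgroup.mem_subgroupOf] at h5
  exact h5

theorem grow {G : Type*} [Group G] [Finite G] (S D : Subgroup G) (hS : IsPGroup 2 S)
    (hlt : D < S) :
    ∃ s ∈ S, s ∉ D ∧ s ∈ Subgroup.normalizer (D : Set G) ∧ s ^ 2 ∈ D := by
  have : Fact (Nat.Prime 2) := ⟨Nat.prime_two⟩
  have : Group.IsNilpotent S := hS.isNilpotent
  have hnc := Group.normalizerCondition_of_isNilpotent (G := S)
  have h1 : D.subgroupOf S < ⊤ := by
    rw [lt_top_iff_ne_top]
    intro h
    rw [Subgroup.subgroupOf_eq_top] at h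
    exact absurd h (not_le_of_gt hlt)
  have h2 := hnc _ h1
  obtain ⟨s₀, hs₀N, hs₀D⟩ := SetLike.exists_of_lt h2
  obtain ⟨k, hk⟩ := hS s₀
  have hs₀N' : (s₀ : G) ∈ Subgroup.normalizer (D : Set G) := by
    apply Subgroup.mem_normalizer_fintype
    intro n hn
    have hnS : n ∈ S := hlt.le hn
    have := (Subgroup.mem_normalizer_iff.mp hs₀N ⟨n, hnS⟩).mp (Subgroup.mem_subgroupOf.mpr hn)
    exact Subgroup.mem_subgroupOf.mp this
  have hex : ∃ j, (s₀ : G) ^ 2 ^ j ∈ D := ⟨k, by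
    have : (s₀ : G) ^ 2 ^ k = 1 := by
      have := congrArg Subtype.val hk
      simpa using this
    rw [this]; exact D.one_mem⟩
  classical
  have hj : Nat.find hex ≠ 0 := by
    intro h0
    have := Nat.find_spec hex
    rw [h0] at this
    apply hs₀D
    rw [Subgroup.mem_subgroupOf]
    simpa using this
  obtain ⟨i, hi⟩ := Nat.exists_eq_succ_of_ne_zero hj
  refine ⟨(s₀ : G) ^ 2 ^ i, S.pow_mem s₀.2 _, ?_, Subgroup.pow_mem _ hs₀N' _, ?_⟩
  · exact Nat.find_min hex (by omega)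
  · have := Nat.find_spec hex
    rw [hi] at this
    rw [← pow_mul, ← pow_succ]
    exact this

theorem pow_mod {G : Type*} [Group G] (D : Subgroup G) (u d : G)
    (hu : u ∈ Subgroup.normalizer (D : Set G)) (hd : d ∈ D) (k : ℕ) :
    (d * u) ^ k * (u ^ k)⁻¹ ∈ D := by
  induction k with
  | zero => simp
  | succ k ih =>
    have h1 : u ^ k * d * (u ^ k)⁻¹ ∈ D :=
      (Subgroup.mem_normalizer_iff.mp (Subgroup.pow_mem _ hu k) d).mp hd
    have e : (d * u) ^ (k + 1) * (u ^ (k + 1))⁻¹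
        = ((d * u) ^ k * (u ^ k)⁻¹) * (u ^ k * d * (u ^ k)⁻¹) := by
      rw [pow_succ, pow_succ]; group
    rw [e]; exact D.mul_mem ih h1

theorem mem_normalizer_of_map_le {G : Type*} [Group G] [Finite G] (E : Subgroup G) (s : G)
    (h : E.map (MulAut.conj s).toMonoidHom ≤ E) : s ∈ Subgroup.normalizer (E : Set G) := by
  apply Subgroup.mem_normalizer_fintype
  intro n hn
  exact h ⟨n, hn, rfl⟩

/-- Let G be a finite group such that N_G(H)/C_G(H) has odd order for every nontrivial subgroup H of odd order. Then the Sylow 2-subgroups of G are normal. -/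
theorem result {G : Type*} [Group G] [Finite G]
    (hhom : ∀ H : Subgroup G, H ≠ ⊥ → ¬ 2 ∣ Nat.card ↥H →
        ¬ 2 ∣ (Subgroup.centralizer (H : Set G)).relIndex (Subgroup.normalizer (H : Set G))) (P : Sylow 2 G) :
    (P : Subgroup G).Normal := by
  have : Fact (Nat.Prime 2) := ⟨Nat.prime_two⟩
  by_contra hnot
  have hex : ∃ S T : Sylow 2 G, S ≠ T := by
    by_contra hall
    push Not at hall
    apply hnot
    rw [← Subgroup.normalizer_eq_top_iff, eq_top_iff]
    intro g _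
    exact Sylow.smul_eq_iff_mem_normalizer.mp (hall _ _)
  obtain ⟨S₀, T₀, hne₀⟩ := hex
  have : Nonempty {ST : Sylow 2 G × Sylow 2 G // ST.1 ≠ ST.2} := ⟨⟨(S₀, T₀), hne₀⟩⟩
  obtain ⟨⟨⟨S, T⟩, hST⟩, hmax⟩ := Finite.exists_max
    (fun ST : {ST : Sylow 2 G × Sylow 2 G // ST.1 ≠ ST.2} =>
      Nat.card ((ST.1.1 : Subgroup G) ⊓ (ST.1.2 : Subgroup G) : Subgroup G))
  have hST' : S ≠ T := hST
  set D : Subgroup G := (S : Subgroup G) ⊓ T with hD
  have hmax' : ∀ S' T' : Sylow 2 G, S' ≠ T' →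
      Nat.card ((S' : Subgroup G) ⊓ T' : Subgroup G) ≤ Nat.card D :=
    fun S' T' h => hmax ⟨(S', T'), h⟩
  have hDS : D < S := by
    refine lt_of_le_of_ne inf_le_left ?_
    intro h
    have : (S : Subgroup G) ≤ T := by rw [← h]; exact inf_le_right
    exact hST' (Sylow.ext (S.is_maximal' T.isPGroup' this).symm)
  have hDT : D < T := by
    refine lt_of_le_of_ne inf_le_right ?_
    intro h
    have : (T : Subgroup G) ≤ S := by rw [← h]; exact inf_le_left
    exact hST' (Sylow.ext (T.is_maximal' S.isPGroup' this))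
  have hDp : IsPGroup 2 D := S.isPGroup'.to_le inf_le_left
  have huniq : ∀ (U R : Sylow 2 G) (r : G), D ≤ U → D ≤ R → r ∈ U → r ∈ R → r ∉ D → U = R := by
    intro U R r hDU hDR hrU hrR hrD
    by_contra hne
    have h1 := hmax' U R hne
    have h2 : D = (U : Subgroup G) ⊓ R := Subgroup.eq_of_le_of_card_ge (le_inf hDU hDR) h1
    apply hrD
    rw [h2]; exact ⟨hrU, hrR⟩
  obtain ⟨s, hsS, hsD, hsN, hs2⟩ := grow S D S.isPGroup' hDS
  obtain ⟨t, htT, htD, htN, ht2⟩ := grow T D T.isPGroup' hDT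
  have huN : s * t ∈ Subgroup.normalizer (D : Set G) := Subgroup.mul_mem _ hsN htN
  have hd₀ : s ^ 2 * t ^ 2 ∈ D := D.mul_mem hs2 ht2
  have hconj : s * (s * t) * s⁻¹ = (s ^ 2 * t ^ 2) * (s * t)⁻¹ := by
    simp only [pow_two, mul_inv_rev, mul_assoc]
    simp
  -- the product is not a 2-element
  have hA : ∀ k : ℕ, (s * t) ^ 2 ^ k ≠ 1 := by
    intro k hk
    have hZ : IsPGroup 2 (Subgroup.zpowers (s * t)) := by
      have h1 : orderOf (s * t) ∣ 2 ^ k := orderOf_dvd_of_pow_eq_one hk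
      obtain ⟨j, -, hj⟩ := (Nat.dvd_prime_pow Nat.prime_two).mp h1
      apply IsPGroup.of_card (n := j)
      rw [Nat.card_zpowers, hj]
    have hE : IsPGroup 2 (Subgroup.zpowers (s * t) ⊔ D : Subgroup G) :=
      hZ.to_sup_of_normal_right' hDp (Subgroup.zpowers_le.mpr huN)
    have hsE : s ∈ Subgroup.normalizer ((Subgroup.zpowers (s * t) ⊔ D : Subgroup G) : Set G) := by
      apply mem_normalizer_of_map_le
      rw [Subgroup.map_sup, sup_le_iff]
      constructor
      · rw [MonoidHom.map_zpowers, Subgroup.zpowers_le]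
        show s * (s * t) * s⁻¹ ∈ _
        rw [hconj]
        exact Subgroup.mul_mem _ (Subgroup.mem_sup_right hd₀)
          (Subgroup.inv_mem _ (Subgroup.mem_sup_left (Subgroup.mem_zpowers _)))
      · rintro _ ⟨d, hd, rfl⟩
        exact Subgroup.mem_sup_right ((Subgroup.mem_normalizer_iff.mp hsN d).mp hd)
    have hF : IsPGroup 2 (Subgroup.zpowers s ⊔ (Subgroup.zpowers (s * t) ⊔ D) : Subgroup G) :=
      (S.isPGroup'.to_le (Subgroup.zpowers_le.mpr hsS)).to_sup_of_normal_right' hE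
        (Subgroup.zpowers_le.mpr hsE)
    obtain ⟨U, hU⟩ := hF.exists_le_sylow
    have hsU : s ∈ U := hU (Subgroup.mem_sup_left (Subgroup.mem_zpowers _))
    have hstU : s * t ∈ U :=
      hU (Subgroup.mem_sup_right (Subgroup.mem_sup_left (Subgroup.mem_zpowers _)))
    have hDU : D ≤ U := le_trans (le_trans le_sup_right le_sup_right) hU
    have htU : t ∈ U := by
      have := (U : Subgroup G).mul_mem ((U : Subgroup G).inv_mem hsU) hstU
      rw [inv_mul_cancel_left] at this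
      exact this
    have e1 : U = S := huniq U S s hDU hDS.le hsU hsS hsD
    have e2 : U = T := huniq U T t hDU hDT.le htU htT htD
    exact hST' (e1.symm.trans e2)
  obtain ⟨a, m, hm, ham⟩ := Nat.exists_eq_two_pow_mul_odd (orderOf_pos (s * t)).ne'
  set h := (s * t) ^ 2 ^ a with hh
  have hh1 : h ≠ 1 := hA a
  have hhm : h ^ m = 1 := by
    rw [hh, ← pow_mul, ← ham, pow_orderOf_eq_one]
  have hhN : h ∈ Subgroup.normalizer (D : Set G) := Subgroup.pow_mem _ huN _
  have hHodd : ¬ 2 ∣ Nat.card (Subgroup.zpowers h) := by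
    rw [Nat.card_zpowers]
    intro h2
    have := h2.trans (orderOf_dvd_of_pow_eq_one hhm)
    exact (Nat.not_even_iff_odd.mpr hm) (even_iff_two_dvd.mpr this)
  have hHne : Subgroup.zpowers h ≠ ⊥ := by
    rw [Ne, Subgroup.zpowers_eq_bot]; exact hh1
  have hd₁ : s * h * s⁻¹ * h ∈ D := by
    have h1 := pow_mod D (s * t)⁻¹ _ (Subgroup.inv_mem _ huN) hd₀ (2 ^ a)
    rw [← hconj] at h1
    have e : (s * (s * t) * s⁻¹) ^ 2 ^ a = s * h * s⁻¹ := by
      rw [hh, conj_pow]
    rw [e, inv_pow, inv_inv] at h1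
    exact h1
  obtain ⟨e, he⟩ := IsPGroup.iff_card.mp hDp
  have hcop : (Nat.card (Subgroup.zpowers h)).Coprime (Nat.card D) := by
    rw [he]
    apply Nat.Coprime.pow_right
    exact ((Nat.Prime.coprime_iff_not_dvd Nat.prime_two).mpr hHodd).symm
  have hsolv : Group.IsSolvable D := by
    have := hDp.isNilpotent
    infer_instance
  obtain ⟨n, hn, hnconj⟩ := Lib.Helper30SZ.sz_conj (N := D) (A := Subgroup.zpowers h)
    (B := (Subgroup.zpowers h).map (MulAut.conj s).toMonoidHom)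
    (Subgroup.zpowers_le.mpr hhN) hcop (Or.inr hsolv)
    (by
      rw [MonoidHom.map_zpowers, Subgroup.zpowers_le]
      show s * h * s⁻¹ ∈ _
      have e : s * h * s⁻¹ = (s * h * s⁻¹ * h) * h⁻¹ := by group
      rw [e]
      exact Subgroup.mul_mem _ (Subgroup.mem_sup_left hd₁)
        (Subgroup.inv_mem _ (Subgroup.mem_sup_right (Subgroup.mem_zpowers _))))
    (Subgroup.card_map_of_injective (MulAut.conj s).injective)
  have hx₀ : n⁻¹ * (s * h * s⁻¹) * n ∈ Subgroup.zpowers h :=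
    (hnconj _).mp ⟨h, Subgroup.mem_zpowers h, rfl⟩
  have hx₀N : n⁻¹ * s ∈ Subgroup.normalizer ((Subgroup.zpowers h : Subgroup G) : Set G) := by
    apply mem_normalizer_of_map_le
    rw [MonoidHom.map_zpowers, Subgroup.zpowers_le]
    show n⁻¹ * s * h * (n⁻¹ * s)⁻¹ ∈ _
    have e : n⁻¹ * s * h * (n⁻¹ * s)⁻¹ = n⁻¹ * (s * h * s⁻¹) * n := by group
    rw [e]; exact hx₀
  have hx₀S : n⁻¹ * s ∈ S := S.mul_mem (S.inv_mem (hDS.le hn)) hsS
  obtain ⟨k, hk⟩ := S.isPGroup' ⟨n⁻¹ * s, hx₀S⟩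
  have hk' : (n⁻¹ * s) ^ 2 ^ k = 1 := by
    have := congrArg Subtype.val hk
    simpa using this
  have hcent := centralizes _ (hhom _ hHne hHodd) _ hx₀N k hk'
  have hcomm := (Subgroup.mem_centralizer_iff.mp hcent) h (Subgroup.mem_zpowers h)
  have hh2 : h * h ∈ D := by
    have h1 : h⁻¹ * n * h⁻¹⁻¹ ∈ D :=
      (Subgroup.mem_normalizer_iff.mp (Subgroup.inv_mem _ hhN) n).mp hn
    have h2 : n⁻¹ * (s * h * s⁻¹ * h) * (h⁻¹ * n * h⁻¹⁻¹) ∈ D :=
      D.mul_mem (D.mul_mem (D.inv_mem hn) hd₁) h1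
    have e : n⁻¹ * (s * h * s⁻¹ * h) * (h⁻¹ * n * h⁻¹⁻¹) = ((n⁻¹ * s) * h) * (n⁻¹ * s)⁻¹ * h := by
      group
    rw [e, ← hcomm, mul_assoc h, mul_inv_cancel, mul_one] at h2
    exact h2
  have hh3 : h * h = 1 :=
    Lib.Helper30SZ.eq_one_of_mem_of_mem hcop hh2
      (Subgroup.mul_mem _ (Subgroup.mem_zpowers h) (Subgroup.mem_zpowers h))
  apply hh1
  have h1 : orderOf h ∣ 2 := orderOf_dvd_of_pow_eq_one (by rw [pow_two]; exact hh3)
  have h2 : orderOf h ∣ m := orderOf_dvd_of_pow_eq_one hhm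
  have h3 : Nat.Coprime 2 m := (Nat.coprime_two_left).mpr hm
  rw [← orderOf_eq_one_iff]
  exact Nat.eq_one_of_dvd_coprimes h3 h1 h2

end Cfsg.Agent.S4049
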