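import Cfsg.Statements.S4050
import Cfsg.Agent.Lib.Helper71Pi
-- import your own Cfsg.Agent.* helpers here

set_option autoImplicit false
open Cfsg

namespace Cfsg.Agent.S4050

/-- Let π be a set of primes and G a finite group. The π-elements of G (elements whose order is divisible only by primes of π) form a subgroup if and only if G is π-separable (it has a chain of normal subgroups from 1 to G with each successive index divisible only by primes in π or only by primes outside π) and N_G(H)/C_G(H) is a π'-group for every nontrivial π'-subgroup H of G. -/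
theorem result {G : Type*} [Group G] [Finite G] (π : Set ℕ)
    (hπ : ∀ p ∈ π, p.Prime) :
    (∃ K : Subgroup G, ∀ x : G, x ∈ K ↔ ∀ p : ℕ, p.Prime → p ∣ orderOf x → p ∈ π) ↔
    ((∃ (n : ℕ) (H : Fin (n + 1) → Subgroup G), H 0 = ⊥ ∧ H (Fin.last n) = ⊤ ∧ Monotone H ∧ (∀ i, (H i).Normal) ∧
      ∀ i : Fin n, (∀ q : ℕ, q.Prime → q ∣ (H i.castSucc).relIndex (H i.succ) → q ∈ π) ∨
        (∀ q : ℕ, q.Prime → q ∣ (H i.castSucc).relIndex (H i.succ) → q ∉ π)) ∧
     (∀ H : Subgroup G, H ≠ ⊥ → (∀ p : ℕ, p.Prime → p ∣ Nat.card ↥H → p ∉ π) →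
        ∀ p : ℕ, p.Prime → p ∣ (Subgroup.centralizer (H : Set G)).relIndex (Subgroup.normalizer (H : Set G)) → p ∉ π)) := by
  constructor
  · rintro ⟨B, hB⟩
    have hB' : ∀ x : G, x ∈ B ↔ Lib.Helper72Pi.IsPiElt π x := hB
    have hBn : B.Normal := by
      constructor
      intro x hx g
      rw [hB'] at hx ⊢
      exact hx.conj g
    have hBcard : ∀ q : ℕ, q.Prime → q ∣ Nat.card B → q ∈ π :=
      Lib.Helper71Pi.card_pi_of_forall B fun x hx => (hB' x).mp hx
    have hBidx : ∀ q : ℕ, q.Prime → q ∣ B.index → q ∉ π := by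
      intro q hq hqd hqπ
      have : Fact q.Prime := ⟨hq⟩
      let P : Sylow q G := default
      have hPB : (P : Subgroup G) ≤ B := fun x hx =>
        (hB' x).mpr (Lib.Helper71Pi.isPiElt_of_isPGroup hq hqπ _ P.isPGroup' x hx)
      exact P.not_dvd_index (hqd.trans (Subgroup.index_dvd_of_le hPB))
    refine ⟨⟨2, ![⊥, B, ⊤], rfl, rfl, ?_, ?_, ?_⟩, ?_⟩
    · rw [Fin.monotone_iff_le_succ]
      intro i
      fin_cases i
      · exact bot_le
      · exact le_top
    · intro i
      fin_cases i
      · exact Subgroup.normal_bot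
      · exact hBn
      · exact Subgroup.normal_top
    · intro i
      fin_cases i
      · left
        intro q hq hqd
        apply hBcard q hq
        have e : (⊥ : Subgroup G).relIndex B = Nat.card B := Subgroup.relIndex_bot_left B
        rw [← e]; exact hqd
      · right
        intro q hq hqd
        apply hBidx q hq
        have e : B.relIndex ⊤ = B.index := Subgroup.relIndex_top_right B
        rw [← e]; exact hqd
    · intro H _ hH p hp hpd hpπ
      have : Fact p.Prime := ⟨hp⟩
      obtain ⟨h1, h2, h3⟩ := Lib.Helper71Pi.exists_sylow_ambient p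
        (Subgroup.normalizer (H : Set G)) default
      apply h3
      refine hpd.trans (Subgroup.relIndex_dvd_of_le_left _ ?_)
      intro x hx
      have hxB : x ∈ B := (hB' x).mpr (Lib.Helper71Pi.isPiElt_of_isPGroup hp hpπ _ h2 x hx)
      have hxN := h1 hx
      have hdisj : B ⊓ H = ⊥ := by
        apply (Subgroup.disjoint_of_coprime_natCard _).eq_bot
        exact Nat.coprime_of_dvd fun k hk hk1 hk2 => hH k hk hk2 (hBcard k hk hk1)
      rw [Subgroup.mem_centralizer_iff]
      intro h hh
      have m1 : x * h * x⁻¹ * h⁻¹ ∈ H :=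
        H.mul_mem ((Subgroup.mem_normalizer_iff.mp hxN h).mp hh) (H.inv_mem hh)
      have m2 : x * h * x⁻¹ * h⁻¹ ∈ B := by
        have := B.mul_mem hxB (hBn.conj_mem _ (B.inv_mem hxB) h)
        simpa [mul_assoc] using this
      have m3 : x * h * x⁻¹ * h⁻¹ ∈ B ⊓ H := ⟨m2, m1⟩
      rw [hdisj, Subgroup.mem_bot] at m3
      calc h * x = (x * h * x⁻¹ * h⁻¹)⁻¹ * (x * h) := by group
        _ = x * h := by rw [m3]; simp
  · rintro ⟨⟨n, H, h0, hlast, hmono, hnorm, hstep⟩, hhom⟩
    have hH := Lib.Helper71Pi.homCond_of_relIndex π hhom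
    have key : ∀ i : Fin (n + 1), ∃ B : Subgroup G,
        ∀ x : G, x ∈ B ↔ x ∈ H i ∧ Lib.Helper72Pi.IsPiElt π x := by
      intro i
      induction i using Fin.induction with
      | zero =>
        refine ⟨⊥, fun x => ?_⟩
        rw [h0, Subgroup.mem_bot]
        constructor
        · rintro rfl
          exact ⟨rfl, Lib.Helper72Pi.IsPiElt.one π⟩
        · exact fun h => h.1
      | succ i ih =>
        obtain ⟨L, hL⟩ := ih
        have := hnorm i.castSucc
        have hle : H i.castSucc ≤ H i.succ := hmono (Fin.castSucc_lt_succ).le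
        rcases hstep i with h | h
        · exact Lib.Helper71Pi.core_ambient π hH (H i.castSucc) (H i.succ) h L hL
        · refine ⟨L, fun x => ?_⟩
          rw [hL]
          constructor
          · exact fun hx => ⟨hle hx.1, hx.2⟩
          · rintro ⟨hx, hxπ⟩
            refine ⟨?_, hxπ⟩
            apply Lib.Helper71Pi.mem_of_coprime_relIndex _ _ hle x hx
            exact Nat.coprime_of_dvd fun k hk hk1 hk2 => h k hk hk2 (hxπ k hk hk1)
    obtain ⟨B, hB⟩ := key (Fin.last n)
    refine ⟨B, fun x => ?_⟩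
    rw [hB, hlast]
    exact ⟨fun h => h.2, fun h => ⟨Subgroup.mem_top x, h⟩⟩

end Cfsg.Agent.S4050
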