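import Cfsg.Statements.S4051
import Cfsg.Agent.Lib.Helper71Pi
-- import your own Cfsg.Agent.* helpers here

set_option autoImplicit false
open Cfsg

namespace Cfsg.Agent.S4051

/-- Let π be a set of primes and G a finite group such that N_G(H)/C_G(H) is a π'-group for every nontrivial π'-subgroup H of G. If K is a normal subgroup of G such that the π-elements of K form a subgroup and the π-elements of G/K form a subgroup, then the π-elements of G form a subgroup. -/
theorem result {G : Type*} [Group G] [Finite G] (π : Set ℕ)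
    (hπ : ∀ p ∈ π, p.Prime) (hhom : (∀ H : Subgroup G, H ≠ ⊥ → (∀ p : ℕ, p.Prime → p ∣ Nat.card ↥H → p ∉ π) →
        ∀ p : ℕ, p.Prime → p ∣ (Subgroup.centralizer (H : Set G)).relIndex (Subgroup.normalizer (H : Set G)) → p ∉ π))
    (K : Subgroup G) [K.Normal]
    (hK : ∃ L : Subgroup ↥K, ∀ x : ↥K, x ∈ L ↔ ∀ p : ℕ, p.Prime → p ∣ orderOf x → p ∈ π)
    (hQ : ∃ L : Subgroup (G ⧸ K), ∀ x : G ⧸ K, x ∈ L ↔ ∀ p : ℕ, p.Prime → p ∣ orderOf x → p ∈ π) :
    (∃ K : Subgroup G, ∀ x : G, x ∈ K ↔ ∀ p : ℕ, p.Prime → p ∣ orderOf x → p ∈ π) := by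
  have hH := Lib.Helper71Pi.homCond_of_relIndex π hhom
  obtain ⟨L', hL'⟩ := hK
  obtain ⟨LQ, hLQ⟩ := hQ
  set f := QuotientGroup.mk' K with hf
  have hfs : Function.Surjective f := QuotientGroup.mk'_surjective K
  have hrel : K.relIndex (LQ.comap f) = Nat.card LQ := by
    have h1 := Subgroup.relIndex_comap (⊥ : Subgroup (G ⧸ K)) f (LQ.comap f)
    rw [Subgroup.map_comap_eq_self_of_surjective hfs, Subgroup.relIndex_bot_left] at h1
    rw [← h1]
    congr 1
    exact (QuotientGroup.ker_mk' K).symm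
  obtain ⟨B, hB⟩ := Lib.Helper71Pi.core_ambient π hH K (LQ.comap f)
    (by
      rw [hrel]
      exact Lib.Helper71Pi.card_pi_of_forall LQ fun x hx => (hLQ x).mp hx)
    (L'.map K.subtype)
    (by
      intro x
      constructor
      · rintro ⟨y, hy, rfl⟩
        refine ⟨y.2, ?_⟩
        intro q hq hqd
        rw [Subgroup.coe_subtype, Subgroup.orderOf_coe] at hqd
        exact (hL' y).mp hy q hq hqd
      · rintro ⟨hx, hxπ⟩
        refine ⟨⟨x, hx⟩, (hL' _).mpr ?_, rfl⟩
        intro q hq hqd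
        rw [Subgroup.orderOf_mk] at hqd
        exact hxπ q hq hqd)
  refine ⟨B, fun x => ?_⟩
  rw [hB]
  constructor
  · exact fun h => h.2
  · intro h
    refine ⟨?_, h⟩
    rw [Subgroup.mem_comap, hLQ]
    intro q hq hqd
    exact h q hq (hqd.trans (orderOf_map_dvd f x))

end Cfsg.Agent.S4051
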