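import Cfsg.Statements.S4056
import Cfsg.Agent.Lib.Helper71Frattini
-- import your own Cfsg.Agent.* helpers here

set_option autoImplicit false
open Cfsg

namespace Cfsg.Agent.S4056

/-- In a finite 2-group of nilpotency class at most 2 and exponent dividing 4, the Frattini subgroup lies in the centre and is elementary abelian. -/
theorem result {P : Type*} [Group P] [Finite P] (hP : IsPGroup 2 P)
    (hcl : Group.nilpotencyClass P ≤ 2) (hexp : Monoid.exponent P ∣ 4) :
    frattini P ≤ Subgroup.center P ∧ Cfsg.IsElementaryAbelian 2 (frattini P) := by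
  haveI : Group.IsNilpotent P := hP.isNilpotent
  have hup : Subgroup.upperCentralSeries P 2 = ⊤ :=
    Subgroup.upperCentralSeries_eq_top_iff_nilpotencyClass_le.2 hcl
  have hcen : ∀ x y : P, x * y * x⁻¹ * y⁻¹ ∈ Subgroup.center P := by
    intro x y
    have hx : x ∈ Subgroup.upperCentralSeries P (1 + 1) := by
      rw [show (1 + 1 : ℕ) = 2 from rfl, hup]; exact Subgroup.mem_top x
    have := Subgroup.mem_upperCentralSeries_succ_iff.1 hx y
    rwa [Subgroup.upperCentralSeries_one] at this
  have h4 : ∀ x : P, x ^ 4 = 1 := fun x =>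
    (Monoid.exponent_dvd_iff_forall_pow_eq_one.1 hexp) x
  have key : ∀ x y : P, (y * x * y⁻¹ * x⁻¹) ^ 2 = 1 ∧ y * x ^ 2 = x ^ 2 * y := by
    intro x y
    set d := y * x * y⁻¹ * x⁻¹ with hd
    have hdc : ∀ t : P, d * t = t * d := fun t => ((Subgroup.mem_center_iff.1 (hcen y x)) t).symm
    have e0 : y * x = x * (y * d) := by
      rw [← hdc y, ← mul_assoc, ← hdc x, hd]; group
    have e1 : ∀ t, y * (x * t) = x * (y * (d * t)) := by
      intro t; rw [← mul_assoc, e0]; simp only [mul_assoc]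
    have e2 : ∀ t, d * (x * t) = x * (d * t) := by
      intro t; rw [← mul_assoc, hdc x, mul_assoc]
    have e3 : ∀ t, d * (y * t) = y * (d * t) := by
      intro t; rw [← mul_assoc, hdc y, mul_assoc]
    have e4 : (x * y) ^ 4 = x ^ 4 * (y ^ 4 * d ^ 6) := by
      simp only [pow_succ, pow_zero, one_mul, mul_assoc, e0, e1, e2, e3, hdc x, hdc y]
    have e5 : d ^ 6 = 1 := by
      rw [h4, h4, h4, one_mul, one_mul] at e4
      exact e4.symm
    have e6 : d ^ 2 = 1 := by
      have : d ^ 6 = d ^ 4 * d ^ 2 := by rw [← pow_add]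
      rw [this, h4, one_mul] at e5
      exact e5
    refine ⟨e6, ?_⟩
    have e7 : y * x ^ 2 = x ^ 2 * (y * d ^ 2) := by
      simp only [pow_succ, pow_zero, one_mul, mul_assoc, e0, e1, e2, e3, hdc x, hdc y]
    rw [e7, e6, mul_one]
  let Z2 : Subgroup P :=
    { carrier := {a | a ∈ Subgroup.center P ∧ a ^ 2 = 1}
      one_mem' := ⟨Subgroup.one_mem _, one_pow 2⟩
      mul_mem' := by
        rintro a b ⟨ha, ha2⟩ ⟨hb, hb2⟩
        refine ⟨Subgroup.mul_mem _ ha hb, ?_⟩
        have hab : Commute a b := (Subgroup.mem_center_iff.1 hb a)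
        rw [hab.mul_pow, ha2, hb2, one_mul]
      inv_mem' := by
        rintro a ⟨ha, ha2⟩
        exact ⟨Subgroup.inv_mem _ ha, by rw [inv_pow, ha2, inv_one]⟩ }
  have hle : frattini P ≤ Z2 := by
    apply Cfsg.Agent.Lib.Helper71Frattini.frattini_le_of_elem_quot 2 Nat.prime_two
    · intro x y
      exact ⟨hcen x y, (key y x).1⟩
    · intro x
      refine ⟨Subgroup.mem_center_iff.2 fun y => (key x y).2, ?_⟩
      rw [← pow_mul]; exact h4 x
  refine ⟨fun a ha => (hle ha).1, ?_, fun a ha => (hle ha).2⟩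
  refine isMulCommutative_iff.2 fun a b => Subtype.ext ?_
  exact (Subgroup.mem_center_iff.1 (hle b.2).1 a)

end Cfsg.Agent.S4056
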