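import Cfsg.Statements.S4065
import Mathlib
import Cfsg.Agent.Lib.Helper41SL2Even

set_option autoImplicit false
open Cfsg
open Cfsg.Agent.Lib.Helper41SL2 Cfsg.Agent.Lib.Helper46SL2

namespace Cfsg.Agent.S4065

theorem ti_of_ca {G : Type*} [Group G]
    (h : ∀ a b c : G, a ≠ 1 → Commute b a → Commute c a → Commute b c) (x : G) :
    Cfsg.IsTISubset ((Subgroup.centralizer ({x} : Set G) : Subgroup G) : Set G) := by
  intro g hg y hy hgy
  by_contra hy1
  apply hg
  have hy' : Commute y x := Subgroup.mem_centralizer_singleton_iff.mp hy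
  have hgy' : Commute (g * y * g⁻¹) x := Subgroup.mem_centralizer_singleton_iff.mp hgy
  by_cases hx : x = 1
  · subst hx
    rw [Subgroup.mem_normalizer_iff]
    intro z
    simp [Subgroup.mem_centralizer_singleton_iff]
  have hgy1 : g * y * g⁻¹ ≠ 1 := by
    intro h1
    apply hy1
    have : y = g⁻¹ * (g * y * g⁻¹) * g := by group
    rw [this, h1]; group
  rw [Subgroup.mem_normalizer_iff]
  intro z
  rw [Subgroup.mem_centralizer_singleton_iff, Subgroup.mem_centralizer_singleton_iff]
  change Commute z x ↔ Commute (g * z * g⁻¹) x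
  constructor
  · intro hz
    -- z commutes with y, so the conjugate commutes with the conjugate of y, hence with x
    have h1 : Commute z y := h x z y hx hz hy'
    have h2 : Commute (g * z * g⁻¹) (g * y * g⁻¹) := (Commute.conj_iff g).mpr h1
    exact h _ _ _ hgy1 h2 hgy'.symm
  · intro hz
    have h1 : Commute (g * z * g⁻¹) (g * y * g⁻¹) := h x _ _ hx hz hgy'
    have h2 : Commute z y := (Commute.conj_iff g).mp h1
    exact h _ _ _ hy1 h2 hy'.symm

theorem ca_PSL2 {F : Type*} [Field F] [CharP F 2]
    (a b c : Matrix.ProjectiveSpecialLinearGroup (Fin 2) F) (ha : a ≠ 1) (hb : Commute b a)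
    (hc : Commute c a) : Commute b c := by
  obtain ⟨A, rfl⟩ := QuotientGroup.mk_surjective a
  obtain ⟨B, rfl⟩ := QuotientGroup.mk_surjective b
  obtain ⟨C, rfl⟩ := QuotientGroup.mk_surjective c
  have hinj : ∀ X Y : Matrix.SpecialLinearGroup (Fin 2) F,
      (QuotientGroup.mk X : Matrix.ProjectiveSpecialLinearGroup (Fin 2) F) = QuotientGroup.mk Y → X = Y := by
    intro X Y h
    rcases (mk_eq_mk_iff X Y).mp h with h1 | h1
    · exact h1.symm
    · rw [h1, ← neg_one_mul, neg_one_eq_one_of_char_two, one_mul]
  have hA : A ∉ Subgroup.center (Matrix.SpecialLinearGroup (Fin 2) F) := by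
    intro h
    exact ha ((mk_eq_one_iff A).mpr h)
  have hb' : B * A = A * B := hinj _ _ hb
  have hc' : C * A = A * C := hinj _ _ hc
  have := commute_of_mem_centralizer hA hb' hc'
  exact congrArg (QuotientGroup.mk : _ → Matrix.ProjectiveSpecialLinearGroup (Fin 2) F) this

/-- Let F be a finite field with 2ⁿ elements, n ≥ 2. In PSL₂(F) the centralizer of every element meets each of its conjugates by elements outside its normalizer trivially. -/
theorem result (n : ℕ) (hn : 2 ≤ n)
    (x : Matrix.ProjectiveSpecialLinearGroup (Fin 2) (GaloisField 2 n)) :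
    Cfsg.IsTISubset (Subgroup.centralizer ({x} : Set (Matrix.ProjectiveSpecialLinearGroup (Fin 2) (GaloisField 2 n))) :
      Set (Matrix.ProjectiveSpecialLinearGroup (Fin 2) (GaloisField 2 n))) := by
  exact ti_of_ca ca_PSL2 x

end Cfsg.Agent.S4065
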