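import Cfsg.Statements.S4066
import Mathlib
-- import your own Cfsg.Agent.* helpers here

set_option autoImplicit false
open Cfsg

namespace Cfsg.Agent.S4066

universe u

theorem isPGroup_normalClosure {G : Type*} [Group G] {p : ℕ} (x : G) (k : ℕ) (hx : x ^ (p ^ k) = 1)
    (hc : ∀ g h : G, (g * x * g⁻¹) * (h * x * h⁻¹) = (h * x * h⁻¹) * (g * x * g⁻¹)) :
    IsPGroup p (Subgroup.normalClosure ({x} : Set G)) := by
  have hS : ∀ a ∈ Group.conjugatesOfSet ({x} : Set G), ∃ g : G, a = g * x * g⁻¹ := by
    intro a ha
    obtain ⟨b, hb, hab⟩ := Group.mem_conjugatesOfSet_iff.1 ha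
    rw [Set.mem_singleton_iff] at hb
    subst hb
    obtain ⟨g, hg⟩ := isConj_iff.1 hab
    exact ⟨g, hg.symm⟩
  have hcomm : IsMulCommutative (Subgroup.closure (Group.conjugatesOfSet ({x} : Set G))) := by
    apply Subgroup.isMulCommutative_closure
    intro a ha b hb
    obtain ⟨g, rfl⟩ := hS a ha
    obtain ⟨h, rfl⟩ := hS b hb
    exact hc g h
  have key : ∀ a ∈ Subgroup.closure (Group.conjugatesOfSet ({x} : Set G)), a ^ (p ^ k) = 1 := by
    intro a ha
    induction ha using Subgroup.closure_induction with
    | mem a ha =>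
      obtain ⟨g, rfl⟩ := hS a ha
      rw [conj_pow, hx]; group
    | one => exact one_pow _
    | mul a b ha hb iha ihb =>
      have : Commute a b := setLike_mul_comm ha hb
      rw [this.mul_pow, iha, ihb, one_mul]
    | inv a ha iha => rw [inv_pow, iha, inv_one]
  intro a
  exact ⟨k, Subtype.ext (key a a.2)⟩

theorem aux : ∀ (n : ℕ) (G : Type u) [Group G] [Finite G], Nat.card G = n →
    (∀ x : G, Cfsg.IsTISubset (Subgroup.centralizer ({x} : Set G) : Set G)) →
    ∀ {p : ℕ} [Fact p.Prime] (P Q : Sylow p G), P ≠ Q → (P : Subgroup G) ⊓ (Q : Subgroup G) = ⊥ := by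
  intro n
  induction n using Nat.strong_induction_on with
  | _ n ih =>
    intro G _ _ hn hTI p _ P Q hPQ
    by_contra hne
    obtain ⟨y, hyPQ, hy1⟩ : ∃ y ∈ (P : Subgroup G) ⊓ (Q : Subgroup G), y ≠ 1 := by
      by_contra hcon
      push Not at hcon
      exact hne ((Subgroup.eq_bot_iff_forall _).2 hcon)
    have hyP : y ∈ (P : Subgroup G) := hyPQ.1
    have hyQ : y ∈ (Q : Subgroup G) := hyPQ.2
    haveI : Nontrivial (P : Subgroup G) := ⟨⟨⟨y, hyP⟩, 1, fun h => hy1 (congrArg Subtype.val h)⟩⟩
    haveI : Nontrivial (Subgroup.center (P : Subgroup G)) := P.isPGroup'.center_nontrivial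
    obtain ⟨z, hz1⟩ := exists_ne (1 : Subgroup.center (P : Subgroup G))
    set zG : G := ((z : (P : Subgroup G)) : G) with hzG
    have hzG1 : zG ≠ 1 := by
      intro h
      apply hz1
      apply Subtype.ext
      apply Subtype.ext
      exact h
    have hzP : ∀ w ∈ (P : Subgroup G), w * zG = zG * w := by
      intro w hw
      have := Subgroup.mem_center_iff.1 z.2 ⟨w, hw⟩
      exact congrArg Subtype.val this
    have memC : ∀ a w : G, w ∈ Subgroup.centralizer ({a} : Set G) ↔ w * a = a * w := by
      intro a w
      rw [Subgroup.mem_centralizer_singleton_iff]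
    obtain ⟨g, hg⟩ := MulAction.exists_smul_eq G P Q
    have hQ : ∀ w : G, w ∈ (Q : Subgroup G) ↔ g⁻¹ * w * g ∈ (P : Subgroup G) := by
      intro w
      rw [← hg, Sylow.coe_subgroup_smul, Subgroup.mem_pointwise_smul_iff_inv_smul_mem]
      simp [MulAut.smul_def, MulAut.conj_apply]
    have hPC : (P : Subgroup G) ≤ Subgroup.centralizer ({zG} : Set G) := fun w hw => (memC _ _).2 (hzP w hw)
    have hgN : g ∈ Subgroup.normalizer ((Subgroup.centralizer ({zG} : Set G) : Subgroup G) : Set G) := by
      by_contra hgN
      have h1 := hTI zG g hgN (g⁻¹ * y * g) (hPC ((hQ y).1 hyQ))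
        (by
          have : g * (g⁻¹ * y * g) * g⁻¹ = y := by group
          rw [this]
          exact hPC hyP)
      apply hy1
      have : y = g * (g⁻¹ * y * g) * g⁻¹ := by group
      rw [this, h1]; group
    have hQC : (Q : Subgroup G) ≤ Subgroup.centralizer ({zG} : Set G) := by
      intro w hw
      have h1 := (Subgroup.mem_normalizer_iff.1 hgN _).1 (hPC ((hQ w).1 hw))
      have : g * (g⁻¹ * w * g) * g⁻¹ = w := by group
      rwa [this] at h1
    by_cases htop : Subgroup.centralizer ({zG} : Set G) = ⊤
    · -- central case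
      have hzc : ∀ w : G, w * zG = zG * w := by
        intro w
        exact (memC _ _).1 (htop ▸ Subgroup.mem_top w)
      have hnorm : ∀ x g' : G, g' ∈ Subgroup.normalizer ((Subgroup.centralizer ({x} : Set G) : Subgroup G) : Set G) := by
        intro x g'
        by_contra hcon
        apply hzG1
        refine hTI x g' hcon zG ((memC _ _).2 (hzc x).symm) ?_
        have : g' * zG * g'⁻¹ = zG := by rw [hzc g', mul_assoc, mul_inv_cancel, mul_one]
        rw [this]
        exact (memC _ _).2 (hzc x).symm
      have hconj : ∀ x g' : G, (g' * x * g'⁻¹) * x = x * (g' * x * g'⁻¹) := by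
        intro x g'
        exact (memC _ _).1 ((Subgroup.mem_normalizer_iff.1 (hnorm x g') x).1 ((memC _ _).2 rfl))
      apply hPQ
      have hle : (P : Subgroup G) ≤ Q := by
        intro x hx
        obtain ⟨k, hk⟩ := P.isPGroup' ⟨x, hx⟩
        have hk' : x ^ (p ^ k) = 1 := congrArg Subtype.val hk
        have hpg := isPGroup_normalClosure (p := p) x k hk' (by
          intro a b
          have h1 := hconj (b * x * b⁻¹) (a * b⁻¹)
          have h2 : a * b⁻¹ * (b * x * b⁻¹) * (a * b⁻¹)⁻¹ = a * x * a⁻¹ := by group
          rw [h2] at h1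
          exact h1)
        exact hpg.le_sylow_of_normal Q (Subgroup.subset_normalClosure (Set.mem_singleton x))
      exact Sylow.ext (P.3 Q.2 hle).symm
    · -- proper centralizer
      set H := Subgroup.centralizer ({zG} : Set G) with hH
      have hcard : Nat.card H < n := by
        rw [← hn]
        refine lt_of_le_of_ne (Subgroup.card_le_card_group H) fun h => htop (Subgroup.eq_top_of_card_eq H h)
      have hTI' : ∀ x : H, Cfsg.IsTISubset (Subgroup.centralizer ({x} : Set H) : Set H) := by
        intro x h hh w hw hw'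
        by_contra hw1
        apply hh
        have memC' : ∀ a w : H, w ∈ Subgroup.centralizer ({a} : Set H) ↔ (w : G) * a = a * w := by
          intro a w
          rw [Subgroup.mem_centralizer_singleton_iff]
          exact Subtype.ext_iff
        have h1 : (h : G) ∈ Subgroup.normalizer ((Subgroup.centralizer ({(x : G)} : Set G) : Subgroup G) : Set G) := by
          by_contra hcon
          apply hw1
          apply Subtype.ext
          exact hTI x h hcon w ((memC _ _).2 ((memC' _ _).1 hw)) ((memC _ _).2 ((memC' _ _).1 hw'))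
        rw [Subgroup.mem_normalizer_iff]
        intro v
        have h2 := Subgroup.mem_normalizer_iff.1 h1 (v : G)
        rw [memC, memC] at h2
        rw [memC', memC']
        exact h2
      have h1 := ih _ hcard H rfl hTI' (P.subtype hPC) (Q.subtype hQC)
        (fun h => hPQ (Sylow.subtype_injective h))
      have h2 : (⟨y, hPC hyP⟩ : H) ∈ ((P.subtype hPC : Sylow p H) : Subgroup H) ⊓ ((Q.subtype hQC : Sylow p H) : Subgroup H) := by
        rw [Sylow.coe_subtype, Sylow.coe_subtype]
        exact ⟨Subgroup.mem_subgroupOf.2 hyP, Subgroup.mem_subgroupOf.2 hyQ⟩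
      rw [h1, Subgroup.mem_bot] at h2
      exact hy1 (congrArg Subtype.val h2)

/-- Let G be a finite group in which the centralizer of every element meets each of its conjugates by elements outside its normalizer trivially. Then any two distinct Sylow p-subgroups of G, for any prime p, intersect trivially. -/
theorem result {G : Type*} [Group G] [Finite G] (hTI : ∀ x : G, Cfsg.IsTISubset (Subgroup.centralizer ({x} : Set G) : Set G))
    {p : ℕ} [Fact p.Prime] (P Q : Sylow p G) (hPQ : P ≠ Q) : (P : Subgroup G) ⊓ (Q : Subgroup G) = ⊥ := by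
  exact aux _ G rfl hTI P Q hPQ

end Cfsg.Agent.S4066
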