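import Cfsg.Statements.S4071
import Cfsg.Agent.Lib.Helper14CoreB

set_option autoImplicit false
open Cfsg

namespace Cfsg.Agent.S4071

open scoped Pointwise

/-- A Sylow subgroup contained in an abelian normal subgroup is normal. -/
theorem sylow_normal_of_le_abelian_normal {G : Type*} [Group G] {q : ℕ} [Fact q.Prime]
    (Q : Sylow q G) (M : Subgroup G) (hMn : M.Normal) (hM : IsMulCommutative M)
    (hQM : (Q : Subgroup G) ≤ M) : (Q : Subgroup G).Normal := by
  constructor
  intro h hh g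
  set y := g * h * g⁻¹ with hy
  have hyM : y ∈ M := hMn.conj_mem h (hQM hh) g
  have hyp : IsPGroup q (Subgroup.zpowers y) := by
    have h1 : y ∈ ((g • Q : Sylow q G) : Subgroup G) := by
      rw [Sylow.coe_subgroup_smul]
      exact ⟨h, hh, by simp [hy]⟩
    exact (g • Q : Sylow q G).isPGroup'.to_le ((Subgroup.zpowers_le).2 h1)
  have hn : Subgroup.zpowers y ≤ Subgroup.normalizer ((Q : Subgroup G) : Set G) := by
    rw [Subgroup.zpowers_le, Subgroup.mem_normalizer_iff]
    intro z
    have key : ∀ w ∈ (Q : Subgroup G), y * w * y⁻¹ = w := by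
      intro w hw
      have := hM.is_comm.comm ⟨y, hyM⟩ ⟨w, hQM hw⟩
      have e : y * w = w * y := congrArg Subtype.val this
      rw [e]; group
    constructor
    · intro hz
      rw [key z hz]; exact hz
    · intro hz
      have := key _ hz
      have e : z = y * z * y⁻¹ := by
        have h2 := congrArg (fun t => y⁻¹ * t * y) this
        beta_reduce at h2
        have h3 : y⁻¹ * (y * (y * z * y⁻¹) * y⁻¹) * y = y * z * y⁻¹ := by group
        have h4 : y⁻¹ * (y * z * y⁻¹) * y = z := by group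
        rw [h3, h4] at h2
        exact h2.symm
      rw [e]; exact hz
  have hsup := hyp.to_sup_of_normal_right' Q.isPGroup' hn
  have := Q.is_maximal' hsup le_sup_right
  rw [← this]
  exact (le_sup_left : Subgroup.zpowers y ≤ _) (Subgroup.mem_zpowers y)

theorem backward {G : Type*} [Group G] [Finite G] (x : G) (A : Subgroup G) (p : ℕ)
    (hp : p.Prime) (hAn : A.Normal) (hAc : IsMulCommutative A) (hx : ∃ k : ℕ, orderOf x = p ^ k)
    (hcompl : (Subgroup.zpowers x).IsComplement' A) (hxp : x ^ p ∈ Subgroup.center G)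
    (hfpf : ∀ a : G, a ∈ A → a ≠ 1 → x * a * x⁻¹ ≠ a)
    (H : Subgroup G) (hH : ¬ IsMulCommutative H) : Subgroup.normalizer (H : Set G) = H := by
  classical
  obtain ⟨k, hk⟩ := hx
  -- every element is `x ^ i * a`
  have hdec : ∀ g : G, ∃ i : ℕ, ∃ a ∈ A, g = x ^ i * a := by
    intro g
    have h1 : g ∈ (Subgroup.zpowers x ⊔ A : Subgroup G) := by
      rw [hcompl.sup_eq_top]; trivial
    have h2 : g ∈ ((Subgroup.zpowers x ⊔ A : Subgroup G) : Set G) := h1
    rw [Subgroup.mul_normal] at h2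
    obtain ⟨y, hy, a, ha, rfl⟩ := h2
    have hy' : y ∈ Submonoid.powers x := (mem_powers_iff_mem_zpowers).2 hy
    obtain ⟨i, rfl⟩ := hy'
    exact ⟨i, a, ha, rfl⟩
  have hAcomm : ∀ a ∈ A, ∀ b ∈ A, a * b = b * a := by
    intro a ha b hb
    exact congrArg Subtype.val (hAc.is_comm.comm ⟨a, ha⟩ ⟨b, hb⟩)
  -- some element of `H` has exponent prime to `p`
  have hex : ∃ h ∈ H, ∃ i : ℕ, ∃ a ∈ A, h = x ^ i * a ∧ ¬ p ∣ i := by
    by_contra hcon
    push Not at hcon
    apply hH
    refine ⟨⟨?_⟩⟩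
    rintro ⟨h₁, hh₁⟩ ⟨h₂, hh₂⟩
    apply Subtype.ext
    show h₁ * h₂ = h₂ * h₁
    obtain ⟨i₁, a₁, ha₁, e₁⟩ := hdec h₁
    obtain ⟨i₂, a₂, ha₂, e₂⟩ := hdec h₂
    obtain ⟨j₁, rfl⟩ := hcon h₁ hh₁ i₁ a₁ ha₁ e₁
    obtain ⟨j₂, rfl⟩ := hcon h₂ hh₂ i₂ a₂ ha₂ e₂
    have c₁ : x ^ (p * j₁) ∈ Subgroup.center G := by
      rw [pow_mul]; exact Subgroup.pow_mem _ hxp _
    have c₂ : x ^ (p * j₂) ∈ Subgroup.center G := by
      rw [pow_mul]; exact Subgroup.pow_mem _ hxp _
    rw [Subgroup.mem_center_iff] at c₁ c₂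
    rw [e₁, e₂]
    calc x ^ (p * j₁) * a₁ * (x ^ (p * j₂) * a₂)
        = x ^ (p * j₁) * (a₁ * x ^ (p * j₂)) * a₂ := by group
      _ = x ^ (p * j₁) * (x ^ (p * j₂) * a₁) * a₂ := by rw [c₂ a₁]
      _ = (x ^ (p * j₁) * x ^ (p * j₂)) * (a₁ * a₂) := by group
      _ = (x ^ (p * j₂) * x ^ (p * j₁)) * (a₂ * a₁) := by
          rw [hAcomm a₁ ha₁ a₂ ha₂, c₂ (x ^ (p * j₁))]
      _ = x ^ (p * j₂) * (x ^ (p * j₁) * a₂) * a₁ := by group
      _ = x ^ (p * j₂) * (a₂ * x ^ (p * j₁)) * a₁ := by rw [c₁ a₂]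
      _ = x ^ (p * j₂) * a₂ * (x ^ (p * j₁) * a₁) := by group
  obtain ⟨h, hhH, i, a, ha, rfl, hpi⟩ := hex
  have hcop : i.Coprime (orderOf x) := by
    rw [hk]
    exact Nat.Coprime.pow_right _ ((Nat.Prime.coprime_iff_not_dvd hp).2 hpi).symm
  obtain ⟨m, hm⟩ := exists_pow_eq_self_of_coprime hcop
  -- `h` acts fixed point freely
  have hfree : ∀ b ∈ A, (x ^ i * a) * b = b * (x ^ i * a) → b = 1 := by
    intro b hb e
    by_contra hb1
    apply hfpf b hb hb1
    have e1 : x ^ i * b = b * x ^ i := by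
      have e2 : x ^ i * (a * b) = b * x ^ i * a := by
        rw [← mul_assoc, e, mul_assoc]
      rw [hAcomm a ha b hb, ← mul_assoc] at e2
      exact mul_right_cancel e2
    have e3 : Commute (x ^ i) b := e1
    have e4 : Commute x b := by
      have := e3.pow_left m
      rwa [hm] at this
    rw [e4.eq]; group
  apply le_antisymm _ Subgroup.le_normalizer
  intro g hg
  set h := x ^ i * a with hh
  have hK : (A ⊔ Subgroup.zpowers h : Subgroup G) = ⊤ := by
    rw [eq_top_iff, ← hcompl.sup_eq_top]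
    refine sup_le ?_ le_sup_left
    rw [Subgroup.zpowers_le]
    have h1 : x ^ i ∈ (A ⊔ Subgroup.zpowers h : Subgroup G) := by
      have e : x ^ i = h * a⁻¹ := by rw [hh]; group
      rw [e]
      exact Subgroup.mul_mem _ ((le_sup_right : Subgroup.zpowers h ≤ _) (Subgroup.mem_zpowers h))
        ((le_sup_left : A ≤ _) (A.inv_mem ha))
    rw [← hm]
    exact Subgroup.pow_mem _ h1 m
  have hg2 : g ∈ ((A ⊔ Subgroup.zpowers h : Subgroup G) : Set G) := by
    rw [hK]; trivial
  rw [Subgroup.normal_mul] at hg2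
  obtain ⟨c, hc, t, ht, rfl⟩ := hg2
  have htH : t ∈ H := (Subgroup.zpowers_le.2 hhH) ht
  have hcN : c ∈ Subgroup.normalizer (H : Set G) := by
    have e : c = c * t * t⁻¹ := by group
    rw [e]
    exact Subgroup.mul_mem _ hg (Subgroup.inv_mem _ (Subgroup.le_normalizer htH))
  have hcA : c ∈ A := hc
  suffices hcH : c ∈ H from H.mul_mem hcH htH
  have hφ : ∀ b : G, b ∈ Subgroup.normalizer (H : Set G) → b ∈ A →
      b * h * b⁻¹ * h⁻¹ ∈ H ⊓ A := by
    intro b hbN hbA
    refine ⟨?_, ?_⟩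
    · exact H.mul_mem ((Subgroup.mem_normalizer_iff.1 hbN h).1 hhH) (H.inv_mem hhH)
    · have e : b * h * b⁻¹ * h⁻¹ = b * (h * b⁻¹ * h⁻¹) := by group
      rw [e]
      exact A.mul_mem hbA (hAn.conj_mem _ (A.inv_mem hbA) h)
  let φ : (H ⊓ A : Subgroup G) → (H ⊓ A : Subgroup G) := fun b =>
    ⟨b.1 * h * b.1⁻¹ * h⁻¹, hφ b.1 (Subgroup.le_normalizer b.2.1) b.2.2⟩
  have hinjG : ∀ b ∈ A, ∀ c ∈ A, b * h * b⁻¹ * h⁻¹ = c * h * c⁻¹ * h⁻¹ → b = c := by
    intro b hb c hc e
    have e1 : b * h * b⁻¹ = c * h * c⁻¹ := mul_right_cancel e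
    have e2 : h * (b⁻¹ * c) = (b⁻¹ * c) * h := by
      have := congrArg (fun t => b⁻¹ * t * c) e1
      beta_reduce at this
      have l : b⁻¹ * (b * h * b⁻¹) * c = h * (b⁻¹ * c) := by group
      have r : b⁻¹ * (c * h * c⁻¹) * c = (b⁻¹ * c) * h := by group
      rw [l, r] at this
      exact this
    have := hfree (b⁻¹ * c) (A.mul_mem (A.inv_mem hb) hc) e2
    exact (inv_mul_eq_one.1 this)
  have hinj : Function.Injective φ := by
    intro b₁ b₂ e
    apply Subtype.ext
    exact hinjG _ b₁.2.2 _ b₂.2.2 (congrArg Subtype.val e)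
  have hsurj : Function.Surjective φ := Finite.injective_iff_surjective.1 hinj
  obtain ⟨b, hb⟩ := hsurj ⟨_, hφ c hcN hcA⟩
  have := hinjG _ b.2.2 _ hcA (congrArg Subtype.val hb)
  rw [← this]
  exact b.2.1

open scoped IsMulCommutative in
theorem forward {G : Type*} [Group G] [Finite G] [Group.IsSolvable G]
    (hnn : ¬ Group.IsNilpotent G)
    (hSN : ∀ H : Subgroup G, ¬ IsMulCommutative H → Subgroup.normalizer (H : Set G) = H) :
    ∃ (x : G) (A : Subgroup G) (p : ℕ), p.Prime ∧ A.Normal ∧ IsMulCommutative A ∧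
      (∃ k : ℕ, orderOf x = p ^ k) ∧
      ¬ p ∣ Nat.card A ∧ (Subgroup.zpowers x).IsComplement' A ∧ x ^ p ∈ Subgroup.center G ∧
      ∀ a : G, a ∈ A → a ≠ 1 → x * a * x⁻¹ ≠ a := by
  classical
  -- proper normal subgroups are abelian
  have hN : ∀ N : Subgroup G, N.Normal → N ≠ ⊤ → IsMulCommutative N := by
    intro N hNn hNt
    by_contra hc
    have := hSN N hc
    rw [Subgroup.normalizer_eq_top] at this
    exact hNt this.symm
  -- a non-normal Sylow subgroup
  have h03 := (Group.isNilpotent_of_finite_tfae (G := G)).out 0 3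
  have hex : ∃ (p : ℕ) (_ : Fact p.Prime) (P : Sylow p G), ¬ (P : Subgroup G).Normal := by
    by_contra hcon
    push Not at hcon
    exact hnn (h03.2 hcon)
  obtain ⟨p, hp, P, hPn⟩ := hex
  have hnt : Nontrivial G := by
    by_contra hc
    rw [not_nontrivial_iff_subsingleton] at hc
    exact hnn inferInstance
  have hG' : commutator G ≠ ⊤ := (Group.IsSolvable.commutator_lt_top_of_nontrivial G).ne
  have hG'c : IsMulCommutative (commutator G) := hN _ inferInstance hG'
  have hPG' : (P : Subgroup G) ⊔ commutator G = ⊤ := by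
    by_contra hc
    have hn : ((P : Subgroup G) ⊔ commutator G).Normal :=
      Subgroup.Normal.of_commutator_le G le_sup_right
    exact hPn (sylow_normal_of_le_abelian_normal P _ hn (hN _ hn hc) le_sup_left)
  obtain ⟨k, hk⟩ := IsPGroup.iff_card.mp P.isPGroup'
  have hidx : (commutator G).index ∣ p ^ k := by
    rw [← hk, ← Subgroup.relIndex_top_right, ← hPG', Subgroup.relIndex_sup_right]
    exact Subgroup.relIndex_dvd_card _ _
  -- Sylow subgroups for other primes are normal
  have hQn : ∀ (q : ℕ) [Fact q.Prime], q ≠ p → ∀ Q : Sylow q G, (Q : Subgroup G).Normal := by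
    intro q hq hqp Q
    apply sylow_normal_of_le_abelian_normal Q (commutator G) inferInstance hG'c
    intro y hy
    obtain ⟨j, hj⟩ := (IsPGroup.iff_orderOf.1 Q.isPGroup') ⟨y, hy⟩
    rw [Subgroup.orderOf_mk] at hj
    have hcop : ((commutator G).index).Coprime (orderOf y) := by
      rw [hj]
      apply Nat.Coprime.coprime_dvd_left hidx
      exact Nat.Coprime.pow _ _ ((Nat.coprime_primes hp.out hq.out).2 hqp.symm)
    obtain ⟨m, hm⟩ := exists_pow_eq_self_of_coprime hcop
    rw [← hm]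
    exact Subgroup.pow_mem _ (Subgroup.pow_index_mem _ y) m
  set A : Subgroup G := pPrimeCore p G with hA
  have hAn : A.Normal := inferInstance
  have hAcop : (Nat.card A).Coprime p := Cfsg.Agent.Lib.Helper14CoreB.card_pPrimeCore_coprime p
  have hAidx : ∃ j, A.index = p ^ j := by
    refine ⟨_, Nat.eq_prime_pow_of_unique_prime_dvd (Subgroup.index_ne_zero_of_finite) ?_⟩
    intro q hq hqd
    by_contra hqp
    have : Fact q.Prime := ⟨hq⟩
    let Q : Sylow q G := default
    have hQA : (Q : Subgroup G) ≤ A := by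
      apply Cfsg.Agent.Lib.Helper14CoreB.le_pPrimeCore (hQn q hqp Q)
      obtain ⟨j, hj⟩ := IsPGroup.iff_card.mp Q.isPGroup'
      rw [hj]
      exact Nat.Coprime.pow_left _ ((Nat.coprime_primes hq hp.out).2 hqp)
    exact Q.not_dvd_index (hqd.trans (Subgroup.index_dvd_of_le hQA))
  obtain ⟨j, hj⟩ := hAidx
  have hdisj : ∀ y ∈ (P : Subgroup G), y ∈ A → y = 1 := by
    intro y hyP hyA
    have h1 : orderOf y ∣ p ^ k := by
      rw [← hk]; exact (Subgroup.orderOf_mk y hyP) ▸ orderOf_dvd_natCard (⟨y, hyP⟩ : P)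
    have h2 : orderOf y ∣ Nat.card A :=
      (Subgroup.orderOf_mk y hyA) ▸ orderOf_dvd_natCard (⟨y, hyA⟩ : A)
    have h3 : (p ^ k).Coprime (Nat.card A) := Nat.Coprime.pow_left _ hAcop.symm
    have := Nat.eq_one_of_dvd_coprimes h3 h1 h2
    exact orderOf_eq_one_iff.1 this
  have hPA : (P : Subgroup G) ⊔ A = ⊤ := by
    rw [← Subgroup.index_eq_one]
    have h1 : ((P : Subgroup G) ⊔ A).index ∣ (P : Subgroup G).index :=
      Subgroup.index_dvd_of_le le_sup_left
    have h2 : ((P : Subgroup G) ⊔ A).index ∣ p ^ j := hj ▸ Subgroup.index_dvd_of_le le_sup_right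
    have h3 : ((P : Subgroup G).index).Coprime (p ^ j) :=
      Nat.Coprime.pow_right _ ((Nat.Prime.coprime_iff_not_dvd hp.out).2 P.not_dvd_index).symm
    exact Nat.eq_one_of_dvd_coprimes h3 h1 h2
  have hAtop : A ≠ ⊤ := by
    intro hc
    apply hPn
    have : (P : Subgroup G) = ⊥ := by
      rw [Subgroup.eq_bot_iff_forall]
      intro y hy
      exact hdisj y hy (by rw [hc]; trivial)
    rw [this]
    exact Subgroup.normal_bot
  have hAc : IsMulCommutative A := hN A hAn hAtop
  have hAcomm : ∀ a ∈ A, ∀ b ∈ A, a * b = b * a := by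
    intro a ha b hb
    exact congrArg Subtype.val (hAc.is_comm.comm ⟨a, ha⟩ ⟨b, hb⟩)
  have hexx : ∃ x ∈ (P : Subgroup G), ∃ a ∈ A, x * a ≠ a * x := by
    by_contra hcon
    push Not at hcon
    apply hPn
    rw [← Subgroup.normalizer_eq_top_iff, eq_top_iff, ← hPA]
    refine sup_le Subgroup.le_normalizer ?_
    intro a ha
    rw [Subgroup.mem_normalizer_iff]
    intro y
    constructor
    · intro hy
      have := hcon y hy a ha
      rw [← this]; simpa using hy
    · intro hy
      have := hcon _ hy a ha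
      have e : y = a * y * a⁻¹ := by
        have l : a * y * a⁻¹ * a = a * y := by group
        rw [l] at this
        have := mul_left_cancel this
        exact this
      rw [e]; exact hy
  -- key claim
  have key : ∀ x ∈ (P : Subgroup G), (∃ a ∈ A, x * a ≠ a * x) → Subgroup.zpowers x = P := by
    intro x hxP ⟨a, ha, hxa⟩
    set T := Subgroup.zpowers x with hT
    have hTP : T ≤ P := (Subgroup.zpowers_le).2 hxP
    have hH₁ : ¬ IsMulCommutative (A ⊔ T : Subgroup G) := by
      intro hc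
      apply hxa
      have hx' : x ∈ (A ⊔ T : Subgroup G) := (le_sup_right : T ≤ _) (Subgroup.mem_zpowers x)
      have ha' : a ∈ (A ⊔ T : Subgroup G) := (le_sup_left : A ≤ _) ha
      exact congrArg Subtype.val (hc.is_comm.comm ⟨x, hx'⟩ ⟨a, ha'⟩)
    have hself := hSN _ hH₁
    by_contra hne
    have hlt : T.subgroupOf P < ⊤ := by
      rw [lt_top_iff_ne_top, Ne, Subgroup.subgroupOf_eq_top]
      intro hc
      exact hne (le_antisymm hTP hc)
    have : Group.IsNilpotent P := P.isPGroup'.isNilpotent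
    have hnc := (Group.normalizerCondition_of_isNilpotent (G := P)) _ hlt
    obtain ⟨y, hyN, hyT⟩ := SetLike.exists_of_lt hnc
    rw [← Subgroup.subgroupOf_normalizer_eq hTP, Subgroup.mem_subgroupOf] at hyN
    rw [Subgroup.mem_subgroupOf] at hyT
    have hyH : (y : G) ∈ Subgroup.normalizer ((A ⊔ T : Subgroup G) : Set G) := by
      rw [Subgroup.mem_normalizer_iff_map_conj_eq, Subgroup.map_sup,
        Subgroup.mem_normalizer_iff_map_conj_eq.1 hyN]
      congr 1
      have : (y : G) ∈ Subgroup.normalizer (A : Set G) := by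
        rw [Subgroup.normalizer_eq_top]; trivial
      exact Subgroup.mem_normalizer_iff_map_conj_eq.1 this
    rw [hself] at hyH
    have hyH2 : (y : G) ∈ ((A ⊔ T : Subgroup G) : Set G) := hyH
    rw [Subgroup.normal_mul] at hyH2
    obtain ⟨c, hc, t, ht, e⟩ := hyH2
    replace e : c * t = y := e
    have hc1 : c = 1 := by
      apply hdisj c _ hc
      have : c = y * t⁻¹ := by rw [← e]; group
      rw [this]
      exact Subgroup.mul_mem _ y.2 (Subgroup.inv_mem _ (hTP ht))
    apply hyT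
    rw [← e, hc1, one_mul]
    exact ht
  obtain ⟨x, hxP, a₀, ha₀, hxa₀⟩ := hexx
  have hxPeq := key x hxP ⟨a₀, ha₀, hxa₀⟩
  have hox : orderOf x = p ^ k := by rw [← Nat.card_zpowers, hxPeq, hk]
  have hk0 : k ≠ 0 := by
    intro h0
    rw [h0, pow_zero, orderOf_eq_one_iff] at hox
    apply hxa₀
    rw [hox]; simp
  have hxpA : ∀ a ∈ A, x ^ p * a = a * x ^ p := by
    by_contra hcon
    push Not at hcon
    have h1 := key (x ^ p) (Subgroup.pow_mem _ hxP p) hcon
    have h2 : orderOf (x ^ p) = p ^ k := by rw [← Nat.card_zpowers, h1, hk]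
    have h3 : (x ^ p) ^ (p ^ (k - 1)) = 1 := by
      rw [← pow_mul, ← pow_succ', Nat.sub_add_cancel (Nat.one_le_iff_ne_zero.2 hk0), ← hox,
        pow_orderOf_eq_one]
    have h4 := orderOf_dvd_of_pow_eq_one h3
    rw [h2, Nat.pow_dvd_pow_iff_le_right hp.out.one_lt] at h4
    omega
  have hcen : x ^ p ∈ Subgroup.center G := by
    have h1 : (⊤ : Subgroup G) ≤ Subgroup.centralizer {x ^ p} := by
      rw [← hPA, ← hxPeq]
      refine sup_le ?_ ?_
      · rw [Subgroup.zpowers_le, Subgroup.mem_centralizer_singleton_iff]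
        rw [← pow_succ, ← pow_succ']
      · intro a ha
        rw [Subgroup.mem_centralizer_singleton_iff]
        exact (hxpA a ha).symm
    rw [Subgroup.mem_center_iff]
    intro g
    have := h1 (Subgroup.mem_top g)
    rw [Subgroup.mem_centralizer_singleton_iff] at this
    exact this
  have hcompl : (Subgroup.zpowers x).IsComplement' A := by
    rw [hxPeq]
    apply Subgroup.isComplement'_of_disjoint_and_mul_eq_univ
    · rw [Subgroup.disjoint_def]
      intro y hy hy'
      exact hdisj y hy hy'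
    · rw [← Subgroup.mul_normal, hPA, Subgroup.coe_top]
  refine ⟨x, A, p, hp.out, hAn, hAc, ⟨k, hox⟩, ?_, hcompl, hcen, ?_⟩
  · exact (Nat.Prime.coprime_iff_not_dvd hp.out).1 hAcop.symm
  intro d hd hd1 hfix
  have hdcen : ∀ g : G, g * d = d * g := by
    have h1 : (⊤ : Subgroup G) ≤ Subgroup.centralizer {d} := by
      rw [← hPA, ← hxPeq]
      refine sup_le ?_ ?_
      · rw [Subgroup.zpowers_le, Subgroup.mem_centralizer_singleton_iff]
        exact mul_inv_eq_iff_eq_mul.1 hfix
      · intro a ha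
        rw [Subgroup.mem_centralizer_singleton_iff]
        exact hAcomm a ha d hd
    intro g
    have := h1 (Subgroup.mem_top g)
    rw [Subgroup.mem_centralizer_singleton_iff] at this
    exact this
  let V : G →* A := MonoidHom.transfer (MonoidHom.id A)
  have hVd : ((V d : A) : G) = d ^ A.index := by
    have := MonoidHom.transfer_eq_pow (MonoidHom.id A) d (by
      intro n g₀ _
      have : g₀ * d ^ n = d ^ n * g₀ := by
        have c : Commute g₀ d := hdcen g₀
        exact (c.pow_right n).eq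
      rw [mul_assoc, ← this]; group)
    show ((MonoidHom.transfer (MonoidHom.id A) d : A) : G) = _
    rw [this]
    rfl
  have hVx : V x = 1 := by
    have h1 : (V x) ^ (p ^ k) = 1 := by
      rw [← map_pow, ← hox, pow_orderOf_eq_one, map_one]
    have h2 : orderOf (V x) ∣ p ^ k := orderOf_dvd_of_pow_eq_one h1
    have h3 : orderOf (V x) ∣ Nat.card A := orderOf_dvd_natCard _
    have h4 : (p ^ k).Coprime (Nat.card A) := Nat.Coprime.pow_left _ hAcop.symm
    exact orderOf_eq_one_iff.1 (Nat.eq_one_of_dvd_coprimes h4 h2 h3)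
  have hncl : Subgroup.normalClosure {x} = ⊤ := by
    by_contra hc
    have hn : (Subgroup.normalClosure ({x} : Set G)).Normal := inferInstance
    apply hPn
    apply sylow_normal_of_le_abelian_normal P _ hn (hN _ hn hc)
    rw [← hxPeq, Subgroup.zpowers_le]
    exact Subgroup.subset_normalClosure (Set.mem_singleton x)
  have hker : Subgroup.normalClosure {x} ≤ V.ker := by
    apply Subgroup.normalClosure_le_normal
    intro y hy
    rw [Set.mem_singleton_iff] at hy
    rw [hy]
    exact hVx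
  have hVd1 : V d = 1 := hker (by rw [hncl]; trivial)
  rw [hVd1, hj] at hVd
  have h2 : orderOf d ∣ p ^ j := orderOf_dvd_of_pow_eq_one hVd.symm
  have h3 : orderOf d ∣ Nat.card A :=
    (Subgroup.orderOf_mk d hd) ▸ orderOf_dvd_natCard (⟨d, hd⟩ : A)
  have h4 : (p ^ j).Coprime (Nat.card A) := Nat.Coprime.pow_left _ hAcop.symm
  exact hd1 (orderOf_eq_one_iff.1 (Nat.eq_one_of_dvd_coprimes h4 h2 h3))

/-- Let G be a finite solvable non-nilpotent group. Every non-abelian subgroup of G is self-normalizing if and only if G is a semidirect product ⟨x⟩ ⋉ A in which ⟨x⟩ is a p-group for some prime p, A is a normal abelian subgroup of order prime to p, x^p is central in G, and x acts fixed-point-freely on A (no non-identity element of A commutes with x). -/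
theorem result {G : Type*} [Group G] [Finite G]
    [Group.IsSolvable G] (hnn : ¬ Group.IsNilpotent G) :
    (∀ H : Subgroup G, ¬ IsMulCommutative H → Subgroup.normalizer (H : Set G) = H) ↔
    ∃ (x : G) (A : Subgroup G) (p : ℕ), p.Prime ∧ A.Normal ∧ IsMulCommutative A ∧ (∃ k : ℕ, orderOf x = p ^ k) ∧
      ¬ p ∣ Nat.card A ∧ (Subgroup.zpowers x).IsComplement' A ∧ x ^ p ∈ Subgroup.center G ∧
      ∀ a : G, a ∈ A → a ≠ 1 → x * a * x⁻¹ ≠ a := by
  constructor
  · intro hSN
    exact forward hnn hSN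
  · rintro ⟨x, A, p, hp, hAn, hAc, hx, -, hcompl, hxp, hfpf⟩ H hH
    exact backward x A p hp hAn hAc hx hcompl hxp hfpf H hH

end Cfsg.Agent.S4071
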