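import Cfsg.Statements.S4072
import Cfsg.Agent.S0071
import Cfsg.Agent.S0055
import Mathlib

set_option autoImplicit false
open Cfsg

namespace Cfsg.Agent.S4072

open scoped Pointwise

theorem eq_one_of_coprime {G : Type*} [Group G] (a : G) (m n : ℕ) (h : m.Coprime n)
    (h1 : a ^ m = 1) (h2 : a ^ n = 1) : a = 1 := by
  have := pow_gcd_eq_one.2 ⟨h1, h2⟩
  rwa [Nat.Coprime.gcd_eq_one h, pow_one] at this

/-- key lemma -/
theorem keyA {G : Type*} [Group G] [Finite G]
    (hS : ∀ H : Subgroup G, ¬ IsMulCommutative H → Subgroup.normalizer (H : Set G) = H)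
    {p : ℕ} [Fact p.Prime] (U : Subgroup G) (hUp : IsPGroup p U) (hUc : IsMulCommutative U)
    (y : G) (hyU : y ∈ Subgroup.normalizer (U : Set G)) (hyp : (orderOf y).Coprime p)
    (hyc : y ∉ Subgroup.centralizer (U : Set G))
    (x : G) (hxp : ∃ n : ℕ, x ^ p ^ n = 1) (hxy : x * y = y * x)
    (hxU : ∀ u ∈ U, x * u = u * x) : x = 1 := by
  set A := Subgroup.zpowers y with hA
  have hAU : A ≤ Subgroup.normalizer (U : Set G) := Subgroup.zpowers_le.2 hyU
  have hcop : (Nat.card A).Coprime (Nat.card U) := by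
    rw [Nat.card_zpowers]
    obtain ⟨n, hn⟩ := IsPGroup.iff_card.1 hUp
    rw [hn]
    exact Nat.Coprime.pow_right n hyp
  obtain ⟨h1, h2⟩ := Cfsg.Agent.S0055.result A U hAU hcop
  set D := ⁅U, A⁆ with hD
  have hDU : D ≤ U := by
    rw [← h2]; exact le_sup_right
  have hAD : A ≤ Subgroup.normalizer (D : Set G) := by
    intro a ha
    rw [Subgroup.mem_normalizer_iff_map_conj_eq, hD, Subgroup.map_commutator,
      Subgroup.mem_normalizer_iff_map_conj_eq.1 (hAU ha),
      Subgroup.mem_normalizer_iff_map_conj_eq.1 (Subgroup.le_normalizer ha)]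
  have hxA : ∀ a ∈ A, x * a = a * x := by
    intro a ha
    obtain ⟨k, rfl⟩ := Subgroup.mem_zpowers_iff.1 ha
    exact (Commute.zpow_right (show Commute x y from hxy) k).eq
  have hW : ¬ IsMulCommutative ↥(D ⊔ A) := by
    intro hc
    have hDbot : D = ⊥ := by
      rw [eq_bot_iff]
      intro d hd
      rw [← h1]
      refine ⟨⟨hDU hd, ?_⟩, hd⟩
      change d ∈ Subgroup.centralizer (A : Set G)
      rw [Subgroup.mem_centralizer_iff]
      intro a ha
      have := hc.is_comm.comm (⟨a, (le_sup_right : A ≤ D ⊔ A) ha⟩ : ↥(D ⊔ A))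
        ⟨d, (le_sup_left : D ≤ D ⊔ A) hd⟩
      exact congrArg Subtype.val this
    rw [hD, Subgroup.commutator_eq_bot_iff_le_centralizer] at hDbot
    apply hyc
    rw [Subgroup.mem_centralizer_iff]
    intro u hu
    have := Subgroup.mem_centralizer_iff.1 (hDbot hu) y (Subgroup.mem_zpowers y)
    exact this.symm
  have hxW : x ∈ D ⊔ A := by
    have h3 : x ∈ Subgroup.normalizer ((D ⊔ A : Subgroup G) : Set G) := by
      apply Subgroup.centralizer_le_normalizer
      have h4 : D ⊔ A ≤ Subgroup.centralizer {x} := by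
        refine sup_le ?_ ?_
        · intro d hd
          rw [Subgroup.mem_centralizer_singleton_iff]
          exact (hxU d (hDU hd)).symm
        · intro a ha
          rw [Subgroup.mem_centralizer_singleton_iff]
          exact (hxA a ha).symm
      rw [Subgroup.mem_centralizer_iff]
      intro w hw
      have := Subgroup.mem_centralizer_singleton_iff.1 (h4 hw)
      exact this
    rw [hS _ hW] at h3
    exact h3
  have hxW' : x ∈ ((D ⊔ A : Subgroup G) : Set G) := hxW
  rw [Subgroup.coe_mul_of_right_le_normalizer_left D A hAD] at hxW'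
  obtain ⟨d, hd, a, ha, hda⟩ := Set.mem_mul.1 hxW'
  have hd' : d ∈ D := hd
  have ha' : a ∈ A := ha
  obtain ⟨n, hn⟩ := hxp
  obtain ⟨m, hm⟩ := hUp ⟨d, hDU hd'⟩
  have hm' : d ^ p ^ m = 1 := by simpa using congrArg Subtype.val hm
  have haeq : a = d⁻¹ * x := by rw [← hda]; group
  have hcomm : Commute d⁻¹ x := (show Commute x d from hxU d (hDU hd')).symm.inv_left
  have ha1 : a ^ (p ^ (m + n)) = 1 := by
    rw [haeq, hcomm.mul_pow, pow_add, pow_mul, inv_pow, hm', mul_comm (p ^ m), pow_mul x, hn]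
    simp
  have ha2 : a ^ orderOf y = 1 := by
    obtain ⟨k, rfl⟩ := Subgroup.mem_zpowers_iff.1 ha'
    rw [← zpow_natCast, ← zpow_mul, mul_comm, zpow_mul, zpow_natCast, pow_orderOf_eq_one, one_zpow]
  have ha3 : a = 1 := eq_one_of_coprime a _ _ (Nat.Coprime.pow_right (m + n) hyp) ha2 ha1
  have hxd : x = d := by rw [← hda, ha3, mul_one]
  have : x ∈ (U ⊓ Subgroup.centralizer (A : Set G)) ⊓ D := by
    refine ⟨⟨hxd ▸ hDU hd', ?_⟩, hxd ▸ hd'⟩
    change x ∈ Subgroup.centralizer (A : Set G)
    rw [Subgroup.mem_centralizer_iff]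
    intro b hb
    exact (hxA b hb).symm
  rw [h1] at this
  exact Subgroup.mem_bot.1 this

theorem pgroup_self_norm {G : Type*} [Group G] [Finite G] {r : ℕ} [Fact r.Prime]
    (R H : Subgroup G) (hR : IsPGroup r R) (hHR : H ≤ R)
    (h : ∀ s ∈ R, s ∈ Subgroup.normalizer (H : Set G) → s ∈ H) : H = R := by
  by_contra hne
  have hnil : Group.IsNilpotent R := hR.isNilpotent
  have hlt : H.subgroupOf R < ⊤ := by
    rw [lt_top_iff_ne_top]
    intro h1
    rw [Subgroup.subgroupOf_eq_top] at h1
    exact hne (le_antisymm hHR h1)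
  have h2 := Group.normalizerCondition_of_isNilpotent (G := R) _ hlt
  obtain ⟨s, hs1, hs2⟩ := SetLike.exists_of_lt h2
  rw [← Subgroup.subgroupOf_normalizer_eq hHR] at hs1
  exact hs2 (h s s.2 hs1)

/-- A finite group in which every non-abelian subgroup is self-normalizing is solvable or simple. -/
theorem result {G : Type*} [Group G] [Finite G] (hS : ∀ H : Subgroup G, ¬ IsMulCommutative H → Subgroup.normalizer (H : Set G) = H) :
    Group.IsSolvable G ∨ IsSimpleGroup G := by
  classical
  by_contra hcon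
  push Not at hcon
  obtain ⟨hns, hnsimp⟩ := hcon
  have L0 : ∀ K : Subgroup G, K.Normal → K ≠ ⊤ → IsMulCommutative K := by
    intro K hK hK1
    by_contra h
    have := hS K h
    rw [Subgroup.normalizer_eq_top] at this
    exact hK1 this.symm
  have L1 : ∀ K : Subgroup G, ∀ _ : K.Normal, K ≠ ⊤ → ¬ Group.IsSolvable (G ⧸ K) := by
    intro K hK hK1 hsol
    have hc := L0 K hK hK1
    have : Group.IsSolvable K := Group.isSolvable_of_comm (fun a b => hc.is_comm.comm a b)
    exact hns ((Group.isSolvable_iff_subgroup_quotient K).2 ⟨this, hsol⟩)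
  have L2 : ∀ (p : ℕ) [Fact p.Prime] (P : Sylow p G) (N : Subgroup G), N.Normal →
      N.IsComplement' (P : Subgroup G) → (P : Subgroup G) ≠ ⊥ → False := by
    intro p _ P N hN hc hP
    have hN1 : N ≠ ⊤ := by
      rintro rfl
      exact hP (Subgroup.isComplement'_top_left.1 hc)
    apply L1 N hN hN1
    have hcard : Nat.card (G ⧸ N) = Nat.card (P : Subgroup G) := by
      rw [← Subgroup.index_eq_card]; exact hc.symm.index_eq_card
    obtain ⟨n, hn⟩ := IsPGroup.iff_card.1 P.2
    have hpg : IsPGroup p (G ⧸ N) := IsPGroup.of_card (hcard.trans hn)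
    have : Group.IsNilpotent (G ⧸ N) := hpg.isNilpotent
    infer_instance
  have hnt : Nontrivial G := by
    by_contra h
    rw [not_nontrivial_iff_subsingleton] at h
    exact hns inferInstance
  obtain ⟨N₀, hN₀, hN₀b, hN₀t⟩ : ∃ N₀ : Subgroup G, N₀.Normal ∧ N₀ ≠ ⊥ ∧ N₀ ≠ ⊤ := by
    by_contra h
    push Not at h
    apply hnsimp
    refine ⟨fun H hH => ?_⟩
    by_cases hb : H = ⊥
    · exact Or.inl hb
    · exact Or.inr (h H hH hb)
  have hN₀c := L0 N₀ hN₀ hN₀t
  have hcard1 : Nat.card N₀ ≠ 1 := by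
    intro h
    exact hN₀b (Subgroup.card_eq_one.1 h)
  obtain ⟨q, hq, hqd⟩ := Nat.exists_prime_and_dvd hcard1
  have _ : Fact q.Prime := ⟨hq⟩
  obtain ⟨⟨z, hzN⟩, hz⟩ := exists_prime_orderOf_dvd_card' q hqd
  have hzo : orderOf z = q := by
    rw [← hz]; exact (Subgroup.orderOf_mk z hzN).symm
  let Q : Subgroup G :=
    { carrier := {a | a ∈ N₀ ∧ a ^ q = 1}
      mul_mem' := by
        rintro a b ⟨ha, ha1⟩ ⟨hb, hb1⟩
        refine ⟨N₀.mul_mem ha hb, ?_⟩
        have hc : Commute a b := congrArg Subtype.val (hN₀c.is_comm.comm ⟨a, ha⟩ ⟨b, hb⟩)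
        rw [hc.mul_pow, ha1, hb1, one_mul]
      one_mem' := ⟨N₀.one_mem, one_pow _⟩
      inv_mem' := by
        rintro a ⟨ha, ha1⟩
        exact ⟨N₀.inv_mem ha, by rw [inv_pow, ha1, inv_one]⟩ }
  have hQmem : ∀ a, a ∈ Q ↔ a ∈ N₀ ∧ a ^ q = 1 := fun a => Iff.rfl
  have hQn : Q.Normal := by
    refine ⟨fun a ha g => ?_⟩
    rw [hQmem] at ha ⊢
    refine ⟨hN₀.conj_mem a ha.1 g, ?_⟩
    rw [conj_pow, ha.2]; group
  have hQp : IsPGroup q Q := by
    rintro ⟨a, ha⟩
    refine ⟨1, ?_⟩
    apply Subtype.ext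
    simpa using ((hQmem a).1 ha).2
  have hQc : IsMulCommutative Q := by
    refine ⟨⟨fun a b => ?_⟩⟩
    apply Subtype.ext
    have h5 := hN₀c.is_comm.comm (⟨a.1, ((hQmem _).1 a.2).1⟩ : N₀) ⟨b.1, ((hQmem _).1 b.2).1⟩
    have h6 : (a : G) * (b : G) = (b : G) * (a : G) := congrArg Subtype.val h5
    exact h6
  have hzQ : z ∈ Q := by
    rw [hQmem]; exact ⟨hzN, by rw [← hzo]; exact pow_orderOf_eq_one z⟩
  have hz1 : z ≠ 1 := by
    rintro rfl
    rw [orderOf_one] at hzo
    exact hq.one_lt.ne hzo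
  have hqG : q ∣ Nat.card G := hqd.trans (Subgroup.card_subgroup_dvd_card N₀)
  by_cases hC : Subgroup.centralizer (Q : Set G) = ⊤
  · -- central case
    have hzc : ∀ g : G, z * g = g * z := by
      intro g
      have hg : g ∈ Subgroup.centralizer (Q : Set G) := by rw [hC]; trivial
      exact Subgroup.mem_centralizer_iff.1 hg z hzQ
    obtain ⟨P⟩ : Nonempty (Sylow q G) := inferInstance
    by_cases hF : ∀ U : Subgroup G, U ≤ (P : Subgroup G) → ∀ g ∈ Subgroup.normalizer (U : Set G),
        Nat.Coprime (orderOf g) q → g ∈ Subgroup.centralizer (U : Set G)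
    · obtain ⟨N, hN, hNc⟩ := (Cfsg.Agent.S0071.result P).2 hF
      exact L2 q P N hN hNc (P.ne_bot_of_dvd_card hqG)
    · push Not at hF
      obtain ⟨U, hUP, g, hgU, hgq, hgc⟩ := hF
      have hUp : IsPGroup q U := P.2.to_le hUP
      have hUc : IsMulCommutative U := by
        by_contra h
        rw [hS U h] at hgU
        obtain ⟨k, hk⟩ := hUp ⟨g, hgU⟩
        have hk' : g ^ q ^ k = 1 := by simpa using congrArg Subtype.val hk
        have : g = 1 := eq_one_of_coprime g _ _ (Nat.Coprime.pow_right k hgq)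
          (pow_orderOf_eq_one g) hk'
        apply hgc
        rw [this]; exact Subgroup.one_mem _
      exact hz1 (keyA hS U hUp hUc g hgU hgq hgc z ⟨1, by rw [pow_one, ← hzo]; exact pow_orderOf_eq_one z⟩
        (hzc g) (fun u _ => hzc u))
  · -- non-central case
    have hCn : (Subgroup.centralizer (Q : Set G)).Normal := inferInstance
    have hnsC := L1 _ hCn hC
    obtain ⟨r, hr, hrq, R, hRC⟩ : ∃ r : ℕ, ∃ _ : Fact r.Prime, r ≠ q ∧ ∃ R : Sylow r G,
        ¬ (R : Subgroup G) ≤ Subgroup.centralizer (Q : Set G) := by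
      by_contra h
      push Not at h
      apply hnsC
      have hidx : (Subgroup.centralizer (Q : Set G)).index =
          q ^ (Subgroup.centralizer (Q : Set G)).index.primeFactorsList.length := by
        apply Nat.eq_prime_pow_of_unique_prime_dvd Subgroup.index_ne_zero_of_finite
        intro d hd hdd
        by_contra hdq
        have _ : Fact d.Prime := ⟨hd⟩
        obtain ⟨R⟩ : Nonempty (Sylow d G) := inferInstance
        have h1 := h d ⟨hd⟩ hdq R
        exact R.not_dvd_index (hdd.trans (Subgroup.index_dvd_of_le h1))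
      have hpg : IsPGroup q (G ⧸ Subgroup.centralizer (Q : Set G)) :=
        IsPGroup.of_card ((Subgroup.index_eq_card _).symm.trans hidx)
      have : Group.IsNilpotent (G ⧸ Subgroup.centralizer (Q : Set G)) := hpg.isNilpotent
      infer_instance
    obtain ⟨y, hyR, hyC⟩ := SetLike.not_le_iff_exists.1 hRC
    have hcop : Nat.Coprime r q := (Nat.coprime_primes hr.out hq).2 hrq
    -- intersection of R and Q is trivial
    have hRQ : ∀ a, a ∈ (R : Subgroup G) → a ∈ Q → a = 1 := by
      intro a haR haQ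
      obtain ⟨k, hk⟩ := R.2 ⟨a, haR⟩
      have hk' : a ^ r ^ k = 1 := by simpa using congrArg Subtype.val hk
      exact eq_one_of_coprime a _ _ (Nat.Coprime.pow_left k hcop) hk' ((hQmem a).1 haQ).2
    have hyo : (orderOf y).Coprime q := by
      obtain ⟨k, hk⟩ := R.2 ⟨y, hyR⟩
      have hk' : y ^ r ^ k = 1 := by simpa using congrArg Subtype.val hk
      exact Nat.Coprime.coprime_dvd_left (orderOf_dvd_of_pow_eq_one hk') (Nat.Coprime.pow_left k hcop)
    have hW : ¬ IsMulCommutative ↥(Q ⊔ Subgroup.zpowers y) := by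
      intro hc
      apply hyC
      rw [Subgroup.mem_centralizer_iff]
      intro u hu
      exact congrArg Subtype.val (hc.is_comm.comm
        (⟨u, (le_sup_left : Q ≤ Q ⊔ Subgroup.zpowers y) hu⟩ : ↥(Q ⊔ Subgroup.zpowers y))
        ⟨y, (le_sup_right : Subgroup.zpowers y ≤ Q ⊔ Subgroup.zpowers y) (Subgroup.mem_zpowers y)⟩)
    have hWn := hS _ hW
    have hzR : Subgroup.zpowers y ≤ (R : Subgroup G) := Subgroup.zpowers_le.2 hyR
    have hdecomp : ∀ g, g ∈ Subgroup.normalizer ((Subgroup.zpowers y : Subgroup G) : Set G) →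
        ∃ a ∈ Q, ∃ s ∈ Subgroup.zpowers y, a * s = g := by
      intro g hg
      have h1 : g ∈ Subgroup.normalizer ((Q ⊔ Subgroup.zpowers y : Subgroup G) : Set G) := by
        apply Subgroup.normalizer_inf_normalizer_le_normalizer_sup
        refine ⟨?_, hg⟩
        rw [Subgroup.normalizer_eq_top]; trivial
      rw [hWn] at h1
      have h2 : g ∈ ((Q ⊔ Subgroup.zpowers y : Subgroup G) : Set G) := h1
      rw [Subgroup.normal_mul] at h2
      obtain ⟨a, ha, s, hs, has⟩ := Set.mem_mul.1 h2
      exact ⟨a, ha, s, hs, has⟩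
    have hReq : Subgroup.zpowers y = (R : Subgroup G) := by
      apply pgroup_self_norm (r := r) _ _ R.2 hzR
      intro s hsR hsn
      obtain ⟨a, ha, t, ht, hat⟩ := hdecomp s hsn
      have : a = 1 := by
        apply hRQ a _ ha
        have : a = s * t⁻¹ := by rw [← hat]; group
        rw [this]
        exact (R : Subgroup G).mul_mem hsR ((R : Subgroup G).inv_mem (hzR ht))
      rw [← hat, this, one_mul]; exact ht
    have hNC : Subgroup.normalizer ((R : Subgroup G) : Set G) ≤
        Subgroup.centralizer ((R : Subgroup G) : Set G) := by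
      intro g hg
      have hg' := hg
      rw [← hReq] at hg'
      obtain ⟨a, ha, t, ht, hat⟩ := hdecomp g hg'
      have haN : a ∈ Subgroup.normalizer ((R : Subgroup G) : Set G) := by
        have : a = g * t⁻¹ := by rw [← hat]; group
        rw [this]
        exact Subgroup.mul_mem _ hg (Subgroup.inv_mem _ (Subgroup.le_normalizer (hzR ht)))
      have hay : a * y = y * a := by
        have h1 : a * y * a⁻¹ * y⁻¹ = 1 := by
          apply hRQ
          · exact (R : Subgroup G).mul_mem ((Subgroup.mem_normalizer_iff.1 haN y).1 hyR)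
              ((R : Subgroup G).inv_mem hyR)
          · have : a * y * a⁻¹ * y⁻¹ = a * (y * a⁻¹ * y⁻¹) := by group
            rw [this]
            exact Q.mul_mem ha (hQn.conj_mem _ (Q.inv_mem ha) y)
        have h2 : a * y = (a * y * a⁻¹ * y⁻¹) * (y * a) := by group
        rw [h2, h1, one_mul]
      have ha1 : a = 1 := by
        refine keyA hS Q hQp hQc y ?_ hyo hyC a ⟨1, by rw [pow_one]; exact ((hQmem a).1 ha).2⟩ hay ?_
        · rw [Subgroup.normalizer_eq_top]; trivial
        · intro u hu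
          exact congrArg Subtype.val (hQc.is_comm.comm ⟨a, ha⟩ ⟨u, hu⟩)
      rw [← hat, ha1, one_mul, ← hReq, Subgroup.mem_centralizer_iff]
      intro w hw
      obtain ⟨k, rfl⟩ := Subgroup.mem_zpowers_iff.1 hw
      obtain ⟨l, rfl⟩ := Subgroup.mem_zpowers_iff.1 ht
      rw [← zpow_add, ← zpow_add, add_comm]
    refine L2 r R _ inferInstance (MonoidHom.ker_transferSylow_isComplement' R hNC) ?_
    intro hb
    apply hyC
    have : y = 1 := by
      rw [hb] at hyR
      exact Subgroup.mem_bot.1 hyR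
    rw [this]; exact Subgroup.one_mem _

end Cfsg.Agent.S4072
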