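import Cfsg.Statements.S4074
import Mathlib
-- import your own Cfsg.Agent.* helpers here

set_option autoImplicit false
open Cfsg

namespace Cfsg.Agent.S4074

open DihedralGroup

/-- the index two subgroup of "even" elements, for even `n`. -/
def evenSub (n : ℕ) (h2 : 2 ∣ n) : Subgroup (DihedralGroup n) where
  carrier := {g | match g with
    | r i => ZMod.castHom h2 (ZMod 2) i = 0
    | sr i => ZMod.castHom h2 (ZMod 2) i = 0}
  one_mem' := by
    show ZMod.castHom h2 (ZMod 2) 0 = 0
    simp
  mul_mem' := by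
    rintro (a | a) (b | b) ha hb
    · show ZMod.castHom h2 (ZMod 2) (a + b) = 0
      have ha' : ZMod.castHom h2 (ZMod 2) a = 0 := ha
      have hb' : ZMod.castHom h2 (ZMod 2) b = 0 := hb
      rw [map_add, ha', hb', add_zero]
    · show ZMod.castHom h2 (ZMod 2) (b - a) = 0
      have ha' : ZMod.castHom h2 (ZMod 2) a = 0 := ha
      have hb' : ZMod.castHom h2 (ZMod 2) b = 0 := hb
      rw [map_sub, ha', hb', sub_zero]
    · show ZMod.castHom h2 (ZMod 2) (a + b) = 0
      have ha' : ZMod.castHom h2 (ZMod 2) a = 0 := ha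
      have hb' : ZMod.castHom h2 (ZMod 2) b = 0 := hb
      rw [map_add, ha', hb', add_zero]
    · show ZMod.castHom h2 (ZMod 2) (b - a) = 0
      have ha' : ZMod.castHom h2 (ZMod 2) a = 0 := ha
      have hb' : ZMod.castHom h2 (ZMod 2) b = 0 := hb
      rw [map_sub, ha', hb', sub_zero]
  inv_mem' := by
    rintro (a | a) ha
    · show ZMod.castHom h2 (ZMod 2) (-a) = 0
      have ha' : ZMod.castHom h2 (ZMod 2) a = 0 := ha
      rw [map_neg, ha', neg_zero]
    · exact ha

theorem r_mem_evenSub (n : ℕ) (h2 : 2 ∣ n) (i : ZMod n) :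
    r i ∈ evenSub n h2 ↔ ZMod.castHom h2 (ZMod 2) i = 0 := Iff.rfl

theorem sr_mem_evenSub (n : ℕ) (h2 : 2 ∣ n) (i : ZMod n) :
    sr i ∈ evenSub n h2 ↔ ZMod.castHom h2 (ZMod 2) i = 0 := Iff.rfl

theorem exists_sr_mem {n : ℕ} (H : Subgroup (DihedralGroup n)) (hH : ¬ IsMulCommutative H) :
    ∃ i, sr i ∈ H := by
  by_contra hno
  push Not at hno
  apply hH
  refine isMulCommutative_iff.2 ?_
  rintro ⟨a | a, ha⟩ ⟨b | b, hb⟩
  · apply Subtype.ext
    show r a * r b = r b * r a
    rw [r_mul_r, r_mul_r, add_comm]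
  · exact absurd hb (hno b)
  · exact absurd ha (hno a)
  · exact absurd ha (hno a)

theorem odd_case {n : ℕ} (hodd : Odd n) (H : Subgroup (DihedralGroup n)) (hH : ¬ IsMulCommutative H) :
    Subgroup.normalizer (H : Set (DihedralGroup n)) = H := by
  obtain ⟨i, hi⟩ := exists_sr_mem H hH
  obtain ⟨t, ht⟩ := hodd
  have hrot : ∀ m : ZMod n, r m ∈ Subgroup.normalizer (H : Set (DihedralGroup n)) → r m ∈ H := by
    intro m hm
    have h1 : r m * sr i * (r m)⁻¹ ∈ H := (Subgroup.mem_normalizer_iff.1 hm _).1 hi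
    have h2 : sr i * (r m * sr i * (r m)⁻¹) ∈ H := H.mul_mem hi h1
    have h3 : sr i * (r m * sr i * (r m)⁻¹) = r (-2 * m) := by
      simp only [r_mul_sr, inv_r, sr_mul_r, sr_mul_sr]
      congr 1
      ring
    rw [h3] at h2
    have h4 : (r (-2 * m)) ^ t ∈ H := H.pow_mem h2 t
    rw [r_pow] at h4
    have h5 : (-2 * m * (t : ZMod n)) = m := by
      have : ((2 * t + 1 : ℕ) : ZMod n) = 0 := by rw [← ht]; exact ZMod.natCast_self n
      push_cast at this
      linear_combination (-m) * this
    rwa [h5] at h4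
  apply le_antisymm _ Subgroup.le_normalizer
  rintro (m | m) hg
  · exact hrot m hg
  · have h1 : sr m = sr i * r (m - i) := by
      rw [sr_mul_r]; congr 1; ring
    have h2 : r (m - i) ∈ Subgroup.normalizer (H : Set (DihedralGroup n)) := by
      have : r (m - i) = (sr i)⁻¹ * sr m := by
        rw [h1]; group
      rw [this]
      exact Subgroup.mul_mem _ (Subgroup.inv_mem _ (Subgroup.le_normalizer hi)) hg
    rw [h1]
    exact H.mul_mem hi (hrot _ h2)

theorem four_case (H : Subgroup (DihedralGroup 4)) (hH : ¬ IsMulCommutative H) :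
    Subgroup.normalizer (H : Set (DihedralGroup 4)) = H := by
  obtain ⟨i, hi⟩ := exists_sr_mem H hH
  have hk : ∃ k : ZMod 4, r k ∈ H ∧ (k = 1 ∨ k = 3) := by
    by_contra hno
    apply hH
    refine isMulCommutative_iff.2 ?_
    rintro ⟨a | a, ha⟩ ⟨b | b, hb⟩
    · apply Subtype.ext
      show r a * r b = r b * r a
      rw [r_mul_r, r_mul_r, add_comm]
    · apply Subtype.ext
      show r a * sr b = sr b * r a
      rw [r_mul_sr, sr_mul_r]
      have ha' : ¬ (a = 1 ∨ a = 3) := fun h => hno ⟨a, ha, h⟩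
      congr 1
      have key : ∀ a b : ZMod 4, ¬ (a = 1 ∨ a = 3) → b - a = b + a := by decide
      exact key a b ha'
    · apply Subtype.ext
      show sr a * r b = r b * sr a
      rw [r_mul_sr, sr_mul_r]
      have hb' : ¬ (b = 1 ∨ b = 3) := fun h => hno ⟨b, hb, h⟩
      congr 1
      have key : ∀ a b : ZMod 4, ¬ (b = 1 ∨ b = 3) → a + b = a - b := by decide
      exact key a b hb'
    · apply Subtype.ext
      show sr a * sr b = sr b * sr a
      rw [sr_mul_sr, sr_mul_sr]
      have hab : r (b - a) ∈ H := by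
        have := H.mul_mem ha hb
        rwa [sr_mul_sr] at this
      have hb' : ¬ (b - a = 1 ∨ b - a = 3) := fun h => hno ⟨b - a, hab, h⟩
      congr 1
      have key : ∀ a b : ZMod 4, ¬ (b - a = 1 ∨ b - a = 3) → b - a = a - b := by decide
      exact key a b hb'
  have h1 : r (1 : ZMod 4) ∈ H := by
    obtain ⟨k, hk, rfl | rfl⟩ := hk
    · exact hk
    · have := H.pow_mem hk 3
      have e : (r (3 : ZMod 4)) ^ 3 = r 1 := by decide
      rwa [e] at this
  have hr : ∀ m : ZMod 4, r m ∈ H := by
    intro m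
    have := H.pow_mem h1 m.val
    rw [r_pow, one_mul, ZMod.natCast_zmod_val] at this
    exact this
  have htop : H = ⊤ := by
    rw [eq_top_iff]
    rintro (m | m) _
    · exact hr m
    · have h1 : sr m = sr i * r (m - i) := by
        rw [sr_mul_r]; congr 1; ring
      rw [h1]
      exact H.mul_mem hi (hr _)
  rw [htop]
  exact Subgroup.normalizer_eq_top ⊤

/-- For n > 2, every non-abelian subgroup of the dihedral group of order 2n is self-normalizing if and only if n = 4 or n is odd. -/
theorem result (n : ℕ) (hn : 2 < n) :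
    (∀ H : Subgroup (DihedralGroup n), ¬ IsMulCommutative H → Subgroup.normalizer (H : Set (DihedralGroup n)) = H) ↔
    (n = 4 ∨ Odd n) := by
  constructor
  · intro h
    by_contra hcon
    push Not at hcon
    obtain ⟨h4, hodd⟩ := hcon
    have heven : Even n := Nat.not_odd_iff_even.1 hodd
    have h2 : 2 ∣ n := heven.two_dvd
    have h6 : 6 ≤ n := by
      obtain ⟨k, hk⟩ := h2
      omega
    have hnc : ¬ IsMulCommutative (evenSub n h2) := by
      intro hc
      have hr2 : r (2 : ZMod n) ∈ evenSub n h2 := by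
        rw [r_mem_evenSub, map_ofNat]; rfl
      have hs0 : sr (0 : ZMod n) ∈ evenSub n h2 := by
        rw [sr_mem_evenSub, map_zero]
      have := setLike_mul_comm hr2 hs0
      rw [r_mul_sr, sr_mul_r] at this
      have h3 : (0 : ZMod n) - 2 = 0 + 2 := sr.inj this
      have h5 : ((4 : ℕ) : ZMod n) = 0 := by
        push_cast
        linear_combination (-1 : ZMod n) * h3
      rw [ZMod.natCast_eq_zero_iff] at h5
      have := Nat.le_of_dvd (by norm_num) h5
      omega
    have hN := h _ hnc
    have hr1 : r (1 : ZMod n) ∈ Subgroup.normalizer ((evenSub n h2 : Subgroup (DihedralGroup n)) : Set (DihedralGroup n)) := by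
      rw [Subgroup.mem_normalizer_iff]
      rintro (a | a)
      · have : r (1 : ZMod n) * r a * (r 1)⁻¹ = r a := by
          simp only [r_mul_r, inv_r]; congr 1; ring
        rw [this]
      · have : r (1 : ZMod n) * sr a * (r 1)⁻¹ = sr (a - 2) := by
          simp only [r_mul_sr, inv_r, sr_mul_r]; congr 1; ring
        rw [this, sr_mem_evenSub, sr_mem_evenSub, map_sub, map_ofNat]
        have : (OfNat.ofNat 2 : ZMod 2) = 0 := rfl
        rw [this, sub_zero]
    rw [hN, r_mem_evenSub, map_one] at hr1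
    exact one_ne_zero hr1
  · rintro (rfl | hodd) H hH
    · exact four_case H hH
    · exact odd_case hodd H hH

end Cfsg.Agent.S4074
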