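import Cfsg.Statements.S4075
import Mathlib
-- import your own Cfsg.Agent.* helpers here

set_option autoImplicit false
open Cfsg

namespace Cfsg.Agent.S4075

/-- Let G be a finite nilpotent group. Every non-abelian subgroup of G is self-normalizing if and only if G is abelian or G is a minimal non-abelian p-group for some prime p (non-abelian of prime-power order with every proper subgroup abelian). -/
theorem result {G : Type*} [Group G] [Finite G]
    [Group.IsNilpotent G] :
    (∀ H : Subgroup G, ¬ IsMulCommutative H → Subgroup.normalizer (H : Set G) = H) ↔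
    (IsMulCommutative G ∨ (IsPrimePow (Nat.card G) ∧ ¬ IsMulCommutative G ∧ ∀ H : Subgroup G, H ≠ ⊤ → IsMulCommutative H)) := by
  constructor
  · intro h
    have hnc : ∀ H : Subgroup G, Subgroup.normalizer (H : Set G) = H → H = ⊤ :=
      normalizerCondition_iff_only_full_group_self_normalizing.1
        Group.normalizerCondition_of_isNilpotent
    have hprop : ∀ H : Subgroup G, H ≠ ⊤ → IsMulCommutative H := by
      intro H hH
      by_contra hc
      exact hH (hnc H (h H hc))
    by_cases hG : IsMulCommutative G
    · exact Or.inl hG
    · refine Or.inr ⟨?_, hG, hprop⟩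
      by_contra hpp
      apply hG
      obtain ⟨e⟩ := (Group.isNilpotent_of_finite_tfae (G := G)).out 0 4 rfl rfl |>.mp inferInstance
      have hS : ∀ (p : (Nat.card G).primeFactors) (P : Sylow p G), IsMulCommutative (P : Subgroup G) := by
        intro p P
        apply hprop
        intro htop
        apply hpp
        have hp : (p : ℕ).Prime := Nat.prime_of_mem_primeFactors p.2
        haveI := Fact.mk hp
        have hPG : IsPGroup p G := by
          have := P.isPGroup'
          rw [htop] at this
          exact this.of_equiv Subgroup.topEquiv
        obtain ⟨n, hn⟩ := IsPGroup.iff_card.1 hPG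
        rw [hn]
        refine (isPrimePow_nat_iff _).2 ⟨p, n, hp, ?_, rfl⟩
        rcases Nat.eq_zero_or_pos n with h0 | h0
        · exfalso
          rw [h0, pow_zero] at hn
          have h1 : (p : ℕ) ∣ Nat.card G := Nat.dvd_of_mem_primeFactors p.2
          have h2 : (p : ℕ) ∣ 1 := hn ▸ h1
          exact hp.one_lt.ne' (Nat.dvd_one.1 h2)
        · exact h0
      refine isMulCommutative_iff.2 fun x y => ?_
      obtain ⟨a, rfl⟩ := e.surjective x
      obtain ⟨b, rfl⟩ := e.surjective y
      rw [← map_mul, ← map_mul]
      congr 1
      funext p P
      exact (isMulCommutative_iff.1 (hS p P)) (a p P) (b p P)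
  · rintro (h | ⟨-, -, h⟩) H hH
    · exact absurd (inferInstance : IsMulCommutative H) hH
    · have : H = ⊤ := by
        by_contra hne
        exact hH (h H hne)
      rw [this]
      exact Subgroup.normalizer_eq_top ⊤

end Cfsg.Agent.S4075
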