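import Cfsg.Statements.S4081
import Cfsg.Agent.Lib.Helper71Fpf
import Cfsg.Agent.Lib.Helper71Orb
import Cfsg.Agent.Lib.Helper71Solv
import Cfsg.Agent.Lib.Helper71MaxNil
import Cfsg.Agent.S0144
import Cfsg.Agent.S0058
-- import your own Cfsg.Agent.* helpers here

set_option autoImplicit false
open Cfsg

namespace Cfsg.Agent.S4081

open Cfsg.Agent.Lib

theorem decomp {G : Type*} [Group G] [Finite G] (M : Subgroup G) (y : G)
    (hcard : Nat.card M * orderOf y = Nat.card G)
    (hcop : (Nat.card M).Coprime (orderOf y)) :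
    M ⊓ Subgroup.zpowers y = ⊥ ∧ ∀ g : G, ∃ a ∈ M, ∃ i : ℕ, g = a * y ^ i := by
  have hc : Subgroup.IsComplement' M (Subgroup.zpowers y) :=
    Subgroup.isComplement'_of_coprime (by rw [Nat.card_zpowers]; exact hcard)
      (by rw [Nat.card_zpowers]; exact hcop)
  refine ⟨hc.disjoint.eq_bot, fun g => ?_⟩
  obtain ⟨⟨⟨a, ha⟩, ⟨b, hb⟩⟩, h⟩ := hc.2 g
  obtain ⟨i, rfl⟩ := (mem_powers_iff_mem_zpowers.mpr hb)
  exact ⟨a, ha, i, h.symm⟩

theorem conjNormal_pow_eq_one {G : Type*} [Group G] (A : Subgroup G) [A.Normal] (x : G) (q : ℕ)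
    (hx : x ^ q = 1) : (MulAut.conjNormal x : MulAut A) ^ q = 1 := by
  rw [← map_pow, hx, map_one]

theorem order_cases {p q d : ℕ} (hp : p.Prime) (hq : q.Prime) (h : d ∣ p * q) :
    d = 1 ∨ d = p ∨ d = q ∨ d = p * q := by
  obtain ⟨a, b, ha, hb, rfl⟩ := (Nat.dvd_mul).mp h
  rcases (Nat.dvd_prime hp).mp ha with rfl | rfl <;> rcases (Nat.dvd_prime hq).mp hb with rfl | rfl
    <;> simp

theorem backward {G : Type*} [Group G] [Finite G] (p q n : ℕ) [hp : Fact p.Prime]
    [hq : Fact q.Prime] (hpq : p ≠ q) (hn : 1 ≤ n) (hcard : Nat.card G = p ^ n * q)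
    (hS : ∀ P : Sylow p G, (P : Subgroup G).Normal ∧ Cfsg.IsElementaryAbelian p (P : Subgroup G))
    (hord : orderOf (p : ZMod q) = q - 1)
    (hfpf : ∀ x y : G, orderOf x = q → orderOf y = p → x * y * x⁻¹ ≠ y) :
    Nat.card (MulAction.orbitRel.Quotient (MulAut G) G) = 3 := by
  classical
  let P : Sylow p G := default
  obtain ⟨hPn, hPc, hPe⟩ := hS P
  set A : Subgroup G := (P : Subgroup G) with hAdef
  have hAcard : Nat.card A = p ^ n := by
    rw [hAdef, Sylow.card_eq_multiplicity, hcard, Nat.factorization_mul (pow_ne_zero _ hp.out.ne_zero)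
      hq.out.ne_zero, Nat.Prime.factorization_pow hp.out, Nat.Prime.factorization hq.out]
    simp [hpq.symm]
  have hcomm : ∀ a b : A, a * b = b * a := fun a b => hPc.is_comm.comm a b
  have hexp : ∀ a : A, a ^ p = 1 := fun a => Subtype.ext (hPe a a.2)
  have hcop : (p ^ n).Coprime q := Nat.Coprime.pow_left _ ((Nat.coprime_primes hp.out hq.out).mpr hpq)
  have hdec : ∀ y : G, orderOf y = q →
      A ⊓ Subgroup.zpowers y = ⊥ ∧ ∀ g : G, ∃ a ∈ A, ∃ i : ℕ, g = a * y ^ i := by
    intro y hy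
    apply decomp
    · rw [hAcard, hy, hcard]
    · rw [hAcard, hy]; exact hcop
  have hidx : A.index = q := by
    have h1 := A.card_mul_index
    rw [hAcard, hcard] at h1
    exact Nat.eq_of_mul_eq_mul_left (pow_pos hp.out.pos _) h1
  -- orders
  have hcases : ∀ g : G, g = 1 ∨ orderOf g = p ∨ orderOf g = q := by
    intro g
    have h1 : g ^ q ∈ A := by
      rw [← hidx]; exact A.pow_index_mem g
    have h2 : g ^ (p * q) = 1 := by
      rw [mul_comm, pow_mul]; exact hPe _ h1
    rcases order_cases hp.out hq.out (orderOf_dvd_of_pow_eq_one h2) with h | h | h | h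
    · exact Or.inl (orderOf_eq_one_iff.mp h)
    · exact Or.inr (Or.inl h)
    · exact Or.inr (Or.inr h)
    · exfalso
      have h3 : orderOf (g ^ p) = q := by
        rw [orderOf_pow_of_dvd hp.out.ne_zero (by rw [h]; exact dvd_mul_right _ _), h,
          Nat.mul_div_cancel_left _ hp.out.pos]
      have h4 : orderOf (g ^ q) = p := by
        rw [orderOf_pow_of_dvd hq.out.ne_zero (by rw [h]; exact dvd_mul_left _ _), h,
          Nat.mul_div_cancel _ hq.out.pos]
      apply hfpf _ _ h3 h4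
      rw [mul_inv_eq_iff_eq_mul, ← pow_add, ← pow_add, add_comm]
  have hmemA : ∀ g : G, orderOf g = p → g ∈ A := by
    intro g hg
    have hpg : IsPGroup p (Subgroup.zpowers g) :=
      IsPGroup.of_card (n := 1) (by rw [Nat.card_zpowers, hg, pow_one])
    obtain ⟨Q, hQ⟩ := hpg.exists_le_sylow
    have : Subsingleton (Sylow p G) := (Sylow.unique_of_normal P hPn).instSubsingleton
    rw [hAdef, Subsingleton.elim P Q]
    exact hQ (Subgroup.mem_zpowers g)
  have hσfpf : ∀ y : G, orderOf y = q → ∀ a : A, (MulAut.conjNormal y : MulAut A) a = a → a = 1 := by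
    intro y hy a ha
    by_contra hne
    have h1 : orderOf (a : G) = p := by
      apply orderOf_eq_prime (hPe a a.2)
      intro h; exact hne (Subtype.ext h)
    apply hfpf y a hy h1
    rw [← MulAut.conjNormal_apply, ha]
  have hσq : ∀ y : G, orderOf y = q → (MulAut.conjNormal y : MulAut A) ^ q = 1 := by
    intro y hy
    apply conjNormal_pow_eq_one
    rw [← hy]; exact pow_orderOf_eq_one y
  obtain ⟨x, hx⟩ := exists_prime_orderOf_dvd_card' (G := G) q (by rw [hcard]; exact dvd_mul_left _ _)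
  obtain ⟨a₀, ha₀⟩ := exists_prime_orderOf_dvd_card' (G := G) p
    (by rw [hcard]; exact Dvd.dvd.mul_right (dvd_pow_self _ (by omega)) _)
  have htransP : ∀ g : G, orderOf g = p → ∃ α : MulAut G, α a₀ = g := by
    intro g hg
    have hne : ∀ g : G, orderOf g = p → g ≠ 1 := by
      rintro g hg rfl
      rw [orderOf_one] at hg
      exact hp.out.one_lt.ne hg
    obtain ⟨β, hβ, hβv⟩ := Helper71Fpf.grp_exists_trans hcomm hexp hpq hord
      (MulAut.conjNormal x : MulAut A) (hσq x hx) (hσfpf x hx) ⟨a₀, hmemA a₀ ha₀⟩ ⟨g, hmemA g hg⟩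
      (fun h => hne a₀ ha₀ (congrArg Subtype.val h)) (fun h => hne g hg (congrArg Subtype.val h))
    obtain ⟨α, hα, -⟩ := Helper71Orb.exists_aut A x x rfl (hdec x hx).1 (hdec x hx).1 (hdec x hx).2 β
      (fun a => by rw [hβ, MulAut.conjNormal_apply])
    refine ⟨α, ?_⟩
    have := hα ⟨a₀, hmemA a₀ ha₀⟩
    rw [hβv] at this
    exact this
  have htransQ : ∀ g : G, orderOf g = q → ∃ α : MulAut G, α x = g := by
    intro g hg
    obtain ⟨β, hβ⟩ := Helper71Fpf.grp_exists_iso hcomm hexp hpq hord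
      (MulAut.conjNormal x : MulAut A) (MulAut.conjNormal g : MulAut A) (hσq x hx) (hσfpf x hx)
      (hσq g hg) (hσfpf g hg)
    obtain ⟨α, -, hα⟩ := Helper71Orb.exists_aut A x g (hx.trans hg.symm) (hdec x hx).1 (hdec g hg).1
      (hdec x hx).2 β (fun a => by rw [hβ, MulAut.conjNormal_apply])
    exact ⟨α, hα⟩
  have hone : ∀ (α : MulAut G) (u v : G), α u = v → orderOf v = orderOf u := by
    rintro α u v rfl
    exact MulEquiv.orderOf_eq α u
  rw [Helper71Orb.card_eq_three_iff (Quotient.mk'' 1) (Quotient.mk'' a₀) (Quotient.mk'' x)]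
  · intro c
    induction c using Quotient.inductionOn' with
    | h g =>
      rcases hcases g with rfl | h | h
      · exact Or.inl rfl
      · right; left
        rw [Helper71Orb.mk_eq_iff]
        exact htransP g h
      · right; right
        rw [Helper71Orb.mk_eq_iff]
        exact htransQ g h
  · rw [Ne, Helper71Orb.mk_eq_iff]
    rintro ⟨α, hα⟩
    have := hone α _ _ hα
    rw [orderOf_one, ha₀] at this
    exact hp.out.one_lt.ne this
  · rw [Ne, Helper71Orb.mk_eq_iff]
    rintro ⟨α, hα⟩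
    have := hone α _ _ hα
    rw [orderOf_one, hx] at this
    exact hq.out.one_lt.ne this
  · rw [Ne, Helper71Orb.mk_eq_iff]
    rintro ⟨α, hα⟩
    have := hone α _ _ hα
    rw [ha₀, hx] at this
    exact hpq this

structure ThreeOrb (G : Type*) [Group G] (p q : ℕ) : Prop where
  hp : p.Prime
  hq : q.Prime
  hpq : p ≠ q
  cases : ∀ g : G, g = 1 ∨ orderOf g = p ∨ orderOf g = q
  conjP : ∀ g h : G, orderOf g = p → orderOf h = p → ∃ α : MulAut G, α g = h
  conjQ : ∀ g h : G, orderOf g = q → orderOf h = q → ∃ α : MulAut G, α g = h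
  exP : ∃ g : G, orderOf g = p
  exQ : ∃ g : G, orderOf g = q

theorem ThreeOrb.symm {G : Type*} [Group G] {p q : ℕ} (T : ThreeOrb G p q) : ThreeOrb G q p where
  hp := T.hq
  hq := T.hp
  hpq := T.hpq.symm
  cases g := by
    rcases T.cases g with h | h | h
    · exact Or.inl h
    · exact Or.inr (Or.inr h)
    · exact Or.inr (Or.inl h)
  conjP := T.conjQ
  conjQ := T.conjP
  exP := T.exQ
  exQ := T.exP

theorem ThreeOrb.noComm {G : Type*} [Group G] {p q : ℕ} (T : ThreeOrb G p q) (x y : G)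
    (hx : orderOf x = q) (hy : orderOf y = p) : x * y ≠ y * x := by
  intro h
  have h1 : orderOf (x * y) = q * p := by
    have := Commute.orderOf_mul_eq_mul_orderOf_of_coprime (x := x) (y := y) h
      (by rw [hx, hy]; exact (Nat.coprime_primes T.hq T.hp).mpr T.hpq.symm)
    rw [this, hx, hy]
  have hp1 := T.hp.one_lt
  have hq1 := T.hq.one_lt
  rcases T.cases (x * y) with h2 | h2 | h2
  · rw [h2, orderOf_one] at h1
    nlinarith
  · rw [h2] at h1
    nlinarith
  · rw [h2] at h1
    nlinarith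

theorem ThreeOrb.card_eq {G : Type*} [Group G] [Finite G] {p q : ℕ} (T : ThreeOrb G p q) :
    Nat.card G = p ^ (Nat.card G).factorization p * q ^ (Nat.card G).factorization q := by
  have hne : Nat.card G ≠ 0 := Nat.card_pos.ne'
  have hsupp : (Nat.card G).primeFactors = {p, q} := by
    ext r
    rw [Nat.mem_primeFactors, Finset.mem_insert, Finset.mem_singleton]
    constructor
    · rintro ⟨hr, hdvd, -⟩
      have : Fact r.Prime := ⟨hr⟩
      obtain ⟨g, hg⟩ := exists_prime_orderOf_dvd_card' (G := G) r hdvd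
      rcases T.cases g with h | h | h
      · rw [h, orderOf_one] at hg
        exact absurd hg hr.one_lt.ne
      · left; rw [← hg, h]
      · right; rw [← hg, h]
    · rintro (rfl | rfl)
      · obtain ⟨g, hg⟩ := T.exP
        exact ⟨T.hp, hg ▸ orderOf_dvd_natCard g, hne⟩
      · obtain ⟨g, hg⟩ := T.exQ
        exact ⟨T.hq, hg ▸ orderOf_dvd_natCard g, hne⟩
  conv_lhs => rw [← Nat.prod_factorization_pow_eq_self hne]
  rw [Finsupp.prod, Nat.support_factorization, hsupp, Finset.prod_pair T.hpq]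

/-- Restriction of an automorphism to a characteristic subgroup. -/
def resAut {G : Type*} [Group G] (M : Subgroup G) (hM : ∀ (α : MulAut G) (g : G), g ∈ M → α g ∈ M)
    (α : MulAut G) : MulAut M where
  toFun a := ⟨α a, hM α a a.2⟩
  invFun a := ⟨α.symm a, hM α.symm a a.2⟩
  left_inv a := Subtype.ext (α.symm_apply_apply a)
  right_inv a := Subtype.ext (α.apply_symm_apply a)
  map_mul' a b := Subtype.ext (map_mul α (a : G) (b : G))

theorem exists_threeOrb {G : Type*} [Group G] [Finite G] (hnpp : ¬ IsPrimePow (Nat.card G))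
    (hnt : Nat.card G ≠ 1) (h3 : Nat.card (MulAction.orbitRel.Quotient (MulAut G) G) = 3) :
    ∃ p q : ℕ, ThreeOrb G p q := by
  classical
  obtain ⟨p, hp, hpd⟩ := Nat.exists_prime_and_dvd hnt
  have hex : ∃ q, q.Prime ∧ q ∣ Nat.card G ∧ q ≠ p := by
    by_contra hcon
    push Not at hcon
    obtain ⟨k, hk⟩ : ∃ k, Nat.card G = p ^ k :=
      ⟨_, Nat.eq_prime_pow_of_unique_prime_dvd (Nat.card_pos.ne') (fun {d} hd hdd => hcon d hd hdd)⟩
    apply hnpp
    rw [hk]
    refine ⟨p, k, hp.prime, ?_, rfl⟩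
    rcases Nat.eq_zero_or_pos k with h0 | h0
    · rw [h0, pow_zero] at hk; exact absurd hk hnt
    · exact h0
  obtain ⟨q, hq, hqd, hqp⟩ := hex
  have : Fact p.Prime := ⟨hp⟩
  have : Fact q.Prime := ⟨hq⟩
  obtain ⟨a₀, ha₀⟩ := exists_prime_orderOf_dvd_card' (G := G) p hpd
  obtain ⟨x₀, hx₀⟩ := exists_prime_orderOf_dvd_card' (G := G) q hqd
  have hone : ∀ (α : MulAut G) (u v : G), α u = v → orderOf v = orderOf u := by
    rintro α u v rfl
    exact MulEquiv.orderOf_eq α u
  have hall := (Helper71Orb.card_eq_three_iff (Q := MulAction.orbitRel.Quotient (MulAut G) G)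
    (Quotient.mk'' 1) (Quotient.mk'' a₀) (Quotient.mk'' x₀) (by
      rw [Ne, Helper71Orb.mk_eq_iff]
      rintro ⟨α, hα⟩
      have := hone α _ _ hα
      rw [orderOf_one, ha₀] at this
      exact hp.one_lt.ne this) (by
      rw [Ne, Helper71Orb.mk_eq_iff]
      rintro ⟨α, hα⟩
      have := hone α _ _ hα
      rw [orderOf_one, hx₀] at this
      exact hq.one_lt.ne this) (by
      rw [Ne, Helper71Orb.mk_eq_iff]
      rintro ⟨α, hα⟩
      have := hone α _ _ hα
      rw [ha₀, hx₀] at this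
      exact hqp this.symm)).mp h3
  have hcl : ∀ g : G, g = 1 ∨ (∃ α : MulAut G, α a₀ = g) ∨ (∃ α : MulAut G, α x₀ = g) := by
    intro g
    rcases hall (Quotient.mk'' g) with h | h | h
    · left
      obtain ⟨α, hα⟩ := (Helper71Orb.mk_eq_iff _ _).mp h
      rw [← hα, map_one]
    · right; left; exact (Helper71Orb.mk_eq_iff _ _).mp h
    · right; right; exact (Helper71Orb.mk_eq_iff _ _).mp h
  have hP : ∀ g : G, orderOf g = p → ∃ α : MulAut G, α a₀ = g := by
    intro g hg
    rcases hcl g with h | h | ⟨α, hα⟩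
    · rw [h, orderOf_one] at hg
      exact absurd hg hp.one_lt.ne
    · exact h
    · have := hone α _ _ hα
      rw [hg, hx₀] at this
      exact absurd this.symm hqp
  have hQ : ∀ g : G, orderOf g = q → ∃ α : MulAut G, α x₀ = g := by
    intro g hg
    rcases hcl g with h | ⟨α, hα⟩ | h
    · rw [h, orderOf_one] at hg
      exact absurd hg hq.one_lt.ne
    · have := hone α _ _ hα
      rw [hg, ha₀] at this
      exact absurd this hqp
    · exact h
  refine ⟨p, q, hp, hq, hqp.symm, ?_, ?_, ?_, ⟨a₀, ha₀⟩, ⟨x₀, hx₀⟩⟩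
  · intro g
    rcases hcl g with h | ⟨α, hα⟩ | ⟨α, hα⟩
    · exact Or.inl h
    · right; left; rw [hone α _ _ hα, ha₀]
    · right; right; rw [hone α _ _ hα, hx₀]
  · intro g h hg hh
    obtain ⟨α, hα⟩ := hP g hg
    obtain ⟨α', hα'⟩ := hP h hh
    refine ⟨α' * α⁻¹, ?_⟩
    rw [MulAut.mul_apply, ← hα, MulAut.inv_apply_self, hα']
  · intro g h hg hh
    obtain ⟨α, hα⟩ := hQ g hg
    obtain ⟨α', hα'⟩ := hQ h hh
    refine ⟨α' * α⁻¹, ?_⟩
    rw [MulAut.mul_apply, ← hα, MulAut.inv_apply_self, hα']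

theorem core {G : Type*} [Group G] [Finite G] {p q : ℕ} (T : ThreeOrb G p q) (M : Subgroup G)
    (hM : M.Characteristic) (hab : ∀ a ∈ M, ∀ b ∈ M, a * b = b * a) (a₀ : G) (ha₀ : a₀ ∈ M)
    (ha₀p : orderOf a₀ = p) :
    ∃ (p q n : ℕ) (_ : Fact p.Prime) (_ : Fact q.Prime), p ≠ q ∧ 1 ≤ n ∧ Nat.card G = p ^ n * q ∧
      (∀ P : Sylow p G, (P : Subgroup G).Normal ∧ Cfsg.IsElementaryAbelian p (P : Subgroup G)) ∧
      orderOf (p : ZMod q) = q - 1 ∧
      ∀ x y : G, orderOf x = q → orderOf y = p → x * y * x⁻¹ ≠ y := by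
  classical
  have hp := T.hp
  have hq := T.hq
  have hpq := T.hpq
  have hpF : Fact p.Prime := ⟨hp⟩
  have hqF : Fact q.Prime := ⟨hq⟩
  have hMn : M.Normal := inferInstance
  have hMα : ∀ (α : MulAut G) (g : G), g ∈ M → α g ∈ M := by
    intro α g hg
    have h := hg
    rw [← hM.fixed α] at h
    exact h
  have ha₀1 : a₀ ≠ 1 := by
    rintro rfl
    rw [orderOf_one] at ha₀p
    exact hp.one_lt.ne ha₀p
  have hmemP : ∀ g : G, orderOf g = p → g ∈ M := by
    intro g hg
    obtain ⟨α, hα⟩ := T.conjP a₀ g ha₀p hg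
    exact hα ▸ hMα α a₀ ha₀
  have hMexp : ∀ g ∈ M, g ^ p = 1 := by
    intro g hg
    rcases T.cases g with h | h | h
    · rw [h, one_pow]
    · rw [← h]; exact pow_orderOf_eq_one g
    · exact absurd (hab g hg a₀ ha₀) (T.noComm g a₀ h ha₀p)
  have hMord : ∀ g ∈ M, g ≠ 1 → orderOf g = p := fun g hg h1 => orderOf_eq_prime (hMexp g hg) h1
  have hMpg : IsPGroup p M := fun g => ⟨1, by rw [pow_one]; exact Subtype.ext (hMexp g g.2)⟩
  have hSyl : ∀ P : Sylow p G, (P : Subgroup G) = M := by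
    intro P
    have hle : (P : Subgroup G) ≤ M := by
      intro g hg
      obtain ⟨k, hk⟩ := P.isPGroup' ⟨g, hg⟩
      have hk' : g ^ (p ^ k) = 1 := congrArg Subtype.val hk
      rcases T.cases g with h | h | h
      · rw [h]; exact M.one_mem
      · exact hmemP g h
      · exfalso
        have h1 : q ∣ p ^ k := h ▸ orderOf_dvd_of_pow_eq_one hk'
        exact hpq ((Nat.prime_dvd_prime_iff_eq hq hp).mp (hq.dvd_of_dvd_pow h1)).symm
    exact (P.is_maximal' hMpg hle).symm
  obtain ⟨n, hn⟩ := IsPGroup.iff_card.mp hMpg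
  have hn1 : 1 ≤ n := by
    rcases Nat.eq_zero_or_pos n with h0 | h0
    · exfalso
      rw [h0, pow_zero] at hn
      have := Subgroup.eq_bot_of_card_eq M hn
      rw [this, Subgroup.mem_bot] at ha₀
      exact ha₀1 ha₀
    · exact h0
  -- the Sylow q-subgroup
  obtain ⟨x, hx⟩ := T.exQ
  have hxpg : IsPGroup q (Subgroup.zpowers x) :=
    IsPGroup.of_card (n := 1) (by rw [Nat.card_zpowers, hx, pow_one])
  obtain ⟨Qs, hQs⟩ := hxpg.exists_le_sylow
  have hQne : (Qs : Subgroup G) ≠ ⊥ := by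
    intro h
    have h1 : x ∈ (Qs : Subgroup G) := hQs (Subgroup.mem_zpowers x)
    rw [h, Subgroup.mem_bot] at h1
    rw [h1, orderOf_one] at hx
    exact hq.one_lt.ne hx
  have hQord : ∀ g ∈ (Qs : Subgroup G), g ≠ 1 → orderOf g = q := by
    intro g hg h1
    obtain ⟨k, hk⟩ := Qs.isPGroup' ⟨g, hg⟩
    have hk' : g ^ (q ^ k) = 1 := congrArg Subtype.val hk
    rcases T.cases g with h | h | h
    · exact absurd h h1
    · exfalso
      have h1 : p ∣ q ^ k := h ▸ orderOf_dvd_of_pow_eq_one hk'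
      exact hpq ((Nat.prime_dvd_prime_iff_eq hp hq).mp (hp.dvd_of_dvd_pow h1))
    · exact h
  obtain ⟨z, hz, hz1⟩ : ∃ z ∈ (Qs : Subgroup G) ⊓ Subgroup.centralizer (Qs : Set G), z ≠ 1 := by
    by_contra hcon
    push Not at hcon
    exact Helper71MaxNil.center_ne_bot Qs hQne ((Subgroup.eq_bot_iff_forall _).mpr hcon)
  have hzQ : z ∈ (Qs : Subgroup G) := hz.1
  have hzq : orderOf z = q := hQord z hzQ hz1
  have hQz : (Qs : Subgroup G) = Subgroup.zpowers z := by
    by_contra hne
    have hle : Subgroup.zpowers z ≤ (Qs : Subgroup G) := (Subgroup.zpowers_le).mpr hzQ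
    obtain ⟨w, hw, hwz⟩ : ∃ w ∈ (Qs : Subgroup G), w ∉ Subgroup.zpowers z := by
      by_contra hcon
      push Not at hcon
      exact hne (le_antisymm hcon hle)
    have hzw : w * z = z * w := (Subgroup.mem_centralizer_iff.mp hz.2) w hw
    have hEc : IsMulCommutative (Subgroup.closure ({z, w} : Set G)) := by
      apply Subgroup.isMulCommutative_closure
      rintro a (rfl | rfl) b (rfl | rfl)
      · rfl
      · exact hzw.symm
      · exact hzw
      · rfl
    have hEQ : Subgroup.closure ({z, w} : Set G) ≤ (Qs : Subgroup G) := by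
      rw [Subgroup.closure_le]
      rintro a (rfl | rfl)
      · exact hzQ
      · exact hw
    have hzE : z ∈ Subgroup.closure ({z, w} : Set G) := Subgroup.subset_closure (by simp)
    have hwE : w ∈ Subgroup.closure ({z, w} : Set G) := Subgroup.subset_closure (by simp)
    have hEnc : ¬ IsCyclic (Subgroup.closure ({z, w} : Set G)) := by
      intro hc
      obtain ⟨e, he⟩ := hc.exists_generator
      have h1 := orderOf_eq_card_of_forall_mem_zpowers he
      rw [← Subgroup.orderOf_coe] at h1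
      have h2 : Nat.card (Subgroup.closure ({z, w} : Set G)) ≤ q := by
        rw [← h1]
        by_cases he1 : (e : G) = 1
        · rw [he1, orderOf_one]; exact hq.one_lt.le
        · rw [hQord e (hEQ e.2) he1]
      have h3 : Subgroup.zpowers z = Subgroup.closure ({z, w} : Set G) := by
        apply Subgroup.eq_of_le_of_card_ge ((Subgroup.zpowers_le).mpr hzE)
        rw [Nat.card_zpowers, hzq]; exact h2
      exact hwz (h3 ▸ hwE)
    have hEpg : IsPGroup q (Subgroup.closure ({z, w} : Set G)) := Qs.isPGroup'.to_le hEQ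
    obtain ⟨k, hk⟩ := IsPGroup.iff_card.mp hEpg
    have hS := S0058.result (Subgroup.closure ({z, w} : Set G)) M hEnc
      (by rw [Subgroup.normalizer_eq_top]; exact le_top)
      (by rw [hk, hn]; exact Nat.Coprime.pow _ _ ((Nat.coprime_primes hq hp).mpr hpq.symm))
    have hbot : (⨆ a ∈ {a : G | a ∈ Subgroup.closure ({z, w} : Set G) ∧ a ≠ 1},
        M ⊓ Subgroup.centralizer {a}) = ⊥ := by
      rw [eq_bot_iff]
      apply iSup₂_le
      rintro a ⟨haE, ha1⟩ g ⟨hgM, hgc⟩
      rw [Subgroup.mem_bot]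
      by_contra hg1
      have h1 : a * g = g * a := (Subgroup.mem_centralizer_iff.mp hgc) a rfl
      exact T.noComm a g (hQord a (hEQ haE) ha1) (hMord g hgM hg1) h1
    rw [hbot] at hS
    rw [← hS, Subgroup.mem_bot] at ha₀
    exact ha₀1 ha₀
  have hQcard : Nat.card (Qs : Subgroup G) = q := by
    rw [hQz, Nat.card_zpowers, hzq]
  have hcardG : Nat.card G = p ^ n * q := by
    calc Nat.card G = p ^ (Nat.card G).factorization p * q ^ (Nat.card G).factorization q :=
          T.card_eq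
      _ = Nat.card ((default : Sylow p G) : Subgroup G) * Nat.card (Qs : Subgroup G) := by
          rw [Sylow.card_eq_multiplicity, Sylow.card_eq_multiplicity]
      _ = p ^ n * q := by rw [hSyl, hn, hQcard]
  have hdec := decomp M z (by rw [hn, hzq, hcardG])
    (by rw [hn, hzq]; exact Nat.Coprime.pow_left _ ((Nat.coprime_primes hp hq).mpr hpq))
  have hkey : ∀ (α : MulAut G) (a' : G) (j : ℕ), a' ∈ M → α z = a' * z ^ j → ∀ u : M,
      resAut M hMα α ((MulAut.conjNormal z : MulAut M) u) =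
        ((MulAut.conjNormal z : MulAut M) ^ j) (resAut M hMα α u) := by
    intro α a' j ha' hα u
    apply Subtype.ext
    rw [← map_pow, MulAut.conjNormal_apply]
    show α ((MulAut.conjNormal z : MulAut M) u : G) = z ^ j * α u * (z ^ j)⁻¹
    rw [MulAut.conjNormal_apply, map_mul, map_mul, map_inv, hα]
    have h1 : z ^ j * α u * (z ^ j)⁻¹ ∈ M := hMn.conj_mem _ (hMα α u u.2) _
    have h2 := hab a' ha' _ h1
    calc a' * z ^ j * α u * (a' * z ^ j)⁻¹ = a' * (z ^ j * α u * (z ^ j)⁻¹) * a'⁻¹ := by group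
      _ = z ^ j * α u * (z ^ j)⁻¹ := by rw [h2]; group
  have hnontriv : Nontrivial M := ⟨⟨⟨a₀, ha₀⟩, 1, fun h => ha₀1 (congrArg Subtype.val h)⟩⟩
  have hprim : orderOf (p : ZMod q) = q - 1 := by
    apply Helper71Fpf.grp_orderOf_eq (A := M) (fun a b => Subtype.ext (hab a a.2 b b.2))
      (fun a => Subtype.ext (hMexp a a.2)) hpq (MulAut.conjNormal z : MulAut M)
      (conjNormal_pow_eq_one M z q (by rw [← hzq]; exact pow_orderOf_eq_one z))
    · intro a ha
      by_contra hne
      have h1 : orderOf (a : G) = p := hMord a a.2 (fun h => hne (Subtype.ext h))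
      apply T.noComm z a hzq h1
      have h2 : z * a * z⁻¹ = a := by rw [← MulAut.conjNormal_apply, ha]
      rwa [mul_inv_eq_iff_eq_mul] at h2
    · intro v w hv hw
      obtain ⟨α, hα⟩ := T.conjP v w (hMord v v.2 (fun h => hv (Subtype.ext h)))
        (hMord w w.2 (fun h => hw (Subtype.ext h)))
      obtain ⟨a', ha', j, hj⟩ := hdec.2 (α z)
      exact ⟨resAut M hMα α, j, Subtype.ext hα, hkey α a' j ha' hj⟩
    · intro j h0 hj
      have h1 : orderOf (z ^ j) = q := by
        rw [Nat.Coprime.orderOf_pow, hzq]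
        rw [hzq]; exact Nat.coprime_of_lt_prime h0.ne' hj hq
      obtain ⟨α, hα⟩ := T.conjQ z (z ^ j) hzq h1
      exact ⟨resAut M hMα α, hkey α 1 j M.one_mem (by rw [hα, one_mul])⟩
  refine ⟨p, q, n, hpF, hqF, hpq, hn1, hcardG, fun P => ?_, hprim, fun x y hx hy h => ?_⟩
  · rw [hSyl P]
    exact ⟨hMn, ⟨⟨fun a b => Subtype.ext (hab a a.2 b b.2)⟩⟩, hMexp⟩
  · apply T.noComm x y hx hy
    rwa [mul_inv_eq_iff_eq_mul] at h

/-- Let G be a finite group whose order is not a prime power. Then the automorphism group of G has exactly three orbits on G if and only if there are distinct primes p, q with #G = pⁿ·q (n ≥ 1) such that G has a normal elementary abelian Sylow p-subgroup P, p is a primitive root modulo q (the multiplicative order of p mod q is q − 1), and every element of order q of G acts on P without non-identity fixed points. -/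
theorem result {G : Type*} [Group G] [Finite G] (hnpp : ¬ IsPrimePow (Nat.card G)) (hnt : Nat.card G ≠ 1) :
    Nat.card (MulAction.orbitRel.Quotient (MulAut G) G) = 3 ↔
    ∃ (p q n : ℕ) (_ : Fact p.Prime) (_ : Fact q.Prime), p ≠ q ∧ 1 ≤ n ∧ Nat.card G = p ^ n * q ∧
      (∀ P : Sylow p G, (P : Subgroup G).Normal ∧ Cfsg.IsElementaryAbelian p (P : Subgroup G)) ∧
      orderOf (p : ZMod q) = q - 1 ∧
      ∀ x y : G, orderOf x = q → orderOf y = p → x * y * x⁻¹ ≠ y := by
  constructor
  · intro h3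
    obtain ⟨p, q, T⟩ := exists_threeOrb hnpp hnt h3
    have hsolv : Group.IsSolvable G := S0144.result p q _ _ T.hp T.hq T.card_eq
    have hnontriv : Nontrivial G := by
      rw [← Finite.one_lt_card_iff_nontrivial]
      have : Nat.card G ≠ 0 := Nat.card_pos.ne'
      omega
    obtain ⟨M, hM, hMne, hab⟩ := Helper71Solv.exists_abelian_normal (G := G)
    obtain ⟨m, hm, hm1⟩ := (Subgroup.ne_bot_iff_exists_ne_one).mp hMne |>.imp
      (fun (m : M) h => (⟨m.2, fun h' => h (Subtype.ext h')⟩ : (m : G) ∈ M ∧ (m : G) ≠ 1)) |>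
      (fun ⟨m, h⟩ => (⟨(m : G), h.1, h.2⟩ : ∃ m : G, m ∈ M ∧ m ≠ 1))
    rcases T.cases m with h | h | h
    · exact absurd h hm1
    · exact core T M hM hab m hm h
    · exact core T.symm M hM hab m hm h
  · rintro ⟨p, q, n, hp, hq, hpq, hn, hcard, hS, hord, hfpf⟩
    exact backward p q n hpq hn hcard hS hord hfpf

end Cfsg.Agent.S4081
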