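import Cfsg.Statements.S4082
-- import your own Cfsg.Agent.* helpers here
import Cfsg.Agent.S0206
import Cfsg.Agent.Lib.Helper11OddAut

set_option autoImplicit false
open Cfsg

namespace Cfsg.Agent.S4082

open Subgroup

/-- In a dihedral group an element either commutes with all elements of odd order, or it squares to
one and inverts all of them. -/
theorem dich {X : Type*} [Group X] {N : ℕ} (e : X ≃* DihedralGroup N) (x : X) :
    (∀ u : X, Odd (orderOf u) → x * u = u * x) ∨
      (x * x = 1 ∧ ∀ u : X, Odd (orderOf u) → x * u * x⁻¹ = u⁻¹) := by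
  have hrot : ∀ u : X, Odd (orderOf u) → ∃ j, e u = DihedralGroup.r j := by
    intro u hu
    rcases h : e u with j | j
    · exact ⟨j, rfl⟩
    · exfalso
      have h1 : orderOf (e u) = orderOf u := e.orderOf_eq u
      rw [h, DihedralGroup.orderOf_sr] at h1
      rw [← h1] at hu
      revert hu; decide
  rcases hx : e x with i | i
  · left
    intro u hu
    obtain ⟨j, hj⟩ := hrot u hu
    apply e.injective
    rw [map_mul, map_mul, hx, hj, DihedralGroup.r_mul_r, DihedralGroup.r_mul_r, add_comm]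
  · right
    constructor
    · apply e.injective
      rw [map_mul, hx, DihedralGroup.sr_mul_self, map_one]
    · intro u hu
      obtain ⟨j, hj⟩ := hrot u hu
      apply e.injective
      rw [map_mul, map_mul, map_inv, map_inv, hx, hj, DihedralGroup.inv_sr, DihedralGroup.inv_r,
        DihedralGroup.sr_mul_r, DihedralGroup.sr_mul_sr]
      congr 1
      ring

variable {G : Type*} [Group G] [Finite G] {p : ℕ} [Fact p.Prime]

/-- `Q⟨x⟩` for a `p`-subgroup `Q` normalised by `x` satisfies the two hypotheses. -/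
theorem hyp_of_norm (Q : Subgroup G) (hQ : IsPGroup p Q) (x : G)
    (hx : x ∈ normalizer (Q : Set G)) :
    (∀ S : Sylow p ↥(closure ((Q : Set G) ∪ {x})),
      (S : Subgroup ↥(closure ((Q : Set G) ∪ {x}))).Normal) ∧
    (∀ (S : Sylow p ↥(closure ((Q : Set G) ∪ {x})))
      [(S : Subgroup ↥(closure ((Q : Set G) ∪ {x}))).Normal],
      IsCyclic (↥(closure ((Q : Set G) ∪ {x})) ⧸ (S : Subgroup ↥(closure ((Q : Set G) ∪ {x}))))) := by
  set H := closure ((Q : Set G) ∪ {x}) with hH
  have hQH : Q ≤ H := fun k hk => subset_closure (Or.inl hk)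
  have hxH : x ∈ H := subset_closure (Or.inr rfl)
  have hHN : H ≤ normalizer (Q : Set G) := (closure_le _).2 (by
    rintro u (hu | rfl)
    · exact le_normalizer hu
    · exact hx)
  have hn : (Q.subgroupOf H).Normal := normal_subgroupOf_of_le_normalizer hHN
  have hgen : ∀ q : H ⧸ Q.subgroupOf H, q ∈ zpowers ((⟨x, hxH⟩ : H) : H ⧸ Q.subgroupOf H) := by
    intro q
    obtain ⟨g, rfl⟩ := QuotientGroup.mk_surjective q
    set M := (zpowers ((⟨x, hxH⟩ : H) : H ⧸ Q.subgroupOf H)).comap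
      (QuotientGroup.mk' (Q.subgroupOf H)) with hM
    have hle : H ≤ M.map H.subtype := (closure_le _).2 (by
      rintro u (hu | rfl)
      · refine ⟨⟨u, hQH hu⟩, ?_, rfl⟩
        have h2 : ((⟨u, hQH hu⟩ : H) : H ⧸ Q.subgroupOf H) = 1 :=
          (QuotientGroup.eq_one_iff _).2 (mem_subgroupOf.2 hu)
        change QuotientGroup.mk' (Q.subgroupOf H) _ ∈
          zpowers ((⟨x, hxH⟩ : H) : H ⧸ Q.subgroupOf H)
        rw [QuotientGroup.mk'_apply, h2]
        exact one_mem _
      · exact ⟨⟨u, hxH⟩, mem_zpowers _, rfl⟩)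
    obtain ⟨g', hg', hgg⟩ := hle g.2
    have : g' = g := Subtype.ext hgg
    exact this ▸ hg'
  have hcyc : IsCyclic (H ⧸ Q.subgroupOf H) := ⟨⟨_, hgen⟩⟩
  have hQS : ∀ S : Sylow p ↥H, Q.subgroupOf H ≤ (S : Subgroup ↥H) := by
    intro S
    have hp : IsPGroup p (Q.subgroupOf H) := hQ.of_equiv (subgroupOfEquivOfLe hQH).symm
    obtain ⟨S', hS'⟩ := hp.exists_le_sylow
    obtain ⟨g, hg⟩ := MulAction.exists_smul_eq H S' S
    intro u hu
    have h1 : g⁻¹ * u * g⁻¹⁻¹ ∈ Q.subgroupOf H := hn.conj_mem u hu g⁻¹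
    have h2 := Cfsg.Agent.Lib.Helper11Frobenius.mem_smul_sylow g S' _ (hS' h1)
    rw [hg] at h2
    have h3 : u ∈ S := by simpa [mul_assoc] using h2
    exact h3
  have hnorm : ∀ S : Sylow p ↥H, (S : Subgroup ↥H).Normal := by
    intro S
    refine ⟨fun s hs g => ?_⟩
    have hc : ((g * s * g⁻¹ * s⁻¹ : H) : H ⧸ Q.subgroupOf H) = 1 := by
      have := hcyc.isMulCommutative
      rw [QuotientGroup.mk_mul, QuotientGroup.mk_mul, QuotientGroup.mk_mul,
        mul_comm' (g : H ⧸ Q.subgroupOf H), QuotientGroup.mk_inv, QuotientGroup.mk_inv]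
      group
    have h1 : g * s * g⁻¹ * s⁻¹ ∈ (S : Subgroup ↥H) := hQS S ((QuotientGroup.eq_one_iff _).1 hc)
    simpa using mul_mem h1 hs
  refine ⟨hnorm, ?_⟩
  intro S hS
  exact isCyclic_of_surjective (QuotientGroup.map (Q.subgroupOf H) (S : Subgroup ↥H)
    (MonoidHom.id H) (hQS S)) (by
      intro q
      obtain ⟨g, rfl⟩ := QuotientGroup.mk_surjective q
      exact ⟨(g : H ⧸ Q.subgroupOf H), rfl⟩)

/-- The hypothesis of the statement. -/
def Hyp (G : Type*) [Group G] (p : ℕ) : Prop :=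
  ∀ H : Subgroup G, (∀ S : Sylow p ↥H, (S : Subgroup ↥H).Normal) →
    (∀ (S : Sylow p ↥H) [(S : Subgroup ↥H).Normal], IsCyclic (↥H ⧸ (S : Subgroup ↥H))) →
    IsCyclic H ∨ (∃ n : ℕ, Nonempty (H ≃* DihedralGroup (p ^ n)))

theorem cent_or_inv (hp : p ≠ 2) (h : Hyp G p) (Q : Subgroup G) (hQ : IsPGroup p Q) (x : G)
    (hx : x ∈ normalizer (Q : Set G)) :
    x ∈ centralizer (Q : Set G) ∨ (x * x = 1 ∧ ∀ u ∈ Q, x * u * x⁻¹ = u⁻¹) := by
  obtain ⟨h1, h2⟩ := hyp_of_norm Q hQ x hx
  set H := closure ((Q : Set G) ∪ {x}) with hH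
  have hQH : Q ≤ H := fun k hk => subset_closure (Or.inl hk)
  have hxH : x ∈ H := subset_closure (Or.inr rfl)
  have hodd : ∀ u (hu : u ∈ Q), Odd (orderOf (⟨u, hQH hu⟩ : H)) := by
    intro u hu
    obtain ⟨k, hk⟩ := hQ ⟨u, hu⟩
    have h3 : u ^ p ^ k = 1 := by simpa using congrArg Subtype.val hk
    rw [Subgroup.orderOf_mk]
    have h4 := orderOf_dvd_of_pow_eq_one h3
    exact Odd.of_dvd_nat (((Fact.out : p.Prime).odd_of_ne_two hp).pow) h4
  rcases h H h1 h2 with hc | ⟨n, ⟨e⟩⟩
  · left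
    rw [mem_centralizer_iff]
    intro u hu
    have := hc.isMulCommutative
    have h3 := mul_comm' (⟨u, hQH hu⟩ : H) ⟨x, hxH⟩
    exact congrArg Subtype.val h3
  · rcases dich e ⟨x, hxH⟩ with h3 | ⟨h3, h4⟩
    · left
      rw [mem_centralizer_iff]
      intro u hu
      exact (congrArg Subtype.val (h3 ⟨u, hQH hu⟩ (hodd u hu))).symm
    · right
      exact ⟨congrArg Subtype.val h3, fun u hu => congrArg Subtype.val (h4 ⟨u, hQH hu⟩ (hodd u hu))⟩

theorem sylow_cyclic (hp : p ≠ 2) (h : Hyp G p) (P : Sylow p G) : IsCyclic P := by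
  have hP := h (P : Subgroup G) (by
    intro S
    have : (S : Subgroup ↥(P : Subgroup G)) = ⊤ :=
      (S.is_maximal' (Q := ⊤) (P.2.of_equiv Subgroup.topEquiv.symm) le_top).symm
    rw [this]; infer_instance) (by
    intro S _
    have h1 : (S : Subgroup ↥(P : Subgroup G)) = ⊤ :=
      (S.is_maximal' (Q := ⊤) (P.2.of_equiv Subgroup.topEquiv.symm) le_top).symm
    have h2 : Nat.card (↥(P : Subgroup G) ⧸ (S : Subgroup ↥(P : Subgroup G))) = 1 :=
      index_eq_one.2 h1
    have := (Nat.card_eq_one_iff_unique.1 h2).1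
    exact isCyclic_of_subsingleton)
  rcases hP with hc | ⟨n, ⟨e⟩⟩
  · exact hc
  · exfalso
    obtain ⟨k, hk⟩ := IsPGroup.iff_card.1 P.2
    rw [Nat.card_congr e.toEquiv, DihedralGroup.nat_card] at hk
    have h3 : 2 ∣ p ^ k := by rw [← hk]; exact dvd_mul_right _ _
    have h4 := Nat.Prime.dvd_of_dvd_pow Nat.prime_two h3
    exact hp ((Nat.prime_dvd_prime_iff_eq Nat.prime_two Fact.out).1 h4).symm

theorem fwd_Q (hp : p ≠ 2) (h : Hyp G p) (Q : Subgroup G) (hQ : IsPGroup p Q) (x : G)
    (hx : x ∈ normalizer (Q : Set G)) (hxc : x ∉ centralizer (Q : Set G)) :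
    orderOf x = 2 ∧ ∀ c : G, c ∈ centralizer (Q : Set G) → x * c * x⁻¹ = c⁻¹ := by
  have key : ∀ y : G, y ∈ normalizer (Q : Set G) → y ∉ centralizer (Q : Set G) → y * y = 1 := by
    intro y hy hyc
    rcases cent_or_inv hp h Q hQ y hy with h1 | h1
    · exact absurd h1 hyc
    · exact h1.1
  have hxx := key x hx hxc
  have hx1 : x ≠ 1 := fun h1 => hxc (h1 ▸ one_mem _)
  refine ⟨orderOf_eq_prime (by rw [sq]; exact hxx) hx1, ?_⟩
  intro c hc
  have h1 : x * c ∈ normalizer (Q : Set G) := mul_mem hx (centralizer_le_normalizer _ hc)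
  have h2 : x * c ∉ centralizer (Q : Set G) := fun h3 =>
    hxc (by simpa using mul_mem h3 (inv_mem hc))
  have h3 := key _ h1 h2
  have h4 : x⁻¹ = x := inv_eq_of_mul_eq_one_left hxx
  rw [h4]
  calc x * c * x = x * c * (x * c) * c⁻¹ := by group
    _ = c⁻¹ := by rw [h3, one_mul]

theorem fwd (hp : p ≠ 2) (h : Hyp G p) (P : Sylow p G) :
    (IsCyclic P ∧
      (Subgroup.normalizer ((P : Subgroup G) : Set G) = Subgroup.centralizer ((P : Subgroup G) : Set G) ∨
       ((Subgroup.centralizer ((P : Subgroup G) : Set G)).relIndex (Subgroup.normalizer ((P : Subgroup G) : Set G)) = 2 ∧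
        ∀ Q : Subgroup G, Q ≤ P → Nat.card Q = p →
          IsMulCommutative ↥(Subgroup.centralizer (Q : Set G)) ∧
          ∀ x : G, x ∈ Subgroup.normalizer (Q : Set G) → x ∉ Subgroup.centralizer (Q : Set G) →
            orderOf x = 2 ∧ ∀ c : G, c ∈ Subgroup.centralizer (Q : Set G) → x * c * x⁻¹ = c⁻¹))) := by
  refine ⟨sylow_cyclic hp h P, ?_⟩
  by_cases hNC : normalizer ((P : Subgroup G) : Set G) = centralizer ((P : Subgroup G) : Set G)
  · exact Or.inl hNC
  right
  have hCN : centralizer ((P : Subgroup G) : Set G) ≤ normalizer ((P : Subgroup G) : Set G) :=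
    centralizer_le_normalizer _
  obtain ⟨x0, hx0N, hx0C⟩ : ∃ x0 ∈ normalizer ((P : Subgroup G) : Set G),
      x0 ∉ centralizer ((P : Subgroup G) : Set G) := by
    by_contra hcon
    push Not at hcon
    exact hNC (le_antisymm hcon hCN)
  have hinv : ∀ y ∈ normalizer ((P : Subgroup G) : Set G),
      y ∉ centralizer ((P : Subgroup G) : Set G) → ∀ u ∈ (P : Subgroup G), y * u * y⁻¹ = u⁻¹ := by
    intro y hy hyc
    rcases cent_or_inv hp h P P.2 y hy with h1 | h1
    · exact absurd h1 hyc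
    · exact h1.2
  have hx0 := hinv x0 hx0N hx0C
  constructor
  · rw [relIndex_eq_two_iff]
    refine ⟨x0, hx0N, fun b hb => ?_⟩
    by_cases hbC : b ∈ centralizer ((P : Subgroup G) : Set G)
    · right
      exact ⟨hbC, fun h1 => hx0C (by simpa using mul_mem (inv_mem hbC) h1)⟩
    · left
      refine ⟨?_, hbC⟩
      have hb' := hinv b hb hbC
      rw [mem_centralizer_iff]
      intro u hu
      have h1 : b * x0 * u * (b * x0)⁻¹ = u := by
        calc b * x0 * u * (b * x0)⁻¹ = b * (x0 * u * x0⁻¹) * b⁻¹ := by group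
          _ = b * u⁻¹ * b⁻¹ := by rw [hx0 u hu]
          _ = u := by rw [hb' _ (inv_mem hu), inv_inv]
      calc u * (b * x0) = (b * x0 * u * (b * x0)⁻¹) * (b * x0) := by rw [h1]
        _ = b * x0 * u := by group
  · intro Q hQP hQc
    have hQ : IsPGroup p Q := P.2.to_le hQP
    refine ⟨?_, fun x hx hxc => fwd_Q hp h Q hQ x hx hxc⟩
    have hx0Q : x0 ∈ normalizer (Q : Set G) := by
      apply Cfsg.Agent.Lib.Helper11OddAut.mem_normalizer_of_conj_mem Q x0 (isOfFinOrder_of_finite x0)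
      intro z hz
      rw [hx0 z (hQP hz)]
      exact inv_mem hz
    have hx0Qc : x0 ∉ centralizer (Q : Set G) := by
      intro hc
      have hne : Q ≠ ⊥ := by
        rintro rfl
        rw [card_bot] at hQc
        exact (Fact.out : p.Prime).one_lt.ne hQc
      obtain ⟨u, hu, hu1⟩ : ∃ u ∈ Q, u ≠ 1 := by
        obtain ⟨u, hu⟩ := (Subgroup.ne_bot_iff_exists_ne_one).1 hne
        exact ⟨(u : G), u.2, fun h1 => hu (Subtype.ext h1)⟩
      have h1 : x0 * u * x0⁻¹ = u := by
        rw [← mem_centralizer_iff.1 hc u hu]; group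
      rw [hx0 u (hQP hu)] at h1
      have h2 : u ^ 2 = 1 := by
        rw [sq]
        calc u * u = u⁻¹ * u := by rw [h1]
          _ = 1 := by group
      have h3 : orderOf u ∣ 2 := orderOf_dvd_of_pow_eq_one h2
      have h4 : orderOf u ∣ p := by
        rw [← hQc]
        have := orderOf_dvd_natCard (⟨u, hu⟩ : Q)
        rwa [Subgroup.orderOf_mk] at this
      have h5 : orderOf u ∣ Nat.gcd 2 p := Nat.dvd_gcd h3 h4
      have h6 : Nat.gcd 2 p = 1 :=
        (Nat.coprime_primes Nat.prime_two Fact.out).2 (Ne.symm hp)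
      rw [h6, Nat.dvd_one, orderOf_eq_one_iff] at h5
      exact hu1 h5
    have hI := (fwd_Q hp h Q hQ x0 hx0Q hx0Qc).2
    refine ⟨⟨fun a b => Subtype.ext ?_⟩⟩
    have h1 := hI (a * b) (mul_mem a.2 b.2)
    have h2 : x0 * ((a : G) * b) * x0⁻¹ = (x0 * a * x0⁻¹) * (x0 * b * x0⁻¹) := by group
    rw [h2, hI a a.2, hI b b.2] at h1
    have h3 : ((b : G) * a)⁻¹ = ((a : G) * b)⁻¹ := by rw [mul_inv_rev]; exact h1
    exact (inv_injective h3).symm

/-- generators of a group with normal cyclic Sylow subgroup and cyclic quotient -/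
theorem exists_gens {X : Type*} [Group X] [Finite X] (T : Sylow p X) [hn : (T : Subgroup X).Normal]
    (hT : IsCyclic (T : Subgroup X)) (hq : IsCyclic (X ⧸ (T : Subgroup X))) :
    ∃ t y : X, zpowers t = (T : Subgroup X) ∧ orderOf t = Nat.card (T : Subgroup X) ∧
      orderOf y = (T : Subgroup X).index := by
  obtain ⟨q, hq⟩ := hq.exists_generator
  obtain ⟨g, rfl⟩ := QuotientGroup.mk_surjective q
  have hm : orderOf (g : X ⧸ (T : Subgroup X)) = (T : Subgroup X).index :=
    orderOf_eq_card_of_forall_mem_zpowers hq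
  have hcop := T.card_coprime_index
  set c := Nat.card (T : Subgroup X) with hc
  set m := (T : Subgroup X).index with hmdef
  have hcm : c * m = Nat.card X := (T : Subgroup X).card_mul_index
  set y := g ^ c with hy
  have h1 : orderOf ((y : X) : X ⧸ (T : Subgroup X)) = m := by
    rw [hy, QuotientGroup.mk_pow, Nat.Coprime.orderOf_pow, hm]
    rw [hm]; exact hcop.symm
  have h2 : m ∣ orderOf y := by
    rw [← h1]
    exact orderOf_map_dvd (QuotientGroup.mk' (T : Subgroup X)) y
  have h3 : orderOf y ∣ m := by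
    apply orderOf_dvd_of_pow_eq_one
    rw [hy, ← pow_mul, hcm, pow_card_eq_one']
  have h4 : orderOf y = m := Nat.dvd_antisymm h3 h2
  obtain ⟨t, ht⟩ := (Subgroup.isCyclic_iff_exists_zpowers_eq_top (T : Subgroup X)).mp hT
  refine ⟨t, y, ht, ?_, h4⟩
  rw [← Nat.card_zpowers, ht]

theorem key (P : Sylow p G) (hPc : IsCyclic P)
    (h : Subgroup.normalizer ((P : Subgroup G) : Set G) = Subgroup.centralizer ((P : Subgroup G) : Set G) ∨
       ((Subgroup.centralizer ((P : Subgroup G) : Set G)).relIndex (Subgroup.normalizer ((P : Subgroup G) : Set G)) = 2 ∧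
        ∀ Q : Subgroup G, Q ≤ P → Nat.card Q = p →
          IsMulCommutative ↥(Subgroup.centralizer (Q : Set G)) ∧
          ∀ x : G, x ∈ Subgroup.normalizer (Q : Set G) → x ∉ Subgroup.centralizer (Q : Set G) →
            orderOf x = 2 ∧ ∀ c : G, c ∈ Subgroup.centralizer (Q : Set G) → x * c * x⁻¹ = c⁻¹))
    (t y : G) (ht : t ∈ (P : Subgroup G)) (hy : y * t * y⁻¹ ∈ zpowers t) :
    y * t = t * y ∨ (orderOf y = 2 ∧ y * t * y⁻¹ = t⁻¹) := by
  rcases h with h | ⟨-, h⟩
  · left
    have := hPc.isMulCommutative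
    have h1 : (y⁻¹)⁻¹ * t * y⁻¹ ∈ (P : Subgroup G) := by
      rw [inv_inv]
      exact (zpowers_le.2 ht) hy
    obtain ⟨n, hn, hn'⟩ := P.conj_eq_normalizer_conj_of_mem t y⁻¹ ht h1
    change n ∈ normalizer ((P : Subgroup G) : Set G) at hn
    rw [h] at hn
    have h2 : n⁻¹ * t * n = t := by
      rw [mul_assoc, mem_centralizer_iff.1 hn t ht]; group
    rw [h2, inv_inv] at hn'
    calc y * t = y * t * y⁻¹ * y := by group
      _ = t * y := by rw [hn']
  · by_cases ht1 : t = 1
    · left; rw [ht1]; simp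
    obtain ⟨k, hk⟩ := P.2 ⟨t, ht⟩
    have hk' : t ^ p ^ k = 1 := by simpa using congrArg Subtype.val hk
    obtain ⟨j, -, hj⟩ := (Nat.dvd_prime_pow Fact.out).1 (orderOf_dvd_of_pow_eq_one hk')
    have hj1 : 1 ≤ j := by
      rcases Nat.eq_zero_or_pos j with rfl | h0
      · rw [pow_zero, orderOf_eq_one_iff] at hj
        exact absurd hj ht1
      · exact h0
    have hppos : 0 < p := (Fact.out : p.Prime).pos
    set z := t ^ (p ^ (j - 1)) with hz
    have hzo : orderOf z = p := by
      rw [hz, orderOf_pow_of_dvd (by positivity) (by rw [hj]; exact pow_dvd_pow p (Nat.sub_le _ _)), hj]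
      obtain ⟨i, rfl⟩ : ∃ i, j = i + 1 := ⟨j - 1, by omega⟩
      rw [Nat.add_sub_cancel, pow_succ, Nat.mul_div_cancel_left _ (by positivity)]
    have hzP : zpowers z ≤ (P : Subgroup G) := zpowers_le.2 (pow_mem ht _)
    obtain ⟨hcomm, hinv⟩ := h (zpowers z) hzP (by rw [Nat.card_zpowers, hzo])
    have hyN : y ∈ normalizer ((zpowers z : Subgroup G) : Set G) := by
      apply Cfsg.Agent.Lib.Helper11OddAut.mem_normalizer_of_conj_mem _ y (isOfFinOrder_of_finite y)
      rintro _ ⟨i, rfl⟩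
      obtain ⟨a, ha⟩ := hy
      have h1 : y * z * y⁻¹ = z ^ a := by
        rw [hz, ← conj_pow, ← ha, ← zpow_natCast, ← zpow_natCast, ← zpow_mul, ← zpow_mul, mul_comm]
      simp only
      rw [← conj_zpow, h1]
      exact zpow_mem (zpow_mem (mem_zpowers z) a) i
    have htC : t ∈ centralizer ((zpowers z : Subgroup G) : Set G) := by
      rw [mem_centralizer_iff]
      rintro _ ⟨i, rfl⟩
      simp only
      exact ((Commute.refl t).pow_left _).zpow_left i
    by_cases hyC : y ∈ centralizer ((zpowers z : Subgroup G) : Set G)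
    · left
      exact congrArg Subtype.val (mul_comm' (⟨y, hyC⟩ : centralizer ((zpowers z : Subgroup G) : Set G)) ⟨t, htC⟩)
    · right
      obtain ⟨h1, h2⟩ := hinv y hyN hyC
      exact ⟨h1, h2 t htC⟩

theorem bwd (hp : p ≠ 2) (P : Sylow p G) (hPc : IsCyclic P)
    (h : Subgroup.normalizer ((P : Subgroup G) : Set G) = Subgroup.centralizer ((P : Subgroup G) : Set G) ∨
       ((Subgroup.centralizer ((P : Subgroup G) : Set G)).relIndex (Subgroup.normalizer ((P : Subgroup G) : Set G)) = 2 ∧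
        ∀ Q : Subgroup G, Q ≤ P → Nat.card Q = p →
          IsMulCommutative ↥(Subgroup.centralizer (Q : Set G)) ∧
          ∀ x : G, x ∈ Subgroup.normalizer (Q : Set G) → x ∉ Subgroup.centralizer (Q : Set G) →
            orderOf x = 2 ∧ ∀ c : G, c ∈ Subgroup.centralizer (Q : Set G) → x * c * x⁻¹ = c⁻¹))
    (H : Subgroup G) (T : Sylow p ↥H) [hTn : (T : Subgroup ↥H).Normal]
    (hq : IsCyclic (↥H ⧸ (T : Subgroup ↥H))) :
    IsCyclic H ∨ (∃ n : ℕ, Nonempty (H ≃* DihedralGroup (p ^ n))) := by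
  obtain ⟨ψ, hψ⟩ := Cfsg.Agent.Lib.Helper11OddAut.exists_injective_to_sylow P
    (H.subtype.comp (T : Subgroup ↥H).subtype)
    (H.subtype_injective.comp (T : Subgroup ↥H).subtype_injective) T.2
  have hTc : IsCyclic (T : Subgroup ↥H) := isCyclic_of_injective ψ hψ
  obtain ⟨t, y, hzt, hot, hoy⟩ := exists_gens T hTc hq
  have hcm := (T : Subgroup ↥H).card_mul_index
  have hcop := T.card_coprime_index
  have htT : t ∈ (T : Subgroup ↥H) := hzt ▸ mem_zpowers t
  -- conjugate into P
  have hpg : IsPGroup p (zpowers (t : G)) := by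
    have h1 : IsPGroup p (zpowers t) := hzt ▸ T.2
    exact h1.of_equiv ((zpowers t).equivMapOfInjective H.subtype H.subtype_injective |>.trans
      (MulEquiv.subgroupCongr (by rw [MonoidHom.map_zpowers]; rfl)))
  obtain ⟨S', hS'⟩ := hpg.exists_le_sylow
  obtain ⟨g, hg⟩ := MulAction.exists_smul_eq G S' P
  have ht' : g * (t : G) * g⁻¹ ∈ (P : Subgroup G) := by
    have := Cfsg.Agent.Lib.Helper11Frobenius.mem_smul_sylow g S' _ (hS' (mem_zpowers (t : G)))
    rw [hg] at this
    exact this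
  have hconj : y * t * y⁻¹ ∈ zpowers t := by
    rw [hzt]; exact hTn.conj_mem t htT y
  obtain ⟨a, ha⟩ := hconj
  have ha' : (t : G) ^ a = (y : G) * t * (y : G)⁻¹ := by
    have := congrArg Subtype.val ha
    simpa using this
  have hy' : (g * (y : G) * g⁻¹) * (g * (t : G) * g⁻¹) * (g * (y : G) * g⁻¹)⁻¹ ∈
      zpowers (g * (t : G) * g⁻¹) := by
    refine ⟨a, ?_⟩
    simp only
    rw [conj_zpow, ha']; group
  have hcyc : (y : G) * t = t * y → IsCyclic H := by
    intro h3
    have hcomm : Commute t y := (Subtype.ext h3 : y * t = t * y).symm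
    apply isCyclic_of_orderOf_eq_card (t * y)
    rw [hcomm.orderOf_mul_eq_mul_orderOf_of_coprime (by rw [hot, hoy]; exact hcop), hot, hoy, hcm]
  rcases key P hPc h _ _ ht' hy' with h1 | ⟨h1, h2⟩
  · left
    apply hcyc
    have h4 : g * ((y : G) * t) * g⁻¹ = g * ((t : G) * y) * g⁻¹ := by
      calc g * ((y : G) * t) * g⁻¹ = (g * (y : G) * g⁻¹) * (g * (t : G) * g⁻¹) := by group
        _ = (g * (t : G) * g⁻¹) * (g * (y : G) * g⁻¹) := h1
        _ = g * ((t : G) * y) * g⁻¹ := by group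
    exact mul_left_cancel (mul_right_cancel h4)
  · by_cases ht1 : t = 1
    · exact Or.inl (hcyc (by rw [ht1]; simp))
    right
    have hy2 : orderOf y = 2 := by
      rw [← Subgroup.orderOf_coe, ← h1]
      exact ((MulAut.conj g).orderOf_eq (y : G)).symm
    have hinv : y * t * y⁻¹ = t⁻¹ := by
      apply Subtype.ext
      have h4 : g * ((y : G) * t * (y : G)⁻¹) * g⁻¹ = g * (t : G)⁻¹ * g⁻¹ := by
        calc g * ((y : G) * t * (y : G)⁻¹) * g⁻¹
            = (g * (y : G) * g⁻¹) * (g * (t : G) * g⁻¹) * (g * (y : G) * g⁻¹)⁻¹ := by group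
          _ = (g * (t : G) * g⁻¹)⁻¹ := h2
          _ = g * (t : G)⁻¹ * g⁻¹ := by group
      simpa using mul_left_cancel (mul_right_cancel h4)
    have hyy : y * y = 1 := by rw [← sq, ← hy2, pow_orderOf_eq_one]
    have hyi : y⁻¹ = y := inv_eq_of_mul_eq_one_left hyy
    obtain ⟨k, hk⟩ := IsPGroup.iff_card.1 T.2
    have hodd : Odd (orderOf t) := by
      rw [hot, hk]; exact ((Fact.out : p.Prime).odd_of_ne_two hp).pow
    have hyt : y * t * (y * t) = 1 := by
      calc y * t * (y * t) = (y * t * y⁻¹) * t := by rw [hyi]; group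
        _ = 1 := by rw [hinv]; group
    have hyt1 : y * t ≠ 1 := by
      intro h5
      have h6 : t = y := by rw [← hyi]; exact eq_inv_of_mul_eq_one_right h5
      rw [h6, hy2] at hodd
      revert hodd; decide
    have hyt2 : orderOf (y * t) = 2 := orderOf_eq_prime (by rw [sq]; exact hyt) hyt1
    have hne : y ≠ y * t := fun h5 => ht1 (by simpa using h5.symm)
    obtain ⟨e⟩ := Cfsg.Agent.S0206.result y (y * t) hy2 hyt2 hne
    have hprod : y * (y * t) = t := by rw [← mul_assoc, hyy, one_mul]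
    rw [hprod, hot, hk] at e
    have h5 : Nat.card (Subgroup.closure ({y, y * t} : Set ↥H)) = Nat.card ↥H := by
      rw [Nat.card_congr e.toEquiv, DihedralGroup.nat_card, ← hcm, ← hoy, hy2, hk, mul_comm]
    have h6 : Subgroup.closure ({y, y * t} : Set ↥H) = ⊤ := Subgroup.eq_top_of_card_eq _ h5
    exact ⟨k, ⟨(Subgroup.topEquiv.symm.trans (MulEquiv.subgroupCongr h6.symm)).trans e⟩⟩

/-- Let p be an odd prime and G a finite group with Sylow p-subgroup P. Say that G has restricted p-by-cyclic subgroups when every subgroup H of G whose Sylow p-subgroup is normal in H with cyclic quotient is itself cyclic or dihedral of order 2pⁿ for some n. Then G has restricted p-by-cyclic subgroups if and only if P is cyclic and one of the following holds: (1) N_G(P) = C_G(P); or (2) N_G(P)/C_G(P) has order 2 and, for the subgroup Q of order p of P, the centralizer C_G(Q) is abelian and every element of N_G(Q) outside C_G(Q) is an involution inverting every element of C_G(Q). -/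
theorem result {G : Type*} [Group G] [Finite G] {p : ℕ}
    [Fact p.Prime] (hp : p ≠ 2) (P : Sylow p G) :
    (∀ H : Subgroup G, (∀ S : Sylow p ↥H, (S : Subgroup ↥H).Normal) →
        (∀ (S : Sylow p ↥H) [(S : Subgroup ↥H).Normal], IsCyclic (↥H ⧸ (S : Subgroup ↥H))) →
        IsCyclic H ∨ (∃ n : ℕ, Nonempty (H ≃* DihedralGroup (p ^ n)))) ↔
    (IsCyclic P ∧
      (Subgroup.normalizer ((P : Subgroup G) : Set G) = Subgroup.centralizer ((P : Subgroup G) : Set G) ∨
       ((Subgroup.centralizer ((P : Subgroup G) : Set G)).relIndex (Subgroup.normalizer ((P : Subgroup G) : Set G)) = 2 ∧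
        ∀ Q : Subgroup G, Q ≤ P → Nat.card Q = p →
          IsMulCommutative ↥(Subgroup.centralizer (Q : Set G)) ∧
          ∀ x : G, x ∈ Subgroup.normalizer (Q : Set G) → x ∉ Subgroup.centralizer (Q : Set G) →
            orderOf x = 2 ∧ ∀ c : G, c ∈ Subgroup.centralizer (Q : Set G) → x * c * x⁻¹ = c⁻¹))) := by
  constructor
  · intro h
    exact fwd hp h P
  · rintro ⟨hPc, h⟩ H hN hC
    have T : Sylow p ↥H := default
    have := hN T
    exact bwd hp P hPc h H T (hC T)

end Cfsg.Agent.S4082
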