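import Cfsg.Statements.S4083
import Cfsg.Agent.S0206
import Cfsg.Agent.Lib.Helper11OddAut
import Cfsg.Agent.Lib.Helper75FcB
import Cfsg.Agent.Lib.Helper6Klein

set_option autoImplicit false
open Cfsg

namespace Cfsg.Agent.S4083

open Subgroup

/-- A group with a normal cyclic Sylow `2`-subgroup and cyclic quotient is cyclic. -/
theorem cyc_case {X : Type*} [Group X] [Finite X] (T : Sylow 2 X) [hn : (T : Subgroup X).Normal]
    (hT : IsCyclic (T : Subgroup X)) (hq : IsCyclic (X ⧸ (T : Subgroup X))) : IsCyclic X := by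
  obtain ⟨q, hq⟩ := hq.exists_generator
  obtain ⟨g, rfl⟩ := QuotientGroup.mk_surjective q
  have hm : orderOf (g : X ⧸ (T : Subgroup X)) = (T : Subgroup X).index :=
    orderOf_eq_card_of_forall_mem_zpowers hq
  have hcop := T.card_coprime_index
  set c := Nat.card (T : Subgroup X) with hc
  set m := (T : Subgroup X).index with hmdef
  have hcm : c * m = Nat.card X := (T : Subgroup X).card_mul_index
  set y := g ^ c with hy
  have h1 : orderOf ((y : X) : X ⧸ (T : Subgroup X)) = m := by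
    rw [hy, QuotientGroup.mk_pow, Nat.Coprime.orderOf_pow, hm]
    rw [hm]; exact hcop.symm
  have h2 : m ∣ orderOf y := by
    rw [← h1]
    exact orderOf_map_dvd (QuotientGroup.mk' (T : Subgroup X)) y
  have h3 : orderOf y ∣ m := by
    apply orderOf_dvd_of_pow_eq_one
    rw [hy, ← pow_mul, hcm, pow_card_eq_one']
  have h4 : orderOf y = m := Nat.dvd_antisymm h3 h2
  have hodd : Odd m := by
    rw [← Nat.not_even_iff_odd, even_iff_two_dvd]
    exact T.not_dvd_index
  have hyc : y ∈ centralizer ((T : Subgroup X) : Set X) := by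
    apply Cfsg.Agent.Lib.Helper11OddAut.mem_centralizer_of_isCyclic _ T.2 hT y (h4 ▸ hodd)
    rw [normalizer_eq_top]; exact mem_top _
  obtain ⟨t, ht⟩ := hT.exists_generator
  have ht' : orderOf (t : X) = c := by
    rw [Subgroup.orderOf_coe]
    exact orderOf_eq_card_of_forall_mem_zpowers ht
  have hcomm : Commute (t : X) y := hyc t t.2
  apply isCyclic_of_orderOf_eq_card ((t : X) * y)
  rw [hcomm.orderOf_mul_eq_mul_orderOf_of_coprime (by rw [ht', h4]; exact hcop), ht', h4, hcm]

/-- A non-cyclic group embedding in a dihedral `2`-group is dihedral and has two distinct commuting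
involutions. -/
theorem dih_case {X : Type*} [Group X] [Finite X] (n : ℕ) (φ : X →* DihedralGroup (2 ^ n))
    (hφ : Function.Injective φ) (hX : ¬ IsCyclic X) :
    ∃ j : ℕ, 1 ≤ j ∧ Nonempty (X ≃* DihedralGroup (2 ^ j)) ∧
      ∃ a b : X, orderOf a = 2 ∧ orderOf b = 2 ∧ a * b = b * a ∧ a ≠ b := by
  have : NeZero (2 ^ n) := ⟨by positivity⟩
  set Rot := zpowers (DihedralGroup.r 1 : DihedralGroup (2 ^ n)) with hRot
  have hRotn : Rot.Normal := normal_of_index_eq_two (Cfsg.Agent.Lib.Helper11OddAut.rot_index _)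
  set A' := Rot.comap φ with hA'
  have hidx : A'.index ∣ 2 := by
    rw [hA', index_comap]
    have h0 := relIndex_dvd_index_of_normal Rot φ.range
    rwa [Cfsg.Agent.Lib.Helper11OddAut.rot_index (2 ^ n)] at h0
  have hcyc : IsCyclic A' := by
    apply isCyclic_of_injective (φ.subgroupComap Rot)
    intro x y hxy
    have := congrArg Subtype.val hxy
    exact Subtype.ext (hφ this)
  obtain ⟨a', ha'⟩ := (Subgroup.isCyclic_iff_exists_zpowers_eq_top A').mp hcyc
  have hsq : ∀ q : X, q ∉ A' → q ^ 2 = 1 := by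
    intro q hq
    apply hφ
    rw [map_pow, map_one]
    have hq' : φ q ∉ Rot := hq
    rcases h : φ q with i | i
    · rw [h] at hq'
      exact absurd (Cfsg.Agent.Lib.Helper11OddAut.r_mem_rot _ i) hq'
    · rw [sq, DihedralGroup.sr_mul_self]
  have hAtop : A' ≠ ⊤ := by
    intro h
    apply hX
    rw [h] at hcyc
    exact isCyclic_of_surjective (Subgroup.topEquiv (G := X)) (Subgroup.topEquiv (G := X)).surjective
  have hidx2 : A'.index = 2 := by
    rcases (Nat.dvd_prime Nat.prime_two).1 hidx with h | h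
    · exact absurd (index_eq_one.1 h) hAtop
    · exact h
  obtain ⟨s, hs⟩ : ∃ s : X, s ∉ A' := by
    by_contra hcon
    push Not at hcon
    exact hAtop (eq_top_iff.2 fun x _ => hcon x)
  have hcardA : Nat.card A' = orderOf a' := by
    rw [← ha', Nat.card_zpowers]
  have hcard : Nat.card X = 2 * orderOf a' := by
    rw [← A'.card_mul_index, hidx2, hcardA, mul_comm]
  have haA : a' ∈ A' := by rw [← ha']; exact mem_zpowers _
  have ha1 : a' ≠ 1 := by
    rintro rfl
    rw [orderOf_one] at hcard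
    exact hX (isCyclic_of_prime_card (p := 2) hcard)
  have hs1 : s ≠ 1 := fun h => hs (h ▸ one_mem _)
  have hs2 : orderOf s = 2 := orderOf_eq_prime (hsq s hs) hs1
  have hsa : s * a' ∉ A' := fun h => hs (by simpa using mul_mem h (inv_mem haA))
  have hsa1 : s * a' ≠ 1 := fun h => hsa (h ▸ one_mem _)
  have hsa2 : orderOf (s * a') = 2 := orderOf_eq_prime (hsq _ hsa) hsa1
  have hne : s ≠ s * a' := fun h => ha1 (by simpa using h.symm)
  have hss : s * s = 1 := by rw [← sq]; exact hsq s hs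
  have hprod : s * (s * a') = a' := by rw [← mul_assoc, hss, one_mul]
  obtain ⟨e⟩ := Cfsg.Agent.S0206.result s (s * a') hs2 hsa2 hne
  rw [hprod] at e
  have h1 : Nat.card (Subgroup.closure ({s, s * a'} : Set X)) = Nat.card X := by
    rw [Nat.card_congr e.toEquiv, DihedralGroup.nat_card, hcard]
  have h2 : Subgroup.closure ({s, s * a'} : Set X) = ⊤ := Subgroup.eq_top_of_card_eq _ h1
  have e' : X ≃* DihedralGroup (orderOf a') :=
    (Subgroup.topEquiv.symm.trans (MulEquiv.subgroupCongr h2.symm)).trans e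
  have hdvd : orderOf a' ∣ 2 ^ (n + 1) := by
    have h3 : Nat.card X ∣ Nat.card (DihedralGroup (2 ^ n)) :=
      Subgroup.card_dvd_of_injective φ hφ
    rw [DihedralGroup.nat_card] at h3
    rw [pow_succ, mul_comm]
    exact (orderOf_dvd_natCard a').trans h3
  obtain ⟨j, -, hj⟩ := (Nat.dvd_prime_pow Nat.prime_two).1 hdvd
  have hj1 : 1 ≤ j := by
    rcases Nat.eq_zero_or_pos j with rfl | h
    · rw [pow_zero, orderOf_eq_one_iff] at hj
      exact absurd hj ha1
    · exact h
  rw [hj] at e'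
  refine ⟨j, hj1, ⟨e'⟩, s, a' ^ (2 ^ (j - 1)), hs2, ?_, ?_, ?_⟩
  · rw [orderOf_pow_of_dvd (by positivity) (by rw [hj]; exact pow_dvd_pow 2 (Nat.sub_le _ _)), hj]
    obtain ⟨k, rfl⟩ : ∃ k, j = k + 1 := ⟨j - 1, by omega⟩
    rw [Nat.add_sub_cancel, pow_succ, Nat.mul_div_cancel_left _ (by positivity)]
  · have hinv : s * a' * s⁻¹ = a'⁻¹ := by
      have h5 : s * a' * (s * a') = 1 := by rw [← sq]; exact hsq _ hsa
      have h6 : s⁻¹ = s := inv_eq_of_mul_eq_one_left hss
      rw [h6]
      calc s * a' * s = s * a' * (s * a') * a'⁻¹ := by group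
        _ = a'⁻¹ := by rw [h5, one_mul]
    set z := a' ^ (2 ^ (j - 1)) with hz
    have hzz : z * z = 1 := by
      rw [hz, ← pow_add, ← two_mul, ← pow_succ']
      rw [Nat.sub_add_cancel hj1, ← hj, pow_orderOf_eq_one]
    have hz' : s * z * s⁻¹ = z⁻¹ := by
      rw [hz, ← conj_pow, hinv, inv_pow]
    have hzi : z⁻¹ = z := inv_eq_of_mul_eq_one_left hzz
    rw [hzi] at hz'
    calc s * z = s * z * s⁻¹ * s := by group
      _ = z * s := by rw [hz']
  · intro h
    exact hs (h ▸ pow_mem haA _)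

/-- The centralizer hypothesis on four-subgroups of `P` transfers to all four-subgroups. -/
theorem cent_four {G : Type*} [Group G] [Finite G] (P : Sylow 2 G)
    (hK : ∀ K : Subgroup G, K ≤ P → Nat.card K = 4 → (∀ k ∈ K, k ^ 2 = 1) →
      Subgroup.centralizer (K : Set G) = K)
    {X : Type*} [Group X] (ι : X →* G) (hι : Function.Injective ι) (V : Subgroup X)
    (hV : Nat.card V = 4) (hV2 : ∀ v ∈ V, v ^ 2 = 1) : centralizer (V : Set X) ≤ V := by
  have hc0 : Nat.card (V.map ι) = 4 := by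
    rw [← hV]; exact (Nat.card_congr (V.equivMapOfInjective ι hι).toEquiv).symm
  have hp : IsPGroup 2 (V.map ι) := IsPGroup.of_card (n := 2) (by rw [hc0]; norm_num)
  obtain ⟨Q, hQ⟩ := hp.exists_le_sylow
  obtain ⟨g, hg⟩ := MulAction.exists_smul_eq G Q P
  set K := (V.map ι).map (MulAut.conj g).toMonoidHom with hKdef
  have hKP : K ≤ P := by
    rintro _ ⟨x, hx, rfl⟩
    have := Cfsg.Agent.Lib.Helper11Frobenius.mem_smul_sylow g Q x (hQ hx)
    rw [hg] at this
    exact this
  have hKc : Nat.card K = 4 := by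
    rw [← hc0]
    exact (Nat.card_congr ((V.map ι).equivMapOfInjective _ (MulAut.conj g).injective).toEquiv).symm
  have hK2 : ∀ k ∈ K, k ^ 2 = 1 := by
    rintro _ ⟨_, ⟨v, hv, rfl⟩, rfl⟩
    rw [← map_pow, ← map_pow, hV2 v hv, map_one, map_one]
  have hcent := hK K hKP hKc hK2
  intro x hx
  have hx' : (MulAut.conj g).toMonoidHom (ι x) ∈ centralizer (K : Set G) := by
    rw [mem_centralizer_iff]
    rintro _ ⟨_, ⟨v, hv, rfl⟩, rfl⟩
    rw [← map_mul, ← map_mul, ← map_mul, ← map_mul, mem_centralizer_iff.1 hx v hv]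
  rw [hcent] at hx'
  obtain ⟨_, ⟨v, hv, rfl⟩, hvx⟩ := hx'
  have : v = x := hι ((MulAut.conj g).injective hvx)
  exact this ▸ hv

theorem bwd {G : Type*} [Group G] [Finite G] (P : Sylow 2 G)
    (h : IsCyclic P ∨
      ((∃ n : ℕ, 1 ≤ n ∧ Nonempty ((P : Subgroup G) ≃* DihedralGroup (2 ^ n))) ∧
        ∀ K : Subgroup G, K ≤ P → Nat.card K = 4 → (∀ k ∈ K, k ^ 2 = 1) →
          Subgroup.centralizer (K : Set G) = K))
    (H : Subgroup G) (T : Sylow 2 ↥H) [hTn : (T : Subgroup ↥H).Normal]
    (hq : IsCyclic (↥H ⧸ (T : Subgroup ↥H))) :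
    IsCyclic H ∨ (∃ n : ℕ, Nonempty (H ≃* DihedralGroup (2 ^ n))) ∨
      Nonempty (H ≃* alternatingGroup (Fin 4)) := by
  obtain ⟨ψ, hψ⟩ := Cfsg.Agent.Lib.Helper11OddAut.exists_injective_to_sylow P
    (H.subtype.comp (T : Subgroup ↥H).subtype)
    (H.subtype_injective.comp (T : Subgroup ↥H).subtype_injective) T.2
  by_cases hTc : IsCyclic (T : Subgroup ↥H)
  · exact Or.inl (cyc_case T hTc hq)
  rcases h with hP | ⟨⟨n, hn, ⟨e⟩⟩, hK⟩
  · exact absurd (isCyclic_of_injective ψ hψ) hTc
  obtain ⟨j, hj, ⟨eT⟩, a, b, ha, hb, hab, hne⟩ :=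
    dih_case n (e.toMonoidHom.comp ψ) (e.injective.comp hψ) hTc
  have hcardT : Nat.card (T : Subgroup ↥H) = 2 * 2 ^ j := by
    rw [Nat.card_congr eT.toEquiv, DihedralGroup.nat_card]
  have hcent := fun V hV hV2 => cent_four P hK H.subtype H.subtype_injective V hV hV2
  have htop : (T : Subgroup ↥H).index = 1 → ∃ n : ℕ, Nonempty (H ≃* DihedralGroup (2 ^ n)) := by
    intro h1
    rw [index_eq_one] at h1
    exact ⟨j, ⟨(Subgroup.topEquiv.symm.trans (MulEquiv.subgroupCongr h1.symm)).trans eT⟩⟩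
  obtain ⟨E, hE, -, -⟩ := Cfsg.Agent.Lib.Helper6Klein.exists_kleinFour ha hb hab hne
  set V := E.map (T : Subgroup ↥H).subtype with hVdef
  have hVc : Nat.card V = 4 := by
    rw [← hE.card_four]
    exact (Nat.card_congr
      (E.equivMapOfInjective _ (T : Subgroup ↥H).subtype_injective).toEquiv).symm
  have hV2 : ∀ v ∈ V, v ^ 2 = 1 := by
    rintro _ ⟨v, hv, rfl⟩
    rw [← map_pow]
    have h1 : (⟨v, hv⟩ : E) ^ 2 = 1 := by
      have h0 := Monoid.pow_exponent_eq_one (⟨v, hv⟩ : E)
      rwa [hE.exponent_two] at h0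
    have h2 : v ^ 2 = 1 := by simpa using congrArg Subtype.val h1
    rw [h2, map_one]
  have hVT : V ≤ (T : Subgroup ↥H) := map_subtype_le _
  have hCV := hcent V hVc hV2
  rcases Nat.lt_or_ge 1 j with hj2 | hj1
  · -- order at least eight
    right; left
    apply htop
    by_contra hidx
    obtain ⟨p, hp, hpd⟩ := Nat.exists_prime_and_dvd hidx
    have : Fact p.Prime := ⟨hp⟩
    obtain ⟨y, hy⟩ := exists_prime_orderOf_dvd_card' (G := ↥H) p
      (hpd.trans (index_dvd_card _))
    have hp2 : p ≠ 2 := by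
      rintro rfl
      exact T.not_dvd_index hpd
    have hodd : Odd (orderOf y) := by
      rw [hy]; exact hp.odd_of_ne_two hp2
    have : NeZero (2 ^ n) := ⟨by positivity⟩
    have hyn : y ∈ normalizer ((T : Subgroup ↥H) : Set ↥H) := by
      rw [normalizer_eq_top]; exact mem_top _
    rcases Cfsg.Agent.Lib.Helper11OddAut.dihedral_sylow_aut P (2 ^ n) e H.subtype
      H.subtype_injective (T : Subgroup ↥H) T.2 y hodd hyn with hc | hk
    · have hyV : y ∈ V := hCV (centralizer_le hVT hc)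
      have h1 : y ^ 2 = 1 := hV2 y hyV
      have h2 : orderOf y ∣ 2 := orderOf_dvd_of_pow_eq_one h1
      rw [hy] at h2
      exact hp2 ((Nat.prime_dvd_prime_iff_eq hp Nat.prime_two).1 h2)
    · have h1 := hk.card_four
      rw [hcardT] at h1
      have h2 : 2 ^ 2 ≤ 2 ^ j := Nat.pow_le_pow_right (by norm_num) hj2
      omega
  · -- the four-group
    have hj' : j = 1 := le_antisymm hj1 hj
    subst hj'
    have hVeq : V = (T : Subgroup ↥H) := by
      apply Subgroup.eq_of_le_of_card_ge hVT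
      rw [hVc, hcardT]; norm_num
    rw [hVeq] at hCV hVc hV2
    have h6 := Cfsg.Agent.Lib.Helper75FcB.index_dvd_six (T : Subgroup ↥H) hVc hV2 hCV
    have hnd := T.not_dvd_index
    have hle : (T : Subgroup ↥H).index ≤ 6 := Nat.le_of_dvd (by norm_num) h6
    have hcases : (T : Subgroup ↥H).index = 1 ∨ (T : Subgroup ↥H).index = 3 := by
      generalize (T : Subgroup ↥H).index = m at h6 hnd hle
      clear hCV hVc hV2 hVeq hVT hVdef
      interval_cases m
      · simp at h6
      · left; rfl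
      · exact absurd (dvd_refl 2) hnd
      · right; rfl
      · exact absurd (by norm_num) hnd
      · revert h6; norm_num
      · exact absurd (by norm_num) hnd
    rcases hcases with h1 | h3
    · exact Or.inr (Or.inl (htop h1))
    · right; right
      apply Cfsg.Agent.Lib.Helper75FcB.a4_of_card _ (T : Subgroup ↥H) hVc hV2 hCV
      rw [← (T : Subgroup ↥H).card_mul_index, hVc, h3]

theorem a4_not_comm : ¬ ∀ a b : alternatingGroup (Fin 4), a * b = b * a := by decide

theorem card_a4 : Nat.card (alternatingGroup (Fin 4)) = 12 := by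
  rw [Nat.card_eq_fintype_card]
  have := two_mul_card_alternatingGroup (α := Fin 4)
  rw [Fintype.card_perm, Fintype.card_fin] at this
  have h4 : Nat.factorial 4 = 24 := rfl
  omega

theorem dih_comm_le (m : ℕ) (h : ∀ a b : DihedralGroup (2 ^ m), a * b = b * a) : m ≤ 1 := by
  by_contra hm
  push Not at hm
  have h1 := h (DihedralGroup.r 1) (DihedralGroup.sr 0)
  rw [DihedralGroup.r_mul_sr, DihedralGroup.sr_mul_r] at h1
  have h2 : (0 : ZMod (2 ^ m)) - 1 = 0 + 1 := by
    injection h1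
  have h3 : ((2 : ℕ) : ZMod (2 ^ m)) = 0 := by
    have : (2 : ZMod (2 ^ m)) = (0 + 1) - (0 - 1) := by ring
    push_cast
    rw [this, h2]; ring
  rw [ZMod.natCast_eq_zero_iff] at h3
  have h4 : 2 ^ 2 ≤ 2 ^ m := Nat.pow_le_pow_right (by norm_num) hm
  have h5 := Nat.le_of_dvd (by norm_num) h3
  omega

theorem fwd_cent {G : Type*} [Group G] [Finite G]
    (h : ∀ H : Subgroup G, (∀ S : Sylow 2 ↥H, (S : Subgroup ↥H).Normal) →
        (∀ (S : Sylow 2 ↥H) [(S : Subgroup ↥H).Normal], IsCyclic (↥H ⧸ (S : Subgroup ↥H))) →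
        IsCyclic H ∨ (∃ n : ℕ, Nonempty (H ≃* DihedralGroup (2 ^ n))) ∨
          Nonempty (H ≃* alternatingGroup (Fin 4)))
    (K : Subgroup G) (hK4 : Nat.card K = 4) (hK2 : ∀ k ∈ K, k ^ 2 = 1) :
    Subgroup.centralizer (K : Set G) = K := by
  have hKc : ∀ u ∈ K, ∀ v ∈ K, u * v = v * u := fun u hu v hv =>
    Cfsg.Agent.Lib.Helper75FcB.comm_of_sq K hK2 hu hv
  apply le_antisymm
  swap
  · intro k hk
    rw [mem_centralizer_iff]
    intro v hv
    exact hKc v hv k hk
  intro x hx
  rw [mem_centralizer_iff] at hx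
  set H := closure ((K : Set G) ∪ {x}) with hH
  have hcommS : ∀ u ∈ (K : Set G) ∪ {x}, ∀ v ∈ (K : Set G) ∪ {x}, u * v = v * u := by
    rintro u (hu | rfl) v (hv | rfl)
    · exact hKc u hu v hv
    · exact hx u hu
    · exact (hx v hv).symm
    · rfl
  have hcomm : ∀ u v : H, u * v = v * u := by
    have := Subgroup.isMulCommutative_closure hcommS
    exact fun u v => mul_comm' u v
  have hKH : K ≤ H := fun k hk => subset_closure (Or.inl hk)
  have hxH : x ∈ H := subset_closure (Or.inr rfl)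
  have hnorm : ∀ S : Subgroup ↥H, S.Normal := fun S =>
    ⟨fun n hn g => by rwa [hcomm g n, mul_inv_cancel_right]⟩
  have hres := h H (fun S => hnorm _) (by
    intro S hS
    refine ⟨⟨((⟨x, hxH⟩ : H) : H ⧸ (S : Subgroup ↥H)), ?_⟩⟩
    intro q
    obtain ⟨g, rfl⟩ := QuotientGroup.mk_surjective q
    set M := (zpowers ((⟨x, hxH⟩ : H) : H ⧸ (S : Subgroup ↥H))).comap
      (QuotientGroup.mk' (S : Subgroup ↥H)) with hM
    have hKS : K.subgroupOf H ≤ (S : Subgroup ↥H) := by
      have hp : IsPGroup 2 (K.subgroupOf H) := IsPGroup.of_card (n := 2) (by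
        rw [Nat.card_congr (subgroupOfEquivOfLe hKH).toEquiv, hK4]; norm_num)
      obtain ⟨Q, hQ⟩ := hp.exists_le_sylow
      have hu := Sylow.unique_of_normal S hS
      have hQS : Q = S := (hu.eq_default Q).trans (hu.eq_default S).symm
      exact hQS ▸ hQ
    have hle : H ≤ M.map H.subtype := (closure_le _).2 (by
      rintro u (hu | rfl)
      · refine ⟨⟨u, hKH hu⟩, ?_, rfl⟩
        have h1 : (⟨u, hKH hu⟩ : H) ∈ (S : Subgroup ↥H) := hKS (mem_subgroupOf.2 hu)
        have h2 : ((⟨u, hKH hu⟩ : H) : H ⧸ (S : Subgroup ↥H)) = 1 :=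
          (QuotientGroup.eq_one_iff _).2 h1
        change QuotientGroup.mk' (S : Subgroup ↥H) _ ∈
          zpowers ((⟨x, hxH⟩ : H) : H ⧸ (S : Subgroup ↥H))
        rw [QuotientGroup.mk'_apply, h2]
        exact one_mem _
      · exact ⟨⟨u, hxH⟩, mem_zpowers _, rfl⟩)
    obtain ⟨g', hg', hgg⟩ := hle g.2
    have : g' = g := Subtype.ext hgg
    exact this ▸ hg')
  rcases hres with hc | ⟨m, ⟨e⟩⟩ | ⟨⟨e⟩⟩
  · exfalso
    have hKcyc : IsCyclic K := Subgroup.isCyclic_of_le hKH
    obtain ⟨k, hk⟩ := hKcyc.exists_generator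
    have h1 : orderOf k = 4 := by
      rw [orderOf_eq_card_of_forall_mem_zpowers hk, hK4]
    have h2 : k ^ 2 = 1 := Subtype.ext (by simpa using hK2 k k.2)
    have h3 := orderOf_dvd_of_pow_eq_one h2
    rw [h1] at h3
    revert h3; norm_num
  · have hm : m ≤ 1 := by
      apply dih_comm_le
      intro a b
      apply e.symm.injective
      rw [map_mul, map_mul, hcomm]
    have hcard : Nat.card H ≤ 4 := by
      rw [Nat.card_congr e.toEquiv, DihedralGroup.nat_card]
      have : 2 ^ m ≤ 2 ^ 1 := Nat.pow_le_pow_right (by norm_num) hm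
      omega
    have hEq : K = H := Subgroup.eq_of_le_of_card_ge hKH (by rw [hK4]; exact hcard)
    rw [hEq]; exact hxH
  · exfalso
    apply a4_not_comm
    intro a b
    apply e.symm.injective
    rw [map_mul, map_mul, hcomm]

/-- Let G be a finite group with Sylow 2-subgroup P. Every subgroup H of G whose Sylow 2-subgroup is normal in H with cyclic quotient is cyclic, dihedral of 2-power order, or isomorphic to the alternating group of degree 4, if and only if either P is cyclic, or P is dihedral (of order at least 4) and every elementary abelian subgroup K of order 4 of P satisfies C_G(K) = K. -/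
theorem result {G : Type*} [Group G] [Finite G] (P : Sylow 2 G) :
    (∀ H : Subgroup G, (∀ S : Sylow 2 ↥H, (S : Subgroup ↥H).Normal) →
        (∀ (S : Sylow 2 ↥H) [(S : Subgroup ↥H).Normal], IsCyclic (↥H ⧸ (S : Subgroup ↥H))) →
        IsCyclic H ∨ (∃ n : ℕ, Nonempty (H ≃* DihedralGroup (2 ^ n))) ∨ Nonempty (H ≃* alternatingGroup (Fin 4))) ↔
    (IsCyclic P ∨
      ((∃ n : ℕ, 1 ≤ n ∧ Nonempty ((P : Subgroup G) ≃* DihedralGroup (2 ^ n))) ∧
        ∀ K : Subgroup G, K ≤ P → Nat.card K = 4 → (∀ k ∈ K, k ^ 2 = 1) → Subgroup.centralizer (K : Set G) = K)) := by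
  constructor
  · intro h
    have hP := h (P : Subgroup G) (by
      intro S
      have : (S : Subgroup ↥(P : Subgroup G)) = ⊤ :=
        (S.is_maximal' (Q := ⊤) (P.2.of_equiv Subgroup.topEquiv.symm) le_top).symm
      rw [this]; infer_instance) (by
      intro S _
      have h1 : (S : Subgroup ↥(P : Subgroup G)) = ⊤ :=
        (S.is_maximal' (Q := ⊤) (P.2.of_equiv Subgroup.topEquiv.symm) le_top).symm
      have h2 : Nat.card (↥(P : Subgroup G) ⧸ (S : Subgroup ↥(P : Subgroup G))) = 1 :=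
        index_eq_one.2 h1
      have := (Nat.card_eq_one_iff_unique.1 h2).1
      exact isCyclic_of_subsingleton)
    rcases hP with hc | ⟨n, ⟨e⟩⟩ | ⟨⟨e⟩⟩
    · exact Or.inl hc
    · rcases Nat.eq_zero_or_pos n with rfl | hn
      · left
        apply isCyclic_of_prime_card (p := 2)
        rw [Nat.card_congr e.toEquiv, DihedralGroup.nat_card]; norm_num
      · right
        exact ⟨⟨n, hn, ⟨e⟩⟩, fun K _ hK4 hK2 => fwd_cent h K hK4 hK2⟩
    · exfalso
      obtain ⟨k, hk⟩ := IsPGroup.iff_card.1 P.2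
      rw [Nat.card_congr e.toEquiv, card_a4] at hk
      have h3 : 3 ∣ 2 ^ k := by rw [← hk]; norm_num
      have := Nat.Prime.dvd_of_dvd_pow Nat.prime_three h3
      revert this; norm_num
  · intro h H hN hC
    have T : Sylow 2 ↥H := default
    have := hN T
    exact bwd P h H T (hC T)

end Cfsg.Agent.S4083
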