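import Cfsg.Statements.S4084
import Mathlib
-- import your own Cfsg.Agent.* helpers here

set_option autoImplicit false
open Cfsg

namespace Cfsg.Agent.S4084

theorem aux {G H : Type*} [Group G] [Finite G] [Group H] [Finite H] (e : G ≃ H)
    (he : ∀ x y : G, Commute x y ↔ Commute (e x) (e y))
    {p q : ℕ} (hp : p.Prime) (hq : q.Prime) (hpq : p ≠ q) (g : G) (hg : orderOf g = p * q) :
    ∃ h : H, orderOf h = p * q := by
  classical
  set A : Subgroup G := Subgroup.centralizer (Subgroup.centralizer {g} : Set G) with hA
  set B : Subgroup H := Subgroup.centralizer (Subgroup.centralizer {e g} : Set H) with hB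
  have memA : ∀ x : G, x ∈ A ↔ ∀ y : G, Commute y g → Commute y x := by
    intro x
    simp only [hA, Subgroup.mem_centralizer_iff, SetLike.mem_coe, Set.mem_singleton_iff, forall_eq]
    constructor
    · intro h y hy
      exact h y hy.symm.eq
    · intro h y hy
      exact (h y (Commute.symm hy)).eq
  have memB : ∀ x : H, x ∈ B ↔ ∀ y : H, Commute y (e g) → Commute y x := by
    intro x
    simp only [hB, Subgroup.mem_centralizer_iff, SetLike.mem_coe, Set.mem_singleton_iff, forall_eq]
    constructor
    · intro h y hy
      exact h y hy.symm.eq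
    · intro h y hy
      exact (h y (Commute.symm hy)).eq
  have hAB : ∀ x : G, x ∈ A ↔ e x ∈ B := by
    intro x
    rw [memA, memB]
    constructor
    · intro h y hy
      obtain ⟨y', rfl⟩ := e.surjective y
      exact (he _ _).1 (h y' ((he _ _).2 hy))
    · intro h y hy
      exact (he _ _).2 (h (e y) ((he _ _).1 hy))
  have hcard : Nat.card A = Nat.card B := Nat.card_congr (e.subtypeEquiv hAB)
  have hgA : g ∈ A := (memA g).2 fun y hy => hy
  have hdvd : p * q ∣ Nat.card B := by
    rw [← hcard, ← hg]
    exact Subgroup.orderOf_dvd_natCard A hgA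
  haveI := Fact.mk hp
  haveI := Fact.mk hq
  obtain ⟨a, ha⟩ := exists_prime_orderOf_dvd_card' p ((Dvd.intro _ rfl).trans hdvd)
  obtain ⟨b, hb⟩ := exists_prime_orderOf_dvd_card' q ((Dvd.intro_left _ rfl).trans hdvd)
  have hbc : Commute (b : H) (e g) := ((memB b).1 b.2 (e g) (Commute.refl _)).symm
  have hab : Commute (b : H) (a : H) := (memB a).1 a.2 b hbc
  refine ⟨(a : H) * (b : H), ?_⟩
  have ha' : orderOf (a : H) = p := by rw [Subgroup.orderOf_coe, ha]
  have hb' : orderOf (b : H) = q := by rw [Subgroup.orderOf_coe, hb]
  rw [hab.symm.orderOf_mul_eq_mul_orderOf_of_coprime, ha', hb']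
  rw [ha', hb']
  exact (Nat.coprime_primes hp hq).2 hpq

/-- Let G and H be finite groups whose commuting graphs are isomorphic: there is a bijection e : G → H with x, y commuting exactly when e(x), e(y) commute. Then G and H have the same prime graph: for distinct primes p, q, G has an element of order pq if and only if H does (and #G = #H, so the prime divisors agree). -/
theorem result {G H : Type*} [Group G] [Finite G] [Group H] [Finite H] (e : G ≃ H)
    (he : ∀ x y : G, Commute x y ↔ Commute (e x) (e y))
    {p q : ℕ} (hp : p.Prime) (hq : q.Prime) (hpq : p ≠ q) :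
    (∃ g : G, orderOf g = p * q) ↔ (∃ h : H, orderOf h = p * q) := by
  constructor
  · rintro ⟨g, hg⟩
    exact aux e he hp hq hpq g hg
  · rintro ⟨h, hh⟩
    refine aux e.symm (fun x y => ?_) hp hq hpq h hh
    rw [he, e.apply_symm_apply, e.apply_symm_apply]

end Cfsg.Agent.S4084
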