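import Cfsg.Statements.S4086
import Mathlib
-- import your own Cfsg.Agent.* helpers here

set_option autoImplicit false
open Cfsg

namespace Cfsg.Agent.S4086

theorem mem_zpowers_of_orderOf_dvd {K : Type*} [Group K] [Finite K] [IsCyclic K] (x y : K)
    (h : orderOf x ∣ orderOf y) : x ∈ Subgroup.zpowers y := by
  classical
  haveI := Fintype.ofFinite K
  have hm : 0 < orderOf y := orderOf_pos y
  have h1 : (Finset.univ.filter fun a : K => a ^ orderOf y = 1).card ≤ orderOf y :=
    IsCyclic.card_pow_eq_one_le hm
  have h2 : ((Subgroup.zpowers y : Set K).toFinset) ⊆ (Finset.univ.filter fun a : K => a ^ orderOf y = 1) := by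
    intro a ha
    simp only [Set.mem_toFinset, SetLike.mem_coe] at ha
    simp only [Finset.mem_filter, Finset.mem_univ, true_and]
    exact orderOf_dvd_iff_pow_eq_one.1 (orderOf_dvd_of_mem_zpowers ha)
  have h3 : ((Subgroup.zpowers y : Set K).toFinset).card = orderOf y := by
    rw [Set.toFinset_card]
    exact Fintype.card_zpowers
  have h4 := Finset.eq_of_subset_of_card_le h2 (by rw [h3]; exact h1)
  have h5 : x ∈ (Finset.univ.filter fun a : K => a ^ orderOf y = 1) := by
    simp only [Finset.mem_filter, Finset.mem_univ, true_and]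
    exact orderOf_dvd_iff_pow_eq_one.1 h
  rw [← h4] at h5
  simpa using h5

/-- For a finite group G the following are equivalent: every non-identity element has prime-power order; whenever two elements generate a cyclic subgroup, one of them is a power of the other (the enhanced power graph of G coincides with its power graph). -/
theorem result {G : Type*} [Group G] [Finite G] :
    (∀ g : G, g ≠ 1 → IsPrimePow (orderOf g)) ↔
    (∀ x y : G, IsCyclic ↥(Subgroup.closure ({x, y} : Set G)) → (x ∈ Subgroup.zpowers y ∨ y ∈ Subgroup.zpowers x)) := by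
  constructor
  · intro h x y hc
    set K := Subgroup.closure ({x, y} : Set G) with hK
    have hx : x ∈ K := Subgroup.subset_closure (by simp)
    have hy : y ∈ K := Subgroup.subset_closure (by simp)
    obtain ⟨z, hz⟩ := IsCyclic.exists_generator (α := K)
    have key : orderOf (⟨x, hx⟩ : K) ∣ orderOf (⟨y, hy⟩ : K) ∨ orderOf (⟨y, hy⟩ : K) ∣ orderOf (⟨x, hx⟩ : K) := by
      by_cases hz1 : (z : G) = 1
      · have : z = 1 := Subtype.ext hz1
        left
        have hx1 := hz ⟨x, hx⟩
        rw [this, Subgroup.zpowers_one_eq_bot, Subgroup.mem_bot] at hx1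
        rw [hx1, orderOf_one]
        exact one_dvd _
      · obtain ⟨p, k, hp, hk, hpk⟩ := (isPrimePow_nat_iff _).1 (h z hz1)
        have hzo : orderOf z = p ^ k := by rw [← Subgroup.orderOf_coe, hpk]
        have h1 : orderOf (⟨x, hx⟩ : K) ∣ p ^ k := hzo ▸ orderOf_dvd_of_mem_zpowers (hz _)
        have h2 : orderOf (⟨y, hy⟩ : K) ∣ p ^ k := hzo ▸ orderOf_dvd_of_mem_zpowers (hz _)
        obtain ⟨a, -, ha⟩ := (Nat.dvd_prime_pow hp).1 h1
        obtain ⟨b, -, hb⟩ := (Nat.dvd_prime_pow hp).1 h2
        rw [ha, hb]
        rcases le_total a b with hab | hab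
        · left; exact pow_dvd_pow p hab
        · right; exact pow_dvd_pow p hab
    rcases key with h1 | h1
    · left
      have := mem_zpowers_of_orderOf_dvd _ _ h1
      obtain ⟨n, hn⟩ := Subgroup.mem_zpowers_iff.1 this
      exact Subgroup.mem_zpowers_iff.2 ⟨n, by simpa using congrArg Subtype.val hn⟩
    · right
      have := mem_zpowers_of_orderOf_dvd _ _ h1
      obtain ⟨n, hn⟩ := Subgroup.mem_zpowers_iff.1 this
      exact Subgroup.mem_zpowers_iff.2 ⟨n, by simpa using congrArg Subtype.val hn⟩
  · intro h g hg
    by_contra hnp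
    set n := orderOf g with hn
    have hn0 : n ≠ 0 := (orderOf_pos g).ne'
    have hn1 : n ≠ 1 := by
      intro h1
      exact hg (orderOf_eq_one_iff.1 h1)
    set p := n.minFac with hp
    have hpp : p.Prime := Nat.minFac_prime hn1
    set a := p ^ n.factorization p with ha
    set b := n / a with hb
    have hab : a * b = n := Nat.ordProj_mul_ordCompl_eq_self n p
    have hcop : a.Coprime b := (Nat.coprime_ordCompl hpp hn0).pow_left _
    have ha0 : a ≠ 0 := by intro h0; rw [h0, zero_mul] at hab; exact hn0 hab.symm
    have hb0 : b ≠ 0 := by intro h0; rw [h0, mul_zero] at hab; exact hn0 hab.symm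
    have hb1 : b ≠ 1 := by
      intro h1
      rw [h1, mul_one] at hab
      exact hnp (isPrimePow_of_minFac_pow_factorization_eq hab hn1)
    have ha1 : a ≠ 1 := by
      intro h1
      have : p ∣ a := by
        rw [ha]
        apply dvd_pow_self
        exact (Nat.Prime.factorization_pos_of_dvd hpp hn0 (Nat.minFac_dvd n)).ne'
      rw [h1] at this
      exact hpp.one_lt.ne' (Nat.dvd_one.1 this)
    have hoa : orderOf (g ^ a) = b := by
      rw [orderOf_pow_of_dvd ha0 (Dvd.intro _ hab)]
    have hob : orderOf (g ^ b) = a := by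
      rw [orderOf_pow_of_dvd hb0 (Dvd.intro_left _ hab), ← hn, ← hab]
      exact Nat.mul_div_cancel _ (Nat.pos_of_ne_zero hb0)
    have hle : Subgroup.closure ({g ^ a, g ^ b} : Set G) ≤ Subgroup.zpowers g := by
      rw [Subgroup.closure_le]
      intro t ht
      rcases ht with rfl | rfl
      · exact Subgroup.npow_mem_zpowers g a
      · exact Subgroup.npow_mem_zpowers g b
    have hcyc : IsCyclic ↥(Subgroup.closure ({g ^ a, g ^ b} : Set G)) := Subgroup.isCyclic_of_le hle
    rcases h _ _ hcyc with h1 | h1
    · have := orderOf_dvd_of_mem_zpowers h1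
      rw [hoa, hob] at this
      exact hb1 (Nat.eq_one_of_dvd_coprimes hcop this dvd_rfl)
    · have := orderOf_dvd_of_mem_zpowers h1
      rw [hoa, hob] at this
      exact ha1 (Nat.eq_one_of_dvd_coprimes hcop dvd_rfl this)

end Cfsg.Agent.S4086
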