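import Cfsg.Statements.S4089
import Cfsg.Agent.Lib.Helper1Fitting
import Cfsg.Agent.Lib.Helper52Subnormal
import Cfsg.Agent.Lib.Helper37Sylow
import Cfsg.Agent.Lib.Helper37Cores

set_option autoImplicit false
open Cfsg

namespace Cfsg.Agent.S4089

open Cfsg.Agent.Lib.Helper1Fitting

/-- `O_p(N_G(R))` viewed in `G`. -/
def coreN {G : Type*} [Group G] (p : ℕ) (R : Subgroup G) : Subgroup G :=
  (Cfsg.pCore p (Subgroup.normalizer (R : Set G))).map (Subgroup.normalizer (R : Set G)).subtype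

theorem isPGroup_coreN {G : Type*} [Group G] (p : ℕ) (R : Subgroup G) : IsPGroup p (coreN p R) :=
  (pCore_isPGroup p).map _

theorem le_coreN {G : Type*} [Group G] {p : ℕ} {R : Subgroup G} (hR : IsPGroup p R) :
    R ≤ coreN p R := by
  have h1 : R.subgroupOf (Subgroup.normalizer (R : Set G)) ≤
      Cfsg.pCore p (Subgroup.normalizer (R : Set G)) :=
    le_pCore Subgroup.normal_in_normalizer hR.comap_subtype
  have h2 := Subgroup.map_mono (f := (Subgroup.normalizer (R : Set G)).subtype) h1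
  rwa [Subgroup.map_subgroupOf_eq_of_le Subgroup.le_normalizer] at h2

theorem normalizer_le_normalizer_coreN {G : Type*} [Group G] (p : ℕ) (R : Subgroup G) :
    Subgroup.normalizer (R : Set G) ≤ Subgroup.normalizer ((coreN p R : Subgroup G) : Set G) := by
  have := pCore_normal (G := Subgroup.normalizer (R : Set G)) p
  exact Cfsg.Agent.Lib.Helper37Cores.le_normalizer_map_subtype _

theorem subnormal_of_le {G : Type*} [Group G] [Finite G] {p : ℕ} [Fact p.Prime] {H R : Subgroup G}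
    {g : G} (hHR : H ≤ R) (hR : IsPGroup p R) (hg : g ∈ Subgroup.normalizer (R : Set G)) :
    (H.subgroupOf (H ⊔ Subgroup.zpowers g)).IsSubnormal := by
  have hL : H ⊔ Subgroup.zpowers g ≤ Subgroup.normalizer (R : Set G) :=
    sup_le (hHR.trans Subgroup.le_normalizer) (by simpa using hg)
  have hN : (R.subgroupOf (H ⊔ Subgroup.zpowers g)).Normal :=
    Subgroup.normal_subgroupOf_of_le_normalizer hL
  have hle : H.subgroupOf (H ⊔ Subgroup.zpowers g) ≤ R.subgroupOf (H ⊔ Subgroup.zpowers g) :=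
    Subgroup.comap_mono hHR
  refine Subgroup.IsSubnormal.trans hle ?_ hN.isSubnormal
  exact Cfsg.Agent.Lib.Helper52Subnormal.isSubnormal_of_isPGroup (p := p) hR.comap_subtype _

theorem exists_of_subnormal {G : Type*} [Group G] [Finite G] {p : ℕ} [Fact p.Prime] {H : Subgroup G}
    (hH : IsPGroup p H) {g : G} (hsn : (H.subgroupOf (H ⊔ Subgroup.zpowers g)).IsSubnormal) :
    ∃ R : Subgroup G, H ≤ R ∧ IsPGroup p R ∧ g ∈ Subgroup.normalizer (R : Set G) := by
  have h1 := Cfsg.Agent.Lib.Helper52Subnormal.subnormal_pGroup_le_pCore hsn hH.comap_subtype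
  have h2 := Subgroup.map_mono (f := (H ⊔ Subgroup.zpowers g).subtype) h1
  rw [Subgroup.map_subgroupOf_eq_of_le le_sup_left] at h2
  refine ⟨_, h2, (pCore_isPGroup p).map _, ?_⟩
  have := pCore_normal (G := (H ⊔ Subgroup.zpowers g : Subgroup G)) p
  exact Cfsg.Agent.Lib.Helper37Cores.le_normalizer_map_subtype _
    ((le_sup_right : Subgroup.zpowers g ≤ _) (Subgroup.mem_zpowers g))

theorem exists_radical {G : Type*} [Group G] [Finite G] {p : ℕ} [Fact p.Prime] {H R₀ : Subgroup G}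
    {g : G} (h1 : H ≤ R₀) (h2 : IsPGroup p R₀) (h3 : g ∈ Subgroup.normalizer (R₀ : Set G)) :
    ∃ R : Subgroup G, H ≤ R ∧ coreN p R = R ∧ g ∈ Subgroup.normalizer (R : Set G) := by
  let 𝓡 : Set (Subgroup G) := {R | H ≤ R ∧ IsPGroup p R ∧ g ∈ Subgroup.normalizer (R : Set G)}
  obtain ⟨R, hR, hmax⟩ := Set.exists_max_image 𝓡 (fun R => Nat.card R) (Set.toFinite _)
    ⟨R₀, h1, h2, h3⟩
  obtain ⟨hR1, hR2, hR3⟩ := hR
  refine ⟨R, hR1, ?_, hR3⟩
  have h4 : coreN p R ∈ 𝓡 :=
    ⟨hR1.trans (le_coreN hR2), isPGroup_coreN p R, normalizer_le_normalizer_coreN p R hR3⟩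
  exact (Subgroup.eq_of_le_of_card_ge (le_coreN hR2) (hmax _ h4)).symm

theorem subnormal_iff {G : Type*} [Group G] [Finite G] {p : ℕ} [Fact p.Prime] {H : Subgroup G}
    (hH : IsPGroup p H) (g : G) :
    (H.subgroupOf (H ⊔ Subgroup.zpowers g)).IsSubnormal ↔
      ∃ R : Subgroup G, H ≤ R ∧ coreN p R = R ∧ g ∈ Subgroup.normalizer (R : Set G) := by
  constructor
  · intro h
    obtain ⟨R₀, h1, h2, h3⟩ := exists_of_subnormal hH h
    exact exists_radical h1 h2 h3
  · rintro ⟨R, h1, h2, h3⟩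
    exact subnormal_of_le h1 (h2 ▸ isPGroup_coreN p R) h3

/-- a radical `p`-subgroup is the intersection of the Sylow `p`-subgroups containing it. -/
theorem sInf_sylow_le_of_radical {G : Type*} [Group G] [Finite G] {p : ℕ} [Fact p.Prime]
    {R : Subgroup G} (hR : coreN p R = R) :
    sInf {K : Subgroup G | ∃ Q : Sylow p G, R ≤ (Q : Subgroup G) ∧ K = (Q : Subgroup G)} ≤ R := by
  have hRp : IsPGroup p R := hR ▸ isPGroup_coreN p R
  obtain ⟨I, hI⟩ : ∃ I, I = sInf {K : Subgroup G | ∃ Q : Sylow p G, R ≤ (Q : Subgroup G) ∧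
    K = (Q : Subgroup G)} := ⟨_, rfl⟩
  rw [← hI]
  have hRI : R ≤ I := by
    rw [hI]
    apply le_sInf
    rintro _ ⟨Q, hQ, rfl⟩
    exact hQ
  have hIp : IsPGroup p I := by
    obtain ⟨Q, hQ⟩ := hRp.exists_le_sylow
    exact Q.isPGroup'.to_le (by rw [hI]; exact sInf_le ⟨Q, hQ, rfl⟩)
  have hIN : I ⊓ Subgroup.normalizer (R : Set G) ≤ R := by
    rintro x ⟨hx1, hx2⟩
    rw [← hR]
    refine ⟨⟨x, hx2⟩, ?_, rfl⟩
    rw [SetLike.mem_coe, pCore_eq_iInf_sylow, Subgroup.mem_iInf]
    intro P₁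
    obtain ⟨Q, hQ⟩ := (P₁.isPGroup'.map (Subgroup.normalizer (R : Set G)).subtype).exists_le_sylow
    have hRP₁ : R.subgroupOf (Subgroup.normalizer (R : Set G)) ≤ P₁ := by
      have hn : (R.subgroupOf (Subgroup.normalizer (R : Set G))).Normal :=
        Subgroup.normal_in_normalizer (H := R)
      have hp2 : IsPGroup p (R.subgroupOf (Subgroup.normalizer (R : Set G))) := hRp.comap_subtype
      exact hp2.le_sylow_of_normal P₁
    have hRQ : R ≤ Q := by
      have h2 := Subgroup.map_mono (f := (Subgroup.normalizer (R : Set G)).subtype) hRP₁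
      rw [Subgroup.map_subgroupOf_eq_of_le Subgroup.le_normalizer] at h2
      exact h2.trans hQ
    have hxQ : x ∈ (Q : Subgroup G) := by
      have : I ≤ Q := by rw [hI]; exact sInf_le ⟨Q, hRQ, rfl⟩
      exact this hx1
    have hmaxP : (Q : Subgroup G).subgroupOf (Subgroup.normalizer (R : Set G)) = P₁ := by
      apply P₁.is_maximal' Q.isPGroup'.comap_subtype
      intro y hy
      exact hQ ⟨y, hy, rfl⟩
    rw [← hmaxP]
    exact hxQ
  by_contra hcon
  obtain ⟨x, hx1, hx2, hx3⟩ := Cfsg.Agent.Lib.Helper37Sylow.exists_normalizing_not_mem I R hIp hcon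
  apply hx2
  apply hIN
  refine ⟨hx1, ?_⟩
  rw [inf_eq_right.2 hRI] at hx3
  have h5 : Subgroup.zpowers x ≤ Subgroup.normalizer (R : Set G) := by
    rw [Subgroup.zpowers_le, Subgroup.mem_normalizer_iff_map_conj_eq]
    apply Subgroup.eq_of_le_of_card_ge
    · rintro _ ⟨s, hs, rfl⟩
      exact hx3 s hs
    · rw [Subgroup.card_map_of_injective (MulAut.conj _).injective]
  exact h5 (Subgroup.mem_zpowers _)

/-- Let G be a finite group, p a prime and H a p-subgroup of G. Then the set of elements g of G such that H is subnormal in the subgroup generated by H and g is the union of the normalizers N_G(R) over the subgroups R of G containing H with R = O_p(N_G(R)); and this set does not change when H is replaced by the intersection of all Sylow p-subgroups of G containing H. -/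
theorem result {G : Type*} [Group G] [Finite G] (p : ℕ) [Fact p.Prime]
    (H : Subgroup G) (hH : IsPGroup p H) :
    {g : G | ((H).subgroupOf (H ⊔ Subgroup.zpowers g)).IsSubnormal} =
      {g : G | ∃ R : Subgroup G, H ≤ R ∧ (Cfsg.pCore p (Subgroup.normalizer (R : Set G))).map (Subgroup.normalizer (R : Set G)).subtype = R ∧ g ∈ Subgroup.normalizer (R : Set G)} ∧
    ∀ g : G, (((H).subgroupOf (H ⊔ Subgroup.zpowers g)).IsSubnormal ↔
      (((sInf {K : Subgroup G | ∃ Q : Sylow p G, H ≤ (Q : Subgroup G) ∧ K = (Q : Subgroup G)})).subgroupOf ((sInf {K : Subgroup G | ∃ Q : Sylow p G, H ≤ (Q : Subgroup G) ∧ K = (Q : Subgroup G)}) ⊔ Subgroup.zpowers g)).IsSubnormal) := by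
  refine ⟨?_, fun g => ?_⟩
  · ext g
    exact subnormal_iff hH g
  · obtain ⟨Q₀, hQ₀⟩ := hH.exists_le_sylow
    have hle : H ≤ sInf {K : Subgroup G | ∃ Q : Sylow p G, H ≤ (Q : Subgroup G) ∧ K = (Q : Subgroup G)} := by
      apply le_sInf
      rintro _ ⟨Q, hQ, rfl⟩
      exact hQ
    have hp' : IsPGroup p ↥(sInf {K : Subgroup G | ∃ Q : Sylow p G, H ≤ (Q : Subgroup G) ∧
        K = (Q : Subgroup G)}) := Q₀.isPGroup'.to_le (sInf_le ⟨Q₀, hQ₀, rfl⟩)
    rw [subnormal_iff hH g, subnormal_iff hp' g]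
    constructor
    · rintro ⟨R, h1, h2, h3⟩
      refine ⟨R, le_trans ?_ (sInf_sylow_le_of_radical h2), h2, h3⟩
      apply sInf_le_sInf
      rintro _ ⟨Q, hQ, rfl⟩
      exact ⟨Q, h1.trans hQ, rfl⟩
    · rintro ⟨R, h1, h2, h3⟩
      exact ⟨R, hle.trans h1, h2, h3⟩

end Cfsg.Agent.S4089
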