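import Cfsg.Statements.S4091
import Cfsg.Agent.Lib.H11GhLamIneq
import Cfsg.Agent.Lib.H11GhCount
import Cfsg.Agent.Lib.H11GhAMGM2

set_option autoImplicit false
open Cfsg

namespace Cfsg.Agent.S4091

/-- Let G be a finite p-solvable group, P a Sylow p-subgroup of G, u the number of p-elements of G (elements of p-power order, the identity included) and n the number of Sylow p-subgroups of G. Then u/#P ≥ n^((p−1)/p), stated as u^p ≥ #P^p · n^(p−1). -/
theorem result {G : Type*} [Group G] [Finite G] (p : ℕ) [Fact p.Prime]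
    (hG : Cfsg.IsPSolvable p G) (P : Sylow p G) :
    Nat.card (P : Subgroup G) ^ p * Nat.card (Sylow p G) ^ (p - 1) ≤ Nat.card {g : G // ∃ k : ℕ, orderOf g = p ^ k} ^ p := by
  obtain ⟨n, M, h0, hn, hmono, hnormal, hfac⟩ := hG
  have h1 := Cfsg.Agent.Lib.H11GhLamIneq.lam_ineq p P n M h0 hn hmono hnormal hfac
  have h2 := Cfsg.Agent.Lib.H11GhCount.card_pelts p P
  refine Cfsg.Agent.Lib.H11GhAMGM2.final_arith p (Fact.out : p.Prime).pos
    (ι := ↥(P : Subgroup G))
    (fun x => Cfsg.Agent.Lib.H11GhDefs2.lam p (Subgroup.zpowers (x : G))) ?_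
    (Nat.card (Sylow p G)) _ Nat.card_pos h1 h2
  intro x
  haveI : Nonempty {Q : Sylow p G // Subgroup.zpowers (x : G) ≤ (Q : Subgroup G)} :=
    ⟨⟨P, Subgroup.zpowers_le.2 x.2⟩⟩
  exact Nat.card_pos

end Cfsg.Agent.S4091
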