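import Cfsg.Statements.S4092
import Cfsg.Agent.Lib.Helper72PElt
-- import your own Cfsg.Agent.* helpers here

set_option autoImplicit false
open Cfsg

namespace Cfsg.Agent.S4092

open Cfsg.Agent.Lib.Helper72Pi Cfsg.Agent.Lib.Helper72PElt Cfsg.Agent.Lib.Helper72Frob
open scoped Pointwise

theorem exists_normalizer_elt {X : Type*} [Group X] [Finite X] {p : ℕ} [Fact p.Prime]
    (T D : Subgroup X) (hT : IsPGroup p T) (hD : D < T) :
    ∃ x ∈ T, x ∈ Subgroup.normalizer (D : Set X) ∧ x ∉ D := by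
  have : Group.IsNilpotent T := hT.isNilpotent
  have hnc : NormalizerCondition T := Group.normalizerCondition_of_isNilpotent
  have hlt : D.subgroupOf T < ⊤ := by
    rw [lt_top_iff_ne_top]
    intro h
    rw [Subgroup.subgroupOf_eq_top] at h
    exact absurd hD (not_lt_of_ge h)
  have h2 := hnc _ hlt
  obtain ⟨x, hx, hxD⟩ := SetLike.exists_of_lt h2
  refine ⟨x, x.2, ?_, fun h => hxD (by simpa [Subgroup.mem_subgroupOf] using h)⟩
  rw [Subgroup.mem_normalizer_iff] at hx ⊢
  intro h
  constructor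
  · intro hh
    have := (hx ⟨h, hD.le hh⟩).mp (by simpa [Subgroup.mem_subgroupOf] using hh)
    simpa [Subgroup.mem_subgroupOf] using this
  · intro hh
    have hhT : h ∈ T := by
      have h3 : (x : X)⁻¹ * ((x : X) * h * (x : X)⁻¹) * x ∈ T :=
        T.mul_mem (T.mul_mem (T.inv_mem x.2) (hD.le hh)) x.2
      have h4 : (x : X)⁻¹ * ((x : X) * h * (x : X)⁻¹) * x = h := by group
      rwa [h4] at h3
    have := (hx ⟨h, hhT⟩).mpr (by simpa [Subgroup.mem_subgroupOf] using hh)
    simpa [Subgroup.mem_subgroupOf] using this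

/-- Let G be a finite group, p a prime and P a Sylow p-subgroup of G that is not normal in G. Then G has at least p·#P elements of p-power order (the identity included). -/
theorem result {G : Type*} [Group G] [Finite G] (p : ℕ) [Fact p.Prime]
    (P : Sylow p G) (hP : ¬ (P : Subgroup G).Normal) :
    p * Nat.card (P : Subgroup G) ≤ Nat.card {g : G // ∃ k : ℕ, orderOf g = p ^ k} := by
  classical
  have hp : p.Prime := Fact.out
  have hne : ∃ Q : Sylow p G, Q ≠ P := by
    by_contra h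
    push_neg at h
    haveI : Subsingleton (Sylow p G) := ⟨fun a b => (h a).trans (h b).symm⟩
    exact hP (Sylow.normal_of_subsingleton P)
  obtain ⟨Q0, hQ0⟩ := hne
  haveI : Nonempty {t : Sylow p G × Sylow p G // t.1 ≠ t.2} := ⟨⟨(Q0, P), hQ0⟩⟩
  obtain ⟨⟨⟨P₁, Q₁⟩, hPQ⟩, hmax⟩ := Finite.exists_max
    (fun t : {t : Sylow p G × Sylow p G // t.1 ≠ t.2} =>
      Nat.card ((t.1.1 : Subgroup G) ⊓ (t.1.2 : Subgroup G) : Subgroup G))
  simp only at hPQ hmax
  set D : Subgroup G := (P₁ : Subgroup G) ⊓ Q₁ with hD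
  have hmax' : ∀ R R' : Sylow p G, R ≠ R' → D ≤ R → D ≤ R' → (R : Subgroup G) ⊓ R' = D := by
    intro R R' hne h1 h2
    exact (Subgroup.eq_of_le_of_card_ge (le_inf h1 h2) (hmax ⟨(R, R'), hne⟩)).symm
  have hDP : D < P₁ := by
    refine lt_of_le_of_ne inf_le_left (fun h => hPQ ?_)
    have h1 : (P₁ : Subgroup G) ≤ Q₁ := h ▸ inf_le_right
    exact (Sylow.ext (P₁.is_maximal' Q₁.isPGroup' h1)).symm
  obtain ⟨x, hxP, hxN, hxD⟩ := exists_normalizer_elt _ D P₁.isPGroup' hDP
  set A : Subgroup G := (P₁ : Subgroup G) ⊓ Subgroup.normalizer (D : Set G) with hA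
  have hAp : IsPGroup p A := P₁.isPGroup'.to_le inf_le_left
  have hAQ : ¬ A ≤ Q₁ := fun h => hxD ⟨hxP, h ⟨hxP, hxN⟩⟩
  have horb : p ≤ Nat.card (MulAction.orbit A Q₁) := by
    obtain ⟨n, hn⟩ := hAp.card_orbit Q₁
    rw [hn]
    rcases Nat.eq_zero_or_pos n with h0 | h0
    · exfalso
      subst h0
      rw [pow_zero, Nat.card_eq_one_iff_unique] at hn
      obtain ⟨hs, _⟩ := hn
      apply hAQ
      rw [← hAp.sylow_mem_fixedPoints_iff]
      intro a
      have := hs.elim (⟨a • Q₁, MulAction.mem_orbit _ a⟩ : MulAction.orbit A Q₁)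
        ⟨Q₁, MulAction.mem_orbit_self _⟩
      exact congrArg Subtype.val this
    · calc p = p ^ 1 := (pow_one p).symm
        _ ≤ p ^ n := Nat.pow_le_pow_right hp.pos h0
  have horbD : ∀ R ∈ MulAction.orbit A Q₁, D ≤ (R : Subgroup G) ∧ R ≠ P₁ := by
    rintro R ⟨a, rfl⟩
    constructor
    · intro g hg
      change g ∈ MulAut.conj (a : G) • (Q₁ : Subgroup G)
      rw [mem_conj_smul_iff]
      refine ⟨(a : G)⁻¹ * g * a, ?_, by group⟩
      have h1 : (a : G)⁻¹ ∈ Subgroup.normalizer (D : Set G) := Subgroup.inv_mem _ a.2.2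
      have h2 := (Subgroup.mem_normalizer_iff.mp h1 g).mp hg
      rw [inv_inv] at h2
      exact h2.2
    · intro h
      apply hPQ
      have h1 : (a : G) • P₁ = P₁ :=
        Sylow.smul_eq_iff_mem_normalizer.mpr (Subgroup.le_normalizer a.2.1)
      have h2 : (a : G) • Q₁ = (a : G) • P₁ := by rw [h1]; exact h
      exact (smul_left_cancel _ h2).symm
  have hS : p + 1 ≤ Nat.card {R : Sylow p G // D ≤ R} := by
    let ι : Option (MulAction.orbit A Q₁) → {R : Sylow p G // D ≤ R} := fun o =>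
      match o with
      | none => ⟨P₁, hDP.le⟩
      | some R => ⟨R.1, (horbD R.1 R.2).1⟩
    have hι : Function.Injective ι := by
      rintro (_ | R) (_ | R') h
      · rfl
      · exact absurd (congrArg Subtype.val h).symm (horbD R'.1 R'.2).2
      · exact absurd (congrArg Subtype.val h) (horbD R.1 R.2).2
      · have : R.1 = R'.1 := congrArg (fun t : {R : Sylow p G // D ≤ R} => t.1) h
        rw [Subtype.ext this]
    have := Nat.card_le_card_of_injective ι hι
    rw [Finite.card_option] at this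
    omega
  set m := Nat.card (P : Subgroup G) with hm
  set d := Nat.card D with hd
  have hcardR : ∀ R : Sylow p G, Nat.card (R : Subgroup G) = m := by
    intro R
    rw [hm, R.card_eq_multiplicity, P.card_eq_multiplicity]
  have hpd : p * d ≤ m := by
    have h1 : D.relIndex P₁ * d = m := by
      rw [← hcardR P₁, hd, ← Subgroup.relIndex_bot_left, ← Subgroup.relIndex_bot_left, mul_comm]
      exact Subgroup.relIndex_mul_relIndex _ _ _ bot_le hDP.le
    have h2 : D.relIndex P₁ ∣ m := ⟨d, h1.symm⟩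
    rw [← hcardR P₁, P₁.card_eq_multiplicity] at h2
    obtain ⟨j, _, hj⟩ := (Nat.dvd_prime_pow hp).mp h2
    have hj0 : j ≠ 0 := by
      rintro rfl
      rw [pow_zero, Subgroup.relIndex_eq_one] at hj
      exact absurd hDP (not_lt_of_ge hj)
    rw [← h1, hj]
    apply Nat.mul_le_mul_right
    calc p = p ^ 1 := (pow_one p).symm
      _ ≤ p ^ j := Nat.pow_le_pow_right hp.pos (Nat.pos_of_ne_zero hj0)
  have hdiff : ∀ R : {R : Sylow p G // D ≤ R},
      Nat.card {g : G // g ∈ (R.1 : Subgroup G) ∧ g ∉ D} = m - d := by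
    intro R
    have h1 := Set.ncard_sdiff_add_ncard_of_subset (s := (D : Set G))
      (t := ((R.1 : Subgroup G) : Set G)) R.2
    have h2 : Nat.card {g : G // g ∈ (R.1 : Subgroup G) ∧ g ∉ D} =
      (((R.1 : Subgroup G) : Set G) \ (D : Set G)).ncard := rfl
    have h3 : (D : Set G).ncard = d := rfl
    have h4 : (((R.1 : Subgroup G) : Set G)).ncard = m := hcardR R.1
    omega
  let Ψ : (Σ R : {R : Sylow p G // D ≤ R}, {g : G // g ∈ (R.1 : Subgroup G) ∧ g ∉ D}) ⊕ D →
      {g : G // ∃ k : ℕ, orderOf g = p ^ k} := fun t =>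
    match t with
    | Sum.inl t => ⟨t.2.1, isP_of_mem t.1.1.isPGroup' t.2.2.1⟩
    | Sum.inr g => ⟨g.1, isP_of_mem P₁.isPGroup' (hDP.le g.2)⟩
  have hΨ : Function.Injective Ψ := by
    rintro (⟨R, g, hg1, hg2⟩ | g) (⟨R', g', hg1', hg2'⟩ | g') h
    · have h1 : g = g' := congrArg Subtype.val h
      subst h1
      have h2 : R = R' := by
        by_contra hne
        have h3 := hmax' R.1 R'.1 (fun h => hne (Subtype.ext h)) R.2 R'.2
        exact hg2 (h3 ▸ (⟨hg1, hg1'⟩ : g ∈ (R.1 : Subgroup G) ⊓ R'.1))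
      subst h2
      rfl
    · have h1 : g = g'.1 := congrArg Subtype.val h
      exact absurd (h1 ▸ g'.2) hg2
    · have h1 : g.1 = g' := congrArg Subtype.val h
      exact absurd (h1 ▸ g.2) hg2'
    · have h1 : g.1 = g'.1 := congrArg (fun t : {g : G // ∃ k : ℕ, orderOf g = p ^ k} => t.1) h
      rw [Subtype.ext h1]
  have hfin := Nat.card_le_card_of_injective Ψ hΨ
  haveI := Fintype.ofFinite {R : Sylow p G // D ≤ R}
  rw [Nat.card_sum, Nat.card_sigma, Finset.sum_congr rfl (fun R _ => hdiff R), Finset.sum_const,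
    Finset.card_univ, ← Nat.card_eq_fintype_card, smul_eq_mul] at hfin
  have hdm : d ≤ m := le_trans (Nat.le_mul_of_pos_left d hp.pos) hpd
  obtain ⟨e, he⟩ := Nat.exists_eq_add_of_le hdm
  have h5 : m - d = e := by omega
  rw [h5] at hfin
  have h6 : (p + 1) * e ≤ Nat.card {R : Sylow p G // D ≤ R} * e := Nat.mul_le_mul_right _ hS
  have h7 : p * m = p * d + p * e := by rw [he]; ring
  have h8 : (p + 1) * e = p * e + e := by ring
  change _ + d ≤ _ at hfin
  omega

end Cfsg.Agent.S4092
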