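import Cfsg.Statements.S4093
import Cfsg.Agent.Lib.Helper72PElt
-- import your own Cfsg.Agent.* helpers here

set_option autoImplicit false
open scoped BigOperators
open Cfsg

namespace Cfsg.Agent.S4093

open Cfsg.Agent.Lib.Helper72Pi Cfsg.Agent.Lib.Helper72PElt Cfsg.Agent.Lib.Helper72Frob
open scoped Pointwise

/-- size of the `N`-orbit of `x` under conjugation -/
theorem card_orbit {G : Type*} [Group G] [Finite G] (N : Subgroup G) (x : G) :
    Nat.card {g : G // ∃ n ∈ N, n * x * n⁻¹ = g} =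
      Nat.card N / Nat.card ↥(N ⊓ Subgroup.centralizer ({x} : Set G)) := by
  let f : N → {g : G // ∃ n ∈ N, n * x * n⁻¹ = g} := fun n => ⟨n * x * (n : G)⁻¹, n, n.2, rfl⟩
  have h := card_eq_mul_of_fiber_eq f (Nat.card ↥(N ⊓ Subgroup.centralizer ({x} : Set G))) (by
    rintro ⟨g, n₀, hn₀, rfl⟩
    let e : {a : N // f a = ⟨n₀ * x * n₀⁻¹, n₀, hn₀, rfl⟩} →
        ↥(N ⊓ Subgroup.centralizer ({x} : Set G)) := fun a =>
      ⟨n₀⁻¹ * a.1, N.mul_mem (N.inv_mem hn₀) a.1.2, by
        change _ ∈ Subgroup.centralizer ({x} : Set G)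
        rw [Subgroup.mem_centralizer_singleton_iff]
        have h1 : (a.1 : G) * x * (a.1 : G)⁻¹ = n₀ * x * n₀⁻¹ := congrArg Subtype.val a.2
        calc n₀⁻¹ * (a.1 : G) * x = n₀⁻¹ * ((a.1 : G) * x * (a.1 : G)⁻¹) * a.1 := by group
          _ = x * (n₀⁻¹ * a.1) := by rw [h1]; group⟩
    apply Nat.card_eq_of_bijective e
    constructor
    · intro a b hab
      have h1 : n₀⁻¹ * (a.1 : G) = n₀⁻¹ * b.1 := congrArg Subtype.val hab
      exact Subtype.ext (Subtype.ext (mul_left_cancel h1))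
    · rintro ⟨c, hcN, hcC⟩
      change c ∈ Subgroup.centralizer ({x} : Set G) at hcC
      change c ∈ N at hcN
      rw [Subgroup.mem_centralizer_singleton_iff] at hcC
      refine ⟨⟨⟨n₀ * c, N.mul_mem hn₀ hcN⟩, ?_⟩, ?_⟩
      · apply Subtype.ext
        change n₀ * c * x * (n₀ * c)⁻¹ = n₀ * x * n₀⁻¹
        rw [mul_assoc n₀ c x, hcC]; group
      · apply Subtype.ext
        change n₀⁻¹ * (n₀ * c) = c
        group)
  rw [h, Nat.mul_div_cancel _ Nat.card_pos]

/-- Let G be a finite group with a normal subgroup N complementing a Sylow p-subgroup P (a normal p-complement). Then the number of elements of G of p-power order equals the sum over x ∈ P of the index of C_N(x) in N. -/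
theorem result {G : Type*} [Group G] [Finite G] (p : ℕ) [Fact p.Prime]
    (P : Sylow p G) (N : Subgroup G) [N.Normal] (hNP : N.IsComplement' (P : Subgroup G)) :
    Nat.card {g : G // ∃ k : ℕ, orderOf g = p ^ k} =
      ∑ᶠ x : (P : Subgroup G), Nat.card N / Nat.card ↥(N ⊓ Subgroup.centralizer ({(x : G)} : Set G)) := by
  classical
  haveI := Fintype.ofFinite (P : Subgroup G)
  rw [finsum_eq_sum_of_fintype]
  have hdisj : ∀ x y : (P : Subgroup G), (x : G) * (y : G)⁻¹ ∈ N → x = y := by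
    intro x y h
    have h1 : (x : G) * (y : G)⁻¹ = 1 :=
      Subgroup.disjoint_def.mp hNP.disjoint h ((P : Subgroup G).mul_mem x.2 ((P : Subgroup G).inv_mem y.2))
    exact Subtype.ext (mul_inv_eq_one.mp h1)
  have hconj : ∀ (n : G), n ∈ N → ∀ x : G, (n * x * n⁻¹) * x⁻¹ ∈ N := by
    intro n hn x
    have : (n * x * n⁻¹) * x⁻¹ = n * (x * n⁻¹ * x⁻¹) := by group
    rw [this]
    exact N.mul_mem hn (‹N.Normal›.conj_mem _ (N.inv_mem hn) x)
  let F : (Σ x : (P : Subgroup G), {g : G // ∃ n ∈ N, n * (x : G) * n⁻¹ = g}) →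
      {g : G // ∃ k : ℕ, orderOf g = p ^ k} := fun t =>
    ⟨t.2.1, by
      obtain ⟨n, _, hn⟩ := t.2.2
      rw [← hn, orderOf_conj]
      exact isP_of_mem P.isPGroup' t.1.2⟩
  have hF : Function.Bijective F := by
    constructor
    · rintro ⟨x, g, n, hn, hg⟩ ⟨y, g', n', hn', hg'⟩ h
      have h1 : g = g' := congrArg Subtype.val h
      subst h1
      have h2 : x = y := by
        apply hdisj
        have h3 := hconj n hn x
        have h4 := hconj n' hn' y
        rw [hg] at h3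
        rw [hg'] at h4
        have h5 : (x : G) * (y : G)⁻¹ = (g * (x : G)⁻¹)⁻¹ * (g * (y : G)⁻¹) := by group
        rw [h5]
        exact N.mul_mem (N.inv_mem h3) h4
      subst h2
      rfl
    · rintro ⟨g, hg⟩
      obtain ⟨Q, hQ⟩ := exists_sylow_of_isP hg
      obtain ⟨c, hc⟩ := MulAction.exists_smul_eq G P Q
      have h1 : g ∈ (c • P : Sylow p G) := hc ▸ hQ
      have h2 : g ∈ MulAut.conj c • (P : Subgroup G) := h1
      obtain ⟨y, hy, hyg⟩ := (mem_conj_smul_iff _ _ _).mp h2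
      obtain ⟨⟨n, u⟩, hnu⟩ := (Subgroup.isComplement_iff_existsUnique.mp hNP c).exists
      simp only at hnu
      refine ⟨⟨⟨u * y * (u : G)⁻¹, (P : Subgroup G).mul_mem ((P : Subgroup G).mul_mem u.2 hy)
        ((P : Subgroup G).inv_mem u.2)⟩, ⟨g, n, n.2, ?_⟩⟩, rfl⟩
      rw [← hyg, ← hnu]
      group
  rw [← Nat.card_eq_of_bijective F hF, Nat.card_sigma]
  exact Finset.sum_congr rfl fun x _ => card_orbit N x

end Cfsg.Agent.S4093
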