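import Cfsg.Statements.S4106
import Cfsg.Agent.Lib.Helper72Pi

set_option autoImplicit false
open Cfsg

namespace Cfsg.Agent.S4106

open Cfsg.Agent.Lib.Helper72Pi

universe u

theorem exists_rep {G : Type u} [Group G] [Finite G] (p : ℕ) [Fact p.Prime] (ρ : Finset ℕ)
    (P : Sylow p G) (C : ConjClasses G) (hC : IsPiClass (↑(insert p ρ) : Set ℕ) C) :
    ∃ t : (Σ u : (P : Subgroup G),
        {D : ConjClasses (Subgroup.centralizer {(u : G)}) // IsPiClass (↑ρ : Set ℕ) D}),
      ConjClasses.mk ((t.1 : G) * ((Quotient.out t.2.1 : Subgroup.centralizer {(t.1 : G)}) : G)) = C := by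
  obtain ⟨x, rfl⟩ := ConjClasses.exists_rep C
  rw [isPiClass_mk_iff] at hC
  obtain ⟨y, z, hy, hz, hyz, hyp, hzp⟩ := exists_pi_split ({p} : Set ℕ) x (orderOf_pos x).ne'
  have hcomm : Commute y z := by
    obtain ⟨i, rfl⟩ := hy
    obtain ⟨j, rfl⟩ := hz
    exact (Commute.refl x).zpow_zpow i j
  -- y is a p-element
  have hyZ : IsPGroup p (Subgroup.zpowers y) := by
    rw [IsPGroup.iff_card, Nat.card_zpowers]
    exact ⟨_, Nat.eq_prime_pow_of_unique_prime_dvd (orderOf_pos y).ne'
      (fun {d} hd hdy => hyp d hd hdy)⟩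
  obtain ⟨Q, hQ⟩ := hyZ.exists_le_sylow
  obtain ⟨g, hg⟩ := MulAction.exists_smul_eq G Q P
  have hu : g * y * g⁻¹ ∈ (P : Subgroup G) := by
    rw [← hg, Sylow.coe_subgroup_smul]
    have : y ∈ (Q : Subgroup G) := hQ (Subgroup.mem_zpowers y)
    have h2 := Subgroup.smul_mem_pointwise_smul y (MulAut.conj g) (Q : Subgroup G) this
    simpa [MulAut.smul_def] using h2
  have hv : g * z * g⁻¹ ∈ Subgroup.centralizer {g * y * g⁻¹} := by
    rw [Subgroup.mem_centralizer_singleton_iff]
    have := hcomm.eq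
    calc g * z * g⁻¹ * (g * y * g⁻¹) = g * (z * y) * g⁻¹ := by group
      _ = g * (y * z) * g⁻¹ := by rw [this]
      _ = g * y * g⁻¹ * (g * z * g⁻¹) := by group
  -- z is a rho-element
  have hzρ : IsPiElt (↑ρ : Set ℕ) z := by
    intro q hq hqz
    have h1 : q ∣ orderOf x := hqz.trans (orderOf_dvd_of_mem_zpowers hz)
    have h2 := hC q hq h1
    have h3 : q ≠ p := fun h => hzp q hq hqz (by simp [h])
    simpa [h3] using h2
  have hD : IsPiClass (↑ρ : Set ℕ)
      (ConjClasses.mk (⟨g * z * g⁻¹, hv⟩ : Subgroup.centralizer {g * y * g⁻¹})) := by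
    rw [isPiClass_mk_iff]
    intro q hq hqv
    rw [Subgroup.orderOf_mk, orderOf_conj] at hqv
    exact hzρ q hq hqv
  refine ⟨⟨⟨g * y * g⁻¹, hu⟩, ⟨_, hD⟩⟩, ?_⟩
  have hout : IsConj (Quotient.out (ConjClasses.mk
      (⟨g * z * g⁻¹, hv⟩ : Subgroup.centralizer {g * y * g⁻¹})))
      (⟨g * z * g⁻¹, hv⟩ : Subgroup.centralizer {g * y * g⁻¹}) := by
    rw [← ConjClasses.mk_eq_mk_iff_isConj]
    exact Quotient.out_eq _
  obtain ⟨c, hc⟩ := isConj_iff.mp hout
  have hc' : (c : G) * ((Quotient.out (ConjClasses.mk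
      (⟨g * z * g⁻¹, hv⟩ : Subgroup.centralizer {g * y * g⁻¹})) :
        Subgroup.centralizer {g * y * g⁻¹}) : G) * (c : G)⁻¹ = g * z * g⁻¹ :=
    congrArg Subtype.val hc
  have hcu : (c : G) * (g * y * g⁻¹) = (g * y * g⁻¹) * (c : G) :=
    Subgroup.mem_centralizer_singleton_iff.mp c.2
  rw [ConjClasses.mk_eq_mk_iff_isConj, isConj_iff]
  refine ⟨g⁻¹ * c, ?_⟩
  show g⁻¹ * (c : G) * ((g * y * g⁻¹) * _) * (g⁻¹ * (c : G))⁻¹ = x
  set w : G := ((Quotient.out (ConjClasses.mk
      (⟨g * z * g⁻¹, hv⟩ : Subgroup.centralizer {g * y * g⁻¹})) :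
        Subgroup.centralizer {g * y * g⁻¹}) : G) with hw
  calc g⁻¹ * (c : G) * ((g * y * g⁻¹) * w) * (g⁻¹ * (c : G))⁻¹
      = g⁻¹ * (((c : G) * (g * y * g⁻¹)) * w * (c : G)⁻¹) * g := by group
    _ = g⁻¹ * (((g * y * g⁻¹) * (c : G)) * w * (c : G)⁻¹) * g := by rw [hcu]
    _ = g⁻¹ * ((g * y * g⁻¹) * ((c : G) * w * (c : G)⁻¹)) * g := by group
    _ = g⁻¹ * ((g * y * g⁻¹) * (g * z * g⁻¹)) * g := by rw [hc']
    _ = y * z := by group
    _ = x := hyz

theorem card_piClass_le (s : Finset ℕ) (hs : ∀ p ∈ s, p.Prime) :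
    ∀ (G : Type u) [Group G] [Finite G],
      Nat.card {C : ConjClasses G // IsPiClass (↑s : Set ℕ) C} ≤
        ∏ p ∈ s, p ^ (Nat.card G).factorization p := by
  classical
  induction s using Finset.induction_on with
  | empty =>
    intro G _ _
    rw [Finset.prod_empty, Finite.card_le_one_iff_subsingleton]
    have key : ∀ C : ConjClasses G, IsPiClass (↑(∅ : Finset ℕ) : Set ℕ) C → C = ConjClasses.mk 1 := by
      intro C hC
      obtain ⟨x, rfl⟩ := ConjClasses.exists_rep C
      rw [isPiClass_mk_iff] at hC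
      have : x = 1 := by
        rw [← orderOf_eq_one_iff]
        by_contra hne
        obtain ⟨q, hq, hqd⟩ := Nat.exists_prime_and_dvd hne
        simpa using hC q hq hqd
      rw [this]
    exact ⟨fun a b => Subtype.ext ((key a.1 a.2).trans (key b.1 b.2).symm)⟩
  | insert p ρ hpρ ih =>
    intro G _ _
    haveI : Fact p.Prime := ⟨hs p (Finset.mem_insert_self p ρ)⟩
    have ih' := ih (fun q hq => hs q (Finset.mem_insert_of_mem hq))
    let P : Sylow p G := default
    haveI := Fintype.ofFinite (P : Subgroup G)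
    let X := (Σ u : (P : Subgroup G),
        {D : ConjClasses (Subgroup.centralizer {(u : G)}) // IsPiClass (↑ρ : Set ℕ) D})
    let f : {C : ConjClasses G // IsPiClass (↑(insert p ρ) : Set ℕ) C} → X :=
      fun C => Classical.choose (exists_rep p ρ P C.1 C.2)
    have hf : Function.Injective f := by
      intro C D hCD
      have h1 := Classical.choose_spec (exists_rep p ρ P C.1 C.2)
      have h2 := Classical.choose_spec (exists_rep p ρ P D.1 D.2)
      apply Subtype.ext
      rw [← h1, ← h2]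
      have : Classical.choose (exists_rep p ρ P C.1 C.2) = Classical.choose (exists_rep p ρ P D.1 D.2) := hCD
      rw [this]
    calc Nat.card {C : ConjClasses G // IsPiClass (↑(insert p ρ) : Set ℕ) C}
        ≤ Nat.card X := Nat.card_le_card_of_injective f hf
      _ = ∑ u : (P : Subgroup G), Nat.card
          {D : ConjClasses (Subgroup.centralizer {(u : G)}) // IsPiClass (↑ρ : Set ℕ) D} :=
          Nat.card_sigma
      _ ≤ ∑ _u : (P : Subgroup G), ∏ q ∈ ρ, q ^ (Nat.card G).factorization q := by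
          apply Finset.sum_le_sum
          intro u _
          refine (ih' (Subgroup.centralizer {(u : G)})).trans ?_
          apply Finset.prod_le_prod' 
          intro q hq
          apply Nat.pow_le_pow_right (hs q (Finset.mem_insert_of_mem hq)).pos
          exact (Nat.factorization_le_iff_dvd Nat.card_pos.ne' Nat.card_pos.ne').mpr
            (Subgroup.card_subgroup_dvd_card _) q
      _ = ∏ q ∈ insert p ρ, q ^ (Nat.card G).factorization q := by
          rw [Finset.prod_insert hpρ, Finset.sum_const, Finset.card_univ, smul_eq_mul,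
            ← Nat.card_eq_fintype_card, P.card_eq_multiplicity]


/-- Let G be a finite group, π a set of primes and m the π-part of the order of G. Then the number of conjugacy classes of G consisting of π-elements (elements whose order is divisible only by primes in π) is at most m. -/
theorem result {G : Type*} [Group G] [Finite G]
    (π : Set ℕ) (hπ : ∀ q ∈ π, q.Prime)
    (m : ℕ) (hm : m ∣ Nat.card G) (hmπ : ∀ q : ℕ, q.Prime → q ∣ m → q ∈ π)
    (hm' : ∀ q ∈ π, ¬ q ∣ Nat.card G / m) :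
    Nat.card {C : ConjClasses G // ∀ q : ℕ, q.Prime → (∃ g : G, ConjClasses.mk g = C ∧ q ∣ orderOf g) → q ∈ π} ≤ m := by
  classical
  set s : Finset ℕ := (Nat.card G).primeFactors.filter (· ∈ π) with hs
  have hsprime : ∀ p ∈ s, p.Prime := by
    intro p hp
    exact Nat.prime_of_mem_primeFactors (Finset.mem_filter.mp hp).1
  have h1 := card_piClass_le s hsprime G
  have hm0 : m ≠ 0 := by
    rintro rfl
    rw [zero_dvd_iff] at hm
    exact Nat.card_pos.ne' hm
  have hcongr : Nat.card {C : ConjClasses G // ∀ q : ℕ, q.Prime → (∃ g : G, ConjClasses.mk g = C ∧ q ∣ orderOf g) → q ∈ π}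
      = Nat.card {C : ConjClasses G // IsPiClass (↑s : Set ℕ) C} := by
    apply Nat.card_congr
    apply Equiv.subtypeEquivRight
    intro C
    constructor
    · rintro h q hq ⟨g, hg, hqg⟩
      have h2 := h q hq ⟨g, hg, hqg⟩
      simp only [hs, Finset.coe_filter, Set.mem_setOf_eq]
      refine ⟨?_, h2⟩
      exact Nat.mem_primeFactors.mpr ⟨hq, hqg.trans (orderOf_dvd_natCard g), Nat.card_pos.ne'⟩
    · rintro h q hq ⟨g, hg, hqg⟩
      have h2 := h q hq ⟨g, hg, hqg⟩
      simp only [hs, Finset.coe_filter, Set.mem_setOf_eq] at h2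
      exact h2.2
  rw [hcongr]
  refine h1.trans ?_
  obtain ⟨c, hc⟩ := hm
  have hc0 : c ≠ 0 := by
    rintro rfl
    rw [mul_zero] at hc
    exact Nat.card_pos.ne' hc
  have hdiv : Nat.card G / m = c := by
    rw [hc]; exact Nat.mul_div_cancel_left c (Nat.pos_of_ne_zero hm0)
  have hfac : ∀ p ∈ s, (Nat.card G).factorization p = m.factorization p := by
    intro p hp
    have hpπ : p ∈ π := (Finset.mem_filter.mp hp).2
    have hnd : ¬ p ∣ c := hdiv ▸ hm' p hpπ
    rw [hc, Nat.factorization_mul hm0 hc0]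
    simp [Nat.factorization_eq_zero_of_not_dvd hnd]
  have hsub : s ⊆ m.primeFactors := by
    intro p hp
    have hpp := hsprime p hp
    have h3 : p ∣ Nat.card G := Nat.dvd_of_mem_primeFactors (Finset.mem_filter.mp hp).1
    have hpπ : p ∈ π := (Finset.mem_filter.mp hp).2
    have hnd : ¬ p ∣ c := hdiv ▸ hm' p hpπ
    rw [hc] at h3
    rcases (Nat.Prime.dvd_mul hpp).mp h3 with h | h
    · exact Nat.mem_primeFactors.mpr ⟨hpp, h, hm0⟩
    · exact absurd h hnd
  calc ∏ p ∈ s, p ^ (Nat.card G).factorization p = ∏ p ∈ s, p ^ m.factorization p :=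
        Finset.prod_congr rfl (fun p hp => by rw [hfac p hp])
    _ ≤ ∏ p ∈ m.primeFactors, p ^ m.factorization p := by
        apply Nat.le_of_dvd
        · exact Finset.prod_pos (fun p hp => pow_pos (Nat.prime_of_mem_primeFactors hp).pos _)
        · exact Finset.prod_dvd_prod_of_subset _ _ _ hsub
    _ = m := Nat.factorization_prod_pow_eq_self hm0

end Cfsg.Agent.S4106
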