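import Cfsg.Statements.S4107
-- import your own Cfsg.Agent.* helpers here

set_option autoImplicit false
open Cfsg

namespace Cfsg.Agent.S4107

/-- If a normal `p`-subgroup `T` is not contained in `N`, then `N` is a `p`-group. -/
theorem isPGroup_of_normal_pSubgroup {G : Type*} [Group G] [Finite G] (N : Subgroup G)
    (heq : ∀ x : G, x ∉ N → ∀ n ∈ N, orderOf (x * n) = orderOf x)
    (p : ℕ) [Fact p.Prime] (T : Subgroup G) [T.Normal] (hT : IsPGroup p T) (hTN : ¬ T ≤ N) :
    IsPGroup p N := by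
  obtain ⟨x, hxT, hxN⟩ := SetLike.not_le_iff_exists.mp hTN
  obtain ⟨k, hk⟩ := hT ⟨x, hxT⟩
  have hxk : x ^ p ^ k = 1 := by
    have := congrArg Subtype.val hk
    simpa using this
  intro n
  have h1 : orderOf (x * (n : G)) = orderOf x := heq x hxN n n.2
  have h2 : (x * (n : G)) ^ p ^ k = 1 := by
    rw [← orderOf_dvd_iff_pow_eq_one, h1, orderOf_dvd_iff_pow_eq_one]
    exact hxk
  have h3 : ((n : G)) ^ p ^ k ∈ T := by
    rw [← QuotientGroup.eq_one_iff]
    have h4 : ((x * (n : G) : G) : G ⧸ T) ^ p ^ k = 1 := by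
      rw [← QuotientGroup.mk_pow, h2]; rfl
    have h5 : ((x : G) : G ⧸ T) = 1 := (QuotientGroup.eq_one_iff x).mpr hxT
    rw [QuotientGroup.mk_mul, h5, one_mul] at h4
    rw [QuotientGroup.mk_pow]; exact h4
  obtain ⟨j, hj⟩ := hT ⟨_, h3⟩
  have hj' : ((n : G) ^ p ^ k) ^ p ^ j = 1 := by
    have := congrArg Subtype.val hj
    simpa using this
  refine ⟨k + j, ?_⟩
  apply Subtype.ext
  rw [pow_add, pow_mul]
  simpa using hj'

/-- An element outside `N` has a power of prime-power order outside `N`. -/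
theorem exists_prime_pow_order_not_mem {G : Type*} [Group G] [Finite G] (N : Subgroup G) [N.Normal]
    (x : G) (hx : x ∉ N) :
    ∃ (p : ℕ) (m k : ℕ), p.Prime ∧ x ^ m ∉ N ∧ orderOf (x ^ m) = p ^ k := by
  have hne : orderOf ((x : G) : G ⧸ N) ≠ 1 := by
    rw [Ne, orderOf_eq_one_iff, QuotientGroup.eq_one_iff]; exact hx
  obtain ⟨p, hp, hpd⟩ := Nat.exists_prime_and_dvd hne
  obtain ⟨k, m, hm, hkm⟩ := Nat.exists_eq_pow_mul_and_not_dvd (orderOf_pos x).ne' p hp.ne_one
  have hm0 : m ≠ 0 := by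
    rintro rfl; exact hm (dvd_zero p)
  refine ⟨p, m, k, hp, ?_, ?_⟩
  · intro hmem
    have h1 : ((x : G) : G ⧸ N) ^ m = 1 := by
      rw [← QuotientGroup.mk_pow]; exact (QuotientGroup.eq_one_iff _).mpr hmem
    exact hm (hpd.trans (orderOf_dvd_of_pow_eq_one h1))
  · rw [orderOf_pow_of_dvd hm0 (Dvd.intro_left _ hkm.symm), hkm]
    exact Nat.mul_div_cancel _ (Nat.pos_of_ne_zero hm0)

/-- An element of `p`-power order in a normal nilpotent subgroup lies in a normal `p`-subgroup. -/
theorem exists_normal_pSubgroup {G : Type*} [Group G] [Finite G] (K : Subgroup G) [K.Normal]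
    (hK : Group.IsNilpotent K) (p : ℕ) [Fact p.Prime] (z : G) (hz : z ∈ K) (k : ℕ)
    (hzk : orderOf z = p ^ k) :
    ∃ T : Subgroup G, T.Normal ∧ IsPGroup p T ∧ z ∈ T := by
  have hZ : IsPGroup p (Subgroup.zpowers (⟨z, hz⟩ : K)) := by
    rw [IsPGroup.iff_card, Nat.card_zpowers]
    refine ⟨k, ?_⟩
    rw [← hzk]
    exact Subgroup.orderOf_mk z hz
  obtain ⟨S, hS⟩ := hZ.exists_le_sylow
  haveI : (S : Subgroup K).Normal := inferInstance
  haveI : (S : Subgroup K).Characteristic := S.characteristic_of_normal inferInstance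
  refine ⟨(S : Subgroup K).map K.subtype, ConjAct.normal_of_characteristic_of_normal,
    S.isPGroup'.map _, ?_⟩
  exact ⟨⟨z, hz⟩, hS (Subgroup.mem_zpowers _), rfl⟩

theorem key {G : Type*} [Group G] [Finite G] (N : Subgroup G) [N.Normal]
    (heq : ∀ x : G, x ∉ N → ∀ n ∈ N, orderOf (x * n) = orderOf x)
    (K : Subgroup G) [K.Normal] (hK : Group.IsNilpotent K) (x : G) (hxK : x ∈ K) (hxN : x ∉ N) :
    ∃ p : ℕ, p.Prime ∧ p ∣ orderOf x ∧ IsPGroup p N := by
  obtain ⟨p, m, k, hp, hm, hk⟩ := exists_prime_pow_order_not_mem N x hxN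
  haveI : Fact p.Prime := ⟨hp⟩
  obtain ⟨T, hTn, hTp, hzT⟩ := exists_normal_pSubgroup K hK p (x ^ m) (K.pow_mem hxK m) k hk
  refine ⟨p, hp, ?_, isPGroup_of_normal_pSubgroup N heq p T hTp (fun h => hm (h hzT))⟩
  have hk0 : k ≠ 0 := by
    rintro rfl
    rw [pow_zero, orderOf_eq_one_iff] at hk
    exact hm (hk ▸ N.one_mem)
  have h1 : p ∣ orderOf (x ^ m) := hk ▸ dvd_pow_self p hk0
  exact h1.trans (orderOf_pow_dvd m)

/-- Let G be a finite group and N a proper non-trivial normal subgroup such that for every x outside N all elements of the coset xN have the same order as x. Then N ≤ F(G) or F(G) ≤ N, where F(G) is the Fitting subgroup; and if N is properly contained in F(G) then F(G) has prime-power order. -/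
theorem result {G : Type*} [Group G] [Finite G] (N : Subgroup G) [N.Normal] (hN1 : N ≠ ⊥) (hN2 : N ≠ ⊤)
    (heq : ∀ x : G, x ∉ N → ∀ n ∈ N, orderOf (x * n) = orderOf x) :
    (N ≤ Cfsg.fittingSubgroup G ∨ Cfsg.fittingSubgroup G ≤ N) ∧
    (N < Cfsg.fittingSubgroup G → IsPrimePow (Nat.card (Cfsg.fittingSubgroup G))) := by
  have main : ¬ Cfsg.fittingSubgroup G ≤ N → ∃ p : ℕ, p.Prime ∧ IsPGroup p N := by
    intro h
    have : ∃ K : Subgroup G, (K.Normal ∧ Group.IsNilpotent K) ∧ ¬ K ≤ N := by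
      by_contra hcon
      push_neg at hcon
      exact h (sSup_le fun K hK => hcon K hK)
    obtain ⟨K, ⟨hKn, hKnil⟩, hKN⟩ := this
    obtain ⟨x, hxK, hxN⟩ := SetLike.not_le_iff_exists.mp hKN
    obtain ⟨p, hp, -, hpN⟩ := key N heq K hKnil x hxK hxN
    exact ⟨p, hp, hpN⟩
  refine ⟨?_, ?_⟩
  · by_cases h : Cfsg.fittingSubgroup G ≤ N
    · exact Or.inr h
    · left
      obtain ⟨p, hp, hpN⟩ := main h
      haveI : Fact p.Prime := ⟨hp⟩
      exact le_sSup ⟨inferInstance, hpN.isNilpotent⟩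
  · intro hlt
    obtain ⟨p, hp, hpN⟩ := main (not_le_of_gt hlt)
    haveI : Fact p.Prime := ⟨hp⟩
    have hall : ∀ K ∈ {K : Subgroup G | K.Normal ∧ Group.IsNilpotent K}, IsPGroup p K := by
      rintro K ⟨hKn, hKnil⟩
      by_contra hnot
      -- some element whose order is not a power of p
      have : ∃ y ∈ K, ∀ k : ℕ, y ^ p ^ k ≠ 1 := by
        by_contra hcon
        push_neg at hcon
        apply hnot
        intro y
        obtain ⟨k, hk⟩ := hcon y y.2
        exact ⟨k, Subtype.ext (by simpa using hk)⟩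
      obtain ⟨y, hyK, hy⟩ := this
      obtain ⟨k, m, hm, hkm⟩ := Nat.exists_eq_pow_mul_and_not_dvd (orderOf_pos y).ne' p hp.ne_one
      set z := y ^ p ^ k with hz
      have hzord : orderOf z = m := by
        rw [hz, orderOf_pow_of_dvd (pow_ne_zero _ hp.ne_zero) (Dvd.intro _ hkm.symm), hkm]
        exact Nat.mul_div_cancel_left _ (pow_pos hp.pos _)
      have hzN : z ∉ N := by
        intro hzN
        obtain ⟨j, hj⟩ := hpN ⟨z, hzN⟩
        have hj' : z ^ p ^ j = 1 := by
          have := congrArg Subtype.val hj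
          simpa using this
        have h1 : m ∣ p ^ j := hzord ▸ orderOf_dvd_of_pow_eq_one hj'
        have hc : Nat.Coprime m (p ^ j) :=
          Nat.Coprime.pow_right _ ((Nat.Prime.coprime_iff_not_dvd hp).mpr hm).symm
        have h2 : m = 1 := Nat.Coprime.eq_one_of_dvd hc h1
        rw [h2, orderOf_eq_one_iff] at hzord
        exact hy k hzord
      obtain ⟨q, hq, hqd, hqN⟩ := key N heq K hKnil z (K.pow_mem hyK _) hzN
      have hqp : q ≠ p := by
        rintro rfl
        exact hm (hzord ▸ hqd)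
      -- N is both a p-group and a q-group, hence trivial
      apply hN1
      rw [Subgroup.eq_bot_iff_forall]
      intro n hn
      obtain ⟨a, ha⟩ := hpN ⟨n, hn⟩
      obtain ⟨b, hb⟩ := hqN ⟨n, hn⟩
      have ha' : n ^ p ^ a = 1 := by
        have := congrArg Subtype.val ha
        simpa using this
      have hb' : n ^ q ^ b = 1 := by
        have := congrArg Subtype.val hb
        simpa using this
      have hcop : Nat.Coprime (p ^ a) (q ^ b) :=
        Nat.Coprime.pow _ _ ((Nat.coprime_primes hp hq).mpr hqp.symm)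
      have := Nat.dvd_gcd (orderOf_dvd_of_pow_eq_one ha') (orderOf_dvd_of_pow_eq_one hb')
      rw [hcop.gcd_eq_one, Nat.dvd_one, orderOf_eq_one_iff] at this
      exact this
    have hF : IsPGroup p (Cfsg.fittingSubgroup G) :=
      Sylow.sSup_of_normal _ hall (fun K hK => hK.1)
    obtain ⟨n, hn⟩ := IsPGroup.iff_card.mp hF
    have hn0 : n ≠ 0 := by
      rintro rfl
      rw [pow_zero, Subgroup.card_eq_one] at hn
      rw [hn] at hlt
      exact not_lt_bot hlt
    rw [hn]
    exact ⟨p, n, hp.prime, Nat.pos_of_ne_zero hn0, rfl⟩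

end Cfsg.Agent.S4107
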