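import Cfsg.Statements.S4108
import Cfsg.Agent.Lib.Helper72Frob

set_option autoImplicit false
open Cfsg

namespace Cfsg.Agent.S4108

/-- Let G be a finite group, p a prime and N a proper non-trivial normal p-subgroup such that for every x outside N all elements of the coset xN have the same order as x. Then every non-trivial subgroup H of G of order prime to p acts fixed-point-freely on N: NH is a Frobenius group with complement H and kernel N. -/
theorem result {G : Type*} [Group G] [Finite G] (N : Subgroup G) [N.Normal] (hN1 : N ≠ ⊥) (hN2 : N ≠ ⊤)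
    (heq : ∀ x : G, x ∉ N → ∀ n ∈ N, orderOf (x * n) = orderOf x)
    (p : ℕ) [Fact p.Prime] (hNp : IsPGroup p N) :
    ∀ H : Subgroup G, H ≠ ⊥ → (Nat.card H).Coprime p →
      Cfsg.IsFrobeniusComplement (H.subgroupOf (N ⊔ H)) ∧ Cfsg.frobeniusKernel (H.subgroupOf (N ⊔ H)) = (N.subgroupOf (N ⊔ H) : Set ↥(N ⊔ H)) := by
  intro H hH hcop
  -- non-identity elements of H are outside N
  have hord : ∀ h ∈ H, (orderOf h).Coprime p := by
    intro h hh
    have h1 : orderOf h ∣ Nat.card H := by
      have := orderOf_dvd_natCard (⟨h, hh⟩ : H)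
      rwa [Subgroup.orderOf_mk] at this
    exact Nat.Coprime.coprime_dvd_left h1 hcop
  have hNord : ∀ n ∈ N, ∃ k : ℕ, orderOf n = p ^ k := by
    intro n hn
    obtain ⟨k, hk⟩ := (IsPGroup.iff_orderOf.mp hNp) ⟨n, hn⟩
    exact ⟨k, by rwa [Subgroup.orderOf_mk] at hk⟩
  have hdisjG : ∀ z : G, z ∈ N → z ∈ H → z = 1 := by
    intro z hzN hzH
    obtain ⟨k, hk⟩ := hNord z hzN
    have h1 := hord z hzH
    rw [hk] at h1
    rw [← orderOf_eq_one_iff, hk]
    rcases Nat.eq_zero_or_pos k with rfl | hkpos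
    · simp
    · exfalso
      have h2 : Nat.Coprime p p := Nat.Coprime.coprime_dvd_left (dvd_pow_self p hkpos.ne') h1
      rw [Nat.coprime_self] at h2
      exact (Fact.out : p.Prime).ne_one h2
  have hfixG : ∀ h ∈ H, h ≠ 1 → ∀ c ∈ N, c * h * c⁻¹ = h → c = 1 := by
    intro h hh hh1 c hc hch
    have hhN : h ∉ N := fun hhN => hh1 (hdisjG h hhN hh)
    have h1 : orderOf (h * c) = orderOf h := heq h hhN c hc
    have hcomm : Commute h c := by
      have : c * h = h * c := by
        calc c * h = c * h * c⁻¹ * c := by group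
          _ = h * c := by rw [hch]
      exact this.symm
    obtain ⟨k, hk⟩ := hNord c hc
    have hcop' : (orderOf h).Coprime (orderOf c) := by
      rw [hk]; exact Nat.Coprime.pow_right _ (hord h hh)
    have h2 := hcomm.orderOf_mul_eq_mul_orderOf_of_coprime hcop'
    rw [h1] at h2
    have h3 : orderOf c = 1 := by
      have hpos := orderOf_pos h
      nlinarith [Nat.eq_of_mul_eq_mul_left hpos (by rw [mul_one]; exact h2 : orderOf h * 1 = orderOf h * orderOf c)]
    exact orderOf_eq_one_iff.mp h3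
  have hNle : N ≤ N ⊔ H := le_sup_left
  have hHle : H ≤ N ⊔ H := le_sup_right
  apply Cfsg.Agent.Lib.Helper72Frob.frobenius_of_fixedPointFree (N.subgroupOf (N ⊔ H)) (H.subgroupOf (N ⊔ H))
  · intro h
    rw [Subgroup.subgroupOf_eq_bot] at h
    apply hN1
    rw [disjoint_iff, inf_eq_left.mpr hNle] at h
    exact h
  · intro h
    rw [Subgroup.subgroupOf_eq_bot] at h
    apply hH
    rw [disjoint_iff, inf_eq_left.mpr hHle] at h
    exact h
  · rintro ⟨g, hg⟩
    obtain ⟨n, hn, h, hh, hnh⟩ := Subgroup.mem_sup_of_normal_left.mp hg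
    exact ⟨⟨n, hNle hn⟩, Subgroup.mem_subgroupOf.mpr hn, ⟨h, hHle hh⟩, Subgroup.mem_subgroupOf.mpr hh,
      Subtype.ext hnh⟩
  · rintro ⟨z, hz⟩ hzN hzH
    exact Subtype.ext (hdisjG z (Subgroup.mem_subgroupOf.mp hzN) (Subgroup.mem_subgroupOf.mp hzH))
  · rintro ⟨h, hh'⟩ hh hh1 ⟨c, hc'⟩ hc hch
    apply Subtype.ext
    apply hfixG h (Subgroup.mem_subgroupOf.mp hh) (fun h1 => hh1 (Subtype.ext h1)) c
      (Subgroup.mem_subgroupOf.mp hc)
    exact congrArg Subtype.val hch

end Cfsg.Agent.S4108
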