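import Cfsg.Statements.S4112
import Cfsg.Agent.Lib.Helper72Pi

set_option autoImplicit false
open Cfsg

namespace Cfsg.Agent.S4112

open Cfsg.Agent.Lib.Helper72Pi

/-- a normal subgroup has a supplement whose order only involves primes dividing the index -/
theorem exists_supplement {G : Type*} [Group G] [Finite G] (N : Subgroup G) [N.Normal] :
    ∃ H : Subgroup G, H ⊔ N = ⊤ ∧ ∀ p : ℕ, p.Prime → p ∣ Nat.card H → p ∣ N.index := by
  obtain ⟨H, hH⟩ := exists_minimal_of_wellFoundedLT (fun H : Subgroup G => H ⊔ N = ⊤)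
    ⟨⊤, top_sup_eq _⟩
  refine ⟨H, hH.prop, ?_⟩
  intro p hp hpH
  by_contra hpN
  haveI : Fact p.Prime := ⟨hp⟩
  have hmin : ∀ L : Subgroup H, L.map H.subtype ⊔ N = ⊤ → L = ⊤ := by
    intro L hL
    have h1 : L.map H.subtype ≤ H := Subgroup.map_subtype_le L
    have h2 : H ≤ L.map H.subtype := hH.le_of_le hL h1
    rw [eq_top_iff]
    intro x _
    obtain ⟨y, hy, hyx⟩ := h2 x.2
    have : y = x := Subtype.ext hyx
    exact this ▸ hy
  set N' := N.subgroupOf H with hN'
  have htrans : ∀ L : Subgroup H, L ⊔ N' = ⊤ → L.map H.subtype ⊔ N = ⊤ := by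
    intro L hL
    have h0 : (L ⊔ N').map H.subtype = H := by
      rw [hL, ← MonoidHom.range_eq_map, Subgroup.range_subtype]
    rw [Subgroup.map_sup] at h0
    have h3 : N'.map H.subtype ≤ N := by
      rw [hN', Subgroup.subgroupOf_map_subtype]; exact inf_le_left
    rw [eq_top_iff, ← hH.prop]
    exact sup_le (h0.ge.trans (sup_le le_sup_left (h3.trans le_sup_right))) le_sup_right
  let P : Sylow p N' := default
  have hfr := Sylow.normalizer_sup_eq_top P
  set P' := (P : Subgroup N').map N'.subtype with hP'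
  have hnorm : Subgroup.normalizer (P' : Set H) = ⊤ := hmin _ (htrans _ hfr)
  haveI hPn : P'.Normal := Subgroup.normalizer_eq_top_iff.mp hnorm
  have hN'idx : N'.index = N.index := by
    have h1 : N.relIndex (H ⊔ N) = N.relIndex H := Subgroup.relIndex_sup_right H N
    rw [hH.prop, Subgroup.relIndex_top_right] at h1
    exact h1.symm
  have hP'p : IsPGroup p P' := P.isPGroup'.map _
  have hP'idx : ¬ p ∣ P'.index := by
    rw [hP', Subgroup.index_map_subtype]
    intro h
    rcases (Nat.Prime.dvd_mul hp).mp h with h | h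
    · exact P.not_dvd_index h
    · exact hpN (hN'idx ▸ h)
  have hcop : (Nat.card P').Coprime P'.index := by
    obtain ⟨k, hk⟩ := IsPGroup.iff_card.mp hP'p
    rw [hk]
    exact Nat.Coprime.pow_left _ ((Nat.Prime.coprime_iff_not_dvd hp).mpr hP'idx)
  obtain ⟨K, hK⟩ := Subgroup.exists_right_complement'_of_coprime hcop
  have hP'N' : P' ≤ N' := Subgroup.map_subtype_le _
  have hKtop : K = ⊤ := by
    apply hmin K (htrans K _)
    rw [eq_top_iff, ← hK.sup_eq_top]
    exact sup_le (hP'N'.trans le_sup_right) le_sup_left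
  have hP'bot : P' = ⊥ := by
    have := hK.disjoint
    rw [hKtop] at this
    exact disjoint_top.mp this
  apply hP'idx
  rw [hP'bot, Subgroup.index_bot]
  exact hpH


/-- Let G be a finite group and M ≤ N non-trivial proper normal subgroups such that for every g outside N the conjugacy class of g is a union of cosets of M (equivalently gm is conjugate to g for every m ∈ M). Then (1) and (2) below are equivalent, and they imply (3): (1) every g outside N acts fixed-point-freely on M, that is C_G(x) ≤ N for every x ∈ M, x ≠ 1; (2) the index of N in G is coprime to the order of M; (3) there is a subgroup H of G with HN = G and H ∩ M = 1. -/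
theorem result {G : Type*} [Group G] [Finite G] (N M : Subgroup G) [N.Normal] [M.Normal] (hMN : M ≤ N) (hM1 : M ≠ ⊥) (hN2 : N ≠ ⊤)
    (hcam : ∀ g : G, g ∉ N → ∀ m ∈ M, ∃ x : G, x * g * x⁻¹ = g * m) :
    ((∀ x ∈ M, x ≠ 1 → Subgroup.centralizer ({x} : Set G) ≤ N) ↔ N.index.Coprime (Nat.card M)) ∧
    ((∀ x ∈ M, x ≠ 1 → Subgroup.centralizer ({x} : Set G) ≤ N) → ∃ H : Subgroup G, H ⊔ N = ⊤ ∧ H ⊓ M = ⊥) := by
  have h12 : (∀ x ∈ M, x ≠ 1 → Subgroup.centralizer ({x} : Set G) ≤ N) →
      N.index.Coprime (Nat.card M) := by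
    intro hC
    by_contra hcon
    obtain ⟨p, hp, hpN, hpM⟩ := Nat.Prime.not_coprime_iff_dvd.mp hcon
    haveI : Fact p.Prime := ⟨hp⟩
    let P : Sylow p G := default
    letI : MulAction (P : Subgroup G) M :=
      MulAction.compHom M ((MulAut.conjNormal : G →* MulAut M).comp (P : Subgroup G).subtype)
    have hsmul : ∀ (u : (P : Subgroup G)) (m : M), ((u • m : M) : G) = (u : G) * m * (u : G)⁻¹ :=
      fun u m => rfl
    have h1 : (1 : M) ∈ MulAction.fixedPoints (P : Subgroup G) M := by
      intro u
      apply Subtype.ext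
      rw [hsmul]; simp
    obtain ⟨b, hb, hb1⟩ := P.isPGroup'.exists_fixed_point_of_prime_dvd_card_of_fixed_point M hpM h1
    have hPb : (P : Subgroup G) ≤ Subgroup.centralizer ({(b : G)} : Set G) := by
      intro u hu
      rw [Subgroup.mem_centralizer_singleton_iff]
      have h2 : (u : G) * b * (u : G)⁻¹ = b := by
        have := congrArg Subtype.val (hb ⟨u, hu⟩)
        rwa [hsmul] at this
      calc u * (b : G) = (u * b * u⁻¹) * u := by group
        _ = b * u := by rw [h2]
    have hPN : (P : Subgroup G) ≤ N :=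
      hPb.trans (hC b b.2 (fun h => hb1 (Subtype.ext h).symm))
    exact P.not_dvd_index (hpN.trans (Subgroup.index_dvd_of_le hPN))
  refine ⟨⟨h12, ?_⟩, ?_⟩
  · intro hcop x hxM hx1 g hg
    rw [Subgroup.mem_centralizer_singleton_iff] at hg
    by_contra hgN
    set π : Set ℕ := {q | q ∣ N.index} with hπ
    obtain ⟨u, v, hu, hv, huv, huπ, hvπ⟩ := exists_pi_split π g (orderOf_pos g).ne'
    have hvN : v ∈ N := by
      rw [← QuotientGroup.eq_one_iff, ← orderOf_eq_one_iff]
      by_contra hne
      obtain ⟨q, hq, hqd⟩ := Nat.exists_prime_and_dvd hne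
      have h1 : q ∣ orderOf v := hqd.trans (orderOf_map_dvd (QuotientGroup.mk' N) v)
      have h2 : q ∣ N.index := hqd.trans (orderOf_dvd_natCard _)
      exact hvπ q hq h1 h2
    have huN : u ∉ N := by
      intro h
      apply hgN
      rw [← huv]; exact N.mul_mem h hvN
    have hux : Commute u x := by
      obtain ⟨i, rfl⟩ := hu
      exact (Commute.zpow_left (show Commute g x from hg) i)
    have hxord : orderOf x ∣ Nat.card M := by
      have := orderOf_dvd_natCard (⟨x, hxM⟩ : M)
      rwa [Subgroup.orderOf_mk] at this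
    have hcop' : (orderOf u).Coprime (orderOf x) := by
      apply Nat.coprime_of_dvd
      intro q hq hqu hqx
      have h1 : q ∣ N.index := huπ q hq hqu
      have h2 : q ∣ Nat.card M := hqx.trans hxord
      have := Nat.dvd_gcd h1 h2
      rw [hcop.gcd_eq_one] at this
      exact hq.not_dvd_one this
    obtain ⟨y, hy⟩ := hcam u huN x hxM
    have h3 : orderOf (u * x) = orderOf u := by rw [← hy, orderOf_conj]
    rw [hux.orderOf_mul_eq_mul_orderOf_of_coprime hcop'] at h3
    have hpos := orderOf_pos u
    have h4 : orderOf x = 1 := by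
      have : orderOf u * orderOf x = orderOf u * 1 := by rw [h3, mul_one]
      exact Nat.eq_of_mul_eq_mul_left hpos this
    exact hx1 (orderOf_eq_one_iff.mp h4)
  · intro hC
    have hcop := h12 hC
    obtain ⟨H, hH1, hH2⟩ := exists_supplement N
    refine ⟨H, hH1, ?_⟩
    rw [← Subgroup.card_eq_one]
    by_contra hne
    obtain ⟨q, hq, hqd⟩ := Nat.exists_prime_and_dvd hne
    have h1 : q ∣ N.index := hH2 q hq (hqd.trans (Subgroup.card_dvd_of_le inf_le_left))
    have h2 : q ∣ Nat.card M := hqd.trans (Subgroup.card_dvd_of_le inf_le_right)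
    have := Nat.dvd_gcd h1 h2
    rw [hcop.gcd_eq_one] at this
    exact hq.not_dvd_one this

end Cfsg.Agent.S4112
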