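import Cfsg.Statements.S4116
import Cfsg.Agent.Lib.Helper72Fix

set_option autoImplicit false
open Cfsg

namespace Cfsg.Agent.S4116

open Cfsg.Agent.Lib.Helper72Pi Cfsg.Agent.Lib.Helper72Fix

/-- a `p`-element is conjugate into a subgroup of index prime to `p` -/
theorem exists_conj_mem_of_not_dvd_index {G : Type*} [Group G] [Finite G] (H : Subgroup G)
    (p : ℕ) [Fact p.Prime] (hp : ¬ p ∣ H.index) (z : G) (hz : IsPGroup p (Subgroup.zpowers z)) :
    ∃ a : G, a⁻¹ * z * a ∈ H := by
  let S : Sylow p H := default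
  have hS1 : IsPGroup p ((S : Subgroup H).map H.subtype) := S.isPGroup'.map _
  have hS2 : ¬ p ∣ ((S : Subgroup H).map H.subtype).index := by
    rw [Subgroup.index_map_subtype]
    intro h
    rcases (Nat.Prime.dvd_mul Fact.out).mp h with h | h
    · exact S.not_dvd_index h
    · exact hp h
  let S' : Sylow p G := hS1.toSylow hS2
  obtain ⟨Q, hQ⟩ := hz.exists_le_sylow
  obtain ⟨g, hg⟩ := MulAction.exists_smul_eq G Q S'
  refine ⟨g⁻¹, ?_⟩
  have h1 : g * z * g⁻¹ ∈ (S' : Subgroup G) := by
    rw [← hg, Sylow.coe_subgroup_smul]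
    have : z ∈ (Q : Subgroup G) := hQ (Subgroup.mem_zpowers z)
    have h2 := Subgroup.smul_mem_pointwise_smul z (MulAut.conj g) (Q : Subgroup G) this
    simpa [MulAut.smul_def] using h2
  have h2 : g * z * g⁻¹ ∈ (S : Subgroup H).map H.subtype := h1
  obtain ⟨w, -, hw⟩ := h2
  rw [inv_inv, ← hw]
  exact w.2

/-- an element of the normaliser of a Hall subgroup `H` whose order only involves primes dividing
`|H|` lies in `H` -/
theorem mem_of_mem_normalizer {G : Type*} [Group G] [Finite G] (H : Subgroup G)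
    (hHall : (Nat.card H).Coprime H.index) (y : G) (hy : y ∈ Subgroup.normalizer (H : Set G))
    (hord : ∀ q : ℕ, q.Prime → q ∣ orderOf y → q ∣ Nat.card H) : y ∈ H := by
  set N := Subgroup.normalizer (H : Set G) with hN
  let yb : N ⧸ H.subgroupOf N := QuotientGroup.mk' _ (⟨y, hy⟩ : N)
  have h1 : orderOf yb ∣ orderOf y := by
    have := orderOf_map_dvd (QuotientGroup.mk' (H.subgroupOf N)) (⟨y, hy⟩ : N)
    rwa [Subgroup.orderOf_mk] at this
  have h2 : orderOf yb ∣ H.index := by
    have h3 : orderOf yb ∣ Nat.card (N ⧸ H.subgroupOf N) := orderOf_dvd_natCard yb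
    have h4 : Nat.card (N ⧸ H.subgroupOf N) = H.relIndex N := rfl
    rw [h4] at h3
    exact h3.trans (Dvd.intro _ (Subgroup.relIndex_mul_index Subgroup.le_normalizer))
  have h5 : orderOf yb = 1 := by
    by_contra hne
    obtain ⟨q, hq, hqd⟩ := Nat.exists_prime_and_dvd hne
    have h6 : q ∣ Nat.card H := hord q hq (hqd.trans h1)
    have h7 : q ∣ H.index := hqd.trans h2
    have := Nat.dvd_gcd h6 h7
    rw [hHall.gcd_eq_one] at this
    exact hq.not_dvd_one this
  rw [orderOf_eq_one_iff] at h5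
  have h8 : (⟨y, hy⟩ : N) ∈ H.subgroupOf N := (QuotientGroup.eq_one_iff _).mp h5
  exact Subgroup.mem_subgroupOf.mp h8


/-- Let G be a finite group with a subgroup H whose order is coprime to its index (a Hall subgroup) and which meets each of its conjugates by elements outside N_G(H) trivially. Then every subgroup of G whose order is divisible only by primes dividing the order of H lies in a conjugate of H. -/
theorem result {G : Type*} [Group G] [Finite G] (H : Subgroup G)
    (hHall : (Nat.card H).Coprime H.index) (hTI : Cfsg.IsTISubset (H : Set G))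
    (K : Subgroup G) (hK : ∀ q : ℕ, q.Prime → q ∣ Nat.card K → q ∣ Nat.card H) :
    ∃ g : G, K ≤ H.map (MulAut.conj g).toMonoidHom := by
  set N := Subgroup.normalizer (H : Set G) with hN
  have hordK : ∀ k ∈ K, ∀ a : G, ∀ q : ℕ, q.Prime → q ∣ orderOf (a⁻¹ * k * a) → q ∣ Nat.card H := by
    intro k hk a q hq hqd
    have h1 : orderOf (a⁻¹ * k * a) = orderOf k := by
      have := orderOf_conj a⁻¹ k
      rwa [inv_inv] at this
    rw [h1] at hqd
    apply hK q hq
    have h2 : orderOf k ∣ Nat.card K := by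
      have := orderOf_dvd_natCard (⟨k, hk⟩ : K)
      rwa [Subgroup.orderOf_mk] at this
    exact hqd.trans h2
  -- every nonidentity element of K is conjugate into H
  have hex : ∀ k ∈ K, k ≠ 1 → ∃ a : G, a⁻¹ * k * a ∈ H := by
    intro k hk hk1
    have hne : orderOf k ≠ 1 := fun h => hk1 (orderOf_eq_one_iff.mp h)
    obtain ⟨p, hp, hpd⟩ := Nat.exists_prime_and_dvd hne
    haveI : Fact p.Prime := ⟨hp⟩
    have hpH : p ∣ Nat.card H := by
      have := hordK k hk 1 p hp (by simpa using hpd)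
      exact this
    have hpi : ¬ p ∣ H.index := by
      intro h
      have := Nat.dvd_gcd hpH h
      rw [hHall.gcd_eq_one] at this
      exact hp.not_dvd_one this
    set z := k ^ (orderOf k / p) with hz
    have hzord : orderOf z = p := orderOf_pow_orderOf_div (orderOf_pos k).ne' hpd
    have hzP : IsPGroup p (Subgroup.zpowers z) := by
      rw [IsPGroup.iff_card, Nat.card_zpowers, hzord]
      exact ⟨1, (pow_one p).symm⟩
    obtain ⟨a, ha⟩ := exists_conj_mem_of_not_dvd_index H p hpi z hzP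
    refine ⟨a, ?_⟩
    have hz1 : a⁻¹ * z * a ≠ 1 := by
      intro h
      have : z = 1 := by
        have h2 : z = a * (a⁻¹ * z * a) * a⁻¹ := by group
        rw [h2, h]; group
      rw [this, orderOf_one] at hzord
      exact hp.one_lt.ne hzord
    have hcomm : k * z = z * k := by
      rw [hz]; exact ((Commute.refl k).pow_right _).eq
    have hnorm : a⁻¹ * k * a ∈ N := by
      by_contra hcon
      apply hz1
      apply hTI _ hcon _ ha
      have : a⁻¹ * k * a * (a⁻¹ * z * a) * (a⁻¹ * k * a)⁻¹ = a⁻¹ * (k * z) * k⁻¹ * a := by group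
      rw [this, hcomm]
      have : a⁻¹ * (z * k) * k⁻¹ * a = a⁻¹ * z * a := by group
      rw [this]
      exact ha
    exact mem_of_mem_normalizer H hHall _ hnorm (hordK k hk a)
  have hsmul : ∀ (k : K) (a : G), k • (a : G ⧸ N) = (a : G ⧸ N) ↔ a⁻¹ * (k : G) * a ∈ N := by
    intro k a
    have h1 : k • (a : G ⧸ N) = (((k : G) * a : G) : G ⧸ N) := rfl
    rw [h1, eq_comm, QuotientGroup.eq]
    rw [mul_assoc]
  have huniq : ∀ k : K, k ≠ 1 → ∃! x : G ⧸ N, k • x = x := by
    intro k hk1
    have hk1' : (k : G) ≠ 1 := fun h => hk1 (Subtype.ext h)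
    obtain ⟨a, ha⟩ := hex k k.2 hk1'
    refine ⟨(a : G ⧸ N), (hsmul k a).mpr (Subgroup.le_normalizer ha), ?_⟩
    intro x hx
    obtain ⟨b, rfl⟩ := QuotientGroup.mk_surjective x
    have hb : b⁻¹ * (k : G) * b ∈ H :=
      mem_of_mem_normalizer H hHall _ ((hsmul k b).mp hx) (hordK k k.2 b)
    rw [QuotientGroup.eq]
    by_contra hcon
    have h1 : a⁻¹ * (k : G) * a = 1 := by
      apply hTI _ hcon _ ha
      have : b⁻¹ * a * (a⁻¹ * (k : G) * a) * (b⁻¹ * a)⁻¹ = b⁻¹ * (k : G) * b := by group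
      rw [this]
      exact hb
    apply hk1'
    have h2 : (k : G) = a * (a⁻¹ * (k : G) * a) * a⁻¹ := by group
    rw [h2, h1]; group
  obtain ⟨x, hx⟩ := exists_fixed_point huniq
  obtain ⟨a, rfl⟩ := QuotientGroup.mk_surjective x
  refine ⟨a, ?_⟩
  intro k hk
  have h1 : a⁻¹ * k * a ∈ H :=
    mem_of_mem_normalizer H hHall _ ((hsmul ⟨k, hk⟩ a).mp (hx ⟨k, hk⟩)) (hordK k hk a)
  refine ⟨a⁻¹ * k * a, h1, ?_⟩
  simp [mul_assoc]

end Cfsg.Agent.S4116
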