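import Cfsg.Statements.S4115
import Cfsg.Agent.Lib.Helper32Wiel
import Cfsg.Agent.S4116
import Cfsg.Agent.S0039

set_option autoImplicit false
universe u
open Cfsg

namespace Cfsg.Agent.S4115

open Subgroup Pointwise Cfsg.Agent.Lib.Helper32Wiel

section basics

variable {G : Type u} [Group G] [Finite G]

theorem eq_one_of_pow_coprime {a b : ℕ} (hab : a.Coprime b) {x : G} (ha : x ^ a = 1)
    (hb : x ^ b = 1) : x = 1 := by
  have h1 : orderOf x ∣ a := orderOf_dvd_of_pow_eq_one ha
  have h2 : orderOf x ∣ b := orderOf_dvd_of_pow_eq_one hb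
  have h3 : orderOf x ∣ 1 := by
    have := Nat.dvd_gcd h1 h2
    rwa [hab] at this
  exact orderOf_eq_one_iff.mp (Nat.dvd_one.mp h3)

theorem mem_of_pow_card (H : Subgroup G)
    (hHall : (Nat.card H).Coprime (H.subgroupOf (Subgroup.normalizer (H : Set G))).index)
    {y : G} (hy : y ∈ Subgroup.normalizer (H : Set G)) (hpow : y ^ Nat.card H = 1) : y ∈ H := by
  set N := Subgroup.normalizer (H : Set G) with hN
  let yb : N ⧸ H.subgroupOf N := QuotientGroup.mk' _ (⟨y, hy⟩ : N)
  have h1 : yb ^ Nat.card H = 1 := by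
    rw [← map_pow]
    have : (⟨y, hy⟩ : N) ^ Nat.card H = 1 := Subtype.ext hpow
    rw [this, map_one]
  have h2 : yb ^ (H.subgroupOf N).index = 1 := by
    have : (H.subgroupOf N).index = Nat.card (N ⧸ H.subgroupOf N) := rfl
    rw [this]
    exact pow_card_eq_one'
  have h3 : yb = 1 := eq_one_of_pow_coprime hHall h1 h2
  have h4 := (QuotientGroup.eq_one_iff _).mp h3
  exact mem_subgroupOf.mp h4

theorem le_normalizer_of_conj (H Y : Subgroup G) (h : ∀ a ∈ H, ∀ y ∈ Y, a * y * a⁻¹ ∈ Y) :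
    H ≤ Subgroup.normalizer (Y : Set G) := by
  intro a ha
  rw [Subgroup.mem_normalizer_iff]
  intro y
  constructor
  · exact h a ha y
  · intro hy
    have := h a⁻¹ (H.inv_mem ha) _ hy
    simpa [mul_assoc] using this

structure KData (H K : Subgroup G) : Prop where
  le : K ≤ Subgroup.normalizer (H : Set G)
  normal : ∀ n ∈ Subgroup.normalizer (H : Set G), ∀ k ∈ K, n * k * n⁻¹ ∈ K
  disj : ∀ x ∈ K, x ∈ H → x = 1
  prod : ∀ n ∈ Subgroup.normalizer (H : Set G), ∃ k ∈ K, ∃ h ∈ H, n = k * h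
  comm : ∀ k ∈ K, ∀ h ∈ H, k * h = h * k
  card : Nat.card K = (H.subgroupOf (Subgroup.normalizer (H : Set G))).index

theorem kdata_of_complement (H : Subgroup G) (K : Subgroup (Subgroup.normalizer (H : Set G)))
    (hKn : K.Normal) (hc : K.IsComplement' (H.subgroupOf (Subgroup.normalizer (H : Set G)))) :
    KData H (K.map (Subgroup.normalizer (H : Set G)).subtype) := by
  have hHn : (H.subgroupOf (Subgroup.normalizer (H : Set G))).Normal := Subgroup.normal_in_normalizer
  refine ⟨map_subtype_le K, ?_, ?_, ?_, ?_, ?_⟩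
  · rintro n hn _ ⟨k, hk, rfl⟩
    exact ⟨⟨n, hn⟩ * k * ⟨n, hn⟩⁻¹, hKn.conj_mem k hk ⟨n, hn⟩, rfl⟩
  · rintro _ ⟨k, hk, rfl⟩ hkH
    have h1 : k ∈ K ⊓ H.subgroupOf (Subgroup.normalizer (H : Set G)) := ⟨hk, mem_subgroupOf.mpr hkH⟩
    rw [hc.disjoint.eq_bot, mem_bot] at h1
    rw [h1]; rfl
  · intro n hn
    have h1 : (⟨n, hn⟩ : (Subgroup.normalizer (H : Set G))) ∈ (K : Set (Subgroup.normalizer (H : Set G))) * (H.subgroupOf (Subgroup.normalizer (H : Set G)) : Set (Subgroup.normalizer (H : Set G))) := by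
      rw [hc.mul_eq]; trivial
    obtain ⟨k, hk, h, hh, hkh⟩ := h1
    exact ⟨k, ⟨k, hk, rfl⟩, h, mem_subgroupOf.mp hh, (congrArg Subtype.val hkh).symm⟩
  · rintro _ ⟨k, hk, rfl⟩ h hh
    have hhN : h ∈ (Subgroup.normalizer (H : Set G)) := le_normalizer hh
    have := commute_of_normal_of_disjoint K (H.subgroupOf (Subgroup.normalizer (H : Set G))) hKn hHn hc.disjoint k ⟨h, hhN⟩ hk
      (mem_subgroupOf.mpr hh)
    exact congrArg Subtype.val this
  · rw [hc.index_eq_card]
    exact Nat.card_congr (K.equivMapOfInjective _ (Subgroup.normalizer (H : Set G)).subtype_injective).symm.toEquiv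

theorem wdata (H K : Subgroup G) (hTI : Cfsg.IsTISubset (H : Set G))
    (hHall : (Nat.card H).Coprime (H.subgroupOf (Subgroup.normalizer (H : Set G))).index)
    (D : KData H K) : WData (Subgroup.normalizer (H : Set G)) K := by
  refine ⟨D.le, D.normal, ?_⟩
  intro g hg t ht hgt
  obtain ⟨k, hk, h, hh, rfl⟩ := D.prod t ht
  have hc : Commute k h := D.comm k hk h hh
  have hka : k ^ Nat.card K = 1 := by
    have : (⟨k, hk⟩ : K) ^ Nat.card K = 1 := pow_card_eq_one'
    exact congrArg Subtype.val this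
  have hs : (k * h) ^ Nat.card K = h ^ Nat.card K := by
    rw [hc.mul_pow, hka, one_mul]
  have hhb : h ^ Nat.card H = 1 := by
    have : (⟨h, hh⟩ : H) ^ Nat.card H = 1 := pow_card_eq_one'
    exact congrArg Subtype.val this
  have h1 : g * (h ^ Nat.card K) * g⁻¹ ∈ Subgroup.normalizer (H : Set G) := by
    rw [← hs, ← conj_pow]
    exact pow_mem hgt _
  have h2 : (g * (h ^ Nat.card K) * g⁻¹) ^ Nat.card H = 1 := by
    rw [conj_pow, ← pow_mul, mul_comm, pow_mul, hhb, one_pow]
    group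
  have h3 := mem_of_pow_card H hHall h1 h2
  have h4 : h ^ Nat.card K = 1 := hTI g hg _ (pow_mem hh _) h3
  have h5 : h = 1 := eq_one_of_pow_coprime (D.card ▸ hHall) hhb h4
  rw [h5, mul_one]
  exact hk

theorem exists_M (H K : Subgroup G) (hTI : Cfsg.IsTISubset (H : Set G))
    (hHall : (Nat.card H).Coprime (H.subgroupOf (Subgroup.normalizer (H : Set G))).index)
    (D : KData H K) : ∃ M : Subgroup G, M.Normal ∧ M.IsComplement' H ∧
      (∀ m ∈ M, m ∈ Subgroup.normalizer (H : Set G) → m ∈ K) ∧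
      Nat.card M = Nat.card K * (Subgroup.normalizer (H : Set G)).index := by
  obtain ⟨M, hMn, hM, hcard⟩ := wielandt (wdata H K hTI hHall D)
  have hMK : ∀ m ∈ M, m ∈ Subgroup.normalizer (H : Set G) → m ∈ K := by
    intro m hm hmN
    have := (hM m).mp hm 1
    simpa using this (by simpa using hmN)
  have hN : Nat.card (Subgroup.normalizer (H : Set G)) = Nat.card H * Nat.card K := by
    rw [D.card, ← Subgroup.card_mul_index (H.subgroupOf (Subgroup.normalizer (H : Set G))),
      Nat.card_congr (subgroupOfEquivOfLe (le_normalizer (H := H))).toEquiv]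
  have hKpos : 0 < Nat.card K := Nat.card_pos
  have hNpos : 0 < Nat.card (Subgroup.normalizer (H : Set G)) := Nat.card_pos
  refine ⟨M, hMn, ?_, hMK, ?_⟩
  · apply isComplement'_of_card_mul_and_disjoint
    · rw [hN] at hcard
      have : (Nat.card M * Nat.card H) * Nat.card K = Nat.card G * Nat.card K := by
        rw [← hcard]; ring
      exact Nat.eq_of_mul_eq_mul_right hKpos this
    · rw [disjoint_iff, eq_bot_iff]
      intro x hx
      exact D.disj x (hMK x hx.1 (le_normalizer hx.2)) hx.2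
  · rw [← Subgroup.card_mul_index (Subgroup.normalizer (H : Set G))] at hcard
    have : Nat.card M * Nat.card (Subgroup.normalizer (H : Set G)) =
        (Nat.card K * (Subgroup.normalizer (H : Set G)).index) *
          Nat.card (Subgroup.normalizer (H : Set G)) := by
      rw [hcard]; ring
    exact Nat.eq_of_mul_eq_mul_right hNpos this

theorem complement_in_normalizer (H M : Subgroup G) (hMn : M.Normal) (hc : M.IsComplement' H) :
    ∃ K : Subgroup (Subgroup.normalizer (H : Set G)), K.Normal ∧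
      K.IsComplement' (H.subgroupOf (Subgroup.normalizer (H : Set G))) := by
  refine ⟨M.subgroupOf _, inferInstance, ?_⟩
  apply isComplement'_of_disjoint_and_mul_eq_univ
  · rw [disjoint_iff, eq_bot_iff]
    intro x hx
    have h1 : (x : G) ∈ M ⊓ H := ⟨mem_subgroupOf.mp hx.1, mem_subgroupOf.mp hx.2⟩
    rw [hc.disjoint.eq_bot, mem_bot] at h1
    exact Subtype.ext h1
  · rw [Set.eq_univ_iff_forall]
    intro n
    have h1 : (n : G) ∈ (M : Set G) * (H : Set G) := by
      rw [hc.mul_eq]; trivial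
    obtain ⟨m, hm, h, hh, hmh⟩ := h1
    have hhN : h ∈ Subgroup.normalizer (H : Set G) := le_normalizer hh
    have hmN : m ∈ Subgroup.normalizer (H : Set G) := by
      have : m = n * h⁻¹ := by rw [← hmh]; group
      rw [this]
      exact mul_mem n.2 (inv_mem hhN)
    exact ⟨⟨m, hmN⟩, mem_subgroupOf.mpr hm, ⟨h, hhN⟩, mem_subgroupOf.mpr hh, Subtype.ext hmh⟩

theorem not_dvd_index_normalizer (H : Subgroup G) (hTI : Cfsg.IsTISubset (H : Set G))
    (hHall : (Nat.card H).Coprime (H.subgroupOf (Subgroup.normalizer (H : Set G))).index)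
    (p : ℕ) [Fact p.Prime] (hp : p ∣ Nat.card H) :
    ¬ p ∣ (Subgroup.normalizer (H : Set G)).index := by
  obtain ⟨x, hx⟩ := exists_prime_orderOf_dvd_card' p hp
  have hxo : orderOf (x : G) = p := by rw [Subgroup.orderOf_coe, hx]
  have hx1 : (x : G) ≠ 1 := by
    intro h
    rw [h, orderOf_one] at hxo
    exact (Fact.out : p.Prime).one_lt.ne hxo
  have hA : IsPGroup p (zpowers (x : G)) :=
    IsPGroup.of_card (n := 1) (by rw [Nat.card_zpowers, hxo, pow_one])
  have h1 := hA.card_modEq_card_fixedPoints (G ⧸ Subgroup.normalizer (H : Set G))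
  have key : ∀ q ∈ MulAction.fixedPoints (zpowers (x : G)) (G ⧸ Subgroup.normalizer (H : Set G)),
      q = ((1 : G) : G ⧸ Subgroup.normalizer (H : Set G)) := by
    intro q hq
    obtain ⟨g, rfl⟩ := QuotientGroup.mk_surjective q
    have h2 : (⟨x, mem_zpowers (x : G)⟩ : zpowers (x : G)) •
        (g : G ⧸ Subgroup.normalizer (H : Set G)) = g := hq _
    change (((x : G) * g : G) : G ⧸ Subgroup.normalizer (H : Set G)) = g at h2
    rw [eq_comm, QuotientGroup.eq] at h2
    have h3 : g⁻¹ * (x : G) * g⁻¹⁻¹ ∈ Subgroup.normalizer (H : Set G) := by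
      rw [inv_inv, mul_assoc]; exact h2
    have h4 : (g⁻¹ * (x : G) * g⁻¹⁻¹) ^ Nat.card H = 1 := by
      rw [conj_pow]
      have : (x : G) ^ Nat.card H = 1 := by
        have : x ^ Nat.card H = 1 := pow_card_eq_one'
        exact_mod_cast congrArg Subtype.val this
      rw [this]; group
    have h5 := mem_of_pow_card H hHall h3 h4
    have h6 : g⁻¹ ∈ Subgroup.normalizer (H : Set G) := by
      by_contra hg
      exact hx1 (hTI g⁻¹ hg x x.2 h5)
    rw [QuotientGroup.eq, mul_one]
    exact h6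
  have h2 : Nat.card (MulAction.fixedPoints (zpowers (x : G))
      (G ⧸ Subgroup.normalizer (H : Set G))) = 1 := by
    rw [Nat.card_eq_one_iff_unique]
    constructor
    · constructor
      intro a b
      exact Subtype.ext ((key a a.2).trans (key b b.2).symm)
    · refine ⟨⟨((1 : G) : G ⧸ Subgroup.normalizer (H : Set G)), ?_⟩⟩
      intro a
      change (((a : G) * 1 : G) : G ⧸ Subgroup.normalizer (H : Set G)) = _
      rw [eq_comm, QuotientGroup.eq, inv_one, one_mul, mul_one]
      have : zpowers (x : G) ≤ Subgroup.normalizer (H : Set G) := by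
        rw [zpowers_le]
        exact le_normalizer x.2
      exact this a.2
  rw [h2] at h1
  intro hd
  have h3 : Nat.card (G ⧸ Subgroup.normalizer (H : Set G)) ≡ 0 [MOD p] :=
    (Nat.modEq_zero_iff_dvd).mpr hd
  have h4 : 1 ≡ 0 [MOD p] := h1.symm.trans h3
  have h5 : p ∣ 1 := (Nat.modEq_zero_iff_dvd).mp h4
  exact (Fact.out : p.Prime).one_lt.ne' (Nat.dvd_one.mp h5)

theorem hall_in_G (H : Subgroup G) (hTI : Cfsg.IsTISubset (H : Set G))
    (hHall : (Nat.card H).Coprime (H.subgroupOf (Subgroup.normalizer (H : Set G))).index) :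
    (Nat.card H).Coprime H.index := by
  apply Nat.coprime_of_dvd
  intro p hp hpH hpI
  haveI : Fact p.Prime := ⟨hp⟩
  rw [← Subgroup.relIndex_mul_index (le_normalizer (H := H))] at hpI
  rcases (Nat.Prime.dvd_mul hp).mp hpI with h | h
  · have : p ∣ Nat.gcd (Nat.card H) (H.subgroupOf (Subgroup.normalizer (H : Set G))).index :=
      Nat.dvd_gcd hpH h
    rw [hHall] at this
    exact hp.one_lt.ne' (Nat.dvd_one.mp this)
  · exact not_dvd_index_normalizer H hTI hHall p hpH h

theorem exists_normalizing_not_mem (r : ℕ) [Fact r.Prime] (R R₀ : Subgroup G) (hR : IsPGroup r R)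
    (hle : R₀ ≤ R) (hne : R₀ ≠ R) :
    ∃ y ∈ R, y ∈ Subgroup.normalizer (R₀ : Set G) ∧ y ∉ R₀ := by
  have hnil : Group.IsNilpotent R := hR.isNilpotent
  have hnc : NormalizerCondition R := Group.normalizerCondition_of_isNilpotent
  have hlt : R₀.subgroupOf R < ⊤ := by
    rw [lt_top_iff_ne_top]
    intro h
    rw [subgroupOf_eq_top] at h
    exact hne (le_antisymm hle h)
  obtain ⟨y, hy1, hy2⟩ := SetLike.exists_of_lt (hnc _ hlt)
  refine ⟨y, y.2, ?_, fun h => hy2 (mem_subgroupOf.mpr h)⟩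
  rw [Subgroup.mem_normalizer_iff] at hy1 ⊢
  intro x
  constructor
  · intro hx
    exact mem_subgroupOf.mp ((hy1 ⟨x, hle hx⟩).mp (mem_subgroupOf.mpr hx))
  · intro hx
    have hxR : x ∈ R := by
      have : x = (y : G)⁻¹ * ((y : G) * x * (y : G)⁻¹) * (y : G) := by group
      rw [this]
      exact mul_mem (mul_mem (inv_mem y.2) (hle hx)) y.2
    exact mem_subgroupOf.mp ((hy1 ⟨x, hxR⟩).mpr (mem_subgroupOf.mpr hx))

theorem exists_invariant_sylow (H M : Subgroup G) [M.Normal] (hc : M.IsComplement' H)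
    (hcop : (Nat.card M).Coprime (Nat.card H))
    (hconj : ∀ H₂ : Subgroup G, Nat.card H₂ = Nat.card H →
      ∃ g : G, H₂ = H.map (MulAut.conj g).toMonoidHom) (r : ℕ) [Fact r.Prime] :
    ∃ R : Subgroup G, R ≤ M ∧ IsPGroup r R ∧ Nat.card R = r ^ (Nat.card M).factorization r ∧
      ∀ h ∈ H, ∀ x ∈ R, h * x * h⁻¹ ∈ R := by
  let R₁ : Sylow r M := default
  set R : Subgroup G := (R₁ : Subgroup M).map M.subtype with hRdef
  set L : Subgroup G := Subgroup.normalizer (R : Set G) with hL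
  have hF : L ⊔ M = ⊤ := Sylow.normalizer_sup_eq_top R₁
  have hidx : (M.subgroupOf L).index = Nat.card H := by
    change M.relIndex L = _
    rw [← relIndex_sup_right, hF, relIndex_top_right, hc.symm.index_eq_card]
  have hcard : Nat.card (M.subgroupOf L) ∣ Nat.card M :=
    card_comap_dvd_of_injective M L.subtype L.subtype_injective
  have hcop' : (Nat.card (M.subgroupOf L)).Coprime (M.subgroupOf L).index := by
    rw [hidx]
    exact Nat.Coprime.coprime_dvd_left hcard hcop
  obtain ⟨H₁, hH₁⟩ := exists_right_complement'_of_coprime hcop'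
  have hH₁c : Nat.card H₁ = Nat.card H := by
    rw [← hidx, hH₁.symm.index_eq_card]
  obtain ⟨g, hg⟩ := hconj (H₁.map L.subtype)
    ((card_map_of_injective L.subtype_injective).trans hH₁c)
  have hRc : Nat.card R = r ^ (Nat.card M).factorization r := by
    rw [hRdef, card_map_of_injective M.subtype_injective]
    exact R₁.card_eq_multiplicity
  have hRM : R ≤ M := map_subtype_le _
  refine ⟨R.map (MulAut.conj g⁻¹).toMonoidHom, ?_, ?_, ?_, ?_⟩
  · rintro _ ⟨x, hx, rfl⟩
    have := (inferInstance : M.Normal).conj_mem x (hRM hx) g⁻¹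
    simpa using this
  · exact (R₁.isPGroup'.map _).map _
  · rw [card_map_of_injective (MulAut.conj g⁻¹).injective, hRc]
  · rintro h hh _ ⟨x, hx, rfl⟩
    have h1 : g * h * g⁻¹ ∈ H₁.map L.subtype := by
      rw [hg]
      exact ⟨h, hh, by simp⟩
    have h2 : g * h * g⁻¹ ∈ L := map_subtype_le _ h1
    rw [hL, Subgroup.mem_normalizer_iff] at h2
    refine ⟨_, (h2 x).mp hx, ?_⟩
    simp only [MulEquiv.coe_toMonoidHom, MulAut.conj_apply]
    group

theorem exists_fixed_in_coset (R₀ : Subgroup G) [R₀.Normal] (q : ℕ) [Fact q.Prime] (x y : G)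
    (hx : orderOf x = q) (hq : ¬ q ∣ Nat.card R₀)
    (hxy : Commute (QuotientGroup.mk' R₀ x) (QuotientGroup.mk' R₀ y)) :
    ∃ z, QuotientGroup.mk' R₀ z = QuotientGroup.mk' R₀ y ∧ x * z = z * x := by
  have hA : IsPGroup q (zpowers x) :=
    IsPGroup.of_card (n := 1) (by rw [Nat.card_zpowers, hx, pow_one])
  have hcomm : ∀ a : zpowers x, Commute (QuotientGroup.mk' R₀ (a : G)) (QuotientGroup.mk' R₀ y) := by
    rintro ⟨a, ha⟩
    obtain ⟨k, rfl⟩ := mem_zpowers_iff.mp ha
    change Commute (QuotientGroup.mk' R₀ (x ^ k)) _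
    rw [map_zpow]
    exact hxy.zpow_left k
  let Ω := {z : G // QuotientGroup.mk' R₀ z = QuotientGroup.mk' R₀ y}
  let act : MulAction (zpowers x) Ω :=
    { smul := fun a z => ⟨(a : G) * z.1 * (a : G)⁻¹, by
        rw [map_mul, map_mul, map_inv, z.2, (hcomm a).eq, mul_inv_cancel_right]⟩
      one_smul := fun z => Subtype.ext (by
        change ((1 : zpowers x) : G) * z.1 * ((1 : zpowers x) : G)⁻¹ = z.1
        simp)
      mul_smul := fun a b z => Subtype.ext (by
        change ((a * b : zpowers x) : G) * z.1 * ((a * b : zpowers x) : G)⁻¹ =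
          (a : G) * ((b : G) * z.1 * (b : G)⁻¹) * (a : G)⁻¹
        simp only [Subgroup.coe_mul]
        group) }
  have hcard : Nat.card Ω = Nat.card R₀ := by
    apply Nat.card_congr
    exact
      { toFun := fun z => ⟨y⁻¹ * z.1, by
          have := z.2
          rw [eq_comm] at this
          exact QuotientGroup.eq.mp this⟩
        invFun := fun t => ⟨y * t.1, by
          have h1 : QuotientGroup.mk' R₀ (t : G) = 1 := (QuotientGroup.eq_one_iff (N := R₀) t.1).mpr t.2
          rw [map_mul, h1, mul_one]⟩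
        left_inv := fun z => Subtype.ext (by simp)
        right_inv := fun t => Subtype.ext (by simp) }
  obtain ⟨z, hz⟩ := hA.nonempty_fixed_point_of_prime_not_dvd_card Ω (hcard ▸ hq)
  refine ⟨z.1, z.2, ?_⟩
  have h1 : (⟨x, mem_zpowers x⟩ : zpowers x) • z = z := hz _
  have h2 : x * z.1 * x⁻¹ = z.1 := congrArg Subtype.val h1
  calc x * z.1 = x * z.1 * x⁻¹ * x := by group
    _ = z.1 * x := by rw [h2]

theorem frob_quot (Y R₀ H : Subgroup G) [Y.Normal] [R₀.Normal]
    (hle : R₀ ≤ Y) (hne : R₀ ≠ Y) (hc : IsComplement' Y H) (hH : H ≠ ⊥)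
    (hcop : (Nat.card R₀).Coprime (Nat.card H))
    (hfix : ∀ h ∈ H, h ≠ 1 → ∀ y ∈ Y, h * y = y * h → y ∈ R₀) :
    IsFrobeniusComplement (H.map (QuotientGroup.mk' R₀)) ∧
      Nonempty (H ≃* H.map (QuotientGroup.mk' R₀)) := by
  have hdisj : ∀ x ∈ Y, x ∈ H → x = 1 := by
    intro x hx hxH
    have : x ∈ Y ⊓ H := ⟨hx, hxH⟩
    rwa [hc.disjoint.eq_bot, mem_bot] at this
  have hinj : ∀ h ∈ H, QuotientGroup.mk' R₀ h = 1 → h = 1 := by
    intro h hh h1
    exact hdisj h (hle ((QuotientGroup.eq_one_iff h).mp h1)) hh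
  have hYn : (Y.map (QuotientGroup.mk' R₀)).Normal :=
    Normal.map inferInstance _ (QuotientGroup.mk'_surjective R₀)
  have hcq : IsComplement' (Y.map (QuotientGroup.mk' R₀)) (H.map (QuotientGroup.mk' R₀)) := by
    apply isComplement'_of_disjoint_and_mul_eq_univ
    · rw [disjoint_iff, eq_bot_iff]
      rintro _ ⟨⟨y, hy, rfl⟩, ⟨h, hh, hyh⟩⟩
      have h1 : h⁻¹ * y ∈ R₀ := QuotientGroup.eq.mp hyh
      have h2 : h ∈ Y := by
        have : h = y * (h⁻¹ * y)⁻¹ := by group
        rw [this]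
        exact mul_mem hy (inv_mem (hle h1))
      rw [← hyh, hdisj h h2 hh, map_one]
      exact one_mem _
    · rw [Set.eq_univ_iff_forall]
      intro t
      obtain ⟨t, rfl⟩ := QuotientGroup.mk'_surjective R₀ t
      have h1 : t ∈ (Y : Set G) * (H : Set G) := by
        rw [hc.mul_eq]; trivial
      obtain ⟨y, hy, h, hh, rfl⟩ := h1
      exact ⟨_, ⟨y, hy, rfl⟩, _, ⟨h, hh, rfl⟩, (map_mul _ _ _).symm⟩
  have hYne : Y.map (QuotientGroup.mk' R₀) ≠ ⊥ := by
    intro h
    apply hne
    apply le_antisymm hle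
    intro y hy
    have : QuotientGroup.mk' R₀ y ∈ Y.map (QuotientGroup.mk' R₀) := ⟨y, hy, rfl⟩
    rw [h, mem_bot] at this
    exact (QuotientGroup.eq_one_iff y).mp this
  have hHne : H.map (QuotientGroup.mk' R₀) ≠ ⊥ := by
    intro h
    apply hH
    rw [eq_bot_iff]
    intro x hx
    have : QuotientGroup.mk' R₀ x ∈ H.map (QuotientGroup.mk' R₀) := ⟨x, hx, rfl⟩
    rw [h, mem_bot] at this
    exact hinj x hx this
  constructor
  · rw [Cfsg.Agent.S0039.result _ _ hcq hYne hHne]
    rintro _ ⟨h, hh, rfl⟩ hne1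
    rw [eq_bot_iff]
    rintro _ ⟨⟨y, hy, rfl⟩, hcen⟩
    replace hcen : QuotientGroup.mk' R₀ y ∈ centralizer {QuotientGroup.mk' R₀ h} := hcen
    rw [mem_centralizer_singleton_iff] at hcen
    have hh1 : h ≠ 1 := by
      rintro rfl
      exact hne1 (map_one _)
    have hord : orderOf h ≠ 1 := by
      rw [Ne, orderOf_eq_one_iff]; exact hh1
    obtain ⟨q, hqp, hqd⟩ := Nat.exists_prime_and_dvd hord
    haveI : Fact q.Prime := ⟨hqp⟩
    obtain ⟨k, hk⟩ := hqd
    have hkpos : 0 < k := by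
      rcases Nat.eq_zero_or_pos k with h0 | h0
      · rw [h0, mul_zero] at hk
        exact absurd hk (orderOf_pos h).ne'
      · exact h0
    have hx : orderOf (h ^ k) = q := by
      rw [orderOf_pow' h hkpos.ne', hk, Nat.gcd_eq_right (Dvd.intro_left q rfl),
        Nat.mul_div_cancel _ hkpos]
    have hqH : q ∣ Nat.card H := by
      have h1 : orderOf h ∣ Nat.card H := by
        have := orderOf_dvd_natCard (⟨h, hh⟩ : H)
        rwa [Subgroup.orderOf_mk] at this
      exact (Dvd.intro _ hk.symm).trans h1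
    have hq : ¬ q ∣ Nat.card R₀ := by
      intro hd
      have := Nat.dvd_gcd hd hqH
      rw [hcop] at this
      exact hqp.one_lt.ne' (Nat.dvd_one.mp this)
    have hcm : Commute (QuotientGroup.mk' R₀ (h ^ k)) (QuotientGroup.mk' R₀ y) := by
      rw [map_pow]
      exact Commute.pow_left hcen.symm k
    obtain ⟨z, hz1, hz2⟩ := exists_fixed_in_coset R₀ q (h ^ k) y hx hq hcm
    have hzY : z ∈ Y := by
      have h1 : y⁻¹ * z ∈ R₀ := QuotientGroup.eq.mp hz1.symm
      have : z = y * (y⁻¹ * z) := by group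
      rw [this]
      exact mul_mem hy (hle h1)
    have hx1 : h ^ k ≠ 1 := by
      intro h1
      rw [h1, orderOf_one] at hx
      exact hqp.one_lt.ne hx
    have hzR := hfix (h ^ k) (pow_mem hh k) hx1 z hzY hz2
    rw [mem_bot, ← hz1]
    exact (QuotientGroup.eq_one_iff z).mpr hzR
  · refine ⟨MulEquiv.ofBijective ((QuotientGroup.mk' R₀).subgroupMap H)
      ⟨?_, MonoidHom.subgroupMap_surjective _ _⟩⟩
    rw [injective_iff_map_eq_one]
    intro a ha
    have : QuotientGroup.mk' R₀ (a : G) = 1 := congrArg Subtype.val ha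
    exact Subtype.ext (hinj a a.2 this)

theorem frob_of_section (Y R₀ H : Subgroup G) (hle : R₀ ≤ Y) (hne : R₀ ≠ Y)
    (hHY : ∀ h ∈ H, ∀ y ∈ Y, h * y * h⁻¹ ∈ Y) (hHR : ∀ h ∈ H, ∀ y ∈ R₀, h * y * h⁻¹ ∈ R₀)
    (hYR : Y ≤ Subgroup.normalizer (R₀ : Set G)) (hdisj : ∀ x ∈ Y, x ∈ H → x = 1) (hH : H ≠ ⊥)
    (hcop : (Nat.card R₀).Coprime (Nat.card H))
    (hfix : ∀ h ∈ H, h ≠ 1 → ∀ y ∈ Y, h * y = y * h → y ∈ R₀) :
    ∃ (F : Type u) (_ : Group F) (_ : Finite F) (C : Subgroup F),
      IsFrobeniusComplement C ∧ Nonempty (H ≃* C) := by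
  have hYT : Y ≤ Y ⊔ H := le_sup_left
  have hHT : H ≤ Y ⊔ H := le_sup_right
  have hRT : R₀ ≤ Y ⊔ H := hle.trans hYT
  have hYn : (Y.subgroupOf (Y ⊔ H)).Normal :=
    (normal_subgroupOf_iff_le_normalizer hYT).mpr
      (sup_le le_normalizer (le_normalizer_of_conj H Y hHY))
  have hRn : (R₀.subgroupOf (Y ⊔ H)).Normal :=
    (normal_subgroupOf_iff_le_normalizer hRT).mpr
      (sup_le hYR (le_normalizer_of_conj H R₀ hHR))
  have hc : IsComplement' (Y.subgroupOf (Y ⊔ H)) (H.subgroupOf (Y ⊔ H)) := by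
    apply isComplement'_of_disjoint_and_mul_eq_univ
    · rw [disjoint_iff, eq_bot_iff]
      intro x hx
      exact Subtype.ext (hdisj x (mem_subgroupOf.mp hx.1) (mem_subgroupOf.mp hx.2))
    · rw [← normal_mul, ← subgroupOf_sup hYT hHT, subgroupOf_self]
      rfl
  have g1 : R₀.subgroupOf (Y ⊔ H) ≠ Y.subgroupOf (Y ⊔ H) := by
    intro h
    apply hne
    apply le_antisymm hle
    intro y hy
    have : (⟨y, hYT hy⟩ : (Y ⊔ H : Subgroup G)) ∈ Y.subgroupOf (Y ⊔ H) := mem_subgroupOf.mpr hy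
    rw [← h] at this
    exact mem_subgroupOf.mp this
  have g2 : H.subgroupOf (Y ⊔ H) ≠ ⊥ := by
    intro h
    apply hH
    rw [eq_bot_iff]
    intro x hx
    have : (⟨x, hHT hx⟩ : (Y ⊔ H : Subgroup G)) ∈ H.subgroupOf (Y ⊔ H) := mem_subgroupOf.mpr hx
    rw [h, mem_bot] at this
    exact congrArg Subtype.val this
  have g3 : (Nat.card (R₀.subgroupOf (Y ⊔ H))).Coprime (Nat.card (H.subgroupOf (Y ⊔ H))) := by
    rw [Nat.card_congr (subgroupOfEquivOfLe hRT).toEquiv,
      Nat.card_congr (subgroupOfEquivOfLe hHT).toEquiv]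
    exact hcop
  have g4 : ∀ h ∈ H.subgroupOf (Y ⊔ H), h ≠ 1 → ∀ y ∈ Y.subgroupOf (Y ⊔ H), h * y = y * h →
      y ∈ R₀.subgroupOf (Y ⊔ H) := by
    intro h hh hh1 y hy hhy
    exact mem_subgroupOf.mpr (hfix h (mem_subgroupOf.mp hh) (fun e => hh1 (Subtype.ext e)) y
      (mem_subgroupOf.mp hy) (congrArg Subtype.val hhy))
  obtain ⟨h1, ⟨e⟩⟩ := frob_quot (Y.subgroupOf (Y ⊔ H)) (R₀.subgroupOf (Y ⊔ H))
    (H.subgroupOf (Y ⊔ H)) (fun x hx => mem_subgroupOf.mpr (hle (mem_subgroupOf.mp hx))) g1 hc g2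
    g3 g4
  exact ⟨_, inferInstance, inferInstance, _, h1, ⟨(subgroupOfEquivOfLe hHT).symm.trans e⟩⟩

theorem part_two (H : Subgroup G) (hTI : Cfsg.IsTISubset (H : Set G))
    (hHall : (Nat.card H).Coprime (H.subgroupOf (Subgroup.normalizer (H : Set G))).index)
    (hnn : ¬ H.Normal) (K : Subgroup G) (D : KData H K) :
    ∃ (F : Type u) (_ : Group F) (_ : Finite F) (C : Subgroup F),
      IsFrobeniusComplement C ∧ Nonempty (H ≃* C) := by
  obtain ⟨M, hMn, hMc, hMK, hMcard⟩ := exists_M H K hTI hHall D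
  have hHallG := hall_in_G H hTI hHall
  have hcop : (Nat.card M).Coprime (Nat.card H) := by
    rw [hMc.index_eq_card] at hHallG
    exact hHallG.symm
  have hconj : ∀ H₂ : Subgroup G, Nat.card H₂ = Nat.card H →
      ∃ g : G, H₂ = H.map (MulAut.conj g).toMonoidHom := by
    intro H₂ h2
    obtain ⟨g, hg⟩ := Cfsg.Agent.S4116.result H hHallG hTI H₂ (fun q _ hd => by rwa [h2] at hd)
    refine ⟨g, eq_of_le_of_card_ge hg ?_⟩
    rw [card_map_of_injective (MulAut.conj g).injective, h2]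
  have hidx : (Subgroup.normalizer (H : Set G)).index ≠ 1 := by
    intro h
    rw [Subgroup.index_eq_one] at h
    exact hnn (Subgroup.normalizer_eq_top_iff.mp h)
  obtain ⟨r, hr, hrd⟩ := Nat.exists_prime_and_dvd hidx
  haveI : Fact r.Prime := ⟨hr⟩
  obtain ⟨R, hRM, hRp, hRc, hRH⟩ := exists_invariant_sylow H M hMc hcop hconj r
  have hRK : ¬ R ≤ K := by
    intro hle
    have h1 : Nat.card R ∣ Nat.card K := Subgroup.card_dvd_of_le hle
    have h2 : r ^ ((Nat.card M).factorization r + 1) ∣ Nat.card M := by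
      rw [pow_succ, ← hRc]
      conv_rhs => rw [hMcard]
      exact Nat.mul_dvd_mul h1 hrd
    exact Nat.pow_succ_factorization_not_dvd Nat.card_pos.ne' hr h2
  have hne : R ⊓ K ≠ R := by
    intro h
    exact hRK (h ▸ inf_le_right)
  obtain ⟨y₀, hy₀R, hy₀N, hy₀⟩ := exists_normalizing_not_mem r R (R ⊓ K) hRp inf_le_left hne
  have hHR : ∀ h ∈ H, ∀ y ∈ R ⊓ K, h * y * h⁻¹ ∈ R ⊓ K := by
    intro h hh y hy
    have : h * y * h⁻¹ = y := by
      rw [← D.comm y hy.2 h hh, mul_inv_cancel_right]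
    rw [this]; exact hy
  have hH1 : H ≠ ⊥ := by
    intro h
    apply hnn
    rw [h]
    infer_instance
  apply frob_of_section (R ⊓ Subgroup.normalizer ((R ⊓ K : Subgroup G) : Set G)) (R ⊓ K) H
    (le_inf inf_le_left le_normalizer)
  · intro h
    apply hy₀
    rw [h]
    exact ⟨hy₀R, hy₀N⟩
  · intro h hh y hy
    refine ⟨hRH h hh y hy.1, ?_⟩
    have h1 := le_normalizer_of_conj H (R ⊓ K) hHR hh
    exact (Subgroup.normalizer ((R ⊓ K : Subgroup G) : Set G)).mul_mem
      ((Subgroup.normalizer ((R ⊓ K : Subgroup G) : Set G)).mul_mem h1 hy.2)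
      ((Subgroup.normalizer ((R ⊓ K : Subgroup G) : Set G)).inv_mem h1)
  · exact hHR
  · exact inf_le_right
  · intro x hx hxH
    have : x ∈ M ⊓ H := ⟨hRM hx.1, hxH⟩
    rwa [hMc.disjoint.eq_bot, mem_bot] at this
  · exact hH1
  · exact Nat.Coprime.coprime_dvd_left (Subgroup.card_dvd_of_le (inf_le_left.trans hRM)) hcop
  · intro h hh hh1 y hy hhy
    refine ⟨hy.1, hMK y (hRM hy.1) ?_⟩
    by_contra hyN
    apply hh1
    apply hTI y hyN h hh
    rw [← hhy, mul_inv_cancel_right]
    exact hh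

end basics

/-- Let G be a finite group and H a subgroup that meets each of its conjugates by elements outside N_G(H) trivially and whose order is coprime to its index in N_G(H). Then H has a normal complement in N_G(H) if and only if H has a normal complement in G. Moreover, if H is not normal in G and has a normal complement in N_G(H), then H is isomorphic to a Frobenius complement of some finite Frobenius group. -/
theorem result {G : Type u} [Group G] [Finite G] (H : Subgroup G)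
    (hTI : Cfsg.IsTISubset (H : Set G)) (hHall : (Nat.card H).Coprime (H.subgroupOf (Subgroup.normalizer (H : Set G))).index) :
    ((∃ K : Subgroup (Subgroup.normalizer (H : Set G)), K.Normal ∧ K.IsComplement' (H.subgroupOf (Subgroup.normalizer (H : Set G)))) ↔
      (∃ N : Subgroup G, N.Normal ∧ N.IsComplement' H)) ∧
    (¬ H.Normal → (∃ K : Subgroup (Subgroup.normalizer (H : Set G)), K.Normal ∧ K.IsComplement' (H.subgroupOf (Subgroup.normalizer (H : Set G)))) →
      ∃ (F : Type u) (_ : Group F) (_ : Finite F) (C : Subgroup F), Cfsg.IsFrobeniusComplement C ∧ Nonempty (H ≃* C)) := by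
  refine ⟨⟨?_, ?_⟩, ?_⟩
  · rintro ⟨K, hKn, hc⟩
    obtain ⟨M, hMn, hMc, -, -⟩ := exists_M H _ hTI hHall (kdata_of_complement H K hKn hc)
    exact ⟨M, hMn, hMc⟩
  · rintro ⟨M, hMn, hMc⟩
    exact complement_in_normalizer H M hMn hMc
  · rintro hnn ⟨K, hKn, hc⟩
    exact part_two H hTI hHall hnn _ (kdata_of_complement H K hKn hc)

end Cfsg.Agent.S4115
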