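import Cfsg.Statements.S4117
import Cfsg.Agent.Lib.Helper98MetaA

set_option autoImplicit false
set_option linter.unusedSectionVars false
open Cfsg

namespace Cfsg.Agent.S4117

open Subgroup
open scoped Pointwise

section Abstract

variable {A M : Type*} [Group A] [Finite A] [Group M] [Finite M] [MulDistribMulAction A M]

theorem h1_vanish (hcomm : ∀ x y : M, x * y = y * x) (hcop : (Nat.card A).Coprime (Nat.card M))
    (c : A → M) (hc : ∀ a b, c (a * b) = c a * a • c b) : ∃ x : M, ∀ a, c a * a • x = x := by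
  classical
  let _ : CommGroup M := { ‹Group M› with mul_comm := hcomm }
  have := Fintype.ofFinite A
  set s : M := ∏ b : A, c b with hs
  have key : ∀ a : A, s = (c a) ^ (Nat.card A) * a • s := by
    intro a
    calc s = ∏ b : A, c (a * b) := by
            rw [hs]
            exact (Fintype.prod_equiv (Equiv.mulLeft a) (fun b => c (a * b)) c (fun b => rfl)).symm
      _ = ∏ b : A, (c a * a • c b) := Finset.prod_congr rfl (fun b _ => hc a b)
      _ = (c a) ^ (Nat.card A) * a • s := by
            rw [Finset.prod_mul_distrib, Finset.prod_const, Finset.card_univ,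
              ← Nat.card_eq_fintype_card, hs]
            congr 1
            exact (map_prod (MulDistribMulAction.toMonoidHom M a) _ _).symm
  refine ⟨(powCoprime hcop.symm).symm s, fun a => ?_⟩
  apply (powCoprime hcop.symm).injective
  show (c a * a • (powCoprime hcop.symm).symm s) ^ Nat.card A =
    ((powCoprime hcop.symm).symm s) ^ Nat.card A
  have h1 : ((powCoprime hcop.symm).symm s) ^ Nat.card A = s :=
    (powCoprime hcop.symm).apply_symm_apply s
  rw [mul_pow, ← smul_pow', h1]
  exact (key a).symm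

theorem fixed_trivial (hcomm : ∀ x y : M, x * y = y * x)
    (hcop : (Nat.card A).Coprime (Nat.card M))
    (hgen : Subgroup.closure {y : M | ∃ (a : A) (w : M), y = w⁻¹ * a • w} = ⊤)
    (u : M) (hu : ∀ a : A, a • u = u) : u = 1 := by
  classical
  let _ : CommGroup M := { ‹Group M› with mul_comm := hcomm }
  have := Fintype.ofFinite A
  let τ : M →* M := ∏ a : A, MulDistribMulAction.toMonoidHom M a
  have hτ : ∀ x, τ x = ∏ a : A, a • x := fun x => by
    simp [τ]
  have hinv : ∀ (b : A) x, τ (b • x) = τ x := by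
    intro b x
    rw [hτ, hτ]
    exact Fintype.prod_equiv (Equiv.mulRight b) _ _ (fun a => by simp [mul_smul])
  have hker : τ.ker = ⊤ := by
    rw [eq_top_iff, ← hgen, closure_le]
    rintro _ ⟨a, w, rfl⟩
    rw [SetLike.mem_coe, MonoidHom.mem_ker, map_mul, map_inv, hinv, inv_mul_cancel]
  have h1 : τ u = 1 := by
    have : u ∈ τ.ker := hker ▸ mem_top u
    exact this
  rw [hτ] at h1
  simp only [hu, Finset.prod_const, Finset.card_univ] at h1
  rw [← Nat.card_eq_fintype_card] at h1
  apply (powCoprime hcop.symm).injective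
  show u ^ Nat.card A = 1 ^ Nat.card A
  rw [h1, one_pow]

end Abstract

variable {G A : Type*} [Group G] [Group A] [MulDistribMulAction A G]

variable (A G) in
/-- the subgroup `[G, A]` -/
abbrev comm : Subgroup G := Subgroup.closure {y : G | ∃ (a : A) (g : G), y = g⁻¹ * a • g}

theorem gen_mem (a : A) (g : G) : g⁻¹ * a • g ∈ comm G A := subset_closure ⟨a, g, rfl⟩

theorem comm_normal : (comm G A).Normal := by
  constructor
  intro n hn h
  induction hn using closure_induction with
  | mem x hx =>
    obtain ⟨a, g, rfl⟩ := hx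
    have e : h * (g⁻¹ * a • g) * h⁻¹ =
        ((g * h⁻¹)⁻¹ * a • (g * h⁻¹)) * ((h⁻¹)⁻¹ * a • h⁻¹)⁻¹ := by
      rw [smul_mul']; group
    rw [e]
    exact mul_mem (gen_mem _ _) (inv_mem (gen_mem _ _))
  | one => simp
  | mul x y _ _ hx hy =>
    have e : h * (x * y) * h⁻¹ = (h * x * h⁻¹) * (h * y * h⁻¹) := by group
    rw [e]; exact mul_mem hx hy
  | inv x _ hx =>
    have e : h * x⁻¹ * h⁻¹ = (h * x * h⁻¹)⁻¹ := by group
    rw [e]; exact inv_mem hx

theorem smul_mem_comm (b : A) (x : G) (hx : x ∈ comm G A) : b • x ∈ comm G A := by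
  induction hx using closure_induction with
  | mem x hx =>
    obtain ⟨a, g, rfl⟩ := hx
    have e : b • (g⁻¹ * a • g) = (b • g)⁻¹ * (b * a * b⁻¹) • (b • g) := by
      rw [smul_mul', smul_inv']
      congr 1
      simp [← mul_smul]
    rw [e]
    exact gen_mem _ _
  | one => simp
  | mul x y _ _ hx hy => rw [smul_mul']; exact mul_mem hx hy
  | inv x _ hx => rw [smul_inv']; exact inv_mem hx

/-- the induced action on an invariant subgroup -/
@[reducible] def actOn (X : Subgroup G) (hX : ∀ (a : A), ∀ x ∈ X, a • x ∈ X) : MulDistribMulAction A X where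
  smul a x := ⟨a • (x : G), hX a x x.2⟩
  one_smul x := Subtype.ext (one_smul A (x : G))
  mul_smul a b x := Subtype.ext (mul_smul a b (x : G))
  smul_mul a x y := Subtype.ext (smul_mul' a (x : G) y)
  smul_one a := Subtype.ext (smul_one a)

theorem comm_le_centralizer [Finite G] [IsZGroup G] :
    comm G A ≤ centralizer (commutator G : Set G) := by
  have hK : IsCyclic (commutator G) := IsZGroup.isCyclic_commutator G
  obtain ⟨y₀, hy₀⟩ := hK.exists_generator
  have hpow : ∀ g : G, ∃ i : ℤ, ∀ k ∈ commutator G, g * k * g⁻¹ = k ^ i := by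
    intro g
    have h1 : g * y₀ * g⁻¹ ∈ commutator G :=
      (inferInstance : (commutator G).Normal).conj_mem _ y₀.2 g
    obtain ⟨i, hi⟩ := mem_zpowers_iff.1 (hy₀ ⟨_, h1⟩)
    have hi' : (y₀ : G) ^ i = g * y₀ * g⁻¹ := by simpa using congrArg Subtype.val hi
    refine ⟨i, fun k hk => ?_⟩
    obtain ⟨t, ht⟩ := mem_zpowers_iff.1 (hy₀ ⟨k, hk⟩)
    have ht' : (y₀ : G) ^ t = k := by simpa using congrArg Subtype.val ht
    rw [← ht', ← conj_zpow, ← hi', ← zpow_mul, ← zpow_mul, mul_comm]
  have hKinv : ∀ (a : A) (k : G), k ∈ commutator G → a • k ∈ commutator G := by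
    intro a k hk
    have h := (inferInstance : (commutator G).Characteristic).fixed
      (MulDistribMulAction.toMulEquiv G a)
    rw [← h] at hk
    exact hk
  rw [closure_le]
  rintro _ ⟨a, g, rfl⟩
  rw [SetLike.mem_coe, mem_centralizer_iff]
  intro k hk
  obtain ⟨i, hi⟩ := hpow g
  have h1 : (a • g) * k * (a • g)⁻¹ = g * k * g⁻¹ := by
    have hk' : a⁻¹ • k ∈ commutator G := hKinv a⁻¹ k hk
    have h2 := hi _ hk'
    have h3 := congrArg (fun z => a • z) h2
    have h4 : a • ((a⁻¹ • k) ^ i) = k ^ i := by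
      rw [show a • ((a⁻¹ • k) ^ i) = (a • (a⁻¹ • k)) ^ i from
        map_zpow (MulDistribMulAction.toMonoidHom G a) _ i, smul_inv_smul]
    simp only [smul_mul', smul_inv', smul_inv_smul] at h3
    rw [h3, h4, hi k hk]
  have h4 : (a • g) * k = g * k * g⁻¹ * (a • g) := by rw [← h1]; group
  calc k * (g⁻¹ * a • g) = g⁻¹ * (g * k * g⁻¹ * (a • g)) := by group
    _ = g⁻¹ * ((a • g) * k) := by rw [h4]
    _ = g⁻¹ * a • g * k := by group

open scoped IsMulCommutative in
theorem isCyclic_centralizer [Finite G] [IsZGroup G] :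
    IsCyclic (centralizer (commutator G : Set G)) := by
  have hcomm : IsMulCommutative (centralizer (commutator G : Set G)) := by
    apply MonoidHom.isMulCommutative_of_isCyclic_of_ker_le_center
      ((Abelianization.of).comp (centralizer (commutator G : Set G)).subtype)
    intro x hx
    rw [MonoidHom.mem_ker, MonoidHom.comp_apply, ← MonoidHom.mem_ker, Abelianization.ker_of] at hx
    rw [mem_center_iff]
    intro z
    apply Subtype.ext
    exact (mem_centralizer_iff.1 z.2 x hx).symm
  infer_instance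

theorem isCyclic_comm [Finite G] [IsZGroup G] : IsCyclic (comm G A) := by
  have := isCyclic_centralizer (G := G)
  exact isCyclic_of_surjective _
    (subgroupOfEquivOfLe (comm_le_centralizer (A := A) (G := G))).surjective

theorem exists_fixed [Finite G] [Finite A] [IsZGroup G]
    (hcop : (Nat.card A).Coprime (Nat.card G)) (g : G) :
    ∃ x ∈ comm G A, ∀ a : A, a • (g * x) = g * x := by
  have hcyc : IsCyclic (comm G A) := isCyclic_comm
  let _ := actOn (comm G A) smul_mem_comm
  have hcomm : ∀ x y : comm G A, x * y = y * x := fun x y => IsMulCommutative.is_comm.comm x y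
  obtain ⟨x, hx⟩ := h1_vanish (A := A) (M := comm G A) hcomm
    (hcop.coprime_dvd_right (card_subgroup_dvd_card _))
    (fun a => ⟨g⁻¹ * a • g, gen_mem a g⟩) (by
      intro a b
      apply Subtype.ext
      show g⁻¹ * (a * b) • g = g⁻¹ * a • g * a • (g⁻¹ * b • g)
      rw [smul_mul', smul_inv', mul_smul]; group)
  refine ⟨x, x.2, fun a => ?_⟩
  have h : g⁻¹ * a • g * a • (x : G) = x := congrArg Subtype.val (hx a)
  rw [smul_mul']
  calc a • g * a • (x : G) = g * (g⁻¹ * a • g * a • (x : G)) := by group
    _ = g * x := by rw [h]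

theorem inter_trivial [Finite G] [Finite A] [IsZGroup G]
    (hcop : (Nat.card A).Coprime (Nat.card G)) (u : G) (hu : u ∈ comm G A)
    (hfix : ∀ a : A, a • u = u) : u = 1 := by
  have hcyc : IsCyclic (comm G A) := isCyclic_comm
  let _ := actOn (comm G A) smul_mem_comm
  have hcomm : ∀ x y : comm G A, x * y = y * x := fun x y => IsMulCommutative.is_comm.comm x y
  have hgen : Subgroup.closure {y : comm G A | ∃ (a : A) (w : comm G A), y = w⁻¹ * a • w} = ⊤ := by
    have hle : comm G A ≤ (Subgroup.closure
        {y : comm G A | ∃ (a : A) (w : comm G A), y = w⁻¹ * a • w}).map (comm G A).subtype := by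
      rw [closure_le]
      rintro _ ⟨a, g, rfl⟩
      obtain ⟨x, hx, hxf⟩ := exists_fixed hcop g
      have e : g⁻¹ * a • g = (x⁻¹)⁻¹ * a • x⁻¹ := by
        have h1 := hxf a
        rw [smul_mul'] at h1
        have h2 : a • g = g * x * (a • x)⁻¹ := by rw [← h1]; group
        rw [h2, smul_inv']; group
      rw [e]
      refine ⟨(⟨x⁻¹, inv_mem hx⟩ : comm G A)⁻¹ * a • (⟨x⁻¹, inv_mem hx⟩ : comm G A),
        subset_closure ⟨a, _, rfl⟩, rfl⟩
    rw [eq_top_iff]
    intro w _
    obtain ⟨t, ht, htw⟩ := hle w.2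
    have : t = w := Subtype.ext htw
    rw [← this]; exact ht
  have := fixed_trivial (A := A) (M := comm G A) hcomm
    (hcop.coprime_dvd_right (card_subgroup_dvd_card _)) hgen ⟨u, hu⟩
    (fun a => Subtype.ext (hfix a))
  exact congrArg Subtype.val this

/-- Let A be a finite group acting on the finite group G by automorphisms with the orders of A and G coprime, and suppose every Sylow subgroup of G is cyclic. Then the fixed-point subgroup C_G(A) is a Hall subgroup of G (its order is coprime to its index), the subgroup [G, A] generated by the elements g⁻¹·a(g) is cyclic and normal with [G, A] ∩ C_G(A) = 1 and [G, A]·C_G(A) = G. -/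
theorem result {G A : Type*} [Group G] [Finite G] [Group A] [Finite A]
    [MulDistribMulAction A G] (hcop : (Nat.card A).Coprime (Nat.card G))
    (hcyc : ∀ (p : ℕ) [Fact p.Prime] (P : Sylow p G), IsCyclic (P : Subgroup G)) :
    (Nat.card (MulAction.fixedPoints A G : Set G)).Coprime (Nat.card G / Nat.card (MulAction.fixedPoints A G : Set G)) ∧
    IsCyclic (Subgroup.closure {y : G | ∃ (a : A) (g : G), y = g⁻¹ * a • g}) ∧
    (Subgroup.closure {y : G | ∃ (a : A) (g : G), y = g⁻¹ * a • g}).Normal ∧
    (Subgroup.closure {y : G | ∃ (a : A) (g : G), y = g⁻¹ * a • g} : Set G) ∩ MulAction.fixedPoints A G = {1} ∧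
    Subgroup.closure {y : G | ∃ (a : A) (g : G), y = g⁻¹ * a • g} ⊔ Subgroup.closure (MulAction.fixedPoints A G) = ⊤ := by
  have hG : IsZGroup G := ⟨fun p hp P => by
    have : Fact p.Prime := ⟨hp⟩
    exact hcyc p P⟩
  have hn : (comm G A).Normal := comm_normal
  have hdisj : Disjoint (comm G A) (FixedPoints.subgroup A G) := by
    rw [disjoint_def]
    intro u hu hf
    exact inter_trivial hcop u hu hf
  have hmul : ((comm G A : Subgroup G) : Set G) * (FixedPoints.subgroup A G : Set G) = Set.univ := by
    rw [Set.eq_univ_iff_forall]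
    intro g
    obtain ⟨x, hx, hxf⟩ := exists_fixed hcop g
    refine ⟨g * x⁻¹ * g⁻¹, hn.conj_mem _ (inv_mem hx) g, g * x, hxf, by group⟩
  have hcompl : (comm G A).IsComplement' (FixedPoints.subgroup A G) :=
    isComplement'_of_disjoint_and_mul_eq_univ hdisj hmul
  have hcard := hcompl.card_mul_card
  refine ⟨?_, isCyclic_comm, hn, ?_, ?_⟩
  · have h1 : Nat.card (MulAction.fixedPoints A G : Set G) = Nat.card (FixedPoints.subgroup A G) := rfl
    rw [h1, ← hcard, Nat.mul_div_cancel _ Nat.card_pos]
    apply Nat.coprime_of_dvd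
    intro p hp hpC hpX
    have : Fact p.Prime := ⟨hp⟩
    obtain ⟨c, hc⟩ := exists_prime_orderOf_dvd_card' p hpC
    obtain ⟨x, hx⟩ := exists_prime_orderOf_dvd_card' p hpX
    have hc' : orderOf (c : G) = p := by rw [Subgroup.orderOf_coe]; exact hc
    have hx' : orderOf (x : G) = p := by rw [Subgroup.orderOf_coe]; exact hx
    have hPc : IsPGroup p (zpowers (c : G)) := by
      apply IsPGroup.of_card (n := 1); rw [Nat.card_zpowers, hc', pow_one]
    have hPx : IsPGroup p (zpowers (x : G)) := by
      apply IsPGroup.of_card (n := 1); rw [Nat.card_zpowers, hx', pow_one]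
    obtain ⟨P, hP⟩ := hPc.exists_le_sylow
    obtain ⟨Q, hQ⟩ := hPx.exists_le_sylow
    obtain ⟨h, hh⟩ := MulAction.exists_smul_eq G Q P
    have hxP : h * x * h⁻¹ ∈ (P : Subgroup G) := by
      rw [← hh, Sylow.coe_subgroup_smul]
      exact Subgroup.smul_mem_pointwise_smul _ (MulAut.conj h) _ (hQ (mem_zpowers _))
    have hcP : (c : G) ∈ (P : Subgroup G) := hP (mem_zpowers _)
    have := hcyc p P
    have hmem : (c : G) ∈ zpowers (h * x * h⁻¹) := by
      apply Cfsg.Agent.Lib.Helper98MetaA.mem_zpowers_of_pow_eq_one (P : Subgroup G) hxP hcP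
      have : orderOf (h * x * h⁻¹) = p := by
        have e : h * x * h⁻¹ = MulAut.conj h (x : G) := rfl
        rw [e, MulEquiv.orderOf_eq, hx']
      rw [this, ← hc', pow_orderOf_eq_one]
    have hcX : (c : G) ∈ comm G A :=
      (zpowers_le.2 (hn.conj_mem _ x.2 h)) hmem
    have hc1 := inter_trivial hcop (c : G) hcX c.2
    rw [hc1, orderOf_one] at hc'
    exact hp.one_lt.ne hc'
  · ext u
    constructor
    · rintro ⟨hu, hf⟩
      exact inter_trivial hcop u hu hf
    · rintro rfl
      exact ⟨one_mem _, fun a => smul_one a⟩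
  · rw [eq_top_iff]
    intro g _
    obtain ⟨x, hx, hxf⟩ := exists_fixed hcop g
    have e : g = (g * x⁻¹ * g⁻¹) * (g * x) := by group
    rw [e]
    exact mul_mem (mem_sup_left (hn.conj_mem _ (inv_mem hx) g))
      (mem_sup_right (subset_closure hxf))

end Cfsg.Agent.S4117
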