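import Cfsg.Statements.S4130
import Cfsg.Agent.Lib.Helper72SqFree2
-- import your own Cfsg.Agent.* helpers here

set_option autoImplicit false
open Cfsg

namespace Cfsg.Agent.S4130

open Cfsg.Agent.Lib.Helper72SqFree2 Cfsg.Agent.Lib.Helper11Supersolvable
open scoped commutatorElement

theorem comm_mem {G : Type*} [Group G] (a b : G) : a * b * a⁻¹ * b⁻¹ ∈ commutator G := by
  rw [commutator_def]
  exact Subgroup.commutator_mem_commutator (Subgroup.mem_top a) (Subgroup.mem_top b)

/-- subgroups above the derived subgroup are normal -/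
theorem normal_of_commutator_le {G : Type*} [Group G] (A : Subgroup G) (h : commutator G ≤ A) :
    A.Normal := by
  refine ⟨fun a ha g => ?_⟩
  have h1 : g * a * g⁻¹ * a⁻¹ ∈ A := h (comm_mem g a)
  have h2 : g * a * g⁻¹ = (g * a * g⁻¹ * a⁻¹) * a := by group
  rw [h2]; exact A.mul_mem h1 ha

theorem chain_top_of_commutator_le {G : Type*} [Group G] [Finite G] (A : Subgroup G)
    (hA : Chain A) (h : commutator G ≤ A) : Chain (⊤ : Subgroup G) := by
  induction A using WellFoundedGT.induction with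
  | ind A ih =>
    by_cases htop : A = ⊤
    · exact htop ▸ hA
    · obtain ⟨g, hg⟩ : ∃ g, g ∉ A := by
        by_contra hcon
        push_neg at hcon
        exact htop (eq_top_iff.mpr fun x _ => hcon x)
      have hlt : A < A ⊔ Subgroup.zpowers g :=
        lt_of_le_of_ne le_sup_left (fun heq => hg (heq ▸ Subgroup.mem_sup_right
          (Subgroup.mem_zpowers g)))
      exact ih _ hlt (Chain.step A g hA (normal_of_commutator_le _ (h.trans le_sup_left)))
        (h.trans le_sup_left)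

theorem ucs_two_eq_top {G : Type*} [Group G] (F : Subgroup G)
    (h : ∀ a ∈ F, ∀ b ∈ F, ∀ g ∈ F, g * (a * b * a⁻¹ * b⁻¹) = (a * b * a⁻¹ * b⁻¹) * g) :
    Subgroup.upperCentralSeries F 2 = ⊤ := by
  rw [eq_top_iff]
  intro x _
  rw [show (2 : ℕ) = 1 + 1 from rfl, Subgroup.mem_upperCentralSeries_succ_iff]
  intro y
  rw [Subgroup.upperCentralSeries_one, Subgroup.mem_center_iff]
  intro g
  apply Subtype.ext
  exact h x x.2 y y.2 g g.2

theorem isCyclic_quotient {G : Type*} [Group G] [Finite G] (F : Subgroup G) [F.Normal]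
    (hDF : commutator G ≤ F) (hidx : Squarefree F.index) : IsCyclic (G ⧸ F) := by
  haveI : IsZGroup (G ⧸ F) := IsZGroup.of_squarefree hidx
  have hcomm : ∀ a b : G ⧸ F, a * b = b * a := by
    intro a b
    obtain ⟨x, rfl⟩ := QuotientGroup.mk_surjective a
    obtain ⟨y, rfl⟩ := QuotientGroup.mk_surjective b
    have h1 : x * y * x⁻¹ * y⁻¹ ∈ F := hDF (comm_mem x y)
    have h2 : ((x * y * x⁻¹ * y⁻¹ : G) : G ⧸ F) = 1 := (QuotientGroup.eq_one_iff _).mpr h1
    simp only [QuotientGroup.mk_mul, QuotientGroup.mk_inv] at h2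
    calc (x : G ⧸ F) * (y : G ⧸ F)
        = ((x : G ⧸ F) * (y : G ⧸ F) * (x : G ⧸ F)⁻¹ * (y : G ⧸ F)⁻¹) *
          ((y : G ⧸ F) * (x : G ⧸ F)) := by group
      _ = (y : G ⧸ F) * (x : G ⧸ F) := by rw [h2, one_mul]
  haveI : Group.IsNilpotent (G ⧸ F) := by
    letI : CommGroup (G ⧸ F) := { (inferInstance : Group (G ⧸ F)) with mul_comm := hcomm }
    infer_instance
  infer_instance

/-- a normal nilpotent subgroup centralises a normal cyclic subgroup of square-free order -/
theorem commute_of_nilpotent {G : Type*} [Group G] [Finite G] (c : G)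
    (hn : (Subgroup.zpowers c).Normal) (hsq : Squarefree (orderOf c)) (N : Subgroup G) [N.Normal]
    (hN : Group.IsNilpotent N) (f : G) (hf : f ∈ N) : f * c = c * f := by
  have h1 : f * c * f⁻¹ * c⁻¹ ∈ Subgroup.zpowers c :=
    Subgroup.mul_mem _ (hn.conj_mem c (Subgroup.mem_zpowers c) f)
      (Subgroup.inv_mem _ (Subgroup.mem_zpowers c))
  obtain ⟨t, ht⟩ := (mem_powers_iff_mem_zpowers).mpr h1
  have ht' : c ^ t = f * c * f⁻¹ * c⁻¹ := ht
  have hconj : ∀ i : ℕ, f * c ^ i * f⁻¹ = (c ^ i) ^ (t + 1) := by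
    intro i
    have h2 : f * c * f⁻¹ = c ^ (t + 1) := by
      rw [pow_succ, ht']; group
    rw [← conj_pow, h2, ← pow_mul, ← pow_mul, mul_comm]
  obtain ⟨n, hn'⟩ := (Subgroup.isNilpotent_iff_lowerCentralSeries N).mp hN
  have key : ∀ j : ℕ, c ^ t ^ (j + 1) ∈ N.lowerCentralSeries j := by
    intro j
    induction j with
    | zero =>
      rw [zero_add, pow_one, ht', Subgroup.lowerCentralSeries_zero]
      have : f * c * f⁻¹ * c⁻¹ = f * (c * f⁻¹ * c⁻¹) := by group
      rw [this]
      exact N.mul_mem hf (‹N.Normal›.conj_mem _ (N.inv_mem hf) c)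
    | succ j ih =>
      rw [Subgroup.lowerCentralSeries_succ]
      have h3 := Subgroup.commutator_mem_commutator ih hf
      have h4 : ⁅c ^ t ^ (j + 1), f⁆ = (c ^ t ^ (j + 1 + 1))⁻¹ := by
        rw [commutatorElement_def]
        have h5 : c ^ t ^ (j + 1) * f * (c ^ t ^ (j + 1))⁻¹ * f⁻¹ =
            c ^ t ^ (j + 1) * (f * c ^ t ^ (j + 1) * f⁻¹)⁻¹ := by group
        rw [h5, hconj, pow_succ (c ^ t ^ (j + 1)) t, mul_inv_rev, mul_inv_cancel_left, ← pow_mul,
          ← pow_succ]
      rw [h4] at h3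
      exact (Subgroup.inv_mem_iff _).mp h3
  have h6 := key n
  rw [hn', Subgroup.mem_bot] at h6
  have h7 : orderOf c ∣ t := (hsq.dvd_pow_iff_dvd (Nat.succ_ne_zero n)).mp
    (orderOf_dvd_of_pow_eq_one h6)
  have h8 : c ^ t = 1 := orderOf_dvd_iff_pow_eq_one.mp h7
  rw [h8] at ht'
  calc f * c = (f * c * f⁻¹ * c⁻¹) * (c * f) := by group
    _ = c * f := by rw [← ht', one_mul]

/-- Let G be a finite group all of whose conjugacy class sizes are square-free. Then G is supersolvable, G/F(G) and the derived subgroup G′ are cyclic of square-free order (F(G) the Fitting subgroup, which is normal), F(G) has nilpotency class at most 2, and G is metabelian. -/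
theorem result {G : Type*} [Group G] [Finite G]
    (h : ∀ x : G, Squarefree (Subgroup.centralizer ({x} : Set G)).index) :
    Cfsg.IsSupersolvable G ∧ (Cfsg.fittingSubgroup G).Normal ∧
    (∀ _h : (Cfsg.fittingSubgroup G).Normal, IsCyclic (G ⧸ Cfsg.fittingSubgroup G) ∧ Squarefree (Cfsg.fittingSubgroup G).index) ∧
    IsCyclic (commutator G) ∧ Squarefree (Nat.card (commutator G)) ∧
    Subgroup.upperCentralSeries ↥(Cfsg.fittingSubgroup G) 2 = ⊤ ∧ commutator ↥(commutator G) = ⊥ := by
  obtain ⟨hcyc, hsq⟩ := commutator_cyclic_squarefree _ G rfl h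
  obtain ⟨c, hc⟩ := (Subgroup.isCyclic_iff_exists_zpowers_eq_top _).mp hcyc
  have hcn : (Subgroup.zpowers c).Normal := hc ▸ inferInstance
  have hcsq : Squarefree (orderOf c) := by rw [← Nat.card_zpowers, hc]; exact hsq
  set C := Subgroup.centralizer ({c} : Set G) with hC
  have hCmem : ∀ x, x ∈ C ↔ x * c = c * x := fun x => Subgroup.mem_centralizer_singleton_iff
  have hCD : ∀ x ∈ C, ∀ d ∈ commutator G, x * d = d * x := by
    intro x hx d hd
    rw [← hc] at hd
    obtain ⟨i, rfl⟩ := Subgroup.mem_zpowers_iff.mp hd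
    exact ((show Commute x c from (hCmem x).mp hx).zpow_right i).eq
  have hDC : commutator G ≤ C := by
    intro d hd
    rw [← hc] at hd
    obtain ⟨i, rfl⟩ := Subgroup.mem_zpowers_iff.mp hd
    rw [hCmem]
    exact ((Commute.refl c).zpow_left i).eq
  have hCn : C.Normal := normal_of_commutator_le C hDC
  have hcommD : ∀ a b : G, a * b * a⁻¹ * b⁻¹ ∈ commutator G := comm_mem
  have hCucs : Subgroup.upperCentralSeries C 2 = ⊤ :=
    ucs_two_eq_top C fun a _ b _ g hg => hCD g hg _ (hcommD a b)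
  have hCnil : Group.IsNilpotent C := ⟨⟨2, hCucs⟩⟩
  have hF : Cfsg.fittingSubgroup G = C := by
    apply le_antisymm
    · apply sSup_le
      rintro N ⟨hNn, hNnil⟩
      intro f hf
      rw [hCmem]
      haveI := hNn
      exact commute_of_nilpotent c hcn hcsq N hNnil f hf
    · exact le_sSup ⟨hCn, hCnil⟩
  refine ⟨?_, hF ▸ hCn, ?_, hcyc, hsq, ?_, ?_⟩
  · rw [isSupersolvable_iff]
    have h0 : Chain ((⊥ : Subgroup G) ⊔ Subgroup.zpowers c) :=
      Chain.step ⊥ c Chain.bot (by rw [bot_sup_eq]; exact hcn)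
    apply chain_top_of_commutator_le _ h0
    rw [bot_sup_eq, hc]
  · intro _h
    have hidx : Squarefree (Cfsg.fittingSubgroup G).index := by rw [hF]; exact h c
    exact ⟨isCyclic_quotient _ (by rw [hF]; exact hDC) hidx, hidx⟩
  · apply ucs_two_eq_top
    intro a _ b _ g hg
    exact hCD g (hF ▸ hg) _ (hcommD a b)
  · rw [eq_bot_iff]
    refine (Subgroup.commutator_le.mpr ?_ : ⁅(⊤ : Subgroup ↥(commutator G)), ⊤⁆ ≤ ⊥)
    intro a _ b _
    rw [Subgroup.mem_bot, commutatorElement_eq_one_iff_mul_comm]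
    apply Subtype.ext
    exact hCD a (hDC a.2) b b.2

end Cfsg.Agent.S4130
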