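import Cfsg.Statements.S4138
import Cfsg.Agent.Lib.Helper65ClassGraph2

set_option autoImplicit false
open Cfsg

namespace Cfsg.Agent.S4138

open Cfsg.Agent.Lib.Helper65ClassGraph Cfsg.Agent.Lib.Helper65ClassGraph2
open Cfsg.Agent.S4134 (Cen)

/-- Let G be a finite group whose two largest conjugacy class sizes m > n > 1 are coprime, and let x, y ∈ G have classes of sizes n and m respectively. Then C_G(x) and C_G(y) are abelian, and G/Z(G) is a Frobenius group with kernel C_G(x)/Z(G) and complement C_G(y)/Z(G). -/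
theorem result {G : Type*} [Group G] [Finite G] (m n : ℕ) (hmn : n < m) (hn : 1 < n)
    (hcop : m.Coprime n) (htop : ∀ z : G, (Subgroup.centralizer ({z} : Set G)).index ≤ m) (hsecond : ∀ z : G, (Subgroup.centralizer ({z} : Set G)).index < m → (Subgroup.centralizer ({z} : Set G)).index ≤ n)
    (x y : G) (hx : (Subgroup.centralizer ({x} : Set G)).index = n) (hy : (Subgroup.centralizer ({y} : Set G)).index = m) :
    IsMulCommutative (Subgroup.centralizer ({x} : Set G)) ∧ IsMulCommutative (Subgroup.centralizer ({y} : Set G)) ∧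
    Cfsg.IsFrobeniusComplement ((Subgroup.centralizer ({y} : Set G)).map (QuotientGroup.mk' (Subgroup.center G))) ∧
    Cfsg.frobeniusKernel ((Subgroup.centralizer ({y} : Set G)).map (QuotientGroup.mk' (Subgroup.center G))) =
      ((Subgroup.centralizer ({x} : Set G)).map (QuotientGroup.mk' (Subgroup.center G)) : Set (G ⧸ Subgroup.center G)) := by
  have hT : Two {p : ℕ | p ∣ m} m n x y := by
    refine ⟨hmn, hn, fun q _ hq => hq, ?_, htop, hsecond, hx, hy⟩
    intro q hq hqn hqm
    have h1 : q ∣ Nat.gcd m n := Nat.dvd_gcd hqm hqn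
    rw [hcop.gcd_eq_one] at h1
    exact hq.one_lt.ne' (Nat.dvd_one.mp h1)
  obtain ⟨a, haS, e, hT'⟩ := hT.exists_piElt
  have := hT'.main haS
  rw [e] at this
  exact this

end Cfsg.Agent.S4138
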