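import Cfsg.Statements.S4142
import Cfsg.Agent.Lib.Helper72MaxClass

set_option autoImplicit false
open Cfsg

namespace Cfsg.Agent.S4142

open Cfsg.Agent.Lib.Helper72Pi Cfsg.Agent.Lib.Helper72MaxClass

theorem key {G : Type*} [Group G] [Finite G] (N : Subgroup G) [N.Normal] (g : G) :
    Nat.card {n : N // ∃ x : G, x * g * x⁻¹ = g * n} * Nat.card (Subgroup.centralizer ({g} : Set G)) =
      Nat.card (Subgroup.centralizer ({(QuotientGroup.mk g : G ⧸ N)} : Set (G ⧸ N))) * Nat.card N := by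
  set Cb := Subgroup.centralizer ({(QuotientGroup.mk g : G ⧸ N)} : Set (G ⧸ N)) with hCb
  set D := Cb.comap (QuotientGroup.mk' N) with hD
  have hDmem : ∀ x : G, x ∈ D ↔ g⁻¹ * (x * g * x⁻¹) ∈ N := by
    intro x
    have h1 : x ∈ D ↔ (x : G ⧸ N) ∈ Cb := Iff.rfl
    rw [h1, hCb, Subgroup.mem_centralizer_singleton_iff, ← QuotientGroup.eq]
    constructor
    · intro h
      simp only [QuotientGroup.mk_mul, QuotientGroup.mk_inv]
      rw [h]; group
    · intro h
      simp only [QuotientGroup.mk_mul, QuotientGroup.mk_inv] at h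
      calc (x : G ⧸ N) * (g : G ⧸ N) = ((x : G ⧸ N) * (g : G ⧸ N) * (x : G ⧸ N)⁻¹) * (x : G ⧸ N) := by group
        _ = (g : G ⧸ N) * (x : G ⧸ N) := by rw [← h]
  have hND : N ≤ D := by
    intro n hn
    rw [hDmem]
    have : g⁻¹ * (n * g * n⁻¹) = (g⁻¹ * n * g) * n⁻¹ := by group
    rw [this]
    exact N.mul_mem (‹N.Normal›.conj_mem' n hn g) (N.inv_mem hn)
  have hmap : D.map (QuotientGroup.mk' N) = Cb :=
    Subgroup.map_comap_eq_self_of_surjective (QuotientGroup.mk'_surjective N) Cb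
  have h1 := card_map_mk_mul N D hND
  rw [hmap] at h1
  rw [h1]
  symm
  let f : D → {n : N // ∃ x : G, x * g * x⁻¹ = g * n} := fun x =>
    ⟨⟨g⁻¹ * ((x : G) * g * (x : G)⁻¹), (hDmem x).mp x.2⟩, x, by group⟩
  apply card_eq_mul_of_fiber_eq f
  rintro ⟨n, x0, hx0⟩
  have hx0D : x0 ∈ D := by
    rw [hDmem, hx0]
    have : g⁻¹ * (g * (n : G)) = n := by group
    rw [this]; exact n.2
  refine Nat.card_congr
    { toFun := fun x => ⟨x0⁻¹ * (x.1 : G), ?_⟩
      invFun := fun c => ⟨⟨x0 * (c : G), ?_⟩, ?_⟩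
      left_inv := fun x => Subtype.ext (Subtype.ext (by simp))
      right_inv := fun c => Subtype.ext (by simp) }
  · rw [Subgroup.mem_centralizer_singleton_iff]
    have h2 : g⁻¹ * ((x.1 : G) * g * (x.1 : G)⁻¹) = (n : G) :=
      congrArg (fun t : {n : N // ∃ x : G, x * g * x⁻¹ = g * n} => ((t.1 : N) : G)) x.2
    have h3 : (x.1 : G) * g * (x.1 : G)⁻¹ = x0 * g * x0⁻¹ := by
      calc (x.1 : G) * g * (x.1 : G)⁻¹ = g * (g⁻¹ * ((x.1 : G) * g * (x.1 : G)⁻¹)) := by group
        _ = g * (n : G) := by rw [h2]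
        _ = x0 * g * x0⁻¹ := hx0.symm
    calc x0⁻¹ * (x.1 : G) * g = x0⁻¹ * ((x.1 : G) * g * (x.1 : G)⁻¹) * (x.1 : G) := by group
      _ = x0⁻¹ * (x0 * g * x0⁻¹) * (x.1 : G) := by rw [h3]
      _ = g * (x0⁻¹ * (x.1 : G)) := by group
  · have hc : (c : G) * g = g * (c : G) := Subgroup.mem_centralizer_singleton_iff.mp c.2
    rw [hDmem]
    have : x0 * (c : G) * g * (x0 * (c : G))⁻¹ = x0 * g * x0⁻¹ := by
      calc x0 * (c : G) * g * (x0 * (c : G))⁻¹ = x0 * ((c : G) * g) * (c : G)⁻¹ * x0⁻¹ := by group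
        _ = x0 * (g * (c : G)) * (c : G)⁻¹ * x0⁻¹ := by rw [hc]
        _ = x0 * g * x0⁻¹ := by group
    rw [this]
    exact (hDmem x0).mp hx0D
  · have hc : (c : G) * g = g * (c : G) := Subgroup.mem_centralizer_singleton_iff.mp c.2
    apply Subtype.ext
    apply Subtype.ext
    show g⁻¹ * (x0 * (c : G) * g * (x0 * (c : G))⁻¹) = (n : G)
    have : x0 * (c : G) * g * (x0 * (c : G))⁻¹ = x0 * g * x0⁻¹ := by
      calc x0 * (c : G) * g * (x0 * (c : G))⁻¹ = x0 * ((c : G) * g) * (c : G)⁻¹ * x0⁻¹ := by group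
        _ = x0 * (g * (c : G)) * (c : G)⁻¹ * x0⁻¹ := by rw [hc]
        _ = x0 * g * x0⁻¹ := by group
    rw [this, hx0]; group


/-- Let G be a finite group and N a normal subgroup. Then the conjugacy class of every element g outside N is a union of cosets of N (gn is conjugate to g for all n ∈ N) if and only if for every g outside N the centralizer of g in G has the same order as the centralizer of gN in G/N. -/
theorem result {G : Type*} [Group G] [Finite G] (N : Subgroup G) [N.Normal] :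
    (∀ g : G, g ∉ N → ∀ n ∈ N, ∃ x : G, x * g * x⁻¹ = g * n) ↔
      ∀ g : G, g ∉ N → Nat.card (Subgroup.centralizer ({g} : Set G)) =
        Nat.card (Subgroup.centralizer ({(QuotientGroup.mk g : G ⧸ N)} : Set (G ⧸ N))) := by
  have hiff : ∀ g : G, (∀ n ∈ N, ∃ x : G, x * g * x⁻¹ = g * n) ↔
      Nat.card (Subgroup.centralizer ({g} : Set G)) =
        Nat.card (Subgroup.centralizer ({(QuotientGroup.mk g : G ⧸ N)} : Set (G ⧸ N))) := by
    intro g
    have hk := key N g
    have hNpos : 0 < Nat.card N := Nat.card_pos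
    have hCpos : 0 < Nat.card (Subgroup.centralizer ({g} : Set G)) := Nat.card_pos
    constructor
    · intro h
      have h1 : Nat.card {n : N // ∃ x : G, x * g * x⁻¹ = g * n} = Nat.card N := by
        apply Nat.card_congr
        exact Equiv.subtypeUnivEquiv (fun n => h n n.2)
      rw [h1, mul_comm] at hk
      exact Nat.eq_of_mul_eq_mul_right hNpos hk
    · intro h
      rw [← h, mul_comm] at hk
      have h1 : Nat.card {n : N // ∃ x : G, x * g * x⁻¹ = g * n} = Nat.card N :=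
        Nat.eq_of_mul_eq_mul_left hCpos hk
      have hbij : Function.Bijective
          (Subtype.val : {n : N // ∃ x : G, x * g * x⁻¹ = g * n} → N) :=
        Function.Injective.bijective_of_nat_card_le Subtype.val_injective h1.ge
      intro n hn
      obtain ⟨t, ht⟩ := hbij.2 ⟨n, hn⟩
      obtain ⟨x, hx⟩ := t.2
      exact ⟨x, by rw [hx, ht]⟩
  exact forall_congr' fun g => imp_congr_right fun _ => hiff g

end Cfsg.Agent.S4142
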