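import Cfsg.Statements.S4143
import Cfsg.Agent.Lib.Helper72MaxClass

set_option autoImplicit false
open Cfsg

namespace Cfsg.Agent.S4143

open Cfsg.Agent.Lib.Helper72Pi Cfsg.Agent.Lib.Helper72MaxClass

/-- a subgroup generated by one element and a subgroup `W` commuting with everything in sight is
commutative -/
theorem comm_of_zpowers_sup {X : Type*} [Group X] (b : X) (W : Subgroup X) [W.Normal]
    (hW : ∀ w ∈ W, ∀ y ∈ Subgroup.zpowers b ⊔ W, w * y = y * w) :
    ∀ x ∈ Subgroup.zpowers b ⊔ W, ∀ y ∈ Subgroup.zpowers b ⊔ W, x * y = y * x := by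
  intro x hx y hy
  obtain ⟨x1, hx1, w1, hw1, rfl⟩ := Subgroup.mem_sup_of_normal_right.mp hx
  obtain ⟨y1, hy1, w2, hw2, rfl⟩ := Subgroup.mem_sup_of_normal_right.mp hy
  obtain ⟨i, rfl⟩ := hx1
  obtain ⟨j, rfl⟩ := hy1
  have hbb : b ^ i * b ^ j = b ^ j * b ^ i := ((Commute.refl b).zpow_zpow i j).eq
  have m1 : b ^ j ∈ Subgroup.zpowers b ⊔ W :=
    (le_sup_left : Subgroup.zpowers b ≤ _) ⟨j, rfl⟩
  have m2 : b ^ i ∈ Subgroup.zpowers b ⊔ W :=
    (le_sup_left : Subgroup.zpowers b ≤ _) ⟨i, rfl⟩
  have m3 : w2 ∈ Subgroup.zpowers b ⊔ W := (le_sup_right : W ≤ _) hw2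
  have e1 := hW w1 hw1 _ m1
  have e2 := hW w2 hw2 _ m2
  have e3 := hW w1 hw1 _ m3
  calc b ^ i * w1 * (b ^ j * w2) = b ^ i * (w1 * b ^ j) * w2 := by group
    _ = b ^ i * (b ^ j * w1) * w2 := by rw [e1]
    _ = (b ^ i * b ^ j) * (w1 * w2) := by group
    _ = (b ^ j * b ^ i) * (w2 * w1) := by rw [hbb, e3]
    _ = b ^ j * (b ^ i * w2) * w1 := by group
    _ = b ^ j * (w2 * b ^ i) * w1 := by rw [e2]
    _ = b ^ j * w2 * (b ^ i * w1) := by group


/-- Let X be a finite p-group of order p^n containing a non-abelian subgroup B of order p³ with C_X(B) ≤ B. Then X has nilpotency class n − 1 (maximal class). -/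
theorem result {X : Type*} [Group X] [Finite X] {p : ℕ} [Fact p.Prime] (n : ℕ) (hX : Nat.card X = p ^ n)
    (B : Subgroup X) (hB : Nat.card B = p ^ 3) (hBna : ¬ IsMulCommutative B) (hC : Subgroup.centralizer (B : Set X) ≤ B) :
    Group.nilpotencyClass X = n - 1 := by
  have hp : p.Prime := Fact.out
  have hXp : IsPGroup p X := IsPGroup.of_card hX
  haveI : Group.IsNilpotent X := hXp.isNilpotent
  have hn3 : 3 ≤ n := by
    have h1 : p ^ 3 ∣ p ^ n := hB ▸ hX ▸ Subgroup.card_subgroup_dvd_card B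
    exact (Nat.pow_dvd_pow_iff_le_right hp.one_lt).mp h1
  obtain ⟨m, rfl⟩ : ∃ m, n = m + 3 := ⟨n - 3, by omega⟩
  haveI : Nontrivial X := by
    rw [← Finite.one_lt_card_iff_nontrivial, hX]
    exact Nat.one_lt_pow (by omega) hp.one_lt
  set Z := Subgroup.center X with hZ
  have hZB : Z ≤ B := (Subgroup.center_le_centralizer _).trans hC
  have hZcomm : ∀ w ∈ Z, ∀ y : X, w * y = y * w := by
    intro w hw y
    exact (Subgroup.mem_center_iff.mp hw y).symm
  have hBna' : ¬ ∀ x ∈ B, ∀ y ∈ B, x * y = y * x := by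
    intro h
    apply hBna
    rw [isMulCommutative_iff]
    intro x y
    exact Subtype.ext (h x x.2 y y.2)
  -- the centre has order p
  have hZne : Z ≠ B := by
    intro h
    apply hBna'
    intro x hx y _
    exact hZcomm x (h ▸ hx) y
  have hZlt : Z < B := lt_of_le_of_ne hZB hZne
  obtain ⟨b1, hb1B, hb1Z⟩ := SetLike.exists_of_lt hZlt
  set S := Subgroup.zpowers b1 ⊔ Z with hS
  have hSB : S ≤ B := sup_le (Subgroup.zpowers_le.mpr hb1B) hZB
  have hZS : Z < S := by
    refine lt_of_le_of_ne le_sup_right ?_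
    intro h
    apply hb1Z
    rw [h]
    exact (le_sup_left : Subgroup.zpowers b1 ≤ S) (Subgroup.mem_zpowers b1)
  have hScomm : ∀ x ∈ S, ∀ y ∈ S, x * y = y * x :=
    comm_of_zpowers_sup b1 Z (fun w hw y _ => hZcomm w hw y)
  have hSne : S ≠ B := by
    intro h
    apply hBna'
    rw [← h]; exact hScomm
  have hSlt : S < B := lt_of_le_of_ne hSB hSne
  obtain ⟨kZ, hkZ⟩ := IsPGroup.iff_card.mp (hXp.to_subgroup Z)
  obtain ⟨kS, hkS⟩ := IsPGroup.iff_card.mp (hXp.to_subgroup S)
  have hk1 : kZ < kS := by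
    have := card_lt_of_lt hZS
    rw [hkZ, hkS] at this
    exact (Nat.pow_lt_pow_iff_right hp.one_lt).mp this
  have hk2 : kS < 3 := by
    have := card_lt_of_lt hSlt
    rw [hkS, hB] at this
    exact (Nat.pow_lt_pow_iff_right hp.one_lt).mp this
  have hk3 : kZ ≠ 0 := by
    rintro rfl
    have h2 : 1 < Nat.card Z := by
      haveI := hXp.center_nontrivial
      exact Finite.one_lt_card_iff_nontrivial.mpr inferInstance
    rw [hkZ] at h2
    simp at h2
  have hkZ1 : kZ = 1 := by omega
  have hkS2 : kS = 2 := by omega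
  have hZcard : Nat.card Z = p := by rw [hkZ, hkZ1, pow_one]
  obtain ⟨b2, hb2B, hb2S⟩ := SetLike.exists_of_lt hSlt
  set T := S ⊔ Subgroup.zpowers b2 with hT
  have hTB : T ≤ B := sup_le hSB (Subgroup.zpowers_le.mpr hb2B)
  have hST : S < T := by
    refine lt_of_le_of_ne le_sup_left ?_
    intro h
    apply hb2S
    rw [h]
    exact (le_sup_right : Subgroup.zpowers b2 ≤ T) (Subgroup.mem_zpowers b2)
  have hTeq : T = B := by
    apply Subgroup.eq_of_le_of_card_ge hTB
    obtain ⟨k, hk⟩ := IsPGroup.iff_card.mp (hXp.to_subgroup T)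
    have h1 := card_lt_of_lt hST
    rw [hkS, hkS2, hk] at h1
    have h2 := (Nat.pow_lt_pow_iff_right hp.one_lt).mp h1
    rw [hB, hk]
    exact Nat.pow_le_pow_right hp.pos h2
  have hgen : Subgroup.centralizer ({b1} : Set X) ⊓ Subgroup.centralizer ({b2} : Set X) ≤
      Subgroup.centralizer (B : Set X) := by
    rintro c ⟨hc1, hc2⟩
    have hTc : T ≤ Subgroup.centralizer ({c} : Set X) := by
      apply sup_le
      · apply sup_le
        · rw [Subgroup.zpowers_le, Subgroup.mem_centralizer_singleton_iff]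
          exact (Subgroup.mem_centralizer_singleton_iff.mp hc1).symm
        · exact Subgroup.center_le_centralizer _
      · rw [Subgroup.zpowers_le, Subgroup.mem_centralizer_singleton_iff]
        exact (Subgroup.mem_centralizer_singleton_iff.mp hc2).symm
    rw [Subgroup.mem_centralizer_iff]
    intro h hh
    have : h ∈ T := by rw [hTeq]; exact hh
    exact Subgroup.mem_centralizer_singleton_iff.mp (hTc this)
  -- the centraliser of B has order p
  set W := Subgroup.centralizer (B : Set X) with hW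
  have hWcard : Nat.card W ≤ p := by
    by_contra hcon
    push_neg at hcon
    -- W is a central subgroup of B of order at least p^2
    obtain ⟨kW, hkW⟩ := IsPGroup.iff_card.mp (hXp.to_subgroup W)
    have h1 : 1 < kW := by
      rw [hkW] at hcon
      have : p ^ 1 < p ^ kW := by rwa [pow_one]
      exact (Nat.pow_lt_pow_iff_right hp.one_lt).mp this
    have hWne : W ≠ B := by
      intro h
      apply hBna'
      intro x hx y hy
      have : x ∈ W := by rw [h]; exact hx
      exact ((Subgroup.mem_centralizer_iff.mp this) y hy).symm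
    have hWlt : W < B := lt_of_le_of_ne hC hWne
    obtain ⟨b, hbB, hbW⟩ := SetLike.exists_of_lt hWlt
    -- consider the subgroup generated by b and W
    have hV : ∀ x ∈ Subgroup.closure (insert b (W : Set X)),
        x ∈ B ∧ (∀ y ∈ Subgroup.closure (insert b (W : Set X)), x * y = y * x) := by
      have hle : Subgroup.closure (insert b (W : Set X)) ≤ B := by
        rw [Subgroup.closure_le]
        intro x hx
        rcases hx with rfl | hx
        · exact hbB
        · exact hC hx
      have hcomm : ∀ x ∈ insert b (W : Set X), ∀ y ∈ insert b (W : Set X), x * y = y * x := by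
        intro x hx y hy
        rcases hx with rfl | hx
        · rcases hy with rfl | hy
          · rfl
          · exact (Subgroup.mem_centralizer_iff.mp hy) x hbB
        · have hyB : y ∈ B := by
            rcases hy with rfl | hy
            · exact hbB
            · exact hC hy
          exact ((Subgroup.mem_centralizer_iff.mp hx) y hyB).symm
      intro x hx
      refine ⟨hle hx, fun y hy => ?_⟩
      have hc := Subgroup.isMulCommutative_closure hcomm
      exact congrArg Subtype.val ((isMulCommutative_iff.mp hc) ⟨x, hx⟩ ⟨y, hy⟩)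
    set V := Subgroup.closure (insert b (W : Set X)) with hVdef
    have hWV : W < V := by
      refine lt_of_le_of_ne ?_ ?_
      · intro w hw
        exact Subgroup.subset_closure (Set.mem_insert_of_mem _ hw)
      · intro h
        apply hbW
        rw [h]
        exact Subgroup.subset_closure (Set.mem_insert _ _)
    have hVB : V ≤ B := fun x hx => (hV x hx).1
    have hVeq : V = B := by
      apply Subgroup.eq_of_le_of_card_ge hVB
      obtain ⟨k, hk⟩ := IsPGroup.iff_card.mp (hXp.to_subgroup V)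
      have h2 := card_lt_of_lt hWV
      rw [hkW, hk] at h2
      have h3 := (Nat.pow_lt_pow_iff_right hp.one_lt).mp h2
      rw [hB, hk]
      exact Nat.pow_le_pow_right hp.pos (by omega)
    apply hBna'
    intro x hx y hy
    exact (hV x (hVeq ▸ hx)).2 y (hVeq ▸ hy)
  -- the quotient
  have hBbar : Nat.card (B.map (QuotientGroup.mk' Z)) = p ^ 2 := by
    have := card_map_mk_mul Z B hZB
    rw [hZcard, hB] at this
    apply Nat.eq_of_mul_eq_mul_right hp.pos
    rw [this]; ring
  have hXbar : Nat.card (X ⧸ Z) = p ^ (m + 2) := by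
    have := Subgroup.card_eq_card_quotient_mul_card_subgroup Z
    rw [hZcard, hX] at this
    apply Nat.eq_of_mul_eq_mul_right hp.pos
    rw [← this]; ring
  set Cc := (Subgroup.centralizer ((B.map (QuotientGroup.mk' Z) : Subgroup (X ⧸ Z)) : Set (X ⧸ Z))).comap
    (QuotientGroup.mk' Z) with hCc
  have hCcmem : ∀ c ∈ Cc, ∀ b ∈ B, c * b * c⁻¹ * b⁻¹ ∈ Z := by
    intro c hc b hb
    have h1 : (QuotientGroup.mk' Z c) ∈
        Subgroup.centralizer ((B.map (QuotientGroup.mk' Z) : Subgroup (X ⧸ Z)) : Set (X ⧸ Z)) := hc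
    rw [Subgroup.mem_centralizer_iff] at h1
    exact (comm_mem_of_mk_comm Z c b (h1 (b : X ⧸ Z) ⟨b, hb, rfl⟩).symm).1
  have hBCc : B ≤ Cc := by
    intro b hb
    show (QuotientGroup.mk' Z b) ∈
        Subgroup.centralizer ((B.map (QuotientGroup.mk' Z) : Subgroup (X ⧸ Z)) : Set (X ⧸ Z))
    rw [Subgroup.mem_centralizer_iff]
    intro y hy
    have hc : IsMulCommutative (B.map (QuotientGroup.mk' Z)) :=
      IsPGroup.isMulCommutative_of_card_eq_prime_sq hBbar
    exact congrArg Subtype.val ((isMulCommutative_iff.mp hc) ⟨y, hy⟩ ⟨_, b, hb, rfl⟩)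
  have hCccard : Nat.card Cc ≤ Nat.card (Z × Z) * Nat.card W := by
    let f : Cc → Z × Z := fun c =>
      (⟨_, hCcmem c c.2 b1 hb1B⟩, ⟨_, hCcmem c c.2 b2 hb2B⟩)
    apply card_le_of_fiber_coset Cc W f
    intro c c' hcc
    apply hgen
    have e1 : (c : X) * b1 * (c : X)⁻¹ * b1⁻¹ = (c' : X) * b1 * (c' : X)⁻¹ * b1⁻¹ :=
      congrArg (fun t : Z × Z => (t.1 : X)) hcc
    have e2 : (c : X) * b2 * (c : X)⁻¹ * b2⁻¹ = (c' : X) * b2 * (c' : X)⁻¹ * b2⁻¹ :=
      congrArg (fun t : Z × Z => (t.2 : X)) hcc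
    have key : ∀ b : X, (c : X) * b * (c : X)⁻¹ * b⁻¹ = (c' : X) * b * (c' : X)⁻¹ * b⁻¹ →
        (c : X)⁻¹ * c' ∈ Subgroup.centralizer ({b} : Set X) := by
      intro b hb
      have h2 : (c : X) * b * (c : X)⁻¹ = (c' : X) * b * (c' : X)⁻¹ := mul_right_cancel hb
      rw [Subgroup.mem_centralizer_singleton_iff]
      calc (c : X)⁻¹ * c' * b = (c : X)⁻¹ * ((c' : X) * b * (c' : X)⁻¹) * c' := by group
        _ = (c : X)⁻¹ * ((c : X) * b * (c : X)⁻¹) * c' := by rw [h2]
        _ = b * ((c : X)⁻¹ * c') := by group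
    exact ⟨key b1 e1, key b2 e2⟩
  have hCceq : B = Cc := by
    apply Subgroup.eq_of_le_of_card_ge hBCc
    rw [hB]
    calc Nat.card Cc ≤ Nat.card (Z × Z) * Nat.card W := hCccard
      _ ≤ (p * p) * p := by
          rw [Nat.card_prod, hZcard]
          exact Nat.mul_le_mul_left _ hWcard
      _ = p ^ 3 := by ring
  have hCbar : Subgroup.centralizer ((B.map (QuotientGroup.mk' Z) : Subgroup (X ⧸ Z)) : Set (X ⧸ Z)) ≤
      B.map (QuotientGroup.mk' Z) := by
    intro x hx
    obtain ⟨c, rfl⟩ := QuotientGroup.mk_surjective x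
    have : c ∈ Cc := hx
    rw [← hCceq] at this
    exact ⟨c, this, rfl⟩
  have := suzuki p m (X ⧸ Z) hXbar _ hBbar hCbar
  rw [Group.nilpotencyClass_eq_quotient_center_plus_one, this]
  omega

end Cfsg.Agent.S4143
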