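import Cfsg.Statements.S4145
import Cfsg.Agent.Lib.Helper72Cyclic

set_option autoImplicit false
open Cfsg

namespace Cfsg.Agent.S4145

open Cfsg.Agent.Lib.Helper72Pi Cfsg.Agent.Lib.Helper72Class Cfsg.Agent.Lib.Helper72Cyclic


/-- Let G be a finite group with a cyclic Sylow p-subgroup and H a normal subgroup such that p divides both the order of H and the index of H. Then H has a normal p-complement and G is p-solvable. -/
theorem result {G : Type*} [Group G] [Finite G] (p : ℕ) [Fact p.Prime]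
    (P : Sylow p G) (hP : IsCyclic (P : Subgroup G)) (H : Subgroup G) [H.Normal] (h1 : p ∣ Nat.card H) (h2 : p ∣ H.index) :
    Cfsg.HasNormalPComplement p H ∧ Cfsg.IsPSolvable p G := by
  have hp : p.Prime := Fact.out
  haveI := hP
  have hHn : H.Normal := inferInstance
  have hPH : ¬ (P : Subgroup G) ≤ H :=
    fun h => P.not_dvd_index (h2.trans (Subgroup.index_dvd_of_le h))
  obtain ⟨kP, hkP⟩ := IsPGroup.iff_card.mp P.isPGroup'
  have hcopZ : ∀ y : G, (orderOf y).Coprime p →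
      (Nat.card (P : Subgroup G)).Coprime (Nat.card (Subgroup.zpowers y)) := by
    intro y hy
    rw [Nat.card_zpowers, hkP]
    exact Nat.Coprime.pow_left _ hy.symm
  have hPcomm : ∀ u ∈ (P : Subgroup G), ∀ v ∈ (P : Subgroup G), u * v = v * u := by
    intro u hu v hv
    have hc : IsMulCommutative (P : Subgroup G) := inferInstance
    exact congrArg Subtype.val ((isMulCommutative_iff.mp hc) ⟨u, hu⟩ ⟨v, hv⟩)
  set X := H ⊔ (P : Subgroup G) with hX
  have hPX : (P : Subgroup G) ≤ X := le_sup_right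
  have hHX : H ≤ X := le_sup_left
  have hXcomm : ∀ a ∈ X, ∀ b ∈ X, a * b * a⁻¹ * b⁻¹ ∈ H := by
    intro a ha b hb
    obtain ⟨a1, ha1, u1, hu1, rfl⟩ := Subgroup.mem_sup_of_normal_left.mp ha
    obtain ⟨b1, hb1, u2, hu2, rfl⟩ := Subgroup.mem_sup_of_normal_left.mp hb
    rw [← QuotientGroup.eq_one_iff]
    have ea : ((a1 : G) : G ⧸ H) = 1 := (QuotientGroup.eq_one_iff _).mpr ha1
    have eb : ((b1 : G) : G ⧸ H) = 1 := (QuotientGroup.eq_one_iff _).mpr hb1
    have e : ((a1 * u1 * (b1 * u2) * (a1 * u1)⁻¹ * (b1 * u2)⁻¹ : G) : G ⧸ H) =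
        ((u1 * u2 * u1⁻¹ * u2⁻¹ : G) : G ⧸ H) := by
      simp only [QuotientGroup.mk_mul, QuotientGroup.mk_inv, ea, eb, one_mul]
    rw [e, hPcomm u1 hu1 u2 hu2]
    have : u2 * u1 * u1⁻¹ * u2⁻¹ = 1 := by group
    rw [this]; rfl
  have hNX : ∀ y ∈ X, y ∈ Subgroup.normalizer ((P : Subgroup G) : Set G) →
      ∀ g ∈ (P : Subgroup G), y * g = g * y := by
    apply normalizer_centralizes_of_pPrime P X
    intro y hyX hyN hycop
    have hle : Subgroup.zpowers y ≤ X := Subgroup.zpowers_le.mpr hyX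
    have := centralizes_of_commutators_mem (P := (P : Subgroup G)) (K := Subgroup.zpowers y)
      (R := H) P.isPGroup' (Subgroup.zpowers_le.mpr hyN) (hcopZ y hycop) hPH
      (fun k hk q hq => hXcomm k (hle hk) q (hPX hq))
    exact this y (Subgroup.mem_zpowers y)
  obtain ⟨K0, hK0mem, hK0comm, -⟩ := burnside_in_subgroup P X hPX hNX
  have hK0H : K0 ≤ H := by
    intro g hg
    obtain ⟨hgX, hgcop⟩ := (hK0mem g).mp hg
    obtain ⟨a1, ha1, u1, hu1, rfl⟩ := Subgroup.mem_sup_of_normal_left.mp hgX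
    have hpow : (a1 * u1) ^ (Nat.card (P : Subgroup G)) ∈ H := by
      have ea : ((a1 : G) : G ⧸ H) = 1 := (QuotientGroup.eq_one_iff _).mpr ha1
      have hu : u1 ^ (Nat.card (P : Subgroup G)) = 1 := by
        have := pow_card_eq_one' (x := (⟨u1, hu1⟩ : (P : Subgroup G)))
        exact congrArg Subtype.val this
      rw [← QuotientGroup.eq_one_iff, QuotientGroup.mk_pow, QuotientGroup.mk_mul, ea, one_mul,
        ← QuotientGroup.mk_pow, hu]
      rfl
    have hc : (Nat.card (P : Subgroup G)).Coprime (orderOf (a1 * u1)) := by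
      rw [hkP]; exact Nat.Coprime.pow_left _ hgcop.symm
    obtain ⟨m, hm⟩ := exists_pow_eq_self_of_coprime hc
    rw [← hm]; exact H.pow_mem hpow m
  have part1 : Cfsg.HasNormalPComplement p H := by
    apply hasNormalPComplement_of_pPrime_elements (K0.subgroupOf H)
    intro x
    rw [Subgroup.mem_subgroupOf, hK0mem, Subgroup.orderOf_coe]
    exact ⟨fun h => h.2, fun h => ⟨hHX x.2, h⟩⟩
  have hK0mem' : ∀ g : G, g ∈ K0 ↔ g ∈ H ∧ (orderOf g).Coprime p := fun g =>
    ⟨fun h => ⟨hK0H h, ((hK0mem g).mp h).2⟩, fun h => (hK0mem g).mpr ⟨hHX h.1, h.2⟩⟩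
  have hK0n : K0.Normal := by
    refine ⟨fun g hg t => ?_⟩
    rw [hK0mem', orderOf_conj]
    exact ⟨hHn.conj_mem g ((hK0mem' g).mp hg).1 t, ((hK0mem' g).mp hg).2⟩
  let Cs : Subgroup G :=
    { carrier := {g | ∀ h ∈ H, g * h * g⁻¹ * h⁻¹ ∈ K0}
      one_mem' := by
        intro h _
        have : (1 : G) * h * 1⁻¹ * h⁻¹ = 1 := by group
        rw [this]; exact K0.one_mem
      mul_mem' := by
        intro a b ha hb h hh
        have h1 := hb h hh
        have h2 := ha (b * h * b⁻¹) (hHn.conj_mem h hh b)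
        have : a * b * h * (a * b)⁻¹ * h⁻¹ =
            (a * (b * h * b⁻¹) * a⁻¹ * (b * h * b⁻¹)⁻¹) * (b * h * b⁻¹ * h⁻¹) := by group
        rw [this]; exact K0.mul_mem h2 h1
      inv_mem' := by
        intro a ha h hh
        have h1 := ha (a⁻¹ * h * a) (hHn.conj_mem' h hh a)
        have : a⁻¹ * h * a⁻¹⁻¹ * h⁻¹ = (a * (a⁻¹ * h * a) * a⁻¹ * (a⁻¹ * h * a)⁻¹)⁻¹ := by group
        rw [this]; exact K0.inv_mem h1 }
  have hCsmem : ∀ g : G, g ∈ Cs ↔ ∀ h ∈ H, g * h * g⁻¹ * h⁻¹ ∈ K0 := fun g => Iff.rfl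
  have hCsn : Cs.Normal := by
    refine ⟨fun g hg t => ?_⟩
    rw [hCsmem]
    intro h hh
    have h1 := (hCsmem g).mp hg (t⁻¹ * h * t) (hHn.conj_mem' h hh t)
    have : t * g * t⁻¹ * h * (t * g * t⁻¹)⁻¹ * h⁻¹ =
        t * (g * (t⁻¹ * h * t) * g⁻¹ * (t⁻¹ * h * t)⁻¹) * t⁻¹ := by group
    rw [this]; exact hK0n.conj_mem _ h1 t
  have hPCs : (P : Subgroup G) ≤ Cs := fun v hv h hh => hK0comm v (hPX hv) h (hHX hh)
  obtain ⟨u0, hu0P, hu0H, hu01⟩ : ∃ u0 : G, u0 ∈ (P : Subgroup G) ∧ u0 ∈ H ∧ u0 ≠ 1 := by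
    obtain ⟨z, hz⟩ := exists_prime_orderOf_dvd_card' p h1
    have hzord : orderOf (z : G) = p := by rw [Subgroup.orderOf_coe]; exact hz
    have hzZ : IsPGroup p (Subgroup.zpowers (z : G)) := by
      rw [IsPGroup.iff_card, Nat.card_zpowers, hzord]
      exact ⟨1, (pow_one p).symm⟩
    obtain ⟨Q, hQ⟩ := hzZ.exists_le_sylow
    obtain ⟨g, hg⟩ := MulAction.exists_smul_eq G Q P
    refine ⟨g * z * g⁻¹, ?_, hHn.conj_mem _ z.2 g, ?_⟩
    · rw [← hg, Sylow.coe_subgroup_smul]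
      have : (z : G) ∈ (Q : Subgroup G) := hQ (Subgroup.mem_zpowers _)
      have h2 := Subgroup.smul_mem_pointwise_smul (z : G) (MulAut.conj g) (Q : Subgroup G) this
      simpa [MulAut.smul_def] using h2
    · intro h
      have : orderOf (g * (z : G) * g⁻¹) = p := by rw [orderOf_conj]; exact hzord
      rw [h, orderOf_one] at this
      exact hp.one_lt.ne this
  have hK0P : ∀ z : G, z ∈ K0 → z ∈ (P : Subgroup G) → z = 1 := by
    intro z hzK hzP
    obtain ⟨j, hj⟩ := (IsPGroup.iff_orderOf.mp P.isPGroup') ⟨z, hzP⟩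
    rw [Subgroup.orderOf_mk] at hj
    have h1 := ((hK0mem z).mp hzK).2
    rw [hj] at h1
    rw [← orderOf_eq_one_iff, hj]
    rcases Nat.eq_zero_or_pos j with rfl | hjpos
    · simp
    · exfalso
      have h2 : Nat.Coprime p p := Nat.Coprime.coprime_dvd_left (dvd_pow_self p hjpos.ne') h1
      rw [Nat.coprime_self] at h2
      exact hp.ne_one h2
  have hNCs : ∀ y ∈ Cs, y ∈ Subgroup.normalizer ((P : Subgroup G) : Set G) →
      ∀ g ∈ (P : Subgroup G), y * g = g * y := by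
    apply normalizer_centralizes_of_pPrime P Cs
    intro y hyC hyN hycop
    have hle : Subgroup.zpowers y ≤ Cs := Subgroup.zpowers_le.mpr hyC
    have hleN : Subgroup.zpowers y ≤ Subgroup.normalizer ((P : Subgroup G) : Set G) :=
      Subgroup.zpowers_le.mpr hyN
    have := centralizes_of_fixes (P := (P : Subgroup G)) (K := Subgroup.zpowers y)
      P.isPGroup' hleN (hcopZ y hycop) u0 hu0P hu01 (fun k hk => ?_)
    · exact this y (Subgroup.mem_zpowers y)
    · have e1 : k * u0 * k⁻¹ * u0⁻¹ ∈ K0 := (hCsmem k).mp (hle hk) u0 hu0H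
      have e2 : k * u0 * k⁻¹ * u0⁻¹ ∈ (P : Subgroup G) :=
        (P : Subgroup G).mul_mem ((Subgroup.mem_normalizer_iff.mp (hleN hk) u0).mp hu0P)
          ((P : Subgroup G).inv_mem hu0P)
      have e3 := hK0P _ e1 e2
      calc k * u0 = (k * u0 * k⁻¹ * u0⁻¹) * u0 * k := by group
        _ = u0 * k := by rw [e3]; group
  obtain ⟨Ms, hMsmem, -, hMsidx⟩ := burnside_in_subgroup P Cs hPCs hNCs
  have hMsn : Ms.Normal := by
    refine ⟨fun g hg t => ?_⟩
    rw [hMsmem, orderOf_conj]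
    exact ⟨hCsn.conj_mem g ((hMsmem g).mp hg).1 t, ((hMsmem g).mp hg).2⟩
  have hMsC : Ms ≤ Cs := fun g hg => ((hMsmem g).mp hg).1
  have hMscard : (Nat.card Ms).Coprime p := by
    rw [Nat.coprime_comm, Nat.Prime.coprime_iff_not_dvd hp]
    intro hdvd
    obtain ⟨x, hx⟩ := exists_prime_orderOf_dvd_card' p hdvd
    have h3 : (orderOf (x : G)).Coprime p := ((hMsmem x).mp x.2).2
    rw [Subgroup.orderOf_coe, hx] at h3
    exact hp.one_lt.ne' ((Nat.coprime_self p).mp h3)
  refine ⟨part1, 3, ![⊥, Ms, Cs, ⊤], rfl, rfl, ?_, ?_, ?_⟩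
  · rw [Fin.monotone_iff_le_succ]
    intro i
    fin_cases i
    · exact bot_le
    · exact hMsC
    · exact le_top
  · intro i
    fin_cases i
    · exact Subgroup.normal_bot
    · exact hMsn
    · exact hCsn
    · exact Subgroup.normal_top
  · intro i
    fin_cases i
    · right
      show ((⊥ : Subgroup G).relIndex Ms).Coprime p
      rw [Subgroup.relIndex_bot_left]; exact hMscard
    · left
      exact ⟨kP, hMsidx.trans hkP⟩
    · right
      show (Cs.relIndex ⊤).Coprime p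
      rw [Subgroup.relIndex_top_right, Nat.coprime_comm, Nat.Prime.coprime_iff_not_dvd hp]
      exact fun h => P.not_dvd_index (h.trans (Subgroup.index_dvd_of_le hPCs))

end Cfsg.Agent.S4145
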