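import Cfsg.Statements.S4151
import Cfsg.Agent.Lib.Helper72TIHall
import Cfsg.Agent.Lib.Helper72ZAct
import Cfsg.Agent.Lib.Helper65RelHall

set_option autoImplicit false
open Cfsg

namespace Cfsg.Agent.S4151

/-- Let G be a finite group and H a non-normal subgroup meeting each of its conjugates by elements outside N_G(H) trivially, with the order of H coprime to its index in N_G(H), such that G is π-separable for π the set of primes dividing the order of H (G has a chain of normal subgroups from 1 to G each of whose factors has order divisible only by primes dividing the order of H or coprime to it). Suppose a Sylow 2-subgroup of H is abelian and Q is a complement of H in N_G(H). Then C_H(Q), the subgroup of elements of H commuting with Q, has order coprime to its index in G and has a normal complement in G. -/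
theorem result {G : Type*} [Group G] [Finite G] (H : Subgroup G)
    (hTI : Cfsg.IsTISubset (H : Set G)) (hnn : ¬ H.Normal)
    (hHall : (Nat.card H).Coprime (H.subgroupOf (Subgroup.normalizer (H : Set G))).index)
    (hsep : ∃ (n : ℕ) (M : Fin (n + 1) → Subgroup G), M 0 = ⊥ ∧ M (Fin.last n) = ⊤ ∧ Monotone M ∧ (∀ i, (M i).Normal) ∧
      ∀ i : Fin n, (∀ q : ℕ, q.Prime → q ∣ (M i.castSucc).relIndex (M i.succ) → q ∣ Nat.card H) ∨
        ((M i.castSucc).relIndex (M i.succ)).Coprime (Nat.card H))
    (h2 : ∀ P : Sylow 2 H, IsMulCommutative (P : Subgroup H))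
    (Q : Subgroup G) (hQ : Q ≤ Subgroup.normalizer (H : Set G)) (hQH : Q ⊓ H = ⊥) (hQH' : Q ⊔ H = Subgroup.normalizer (H : Set G)) :
    (Nat.card ↥(H ⊓ Subgroup.centralizer (Q : Set G))).Coprime (H ⊓ Subgroup.centralizer (Q : Set G)).index ∧
    ∃ N : Subgroup G, N.Normal ∧ N.IsComplement' (H ⊓ Subgroup.centralizer (Q : Set G)) := by
  classical
  open Subgroup Cfsg.Agent.Lib.Helper72TIHall in
  set O : Subgroup G := sSup {K : Subgroup G | K.Normal ∧ (Nat.card K).Coprime (Nat.card H)} with hO
  have hOc := (Cfsg.Agent.Lib.Helper1Fitting.coprime_card_sSup (Nat.card H)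
    {K : Subgroup G | K.Normal ∧ (Nat.card K).Coprime (Nat.card H)} (fun N hN => hN))
  rw [← hO] at hOc
  have hOn : O.Normal := hOc.1
  have htop := sup_normalizer_eq_top hTI hHall hsep O hO
  have hON : ¬ O ≤ normalizer (H : Set G) := by
    intro h
    apply hnn
    rw [sup_eq_right.mpr h] at htop
    exact normalizer_eq_top_iff.mp htop
  have hab := isCyclic_of_abelian hTI hOc.2 hON
  have hcyc : ∀ (p : ℕ) [Fact p.Prime] (P : Sylow p H), IsCyclic (P : Subgroup H) :=
    fun p _ P => sylow_isCyclic hab h2 p P
  -- `Q` has order coprime to `H`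
  have hHN : H ≤ normalizer (H : Set G) := le_normalizer
  have hQc : (Nat.card Q).Coprime (Nat.card H) := by
    have h1 : H.relIndex (normalizer (H : Set G)) = Nat.card Q := by
      rw [← hQH']
      have h3 : H.relIndex (Q ⊔ H) * Nat.card H = Nat.card (Q ⊔ H : Subgroup G) := by
        rw [← relIndex_bot_left, ← relIndex_bot_left, mul_comm]
        exact relIndex_mul_relIndex _ _ _ bot_le le_sup_right
      have h4 := Cfsg.Agent.Lib.Helper65RelHall.card_sup_mul_card_inf Q H hQ
      rw [hQH, card_bot, mul_one] at h4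
      rw [h4] at h3
      exact Nat.eq_of_mul_eq_mul_right Nat.card_pos h3
    rw [← h1]
    exact hHall.symm
  obtain ⟨K, hKH, hHK, hQK, hcomm, hKD, hKDc, -⟩ :=
    Cfsg.Agent.Lib.Helper72ZAct.ambient Q H hQ hQc hcyc
  set D : Subgroup G := H ⊓ centralizer (Q : Set G) with hD
  have hDH : D ≤ H := inf_le_left
  set N : Subgroup G := O ⊔ (Q ⊔ K) with hN
  have hNc : (Nat.card N).Coprime (Nat.card D) := by
    have h1 : Nat.card N ∣ Nat.card O * Nat.card (Q ⊔ K : Subgroup G) :=
      Cfsg.Agent.Lib.Helper1Fitting.card_sup_dvd_of_normal O _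
    have h2 : Nat.card (Q ⊔ K : Subgroup G) ∣ Nat.card Q * Nat.card K :=
      Cfsg.Agent.Lib.Helper65RelHall.card_sup_dvd Q K hQK
    have hd : Nat.card D ∣ Nat.card H := card_dvd_of_le hDH
    refine Nat.Coprime.coprime_dvd_left h1 (Nat.Coprime.mul_left ?_ ?_)
    · exact Nat.Coprime.coprime_dvd_right hd hOc.2
    · refine Nat.Coprime.coprime_dvd_left h2 (Nat.Coprime.mul_left ?_ hKDc)
      exact Nat.Coprime.coprime_dvd_right hd hQc
  have hNn : N.Normal := by
    rw [← normalizer_eq_top_iff, eq_top_iff, ← htop, ← hQH']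
    have hHle : H ≤ normalizer (N : Set G) := by
      apply Cfsg.Agent.Lib.Helper1Basic.le_normalizer_of_forall_conj_mem
      intro h hh x hx
      have hmap : N.map (MulAut.conj h).toMonoidHom ≤ N := by
        rw [hN, Subgroup.map_sup, Subgroup.map_sup]
        refine sup_le ?_ (sup_le ?_ ?_)
        · rintro _ ⟨o, ho, rfl⟩
          exact mem_sup_left (hOn.conj_mem o ho h)
        · rintro _ ⟨q, hq, rfl⟩
          have h1 : h * q * h⁻¹ = (h * (q * h⁻¹ * q⁻¹)) * q := by group
          show h * q * h⁻¹ ∈ _
          rw [h1]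
          exact mem_sup_right (mul_mem (mem_sup_right (hcomm h hh q hq)) (mem_sup_left hq))
        · rintro _ ⟨k, hk, rfl⟩
          exact mem_sup_right (mem_sup_right ((mem_normalizer_iff.mp (hHK hh) k).mp hk))
      exact hmap ⟨x, hx, rfl⟩
    refine sup_le (le_trans le_sup_left le_normalizer) (sup_le ?_ hHle)
    exact le_trans (le_trans le_sup_left le_sup_right) le_normalizer
  have hND : N ⊔ D = ⊤ := by
    rw [eq_top_iff, ← htop, ← hQH']
    refine sup_le (le_trans le_sup_left le_sup_left) (sup_le ?_ ?_)
    · exact le_trans (le_trans le_sup_left le_sup_right) le_sup_left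
    · rw [← hKD]
      exact sup_le (le_trans (le_trans le_sup_right le_sup_right) le_sup_left) le_sup_right
  have hcompl : N.IsComplement' D :=
    Cfsg.Agent.Lib.Helper1Basic.isComplement'_of_sup_eq_top_of_coprime hND hNc
  refine ⟨?_, N, hNn, hcompl⟩
  have h1 := hcompl.card_mul
  have h2 := D.card_mul_index
  have h3 : D.index = Nat.card N := by
    have : Nat.card D * D.index = Nat.card D * Nat.card N := by rw [h2, ← h1, mul_comm]
    exact Nat.eq_of_mul_eq_mul_left Nat.card_pos this
  rw [h3]
  exact hNc.symm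

end Cfsg.Agent.S4151
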