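import Cfsg.Statements.S4152
import Cfsg.Agent.Lib.Helper72PiCount

set_option autoImplicit false
open Cfsg

namespace Cfsg.Agent.S4152

open Cfsg.Agent.Lib.Helper72Pi Cfsg.Agent.Lib.Helper72PiCount

theorem card_pairsCoset_le {G : Type*} [Group G] [Finite G] (N : Subgroup G) [N.Normal]
    (S : G → Prop) (b : G ⧸ N) :
    Nat.card {z : G × G // S z.1 ∧ Commute z.1 z.2 ∧ (z.2 : G ⧸ N) = b} ≤
      Nat.card {z : G × G // S z.1 ∧ Commute z.1 z.2 ∧ z.2 ∈ N} := by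
  classical
  let y0 : G → G := fun x =>
    if h : ∃ y : G, Commute x y ∧ (y : G ⧸ N) = b then Classical.choose h else 1
  have hy0 : ∀ x : G, (∃ y : G, Commute x y ∧ (y : G ⧸ N) = b) →
      Commute x (y0 x) ∧ ((y0 x : G) : G ⧸ N) = b := by
    intro x h
    simp only [y0, dif_pos h]
    exact Classical.choose_spec h
  let f : {z : G × G // S z.1 ∧ Commute z.1 z.2 ∧ (z.2 : G ⧸ N) = b} →
      {z : G × G // S z.1 ∧ Commute z.1 z.2 ∧ z.2 ∈ N} := fun z =>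
    ⟨(z.1.1, (y0 z.1.1)⁻¹ * z.1.2), z.2.1, by
      have h := hy0 z.1.1 ⟨z.1.2, z.2.2.1, z.2.2.2⟩
      exact (h.1.inv_right).mul_right z.2.2.1, by
      have h := hy0 z.1.1 ⟨z.1.2, z.2.2.1, z.2.2.2⟩
      show (y0 z.1.1)⁻¹ * z.1.2 ∈ N
      rw [← QuotientGroup.eq, h.2, z.2.2.2]⟩
  apply Nat.card_le_card_of_injective f
  rintro ⟨⟨x, y⟩, hz⟩ ⟨⟨x', y'⟩, hz'⟩ h
  have h1 : (x, (y0 x)⁻¹ * y) = (x', (y0 x')⁻¹ * y') := congrArg Subtype.val h
  have h2 : x = x' := congrArg Prod.fst h1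
  subst h2
  have h3 : (y0 x)⁻¹ * y = (y0 x)⁻¹ * y' := congrArg Prod.snd h1
  have h4 : y = y' := mul_left_cancel h3
  subst h4
  rfl

theorem card_step2 {G : Type*} [Group G] [Finite G] (N : Subgroup G) [N.Normal] (π : Set ℕ)
    (a : G ⧸ N) :
    Nat.card {z : G × G // (IsPiElt π z.1 ∧ (z.1 : G ⧸ N) = a) ∧ Commute z.1 z.2 ∧ z.2 ∈ N} ≤
      Nat.card {z : G × G // (IsPiElt π z.1 ∧ z.1 ∈ N) ∧ Commute z.1 z.2 ∧ (z.2 : G ⧸ N) = a} := by
  classical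
  have hsplit : ∀ n : G, ∃ yz : G × G, yz.1 ∈ Subgroup.zpowers n ∧ yz.2 ∈ Subgroup.zpowers n ∧
      yz.1 * yz.2 = n ∧ IsPiElt π yz.1 ∧ IsPiElt πᶜ yz.2 := by
    intro n
    obtain ⟨y, z, h⟩ := exists_pi_split π n (orderOf_pos n).ne'
    exact ⟨(y, z), h⟩
  choose sp hsp using hsplit
  have hcomm : ∀ (x n w : G), Commute x n → w ∈ Subgroup.zpowers n → Commute x w := by
    rintro x n w hxn ⟨i, rfl⟩
    exact hxn.zpow_right i
  have hmemN : ∀ (n w : G), n ∈ N → w ∈ Subgroup.zpowers n → w ∈ N := by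
    rintro n w hn ⟨i, rfl⟩
    exact N.zpow_mem hn i
  let f : {z : G × G // (IsPiElt π z.1 ∧ (z.1 : G ⧸ N) = a) ∧ Commute z.1 z.2 ∧ z.2 ∈ N} →
      {z : G × G // (IsPiElt π z.1 ∧ z.1 ∈ N) ∧ Commute z.1 z.2 ∧ (z.2 : G ⧸ N) = a} := fun z =>
    ⟨((sp z.1.2).1, z.1.1 * (sp z.1.2).2),
      ⟨(hsp z.1.2).2.2.2.1, hmemN _ _ z.2.2.2 (hsp z.1.2).1⟩, by
        apply Commute.mul_right
        · exact (hcomm _ _ _ z.2.2.1 (hsp z.1.2).1).symm
        · exact hcomm _ _ _ (hcomm _ _ _ (Commute.refl z.1.2) (hsp z.1.2).1).symm (hsp z.1.2).2.1, by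
        show ((z.1.1 * (sp z.1.2).2 : G) : G ⧸ N) = a
        rw [QuotientGroup.mk_mul, (QuotientGroup.eq_one_iff _).mpr (hmemN _ _ z.2.2.2 (hsp z.1.2).2.1),
          mul_one, z.2.1.2]⟩
  apply Nat.card_le_card_of_injective f
  rintro ⟨⟨x, n⟩, hz⟩ ⟨⟨x', n'⟩, hz'⟩ h
  have h1 : ((sp n).1, x * (sp n).2) = ((sp n').1, x' * (sp n').2) := congrArg Subtype.val h
  have h2 : (sp n).1 = (sp n').1 := (Prod.mk.inj h1).1
  have h3 : x * (sp n).2 = x' * (sp n').2 := (Prod.mk.inj h1).2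
  have h4 := pi_split_unique (hcomm _ _ _ hz.2.1 (hsp n).2.1) (hcomm _ _ _ hz'.2.1 (hsp n').2.1)
    hz.1.1 (hsp n).2.2.2.2 hz'.1.1 (hsp n').2.2.2.2 h3
  have h5 : n = n' := by
    rw [← (hsp n).2.2.1, ← (hsp n').2.2.1, h2, h4.2]
  have h6 : x = x' := h4.1
  subst h5 h6
  rfl

theorem card_final {G : Type*} [Group G] [Finite G] (N : Subgroup G) (π : Set ℕ) :
    Nat.card {z : G × G // (IsPiElt π z.1 ∧ z.1 ∈ N) ∧ Commute z.1 z.2 ∧ z.2 ∈ N} ≤
      Nat.card {z : N × N // IsPiElt π z.1 ∧ Commute z.1 z.2} := by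
  let f : {z : G × G // (IsPiElt π z.1 ∧ z.1 ∈ N) ∧ Commute z.1 z.2 ∧ z.2 ∈ N} →
      {z : N × N // IsPiElt π z.1 ∧ Commute z.1 z.2} := fun z =>
    ⟨(⟨z.1.1, z.2.1.2⟩, ⟨z.1.2, z.2.2.2⟩), by
      intro q hq hqd
      rw [Subgroup.orderOf_mk] at hqd
      exact z.2.1.1 q hq hqd, Subtype.ext z.2.2.1.eq⟩
  apply Nat.card_le_card_of_injective f
  rintro ⟨⟨x, y⟩, hz⟩ ⟨⟨x', y'⟩, hz'⟩ h
  have h1 : ((⟨x, hz.1.2⟩ : N), (⟨y, hz.2.2⟩ : N)) = ((⟨x', hz'.1.2⟩ : N), (⟨y', hz'.2.2⟩ : N)) :=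
    congrArg Subtype.val h
  have h2 : x = x' := congrArg (fun t : N × N => (t.1 : G)) h1
  have h3 : y = y' := congrArg (fun t : N × N => (t.2 : G)) h1
  subst h2 h3
  rfl

theorem card_fiber_le {G : Type*} [Group G] [Finite G] (N : Subgroup G) [N.Normal] (π : Set ℕ)
    (a b : G ⧸ N) :
    Nat.card {z : G × G // (IsPiElt π z.1 ∧ (z.1 : G ⧸ N) = a) ∧ Commute z.1 z.2 ∧
        (z.2 : G ⧸ N) = b} ≤
      Nat.card {z : N × N // IsPiElt π z.1 ∧ Commute z.1 z.2} :=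
  (card_pairsCoset_le N (fun x => IsPiElt π x ∧ (x : G ⧸ N) = a) b).trans
    ((card_step2 N π a).trans
      ((card_pairsCoset_le N (fun x => IsPiElt π x ∧ x ∈ N) a).trans (card_final N π)))

theorem card_pairs_le {G : Type*} [Group G] [Finite G] (N : Subgroup G) [N.Normal] (π : Set ℕ) :
    Nat.card {z : G × G // IsPiElt π z.1 ∧ Commute z.1 z.2} ≤
      Nat.card {z : (G ⧸ N) × (G ⧸ N) // IsPiElt π z.1 ∧ Commute z.1 z.2} *
        Nat.card {z : N × N // IsPiElt π z.1 ∧ Commute z.1 z.2} := by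
  let f : {z : G × G // IsPiElt π z.1 ∧ Commute z.1 z.2} →
      {z : (G ⧸ N) × (G ⧸ N) // IsPiElt π z.1 ∧ Commute z.1 z.2} := fun z =>
    ⟨((z.1.1 : G ⧸ N), (z.1.2 : G ⧸ N)),
      z.2.1.of_orderOf_dvd (orderOf_map_dvd (QuotientGroup.mk' N) z.1.1),
      z.2.2.map (QuotientGroup.mk' N)⟩
  apply card_le_mul_of_fiber_le f
  rintro ⟨⟨a, b⟩, ht⟩
  refine le_trans ?_ (card_fiber_le N π a b)
  let g : {z // f z = ⟨(a, b), ht⟩} → {z : G × G // (IsPiElt π z.1 ∧ (z.1 : G ⧸ N) = a) ∧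
      Commute z.1 z.2 ∧ (z.2 : G ⧸ N) = b} := fun z =>
    ⟨z.1.1, ⟨z.1.2.1, congrArg (fun t : {z : (G ⧸ N) × (G ⧸ N) // IsPiElt π z.1 ∧ Commute z.1 z.2} => t.1.1) z.2⟩,
      z.1.2.2, congrArg (fun t : {z : (G ⧸ N) × (G ⧸ N) // IsPiElt π z.1 ∧ Commute z.1 z.2} => t.1.2) z.2⟩
  apply Nat.card_le_card_of_injective g
  intro z z' h
  apply Subtype.ext
  apply Subtype.ext
  have h1 : (g z).1 = (g z').1 := congrArg Subtype.val h
  exact h1


/-- Let G be a finite group, N a normal subgroup and π a set of primes. Then the number of conjugacy classes of π-elements of G (elements whose order is divisible only by primes in π) is at most the number of conjugacy classes of π-elements of N (under conjugation by N) times the number of conjugacy classes of π-elements of G/N. -/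
theorem result {G : Type*} [Group G] [Finite G] (N : Subgroup G) [N.Normal] (π : Set ℕ) :
    Nat.card {C : ConjClasses G // ∀ q : ℕ, q.Prime → (∃ g : G, ConjClasses.mk g = C ∧ q ∣ orderOf g) → q ∈ π} ≤ Nat.card {C : ConjClasses N // ∀ q : ℕ, q.Prime → (∃ g : N, ConjClasses.mk g = C ∧ q ∣ orderOf g) → q ∈ π} * Nat.card {C : ConjClasses (G ⧸ N) // ∀ q : ℕ, q.Prime → (∃ g : (G ⧸ N), ConjClasses.mk g = C ∧ q ∣ orderOf g) → q ∈ π} := by
  have h := card_pairs_le N π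
  rw [card_commPairs, card_commPairs, card_commPairs] at h
  have hG : Nat.card G = Nat.card (G ⧸ N) * Nat.card N :=
    Subgroup.card_eq_card_quotient_mul_card_subgroup N
  have hpos : 0 < Nat.card G := Nat.card_pos
  show Nat.card {C : ConjClasses G // IsPiClass π C} ≤
    Nat.card {C : ConjClasses N // IsPiClass π C} * Nat.card {C : ConjClasses (G ⧸ N) // IsPiClass π C}
  apply Nat.le_of_mul_le_mul_right _ hpos
  calc Nat.card {C : ConjClasses G // IsPiClass π C} * Nat.card G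
      ≤ Nat.card {C : ConjClasses (G ⧸ N) // IsPiClass π C} * Nat.card (G ⧸ N) *
        (Nat.card {C : ConjClasses N // IsPiClass π C} * Nat.card N) := h
    _ = Nat.card {C : ConjClasses N // IsPiClass π C} *
        Nat.card {C : ConjClasses (G ⧸ N) // IsPiClass π C} * Nat.card G := by
        rw [hG]; ring

end Cfsg.Agent.S4152
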