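import Cfsg.Statements.S4153
import Cfsg.Agent.Lib.Helper72PElt
-- import your own Cfsg.Agent.* helpers here

set_option autoImplicit false
open Cfsg

namespace Cfsg.Agent.S4153

open Cfsg.Agent.Lib.Helper72Pi Cfsg.Agent.Lib.Helper72PElt

/-- the reduction map on `p`-elements -/
noncomputable def red {G : Type*} [Group G] (p : ℕ) [Fact p.Prime] (N : Subgroup G) [N.Normal] :
    {g : G // ∃ k : ℕ, orderOf g = p ^ k} → {g : (G ⧸ N) // ∃ k : ℕ, orderOf g = p ^ k} :=
  fun g => ⟨(g.1 : G ⧸ N), isP_map (QuotientGroup.mk' N) g.2⟩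

theorem fiber_ge {G : Type*} [Group G] [Finite G] (p : ℕ) [Fact p.Prime] (N : Subgroup G)
    [N.Normal] (y : {g : (G ⧸ N) // ∃ k : ℕ, orderOf g = p ^ k}) :
    ∃ P₁ : Sylow p G, Nat.card ((P₁ : Subgroup G) ⊓ N : Subgroup G) ≤
      Nat.card {a // red p N a = y} ∧ (N ≤ Subgroup.center G →
      Nat.card ((P₁ : Subgroup G) ⊓ N : Subgroup G) = Nat.card {a // red p N a = y}) := by
  obtain ⟨x, hxy, hx⟩ := exists_isP_lift N y.1 y.2
  obtain ⟨P₁, hP₁⟩ := exists_sylow_of_isP hx
  let φ : ((P₁ : Subgroup G) ⊓ N : Subgroup G) → {a // red p N a = y} := fun n =>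
    ⟨⟨x * n, isP_of_mem P₁.isPGroup' ((P₁ : Subgroup G).mul_mem hP₁ n.2.1)⟩, by
      apply Subtype.ext
      change ((x * n : G) : G ⧸ N) = y.1
      rw [QuotientGroup.mk_mul, (QuotientGroup.eq_one_iff _).mpr n.2.2, mul_one, hxy]⟩
  have hφ : Function.Injective φ := by
    intro a b hab
    have h1 : x * (a : G) = x * b := congrArg (fun t => ((t.1.1 : G))) hab
    exact Subtype.ext (mul_left_cancel h1)
  refine ⟨P₁, Nat.card_le_card_of_injective φ hφ, ?_⟩
  intro hN
  apply Nat.card_eq_of_bijective φ ⟨hφ, ?_⟩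
  rintro ⟨⟨z, hz⟩, hzy⟩
  have h1 : (z : G ⧸ N) = (x : G ⧸ N) := by
    rw [hxy]; exact congrArg Subtype.val hzy
  have h2 : x⁻¹ * z ∈ N := QuotientGroup.eq.mp h1.symm
  have h3 : Commute x⁻¹ z := by
    have h4 := Subgroup.mem_center_iff.mp (hN h2) x
    have h5 : x * z = z * x := by
      calc x * z = x * (x * (x⁻¹ * z)) := by group
        _ = x * ((x⁻¹ * z) * x) := by rw [h4]
        _ = z * x := by group
    exact (show Commute x z from h5).inv_left
  have h6 : x⁻¹ * z ∈ P₁ := mem_sylow_of_central (hN h2) (isP_mul_of_commute h3 (isP_inv hx) hz) P₁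
  refine ⟨⟨x⁻¹ * z, h6, h2⟩, ?_⟩
  apply Subtype.ext
  apply Subtype.ext
  change x * (x⁻¹ * z) = z
  group

/-- Let G be a finite group, p a prime, N a normal subgroup, P a Sylow p-subgroup of G and P̄ a Sylow p-subgroup of G/N. Count the elements of p-power order, the identity included. Then (number of such elements of G/N)/#P̄ ≤ (number of such elements of G)/#P, stated as a cross-multiplied inequality, with equality when N is central. -/
theorem result {G : Type*} [Group G] [Finite G] (p : ℕ) [Fact p.Prime] (N : Subgroup G) [N.Normal]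
    (P : Sylow p G) (Pbar : Sylow p (G ⧸ N)) :
    Nat.card {g : (G ⧸ N) // ∃ k : ℕ, orderOf g = p ^ k} * Nat.card (P : Subgroup G) ≤ Nat.card {g : G // ∃ k : ℕ, orderOf g = p ^ k} * Nat.card (Pbar : Subgroup (G ⧸ N)) ∧
    (N ≤ Subgroup.center G → Nat.card {g : (G ⧸ N) // ∃ k : ℕ, orderOf g = p ^ k} * Nat.card (P : Subgroup G) = Nat.card {g : G // ∃ k : ℕ, orderOf g = p ^ k} * Nat.card (Pbar : Subgroup (G ⧸ N))) := by
  have hpos : 0 < Nat.card (Pbar : Subgroup (G ⧸ N)) := Nat.card_pos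
  set k := Nat.card ((P : Subgroup G) ⊓ N : Subgroup G) with hk
  have hkP : k * Nat.card (Pbar : Subgroup (G ⧸ N)) = Nat.card (P : Subgroup G) :=
    card_inf_mul N P P Pbar
  have hall : ∀ P₁ : Sylow p G, Nat.card ((P₁ : Subgroup G) ⊓ N : Subgroup G) = k := by
    intro P₁
    have := card_inf_mul N P₁ P Pbar
    rw [← hkP] at this
    exact Nat.eq_of_mul_eq_mul_right hpos this
  constructor
  · have h1 := card_mul_le_of_le_fiber (red p N) k (by
      intro y
      obtain ⟨P₁, h, _⟩ := fiber_ge p N y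
      rwa [hall] at h)
    rw [← hkP, ← mul_assoc]
    exact Nat.mul_le_mul_right _ h1
  · intro hN
    have h1 := card_eq_mul_of_fiber_eq (red p N) k (by
      intro y
      obtain ⟨P₁, _, h⟩ := fiber_ge p N y
      rw [← h hN, hall])
    rw [← hkP, ← mul_assoc, h1]

end Cfsg.Agent.S4153
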