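import Cfsg.Statements.S4154
import Cfsg.Agent.Lib.Helper72Pi

set_option autoImplicit false
open Cfsg

namespace Cfsg.Agent.S4154

open Cfsg.Agent.Lib.Helper72Pi

/-- for an endomorphism `β` of a finite group, `#{q⁻¹ β(q)} * #Fix(β) = #Q` -/
theorem card_range_mul_card_fix {Q : Type*} [Group Q] [Finite Q] (β : Q →* Q) :
    Nat.card (Set.range (fun q : Q => q⁻¹ * β q)) * Nat.card (β.eqLocus (MonoidHom.id Q)) =
      Nat.card Q := by
  symm
  apply card_eq_mul_of_fiber_eq (fun q : Q => (⟨q⁻¹ * β q, q, rfl⟩ : Set.range (fun q : Q => q⁻¹ * β q)))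
  rintro ⟨_, q0, rfl⟩
  have hmem : ∀ q : Q, q ∈ β.eqLocus (MonoidHom.id Q) ↔ β q = q := fun q => Iff.rfl
  refine Nat.card_congr
    { toFun := fun q => ⟨q.1 * q0⁻¹, ?_⟩
      invFun := fun d => ⟨d.1 * q0, ?_⟩
      left_inv := fun q => Subtype.ext (by simp)
      right_inv := fun d => Subtype.ext (by simp) }
  · rw [hmem]
    have h1 : q.1⁻¹ * β q.1 = q0⁻¹ * β q0 := congrArg Subtype.val q.2
    have h2 : β q.1 = q.1 * (q0⁻¹ * β q0) := by rw [← h1]; group
    rw [map_mul, map_inv, h2]; group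
  · apply Subtype.ext
    have h1 : β d.1 = d.1 := (hmem _).mp d.2
    show (d.1 * q0)⁻¹ * β (d.1 * q0) = q0⁻¹ * β q0
    rw [map_mul, h1]; group


/-- Let G be a finite group and α an automorphism of G such that every element of G is the product of an element fixed by α and an element of the form g⁻¹α(g). If N is a normal α-invariant subgroup, then the automorphism ᾱ induced on G/N has the same property, and every coset fixed by ᾱ contains an element fixed by α (so the fixed points of ᾱ are the images of the fixed points of α). -/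
theorem result {G : Type*} [Group G] [Finite G] (α : MulAut G)
    (hccp : ∀ x : G, ∃ c g : G, α c = c ∧ x = c * (g⁻¹ * α g))
    (N : Subgroup G) [N.Normal] (hN : ∀ n ∈ N, α n ∈ N) :
    (∀ x : G, ∃ c g : G, c⁻¹ * α c ∈ N ∧ x⁻¹ * (c * (g⁻¹ * α g)) ∈ N) ∧
    (∀ x : G, x⁻¹ * α x ∈ N → ∃ c : G, α c = c ∧ c⁻¹ * x ∈ N) := by
  refine ⟨?_, ?_⟩
  · intro x
    obtain ⟨c, g, hc, hx⟩ := hccp x
    refine ⟨c, g, ?_, ?_⟩
    · rw [hc, inv_mul_cancel]; exact N.one_mem
    · rw [← hx, inv_mul_cancel]; exact N.one_mem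
  · have hN' : N ≤ N.comap (α : G →* G) := fun n hn => hN n hn
    let β : G ⧸ N →* G ⧸ N := QuotientGroup.map N N (α : G →* G) hN'
    have hβ : ∀ g : G, β (g : G ⧸ N) = ((α g : G) : G ⧸ N) := fun g => rfl
    let C : Subgroup G := (α : G →* G).eqLocus (MonoidHom.id G)
    have hCmem : ∀ c : G, c ∈ C ↔ α c = c := fun c => Iff.rfl
    let E : Subgroup (G ⧸ N) := C.map (QuotientGroup.mk' N)
    let F : Subgroup (G ⧸ N) := β.eqLocus (MonoidHom.id (G ⧸ N))
    have hFmem : ∀ q : G ⧸ N, q ∈ F ↔ β q = q := fun q => Iff.rfl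
    have hEF : E ≤ F := by
      rintro _ ⟨c, hc, rfl⟩
      rw [hFmem]
      show β (c : G ⧸ N) = (c : G ⧸ N)
      rw [hβ, (hCmem c).mp hc]
    have hsurj : Function.Surjective
        (fun t : E × Set.range (fun q : G ⧸ N => q⁻¹ * β q) => (t.1 : G ⧸ N) * (t.2 : G ⧸ N)) := by
      intro q
      obtain ⟨x, rfl⟩ := QuotientGroup.mk_surjective q
      obtain ⟨c, g, hc, hx⟩ := hccp x
      refine ⟨(⟨(c : G ⧸ N), c, (hCmem c).mpr hc, rfl⟩, ⟨_, (g : G ⧸ N), rfl⟩), ?_⟩
      show (c : G ⧸ N) * ((g : G ⧸ N)⁻¹ * β (g : G ⧸ N)) = (x : G ⧸ N)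
      rw [hβ, hx]
      rfl
    have h1 : Nat.card (G ⧸ N) ≤ Nat.card E * Nat.card (Set.range (fun q : G ⧸ N => q⁻¹ * β q)) := by
      rw [← Nat.card_prod]
      exact Nat.card_le_card_of_surjective _ hsurj
    have h2 := card_range_mul_card_fix β
    have hJpos : 0 < Nat.card (Set.range (fun q : G ⧸ N => q⁻¹ * β q)) := by
      haveI : Nonempty (Set.range (fun q : G ⧸ N => q⁻¹ * β q)) := ⟨⟨_, 1, rfl⟩⟩
      exact Nat.card_pos
    have h3 : Nat.card F ≤ Nat.card E := by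
      apply Nat.le_of_mul_le_mul_left _ hJpos
      calc Nat.card (Set.range (fun q : G ⧸ N => q⁻¹ * β q)) * Nat.card F = Nat.card (G ⧸ N) := h2
        _ ≤ Nat.card E * Nat.card (Set.range (fun q : G ⧸ N => q⁻¹ * β q)) := h1
        _ = Nat.card (Set.range (fun q : G ⧸ N => q⁻¹ * β q)) * Nat.card E := by ring
    have hEeq : E = F := Subgroup.eq_of_le_of_card_ge hEF h3
    intro x hx
    have hxF : (x : G ⧸ N) ∈ F := by
      rw [hFmem, hβ, eq_comm]
      exact QuotientGroup.eq.mpr hx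
    rw [← hEeq] at hxF
    obtain ⟨c, hc, hcx⟩ := hxF
    exact ⟨c, (hCmem c).mp hc, QuotientGroup.eq.mp hcx⟩

end Cfsg.Agent.S4154
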