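import Cfsg.Statements.S4155
import Cfsg.Agent.S4107
import Cfsg.Agent.Lib.Helper1FpfSylow
import Cfsg.Agent.Lib.Helper1Fitting
import Cfsg.Agent.Lib.Helper3Nilp

set_option autoImplicit false
open Cfsg

namespace Cfsg.Agent.S4155

open Subgroup

theorem exists_pow_pelement {G : Type*} [Group G] [Finite G] {N : Subgroup G} {x : G} {q k : ℕ}
    (hq : q.Prime) (hx : x ∉ N) (hxk : x ^ (q ^ k) ∈ N) :
    ∃ t a : ℕ, x ^ t ∉ N ∧ (x ^ t) ^ (q ^ a) = 1 := by
  obtain ⟨a, t, hqt, ht⟩ := Nat.exists_eq_pow_mul_and_not_dvd (orderOf_pos x).ne' q hq.ne_one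
  refine ⟨t, a, ?_, ?_⟩
  · intro h
    have hc : Nat.Coprime t (q ^ k) := ((Nat.Prime.coprime_iff_not_dvd hq).mpr hqt).symm.pow_right k
    apply hx
    have hb := Nat.gcd_eq_gcd_ab t (q ^ k)
    rw [hc] at hb
    have e : x = (x ^ t) ^ (Nat.gcdA t (q ^ k)) * (x ^ (q ^ k)) ^ (Nat.gcdB t (q ^ k)) := by
      rw [← zpow_natCast, ← zpow_natCast, ← zpow_mul, ← zpow_mul, ← zpow_add, ← hb]
      simp
    rw [e]
    exact N.mul_mem (N.zpow_mem h _) (N.zpow_mem hxk _)
  · rw [← pow_mul, mul_comm, ← ht, pow_orderOf_eq_one]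

theorem eq_one_of_commute {G : Type*} [Group G] [Finite G] {N : Subgroup G}
    (heq : ∀ x : G, x ∉ N → ∀ n ∈ N, orderOf (x * n) = orderOf x) {x v : G} {q k : ℕ}
    (hq : q.Prime) (hx : x ∉ N) (hxk : x ^ (q ^ k) ∈ N) (hv : v ∈ N) (hc : Commute x v)
    (hcop : (orderOf v).Coprime q) : v = 1 := by
  obtain ⟨t, a, h1, h2⟩ := exists_pow_pelement hq hx hxk
  have h3 : orderOf (x ^ t) ∣ q ^ a := orderOf_dvd_of_pow_eq_one h2
  have h4 : (orderOf (x ^ t)).Coprime (orderOf v) :=
    Nat.Coprime.coprime_dvd_left h3 (hcop.symm.pow_left a)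
  have h5 := (hc.pow_left t).orderOf_mul_eq_mul_orderOf_of_coprime h4
  rw [heq _ h1 v hv] at h5
  have h6 : 0 < orderOf (x ^ t) := orderOf_pos _
  have h7 : orderOf v = 1 := by
    have : orderOf (x ^ t) * 1 = orderOf (x ^ t) * orderOf v := by rw [mul_one]; exact h5
    exact (Nat.eq_of_mul_eq_mul_left h6 this).symm
  exact orderOf_eq_one_iff.mp h7

/-- the `r`-part of the centre of `N`, as a subgroup of `G` -/
def zr {G : Type*} [Group G] (N : Subgroup G) (r : ℕ) : Subgroup G where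
  carrier := {z | z ∈ N ∧ (∀ n ∈ N, n * z = z * n) ∧ ∃ k : ℕ, z ^ (r ^ k) = 1}
  one_mem' := ⟨N.one_mem, fun n _ => by simp, 0, by simp⟩
  mul_mem' := by
    rintro a b ⟨ha, hac, k, hk⟩ ⟨hb, hbc, l, hl⟩
    refine ⟨N.mul_mem ha hb, fun n hn => ?_, k + l, ?_⟩
    · rw [← mul_assoc, hac n hn, mul_assoc, hbc n hn, mul_assoc]
    · have hab : Commute a b := hbc a ha
      rw [hab.mul_pow, pow_add, pow_mul, hk, one_pow, one_mul, mul_comm (r ^ k), pow_mul, hl, one_pow]
  inv_mem' := by
    rintro a ⟨ha, hac, k, hk⟩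
    refine ⟨N.inv_mem ha, fun n hn => ?_, k, by rw [inv_pow, hk, inv_one]⟩
    have := hac n hn
    calc n * a⁻¹ = a⁻¹ * (a * n) * a⁻¹ := by group
      _ = a⁻¹ * (n * a) * a⁻¹ := by rw [this]
      _ = a⁻¹ * n := by group

theorem zr_normal {G : Type*} [Group G] (N : Subgroup G) [hN : N.Normal] (r : ℕ) : (zr N r).Normal := by
  constructor
  rintro z ⟨hz, hzc, k, hk⟩ g
  refine ⟨hN.conj_mem z hz g, fun n hn => ?_, k, by rw [conj_pow, hk]; group⟩
  have h1 := hzc (g⁻¹ * n * g) (by have := hN.conj_mem n hn g⁻¹; simpa using this)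
  calc n * (g * z * g⁻¹) = g * ((g⁻¹ * n * g) * z) * g⁻¹ := by group
    _ = g * (z * (g⁻¹ * n * g)) * g⁻¹ := by rw [h1]
    _ = g * z * g⁻¹ * n := by group

theorem zr_comm {G : Type*} [Group G] (N : Subgroup G) (r : ℕ) : IsMulCommutative (zr N r) :=
  ⟨⟨fun a b => Subtype.ext (b.2.2.1 a a.2.1)⟩⟩

theorem zr_ne_bot {G : Type*} [Group G] [Finite G] (N : Subgroup G) (hnil : Group.IsNilpotent N) {r : ℕ}
    (hr : r.Prime) (hrN : r ∣ Nat.card N) : ∃ v : zr N r, v ≠ 1 := by
  have : Fact r.Prime := ⟨hr⟩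
  obtain ⟨R⟩ : Nonempty (Sylow r N) := inferInstance
  have hRn : (R : Subgroup N).Normal := by
    have htfae : Group.IsNilpotent N ↔ ∀ (p : ℕ), Fact (Nat.Prime p) → ∀ (P : Sylow p N), (P : Subgroup N).Normal :=
      (Group.isNilpotent_of_finite_tfae (G := N)).out 0 3
    exact htfae.mp hnil r inferInstance R
  have hRne : (R : Subgroup N) ≠ ⊥ := by
    intro hb
    have h2 := R.card_eq_multiplicity
    rw [hb, Subgroup.card_bot] at h2
    have h3 : 0 < (Nat.card N).factorization r :=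
      hr.factorization_pos_of_dvd Nat.card_pos.ne' hrN
    have h4 : 1 < r ^ (Nat.card N).factorization r := Nat.one_lt_pow h3.ne' hr.one_lt
    omega
  obtain ⟨x, hxR, hxc, hx1⟩ := Cfsg.Agent.Lib.Helper3Nilp.normal_inf_center_ne_bot (R : Subgroup N) hRne
  obtain ⟨k, hk⟩ := R.isPGroup' ⟨x, hxR⟩
  refine ⟨⟨(x : G), x.2, fun n hn => ?_, k, ?_⟩, fun h => hx1 ?_⟩
  · exact congrArg Subtype.val ((mem_center_iff.mp hxc) ⟨n, hn⟩)
  · have := congrArg (fun y : (R : Subgroup N) => ((y : N) : G)) hk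
    simpa using this
  · exact Subtype.ext (congrArg (fun y : zr N r => (y : G)) h)

/-- Let G be a finite group and N a proper non-trivial normal nilpotent subgroup whose order is not a prime power, such that for every x outside N all elements of the coset xN have the same order as x. Then N is the Fitting subgroup of G, and for every prime q every Sylow q-subgroup of G/N is cyclic or generalized quaternion. -/
theorem result {G : Type*} [Group G] [Finite G] (N : Subgroup G) [N.Normal] (hN1 : N ≠ ⊥) (hN2 : N ≠ ⊤)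
    (heq : ∀ x : G, x ∉ N → ∀ n ∈ N, orderOf (x * n) = orderOf x)
    (hnil : Group.IsNilpotent N) (hnpp : ¬ IsPrimePow (Nat.card N)) :
    N = Cfsg.fittingSubgroup G ∧
    ∀ (q : ℕ) [Fact q.Prime] (Q : Sylow q (G ⧸ N)), IsCyclic (Q : Subgroup (G ⧸ N)) ∨ ∃ n : ℕ, Nonempty ((Q : Subgroup (G ⧸ N)) ≃* QuaternionGroup (2 ^ n)) := by
  constructor
  · have hle : N ≤ Cfsg.fittingSubgroup G := Cfsg.Agent.Lib.Helper1Fitting.le_fitting inferInstance hnil
    by_contra hne
    have hlt : N < Cfsg.fittingSubgroup G := lt_of_le_of_ne hle hne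
    obtain ⟨p, k, hp, hk, hpk⟩ := (Cfsg.Agent.S4107.result N hN1 hN2 heq).2 hlt
    have hp' : p.Prime := hp.nat_prime
    have hd : Nat.card N ∣ p ^ k := hpk ▸ Subgroup.card_dvd_of_le hle
    obtain ⟨m, -, hm⟩ := (Nat.dvd_prime_pow hp').mp hd
    apply hnpp
    refine ⟨p, m, hp, ?_, hm.symm⟩
    rcases Nat.eq_zero_or_pos m with rfl | h
    · exact absurd ((Subgroup.card_eq_one).mp (by rw [hm, pow_zero])) hN1
    · exact h
  · intro q hq Q
    -- a prime r ≠ q dividing |N|
    obtain ⟨r, hr, hrN, hrq⟩ : ∃ r : ℕ, r.Prime ∧ r ∣ Nat.card N ∧ r ≠ q := by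
      by_contra hcon
      push Not at hcon
      apply hnpp
      have h1 := Nat.eq_prime_pow_of_unique_prime_dvd (n := Nat.card N) (p := q) Nat.card_pos.ne'
        (fun {d} hd hdN => hcon d hd hdN)
      refine ⟨q, _, hq.out.prime, ?_, h1.symm⟩
      rcases Nat.eq_zero_or_pos (Nat.card N).primeFactorsList.length with h | h
      · rw [h, pow_zero] at h1
        exact absurd ((Subgroup.card_eq_one).mp h1) hN1
      · exact h
    have hVn := zr_normal N r
    have hVc := zr_comm N r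
    let ψ : G ⧸ N →* MulAut (zr N r) := QuotientGroup.lift N (MulAut.conjNormal (H := zr N r)) (by
      intro n hn
      ext v
      change (n * (v : G) * n⁻¹ : G) = v
      rw [v.2.2.1 n hn]; group)
    have hψ : ∀ (x : G) (v : zr N r), ((ψ (x : G ⧸ N) v : zr N r) : G) = x * v * x⁻¹ := fun x v => rfl
    have huniq := Cfsg.Agent.Lib.Helper1FpfSylow.unique_of_abelian_cyclic (P := Q) Q.isPGroup' (by
      intro E hE
      open scoped IsMulCommutative in
      let f : E →* MulAut (zr N r) := ψ.comp ((Q : Subgroup (G ⧸ N)).subtype.comp E.subtype)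
      let _ : MulDistribMulAction E (zr N r) := MulDistribMulAction.compHom (zr N r) f
      apply Cfsg.Agent.Lib.Helper1Fpf.isCyclic_of_comm (A := E) (V := zr N r) _ (zr_ne_bot N hnil hr hrN)
      intro e he v hv
      obtain ⟨x, hx⟩ := QuotientGroup.mk_surjective (((e : Q) : G ⧸ N))
      have hv' : x * (v : G) * x⁻¹ = v := by
        rw [← hψ, hx]
        exact congrArg Subtype.val hv
      have hxN : x ∉ N := by
        intro h
        apply he
        apply Subtype.ext
        apply Subtype.ext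
        rw [← hx]
        exact (QuotientGroup.eq_one_iff x).mpr h
      obtain ⟨k, hk⟩ := Q.isPGroup' (e : Q)
      have hxk : x ^ (q ^ k) ∈ N := by
        rw [← QuotientGroup.eq_one_iff, QuotientGroup.mk_pow, hx]
        have := congrArg (fun y : Q => (y : G ⧸ N)) hk
        simpa using this
      obtain ⟨l, hl⟩ := v.2.2.2
      have hcop : (orderOf (v : G)).Coprime q := by
        have h1 : orderOf (v : G) ∣ r ^ l := orderOf_dvd_of_pow_eq_one hl
        exact Nat.Coprime.coprime_dvd_left h1 (((Nat.coprime_primes hr hq.out).mpr hrq).pow_left l)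
      have hcomm : Commute x (v : G) := by
        change x * v = v * x
        calc x * (v : G) = (x * v * x⁻¹) * x := by group
          _ = v * x := by rw [hv']
      exact Subtype.ext (eq_one_of_commute heq hq.out hxN hxk v.2.1 hcomm hcop))
    rcases Cfsg.Agent.Lib.Helper1UniqInv.main q Q.isPGroup' huniq with h | ⟨-, h⟩
    · exact Or.inl h
    · exact Or.inr h

end Cfsg.Agent.S4155
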