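import Cfsg.Statements.S4156
-- import your own Cfsg.Agent.* helpers here
import Mathlib

set_option autoImplicit false
open Cfsg

namespace Cfsg.Agent.S4156


/-- embedding of `F^n` as the sum-zero hyperplane of `F^(n+1)`. -/
def emb (n : ℕ) (F : Type*) [Field F] : (Fin n → F) →ₗ[F] (Fin (n + 1) → F) where
  toFun v := Fin.snoc (α := fun _ => F) v (-∑ i, v i)
  map_add' v w := by
    funext k
    refine Fin.lastCases ?_ (fun j => ?_) k
    · simp [Finset.sum_add_distrib]; ring
    · simp
  map_smul' c v := by
    funext k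
    refine Fin.lastCases ?_ (fun j => ?_) k
    · simp [Finset.mul_sum]
    · simp

theorem emb_castSucc {n : ℕ} {F : Type*} [Field F] (v : Fin n → F) (j : Fin n) :
    emb n F v j.castSucc = v j := by
  simp [emb]

theorem emb_last {n : ℕ} {F : Type*} [Field F] (v : Fin n → F) :
    emb n F v (Fin.last n) = -∑ i, v i := by
  simp [emb]

theorem sum_emb {n : ℕ} {F : Type*} [Field F] (v : Fin n → F) :
    ∑ k, emb n F v k = 0 := by
  rw [Fin.sum_univ_castSucc, emb_last]
  simp [emb_castSucc]

theorem emb_proj {n : ℕ} {F : Type*} [Field F] (w : Fin (n + 1) → F) (hw : ∑ k, w k = 0) :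
    emb n F (fun j => w j.castSucc) = w := by
  funext k
  refine Fin.lastCases ?_ (fun j => ?_) k
  · rw [emb_last]
    rw [Fin.sum_univ_castSucc] at hw
    linear_combination -hw
  · rw [emb_castSucc]

/-- the deleted permutation representation. -/
def rho (n : ℕ) (F : Type*) [Field F] : Equiv.Perm (Fin (n + 1)) →* Module.End F (Fin n → F) where
  toFun σ := (LinearMap.funLeft F F Fin.castSucc) ∘ₗ
    (LinearMap.funLeft F F (σ⁻¹ : Equiv.Perm (Fin (n + 1)))) ∘ₗ emb n F
  map_one' := by
    ext v j
    simp [LinearMap.funLeft_apply, emb_castSucc]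
  map_mul' σ τ := by
    apply LinearMap.ext
    intro v
    funext j
    simp only [LinearMap.comp_apply, LinearMap.funLeft_apply, Module.End.mul_apply]
    have h := emb_proj (fun k => emb n F v (τ⁻¹ k)) (by
      rw [Equiv.sum_comp τ⁻¹ (emb n F v)]; exact sum_emb v)
    have h2 : (LinearMap.funLeft F F Fin.castSucc)
        ((LinearMap.funLeft F F (τ⁻¹ : Equiv.Perm (Fin (n + 1)))) (emb n F v)) =
        fun j : Fin n => emb n F v (τ⁻¹ j.castSucc) := by
      funext j
      simp [LinearMap.funLeft_apply]
    rw [h2, h]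
    simp [mul_inv_rev]

theorem rho_apply {n : ℕ} {F : Type*} [Field F] (σ : Equiv.Perm (Fin (n + 1))) (v : Fin n → F)
    (j : Fin n) : rho n F σ v j = emb n F v (σ⁻¹ j.castSucc) := by
  simp [rho, LinearMap.funLeft_apply]

theorem hom_comm_trivial {A M : Type*} [Group A] [CommMonoid M] (hA : commutator A = ⊤)
    (f : A →* M) (a : A) : f a = 1 := by
  have h1 : commutator A ≤ f.ker := by
    rw [commutator_def, Subgroup.commutator_le]
    intro x _ y _
    rw [MonoidHom.mem_ker, commutatorElement_def, map_mul, map_mul, map_mul]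
    calc f x * f y * f x⁻¹ * f y⁻¹ = (f x * f x⁻¹) * (f y * f y⁻¹) := by
          simp only [mul_left_comm, mul_comm]
      _ = 1 := by rw [← map_mul, ← map_mul]; simp
  rw [hA] at h1
  exact h1 (Subgroup.mem_top a)

theorem det_rho (n : ℕ) (F : Type*) [Field F] (hn : 5 ≤ n) (a : alternatingGroup (Fin (n + 1))) :
    (LinearMap.toMatrix' (rho n F (a : Equiv.Perm (Fin (n + 1))))).det = 1 := by
  rw [LinearMap.det_toMatrix']
  exact hom_comm_trivial
    (commutator_alternatingGroup_eq_top (α := Fin (n + 1)) (by simp; omega))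
    ((LinearMap.det.comp (rho n F)).comp (alternatingGroup (Fin (n + 1))).subtype) a

/-- the representation into `SL_n`. -/
def toSL (n : ℕ) (F : Type*) [Field F] (hn : 5 ≤ n) :
    alternatingGroup (Fin (n + 1)) →* Matrix.SpecialLinearGroup (Fin n) F where
  toFun a := ⟨LinearMap.toMatrix' (rho n F a), det_rho n F hn a⟩
  map_one' := by
    apply Subtype.ext
    simp
  map_mul' a b := by
    apply Subtype.ext
    show LinearMap.toMatrix' (rho n F ((a * b : alternatingGroup (Fin (n + 1))) : Equiv.Perm (Fin (n + 1)))) =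
      LinearMap.toMatrix' (rho n F (a : Equiv.Perm (Fin (n + 1)))) *
        LinearMap.toMatrix' (rho n F (b : Equiv.Perm (Fin (n + 1))))
    rw [Subgroup.coe_mul, map_mul, LinearMap.toMatrix'_mul]

theorem inj_of_simple {A H : Type*} [Group A] [Group H] [IsSimpleGroup A]
    (hA : commutator A = ⊤) (f : A →* H) (a : A) (ha : f a ≠ 1) :
    Function.Injective ((QuotientGroup.mk' (Subgroup.center H)).comp f) := by
  rw [← MonoidHom.ker_eq_bot_iff]
  rcases ((QuotientGroup.mk' (Subgroup.center H)).comp f).normal_ker.eq_bot_or_eq_top with h | h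
  · exact h
  · exfalso
    apply ha
    have h1 : ∀ x : A, f x ∈ Subgroup.center H := by
      intro x
      have : x ∈ ((QuotientGroup.mk' (Subgroup.center H)).comp f).ker := by rw [h]; trivial
      rw [MonoidHom.mem_ker] at this
      simpa using this
    have h2 : commutator A ≤ f.ker := by
      rw [commutator_def, Subgroup.commutator_le]
      intro x _ y _
      rw [MonoidHom.mem_ker, map_commutatorElement, commutatorElement_eq_one_iff_mul_comm]
      exact ((Subgroup.mem_center_iff.1 (h1 x)) (f y)).symm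
    rw [hA] at h2
    exact h2 (Subgroup.mem_top a)


/-- Let n ≥ 5 and F a finite field. Then the projective special linear group PSL_n(F) contains a subgroup isomorphic to the alternating group of degree n + 1. -/
theorem result (n : ℕ) (hn : 5 ≤ n) (F : Type*) [Field F] [Finite F] :
    ∃ f : alternatingGroup (Fin (n + 1)) →* Matrix.ProjectiveSpecialLinearGroup (Fin n) F, Function.Injective f := by
  have h5 : 5 ≤ Nat.card (Fin (n + 1)) := by simp; omega
  have : IsSimpleGroup (alternatingGroup (Fin (n + 1))) := alternatingGroup.isSimpleGroup h5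
  have hperf := commutator_alternatingGroup_eq_top (α := Fin (n + 1)) h5
  let i0 : Fin n := ⟨0, by omega⟩
  let i1 : Fin n := ⟨1, by omega⟩
  let i2 : Fin n := ⟨2, by omega⟩
  have h01 : i0.castSucc ≠ i1.castSucc := by simp [i0, i1, Fin.ext_iff]
  have h02 : i0.castSucc ≠ i2.castSucc := by simp [i0, i2, Fin.ext_iff]
  have h12 : i1.castSucc ≠ i2.castSucc := by simp [i1, i2, Fin.ext_iff]
  have h3 := Equiv.Perm.isThreeCycle_swap_mul_swap_same h01 h02 h12
  let a : alternatingGroup (Fin (n + 1)) := ⟨_, h3.mem_alternatingGroup⟩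
  refine ⟨(QuotientGroup.mk' _).comp (toSL n F hn), inj_of_simple hperf (toSL n F hn) a ?_⟩
  intro h
  have h4 : LinearMap.toMatrix' (rho n F (a : Equiv.Perm (Fin (n + 1)))) = 1 := by
    have := congrArg Subtype.val h
    exact this
  have h5 : rho n F (a : Equiv.Perm (Fin (n + 1))) = 1 := by
    apply LinearMap.toMatrix'.injective
    rw [h4]; simp
  have h6 := rho_apply (F := F) (a : Equiv.Perm (Fin (n + 1))) (Pi.single i0 1) i0
  rw [h5] at h6
  have h7 : ((a : Equiv.Perm (Fin (n + 1)))⁻¹) i0.castSucc = i1.castSucc := by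
    simp only [a, mul_inv_rev, Equiv.swap_inv, Equiv.Perm.mul_apply, Equiv.swap_apply_left]
    exact Equiv.swap_apply_of_ne_of_ne h01.symm h12
  rw [h7, emb_castSucc] at h6
  have h8 : i1 ≠ i0 := by simp [i0, i1, Fin.ext_iff]
  simp [h8] at h6

end Cfsg.Agent.S4156
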