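import Cfsg.Statements.S4160
-- import your own Cfsg.Agent.* helpers here
import Cfsg.Agent.Lib.Helper73Sylow

set_option autoImplicit false
open Cfsg

namespace Cfsg.Agent.S4160

/-- Let G be a finite group and p ≠ q primes each dividing the size of some conjugacy class of G, such that no conjugacy class size is divisible by pq. Then G has a normal p-complement or a normal q-complement. -/
theorem result {G : Type*} [Group G] [Finite G] (p q : ℕ) (hp : p.Prime) (hq : q.Prime) (hpq : p ≠ q)
    (hp' : ∃ x : G, p ∣ (Subgroup.centralizer ({x} : Set G)).index) (hq' : ∃ x : G, q ∣ (Subgroup.centralizer ({x} : Set G)).index) (h : ∀ x : G, ¬ p * q ∣ (Subgroup.centralizer ({x} : Set G)).index) :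
    Cfsg.HasNormalPComplement p G ∨ Cfsg.HasNormalPComplement q G := by
  have : Fact p.Prime := ⟨hp⟩
  have : Fact q.Prime := ⟨hq⟩
  by_cases h1 : ∃ P : Sylow p G, Subgroup.normalizer ((P : Subgroup G) : Set G) ≤
      Subgroup.centralizer ((P : Subgroup G) : Set G)
  · obtain ⟨P, hP⟩ := h1
    left
    exact ⟨P, (MonoidHom.transferSylow P hP).ker, inferInstance,
      MonoidHom.ker_transferSylow_isComplement' P hP⟩
  by_cases h2 : ∃ P : Sylow q G, Subgroup.normalizer ((P : Subgroup G) : Set G) ≤
      Subgroup.centralizer ((P : Subgroup G) : Set G)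
  · obtain ⟨P, hP⟩ := h2
    right
    exact ⟨P, (MonoidHom.transferSylow P hP).ker, inferInstance,
      MonoidHom.ker_transferSylow_isComplement' P hP⟩
  exfalso
  push Not at h1 h2
  have c1 := Cfsg.Agent.Lib.Helper73Sylow.two_mul_ncard_centralizing_le h1
  have c2 := Cfsg.Agent.Lib.Helper73Sylow.two_mul_ncard_centralizing_le h2
  set Sp : Set G := {x : G | ∃ P : Sylow p G, (P : Subgroup G) ≤ Subgroup.centralizer ({x} : Set G)}
    with hSp
  set Sq : Set G := {x : G | ∃ P : Sylow q G, (P : Subgroup G) ≤ Subgroup.centralizer ({x} : Set G)}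
    with hSq
  have hU : Sp ∪ Sq = Set.univ := by
    rw [Set.eq_univ_iff_forall]
    intro x
    by_cases hx : p ∣ (Subgroup.centralizer ({x} : Set G)).index
    · right
      apply Cfsg.Agent.Lib.Helper73Sylow.exists_sylow_le_of_not_dvd_index
      intro hx'
      exact h x (((Nat.coprime_primes hp hq).mpr hpq).mul_dvd_of_dvd_of_dvd hx hx')
    · left
      exact Cfsg.Agent.Lib.Helper73Sylow.exists_sylow_le_of_not_dvd_index _ hx
  have hone : (1 : G) ∈ Sp ∩ Sq := by
    have hc : Subgroup.centralizer ({1} : Set G) = ⊤ := by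
      rw [eq_top_iff]
      intro g _
      rw [Subgroup.mem_centralizer_iff]
      intro y hy
      rw [Set.mem_singleton_iff] at hy
      subst hy
      simp
    constructor
    · obtain ⟨P⟩ : Nonempty (Sylow p G) := Sylow.nonempty
      exact ⟨P, by rw [hc]; exact le_top⟩
    · obtain ⟨P⟩ : Nonempty (Sylow q G) := Sylow.nonempty
      exact ⟨P, by rw [hc]; exact le_top⟩
  have hpos : 0 < (Sp ∩ Sq).ncard := (Set.ncard_pos (Set.toFinite _)).mpr ⟨1, hone⟩
  have hsum := Set.ncard_union_add_ncard_inter Sp Sq
  rw [hU, Set.ncard_univ] at hsum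
  omega

end Cfsg.Agent.S4160
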