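import Cfsg.Statements.S4168
-- import your own Cfsg.Agent.* helpers here

set_option autoImplicit false
open Cfsg

namespace Cfsg.Agent.S4168

open scoped IsMulCommutative in
theorem pow_index_center_eq_one {L : Type*} [Group L] [Finite L] (z : L) (hg : z ∈ commutator L) :
    z ^ (Subgroup.center L).index = 1 := by
  have hk := Abelianization.commutator_subset_ker (MonoidHom.transferCenterPow L) hg
  simpa only [MonoidHom.mem_ker, Subtype.ext_iff] using! hk


/-- Let L be a finite quasisimple group (perfect with L/Z(L) simple). Then every prime dividing the order of the centre Z(L) also divides the order of L/Z(L). -/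
theorem result {L : Type*} [Group L] [Finite L] (hL : Cfsg.IsQuasisimple L)
    (p : ℕ) (hp : p.Prime) (hdiv : p ∣ Nat.card (Subgroup.center L)) : p ∣ (Subgroup.center L).index := by
  obtain ⟨hperf, -⟩ := hL
  have : Fact p.Prime := ⟨hp⟩
  obtain ⟨z, hz⟩ := exists_prime_orderOf_dvd_card' p hdiv
  have hg : (z : L) ∈ commutator L := Group.IsPerfect.mem_commutator
  have h1 : (z : L) ^ (Subgroup.center L).index = 1 := pow_index_center_eq_one _ hg
  have h3 : orderOf (z : L) = p := by
    rw [Subgroup.orderOf_coe]; exact hz
  rw [← h3]
  exact orderOf_dvd_of_pow_eq_one h1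

end Cfsg.Agent.S4168
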