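import Cfsg.Statements.S4169
-- import your own Cfsg.Agent.* helpers here
import Cfsg.Agent.Lib.Helper73Small
import Cfsg.Agent.Lib.Helper57DStar

set_option autoImplicit false
open Cfsg

namespace Cfsg.Agent.S4169

/-- Let P be a finite p-group whose conjugacy classes have exactly two sizes (1 and one other value). Then P has nilpotency class at most 3. -/
theorem result {P : Type*} [Group P] [Finite P] {p : ℕ} [Fact p.Prime] (hP : IsPGroup p P)
    (m : ℕ) (hm : 1 < m) (h : ∀ x : P, (Subgroup.centralizer ({x} : Set P)).index = 1 ∨ (Subgroup.centralizer ({x} : Set P)).index = m) :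
    upperCentralSeries P 3 = ⊤ := by
  have hnil : Group.IsNilpotent P := hP.isNilpotent
  obtain ⟨B, hBn, hBc, hmax⟩ := Cfsg.Agent.Lib.Helper57DStar.exists_maximal_normal_abelian (G := P)
  have hC := Cfsg.Agent.Lib.Helper57DStar.centralizer_le_of_maximal B hBn hBc hmax
  have hmin : ∀ x : P, 1 < (Subgroup.centralizer ({x} : Set P)).index →
      m ≤ (Subgroup.centralizer ({x} : Set P)).index := by
    intro x hx
    rcases h x with h1 | h1 <;> omega
  have key := Cfsg.Agent.Lib.Helper73Small.lowerCentralSeries_closure_small B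
    (fun a ha b hb => congrArg Subtype.val (mul_comm' (⟨a, ha⟩ : B) ⟨b, hb⟩)) hC m hmin Set.univ
    (by intro x _; rcases h x with h1 | h1 <;> omega)
  rw [Subgroup.closure_univ] at key
  exact Subgroup.lowerCentralSeries_eq_bot_iff_upperCentralSeries_eq_top.mp key

end Cfsg.Agent.S4169
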