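import Cfsg.Statements.S4176
-- import your own Cfsg.Agent.* helpers here
import Cfsg.Agent.Lib.Helper73Orbit
import Cfsg.Agent.Lib.Helper73PCompl

set_option autoImplicit false
open Cfsg

namespace Cfsg.Agent.S4176

open Cfsg.Agent.Lib.Helper73Orbit in
theorem key {k V H : Type*} [Field k] (p : ℕ) [Fact p.Prime] [CharP k p] [AddCommGroup V]
    [Module k V] [Group H] [Finite H] (hsol : Cfsg.IsPSolvable p H) (ρ : Representation k H V)
    (a : V) (hfix : ∃ P : Sylow p H, ∀ x : H, x ∈ (P : Subgroup H) → ρ x a = a)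
    (hspan : Submodule.span k {u : V | ∃ h : H, ρ h a = u} = ⊤) (B : Subgroup H)
    (hB : ∀ h : H, ∃ β ∈ B, ρ β a = ρ h a) (v : V) (hv : ∀ β ∈ B, ρ β v = v) :
    ∃ c : k, v = c • orbitSum ρ a := by
  obtain ⟨P, hP⟩ := hfix
  have hnd : ¬ p ∣ Nat.card {u : V | ∃ h : H, ρ h a = u} := by
    rw [← index_stab]
    intro hd
    have hle : (P : Subgroup H) ≤ stab ρ a := fun x hx => hP x hx
    exact P.not_dvd_index (hd.trans (Subgroup.index_dvd_of_le hle))
  have hO : (Nat.card {u : V | ∃ h : H, ρ h a = u} : k) ≠ 0 := by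
    rw [Ne, CharP.cast_eq_zero_iff k p]; exact hnd
  obtain ⟨K', hK', j, hj⟩ := Cfsg.Agent.Lib.Helper73PCompl.exists_pComplement (p := p) _ rfl
    (Cfsg.Agent.Lib.Helper73PCompl.isPSolvable_subgroup B hsol)
  have hcardK : Nat.card (K'.map B.subtype) = Nat.card K' :=
    Subgroup.card_map_of_injective B.subtype_injective
  have hK : (Nat.card (K'.map B.subtype) : k) ≠ 0 := by
    rw [Ne, CharP.cast_eq_zero_iff k p, hcardK]
    intro hd
    have := Nat.Coprime.eq_one_of_dvd hK'.symm hd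
    exact (Fact.out : p.Prime).one_lt.ne' this
  let ρB : Representation k B V := ρ.comp B.subtype
  have hset : {u : V | ∃ h : B, ρB h a = u} = {u : V | ∃ h : H, ρ h a = u} := by
    ext u
    constructor
    · rintro ⟨h, rfl⟩
      exact ⟨(h : H), rfl⟩
    · rintro ⟨h, rfl⟩
      obtain ⟨β, hβ, hβa⟩ := hB h
      exact ⟨⟨β, hβ⟩, hβa⟩
  have hcop : (Nat.card {u : V | ∃ h : B, ρB h a = u}).Coprime K'.index := by
    rw [hset, hj]
    exact Nat.Coprime.pow_right j (((Fact.out : p.Prime).coprime_iff_not_dvd.mpr hnd).symm)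
  apply exists_eq_smul_orbitSum ρ a hspan (K'.map B.subtype) hK hO
  · intro h
    obtain ⟨β, hβ, hβa⟩ := hB h
    obtain ⟨κ, hκ, hκa⟩ := exists_mem_apply_eq_of_coprime ρB K' a hcop ⟨β, hβ⟩
    refine ⟨(κ : H), Subgroup.mem_map.mpr ⟨κ, hκ, rfl⟩, ?_⟩
    rw [← hβa]
    exact hκa
  · intro κ hκ
    obtain ⟨κ', _, rfl⟩ := Subgroup.mem_map.mp hκ
    exact hv _ κ'.2


/-- Let k be a field of prime characteristic p, H a finite p-soluble group and ρ a k-linear representation of H on V. Let a be a vector that is fixed by some Sylow p-subgroup of H and whose H-orbit spans V. Then the space of H-fixed vectors has dimension at most 1, and every vector b whose H-orbit has size coprime to the size of the orbit of a is fixed by H. -/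
theorem result {k V H : Type*} [Field k] (p : ℕ) [Fact p.Prime] [CharP k p] [AddCommGroup V] [Module k V]
    [Group H] [Finite H] (hsol : Cfsg.IsPSolvable p H) (ρ : Representation k H V) (a : V)
    (hfix : ∃ P : Sylow p H, ∀ x : H, x ∈ (P : Subgroup H) → ρ x a = a)
    (hspan : Submodule.span k {u : V | ∃ h : H, ρ h a = u} = ⊤) :
    Module.finrank k ρ.invariants ≤ 1 ∧
    ∀ b : V, (Nat.card {u : V | ∃ h : H, ρ h a = u}).Coprime (Nat.card {u : V | ∃ h : H, ρ h b = u}) → ∀ h : H, ρ h b = b := by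
  constructor
  · apply Cfsg.Agent.Lib.Helper73Orbit.finrank_invariants_le_one ρ a
    intro v hv
    exact key p hsol ρ a hfix hspan ⊤ (fun h => ⟨h, Subgroup.mem_top h, rfl⟩) v (fun β _ => hv β)
  · intro b hcop h
    obtain ⟨c, hc⟩ := key p hsol ρ a hfix hspan (Cfsg.Agent.Lib.Helper73Orbit.stab ρ b)
      (fun h => Cfsg.Agent.Lib.Helper73Orbit.exists_mem_apply_eq_of_coprime ρ _ a
        (by rw [Cfsg.Agent.Lib.Helper73Orbit.index_stab]; exact hcop) h) b
      (fun κ hκ => hκ)
    rw [hc, map_smul, Cfsg.Agent.Lib.Helper73Orbit.apply_orbitSum]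

end Cfsg.Agent.S4176
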