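import Cfsg.Statements.S4177
-- import your own Cfsg.Agent.* helpers here
import Cfsg.Agent.Lib.Helper73Orbit

set_option autoImplicit false
open Cfsg

namespace Cfsg.Agent.S4177

/-- Let k be a field whose characteristic does not divide the order of the finite group H (for instance a field of characteristic zero), and ρ a k-linear representation of H on V. Let a be a vector whose H-orbit spans V. Then the space of H-fixed vectors has dimension at most 1, and every vector b whose H-orbit has size coprime to the size of the orbit of a is fixed by H. -/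
theorem result {k V H : Type*} [Field k] [AddCommGroup V] [Module k V] [Group H] [Finite H]
    (hchar : ¬ ringChar k ∣ Nat.card H) (ρ : Representation k H V) (a : V)
    (hspan : Submodule.span k {u : V | ∃ h : H, ρ h a = u} = ⊤) :
    Module.finrank k ρ.invariants ≤ 1 ∧
    ∀ b : V, (Nat.card {u : V | ∃ h : H, ρ h a = u}).Coprime (Nat.card {u : V | ∃ h : H, ρ h b = u}) → ∀ h : H, ρ h b = b := by
  have hH : (Nat.card H : k) ≠ 0 := by
    rw [Ne, ringChar.spec]; exact hchar
  have hdvd : ∀ d : ℕ, d ∣ Nat.card H → (d : k) ≠ 0 := by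
    rintro d ⟨e, he⟩ hd
    apply hH
    rw [he, Nat.cast_mul, hd, zero_mul]
  have hO : (Nat.card {u : V | ∃ h : H, ρ h a = u} : k) ≠ 0 := by
    apply hdvd
    rw [← Cfsg.Agent.Lib.Helper73Orbit.index_stab]
    exact Subgroup.index_dvd_card _
  constructor
  · apply Cfsg.Agent.Lib.Helper73Orbit.finrank_invariants_le_one ρ a
    intro v hv
    exact Cfsg.Agent.Lib.Helper73Orbit.exists_eq_smul_orbitSum ρ a hspan ⊤
      (hdvd _ (Subgroup.card_subgroup_dvd_card _)) hO (fun h => ⟨h, Subgroup.mem_top h, rfl⟩) v
      (fun κ _ => hv κ)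
  · intro b hcop h
    obtain ⟨c, hc⟩ := Cfsg.Agent.Lib.Helper73Orbit.exists_eq_smul_orbitSum ρ a hspan
      (Cfsg.Agent.Lib.Helper73Orbit.stab ρ b)
      (hdvd _ (Subgroup.card_subgroup_dvd_card _)) hO
      (fun h => Cfsg.Agent.Lib.Helper73Orbit.exists_mem_apply_eq_of_coprime ρ _ a
        (by rw [Cfsg.Agent.Lib.Helper73Orbit.index_stab]; exact hcop) h) b
      (fun κ hκ => hκ)
    rw [hc, map_smul, Cfsg.Agent.Lib.Helper73Orbit.apply_orbitSum]

end Cfsg.Agent.S4177
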