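import Cfsg.Statements.S4178
-- import your own Cfsg.Agent.* helpers here

set_option autoImplicit false
open Cfsg

namespace Cfsg.Agent.S4178

section aux

/-- Orbit-stabilizer bound. -/
theorem index_le_ncard {H X : Type*} [Group H] [Finite H] [MulAction H X] (R : Subgroup H) (x : X)
    (T : Set X) (hT : T.Finite) (horb : ∀ h : H, h • x ∈ T)
    (hstab : MulAction.stabilizer H x ≤ R) : R.index ≤ T.ncard := by
  have h1 : R.index ≤ (MulAction.stabilizer H x).index :=
    Nat.le_of_dvd (Nat.pos_of_ne_zero Subgroup.FiniteIndex.index_ne_zero)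
      (Subgroup.index_dvd_of_le hstab)
  rw [MulAction.index_stabilizer] at h1
  refine h1.trans (Set.ncard_le_ncard ?_ hT)
  rintro _ ⟨h, rfl⟩
  exact horb h

variable {F V : Type*} [Field F] [Fintype F] [AddCommGroup V] [Module F V] [FiniteDimensional F V]

theorem ncard_nonzero (W : Submodule F V) :
    ((W : Set V) \ {0}).ncard = Fintype.card F ^ Module.finrank F W - 1 := by
  rw [Set.ncard_sdiff_singleton_of_mem W.zero_mem, ← Nat.card_coe_set_eq]
  have : Nat.card (W : Set V) = Nat.card W := rfl
  rw [this, Module.natCard_eq_pow_finrank (K := F), Nat.card_eq_fintype_card]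

theorem real_bound (q c d idx : ℕ) (hq : 1 ≤ q) (hcd : 2 * c ≤ d) (h : idx ≤ q ^ c - 1) :
    (idx : ℝ) ≤ Real.sqrt ((q : ℝ) ^ d) - 1 := by
  have h1 : 1 ≤ q ^ c := Nat.one_le_pow _ _ hq
  have h2 : (idx : ℝ) ≤ (q : ℝ) ^ c - 1 := by
    have : ((q ^ c - 1 : ℕ) : ℝ) = (q : ℝ) ^ c - 1 := by
      rw [Nat.cast_sub h1]; simp
    rw [← this]
    exact_mod_cast h
  have hq' : (1 : ℝ) ≤ q := by exact_mod_cast hq
  have h3 : (q : ℝ) ^ c ≤ Real.sqrt ((q : ℝ) ^ d) := by
    apply Real.le_sqrt_of_sq_le
    rw [← pow_mul, mul_comm]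
    exact pow_le_pow_right₀ hq' hcd
  linarith

/-- An element of `GL(V)` preserving `W` and fixing a nonzero vector of `V/W` fixes a nonzero
vector of `V`. -/
theorem exists_fixed (W : Submodule F V) (h : V ≃ₗ[F] V) (hW : ∀ w ∈ W, h w ∈ W) (v : V)
    (hv : v ∉ W) (hfix : h v - v ∈ W) : ∃ u : V, u ≠ 0 ∧ h u = u := by
  by_contra hno
  push Not at hno
  let g : V →ₗ[F] V := (h : V →ₗ[F] V) - LinearMap.id
  have hg : ∀ u, g u = h u - u := fun u => rfl
  have hginj : Function.Injective g := by
    rw [← LinearMap.ker_eq_bot, LinearMap.ker_eq_bot']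
    intro u hu
    by_contra hu0
    exact hno u hu0 (sub_eq_zero.mp (hg u ▸ hu))
  have hgW : ∀ w ∈ W, g w ∈ W := fun w hw => W.sub_mem (hW w hw) hw
  let gW : W →ₗ[F] W := g.restrict hgW
  have hgWinj : Function.Injective gW := by
    intro a b hab
    apply Subtype.ext
    apply hginj
    exact congrArg Subtype.val hab
  have hgWsurj : Function.Surjective gW := LinearMap.injective_iff_surjective.mp hgWinj
  obtain ⟨w, hw⟩ := hgWsurj ⟨h v - v, hfix⟩
  have : g (w : V) = g v := congrArg Subtype.val hw
  exact hv (hginj this ▸ w.2)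

end aux


/-- Let F be a finite field with q elements, V a non-zero finite-dimensional F-space of dimension d, H a group of invertible linear maps of V, and R the subgroup of H generated by the elements of H that fix some non-zero vector (have eigenvalue 1). Then the index of R in H is at most q^d − 1; and if H leaves invariant some proper non-zero subspace, the index is at most q^(d/2) − 1. -/
theorem result {F V : Type*} [Field F] [Fintype F] [AddCommGroup V] [Module F V] [FiniteDimensional F V] [Nontrivial V]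
    (H : Subgroup (V ≃ₗ[F] V)) :
    (Subgroup.closure {h : ↥H | ∃ v : V, v ≠ 0 ∧ (h : V ≃ₗ[F] V) v = v}).index ≤ Fintype.card F ^ Module.finrank F V - 1 ∧
    ((∃ W : Submodule F V, W ≠ ⊥ ∧ W ≠ ⊤ ∧ ∀ h ∈ H, ∀ w ∈ W, h w ∈ W) →
      ((Subgroup.closure {h : ↥H | ∃ v : V, v ≠ 0 ∧ (h : V ≃ₗ[F] V) v = v}).index : ℝ) ≤ Real.sqrt ((Fintype.card F : ℝ) ^ Module.finrank F V) - 1) := by
  classical
  have hVfin : Finite V := Module.finite_of_finite F
  have hGLfin : Finite (V ≃ₗ[F] V) := DFunLike.finite _
  set R := Subgroup.closure {h : ↥H | ∃ v : V, v ≠ 0 ∧ (h : V ≃ₗ[F] V) v = v} with hR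
  have hq : 1 ≤ Fintype.card F := Fintype.card_pos
  constructor
  · obtain ⟨v, hv⟩ := exists_ne (0 : V)
    have := index_le_ncard R v (((⊤ : Submodule F V) : Set V) \ {0}) (Set.toFinite _)
      (fun h => ⟨Submodule.mem_top, fun h0 => hv ((LinearEquiv.map_eq_zero_iff (h : V ≃ₗ[F] V)).mp h0)⟩)
      (fun h hh => Subgroup.subset_closure ⟨v, hv, hh⟩)
    rwa [ncard_nonzero, finrank_top] at this
  · rintro ⟨W, hW0, hWtop, hWinv⟩
    by_cases hcase : 2 * Module.finrank F W ≤ Module.finrank F V
    · obtain ⟨w, hwW, hw0⟩ := Submodule.exists_mem_ne_zero_of_ne_bot hW0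
      have := index_le_ncard R w ((W : Set V) \ {0}) (Set.toFinite _)
        (fun h => ⟨hWinv h h.2 w hwW,
          fun h0 => hw0 ((LinearEquiv.map_eq_zero_iff (h : V ≃ₗ[F] V)).mp h0)⟩)
        (fun h hh => Subgroup.subset_closure ⟨w, hw0, hh⟩)
      rw [ncard_nonzero] at this
      exact real_bound _ _ _ _ hq hcase this
    · have hle : ∀ h : ↥H, W ≤ W.comap (((h : V ≃ₗ[F] V) : V →ₗ[F] V)) :=
        fun h w hw => hWinv h h.2 w hw
      let act : MulAction ↥H (V ⧸ W) :=
        { smul := fun h x => W.mapQ W (((h : V ≃ₗ[F] V) : V →ₗ[F] V)) (hle h) x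
          one_smul := by
            intro x
            induction x using Submodule.Quotient.induction_on with
            | H x => rfl
          mul_smul := by
            intro g h x
            induction x using Submodule.Quotient.induction_on with
            | H x => rfl }
      have hsmul : ∀ (h : ↥H) (x : V), h • (Submodule.Quotient.mk x : V ⧸ W) =
          Submodule.Quotient.mk ((h : V ≃ₗ[F] V) x) := fun h x => rfl
      obtain ⟨v, hv⟩ : ∃ v : V, v ∉ W := by
        by_contra hall
        push Not at hall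
        exact hWtop (eq_top_iff.mpr fun x _ => hall x)
      have hQfin : Finite (V ⧸ W) := Module.finite_of_finite F
      have := index_le_ncard R (Submodule.Quotient.mk v : V ⧸ W)
        (((⊤ : Submodule F (V ⧸ W)) : Set (V ⧸ W)) \ {0}) (Set.toFinite _)
        (fun h => ⟨Submodule.mem_top, fun h0 => by
          rw [hsmul, Set.mem_singleton_iff, Submodule.Quotient.mk_eq_zero] at h0
          have h1 := hWinv (h⁻¹ : ↥H) (h⁻¹ : ↥H).2 _ h0
          apply hv
          have h2 : ((h⁻¹ : ↥H) : V ≃ₗ[F] V) ((h : V ≃ₗ[F] V) v) = v := by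
            simp
          rwa [h2] at h1⟩)
        (fun h hh => by
          have h1 : h • (Submodule.Quotient.mk v : V ⧸ W) = Submodule.Quotient.mk v := hh
          rw [hsmul, Submodule.Quotient.eq] at h1
          obtain ⟨u, hu0, hu⟩ := exists_fixed W (h : V ≃ₗ[F] V) (hWinv h h.2) v hv h1
          exact Subgroup.subset_closure ⟨u, hu0, hu⟩)
      rw [ncard_nonzero, finrank_top] at this
      have hdim := Submodule.finrank_quotient_add_finrank W
      exact real_bound _ _ _ _ hq (by omega) this

end Cfsg.Agent.S4178
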