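import Cfsg.Statements.S4182
-- import your own Cfsg.Agent.* helpers here

set_option autoImplicit false
open Cfsg

namespace Cfsg.Agent.S4182

open scoped Pointwise

section aux

variable {G : Type*} [Group G]

/-- The set of `p`-elements of a subgroup. -/
def pe (p : ℕ) (X : Subgroup G) : Set G := {g : G | g ∈ X ∧ ∃ k : ℕ, orderOf g = p ^ k}

/-- `X` is generated by its `p`-elements. -/
def PG (p : ℕ) (X : Subgroup G) : Prop := X ≤ Subgroup.closure (pe p X)

theorem closure_pe_le (p : ℕ) (X : Subgroup G) : Subgroup.closure (pe p X) ≤ X :=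
  (Subgroup.closure_le X).mpr fun _ hg => hg.1

theorem pe_mono (p : ℕ) {X Y : Subgroup G} (h : X ≤ Y) : pe p X ⊆ pe p Y :=
  fun _ hg => ⟨h hg.1, hg.2⟩

theorem PG_top_of {p : ℕ} {X : Subgroup G} (h : PG p X) :
    Subgroup.closure {g : X | ∃ k : ℕ, orderOf g = p ^ k} = ⊤ := by
  apply Subgroup.map_injective X.subtype_injective
  rw [MonoidHom.map_closure, ← MonoidHom.range_eq_map, Subgroup.range_subtype]
  have hset : (X.subtype '' {g : X | ∃ k : ℕ, orderOf g = p ^ k}) = pe p X := by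
    ext g
    constructor
    · rintro ⟨y, ⟨k, hk⟩, rfl⟩
      exact ⟨y.2, k, by rw [← hk]; exact Subgroup.orderOf_coe y⟩
    · rintro ⟨hg, k, hk⟩
      exact ⟨⟨g, hg⟩, ⟨k, by rw [← hk]; exact (Subgroup.orderOf_mk g hg)⟩, rfl⟩
  rw [hset]
  exact le_antisymm (closure_pe_le p X) h

theorem PG_sup {p : ℕ} {X Y : Subgroup G} (hX : PG p X) (hY : PG p Y) : PG p (X ⊔ Y) :=
  sup_le (hX.trans (Subgroup.closure_mono (pe_mono p le_sup_left)))
    (hY.trans (Subgroup.closure_mono (pe_mono p le_sup_right)))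

theorem PG_smul {p : ℕ} {X : Subgroup G} (a : MulAut G) (hX : PG p X) : PG p (a • X) := by
  have h1 : a • X ≤ a • Subgroup.closure (pe p X) :=
    Subgroup.pointwise_smul_le_pointwise_smul_iff.mpr hX
  rw [Subgroup.smul_closure] at h1
  refine h1.trans (Subgroup.closure_mono ?_)
  rintro _ ⟨g, ⟨hg, k, hk⟩, rfl⟩
  refine ⟨Subgroup.smul_mem_pointwise_smul g a X hg, k, ?_⟩
  rw [← hk]
  exact MulEquiv.orderOf_eq a g

theorem PG_of_forall {p : ℕ} {X : Subgroup G} (h : ∀ g ∈ X, ∃ k : ℕ, orderOf g = p ^ k) :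
    PG p X := fun g hg => Subgroup.subset_closure ⟨hg, h g hg⟩

theorem PG_zpowers {p : ℕ} {x : G} (h : ∃ k : ℕ, orderOf x = p ^ k) :
    PG p (Subgroup.zpowers x) := by
  unfold PG
  rw [Subgroup.zpowers_le]
  exact Subgroup.subset_closure ⟨Subgroup.mem_zpowers x, h⟩

theorem conj_smul_eq_iff (g : G) (M : Subgroup G) :
    MulAut.conj g • M = M ↔ g ∈ Subgroup.normalizer (M : Set G) :=
  Subgroup.mem_normalizer_iff_map_conj_eq.symm

end aux

theorem pgroup_cover {G : Type*} [Group G] [Finite G] (p : ℕ) [Fact p.Prime] (hG : IsPGroup p G)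
    {ι : Type*} [Fintype ι] (K : ι → Subgroup G) (hK : ∀ i, K i ≠ ⊤)
    (hcov : ∀ g : G, ∃ i, g ∈ K i) : p + 1 ≤ Fintype.card ι := by
  classical
  by_contra hlt
  have hle : Fintype.card ι ≤ p := by omega
  have hp2 : 2 ≤ p := (Fact.out : p.Prime).two_le
  have hKi : ∀ i, p * Nat.card (K i) ≤ Nat.card G := by
    intro i
    obtain ⟨m, hm⟩ := hG.index (K i)
    have hm0 : m ≠ 0 := by
      rintro rfl
      exact hK i (Subgroup.index_eq_one.mp (by simpa using hm))
    have h1 : p ∣ (K i).index := hm ▸ dvd_pow_self p hm0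
    have h2 : p ≤ (K i).index :=
      Nat.le_of_dvd (Nat.pos_of_ne_zero Subgroup.FiniteIndex.index_ne_zero) h1
    calc p * Nat.card (K i) ≤ (K i).index * Nat.card (K i) := Nat.mul_le_mul_right _ h2
      _ = Nat.card G := by rw [mul_comm]; exact (K i).card_mul_index
  have hsub : ((Set.univ : Set G) \ {1}) ⊆ ⋃ i, ((K i : Set G) \ {1}) := by
    rintro g ⟨-, hg⟩
    obtain ⟨i, hi⟩ := hcov g
    exact Set.mem_iUnion.mpr ⟨i, hi, hg⟩
  have h1 : ((Set.univ : Set G) \ {1}).ncard = Nat.card G - 1 := by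
    rw [Set.ncard_sdiff_singleton_of_mem (Set.mem_univ _), Set.ncard_univ]
  have h2 : (⋃ i, ((K i : Set G) \ {1})).ncard ≤ ∑ i, (Nat.card (K i) - 1) := by
    refine (Set.ncard_iUnion_le_of_fintype _).trans (le_of_eq ?_)
    refine Finset.sum_congr rfl fun i _ => ?_
    rw [Set.ncard_sdiff_singleton_of_mem (K i).one_mem, ← Nat.card_coe_set_eq]
    rfl
  have h3 := (Set.ncard_le_ncard hsub (Set.toFinite _)).trans h2
  rw [h1] at h3
  have h4 : ∀ i, p * (Nat.card (K i) - 1) ≤ Nat.card G - p := by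
    intro i
    rw [Nat.mul_sub_one]
    exact Nat.sub_le_sub_right (hKi i) p
  have h5 : p * ∑ i, (Nat.card (K i) - 1) ≤ p * (Nat.card G - p) := by
    rw [Finset.mul_sum]
    calc ∑ i, p * (Nat.card (K i) - 1) ≤ ∑ _i : ι, (Nat.card G - p) :=
          Finset.sum_le_sum fun i _ => h4 i
      _ = Fintype.card ι * (Nat.card G - p) := by
          rw [Finset.sum_const, Finset.card_univ, smul_eq_mul]
      _ ≤ p * (Nat.card G - p) := Nat.mul_le_mul_right _ hle
  have h6 := Nat.le_of_mul_le_mul_left h5 (by omega)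
  obtain ⟨i, -⟩ := hcov 1
  have h7 := hKi i
  have h8 : 0 < Nat.card (K i) := Nat.card_pos
  have h9 : p ≤ Nat.card G := by nlinarith
  omega

theorem main (p : ℕ) [Fact p.Prime] {ι : Type*} [Fintype ι] :
    ∀ (n : ℕ) {G : Type*} [Group G] [Finite G], Nat.card G = n →
    Subgroup.closure {g : G | ∃ k : ℕ, orderOf g = p ^ k} = ⊤ → ∀ (K : ι → Subgroup G),
    (∀ i, K i ≠ ⊤) → (∀ g : G, (∃ k : ℕ, orderOf g = p ^ k) → ∃ i, g ∈ K i) →
    p + 1 ≤ Fintype.card ι := by
  intro n
  induction n using Nat.strong_induction_on with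
  | _ n ih =>
  intro G _ _ hcard hgen K hK hcov
  by_contra hlt
  have step1 : ∀ X : Subgroup G, X ≠ ⊤ → PG p X → ∃ i, X ≤ K i := by
    intro X hX hPG
    by_contra hno
    push Not at hno
    apply hlt
    have hlt' : Nat.card X < n := by
      rw [← hcard]
      by_contra hge
      exact hX (Subgroup.eq_top_of_card_eq X (le_antisymm (Subgroup.card_le_card_group X)
        (not_lt.mp hge)))
    apply ih _ hlt' rfl (PG_top_of hPG) (fun i => (K i).subgroupOf X)
    · intro i h
      exact hno i (Subgroup.subgroupOf_eq_top.mp h)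
    · rintro g ⟨k, hk⟩
      obtain ⟨i, hi⟩ := hcov (g : G) ⟨k, by rw [Subgroup.orderOf_coe]; exact hk⟩
      exact ⟨i, hi⟩
  by_cases hpG : IsPGroup p G
  · exact hlt (pgroup_cover p hpG K hK (fun g => hcov g (IsPGroup.iff_orderOf.mp hpG g)))
  let PP : Set (Subgroup G) := {X | X ≠ ⊤ ∧ PG p X}
  have hmaxex : ∀ X ∈ PP, ∃ M, X ≤ M ∧ Maximal (· ∈ PP) M :=
    fun X hX => (Set.toFinite PP).exists_le_maximal hX
  have KL : ∀ M M', Maximal (· ∈ PP) M → Maximal (· ∈ PP) M' → ∀ i, M ≤ K i → M' ≤ K i →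
      M = M' := by
    intro M M' hM hM' i h1 h2
    have hsup : M ⊔ M' ∈ PP :=
      ⟨fun h => hK i (top_le_iff.mp (h ▸ sup_le h1 h2)), PG_sup hM.prop.2 hM'.prop.2⟩
    have e1 : M = M ⊔ M' := le_antisymm le_sup_left (hM.le_of_ge hsup le_sup_left)
    have e2 : M' = M ⊔ M' := le_antisymm le_sup_right (hM'.le_of_ge hsup le_sup_right)
    rw [e1]; exact e2.symm
  have hPsmul : ∀ (a : MulAut G) X, X ∈ PP → a • X ∈ PP := by
    intro a X hX
    refine ⟨fun h => hX.1 ?_, PG_smul a hX.2⟩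
    rw [eq_top_iff]
    intro x _
    have : a • x ∈ a • X := h ▸ Subgroup.mem_top _
    exact Subgroup.smul_mem_pointwise_smul_iff.mp this
  have hconj : ∀ (a : MulAut G) M, Maximal (· ∈ PP) M → Maximal (· ∈ PP) (a • M) := by
    intro a M hM
    refine ⟨hPsmul a M hM.prop, fun Y hY hle => ?_⟩
    have h1 : M ≤ a⁻¹ • Y := Subgroup.pointwise_smul_subset_iff.mp hle
    have h2 := hM.le_of_ge (hPsmul a⁻¹ Y hY) h1
    exact Subgroup.subset_pointwise_smul_iff.mpr h2
  have hi : ∀ N, Maximal (· ∈ PP) N → ∃ i, N ≤ K i := fun N hN => step1 N hN.prop.1 hN.prop.2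
  obtain ⟨P⟩ : Nonempty (Sylow p G) := Sylow.nonempty
  have hPPP : (P : Subgroup G) ∈ PP := by
    refine ⟨fun h => hpG ?_, PG_of_forall ?_⟩
    · intro g
      obtain ⟨k, hk⟩ := P.isPGroup' ⟨g, h ▸ Subgroup.mem_top g⟩
      exact ⟨k, by simpa [Subtype.ext_iff] using hk⟩
    · intro g hg
      obtain ⟨k, hk⟩ := IsPGroup.iff_orderOf.mp P.isPGroup' ⟨g, hg⟩
      exact ⟨k, by rw [← hk]; exact (Subgroup.orderOf_mk g hg).symm⟩
  obtain ⟨M, hPM, hM⟩ := hmaxex P hPPP
  have claim : ∀ x : G, (∃ k : ℕ, orderOf x = p ^ k) → x ∈ Subgroup.normalizer (M : Set G) := by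
    rintro x ⟨k, hk⟩
    by_contra hx
    have hzPP : Subgroup.zpowers x ∈ PP := by
      refine ⟨fun h => hpG ?_, PG_zpowers ⟨k, hk⟩⟩
      apply IsPGroup.of_card (n := k)
      rw [← hk, ← Nat.card_zpowers, h, Subgroup.card_top]
    obtain ⟨M', hxM', hM'⟩ := hmaxex _ hzPP
    have hdist : ∀ j j' : ℕ, j < j' → j' < p →
        MulAut.conj (x ^ j) • M ≠ MulAut.conj (x ^ j') • M := by
      intro j j' hjj' hj'p heq
      have h1 : x ^ j' = x ^ j * x ^ (j' - j) := by
        rw [← pow_add]; congr 1; omega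
      rw [h1, map_mul, mul_smul] at heq
      have h2 := (smul_left_cancel _ heq).symm
      rw [conj_smul_eq_iff] at h2
      have hcop : Nat.Coprime (j' - j) (orderOf x) := by
        rw [hk]
        exact Nat.Coprime.pow_right k
          (Nat.coprime_of_lt_prime (by omega) (by omega) (Fact.out : p.Prime)).symm
      obtain ⟨m, hm⟩ := exists_pow_eq_self_of_coprime hcop
      exact hx (hm ▸ Subgroup.pow_mem _ h2 m)
    let f : Option (Fin p) → ι := fun o =>
      match o with
      | none => (hi M' hM').choose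
      | some j => (hi _ (hconj (MulAut.conj (x ^ (j : ℕ))) M hM)).choose
    have hfn : M' ≤ K (f none) := (hi M' hM').choose_spec
    have hfs : ∀ j : Fin p, MulAut.conj (x ^ (j : ℕ)) • M ≤ K (f (some j)) :=
      fun j => (hi _ (hconj (MulAut.conj (x ^ (j : ℕ))) M hM)).choose_spec
    have hns : ∀ j : Fin p, f none ≠ f (some j) := by
      intro j hj
      have h1 := KL M' _ hM' (hconj (MulAut.conj (x ^ (j : ℕ))) M hM) (f none) hfn (hj ▸ hfs j)
      have h2 : x ∈ MulAut.conj (x ^ (j : ℕ)) • M := h1 ▸ hxM' (Subgroup.mem_zpowers x)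
      rw [Subgroup.mem_pointwise_smul_iff_inv_smul_mem, ← map_inv, MulAut.smul_def,
        MulAut.conj_apply] at h2
      have h3 : (x ^ (j : ℕ))⁻¹ * x * (x ^ (j : ℕ))⁻¹⁻¹ = x := by
        rw [inv_inv, mul_assoc, ← pow_succ', pow_succ, inv_mul_cancel_left]
      rw [h3] at h2
      exact hx (Subgroup.le_normalizer h2)
    have hinj : Function.Injective f := by
      intro a b hab
      match a, b with
      | none, none => rfl
      | none, some j => exact absurd hab (hns j)
      | some j, none => exact absurd hab.symm (hns j)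
      | some j, some j' =>
        have h1 := KL _ _ (hconj (MulAut.conj (x ^ (j : ℕ))) M hM)
          (hconj (MulAut.conj (x ^ (j' : ℕ))) M hM) (f (some j)) (hfs j) (hab ▸ hfs j')
        rcases lt_trichotomy (j : ℕ) (j' : ℕ) with h | h | h
        · exact absurd h1 (hdist _ _ h j'.2)
        · rw [Fin.ext h]
        · exact absurd h1.symm (hdist _ _ h j.2)
    have := Fintype.card_le_of_injective f hinj
    rw [Fintype.card_option, Fintype.card_fin] at this
    exact hlt this
  have hnorm : Subgroup.normalizer (M : Set G) = ⊤ := by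
    rw [eq_top_iff, ← hgen, Subgroup.closure_le]
    exact fun x hx => claim x hx
  have hMn : M.Normal := Subgroup.normalizer_eq_top_iff.mp hnorm
  apply hM.prop.1
  rw [eq_top_iff, ← hgen, Subgroup.closure_le]
  rintro y ⟨k, hk⟩
  have hpg : IsPGroup p (Subgroup.zpowers y) := by
    apply IsPGroup.of_card (n := k)
    rw [Nat.card_zpowers, hk]
  obtain ⟨Q, hQ⟩ := hpg.exists_le_sylow
  obtain ⟨g, hg⟩ := MulAction.exists_smul_eq G P Q
  have h1 : (Q : Subgroup G) = MulAut.conj g • (P : Subgroup G) := by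
    rw [← hg]; rfl
  have h2 : (Q : Subgroup G) ≤ M := by
    rw [h1, ← Subgroup.Normal.conj_smul_eq_self g M]
    exact Subgroup.pointwise_smul_le_pointwise_smul_iff.mpr hPM
  exact h2 (hQ (Subgroup.mem_zpowers y))


/-- Let p be a prime and G a finite group generated by its p-elements. If a finite family of proper subgroups of G covers the set of p-elements of G (every element of p-power order lies in one of them), then the family has at least p + 1 members. -/
theorem result {G : Type*} [Group G] [Finite G] (p : ℕ) [Fact p.Prime] (hgen : Subgroup.closure {g : G | ∃ k : ℕ, orderOf g = p ^ k} = ⊤)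
    {ι : Type*} [Fintype ι] (K : ι → Subgroup G) (hK : ∀ i, K i ≠ ⊤)
    (hcov : ∀ g : G, (∃ k : ℕ, orderOf g = p ^ k) → ∃ i, g ∈ K i) :
    p + 1 ≤ Fintype.card ι := by
  exact main p _ rfl hgen K hK hcov

end Cfsg.Agent.S4182
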