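import Cfsg.Statements.S4184
import Cfsg.Agent.Lib.H84CsMDat
import Cfsg.Agent.Lib.H84CsFin

set_option autoImplicit false
open Cfsg

namespace Cfsg.Agent.S4184

/-- Let G and M be finite groups with trivial centres and the same set of conjugacy class sizes, and suppose the prime graph of M is disconnected: the prime divisors of #M split into two non-empty parts such that M has no element of order pq with p in one part and q in the other. Then #G = #M. -/
theorem result {G M : Type*}
    [Group G] [Finite G] [Group M] [Finite M] (hZG : Subgroup.center G = ⊥) (hZM : Subgroup.center M = ⊥)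
    (h : Set.range (fun g : G => (Subgroup.centralizer ({g} : Set G)).index) = Set.range (fun g : M => (Subgroup.centralizer ({g} : Set M)).index))
    (hdisc : ∃ A : Set ℕ, (∃ a ∈ A, a.Prime ∧ a ∣ Nat.card M) ∧ (∃ b ∉ A, b.Prime ∧ b ∣ Nat.card M) ∧
      ∀ a ∈ A, ∀ b ∉ A, a.Prime → b.Prime → a ∣ Nat.card M → b ∣ Nat.card M → ¬ ∃ x : M, orderOf x = a * b) :
    Nat.card G = Nat.card M := by
  obtain ⟨A, hA, hB, hd⟩ := hdisc
  have hM := Cfsg.Agent.Lib.H84CsMDat.mdat A hA hB hd
  have hG : Cfsg.Agent.Lib.H84CsDefs.Dat (Set.range (fun g : G => Cfsg.Agent.Lib.H84CsDefs.idx g)) (Nat.card M)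
      {a | a ∈ A ∧ a.Prime ∧ a ∣ Nat.card M} {b | b ∉ A ∧ b.Prime ∧ b ∣ Nat.card M} := by
    have e : Set.range (fun g : G => Cfsg.Agent.Lib.H84CsDefs.idx g) =
        Set.range (fun g : M => Cfsg.Agent.Lib.H84CsDefs.idx g) := h
    rw [e]
    exact hM
  exact Cfsg.Agent.Lib.H84CsFin.card_eq hZG hG

end Cfsg.Agent.S4184
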