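import Cfsg.Statements.S4194
import Cfsg.Agent.Lib.Helper58CaminaHerzog

set_option autoImplicit false
open Cfsg

namespace Cfsg.Agent.S4194

open Cfsg.Agent.Lib.Helper40Sylow Cfsg.Agent.Lib.Helper58CaminaHerzog

/-- A finite group G has commutative Sylow 2-subgroups if and only if every 2-element of G (element of order a power of 2) is 2-central, that is, its centralizer contains a Sylow 2-subgroup of G. -/
theorem result {G : Type*} [Group G] [Finite G] (P : Sylow 2 G) :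
    IsMulCommutative (P : Subgroup G) ↔ ∀ x : G, (∃ k : ℕ, orderOf x = 2 ^ k) → (∃ Q : Sylow 2 G, (Q : Subgroup G) ≤ Subgroup.centralizer ({x} : Set G)) := by
  constructor
  · intro hP x hx
    obtain ⟨Q, hQ⟩ := (isPGroup_zpowers hx).exists_le_sylow
    have hxQ : x ∈ (Q : Subgroup G) := hQ (Subgroup.mem_zpowers x)
    obtain ⟨g, hg⟩ := MulAction.exists_smul_eq G P Q
    have hg' : cj g (P : Subgroup G) = Q := by rw [← sylow_smul_eq_cj, hg]
    refine ⟨Q, fun q hq => ?_⟩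
    rw [Subgroup.mem_centralizer_singleton_iff]
    rw [← hg', mem_cj] at hxQ hq
    have h1 : (⟨_, hq⟩ : (P : Subgroup G)) * ⟨_, hxQ⟩ = ⟨_, hxQ⟩ * ⟨_, hq⟩ := hP.is_comm.comm _ _
    have h2 : g⁻¹ * q * g * (g⁻¹ * x * g) = g⁻¹ * x * g * (g⁻¹ * q * g) := congrArg Subtype.val h1
    calc q * x = g * (g⁻¹ * q * g * (g⁻¹ * x * g)) * g⁻¹ := by group
      _ = g * (g⁻¹ * x * g * (g⁻¹ * q * g)) * g⁻¹ := by rw [h2]
      _ = x * q := by group
  · intro h
    exact ⟨⟨fun a b => Subtype.ext (sylow_comm h P a.2 b.2)⟩⟩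

end Cfsg.Agent.S4194
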