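import Cfsg.Statements.S4195
-- import your own Cfsg.Agent.* helpers here
import Cfsg.Agent.Lib.Helper73Class

set_option autoImplicit false
open Cfsg

namespace Cfsg.Agent.S4195

/-- Let x be a non-identity element of a finite group G whose centralizer contains a Sylow 2-subgroup of G. If x is conjugate to its inverse, then x has order 2. -/
theorem result {G : Type*} [Group G] [Finite G] (x : G) (hx : x ≠ 1) (P : Sylow 2 G) (hP : (P : Subgroup G) ≤ Subgroup.centralizer ({x} : Set G)) (hreal : IsConj x x⁻¹) : orderOf x = 2 := by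
  classical
  have hodd : ¬ 2 ∣ Nat.card {y : G // IsConj x y} := by
    rw [← Cfsg.Agent.Lib.Helper73Class.index_centralizer_eq_card]
    intro h
    exact P.not_dvd_index (h.trans (Subgroup.index_dvd_of_le hP))
  have : Fintype {y : G // IsConj x y} := Fintype.ofFinite _
  let f : Function.End {y : G // IsConj x y} := fun y =>
    ⟨(y : G)⁻¹, hreal.trans (isConj_iff.mpr (by
      obtain ⟨c, hc⟩ := isConj_iff.mp y.2
      exact ⟨c, by rw [← hc]; group⟩))⟩
  have hf : f ^ 2 ^ 1 = 1 := by
    funext y
    apply Subtype.ext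
    show (((y : G)⁻¹)⁻¹ : G) = y
    simp
  have hmod := Equiv.Perm.card_fixedPoints_modEq (p := 2) (n := 1) hf
  rw [Nat.card_eq_fintype_card] at hodd
  have hne : Fintype.card (Function.fixedPoints f) ≠ 0 := by
    intro h0
    rw [h0] at hmod
    exact hodd ((Nat.modEq_zero_iff_dvd).mp hmod)
  obtain ⟨⟨y, hy⟩⟩ := Fintype.card_pos_iff.mp (Nat.pos_of_ne_zero hne)
  have hy' : ((y : G)⁻¹ : G) = y := congrArg Subtype.val hy
  obtain ⟨c, hc⟩ := isConj_iff.mp y.2
  have hx2 : x ^ 2 = 1 := by
    rw [← hc] at hy'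
    have h1 : x⁻¹ = x := by
      have h2 : c * x⁻¹ * c⁻¹ = c * x * c⁻¹ := by
        rw [← hy']; group
      simpa using h2
    rw [pow_two]
    nth_rewrite 1 [← h1]
    simp
  exact orderOf_eq_prime hx2 hx

end Cfsg.Agent.S4195
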