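import Cfsg.Statements.S4196
-- import your own Cfsg.Agent.* helpers here
import Cfsg.Agent.S4195

set_option autoImplicit false
open Cfsg

namespace Cfsg.Agent.S4196

/-- A finite group G has elementary abelian Sylow 2-subgroups (commutative with every element squaring to the identity) if and only if every 2-element of G has a Sylow 2-subgroup in its centralizer and is conjugate to its inverse. -/
theorem result {G : Type*} [Group G] [Finite G] (P : Sylow 2 G) :
    (IsMulCommutative (P : Subgroup G) ∧ ∀ x ∈ (P : Subgroup G), x ^ 2 = 1) ↔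
      ∀ x : G, (∃ k : ℕ, orderOf x = 2 ^ k) → (∃ Q : Sylow 2 G, (Q : Subgroup G) ≤ Subgroup.centralizer ({x} : Set G)) ∧ IsConj x x⁻¹ := by
  constructor
  · rintro ⟨hcomm, hexp⟩ x ⟨k, hk⟩
    have hpg : IsPGroup 2 (Subgroup.zpowers x) := by
      apply IsPGroup.of_card (n := k)
      rw [Nat.card_zpowers, hk]
    obtain ⟨Q, hQ⟩ := hpg.exists_le_sylow
    obtain ⟨g, hg⟩ := MulAction.exists_smul_eq G P Q
    have hmem : ∀ q ∈ (Q : Subgroup G), g⁻¹ * q * g ∈ (P : Subgroup G) := by
      intro q hq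
      rw [← hg, Sylow.coe_subgroup_smul, Subgroup.mem_pointwise_smul_iff_inv_smul_mem] at hq
      simpa [MulAut.smul_def] using hq
    have hxQ : x ∈ (Q : Subgroup G) := hQ (Subgroup.mem_zpowers x)
    refine ⟨⟨Q, ?_⟩, ?_⟩
    · intro q hq
      rw [Subgroup.mem_centralizer_iff]
      intro y hy
      rw [Set.mem_singleton_iff] at hy
      subst hy
      have h1 := hmem q hq
      have h2 := hmem y hxQ
      have h3 : (⟨_, h2⟩ : (P : Subgroup G)) * ⟨_, h1⟩ = ⟨_, h1⟩ * ⟨_, h2⟩ := mul_comm' _ _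
      have h4 : (g⁻¹ * y * g) * (g⁻¹ * q * g) = (g⁻¹ * q * g) * (g⁻¹ * y * g) :=
        congrArg Subtype.val h3
      have h5 : g⁻¹ * (y * q) * g = g⁻¹ * (q * y) * g := by
        calc g⁻¹ * (y * q) * g = (g⁻¹ * y * g) * (g⁻¹ * q * g) := by group
          _ = (g⁻¹ * q * g) * (g⁻¹ * y * g) := h4
          _ = g⁻¹ * (q * y) * g := by group
      simpa using h5
    · have h1 := hexp _ (hmem x hxQ)
      have h2 : x ^ 2 = 1 := by
        have h3 : g⁻¹ * x ^ 2 * g = 1 := by
          rw [← h1, pow_two, pow_two]; group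
        have h4 : x ^ 2 = g * (g⁻¹ * x ^ 2 * g) * g⁻¹ := by group
        rw [h4, h3]; group
      have h3 : x⁻¹ = x := by
        rw [inv_eq_iff_mul_eq_one, ← pow_two]; exact h2
      rw [h3]
  · intro h
    have hexp : ∀ x ∈ (P : Subgroup G), x ^ 2 = 1 := by
      intro x hx
      obtain ⟨k, hk⟩ := (IsPGroup.iff_orderOf.mp P.isPGroup') ⟨x, hx⟩
      have hk' : orderOf x = 2 ^ k := by
        rw [← hk]; exact (Subgroup.orderOf_mk x hx).symm
      obtain ⟨⟨Q, hQ⟩, hreal⟩ := h x ⟨k, hk'⟩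
      by_cases hx1 : x = 1
      · rw [hx1]; simp
      · have := Cfsg.Agent.S4195.result x hx1 Q hQ hreal
        rw [← this]; exact pow_orderOf_eq_one x
    refine ⟨⟨⟨fun a b => ?_⟩⟩, hexp⟩
    apply Subtype.ext
    have ha := hexp a a.2
    have hb := hexp b b.2
    have hab := hexp (a * b) ((P : Subgroup G).mul_mem a.2 b.2)
    show (a : G) * b = b * a
    have h1 : (a : G)⁻¹ = a := by rw [inv_eq_iff_mul_eq_one, ← pow_two]; exact ha
    have h2 : (b : G)⁻¹ = b := by rw [inv_eq_iff_mul_eq_one, ← pow_two]; exact hb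
    have h3 : ((a : G) * b)⁻¹ = a * b := by rw [inv_eq_iff_mul_eq_one, ← pow_two]; exact hab
    rw [← h3, mul_inv_rev, h1, h2]

end Cfsg.Agent.S4196
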