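import Mathlib
import Cfsg.Statements.S4216
import Cfsg.Agent.S4250

set_option autoImplicit false
open Cfsg
open scoped commutatorElement

namespace Cfsg.Agent.S4216

/-- Grün's first Theorem: if `P` is a Sylow `p`-subgroup of the finite group `G`, then `P ∩ G'` is the subgroup generated by `P ∩ N_G(P)'` together with the subgroups `P ∩ z P' z⁻¹` for all `z ∈ G`, where `'` denotes the derived subgroup and `N_G(P)` the normalizer of `P`. -/
theorem result {G : Type*} [Group G] [Finite G] {p : ℕ} [Fact p.Prime] (P : Sylow p G) : (P : Subgroup G) ⊓ commutator G = ((P : Subgroup G) ⊓ ⁅Subgroup.normalizer ((P : Subgroup G) : Set G), Subgroup.normalizer ((P : Subgroup G) : Set G)⁆) ⊔ ⨆ z : G, (P : Subgroup G) ⊓ (⁅(P : Subgroup G), (P : Subgroup G)⁆).map (MulAut.conj z).toMonoidHom := by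
  apply le_antisymm
  · rw [Cfsg.Agent.S4250.result p P]
    refine sup_le ?_ (iSup_le fun Q => iSup_le fun hQ => iSup_le fun x => iSup_le fun hx => ?_)
    · refine le_trans (le_inf ?_ ?_) le_sup_left
      · exact Cfsg.Agent.S4250.commutator_le_of_normalizes le_rfl
      · exact Subgroup.commutator_mono Subgroup.le_normalizer le_rfl
    · -- `H = P ⊓ Q`, `x` a `p`-element normalizing `H`
      set H : Subgroup G := (P : Subgroup G) ⊓ (Q : Subgroup G) with hH
      obtain ⟨hxN, k, hk⟩ := hx
      have hzN : Subgroup.zpowers x ≤ Subgroup.normalizer (H : Set G) := by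
        rw [Subgroup.zpowers_le]; exact hxN
      have hHp : IsPGroup p H := P.2.to_le inf_le_left
      have hxp : IsPGroup p (Subgroup.zpowers x) := by
        apply IsPGroup.of_card (n := k)
        rw [Nat.card_zpowers, hk]
      have hR : IsPGroup p (H ⊔ Subgroup.zpowers x : Subgroup G) :=
        hHp.to_sup_of_normal_left' hxp hzN
      obtain ⟨P', hP'⟩ := hR.exists_le_sylow
      obtain ⟨z, hz⟩ := MulAction.exists_smul_eq G P P'
      refine le_trans ?_ (le_trans (le_iSup _ z) le_sup_right)
      refine le_inf ?_ ?_
      · exact (Cfsg.Agent.S4250.commutator_le_of_normalizes hzN).trans inf_le_left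
      · have h1 : ⁅H, Subgroup.zpowers x⁆ ≤ ⁅(P' : Subgroup G), (P' : Subgroup G)⁆ :=
          Subgroup.commutator_mono (le_sup_left.trans hP') (le_sup_right.trans hP')
        refine h1.trans ?_
        rw [Subgroup.map_commutator]
        have h2 : (P' : Subgroup G) = (P : Subgroup G).map (MulAut.conj z).toMonoidHom := by
          rw [← hz]; rfl
        rw [h2]
  · refine sup_le ?_ (iSup_le fun z => ?_)
    · exact inf_le_inf_left _ (Subgroup.commutator_mono le_top le_top)
    · refine inf_le_inf_left _ ?_
      rw [Subgroup.map_commutator]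
      exact Subgroup.commutator_mono le_top le_top

end Cfsg.Agent.S4216
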