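import Cfsg.Statements.S4230
-- import your own Cfsg.Agent.* helpers here

set_option autoImplicit false
open Cfsg

namespace Cfsg.Agent.S4230

/-- Let p be an odd prime, q a natural number not divisible by p, and e the multiplicative order of q modulo p. For a natural number f, p divides the value at q of the f-th cyclotomic polynomial if and only if f = e·p^j for some j ≥ 0. -/
theorem result (p q f : ℕ) (hp : p.Prime) (hp2 : p ≠ 2) (hpq : ¬ p ∣ q) :
    ((p : ℤ) ∣ (Polynomial.cyclotomic f ℤ).eval (q : ℤ)) ↔ ∃ j : ℕ, f = orderOf (q : ZMod p) * p ^ j := by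
  haveI : Fact p.Prime := ⟨hp⟩
  have hq0 : (q : ZMod p) ≠ 0 := by
    rw [Ne, ZMod.natCast_eq_zero_iff]; exact hpq
  have hpow : (q : ZMod p) ^ (p - 1) = 1 := ZMod.pow_card_sub_one_eq_one hq0
  have hdvd : orderOf (q : ZMod p) ∣ p - 1 := orderOf_dvd_of_pow_eq_one hpow
  have hp1 : 0 < p - 1 := Nat.sub_pos_of_lt hp.one_lt
  have hepos : 0 < orderOf (q : ZMod p) := Nat.pos_of_dvd_of_pos hdvd hp1
  have hpe : ¬ p ∣ orderOf (q : ZMod p) := by
    intro h
    have := Nat.le_of_dvd hp1 (h.trans hdvd)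
    omega
  have h1 : ((p : ℤ) ∣ (Polynomial.cyclotomic f ℤ).eval (q : ℤ)) ↔
      (Polynomial.cyclotomic f (ZMod p)).IsRoot (q : ZMod p) := by
    rw [← ZMod.intCast_zmod_eq_zero_iff_dvd, Polynomial.IsRoot.def]
    have := Polynomial.cyclotomic.eval_apply (q : ℤ) f (Int.castRingHom (ZMod p))
    simp only [eq_intCast, Int.cast_natCast] at this
    rw [this]
  rw [h1]
  rcases Nat.eq_zero_or_pos f with rfl | hf
  · simp only [Polynomial.cyclotomic_zero, Polynomial.IsRoot.def, Polynomial.eval_one, one_ne_zero,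
      false_iff, not_exists]
    intro j hj
    have : 0 < orderOf (q : ZMod p) * p ^ j := Nat.mul_pos hepos (pow_pos hp.pos j)
    omega
  · obtain ⟨k, m, hm, rfl⟩ := Nat.exists_eq_pow_mul_and_not_dvd hf.ne' p hp.ne_one
    haveI : NeZero (m : ZMod p) := ⟨by rw [Ne, ZMod.natCast_eq_zero_iff]; exact hm⟩
    rw [Polynomial.isRoot_cyclotomic_prime_pow_mul_iff_of_charP, IsPrimitiveRoot.iff_orderOf]
    constructor
    · intro h
      exact ⟨k, by rw [h, mul_comm]⟩
    · rintro ⟨j, hj⟩
      apply Nat.dvd_antisymm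
      · have h2 : orderOf (q : ZMod p) ∣ p ^ k * m := ⟨p ^ j, hj⟩
        exact (Nat.Coprime.dvd_mul_left
          (Nat.Coprime.pow_right k ((Nat.Prime.coprime_iff_not_dvd hp).mpr hpe).symm)).mp h2
      · have h2 : m ∣ orderOf (q : ZMod p) * p ^ j := ⟨p ^ k, by rw [← hj, mul_comm]⟩
        exact (Nat.Coprime.dvd_mul_right
          (Nat.Coprime.pow_right j ((Nat.Prime.coprime_iff_not_dvd hp).mpr hm).symm)).mp h2

end Cfsg.Agent.S4230
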