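import Cfsg.Statements.S4231
import Cfsg.Agent.Lib.Helper29AltPQ

set_option autoImplicit false
open Cfsg

namespace Cfsg.Agent.S4231

open Cfsg.Agent.Lib.Helper29AltPQ

theorem aux (n : ℕ) (hn : 5 ≤ n) (G : Subgroup (MulAut (alternatingGroup (Fin n))))
    (hG : (MulAut.conj : alternatingGroup (Fin n) →* MulAut (alternatingGroup (Fin n))).range ≤ G)
    (p q : ℕ) [Fact p.Prime] [Fact q.Prime] (hpq : p < q) (h : ∀ g : G, orderOf g ≠ p * q)
    (Q : Sylow q G) : IsMulCommutative (Q : Subgroup G) := by
  have hp : p.Prime := Fact.out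
  have hq : q.Prime := Fact.out
  have hlt : n < q ^ 2 := by
    by_contra hcon
    obtain ⟨g, hg⟩ := exists_order n p q hp hq hpq (not_lt.1 hcon)
    have hinj : Function.Injective
        (MulAut.conj : alternatingGroup (Fin n) →* MulAut (alternatingGroup (Fin n))) := by
      intro x y hxy
      have h1 : (MulAut.conjNormal (x : Equiv.Perm (Fin n)) : MulAut (alternatingGroup (Fin n))) =
          MulAut.conjNormal (y : Equiv.Perm (Fin n)) := by
        rw [MulAut.conjNormal_val, MulAut.conjNormal_val, hxy]
      exact Subtype.ext (conjNormal_injective n (by omega) h1)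
    apply h ⟨MulAut.conj g, hG ⟨g, rfl⟩⟩
    rw [Subgroup.orderOf_mk, orderOf_injective _ hinj, hg]
  have hX : IsPGroup q ((Q : Subgroup G).map G.subtype) := Q.2.map _
  refine ⟨⟨fun a b => ?_⟩⟩
  apply Subtype.ext
  apply Subtype.ext
  exact aut_pgroup_comm n hn q hlt (by have := hp.two_le; omega) _ hX _ _
    ⟨a.1, a.2, rfl⟩ ⟨b.1, b.2, rfl⟩

/-- Let n ≥ 5 and let G be a group of automorphisms of the alternating group of degree n containing all inner automorphisms. If p ≠ q are primes and G has no element of order pq, then every Sylow p-subgroup of G is abelian or every Sylow q-subgroup of G is abelian. -/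
theorem result (n : ℕ) (hn : 5 ≤ n) (G : Subgroup (MulAut (alternatingGroup (Fin n))))
    (hG : (MulAut.conj : alternatingGroup (Fin n) →* MulAut (alternatingGroup (Fin n))).range ≤ G)
    (p q : ℕ) [Fact p.Prime] [Fact q.Prime] (hpq : p ≠ q) (h : ∀ g : G, orderOf g ≠ p * q) :
    (∀ P : Sylow p G, IsMulCommutative (P : Subgroup G)) ∨ (∀ Q : Sylow q G, IsMulCommutative (Q : Subgroup G)) := by
  rcases lt_or_gt_of_ne hpq with hlt | hlt
  · exact Or.inr (fun Q => aux n hn G hG p q hlt h Q)
  · exact Or.inl (fun P => aux n hn G hG q p hlt (fun g => by rw [mul_comm]; exact h g) P)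

end Cfsg.Agent.S4231
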