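import Cfsg.Statements.S4236
import Cfsg.Agent.Lib.Helper75Hall17B

set_option autoImplicit false
open Cfsg

namespace Cfsg.Agent.S4236

open Cfsg.Agent.Lib.Helper75Hall17

/-- No finite group has exactly 35 Sylow 17-subgroups. -/
theorem result {G : Type*} [Group G] [Finite G] : Nat.card (Sylow 17 G) ≠ 35 := by
  classical
  intro hcard
  have : Fintype (Sylow 17 G) := Fintype.ofFinite _
  obtain ⟨P0⟩ : Nonempty (Sylow 17 G) := inferInstance
  let φ : G →* Equiv.Perm (Sylow 17 G) := MulAction.toPermHom G (Sylow 17 G)
  let π : G →* φ.range := φ.rangeRestrict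
  have hπ : Function.Surjective π := φ.rangeRestrict_surjective
  have hact : ∀ (g : G) (Q : Sylow 17 G), π g • Q = g • Q := fun g Q => rfl
  have hcfg : Config φ.range (Sylow 17 G) P0 (P0.mapSurjective hπ) :=
    { card := by rw [← Nat.card_eq_fintype_card, hcard]
      faithful := by
        intro g hg
        apply Subtype.ext
        apply Equiv.ext
        intro Q
        exact hg Q
      trans := by
        refine ⟨fun a b => ?_⟩
        obtain ⟨g, hg⟩ := MulAction.exists_smul_eq G a b
        exact ⟨π g, hg⟩
      fix0 := by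
        intro g hg
        obtain ⟨g0, hg0, rfl⟩ := Subgroup.mem_map.1 hg
        rw [hact]
        exact Sylow.smul_eq_iff_mem_normalizer.2 (Subgroup.le_normalizer hg0)
      fix1 := by
        intro Q hQ
        have hfix : Q ∈ MulAction.fixedPoints (P0 : Subgroup G) (Sylow 17 G) := by
          intro g
          have := hQ (π g) (Subgroup.mem_map.2 ⟨g, g.2, rfl⟩)
          rw [hact] at this
          exact this
        rw [P0.2.sylow_mem_fixedPoints_iff] at hfix
        exact Sylow.ext (P0.3 Q.2 hfix)
      norm := by
        intro g hg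
        obtain ⟨g0, rfl⟩ := hπ g
        rw [hact] at hg
        have h1 := Sylow.smul_eq_iff_mem_normalizer.1 hg
        exact Subgroup.le_normalizer_map π (Subgroup.mem_map.2 ⟨g0, h1, rfl⟩) }
  exact Config.false_aux _ _ _ rfl hcfg

end Cfsg.Agent.S4236
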