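import Cfsg.Statements.S4237
import Cfsg.Agent.Lib.H98KulMain
import Cfsg.Agent.Lib.H98KulRed

set_option autoImplicit false
open Cfsg

namespace Cfsg.Agent.S4237

/-- Let G be a finite group, p a prime and a a natural number such that p^(a+1) divides the order of G. Then the number of subgroups of G of order p^a is congruent to 1 or to 1 + p modulo p². -/
theorem result {G : Type*} [Group G] [Finite G] (p a : ℕ) (hp : p.Prime) (hdvd : p ^ (a + 1) ∣ Nat.card G) :
    Nat.card {H : Subgroup G // Nat.card H = p ^ a} ≡ 1 [MOD p ^ 2] ∨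
      Nat.card {H : Subgroup G // Nat.card H = p ^ a} ≡ 1 + p [MOD p ^ 2] := by
  haveI : Fact p.Prime := ⟨hp⟩
  have hne : Nat.card G ≠ 0 := Nat.card_pos.ne'
  obtain ⟨P⟩ : Nonempty (Sylow p G) := inferInstance
  set n := (Nat.card G).factorization p with hn
  have hP : Nat.card P = p ^ n := Sylow.card_eq_multiplicity P
  have han : a < n := by
    have := (Nat.Prime.pow_dvd_iff_le_factorization hp hne).1 hdvd
    omega
  have hred := Cfsg.Agent.Lib.H98KulRed.sc_modEq P n a hP han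
  change Cfsg.Agent.Lib.Helper98KulDefs.sc p a G ≡ 1 [MOD p ^ 2] ∨
    Cfsg.Agent.Lib.Helper98KulDefs.sc p a G ≡ 1 + p [MOD p ^ 2]
  by_cases hcy : IsCyclic ↥(P : Subgroup G)
  · left
    rw [Cfsg.Agent.Lib.H98KulSub.sc_cyclic n a hP hcy han.le] at hred
    exact hred
  by_cases hp2 : p = 2
  · subst hp2
    have h1 := Cfsg.Agent.S3975.result (G := G) 2 a hp (dvd_trans (pow_dvd_pow 2 (Nat.le_succ a)) hdvd)
    change Cfsg.Agent.Lib.Helper98KulDefs.sc 2 a G ≡ 1 [MOD 2] at h1
    unfold Nat.ModEq at h1 ⊢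
    norm_num
    omega
  rcases Nat.eq_zero_or_pos a with ha0 | ha1
  · left
    subst ha0
    have h1 : Cfsg.Agent.Lib.Helper98KulDefs.sc p 0 G = 1 := by
      unfold Cfsg.Agent.Lib.Helper98KulDefs.sc
      rw [Nat.card_eq_one_iff_unique]
      refine ⟨⟨?_⟩, ⟨⟨⊥, by simp⟩⟩⟩
      rintro ⟨x, hx⟩ ⟨y, hy⟩
      rw [pow_zero] at hx hy
      have hx' : x = ⊥ := Subgroup.eq_bot_of_card_eq x hx
      have hy' : y = ⊥ := Subgroup.eq_bot_of_card_eq y hy
      simp [hx', hy']
    rw [h1]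
  · right
    exact hred.trans (Cfsg.Agent.Lib.H98KulMain.kulakoff n hP hcy (fun h => absurd h hp2) a ha1 han)

end Cfsg.Agent.S4237
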