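import Mathlib
import Cfsg.Statements.S4238
import Cfsg.Agent.Lib.Helper11Frobenius
import Cfsg.Agent.Lib.Helper11OddAut

set_option autoImplicit false
open Cfsg Subgroup
open scoped commutatorElement

namespace Cfsg.Agent.S4238

theorem exists_orderOf_eq_exponent {K : Type*} [Group K] [Finite K] (p : ℕ) [Fact p.Prime]
    (h : IsPGroup p K) : ∃ k : K, orderOf k = Monoid.exponent K := by
  obtain ⟨k, hk⟩ := Finite.exists_max (fun x : K => orderOf x)
  refine ⟨k, dvd_antisymm (Monoid.order_dvd_exponent k) ?_⟩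
  apply Monoid.exponent_dvd_of_forall_pow_eq_one
  intro x
  obtain ⟨a, ha⟩ := h.exists_orderOf_eq_pow x
  obtain ⟨b, hb⟩ := h.exists_orderOf_eq_pow k
  have h1 : p ^ a ≤ p ^ b := by rw [← ha, ← hb]; exact hk x
  have h2 : a ≤ b := (Nat.pow_le_pow_iff_right (Fact.out : p.Prime).one_lt).mp h1
  have h3 : orderOf x ∣ orderOf k := by rw [ha, hb]; exact pow_dvd_pow p h2
  exact orderOf_dvd_iff_pow_eq_one.mp h3

section A
variable {K : Type*} [Group K] [Finite K] (p q : ℕ) [Fact p.Prime] (hq : q.Prime) (hpq : p ≠ q)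
  (V : Subgroup K) [V.Normal] (hVp : IsPGroup p V) (hV1 : V ≠ ⊥)
  (hVc : ∀ a ∈ V, ∀ b ∈ V, a * b = b * a)
  (y : K) (hy : y ^ q = 1) (hgen : V ⊔ zpowers y = ⊤)
  (hfix : ∀ v ∈ V, y * v * y⁻¹ = v → v = 1)

include hq hy hfix in
theorem fix_pow (i : ℕ) (hi : ¬ q ∣ i) (v : K) (hv : v ∈ V) (h : y ^ i * v * (y ^ i)⁻¹ = v) :
    v = 1 := by
  have hcop : Nat.Coprime i q := ((Nat.Prime.coprime_iff_not_dvd hq).mpr hi).symm
  obtain ⟨m, -, hm⟩ := Nat.exists_mul_mod_eq_one_of_coprime hcop hq.one_lt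
  have h1 : y ^ (i * m) = y := by
    rw [pow_eq_pow_mod (i * m) hy, hm, pow_one]
  have h2 : Commute (y ^ i) v := by
    have : y ^ i * v = v * y ^ i := by
      calc y ^ i * v = (y ^ i * v * (y ^ i)⁻¹) * y ^ i := by group
        _ = v * y ^ i := by rw [h]
    exact this
  have h3 : Commute y v := by
    have := h2.pow_left m
    rwa [← pow_mul, h1] at this
  apply hfix v hv
  rw [h3.eq]; group

include hgen in
theorem exists_rep (k : K) : ∃ v ∈ V, ∃ i : ℕ, k = v * y ^ i := by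
  have h1 : k ∈ ((V ⊔ zpowers y : Subgroup K) : Set K) := by rw [hgen]; trivial
  rw [normal_mul] at h1
  obtain ⟨v, hv, z, hz, rfl⟩ := Set.mem_mul.mp h1
  obtain ⟨i, rfl⟩ := mem_powers_iff_mem_zpowers.mpr hz
  exact ⟨v, hv, i, rfl⟩

include hVc in
theorem conj_rep (v : K) (hv : v ∈ V) (i : ℕ) (a : K) (ha : a ∈ V) :
    (v * y ^ i) * a * (v * y ^ i)⁻¹ = y ^ i * a * (y ^ i)⁻¹ := by
  have h1 : y ^ i * a * (y ^ i)⁻¹ ∈ V := ‹V.Normal›.conj_mem a ha _
  calc (v * y ^ i) * a * (v * y ^ i)⁻¹ = v * (y ^ i * a * (y ^ i)⁻¹) * v⁻¹ := by group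
    _ = (y ^ i * a * (y ^ i)⁻¹) * v * v⁻¹ := by rw [hVc v hv _ h1]
    _ = _ := by group

theorem pow_rep (v : K) (hv : v ∈ V) (z : K) (n : ℕ) : ∃ w ∈ V, (v * z) ^ n = w * z ^ n := by
  induction n with
  | zero => exact ⟨1, V.one_mem, by simp⟩
  | succ n ih =>
    obtain ⟨w, hw, h⟩ := ih
    refine ⟨w * (z ^ n * v * (z ^ n)⁻¹), V.mul_mem hw (‹V.Normal›.conj_mem v hv _), ?_⟩
    rw [pow_succ, h, pow_succ]; group

include hq hy hfix hVc in
theorem pow_q_eq_one (v : K) (hv : v ∈ V) (i : ℕ) (hi : ¬ q ∣ i) : (v * y ^ i) ^ q = 1 := by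
  obtain ⟨w, hw, h⟩ := pow_rep V v hv (y ^ i) q
  have h1 : (y ^ i) ^ q = 1 := by rw [← pow_mul, mul_comm, pow_mul, hy, one_pow]
  rw [h1, mul_one] at h
  rw [h]
  apply fix_pow q hq V y hy hfix i hi w hw
  rw [← conj_rep V hVc y v hv i w hw, ← h]
  have : Commute (v * y ^ i) ((v * y ^ i) ^ q) := Commute.pow_right (Commute.refl _) q
  rw [this.eq]; group

include hVp in
theorem eq_one_of_mem (M : Subgroup K) (hM : (Nat.card M).Coprime p) (x : K) (hxV : x ∈ V)
    (hxM : x ∈ M) : x = 1 := by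
  obtain ⟨j, hj⟩ := hVp ⟨x, hxV⟩
  have hj' : x ^ p ^ j = 1 := by simpa using congrArg Subtype.val hj
  have h1 : orderOf x ∣ p ^ j := orderOf_dvd_of_pow_eq_one hj'
  have h2 : orderOf x ∣ Nat.card M := by
    have := orderOf_dvd_natCard (⟨x, hxM⟩ : M)
    rwa [Subgroup.orderOf_mk] at this
  have h3 : orderOf x = 1 := Nat.eq_one_of_dvd_coprimes (Nat.Coprime.pow_right j hM) h2 h1
  exact orderOf_eq_one_iff.mp h3

include hq hpq hVp hV1 hVc hy hgen hfix in
theorem core_eq_bot : Cfsg.pPrimeCore p K = ⊥ := by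
  unfold Cfsg.pPrimeCore
  rw [sSup_eq_bot]
  rintro M ⟨hMn, hMc⟩
  rw [eq_bot_iff]
  intro m hm
  rw [mem_bot]
  obtain ⟨v, hv, i, rfl⟩ := exists_rep V y hgen m
  by_cases hi : q ∣ i
  · obtain ⟨c, rfl⟩ := hi
    have h1 : y ^ (q * c) = 1 := by rw [pow_mul, hy, one_pow]
    rw [h1, mul_one] at hm ⊢
    exact eq_one_of_mem p V hVp M hMc v hv hm
  · exfalso
    apply hV1
    rw [eq_bot_iff]
    intro a ha
    rw [mem_bot]
    apply fix_pow q hq V y hy hfix i hi a ha
    rw [← conj_rep V hVc y v hv i a ha]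
    set m := v * y ^ i with hmdef
    have h1 : m * a * m⁻¹ * a⁻¹ ∈ V := V.mul_mem (‹V.Normal›.conj_mem a ha m) (V.inv_mem ha)
    have h2 : m * a * m⁻¹ * a⁻¹ ∈ M := by
      have : m * a * m⁻¹ * a⁻¹ = m * (a * m⁻¹ * a⁻¹) := by group
      rw [this]
      exact M.mul_mem hm (hMn.conj_mem _ (M.inv_mem hm) a)
    have h3 := eq_one_of_mem p V hVp M hMc _ h1 h2
    calc m * a * m⁻¹ = (m * a * m⁻¹ * a⁻¹) * a := by group
      _ = a := by rw [h3, one_mul]

include hq hpq hVp hV1 hVc hy hgen hfix in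
theorem orderOf_ne_exponent (k : K) : orderOf k ≠ Monoid.exponent K := by
  intro hk
  have hp : p.Prime := Fact.out
  -- p divides the exponent
  have h1 : p ∣ Monoid.exponent K := by
    obtain ⟨v, hv, hv1⟩ : ∃ v ∈ V, v ≠ 1 := by
      by_contra hcon
      push Not at hcon
      exact hV1 ((eq_bot_iff_forall V).mpr hcon)
    obtain ⟨j, hj⟩ := hVp ⟨v, hv⟩
    have hj' : v ^ p ^ j = 1 := by simpa using congrArg Subtype.val hj
    obtain ⟨l, hl, hl2⟩ := (Nat.dvd_prime_pow hp).mp (orderOf_dvd_of_pow_eq_one hj')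
    have hl0 : l ≠ 0 := by
      rintro rfl
      rw [pow_zero] at hl2
      exact hv1 (orderOf_eq_one_iff.mp hl2)
    exact (dvd_pow_self p hl0).trans (hl2 ▸ Monoid.order_dvd_exponent v)
  have h2 : q ∣ Monoid.exponent K := by
    have hy1 : y ≠ 1 := by
      rintro rfl
      apply hV1
      rw [eq_bot_iff_forall]
      intro v hv
      exact hfix v hv (by simp)
    have : Fact q.Prime := ⟨hq⟩
    have : orderOf y = q := orderOf_eq_prime hy hy1
    exact this ▸ Monoid.order_dvd_exponent y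
  rw [← hk] at h1 h2
  obtain ⟨v, hv, i, rfl⟩ := exists_rep V y hgen k
  by_cases hi : q ∣ i
  · obtain ⟨c, rfl⟩ := hi
    have h3 : y ^ (q * c) = 1 := by rw [pow_mul, hy, one_pow]
    rw [h3, mul_one] at h2
    obtain ⟨j, hj⟩ := hVp ⟨v, hv⟩
    have hj' : v ^ p ^ j = 1 := by simpa using congrArg Subtype.val hj
    have h4 : q ∣ p ^ j := h2.trans (orderOf_dvd_of_pow_eq_one hj')
    exact hpq ((Nat.prime_dvd_prime_iff_eq hq hp).mp (hq.dvd_of_dvd_pow h4)).symm
  · have h3 := pow_q_eq_one q hq V hVc y hy hfix v hv i hi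
    have h4 : p ∣ q := h1.trans (orderOf_dvd_of_pow_eq_one h3)
    exact hpq ((Nat.prime_dvd_prime_iff_eq hp hq).mp h4)

end A

/-- The section built from a minimal Frobenius pair. -/
theorem section_of_pair {X : Type*} [Group X] [Finite X] (p q : ℕ) [Fact p.Prime] (hq : q.Prime)
    (hpq : p ≠ q) (Q C : Subgroup X) [Q.Normal] [C.Normal] (hQ : IsPGroup p Q) (g : X)
    (hg : (orderOf g).Coprime p) (htop : Q ⊔ zpowers g = ⊤)
    (hgq : ∀ x ∈ Q, g ^ q * x = x * g ^ q)
    (hCQ : C ≤ Q) (hC : ∀ x ∈ Q, x ∈ C ↔ g * x * g⁻¹ = x)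
    (hcomm : ∀ a ∈ Q, ∀ b ∈ Q, a * b * (b * a)⁻¹ ∈ C) (hne : ∃ x ∈ Q, x ∉ C) :
    ∃ N : Subgroup X, ∃ _ : N.Normal, Cfsg.pPrimeCore p (X ⧸ N) = ⊥ ∧
      ∀ k : X ⧸ N, orderOf k ≠ Monoid.exponent (X ⧸ N) := by
  -- `g ^ q` is central
  have hcen : ∀ x : X, g ^ q * x = x * g ^ q := by
    have h1 : (⊤ : Subgroup X) ≤ centralizer {g ^ q} := by
      rw [← htop, sup_le_iff]
      constructor
      · intro x hx
        rw [mem_centralizer_singleton_iff]
        exact (hgq x hx).symm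
      · rw [zpowers_le, mem_centralizer_singleton_iff]
        exact ((Commute.refl g).pow_right q).eq
    intro x
    exact (mem_centralizer_singleton_iff.mp (h1 (mem_top x))).symm
  have hZn : (zpowers (g ^ q)).Normal := by
    constructor
    rintro n ⟨k, rfl⟩ x
    have : Commute x ((g ^ q) ^ k) := (Commute.zpow_right (show Commute x (g ^ q) from (hcen x).symm) k)
    have h2 : x * (g ^ q) ^ k * x⁻¹ = (g ^ q) ^ k := by rw [this.eq]; group
    simp only at h2 ⊢
    rw [h2]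
    exact ⟨k, rfl⟩
  let N : Subgroup X := C ⊔ zpowers (g ^ q)
  have hNn : N.Normal := sup_normal _ _
  -- `N ∩ Q = C`
  have hNQ : ∀ x ∈ Q, x ∈ N → x ∈ C := by
    intro x hx hxN
    have h1 : x ∈ ((C ⊔ zpowers (g ^ q) : Subgroup X) : Set X) := hxN
    rw [normal_mul] at h1
    obtain ⟨c, hc, z, hz, rfl⟩ := Set.mem_mul.mp h1
    have hzQ : z ∈ Q := by
      have : z = c⁻¹ * (c * z) := by group
      rw [this]
      exact Q.mul_mem (Q.inv_mem (hCQ hc)) hx
    have hz1 : z = 1 := by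
      obtain ⟨j, hj⟩ := hQ ⟨z, hzQ⟩
      have hj' : z ^ p ^ j = 1 := by simpa using congrArg Subtype.val hj
      have h2 : orderOf z ∣ p ^ j := orderOf_dvd_of_pow_eq_one hj'
      have h3 : orderOf z ∣ orderOf g := by
        obtain ⟨k, rfl⟩ := hz
        exact (orderOf_dvd_of_pow_eq_one (by
          rw [← zpow_natCast, ← zpow_mul, mul_comm, zpow_mul, zpow_natCast, ← pow_mul, mul_comm,
            pow_mul, pow_orderOf_eq_one, one_pow, one_zpow]))
      exact orderOf_eq_one_iff.mp (Nat.eq_one_of_dvd_coprimes (Nat.Coprime.pow_right j hg) h3 h2)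
    rw [hz1, mul_one]
    exact hc
  let φ := QuotientGroup.mk' N
  have hφ : Function.Surjective φ := QuotientGroup.mk'_surjective N
  have hker : ∀ x : X, φ x = 1 ↔ x ∈ N := fun x => QuotientGroup.eq_one_iff x
  let V : Subgroup (X ⧸ N) := Q.map φ
  have hVn : V.Normal := Normal.map ‹Q.Normal› φ hφ
  have hVp : IsPGroup p V := hQ.map φ
  have hV1 : V ≠ ⊥ := by
    obtain ⟨x, hx, hxC⟩ := hne
    intro hV
    have : φ x ∈ V := mem_map_of_mem φ hx
    rw [hV, mem_bot, hker] at this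
    exact hxC (hNQ x hx this)
  have hVc : ∀ a ∈ V, ∀ b ∈ V, a * b = b * a := by
    rintro _ ⟨a, ha, rfl⟩ _ ⟨b, hb, rfl⟩
    have h1 : φ (a * b * (b * a)⁻¹) = 1 := (hker _).mpr (le_sup_left (a := C) (hcomm a ha b hb))
    rw [map_mul, map_inv, mul_inv_eq_one] at h1
    rw [← map_mul, ← map_mul, h1]
  have hy : (φ g) ^ q = 1 := by
    rw [← map_pow, hker]
    exact le_sup_right (a := C) (mem_zpowers _)
  have hgen : V ⊔ zpowers (φ g) = ⊤ := by
    have : (Q ⊔ zpowers g).map φ = ⊤ := by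
      rw [htop, ← MonoidHom.range_eq_map, MonoidHom.range_eq_top]
      exact hφ
    rw [← this, Subgroup.map_sup, MonoidHom.map_zpowers]
  have hfix : ∀ v ∈ V, φ g * v * (φ g)⁻¹ = v → v = 1 := by
    rintro _ ⟨x, hx, rfl⟩ h
    have h1 : φ (g * x * g⁻¹ * x⁻¹) = 1 := by
      rw [map_mul, map_mul, map_mul, map_inv, map_inv, h, mul_inv_cancel]
    rw [hker] at h1
    have h2 : g * x * g⁻¹ * x⁻¹ ∈ Q := Q.mul_mem (‹Q.Normal›.conj_mem x hx g) (Q.inv_mem hx)
    have h3 := hNQ _ h2 h1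
    set a := g * x * g⁻¹ * x⁻¹ with ha
    have hab : g * x * g⁻¹ = a * x := by rw [ha]; group
    have hga : g * a = a * g := by
      have := (hC a h2).mp h3
      calc g * a = (g * a * g⁻¹) * g := by group
        _ = a * g := by rw [this]
    obtain ⟨j, hj⟩ := hQ ⟨a, h2⟩
    have hj' : a ^ p ^ j = 1 := by simpa using congrArg Subtype.val hj
    have ha1 := Cfsg.Agent.Lib.Helper11OddAut.eq_one_of_step g x a hab hga hg j hj'
    rw [ha1, one_mul] at hab
    exact (hker x).mpr (le_sup_left (a := C) ((hC x hx).mpr hab))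
  exact ⟨N, hNn, core_eq_bot p q hq hpq V hVp hV1 hVc (φ g) hy hgen hfix,
    orderOf_ne_exponent p q hq hpq V hVp hV1 hVc (φ g) hy hgen hfix⟩

open Cfsg.Agent.Lib.Helper11Frobenius Cfsg.Agent.Lib.Helper11OddAut in
theorem exists_min_pair {G : Type*} [Group G] [Finite G] (p : ℕ) (h : ¬ FrobCond p G) :
    ∃ (Q : Subgroup G) (g : G), IsPGroup p Q ∧ g ∈ normalizer (Q : Set G) ∧ (orderOf g).Coprime p ∧
      g ∉ centralizer (Q : Set G) ∧
      ∀ (Q' : Subgroup G) (g' : G), IsPGroup p Q' → g' ∈ normalizer (Q' : Set G) →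
        (orderOf g').Coprime p → g' ∉ centralizer (Q' : Set G) →
        Nat.card Q + orderOf g ≤ Nat.card Q' + orderOf g' := by
  classical
  let P : ℕ → Prop := fun n => ∃ (Q : Subgroup G) (g : G), IsPGroup p Q ∧
    g ∈ normalizer (Q : Set G) ∧ (orderOf g).Coprime p ∧ g ∉ centralizer (Q : Set G) ∧
    Nat.card Q + orderOf g = n
  have hex : ∃ n, P n := by
    unfold FrobCond at h
    push Not at h
    obtain ⟨Q, hQ, g, hg, hgo, hgc⟩ := h
    exact ⟨_, Q, g, hQ, hg, hgo, hgc, rfl⟩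
  obtain ⟨Q, g, hQ, hg, hgo, hgc, hn⟩ := Nat.find_spec hex
  refine ⟨Q, g, hQ, hg, hgo, hgc, ?_⟩
  intro Q' g' hQ' hg' hgo' hgc'
  rw [hn]
  exact Nat.find_min' hex ⟨Q', g', hQ', hg', hgo', hgc', rfl⟩

theorem mem_normalizer_inf {G : Type*} [Group G] (A B : Subgroup G) (g : G)
    (hA : g ∈ normalizer (A : Set G)) (hB : g ∈ normalizer (B : Set G)) :
    g ∈ normalizer ((A ⊓ B : Subgroup G) : Set G) := by
  rw [mem_normalizer_iff] at hA hB ⊢
  intro h
  rw [mem_inf, mem_inf, hA h, hB h]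

open Cfsg.Agent.Lib.Helper11Frobenius Cfsg.Agent.Lib.Helper11OddAut in
theorem bad_section {G : Type*} [Group G] [Finite G] (p : ℕ) [Fact p.Prime] (h : ¬ FrobCond p G) :
    ∃ (H : Subgroup G) (N : Subgroup H) (_ : N.Normal), Cfsg.pPrimeCore p (H ⧸ N) = ⊥ ∧
      ∀ k : H ⧸ N, orderOf k ≠ Monoid.exponent (H ⧸ N) := by
  obtain ⟨Q, g, hQ, hgN, hgo, hgc, hmin⟩ := exists_min_pair p h
  have hp : p.Prime := Fact.out
  have hfin : IsOfFinOrder g := isOfFinOrder_of_finite g
  -- (i)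
  have hmin1 : ∀ Q1 : Subgroup G, Q1 ≤ Q → Q1 ≠ Q → g ∈ normalizer (Q1 : Set G) →
      g ∈ centralizer (Q1 : Set G) := by
    intro Q1 h1 h2 h3
    by_contra hcon
    have h4 := hmin Q1 g (hQ.to_le h1) h3 hgo hcon
    have h5 := card_lt_of_lt (lt_of_le_of_ne h1 h2)
    omega
  -- (ii)
  have hg1 : orderOf g ≠ 1 := by
    intro h1
    rw [orderOf_eq_one_iff] at h1
    exact hgc (h1 ▸ one_mem _)
  set q := (orderOf g).minFac with hqdef
  have hq : q.Prime := Nat.minFac_prime hg1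
  have hqd : q ∣ orderOf g := Nat.minFac_dvd _
  have hpq : p ≠ q := by
    intro h1
    have : p ∣ orderOf g := h1 ▸ hqd
    exact hp.one_lt.ne' (Nat.Coprime.eq_one_of_dvd hgo.symm this)
  have hgq : g ^ q ∈ centralizer (Q : Set G) := by
    by_contra hcon
    have h1 : orderOf (g ^ q) = orderOf g / q := orderOf_pow_of_dvd hq.ne_zero hqd
    have h2 : orderOf (g ^ q) ∣ orderOf g := h1 ▸ Nat.div_dvd_of_dvd hqd
    have h3 := hmin Q (g ^ q) hQ (pow_mem hgN q) (Nat.Coprime.coprime_dvd_left h2 hgo) hcon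
    have h4 : orderOf g / q < orderOf g := Nat.div_lt_self (orderOf_pos g) hq.one_lt
    omega
  set C : Subgroup G := Q ⊓ centralizer {g} with hCdef
  have hCQ : C ≤ Q := inf_le_left
  have hCmem : ∀ x ∈ Q, x ∈ C ↔ g * x * g⁻¹ = x := by
    intro x hx
    rw [hCdef, mem_inf, mem_centralizer_singleton_iff]
    constructor
    · rintro ⟨-, h1⟩
      rw [← h1]; group
    · intro h1
      refine ⟨hx, ?_⟩
      calc x * g = (g * x * g⁻¹) * g := by rw [h1]
        _ = g * x := by group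
  have hgC : g ∈ normalizer (C : Set G) := by
    apply mem_normalizer_of_conj_mem C g hfin
    intro z hz
    rw [(hCmem z (hCQ hz)).mp hz]
    exact hz
  have hle_of : ∀ R : Subgroup G, R ≤ Q → g ∈ centralizer (R : Set G) → R ≤ C := by
    intro R hR h1 x hx
    rw [hCmem x (hR hx), ← h1 x hx]; group
  have hCne : C ≠ Q := by
    intro h1
    apply hgc
    intro x hx
    have h2 := (hCmem x hx).mp (h1 ▸ hx)
    calc x * g = (g * x * g⁻¹) * g := by rw [h2]
      _ = g * x := by group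
  have hClt : C < Q := lt_of_le_of_ne hCQ hCne
  -- (v)
  have hQC : Q ≤ normalizer (C : Set G) := by
    have h1 := exists_mem_normalizer_not_mem Q C hQ hClt
    by_contra hcon
    have h2 : Q ⊓ normalizer (C : Set G) ≠ Q := by
      intro h3
      exact hcon (inf_eq_left.mp h3)
    have h3 := hmin1 _ inf_le_left h2 (mem_normalizer_inf _ _ g hgN (le_normalizer hgC))
    exact absurd (hle_of _ inf_le_left h3) (not_le_of_gt h1)
  -- (vi)
  have hDQ : ⁅Q, Q⁆ ≤ Q := by
    rw [commutator_le]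
    intro a ha b hb
    exact Q.mul_mem (Q.mul_mem (Q.mul_mem ha hb) (Q.inv_mem ha)) (Q.inv_mem hb)
  have hDne : ⁅Q, Q⁆ ≠ Q := by
    intro h1
    have : Group.IsNilpotent Q := hQ.isNilpotent
    have : Nontrivial Q := by
      rw [Subgroup.nontrivial_iff_ne_bot]
      rintro rfl
      exact not_lt_bot hClt
    have h2 := Group.IsSolvable.commutator_lt_top_of_nontrivial Q
    apply h2.ne
    apply Subgroup.map_injective Q.subtype_injective
    rw [_root_.commutator_def, map_commutator, ← MonoidHom.range_eq_map, Subgroup.range_subtype, h1]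
  have hgD : g ∈ normalizer ((⁅Q, Q⁆ : Subgroup G) : Set G) := by
    rw [mem_normalizer_iff_map_conj_eq] at hgN ⊢
    rw [map_commutator, hgN]
  have hDC : ⁅Q, Q⁆ ≤ C := hle_of _ hDQ (hmin1 _ hDQ hDne hgD)
  -- pass to `H`
  set H : Subgroup G := Q ⊔ zpowers g with hH
  have hQH : Q ≤ H := le_sup_left
  have hgH : g ∈ H := le_sup_right (a := Q) (mem_zpowers g)
  have hQ'n : (Q.subgroupOf H).Normal :=
    (normal_subgroupOf_iff_le_normalizer hQH).mpr (sup_le le_normalizer (zpowers_le.mpr hgN))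
  have hC'n : (C.subgroupOf H).Normal :=
    (normal_subgroupOf_iff_le_normalizer (hCQ.trans hQH)).mpr (sup_le hQC (zpowers_le.mpr hgC))
  have hz : (zpowers g).subgroupOf H = zpowers (⟨g, hgH⟩ : H) := by
    ext x
    rw [mem_subgroupOf, mem_zpowers_iff, mem_zpowers_iff]
    constructor
    · rintro ⟨k, hk⟩
      exact ⟨k, Subtype.ext (by simpa using hk)⟩
    · rintro ⟨k, hk⟩
      exact ⟨k, by simpa using congrArg Subtype.val hk⟩
  obtain ⟨N, hN, h1, h2⟩ := section_of_pair (X := H) p q hq hpq (Q.subgroupOf H) (C.subgroupOf H)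
    hQ.comap_subtype ⟨g, hgH⟩ (by rw [Subgroup.orderOf_mk]; exact hgo)
    (by rw [← hz, ← subgroupOf_sup hQH le_sup_right, subgroupOf_self])
    (by
      intro x hx
      apply Subtype.ext
      simpa using (hgq x.1 hx).symm)
    (by
      intro x hx
      exact hCQ hx)
    (by
      intro x hx
      rw [mem_subgroupOf, hCmem x.1 hx]
      constructor
      · intro h3
        exact Subtype.ext (by simpa using h3)
      · intro h3
        simpa using congrArg Subtype.val h3)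
    (by
      intro a ha b hb
      rw [mem_subgroupOf]
      apply hDC
      have := commutator_mem_commutator (H₁ := Q) (H₂ := Q) ha hb
      have h4 : ((a * b * (b * a)⁻¹ : H) : G) = ⁅(a : G), (b : G)⁆ := by
        rw [commutatorElement_def]
        simp [mul_assoc]
      rw [h4]
      exact this)
    (by
      obtain ⟨x, hx, hxC⟩ := SetLike.exists_of_lt hClt
      exact ⟨⟨x, hQH hx⟩, hx, hxC⟩)
  exact ⟨H, N, hN, h1, h2⟩

open Cfsg.Agent.Lib.Helper11Frobenius in
/-- Let G be a finite group and p a prime. Then G has a normal p-complement if and only if every section K = H/N of G (N a normal subgroup of a subgroup H) whose largest normal subgroup of order prime to p is trivial contains an element whose order equals the exponent of K. -/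
theorem result {G : Type*} [Group G] [Finite G] (p : ℕ) [Fact p.Prime] :
    Cfsg.HasNormalPComplement p G ↔
      ∀ (H : Subgroup G) (N : Subgroup H) [N.Normal], Cfsg.pPrimeCore p (H ⧸ N) = ⊥ →
        ∃ k : H ⧸ N, orderOf k = Monoid.exponent (H ⧸ N) := by
  have hp : p.Prime := Fact.out
  constructor
  · intro h H N _ hcore
    have h1 : HasNPC p G := hasNPC_iff.mpr h
    obtain ⟨M, hMn, hMc, k, hk⟩ := h1.subgroup H
    have hφ : Function.Surjective (QuotientGroup.mk' N) := QuotientGroup.mk'_surjective N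
    have h2 : M.map (QuotientGroup.mk' N) ≤ Cfsg.pPrimeCore p (H ⧸ N) := by
      apply le_sSup
      exact ⟨hMn.map _ hφ, Nat.Coprime.coprime_dvd_left (card_map_dvd M _) hMc⟩
    rw [hcore, le_bot_iff] at h2
    have h3 : M ≤ N := by
      intro m hm
      have : QuotientGroup.mk' N m ∈ M.map (QuotientGroup.mk' N) := mem_map_of_mem _ hm
      rw [h2, mem_bot] at this
      exact (QuotientGroup.eq_one_iff m).mp this
    have h4 : Nat.card (H ⧸ N) ∣ p ^ k := by
      rw [← hk, ← Subgroup.index_eq_card]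
      exact index_dvd_of_le h3
    obtain ⟨j, -, hj⟩ := (Nat.dvd_prime_pow hp).mp h4
    exact exists_orderOf_eq_exponent p (IsPGroup.of_card hj)
  · intro h
    by_contra hcon
    have h1 : ¬ FrobCond p G := by
      intro h2
      exact hcon (hasNPC_iff.mp (hasNPC_iff_frobCond.mpr h2))
    obtain ⟨H, N, hN, h2, h3⟩ := bad_section p h1
    obtain ⟨k, hk⟩ := h H N h2
    exact h3 k hk

end Cfsg.Agent.S4238
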