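import Cfsg.Statements.S4242
import Cfsg.Agent.Lib.Helper31Nilpotent
import Cfsg.Agent.Lib.Helper11Frobenius
import Cfsg.Agent.Lib.Helper1SylowInv
import Cfsg.Agent.Lib.Helper54PMin

set_option autoImplicit false
open Cfsg

namespace Cfsg.Agent.S4242

open Subgroup Cfsg.Agent.Lib.Helper40Sylow Cfsg.Agent.Lib.Helper11Frobenius Cfsg.Agent.Lib.Helper54PMin

theorem nilpotent_of_le {G : Type*} [Group G] {A B : Subgroup G} (h : A ≤ B) (hB : Group.IsNilpotent B) :
    Group.IsNilpotent A :=
  Group.nilpotent_of_mulEquiv (subgroupOfEquivOfLe h)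

theorem comm_of_nilpotent {G : Type*} [Group G] {M : Subgroup G} (hM : Group.IsNilpotent M) {x y : G}
    (hx : x ∈ M) (hy : y ∈ M) (hco : (orderOf x).Coprime (orderOf y)) : x * y = y * x := by
  have h := Cfsg.Agent.Lib.Helper31Nilpotent.coprime_commute ↥M ⟨x, hx⟩ ⟨y, hy⟩
    (by rw [Subgroup.orderOf_mk, Subgroup.orderOf_mk]; exact hco)
  exact congrArg Subtype.val h

section
variable {G : Type*} [Group G] [Finite G] {p : ℕ} [Fact p.Prime]

omit [Fact p.Prime] in
theorem exists_nil (H : ∀ M : Subgroup G, IsCoatom M → p ∣ Nat.card M → Group.IsNilpotent M)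
    {X : Subgroup G} (hX : X ≠ ⊤) (hpX : p ∣ Nat.card X) : Group.IsNilpotent X := by
  obtain ⟨M, hM, hXM⟩ := (eq_top_or_exists_le_coatom X).resolve_left hX
  exact nilpotent_of_le hXM (H M hM (hpX.trans (card_dvd_of_le hXM)))

omit [Finite G] in
theorem coprime_order {K P : Subgroup G} (hK : ¬ p ∣ Nat.card K) (hP : IsPGroup p P) {x y : G} (hx : x ∈ K)
    (hy : y ∈ P) : (orderOf x).Coprime (orderOf y) := by
  have hp : p.Prime := Fact.out
  have h1 : orderOf x ∣ Nat.card K := by
    have := orderOf_dvd_natCard (⟨x, hx⟩ : K)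
    rwa [Subgroup.orderOf_mk] at this
  obtain ⟨k, hk⟩ := hP ⟨y, hy⟩
  have h2 : y ^ p ^ k = 1 := by
    have := congrArg Subtype.val hk
    simpa using this
  have h3 : orderOf y ∣ p ^ k := orderOf_dvd_of_pow_eq_one h2
  apply Nat.Coprime.coprime_dvd_left h1
  apply Nat.Coprime.coprime_dvd_right h3
  apply Nat.Coprime.pow_right
  exact ((Nat.Prime.coprime_iff_not_dvd hp).mpr hK).symm

omit [Finite G] in
/-- if `A ≤ K`, `A.index` is a power of `p` and `p ∤ |K|` then `A = K`. -/
theorem le_of_index_pow {A K : Subgroup G} (hAK : A ≤ K) (hK : ¬ p ∣ Nat.card K) {n : ℕ}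
    (hA : A.index ∣ p ^ n) : K ≤ A := by
  have hp : p.Prime := Fact.out
  rw [← relIndex_eq_one]
  have h1 : A.relIndex K ∣ p ^ n := (relIndex_dvd_index_of_le hAK).trans hA
  have h2 : A.relIndex K ∣ Nat.card K := relIndex_dvd_card A K
  have h3 : (p ^ n).Coprime (Nat.card K) := Nat.Coprime.pow_left _ ((Nat.Prime.coprime_iff_not_dvd hp).mpr hK)
  exact Nat.eq_one_of_dvd_coprimes h3 h1 h2

theorem index_dvd_of_sup {N A : Subgroup G} (hN : N.Normal) (h : N ⊔ A = ⊤) : A.index ∣ Nat.card N := by
  rw [index_eq_relIndex_of_sup_eq_top hN h]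
  exact relIndex_dvd_card A N

theorem forward (hpG : p ∣ Nat.card G)
    (H : ∀ M : Subgroup G, IsCoatom M → p ∣ Nat.card M → Group.IsNilpotent M)
    (h1 : ¬ Group.IsNilpotent G) (h2 : ¬ Cfsg.IsMinimalNonNilpotent G) :
    ∃ Z K : Subgroup G, Z.Normal ∧ K.Normal ∧ Z ⊓ K = ⊥ ∧ Z ⊔ K = ⊤ ∧ Nat.card Z = p ∧
          Cfsg.IsMinimalNonNilpotent K ∧ ¬ p ∣ Nat.card K := by
  have hp : p.Prime := Fact.out
  unfold Cfsg.IsMinimalNonNilpotent at h2
  push Not at h2
  obtain ⟨H₀, hH₀, hH₀n⟩ := h2 h1
  obtain ⟨K, hK, hH₀K⟩ := (eq_top_or_exists_le_coatom H₀).resolve_left hH₀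
  have hKn : ¬ Group.IsNilpotent K := fun h => hH₀n (nilpotent_of_le hH₀K h)
  have hpK : ¬ p ∣ Nat.card K := fun h => hKn (H K hK h)
  obtain ⟨P⟩ : Nonempty (Sylow p G) := inferInstance
  obtain ⟨m, hm⟩ := IsPGroup.iff_card.mp P.2
  have hPne : (P : Subgroup G) ≠ ⊥ := Sylow.ne_bot_of_dvd_card P hpG
  have hpP : p ∣ Nat.card (P : Subgroup G) := by
    rw [hm]
    rcases Nat.eq_zero_or_pos m with rfl | hm0
    · exfalso; apply hPne
      rw [← card_eq_one]; simpa using hm
    · exact dvd_pow_self p hm0.ne'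
  have hinf : ∀ Q : Subgroup G, IsPGroup p Q → Q ⊓ K = ⊥ := by
    intro Q hQ
    obtain ⟨n, hn⟩ := IsPGroup.iff_card.mp hQ
    apply Disjoint.eq_bot
    apply disjoint_of_coprime_natCard
    rw [hn]
    exact Nat.Coprime.pow_left _ ((Nat.Prime.coprime_iff_not_dvd hp).mpr hpK)
  have hsup : ∀ Q : Subgroup G, IsPGroup p Q → Q ≠ ⊥ → Q ⊔ K = ⊤ := by
    intro Q hQ hQ1
    apply hK.2
    refine lt_of_le_of_ne le_sup_right ?_
    intro h
    apply hQ1
    rw [← hinf Q hQ]
    exact (inf_eq_left.mpr (by rw [h]; exact le_sup_left)).symm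
  -- `P` is normal
  have hPn : (P : Subgroup G).Normal := by
    by_contra hPn
    have step1 : ∀ Q : Subgroup G, Q.Normal → IsPGroup p Q → Q = ⊥ := by
      intro Q hQn hQ
      by_contra hQ1
      have e1 : K.index = K.relIndex Q := index_eq_relIndex_of_sup_eq_top hQn (hsup Q hQ hQ1)
      have e2 : K.relIndex Q = Nat.card Q := by
        rw [← inf_relIndex_right, inf_comm, hinf Q hQ, relIndex_bot_left]
      have e3 : Nat.card K * Nat.card Q = Nat.card Q * Q.index := by
        rw [Q.card_mul_index, ← K.card_mul_index, e1, e2]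
      have e4 : Q.index = Nat.card K := by
        have hpos : 0 < Nat.card Q := Nat.card_pos
        apply Nat.eq_of_mul_eq_mul_left hpos
        rw [← e3]; ring
      have e5 : ¬ p ∣ Q.index := by rw [e4]; exact hpK
      have e6 : Q ≤ (P : Subgroup G) := hQ.le_sylow_of_normal P
      have e7 : (P : Subgroup G) = Q := (hQ.toSylow e5).3 P.2 e6
      apply hPn
      rw [e7]
      exact hQn
    have step2 : FrobCond p G := by
      intro Q hQ g hg hgp
      by_cases hQ1 : Q = ⊥
      · subst hQ1
        rw [mem_centralizer_iff]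
        intro y hy
        have : y = 1 := by simpa using hy
        subst this; simp
      · have hN : normalizer (Q : Set G) ≠ ⊤ := by
          intro h
          exact hQ1 (step1 Q (normalizer_eq_top_iff.mp h) hQ)
        obtain ⟨n, hn⟩ := IsPGroup.iff_card.mp hQ
        have hpQ : p ∣ Nat.card Q := by
          rw [hn]
          rcases Nat.eq_zero_or_pos n with rfl | hn0
          · exfalso; apply hQ1
            rw [← card_eq_one]; simpa using hn
          · exact dvd_pow_self p hn0.ne'
        have hnil := exists_nil H hN (hpQ.trans (card_dvd_of_le le_normalizer))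
        rw [mem_centralizer_iff]
        intro y hy
        obtain ⟨k, hk⟩ := hQ ⟨y, hy⟩
        have h2 : y ^ p ^ k = 1 := by
          have := congrArg Subtype.val hk
          simpa using this
        have h3 : orderOf y ∣ p ^ k := orderOf_dvd_of_pow_eq_one h2
        exact comm_of_nilpotent hnil (le_normalizer hy) hg
          (Nat.Coprime.coprime_dvd_left h3 (Nat.Coprime.pow_left _ hgp.symm))
    obtain ⟨N, hN, hNc, k, hk⟩ := frobenius step2
    have hKN : K ≤ N := by
      intro x hx
      rw [mem_iff_coprime N hNc k hk]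
      have h1 : orderOf x ∣ Nat.card K := by
        have := orderOf_dvd_natCard (⟨x, hx⟩ : K)
        rwa [Subgroup.orderOf_mk] at this
      exact Nat.Coprime.coprime_dvd_left h1 ((Nat.Prime.coprime_iff_not_dvd hp).mpr hpK).symm
    have hNtop : N ≠ ⊤ := by
      rintro rfl
      rw [card_top] at hNc
      exact (Nat.Prime.coprime_iff_not_dvd hp).mp hNc.symm hpG
    have hKeq : K = N := by
      rcases lt_or_eq_of_le hKN with h | h
      · exact absurd (hK.2 N h) hNtop
      · exact h
    subst hKeq
    have hPK : (P : Subgroup G) ≤ normalizer (K : Set G) := by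
      rw [normalizer_eq_top_iff.mpr hN]; exact le_top
    have hcop : (Nat.card (P : Subgroup G)).Coprime (Nat.card K) := by
      rw [hm]; exact Nat.Coprime.pow_left _ ((Nat.Prime.coprime_iff_not_dvd hp).mpr hpK)
    have hsolv : Group.IsSolvable (P : Subgroup G) := by
      have := P.2.isNilpotent
      infer_instance
    have hcent : K ≤ centralizer ((P : Subgroup G) : Set G) := by
      rw [← relIndex_eq_one]
      by_contra hne
      obtain ⟨r, hr, hrd⟩ := Nat.exists_prime_and_dvd hne
      have := Fact.mk hr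
      obtain ⟨R, hR⟩ := Cfsg.Agent.Lib.Helper1SylowInv.exists_invariant_sylow (P : Subgroup G) K hPK hcop
        (Or.inl hsolv) r
      have hsyl := isSylowIn_of_sylow R
      set R' := (R : Subgroup K).map K.subtype with hR'
      have hX : R' ⊔ (P : Subgroup G) ≠ ⊤ := by
        intro hX
        have hRn : R'.Normal := by
          rw [← normalizer_eq_top_iff, eq_top_iff, ← hX]
          exact sup_le le_normalizer hR
        have e1 : R'.index ∣ p ^ m := by
          rw [← hm, ← relIndex_top_right, ← hX, relIndex_sup_left]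
          exact relIndex_dvd_card _ _
        have e2 : K ≤ R' := le_of_index_pow hsyl.1 hpK e1
        apply hKn
        exact nilpotent_of_le e2 hsyl.2.1.isNilpotent
      have hnil := exists_nil H hX (hpP.trans (card_dvd_of_le le_sup_right))
      have hRC : R' ≤ centralizer ((P : Subgroup G) : Set G) := by
        intro x hx
        rw [mem_centralizer_iff]
        intro y hy
        exact (comm_of_nilpotent hnil (le_sup_left (a := R') hx) (le_sup_right (b := (P : Subgroup G)) hy)
          (coprime_order hpK P.2 (hsyl.1 hx) hy)).symm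
      exact hsyl.2.2 (hrd.trans (relIndex_dvd_of_le_left K hRC))
    apply hPn
    rw [← normalizer_eq_top_iff, eq_top_iff, ← hsup P P.2 hPne]
    refine sup_le le_normalizer ?_
    intro x hx
    have := hcent hx
    exact centralizer_le_normalizer _ this
  -- proper subgroups of `K`
  have hprop : ∀ K₁ : Subgroup G, K₁ ≤ K → K₁ ≠ K → K₁ ⊔ (P : Subgroup G) ≠ ⊤ := by
    intro K₁ hK₁ hne hX
    apply hne
    apply le_antisymm hK₁
    apply le_of_index_pow hK₁ hpK (n := m)
    rw [← hm]
    exact index_dvd_of_sup hPn (by rw [sup_comm]; exact hX)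
  have hnil₁ : ∀ K₁ : Subgroup G, K₁ ≤ K → K₁ ≠ K → Group.IsNilpotent (K₁ ⊔ (P : Subgroup G) : Subgroup G) := by
    intro K₁ hK₁ hne
    exact exists_nil H (hprop K₁ hK₁ hne) (hpP.trans (card_dvd_of_le le_sup_right))
  have hmin : Cfsg.IsMinimalNonNilpotent K := by
    refine ⟨hKn, ?_⟩
    intro L hL
    have e1 : L.map K.subtype ≠ K := by
      intro h
      apply hL
      apply map_injective K.subtype_injective
      rw [h, ← MonoidHom.range_eq_map, range_subtype]
    have e2 := nilpotent_of_le le_sup_left (hnil₁ _ (map_subtype_le L) e1)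
    exact Group.nilpotent_of_mulEquiv (equivMapOfInjective L K.subtype K.subtype_injective).symm
  have hcomm : ∀ x ∈ K, ∀ y ∈ (P : Subgroup G), x * y = y * x := by
    intro x hx y hy
    have e0 : zpowers x ≤ K := by rw [zpowers_le]; exact hx
    have e1 : zpowers x ≠ K := by
      intro h
      apply hKn
      rw [← h]
      have : IsMulCommutative (zpowers x) := inferInstance
      let _ : CommGroup (zpowers x) := { (inferInstance : Group (zpowers x)) with mul_comm := this.is_comm.comm }
      exact CommGroup.isNilpotent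
    exact comm_of_nilpotent (hnil₁ _ e0 e1) (le_sup_left (a := zpowers x) (mem_zpowers x))
      (le_sup_right (b := (P : Subgroup G)) hy) (coprime_order hpK P.2 hx hy)
  have hKnorm : K.Normal := by
    rw [← normalizer_eq_top_iff, eq_top_iff, ← hsup P P.2 hPne]
    refine sup_le ?_ le_normalizer
    intro y hy
    apply centralizer_le_normalizer
    rw [mem_centralizer_iff]
    intro x hx
    exact hcomm x hx y hy
  have hcard : Nat.card (P : Subgroup G) = p := by
    obtain ⟨y, hy⟩ := exists_prime_orderOf_dvd_card' (G := (P : Subgroup G)) p hpP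
    have hy' : orderOf (y : G) = p := by rw [Subgroup.orderOf_coe]; exact hy
    have e0 : zpowers (y : G) ≤ P := by rw [zpowers_le]; exact y.2
    have e1 : IsPGroup p (zpowers (y : G)) := P.2.to_le e0
    have e2 : zpowers (y : G) ≠ ⊥ := by
      intro h
      rw [zpowers_eq_bot] at h
      rw [h, orderOf_one] at hy'
      exact hp.one_lt.ne hy'
    have e3 : (zpowers (y : G)).index ∣ Nat.card K :=
      index_dvd_of_sup hKnorm (by rw [sup_comm]; exact hsup _ e1 e2)
    have e4 : (zpowers (y : G)).relIndex P = 1 := by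
      have f1 : (zpowers (y : G)).relIndex P ∣ Nat.card K := (relIndex_dvd_index_of_le e0).trans e3
      have f2 : (zpowers (y : G)).relIndex P ∣ p ^ m := by rw [← hm]; exact relIndex_dvd_card _ _
      exact Nat.eq_one_of_dvd_coprimes
        (Nat.Coprime.pow_left _ ((Nat.Prime.coprime_iff_not_dvd hp).mpr hpK)) f2 f1
    rw [relIndex_eq_one] at e4
    rw [← le_antisymm e0 e4, Nat.card_zpowers, hy']
  exact ⟨P, K, hPn, hKnorm, hinf P P.2, hsup P P.2 hPne, hcard, hmin, hpK⟩

theorem backward (Z K : Subgroup G) (hZ : Z.Normal) (hK : K.Normal) (hinf : Z ⊓ K = ⊥) (hsup : Z ⊔ K = ⊤)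
    (hcard : Nat.card Z = p) (hmin : Cfsg.IsMinimalNonNilpotent K) (hpK : ¬ p ∣ Nat.card K)
    (M : Subgroup G) (hM : IsCoatom M) (hpM : p ∣ Nat.card M) : Group.IsNilpotent M := by
  have hp : p.Prime := Fact.out
  have hZM : Z ≤ M := by
    obtain ⟨y, hy⟩ := exists_prime_orderOf_dvd_card' (G := M) p hpM
    have hy' : orderOf (y : G) = p := by rw [Subgroup.orderOf_coe]; exact hy
    have e1 : Z.index ∣ Nat.card K := index_dvd_of_sup hK (by rw [sup_comm]; exact hsup)
    have e2 : (Z.index).Coprime (orderOf (y : G)) := by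
      rw [hy']
      exact Nat.Coprime.coprime_dvd_left e1 ((Nat.Prime.coprime_iff_not_dvd hp).mpr hpK).symm
    obtain ⟨m, hm⟩ := exists_pow_eq_self_of_coprime e2
    have e3 : (y : G) ∈ Z := by
      rw [← hm]
      exact Z.pow_mem (Z.pow_index_mem _) _
    have e4 : zpowers (y : G) = Z := by
      apply eq_of_le_of_card_ge (by rw [zpowers_le]; exact e3)
      rw [Nat.card_zpowers, hy', hcard]
    rw [← e4, zpowers_le]
    exact y.2
  have hL : M ⊓ K ≠ K := by
    intro h
    apply hM.1
    rw [eq_top_iff, ← hsup]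
    exact sup_le hZM (by rw [← h]; exact inf_le_left)
  have hLn : Group.IsNilpotent (M ⊓ K : Subgroup G) := by
    have e1 : (M ⊓ K).subgroupOf K ≠ ⊤ := by
      intro h
      rw [subgroupOf_eq_top] at h
      exact hL (le_antisymm inf_le_right h)
    have e2 := hmin.2 _ e1
    exact Group.nilpotent_of_mulEquiv (subgroupOfEquivOfLe (inf_le_right : M ⊓ K ≤ K))
  have hZn : Group.IsNilpotent Z := by
    have : IsPGroup p Z := IsPGroup.of_card (n := 1) (by rw [hcard, pow_one])
    exact this.isNilpotent
  have hcomm : ∀ (z : Z) (l : (M ⊓ K : Subgroup G)), Commute (Z.subtype z) ((M ⊓ K).subtype l) := by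
    intro z l
    exact commute_of_normal_of_disjoint Z K hZ hK (disjoint_iff.mpr hinf) z l z.2 l.2.2
  let f := MonoidHom.noncommCoprod Z.subtype (M ⊓ K).subtype hcomm
  have hrange : f.range = M := by
    rw [MonoidHom.noncommCoprod_range, range_subtype, range_subtype]
    apply le_antisymm (sup_le hZM inf_le_left)
    intro x hx
    have hx' : x ∈ Z ⊔ K := by rw [hsup]; exact mem_top x
    rw [mem_sup_of_normal_right] at hx'
    obtain ⟨z, hz, k, hk, rfl⟩ := hx'
    apply mul_mem (le_sup_left (a := Z) hz)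
    apply le_sup_right (b := M ⊓ K)
    refine ⟨?_, hk⟩
    have : k = z⁻¹ * (z * k) := by group
    rw [this]
    exact M.mul_mem (M.inv_mem (hZM hz)) hx
  rw [← hrange]
  exact Group.nilpotent_of_surjective f.rangeRestrict f.rangeRestrict_surjective

end

/-- Let G be a finite group and p a prime dividing its order. Every maximal subgroup of G of order divisible by p is nilpotent if and only if G is nilpotent, or G is a minimal non-nilpotent group, or G is the internal direct product of a normal subgroup of order p and a normal minimal non-nilpotent subgroup of order prime to p. -/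
theorem result {G : Type*} [Group G] [Finite G] (p : ℕ) (hp : p.Prime) (hpG : p ∣ Nat.card G) :
    (∀ M : Subgroup G, IsCoatom M → p ∣ Nat.card M → Group.IsNilpotent M) ↔
      (Group.IsNilpotent G ∨ Cfsg.IsMinimalNonNilpotent G ∨
        ∃ Z K : Subgroup G, Z.Normal ∧ K.Normal ∧ Z ⊓ K = ⊥ ∧ Z ⊔ K = ⊤ ∧ Nat.card Z = p ∧
          Cfsg.IsMinimalNonNilpotent K ∧ ¬ p ∣ Nat.card K) := by
  have := Fact.mk hp
  constructor
  · intro H
    by_cases h1 : Group.IsNilpotent G
    · exact Or.inl h1
    · by_cases h2 : Cfsg.IsMinimalNonNilpotent G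
      · exact Or.inr (Or.inl h2)
      · exact Or.inr (Or.inr (forward hpG H h1 h2))
  · rintro (h | h | ⟨Z, K, hZ, hK, hinf, hsup, hcard, hmin, hpK⟩) M hM hpM
    · infer_instance
    · exact h.2 M hM.1
    · exact backward Z K hZ hK hinf hsup hcard hmin hpK M hM hpM

end Cfsg.Agent.S4242
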