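import Cfsg.Statements.S4244
-- import your own Cfsg.Agent.* helpers here

set_option autoImplicit false
open Cfsg

namespace Cfsg.Agent.S4244

theorem aux {G : Type*} [Group G] [Finite G] (N K : Subgroup G) [N.Normal] :
    K.relIndex N ∣ K.index := by
  have h1 : (K ⊓ N).relIndex N * N.relIndex (K ⊔ N) = (K ⊓ N).relIndex (K ⊔ N) :=
    Subgroup.relIndex_mul_relIndex _ _ _ inf_le_right le_sup_right
  have h2 : (K ⊓ N).relIndex K * K.relIndex (K ⊔ N) = (K ⊓ N).relIndex (K ⊔ N) :=
    Subgroup.relIndex_mul_relIndex _ _ _ inf_le_left le_sup_left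
  rw [Subgroup.relIndex_sup_right, Subgroup.inf_relIndex_right] at h1
  rw [Subgroup.inf_relIndex_left] at h2
  have h3 : K.relIndex N = K.relIndex (K ⊔ N) := by
    have hne : N.relIndex K ≠ 0 := Subgroup.index_ne_zero_of_finite
    have : K.relIndex N * N.relIndex K = N.relIndex K * K.relIndex (K ⊔ N) := by rw [h1, h2]
    rw [mul_comm] at this
    exact Nat.eq_of_mul_eq_mul_left (Nat.pos_of_ne_zero hne) this
  rw [h3]
  exact Subgroup.relIndex_dvd_index_of_le le_sup_left

/-- Let H be a subnormal subgroup of a finite group G. Then for every subgroup K of G the index of H ∩ K in H divides the index of K in G. -/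
theorem result {G : Type*} [Group G] [Finite G] (H : Subgroup G) (hH : H.IsSubnormal) (K : Subgroup G) :
    (H ⊓ K).relIndex H ∣ K.index := by
  rw [Subgroup.inf_relIndex_left]
  induction hH with
  | top => rw [Subgroup.relIndex_top_right]
  | step H L h_le hSubn hN ih =>
    refine dvd_trans ?_ ih
    have := aux (H.subgroupOf L) (K.subgroupOf L)
    rwa [Subgroup.relIndex_subgroupOf h_le] at this

end Cfsg.Agent.S4244
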