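import Cfsg.Statements.S4245
import Cfsg.Agent.Lib.Helper4Burnside
import Cfsg.Agent.Lib.H71OsCyc2
import Cfsg.Agent.Lib.Helper12Card

set_option autoImplicit false
set_option linter.style.haveILetI false
open Cfsg

namespace Cfsg.Agent.S4245

universe u

/-- `X` has a homomorphism with cyclic kernel into a finite cyclic 2-group. -/
def Meta (X : Type u) [Group X] : Prop :=
  ∃ (C : Type u) (_ : CommGroup C) (φ : X →* C), Finite C ∧ IsCyclic C ∧ IsPGroup 2 C ∧ IsCyclic φ.ker

theorem Meta.of_injective {X Y : Type u} [Group X] [Group Y] (j : Y →* X) (hj : Function.Injective j)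
    (h : Meta X) : Meta Y := by
  obtain ⟨C, _, φ, hF, hC, h2, hK⟩ := h
  refine ⟨C, inferInstance, φ.comp j, hF, hC, h2, ?_⟩
  let f : (φ.comp j).ker →* φ.ker :=
    { toFun := fun y => ⟨j y.1, by
        have := y.2
        rw [MonoidHom.mem_ker] at this ⊢
        simpa using this⟩
      map_one' := by ext; simp
      map_mul' := by intro a b; ext; simp }
  refine isCyclic_of_injective f ?_
  intro a b hab
  have h1 : j a.1 = j b.1 := congrArg Subtype.val hab
  exact Subtype.ext (hj h1)

theorem Meta.of_surjective {X Y : Type u} [Group X] [Group Y] (π : X →* Y) (hπ : Function.Surjective π)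
    (h : Meta X) : Meta Y := by
  obtain ⟨C, _, φ, hF, hC, h2, hK⟩ := h
  let D : Subgroup C := π.ker.map φ
  let g : X →* C ⧸ D := (QuotientGroup.mk' D).comp φ
  have hg : π.ker ≤ g.ker := by
    intro x hx
    rw [MonoidHom.mem_ker]
    change (QuotientGroup.mk' D) (φ x) = 1
    rw [QuotientGroup.mk'_apply, QuotientGroup.eq_one_iff]
    exact Subgroup.mem_map_of_mem φ hx
  let φ' : Y →* C ⧸ D := π.liftOfSurjective hπ ⟨g, hg⟩
  have hφ' : ∀ x : X, φ' (π x) = g x := fun x =>
    MonoidHom.liftOfRightInverse_comp_apply π _ (Function.rightInverse_surjInv hπ) ⟨g, hg⟩ x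
  refine ⟨C ⧸ D, inferInstance, φ', inferInstance,
    isCyclic_of_surjective (QuotientGroup.mk' D) (QuotientGroup.mk'_surjective D), h2.to_quotient D, ?_⟩
  let f : φ.ker →* φ'.ker :=
    { toFun := fun x => ⟨π x.1, by
        rw [MonoidHom.mem_ker, hφ']
        change (QuotientGroup.mk' D) (φ x.1) = 1
        rw [MonoidHom.mem_ker.mp x.2, map_one]⟩
      map_one' := by ext; simp
      map_mul' := by intro a b; ext; simp }
  refine isCyclic_of_surjective f ?_
  rintro ⟨y, hy⟩
  obtain ⟨x, rfl⟩ := hπ y
  rw [MonoidHom.mem_ker, hφ'] at hy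
  change (QuotientGroup.mk' D) (φ x) = 1 at hy
  rw [QuotientGroup.mk'_apply, QuotientGroup.eq_one_iff] at hy
  obtain ⟨k, hk, hkx⟩ := Subgroup.mem_map.mp hy
  refine ⟨⟨x * k⁻¹, ?_⟩, ?_⟩
  · rw [MonoidHom.mem_ker, map_mul, map_inv, hkx, mul_inv_cancel]
  · apply Subtype.ext
    change π (x * k⁻¹) = π x
    rw [map_mul, map_inv, MonoidHom.mem_ker.mp hk, inv_one, mul_one]

theorem solv_of_prime {G : Type u} [Group G] (h : (Nat.card G).Prime) : Group.IsSolvable G := by
  have : Fact (Nat.card G).Prime := ⟨h⟩
  have hcyc : IsCyclic G := isCyclic_of_prime_card rfl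
  have hcomm : IsMulCommutative G := hcyc.isMulCommutative
  exact Group.isSolvable_of_comm (fun x y => mul_comm' x y)

theorem solv_of_pow {G : Type u} [Group G] [Finite G] (q k : ℕ) (hq : q.Prime) (h : Nat.card G = q ^ k) :
    Group.IsSolvable G := by
  have : Fact q.Prime := ⟨hq⟩
  have hp : IsPGroup q G := IsPGroup.of_card h
  have := hp.isNilpotent
  exact IsNilpotent.to_isSolvable

theorem key {G : Type u} [Group G] [Finite G] [IsSimpleGroup G] (g : G) (H : Subgroup G) (q k : ℕ)
    (hq : q.Prime) (hg : g ≠ 1) (hH : H ≤ Subgroup.centralizer ({g} : Set G)) (hi : H.index ∣ q ^ k) :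
    Group.IsSolvable G := by
  have h1 : (Subgroup.centralizer ({g} : Set G)).index ∣ q ^ k := (Subgroup.index_dvd_of_le hH).trans hi
  obtain ⟨j, -, hj⟩ := (Nat.dvd_prime_pow hq).mp h1
  exact solv_of_prime (Cfsg.Agent.Lib.Helper4Burnside.prime_card_of_prime_power_class q j hq g hg hj)

theorem unique_inv {K : Type u} [Group K] [Finite K] [IsCyclic K] (z w : K) (hz : orderOf z = 2)
    (hw : orderOf w = 2) : w = z := by
  classical
  cases nonempty_fintype K
  by_contra hne
  have h := IsCyclic.card_pow_eq_one_le (α := K) (n := 2) (by norm_num)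
  have hz1 : z ≠ 1 := by rintro rfl; simp at hz
  have hw1 : w ≠ 1 := by rintro rfl; simp at hw
  have hsub : ({1, z, w} : Finset K) ⊆ Finset.univ.filter (fun a : K => a ^ 2 = 1) := by
    intro a ha
    simp only [Finset.mem_insert, Finset.mem_singleton] at ha
    simp only [Finset.mem_filter, Finset.mem_univ, true_and]
    rcases ha with rfl | rfl | rfl
    · simp
    · rw [← hz]; exact pow_orderOf_eq_one _
    · rw [← hw]; exact pow_orderOf_eq_one _
  have h3 : ({1, z, w} : Finset K).card = 3 := by
    rw [Finset.card_insert_of_notMem, Finset.card_insert_of_notMem, Finset.card_singleton]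
    · simpa using fun h => hne h.symm
    · simp only [Finset.mem_insert, Finset.mem_singleton, not_or]
      exact ⟨hz1.symm, hw1.symm⟩
  have := Finset.card_le_card hsub
  omega

theorem simple_case {G : Type u} [Group G] [Finite G] [IsSimpleGroup G] (p s : ℕ) (hp : p.Prime)
    (A : Subgroup G) (hA : A.index = p ^ s) (hM : Meta A) : Group.IsSolvable G := by
  obtain ⟨C, _, φ, hF, hC, h2, hK⟩ := hM
  haveI : Fact (Nat.Prime 2) := ⟨Nat.prime_two⟩
  obtain ⟨c, hc⟩ := (IsPGroup.iff_card).1 h2
  have hcardG : Nat.card G = Nat.card A * p ^ s := by rw [← hA]; exact (Subgroup.card_mul_index A).symm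
  by_cases hKeven : 2 ∣ Nat.card φ.ker
  · obtain ⟨z, hz⟩ := exists_prime_orderOf_dvd_card' 2 hKeven
    have hz1 : ((z : A) : G) ≠ 1 := by
      intro h
      have : z = 1 := Subtype.ext (Subtype.ext h)
      rw [this] at hz; simp at hz
    refine key ((z : A) : G) A p s hp hz1 ?_ (by rw [hA])
    intro a ha
    rw [Subgroup.mem_centralizer_singleton_iff]
    have hn : (⟨a, ha⟩ : A) * (z : A) * (⟨a, ha⟩ : A)⁻¹ ∈ φ.ker :=
      (inferInstance : φ.ker.Normal).conj_mem _ z.2 _
    have ho : orderOf (⟨_, hn⟩ : φ.ker) = 2 := by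
      rw [Subgroup.orderOf_mk, ← hz, ← Subgroup.orderOf_coe z]
      exact orderOf_injective (MulAut.conj (⟨a, ha⟩ : A)).toMonoidHom
        (MulAut.conj (⟨a, ha⟩ : A)).injective (z : A)
    have he := unique_inv z _ hz ho
    have he' : a * ((z : A) : G) * a⁻¹ = ((z : A) : G) := by
      have := congrArg (fun x : φ.ker => ((x : A) : G)) he
      simpa using this
    calc a * ((z : A) : G) = a * ((z : A) : G) * a⁻¹ * a := by group
      _ = ((z : A) : G) * a := by rw [he']
  · have hKcomm : ∀ x y : A, x ∈ φ.ker → y ∈ φ.ker → x * y = y * x := by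
      intro x y hx hy
      have := (IsCyclic.commGroup (α := φ.ker)).mul_comm ⟨x, hx⟩ ⟨y, hy⟩
      exact congrArg Subtype.val this
    have hidxK : φ.ker.index ∣ 2 ^ c := by
      rw [Subgroup.index_ker, ← hc]; exact Subgroup.card_subgroup_dvd_card _
    by_cases hp2 : p = 2
    · subst hp2
      by_cases hKbot : φ.ker = ⊥
      · have hinj : Function.Injective φ := (MonoidHom.ker_eq_bot_iff φ).mp hKbot
        have hA2 : IsPGroup 2 A := h2.of_injective φ hinj
        obtain ⟨a, ha⟩ := (IsPGroup.iff_card).1 hA2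
        exact solv_of_pow 2 (a + s) Nat.prime_two (by rw [hcardG, ha, pow_add])
      · obtain ⟨b, hb, hb1⟩ := (Subgroup.ne_bot_iff_exists_ne_one).mp hKbot |>.elim
          (fun b hb1 => (⟨(b : A), b.2, fun h => hb1 (Subtype.ext h)⟩ : ∃ b : A, b ∈ φ.ker ∧ b ≠ 1))
        refine key (b : G) (φ.ker.map A.subtype) 2 (c + s) Nat.prime_two ?_ ?_ ?_
        · intro h; exact hb1 (Subtype.ext h)
        · rintro _ ⟨x, hx, rfl⟩
          rw [Subgroup.mem_centralizer_singleton_iff]
          exact congrArg Subtype.val (hKcomm x b hx hb)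
        · rw [Subgroup.index_map_subtype, hA, pow_add]; exact Nat.mul_dvd_mul_right hidxK _
    · obtain ⟨Q⟩ : Nonempty (Sylow 2 A) := inferInstance
      have hcopK : ∀ k : ℕ, Nat.Coprime (2 ^ k) (Nat.card φ.ker) := fun k =>
        Nat.Coprime.pow_left _ ((Nat.Prime.coprime_iff_not_dvd Nat.prime_two).mpr hKeven)
      have hQinj : Function.Injective (φ.comp (Q : Subgroup A).subtype) := by
        rw [injective_iff_map_eq_one]
        intro x hx
        have hxk : (x : A) ∈ φ.ker := hx
        obtain ⟨k, hk⟩ := Q.2 x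
        have ho1 : orderOf (x : A) ∣ 2 ^ k :=
          orderOf_dvd_of_pow_eq_one (by exact_mod_cast congrArg Subtype.val hk)
        have ho2 : orderOf (x : A) ∣ Nat.card φ.ker := by
          have := orderOf_dvd_natCard (⟨x, hxk⟩ : φ.ker)
          rwa [Subgroup.orderOf_mk] at this
        have : orderOf (x : A) = 1 := Nat.eq_one_of_dvd_coprimes (hcopK k) ho1 ho2
        exact Subtype.ext (orderOf_eq_one_iff.mp this)
      have hQcyc : IsCyclic (Q : Subgroup A) := isCyclic_of_injective _ hQinj
      let Q' : Subgroup G := (Q : Subgroup A).map A.subtype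
      have hQ'cyc : IsCyclic Q' :=
        isCyclic_of_surjective (A.subtype.subgroupMap (Q : Subgroup A)) (MonoidHom.subgroupMap_surjective _ _)
      have hQ'cardQ : Nat.card Q' = Nat.card (Q : Subgroup A) :=
        Subgroup.card_map_of_injective A.subtype_injective
      have hfac : (Nat.card G).factorization 2 = (Nat.card A).factorization 2 := by
        rw [hcardG, Nat.factorization_mul Nat.card_pos.ne' (pow_ne_zero _ hp.ne_zero)]
        have : (p ^ s).factorization 2 = 0 := by
          rw [Nat.Prime.factorization_pow hp]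
          simp [hp2]
        rw [Finsupp.add_apply, this, add_zero]
      have hQ'card : Nat.card Q' = 2 ^ (Nat.card G).factorization 2 := by
        rw [hQ'cardQ, Q.card_eq_multiplicity, hfac]
      let S : Sylow 2 G := Sylow.ofCard Q' hQ'card
      have hSQ : (S : Subgroup G) = Q' := Sylow.coe_ofCard Q' hQ'card
      by_cases hS : (S : Subgroup G) = ⊥
      · have hQ1 : Nat.card (Q : Subgroup A) = 1 := by
          rw [← hQ'cardQ, ← hSQ, hS]; exact Subgroup.card_bot
        have hAodd : ¬ 2 ∣ Nat.card A := by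
          intro hd
          exact Q.ne_bot_of_dvd_card hd (Subgroup.card_eq_one.mp hQ1)
        have hker : ∀ a : A, a ∈ φ.ker := by
          intro a
          rw [MonoidHom.mem_ker]
          have h1 : orderOf (φ a) ∣ Nat.card A := (orderOf_map_dvd φ a).trans (orderOf_dvd_natCard a)
          have h3 : orderOf (φ a) ∣ 2 ^ c := hc ▸ orderOf_dvd_natCard (φ a)
          have hcop : Nat.Coprime (2 ^ c) (Nat.card A) :=
            Nat.Coprime.pow_left _ ((Nat.Prime.coprime_iff_not_dvd Nat.prime_two).mpr hAodd)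
          exact orderOf_eq_one_iff.mp (Nat.eq_one_of_dvd_coprimes hcop h3 h1)
        by_cases hAbot : A = ⊥
        · refine solv_of_pow p s hp ?_
          rw [hcardG, hAbot, Subgroup.card_bot, one_mul]
        · obtain ⟨a, ha, ha1⟩ := (Subgroup.ne_bot_iff_exists_ne_one).mp hAbot |>.elim
            (fun b hb1 => (⟨(b : G), b.2, fun h => hb1 (Subtype.ext h)⟩ : ∃ b : G, b ∈ A ∧ b ≠ 1))
          refine key a A p s hp ha1 ?_ (by rw [hA])
          intro x hx
          rw [Subgroup.mem_centralizer_singleton_iff]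
          exact congrArg Subtype.val (hKcomm ⟨x, hx⟩ ⟨a, ha⟩ (hker _) (hker _))
      · obtain ⟨H, hH⟩ := Cfsg.Agent.Lib.H71OsCyc2.exists_index_two S (by rw [hSQ]; exact hQ'cyc) hS
        have hn := Subgroup.normal_of_index_eq_two hH
        rcases hn.eq_bot_or_eq_top with h | h
        · rw [h, Subgroup.index_bot] at hH
          exact solv_of_prime (hH ▸ Nat.prime_two)
        · rw [h, Subgroup.index_top] at hH; omega

theorem aux (p : ℕ) (hp : p.Prime) : ∀ (n : ℕ) (G : Type u) [Group G] [Finite G], Nat.card G = n →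
    (∃ A : Subgroup G, (∃ s, A.index = p ^ s) ∧ Meta A) → Group.IsSolvable G := by
  intro n
  induction n using Nat.strong_induction_on with
  | _ n ih =>
    intro G _ _ hn hab
    obtain ⟨A, ⟨s, hA⟩, hM⟩ := hab
    by_cases hsub : Subsingleton G
    · exact Group.isSolvable_of_comm (fun x y => Subsingleton.elim _ _)
    have hnt : Nontrivial G := not_subsingleton_iff_nontrivial.mp hsub
    by_cases hsimple : IsSimpleGroup G
    · exact simple_case p s hp A hA hM
    · have hex : ∃ N : Subgroup G, N.Normal ∧ N ≠ ⊥ ∧ N ≠ ⊤ := by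
        by_contra hcon
        push Not at hcon
        exact hsimple ⟨fun N hN => or_iff_not_imp_left.mpr (hcon N hN)⟩
      obtain ⟨N, hN, hbot, htop⟩ := hex
      have hmul := Subgroup.card_mul_index N
      have hNpos : 0 < Nat.card N := Nat.card_pos
      have hidx : 0 < N.index := Nat.pos_of_ne_zero (Subgroup.index_ne_zero_of_finite)
      have hN1 : 1 < Nat.card N := by
        rcases Nat.lt_or_ge 1 (Nat.card N) with h | h
        · exact h
        · exact absurd (Subgroup.card_eq_one.mp (le_antisymm h hNpos)) hbot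
      have hi1 : 1 < N.index := by
        rcases Nat.lt_or_ge 1 N.index with h | h
        · exact h
        · exact absurd (Subgroup.index_eq_one.mp (le_antisymm h hidx)) htop
      have hlt1 : Nat.card N < n := by rw [← hn, ← hmul]; nlinarith
      have hlt2 : Nat.card (G ⧸ N) < n := by
        rw [← Subgroup.index_eq_card, ← hn, ← hmul]; nlinarith
      have hs1 : Group.IsSolvable N := by
        refine ih _ hlt1 N rfl ⟨A.subgroupOf N, ?_, ?_⟩
        · have hd : A.relIndex N ∣ p ^ s :=
            hA ▸ Cfsg.Agent.Lib.Helper12Card.relIndex_dvd_index_of_normal_right A N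
          obtain ⟨j, -, hj⟩ := (Nat.dvd_prime_pow hp).mp hd
          exact ⟨j, hj⟩
        · refine Meta.of_injective (N.subtype.subgroupComap A) ?_ hM
          intro a b hab
          have h1 : ((a : N) : G) = ((b : N) : G) := congrArg (fun x : A => (x : G)) hab
          exact Subtype.ext (Subtype.ext h1)
      have hs2 : Group.IsSolvable (G ⧸ N) := by
        refine ih _ hlt2 (G ⧸ N) rfl ⟨A.map (QuotientGroup.mk' N), ?_, ?_⟩
        · have hd : (A.map (QuotientGroup.mk' N)).index ∣ p ^ s :=
            hA ▸ Subgroup.index_map_dvd A (QuotientGroup.mk'_surjective N)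
          obtain ⟨j, -, hj⟩ := (Nat.dvd_prime_pow hp).mp hd
          exact ⟨j, hj⟩
        · exact Meta.of_surjective ((QuotientGroup.mk' N).subgroupMap A)
            (MonoidHom.subgroupMap_surjective _ _) hM
      exact Group.isSolvable_of_ker_le_range N.subtype (QuotientGroup.mk' N) (by simp)

/-- Let G be a finite group with a subgroup A of prime-power index. Suppose A has a normal cyclic subgroup B such that A/B is cyclic of order a power of 2. Then G is solvable. -/
theorem result {G : Type*} [Group G] [Finite G] (A : Subgroup G) (p s : ℕ) (hp : p.Prime) (hA : A.index = p ^ s)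
    (B : Subgroup A) [B.Normal] (hB : IsCyclic B) (hAB : IsCyclic (A ⧸ B)) (r : ℕ) (hr : Nat.card (A ⧸ B) = 2 ^ r) :
    Group.IsSolvable G := by
  refine aux p hp _ G rfl ⟨A, ⟨s, hA⟩, ?_⟩
  refine ⟨A ⧸ B, IsCyclic.commGroup, QuotientGroup.mk' B, inferInstance, hAB, IsPGroup.of_card hr, ?_⟩
  rw [QuotientGroup.ker_mk']
  exact hB

end Cfsg.Agent.S4245
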