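import Cfsg.Statements.S4251
import Cfsg.Agent.Lib.Helper40Alperin
import Cfsg.Agent.S0071

set_option autoImplicit false
open Cfsg

namespace Cfsg.Agent.S4251

open Cfsg.Agent.Lib.Helper40Sylow Cfsg.Agent.Lib.Helper40Alperin

theorem sylow_mul_normal {p : ℕ} [Fact p.Prime] {X : Type*} [Group X] [Finite X] (S : Sylow p X)
    (K : Subgroup X) [K.Normal] (hK : IsPGroup p (X ⧸ K)) (x : X) :
    ∃ s ∈ S, ∃ u ∈ K, x = s * u := by
  have hp : p.Prime := Fact.out
  obtain ⟨j, hj⟩ := hK.exists_card_eq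
  have h1 : ((S : Subgroup X) ⊔ K).index ∣ (S : Subgroup X).index :=
    Subgroup.index_dvd_of_le le_sup_left
  have h2 : ((S : Subgroup X) ⊔ K).index ∣ p ^ j := by
    rw [← hj]
    exact Subgroup.index_dvd_of_le le_sup_right
  have h3 : Nat.Coprime (S : Subgroup X).index (p ^ j) :=
    Nat.Coprime.pow_right _ ((Nat.Prime.coprime_iff_not_dvd hp).mpr S.not_dvd_index).symm
  have h4 : ((S : Subgroup X) ⊔ K).index = 1 := Nat.eq_one_of_dvd_coprimes h3 h1 h2
  have h5 : (S : Subgroup X) ⊔ K = ⊤ := Subgroup.index_eq_one.mp h4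
  have h6 : x ∈ (((S : Subgroup X) ⊔ K : Subgroup X) : Set X) := by
    rw [h5]; trivial
  rw [Subgroup.mul_normal] at h6
  obtain ⟨s, hs, u, hu, rfl⟩ := h6
  exact ⟨s, hs, u, hu, rfl⟩

theorem rel_control {G : Type*} [Group G] {p : ℕ} {P : Sylow p G}
    (hstep : ∀ (Q : Sylow p G) (x : G), Adm P Q x →
      ∃ s ∈ (P : Subgroup G), ∀ a ∈ (P : Subgroup G) ⊓ (Q : Subgroup G), x⁻¹ * a * x = s⁻¹ * a * s)
    {D : Subgroup G} {g : G} (h : Rel P D g) :
    ∃ s ∈ (P : Subgroup G), ∀ a ∈ D, g⁻¹ * a * g = s⁻¹ * a * s := by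
  induction h with
  | nil D => exact ⟨1, Subgroup.one_mem _, fun a _ => rfl⟩
  | cons D Q x y hadm hle _ ih =>
    obtain ⟨s₁, hs₁, h₁⟩ := hstep Q x hadm
    obtain ⟨s₂, hs₂, h₂⟩ := ih
    refine ⟨s₁ * s₂, Subgroup.mul_mem _ hs₁ hs₂, fun a ha => ?_⟩
    have h2 : x⁻¹ * a * x ∈ rj x D := by
      rw [mem_rj]
      have : x * (x⁻¹ * a * x) * x⁻¹ = a := by group
      rw [this]; exact ha
    have e1 : (x * y)⁻¹ * a * (x * y) = y⁻¹ * (x⁻¹ * a * x) * y := by group
    rw [e1, h₂ _ h2, h₁ a (hle ha)]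
    group

/-- Let P be a Sylow p-subgroup of a finite group G. Call an intersection H = P ∩ Q with a Sylow p-subgroup Q tame when N_P(H) and N_Q(H) are Sylow p-subgroups of N_G(H). If N_G(H)/C_G(H) is a p-group for every nontrivial tame intersection H = P ∩ Q, then G has a normal p-complement. -/
theorem result {G : Type*} [Group G] [Finite G] (p : ℕ) [Fact p.Prime] (P : Sylow p G)
    (h : ∀ Q : Sylow p G, (P : Subgroup G) ⊓ (Q : Subgroup G) ≠ ⊥ → (¬ p ∣ ((P : Subgroup G) ⊓ Subgroup.normalizer (((P : Subgroup G) ⊓ (Q : Subgroup G) : Subgroup G) : Set G)).relIndex (Subgroup.normalizer (((P : Subgroup G) ⊓ (Q : Subgroup G) : Subgroup G) : Set G)) ∧ ¬ p ∣ ((Q : Subgroup G) ⊓ Subgroup.normalizer (((P : Subgroup G) ⊓ (Q : Subgroup G) : Subgroup G) : Set G)).relIndex (Subgroup.normalizer (((P : Subgroup G) ⊓ (Q : Subgroup G) : Subgroup G) : Set G))) →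
      IsPGroup p (Subgroup.normalizer (((P : Subgroup G) ⊓ (Q : Subgroup G) : Subgroup G) : Set G) ⧸
        (Subgroup.centralizer (((P : Subgroup G) ⊓ (Q : Subgroup G) : Subgroup G) : Set G)).subgroupOf
          (Subgroup.normalizer (((P : Subgroup G) ⊓ (Q : Subgroup G) : Subgroup G) : Set G)))) :
    Cfsg.HasNormalPComplement p G := by
  have hstep : ∀ (Q : Sylow p G) (x : G), Adm P Q x →
      ∃ s ∈ (P : Subgroup G), ∀ a ∈ (P : Subgroup G) ⊓ (Q : Subgroup G), x⁻¹ * a * x = s⁻¹ * a * s := by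
    intro Q x hadm
    by_cases hbot : (P : Subgroup G) ⊓ (Q : Subgroup G) = ⊥
    · refine ⟨1, Subgroup.one_mem _, fun a ha => ?_⟩
      rw [hbot, Subgroup.mem_bot] at ha
      subst ha; simp
    · have hpg := h Q hbot ⟨hadm.2.1, hadm.2.2.1⟩
      set H := (P : Subgroup G) ⊓ (Q : Subgroup G) with hH
      set N := Subgroup.normalizer (H : Set G) with hN
      have hsyl : IsSylowIn p ((P : Subgroup G) ⊓ N) N := ⟨inf_le_right, P.2.to_le inf_le_left, hadm.2.1⟩
      obtain ⟨s, hs, u, hu, hsu⟩ := sylow_mul_normal hsyl.toSylow _ hpg ⟨x, hadm.1⟩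
      have hs' : (s : G) ∈ (P : Subgroup G) ⊓ N := by
        have : s ∈ (hsyl.toSylow : Subgroup N) := hs
        rw [hsyl.coe_toSylow, Subgroup.mem_subgroupOf] at this
        exact this
      have hu' : (u : G) ∈ Subgroup.centralizer (H : Set G) := Subgroup.mem_subgroupOf.mp hu
      have hx : x = (s : G) * (u : G) := by
        have := congrArg Subtype.val hsu
        simpa using this
      refine ⟨s, (Subgroup.mem_inf.mp hs').1, fun a ha => ?_⟩
      have h1 : (s : G)⁻¹ * a * s ∈ H := by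
        have h2 := Subgroup.inv_mem _ (Subgroup.mem_inf.mp hs').2
        have h3 := (Subgroup.mem_normalizer_iff.mp h2 a).mp ha
        rwa [inv_inv] at h3
      have h4 := (Subgroup.mem_centralizer_iff.mp hu') _ h1
      rw [hx]
      have e : ((s : G) * (u : G))⁻¹ * a * ((s : G) * (u : G)) = (u : G)⁻¹ * ((s : G)⁻¹ * a * s * u) := by group
      rw [e, h4]; group
  obtain ⟨N, hN1, hN2⟩ := (Cfsg.Agent.S0071.result P).mpr (by
    intro X hXP g hg hcop
    have hXD : X ≤ (P : Subgroup G) ⊓ cj g (P : Subgroup G) := by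
      refine le_inf hXP ?_
      have h1 : cj g X = X := mem_normalizer_iff_cj.mp hg
      rw [← h1]; exact cj_mono hXP
    obtain ⟨s, hs, hsa⟩ := rel_control hstep ((alperin_rel P g).mono hXD)
    have hpow : ∀ n : ℕ, ∀ a ∈ X, (g ^ n)⁻¹ * a * g ^ n = (s ^ n)⁻¹ * a * s ^ n := by
      intro n
      induction n with
      | zero => intro a _; simp
      | succ n ih =>
        intro a ha
        have h1 : g⁻¹ * a * g ∈ X := by
          have h2 := Subgroup.inv_mem _ hg
          have h3 := (Subgroup.mem_normalizer_iff.mp h2 a).mp ha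
          rwa [inv_inv] at h3
        have e1 : (g ^ (n + 1))⁻¹ * a * g ^ (n + 1) = (g ^ n)⁻¹ * (g⁻¹ * a * g) * g ^ n := by
          rw [pow_succ']; group
        have e2 : (s ^ (n + 1))⁻¹ * a * s ^ (n + 1) = (s ^ n)⁻¹ * (s⁻¹ * a * s) * s ^ n := by
          rw [pow_succ']; group
        rw [e1, e2, ih _ h1, hsa a ha]
    obtain ⟨k, hk⟩ := P.2 ⟨s, hs⟩
    have hsk : s ^ p ^ k = 1 := by
      have := congrArg Subtype.val hk
      simpa using this
    have hgk : g ^ p ^ k ∈ Subgroup.centralizer (X : Set G) := by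
      rw [Subgroup.mem_centralizer_iff]
      intro a ha
      have := hpow (p ^ k) a ha
      rw [hsk] at this
      simp only [inv_one, one_mul, mul_one] at this
      have e : a * g ^ p ^ k = g ^ p ^ k * ((g ^ p ^ k)⁻¹ * a * g ^ p ^ k) := by group
      rw [e, this]
    obtain ⟨m, hm⟩ := exists_pow_eq_self_of_coprime (x := g) (n := p ^ k)
      (Nat.Coprime.pow_left k hcop.symm)
    rw [← hm]
    exact Subgroup.pow_mem _ hgk m)
  exact ⟨P, N, hN1, hN2⟩

end Cfsg.Agent.S4251
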