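import Cfsg.Statements.S4260
-- import your own Cfsg.Agent.* helpers here

set_option autoImplicit false
open Cfsg

namespace Cfsg.Agent.S4260

/-- Let H be a Hall subgroup of a finite group G (the order of H is coprime to its index) such that x^[G : H] lies in H for every x in G. Then H is normal in G. -/
theorem result {G : Type*} [Group G] [Finite G] (H : Subgroup G) (hHall : (Nat.card H).Coprime H.index)
    (hexp : ∀ x : G, x ^ H.index ∈ H) : H.Normal := by
  constructor
  intro h hh g
  have hord : (g * h * g⁻¹) ^ Nat.card H = 1 := by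
    rw [conj_pow]
    have : h ^ Nat.card H = 1 := by
      have h1 : (⟨h, hh⟩ : H) ^ Nat.card H = 1 := pow_card_eq_one'
      have h2 := congrArg Subtype.val h1
      rwa [Subgroup.coe_pow, Subgroup.coe_one] at h2
    rw [this]; simp
  have hcop : (H.index).Coprime (orderOf (g * h * g⁻¹)) :=
    (Nat.Coprime.coprime_dvd_left (orderOf_dvd_of_pow_eq_one hord) hHall).symm
  obtain ⟨k, hk⟩ := exists_pow_eq_self_of_coprime hcop
  rw [← hk]
  exact H.pow_mem (hexp _) k

end Cfsg.Agent.S4260
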