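import Cfsg.Statements.S4261
import Cfsg.Agent.S0048

set_option autoImplicit false
open Cfsg

namespace Cfsg.Agent.S4261

open Subgroup

theorem closure_normal {G : Type*} [Group G] (S : Set G) (hS : ∀ s ∈ S, ∀ g : G, g * s * g⁻¹ ∈ S) :
    (closure S).Normal := by
  constructor
  intro n hn g
  induction hn using closure_induction with
  | mem y hy => exact subset_closure (hS y hy g)
  | one => simp
  | mul a b _ _ iha ihb =>
    have : g * (a * b) * g⁻¹ = (g * a * g⁻¹) * (g * b * g⁻¹) := by group
    rw [this]; exact mul_mem iha ihb
  | inv a _ iha =>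
    have : g * a⁻¹ * g⁻¹ = (g * a * g⁻¹)⁻¹ := by group
    rw [this]; exact inv_mem iha

/-- Let M be a maximal subgroup of a finite solvable group G such that x^[G : M] lies in M for every x in G. Then M is normal in G. -/
theorem result {G : Type*} [Group G] [Finite G] (hG : Group.IsSolvable G) (M : Subgroup G) (hM : IsCoatom M)
    (hexp : ∀ x : G, x ^ M.index ∈ M) : M.Normal := by
  obtain ⟨p, k, hp, hk, hpk⟩ := (isPrimePow_nat_iff _).mp (Cfsg.Agent.S0048.result M hM)
  have : Fact p.Prime := ⟨hp⟩
  have hOn : (closure {g : G | (orderOf g).Coprime p}).Normal := by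
    apply closure_normal
    intro s hs g
    show (orderOf (g * s * g⁻¹)).Coprime p
    have : orderOf (g * s * g⁻¹) = orderOf s := by
      have := (MulAut.conj g).orderOf_eq s
      simpa using this
    rw [this]; exact hs
  have hOM : closure {g : G | (orderOf g).Coprime p} ≤ M := by
    rw [closure_le]
    intro g hg
    have hcop : (M.index).Coprime (orderOf g) := by
      rw [← hpk]
      exact (Nat.Coprime.pow_right k hg).symm
    obtain ⟨j, hj⟩ := exists_pow_eq_self_of_coprime hcop
    rw [← hj]
    exact M.pow_mem (hexp g) j
  have hQ : IsPGroup p (G ⧸ closure {g : G | (orderOf g).Coprime p}) := by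
    intro gb
    induction gb using QuotientGroup.induction_on with
    | H g =>
    refine ⟨(orderOf g).factorization p, ?_⟩
    rw [← QuotientGroup.mk_pow, QuotientGroup.eq_one_iff]
    apply Subgroup.subset_closure
    show (orderOf (g ^ p ^ (orderOf g).factorization p)).Coprime p
    rw [orderOf_pow_of_dvd (pow_ne_zero _ hp.ne_zero) (Nat.ordProj_dvd _ _)]
    exact (Nat.coprime_ordCompl hp (orderOf_pos g).ne').symm
  have hnil := hQ.isNilpotent
  have hcomap : (M.map (QuotientGroup.mk' (closure {g : G | (orderOf g).Coprime p}))).comap
      (QuotientGroup.mk' (closure {g : G | (orderOf g).Coprime p})) = M := by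
    rw [comap_map_eq, QuotientGroup.ker_mk', sup_eq_left]
    exact hOM
  have hco : IsCoatom (M.map (QuotientGroup.mk' (closure {g : G | (orderOf g).Coprime p}))) := by
    constructor
    · intro h
      apply hM.1
      rw [← hcomap, h, comap_top]
    · intro B hB
      have h2 : M < B.comap (QuotientGroup.mk' (closure {g : G | (orderOf g).Coprime p})) := by
        rw [← hcomap]
        exact (Subgroup.comap_lt_comap_of_surjective (QuotientGroup.mk'_surjective _)).mpr hB
      have h3 := hM.2 _ h2
      rw [← Subgroup.comap_top (QuotientGroup.mk' (closure {g : G | (orderOf g).Coprime p}))] at h3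
      exact Subgroup.comap_injective (QuotientGroup.mk'_surjective _) h3
  have hn := Group.normalizerCondition_of_isNilpotent.normal_of_coatom _ hco
  rw [← hcomap]
  exact hn.comap _

end Cfsg.Agent.S4261
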