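import Cfsg.Statements.S4269
-- import your own Cfsg.Agent.* helpers here

set_option autoImplicit false
open Cfsg

namespace Cfsg.Agent.S4269

open Subgroup
open scoped commutatorElement

section cj

variable {G : Type*} [Group G]

/-- conjugate subgroup -/
abbrev cj (g : G) (H : Subgroup G) : Subgroup G := H.map (MulAut.conj g).toMonoidHom

theorem mem_cj {g y : G} {H : Subgroup G} : y ∈ cj g H ↔ g⁻¹ * y * g ∈ H := by
  constructor
  · rintro ⟨x, hx, rfl⟩
    have : g⁻¹ * (MulAut.conj g).toMonoidHom x * g = x := by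
      simp [mul_assoc]
    rw [this]; exact hx
  · intro h
    exact ⟨_, h, by simp [mul_assoc]⟩

theorem conj_mem_cj {g x : G} {H : Subgroup G} (hx : x ∈ H) : g * x * g⁻¹ ∈ cj g H :=
  ⟨x, hx, rfl⟩

theorem cj_mul (a b : G) (H : Subgroup G) : cj (a * b) H = cj a (cj b H) := by
  ext y
  rw [mem_cj, mem_cj, mem_cj]
  have : (a * b)⁻¹ * y * (a * b) = b⁻¹ * (a⁻¹ * y * a) * b := by group
  rw [this]

theorem cj_of_mem {h : G} {H : Subgroup G} (hh : h ∈ H) : cj h H = H := by
  ext y
  rw [mem_cj]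
  constructor
  · intro hy
    have : y = h * (h⁻¹ * y * h) * h⁻¹ := by group
    rw [this]
    exact H.mul_mem (H.mul_mem hh hy) (H.inv_mem hh)
  · intro hy
    exact H.mul_mem (H.mul_mem (H.inv_mem hh) hy) hh

theorem mem_normalizer_of_cj_eq {a b : G} {H : Subgroup G} (h : cj a H = cj b H) :
    b⁻¹ * a ∈ normalizer (H : Set G) := by
  rw [Subgroup.mem_normalizer_iff_map_conj_eq]
  show cj (b⁻¹ * a) H = H
  rw [cj_mul, h, ← cj_mul, inv_mul_cancel]
  exact cj_of_mem H.one_mem

theorem cj_of_mem_normalizer {n : G} {H : Subgroup G} (hn : n ∈ normalizer (H : Set G)) :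
    cj n H = H :=
  Subgroup.mem_normalizer_iff_map_conj_eq.mp hn

end cj

/-- Let G be a finite group, V an abelian normal subgroup and H a subgroup with HV = G. Then H is pronormal in G (H and gHg⁻¹ are conjugate inside the subgroup they generate, for every g) if and only if every H-invariant subgroup U of V satisfies U = N_U(H)·[H, U], that is, U is the join of U ∩ N_G(H) and the commutator subgroup [H, U]. -/
theorem result {G : Type*} [Group G] [Finite G]
    (V : Subgroup G) [V.Normal] (hV : IsMulCommutative ↥V) (H : Subgroup G) (hHV : H ⊔ V = ⊤) :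
    Cfsg.IsPronormal H ↔
      ∀ U : Subgroup G, U ≤ V → (∀ h ∈ H, U.map (MulAut.conj h).toMonoidHom = U) →
        U = (U ⊓ Subgroup.normalizer (H : Set G)) ⊔ ⁅H, U⁆ := by
  constructor
  · intro hpro U hUV hinv
    have hHU : ∀ h ∈ H, ∀ u ∈ U, h * u * h⁻¹ ∈ U := by
      intro h hh u hu
      rw [← hinv h hh]
      exact conj_mem_cj hu
    have hcomU : ⁅H, U⁆ ≤ U := by
      rw [Subgroup.commutator_le]
      intro h hh u hu
      rw [commutatorElement_def]
      exact U.mul_mem (hHU h hh u hu) (U.inv_mem hu)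
    apply le_antisymm
    · intro u hu
      obtain ⟨x, hx, hxe⟩ := hpro u
      have hle : H ⊔ cj u H ≤ ⁅H, U⁆ ⊔ H := by
        apply sup_le le_sup_right
        rintro _ ⟨h, hh, rfl⟩
        have h1 : (MulAut.conj u).toMonoidHom h = ⁅u, h⁆ * h := by
          rw [commutatorElement_def]
          simp
        rw [h1]
        apply Subgroup.mul_mem
        · apply (le_sup_left : ⁅H, U⁆ ≤ ⁅H, U⁆ ⊔ H)
          rw [Subgroup.commutator_comm]
          exact Subgroup.commutator_mem_commutator hu hh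
        · exact (le_sup_right : H ≤ ⁅H, U⁆ ⊔ H) hh
      have hx2 : x ∈ ((⁅H, U⁆ ⊔ H : Subgroup G) : Set G) := hle hx
      rw [Subgroup.coe_mul_of_right_le_normalizer_left _ _
        (Subgroup.normalizer_commutator_ge_left H U)] at hx2
      obtain ⟨w, hw, h, hh, rfl⟩ := hx2
      have h2 : cj u H = cj w H := by
        have : cj (w * h) H = cj w H := by rw [cj_mul, cj_of_mem hh]
        rw [← this]; exact hxe
      have h3 := mem_normalizer_of_cj_eq h2
      have h4 : u = w * (w⁻¹ * u) := by group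
      rw [h4]
      apply Subgroup.mul_mem
      · exact (le_sup_right : ⁅H, U⁆ ≤ _) hw
      · apply (le_sup_left : U ⊓ Subgroup.normalizer (H : Set G) ≤ _)
        exact ⟨U.mul_mem (U.inv_mem (hcomU hw)) hu, h3⟩
    · exact sup_le inf_le_left hcomU
  · intro hcond g
    have hVc : ∀ a ∈ V, ∀ b ∈ V, a * b = b * a := by
      intro a ha b hb
      exact congrArg Subtype.val (mul_comm' (⟨a, ha⟩ : V) ⟨b, hb⟩)
    have hg : g ∈ ((V ⊔ H : Subgroup G) : Set G) := by
      rw [sup_comm, hHV]; trivial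
    rw [Subgroup.normal_mul] at hg
    obtain ⟨v, hv, k, hk, rfl⟩ := hg
    have hgv : cj (v * k) H = cj v H := by rw [cj_mul, cj_of_mem hk]
    have hVn : ∀ a ∈ V, ∀ h : G, h * a * h⁻¹ ∈ V := fun a ha h =>
      (inferInstance : V.Normal).conj_mem a ha h
    have hSV : {y | ∃ h ∈ H, y = h * v * h⁻¹} ⊆ (V : Set G) := by
      rintro _ ⟨h, hh, rfl⟩
      exact hVn v hv h
    have hUV : closure {y | ∃ h ∈ H, y = h * v * h⁻¹} ≤ V := (closure_le V).mpr hSV
    have hinv : ∀ h ∈ H, cj h (closure {y | ∃ h ∈ H, y = h * v * h⁻¹}) =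
        closure {y | ∃ h ∈ H, y = h * v * h⁻¹} := by
      intro h hh
      show (closure {y | ∃ h ∈ H, y = h * v * h⁻¹}).map _ = _
      rw [MonoidHom.map_closure]
      congr 1
      ext y
      constructor
      · rintro ⟨_, ⟨k, hk, rfl⟩, rfl⟩
        exact ⟨h * k, mul_mem hh hk, by simp [mul_assoc]⟩
      · rintro ⟨k, hk, rfl⟩
        exact ⟨h⁻¹ * k * v * (h⁻¹ * k)⁻¹, ⟨h⁻¹ * k, mul_mem (inv_mem hh) hk, rfl⟩,
          by simp [mul_assoc]⟩
    have hU := hcond _ hUV hinv
    have hvU : v ∈ closure {y | ∃ h ∈ H, y = h * v * h⁻¹} :=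
      subset_closure ⟨1, H.one_mem, by simp⟩
    have hT : ⁅H, closure {y | ∃ h ∈ H, y = h * v * h⁻¹}⁆ ≤ H ⊔ cj v H := by
      rw [commutator_le]
      intro h hh u hu
      have key : u ∈ V ∧ ⁅h, u⁆ ∈ H ⊔ cj v H := by
        induction hu using closure_induction with
        | mem y hy =>
          refine ⟨hSV hy, ?_⟩
          obtain ⟨k, hk, rfl⟩ := hy
          have e : ⁅h, k * v * k⁻¹⁆ = (h * k) * (v * (k⁻¹ * h⁻¹ * k) * v⁻¹) * k⁻¹ := by
            rw [commutatorElement_def]; group
          rw [e]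
          apply mul_mem (mul_mem _ _) _
          · exact (le_sup_left : H ≤ H ⊔ cj v H) (mul_mem hh hk)
          · exact (le_sup_right : cj v H ≤ H ⊔ cj v H)
              (conj_mem_cj (mul_mem (mul_mem (inv_mem hk) (inv_mem hh)) hk))
          · exact (le_sup_left : H ≤ H ⊔ cj v H) (inv_mem hk)
        | one =>
          refine ⟨one_mem _, ?_⟩
          rw [commutatorElement_one_right]
          exact one_mem _
        | mul a b _ _ iha ihb =>
          refine ⟨mul_mem iha.1 ihb.1, ?_⟩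
          have e : ⁅h, a * b⁆ = ⁅h, a⁆ * ⁅h, b⁆ := by
            rw [commutatorElement_def, commutatorElement_def, commutatorElement_def]
            have c1 : (h * b * h⁻¹ * b⁻¹) * a⁻¹ = a⁻¹ * (h * b * h⁻¹ * b⁻¹) :=
              hVc _ (mul_mem (hVn b ihb.1 h) (inv_mem ihb.1)) _ (inv_mem iha.1)
            calc h * (a * b) * h⁻¹ * (a * b)⁻¹ = h * a * h⁻¹ * ((h * b * h⁻¹ * b⁻¹) * a⁻¹) := by
                  group
              _ = h * a * h⁻¹ * (a⁻¹ * (h * b * h⁻¹ * b⁻¹)) := by rw [c1]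
              _ = _ := by group
          rw [e]
          exact mul_mem iha.2 ihb.2
        | inv a _ iha =>
          refine ⟨inv_mem iha.1, ?_⟩
          have e : ⁅h, a⁻¹⁆ = ⁅h, a⁆⁻¹ := by
            rw [commutatorElement_def, commutatorElement_def]
            have c1 : (h * a⁻¹ * h⁻¹) * a = a * (h * a⁻¹ * h⁻¹) :=
              hVc _ (hVn _ (inv_mem iha.1) h) _ iha.1
            calc h * a⁻¹ * h⁻¹ * a⁻¹⁻¹ = (h * a⁻¹ * h⁻¹) * a := by group
              _ = a * (h * a⁻¹ * h⁻¹) := c1
              _ = _ := by group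
          rw [e]
          exact inv_mem iha.2
      exact key.2
    rw [sup_comm] at hU
    have hv2 : v ∈ ((⁅H, closure {y | ∃ h ∈ H, y = h * v * h⁻¹}⁆ ⊔
        (closure {y | ∃ h ∈ H, y = h * v * h⁻¹} ⊓ normalizer (H : Set G)) : Subgroup G) : Set G) := by
      rw [← hU]; exact hvU
    rw [coe_mul_of_right_le_normalizer_left _ _
      (inf_le_left.trans (normalizer_commutator_ge_right H _))] at hv2
    obtain ⟨w, hw, n, hn, hwn⟩ := hv2
    have hwn' : w * n = v := hwn
    refine ⟨w, ?_, ?_⟩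
    · show w ∈ H ⊔ cj (v * k) H
      rw [hgv]; exact hT hw
    · show cj (v * k) H = cj w H
      rw [hgv, ← hwn', cj_mul, cj_of_mem_normalizer hn.2]

end Cfsg.Agent.S4269
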