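import Cfsg.Statements.S4270
import Cfsg.Agent.Lib.Helper74Pronormal

set_option autoImplicit false
open Cfsg

namespace Cfsg.Agent.S4270

open Subgroup Cfsg.Agent.Lib.Helper40Sylow Cfsg.Agent.Lib.Helper74Pronormal

theorem map_sup_mk {G : Type*} [Group G] (A : Subgroup G) [A.Normal] (H : Subgroup G) :
    (H ⊔ A).map (QuotientGroup.mk' A) = H.map (QuotientGroup.mk' A) := by
  rw [Subgroup.map_sup, QuotientGroup.map_mk'_self, sup_bot_eq]

theorem comap_map_mk {G : Type*} [Group G] (A : Subgroup G) [A.Normal] (H : Subgroup G) :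
    (H.map (QuotientGroup.mk' A)).comap (QuotientGroup.mk' A) = H ⊔ A := by
  rw [comap_map_eq, QuotientGroup.ker_mk']

/-- Let p be a prime and G a finite group with a normal subgroup A such that, both in A and in G/A, every subgroup containing a Sylow p-subgroup of that group is pronormal in that group. Let T be a Sylow p-subgroup of A. Then every subgroup of G containing a Sylow p-subgroup of G is pronormal in G if and only if (i) every subgroup of N_G(T)/T containing a Sylow p-subgroup of N_G(T)/T is pronormal there, and (ii) for every subgroup H of G containing a Sylow p-subgroup of G, the image of N_G(H) in G/A is the full normalizer of the image of H. (Pronormal: H and gHg⁻¹ are conjugate inside the subgroup they generate, for every g.) -/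
theorem result {G : Type*} [Group G] [Finite G] {p : ℕ} [Fact p.Prime]
    (A : Subgroup G) [A.Normal] (hA : (∀ K : Subgroup ↥A, (∃ P : Sylow p ↥A, (P : Subgroup ↥A) ≤ K) → Cfsg.IsPronormal K)) (hQ : (∀ K : Subgroup (G ⧸ A), (∃ P : Sylow p (G ⧸ A), (P : Subgroup (G ⧸ A)) ≤ K) → Cfsg.IsPronormal K))
    (T : Subgroup G) (hT : ∃ P : Sylow p ↥A, (P : Subgroup ↥A).map A.subtype = T) [(T.subgroupOf (Subgroup.normalizer (T : Set G))).Normal] :
    (∀ K : Subgroup G, (∃ P : Sylow p G, (P : Subgroup G) ≤ K) → Cfsg.IsPronormal K) ↔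
      ((∀ K : Subgroup (↥(Subgroup.normalizer (T : Set G)) ⧸ T.subgroupOf (Subgroup.normalizer (T : Set G))), (∃ P : Sylow p (↥(Subgroup.normalizer (T : Set G)) ⧸ T.subgroupOf (Subgroup.normalizer (T : Set G))), (P : Subgroup (↥(Subgroup.normalizer (T : Set G)) ⧸ T.subgroupOf (Subgroup.normalizer (T : Set G)))) ≤ K) → Cfsg.IsPronormal K) ∧
        ∀ K : Subgroup G, (∃ P : Sylow p G, (P : Subgroup G) ≤ K) →
          (Subgroup.normalizer (K : Set G)).map (QuotientGroup.mk' A) = Subgroup.normalizer ((K.map (QuotientGroup.mk' A) : Subgroup (G ⧸ A)) : Set (G ⧸ A))) := by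
  have hTs : IsSylowIn p T A := by
    obtain ⟨P0, hP0⟩ := hT
    rw [← hP0]; exact isSylowIn_of_sylow P0
  have hWA : WIn p A := wIn_of_wAll A hA
  constructor
  · intro h
    refine ⟨wAll_quot_of_wQ T hTs.2.1 (wQ_of_wAll A T hTs h), ?_⟩
    intro K hK
    apply le_antisymm
    · rintro _ ⟨n, hn, rfl⟩
      rw [mem_normalizer_iff_cj, ← map_cj, mem_normalizer_iff_cj.1 hn]
    · intro q hq
      obtain ⟨g, rfl⟩ := QuotientGroup.mk'_surjective A q
      rw [mem_normalizer_iff_cj, ← map_cj] at hq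
      have h1 : cj g K ≤ K ⊔ A := by
        rw [← comap_map_mk, ← hq]
        exact le_comap_map _ _
      obtain ⟨x, hx, hxe⟩ := h K hK g
      have hx2 : x ∈ ((A ⊔ K : Subgroup G) : Set G) := by
        rw [sup_comm]
        exact (sup_le le_sup_left h1) hx
      rw [normal_mul] at hx2
      obtain ⟨a, ha, k, hk, rfl⟩ := hx2
      have h2 : cj g K = cj a K := by
        have h3 : cj g K = cj (a * k) K := hxe
        rw [h3, cj_mul, cj_eq_self_of_mem hk]
      refine ⟨a⁻¹ * g, ?_, ?_⟩
      · rw [SetLike.mem_coe, mem_normalizer_iff_cj, cj_mul, h2, cj_inv_cj]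
      · have h4 : QuotientGroup.mk' A a = 1 := by
          rw [QuotientGroup.mk'_apply, QuotientGroup.eq_one_iff]; exact ha
        rw [map_mul, map_inv, h4, inv_one, one_mul]
  · rintro ⟨h, hii⟩
    have hN : WQ p T := wQ_of_wAll_quot T h
    show WAll p G
    rw [wAll_iff]
    intro H S hS hSH g
    obtain ⟨P, rfl⟩ := exists_sylow_of_isSylowIn_top hS
    have hHA : Cfsg.IsPronormal (H ⊔ A) := by
      have h1 := hQ (H.map (QuotientGroup.mk' A))
        ⟨P.mapSurjective (QuotientGroup.mk'_surjective A), by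
          rw [Sylow.coe_mapSurjective]; exact map_mono hSH⟩
      have h2 := isPronormal_comap _ (QuotientGroup.mk'_surjective A) h1
      rwa [comap_map_mk] at h2
    obtain ⟨x, hx, hxe⟩ := hHA g
    have hxe' : cj g (H ⊔ A) = cj x (H ⊔ A) := hxe
    have hx2 : x ∈ (((H ⊔ cj g H) ⊔ A : Subgroup G) : Set G) := by
      have h1 : (H ⊔ A) ⊔ cj g (H ⊔ A) ≤ (H ⊔ cj g H) ⊔ A := by
        rw [cj_sup, cj_normal A]
        exact sup_le (sup_le (le_sup_left.trans le_sup_left) le_sup_right)
          (sup_le (le_sup_right.trans le_sup_left) le_sup_right)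
      exact h1 hx
    rw [mul_normal] at hx2
    obtain ⟨y, hy, a0, ha0, rfl⟩ := hx2
    refine PAt.of_mul' (y := y) (g := y⁻¹ * g) (by group) hy ?_
    have hn : cj (y⁻¹ * g) (H ⊔ A) = H ⊔ A := by
      rw [cj_mul, hxe', cj_mul, cj_eq_self_of_mem (mem_sup_right ha0), cj_inv_cj]
    have h2 : QuotientGroup.mk' A (y⁻¹ * g) ∈
        normalizer ((H.map (QuotientGroup.mk' A) : Subgroup (G ⧸ A)) : Set (G ⧸ A)) := by
      rw [mem_normalizer_iff_cj, ← map_cj, ← map_sup_mk A (cj (y⁻¹ * g) H)]
      have h3 : cj (y⁻¹ * g) H ⊔ A = cj (y⁻¹ * g) (H ⊔ A) := by rw [cj_sup, cj_normal A]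
      rw [h3, hn, map_sup_mk]
    rw [← hii H ⟨P, hSH⟩] at h2
    obtain ⟨n, hn', hne⟩ := h2
    have h3 : y⁻¹ * g * n⁻¹ ∈ A := by
      rw [← QuotientGroup.eq_one_iff, ← QuotientGroup.mk'_apply, map_mul (QuotientGroup.mk' A) _ n⁻¹,
        map_inv, hne, mul_inv_cancel]
    have h4 : y⁻¹ * g = (y⁻¹ * g * n⁻¹) * n := by group
    rw [h4]
    exact PAt.mul_right (mem_normalizer_iff_cj.1 hn') (core A T hTs hWA hN H P hS hSH _ h3)

end Cfsg.Agent.S4270
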