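import Cfsg.Statements.S4271
import Cfsg.Agent.Lib.Helper74Pronormal

set_option autoImplicit false
open Cfsg

namespace Cfsg.Agent.S4271

open Subgroup Cfsg.Agent.Lib.Helper40Sylow Cfsg.Agent.Lib.Helper74Pronormal

/-- Let p be a prime and G a finite group with a normal subgroup A such that every subgroup of A containing a Sylow p-subgroup of A is pronormal in A, and the Sylow p-subgroups of G/A are self-normalizing. Let T be a Sylow p-subgroup of A. Then every subgroup of G containing a Sylow p-subgroup of G is pronormal in G if and only if every subgroup of N_G(T)/T containing a Sylow p-subgroup of N_G(T)/T is pronormal in N_G(T)/T. (Pronormal: H and gHg⁻¹ are conjugate inside the subgroup they generate, for every g.) -/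
theorem result {G : Type*} [Group G] [Finite G] {p : ℕ} [Fact p.Prime]
    (A : Subgroup G) [A.Normal] (hA : (∀ K : Subgroup ↥A, (∃ P : Sylow p ↥A, (P : Subgroup ↥A) ≤ K) → Cfsg.IsPronormal K))
    (hQ : ∀ P : Sylow p (G ⧸ A), Subgroup.normalizer ((P : Subgroup (G ⧸ A)) : Set (G ⧸ A)) = P)
    (T : Subgroup G) (hT : ∃ P : Sylow p ↥A, (P : Subgroup ↥A).map A.subtype = T) [(T.subgroupOf (Subgroup.normalizer (T : Set G))).Normal] :
    (∀ K : Subgroup G, (∃ P : Sylow p G, (P : Subgroup G) ≤ K) → Cfsg.IsPronormal K) ↔ (∀ K : Subgroup (↥(Subgroup.normalizer (T : Set G)) ⧸ T.subgroupOf (Subgroup.normalizer (T : Set G))), (∃ P : Sylow p (↥(Subgroup.normalizer (T : Set G)) ⧸ T.subgroupOf (Subgroup.normalizer (T : Set G))), (P : Subgroup (↥(Subgroup.normalizer (T : Set G)) ⧸ T.subgroupOf (Subgroup.normalizer (T : Set G)))) ≤ K) → Cfsg.IsPronormal K) := by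
  have hTs : IsSylowIn p T A := by
    obtain ⟨P0, hP0⟩ := hT
    rw [← hP0]; exact isSylowIn_of_sylow P0
  have hWA : WIn p A := wIn_of_wAll A hA
  constructor
  · intro h
    exact wAll_quot_of_wQ T hTs.2.1 (wQ_of_wAll A T hTs h)
  · intro h
    have hN : WQ p T := wQ_of_wAll_quot T h
    show WAll p G
    rw [wAll_iff]
    intro H S hS hSH g
    have hSJ : IsSylowIn p S (H ⊔ cj g H) := hS.of_le (hSH.trans le_sup_left) le_top
    have hSgJ : IsSylowIn p (cj g S) (H ⊔ cj g H) := by
      have h1 := hS.cj g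
      rw [cj_normal ⊤] at h1
      exact h1.of_le ((cj_mono hSH).trans le_sup_right) le_top
    obtain ⟨y, hy, hye⟩ := hSJ.exists_conj_eq hSgJ
    refine PAt.of_mul' (y := y⁻¹) (g := y * g) (by group) (inv_mem hy) ?_
    have hn : cj (y * g) S = S := by rw [cj_mul, hye]
    obtain ⟨P, rfl⟩ := exists_sylow_of_isSylowIn_top hS
    have h2 : QuotientGroup.mk' A (y * g) ∈
        normalizer (((P.mapSurjective (QuotientGroup.mk'_surjective A) : Sylow p (G ⧸ A)) :
          Subgroup (G ⧸ A)) : Set (G ⧸ A)) := by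
      rw [mem_normalizer_iff_cj, Sylow.coe_mapSurjective, ← map_cj, hn]
    rw [hQ, Sylow.coe_mapSurjective] at h2
    obtain ⟨s, hs, hse⟩ := h2
    have h3 : y * g * s⁻¹ ∈ A := by
      rw [← QuotientGroup.eq_one_iff, ← QuotientGroup.mk'_apply, map_mul, map_inv, hse,
        mul_inv_cancel]
    have h4 : y * g = (y * g * s⁻¹) * s := by group
    rw [h4]
    exact PAt.mul_right (cj_eq_self_of_mem (hSH hs)) (core A T hTs hWA hN H P hS hSH _ h3)

end Cfsg.Agent.S4271
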