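import Cfsg.Statements.S4284
import Cfsg.Agent.Lib.Helper65CSDefs
import Cfsg.Agent.Lib.Helper65CSBasic
import Cfsg.Agent.Lib.Helper27CSY2
import Cfsg.Agent.Lib.Helper27CSY4
import Cfsg.Agent.Lib.Helper28CSXa
import Cfsg.Agent.Lib.Helper28CSXd
import Cfsg.Agent.Lib.Helper54CSB4
import Cfsg.Agent.Lib.Helper5CSXb
import Cfsg.Agent.Lib.Helper66CSB2
import Cfsg.Agent.Lib.Helper66CSY6
import Cfsg.Agent.Lib.Helper6CSb5
import Cfsg.Agent.Lib.Helper84CSXc
import Cfsg.Agent.Lib.Helper84CSY1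
import Cfsg.Agent.Lib.Helper86CSY3
import Cfsg.Agent.Lib.Helper86CSY5
import Cfsg.Agent.Lib.Helper6CSb1
import Cfsg.Agent.Lib.Helper6CSb3

set_option autoImplicit false
set_option linter.style.haveILetI false
open Cfsg

namespace Cfsg.Agent.S4284

open Cfsg.Agent.Lib.Helper65CSDefs Cfsg.Agent.Lib.Helper65CSBasic
  Cfsg.Agent.Lib.Helper27CSY2 Cfsg.Agent.Lib.Helper27CSY4 Cfsg.Agent.Lib.Helper28CSXa Cfsg.Agent.Lib.Helper28CSXd Cfsg.Agent.Lib.Helper54CSB4 Cfsg.Agent.Lib.Helper5CSXb Cfsg.Agent.Lib.Helper66CSB2 Cfsg.Agent.Lib.Helper66CSY6 Cfsg.Agent.Lib.Helper6CSb5 Cfsg.Agent.Lib.Helper84CSXc Cfsg.Agent.Lib.Helper84CSY1 Cfsg.Agent.Lib.Helper86CSY3 Cfsg.Agent.Lib.Helper86CSY5 Cfsg.Agent.Lib.Helper6CSb1 Cfsg.Agent.Lib.Helper6CSb3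

theorem caseY {G : Type*} [Group G] [Finite G] {m n : ℕ} (h : Hyp G m n)
    (hY : ∀ p : ℕ, p.Prime → p ∣ m → ∀ u : G, NP p u → ∃ w : G, NR p w ∧ Commute u w) : False := by
  by_cases h2 : ∃ p q : ℕ, p.Prime ∧ q.Prime ∧ p ≠ q ∧ p ∣ m ∧ q ∣ m
  · obtain ⟨p₁, p₂, hp₁, hp₂, hne, hpm₁, hpm₂⟩ := h2
    have hother : ∀ q : ℕ, ∃ r : ℕ, r.Prime ∧ r ∣ m ∧ q ≠ r := by
      intro q
      by_cases hq : q = p₁
      · exact ⟨p₂, hp₂, hpm₂, by rw [hq]; exact hne⟩
      · exact ⟨p₁, hp₁, hpm₁, hq⟩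
    have hΩ : OmegaStmt G m := y2 h
    have ha : ∀ q : ℕ, q.Prime → q ∣ m → m.factorization q = 1 := by
      intro q hq hqm
      haveI := Fact.mk hq
      obtain ⟨r, hr, hrm, hqr⟩ := hother q
      haveI := Fact.mk hr
      apply y3 h hqm b1 b2
      intro u hu
      obtain ⟨v, hv, hvu⟩ := exists_NP_commute (p := r) h hrm hu.2
      have hC : Cen u = Cen v := hΩ q r hq hr hqr hqm hrm u v hu hv hvu.symm
      have hmem : ∀ a : G, a ∈ RR r v ↔ Commute v a ∧ IsP r a := fun a => mem_RR h hrm hv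
      have hcu : ∀ a : G, Commute v a ↔ Commute u a := by
        intro a
        rw [← mem_Cen', ← mem_Cen', hC]
      refine ⟨RR r v, ?_, ?_, ?_, ?_⟩
      · intro a ha b hb
        by_cases haz : a ∈ Subgroup.center G
        · exact commute_of_mem_center haz b
        · have h1 : Cen u = Cen a :=
            hΩ q r hq hr hqr hqm hrm u a hu ⟨((hmem a).mp ha).2, haz⟩ ((hcu a).mp ((hmem a).mp ha).1)
          have h2 : b ∈ Cen a := by
            rw [← h1]; exact mem_Cen'.mpr ((hcu b).mp ((hmem b).mp hb).1)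
          exact mem_Cen'.mp h2
      · intro a ha
        exact ⟨(hcu a).mp ((hmem a).mp ha).1, IsP.isReg hr hq (Ne.symm hqr) ((hmem a).mp ha).2⟩
      · intro hle
        exact hv.2 (hle ((hmem v).mpr ⟨Commute.refl v, hv.1⟩))
      · intro g hg a ha
        exact (hmem _).mpr ⟨(hcu _).mpr (hg a ((hcu a).mp ((hmem a).mp ha).1)),
          IsP.conj ((hmem a).mp ha).2 g⟩
    by_cases hI : ∃ q : ℕ, q.Prime ∧ q ∣ m ∧ ∃ u : G, NP q u ∧ (Cen u).index = m
    · obtain ⟨q, hq, hqm, u, hu, hui⟩ := hI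
      haveI := Fact.mk hq
      obtain ⟨r, hr, hrm, hqr⟩ := hother q
      haveI := Fact.mk hr
      exact y5 h hΩ r hqr hqm hrm b3 (y4 h ha hΩ hqm) u hu hui
    · haveI := Fact.mk hp₁
      refine y6 h ha hpm₁ (y4 h ha hΩ hpm₁) ?_
      intro q hq hqm u hu
      rcases index_of_not_mem h hu.2 with h1 | h1
      · exact absurd ⟨q, hq, hqm, u, hu, h1⟩ hI
      · exact h1
  · have hm1 : m ≠ 1 := h.hm.ne'
    have hp : (m.minFac).Prime := Nat.minFac_prime hm1
    have hpm : m.minFac ∣ m := Nat.minFac_dvd m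
    generalize m.minFac = p at hp hpm
    haveI := Fact.mk hp
    have huniq : ∀ q : ℕ, q.Prime → q ∣ m → q = p := by
      intro q hq hqm
      by_contra hne
      exact h2 ⟨q, p, hq, hp, hne, hqm, hpm⟩
    have hpow : ∃ a : ℕ, m = p ^ a :=
      ⟨_, Nat.eq_prime_pow_of_unique_prime_dvd (by have := h.hm; omega) (fun {d} hd hdm => huniq d hd hdm)⟩
    have hΩ : OmegaStmt G m := by
      intro p' q' hp' hq' hne hp'm hq'm
      exact absurd ((huniq p' hp' hp'm).trans (huniq q' hq' hq'm).symm) hne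
    have hII : ∀ u : G, NP p u → (Cen u).index = m * n := by
      intro u hu
      rcases index_of_not_mem h hu.2 with h1 | h1
      · exact (y1 h hpm hpow (hY p hp hpm) u hu h1).elim
      · exact h1
    have hap : m.factorization p = 1 := by
      apply y3 h hpm b1 b2
      intro u hu
      have hmem : ∀ a : G, a ∈ HH p u ↔ Commute u a ∧ IsReg p a := fun a => mem_HH h hpm hu
      refine ⟨HH p u, ?_, fun a ha => (hmem a).mp ha, ?_, ?_⟩
      · intro a ha b hb
        have h1 : Cen u ≤ Cen a :=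
          cen_le_of_typeII h (hII u hu) ((hmem a).mp ha).1 (IsP.coprime hu.1 ((hmem a).mp ha).2)
        exact mem_Cen'.mp (h1 (mem_Cen'.mpr ((hmem b).mp hb).1))
      · intro hle
        obtain ⟨w, hw, huw⟩ := hY p hp hpm u hu
        exact hw.2 (hle ((hmem w).mpr ⟨huw, hw.1⟩))
      · intro g hg a ha
        exact (hmem _).mpr ⟨hg a ((hmem a).mp ha).1, IsReg.conj ((hmem a).mp ha).2 g⟩
    have ha : ∀ q : ℕ, q.Prime → q ∣ m → m.factorization q = 1 := by
      intro q hq hqm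
      rw [huniq q hq hqm]; exact hap
    refine y6 h ha hpm (y4 h ha hΩ hpm) ?_
    intro q hq hqm u hu
    rw [huniq q hq hqm] at hu
    exact hII u hu

/-- Let G be a finite group with no nontrivial abelian direct factor whose conjugacy class sizes are exactly 1, m and m·n with m, n > 1 coprime. Then m is a prime p dividing n − 1; the elements whose class has size 1 or p form an abelian normal subgroup of index p; G has a normal p-complement; and the commutator subgroup of a Sylow p-subgroup of G has order p. -/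
theorem result {G : Type*} [Group G] [Finite G] (hnodf : ∀ A B : Subgroup G, A.Normal → B.Normal → A ⊓ B = ⊥ → A ⊔ B = ⊤ → IsMulCommutative A → A = ⊥) (m n : ℕ) (hm : 1 < m) (hn : 1 < n) (hcop : m.Coprime n) (h : Set.range (fun x : G => (Subgroup.centralizer ({x} : Set G)).index) = ({1, m, m * n} : Set ℕ)) : m.Prime ∧ m ∣ n - 1 ∧ (∃ M : Subgroup G, M.Normal ∧ (M : Set G) = {x : G | (Subgroup.centralizer ({x} : Set G)).index = 1 ∨ (Subgroup.centralizer ({x} : Set G)).index = m} ∧ M.index = m ∧ IsMulCommutative M) ∧ (∃ N : Subgroup G, N.Normal ∧ (Nat.card N).Coprime m ∧ ∃ a : ℕ, N.index = m ^ a) ∧ ∀ P : Sylow m G, Nat.card (commutator (P : Subgroup G)) = m := by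
  have hH : Hyp G m n := by
    refine ⟨hm, hn, hcop, ?_, ?_, ?_⟩
    · intro x
      have : (Subgroup.centralizer ({x} : Set G)).index ∈ ({1, m, m * n} : Set ℕ) := by
        rw [← h]; exact ⟨x, rfl⟩
      simpa using this
    · have : m ∈ Set.range (fun x : G => (Subgroup.centralizer ({x} : Set G)).index) := by
        rw [h]; simp
      obtain ⟨x, hx⟩ := this
      exact ⟨x, hx⟩
    · have : m * n ∈ Set.range (fun x : G => (Subgroup.centralizer ({x} : Set G)).index) := by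
        rw [h]; simp
      obtain ⟨x, hx⟩ := this
      exact ⟨x, hx⟩
  by_cases hcase : ∃ p : ℕ, p.Prime ∧ p ∣ m ∧ ∃ u : G, NP p u ∧
      ∀ w : G, Commute u w → IsReg p w → w ∈ Subgroup.center G
  · obtain ⟨p, hp, hpm, u, hu, hX⟩ := hcase
    haveI := Fact.mk hp
    have hA := xa hH hpm u hu hX
    obtain ⟨K, M, hS⟩ := xb hH hpm hA
    have hmp : m = p := xc hH hpm hA.pow K M hS b1 b2
    subst hmp
    obtain ⟨h1, h2⟩ := xd hH K M hS b4 b5
    refine ⟨hp, h1, ⟨M, hS.Mn, ?_, hS.Midx, ?_⟩, ⟨K, hS.Kn, hS.Kcop, hS.Kidx⟩, h2⟩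
    · ext x
      exact hS.Mset x
    · exact ⟨⟨fun a b => Subtype.ext (hS.Mcomm a a.2 b b.2)⟩⟩
  · exfalso
    apply caseY hH
    intro p hp hpm u hu
    by_contra hno
    apply hcase
    refine ⟨p, hp, hpm, u, hu, ?_⟩
    intro w huw hw
    by_contra hwz
    exact hno ⟨w, ⟨hw, hwz⟩, huw⟩

end Cfsg.Agent.S4284
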