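import Cfsg.Statements.S4321
import Cfsg.Agent.Lib.Helper65ClassGraph2

set_option autoImplicit false
open Cfsg

namespace Cfsg.Agent.S4321

open Cfsg.Agent.Lib.Helper65ClassGraph Cfsg.Agent.Lib.Helper65ClassGraph2
open Cfsg.Agent.S4134 (Cen mem_Cen self_mem_Cen cen_le_of_mem_zpowers center_le_Cen)
open Cfsg.Agent.Lib.Helper72Pi Cfsg.Agent.Lib.Helper72Class
open Cfsg.Agent.Lib.Helper12Coprime (exists_mul_of_coprime_index index_inf_of_coprime)
open scoped Pointwise

section aux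

variable {G : Type*} [Group G] [Finite G]

theorem index_mul_dvd (x u : G) (hcop : ((Cen x).index).Coprime (Cen u).index) :
    (Cen (x * u)).index ∣ (Cen x).index * (Cen u).index := by
  rw [← index_inf_of_coprime _ _ hcop]
  apply Subgroup.index_dvd_of_le
  intro g hg
  obtain ⟨hg1, hg2⟩ := Subgroup.mem_inf.mp hg
  rw [mem_Cen] at hg1 hg2 ⊢
  calc g * (x * u) = (g * x) * u := by group
    _ = x * (g * u) := by rw [hg1]; group
    _ = x * u * g := by rw [hg2]; group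

theorem index_conj (g y : G) : (Cen (g * y * g⁻¹)).index = (Cen y).index := by
  rw [Lib.Helper73Class.index_centralizer_eq_ncard, Lib.Helper73Class.index_centralizer_eq_ncard]
  congr 1
  ext b
  constructor
  · intro hb
    exact (isConj_iff.mpr ⟨g, rfl⟩ : IsConj y (g * y * g⁻¹)).trans hb
  · intro hb
    exact (isConj_iff.mpr ⟨g, rfl⟩ : IsConj y (g * y * g⁻¹)).symm.trans hb

variable {p : ℕ}

theorem sing_of_pElt {v : G} (hv1 : v ≠ 1) (hv : IsPiElt ({p} : Set ℕ) v) : p ∣ orderOf v := by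
  have h1 : orderOf v ≠ 1 := fun h => hv1 (orderOf_eq_one_iff.mp h)
  obtain ⟨t, ht, htd⟩ := Nat.exists_prime_and_dvd h1
  have := hv t ht htd
  rw [Set.mem_singleton_iff] at this
  rwa [this] at htd

theorem isPiElt_of_mem_sylow [Fact p.Prime] (P : Sylow p G) {v : G} (hv : v ∈ P) :
    IsPiElt ({p} : Set ℕ) v := by
  intro t ht htv
  obtain ⟨k, hk⟩ := P.isPGroup' ⟨v, hv⟩
  have hk' : v ^ (p ^ k) = 1 := congrArg Subtype.val hk
  have h1 : t ∣ p ^ k := htv.trans (orderOf_dvd_of_pow_eq_one hk')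
  exact (Nat.prime_dvd_prime_iff_eq ht Fact.out).mp (ht.dvd_of_dvd_pow h1)

theorem exists_sylow_mem [Fact p.Prime] {v : G} (hv : IsPiElt ({p} : Set ℕ) v) :
    ∃ P : Sylow p G, v ∈ P := by
  have h1 : IsPGroup p (Subgroup.zpowers v) := by
    obtain ⟨k, hk⟩ : ∃ k, orderOf v = p ^ k := by
      refine ⟨_, Nat.eq_prime_pow_of_unique_prime_dvd (orderOf_pos v).ne' ?_⟩
      intro d hd hdv
      exact hv d hd hdv
    apply IsPGroup.of_card (n := k)
    rw [Nat.card_zpowers, hk]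
  obtain ⟨P, hP⟩ := h1.exists_le_sylow
  exact ⟨P, hP (Subgroup.mem_zpowers v)⟩

theorem exists_conj_mem [Fact p.Prime] (P : Sylow p G) {v : G} (hv : IsPiElt ({p} : Set ℕ) v) :
    ∃ g : G, g * v * g⁻¹ ∈ P := by
  obtain ⟨P', hP'⟩ := exists_sylow_mem hv
  obtain ⟨g, hg⟩ := MulAction.exists_smul_eq G P' P
  refine ⟨g, ?_⟩
  have : g * v * g⁻¹ ∈ (g • P' : Sylow p G).toSubgroup := by
    rw [Sylow.coe_subgroup_smul]
    exact (Lib.Helper72Frob.mem_conj_smul_iff _ _ _).mpr ⟨v, hP', rfl⟩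
  rw [hg] at this
  exact this

structure Sep (p r s : ℕ) (A B : Set ℕ) (G : Type*) [Group G] : Prop where
  disj : ∀ t, t ∈ A → t ∈ B → False
  hno : ∀ g : G, p ∣ orderOf g → ∀ t u : ℕ, t ∈ A → u ∈ B → t.Prime → u.Prime →
    t ∣ (Cen g).index → u ∣ (Cen g).index → False
  hr : ∀ g : G, p ∣ orderOf g → r ∣ (Cen g).index → IsPiNum A (Cen g).index
  hs : ∀ g : G, p ∣ orderOf g → s ∣ (Cen g).index → IsPiNum B (Cen g).index
  hZ : ¬ p ∣ Nat.card (Subgroup.center G)

variable {r s : ℕ} {A B : Set ℕ}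

omit [Finite G] in
theorem Sep.symm (h : Sep p r s A B G) : Sep p s r B A G :=
  ⟨fun t h1 h2 => h.disj t h2 h1, fun g hg t u h1 h2 h3 h4 h5 h6 => h.hno g hg u t h2 h1 h4 h3 h6 h5,
    h.hs, h.hr, h.hZ⟩

omit [Finite G] in
theorem Sep.compl (h : Sep p r s A B G) {k : ℕ} (hk : IsPiNum B k) : IsPiNum Aᶜ k :=
  fun t ht htk htA => h.disj t htA (hk t ht htk)

theorem Sep.not_center (h : Sep p r s A B G) {g : G} (hg : p ∣ orderOf g) :
    g ∉ Subgroup.center G := by
  intro hgZ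
  apply h.hZ
  have := orderOf_dvd_natCard (⟨g, hgZ⟩ : Subgroup.center G)
  rw [← Subgroup.orderOf_coe] at this
  exact hg.trans this

theorem Sep.index_le (h : Sep p r s A B G) {x e : G} (hx : IsPiNum A (Cen x).index)
    (he : IsPiNum B (Cen e).index) (hle : (Cen e).index ≤ (Cen x).index)
    (hsing : p ∣ orderOf (x * e)) : (Cen (x * e)).index ≤ (Cen x).index := by
  have hcop : ((Cen x).index).Coprime (Cen e).index := hx.coprime (h.compl he)
  obtain ⟨d₁, d₂, h1, h2, h3⟩ := (Nat.dvd_mul).mp (index_mul_dvd x e hcop)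
  have hpos1 : 0 < (Cen x).index := Nat.pos_of_ne_zero Subgroup.index_ne_zero_of_finite
  have hpos2 : 0 < (Cen e).index := Nat.pos_of_ne_zero Subgroup.index_ne_zero_of_finite
  by_cases hd1 : d₁ = 1
  · rw [← h3, hd1, one_mul]
    exact (Nat.le_of_dvd hpos2 h2).trans hle
  by_cases hd2 : d₂ = 1
  · rw [← h3, hd2, mul_one]
    exact Nat.le_of_dvd hpos1 h1
  exfalso
  obtain ⟨t, ht, htd⟩ := Nat.exists_prime_and_dvd hd1
  obtain ⟨u, hu, hud⟩ := Nat.exists_prime_and_dvd hd2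
  exact h.hno (x * e) hsing t u (hx t ht (htd.trans h1)) (he u hu (hud.trans h2)) ht hu
    (by rw [← h3]; exact htd.trans (dvd_mul_right _ _))
    (by rw [← h3]; exact hud.trans (dvd_mul_left _ _))

/-- the `p`-element with the larger class size has class size divisible by `p` -/
theorem Sep.lt_of_not_dvd [Fact p.Prime] (h : Sep p r s A B G) {x y : G} (hx1 : x ≠ 1)
    (hxp : IsPiElt ({p} : Set ℕ) x) (hy1 : y ≠ 1) (hyp : IsPiElt ({p} : Set ℕ) y)
    (hxA : IsPiNum A (Cen x).index) (hyB : IsPiNum B (Cen y).index)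
    (hpx : ¬ p ∣ (Cen x).index) : (Cen x).index < (Cen y).index := by
  by_contra hle
  push Not at hle
  obtain ⟨P, -, hP⟩ := exists_sylow_le p (Cen x) hpx ⊥ (IsPGroup.of_bot) bot_le
  obtain ⟨g₀, hg₀⟩ := exists_conj_mem P hyp
  set y' := g₀ * y * g₀⁻¹ with hy'
  have hy'1 : y' ≠ 1 := by
    intro e
    apply hy1
    have : y = g₀⁻¹ * y' * g₀ := by rw [hy']; group
    rw [this, e]; group
  have hy'p : IsPiElt ({p} : Set ℕ) y' := hyp.conj g₀
  have hidx : (Cen y').index = (Cen y).index := index_conj g₀ y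
  have hy'B : IsPiNum B (Cen y').index := by rw [hidx]; exact hyB
  have hc : Commute x y' := (mem_Cen.mp (hP hg₀)).symm
  have hxZ : x ∉ Subgroup.center G := h.not_center (sing_of_pElt hx1 hxp)
  have hy'Z : y' ∉ Subgroup.center G := h.not_center (sing_of_pElt hy'1 hy'p)
  have hne : x * y' ≠ 1 := by
    intro e
    have e1 : x = y'⁻¹ := eq_inv_of_mul_eq_one_left e
    have h1 : x ∈ Subgroup.zpowers y' := by
      rw [e1]; exact (Subgroup.zpowers y').inv_mem (Subgroup.mem_zpowers y')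
    have h2 : IsPiNum B (Cen x).index := hy'B.of_dvd (index_dvd_of_mem_zpowers h1)
    exact index_ne_one hxZ (hxA.eq_one (h.compl h2))
  have hsing : p ∣ orderOf (x * y') := sing_of_pElt hne (hxp.mul hy'p hc)
  have hcop : ((Cen x).index).Coprime (Cen y').index := hxA.coprime (h.compl hy'B)
  have hle' := h.index_le hxA hy'B (by rw [hidx]; exact hle) hsing
  have hTle : TT x ≤ Cen y' := by
    apply le_of_coprime_card_index
    exact Nat.Coprime.coprime_dvd_left (card_TT_dvd x) hcop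
  have hxp' : IsPiNum ({p} : Set ℕ)ᶜ (Cen x).index := by
    intro q _ hqd hqp
    rw [Set.mem_singleton_iff] at hqp
    exact hpx (hqp ▸ hqd)
  apply hy'Z
  rw [Subgroup.mem_center_iff]
  intro g
  have ht := bhm x y' hcop hle' g
  have hc1 : Commute (y' * (g * y' * g⁻¹)⁻¹) y' := mem_Cen.mp (hTle ht)
  have hc2 : Commute y' (g * y' * g⁻¹)⁻¹ := by
    have e : (g * y' * g⁻¹)⁻¹ = y'⁻¹ * (y' * (g * y' * g⁻¹)⁻¹) := by group
    rw [e]
    exact ((Commute.refl y').inv_right).mul_right hc1.symm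
  have h1 : IsPiElt ({p} : Set ℕ) (y' * (g * y' * g⁻¹)⁻¹) := hy'p.mul (hy'p.conj g).inv hc2
  have h2 := eq_one_of_isPiElt_compl h1 (isPiElt_of_mem_TT hxp' ht)
  have h3 : y' = g * y' * g⁻¹ := mul_inv_eq_one.mp h2
  calc g * y' = g * y' * g⁻¹ * g := by group
    _ = y' * g := by rw [← h3]

theorem Sep.compl_part_central [Fact p.Prime] (h : Sep p r s A B G) {c x c' : G}
    (hcB : IsPiNum B (Cen c).index) (hpc : ¬ p ∣ (Cen c).index) (hx1 : x ≠ 1)
    (hxp : IsPiElt ({p} : Set ℕ) x) (hxA : IsPiNum A (Cen x).index)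
    (hc' : c' ∈ Subgroup.zpowers c) (hc'p : IsPiElt ({p} : Set ℕ)ᶜ c') :
    c' ∈ Subgroup.center G := by
  by_contra hc'Z
  obtain ⟨P, -, hP⟩ := exists_sylow_le p (Cen c) hpc ⊥ (IsPGroup.of_bot) bot_le
  obtain ⟨g₀, hg₀⟩ := exists_conj_mem P hxp
  set x' := g₀ * x * g₀⁻¹ with hx'
  have hx'1 : x' ≠ 1 := by
    intro e
    apply hx1
    have : x = g₀⁻¹ * x' * g₀ := by rw [hx']; group
    rw [this, e]; group
  have hx'p : IsPiElt ({p} : Set ℕ) x' := hxp.conj g₀
  have hx'A : IsPiNum A (Cen x').index := by rw [index_conj]; exact hxA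
  have hcomm : Commute x' c' := mem_Cen.mp (cen_le_of_mem_zpowers hc' (hP hg₀))
  have e : Cen (x' * c') = Cen x' ⊓ Cen c' := centralizer_mul_of_coprime hcomm (hx'p.coprime hc'p)
  have d1 : (Cen x').index ∣ (Cen (x' * c')).index :=
    Subgroup.index_dvd_of_le (by rw [e]; exact inf_le_left)
  have d2 : (Cen c').index ∣ (Cen (x' * c')).index :=
    Subgroup.index_dvd_of_le (by rw [e]; exact inf_le_right)
  have hsing : p ∣ orderOf (x' * c') :=
    (sing_of_pElt hx'1 hx'p).trans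
      (orderOf_dvd_of_mem_zpowers (mem_zpowers_mul_of_coprime hcomm (hx'p.coprime hc'p)))
  have hx'Z : x' ∉ Subgroup.center G := h.not_center (sing_of_pElt hx'1 hx'p)
  obtain ⟨t, ht, htd⟩ := Nat.exists_prime_and_dvd (index_ne_one hx'Z)
  obtain ⟨u, hu, hud⟩ := Nat.exists_prime_and_dvd (index_ne_one hc'Z)
  exact h.hno _ hsing t u (hx'A t ht htd)
    (hcB u hu (hud.trans (index_dvd_of_mem_zpowers hc'))) ht hu (htd.trans d1) (hud.trans d2)

theorem mem_all_sylow [Fact p.Prime] {v : G} (hv : IsPiElt ({p} : Set ℕ) v)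
    (hidx : IsPiNum ({p} : Set ℕ) (Cen v).index) (P : Sylow p G) : v ∈ P := by
  obtain ⟨g, hg⟩ := exists_conj_mem P hv
  have hP : IsPiNum ({p} : Set ℕ)ᶜ (P : Subgroup G).index := by
    intro q _ hqd hqp
    rw [Set.mem_singleton_iff] at hqp
    exact P.not_dvd_index (hqp ▸ hqd)
  obtain ⟨u, hu, c, hc, rfl⟩ := exists_mul_of_coprime_index (P : Subgroup G) (Cen v)
    (hidx.coprime hP).symm g
  have hc' : c * v = v * c := mem_Cen.mp hc
  have e1 : c * v * c⁻¹ = v := by rw [hc']; group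
  have e2 : u * c * v * (u * c)⁻¹ = u * v * u⁻¹ := by
    calc u * c * v * (u * c)⁻¹ = u * (c * v * c⁻¹) * u⁻¹ := by group
      _ = u * v * u⁻¹ := by rw [e1]
  rw [e2] at hg
  have e3 : v = u⁻¹ * (u * v * u⁻¹) * u := by group
  rw [e3]
  exact (P : Subgroup G).mul_mem ((P : Subgroup G).mul_mem ((P : Subgroup G).inv_mem hu) hg) hu

theorem Sep.false_of_lt [Fact p.Prime] (h : Sep p r s A B G) {x c y c' : G} (hx1 : x ≠ 1)
    (hxp : IsPiElt ({p} : Set ℕ) x) (hxA : IsPiNum A (Cen x).index)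
    (hc : p ∣ orderOf c) (hsc : s ∣ (Cen c).index)
    (hy : y ∈ Subgroup.zpowers c) (hc' : c' ∈ Subgroup.zpowers c) (hyc : y * c' = c)
    (hyp : IsPiElt ({p} : Set ℕ) y) (hc'p : IsPiElt ({p} : Set ℕ)ᶜ c')
    (hlt : (Cen y).index < (Cen x).index) : False := by
  have hpp : p.Prime := Fact.out
  have hcB : IsPiNum B (Cen c).index := h.hs c hc hsc
  have hy1 : y ≠ 1 := by
    intro e
    rw [e, one_mul] at hyc
    rw [← hyc] at hc
    exact hc'p p hpp hc rfl
  have hyB : IsPiNum B (Cen y).index := hcB.of_dvd (index_dvd_of_mem_zpowers hy)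
  have hpx : p ∣ (Cen x).index := by
    by_contra hpx
    have := h.lt_of_not_dvd hx1 hxp hy1 hyp hxA hyB hpx
    omega
  have hpA : p ∈ A := hxA p hpp hpx
  have hpB : p ∉ B := fun hB => h.disj p hpA hB
  have hpc : ¬ p ∣ (Cen c).index := fun hd => hpB (hcB p hpp hd)
  have hc'Z := h.compl_part_central hcB hpc hx1 hxp hxA hc' hc'p
  have e : Cen y = Cen c := by
    apply le_antisymm _ (cen_le_of_mem_zpowers hy)
    intro g hg
    rw [mem_Cen] at hg ⊢
    rw [← hyc]
    calc g * (y * c') = (g * y) * c' := by group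
      _ = y * (g * c') := by rw [hg]; group
      _ = y * c' * g := by rw [Subgroup.mem_center_iff.mp hc'Z g]; group
  have hsy : s ∣ (Cen y).index := by rw [e]; exact hsc
  have hpy : ¬ p ∣ (Cen y).index := by rw [e]; exact hpc
  have hyZ : y ∉ Subgroup.center G := h.not_center (sing_of_pElt hy1 hyp)
  have hcent : ∀ u ∈ Cen y, IsPiElt ({p} : Set ℕ)ᶜ u → u ∈ Subgroup.center G := by
    intro u hu hup
    have hcomm : Commute y u := (mem_Cen.mp hu).symm
    have e2 : Cen (y * u) = Cen y ⊓ Cen u := centralizer_mul_of_coprime hcomm (hyp.coprime hup)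
    have d1 : (Cen y).index ∣ (Cen (y * u)).index :=
      Subgroup.index_dvd_of_le (by rw [e2]; exact inf_le_left)
    have hsing : p ∣ orderOf (y * u) :=
      (sing_of_pElt hy1 hyp).trans
        (orderOf_dvd_of_mem_zpowers (mem_zpowers_mul_of_coprime hcomm (hyp.coprime hup)))
    have hB2 : IsPiNum B (Cen (y * u)).index := h.hs _ hsing (hsy.trans d1)
    have hu2 : u ∈ Subgroup.zpowers (y * u) := by
      have := mem_zpowers_mul_of_coprime hcomm.symm (hyp.coprime hup).symm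
      rwa [← hcomm.eq] at this
    exact h.compl_part_central hB2 (fun hd => hpB (hB2 p hpp hd)) hx1 hxp hxA hu2 hup
  have hD : ∀ q : ℕ, q.Prime → q ≠ p → ∀ g : G, q ∣ (Cen g).index → q ∣ (Cen y).index := by
    intro q hq hqp g hqg
    by_contra hqy
    have := Fact.mk hq
    obtain ⟨R, -, hR⟩ := exists_sylow_le q (Cen y) hqy ⊥ (IsPGroup.of_bot) bot_le
    have hRZ : (R : Subgroup G) ≤ Subgroup.center G := by
      intro u hu
      apply hcent u (hR hu)
      apply (isPiElt_of_mem_sylow R hu).mono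
      intro t ht htp
      rw [Set.mem_singleton_iff] at ht htp
      exact hqp (ht ▸ htp)
    exact R.not_dvd_index (hqg.trans (Subgroup.index_dvd_of_le (hRZ.trans (center_le_Cen g))))
  have hD' : ∀ g : G, p ∣ orderOf g → p ∣ (Cen g).index → IsPiNum ({p} : Set ℕ) (Cen g).index := by
    intro g hg hpg t ht htg
    by_contra htp
    have htp' : t ≠ p := htp
    exact h.hno g hg p t hpA (hyB t ht (hD t ht htp' g htg)) hpp ht hpg htg
  obtain ⟨P⟩ : Nonempty (Sylow p G) := inferInstance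
  have hxall : ∀ P' : Sylow p G, x ∈ P' := mem_all_sylow hxp (hD' x (sing_of_pElt hx1 hxp) hpx)
  have hall : ∀ u ∈ P, ∀ P' : Sylow p G, u ∈ P' := by
    by_contra hcon
    push Not at hcon
    obtain ⟨u₀, hu₀, P₀, hu₀P₀⟩ := hcon
    have key : ∀ u ∈ P, (∃ P' : Sylow p G, u ∉ P') → Commute u x := by
      rintro u hu ⟨P', huP'⟩
      have hup : IsPiElt ({p} : Set ℕ) u := isPiElt_of_mem_sylow P hu
      have hu1 : u ≠ 1 := by
        rintro rfl
        exact huP' (P' : Subgroup G).one_mem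
      by_cases hpu : p ∣ (Cen u).index
      · exact absurd (mem_all_sylow hup (hD' u (sing_of_pElt hu1 hup) hpu) P') huP'
      · obtain ⟨P'', -, hP''⟩ := exists_sylow_le p (Cen u) hpu ⊥ (IsPGroup.of_bot) bot_le
        exact (mem_Cen.mp (hP'' (hxall P''))).symm
    have hle : (P : Subgroup G) ≤ Cen x := by
      intro u hu
      rw [mem_Cen]
      by_cases hex : ∃ P' : Sylow p G, u ∉ P'
      · exact (key u hu hex).eq
      · push Not at hex
        have h1 : u * u₀ ∉ P₀ := by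
          intro hm
          apply hu₀P₀
          have h9 := (P₀ : Subgroup G).mul_mem ((P₀ : Subgroup G).inv_mem (hex P₀)) hm
          have e9 : u⁻¹ * (u * u₀) = u₀ := by group
          rw [e9] at h9
          exact h9
        have h2 := key (u * u₀) ((P : Subgroup G).mul_mem hu hu₀) ⟨P₀, h1⟩
        have h3 := key u₀ hu₀ ⟨P₀, hu₀P₀⟩
        have e3 : u = (u * u₀) * u₀⁻¹ := by group
        have h4 : Commute ((u * u₀) * u₀⁻¹) x := h2.mul_left h3.inv_left
        rw [← e3] at h4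
        exact h4.eq
    exact P.not_dvd_index (hpx.trans (Subgroup.index_dvd_of_le hle))
  have hPn : (P : Subgroup G).Normal := by
    constructor
    intro u hu g
    have h1 : u ∈ (g⁻¹ • P : Sylow p G).toSubgroup := hall u hu (g⁻¹ • P)
    rw [Sylow.coe_subgroup_smul] at h1
    obtain ⟨w, hw, rfl⟩ := (Lib.Helper72Frob.mem_conj_smul_iff _ _ _).mp h1
    have : g * (g⁻¹ * w * g⁻¹⁻¹) * g⁻¹ = w := by group
    rw [this]; exact hw
  have hZP : ∀ v ∈ P, ¬ p ∣ (Cen v).index → ∀ u ∈ P, Commute u v := by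
    intro v _ hpv u hu
    obtain ⟨P'', -, hP''⟩ := exists_sylow_le p (Cen v) hpv ⊥ (IsPGroup.of_bot) bot_le
    exact mem_Cen.mp (hP'' (hall u hu P''))
  have hyP : y ∈ P := by
    obtain ⟨g, hg⟩ := exists_conj_mem P hyp
    have := hPn.conj_mem _ hg g⁻¹
    have e3 : g⁻¹ * (g * y * g⁻¹) * g⁻¹⁻¹ = y := by group
    rwa [e3] at this
  obtain ⟨q, hq, hqy⟩ := Nat.exists_prime_and_dvd (index_ne_one hyZ)
  have hqp : q ≠ p := fun e => hpy (e ▸ hqy)
  have := Fact.mk hq
  obtain ⟨Q⟩ : Nonempty (Sylow q G) := inferInstance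
  set ZP : Subgroup G := Subgroup.centralizer ((P : Subgroup G) : Set G) ⊓ (P : Subgroup G) with hZPdef
  have hmemZP : ∀ v, v ∈ ZP ↔ (v ∈ P ∧ ∀ u ∈ P, Commute u v) := by
    intro v
    constructor
    · rintro ⟨h1, h2⟩
      exact ⟨h2, fun u hu => (Subgroup.mem_centralizer_iff.mp h1 u hu)⟩
    · rintro ⟨h1, h2⟩
      exact ⟨Subgroup.mem_centralizer_iff.mpr fun u hu => (h2 u hu).eq, h1⟩
  have hcov : ∀ v ∈ P, v ∉ ZP → ∃ c ∈ P, ∀ w ∈ Q, Commute w (c * v * c⁻¹) := by
    intro v hv hvZ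
    have hpv : p ∣ (Cen v).index := by
      by_contra hpv
      exact hvZ ((hmemZP v).mpr ⟨hv, hZP v hv hpv⟩)
    have hv1 : v ≠ 1 := by
      rintro rfl
      exact hvZ ZP.one_mem
    have hvp : IsPiElt ({p} : Set ℕ) v := isPiElt_of_mem_sylow P hv
    have hvnum := hD' v (sing_of_pElt hv1 hvp) hpv
    have hqv : ¬ q ∣ (Cen v).index := fun hd => hqp (hvnum q hq hd)
    obtain ⟨Q', -, hQ'⟩ := exists_sylow_le q (Cen v) hqv ⊥ (IsPGroup.of_bot) bot_le
    obtain ⟨g, hg⟩ := MulAction.exists_smul_eq G Q' Q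
    have hPidx : IsPiNum ({p} : Set ℕ)ᶜ (P : Subgroup G).index := by
      intro t _ htd htp
      rw [Set.mem_singleton_iff] at htp
      exact P.not_dvd_index (htp ▸ htd)
    obtain ⟨c, hc, d, hd, rfl⟩ := exists_mul_of_coprime_index (P : Subgroup G) (Cen v)
      (hvnum.coprime hPidx).symm g
    refine ⟨c, hc, ?_⟩
    intro w hw
    have hw' : w ∈ ((c * d) • Q' : Sylow q G).toSubgroup := by rw [hg]; exact hw
    rw [Sylow.coe_subgroup_smul] at hw'
    obtain ⟨w', hw'', rfl⟩ := (Lib.Helper72Frob.mem_conj_smul_iff _ _ _).mp hw'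
    have hwv : Commute w' v := mem_Cen.mp (hQ' hw'')
    have hd' : d * v = v * d := mem_Cen.mp hd
    have e1 : d * v * d⁻¹ = v := by rw [hd']; group
    have e2 : c * v * c⁻¹ = (c * d) * v * (c * d)⁻¹ := by
      calc c * v * c⁻¹ = c * (d * v * d⁻¹) * c⁻¹ := by rw [e1]
        _ = (c * d) * v * (c * d)⁻¹ := by group
    rw [e2]
    show c * d * w' * (c * d)⁻¹ * (c * d * v * (c * d)⁻¹) =
      c * d * v * (c * d)⁻¹ * (c * d * w' * (c * d)⁻¹)
    calc c * d * w' * (c * d)⁻¹ * (c * d * v * (c * d)⁻¹) = c * d * (w' * v) * (c * d)⁻¹ := by group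
      _ = c * d * (v * w') * (c * d)⁻¹ := by rw [hwv.eq]
      _ = c * d * v * (c * d)⁻¹ * (c * d * w' * (c * d)⁻¹) := by group
  set CQ : Subgroup G := Subgroup.centralizer ((Q : Subgroup G) : Set G) ⊓ (P : Subgroup G) with hCQ
  set M : Subgroup G := CQ ⊔ ZP with hM
  have hMtop : M.subgroupOf (P : Subgroup G) = ⊤ := by
    apply eq_top_of_conj_cover
    rintro ⟨u, hu⟩
    by_cases huZ : u ∈ ZP
    · refine ⟨1, ?_⟩
      rw [Subgroup.mem_subgroupOf]
      simpa using (le_sup_right : ZP ≤ M) huZ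
    · obtain ⟨c, hc, hcw⟩ := hcov u hu huZ
      refine ⟨⟨c, hc⟩, ?_⟩
      rw [Subgroup.mem_subgroupOf]
      apply (le_sup_left : CQ ≤ M)
      exact ⟨Subgroup.mem_centralizer_iff.mpr fun w hw => (hcw w hw).eq, hPn.conj_mem _ hu c⟩
  have hPM : (P : Subgroup G) ≤ M := Subgroup.subgroupOf_eq_top.mp hMtop
  have hsub : ∀ v ∈ P, v ∉ ZP → ∀ w ∈ Q, Commute w v := by
    intro v hv hvZ w hw
    obtain ⟨c, hc, hcw⟩ := hcov v hv hvZ
    have hcM : c ∈ ((CQ : Subgroup G) : Set G) * (ZP : Set G) := by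
      rw [← Subgroup.mul_normal]
      exact hPM hc
    obtain ⟨d, hd, k, hk, rfl⟩ := hcM
    have hkv : k * v = v * k := (((hmemZP k).mp hk).2 v hv).eq.symm
    have e1 : k * v * k⁻¹ = v := by rw [hkv]; group
    have e2 : d * k * v * (d * k)⁻¹ = d * v * d⁻¹ := by
      calc d * k * v * (d * k)⁻¹ = d * (k * v * k⁻¹) * d⁻¹ := by group
        _ = d * v * d⁻¹ := by rw [e1]
    have h1 : Commute w (d * v * d⁻¹) := by rw [← e2]; exact hcw w hw
    have hdw : Commute w d := Subgroup.mem_centralizer_iff.mp hd.1 w hw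
    have e3 : v = d⁻¹ * (d * v * d⁻¹) * d := by group
    rw [e3]
    exact (hdw.inv_right.mul_right h1).mul_right hdw
  have hxP : x ∈ P := hxall P
  have hxZP : x ∉ ZP := by
    intro hm
    have hle : (P : Subgroup G) ≤ Cen x := fun u hu => mem_Cen.mpr (((hmemZP x).mp hm).2 u hu).eq
    exact P.not_dvd_index (hpx.trans (Subgroup.index_dvd_of_le hle))
  have hyZP : y ∈ ZP := (hmemZP y).mpr ⟨hyP, hZP y hyP hpy⟩
  have hxyZP : x * y ∉ ZP := by
    intro hm
    apply hxZP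
    have := ZP.mul_mem hm (ZP.inv_mem hyZP)
    simpa using this
  have hQy : (Q : Subgroup G) ≤ Cen y := by
    intro w hw
    rw [mem_Cen]
    have h1 := hsub x hxP hxZP w hw
    have h2 := hsub (x * y) ((P : Subgroup G).mul_mem hxP hyP) hxyZP w hw
    have e3 : y = x⁻¹ * (x * y) := by group
    have h3 : Commute w (x⁻¹ * (x * y)) := h1.inv_right.mul_right h2
    rw [← e3] at h3
    exact h3.eq
  exact Q.not_dvd_index (hqy.trans (Subgroup.index_dvd_of_le hQy))

end aux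

/-- Let `G` be a finite group and `p` a prime not dividing the order of the centre of `G`. Consider the primes dividing the size of some conjugacy class of a `p`-singular element (an element of order divisible by `p`), two of them adjacent when their product divides such a class size. Then any two distinct such primes are joined by a path with at most 3 edges (the graph is connected of diameter at most 3). -/
theorem result {G : Type*} [Group G] [Finite G] (p : ℕ) [Fact p.Prime]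
    (hZ : ¬ p ∣ Nat.card ↥(Subgroup.center G)) (r s : ℕ) (hr : (r.Prime ∧ ∃ x : G, p ∣ orderOf x ∧ r ∣ (Subgroup.centralizer ({x} : Set G)).index)) (hs : (s.Prime ∧ ∃ x : G, p ∣ orderOf x ∧ s ∣ (Subgroup.centralizer ({x} : Set G)).index)) (hrs : r ≠ s) :
    (∃ x : G, p ∣ orderOf x ∧ r * s ∣ (Subgroup.centralizer ({x} : Set G)).index) ∨ (∃ t : ℕ, (t.Prime ∧ ∃ x : G, p ∣ orderOf x ∧ t ∣ (Subgroup.centralizer ({x} : Set G)).index) ∧ t ≠ r ∧ t ≠ s ∧ (∃ x : G, p ∣ orderOf x ∧ r * t ∣ (Subgroup.centralizer ({x} : Set G)).index) ∧ (∃ x : G, p ∣ orderOf x ∧ t * s ∣ (Subgroup.centralizer ({x} : Set G)).index)) ∨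
      (∃ t u : ℕ, (t.Prime ∧ ∃ x : G, p ∣ orderOf x ∧ t ∣ (Subgroup.centralizer ({x} : Set G)).index) ∧ (u.Prime ∧ ∃ x : G, p ∣ orderOf x ∧ u ∣ (Subgroup.centralizer ({x} : Set G)).index) ∧ t ≠ r ∧ u ≠ s ∧ t ≠ u ∧ (∃ x : G, p ∣ orderOf x ∧ r * t ∣ (Subgroup.centralizer ({x} : Set G)).index) ∧ (∃ x : G, p ∣ orderOf x ∧ t * u ∣ (Subgroup.centralizer ({x} : Set G)).index) ∧ (∃ x : G, p ∣ orderOf x ∧ u * s ∣ (Subgroup.centralizer ({x} : Set G)).index)) := by
  classical
  by_contra hcon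
  push Not at hcon
  obtain ⟨N1, N2, N3⟩ := hcon
  have hpp : p.Prime := Fact.out
  set adj : ℕ → ℕ → Prop := fun a b => ∃ x : G, p ∣ orderOf x ∧ a * b ∣ (Cen x).index with hadj
  set A : Set ℕ := {t | t = r ∨ (t.Prime ∧ adj r t)} with hA
  set B : Set ℕ := {u | u = s ∨ (u.Prime ∧ adj u s)} with hB
  have hvertR : ∀ a b : ℕ, adj a b → ∃ x : G, p ∣ orderOf x ∧ b ∣ (Cen x).index :=
    fun a b ⟨g, hg1, hg⟩ => ⟨g, hg1, (dvd_mul_left b a).trans hg⟩
  have hN1 : ¬ adj r s := fun ⟨g, hg1, hg⟩ => N1 g hg1 hg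
  have hN2 : ∀ t : ℕ, t.Prime → t ≠ r → t ≠ s → adj r t → adj t s → False := by
    intro t ht h1 h2 h3 ⟨g, hg1, hg⟩
    exact N2 t ⟨ht, hvertR r t h3⟩ h1 h2 h3 g hg1 hg
  have hN3 : ∀ t u : ℕ, t.Prime → u.Prime → t ≠ r → u ≠ s → t ≠ u → adj r t →
      adj t u → adj u s → False := by
    intro t u ht hu h1 h2 h3 h6 h7 ⟨g, hg1, hg⟩
    exact N3 t u ⟨ht, hvertR r t h6⟩ ⟨hu, hvertR t u h7⟩ h1 h2 h3 h6 h7 g hg1 hg
  have hdisj : ∀ t, t ∈ A → t ∈ B → False := by
    rintro t (rfl | ⟨ht, h1⟩) (h2 | ⟨-, h2⟩)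
    · exact hrs h2
    · exact hN1 h2
    · rw [h2] at h1; exact hN1 h1
    · by_cases e1 : t = r
      · rw [e1] at h2; exact hN1 h2
      by_cases e2 : t = s
      · rw [e2] at h1; exact hN1 h1
      exact hN2 t ht e1 e2 h1 h2
  have hrA : r ∈ A := Or.inl rfl
  have hsB : s ∈ B := Or.inl rfl
  have hmul : ∀ (g : G), p ∣ orderOf g → ∀ (t u : ℕ), t.Prime → u.Prime → t ≠ u →
      t ∣ (Cen g).index → u ∣ (Cen g).index → adj t u := by
    intro g hg t u ht hu hne h1 h2
    exact ⟨g, hg, ((Nat.coprime_primes ht hu).mpr hne).mul_dvd_of_dvd_of_dvd h1 h2⟩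
  have hno : ∀ g : G, p ∣ orderOf g → ∀ t u : ℕ, t ∈ A → u ∈ B → t.Prime → u.Prime →
      t ∣ (Cen g).index → u ∣ (Cen g).index → False := by
    intro g hg t u htA huB ht hu h1 h2
    have hne : t ≠ u := fun e => hdisj t htA (e ▸ huB)
    have htu := hmul g hg t u ht hu hne h1 h2
    have hts : t ≠ s := fun e => hdisj t htA (e ▸ hsB)
    have hur : u ≠ r := fun e => hdisj u (e ▸ hrA) huB
    rcases htA with rfl | ⟨-, h3⟩
    · rcases huB with rfl | ⟨-, h4⟩
      · exact hN1 htu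
      · exact hN2 u hu hur (fun e => hN1 (e ▸ htu)) htu h4
    · rcases huB with rfl | ⟨-, h4⟩
      · exact hN2 t ht (fun e => hN1 (e ▸ htu)) hts h3 htu
      · by_cases e1 : t = r
        · rw [e1] at htu
          exact hN2 u hu hur (fun e => hN1 (e ▸ htu)) htu h4
        by_cases e2 : u = s
        · rw [e2] at htu
          exact hN2 t ht e1 hts h3 htu
        exact hN3 t u ht hu e1 e2 hne h3 htu h4
  have hSep : Sep p r s A B G := by
    refine ⟨hdisj, hno, ?_, ?_, hZ⟩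
    · intro g hg hrg t ht htg
      by_cases e : t = r
      · exact Or.inl e
      · exact Or.inr ⟨ht, hmul g hg r t hr.1 ht (Ne.symm e) hrg htg⟩
    · intro g hg hsg t ht htg
      by_cases e : t = s
      · exact Or.inl e
      · exact Or.inr ⟨ht, hmul g hg t s ht hs.1 e htg hsg⟩
  obtain ⟨b, hb, hrb⟩ := hr.2
  obtain ⟨c, hc, hsc⟩ := hs.2
  obtain ⟨x, b', hx, hb', hxb, hxp, hb'p⟩ := exists_pi_split ({p} : Set ℕ) b (orderOf_pos b).ne'
  obtain ⟨y, c', hy, hc', hyc, hyp, hc'p⟩ := exists_pi_split ({p} : Set ℕ) c (orderOf_pos c).ne'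
  have hx1 : x ≠ 1 := by
    intro e
    rw [e, one_mul] at hxb
    rw [← hxb] at hb
    exact hb'p p hpp hb rfl
  have hy1 : y ≠ 1 := by
    intro e
    rw [e, one_mul] at hyc
    rw [← hyc] at hc
    exact hc'p p hpp hc rfl
  have hxA : IsPiNum A (Cen x).index := (hSep.hr b hb hrb).of_dvd (index_dvd_of_mem_zpowers hx)
  have hyB : IsPiNum B (Cen y).index := (hSep.hs c hc hsc).of_dvd (index_dvd_of_mem_zpowers hy)
  rcases lt_trichotomy (Cen y).index (Cen x).index with hlt | heq | hlt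
  · exact hSep.false_of_lt hx1 hxp hxA hc hsc hy hc' hyc hyp hc'p hlt
  · rw [heq] at hyB
    exact index_ne_one (hSep.not_center (sing_of_pElt hx1 hxp)) (hxA.eq_one (hSep.compl hyB))
  · exact hSep.symm.false_of_lt hy1 hyp hyB hb hrb hx hb' hxb hxp hb'p hlt

end Cfsg.Agent.S4321
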