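import Cfsg.Statements.S4331
import Cfsg.Agent.Lib.Helper75Frobenius

set_option autoImplicit false
open Cfsg

namespace Cfsg.Agent.S4331


/-- the semidihedral group of order 16: `r^i s^e` -/
structure SD where
  i : Fin 8
  e : Fin 2
deriving DecidableEq, Fintype

namespace SD

instance : Mul SD := ⟨fun a b => ⟨a.i + (if a.e = 0 then b.i else 3 * b.i), a.e + b.e⟩⟩
instance : One SD := ⟨⟨0, 0⟩⟩
instance : Inv SD := ⟨fun a => ⟨-(if a.e = 0 then a.i else 3 * a.i), a.e⟩⟩

instance : Group SD :=
  Group.ofLeftAxioms (by decide) (by decide) (by decide)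

end SD

abbrev V := ZMod 3 × ZMod 3

def rot (v : V) : V := (v.1 - v.2, v.1 + v.2)

def act (h : SD) (v : V) : V := rot^[h.i.val] (if h.e = 0 then v else (v.1, -v.2))

instance : DistribMulAction SD V where
  smul := act
  one_smul := by decide
  mul_smul := by decide
  smul_zero := by decide
  smul_add := by decide

def s : SD := ⟨0, 1⟩

theorem key : ∀ (h : SD) (v : V), ∃ (t : SD) (u : V),
    (u + t • v - (t * h * t⁻¹) • u = 0) ∨
    ((t * h * t⁻¹ = s ∨ t * h * t⁻¹ = 1) ∧
      s • (u + t • v - (t * h * t⁻¹) • u) = u + t • v - (t * h * t⁻¹) • u) := by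
  decide


theorem isSubnormal_of_isNilpotent {X : Type*} [Group X] [Finite X] [Group.IsNilpotent X]
    (A : Subgroup X) : A.IsSubnormal := by
  have hnc : NormalizerCondition X := Group.normalizerCondition_of_isNilpotent
  -- induction on the index
  suffices h : ∀ n : ℕ, ∀ A : Subgroup X, A.index ≤ n → A.IsSubnormal from h _ A le_rfl
  intro n
  induction n with
  | zero =>
    intro A hA
    exact absurd (Nat.le_zero.1 hA) A.index_ne_zero_of_finite
  | succ n ih =>
    intro A hA
    by_cases htop : A = ⊤
    · rw [htop]; exact Subgroup.IsSubnormal.top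
    · have hlt : A < Subgroup.normalizer (A : Set X) := hnc A (lt_top_iff_ne_top.2 htop)
      have hidx : (Subgroup.normalizer (A : Set X)).index < A.index := by
        have h1 := Subgroup.relIndex_mul_index hlt.le
        have h2 : A.relIndex (Subgroup.normalizer (A : Set X)) ≠ 1 := by
          rw [Ne, Subgroup.relIndex_eq_one]
          exact not_le_of_gt hlt
        have h3 : A.relIndex (Subgroup.normalizer (A : Set X)) ≠ 0 :=
          (A.subgroupOf _).index_ne_zero_of_finite
        have h4 : (Subgroup.normalizer (A : Set X)).index ≠ 0 := Subgroup.index_ne_zero_of_finite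
        rw [← h1]
        have h5 : 2 ≤ A.relIndex (Subgroup.normalizer (A : Set X)) := by omega
        nlinarith [Nat.pos_of_ne_zero h4]
      exact Subgroup.IsSubnormal.step A _ hlt.le (ih _ (by omega)) Subgroup.normal_in_normalizer

open SemidirectProduct Cfsg.Agent.Lib.Helper75Frobenius

abbrev φ : SD →* MulAut (Multiplicative V) := toMulAutMultiplicative SD V

abbrev GG := Multiplicative V ⋊[φ] SD

theorem φ_apply (h : SD) (v : Multiplicative V) :
    φ h v = Multiplicative.ofAdd (h • Multiplicative.toAdd v) := rfl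

theorem card_SD : Nat.card SD = 2 ^ 4 := by
  rw [Nat.card_eq_fintype_card]; decide

theorem isPGroup_SD : IsPGroup 2 SD := IsPGroup.of_card card_SD

instance : Finite GG := Finite.of_equiv _ (equivProd (φ := φ)).symm

theorem conj_formula (u v : V) (t h : SD) :
    (⟨Multiplicative.ofAdd u, t⟩ : GG) * ⟨Multiplicative.ofAdd v, h⟩ * (⟨Multiplicative.ofAdd u, t⟩ : GG)⁻¹ =
      ⟨Multiplicative.ofAdd (u + t • v - (t * h * t⁻¹) • u), t * h * t⁻¹⟩ := by
  apply SemidirectProduct.ext
  · change Multiplicative.ofAdd (u + t • v + (t * h) • (t⁻¹ • (-u))) = _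
    rw [smul_neg, smul_neg, ← mul_smul, sub_eq_add_neg]
  · rfl

theorem s_sq : s * s = 1 := by decide
theorem s_ne : s ≠ 1 := by decide

/-- There is a finite solvable group G with a subgroup A of order 2 such that every conjugacy class of G contains an element g for which A is subnormal in the subgroup generated by A and g, and yet A is not contained in O_2(G). (So the corresponding criteria for odd primes fail at the prime 2, even for solvable groups.) -/
theorem result :
    ∃ (G : Type) (_ : Group G) (_ : Finite G) (A : Subgroup G), Group.IsSolvable G ∧ Nat.card A = 2 ∧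
      (∀ c : G, ∃ g : G, IsConj c g ∧ (A.subgroupOf (A ⊔ Subgroup.zpowers g)).IsSubnormal) ∧
      ¬ A ≤ Cfsg.pCore 2 G := by
  classical
  have : Fact (Nat.Prime 2) := ⟨Nat.prime_two⟩
  have hnilSD : Group.IsNilpotent SD := isPGroup_SD.isNilpotent
  refine ⟨GG, inferInstance, inferInstance, Subgroup.zpowers (inr s : GG), ?_, ?_, ?_, ?_⟩
  · exact Group.isSolvable_of_ker_le_range (inl : Multiplicative V →* GG) (rightHom : GG →* SD)
      (le_of_eq range_inl_eq_ker_rightHom.symm)
  · rw [Nat.card_zpowers, orderOf_injective (inr : SD →* GG) inr_injective]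
    exact orderOf_eq_prime (by rw [sq]; exact s_sq) s_ne
  · intro c
    obtain ⟨t, u, hk⟩ := key c.right (Multiplicative.toAdd c.left)
    have hc : c = ⟨Multiplicative.ofAdd (Multiplicative.toAdd c.left), c.right⟩ := rfl
    refine ⟨_, isConj_iff.2 ⟨⟨Multiplicative.ofAdd u, t⟩, rfl⟩, ?_⟩
    rw [hc, conj_formula]
    set v' := u + t • Multiplicative.toAdd c.left - (t * c.right * t⁻¹) • u with hv'
    set h' := t * c.right * t⁻¹ with hh'
    rcases hk with hk | ⟨hk1, hk2⟩
    · -- inside the complement, a 2-group
      rw [hk]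
      have hle : Subgroup.zpowers (inr s : GG) ⊔ Subgroup.zpowers (⟨Multiplicative.ofAdd 0, h'⟩ : GG) ≤
          (inr : SD →* GG).range := by
        refine sup_le ?_ ?_
        · rw [Subgroup.zpowers_le]; exact ⟨s, rfl⟩
        · rw [Subgroup.zpowers_le]; exact ⟨h', rfl⟩
      have hP : IsPGroup 2 (inr : SD →* GG).range :=
        isPGroup_SD.of_equiv (MonoidHom.ofInjective inr_injective)
      have hP2 : IsPGroup 2 (Subgroup.zpowers (inr s : GG) ⊔
          Subgroup.zpowers (⟨Multiplicative.ofAdd 0, h'⟩ : GG) : Subgroup GG) := hP.to_le hle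
      have : Group.IsNilpotent (Subgroup.zpowers (inr s : GG) ⊔
          Subgroup.zpowers (⟨Multiplicative.ofAdd 0, h'⟩ : GG) : Subgroup GG) := hP2.isNilpotent
      exact isSubnormal_of_isNilpotent _
    · -- commutes with the involution
      apply Subgroup.Normal.isSubnormal
      rw [Subgroup.normal_subgroupOf_iff_le_normalizer le_sup_left]
      refine sup_le Subgroup.le_normalizer ?_
      refine le_trans ?_ (Subgroup.centralizer_le_normalizer _)
      rw [Subgroup.zpowers_le, Subgroup.mem_centralizer_iff]
      intro y hy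
      obtain ⟨j, rfl⟩ := Subgroup.mem_zpowers_iff.1 hy
      have hcomm : Commute (inr s : GG) ⟨Multiplicative.ofAdd v', h'⟩ := by
        change (inr s : GG) * ⟨Multiplicative.ofAdd v', h'⟩ = ⟨Multiplicative.ofAdd v', h'⟩ * inr s
        apply SemidirectProduct.ext
        · change Multiplicative.ofAdd (0 + s • v') = Multiplicative.ofAdd (v' + h' • 0)
          rw [hk2, smul_zero, zero_add, add_zero]
        · change s * h' = h' * s
          rcases hk1 with h | h <;> rw [h] <;> simp
      exact (hcomm.zpow_left j).eq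
  · intro hle
    have hcent : Cfsg.pCore 2 GG ≤ Subgroup.centralizer (Set.range (inl : Multiplicative V → GG)) := by
      unfold Cfsg.pCore
      rw [sSup_le_iff]
      rintro N ⟨hN, hp⟩ n hn
      rw [Subgroup.mem_centralizer_iff]
      rintro _ ⟨w, rfl⟩
      -- the commutator lies in N and in the translation subgroup
      have h1 : (inl w : GG) * n * (inl w)⁻¹ * n⁻¹ ∈ N :=
        N.mul_mem (hN.conj_mem n hn _) (N.inv_mem hn)
      have h2 : ((inl w : GG) * n * (inl w)⁻¹ * n⁻¹).right = 1 := by simp
      obtain ⟨k, hk⟩ := hp ⟨_, h1⟩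
      have hk' : ((inl w : GG) * n * (inl w)⁻¹ * n⁻¹) ^ 2 ^ k = 1 := congrArg Subtype.val hk
      have h3 : ((inl w : GG) * n * (inl w)⁻¹ * n⁻¹) ^ 3 = 1 := by
        have h4 : (inl w : GG) * n * (inl w)⁻¹ * n⁻¹ = inl ((inl w : GG) * n * (inl w)⁻¹ * n⁻¹).left := by
          apply SemidirectProduct.ext
          · rfl
          · rw [h2]; rfl
        rw [h4, ← map_pow]
        have : ∀ z : Multiplicative V, z ^ 3 = 1 := by decide
        rw [this, map_one]
      have h5 : orderOf ((inl w : GG) * n * (inl w)⁻¹ * n⁻¹) ∣ Nat.gcd (2 ^ k) 3 :=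
        Nat.dvd_gcd (orderOf_dvd_of_pow_eq_one hk') (orderOf_dvd_of_pow_eq_one h3)
      have h6 : Nat.gcd (2 ^ k) 3 = 1 := Nat.Coprime.pow_left k (by norm_num)
      rw [h6, Nat.dvd_one, orderOf_eq_one_iff] at h5
      have : (inl w : GG) * n = n * inl w := by
        calc (inl w : GG) * n = ((inl w : GG) * n * (inl w)⁻¹ * n⁻¹) * (n * inl w) := by group
          _ = n * inl w := by rw [h5, one_mul]
      exact this
    have hs : (inr s : GG) ∈ Subgroup.centralizer (Set.range (inl : Multiplicative V → GG)) :=
      hcent (hle (Subgroup.mem_zpowers _))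
    rw [Subgroup.mem_centralizer_iff] at hs
    have := hs (inl (Multiplicative.ofAdd ((0, 1) : V))) ⟨_, rfl⟩
    have h2 := congrArg SemidirectProduct.left this
    simp only [mul_left, left_inl, right_inl, left_inr, right_inr, map_one, mul_one,
      one_mul, φ_apply, toAdd_ofAdd] at h2
    revert h2
    decide

end Cfsg.Agent.S4331
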