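import Cfsg.Statements.S4332

set_option autoImplicit false
open Pointwise
open Cfsg

namespace Cfsg.Agent.S4332

open Equiv Equiv.Perm

theorem card_dvd_of_normal {α : Type*} [Fintype α] [DecidableEq α] (N : Subgroup (Perm α)) [N.Normal]
    (hN : N ≠ ⊥) : Fintype.card α ∣ Nat.card N := by
  have htr : MulAction.IsPretransitive N α := by
    apply MulAction.IsQuasiPreprimitive.isPretransitive_of_normal (G := Perm α)
    intro hfix
    apply hN
    rw [eq_bot_iff]
    intro n hn
    rw [Subgroup.mem_bot]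
    ext y
    have : y ∈ MulAction.fixedPoints N α := by rw [hfix]; trivial
    exact this ⟨n, hn⟩
  rcases isEmpty_or_nonempty α with he | ⟨⟨x⟩⟩
  · rw [Fintype.card_eq_zero]
    exfalso
    apply hN
    rw [eq_bot_iff]
    intro n _
    rw [Subgroup.mem_bot]
    exact Subsingleton.elim _ _
  · have := MulAction.index_stabilizer_of_transitive N x
    rw [Nat.card_eq_fintype_card] at this
    rw [← this]
    exact Subgroup.index_dvd_card _

theorem conj_three (c : Perm (Fin 8)) (x y z : Fin 8) :
    c * (swap x y * swap x z) * c⁻¹ = swap (c x) (c y) * swap (c x) (c z) := by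
  rw [swap_apply_apply, swap_apply_apply]
  group

theorem comm_of_disj (x y z u v w : Fin 8) (h1 : x ≠ u) (h2 : x ≠ v) (h3 : x ≠ w)
    (h4 : y ≠ u) (h5 : y ≠ v) (h6 : y ≠ w) (h7 : z ≠ u) (h8 : z ≠ v) (h9 : z ≠ w) :
    Commute (swap x y * swap x z) (swap u v * swap u w) := by
  apply Equiv.Perm.Disjoint.commute
  intro t
  simp only [Perm.mul_apply, swap_apply_def]
  grind

theorem exists_three (c : Perm (Fin 8)) :
    ∃ ρ : Perm (Fin 8), ρ.IsThreeCycle ∧ Commute ρ (c * ρ * c⁻¹) := by
  classical
  by_cases hsupp : c.support.card ≤ 5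
  · -- at least three fixed points
    have h1 : 2 < (c.supportᶜ).card := by
      rw [Finset.card_compl, Fintype.card_fin]; omega
    obtain ⟨x, hx, y, hy, z, hz, hxy, hxz, hyz⟩ := Finset.two_lt_card.1 h1
    simp only [Finset.mem_compl, mem_support, not_not] at hx hy hz
    refine ⟨swap x y * swap x z, isThreeCycle_swap_mul_swap_same hxy hxz hyz, ?_⟩
    rw [conj_three, hx, hy, hz]
  · push Not at hsupp
    have hne : c.support.Nonempty := by
      rw [← Finset.card_pos]; omega
    obtain ⟨x, hx⟩ := hne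
    have hx' : c x ≠ x := mem_support.1 hx
    by_cases h2 : c (c x) = x
    · -- x lies in a 2-cycle
      have hcx : c⁻¹ x = c x := by
        rw [Perm.inv_eq_iff_eq, h2]
      obtain ⟨y, hy, hy2⟩ := Finset.exists_mem_notMem_of_card_lt_card
        (s := {x, c x}) (t := c.support) (lt_of_le_of_lt Finset.card_le_two (by omega))
      obtain ⟨z, hz, hz2⟩ := Finset.exists_mem_notMem_of_card_lt_card
        (s := {x, c x, y, c y, c⁻¹ y}) (t := c.support) (lt_of_le_of_lt Finset.card_le_five (by omega))
      simp only [Finset.mem_insert, Finset.mem_singleton, not_or] at hy2 hz2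
      have hy' : c y ≠ y := mem_support.1 hy
      have hz' : c z ≠ z := mem_support.1 hz
      obtain ⟨hyx, hycx⟩ := hy2
      obtain ⟨hzx, hzcx, hzy, hzcy, hzcy'⟩ := hz2
      refine ⟨swap x y * swap x z, isThreeCycle_swap_mul_swap_same (Ne.symm hyx) (Ne.symm hzx) (Ne.symm hzy), ?_⟩
      rw [conj_three]
      apply comm_of_disj
      · exact Ne.symm hx'
      · intro h; apply hycx; rw [← hcx, h]; simp
      · intro h; apply hzcx; rw [← hcx, h]; simp
      · exact hycx
      · exact Ne.symm hy'
      · intro h; apply hzcy'; rw [h]; simp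
      · exact hzcx
      · exact hzcy
      · exact Ne.symm hz'
    · by_cases h3 : c (c (c x)) = x
      · -- x lies in a 3-cycle
        have hcyc : (c.cycleOf x).IsCycle := isCycle_cycleOf c hx'
        have hpow : (c.cycleOf x) ^ 3 = 1 := by
          rw [hcyc.pow_eq_one_iff]
          refine ⟨x, by rw [cycleOf_apply_self]; exact hx', ?_⟩
          rw [cycleOf_pow_apply_self]
          simpa [pow_succ, Perm.mul_apply] using h3
        have hne1 : c.cycleOf x ≠ 1 := hcyc.ne_one
        have hord : orderOf (c.cycleOf x) = 3 := orderOf_eq_prime hpow hne1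
        have h3c : (c.cycleOf x).IsThreeCycle := by
          rw [← card_support_eq_three_iff, ← hcyc.orderOf, hord]
        refine ⟨c.cycleOf x, h3c, ?_⟩
        have hcomm : Commute (c.cycleOf x) c :=
          self_mem_cycle_factors_commute (cycleOf_mem_cycleFactorsFinset_iff.2 hx)
        have : c * c.cycleOf x * c⁻¹ = c.cycleOf x := by
          rw [← hcomm.eq]; group
        rw [this]
      · obtain ⟨z, hz, hz2⟩ := Finset.exists_mem_notMem_of_card_lt_card
          (s := {x, c x, c (c x), c (c (c x)), c⁻¹ x}) (t := c.support)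
          (lt_of_le_of_lt Finset.card_le_five (by omega))
        simp only [Finset.mem_insert, Finset.mem_singleton, not_or] at hz2
        have hz' : c z ≠ z := mem_support.1 hz
        obtain ⟨hzx, hzcx, hzccx, hzcccx, hzcx'⟩ := hz2
        refine ⟨swap x (c (c x)) * swap x z,
          isThreeCycle_swap_mul_swap_same (Ne.symm h2) (Ne.symm hzx) (Ne.symm hzccx), ?_⟩
        rw [conj_three]
        apply comm_of_disj
        · exact Ne.symm hx'
        · exact Ne.symm h3
        · intro h; apply hzcx'; rw [h]; simp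
        · intro h; exact hx' (c.injective h)
        · intro h; exact hx' (c.injective (c.injective h)).symm
        · intro h; exact hzcx (c.injective h).symm
        · exact hzcx
        · exact hzcccx
        · exact Ne.symm hz'

/-- In the symmetric group of degree 8, let A be the subgroup generated by a 3-cycle. Then every conjugacy class contains an element g for which A is subnormal in the subgroup generated by A and its conjugate by g, although O_3 of the symmetric group of degree 8 is trivial. -/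
theorem result
    (σ : Equiv.Perm (Fin 8)) (hσ : σ.IsThreeCycle) :
    (∀ c : Equiv.Perm (Fin 8), ∃ g : Equiv.Perm (Fin 8), IsConj c g ∧
      ((Subgroup.zpowers σ).subgroupOf (Subgroup.zpowers σ ⊔ MulAut.conj g • Subgroup.zpowers σ)).IsSubnormal) ∧
    Cfsg.pCore 3 (Equiv.Perm (Fin 8)) = ⊥ := by
  classical
  constructor
  · intro c
    obtain ⟨ρ, hρ, hcomm⟩ := exists_three c
    have hconj : IsConj ρ σ := by
      rw [isConj_iff_cycleType_eq, hρ.cycleType, hσ.cycleType]
    obtain ⟨τ, hτ⟩ := isConj_iff.1 hconj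
    refine ⟨τ * c * τ⁻¹, isConj_iff.2 ⟨τ, rfl⟩, ?_⟩
    apply Subgroup.Normal.isSubnormal
    rw [Subgroup.normal_subgroupOf_iff_le_normalizer le_sup_left]
    refine sup_le Subgroup.le_normalizer ?_
    refine le_trans ?_ (Subgroup.centralizer_le_normalizer _)
    have hc2 : Commute σ ((τ * c * τ⁻¹) * σ * (τ * c * τ⁻¹)⁻¹) := by
      have e : (τ * c * τ⁻¹) * σ * (τ * c * τ⁻¹)⁻¹ = τ * (c * ρ * c⁻¹) * τ⁻¹ := by
        rw [← hτ]; group
      rw [e, ← hτ]
      have := hcomm.eq
      change τ * ρ * τ⁻¹ * (τ * (c * ρ * c⁻¹) * τ⁻¹) = τ * (c * ρ * c⁻¹) * τ⁻¹ * (τ * ρ * τ⁻¹)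
      calc τ * ρ * τ⁻¹ * (τ * (c * ρ * c⁻¹) * τ⁻¹) = τ * (ρ * (c * ρ * c⁻¹)) * τ⁻¹ := by group
        _ = τ * ((c * ρ * c⁻¹) * ρ) * τ⁻¹ := by rw [this]
        _ = _ := by group
    intro y hy
    rw [Subgroup.mem_smul_pointwise_iff_exists] at hy
    obtain ⟨s, hs, rfl⟩ := hy
    obtain ⟨i, rfl⟩ := Subgroup.mem_zpowers_iff.1 hs
    rw [Subgroup.mem_centralizer_iff]
    intro h hh
    obtain ⟨j, rfl⟩ := Subgroup.mem_zpowers_iff.1 hh
    have e2 : MulAut.conj (τ * c * τ⁻¹) • σ ^ i = ((τ * c * τ⁻¹) * σ * (τ * c * τ⁻¹)⁻¹) ^ i := by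
      rw [MulAut.smul_def, MulAut.conj_apply, conj_zpow]
    rw [e2]
    exact ((hc2.zpow_zpow j i)).eq
  · unfold Cfsg.pCore
    rw [sSup_eq_bot]
    rintro N ⟨hN, hp⟩
    by_contra hne
    have h8 := card_dvd_of_normal N hne
    obtain ⟨k, hk⟩ := IsPGroup.iff_card.1 hp
    rw [hk, Fintype.card_fin] at h8
    have h2 : 2 ∣ 3 ^ k := Dvd.dvd.trans (by norm_num) h8
    have := Nat.Prime.dvd_of_dvd_pow Nat.prime_two h2
    omega

end Cfsg.Agent.S4332
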