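import Cfsg.Statements.S4342
import Cfsg.Agent.Lib.Helper76SylowCount

set_option autoImplicit false
open Cfsg

namespace Cfsg.Agent.S4342

/-- Let H be a normal subgroup of a finite group G and p a prime not dividing the index of H. Then the number of Sylow p-subgroups of H/Z(H) equals the number of Sylow p-subgroups of G. -/
theorem result {G : Type*} [Group G] [Finite G]
    (p : ℕ) [Fact p.Prime] (H : Subgroup G) [H.Normal] (hp : ¬ p ∣ H.index) :
    Nat.card (Sylow p (H ⧸ Subgroup.center H)) = Nat.card (Sylow p G) := by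
  classical
  obtain ⟨P⟩ : Nonempty (Sylow p G) := inferInstance
  have hp1 : p.Prime := Fact.out
  have hPH : (P : Subgroup G) ≤ H := by
    intro x hx
    rw [← QuotientGroup.eq_one_iff, ← orderOf_eq_one_iff]
    obtain ⟨k, hk⟩ := (IsPGroup.iff_orderOf.mp P.2) ⟨x, hx⟩
    rw [Subgroup.orderOf_mk] at hk
    have h1 : orderOf (x : G ⧸ H) ∣ p ^ k := by
      rw [← hk]
      exact orderOf_map_dvd (QuotientGroup.mk' H) x
    have h2 : orderOf (x : G ⧸ H) ∣ H.index := by
      rw [Subgroup.index_eq_card]
      exact orderOf_dvd_natCard _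
    have h3 : Nat.Coprime (p ^ k) H.index :=
      Nat.Coprime.pow_left k ((Nat.Prime.coprime_iff_not_dvd hp1).mpr hp)
    exact Nat.eq_one_of_dvd_coprimes h3 h1 h2
  have h1 : Nat.card (Sylow p (H ⧸ Subgroup.center H)) = Nat.card (Sylow p H) := by
    apply Lib.Helper76SylowCount.card_sylow_quotient_eq (Subgroup.center H) (P.subtype hPH)
    exact (Subgroup.center_le_centralizer _).trans (Subgroup.centralizer_le_normalizer _)
  have h2 : Subgroup.normalizer ((P : Subgroup G) : Set G) ⊔ H = ⊤ :=
    Sylow.normalizer_sup_eq_top' P hPH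
  rw [h1, Lib.Helper76SylowCount.card_sylow_subgroup H P hPH,
    Lib.Helper76SylowCount.card_sylow_eq_mul H P,
    Lib.Helper76SylowCount.card_sylow_quotient H P, h2,
    Subgroup.index_top, one_mul]

end Cfsg.Agent.S4342
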