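import Cfsg.Statements.S4344

set_option autoImplicit false
open Cfsg

namespace Cfsg.Agent.S4344

/-- Let S be a finite non-abelian simple group, M a maximal subgroup of S and C a cyclic normal subgroup of M. If a Sylow p-subgroup P of S (for a prime p dividing the order of S) is contained in C, then the number of Sylow p-subgroups of S equals the index of M. -/
theorem result {S : Type*} [Group S] [Finite S]
    [IsSimpleGroup S] (hS : ¬ IsMulCommutative S) (p : ℕ) [Fact p.Prime] (hp : p ∣ Nat.card S)
    (M : Subgroup S) (hM : IsCoatom M) (C : Subgroup S) (hCM : C ≤ M) (hCn : (C.subgroupOf M).Normal)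
    (hC : IsCyclic C) (P : Sylow p S) (hP : (P : Subgroup S) ≤ C) :
    Nat.card (Sylow p S) = M.index := by
  classical
  rw [P.card_eq_index_normalizer]
  congr 1
  have hCcomm : ∀ a b : C, a * b = b * a := fun a b => by
    let _ := hC.commGroup
    exact mul_comm a b
  -- M normalizes P
  have hMle : M ≤ Subgroup.normalizer (P : Set S) := by
    intro m hm
    rw [← Sylow.smul_eq_iff_mem_normalizer]
    have hmP : ((m • P : Sylow p S) : Subgroup S) ≤ C := by
      intro x hx
      rw [Sylow.coe_subgroup_smul, Subgroup.mem_pointwise_smul_iff_inv_smul_mem] at hx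
      have hx' : m⁻¹ * x * m ∈ C := hP (by simpa [MulAut.smul_def] using hx)
      have h1 : (⟨m⁻¹ * x * m, hCM hx'⟩ : M) ∈ C.subgroupOf M := by
        rw [Subgroup.mem_subgroupOf]; exact hx'
      have h2 := hCn.conj_mem _ h1 ⟨m, hm⟩
      rw [Subgroup.mem_subgroupOf] at h2
      simpa [mul_assoc] using h2
    obtain ⟨c, hc⟩ := MulAction.exists_smul_eq C (P.subtype hP) ((m • P).subtype hmP)
    rw [Sylow.smul_subtype] at hc
    have hc' := Sylow.subtype_injective hc
    rw [← hc']
    change (c : S) • P = P
    rw [Sylow.smul_eq_iff_mem_normalizer]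
    intro x
    constructor
    · intro hx
      have : (c : S) * x * (c : S)⁻¹ = x := by
        have := hCcomm c ⟨x, hP hx⟩
        have h3 : (c : S) * x = x * c := congrArg Subtype.val this
        rw [h3, mul_inv_cancel_right]
      rw [this]; exact hx
    · intro hx
      have hxC : (c : S) * x * (c : S)⁻¹ ∈ C := hP hx
      have hxC' : x ∈ C := by
        have := C.mul_mem (C.mul_mem (C.inv_mem c.2) hxC) c.2
        simpa [mul_assoc] using this
      have : (c : S) * x * (c : S)⁻¹ = x := by
        have := hCcomm c ⟨x, hxC'⟩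
        have h3 : (c : S) * x = x * c := congrArg Subtype.val this
        rw [h3, mul_inv_cancel_right]
      rw [this] at hx; exact hx
  rcases hM.le_iff.mp hMle with h | h
  · exfalso
    have hPn : (P : Subgroup S).Normal := Subgroup.normalizer_eq_top_iff.mp h
    rcases hPn.eq_bot_or_eq_top with h0 | h1
    · exact P.ne_bot_of_dvd_card hp h0
    · apply hS
      rw [isMulCommutative_iff]
      intro a b
      have ha : a ∈ C := hP (h1 ▸ Subgroup.mem_top a)
      have hb : b ∈ C := hP (h1 ▸ Subgroup.mem_top b)
      exact congrArg Subtype.val (hCcomm ⟨a, ha⟩ ⟨b, hb⟩)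
  · exact h

end Cfsg.Agent.S4344
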