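import Cfsg.Statements.S4345
import Cfsg.Agent.Lib.Helper76SylowCount
import Cfsg.Agent.S0043

set_option autoImplicit false
open Cfsg

namespace Cfsg.Agent.S4345

universe u

theorem exists_normal_pgroup (G : Type u) [Group G] [Finite G] [Nontrivial G]
    (hG : Group.IsSolvable G) :
    ∃ (K : Subgroup G) (q : ℕ), K.Normal ∧ K ≠ ⊥ ∧ q.Prime ∧ IsPGroup q K := by
  classical
  have hfin : ({N : Subgroup G | N.Normal ∧ N ≠ ⊥} : Set (Subgroup G)).Finite := Set.toFinite _
  have hne : ({N : Subgroup G | N.Normal ∧ N ≠ ⊥} : Set (Subgroup G)).Nonempty :=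
    ⟨⊤, inferInstance, top_ne_bot⟩
  obtain ⟨N, hN⟩ := hfin.exists_minimal hne
  obtain ⟨⟨hNn, hNb⟩, hmin⟩ := hN
  have hmin' : ∀ M : Subgroup G, M.Normal → M ≤ N → M = ⊥ ∨ M = N := by
    intro M hM hle
    by_cases hMb : M = ⊥
    · exact Or.inl hMb
    · exact Or.inr (le_antisymm hle (hmin ⟨hM, hMb⟩ hle))
  obtain ⟨-, q, hq, hexp⟩ := Cfsg.Agent.S0043.result N hNb hmin'
  refine ⟨N, q, hNn, hNb, hq, ?_⟩
  intro x
  refine ⟨1, ?_⟩
  rw [pow_one]
  exact Subtype.ext (hexp x x.2)

theorem main (p : ℕ) [Fact p.Prime] : ∀ (n : ℕ) (G : Type u) [Group G] [Finite G],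
    Group.IsSolvable G → Nat.card G = n → ∀ ℓ : ℕ, ℓ.Prime →
      ℓ ^ (Nat.card (Sylow p G)).factorization ℓ ≡ 1 [MOD p] := by
  intro n
  induction n using Nat.strong_induction_on with
  | _ n ih =>
    intro G _ _ hG hn ℓ hℓ
    obtain ⟨P⟩ : Nonempty (Sylow p G) := inferInstance
    rcases subsingleton_or_nontrivial G with hs | hnt
    · have h1 : Nat.card (Sylow p G) = 1 := by
        rw [P.card_eq_index_normalizer, Subgroup.index_eq_one]
        exact Subsingleton.elim _ _
      rw [h1]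
      simp [Nat.ModEq]
    · obtain ⟨K, q, hKn, hKb, hq, hKq⟩ := exists_normal_pgroup G hG
      have hmul := Lib.Helper76SylowCount.card_sylow_eq_mul K P
      set r := (Subgroup.normalizer ((P : Subgroup G) : Set G)).relIndex K with hr
      have : Fact q.Prime := ⟨hq⟩
      obtain ⟨m, hm⟩ := IsPGroup.iff_card.mp hKq
      have hrdvd : r ∣ q ^ m := by
        rw [← hm]; exact Subgroup.relIndex_dvd_card _ _
      obtain ⟨j, -, hj⟩ := (Nat.dvd_prime_pow hq).mp hrdvd
      have hcardlt : Nat.card (G ⧸ K) < n := by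
        rw [← hn, ← Subgroup.card_mul_index K, ← Subgroup.index_eq_card]
        have h1 : 1 < Nat.card K := by
          rw [Subgroup.one_lt_card_iff_ne_bot]; exact hKb
        have h2 : 0 < K.index := Nat.pos_of_ne_zero Subgroup.index_ne_zero_of_finite
        nlinarith
      have ihQ := ih _ hcardlt (G ⧸ K) inferInstance rfl ℓ hℓ
      have c1 : Nat.card (Sylow p G) ≡ 1 [MOD p] := card_sylow_modEq_one p G
      have c2 : Nat.card (Sylow p (G ⧸ K)) ≡ 1 [MOD p] := card_sylow_modEq_one p (G ⧸ K)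
      have c3 : r ≡ 1 [MOD p] := by
        have h1 : Nat.card (Sylow p (G ⧸ K)) * r ≡ 1 * r [MOD p] := Nat.ModEq.mul_right r c2
        rw [← hmul, one_mul] at h1
        exact h1.symm.trans c1
      have ha : Nat.card (Sylow p (G ⧸ K)) ≠ 0 := Nat.card_pos.ne'
      have hqj : q ^ j ≠ 0 := (pow_pos hq.pos j).ne'
      rw [hmul, hj, Nat.factorization_mul ha hqj, Finsupp.add_apply, pow_add,
        hq.factorization_pow]
      have h2 : ℓ ^ (Finsupp.single q j) ℓ ≡ 1 [MOD p] := by
        by_cases hlq : ℓ = q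
        · subst hlq
          rw [Finsupp.single_eq_same, ← hj]
          exact c3
        · rw [Finsupp.single_eq_of_ne (by exact hlq), pow_zero]
      simpa using Nat.ModEq.mul ihQ h2

/-- Let G be a finite solvable group and p, ℓ primes. Then the largest power of ℓ dividing the number of Sylow p-subgroups of G is congruent to 1 modulo p. -/
theorem result {G : Type*} [Group G] [Finite G]
    (hG : Group.IsSolvable G) (p ℓ : ℕ) [Fact p.Prime] (hℓ : ℓ.Prime) :
    ℓ ^ (Nat.card (Sylow p G)).factorization ℓ ≡ 1 [MOD p] := by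
  exact main p _ G hG rfl ℓ hℓ

end Cfsg.Agent.S4345
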