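import Cfsg.Statements.S4346
import Cfsg.Agent.Lib.Helper63Syl22d

set_option autoImplicit false
open Cfsg

namespace Cfsg.Agent.S4346

open Cfsg.Agent.Lib.Helper63SylowNum2 Cfsg.Agent.Lib.Helper63Syl22a Cfsg.Agent.Lib.Helper63Syl22b
  Cfsg.Agent.Lib.Helper63Syl22c Cfsg.Agent.Lib.Helper63Syl22d

theorem simple_case {G : Type*} [Group G] [Finite G] [IsSimpleGroup G]
    (h : Nat.card (Sylow 3 G) = 22) : False := by
  obtain ⟨P⟩ : Nonempty (Sylow 3 G) := inferInstance
  rcases structure_thm h P with h3 | ⟨h9, -, -⟩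
  · exact caseA_false h (fun Q => by rw [card_sylow_eq Q P, h3])
  · have key : ∀ Q : Sylow 3 G, Nat.card Q = 9 ∧ Nat.card (AA 9 Q) = 9 ∧
        Nat.card (AA 3 Q) = 12 := by
      intro Q
      have hQ : Nat.card Q = 9 := by rw [card_sylow_eq Q P, h9]
      rcases structure_thm h Q with h3 | h'
      · omega
      · exact h'
    exact caseB_false ⟨h, fun Q => (key Q).1, fun Q => (key Q).2.1, fun Q => (key Q).2.2⟩

/-- No finite group has exactly 22 Sylow 3-subgroups. -/
theorem result {G : Type*} [Group G] [Finite G] : Nat.card (Sylow 3 G) ≠ 22 := by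
  intro h
  obtain ⟨S, i1, i2, hS, hS'⟩ := exists_simple 3 22 (by
    intro d hd hd7
    have : d ≤ 22 := Nat.le_of_dvd (by norm_num) hd
    interval_cases d <;> simp_all) (by
    intro hpp
    have := (isPrimePow_nat_iff 22).mp hpp
    obtain ⟨q, k, hq, hk, hqk⟩ := this
    have h3 : 2 ∣ q ^ k := by rw [hqk]; norm_num
    have h5 : 11 ∣ q ^ k := by rw [hqk]; norm_num
    have h3' := (Nat.prime_dvd_prime_iff_eq (by norm_num) hq).mp ((Nat.Prime.dvd_of_dvd_pow (by norm_num) h3))
    have h5' := (Nat.prime_dvd_prime_iff_eq (by norm_num) hq).mp ((Nat.Prime.dvd_of_dvd_pow (by norm_num) h5))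
    omega) (by norm_num) h
  exact simple_case hS'

end Cfsg.Agent.S4346
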