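import Cfsg.Statements.S4354

set_option autoImplicit false
open Cfsg

namespace Cfsg.Agent.S4354

theorem relIndex_mul_index_sup {G : Type*} [Group G] [Finite G] (C N : Subgroup G) [N.Normal] :
    C.relIndex N * (C ⊔ N).index = C.index := by
  have h1 : C.relIndex N * N.index = (C ⊓ N).index := by
    rw [← Subgroup.inf_relIndex_right, Subgroup.relIndex_mul_index inf_le_right]
  have h2 : N.relIndex C * C.index = (C ⊓ N).index := by
    rw [← Subgroup.inf_relIndex_left, Subgroup.relIndex_mul_index inf_le_left]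
  have h3 : N.relIndex C * (C ⊔ N).index = N.index := by
    rw [← Subgroup.relIndex_sup_right, Subgroup.relIndex_mul_index le_sup_right]
  have h4 : N.relIndex C ≠ 0 := Subgroup.index_ne_zero_of_finite
  apply Nat.eq_of_mul_eq_mul_left (Nat.pos_of_ne_zero h4)
  rw [h2, ← h1, ← h3]
  ring

theorem centralizer_subtype {G : Type*} [Group G] (N : Subgroup G) (x : N) :
    Subgroup.centralizer ({x} : Set N) =
      (Subgroup.centralizer ({(x : G)} : Set G)).subgroupOf N := by
  ext y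
  rw [Subgroup.mem_subgroupOf, Subgroup.mem_centralizer_singleton_iff,
    Subgroup.mem_centralizer_singleton_iff, Subtype.ext_iff]
  rfl

theorem exists_sylow_le {G : Type*} [Group G] [Finite G] (p : ℕ) [Fact p.Prime]
    (C : Subgroup G) (hC : ¬ p ∣ C.index) : ∃ R : Sylow p G, (R : Subgroup G) ≤ C := by
  obtain ⟨Q₀⟩ : Nonempty (Sylow p C) := inferInstance
  have hpQ : IsPGroup p (Q₀.1.map C.subtype) := Q₀.2.map _
  have hidx : ¬ p ∣ (Q₀.1.map C.subtype).index := by
    rw [Subgroup.index_map_subtype]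
    exact Nat.Prime.not_dvd_mul Fact.out Q₀.not_dvd_index hC
  exact ⟨hpQ.toSylow hidx, Subgroup.map_subtype_le _⟩

theorem isPGroup_zpowers {G : Type*} [Group G] (p : ℕ) (y : G)
    (hy : ∃ k : ℕ, orderOf y = p ^ k) : IsPGroup p (Subgroup.zpowers y) := by
  obtain ⟨k, hk⟩ := hy
  apply IsPGroup.of_card (n := k)
  rw [Nat.card_zpowers, hk]

theorem mem_sylow_of_commute {G : Type*} [Group G] [Finite G] (p : ℕ) [Fact p.Prime]
    (R : Sylow p G) (y : G) (hy : ∃ k : ℕ, orderOf y = p ^ k)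
    (hc : ∀ r ∈ R, r * y = y * r) : y ∈ R := by
  have hz : IsPGroup p (Subgroup.zpowers y) := isPGroup_zpowers p y hy
  have h1 := hz.inf_normalizer_sylow R
  have h2 : y ∈ Subgroup.normalizer (R : Set G) := by
    intro r
    constructor
    · intro hr
      have : y * r * y⁻¹ = r := by rw [← hc r hr, mul_inv_cancel_right]
      rw [this]; exact hr
    · intro hr
      have h3 := hc _ hr
      have h4 : y * r * y⁻¹ = r := by
        have : y * r * y⁻¹ * y = y * (y * r * y⁻¹) := h3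
        have h5 : y * r = y * (y * r * y⁻¹) := by simpa using this
        exact (mul_left_cancel h5).symm
      rw [h4] at hr; exact hr
  have h3 : y ∈ Subgroup.zpowers y ⊓ Subgroup.normalizer (R : Set G) :=
    ⟨Subgroup.mem_zpowers y, h2⟩
  rw [h1] at h3
  exact h3.2

theorem mem_smul_sylow {G : Type*} [Group G] {p : ℕ} (g x : G) (P : Sylow p G) :
    x ∈ g • P ↔ g⁻¹ * x * g ∈ P := by
  have h : x ∈ ((g • P : Sylow p G) : Subgroup G) ↔ g⁻¹ * x * g ∈ (P : Subgroup G) := by
    rw [Sylow.coe_subgroup_smul, Subgroup.mem_pointwise_smul_iff_inv_smul_mem]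
    simp [MulAut.smul_def]
  exact h

/-- the class size condition passes to normal subgroups -/
theorem cond_normal {G : Type*} [Group G] [Finite G] (p : ℕ) [Fact p.Prime]
    (h : ∀ x : G, (∃ k : ℕ, orderOf x = p ^ k) →
      ¬ p ∣ (Subgroup.centralizer ({x} : Set G)).index)
    (N : Subgroup G) [N.Normal] :
    ∀ x : N, (∃ k : ℕ, orderOf x = p ^ k) →
      ¬ p ∣ (Subgroup.centralizer ({x} : Set N)).index := by
  intro x hx hdvd
  apply h (x : G) (by simpa [Subgroup.orderOf_coe] using hx)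
  rw [centralizer_subtype] at hdvd
  rw [← relIndex_mul_index_sup _ N]
  exact Dvd.dvd.mul_right hdvd _

/-- the class size condition passes to quotients -/
theorem cond_quot {G : Type*} [Group G] [Finite G] (p : ℕ) [Fact p.Prime]
    (h : ∀ x : G, (∃ k : ℕ, orderOf x = p ^ k) →
      ¬ p ∣ (Subgroup.centralizer ({x} : Set G)).index)
    (N : Subgroup G) [N.Normal] :
    ∀ x : G ⧸ N, (∃ k : ℕ, orderOf x = p ^ k) →
      ¬ p ∣ (Subgroup.centralizer ({x} : Set (G ⧸ N))).index := by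
  intro x hx hdvd
  obtain ⟨Qbar, hQbar⟩ := (isPGroup_zpowers p x hx).exists_le_sylow
  obtain ⟨Q, rfl⟩ := Sylow.mapSurjective_surjective (QuotientGroup.mk'_surjective N) p Qbar
  have hxQ : x ∈ (Q : Subgroup G).map (QuotientGroup.mk' N) := hQbar (Subgroup.mem_zpowers x)
  obtain ⟨y, hyQ, rfl⟩ := hxQ
  have hy : ∃ k : ℕ, orderOf y = p ^ k := by
    obtain ⟨k, hk⟩ := (IsPGroup.iff_orderOf.mp Q.2) ⟨y, hyQ⟩
    exact ⟨k, by rw [← hk, Subgroup.orderOf_mk]⟩
  apply h y hy
  have hle : (Subgroup.centralizer ({y} : Set G)).map (QuotientGroup.mk' N) ≤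
      Subgroup.centralizer ({QuotientGroup.mk' N y} : Set (G ⧸ N)) := by
    rintro _ ⟨c, hc, rfl⟩
    rw [SetLike.mem_coe] at hc
    rw [Subgroup.mem_centralizer_singleton_iff] at hc ⊢
    rw [← map_mul, ← map_mul, hc]
  exact (hdvd.trans (Subgroup.index_dvd_of_le hle)).trans
    (Subgroup.index_map_dvd _ (QuotientGroup.mk'_surjective N))

/-- every element of `P` lies in `Z(P) (P ∩ N)` -/
theorem key {G : Type*} [Group G] [Finite G] (p : ℕ) [Fact p.Prime]
    (h : ∀ x : G, (∃ k : ℕ, orderOf x = p ^ k) →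
      ¬ p ∣ (Subgroup.centralizer ({x} : Set G)).index)
    (N : Subgroup G) [N.Normal]
    (hquot : ∀ Q : Sylow p (G ⧸ N), ∀ a ∈ Q, ∀ b ∈ Q, a * b = b * a)
    (P : Sylow p G) (y : G) (hy : y ∈ P) :
    ∃ z ∈ P, (∀ r ∈ P, r * z = z * r) ∧ z⁻¹ * y ∈ N := by
  have hyord : ∃ k : ℕ, orderOf y = p ^ k := by
    obtain ⟨k, hk⟩ := (IsPGroup.iff_orderOf.mp P.2) ⟨y, hy⟩
    exact ⟨k, by rw [← hk, Subgroup.orderOf_mk]⟩
  obtain ⟨R, hR⟩ := exists_sylow_le p _ (h y hyord)
  have hRc : ∀ r ∈ R, r * y = y * r := fun r hr =>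
    Subgroup.mem_centralizer_singleton_iff.mp (hR hr)
  have hyR : y ∈ R := mem_sylow_of_commute p R y hyord hRc
  set D : Subgroup G := (Subgroup.centralizer
    ({QuotientGroup.mk' N y} : Set (G ⧸ N))).comap (QuotientGroup.mk' N) with hD
  have hPD : (P : Subgroup G) ≤ D := by
    intro c hc
    rw [hD, Subgroup.mem_comap, Subgroup.mem_centralizer_singleton_iff]
    exact hquot (P.mapSurjective (QuotientGroup.mk'_surjective N)) _
      (Subgroup.mem_map_of_mem _ hc) _ (Subgroup.mem_map_of_mem _ hy)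
  have hRD : (R : Subgroup G) ≤ D := by
    intro c hc
    rw [hD, Subgroup.mem_comap, Subgroup.mem_centralizer_singleton_iff, ← map_mul, ← map_mul,
      hRc c hc]
  obtain ⟨d, hd⟩ := MulAction.exists_smul_eq D (R.subtype hRD) (P.subtype hPD)
  rw [Sylow.smul_subtype] at hd
  have hd' : (d : G) • R = P := Sylow.subtype_injective hd
  refine ⟨d * y * (d : G)⁻¹, ?_, ?_, ?_⟩
  · rw [← hd', mem_smul_sylow]
    simpa [mul_assoc] using hyR
  · intro r hr
    rw [← hd', mem_smul_sylow] at hr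
    have h1 := hRc _ hr
    have h2 : r = d * ((d : G)⁻¹ * r * d) * (d : G)⁻¹ := by group
    rw [h2]
    calc (d : G) * ((d : G)⁻¹ * r * d) * (d : G)⁻¹ * (d * y * (d : G)⁻¹)
        = d * (((d : G)⁻¹ * r * d) * y) * (d : G)⁻¹ := by group
      _ = d * (y * ((d : G)⁻¹ * r * d)) * (d : G)⁻¹ := by rw [h1]
      _ = _ := by group
  · rw [← QuotientGroup.eq]
    have h1 : (d : G) ∈ (Subgroup.centralizer
      ({QuotientGroup.mk' N y} : Set (G ⧸ N))).comap (QuotientGroup.mk' N) := d.2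
    rw [Subgroup.mem_comap, Subgroup.mem_centralizer_singleton_iff] at h1
    have h2 : QuotientGroup.mk' N ((d : G) * y * (d : G)⁻¹) = QuotientGroup.mk' N y := by
      rw [map_mul, map_mul, h1, map_inv, mul_inv_cancel_right]
    exact h2

/-- Let G be a finite group and p a prime such that the Sylow p-subgroups of G are non-abelian while every element of p-power order has conjugacy class size prime to p, and suppose no nontrivial proper normal subgroup N of G has this property and no quotient G/N by such an N has it. Then G is simple. -/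
theorem result {G : Type*} [Group G] [Finite G]
    (p : ℕ) [Fact p.Prime] (h : ((∃ P : Sylow p G, ¬ IsMulCommutative P) ∧ ∀ x : G, (∃ k : ℕ, orderOf x = p ^ k) → ¬ p ∣ (Subgroup.centralizer ({x} : Set G)).index))
    (hmin : ∀ (N : Subgroup G) [N.Normal], N ≠ ⊥ → N ≠ ⊤ →
      ¬ ((∃ P : Sylow p N, ¬ IsMulCommutative P) ∧ ∀ x : N, (∃ k : ℕ, orderOf x = p ^ k) → ¬ p ∣ (Subgroup.centralizer ({x} : Set N)).index) ∧
      ¬ ((∃ P : Sylow p (G ⧸ N), ¬ IsMulCommutative P) ∧ ∀ x : (G ⧸ N), (∃ k : ℕ, orderOf x = p ^ k) → ¬ p ∣ (Subgroup.centralizer ({x} : Set (G ⧸ N))).index)) :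
    IsSimpleGroup G := by
  obtain ⟨⟨P, hP⟩, hcl⟩ := h
  have hnt : Nontrivial G := by
    by_contra hcon
    rw [not_nontrivial_iff_subsingleton] at hcon
    apply hP
    rw [isMulCommutative_iff]
    intro a b
    exact Subsingleton.elim _ _
  refine { hnt with eq_bot_or_eq_top_of_normal := ?_ }
  intro N hN
  by_contra hcon
  push Not at hcon
  obtain ⟨hbot, htop⟩ := hcon
  obtain ⟨h1, h2⟩ := hmin N hbot htop
  have hNab : ∀ Q : Sylow p N, IsMulCommutative Q := by
    intro Q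
    by_contra hQ
    exact h1 ⟨⟨Q, hQ⟩, cond_normal p hcl N⟩
  have hquot : ∀ Q : Sylow p (G ⧸ N), ∀ a ∈ Q, ∀ b ∈ Q, a * b = b * a := by
    intro Q a ha b hb
    have hQ : IsMulCommutative Q := by
      by_contra hQ
      exact h2 ⟨⟨Q, hQ⟩, cond_quot p hcl N⟩
    exact congrArg Subtype.val ((isMulCommutative_iff.mp hQ) ⟨a, ha⟩ ⟨b, hb⟩)
  -- elements of P ∩ N commute
  have hPN : ∀ a ∈ P, a ∈ N → ∀ b ∈ P, b ∈ N → a * b = b * a := by
    intro a haP haN b hbP hbN
    have hpg : IsPGroup p ((P : Subgroup G).subgroupOf N) :=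
      P.2.comap_of_injective N.subtype N.subtype_injective
    obtain ⟨Q, hQ⟩ := hpg.exists_le_sylow
    have ha : (⟨a, haN⟩ : N) ∈ Q := hQ (Subgroup.mem_subgroupOf.mpr haP)
    have hb : (⟨b, hbN⟩ : N) ∈ Q := hQ (Subgroup.mem_subgroupOf.mpr hbP)
    have := (isMulCommutative_iff.mp (hNab Q)) ⟨_, ha⟩ ⟨_, hb⟩
    exact congrArg (fun t : Q => ((t : N) : G)) this
  apply hP
  rw [isMulCommutative_iff]
  rintro ⟨a, ha⟩ ⟨b, hb⟩
  apply Subtype.ext
  change a * b = b * a
  obtain ⟨z, hzP, hzc, hzN⟩ := key p hcl N hquot P a ha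
  obtain ⟨w, hwP, hwc, hwN⟩ := key p hcl N hquot P b hb
  have hm : z⁻¹ * a ∈ P := mul_mem (inv_mem hzP) ha
  have hn : w⁻¹ * b ∈ P := mul_mem (inv_mem hwP) hb
  have hcomm := hPN _ hm hzN _ hn hwN
  have e1 := hzc _ hn
  have e2 := hwc _ hm
  have e3 := hzc _ hwP
  have ea : a = z * (z⁻¹ * a) := by group
  have eb : b = w * (w⁻¹ * b) := by group
  generalize z⁻¹ * a = m at *
  generalize w⁻¹ * b = n at *
  subst ea eb
  calc z * m * (w * n) = z * (m * w) * n := by group
    _ = z * (w * m) * n := by rw [e2]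
    _ = (w * z) * (m * n) := by rw [e3]; group
    _ = (w * z) * (n * m) := by rw [hcomm]
    _ = w * (z * n) * m := by group
    _ = w * (n * z) * m := by rw [e1]
    _ = w * n * (z * m) := by group

end Cfsg.Agent.S4354
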