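import Cfsg.Statements.S4355
import Cfsg.Agent.Lib.Helper58CaminaHerzog

set_option autoImplicit false
open Cfsg

namespace Cfsg.Agent.S4355

open Cfsg.Agent.Lib.Helper40Sylow Cfsg.Agent.Lib.Helper58CaminaHerzog

/-- If every element of 2-power order of a finite group has a conjugacy class of odd size, then the Sylow 2-subgroups of the group are abelian. -/
theorem result {G : Type*} [Group G] [Finite G]
    (h : ∀ x : G, (∃ k : ℕ, orderOf x = 2 ^ k) → ¬ 2 ∣ (Subgroup.centralizer ({x} : Set G)).index) (P : Sylow 2 G) :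
    IsMulCommutative P := by
  have hc : HC G := by
    intro x hx
    obtain ⟨T, hT, -⟩ := exists_isSylowIn_ge (p := 2) (Q := (⊥ : Subgroup G))
      (H := Subgroup.centralizer ({x} : Set G)) IsPGroup.of_bot bot_le
    have hidx : ¬ 2 ∣ T.index := by
      rw [← Subgroup.relIndex_mul_index hT.1]
      intro hd
      rcases (Nat.Prime.dvd_mul Nat.prime_two).mp hd with h1 | h1
      · exact hT.2.2 h1
      · exact h x hx h1
    exact ⟨hT.2.1.toSylow hidx, hT.1⟩
  exact ⟨⟨fun a b => Subtype.ext (sylow_comm hc P a.2 b.2)⟩⟩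

end Cfsg.Agent.S4355
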