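import Cfsg.Statements.S4364
import Cfsg.Agent.Lib.Helper67Kazarin3
-- import your own Cfsg.Agent.* helpers here

set_option autoImplicit false
open Cfsg

namespace Cfsg.Agent.S4364

/-- Let G be a finite group, p a prime and x an element whose conjugacy class has p-power size. Then for any two conjugates y and z of x, the commutator y z y⁻¹ z⁻¹ lies in O_p(G), the largest normal p-subgroup of G. -/
theorem result {G : Type*} [Group G] [Finite G] (p : ℕ) [Fact p.Prime]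
    (x : G) (hx : ∃ a : ℕ, (Subgroup.centralizer ({x} : Set G)).index = p ^ a) (g h : G) :
    (g * x * g⁻¹) * (h * x * h⁻¹) * (g * x * g⁻¹)⁻¹ * (h * x * h⁻¹)⁻¹ ∈ Cfsg.pCore p G := by
  have hp : p.Prime := Fact.out
  haveI hn : (Cfsg.pCore p G).Normal := Cfsg.Agent.Lib.Helper1Fitting.pCore_normal p
  obtain ⟨a, ha⟩ := hx
  have hO := Cfsg.Agent.Lib.Helper67Kazarin3.pCore_quotient_pCore (G := G) p
  have hle : (Subgroup.centralizer ({x} : Set G)).map (QuotientGroup.mk' (Cfsg.pCore p G)) ≤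
      Subgroup.centralizer ({QuotientGroup.mk' (Cfsg.pCore p G) x} : Set (G ⧸ Cfsg.pCore p G)) := by
    rintro _ ⟨c, hc, rfl⟩
    rw [Subgroup.mem_centralizer_singleton_iff, ← map_mul, ← map_mul]
    rw [SetLike.mem_coe, Subgroup.mem_centralizer_singleton_iff] at hc
    rw [hc]
  have h1 : (Subgroup.centralizer ({QuotientGroup.mk' (Cfsg.pCore p G) x} :
      Set (G ⧸ Cfsg.pCore p G))).index ∣ p ^ a := by
    rw [← ha]
    exact (Subgroup.index_dvd_of_le hle).trans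
      (Subgroup.index_map_dvd _ (QuotientGroup.mk'_surjective _))
  obtain ⟨j, -, hj⟩ := (Nat.dvd_prime_pow hp).1 h1
  have h2 := Cfsg.Agent.Lib.Helper67Kazarin3.commute_conj_of_pCore_eq_bot hp
    (G ⧸ Cfsg.pCore p G) hO (QuotientGroup.mk' (Cfsg.pCore p G) x) j hj
    (QuotientGroup.mk' (Cfsg.pCore p G) g) (QuotientGroup.mk' (Cfsg.pCore p G) h)
  rw [← QuotientGroup.eq_one_iff]
  have h3 : ((g * x * g⁻¹ * (h * x * h⁻¹) * (g * x * g⁻¹)⁻¹ * (h * x * h⁻¹)⁻¹ : G) :
      G ⧸ Cfsg.pCore p G) =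
      (QuotientGroup.mk' (Cfsg.pCore p G) g * QuotientGroup.mk' (Cfsg.pCore p G) x *
        (QuotientGroup.mk' (Cfsg.pCore p G) g)⁻¹) *
      (QuotientGroup.mk' (Cfsg.pCore p G) h * QuotientGroup.mk' (Cfsg.pCore p G) x *
        (QuotientGroup.mk' (Cfsg.pCore p G) h)⁻¹) *
      (QuotientGroup.mk' (Cfsg.pCore p G) g * QuotientGroup.mk' (Cfsg.pCore p G) x *
        (QuotientGroup.mk' (Cfsg.pCore p G) g)⁻¹)⁻¹ *
      (QuotientGroup.mk' (Cfsg.pCore p G) h * QuotientGroup.mk' (Cfsg.pCore p G) x *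
        (QuotientGroup.mk' (Cfsg.pCore p G) h)⁻¹)⁻¹ := rfl
  rw [h3, h2]
  group

end Cfsg.Agent.S4364
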