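import Cfsg.Statements.S4365

set_option autoImplicit false
open Cfsg

namespace Cfsg.Agent.S4365

section
variable {G : Type*} [Group G]

local notation "Cn" x => Subgroup.centralizer ({x} : Set G)

theorem mem_C {x g : G} : g ∈ (Cn x) ↔ g * x = x * g :=
  Subgroup.mem_centralizer_singleton_iff

theorem C_eq_top_iff {x : G} : (Cn x) = ⊤ ↔ x ∈ Subgroup.center G := by
  rw [Subgroup.mem_center_iff, eq_top_iff]
  constructor
  · intro h g
    exact mem_C.mp (h (Subgroup.mem_top g))
  · intro h g _
    exact mem_C.mpr (h g)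

theorem eq_of_le_of_index_eq [Finite G] {H K : Subgroup G} (hle : H ≤ K)
    (hidx : H.index = K.index) : H = K := by
  apply le_antisymm hle
  rw [← Subgroup.relIndex_eq_one]
  have h1 := Subgroup.relIndex_mul_index hle
  rw [hidx] at h1
  have h2 : K.index ≠ 0 := Subgroup.index_ne_zero_of_finite
  exact Nat.eq_of_mul_eq_mul_right (Nat.pos_of_ne_zero h2) (by rw [h1, one_mul])

theorem C_le_C_pow (x : G) (n : ℕ) : (Cn x) ≤ (Cn (x ^ n)) := by
  intro g hg
  rw [mem_C] at hg ⊢
  exact ((Commute.pow_right (show Commute g x from hg) n)).eq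

theorem conj_pow_central {t d c : G} (hc : c ∈ Subgroup.center G) (h : d⁻¹ * t * d = t * c)
    (j : ℕ) : (d ^ j)⁻¹ * t * d ^ j = t * c ^ j := by
  induction j with
  | zero => simp
  | succ j ih =>
    have hcj : c ^ j ∈ Subgroup.center G := Subgroup.pow_mem _ hc j
    calc (d ^ (j + 1))⁻¹ * t * d ^ (j + 1)
        = d⁻¹ * ((d ^ j)⁻¹ * t * d ^ j) * d := by rw [pow_succ]; group
      _ = d⁻¹ * (t * c ^ j) * d := by rw [ih]
      _ = (d⁻¹ * t * d) * c ^ j := by
          have := (Subgroup.mem_center_iff.mp hcj) d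
          calc d⁻¹ * (t * c ^ j) * d = d⁻¹ * t * (c ^ j * d) := by group
            _ = d⁻¹ * t * (d * c ^ j) := by rw [this]
            _ = _ := by group
      _ = t * c * c ^ j := by rw [h]
      _ = t * c ^ (j + 1) := by rw [pow_succ']; group

theorem conj_pow_central' {t d c : G} (hc : c ∈ Subgroup.center G) (h : d⁻¹ * t * d = t * c)
    (m : ℕ) : d⁻¹ * t ^ m * d = t ^ m * c ^ m := by
  have h1 : d⁻¹ * t ^ m * d = (d⁻¹ * t * d) ^ m := by
    have := conj_pow (a := d⁻¹) (b := t) (i := m)
    simpa using this.symm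
  rw [h1, h]
  have hcomm : Commute t c := ((Subgroup.mem_center_iff.mp hc) t)
  exact hcomm.mul_pow m

variable [Finite G] {p a : ℕ} [Fact p.Prime]

theorem F3 (hidx : ∀ x : G, x ∈ Subgroup.center G ∨ (Cn x).index = p ^ a) {u v : G}
    (hv : v ∉ Subgroup.center G) (hle : (Cn u) ≤ (Cn v)) : (Cn u) = (Cn v) := by
  have hu : u ∉ Subgroup.center G := by
    intro hu
    apply hv
    rw [← C_eq_top_iff] at hu ⊢
    rw [hu] at hle
    exact top_le_iff.mp hle
  apply eq_of_le_of_index_eq hle
  rw [(hidx u).resolve_left hu, (hidx v).resolve_left hv]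

theorem Dl (hP : IsPGroup p G)
    (hidx : ∀ x : G, x ∈ Subgroup.center G ∨ (Cn x).index = p ^ a) {t d c : G}
    (ht : t ^ p ∉ Subgroup.center G) (hc : c ∈ Subgroup.center G)
    (h : d⁻¹ * t * d = t * c) : c = 1 := by
  have hCt : (Cn t) = (Cn (t ^ p)) := F3 hidx ht (C_le_C_pow t p)
  -- if c' ^ p = 1 with c' realised then c' = 1
  have key : ∀ d' c' : G, c' ∈ Subgroup.center G → d'⁻¹ * t * d' = t * c' → c' ^ p = 1 →
      c' = 1 := by
    intro d' c' hc' h' hp'
    have h1 := conj_pow_central' hc' h' p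
    rw [hp', mul_one] at h1
    have h2 : d' ∈ (Cn (t ^ p)) := by
      rw [mem_C]
      calc d' * t ^ p = d' * (d'⁻¹ * t ^ p * d') := by rw [h1]
        _ = t ^ p * d' := by group
    rw [← hCt, mem_C] at h2
    have h3 : d'⁻¹ * t * d' = t := by
      calc d'⁻¹ * t * d' = d'⁻¹ * (t * d') := by group
        _ = d'⁻¹ * (d' * t) := by rw [h2]
        _ = t := by group
    rw [h3] at h'
    exact (mul_eq_left.mp h'.symm)
  obtain ⟨k, hk⟩ := (IsPGroup.iff_orderOf.mp hP) c
  rcases Nat.eq_zero_or_pos k with rfl | hkpos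
  · simpa using hk
  · exfalso
    have hc' : c ^ (p ^ (k - 1)) ∈ Subgroup.center G := Subgroup.pow_mem _ hc _
    have h1 := key (d ^ (p ^ (k - 1))) (c ^ (p ^ (k - 1))) hc' (conj_pow_central hc h _) (by
      rw [← pow_mul, ← pow_succ, Nat.sub_add_cancel hkpos, ← hk, pow_orderOf_eq_one])
    have hlt : p ^ (k - 1) < orderOf c := by
      rw [hk]
      exact Nat.pow_lt_pow_right (Fact.out : p.Prime).one_lt (by omega)
    exact pow_ne_one_of_lt_orderOf (pow_pos (Fact.out : p.Prime).pos _).ne' hlt h1

end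

/-- Let P be a finite p-group whose conjugacy class sizes are exactly 1 and pᵃ for some a ≥ 1. Then every element of P has its p-th power in the center of P (P/Z(P) has exponent p). -/
theorem result {P : Type*} [Group P] [Finite P] (p : ℕ) [Fact p.Prime]
    (hP : IsPGroup p P) (a : ℕ) (ha : 1 ≤ a)
    (hcs : {k : ℕ | ∃ x : P, (Subgroup.centralizer ({x} : Set P)).index = k} = {1, p ^ a}) (x : P) :
    x ^ p ∈ Subgroup.center P := by
  classical
  by_contra hx
  have hidx : ∀ y : P, y ∈ Subgroup.center P ∨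
      (Subgroup.centralizer ({y} : Set P)).index = p ^ a := by
    intro y
    have : (Subgroup.centralizer ({y} : Set P)).index ∈ ({1, p ^ a} : Set ℕ) := by
      rw [← hcs]; exact ⟨y, rfl⟩
    rcases this with h1 | h1
    · left; rw [← C_eq_top_iff]; exact Subgroup.index_eq_one.mp h1
    · right; exact h1
  have hxZ : x ∉ Subgroup.center P := fun h => hx (Subgroup.pow_mem _ h p)
  have hnt : Nontrivial (P ⧸ Subgroup.center P) := by
    rw [QuotientGroup.nontrivial_iff]
    intro htop
    exact hxZ (htop ▸ Subgroup.mem_top x)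
  obtain ⟨w, hwZ, hw⟩ : ∃ w : P, w ∉ Subgroup.center P ∧
      ∀ g : P, w⁻¹ * g⁻¹ * w * g ∈ Subgroup.center P := by
    have := (hP.to_quotient (Subgroup.center P)).center_nontrivial
    obtain ⟨⟨wb, hwb⟩, hne⟩ := exists_ne (1 : Subgroup.center (P ⧸ Subgroup.center P))
    obtain ⟨w, rfl⟩ := QuotientGroup.mk_surjective wb
    refine ⟨w, ?_, ?_⟩
    · intro hw
      apply hne
      apply Subtype.ext
      exact (QuotientGroup.eq_one_iff w).mpr hw
    · intro g
      rw [← QuotientGroup.eq_one_iff]
      have h1 := (Subgroup.mem_center_iff.mp hwb) (g : P ⧸ Subgroup.center P)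
      calc ((w : P ⧸ Subgroup.center P))⁻¹ * (g : P ⧸ Subgroup.center P)⁻¹ * w * g
          = ((w : P ⧸ Subgroup.center P))⁻¹ * (g : P ⧸ Subgroup.center P)⁻¹ * (w * g) := by group
        _ = ((w : P ⧸ Subgroup.center P))⁻¹ * (g : P ⧸ Subgroup.center P)⁻¹ * (g * w) := by rw [h1]
        _ = 1 := by group
  have comm_of : ∀ u d : P, u⁻¹ * d⁻¹ * u * d = 1 → Commute d u := by
    intro u d h
    have : d * u = u * d * (u⁻¹ * d⁻¹ * u * d)⁻¹ := by group
    rw [h] at this
    have h2 : d * u = u * d := by simpa using this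
    exact h2
  have hwp : w ^ p ∈ Subgroup.center P := by
    by_contra hwp
    apply hwZ
    rw [Subgroup.mem_center_iff]
    intro d
    have h1 : d⁻¹ * w * d = w * (w⁻¹ * d⁻¹ * w * d) := by group
    exact (comm_of w d (Dl hP hidx hwp (hw d) h1)).eq
  have L : ∀ y : P, y ^ p ∉ Subgroup.center P →
      Subgroup.centralizer ({y} : Set P) = Subgroup.centralizer ({w} : Set P) := by
    intro y hy
    have hyw : Commute y w := by
      have hc : y⁻¹ * w⁻¹ * y * w ∈ Subgroup.center P := by
        have := Subgroup.inv_mem _ (hw y)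
        convert this using 1
        group
      have h1 : w⁻¹ * y * w = y * (y⁻¹ * w⁻¹ * y * w) := by group
      exact (comm_of y w (Dl hP hidx hy hc h1)).symm
    have hyw_p : (y * w) ^ p = y ^ p * w ^ p := hyw.mul_pow p
    have hnot : (y * w) ^ p ∉ Subgroup.center P := by
      rw [hyw_p]
      intro h
      apply hy
      have := Subgroup.mul_mem _ h (Subgroup.inv_mem _ hwp)
      simpa using this
    have e1 := F3 hidx hnot (C_le_C_pow (y * w) p)
    have e2 := F3 hidx hy (C_le_C_pow y p)
    have e3 : Subgroup.centralizer ({y ^ p} : Set P) ≤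
        Subgroup.centralizer ({(y * w) ^ p} : Set P) := by
      rw [hyw_p]
      intro g hg
      rw [mem_C] at hg ⊢
      have h1 : Commute g (w ^ p) := (Subgroup.mem_center_iff.mp hwp) g
      exact (Commute.mul_right (show Commute g (y ^ p) from hg) h1).eq
    apply F3 hidx hwZ
    intro g hg
    have hg1 : g ∈ Subgroup.centralizer ({y * w} : Set P) := by
      rw [e1]; apply e3; rw [← e2]; exact hg
    rw [mem_C] at hg hg1 ⊢
    have h2 : Commute g (y⁻¹ * (y * w)) :=
      Commute.mul_right (Commute.inv_right (show Commute g y from hg)) hg1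
    simpa using h2.eq
  set A := Subgroup.centralizer ({w} : Set P) with hA
  have hCx : Subgroup.centralizer ({x} : Set P) = A := L x hx
  have hAn : A.Normal := by
    constructor
    intro g hg h
    rw [hA, mem_C] at hg ⊢
    have h1 : Commute g (w⁻¹ * h⁻¹ * w * h) := (Subgroup.mem_center_iff.mp (hw h)) g
    have h2 : Commute g (h⁻¹ * w * h) := by
      have : h⁻¹ * w * h = w * (w⁻¹ * h⁻¹ * w * h) := by group
      rw [this]
      exact Commute.mul_right hg h1
    calc h * g * h⁻¹ * w = h * (g * (h⁻¹ * w * h)) * h⁻¹ := by group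
      _ = h * ((h⁻¹ * w * h) * g) * h⁻¹ := by rw [h2.eq]
      _ = w * (h * g * h⁻¹) := by group
  have hxA : x ∈ A := by rw [← hCx, mem_C]
  have hAx : ∀ g ∈ A, Commute g x := fun g hg => by
    rw [← hCx] at hg; exact mem_C.mp hg
  have hAab : ∀ g ∈ A, ∀ b ∈ A, Commute b g := by
    intro g hg b hb
    by_cases hgp : g ^ p ∈ Subgroup.center P
    · have hgx : Commute g x := hAx g hg
      have hnot : (g * x) ^ p ∉ Subgroup.center P := by
        rw [hgx.mul_pow]
        intro h
        apply hx
        have := Subgroup.mul_mem _ (Subgroup.inv_mem _ hgp) h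
        simpa using this
      have h1 : b ∈ Subgroup.centralizer ({g * x} : Set P) := by rw [L _ hnot]; exact hb
      have h2 : Commute b (g * x) := mem_C.mp h1
      have h3 : Commute b ((g * x) * x⁻¹) := h2.mul_right (hAx b hb).inv_right
      simpa using h3
    · have h1 : b ∈ Subgroup.centralizer ({g} : Set P) := by rw [L _ hgp]; exact hb
      exact mem_C.mp h1
  have hCu : ∀ u ∈ A, u ∉ Subgroup.center P → Subgroup.centralizer ({u} : Set P) = A := by
    intro u hu huZ
    symm
    apply F3 hidx huZ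
    intro b hb
    exact mem_C.mpr (hAab u hu b hb)
  have hZA : Subgroup.center P ≤ A := fun z hz =>
    mem_C.mpr ((Subgroup.mem_center_iff.mp hz w).symm)
  have hAidx : A.index = p ^ a := (hidx w).resolve_left hwZ
  obtain ⟨g, hg⟩ : ∃ g, g ∉ A := by
    by_contra hcon
    push Not at hcon
    apply hwZ
    rw [← C_eq_top_iff]
    exact eq_top_iff.mpr fun y _ => hcon y
  have hgZ : g ∉ Subgroup.center P := fun h => hg (hZA h)
  have hCg : (Subgroup.centralizer ({g} : Set P)).index = p ^ a := (hidx g).resolve_left hgZ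
  have hZg : Subgroup.center P ≤ Subgroup.centralizer ({g} : Set P) := fun z hz =>
    mem_C.mpr ((Subgroup.mem_center_iff.mp hz g).symm)
  have hinf : Subgroup.centralizer ({g} : Set P) ⊓ A = Subgroup.center P := by
    apply le_antisymm
    · rintro u ⟨hu1, hu2⟩
      by_contra huZ
      apply hg
      rw [← hCu u hu2 huZ, mem_C]
      exact (mem_C.mp hu1).symm
    · exact le_inf hZg hZA
  have hppos : 0 < p ^ a := pow_pos (Fact.out : p.Prime).pos a
  have hcard : (Subgroup.center P).relIndex A ≤ p ^ a := by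
    have h1 := Subgroup.relIndex_mul_index hZA
    have h2 := Subgroup.relIndex_mul_index hZg
    rw [hAidx] at h1
    rw [hCg] at h2
    have h3 : (Subgroup.center P).relIndex A =
        (Subgroup.center P).relIndex (Subgroup.centralizer ({g} : Set P)) :=
      Nat.eq_of_mul_eq_mul_right hppos (h1.trans h2.symm)
    rw [h3, ← hinf, Subgroup.inf_relIndex_left]
    exact Nat.le_of_dvd hppos (hAidx ▸ Subgroup.relIndex_dvd_index_of_normal A _)
  let f : Option (P ⧸ A) → (A.map (QuotientGroup.mk' (Subgroup.center P))) := fun o =>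
    match o with
    | none => 1
    | some q => ⟨QuotientGroup.mk' _ (q.out * x * q.out⁻¹),
        Subgroup.mem_map_of_mem _ (hAn.conj_mem x hxA q.out)⟩
  have hne : ∀ q : P ⧸ A, f (some q) ≠ 1 := by
    intro q hq
    have h1 : QuotientGroup.mk' (Subgroup.center P) (q.out * x * q.out⁻¹) = 1 :=
      congrArg Subtype.val hq
    have h2 : q.out * x * q.out⁻¹ ∈ Subgroup.center P := (QuotientGroup.eq_one_iff _).mp h1
    apply hxZ
    have h3 := (inferInstance : (Subgroup.center P).Normal).conj_mem _ h2 q.out⁻¹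
    simpa [mul_assoc] using h3
  have hf : Function.Injective f := by
    intro o1 o2 h12
    match o1, o2, h12 with
    | none, none, _ => rfl
    | none, some q, h => exact absurd h.symm (hne q)
    | some q, none, h => exact absurd h (hne q)
    | some q, some q', h =>
      congr 1
      have h1 : QuotientGroup.mk' (Subgroup.center P) (q.out * x * q.out⁻¹) =
          QuotientGroup.mk' (Subgroup.center P) (q'.out * x * q'.out⁻¹) :=
        congrArg Subtype.val h
      have h2 : (q.out * x * q.out⁻¹)⁻¹ * (q'.out * x * q'.out⁻¹) ∈ Subgroup.center P :=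
        QuotientGroup.eq.mp h1
      set z := (q.out * x * q.out⁻¹)⁻¹ * (q'.out * x * q'.out⁻¹) with hz
      set g1 := q.out with hg1
      set g2 := q'.out with hg2
      have h3 : (g2⁻¹ * g1)⁻¹ * x * (g2⁻¹ * g1) = x * z := by
        have hzc : Commute g1 z := (Subgroup.mem_center_iff.mp h2) g1
        have : g2 * x * g2⁻¹ = g1 * x * g1⁻¹ * z := by rw [hz]; group
        calc (g2⁻¹ * g1)⁻¹ * x * (g2⁻¹ * g1) = g1⁻¹ * (g2 * x * g2⁻¹) * g1 := by group
          _ = g1⁻¹ * (g1 * x * g1⁻¹ * z) * g1 := by rw [this]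
          _ = x * g1⁻¹ * (z * g1) := by group
          _ = x * g1⁻¹ * (g1 * z) := by rw [hzc.eq]
          _ = x * z := by group
      have h4 := Dl hP hidx hx h2 h3
      rw [h4, mul_one] at h3
      have h5 : g2⁻¹ * g1 ∈ A := by
        rw [← hCx, mem_C]
        calc g2⁻¹ * g1 * x = (g2⁻¹ * g1) * ((g2⁻¹ * g1)⁻¹ * x * (g2⁻¹ * g1)) := by rw [h3]
          _ = x * (g2⁻¹ * g1) := by group
      have h6 : (g2 : P ⧸ A) = (g1 : P ⧸ A) := QuotientGroup.eq.mpr h5
      rw [hg1, hg2, QuotientGroup.out_eq', QuotientGroup.out_eq'] at h6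
      exact h6.symm
  have hcard2 := Nat.card_le_card_of_injective f hf
  rw [Finite.card_option, ← Subgroup.relIndex_ker, QuotientGroup.ker_mk'] at hcard2
  have h7 : Nat.card (P ⧸ A) = p ^ a := hAidx
  omega

end Cfsg.Agent.S4365
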