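import Cfsg.Statements.S4370
import Cfsg.Agent.S0016
import Cfsg.Agent.Lib.Helper31Nilpotent

set_option autoImplicit false
open Cfsg

namespace Cfsg.Agent.S4370

open Cfsg.Agent.Lib

theorem two_mul_eq_zero_cases (n : ℕ) [NeZero n] (j : ZMod (2 * n)) (h : 2 * j = 0) :
    j = 0 ∨ j = (n : ZMod (2 * n)) := by
  have hn : 0 < n := Nat.pos_of_ne_zero (NeZero.ne n)
  have : NeZero (2 * n) := ⟨by omega⟩
  have h1 : ((2 * j.val : ℕ) : ZMod (2 * n)) = 0 := by
    push_cast
    rw [ZMod.natCast_zmod_val]
    exact h
  rw [ZMod.natCast_eq_zero_iff] at h1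
  have h2 : n ∣ j.val := (Nat.mul_dvd_mul_iff_left (by norm_num)).mp h1
  have h3 : j.val < 2 * n := ZMod.val_lt j
  obtain ⟨c, hc⟩ := h2
  have hc2 : c < 2 := by
    by_contra hcc
    push Not at hcc
    have : n * 2 ≤ n * c := Nat.mul_le_mul_left n hcc
    omega
  have hj : j = ((j.val : ℕ) : ZMod (2 * n)) := (ZMod.natCast_zmod_val j).symm
  interval_cases c
  · left; rw [hj, hc]; simp
  · right; rw [hj, hc]; simp

open QuaternionGroup in
theorem quat_centralizer_cyclic (n : ℕ) [NeZero n] (q : QuaternionGroup n)
    (hq : q ∉ Subgroup.center (QuaternionGroup n)) :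
    IsCyclic (Subgroup.centralizer ({q} : Set (QuaternionGroup n))) := by
  cases q with
  | a i =>
    have hi : 2 * i ≠ 0 := by
      intro h
      apply hq
      rw [Subgroup.mem_center_iff]
      intro g
      cases g with
      | a j => rw [a_mul_a, a_mul_a, add_comm]
      | xa j =>
        rw [xa_mul_a, a_mul_xa]
        congr 1
        have : j + i - (j - i) = 0 := by rw [← h]; ring
        exact sub_eq_zero.mp this
    have hc : Subgroup.centralizer ({a i} : Set (QuaternionGroup n)) = Subgroup.zpowers (a 1) := by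
      apply le_antisymm
      · intro g hg
        rw [Subgroup.mem_centralizer_singleton_iff] at hg
        cases g with
        | a j =>
          have : (a j : QuaternionGroup n) = (a 1) ^ j.val := by
            have : NeZero (2 * n) := ⟨by have := NeZero.ne n; omega⟩
            rw [a_one_pow, ZMod.natCast_zmod_val]
          rw [this]
          exact Subgroup.pow_mem _ (Subgroup.mem_zpowers _) _
        | xa j =>
          exfalso
          rw [xa_mul_a, a_mul_xa] at hg
          apply hi
          have h1 : j + i = j - i := by injection hg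
          have : 2 * i = (j + i) - (j - i) := by ring
          rw [this, h1, sub_self]
      · rw [Subgroup.zpowers_le, Subgroup.mem_centralizer_singleton_iff, a_mul_a, a_mul_a, add_comm]
    rw [hc]
    infer_instance
  | xa i =>
    have hc : Subgroup.centralizer ({xa i} : Set (QuaternionGroup n)) = Subgroup.zpowers (xa i) := by
      apply le_antisymm
      · intro g hg
        rw [Subgroup.mem_centralizer_singleton_iff] at hg
        cases g with
        | a j =>
          rw [xa_mul_a, a_mul_xa] at hg
          have h1 : i - j = i + j := by injection hg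
          have h2 : 2 * j = 0 := by
            have : 2 * j = (i + j) - (i - j) := by ring
            rw [this, h1, sub_self]
          rcases two_mul_eq_zero_cases n j h2 with rfl | rfl
          · rw [a_zero]; exact one_mem _
          · rw [← xa_sq i]
            exact Subgroup.pow_mem _ (Subgroup.mem_zpowers _) _
        | xa j =>
          rw [xa_mul_xa, xa_mul_xa] at hg
          have h1 : (n : ZMod (2 * n)) + i - j = n + j - i := by injection hg
          have h2 : 2 * (j - i) = 0 := by
            have : 2 * (j - i) = ((n : ZMod (2 * n)) + j - i) - (n + i - j) := by ring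
            rw [this, h1, sub_self]
          rcases two_mul_eq_zero_cases n _ h2 with h | h
          · rw [sub_eq_zero] at h
            rw [h]; exact Subgroup.mem_zpowers _
          · have : (xa j : QuaternionGroup n) = xa i * (xa i) ^ 2 := by
              rw [xa_sq, xa_mul_a, ← h]
              congr 1; ring
            rw [this]
            exact mul_mem (Subgroup.mem_zpowers _) (Subgroup.pow_mem _ (Subgroup.mem_zpowers _) _)
      · rw [Subgroup.zpowers_le, Subgroup.mem_centralizer_singleton_iff]
    rw [hc]
    infer_instance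

theorem backward {G : Type*} [Group G] [Finite G] (k m : ℕ) (hm : Odd m)
    (e : G ≃* QuaternionGroup (2 ^ k) × Multiplicative (ZMod m)) (x : G)
    (hx : x ∉ Subgroup.center G) : IsCyclic (Subgroup.centralizer ({x} : Set G)) := by
  have hq : (e x).1 ∉ Subgroup.center (QuaternionGroup (2 ^ k)) := by
    intro h
    apply hx
    rw [Subgroup.mem_center_iff]
    intro g
    apply e.injective
    rw [map_mul, map_mul]
    apply Prod.ext
    · exact Subgroup.mem_center_iff.mp h (e g).1
    · exact mul_comm _ _
  have hcyc := quat_centralizer_cyclic (2 ^ k) (e x).1 hq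
  let f : Subgroup.centralizer ({x} : Set G) →*
      Subgroup.centralizer ({(e x).1} : Set (QuaternionGroup (2 ^ k))) × Multiplicative (ZMod m) :=
    { toFun := fun g => (⟨(e g).1, by
        rw [Subgroup.mem_centralizer_singleton_iff]
        have h1 := Subgroup.mem_centralizer_singleton_iff.mp g.2
        have h2 := congrArg (fun t => (e t).1) h1
        simpa using h2⟩, (e g).2)
      map_one' := by
        apply Prod.ext
        · apply Subtype.ext; simp
        · simp
      map_mul' := by
        intro a b
        apply Prod.ext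
        · apply Subtype.ext; simp
        · simp }
  have hf : Function.Injective f := by
    intro a b hab
    apply Subtype.ext
    apply e.injective
    apply Prod.ext
    · exact congrArg (fun t => (t.1 : QuaternionGroup (2 ^ k))) hab
    · exact congrArg (fun t => t.2) hab
  have hcop : (Nat.card (Subgroup.centralizer ({(e x).1} : Set (QuaternionGroup (2 ^ k))))).Coprime
      (Nat.card (Multiplicative (ZMod m))) := by
    have h1 : Nat.card (Subgroup.centralizer ({(e x).1} : Set (QuaternionGroup (2 ^ k)))) ∣
        2 ^ (k + 2) := by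
      have := Subgroup.card_subgroup_dvd_card
        (Subgroup.centralizer ({(e x).1} : Set (QuaternionGroup (2 ^ k))))
      rw [Nat.card_eq_fintype_card (α := QuaternionGroup (2 ^ k)), QuaternionGroup.card] at this
      have e2 : 4 * 2 ^ k = 2 ^ (k + 2) := by ring
      rwa [e2] at this
    have h2 : Nat.card (Multiplicative (ZMod m)) = m := by
      rw [Nat.card_congr Multiplicative.toAdd, Nat.card_zmod]
    rw [h2]
    exact Nat.Coprime.coprime_dvd_left h1 (Nat.Coprime.pow_left _ (Nat.coprime_two_left.mpr hm))
  have : IsCyclic (Subgroup.centralizer ({(e x).1} : Set (QuaternionGroup (2 ^ k))) ×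
      Multiplicative (ZMod m)) := Group.isCyclic_prod_iff.mpr ⟨hcyc, inferInstance, hcop⟩
  exact isCyclic_of_injective f hf

theorem exists_nonabelian_sylow {G : Type*} [Group G] [Finite G] (hG : Group.IsNilpotent G)
    (hna : ¬ IsMulCommutative G) :
    ∃ (p : ℕ) (_ : Fact p.Prime) (P : Sylow p G), ¬ IsMulCommutative (P : Subgroup G) := by
  by_contra h
  push Not at h
  apply hna
  let e := Sylow.directProductOfNormal (G := G) (fun {p} _ P => inferInstance)
  rw [isMulCommutative_iff]
  intro a b
  apply e.symm.injective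
  rw [map_mul, map_mul]
  funext p P
  have hp : Fact (p : ℕ).Prime := ⟨Nat.prime_of_mem_primeFactors p.2⟩
  have hc := h p hp P
  exact (isMulCommutative_iff.mp hc) _ _

theorem forward {G : Type*} [Group G] [Finite G] (hG : Group.IsNilpotent G)
    (hna : ¬ IsMulCommutative G)
    (h : ∀ x : G, x ∉ Subgroup.center G → IsCyclic (Subgroup.centralizer ({x} : Set G))) :
    ∃ (k m : ℕ), 1 ≤ k ∧ Odd m ∧
      Nonempty (G ≃* QuaternionGroup (2 ^ k) × Multiplicative (ZMod m)) := by
  obtain ⟨p, hp, P, hP⟩ := exists_nonabelian_sylow hG hna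
  have hpp : p.Prime := hp.out
  have hPn : (P : Subgroup G).Normal := inferInstance
  obtain ⟨K, hK⟩ := Subgroup.exists_right_complement'_of_coprime (N := (P : Subgroup G))
    P.card_coprime_index
  have hKcard : Nat.card K = (P : Subgroup G).index := hK.symm.index_eq_card.symm
  have hKp : (Nat.card K).Coprime p := by
    rw [hKcard, Nat.coprime_comm, Nat.Prime.coprime_iff_not_dvd hpp]
    exact P.not_dvd_index
  have hcomm : ∀ a ∈ (P : Subgroup G), ∀ b ∈ K, a * b = b * a := by
    intro a ha b hb
    apply Helper31Nilpotent.coprime_commute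
    obtain ⟨j, hj⟩ := IsPGroup.iff_orderOf.mp P.isPGroup' ⟨a, ha⟩
    rw [Subgroup.orderOf_mk] at hj
    rw [hj]
    apply Nat.Coprime.pow_left
    have h1 : orderOf b ∣ Nat.card K := by
      have := orderOf_dvd_natCard (⟨b, hb⟩ : K)
      rwa [Subgroup.orderOf_mk] at this
    exact (Nat.Coprime.coprime_dvd_left h1 hKp).symm
  have hdec : ∀ g : G, ∃ a ∈ (P : Subgroup G), ∃ b ∈ K, g = a * b := by
    intro g
    obtain ⟨⟨a, b⟩, hab, _⟩ := hK.existsUnique g
    exact ⟨a, a.2, b, b.2, hab.symm⟩
  obtain ⟨x, hxP, y, hyP, hxy⟩ : ∃ x ∈ (P : Subgroup G), ∃ y ∈ (P : Subgroup G), x * y ≠ y * x := by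
    by_contra hc
    push Not at hc
    apply hP
    rw [isMulCommutative_iff]
    rintro ⟨a, ha⟩ ⟨b, hb⟩
    exact Subtype.ext (hc a ha b hb)
  have hxc : x ∉ Subgroup.center G := by
    intro hc
    exact hxy (Subgroup.mem_center_iff.mp hc y).symm
  have hcx := h x hxc
  have hKle : K ≤ Subgroup.centralizer ({x} : Set G) := by
    intro b hb
    rw [Subgroup.mem_centralizer_singleton_iff]
    exact (hcomm x hxP b hb).symm
  have hKcyc : IsCyclic K :=
    isCyclic_of_injective (Subgroup.inclusion hKle) (Subgroup.inclusion_injective hKle)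
  -- central element of order p
  have hpd : p ∣ Nat.card G := by
    have h1 : (P : Subgroup G) ≠ ⊥ := by
      intro hb
      apply hxy
      have hx1 : x = 1 := by simpa [hb] using hxP
      rw [hx1]; simp
    have h2 : p ∣ Nat.card (P : Subgroup G) := by
      rcases P.isPGroup'.card_eq_or_dvd with h3 | h3
      · exact absurd (Subgroup.card_eq_one.mp h3) h1
      · exact h3
    exact h2.trans (Subgroup.card_subgroup_dvd_card _)
  obtain ⟨z₀, hz₀1, ⟨j, hj⟩, hz₀c⟩ := Helper31Nilpotent.exists_central_p_element (N := G) hpd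
  have hj0 : j ≠ 0 := by
    rintro rfl
    rw [pow_zero, orderOf_eq_one_iff] at hj
    exact hz₀1 hj
  obtain ⟨i, rfl⟩ : ∃ i, j = i + 1 := ⟨j - 1, by omega⟩
  obtain ⟨z, hzo, hzc⟩ : ∃ z : G, orderOf z = p ∧ ∀ g : G, g * z = z * g := by
    refine ⟨z₀ ^ (p ^ i), ?_, ?_⟩
    · rw [orderOf_pow_of_dvd (pow_ne_zero _ hpp.ne_zero) (by rw [hj]; exact pow_dvd_pow p (by omega)),
        hj, pow_succ]
      exact Nat.mul_div_cancel_left p (pow_pos hpp.pos _)
    · intro g
      exact ((Commute.pow_right (hz₀c g) _) : Commute g (z₀ ^ (p ^ i)))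
  have hzP : z ∈ (P : Subgroup G) :=
    Helper31Nilpotent.mem_sylow_of_orderOf P z (k := 1) (by rw [hzo, pow_one])
  have key : ∀ g : G, g ^ p = 1 → g ∈ Subgroup.zpowers z := by
    intro g hg
    obtain ⟨w, hw, hgw⟩ : ∃ w : G, w ∉ Subgroup.center G ∧ g * w = w * g := by
      by_cases hgc : g ∈ Subgroup.center G
      · exact ⟨x, hxc, (Subgroup.mem_center_iff.mp hgc x).symm⟩
      · exact ⟨g, hgc, rfl⟩
    have hcw := h w hw
    have hgm : g ∈ Subgroup.centralizer ({w} : Set G) :=
      Subgroup.mem_centralizer_singleton_iff.mpr hgw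
    have hzm : z ∈ Subgroup.centralizer ({w} : Set G) :=
      Subgroup.mem_centralizer_singleton_iff.mpr (hzc w).symm
    have hcardz : Nat.card (Subgroup.zpowers (⟨z, hzm⟩ : Subgroup.centralizer ({w} : Set G))) = p := by
      rw [Nat.card_zpowers, Subgroup.orderOf_mk, hzo]
    have := Helper1UniqInv.mem_of_pow_card_eq_one
      (Subgroup.zpowers (⟨z, hzm⟩ : Subgroup.centralizer ({w} : Set G))) (x := ⟨g, hgm⟩)
      (by rw [hcardz]; exact Subtype.ext hg)
    obtain ⟨t, ht⟩ := Subgroup.mem_zpowers_iff.mp this
    refine Subgroup.mem_zpowers_iff.mpr ⟨t, ?_⟩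
    have := congrArg Subtype.val ht
    simpa using this
  have huniq : ∀ H : Subgroup ↥(P : Subgroup G), Nat.card H = p →
      H = Subgroup.zpowers (⟨z, hzP⟩ : ↥(P : Subgroup G)) := by
    intro H hH
    apply Subgroup.eq_of_le_of_card_ge
    · intro u hu
      have h1 : (⟨u, hu⟩ : H) ^ p = 1 := by
        have := pow_card_eq_one' (G := H) (x := ⟨u, hu⟩)
        rwa [hH] at this
      have h2 : ((u : ↥(P : Subgroup G)) : G) ^ p = 1 := by
        have := congrArg (fun t : H => ((t : ↥(P : Subgroup G)) : G)) h1
        simpa using this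
      obtain ⟨t, ht⟩ := Subgroup.mem_zpowers_iff.mp (key _ h2)
      refine Subgroup.mem_zpowers_iff.mpr ⟨t, ?_⟩
      apply Subtype.ext
      simpa using ht
    · rw [hH, Nat.card_zpowers, Subgroup.orderOf_mk, hzo]
  rcases Cfsg.Agent.S0016.result p P.isPGroup'
    (fun H K hH hK => (huniq H hH).trans (huniq K hK).symm) with hcyc | ⟨rfl, n, ⟨eP⟩⟩
  · exfalso
    apply hP
    rw [isMulCommutative_iff]
    intro a b
    obtain ⟨g, hg⟩ := hcyc.exists_generator
    obtain ⟨s, rfl⟩ := Subgroup.mem_zpowers_iff.mp (hg a)
    obtain ⟨t, rfl⟩ := Subgroup.mem_zpowers_iff.mp (hg b)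
    rw [← zpow_add, ← zpow_add, add_comm]
  · have hn : 1 ≤ n := by
      by_contra hn0
      have : n = 0 := by omega
      subst this
      apply hP
      have hc1 : IsCyclic (QuaternionGroup (2 ^ 0)) := QuaternionGroup.quaternionGroup_one_isCyclic
      have hcyc : IsCyclic ↥(P : Subgroup G) :=
        isCyclic_of_injective eP.toMonoidHom eP.injective
      rw [isMulCommutative_iff]
      intro a b
      obtain ⟨g, hg⟩ := hcyc.exists_generator
      obtain ⟨s, rfl⟩ := Subgroup.mem_zpowers_iff.mp (hg a)
      obtain ⟨t, rfl⟩ := Subgroup.mem_zpowers_iff.mp (hg b)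
      rw [← zpow_add, ← zpow_add, add_comm]
    refine ⟨n, Nat.card K, hn, ?_, ?_⟩
    · exact Nat.coprime_two_right.mp hKp
    · let f : ↥(P : Subgroup G) × ↥K →* G :=
        MonoidHom.noncommCoprod (P : Subgroup G).subtype K.subtype
          (fun a b => hcomm a a.2 b b.2)
      have hf : Function.Bijective f := hK
      exact ⟨(MulEquiv.ofBijective f hf).symm.trans
        (MulEquiv.prodCongr eP (zmodCyclicMulEquiv hKcyc).symm)⟩

/-- Let G be a finite non-abelian nilpotent group. Then the centralizer of every non-central element of G is cyclic if and only if G is isomorphic to the direct product of a generalized quaternion group and a cyclic group of odd order. -/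
theorem result {G : Type*} [Group G] [Finite G] (hG : Group.IsNilpotent G)
    (hna : ¬ IsMulCommutative G) :
    (∀ x : G, x ∉ Subgroup.center G → IsCyclic (Subgroup.centralizer ({x} : Set G))) ↔
      ∃ (k m : ℕ), 1 ≤ k ∧ Odd m ∧ Nonempty (G ≃* QuaternionGroup (2 ^ k) × Multiplicative (ZMod m)) := by
  constructor
  · exact forward hG hna
  · rintro ⟨k, m, _, hm, ⟨e⟩⟩ x hx
    exact backward k m hm e x hx

end Cfsg.Agent.S4370
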