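import Cfsg.Statements.S4377

set_option autoImplicit false
open Cfsg

namespace Cfsg.Agent.S4377

theorem sum_formula (G : Type*) [Group G] [Finite G] (n : ℕ) (hn : n ≠ 0) :
    ∑ m ∈ n.divisors, Nat.card {g : G // orderOf g = m} = Nat.card {g : G // g ^ n = 1} := by
  classical
  haveI := Fintype.ofFinite G
  have h := sum_card_orderOf_eq_card_pow_eq_one (G := G) hn
  simp only [Nat.card_eq_fintype_card, Fintype.card_subtype]
  exact h

theorem card_zero (G : Type*) [Group G] [Finite G] :
    Nat.card {g : G // orderOf g = 0} = 0 := by
  haveI : IsEmpty {g : G // orderOf g = 0} :=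
    ⟨fun g => (orderOf_pos g.1).ne' g.2⟩
  exact Nat.card_of_isEmpty

theorem card_all (G : Type*) [Group G] [Finite G] (n : ℕ) (hn : ∀ g : G, g ^ n = 1) :
    Nat.card {g : G // g ^ n = 1} = Nat.card G :=
  Nat.card_congr (Equiv.subtypeUnivEquiv hn)

/-- Two finite groups have the same number of elements of each order if and only if, for every n, they have the same number of elements g with gⁿ = 1. -/
theorem result {G H : Type*} [Group G] [Finite G] [Group H] [Finite H] :
    (∀ n : ℕ, Nat.card {g : G // orderOf g = n} = Nat.card {h : H // orderOf h = n}) ↔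
      ∀ n : ℕ, Nat.card {g : G // g ^ n = 1} = Nat.card {h : H // h ^ n = 1} := by
  constructor
  · intro h n
    have key : ∀ m : ℕ, m ≠ 0 →
        Nat.card {g : G // g ^ m = 1} = Nat.card {h : H // h ^ m = 1} := by
      intro m hm
      rw [← sum_formula G m hm, ← sum_formula H m hm]
      exact Finset.sum_congr rfl fun d _ => h d
    rcases Nat.eq_zero_or_pos n with rfl | hn
    · rw [card_all G 0 (fun g => pow_zero g), card_all H 0 (fun g => pow_zero g)]
      have hN : Nat.card G * Nat.card H ≠ 0 :=
        Nat.mul_ne_zero Nat.card_pos.ne' Nat.card_pos.ne'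
      have := key _ hN
      rwa [card_all G _ (fun g => by rw [pow_mul, pow_card_eq_one', one_pow]),
        card_all H _ (fun g => by rw [mul_comm, pow_mul, pow_card_eq_one', one_pow])] at this
    · exact key n hn.ne'
  · intro h n
    induction n using Nat.strong_induction_on with
    | _ n ih =>
      rcases Nat.eq_zero_or_pos n with rfl | hn
      · rw [card_zero, card_zero]
      · have h1 := sum_formula G n hn.ne'
        have h2 := sum_formula H n hn.ne'
        rw [← Nat.cons_self_properDivisors hn.ne', Finset.sum_cons] at h1 h2
        have h3 : ∑ m ∈ n.properDivisors, Nat.card {g : G // orderOf g = m} =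
            ∑ m ∈ n.properDivisors, Nat.card {g : H // orderOf g = m} :=
          Finset.sum_congr rfl fun d hd => ih d (Nat.mem_properDivisors.mp hd).2
        have h4 := h n
        omega

end Cfsg.Agent.S4377
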