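import Cfsg.Statements.S4381
import Cfsg.Agent.Lib.Helper65Bridge

set_option autoImplicit false
open Pointwise
open Cfsg

namespace Cfsg.Agent.S4381

open Pointwise
open Cfsg.Agent.Lib.Helper65Bridge

/-- maximal invariant subgroups -/
def MaxInv (A : Type*) {G : Type*} [Group A] [Group G] [MulDistribMulAction A G] (M : Subgroup G) : Prop :=
  M ≠ ⊤ ∧ (∀ a : A, ∀ x ∈ M, a • x ∈ M) ∧ ∀ L : Subgroup G, M < L → (∀ a : A, ∀ x ∈ L, a • x ∈ L) → L = ⊤

theorem exists_maxInv {A G : Type*} [Group A] [Group G] [Finite G] [MulDistribMulAction A G]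
    (U : Subgroup G) (hU : Inv A U) (hne : U ≠ ⊤) : ∃ M : Subgroup G, MaxInv A M ∧ U ≤ M := by
  classical
  let S : Set (Subgroup G) := {L | Inv A L ∧ L ≠ ⊤ ∧ U ≤ L}
  obtain ⟨M, hMS, hMmax⟩ := (Set.toFinite S).exists_maximal ⟨U, hU, hne, le_rfl⟩
  refine ⟨M, ⟨hMS.2.1, hMS.1, ?_⟩, hMS.2.2⟩
  intro L hML hL
  by_contra hLt
  exact absurd (hMmax ⟨hL, hLt, hMS.2.2.trans hML.le⟩ hML.le) (not_le_of_gt hML)

theorem frattini_le_of_maxInv {A G : Type*} [Group A] [Group G] [Finite G] [MulDistribMulAction A G]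
    {M : Subgroup G} (hM : MaxInv A M) : frattini G ≤ M := by
  by_contra hcon
  have hlt : M < M ⊔ frattini G := lt_of_le_of_ne le_sup_left (fun h => hcon (h ▸ le_sup_right))
  have h1 := hM.2.2 _ hlt (Inv.sup hM.2.1 (inv_of_char (A := A) (frattini G)))
  exact hM.1 (frattini_nongenerating h1)

/-- Let the finite group A act by automorphisms on the finite group G with the orders of A and G coprime, and assume that A or G is solvable. Call a proper A-invariant subgroup of G maximal A-invariant when no A-invariant subgroup lies strictly between it and G. Then all maximal A-invariant subgroups of G are conjugate under elements of the fixed-point subgroup C_G(A) if and only if G is a p-group for some prime p and A leaves invariant no subgroup strictly between the Frattini subgroup of G and G. In that case, if G is nontrivial, the Frattini subgroup is the only maximal A-invariant subgroup (a trivial G has none). -/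
theorem result {A G : Type*} [Group A] [Finite A]
    [Group G] [Finite G] [MulDistribMulAction A G] (hcop : (Nat.card A).Coprime (Nat.card G)) (hsol : Group.IsSolvable A ∨ Group.IsSolvable G) :
    ((∀ M N : Subgroup G, (M ≠ ⊤ ∧ (∀ a : A, ∀ x ∈ M, a • x ∈ M) ∧ ∀ L : Subgroup G, M < L → (∀ a : A, ∀ x ∈ L, a • x ∈ L) → L = ⊤) → (N ≠ ⊤ ∧ (∀ a : A, ∀ x ∈ N, a • x ∈ N) ∧ ∀ L : Subgroup G, N < L → (∀ a : A, ∀ x ∈ L, a • x ∈ L) → L = ⊤) →
        ∃ c : G, (∀ a : A, a • c = c) ∧ N = MulAut.conj c • M) ↔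
      ((∃ p : ℕ, p.Prime ∧ IsPGroup p G) ∧ ∀ L : Subgroup G, frattini G < L → (∀ a : A, ∀ x ∈ L, a • x ∈ L) → L = ⊤)) ∧
    (((∃ p : ℕ, p.Prime ∧ IsPGroup p G) ∧ ∀ L : Subgroup G, frattini G < L → (∀ a : A, ∀ x ∈ L, a • x ∈ L) → L = ⊤) →
      ∀ M : Subgroup G, (M ≠ ⊤ ∧ (∀ a : A, ∀ x ∈ M, a • x ∈ M) ∧ ∀ L : Subgroup G, M < L → (∀ a : A, ∀ x ∈ L, a • x ∈ L) → L = ⊤) ↔ (M = frattini G ∧ M ≠ ⊤)) := by
  classical
  have key : ((∃ p : ℕ, p.Prime ∧ IsPGroup p G) ∧ ∀ L : Subgroup G, frattini G < L → (∀ a : A, ∀ x ∈ L, a • x ∈ L) → L = ⊤) →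
      ∀ M : Subgroup G, MaxInv A M ↔ (M = frattini G ∧ M ≠ ⊤) := by
    rintro ⟨-, hirr⟩ M
    constructor
    · intro hM
      refine ⟨?_, hM.1⟩
      have h1 := frattini_le_of_maxInv hM
      by_contra hne
      exact hM.1 (hirr M (lt_of_le_of_ne h1 (Ne.symm hne)) hM.2.1)
    · rintro ⟨rfl, hne⟩
      exact ⟨hne, inv_of_char (A := A) (frattini G), hirr⟩
  refine ⟨⟨?_, ?_⟩, key⟩
  · intro hconj
    have hconj' : ∀ M N : Subgroup G, MaxInv A M → MaxInv A N →
        ∃ c : G, (∀ a : A, a • c = c) ∧ N = MulAut.conj c • M := hconj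
    -- `G` is a `p`-group
    have hp : ∃ p : ℕ, p.Prime ∧ IsPGroup p G := by
      by_contra hno
      have hbot : (⊥ : Subgroup G) ≠ ⊤ := by
        intro h
        apply hno
        refine ⟨2, Nat.prime_two, IsPGroup.of_card (n := 0) ?_⟩
        rw [← Subgroup.card_top, ← h]; simp
      obtain ⟨M, hM, -⟩ := exists_maxInv (A := A) (⊥ : Subgroup G)
        (fun a x hx => by rw [Subgroup.mem_bot] at hx ⊢; rw [hx, smul_one]) hbot
      have hdvd : Nat.card G ∣ Nat.card M := by
        rw [← Nat.factorization_le_iff_dvd Nat.card_pos.ne' Nat.card_pos.ne']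
        intro p
        by_cases hpp : p.Prime
        · have : Fact p.Prime := ⟨hpp⟩
          obtain ⟨P, hPinv, hPcard⟩ := exists_inv_sylow (A := A) (G := G) hcop hsol p
          have hPne : P ≠ ⊤ := by
            intro h
            apply hno
            refine ⟨p, hpp, IsPGroup.of_card (n := (Nat.card G).factorization p) ?_⟩
            rw [← hPcard, h, Subgroup.card_top]
          obtain ⟨N, hN, hPN⟩ := exists_maxInv P hPinv hPne
          obtain ⟨c, -, hc⟩ := hconj' M N hM hN
          have hcard : Nat.card N = Nat.card M := by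
            rw [hc]; exact (Nat.card_congr (Subgroup.equivSMul (MulAut.conj c) M).toEquiv).symm
          have h1 : p ^ (Nat.card G).factorization p ∣ Nat.card M := by
            rw [← hcard, ← hPcard]; exact Subgroup.card_dvd_of_le hPN
          exact (hpp.pow_dvd_iff_le_factorization Nat.card_pos.ne').mp h1
        · rw [Nat.factorization_eq_zero_of_not_prime _ hpp]; exact Nat.zero_le _
      apply hM.1
      apply Subgroup.eq_top_of_card_eq
      exact Nat.dvd_antisymm (Subgroup.card_subgroup_dvd_card M) hdvd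
    refine ⟨hp, ?_⟩
    obtain ⟨p, hpp, hG⟩ := hp
    have : Fact p.Prime := ⟨hpp⟩
    intro L hΦL hL
    by_contra hLt
    obtain ⟨L', hL', hΦL', hsup, hinf⟩ := exists_inv_compl hG hcop L hL hΦL.le
    have hL't : L' ≠ ⊤ := by
      intro h
      rw [h, inf_top_eq] at hinf
      exact hΦL.ne hinf.symm
    obtain ⟨M, hM, hLM⟩ := exists_maxInv L hL hLt
    obtain ⟨M', hM', hLM'⟩ := exists_maxInv L' hL' hL't
    obtain ⟨c, -, hc⟩ := hconj' M M' hM hM'
    have hcomm : commutator G ≤ frattini G := Cfsg.Agent.Lib.Helper3PGroup.commutator_le_frattini hG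
    have hMn : M.Normal := Cfsg.Agent.Lib.Helper3PGroup.normal_of_commutator_le
      (hcomm.trans (frattini_le_of_maxInv hM))
    have hMM' : M' = M := by rw [hc]; exact Subgroup.Normal.conj_smul_eq_self c M
    apply hM.1
    rw [eq_top_iff, ← hsup]
    exact sup_le hLM (hMM' ▸ hLM')
  · intro h M N hM hN
    have hM' := (key h M).mp hM
    have hN' := (key h N).mp hN
    refine ⟨1, fun a => smul_one a, ?_⟩
    rw [map_one, one_smul, hM'.1, hN'.1]

end Cfsg.Agent.S4381
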