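import Cfsg.Statements.S4387

set_option autoImplicit false
open Pointwise
open Cfsg

namespace Cfsg.Agent.S4387

/-- Let G be a non-trivial finite group in which any two maximal subgroups are conjugate. Then G is cyclic of prime-power order. -/
theorem result {G : Type*} [Group G] [Finite G] [Nontrivial G]
    (h : ∀ M N : Subgroup G, IsCoatom M → IsCoatom N → ∃ g : G, N = MulAut.conj g • M) :
    IsCyclic G ∧ IsPrimePow (Nat.card G) := by
  classical
  -- a maximal subgroup exists
  obtain ⟨M, hM, -⟩ : ∃ M : Subgroup G, IsCoatom M ∧ (⊥ : Subgroup G) ≤ M := by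
    rcases IsCoatomic.eq_top_or_exists_le_coatom (⊥ : Subgroup G) with h0 | h0
    · exact absurd h0 bot_ne_top
    · exact h0
  have hidx : M.index ≠ 1 := fun h1 => hM.1 (Subgroup.index_eq_one.mp h1)
  obtain ⟨p, hp, hpM⟩ := Nat.exists_prime_and_dvd hidx
  have : Fact p.Prime := ⟨hp⟩
  obtain ⟨P⟩ : Nonempty (Sylow p G) := inferInstance
  have hPtop : (P : Subgroup G) = ⊤ := by
    rcases IsCoatomic.eq_top_or_exists_le_coatom (P : Subgroup G) with h0 | ⟨N, hN, hPN⟩
    · exact h0
    · exfalso
      obtain ⟨g, rfl⟩ := h M N hM hN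
      apply P.not_dvd_index
      refine dvd_trans ?_ (Subgroup.index_dvd_of_le hPN)
      have hidx2 : (MulAut.conj g • M).index = M.index := by
        rw [Subgroup.pointwise_smul_def]
        exact Subgroup.index_map_of_bijective (MulAut.conj g).bijective M
      rwa [hidx2]
  have hG : IsPGroup p G := by
    have := P.2
    rw [hPtop] at this
    exact this.of_surjective (Subgroup.topEquiv : (⊤ : Subgroup G) ≃* G).toMonoidHom
      (Subgroup.topEquiv : (⊤ : Subgroup G) ≃* G).surjective
  have : Group.IsNilpotent G := hG.isNilpotent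
  have hMn : M.Normal :=
    Subgroup.NormalizerCondition.normal_of_coatom M Group.normalizerCondition_of_isNilpotent hM
  have hall : ∀ N : Subgroup G, IsCoatom N → N = M := by
    intro N hN
    obtain ⟨g, rfl⟩ := h M N hM hN
    exact Subgroup.Normal.conj_smul_eq_self g M
  obtain ⟨x, hx⟩ : ∃ x : G, x ∉ M := by
    by_contra hcon
    push Not at hcon
    exact hM.1 (eq_top_iff.mpr fun y _ => hcon y)
  have hzx : Subgroup.zpowers x = ⊤ := by
    rcases IsCoatomic.eq_top_or_exists_le_coatom (Subgroup.zpowers x) with h0 | ⟨N, hN, hxN⟩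
    · exact h0
    · exfalso
      rw [hall N hN] at hxN
      exact hx (hxN (Subgroup.mem_zpowers x))
  refine ⟨⟨x, fun y => by
    have hy : y ∈ Subgroup.zpowers x := by rw [hzx]; exact Subgroup.mem_top y
    exact hy⟩, ?_⟩
  obtain ⟨n, hn⟩ := IsPGroup.iff_card.mp hG
  rw [hn]
  refine ⟨p, n, hp.prime, ?_, rfl⟩
  rcases Nat.eq_zero_or_pos n with h0 | h0
  · exfalso
    rw [h0, pow_zero] at hn
    have := Finite.one_lt_card (α := G)
    omega
  · exact h0

end Cfsg.Agent.S4387
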