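import Cfsg.Statements.S4397
import Cfsg.Agent.Lib.Helper76SecRank
import Cfsg.Agent.Lib.Helper3Metacyclic

set_option autoImplicit false
open Cfsg

namespace Cfsg.Agent.S4397

open Subgroup Cfsg.Agent.Lib Cfsg.Agent.Lib.Helper76FourGroup Cfsg.Agent.Lib.Helper76SecRank
open scoped commutatorElement

universe u

theorem sectional_quotient {S : Type*} [Group S] [Finite S] (k : ℕ)
    (hr : Cfsg.SectionalPRankLE 2 k S) (K : Subgroup S) [K.Normal] :
    Cfsg.SectionalPRankLE 2 k (S ⧸ K) := by
  apply sectional_of_card_le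
  intro N H hNH hsq
  have h1 := card_le_of_sq_mem k hr (N.comap (QuotientGroup.mk' K)) (H.comap (QuotientGroup.mk' K))
    (Subgroup.comap_mono hNH) (by
      intro x hx
      rw [Subgroup.mem_comap] at hx ⊢
      rw [map_pow]
      exact hsq _ hx)
  have e2 := Subgroup.relIndex_comap N (QuotientGroup.mk' K) (H.comap (QuotientGroup.mk' K))
  rw [Subgroup.map_comap_eq_self_of_surjective (QuotientGroup.mk'_surjective K)] at e2
  have h3 := card_mul_relIndex_le (Subgroup.comap_mono (f := QuotientGroup.mk' K) hNH)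
  have h4 := card_mul_relIndex_le hNH
  rw [e2] at h3
  rw [← h3, mul_comm] at h1
  have h5 := Nat.le_of_mul_le_mul_right h1 Nat.card_pos
  rw [← h4, mul_comm]
  exact Nat.mul_le_mul_right _ h5

theorem sq_mul_class2 {G : Type*} [Group G] (x y : G) (h : ∀ g : G, g * ⁅y, x⁆ = ⁅y, x⁆ * g) :
    (x * y) ^ 2 = x ^ 2 * y ^ 2 * ⁅y, x⁆ := by
  have e : (x * y) ^ 2 = x * (⁅y, x⁆ * (x * y)) * y := by
    rw [commutatorElement_def, pow_two]; group
  rw [e, ← mul_assoc, h x, h (x ^ 2 * y ^ 2), pow_two, pow_two]
  simp only [mul_assoc]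

theorem exists_sq_eq {G : Type*} [Group G] [Finite G] (h2 : IsPGroup 2 G)
    (hr : Cfsg.SectionalPRankLE 2 2 G) (c : G) (hc1 : c ≠ 1) (hc2 : c ^ 2 = 1)
    (hcc : ∀ g : G, g * c = c * g) (hcomm : commutator G = zpowers c) : ∃ w : G, w ^ 2 = c := by
  by_contra hno
  push Not at hno
  have hmem : ∀ a b : G, ⁅a, b⁆ = 1 ∨ ⁅a, b⁆ = c := fun a b =>
    mem_zpowers_of_sq_eq_one hc2
      (hcomm ▸ Subgroup.commutator_mem_commutator (mem_top a) (mem_top b))
  have hcen : ∀ a b g : G, g * ⁅a, b⁆ = ⁅a, b⁆ * g := by
    intro a b g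
    rcases hmem a b with h | h <;> rw [h]
    · simp
    · exact hcc g
  let Ω : Subgroup G :=
    { carrier := {x | x ^ 2 = 1}
      one_mem' := one_pow 2
      mul_mem' := by
        intro x y hx hy
        have hx' : x ^ 2 = 1 := hx
        have hy' : y ^ 2 = 1 := hy
        show (x * y) ^ 2 = 1
        have e := sq_mul_class2 x y (hcen y x)
        rw [hx', hy', one_mul, one_mul] at e
        rcases hmem y x with h | h
        · rw [e, h]
        · exact absurd (e.trans h) (hno _)
      inv_mem' := by
        intro x hx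
        show (x⁻¹) ^ 2 = 1
        rw [inv_pow, (show x ^ 2 = 1 from hx), inv_one] }
  have hΩmem : ∀ x, x ∈ Ω ↔ x ^ 2 = 1 := fun x => Iff.rfl
  have hΩ : Nat.card Ω ≤ 4 := by
    have := card_le_of_sq_mem 2 hr ⊥ Ω bot_le (fun h hh => by rw [mem_bot]; exact hh)
    simpa using this
  have hcle : zpowers c ≤ center G := by
    rw [zpowers_le, mem_center_iff]; exact hcc
  haveI hn : (zpowers c).Normal := Helper3PGroup.normal_of_commutator_le hcomm.le
  have hqc : ∀ x y : G ⧸ zpowers c, x * y = y * x := by
    have := (Subgroup.Normal.quotient_commutative_iff_commutator_le (N := zpowers c)).mpr hcomm.le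
    intro x y
    exact this.1.1 x y
  have hnc : ¬ IsCyclic (G ⧸ zpowers c) := by
    intro hcyc
    have h := commutative_of_cyclic_center_quotient (QuotientGroup.mk' (zpowers c))
      (by rw [QuotientGroup.ker_mk']; exact hcle)
    apply hc1
    have h3 : commutator G = ⊥ := by
      rw [commutator_def, Subgroup.commutator_eq_bot_iff_le_centralizer]
      intro a _
      rw [mem_centralizer_iff]
      intro b _
      exact h b a
    have : c ∈ commutator G := by rw [hcomm]; exact mem_zpowers c
    rw [h3, mem_bot] at this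
    exact this
  obtain ⟨s, t, hst, hs, ht⟩ := exists_two_involutions (h2.to_quotient _) hqc hnc
  obtain ⟨u, rfl⟩ := QuotientGroup.mk_surjective s
  obtain ⟨v, rfl⟩ := QuotientGroup.mk_surjective t
  have lift : ∀ w : G, orderOf (QuotientGroup.mk w : G ⧸ zpowers c) = 2 →
      w ^ 2 = 1 ∧ w ∉ zpowers c := by
    intro w hw
    constructor
    · have h1 : (QuotientGroup.mk w : G ⧸ zpowers c) ^ 2 = 1 := by rw [← hw]; exact pow_orderOf_eq_one _
      rw [← QuotientGroup.mk_pow, QuotientGroup.eq_one_iff] at h1
      rcases mem_zpowers_of_sq_eq_one hc2 h1 with h | h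
      · exact h
      · exact absurd h (hno w)
    · intro hmem'
      rw [(QuotientGroup.eq_one_iff w).mpr hmem', orderOf_one] at hw
      omega
  obtain ⟨hu2, huc⟩ := lift u hs
  obtain ⟨hv2, hvc⟩ := lift v ht
  obtain ⟨-, hV4, hVe⟩ := four_group_of u c hu2 hc2 hc1
    (fun g => by rw [hcc g, mul_inv_cancel_right]) huc (by
      intro g
      have e : g * u * g⁻¹ = ⁅g, u⁆ * u := by rw [commutatorElement_def]; group
      rw [e]
      refine mul_mem ?_ (mem_sup_left (mem_zpowers u))
      rcases hmem g u with h | h <;> rw [h]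
      · exact one_mem _
      · exact mem_sup_right (mem_zpowers c))
  have hVΩ : zpowers u ⊔ zpowers c ≤ Ω := fun x hx => hVe x hx
  have hVeq : zpowers u ⊔ zpowers c = Ω :=
    Subgroup.eq_of_le_of_card_ge hVΩ (by rw [hV4]; exact hΩ)
  have hvV : v ∈ zpowers u ⊔ zpowers c := by rw [hVeq]; exact hv2
  obtain ⟨a, ha, b, hb, hab⟩ := exists_mul_of_mem_sup (zpowers u) (zpowers c)
    (fun a _ b hb => hn.conj_mem b hb a) v hvV
  rcases mem_zpowers_of_sq_eq_one hu2 ha with rfl | rfl
  · rw [one_mul] at hab
    exact hvc (hab ▸ hb)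
  · apply hst
    rw [← hab, QuotientGroup.mk_mul, (QuotientGroup.eq_one_iff b).mpr hb, mul_one]

theorem small_comm {G : Type*} [Group G] [Finite G] (h2 : IsPGroup 2 G)
    (hr : Cfsg.SectionalPRankLE 2 2 G) (hc : Nat.card (commutator G) ≤ 2) :
    Cfsg.IsMetacyclic G := by
  have hp : Fact (Nat.Prime 2) := ⟨Nat.prime_two⟩
  have hcard : Nat.card (commutator G) = 1 ∨ Nat.card (commutator G) = 2 := by
    have := Nat.card_pos (α := commutator G)
    omega
  have hcen : commutator G ≤ Subgroup.center G := by
    rcases hcard with h | h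
    · rw [Subgroup.card_eq_one.mp h]; exact bot_le
    · exact Helper3OmegaQuot.central_of_card_prime h2 _ h
  obtain ⟨c, hceq⟩ : ∃ c : G, commutator G = Subgroup.zpowers c := by
    have : IsCyclic (commutator G) := by
      rcases hcard with h | h
      · have : Subsingleton (commutator G) := (Nat.card_eq_one_iff_unique.mp h).1
        exact isCyclic_of_subsingleton
      · exact isCyclic_of_prime_card h
    obtain ⟨g, hg⟩ := IsCyclic.exists_generator (α := commutator G)
    refine ⟨g, le_antisymm ?_ (by rw [Subgroup.zpowers_le]; exact g.2)⟩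
    intro x hx
    obtain ⟨k, hk⟩ := Subgroup.mem_zpowers_iff.mp (hg ⟨x, hx⟩)
    rw [Subgroup.mem_zpowers_iff]
    exact ⟨k, by have := congrArg Subtype.val hk; rwa [Subgroup.coe_zpow] at this⟩
  have hcG : c ∈ commutator G := by rw [hceq]; exact mem_zpowers c
  have hc2 : c ^ 2 = 1 := by
    have h1 : (⟨c, hcG⟩ : commutator G) ^ Nat.card (commutator G) = 1 := pow_card_eq_one'
    rcases hcard with h | h
    · rw [h, pow_one] at h1
      have : c = 1 := congrArg Subtype.val h1
      rw [this, one_pow]
    · rw [h] at h1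
      exact congrArg Subtype.val h1
  have hcc : ∀ g : G, g * c = c * g := Subgroup.mem_center_iff.mp (hcen hcG)
  have hmemc : ∀ a b : G, ⁅a, b⁆ ∈ commutator G := fun a b =>
    Subgroup.commutator_mem_commutator (Subgroup.mem_top a) (Subgroup.mem_top b)
  have hecen : ∀ e ∈ commutator G, ∀ g : G, g * e = e * g := fun e he =>
    Subgroup.mem_center_iff.mp (hcen he)
  -- the subgroup generated by the squares
  set N : Subgroup G := Subgroup.closure {g | ∃ y : G, g = y ^ 2} with hN
  have hsqN : ∀ y : G, y ^ 2 ∈ N := fun y => Subgroup.subset_closure ⟨y, rfl⟩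
  have hNdec : ∀ g ∈ N, ∃ y : G, ∃ e ∈ commutator G, g = y ^ 2 * e := by
    intro g hg
    induction hg using Subgroup.closure_induction with
    | mem x hx =>
      obtain ⟨y, rfl⟩ := hx
      exact ⟨y, 1, one_mem _, (mul_one _).symm⟩
    | one => exact ⟨1, 1, one_mem _, by simp⟩
    | mul a b _ _ ha hb =>
      obtain ⟨y, e, he, rfl⟩ := ha
      obtain ⟨w, f, hf, rfl⟩ := hb
      refine ⟨y * w, (⁅w, y⁆)⁻¹ * e * f, mul_mem (mul_mem (inv_mem (hmemc w y)) he) hf, ?_⟩
      rw [sq_mul_class2 y w (hecen _ (hmemc w y)), mul_assoc (y ^ 2) e, ← mul_assoc e, ← hecen e he (w ^ 2)]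
      group
    | inv a _ ha =>
      obtain ⟨y, e, he, rfl⟩ := ha
      refine ⟨y⁻¹, e⁻¹, inv_mem he, ?_⟩
      rw [mul_inv_rev, ← hecen _ (inv_mem he), inv_pow]
  have hidx : N.index ≤ 2 ^ 2 := by
    have h1 := card_le_of_sq_mem 2 hr N ⊤ le_top (fun h _ => hsqN h)
    rw [Nat.card_congr Subgroup.topEquiv.toEquiv, ← Subgroup.card_mul_index N, mul_comm] at h1
    exact Nat.le_of_mul_le_mul_right h1 Nat.card_pos
  let S : Set G := {x | commutator G ≤ Subgroup.zpowers x}
  have hSne : S.Nonempty := by
    by_cases hc1 : c = 1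
    · refine ⟨1, ?_⟩
      show commutator G ≤ Subgroup.zpowers 1
      rw [hceq, hc1]
    · obtain ⟨w, hw⟩ := exists_sq_eq h2 hr c hc1 hc2 hcc hceq
      refine ⟨w, ?_⟩
      show commutator G ≤ Subgroup.zpowers w
      rw [hceq, Subgroup.zpowers_le, ← hw]
      exact Subgroup.pow_mem _ (Subgroup.mem_zpowers w) 2
  obtain ⟨x, hxS, hxmax⟩ := Set.exists_max_image S orderOf (Set.toFinite S) hSne
  have hxS' : commutator G ≤ Subgroup.zpowers x := hxS
  have hNn : (Subgroup.zpowers x).Normal := Helper3PGroup.normal_of_commutator_le hxS'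
  have hxsq : x ∈ N → ∃ y, x = y ^ 2 := by
    intro hxN
    obtain ⟨y, e, he, hxe⟩ := hNdec x hxN
    rw [hceq] at he
    rcases mem_zpowers_of_sq_eq_one hc2 he with rfl | rfl
    · exact ⟨y, by rw [hxe, mul_one]⟩
    · by_cases hc1 : e = 1
      · exact ⟨y, by rw [hxe, hc1, mul_one]⟩
      obtain ⟨w, hw⟩ := exists_sq_eq h2 hr e hc1 hc2 hcc hceq
      have hwS : w ∈ S := by
        show commutator G ≤ Subgroup.zpowers w
        rw [hceq, Subgroup.zpowers_le, ← hw]
        exact Subgroup.pow_mem _ (Subgroup.mem_zpowers w) 2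
      have hw4 : orderOf w = 4 := by
        have : orderOf w = 2 ^ (1 + 1) := by
          apply orderOf_eq_prime_pow
          · rw [pow_one, hw]; exact hc1
          · rw [pow_succ, pow_mul, pow_one, hw, hc2]
        rw [this]; norm_num
      have hx4 : 4 ≤ orderOf x := hw4 ▸ hxmax w hwS
      obtain ⟨j, hj⟩ := Subgroup.mem_zpowers_iff.mp (hxS' hcG)
      have hyx : Commute y x := by
        rw [hxe]
        exact Commute.mul_right (Commute.pow_right (Commute.refl y) 2) (hcc y)
      rcases Int.even_or_odd' j with ⟨k, rfl | rfl⟩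
      · refine ⟨y * x ^ k, ?_⟩
        rw [(hyx.zpow_right k).mul_pow, ← zpow_natCast (x ^ k) 2, ← zpow_mul, mul_comm k, Nat.cast_ofNat,
          hj]
        exact hxe
      · exfalso
        have h1 : x ^ (2 * (2 * k + 1)) = 1 := by
          rw [mul_comm, zpow_mul, hj, zpow_ofNat, hc2]
        have h3 : (orderOf x : ℤ) ∣ 2 * (2 * k + 1) := orderOf_dvd_iff_zpow_eq_one.mpr h1
        obtain ⟨t, ht⟩ := IsPGroup.iff_orderOf.mp h2 x
        have ht2 : 2 ≤ t := by
          by_contra hlt
          have : t ≤ 1 := by omega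
          have h5 : 2 ^ t ≤ 2 ^ 1 := Nat.pow_le_pow_right (by norm_num) this
          omega
        obtain ⟨t', rfl⟩ : ∃ t', t = t' + 2 := ⟨t - 2, by omega⟩
        rw [ht] at h3
        obtain ⟨d, hd⟩ := h3
        push_cast at hd
        have : (2:ℤ) ^ (t' + 2) = 4 * 2 ^ t' := by ring
        rw [this, mul_assoc] at hd
        obtain ⟨m, hm⟩ : ∃ m : ℤ, m = 2 ^ t' * d := ⟨_, rfl⟩
        rw [← hm] at hd
        omega
  by_cases hxP : x ∈ N
  · -- then `G` is trivial
    obtain ⟨y, hy⟩ := hxsq hxP
    have hy' : y ^ 2 = x := hy.symm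
    have hyS : y ∈ S := by
      show commutator G ≤ Subgroup.zpowers y
      refine hxS'.trans ?_
      rw [Subgroup.zpowers_le, ← hy']
      exact Subgroup.pow_mem _ (Subgroup.mem_zpowers y) 2
    have h1 := hxmax y hyS
    have hy1 : y = 1 := by
      by_contra hne
      obtain ⟨k, hk⟩ := IsPGroup.iff_orderOf.mp h2 y
      have hk0 : k ≠ 0 := by
        rintro rfl
        rw [pow_zero, orderOf_eq_one_iff] at hk
        exact hne hk
      have hdvd : 2 ∣ orderOf y := by rw [hk]; exact dvd_pow_self 2 hk0
      have h2' : orderOf (y ^ 2) = orderOf y / 2 := orderOf_pow_of_dvd (by norm_num) hdvd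
      rw [← hy', h2'] at h1
      have h3 : orderOf y / 2 < orderOf y := Nat.div_lt_self (orderOf_pos y) (by norm_num)
      omega
    have hx1 : x = 1 := by rw [← hy', hy1, one_pow]
    have : Subsingleton G := by
      refine ⟨fun a b => ?_⟩
      have hall : ∀ w : G, w = 1 := by
        intro w
        have hwS : w ∈ S := by
          show commutator G ≤ Subgroup.zpowers w
          refine hxS'.trans ?_
          rw [hx1, Subgroup.zpowers_one_eq_bot]; exact bot_le
        have := hxmax w hwS
        rw [hx1, orderOf_one] at this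
        have h4 : orderOf w = 1 := le_antisymm this (orderOf_pos w)
        exact orderOf_eq_one_iff.mp h4
      rw [hall a, hall b]
    exact ⟨⊥, inferInstance, isCyclic_of_subsingleton, isCyclic_of_subsingleton⟩
  · set M := Subgroup.zpowers x ⊔ N with hM
    have hPM : N ≤ M := le_sup_right
    have hxM : x ∈ M := (le_sup_left : Subgroup.zpowers x ≤ M) (Subgroup.mem_zpowers x)
    have hMidx : M.index ≤ 2 := by
      obtain ⟨i, hi⟩ := h2.index M
      obtain ⟨k, hk⟩ := h2.index N
      have h1 := Subgroup.relIndex_mul_index hPM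
      have h2' : N.relIndex M ≠ 1 := by
        intro h
        exact hxP (Subgroup.relIndex_eq_one.mp h hxM)
      have hk2 : k ≤ 2 := by
        rw [hk] at hidx
        exact (Nat.pow_le_pow_iff_right (by norm_num)).mp hidx
      have hik : i < k := by
        by_contra hlt
        have hki : k ≤ i := by omega
        rw [hi, hk] at h1
        have h3 : 2 ^ k ≤ 2 ^ i := Nat.pow_le_pow_right (by norm_num) hki
        have h4 : 0 < 2 ^ i := pow_pos (by norm_num) i
        have h5 : N.relIndex M = 1 := by
          have h6 : N.relIndex M * 2 ^ i ≤ 1 * 2 ^ i := by rw [h1, one_mul]; exact h3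
          have h7 := Nat.le_of_mul_le_mul_right h6 h4
          have h8 : N.relIndex M ≠ 0 := by
            intro h0
            rw [h0, zero_mul] at h1
            exact (pow_pos (by norm_num) k).ne h1
          omega
        exact h2' h5
      rw [hi]
      calc 2 ^ i ≤ 2 ^ 1 := Nat.pow_le_pow_right (by norm_num) (by omega)
        _ = 2 := pow_one 2
    obtain ⟨y, hy⟩ : ∃ y : G, M = ⊤ ∨ y ∉ M := by
      by_cases h : M = ⊤
      · exact ⟨1, Or.inl h⟩
      · obtain ⟨y, -, hy⟩ := SetLike.exists_of_lt (lt_top_iff_ne_top.mpr h)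
        exact ⟨y, Or.inr hy⟩
    have htop : Subgroup.closure {x, y} = (⊤ : Subgroup G) := by
      rcases eq_top_or_exists_le_coatom (Subgroup.closure {x, y}) with h | ⟨M', hM', hle⟩
      · exact h
      · exfalso
        have hxM' : x ∈ M' := hle (Subgroup.subset_closure (by simp))
        have hyM' : y ∈ M' := hle (Subgroup.subset_closure (by simp))
        have hMM' : M ≤ M' := by
          rw [hM, sup_le_iff, Subgroup.zpowers_le]
          refine ⟨hxM', ?_⟩
          rw [hN, Subgroup.closure_le]
          rintro _ ⟨w, rfl⟩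
          exact Helper3PGroup.pow_mem_coatom h2 hM' w
        rcases hy with h | h
        · exact hM'.1 (top_le_iff.mp (h ▸ hMM'))
        · have h1 := Subgroup.relIndex_mul_index hMM'
          rw [Helper3PGroup.coatom_index h2 hM'] at h1
          have h2' : M.relIndex M' = 1 := by
            have h3 : M.relIndex M' * 2 ≤ 1 * 2 := by rw [h1, one_mul]; exact hMidx
            have h4 := Nat.le_of_mul_le_mul_right h3 (by norm_num)
            have h5 : M.relIndex M' ≠ 0 := by
              intro h0
              rw [h0, zero_mul] at h1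
              exact Subgroup.index_ne_zero_of_finite h1.symm
            omega
          exact h (Subgroup.relIndex_eq_one.mp h2' hyM')
    refine ⟨Subgroup.zpowers x, hNn, inferInstance, ⟨⟨QuotientGroup.mk y, fun q => ?_⟩⟩⟩
    obtain ⟨g, rfl⟩ := QuotientGroup.mk_surjective q
    have hg : g ∈ Subgroup.closure {x, y} := by rw [htop]; exact Subgroup.mem_top g
    show (QuotientGroup.mk g : G ⧸ Subgroup.zpowers x) ∈ Subgroup.zpowers (QuotientGroup.mk y)
    induction hg using Subgroup.closure_induction with
    | mem w hw =>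
      rcases hw with rfl | hw
      · rw [(QuotientGroup.eq_one_iff w).mpr (Subgroup.mem_zpowers w)]
        exact Subgroup.one_mem _
      · rw [Set.mem_singleton_iff] at hw
        rw [hw]; exact Subgroup.mem_zpowers _
    | one => exact Subgroup.one_mem _
    | mul a b _ _ ha hb => rw [QuotientGroup.mk_mul]; exact Subgroup.mul_mem _ ha hb
    | inv a _ ha => rw [QuotientGroup.mk_inv]; exact Subgroup.inv_mem _ ha

theorem main (m : ℕ) :
    ∀ (R : Type u) [Group R] [Finite R], Nat.card R ≤ m → IsPGroup 2 R →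
    Cfsg.SectionalPRankLE 2 2 R → Cfsg.IsMetacyclic R := by
  have hp : Fact (Nat.Prime 2) := ⟨Nat.prime_two⟩
  induction m with
  | zero =>
    intro R _ _ hc
    have := Nat.card_pos (α := R)
    omega
  | succ m ih =>
    intro R _ _ hcard hR hO
    by_cases hc : Nat.card (commutator R) ≤ 2
    · exact small_comm hR hO hc
    · have hne : commutator R ≠ ⊥ := by
        intro h
        rw [h, Subgroup.card_bot] at hc
        exact hc (by norm_num)
      obtain ⟨z, hzc, hzZ, hz1, hzp⟩ := Helper3PGroup.exists_central_order_p hR (commutator R) hne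
      have hn : (Subgroup.zpowers z).Normal :=
        Helper3RankTwo.normal_of_le_center (by rw [Subgroup.zpowers_le]; exact hzZ)
      apply Helper3Metacyclic.lift_metacyclic hR z hzZ hzc hzp (by omega)
      apply ih
      · have h1 := Subgroup.card_eq_card_quotient_mul_card_subgroup (Subgroup.zpowers z)
        have h2 : 1 < Nat.card (Subgroup.zpowers z) := by
          rw [Helper3RankTwo.card_zpowers_of_order_p hp.out hz1 hzp]
          norm_num
        have h3 : 0 < Nat.card (R ⧸ Subgroup.zpowers z) := Nat.card_pos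
        nlinarith
      · exact hR.to_quotient _
      · exact sectional_quotient 2 hO _

/-- A finite 2-group of sectional 2-rank at most 2 (every section has no elementary abelian subgroup of order 8) is metacyclic: it has a cyclic normal subgroup with cyclic quotient. -/
theorem result {S : Type*} [Group S] [Finite S] (h2 : IsPGroup 2 S) (hr : Cfsg.SectionalPRankLE 2 2 S) : Cfsg.IsMetacyclic S := by
  exact main (Nat.card S) S le_rfl h2 hr

end Cfsg.Agent.S4397
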