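import Cfsg.Statements.S4398
import Cfsg.Agent.Lib.Helper76FourGroup
import Cfsg.Agent.Lib.Helper25Quat
import Cfsg.Agent.S0206
import Cfsg.Agent.S0646

set_option autoImplicit false
open Cfsg

namespace Cfsg.Agent.S4398

open Cfsg.Agent.Lib Cfsg.Agent.Lib.Helper76FourGroup Subgroup

theorem card_le_of_sq_mem {S : Type*} [Group S] [Finite S] (hr : Cfsg.SectionalPRankLE 2 2 S)
    (N H : Subgroup S) (hNH : N ≤ H) (hsq : ∀ h ∈ H, h ^ 2 ∈ N) :
    Nat.card H ≤ 4 * Nat.card N := by
  have hn : (N.subgroupOf H).Normal := by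
    constructor
    rintro ⟨n, hnH⟩ hn ⟨h, hh⟩
    rw [Subgroup.mem_subgroupOf] at hn ⊢
    simp only [Subgroup.coe_mul, InvMemClass.coe_inv] at hn ⊢
    have e : h * n * h⁻¹ = (h * n) ^ 2 * n⁻¹ * (h⁻¹) ^ 2 := by
      simp only [pow_two]; group
    rw [e]
    exact N.mul_mem (N.mul_mem (hsq _ (H.mul_mem hh hnH)) (N.inv_mem hn)) (hsq _ (H.inv_mem hh))
  have hexp : ∀ a : ↥H ⧸ N.subgroupOf H, a ^ 2 = 1 := by
    intro a
    induction a using QuotientGroup.induction_on with
    | H h =>
      rw [← QuotientGroup.mk_pow, QuotientGroup.eq_one_iff, Subgroup.mem_subgroupOf]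
      simpa using hsq h h.2
  have hcomm : ∀ a b : ↥H ⧸ N.subgroupOf H, a * b = b * a := by
    intro a b
    have ha : a⁻¹ = a := by rw [inv_eq_iff_mul_eq_one, ← pow_two]; exact hexp a
    have hb : b⁻¹ = b := by rw [inv_eq_iff_mul_eq_one, ← pow_two]; exact hexp b
    have hab : (a * b)⁻¹ = a * b := by rw [inv_eq_iff_mul_eq_one, ← pow_two]; exact hexp _
    rw [← hab, mul_inv_rev, ha, hb]
  have h := hr H (N.subgroupOf H) ⊤ (by
    rw [isMulCommutative_iff]
    intro a b
    exact Subtype.ext (hcomm a b)) (fun a _ => hexp a)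
  rw [Nat.card_congr Subgroup.topEquiv.toEquiv] at h
  have h3 : Nat.card (↥H ⧸ N.subgroupOf H) = N.relIndex H := rfl
  rw [h3] at h
  have h4 := card_mul_relIndex_le hNH
  rw [← h4]
  nlinarith

theorem props_of_equiv {T T' : Type*} [Group T] [Group T'] (f : T ≃* T')
    (h : Nat.card T' = 8 ∧ ∃ z : T', z ≠ 1 ∧ z ^ 2 = 1 ∧ (∀ b, b * z = z * b) ∧
      (∀ b, b ^ 2 = 1 ∨ b ^ 2 = z) ∧ (∀ x, (∀ b, b * x = x * b) → x = 1 ∨ x = z) ∧
      ∃ x y : T', x * y ≠ y * x) :
    Nat.card T = 8 ∧ ∃ z : T, z ≠ 1 ∧ z ^ 2 = 1 ∧ (∀ b, b * z = z * b) ∧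
      (∀ b, b ^ 2 = 1 ∨ b ^ 2 = z) ∧ (∀ x, (∀ b, b * x = x * b) → x = 1 ∨ x = z) ∧
      ∃ x y : T, x * y ≠ y * x := by
  obtain ⟨h8, z, hz1, hz2, hzc, hsq, hcen, x, y, hxy⟩ := h
  refine ⟨by rw [Nat.card_congr f.toEquiv, h8], f.symm z, ?_, ?_, ?_, ?_, ?_, f.symm x, f.symm y, ?_⟩
  · intro h
    apply hz1
    have := congrArg f h
    simpa using this
  · rw [← map_pow, hz2, map_one]
  · intro b
    apply f.injective
    simp [hzc]
  · intro b
    rcases hsq (f b) with h | h
    · left
      apply f.injective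
      simpa using h
    · right
      apply f.injective
      simpa using h
  · intro x hx
    rcases hcen (f x) (fun b => by
      have := congrArg f (hx (f.symm b))
      simpa using this) with h | h
    · left
      apply f.injective
      simpa using h
    · right
      apply f.injective
      simpa using h
  · intro h
    apply hxy
    have := congrArg f h
    simpa using this

theorem props_dihedral : Nat.card (DihedralGroup 4) = 8 ∧ ∃ z : DihedralGroup 4, z ≠ 1 ∧ z ^ 2 = 1 ∧
      (∀ b, b * z = z * b) ∧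
      (∀ b, b ^ 2 = 1 ∨ b ^ 2 = z) ∧ (∀ x, (∀ b, b * x = x * b) → x = 1 ∨ x = z) ∧
      ∃ x y : DihedralGroup 4, x * y ≠ y * x := by
  refine ⟨by rw [DihedralGroup.nat_card], DihedralGroup.r 2, by decide, by decide, by decide,
    by decide, by decide, by decide⟩

theorem props_quaternion : Nat.card (QuaternionGroup 2) = 8 ∧ ∃ z : QuaternionGroup 2, z ≠ 1 ∧
      z ^ 2 = 1 ∧ (∀ b, b * z = z * b) ∧
      (∀ b, b ^ 2 = 1 ∨ b ^ 2 = z) ∧ (∀ x, (∀ b, b * x = x * b) → x = 1 ∨ x = z) ∧
      ∃ x y : QuaternionGroup 2, x * y ≠ y * x := by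
  refine ⟨by rw [Nat.card_eq_fintype_card, QuaternionGroup.card], QuaternionGroup.a 2, by decide,
    by decide, by decide, by decide, by decide, by decide⟩

theorem sub_props {S : Type*} [Group S] (B : Subgroup S)
    (h : Nonempty (↥B ≃* DihedralGroup 4) ∨ Nonempty (↥B ≃* QuaternionGroup 2)) :
    Nat.card B = 8 ∧ ∃ z ∈ B, z ≠ 1 ∧ z ^ 2 = 1 ∧ (∀ b ∈ B, b * z = z * b) ∧
      (∀ b ∈ B, b ^ 2 = 1 ∨ b ^ 2 = z) ∧ (∀ x ∈ B, (∀ b ∈ B, b * x = x * b) → x = 1 ∨ x = z) ∧
      ∃ x ∈ B, ∃ y ∈ B, x * y ≠ y * x := by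
  have key : Nat.card B = 8 ∧ ∃ z : ↥B, z ≠ 1 ∧ z ^ 2 = 1 ∧ (∀ b, b * z = z * b) ∧
      (∀ b, b ^ 2 = 1 ∨ b ^ 2 = z) ∧ (∀ x, (∀ b, b * x = x * b) → x = 1 ∨ x = z) ∧
      ∃ x y : ↥B, x * y ≠ y * x := by
    rcases h with ⟨⟨f⟩⟩ | ⟨⟨f⟩⟩
    · exact props_of_equiv f props_dihedral
    · exact props_of_equiv f props_quaternion
  obtain ⟨h8, ⟨z, hzB⟩, hz1, hz2, hzc, hsq, hcen, ⟨x, hx⟩, ⟨y, hy⟩, hxy⟩ := key
  refine ⟨h8, z, hzB, ?_, ?_, ?_, ?_, ?_, x, hx, y, hy, ?_⟩
  · intro h
    exact hz1 (Subtype.ext h)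
  · exact congrArg Subtype.val hz2
  · intro b hb
    exact congrArg Subtype.val (hzc ⟨b, hb⟩)
  · intro b hb
    rcases hsq ⟨b, hb⟩ with h | h
    · left; exact congrArg Subtype.val h
    · right; exact congrArg Subtype.val h
  · intro x hx hxc
    rcases hcen ⟨x, hx⟩ (fun b => Subtype.ext (hxc b.1 b.2)) with h | h
    · left; exact congrArg Subtype.val h
    · right; exact congrArg Subtype.val h
  · intro h
    exact hxy (Subtype.ext h)

theorem H16 {S : Type*} [Group S] [Finite S] (hr : Cfsg.SectionalPRankLE 2 2 S)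
    (B : Subgroup S) (hB8 : Nat.card B = 8) (z : S) (hzB : z ∈ B) (hz2 : z ^ 2 = 1)
    (hzc : ∀ b ∈ B, b * z = z * b)
    (hsq : ∀ b ∈ B, b ^ 2 ∈ zpowers z) (c : S) (hcB : c ∉ B)
    (hc2 : c ^ 2 ∈ zpowers z)
    (hcomm : ∀ b ∈ B, c * b * c⁻¹ * b⁻¹ ∈ zpowers z) : False := by
  have hNB : zpowers z ≤ B := zpowers_le.mpr hzB
  have hBN : ∀ b ∈ B, ∀ n ∈ zpowers z, b * n = n * b := by
    intro b hb n hn
    obtain ⟨k, rfl⟩ := mem_zpowers_iff.mp hn
    exact (Commute.zpow_right (hzc b hb) k).eq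
  have hconj : ∀ b ∈ B, c * b * c⁻¹ ∈ B := by
    intro b hb
    have := B.mul_mem (hNB (hcomm b hb)) hb
    simpa using this
  have hdich : ∀ a ∈ zpowers c, a ∈ zpowers z ∨ ∃ n ∈ zpowers z, a = c * n := by
    intro a ha
    obtain ⟨i, rfl⟩ := mem_zpowers_iff.mp ha
    rcases Int.even_or_odd' i with ⟨j, rfl | rfl⟩
    · left
      rw [zpow_mul, zpow_ofNat]
      exact zpow_mem hc2 j
    · right
      refine ⟨(c ^ 2) ^ j, zpow_mem hc2 j, ?_⟩
      rw [zpow_add, zpow_mul, zpow_ofNat, zpow_one]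
      exact ((Commute.refl c).pow_left 2).zpow_left j |>.eq
  have hn : ∀ a ∈ zpowers c, ∀ b ∈ B, a * b * a⁻¹ ∈ B := by
    intro a ha b hb
    rcases hdich a ha with h | ⟨n, hn, rfl⟩
    · exact B.mul_mem (B.mul_mem (hNB h) hb) (B.inv_mem (hNB h))
    · have := hconj (n * b * n⁻¹) (B.mul_mem (B.mul_mem (hNB hn) hb) (B.inv_mem (hNB hn)))
      have e : c * n * b * (c * n)⁻¹ = c * (n * b * n⁻¹) * c⁻¹ := by group
      rw [e]
      exact this
  have hH : ∀ h ∈ zpowers c ⊔ B, h ∈ B ∨ ∃ b ∈ B, h = c * b := by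
    intro h hh
    obtain ⟨a, ha, b, hb, rfl⟩ := exists_mul_of_mem_sup _ _ hn h hh
    rcases hdich a ha with h | ⟨n, hn, rfl⟩
    · left; exact B.mul_mem (hNB h) hb
    · right; exact ⟨n * b, B.mul_mem (hNB hn) hb, by group⟩
  have hsqH : ∀ h ∈ zpowers c ⊔ B, h ^ 2 ∈ zpowers z := by
    intro h hh
    rcases hH h hh with h | ⟨b, hb, rfl⟩
    · exact hsq _ h
    · have e : (c * b) ^ 2 = (c * b * c⁻¹ * b⁻¹) * (b * c ^ 2) * b := by
        simp only [pow_two]; group
      rw [e, hBN b hb _ hc2]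
      have e2 : c * b * c⁻¹ * b⁻¹ * (c ^ 2 * b) * b = (c * b * c⁻¹ * b⁻¹) * (c ^ 2 * b ^ 2) := by
        simp only [pow_two]; group
      rw [e2]
      exact mul_mem (hcomm b hb) (mul_mem hc2 (hsq b hb))
  have h1 := card_le_of_sq_mem hr (zpowers z) (zpowers c ⊔ B) (hNB.trans le_sup_right) hsqH
  have h2 : Nat.card (zpowers z) ≤ 2 := by
    rw [Nat.card_zpowers]
    exact orderOf_le_of_pow_eq_one (by norm_num) hz2
  have h3 := card_mul_relIndex_le (le_sup_right : B ≤ zpowers c ⊔ B)
  have h4 : B.relIndex (zpowers c ⊔ B) ≠ 1 := by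
    rw [Ne, Subgroup.relIndex_eq_one]
    intro h
    exact hcB (h (le_sup_left (b := B) (mem_zpowers c)))
  have h5 : B.relIndex (zpowers c ⊔ B) ≠ 0 := Subgroup.index_ne_zero_of_finite
  have h6 : 2 ≤ B.relIndex (zpowers c ⊔ B) := by omega
  rw [hB8] at h3
  nlinarith

theorem L48 {S : Type*} [Group S] [Finite S] (R X B : Subgroup S) (hR : Nat.card R = 4)
    (hB : Nat.card B = 8) (h1 : R ≤ X) (h2 : X ≤ B) : X = R ∨ X = B := by
  by_cases h : X ≤ R
  · left; exact le_antisymm h h1
  · right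
    apply Subgroup.eq_of_le_of_card_ge h2
    have e := card_mul_relIndex_le h1
    have e3 : R.relIndex X ≠ 1 := by rwa [Ne, Subgroup.relIndex_eq_one]
    have e4 : R.relIndex X ≠ 0 := Subgroup.index_ne_zero_of_finite
    rw [hB, ← e, hR]
    omega

theorem comm_subgroup {S : Type*} [Group S] (z c : S) (hzc : ∀ g : S, g * z * g⁻¹ = z) :
    ∃ K : Subgroup S, ∀ y, y ∈ K ↔ c * y * c⁻¹ * y⁻¹ ∈ zpowers z := by
  have hN : ∀ n ∈ zpowers z, ∀ g : S, g * n * g⁻¹ = n := by
    intro n hn g
    obtain ⟨k, rfl⟩ := mem_zpowers_iff.mp hn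
    rw [← conj_zpow, hzc]
  refine ⟨{ carrier := {y | c * y * c⁻¹ * y⁻¹ ∈ zpowers z}
            mul_mem' := ?_
            one_mem' := ?_
            inv_mem' := ?_ }, fun y => Iff.rfl⟩
  · intro y y' hy hy'
    simp only [Set.mem_ofPred_eq] at hy hy' ⊢
    have e : c * (y * y') * c⁻¹ * (y * y')⁻¹
        = (c * y * c⁻¹ * y⁻¹) * (y * (c * y' * c⁻¹ * y'⁻¹) * y⁻¹) := by group
    rw [e, hN _ hy']
    exact mul_mem hy hy'
  · simp
  · intro y hy
    simp only [Set.mem_ofPred_eq] at hy ⊢
    have e : c * y⁻¹ * c⁻¹ * y⁻¹⁻¹ = y⁻¹ * (c * y * c⁻¹ * y⁻¹)⁻¹ * y⁻¹⁻¹ := by group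
    rw [e, hN _ (inv_mem hy)]
    exact inv_mem hy

/-- Let S be a finite 2-group of sectional 2-rank at most 2 that contains a subgroup isomorphic to the dihedral group of order 8 or to the quaternion group of order 8. Then S is dihedral of order at least 8, semidihedral of order at least 16 (order 2^(k+4) with an element a of order 2^(k+3) and an involution b with b a b⁻¹ = a^(2^(k+2)−1)), or generalized quaternion of order at least 8. -/
theorem result {S : Type*} [Group S] [Finite S] (h2 : IsPGroup 2 S) (hr : Cfsg.SectionalPRankLE 2 2 S)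
    (hsub : ∃ H : Subgroup S, Nonempty (↥H ≃* DihedralGroup 4) ∨ Nonempty (↥H ≃* QuaternionGroup 2)) :
    ((∃ k : ℕ, Nonempty (S ≃* DihedralGroup (2 ^ (k + 2)))) ∨
      (∃ k : ℕ, Nat.card S = 2 ^ (k + 4) ∧ ∃ a b : S, orderOf a = 2 ^ (k + 3) ∧ orderOf b = 2 ∧ b * a * b⁻¹ = a ^ (2 ^ (k + 2) - 1)) ∨
      (∃ k : ℕ, Nonempty (S ≃* QuaternionGroup (2 ^ (k + 1))))) := by
  obtain ⟨B, hB⟩ := hsub
  obtain ⟨hB8, z, hzB, hz1, hz2, hzc, hsq, hcen, x₀, hx₀, y₀, hy₀, hxy₀⟩ := sub_props B hB
  have hsq' : ∀ b ∈ B, b ^ 2 ∈ zpowers z := by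
    intro b hb
    rcases hsq b hb with h | h
    · rw [h]; exact one_mem _
    · rw [h]; exact mem_zpowers z
  have step1 : ∀ c : S, (∀ b ∈ B, c * b = b * c) → c ∈ B := by
    intro c hc
    by_contra hcB
    obtain ⟨j, hj1, hj2⟩ := exists_pow_notMem_sq_mem h2 B c hcB
    have hc' : ∀ b ∈ B, c ^ (2 ^ j) * b = b * c ^ (2 ^ j) :=
      fun b hb => (Commute.pow_left (hc b hb) _).eq
    have h3 : (c ^ (2 ^ j)) ^ 2 ∈ zpowers z := by
      rcases hcen _ hj2 (fun b hb => (Commute.pow_left (hc' b hb) 2).eq.symm) with h | h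
      · rw [h]; exact one_mem _
      · rw [h]; exact mem_zpowers z
    refine H16 hr B hB8 z hzB hz2 hzc hsq' (c ^ (2 ^ j)) hj1 h3 (fun b hb => ?_)
    rw [hc' b hb]
    simp
  have hZ : ∀ c : S, (∀ g : S, g * c * g⁻¹ = c) → c = 1 ∨ c = z := by
    intro c hc
    have h1 : ∀ g : S, g * c = c * g := fun g => by
      have := hc g
      rwa [mul_inv_eq_iff_eq_mul] at this
    exact hcen c (step1 c (fun b _ => (h1 b).symm)) (fun b _ => h1 b)
  rcases normal_four_or_cyclic_index_le_two h2 with ⟨R, hRn, hR4, hRe⟩ | ⟨a₀, ha₀n, ha₀i, ha₀c⟩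
  · obtain ⟨z', u, hzS, -, hz'1, hu2, huz, hRdef, hRel, hconj⟩ := normal_four_structure h2 R hR4 hRe
    obtain rfl : z' = z := (hZ z' hzS).resolve_left hz'1
    have huR : u ∈ R := by
      rw [hRdef]; exact le_sup_left (b := zpowers z') (mem_zpowers u)
    have hzR : z' ∈ R := by
      rw [hRdef]; exact le_sup_right (a := zpowers u) (mem_zpowers z')
    have hzinv : z'⁻¹ = z' := by rw [inv_eq_iff_mul_eq_one, ← pow_two]; exact hz2
    have huinv : u⁻¹ = u := by rw [inv_eq_iff_mul_eq_one, ← pow_two]; exact hu2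
    have hzcomm : ∀ g : S, g * z' = z' * g := fun g => by
      have := hzS g
      rwa [mul_inv_eq_iff_eq_mul] at this
    have huB : u ∈ B := by
      by_contra huB
      refine H16 hr B hB8 z' hzB hz2 hzc hsq' u huB (by rw [hu2]; exact one_mem _) (fun b hb => ?_)
      have e : u * b * u⁻¹ * b⁻¹ = u * (b * u * b⁻¹)⁻¹ := by group
      rw [e]
      rcases hconj b with h | h
      · rw [h, mul_inv_cancel]; exact one_mem _
      · rw [h, mul_inv_rev, ← mul_assoc, hzinv, hzcomm u, mul_assoc, mul_inv_cancel, mul_one]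
        exact mem_zpowers z'
    have hRB : R ≤ B := by
      rw [hRdef]
      exact sup_le (zpowers_le.mpr huB) (zpowers_le.mpr hzB)
    by_cases hBtop : B = ⊤
    · rcases hB with ⟨⟨f⟩⟩ | ⟨⟨f⟩⟩
      · left
        exact ⟨0, ⟨(Subgroup.topEquiv.symm.trans (MulEquiv.subgroupCongr hBtop.symm)).trans f⟩⟩
      · right; right
        exact ⟨0, ⟨(Subgroup.topEquiv.symm.trans (MulEquiv.subgroupCongr hBtop.symm)).trans f⟩⟩
    · exfalso
      have hCi := index_centralizer_le_two z' u hzS hz2 hconj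
      have hCi0 : (centralizer ({u} : Set S)).index ≠ 0 := Subgroup.index_ne_zero_of_finite
      have hCn : (centralizer ({u} : Set S)).Normal := by
        rcases (by omega : (centralizer ({u} : Set S)).index = 1 ∨
          (centralizer ({u} : Set S)).index = 2) with h | h
        · rw [Subgroup.index_eq_one] at h
          rw [h]; infer_instance
        · exact Subgroup.normal_of_index_eq_two h
      have hS16 : 16 ≤ Nat.card S := by
        have h1 := B.card_mul_index
        have h3 : B.index ≠ 1 := by rwa [Ne, Subgroup.index_eq_one]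
        have h4 : B.index ≠ 0 := Subgroup.index_ne_zero_of_finite
        rw [hB8] at h1
        omega
      have hC8 : 8 ≤ Nat.card (centralizer ({u} : Set S)) := by
        have h1 := (centralizer ({u} : Set S)).card_mul_index
        nlinarith
      have hRC : ∀ v ∈ R, ∀ c ∈ centralizer ({u} : Set S), c * v = v * c := by
        intro v hv c hc
        rw [mem_centralizer_singleton_iff] at hc
        rcases hRel v hv with rfl | rfl | rfl | rfl
        · simp
        · exact hzcomm c
        · exact hc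
        · rw [← mul_assoc, hc, mul_assoc, hzcomm c, mul_assoc]
      have hRleC : R ≤ centralizer ({u} : Set S) := by
        intro v hv
        rw [mem_centralizer_singleton_iff]
        rcases hRel v hv with rfl | rfl | rfl | rfl
        · simp
        · exact (hzcomm u).symm
        · rfl
        · rw [mul_assoc, ← hzcomm u]
      have hne : (centralizer ({u} : Set S)).map (QuotientGroup.mk' R) ≠ ⊥ := by
        intro h
        rw [Subgroup.map_eq_bot_iff, QuotientGroup.ker_mk'] at h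
        have := Subgroup.card_le_of_le h
        omega
      have hn' : ((centralizer ({u} : Set S)).map (QuotientGroup.mk' R)).Normal :=
        Subgroup.Normal.map hCn _ (QuotientGroup.mk'_surjective R)
      obtain ⟨cb, hcbC, hcbZ, hcb2⟩ := Helper76FourGroup.exists_central_involution
        (h2.to_quotient R) ((centralizer ({u} : Set S)).map (QuotientGroup.mk' R)) hne
      obtain ⟨c, hcC, rfl⟩ := hcbC
      have hcR : c ∉ R := by
        intro h
        have : QuotientGroup.mk' R c = 1 := by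
          rw [QuotientGroup.mk'_apply, QuotientGroup.eq_one_iff]; exact h
        rw [this, orderOf_one] at hcb2
        norm_num at hcb2
      have hc2R : c ^ 2 ∈ R := by
        have := pow_orderOf_eq_one (QuotientGroup.mk' R c)
        rw [hcb2, ← map_pow, QuotientGroup.mk'_apply, QuotientGroup.eq_one_iff] at this
        exact this
      have hcomR : ∀ s : S, s * c * s⁻¹ * c⁻¹ ∈ R := by
        intro s
        have := Subgroup.mem_center_iff.mp hcbZ (QuotientGroup.mk' R s)
        rw [← QuotientGroup.eq_one_iff, ← QuotientGroup.mk'_apply, map_mul, map_mul, map_mul, this,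
          map_inv, map_inv]
        group
      obtain ⟨b, hbB, hbu⟩ : ∃ b ∈ B, b * u * b⁻¹ = u * z' := by
        by_contra h
        push Not at h
        have h1 : ∀ b ∈ B, b * u = u * b := by
          intro b hb
          have := (hconj b).resolve_right (h b hb)
          rwa [mul_inv_eq_iff_eq_mul] at this
        rcases hcen u huB h1 with h | h
        · exact huz (h ▸ one_mem _)
        · exact huz (h ▸ mem_zpowers z')
      have hRfix : ∀ v ∈ R, b * v * b⁻¹ = v → v = 1 ∨ v = z' := by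
        intro v hv hbv
        rcases hRel v hv with rfl | rfl | rfl | rfl
        · left; rfl
        · right; rfl
        · exfalso
          rw [hbu] at hbv
          exact hz1 (by simpa using hbv)
        · exfalso
          have e : b * (u * z') * b⁻¹ = (b * u * b⁻¹) * (b * z' * b⁻¹) := by group
          rw [e, hbu, hzS, mul_assoc, ← pow_two, hz2, mul_one] at hbv
          exact hz1 (by simpa using hbv.symm)
      have hb2c : ∀ g : S, b ^ 2 * g = g * b ^ 2 := by
        intro g
        rcases hsq b hbB with h | h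
        · rw [h]; simp
        · rw [h]; exact (hzcomm g).symm
      have hwR := hcomR b
      have hwinv : (b * c * b⁻¹ * c⁻¹)⁻¹ = b * c * b⁻¹ * c⁻¹ := by
        rw [inv_eq_iff_mul_eq_one, ← pow_two]; exact hRe _ hwR
      have hw : b * (b * c * b⁻¹ * c⁻¹) * b⁻¹ = b * c * b⁻¹ * c⁻¹ := by
        have e1 : b * (b * c * b⁻¹ * c⁻¹) * b⁻¹ = (b ^ 2 * c) * (b ^ 2)⁻¹ * (b * c⁻¹ * b⁻¹) := by
          simp only [pow_two]; group
        rw [e1, hb2c c, ← hwinv]
        group
      have hwz : b * c * b⁻¹ * c⁻¹ ∈ zpowers z' := by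
        rcases hRfix _ hwR hw with h | h
        · rw [h]; exact one_mem _
        · rw [h]; exact mem_zpowers z'
      have hNc : ∀ n ∈ zpowers z', ∀ g : S, g * n = n * g := by
        intro n hn g
        obtain ⟨k, rfl⟩ := mem_zpowers_iff.mp hn
        exact (Commute.zpow_right (hzcomm g) k).eq
      have hc2z : c ^ 2 ∈ zpowers z' := by
        have e1 : b * c ^ 2 * b⁻¹ = c ^ 2 := by
          have e2 : b * c * b⁻¹ = (b * c * b⁻¹ * c⁻¹) * c := by group
          have hcm : Commute (b * c * b⁻¹ * c⁻¹) c := (hNc _ hwz c).symm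
          rw [← conj_pow, e2, hcm.mul_pow, hRe _ hwR, one_mul]
        rcases hRfix _ hc2R e1 with h | h
        · rw [h]; exact one_mem _
        · rw [h]; exact mem_zpowers z'
      have hbC : b ∉ centralizer ({u} : Set S) := by
        intro h
        rw [mem_centralizer_singleton_iff, ← mul_inv_eq_iff_eq_mul, hbu] at h
        exact hz1 (by simpa using h)
      have hcB : c ∉ B := by
        intro hcB
        rcases L48 R (centralizer ({u} : Set S) ⊓ B) B hR4 hB8 (le_inf hRleC hRB) inf_le_right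
          with h | h
        · exact hcR (h ▸ (⟨hcC, hcB⟩ : c ∈ centralizer ({u} : Set S) ⊓ B))
        · have : b ∈ centralizer ({u} : Set S) ⊓ B := by rw [h]; exact hbB
          exact hbC this.1
      obtain ⟨K, hK⟩ := comm_subgroup z' c hzS
      have hRK : R ≤ K := by
        intro v hv
        rw [hK, hRC v hv c hcC]
        simp
      have hbK : b ∈ K := by
        rw [hK]
        have e : c * b * c⁻¹ * b⁻¹ = (b * c * b⁻¹ * c⁻¹)⁻¹ := by group
        rw [e]
        exact inv_mem hwz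
      have hBK : B ≤ K := by
        rcases L48 R (K ⊓ B) B hR4 hB8 (le_inf hRK hRB) inf_le_right with h | h
        · exact absurd (hRleC (h ▸ (⟨hbK, hbB⟩ : b ∈ K ⊓ B))) hbC
        · rw [← h]; exact inf_le_left
      exact H16 hr B hB8 z' hzB hz2 hzc hsq' c hcB hc2z (fun b' hb' => (hK b').mp (hBK hb'))
  · have hna : ∃ x y : S, x * y ≠ y * x := ⟨x₀, y₀, hxy₀⟩
    have hCi : (zpowers a₀).index = 2 := by
      have h0 : (zpowers a₀).index ≠ 0 := Subgroup.index_ne_zero_of_finite
      have h1 : (zpowers a₀).index ≠ 1 := by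
        rw [Ne, Subgroup.index_eq_one]
        intro h
        apply hxy₀
        have hx : x₀ ∈ zpowers a₀ := h ▸ mem_top x₀
        have hy : y₀ ∈ zpowers a₀ := h ▸ mem_top y₀
        obtain ⟨i, rfl⟩ := mem_zpowers_iff.mp hx
        obtain ⟨j, rfl⟩ := mem_zpowers_iff.mp hy
        rw [← zpow_add, add_comm, zpow_add]
      omega
    obtain ⟨m, hm⟩ := IsPGroup.iff_card.mp h2
    have hm3 : 3 ≤ m := by
      have h8 : 2 ^ 3 ∣ Nat.card S := by
        have := B.card_subgroup_dvd_card
        rw [hB8] at this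
        exact this
      rw [hm] at h8
      exact (Nat.pow_dvd_pow_iff_le_right (by norm_num : 1 < 2)).mp h8
    obtain ⟨n, rfl⟩ : ∃ n, m = n + 3 := ⟨m - 3, by omega⟩
    obtain ⟨a, b, ha, hb, hcases⟩ := Cfsg.Agent.S0646.result (n + 3) (by omega) hm (zpowers a₀)
      inferInstance hCi hna
    have e1 : n + 3 - 1 = n + 2 := by omega
    have e2 : n + 3 - 2 = n + 1 := by omega
    rw [e1] at ha
    rw [e2] at hcases
    have hAi : (Subgroup.zpowers a).index = 2 := by
      have h1 := (Subgroup.zpowers a).card_mul_index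
      rw [Nat.card_zpowers, ha, hm, pow_succ 2 (n + 2)] at h1
      exact Nat.eq_of_mul_eq_mul_left (by positivity) h1
    have htop : ∀ K : Subgroup S, a ∈ K → b ∈ K → K = ⊤ := by
      intro K haK hbK
      rw [Subgroup.eq_top_iff']
      intro x
      by_cases hx : x ∈ Subgroup.zpowers a
      · exact (Subgroup.zpowers_le.mpr haK) hx
      · have h1 : x * b ∈ Subgroup.zpowers a := by
          rw [Subgroup.mul_mem_iff_of_index_two hAi]
          exact iff_of_false hx hb
        have := K.mul_mem ((Subgroup.zpowers_le.mpr haK) h1) (K.inv_mem hbK)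
        simpa using this
    have hb1 : b ≠ 1 := by
      rintro rfl
      exact hb (one_mem _)
    rcases hcases with ⟨hb2, hc⟩ | ⟨hb2, hc⟩ | ⟨hn4, hb2, hc⟩ | ⟨hn4, hb2, hc⟩
    · left
      refine ⟨n, ?_⟩
      have ob : orderOf b = 2 := orderOf_eq_prime hb2 hb1
      have hy2 : (b * a) ^ 2 = 1 := by
        have : (b * a) ^ 2 = (b * a * b⁻¹) * b ^ 2 * a := by rw [pow_two, pow_two]; group
        rw [this, hc, hb2]; group
      have hy1 : b * a ≠ 1 := by
        intro h
        apply hb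
        rw [mul_eq_one_iff_eq_inv] at h
        rw [h]
        exact (Subgroup.zpowers a).inv_mem (Subgroup.mem_zpowers a)
      have oy : orderOf (b * a) = 2 := orderOf_eq_prime hy2 hy1
      have hxy : b ≠ b * a := by
        intro h
        have : a = 1 := by simpa using h.symm
        rw [this, orderOf_one] at ha
        have : 2 ^ 2 ≤ 2 ^ (n + 2) := Nat.pow_le_pow_right (by norm_num) (by omega)
        omega
      have hiso := Cfsg.Agent.S0206.result b (b * a) ob oy hxy
      have e3 : b * (b * a) = a := by rw [← mul_assoc, ← pow_two, hb2, one_mul]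
      rw [e3, ha] at hiso
      obtain ⟨f⟩ := hiso
      have hcl : Subgroup.closure ({b, b * a} : Set S) = ⊤ := by
        apply htop
        · have h1 : b ∈ Subgroup.closure ({b, b * a} : Set S) := Subgroup.subset_closure (by simp)
          have h2 : b * a ∈ Subgroup.closure ({b, b * a} : Set S) :=
            Subgroup.subset_closure (by simp)
          have := mul_mem (inv_mem h1) h2
          simpa using this
        · exact Subgroup.subset_closure (by simp)
      exact ⟨(Subgroup.topEquiv.symm.trans (MulEquiv.subgroupCongr hcl.symm)).trans f⟩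
    · right; right
      refine ⟨n, ?_⟩
      have hq := Helper25Quat.nonempty_equiv (n := 2 ^ (n + 1)) (A := a) (B := b)
        (by rw [ha]; ring) (by rw [← pow_two]; exact hb2) hc hb ⊤
        (by rw [Nat.card_congr Subgroup.topEquiv.toEquiv, hm]; ring) (Subgroup.mem_top _)
        (Subgroup.mem_top _)
      obtain ⟨f⟩ := hq
      exact ⟨Subgroup.topEquiv.symm.trans f⟩
    · exfalso
      have ha2 : ∀ g : S, g * a ^ 2 * g⁻¹ = a ^ 2 := by
        have t1 : Subgroup.centralizer {a ^ 2} = ⊤ := by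
          apply htop
          · rw [Subgroup.mem_centralizer_singleton_iff, ← pow_succ, ← pow_succ']
          · rw [Subgroup.mem_centralizer_singleton_iff, ← mul_inv_eq_iff_eq_mul, ← conj_pow, hc,
              ← pow_mul]
            have : (1 + 2 ^ (n + 1)) * 2 = 2 + 2 ^ (n + 2) := by ring
            rw [this, pow_add, ← ha, pow_orderOf_eq_one, mul_one]
        intro g
        have : g ∈ Subgroup.centralizer {a ^ 2} := t1 ▸ Subgroup.mem_top g
        rw [mul_inv_eq_iff_eq_mul]
        exact Subgroup.mem_centralizer_singleton_iff.mp this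
      have h4 : (a ^ 2) ^ 2 = 1 := by
        rcases hZ _ ha2 with h | h
        · rw [h, one_pow]
        · rw [h, hz2]
      rw [← pow_mul, ← orderOf_dvd_iff_pow_eq_one, ha] at h4
      have h5 := Nat.le_of_dvd (by norm_num) h4
      have : 2 ^ 3 ≤ 2 ^ (n + 2) := Nat.pow_le_pow_right (by norm_num) (by omega)
      omega
    · right; left
      obtain ⟨k, rfl⟩ : ∃ k, n = k + 1 := ⟨n - 1, by omega⟩
      exact ⟨k, hm, a, b, ha, orderOf_eq_prime hb2 hb1, hc⟩

end Cfsg.Agent.S4398
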