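import Cfsg.Statements.S4401
import Cfsg.Agent.Lib.Helper76SecRank
import Cfsg.Agent.S4400

set_option autoImplicit false
open Cfsg

namespace Cfsg.Agent.S4401

open Subgroup Cfsg.Agent.Lib Cfsg.Agent.Lib.Helper76FourGroup Cfsg.Agent.Lib.Helper76SecRank
open scoped commutatorElement

theorem not_comm_of_equiv {X Y : Type*} [Group X] [Group Y] (e : X ≃* Y)
    (h : ¬ IsMulCommutative X) : ¬ IsMulCommutative Y := by
  intro hY
  apply h
  rw [isMulCommutative_iff] at hY ⊢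
  intro a b
  apply e.injective
  rw [map_mul, map_mul, hY]

/-- the statement S4400 relative to a subgroup `S₀` normalizing `P` and `Q` -/
theorem rel4400 {S : Type*} [Group S] [Finite S] (h2 : IsPGroup 2 S)
    (hr : Cfsg.SectionalPRankLE 2 4 S) (S₀ P Q : Subgroup S) (hP₀ : P ≤ S₀) (hQ₀ : Q ≤ S₀)
    (hPn : ∀ s ∈ S₀, ∀ x ∈ P, s * x * s⁻¹ ∈ P) (hQn : ∀ s ∈ S₀, ∀ x ∈ Q, s * x * s⁻¹ ∈ Q)
    (hP : ¬ IsMulCommutative ↥P) (hQ : ¬ IsMulCommutative ↥Q)
    (hZP : Nat.card ↥(Subgroup.center ↥P) = 2) (hZQ : Nat.card ↥(Subgroup.center ↥Q) = 2)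
    (hne : ∃ z, (z ∈ P ∧ ∀ x ∈ P, x * z = z * x) ∧ ¬ (z ∈ Q ∧ ∀ x ∈ Q, x * z = z * x)) :
    (∀ p ∈ P, ∀ q ∈ Q, p * q = q * p) ∧ P ⊓ Q = ⊥ ∧
      ∀ c ∈ S₀, (∀ p ∈ P, p * c = c * p) → (∀ q ∈ Q, q * c = c * q) → c ∈ P ⊔ Q := by
  have nP : (P.subgroupOf S₀).Normal := by
    constructor
    rintro ⟨n, hn₀⟩ hn ⟨g, hg⟩
    rw [Subgroup.mem_subgroupOf] at hn ⊢
    exact hPn g hg n hn
  have nQ : (Q.subgroupOf S₀).Normal := by
    constructor
    rintro ⟨n, hn₀⟩ hn ⟨g, hg⟩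
    rw [Subgroup.mem_subgroupOf] at hn ⊢
    exact hQn g hg n hn
  have eP := Subgroup.subgroupOfEquivOfLe hP₀
  have eQ := Subgroup.subgroupOfEquivOfLe hQ₀
  obtain ⟨h1, h3, h4⟩ := Cfsg.Agent.S4400.result (h2.to_subgroup S₀) (sectional_subgroup 4 hr S₀)
    (P.subgroupOf S₀) (Q.subgroupOf S₀) (not_comm_of_equiv eP.symm hP)
    (not_comm_of_equiv eQ.symm hQ)
    (by rw [Nat.card_congr (Subgroup.centerCongr eP).toEquiv, hZP])
    (by rw [Nat.card_congr (Subgroup.centerCongr eQ).toEquiv, hZQ])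
    (by
      obtain ⟨z, ⟨hzP, hzc⟩, hzQ⟩ := hne
      intro h
      apply hzQ
      have hm : (⟨z, hP₀ hzP⟩ : ↥S₀) ∈
          (Subgroup.center ↥(P.subgroupOf S₀)).map (P.subgroupOf S₀).subtype := by
        rw [Cfsg.Agent.S4400.mem_center_map]
        refine ⟨hzP, ?_⟩
        rintro ⟨x, hx₀⟩ hx
        exact Subtype.ext (hzc x hx)
      rw [h, Cfsg.Agent.S4400.mem_center_map] at hm
      refine ⟨hm.1, fun x hx => ?_⟩
      exact congrArg Subtype.val (hm.2 ⟨x, hQ₀ hx⟩ hx))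
  have hpq : ∀ p ∈ P, ∀ q ∈ Q, p * q = q * p := by
    intro p hp q hq
    have h5 := Subgroup.commutator_eq_bot_iff_le_centralizer.mp h1
    have h6 : (⟨p, hP₀ hp⟩ : ↥S₀) ∈ Subgroup.centralizer ((Q.subgroupOf S₀ : Subgroup ↥S₀) : Set ↥S₀) :=
      h5 hp
    have h7 := Subgroup.mem_centralizer_iff.mp h6 ⟨q, hQ₀ hq⟩ hq
    exact (congrArg Subtype.val h7).symm
  refine ⟨hpq, ?_, ?_⟩
  · rw [eq_bot_iff]
    rintro v ⟨hvP, hvQ⟩
    have : (⟨v, hP₀ hvP⟩ : ↥S₀) ∈ P.subgroupOf S₀ ⊓ Q.subgroupOf S₀ := ⟨hvP, hvQ⟩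
    rw [h3, Subgroup.mem_bot] at this
    rw [Subgroup.mem_bot]
    exact congrArg Subtype.val this
  · intro c hc hcP hcQ
    have hm : (⟨c, hc⟩ : ↥S₀) ∈ Subgroup.centralizer
        ((P.subgroupOf S₀ ⊔ Q.subgroupOf S₀ : Subgroup ↥S₀) : Set ↥S₀) := by
      have hle : P.subgroupOf S₀ ⊔ Q.subgroupOf S₀ ≤ Subgroup.centralizer {(⟨c, hc⟩ : ↥S₀)} := by
        refine sup_le ?_ ?_
        · rintro ⟨p, hp₀⟩ hp
          rw [Subgroup.mem_centralizer_singleton_iff]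
          exact Subtype.ext (hcP p hp)
        · rintro ⟨q, hq₀⟩ hq
          rw [Subgroup.mem_centralizer_singleton_iff]
          exact Subtype.ext (hcQ q hq)
      rw [Subgroup.mem_centralizer_iff]
      intro h hh
      exact Subgroup.mem_centralizer_singleton_iff.mp (hle hh)
    have h5 := h4 hm
    rw [← Subgroup.subgroupOf_sup hP₀ hQ₀, Subgroup.mem_subgroupOf] at h5
    exact h5

theorem comm_id {S : Type*} [Group S] (a b : S) :
    a * b * a⁻¹ * b⁻¹ = a ^ 2 * (a⁻¹ * b) ^ 2 * (b⁻¹) ^ 2 := by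
  simp only [pow_two]; group

theorem index_two {S : Type*} [Group S] [Finite S] (h2 : IsPGroup 2 S) (S₀ P Q : Subgroup S)
    (z x : S) (hS₀ : ∀ s, s ∈ S₀ ↔ s * z = z * s) (hz1 : z ≠ 1) (hz2 : z * z = 1)
    (hx : x ∉ S₀) (hx2 : x ^ 2 ∈ S₀) (hxn : x ∈ Subgroup.normalizer (S₀ : Set S))
    (hP₀ : P ≤ S₀) (hQ₀ : Q ≤ S₀)
    (hPn : ∀ s ∈ S₀, ∀ x ∈ P, s * x * s⁻¹ ∈ P) (hQn : ∀ s ∈ S₀, ∀ x ∈ Q, s * x * s⁻¹ ∈ Q)
    (hzP : z ∈ P) (hzPP : z ∈ ⁅P, P⁆) (hz'Q : x * z * x⁻¹ ∈ Q) (hPQ : P ⊓ Q = ⊥)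
    (hU : ∀ c ∈ S₀, (∀ p ∈ P, p * c = c * p) → (∀ q ∈ Q, q * c = c * q) →
      c = 1 ∨ c = z ∨ c = x * z * x⁻¹ ∨ c = z * (x * z * x⁻¹)) :
    S₀.index = 2 := by
  have hp : Fact (Nat.Prime 2) := ⟨Nat.prime_two⟩
  obtain ⟨z', hz'⟩ : ∃ z', z' = x * z * x⁻¹ := ⟨_, rfl⟩
  rw [← hz'] at hU hz'Q
  have hzS₀ : z ∈ S₀ := (hS₀ z).mpr rfl
  have hz'S₀ : z' ∈ S₀ := by rw [hz']; exact (Subgroup.mem_normalizer_iff.mp hxn z).mp hzS₀
  have hzz' : z' * z = z * z' := (hS₀ z').mp hz'S₀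
  have hz'ne : z' ≠ z := by
    intro h
    apply hx
    rw [hS₀]
    nth_rewrite 2 [← h]
    rw [hz']; group
  have hz'1 : z' ≠ 1 := by
    intro h
    apply hz1
    rw [hz'] at h
    have : z = x⁻¹ * (x * z * x⁻¹) * x := by group
    rw [this, h]; group
  have hz'2 : z' * z' = 1 := by
    rw [hz']
    have : x * z * x⁻¹ * (x * z * x⁻¹) = x * (z * z) * x⁻¹ := by group
    rw [this, hz2]; group
  have hxz' : x * z' * x⁻¹ = z := by
    have h := (hS₀ _).mp hx2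
    rw [hz']
    have : x * (x * z * x⁻¹) * x⁻¹ = (x ^ 2 * z) * (x ^ 2)⁻¹ := by simp only [pow_two]; group
    rw [this, h]; group
  have hzQ : z ∉ Q := by
    intro h
    have : z ∈ P ⊓ Q := ⟨hzP, h⟩
    rw [hPQ, Subgroup.mem_bot] at this
    exact hz1 this
  have hz'P : z' ∉ P := by
    intro h
    have : z' ∈ P ⊓ Q := ⟨h, hz'Q⟩
    rw [hPQ, Subgroup.mem_bot] at this
    exact hz'1 this
  -- `z z'` is central
  have hcen : ∀ g : S, g * (z * z') = (z * z') * g := by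
    obtain ⟨c, -, hc1, hcc⟩ := Helper79PGroup.exists_ne_one_mem_center_of_normal h2 (⊤ : Subgroup S)
      (by
        intro h
        apply hz1
        have : z ∈ (⊤ : Subgroup S) := Subgroup.mem_top z
        rw [h, Subgroup.mem_bot] at this
        exact this)
    rw [Subgroup.mem_center_iff] at hcc
    rcases hU c ((hS₀ c).mpr (hcc z).symm) (fun p _ => hcc p) (fun q _ => hcc q) with h | h | h | h
    · exact absurd h hc1
    · exfalso
      apply hz'ne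
      rw [hz', ← h, hcc x]; group
    · exfalso
      apply hz'ne
      rw [← hxz', ← h, hcc x]; group
    · intro g
      rw [← h]; exact hcc g
  have hconj1 : ∀ t : S, t * z * t⁻¹ ≠ 1 := by
    intro t h
    apply hz1
    have : z = t⁻¹ * (t * z * t⁻¹) * t := by group
    rw [this, h]; group
  have hconj2 : ∀ t : S, t * z * t⁻¹ ≠ z * z' := by
    intro t h
    apply hz'1
    have e : z = t⁻¹ * (t * z * t⁻¹) * t := by group
    rw [h, mul_assoc, ← hcen t] at e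
    have e2 : z = z * z' := by rw [← mul_assoc, inv_mul_cancel, one_mul] at e; exact e
    exact (mul_eq_left.mp e2.symm)
  set T := Subgroup.normalizer (S₀ : Set S) with hT
  have hS₀T : S₀ ≤ T := Subgroup.le_normalizer
  -- (a)
  have ha : ∀ t ∈ T, t * z * t⁻¹ = z ∨ t * z * t⁻¹ = z' := by
    intro t ht
    have hw₀ : t * z * t⁻¹ ∈ S₀ := (Subgroup.mem_normalizer_iff.mp ht z).mp hzS₀
    have hwc : ∀ s ∈ S₀, s * (t * z * t⁻¹) = (t * z * t⁻¹) * s := by
      intro s hs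
      have h1 : t⁻¹ * s * t⁻¹⁻¹ ∈ S₀ := (Subgroup.mem_normalizer_iff.mp (T.inv_mem ht) s).mp hs
      have h3 := (hS₀ _).mp h1
      have e1 : s * (t * z * t⁻¹) = t * ((t⁻¹ * s * t⁻¹⁻¹) * z) * t⁻¹ := by group
      rw [e1, h3]; group
    rcases hU _ hw₀ (fun p hp => hwc p (hP₀ hp)) (fun q hq => hwc q (hQ₀ hq)) with h | h | h | h
    · exact absurd h (hconj1 t)
    · exact Or.inl h
    · exact Or.inr h
    · exact absurd h (hconj2 t)
  have hz'eq : z' = z * (z * z') := by rw [← mul_assoc, hz2, one_mul]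
  have hzeq : z = z' * (z * z') := by rw [← mul_assoc, hzz', mul_assoc, hz'2, mul_one]
  have hconj' : ∀ t : S, t * z' * t⁻¹ = (t * z * t⁻¹) * (z * z') := by
    intro t
    rw [mul_assoc (t * z) t⁻¹, hcen t⁻¹]
    nth_rewrite 1 [hz'eq]
    simp only [mul_assoc]
  -- (b)
  have hb : ∀ t ∈ T, t ^ 2 ∈ S₀ := by
    intro t ht
    rcases ha t ht with h | h
    · have : t ∈ S₀ := by
        rw [hS₀]
        nth_rewrite 2 [← h]
        group
      exact S₀.pow_mem this 2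
    · rw [hS₀]
      have h3 : t * z' * t⁻¹ = z := by rw [hconj', h, ← hzeq]
      nth_rewrite 2 [← h3]
      rw [← h, pow_two]; group
  have hcT : ∀ a ∈ T, ∀ b ∈ T, a * b * a⁻¹ * b⁻¹ ∈ S₀ := by
    intro a ha' b hb'
    rw [comm_id]
    exact S₀.mul_mem (S₀.mul_mem (hb a ha') (hb _ (T.mul_mem (T.inv_mem ha') hb')))
      (hb _ (T.inv_mem hb'))
  -- (d)
  have hd : ∀ y ∈ Subgroup.normalizer (T : Set S), y ∈ T := by
    intro y hy
    have hyT : ∀ t ∈ T, y * t * y⁻¹ ∈ T := fun t ht => (Subgroup.mem_normalizer_iff.mp hy t).mp ht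
    have hyT' : ∀ t ∈ T, y⁻¹ * t * y ∈ T := fun t ht => (Subgroup.mem_normalizer_iff''.mp hy t).mp ht
    have hw₀ : y * z * y⁻¹ ∈ S₀ := by
      have hle : ⁅P, P⁆ ≤ S₀.comap (MulAut.conj y).toMonoidHom := by
        rw [Subgroup.commutator_le]
        intro a ha' b hb'
        rw [Subgroup.mem_comap]
        have e : (MulAut.conj y).toMonoidHom ⁅a, b⁆ =
            (y * a * y⁻¹) * (y * b * y⁻¹) * (y * a * y⁻¹)⁻¹ * (y * b * y⁻¹)⁻¹ := by
          simp only [MulEquiv.coe_toMonoidHom, MulAut.conj_apply, commutatorElement_def]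
          group
        rw [e]
        exact hcT _ (hyT a (hS₀T (hP₀ ha'))) _ (hyT b (hS₀T (hP₀ hb')))
      have := hle hzPP
      rw [Subgroup.mem_comap] at this
      simpa using this
    have hw₀' : (y * z * y⁻¹)⁻¹ ∈ S₀ := S₀.inv_mem hw₀
    have hsw : ∀ s ∈ T, s * (y * z * y⁻¹) * s⁻¹ = y * z * y⁻¹ ∨
        s * (y * z * y⁻¹) * s⁻¹ = (y * z * y⁻¹) * (z * z') := by
      intro s hs
      have e : s * (y * z * y⁻¹) * s⁻¹ = y * ((y⁻¹ * s * y) * z * (y⁻¹ * s * y)⁻¹) * y⁻¹ := by group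
      rcases ha _ (hyT' s hs) with h | h
      · left; rw [e, h]
      · right; rw [e, h, hconj']
    have hwP : ∀ p ∈ P, p * (y * z * y⁻¹) = (y * z * y⁻¹) * p := by
      intro p hp'
      rcases hsw p (hS₀T (hP₀ hp')) with h | h
      · exact mul_inv_eq_iff_eq_mul.mp h
      · exfalso
        have h3 : (y * z * y⁻¹)⁻¹ * p * (y * z * y⁻¹)⁻¹⁻¹ * p⁻¹ = z * z' := by
          have : (y * z * y⁻¹)⁻¹ * p * (y * z * y⁻¹)⁻¹⁻¹ * p⁻¹ =
              (y * z * y⁻¹)⁻¹ * (p * (y * z * y⁻¹) * p⁻¹) := by group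
          rw [this, h]; group
        have h4 : z * z' ∈ P := by
          rw [← h3]
          exact P.mul_mem (hPn _ hw₀' p hp') (P.inv_mem hp')
        exact hz'P ((Subgroup.mul_mem_cancel_left P hzP).mp h4)
    have hwQ : ∀ p ∈ Q, p * (y * z * y⁻¹) = (y * z * y⁻¹) * p := by
      intro p hp'
      rcases hsw p (hS₀T (hQ₀ hp')) with h | h
      · exact mul_inv_eq_iff_eq_mul.mp h
      · exfalso
        have h3 : (y * z * y⁻¹)⁻¹ * p * (y * z * y⁻¹)⁻¹⁻¹ * p⁻¹ = z * z' := by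
          have : (y * z * y⁻¹)⁻¹ * p * (y * z * y⁻¹)⁻¹⁻¹ * p⁻¹ =
              (y * z * y⁻¹)⁻¹ * (p * (y * z * y⁻¹) * p⁻¹) := by group
          rw [this, h]; group
        have h4 : z * z' ∈ Q := by
          rw [← h3]
          exact Q.mul_mem (hQn _ hw₀' p hp') (Q.inv_mem hp')
        exact hzQ ((Subgroup.mul_mem_cancel_right Q hz'Q).mp h4)
    rcases hU _ hw₀ hwP hwQ with h | h | h | h
    · exact absurd h (hconj1 y)
    · apply hS₀T
      rw [hS₀]
      nth_rewrite 2 [← h]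
      group
    · have h5 : x⁻¹ * y ∈ S₀ := by
        rw [hS₀]
        have e : z = x⁻¹ * z' * x := by rw [hz']; group
        nth_rewrite 2 [e]
        rw [← h]; group
      have : y = x * (x⁻¹ * y) := by group
      rw [this]
      exact T.mul_mem hxn (hS₀T h5)
    · exact absurd h (hconj2 y)
  have hTtop : T = ⊤ := by
    have hnil : Group.IsNilpotent S := h2.isNilpotent
    apply (normalizerCondition_iff_only_full_group_self_normalizing.mp
      Group.normalizerCondition_of_isNilpotent) T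
    exact le_antisymm hd Subgroup.le_normalizer
  rw [Subgroup.index_eq_two_iff]
  refine ⟨x, fun b => ?_⟩
  have hbT : b ∈ T := by rw [hTtop]; exact Subgroup.mem_top b
  rcases ha b hbT with h | h
  · have hb₀ : b ∈ S₀ := by
      rw [hS₀]
      nth_rewrite 2 [← h]
      group
    right
    refine ⟨hb₀, fun h' => hx ((Subgroup.mul_mem_cancel_left S₀ hb₀).mp h')⟩
  · left
    constructor
    · rw [hS₀]
      have h3 : b * z' * b⁻¹ = z := by rw [hconj', h, ← hzeq]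
      nth_rewrite 2 [← h3]
      rw [hz']; group
    · intro hb₀
      apply hz'ne
      rw [← h, (hS₀ b).mp hb₀]; group

theorem rank_two {S : Type*} [Group S] [Finite S] (hr : Cfsg.SectionalPRankLE 2 4 S)
    (P : Subgroup S) (x : S)
    (hc : ∀ p ∈ P, ∀ q ∈ P, p * (x * q * x⁻¹) = (x * q * x⁻¹) * p)
    (hd : ∀ p ∈ P, ∀ q ∈ P, p = x * q * x⁻¹ → p = 1) :
    Cfsg.SectionalPRankLE 2 2 ↥P := by
  apply sectional_of_card_le 2
  intro N H hNH hsq
  set f : S →* S := (MulAut.conj x).toMonoidHom with hf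
  have hfi : Function.Injective f := (MulAut.conj x).injective
  have hfa : ∀ s, f s = x * s * x⁻¹ := fun s => by simp [hf]
  have key : ∀ K : Subgroup ↥P, Nat.card ↥(K.map P.subtype ⊔ (K.map P.subtype).map f) =
      Nat.card K * Nat.card K := by
    intro K
    rw [Helper76FourGroup.card_sup_of_commute, Subgroup.card_map_of_injective hfi,
      Subgroup.card_map_of_injective P.subtype_injective]
    · rintro _ ⟨a, -, rfl⟩
      rw [Subgroup.mem_centralizer_iff]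
      rintro _ ⟨_, ⟨b, -, rfl⟩, rfl⟩
      rw [hfa]
      exact (hc _ a.2 _ b.2).symm
    · rw [eq_bot_iff]
      rintro v ⟨⟨a, -, rfl⟩, ⟨_, ⟨b, -, rfl⟩, hb⟩⟩
      rw [hfa] at hb
      rw [Subgroup.mem_bot]
      exact hd _ a.2 _ b.2 hb.symm
  have h1 := card_le_of_sq_mem 4 hr (N.map P.subtype ⊔ (N.map P.subtype).map f)
    (H.map P.subtype ⊔ (H.map P.subtype).map f)
    (sup_le_sup (Subgroup.map_mono hNH) (Subgroup.map_mono (Subgroup.map_mono hNH))) (by
      intro v hv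
      obtain ⟨a, ha, b, hb, rfl⟩ := exists_mul_of_mem_sup _ _ (by
        rintro _ ⟨a, -, rfl⟩ _ ⟨_, ⟨b, hb, rfl⟩, rfl⟩
        have e : P.subtype a * f (P.subtype b) * (P.subtype a)⁻¹ = f (P.subtype b) := by
          rw [hfa, hc (P.subtype a) a.2 (P.subtype b) b.2]; group
        rw [e]
        exact ⟨_, ⟨b, hb, rfl⟩, rfl⟩) v hv
      obtain ⟨a, ha, rfl⟩ := ha
      obtain ⟨_, ⟨b, hb, rfl⟩, rfl⟩ := hb
      have e : (P.subtype a * f (P.subtype b)) ^ 2 = P.subtype (a ^ 2) * f (P.subtype (b ^ 2)) := by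
        have hcm : Commute (P.subtype a) (f (P.subtype b)) := by
          rw [hfa]; exact hc _ a.2 _ b.2
        rw [hcm.mul_pow, map_pow, map_pow, map_pow]
      rw [e]
      exact Subgroup.mul_mem _ (Subgroup.mem_sup_left ⟨_, hsq a ha, rfl⟩)
        (Subgroup.mem_sup_right ⟨_, ⟨_, hsq b hb, rfl⟩, rfl⟩))
  rw [key, key] at h1
  have h3 : Nat.card H * Nat.card H ≤ (2 ^ 2 * Nat.card N) * (2 ^ 2 * Nat.card N) := by
    calc Nat.card H * Nat.card H ≤ 2 ^ 4 * (Nat.card N * Nat.card N) := h1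
      _ = (2 ^ 2 * Nat.card N) * (2 ^ 2 * Nat.card N) := by ring
  exact Nat.mul_self_le_mul_self_iff.mp h3

/-- Let S be a finite 2-group of sectional 2-rank at most 4 and P a proper non-abelian subgroup whose centre has order 2. Let S₀ be the centralizer in S of Z(P) and suppose P is normal in S₀. Then either S₀ = S, or P has sectional 2-rank at most 2 and S₀ has index 2 in S. -/
theorem result {S : Type*} [Group S] [Finite S] (h2 : IsPGroup 2 S) (hr : Cfsg.SectionalPRankLE 2 4 S)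
    (P : Subgroup S) (hPlt : P ≠ ⊤) (hP : ¬ IsMulCommutative ↥P) (hZP : Nat.card ↥(Subgroup.center ↥P) = 2)
    (S₀ : Subgroup S) (hS₀ : S₀ = Subgroup.centralizer (((Subgroup.center ↥P).map P.subtype : Subgroup S) : Set S))
    (hPn : ∀ s ∈ S₀, ∀ x ∈ P, s * x * s⁻¹ ∈ P) :
    S₀ = ⊤ ∨ (Cfsg.SectionalPRankLE 2 2 ↥P ∧ S₀.index = 2) := by
  have hp : Fact (Nat.Prime 2) := ⟨Nat.prime_two⟩
  obtain ⟨z, hz1, hzc⟩ := Cfsg.Agent.S4400.center_two P hZP
  have hzm : z ∈ (Subgroup.center ↥P).map P.subtype := (hzc z).mpr (Or.inr rfl)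
  have hzm' := (Cfsg.Agent.S4400.mem_center_map P z).mp hzm
  have hcenP : ∀ p ∈ P, (∀ g ∈ P, g * p = p * g) → p = 1 ∨ p = z := by
    intro p hp' h
    exact (hzc p).mp ((Cfsg.Agent.S4400.mem_center_map P p).mpr ⟨hp', h⟩)
  have hmem : ∀ s, s ∈ S₀ ↔ s * z = z * s := by
    intro s
    rw [hS₀, Subgroup.mem_centralizer_iff]
    constructor
    · intro h; exact (h z hzm).symm
    · intro h w hw
      rcases (hzc w).mp hw with rfl | rfl
      · simp
      · exact h.symm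
  have hP₀ : P ≤ S₀ := fun p hp => (hmem p).mpr (hzm'.2 p hp)
  have hz2 : z * z = 1 := by
    have : z * z ∈ (Subgroup.center ↥P).map P.subtype := mul_mem hzm hzm
    rcases (hzc _).mp this with h | h
    · exact h
    · exact absurd (mul_eq_left.mp h) hz1
  by_cases htop : S₀ = ⊤
  · exact Or.inl htop
  right
  have hnil : Group.IsNilpotent S := h2.isNilpotent
  have hlt : S₀ < Subgroup.normalizer (S₀ : Set S) :=
    Group.normalizerCondition_of_isNilpotent S₀ (lt_top_iff_ne_top.mpr htop)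
  obtain ⟨x₀, hx₀n, hx₀⟩ := SetLike.exists_of_lt hlt
  obtain ⟨j, hx, hx2⟩ := exists_pow_notMem_sq_mem h2 S₀ x₀ hx₀
  obtain ⟨x, hxdef⟩ : ∃ x, x = x₀ ^ (2 ^ j) := ⟨_, rfl⟩
  rw [← hxdef] at hx hx2
  have hxn : x ∈ Subgroup.normalizer (S₀ : Set S) := by rw [hxdef]; exact pow_mem hx₀n _
  set f : S →* S := (MulAut.conj x).toMonoidHom with hf
  have hfi : Function.Injective f := (MulAut.conj x).injective
  have hfa : ∀ s, f s = x * s * x⁻¹ := fun s => by simp [hf]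
  set Q := P.map f with hQdef
  have hQmem : ∀ p ∈ P, x * p * x⁻¹ ∈ Q := fun p hp' => ⟨p, hp', hfa p⟩
  have hQ₀ : Q ≤ S₀ := by
    rintro _ ⟨p, hp', rfl⟩
    rw [hfa]
    exact (Subgroup.mem_normalizer_iff.mp hxn p).mp (hP₀ hp')
  have hQn : ∀ s ∈ S₀, ∀ q ∈ Q, s * q * s⁻¹ ∈ Q := by
    rintro s hs _ ⟨p, hp', rfl⟩
    rw [hfa]
    have h1 : x⁻¹ * s * x ∈ S₀ := (Subgroup.mem_normalizer_iff''.mp hxn s).mp hs
    have e : s * (x * p * x⁻¹) * s⁻¹ = x * ((x⁻¹ * s * x) * p * (x⁻¹ * s * x)⁻¹) * x⁻¹ := by group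
    rw [e]
    exact hQmem _ (hPn _ h1 p hp')
  have e : ↥P ≃* ↥Q := P.equivMapOfInjective f hfi
  have hQ : ¬ IsMulCommutative ↥Q := not_comm_of_equiv e hP
  have hZQ : Nat.card ↥(Subgroup.center ↥Q) = 2 := by
    rw [← Nat.card_congr (Subgroup.centerCongr e).toEquiv, hZP]
  have hcancel : ∀ a b : S, (x * a * x⁻¹) * (x * b * x⁻¹) = (x * b * x⁻¹) * (x * a * x⁻¹) →
      a * b = b * a := by
    intro a b h
    have h1 : x * (a * b) * x⁻¹ = x * (b * a) * x⁻¹ := by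
      have e1 : x * (a * b) * x⁻¹ = (x * a * x⁻¹) * (x * b * x⁻¹) := by group
      have e2 : x * (b * a) * x⁻¹ = (x * b * x⁻¹) * (x * a * x⁻¹) := by group
      rw [e1, e2, h]
    exact mul_left_cancel (mul_right_cancel h1)
  have hne : ∃ z, (z ∈ P ∧ ∀ x ∈ P, x * z = z * x) ∧ ¬ (z ∈ Q ∧ ∀ x ∈ Q, x * z = z * x) := by
    refine ⟨z, hzm', ?_⟩
    rintro ⟨⟨p, hp', hpz⟩, hzQc⟩
    rw [hfa] at hpz
    rcases hcenP p hp' (fun g hg => hcancel g p (by rw [hpz]; exact hzQc _ (hQmem g hg))) with h | h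
    · apply hz1
      rw [← hpz, h]; group
    · apply hx
      rw [hmem]
      nth_rewrite 2 [← hpz]
      rw [h]; group
  obtain ⟨hcomm, hPQ, hC⟩ := rel4400 h2 hr S₀ P Q hP₀ hQ₀ hPn hQn hP hQ hZP hZQ hne
  have hzPP : z ∈ ⁅P, P⁆ := by
    have hcne : commutator ↥P ≠ ⊥ := by
      intro h
      apply hP
      rw [isMulCommutative_iff]
      intro a b
      have h1 : ⁅a, b⁆ ∈ commutator ↥P := by
        rw [commutator_def]
        exact Subgroup.commutator_mem_commutator (Subgroup.mem_top a) (Subgroup.mem_top b)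
      rw [h, Subgroup.mem_bot, commutatorElement_eq_one_iff_mul_comm] at h1
      exact h1
    obtain ⟨c, hcN, hc1, hcc⟩ := Helper79PGroup.exists_ne_one_mem_center_of_normal
      (h2.to_subgroup P) (commutator ↥P) hcne
    have h1 : (c : S) ∈ (Subgroup.center ↥P).map P.subtype := ⟨c, hcc, rfl⟩
    have h3 : (c : S) ∈ ⁅P, P⁆ := by
      rw [← Subgroup.map_subtype_commutator]
      exact ⟨c, hcN, rfl⟩
    rcases (hzc _).mp h1 with h | h
    · exact absurd (Subtype.ext h) hc1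
    · rw [← h]; exact h3
  have hU : ∀ c ∈ S₀, (∀ p ∈ P, p * c = c * p) → (∀ q ∈ Q, q * c = c * q) →
      c = 1 ∨ c = z ∨ c = x * z * x⁻¹ ∨ c = z * (x * z * x⁻¹) := by
    intro c hc hcP hcQ
    obtain ⟨p, hp', q, hq, rfl⟩ := exists_mul_of_mem_sup P Q (by
      intro a ha b hb
      rw [hcomm a ha b hb, mul_assoc, mul_inv_cancel, mul_one]
      exact hb) c (hC c hc hcP hcQ)
    have h1 : ∀ g ∈ P, g * p = p * g := by
      intro g hg
      have h3 := hcP g hg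
      rw [mul_assoc p q g, ← hcomm g hg q hq, ← mul_assoc, ← mul_assoc] at h3
      exact mul_right_cancel h3
    obtain ⟨p', hp'', rfl⟩ := hq
    rw [hfa] at hcP hcQ ⊢
    have h4 : ∀ g ∈ P, g * p' = p' * g := by
      intro g hg
      apply hcancel
      have h3 := hcQ _ (hQmem g hg)
      rw [← mul_assoc, ← hcomm p hp' _ (hQmem g hg), mul_assoc, mul_assoc p] at h3
      exact mul_left_cancel h3
    rcases hcenP p hp' h1 with rfl | rfl <;> rcases hcenP p' hp'' h4 with rfl | rfl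
    · left; group
    · right; right; left; group
    · right; left; group
    · right; right; right; rfl
  refine ⟨rank_two hr P x (fun p hp' q hq => hcomm p hp' _ (hQmem q hq)) ?_,
    index_two h2 S₀ P Q z x hmem hz1 hz2 hx hx2 hxn hP₀ hQ₀ hPn hQn hzm'.1 hzPP
      (hQmem z hzm'.1) hPQ hU⟩
  intro p hp' q hq h
  have : p ∈ P ⊓ Q := ⟨hp', by rw [h]; exact hQmem q hq⟩
  rw [hPQ, Subgroup.mem_bot] at this
  exact this

end Cfsg.Agent.S4401
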