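import Cfsg.Statements.S4405
import Cfsg.Agent.Lib.Helper50Ex32G
import Cfsg.Agent.Lib.Helper1Fitting
import Cfsg.Agent.Lib.Helper3PGroup

set_option autoImplicit false
open Cfsg

namespace Cfsg.Agent.S4405



/-- Let G be a finite group of order 320 = 64·5 whose largest normal 2-subgroup H = O₂(G) equals the Fitting subgroup F(G) and is extraspecial of order 32 containing no elementary abelian subgroup of order 8 (so H is the central product of a quaternion group and a dihedral group of order 8). If T is an involution of G outside H whose centralizer in H contains an elementary abelian subgroup of order 4, then C_H(T) itself is elementary abelian of order 4. -/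
theorem result {G : Type*} [Group G] [Finite G]
    (hG : Nat.card G = 320) (hHF : Cfsg.pCore 2 G = Cfsg.fittingSubgroup G)
    (hex : Cfsg.IsExtraspecial 2 ↥(Cfsg.pCore 2 G)) (h32 : Nat.card ↥(Cfsg.pCore 2 G) = 32)
    (hminus : ∀ A : Subgroup G, A ≤ Cfsg.pCore 2 G → Cfsg.IsElementaryAbelian 2 A → Nat.card ↥A ≤ 4)
    (T : G) (hT : orderOf T = 2) (hTH : T ∉ Cfsg.pCore 2 G)
    (V : Subgroup G) (hV : V ≤ Cfsg.pCore 2 G ⊓ Subgroup.centralizer ({T} : Set G)) (hV4 : Nat.card ↥V = 4) (hVe : Cfsg.IsElementaryAbelian 2 V) :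
    Nat.card ↥(Cfsg.pCore 2 G ⊓ Subgroup.centralizer ({T} : Set G)) = 4 ∧
      Cfsg.IsElementaryAbelian 2 (Cfsg.pCore 2 G ⊓ Subgroup.centralizer ({T} : Set G)) := by
  haveI : Fact (Nat.Prime 2) := ⟨by norm_num⟩
  haveI hn : (Cfsg.pCore 2 G).Normal := Cfsg.Agent.Lib.Helper1Fitting.pCore_normal 2
  obtain ⟨⟨hp, hfr, hcm⟩, hc2⟩ := hex
  have key : ∀ h ∈ Cfsg.pCore 2 G ⊓ Subgroup.centralizer ({T} : Set G), h ^ 2 = 1 := by
    intro h hh
    obtain ⟨hh1, hh2⟩ := Subgroup.mem_inf.1 hh
    refine Cfsg.Agent.Lib.Helper50Ex32G.main (Cfsg.pCore 2 G) hG h32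
      (fun N hN hNp => Cfsg.Agent.Lib.Helper1Fitting.le_pCore hN hNp)
      (fun N hN hNn => hHF ▸ Cfsg.Agent.Lib.Helper1Fitting.le_fitting hN hNn)
      hc2 ?_ ?_ T hT hTH h hh1 ?_
    · intro a b
      rw [← hcm]
      exact Subgroup.commutator_mem_commutator (Subgroup.mem_top a) (Subgroup.mem_top b)
    · intro a
      rw [← hfr]
      exact Cfsg.Agent.Lib.Helper3PGroup.pow_mem_frattini hp a
    · rw [Subgroup.mem_centralizer_iff] at hh2
      exact hh2 T rfl
  have hE : Cfsg.IsElementaryAbelian 2 (Cfsg.pCore 2 G ⊓ Subgroup.centralizer ({T} : Set G)) := by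
    refine ⟨⟨⟨fun a b => ?_⟩⟩, key⟩
    apply Subtype.ext
    have ha := key a a.2
    have hb := key b b.2
    have hab := key (a * b) (mul_mem a.2 b.2)
    simp only [Subgroup.coe_mul]
    set x := (a : G)
    set y := (b : G)
    have hx : x⁻¹ = x := inv_eq_of_mul_eq_one_left (by rw [← pow_two]; exact ha)
    have hy : y⁻¹ = y := inv_eq_of_mul_eq_one_left (by rw [← pow_two]; exact hb)
    have hxy : (x * y)⁻¹ = x * y := inv_eq_of_mul_eq_one_left (by rw [← pow_two]; exact hab)
    rw [← hxy, mul_inv_rev, hx, hy]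
  refine ⟨le_antisymm (hminus _ inf_le_left hE) ?_, hE⟩
  rw [← hV4]
  exact Subgroup.card_le_of_le hV

end Cfsg.Agent.S4405
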