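import Cfsg.Statements.S4406
-- import your own Cfsg.Agent.* helpers here

set_option autoImplicit false
open Cfsg

namespace Cfsg.Agent.S4406

abbrev A := ↥(alternatingGroup (Fin 4))

theorem L0 : ∀ a : A, a ^ 3 = 1 ∨ a ^ 2 = 1 := by decide

set_option synthInstance.maxSize 1000 in
theorem L1 : ∀ a x y : A, (a ≠ 1 ∧ a ^ 3 = 1 ∧ x ≠ 1 ∧ y ≠ 1 ∧ x ≠ y ∧ x ^ 2 = 1 ∧ y ^ 2 = 1) →
    (a * x * a⁻¹ = y ∧ a * y * a⁻¹ = x * y ∧ a⁻¹ * x * a = x * y ∧ a⁻¹ * y * a = x) ∨
    (a * x * a⁻¹ = x * y ∧ a * y * a⁻¹ = x ∧ a⁻¹ * x * a = y ∧ a⁻¹ * y * a = x * y) := by decide +kernel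

set_option synthInstance.maxSize 1000 in
theorem L2 : ∀ x y z : A, (x ≠ 1 ∧ y ≠ 1 ∧ x ≠ y ∧ x ^ 2 = 1 ∧ y ^ 2 = 1 ∧ z ^ 2 = 1) →
    z = 1 ∨ z = x ∨ z = y ∨ z = x * y := by decide +kernel

theorem sq_of_two_pow (a : A) (k : ℕ) (h : a ^ (2 ^ k) = 1) : a ^ 2 = 1 := by
  rcases L0 a with h3 | h2
  · have h1 : orderOf a ∣ 3 := orderOf_dvd_of_pow_eq_one h3
    have h2 : orderOf a ∣ 2 ^ k := orderOf_dvd_of_pow_eq_one h
    have hc : Nat.Coprime 3 (2 ^ k) := Nat.Coprime.pow_right k (by norm_num)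
    have : orderOf a ∣ 1 := by
      rw [← hc.gcd_eq_one]; exact Nat.dvd_gcd h1 h2
    have : a = 1 := orderOf_eq_one_iff.mp (Nat.dvd_one.mp this)
    rw [this, one_pow]
  · exact h2

theorem cube_of_three_pow (a : A) (k : ℕ) (h : a ^ (3 ^ k) = 1) : a ^ 3 = 1 := by
  rcases L0 a with h3 | h2
  · exact h3
  · have h1 : orderOf a ∣ 2 := orderOf_dvd_of_pow_eq_one h2
    have h2 : orderOf a ∣ 3 ^ k := orderOf_dvd_of_pow_eq_one h
    have hc : Nat.Coprime 2 (3 ^ k) := Nat.Coprime.pow_right k (by norm_num)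
    have : orderOf a ∣ 1 := by
      rw [← hc.gcd_eq_one]; exact Nat.dvd_gcd h1 h2
    have : a = 1 := orderOf_eq_one_iff.mp (Nat.dvd_one.mp this)
    rw [this, one_pow]

theorem cardA : Nat.card A = 12 := by
  rw [Nat.card_eq_fintype_card]; decide

theorem card_prod : Nat.card (A × A) = 144 := by
  rw [Nat.card_prod, cardA]

/-- normalizing from the explicit action on the two generators -/
theorem normalizes (B : Subgroup (A × A)) (u w r : A × A) (hu : u ∈ B) (hw : w ∈ B)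
    (hB : ∀ b ∈ B, b = 1 ∨ b = u ∨ b = w ∨ b = u * w)
    (h1 : r * u * r⁻¹ ∈ B) (h2 : r * w * r⁻¹ ∈ B) (h3 : r⁻¹ * u * r ∈ B) (h4 : r⁻¹ * w * r ∈ B) :
    r ∈ Subgroup.normalizer (B : Set (A × A)) := by
  have key : ∀ s : A × A, s * u * s⁻¹ ∈ B → s * w * s⁻¹ ∈ B → ∀ b ∈ B, s * b * s⁻¹ ∈ B := by
    intro s hs1 hs2 b hb
    rcases hB b hb with rfl | rfl | rfl | rfl
    · simp
    · exact hs1
    · exact hs2
    · have : s * (u * w) * s⁻¹ = (s * u * s⁻¹) * (s * w * s⁻¹) := by group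
      rw [this]; exact B.mul_mem hs1 hs2
  rw [Subgroup.mem_normalizer_iff]
  intro h
  constructor
  · exact key r h1 h2 h
  · intro hh
    have := key r⁻¹ (by simpa using h3) (by simpa using h4) _ hh
    simpa [mul_assoc] using this


/-- In the direct product P = A₄ × A₄, let X be the Sylow 2-subgroup, X₁ and X₂ its intersections with the two direct factors, Q a Sylow 3-subgroup and Q₁, Q₂ its intersections with the two factors. Then every subgroup B of X of order 4 either meets X₁ or X₂ nontrivially, or is normalized by one of the two subgroups of Q of order 3 other than Q₁ and Q₂. -/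
theorem result
    (X : Sylow 2 (↥(alternatingGroup (Fin 4)) × ↥(alternatingGroup (Fin 4))))
    (Q : Sylow 3 (↥(alternatingGroup (Fin 4)) × ↥(alternatingGroup (Fin 4))))
    (B : Subgroup (↥(alternatingGroup (Fin 4)) × ↥(alternatingGroup (Fin 4)))) (hBX : B ≤ (X : Subgroup _)) (hB4 : Nat.card ↥B = 4) :
    B ⊓ ((X : Subgroup _) ⊓ Subgroup.prod ⊤ ⊥) ≠ ⊥ ∨ B ⊓ ((X : Subgroup _) ⊓ Subgroup.prod ⊥ ⊤) ≠ ⊥ ∨
      ∃ R : Subgroup (↥(alternatingGroup (Fin 4)) × ↥(alternatingGroup (Fin 4))), R ≤ (Q : Subgroup _) ∧ Nat.card ↥R = 3 ∧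
        R ≠ (Q : Subgroup _) ⊓ Subgroup.prod ⊤ ⊥ ∧ R ≠ (Q : Subgroup _) ⊓ Subgroup.prod ⊥ ⊤ ∧ R ≤ Subgroup.normalizer (B : Set _) := by
  by_contra hcon
  push Not at hcon
  obtain ⟨hB1, hB2, hR⟩ := hcon
  -- elements of B square to one coordinatewise
  have hsq : ∀ b ∈ B, b.1 ^ 2 = 1 ∧ b.2 ^ 2 = 1 := by
    intro b hb
    obtain ⟨k, hk⟩ := X.isPGroup' ⟨b, hBX hb⟩
    have hk' : b ^ (2 ^ k) = 1 := by simpa using congrArg Subtype.val hk
    exact ⟨sq_of_two_pow b.1 k (by simpa using congrArg Prod.fst hk'),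
      sq_of_two_pow b.2 k (by simpa using congrArg Prod.snd hk')⟩
  have hd2 : ∀ b ∈ B, b.2 = 1 → b = 1 := by
    intro b hb h
    have : b ∈ B ⊓ ((X : Subgroup _) ⊓ Subgroup.prod ⊤ ⊥) :=
      ⟨hb, hBX hb, by simp [Subgroup.mem_prod, h]⟩
    rw [hB1] at this
    exact Subgroup.mem_bot.mp this
  have hd1 : ∀ b ∈ B, b.1 = 1 → b = 1 := by
    intro b hb h
    have : b ∈ B ⊓ ((X : Subgroup _) ⊓ Subgroup.prod ⊥ ⊤) :=
      ⟨hb, hBX hb, by simp [Subgroup.mem_prod, h]⟩
    rw [hB2] at this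
    exact Subgroup.mem_bot.mp this
  -- two distinct nonidentity elements
  obtain ⟨u, w, hu, hw, hu1, hw1, huw⟩ : ∃ u w : A × A, u ∈ B ∧ w ∈ B ∧ u ≠ 1 ∧ w ≠ 1 ∧ u ≠ w := by
    have : Fintype ↥B := Fintype.ofFinite _
    have h2 : 2 < Fintype.card ↥B := by
      rw [← Nat.card_eq_fintype_card, hB4]; norm_num
    obtain ⟨a, b, c, hab, hac, hbc⟩ := Fintype.two_lt_card_iff.mp h2
    have hab' : (a : A × A) ≠ b := fun h => hab (Subtype.ext h)
    have hac' : (a : A × A) ≠ c := fun h => hac (Subtype.ext h)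
    have hbc' : (b : A × A) ≠ c := fun h => hbc (Subtype.ext h)
    by_cases ha : (a : A × A) = 1
    · exact ⟨b, c, b.2, c.2, fun h => hab' (ha.trans h.symm), fun h => hac' (ha.trans h.symm), hbc'⟩
    · by_cases hb : (b : A × A) = 1
      · exact ⟨a, c, a.2, c.2, ha, fun h => hbc' (hb.trans h.symm), hac'⟩
      · exact ⟨a, b, a.2, b.2, ha, hb, hab'⟩
  have hu11 : u.1 ≠ 1 := fun h => hu1 (hd1 u hu h)
  have hu21 : u.2 ≠ 1 := fun h => hu1 (hd2 u hu h)
  have hw11 : w.1 ≠ 1 := fun h => hw1 (hd1 w hw h)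
  have hw21 : w.2 ≠ 1 := fun h => hw1 (hd2 w hw h)
  have hinj1 : ∀ b ∈ B, ∀ c ∈ B, b.1 = c.1 → b = c := by
    intro b hb c hc h
    have := hd1 (b * c⁻¹) (B.mul_mem hb (B.inv_mem hc)) (by simp [h])
    exact mul_inv_eq_one.mp this
  have hinj2 : ∀ b ∈ B, ∀ c ∈ B, b.2 = c.2 → b = c := by
    intro b hb c hc h
    have := hd2 (b * c⁻¹) (B.mul_mem hb (B.inv_mem hc)) (by simp [h])
    exact mul_inv_eq_one.mp this
  have huw1 : u.1 ≠ w.1 := fun h => huw (hinj1 u hu w hw h)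
  have huw2 : u.2 ≠ w.2 := fun h => huw (hinj2 u hu w hw h)
  have hBel : ∀ b ∈ B, b = 1 ∨ b = u ∨ b = w ∨ b = u * w := by
    intro b hb
    rcases L2 u.1 w.1 b.1 ⟨hu11, hw11, huw1, (hsq u hu).1, (hsq w hw).1, (hsq b hb).1⟩ with h | h | h | h
    · exact Or.inl (hd1 b hb h)
    · exact Or.inr (Or.inl (hinj1 b hb u hu h))
    · exact Or.inr (Or.inr (Or.inl (hinj1 b hb w hw h)))
    · exact Or.inr (Or.inr (Or.inr (hinj1 b hb (u * w) (B.mul_mem hu hw) (by simpa using h))))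
  -- elements of Q
  have hQcard : Nat.card ↥(Q : Subgroup (A × A)) = 9 := by
    have h := Q.card_eq_multiplicity
    rw [card_prod] at h
    have h144 : (144 : ℕ).factorization 3 = 2 := by decide +kernel
    rw [h144] at h
    simpa using h
  have hcube : ∀ x ∈ (Q : Subgroup (A × A)), x.1 ^ 3 = 1 ∧ x.2 ^ 3 = 1 := by
    intro x hx
    obtain ⟨k, hk⟩ := Q.isPGroup' ⟨x, hx⟩
    have hk' : x ^ (3 ^ k) = 1 := by simpa using congrArg Subtype.val hk
    exact ⟨cube_of_three_pow x.1 k (by simpa using congrArg Prod.fst hk'),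
      cube_of_three_pow x.2 k (by simpa using congrArg Prod.snd hk')⟩
  obtain ⟨y, hyQ, hy1, hy⟩ : ∃ y ∈ (Q : Subgroup (A × A)), y ≠ 1 ∧ y.1 = 1 := by
    by_contra hno
    push Not at hno
    have hinj : Function.Injective ((MonoidHom.fst A A).comp (Q : Subgroup (A × A)).subtype) := by
      rw [injective_iff_map_eq_one]
      intro a ha
      by_contra hne
      exact hno a a.2 (fun h => hne (Subtype.ext h)) ha
    have := Subgroup.card_dvd_of_injective _ hinj
    rw [hQcard, cardA] at this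
    norm_num at this
  obtain ⟨x, hxQ, hx1, hx⟩ : ∃ x ∈ (Q : Subgroup (A × A)), x ≠ 1 ∧ x.2 = 1 := by
    by_contra hno
    push Not at hno
    have hinj : Function.Injective ((MonoidHom.snd A A).comp (Q : Subgroup (A × A)).subtype) := by
      rw [injective_iff_map_eq_one]
      intro a ha
      by_contra hne
      exact hno a a.2 (fun h => hne (Subtype.ext h)) ha
    have := Subgroup.card_dvd_of_injective _ hinj
    rw [hQcard, cardA] at this
    norm_num at this
  have hx11 : x.1 ≠ 1 := fun h => hx1 (Prod.ext h hx)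
  have hy21 : y.2 ≠ 1 := fun h => hy1 (Prod.ext hy h)
  have hx3 := (hcube x hxQ).1
  have hy3 := (hcube y hyQ).2
  -- general finishing step
  have fin : ∀ r ∈ (Q : Subgroup (A × A)), r.1 ≠ 1 → r.2 ≠ 1 → r ^ 3 = 1 →
      r ∈ Subgroup.normalizer (B : Set (A × A)) → False := by
    intro r hrQ hr1 hr2 hr3 hrN
    have hrne : r ≠ 1 := fun h => hr1 (by rw [h]; rfl)
    refine hR (Subgroup.zpowers r) ?_ ?_ ?_ ?_ ?_
    · rw [Subgroup.zpowers_le]; exact hrQ
    · rw [Nat.card_zpowers]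
      exact orderOf_eq_prime hr3 hrne
    · intro h
      have : r ∈ (Q : Subgroup (A × A)) ⊓ Subgroup.prod ⊤ ⊥ := h ▸ Subgroup.mem_zpowers r
      exact hr2 (by simpa [Subgroup.mem_prod] using this.2)
    · intro h
      have : r ∈ (Q : Subgroup (A × A)) ⊓ Subgroup.prod ⊥ ⊤ := h ▸ Subgroup.mem_zpowers r
      exact hr1 (by simpa [Subgroup.mem_prod] using this.2)
    · rw [Subgroup.zpowers_le]; exact hrN
  have huwB : u * w ∈ B := B.mul_mem hu hw
  have e1 := L1 x.1 u.1 w.1 ⟨hx11, hx3, hu11, hw11, huw1, (hsq u hu).1, (hsq w hw).1⟩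
  have e2 := L1 y.2 u.2 w.2 ⟨hy21, hy3, hu21, hw21, huw2, (hsq u hu).2, (hsq w hw).2⟩
  have hy3' : y.2⁻¹ ^ 3 = 1 := by rw [inv_pow, hy3, inv_one]
  rcases e1 with ⟨a1, a2, a3, a4⟩ | ⟨a1, a2, a3, a4⟩ <;> rcases e2 with ⟨b1, b2, b3, b4⟩ | ⟨b1, b2, b3, b4⟩
  · refine fin (x * y) ((Q : Subgroup (A × A)).mul_mem hxQ hyQ) (by simpa [hy] using hx11) (by simpa [hx] using hy21)
      (Prod.ext (by simp [hy, hx3]) (by simp [hx, hy3])) ?_
    refine normalizes B u w (x * y) hu hw hBel ?_ ?_ ?_ ?_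
    · convert hw using 1
      exact Prod.ext (by simp [hy, a1]) (by simp [hx, b1])
    · convert huwB using 1
      exact Prod.ext (by simp [hy, a2]) (by simp [hx, b2])
    · convert huwB using 1
      exact Prod.ext (by simp [hy, a3]) (by simp [hx, b3])
    · convert hu using 1
      exact Prod.ext (by simp [hy, a4]) (by simp [hx, b4])
  · refine fin (x * y⁻¹) ((Q : Subgroup (A × A)).mul_mem hxQ ((Q : Subgroup (A × A)).inv_mem hyQ)) (by simpa [hy] using hx11) (by simpa [hx] using hy21)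
      (Prod.ext (by simp [hy, hx3]) (by simp [hx, hy3])) ?_
    refine normalizes B u w (x * y⁻¹) hu hw hBel ?_ ?_ ?_ ?_
    · convert hw using 1
      exact Prod.ext (by simp [hy, a1]) (by simp [hx, b3])
    · convert huwB using 1
      exact Prod.ext (by simp [hy, a2]) (by simp [hx, b4])
    · convert huwB using 1
      exact Prod.ext (by simp [hy, a3]) (by simp [hx, b1])
    · convert hu using 1
      exact Prod.ext (by simp [hy, a4]) (by simp [hx, b2])
  · refine fin (x * y⁻¹) ((Q : Subgroup (A × A)).mul_mem hxQ ((Q : Subgroup (A × A)).inv_mem hyQ)) (by simpa [hy] using hx11) (by simpa [hx] using hy21)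
      (Prod.ext (by simp [hy, hx3]) (by simp [hx, hy3])) ?_
    refine normalizes B u w (x * y⁻¹) hu hw hBel ?_ ?_ ?_ ?_
    · convert huwB using 1
      exact Prod.ext (by simp [hy, a1]) (by simp [hx, b3])
    · convert hu using 1
      exact Prod.ext (by simp [hy, a2]) (by simp [hx, b4])
    · convert hw using 1
      exact Prod.ext (by simp [hy, a3]) (by simp [hx, b1])
    · convert huwB using 1
      exact Prod.ext (by simp [hy, a4]) (by simp [hx, b2])
  · refine fin (x * y) ((Q : Subgroup (A × A)).mul_mem hxQ hyQ) (by simpa [hy] using hx11) (by simpa [hx] using hy21)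
      (Prod.ext (by simp [hy, hx3]) (by simp [hx, hy3])) ?_
    refine normalizes B u w (x * y) hu hw hBel ?_ ?_ ?_ ?_
    · convert huwB using 1
      exact Prod.ext (by simp [hy, a1]) (by simp [hx, b1])
    · convert hu using 1
      exact Prod.ext (by simp [hy, a2]) (by simp [hx, b2])
    · convert hw using 1
      exact Prod.ext (by simp [hy, a3]) (by simp [hx, b3])
    · convert huwB using 1
      exact Prod.ext (by simp [hy, a4]) (by simp [hx, b4])

end Cfsg.Agent.S4406
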