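import Cfsg.Statements.S4407
import Cfsg.Agent.Lib.Helper68NDDefs
import Cfsg.Agent.Lib.H68NDDih
import Cfsg.Agent.Lib.H68NDFourA
import Cfsg.Agent.Lib.H68NDFourB
import Cfsg.Agent.Lib.H68NDGens
import Cfsg.Agent.Lib.H68NDRel2
import Cfsg.Agent.Lib.H68NDRelE
import Cfsg.Agent.Lib.H68NDInv
import Cfsg.Agent.Lib.H68NDIrr2
import Cfsg.Agent.Lib.H68NDH1
import Cfsg.Agent.Lib.H68NDDicho
import Cfsg.Agent.Lib.H68NDFixB
import Cfsg.Agent.Lib.H68NDCore

set_option autoImplicit false
open Cfsg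

namespace Cfsg.Agent.S4407

open Cfsg.Agent.Lib Cfsg.Agent.Lib.Helper68NDDefs

/-- Let S be a finite group with a normal elementary abelian subgroup A of order 9 that is self-centralizing (C_S(A) = A), and a dihedral subgroup X of order 8 with S = AX. Let M be a finite-dimensional module for S over the field with two elements that is faithful and irreducible. Then M has 16 elements, and X contains exactly one subgroup B of order 4 and exponent 2 whose fixed points on M form a subspace with exactly 2 elements (equivalently, M is free of rank one over the group algebra of B). -/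
theorem result {S : Type*} [Group S] [Finite S]
    (A : Subgroup S) [A.Normal] (hA : Cfsg.IsElementaryAbelian 3 A) (hA9 : Nat.card ↥A = 9)
    (hAC : Subgroup.centralizer (A : Set S) = A) (X : Subgroup S) (hX : Nonempty (↥X ≃* DihedralGroup 4)) (hAX : A ⊔ X = ⊤)
    {M : Type*} [AddCommGroup M] [Module (ZMod 2) M] [Finite M] (ρ : Representation (ZMod 2) S M)
    (hfaith : Function.Injective ρ)
    (hirr : ∀ N : Submodule (ZMod 2) M, (∀ s : S, ∀ m ∈ N, ρ s m ∈ N) → N = ⊥ ∨ N = ⊤) (hM : Nontrivial M) :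
    Nat.card M = 16 ∧
      ∃! B : Subgroup S, B ≤ X ∧ Nat.card ↥B = 4 ∧ (∀ b ∈ B, b ^ 2 = 1) ∧
        Nat.card {m : M // ∀ b ∈ B, ρ b m = m} = 2 := by
  obtain ⟨hcomm, h3⟩ := hA
  have hab : ∀ x ∈ A, ∀ y ∈ A, x * y = y * x := fun x hx y hy =>
    congrArg Subtype.val (hcomm.is_comm.comm ⟨x, hx⟩ ⟨y, hy⟩)
  obtain ⟨r, s, hD⟩ := H68NDDih.exists_rs X hX
  obtain ⟨a, b, hrel, ha1, hAcl⟩ := H68NDGens.exists_ab A hab h3 hA9 hAC hD
  have hE := H68NDRelE.relE ρ hrel
  have hi := H68NDInv.irrE ρ hirr A X hAX hrel hD hAcl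
  have hne : ρ a ≠ 1 := by
    intro h0
    apply ha1
    apply hfaith
    rw [h0, map_one]
  have H := H68NDH1.noFix hE hi hne
  have key : Nat.card M = 16 ∧
      ((Nat.card {m : M // ρ r (ρ r m) = m ∧ ρ s (ρ r m) = m} = 2 ∧
          Nat.card {m : M // ρ r (ρ r m) = m ∧ ρ s m = m} ≠ 2) ∨
       (Nat.card {m : M // ρ r (ρ r m) = m ∧ ρ s m = m} = 2 ∧
          Nat.card {m : M // ρ r (ρ r m) = m ∧ ρ s (ρ r m) = m} ≠ 2)) := by
    rcases H68NDDicho.dicho hE H with ⟨v, hv, hav⟩ | ⟨v, hv, hav⟩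
    · obtain ⟨c1, c2, c3⟩ := H68NDCore.core hE hi H v hv hav
      exact ⟨c1, Or.inl ⟨c2, c3⟩⟩
    · have hrel2 := H68NDRel2.rel2 hrel
      have hE2 := H68NDRelE.relE ρ hrel2
      have hbinv : b⁻¹ = b * b := by
        have h1 := hrel.b3
        rw [pow_succ, pow_two] at h1
        exact (eq_inv_of_mul_eq_one_left h1).symm
      have e1 : ρ (a * b⁻¹) = ρ a * ρ b * ρ b := by
        rw [hbinv, ← mul_assoc, map_mul, map_mul]
      have e2 : ρ (a * b) = ρ a * ρ b := map_mul _ _ _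
      have e3 : ρ (s * r) = ρ s * ρ r := map_mul _ _ _
      have hi2 : IrrE (ρ (a * b⁻¹)) (ρ (a * b)) (ρ r) (ρ (s * r)) := by
        rw [e1, e2, e3]
        exact H68NDIrr2.irr2 hE hi
      have hne2 : ρ (a * b⁻¹) ≠ 1 := by
        intro h0
        have h1 : a * b⁻¹ = 1 := by
          apply hfaith
          rw [h0, map_one]
        have h2 : a = b := mul_inv_eq_one.mp h1
        have h4 := hrel.sb
        rw [← h2, hrel.sa] at h4
        have h5 : a * a = 1 := by
          nth_rewrite 2 [h4]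
          exact mul_inv_cancel a
        have h6 := hrel.a3
        rw [pow_succ, pow_two, h5, one_mul] at h6
        exact ha1 h6
      have H2 := H68NDH1.noFix hE2 hi2 hne2
      obtain ⟨c1, c2, c3⟩ := H68NDCore.core hE2 hi2 H2 v hv (by rw [e1]; exact hav)
      refine ⟨c1, Or.inr ⟨?_, ?_⟩⟩
      · refine Eq.trans ?_ c2
        apply Nat.card_congr
        apply Equiv.subtypeEquivRight
        intro m
        constructor
        · rintro ⟨h1, h2⟩
          refine ⟨h1, ?_⟩
          rw [e3, Module.End.mul_apply, h1, h2]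
        · rintro ⟨h1, h2⟩
          refine ⟨h1, ?_⟩
          rw [e3, Module.End.mul_apply, h1] at h2
          exact h2
      · intro h0
        apply c3
        refine Eq.trans ?_ h0
        apply Nat.card_congr
        apply Equiv.subtypeEquivRight
        intro m
        rw [e3, Module.End.mul_apply]
  obtain ⟨hc, hcase⟩ := key
  refine ⟨hc, ?_⟩
  obtain ⟨⟨B₁, hB₁X, hB₁c, hB₁e, hB₁t⟩, ⟨B₂, hB₂X, hB₂c, hB₂e, hB₂t⟩⟩ := H68NDFourB.exists_ty hD
  rcases hcase with ⟨n2, n1⟩ | ⟨n1, n2⟩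
  · refine ⟨B₂, ⟨hB₂X, hB₂c, hB₂e, ?_⟩, ?_⟩
    · rw [H68NDFixB.card_ty2 ρ hB₂t]
      exact n2
    · rintro B ⟨hBX, hBc, hBe, hBf⟩
      rcases H68NDFourA.four hD B hBX hBc hBe with ht | ht
      · exfalso
        apply n1
        rw [← H68NDFixB.card_ty1 ρ ht]
        exact hBf
      · ext x
        rw [ht x, hB₂t x]
  · refine ⟨B₁, ⟨hB₁X, hB₁c, hB₁e, ?_⟩, ?_⟩
    · rw [H68NDFixB.card_ty1 ρ hB₁t]
      exact n1
    · rintro B ⟨hBX, hBc, hBe, hBf⟩
      rcases H68NDFourA.four hD B hBX hBc hBe with ht | ht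
      · ext x
        rw [ht x, hB₁t x]
      · exfalso
        apply n2
        rw [← H68NDFixB.card_ty2 ρ ht]
        exact hBf

end Cfsg.Agent.S4407
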