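import Cfsg.Statements.S4410
import Cfsg.Agent.Lib.Helper50Tv4G

set_option autoImplicit false
open Cfsg

namespace Cfsg.Agent.S4410



/-- Let V be a finite-dimensional vector space over the field with two elements and S a solvable group of linear automorphisms of V with O₂(S) = 1. If P ∈ S has order 4 and (P − 1)³ = 0 on V, then the image of (P − 1)² has at least 4 elements; equivalently, in the decomposition of V into indecomposable modules for the cyclic group generated by P, at least two summands have dimension 3. -/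
theorem result
    {V : Type*} [AddCommGroup V] [Module (ZMod 2) V] [Finite V]
    (S : Subgroup (V ≃ₗ[ZMod 2] V)) (hS : Group.IsSolvable ↥S) (hO2 : Cfsg.pCore 2 ↥S = ⊥)
    (P : V ≃ₗ[ZMod 2] V) (hPS : P ∈ S) (hP4 : orderOf P = 4)
    (hcub : ((P : V →ₗ[ZMod 2] V) - LinearMap.id) ^ 3 = 0) :
    4 ≤ Nat.card ↥(LinearMap.range (((P : V →ₗ[ZMod 2] V) - LinearMap.id) ^ 2)) := by
  classical
  by_contra hlt
  push Not at hlt
  haveI : Finite (V ≃ₗ[ZMod 2] V) :=
    Finite.of_injective (fun f : V ≃ₗ[ZMod 2] V => (f : V → V)) DFunLike.coe_injective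
  have h2 : ∀ v : V, v + v = 0 := by
    intro v
    rw [← two_smul (ZMod 2) v]
    have : (2 : ZMod 2) = 0 := rfl
    rw [this, zero_smul]
  set N := ((P : V →ₗ[ZMod 2] V) - LinearMap.id) ^ 2 with hN
  set t : V ≃ₗ[ZMod 2] V := P * P with ht
  have hNv : ∀ v, N v = t v + v := by
    intro v
    rw [hN, pow_two, ht]
    simp only [Module.End.mul_apply, LinearMap.sub_apply, LinearMap.id_apply, LinearEquiv.coe_coe,
      map_sub, LinearEquiv.mul_apply]
    have := h2 (P v)
    have h3 := h2 v
    calc P (P v) - P v - (P v - v) = P (P v) + v - (P v + P v) := by abel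
      _ = P (P v) + v := by rw [this, sub_zero]
  have htt : t * t = 1 := by
    rw [ht, ← pow_two, ← pow_two, ← pow_mul, show 2 * 2 = orderOf P by rw [hP4]]
    exact pow_orderOf_eq_one P
  have ht1 : t ≠ 1 := by
    rw [ht, ← pow_two]
    exact pow_ne_one_of_lt_orderOf (by norm_num) (by rw [hP4]; norm_num)
  obtain ⟨v0, hv0⟩ : ∃ v0, t v0 ≠ v0 := by
    by_contra hcon
    push Not at hcon
    exact ht1 (LinearEquiv.ext hcon)
  set a := t v0 + v0 with ha
  have ha0 : a ≠ 0 := by
    intro h
    apply hv0
    calc t v0 = t v0 + (v0 + v0) := by rw [h2, add_zero]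
      _ = a + v0 := by rw [ha]; abel
      _ = v0 := by rw [h, zero_add]
  have hv0a : t v0 = v0 + a := by
    calc t v0 = t v0 + (v0 + v0) := by rw [h2, add_zero]
      _ = v0 + a := by rw [ha]; abel
  have haR : a ∈ LinearMap.range N := ⟨v0, hNv v0⟩
  have htv : ∀ v : V, t v = v ∨ t v = v + a := by
    intro v
    set b := t v + v with hb
    have hbR : b ∈ LinearMap.range N := ⟨v, hNv v⟩
    have htvb : t v = v + b := by
      calc t v = t v + (v + v) := by rw [h2, add_zero]
        _ = v + b := by rw [hb]; abel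
    by_cases hb0 : b = 0
    · left; rw [htvb, hb0, add_zero]
    · by_cases hab : b = a
      · right; rw [htvb, hab]
      · exfalso
        have hab0 : a + b ≠ 0 := by
          intro h
          apply hab
          calc b = (a + a) + b := by rw [h2, zero_add]
            _ = a + (a + b) := by abel
            _ = a := by rw [h, add_zero]
        have hcard : ({0, a, b, a + b} : Finset V).card = 4 := by
          rw [Finset.card_insert_of_notMem, Finset.card_insert_of_notMem,
            Finset.card_insert_of_notMem, Finset.card_singleton]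
          · simp [ha0]
          · simp only [Finset.mem_insert, Finset.mem_singleton, not_or]
            exact ⟨fun h => hab h.symm, fun h => hb0 (by simpa using h)⟩
          · simp only [Finset.mem_insert, Finset.mem_singleton, not_or]
            exact ⟨fun h => ha0 h.symm, fun h => hb0 h.symm, fun h => hab0 h.symm⟩
        have hsub : (({0, a, b, a + b} : Finset V) : Set V) ⊆ (LinearMap.range N : Set V) := by
          intro w hw
          simp only [Finset.coe_insert, Finset.coe_singleton, Set.mem_insert_iff,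
            Set.mem_singleton_iff] at hw
          rcases hw with rfl | rfl | rfl | rfl
          · exact zero_mem _
          · exact haR
          · exact hbR
          · exact add_mem haR hbR
        have h4 := Set.ncard_le_ncard hsub (Set.toFinite _)
        rw [Set.ncard_coe_finset, hcard] at h4
        have h5 : Nat.card ↥(LinearMap.range N) = (LinearMap.range N : Set V).ncard := rfl
        omega
  -- group part
  haveI := hS
  have htS : t ∈ S := mul_mem hPS hPS
  have hto : orderOf (⟨t, htS⟩ : S) = 2 := by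
    rw [Subgroup.orderOf_mk]
    exact orderOf_eq_prime (by rw [pow_two]; exact htt) ht1
  obtain ⟨r, hr, hr2, u, hu, hut⟩ := Cfsg.Agent.Lib.Helper50Tv4G.exists_core hO2 _ hto
  haveI : Fact r.Prime := ⟨hr⟩
  haveI hn : (Cfsg.pCore r ↥S).Normal := Cfsg.Agent.Lib.Helper1Fitting.pCore_normal r
  have htinv : t⁻¹ = t := inv_eq_of_mul_eq_one_left htt
  set R := (Cfsg.pCore r ↥S).map S.subtype with hR
  have hRp : IsPGroup r R := (Cfsg.Agent.Lib.Helper1Fitting.pCore_isPGroup r).map _
  set x : V ≃ₗ[ZMod 2] V := (u : V ≃ₗ[ZMod 2] V)⁻¹ * (t * u * t) with hx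
  have hxS : u⁻¹ * ((⟨t, htS⟩ : S) * u * (⟨t, htS⟩ : S)⁻¹) ∈ Cfsg.pCore r ↥S :=
    mul_mem (inv_mem hu) (hn.conj_mem u hu _)
  have hxR : x ∈ R := by
    refine ⟨_, hxS, ?_⟩
    simp [hx, htinv]
  have hxR' : P * x * P⁻¹ ∈ R := by
    refine ⟨_, hn.conj_mem _ hxS ⟨P, hPS⟩, ?_⟩
    simp [hx, htinv]
  have hxi : t * x * t = x⁻¹ := by
    rw [hx]
    simp only [mul_inv_rev, inv_inv, htinv]
    calc t * ((u : V ≃ₗ[ZMod 2] V)⁻¹ * (t * u * t)) * t = t * (u : V ≃ₗ[ZMod 2] V)⁻¹ * t * u * (t * t) := by group
      _ = _ := by rw [htt]; group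
  have hx1 : x ≠ 1 := by
    intro h
    apply hut
    apply Subtype.ext
    simp only [Subgroup.coe_mul]
    have h1 : t * u * t = u := by
      calc t * u * t = u * ((u : V ≃ₗ[ZMod 2] V)⁻¹ * (t * u * t)) := by group
        _ = u := by rw [← hx, h, mul_one]
    calc t * (u : V ≃ₗ[ZMod 2] V) = (t * u * t) * t := by rw [mul_assoc (t * _), htt, mul_one]
      _ = u * t := by rw [h1]
  exact Cfsg.Agent.Lib.Helper50Tv4.main (Γ := V ≃ₗ[ZMod 2] V) (V := V) h2 ha0 (t := t) htv htt hr2 R hRp
    (v0 := v0) hv0a (x := x) (P := P) rfl hxR hxR' hxi hx1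

end Cfsg.Agent.S4410
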