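import Cfsg.Statements.S4412
import Cfsg.Agent.Lib.Helper27E8Basis
import Cfsg.Agent.Lib.Helper27E8Rank

set_option autoImplicit false
open Cfsg

namespace Cfsg.Agent.S4412

open Subgroup Cfsg.Agent.Lib Cfsg.Agent.Lib.Helper27E8Cyc Cfsg.Agent.Lib.Helper27E8Basis

variable {P : Type*} [Group P]

theorem broad_of [Finite P] {p : ℕ} [Fact p.Prime] (hP : IsPGroup p P) {a b c : MulAut P}
    {y z : P} (hay : a y = y) (haz : a z = z) (hby : b y ≠ y) (hbz : b z = z) (hcy : c y = y)
    (hcz : c z ≠ z) : ¬ ∃ g : P, ∀ x : P, (a x = x ↔ x ∈ zpowers g) := by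
  rintro ⟨g, hg⟩
  rcases chain hP ((hg y).mp hay) ((hg z).mp haz) with h | h
  · exact hby (fix_zpowers hbz h)
  · exact hcz (fix_zpowers hcy h)

theorem comm_pair [Finite P] {p : ℕ} (hp : p.Prime) (hp2 : p ≠ 2) (hP : IsPGroup p P)
    {a τ : MulAut P} (hτ : τ * τ = 1) (haτ : a * τ = τ * a) {g : P}
    (hg : ∀ y, τ y = y ↔ y ∈ zpowers g) (hinv : ∀ y ∈ zpowers g, a y = y⁻¹) :
    ∀ y z, a y = y → a z = z → y * z = z * y := by
  have h1 := inv_of_fpf hτ (fx a) (by
    intro y hy
    rw [mem_fx] at hy ⊢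
    rw [← MulAut.mul_apply, haτ, MulAut.mul_apply, hy]) (by
    intro y hy hτy
    rw [mem_fx] at hy
    have := hinv y ((hg y).mp hτy)
    rw [hy] at this
    exact eq_one_of_eq_inv hp hp2 hP this)
  intro y z hy hz
  exact comm_of_inv (fx a) h1 y hy z hz

/-- Let p be an odd prime, P a finite p-group and I an elementary abelian subgroup of order 8 of Aut(P). Call T ∈ I, T ≠ 1, broad when its fixed-point subgroup C_P(T) is not cyclic. Suppose I has a proper subgroup I₀ containing no broad element such that the product of any two broad elements lies in I₀. Then P is abelian of rank exactly 3 (generated by three elements but not by two), there are exactly three broad elements and they generate I, and I₀ is exactly the set of products of two broad elements. -/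
theorem result
    {P : Type*} [Group P] [Finite P] (p : ℕ) (hp : p.Prime) (hp2 : p ≠ 2) (hP : IsPGroup p P)
    (I : Subgroup (MulAut P)) (hI : Cfsg.IsElementaryAbelian 2 I) (hI8 : Nat.card ↥I = 8)
    (I₀ : Subgroup (MulAut P)) (hI₀ : I₀ < I)
    (hdisj : ∀ T ∈ I₀, T ≠ 1 → ∃ g : P, ∀ x : P, (T x = x ↔ x ∈ Subgroup.zpowers g))
    (hprod : ∀ T ∈ I, ∀ T' ∈ I, T ≠ 1 → T' ≠ 1 → (¬ ∃ g : P, ∀ x : P, (T x = x ↔ x ∈ Subgroup.zpowers g)) →
      (¬ ∃ g : P, ∀ x : P, (T' x = x ↔ x ∈ Subgroup.zpowers g)) → T * T' ∈ I₀) :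
    IsMulCommutative P ∧ (∃ a b c : P, Subgroup.closure {a, b, c} = ⊤) ∧ (¬ ∃ a b : P, Subgroup.closure {a, b} = ⊤) ∧
      Nat.card {T : MulAut P // T ∈ I ∧ T ≠ 1 ∧ ¬ ∃ g : P, ∀ x : P, (T x = x ↔ x ∈ Subgroup.zpowers g)} = 3 ∧
      Subgroup.closure {T : MulAut P | T ∈ I ∧ T ≠ 1 ∧ ¬ ∃ g : P, ∀ x : P, (T x = x ↔ x ∈ Subgroup.zpowers g)} = I ∧
      (I₀ : Set (MulAut P)) = {S : MulAut P | ∃ T T' : MulAut P, T ∈ I ∧ T' ∈ I ∧ T ≠ 1 ∧ T' ≠ 1 ∧
        (¬ ∃ g : P, ∀ x : P, (T x = x ↔ x ∈ Subgroup.zpowers g)) ∧ (¬ ∃ g : P, ∀ x : P, (T' x = x ↔ x ∈ Subgroup.zpowers g)) ∧ S = T * T'} := by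
  have : Fact p.Prime := ⟨hp⟩
  have hodd : Odd (Nat.card P) := by
    obtain ⟨n, hn⟩ := hP.exists_card_eq
    rw [hn]; exact Odd.pow (hp.odd_of_ne_two hp2)
  obtain ⟨e1, he1, e2, he2, e3, he3, x1, x2, x3, h11, h12, h13, h21, h22, h23, h31, h32, h33⟩ :=
    exists_basis hodd I hI hI8
  have hsq : ∀ T ∈ I, T * T = 1 := fun T hT => by rw [← sq]; exact hI.2 T hT
  have hcomm : ∀ S ∈ I, ∀ T ∈ I, S * T = T * S := by
    intro S hS T hT
    exact congrArg (fun t : ↥I => (t : MulAut P)) (hI.1.is_comm.comm ⟨S, hS⟩ ⟨T, hT⟩)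
  have s1 := hsq e1 he1
  have s2 := hsq e2 he2
  have s3 := hsq e3 he3
  have c12 := hcomm e1 he1 e2 he2
  have c13 := hcomm e1 he1 e3 he3
  have c23 := hcomm e2 he2 e3 he3
  have n1 : e1 ≠ 1 := by rintro rfl; exact h11 rfl
  have n2 : e2 ≠ 1 := by rintro rfl; exact h22 rfl
  have n3 : e3 ≠ 1 := by rintro rfl; exact h33 rfl
  have b1 := broad_of hP h12 h13 h22 h23 h32 h33
  have b2 := broad_of hP h21 h23 h11 h13 h31 h33
  have b3 := broad_of hP h31 h32 h11 h12 h21 h22
  have m12 := hprod e1 he1 e2 he2 n1 n2 b1 b2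
  have m13 := hprod e1 he1 e3 he3 n1 n3 b1 b3
  have m23 := hprod e2 he2 e3 he3 n2 n3 b2 b3
  have n12 : e1 * e2 ≠ 1 := by
    intro h
    apply h11
    have := congrArg (fun T : MulAut P => T x1) h
    simpa [MulAut.mul_apply, h21] using this
  have n13 : e1 * e3 ≠ 1 := by
    intro h
    apply h11
    have := congrArg (fun T : MulAut P => T x1) h
    simpa [MulAut.mul_apply, h31] using this
  have n23 : e2 * e3 ≠ 1 := by
    intro h
    apply h22
    have := congrArg (fun T : MulAut P => T x2) h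
    simpa [MulAut.mul_apply, h32] using this
  obtain ⟨g3, hg3⟩ := hdisj _ m12 n12
  obtain ⟨g2, hg2⟩ := hdisj _ m13 n13
  obtain ⟨g1, hg1⟩ := hdisj _ m23 n23
  have L3 := lemX hp hp2 hP s1 s2 s3 c12 c13 c23 h13 h23 h33 hg3
  have L2 := lemX hp hp2 hP s1 s3 s2 c13 c12 c23.symm h12 h32 h22 hg2
  have L1 := lemX hp hp2 hP s2 s3 s1 c23 c12.symm c13.symm h21 h31 h11 hg1
  obtain ⟨a21, a31, a11⟩ := L1 g1 (mem_zpowers g1)
  obtain ⟨a12, a32, a22⟩ := L2 g2 (mem_zpowers g2)
  obtain ⟨a13, a23, a33⟩ := L3 g3 (mem_zpowers g3)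
  -- the generators commute
  have k23 : g2 * g3 = g3 * g2 := comm_pair hp hp2 hP (a := e1) (τ := e2 * e3)
    (hsq _ (I.mul_mem he2 he3)) (hcomm _ he1 _ (I.mul_mem he2 he3)) hg1
    (fun y hy => (L1 y hy).2.2) g2 g3 a12 a13
  have k13 : g1 * g3 = g3 * g1 := comm_pair hp hp2 hP (a := e2) (τ := e1 * e3)
    (hsq _ (I.mul_mem he1 he3)) (hcomm _ he2 _ (I.mul_mem he1 he3)) hg2
    (fun y hy => (L2 y hy).2.2) g1 g3 a21 a23
  have k12 : g1 * g2 = g2 * g1 := comm_pair hp hp2 hP (a := e3) (τ := e1 * e2)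
    (hsq _ (I.mul_mem he1 he2)) (hcomm _ he3 _ (I.mul_mem he1 he2)) hg3
    (fun y hy => (L3 y hy).2.2) g1 g2 a31 a32
  -- generation
  have hgen : closure ({g1, g2, g3} : Set P) = ⊤ := by
    apply Helper27E8Gen.gen_aut hodd I hI (by omega)
    intro x hQ
    have hz : ∀ g ∈ ({g1, g2, g3} : Set P), zpowers g ≤ closure ({g1, g2, g3} : Set P) :=
      fun g hg => zpowers_le.mpr (subset_closure hg)
    by_cases q3 : (e1 * e2) x = x
    · exact hz g3 (by simp) ((hg3 x).mp q3)
    by_cases q2 : (e1 * e3) x = x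
    · exact hz g2 (by simp) ((hg2 x).mp q2)
    have := hQ _ (I.mul_mem he1 he2) _ (I.mul_mem he1 he3) q3 q2
    have e : e1 * e2 * (e1 * e3) = e2 * e3 := by
      calc e1 * e2 * (e1 * e3) = e1 * (e2 * e1) * e3 := by simp only [mul_assoc]
        _ = (e1 * e1) * e2 * e3 := by rw [← c12]; simp only [mul_assoc]
        _ = e2 * e3 := by rw [s1, one_mul]
    rw [e] at this
    exact hz g1 (by simp) ((hg1 x).mp this)
  -- commutativity
  have hcen : ∀ g ∈ ({g1, g2, g3} : Set P), ∀ y : P, y * g = g * y := by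
    intro g hg y
    have hle : closure ({g1, g2, g3} : Set P) ≤ centralizer {g} := by
      rw [closure_le]
      intro z hz
      rw [SetLike.mem_coe, mem_centralizer_singleton_iff]
      simp only [Set.mem_insert_iff, Set.mem_singleton_iff] at hg hz
      rcases hg with rfl | rfl | rfl <;> rcases hz with rfl | rfl | rfl <;>
        first | rfl | assumption | (symm; assumption)
    have : y ∈ centralizer {g} := hle (by rw [hgen]; exact mem_top y)
    exact mem_centralizer_singleton_iff.mp this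
  have hPc : ∀ x y : P, x * y = y * x := by
    intro x y
    have hle : closure ({g1, g2, g3} : Set P) ≤ centralizer {x} := by
      rw [closure_le]
      intro z hz
      rw [SetLike.mem_coe, mem_centralizer_singleton_iff]
      exact (hcen z hz x).symm
    have : y ∈ centralizer {x} := hle (by rw [hgen]; exact mem_top y)
    exact (mem_centralizer_singleton_iff.mp this).symm
  -- automorphisms are determined on the generators
  have hext : ∀ S T : MulAut P, S g1 = T g1 → S g2 = T g2 → S g3 = T g3 → S = T := by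
    intro S T q1 q2 q3
    have : S.toMonoidHom = T.toMonoidHom := by
      apply MonoidHom.eq_of_eqOn_dense hgen
      intro z hz
      simp only [Set.mem_insert_iff, Set.mem_singleton_iff] at hz
      rcases hz with rfl | rfl | rfl
      · exact q1
      · exact q2
      · exact q3
    ext z
    exact DFunLike.congr_fun this z
  have hsign : ∀ T ∈ I, (T g1 = g1 ∨ T g1 = g1⁻¹) ∧ (T g2 = g2 ∨ T g2 = g2⁻¹) ∧
      (T g3 = g3 ∨ T g3 = g3⁻¹) := by
    intro T hT
    refine ⟨fix_or_inv hp hp2 hP (hsq T hT) ?_, fix_or_inv hp hp2 hP (hsq T hT) ?_,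
      fix_or_inv hp hp2 hP (hsq T hT) ?_⟩
    · apply (hg1 _).mp
      rw [← MulAut.mul_apply, hcomm _ (I.mul_mem he2 he3) _ hT, MulAut.mul_apply,
        (hg1 g1).mpr (mem_zpowers g1)]
    · apply (hg2 _).mp
      rw [← MulAut.mul_apply, hcomm _ (I.mul_mem he1 he3) _ hT, MulAut.mul_apply,
        (hg2 g2).mpr (mem_zpowers g2)]
    · apply (hg3 _).mp
      rw [← MulAut.mul_apply, hcomm _ (I.mul_mem he1 he2) _ hT, MulAut.mul_apply,
        (hg3 g3).mpr (mem_zpowers g3)]
  have hEnum : ∀ T ∈ I, T = 1 ∨ T = e1 ∨ T = e2 ∨ T = e3 ∨ T = e1 * e2 ∨ T = e1 * e3 ∨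
      T = e2 * e3 ∨ T = e1 * e2 * e3 := by
    intro T hT
    obtain ⟨q1, q2, q3⟩ := hsign T hT
    rcases q1 with q1 | q1 <;> rcases q2 with q2 | q2 <;> rcases q3 with q3 | q3
    · left; apply hext <;> simp [q1, q2, q3]
    · right; right; right; left; apply hext <;> simp [q1, q2, q3, a31, a32, a33]
    · right; right; left; apply hext <;> simp [q1, q2, q3, a21, a22, a23]
    · right; right; right; right; right; right; left
      apply hext <;> simp [q1, q2, q3, a21, a22, a23, a31, a32, a33, MulAut.mul_apply]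
    · right; left; apply hext <;> simp [q1, q2, q3, a11, a12, a13]
    · right; right; right; right; right; left
      apply hext <;> simp [q1, q2, q3, a11, a12, a13, a31, a32, a33, MulAut.mul_apply]
    · right; right; right; right; left
      apply hext <;> simp [q1, q2, q3, a11, a12, a13, a21, a22, a23, MulAut.mul_apply]
    · right; right; right; right; right; right; right
      apply hext <;>
        simp [q1, q2, q3, a11, a12, a13, a21, a22, a23, a31, a32, a33, MulAut.mul_apply]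
  -- t inverts P
  have htinv : ∀ x : P, (e1 * e2 * e3) x = x⁻¹ := by
    intro x
    have hx : x ∈ closure ({g1, g2, g3} : Set P) := by rw [hgen]; exact mem_top x
    induction hx using closure_induction with
    | mem z hz =>
      simp only [Set.mem_insert_iff, Set.mem_singleton_iff] at hz
      rcases hz with rfl | rfl | rfl <;>
        simp [a11, a12, a13, a21, a22, a23, a31, a32, a33, MulAut.mul_apply]
    | one => simp
    | mul y z _ _ hy hz => rw [map_mul, hy, hz, mul_inv_rev, hPc]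
    | inv y _ hy => rw [map_inv, hy]
  have ct : ∃ g : P, ∀ x : P, ((e1 * e2 * e3) x = x ↔ x ∈ zpowers g) := by
    refine ⟨1, fun x => ?_⟩
    rw [htinv, zpowers_one_eq_bot, mem_bot]
    constructor
    · intro h; exact eq_one_of_eq_inv hp hp2 hP h.symm
    · rintro rfl; simp
  -- the broad elements
  have hbroad : {T : MulAut P | T ∈ I ∧ T ≠ 1 ∧
      ¬ ∃ g : P, ∀ x : P, (T x = x ↔ x ∈ Subgroup.zpowers g)} = {e1, e2, e3} := by
    ext T
    simp only [Set.mem_ofPred_eq, Set.mem_insert_iff, Set.mem_singleton_iff]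
    constructor
    · rintro ⟨hT, hT1, hTb⟩
      rcases hEnum T hT with rfl | rfl | rfl | rfl | rfl | rfl | rfl | rfl
      · exact absurd rfl hT1
      · exact Or.inl rfl
      · exact Or.inr (Or.inl rfl)
      · exact Or.inr (Or.inr rfl)
      · exact absurd ⟨g3, hg3⟩ hTb
      · exact absurd ⟨g2, hg2⟩ hTb
      · exact absurd ⟨g1, hg1⟩ hTb
      · exact absurd ct hTb
    · rintro (rfl | rfl | rfl)
      · exact ⟨he1, n1, b1⟩
      · exact ⟨he2, n2, b2⟩
      · exact ⟨he3, n3, b3⟩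
  have d12 : e1 ≠ e2 := by rintro rfl; exact h11 h21
  have d13 : e1 ≠ e3 := by rintro rfl; exact h11 h31
  have d23 : e2 ≠ e3 := by rintro rfl; exact h22 h32
  have gne : ∀ (g x : P) (T : MulAut P), x ∈ zpowers g → T x ≠ x → g ≠ 1 := by
    rintro g x T hx hT rfl
    rw [zpowers_one_eq_bot, mem_bot] at hx
    subst hx
    exact hT (map_one T)
  refine ⟨⟨⟨hPc⟩⟩, ⟨g1, g2, g3, hgen⟩, ?_, ?_, ?_, ?_⟩
  · exact Helper27E8Rank.not_two_gen hp hp2 hP hPc e2 e3 g1 g2 g3
      (gne g1 x1 e1 ((hg1 x1).mp (by rw [MulAut.mul_apply, h31, h21])) h11)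
      (gne g2 x2 e2 ((hg2 x2).mp (by rw [MulAut.mul_apply, h32, h12])) h22)
      (gne g3 x3 e3 ((hg3 x3).mp (by rw [MulAut.mul_apply, h23, h13])) h33)
      a21 a22 a31 a32 a33
  · change Nat.card ↥{T : MulAut P | T ∈ I ∧ T ≠ 1 ∧
      ¬ ∃ g : P, ∀ x : P, (T x = x ↔ x ∈ Subgroup.zpowers g)} = 3
    rw [hbroad, Nat.card_coe_set_eq, Set.ncard_eq_three]
    exact ⟨e1, e2, e3, d12, d13, d23, rfl⟩
  · rw [hbroad]
    apply le_antisymm
    · rw [closure_le]
      intro T hT
      simp only [Set.mem_insert_iff, Set.mem_singleton_iff] at hT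
      rcases hT with rfl | rfl | rfl <;> assumption
    · intro T hT
      have i1 : e1 ∈ closure ({e1, e2, e3} : Set (MulAut P)) := subset_closure (by simp)
      have i2 : e2 ∈ closure ({e1, e2, e3} : Set (MulAut P)) := subset_closure (by simp)
      have i3 : e3 ∈ closure ({e1, e2, e3} : Set (MulAut P)) := subset_closure (by simp)
      rcases hEnum T hT with rfl | rfl | rfl | rfl | rfl | rfl | rfl | rfl
      · exact one_mem _
      · exact i1
      · exact i2
      · exact i3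
      · exact mul_mem i1 i2
      · exact mul_mem i1 i3
      · exact mul_mem i2 i3
      · exact mul_mem (mul_mem i1 i2) i3
  · ext S
    simp only [SetLike.mem_coe, Set.mem_ofPred_eq]
    constructor
    · intro hS
      rcases hEnum S (hI₀.le hS) with rfl | rfl | rfl | rfl | rfl | rfl | rfl | rfl
      · exact ⟨e1, e1, he1, he1, n1, n1, b1, b1, s1.symm⟩
      · exact absurd (hdisj _ hS n1) b1
      · exact absurd (hdisj _ hS n2) b2
      · exact absurd (hdisj _ hS n3) b3
      · exact ⟨e1, e2, he1, he2, n1, n2, b1, b2, rfl⟩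
      · exact ⟨e1, e3, he1, he3, n1, n3, b1, b3, rfl⟩
      · exact ⟨e2, e3, he2, he3, n2, n3, b2, b3, rfl⟩
      · exfalso
        have h := I₀.mul_mem hS m23
        have e : e1 * e2 * e3 * (e2 * e3) = e1 := by
          rw [mul_assoc e1 e2 e3, mul_assoc, hsq _ (I.mul_mem he2 he3), mul_one]
        rw [e] at h
        exact b1 (hdisj _ h n1)
    · rintro ⟨T, T', hT, hT', hT1, hT'1, hb, hb', rfl⟩
      exact hprod T hT T' hT' hT1 hT'1 hb hb'

end Cfsg.Agent.S4412
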