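import Cfsg.Statements.S5432
import Cfsg.Agent.Lib.Helper91ES4

set_option autoImplicit false
open Cfsg

namespace Cfsg.Agent.S5432

open Cfsg.Agent.Lib.Helper91ES Cfsg.Agent.Lib.Helper91ES2 Cfsg.Agent.Lib.Helper91ES4 Cfsg.Agent.S5396

/-- Let E be an extraspecial 2-group of order 2^(2n+1), n ≥ 1. If E contains an elementary abelian subgroup of order 2^(n+1) (plus type), then its outer automorphism group is isomorphic to the full isometry group of the hyperbolic quadratic form in dimension 2n over the field with two elements; otherwise (minus type) it is isomorphic to the full isometry group of the elliptic quadratic form in dimension 2n over that field. -/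
theorem result {E : Type*} [Group E] [Finite E] (hE : Cfsg.IsExtraspecial 2 E) (n : ℕ) (hn : 1 ≤ n) (hcard : Nat.card E = 2 ^ (2 * n + 1)) : ((∃ A : Subgroup E, Cfsg.IsElementaryAbelian 2 A ∧ Nat.card ↥A = 2 ^ (n + 1)) → Nonempty (Cfsg.Out E ≃* Cfsg.isometryGroup (ZMod 2) (Cfsg.quadFormPlus n (ZMod 2)))) ∧ ((¬ ∃ A : Subgroup E, Cfsg.IsElementaryAbelian 2 A ∧ Nat.card ↥A = 2 ^ (n + 1)) → Nonempty (Cfsg.Out E ≃* Cfsg.isometryGroup (ZMod 2) (Cfsg.quadFormMinus (n - 1) (ZMod 2) 1 1))) := by
  obtain ⟨m, hm, hcard', hcases⟩ := classify hE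
  have hmn : m = n := by
    rw [hcard] at hcard'
    have := Nat.pow_right_injective (le_refl 2) hcard'
    omega
  subst hmn
  rcases hcases with ⟨⟨e⟩⟩ | ⟨⟨e⟩⟩
  · constructor
    · intro _
      have h1 := out_equiv_of_model hE (bPlus m) (bPlus_nondeg m) e
      have h2 : (fun u => bPlus m u u) = Cfsg.quadFormPlus m (ZMod 2) := funext (bPlus_self m)
      rw [h2] at h1
      exact h1
    · intro hno
      exfalso
      apply hno
      obtain ⟨⟨U, hU, hfr⟩, -, -, -⟩ := Cfsg.Agent.S2562.result m hm
      have hel := elem_overS (β := bPlus m) (U := U) hU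
      refine ⟨(overS (bPlus m) U).map e.symm.toMonoidHom, ⟨?_, ?_⟩, ?_⟩
      · have := hel.1
        infer_instance
      · rintro _ ⟨a, ha, rfl⟩
        show e.symm a ^ 2 = 1
        rw [← map_pow, hel.2 a ha, map_one]
      · rw [Subgroup.card_map_of_injective e.symm.injective, card_overS,
          Module.natCard_eq_pow_finrank (K := ZMod 2) (V := U), hfr]
        simp [pow_succ, mul_comm]
  · constructor
    · rintro ⟨A, hA, hAc⟩
      exfalso
      have h1 := prankLE_of_equiv e (prank_minus m hm).1 A hA.1 hA.2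
      rw [hAc] at h1
      have := Nat.pow_lt_pow_right (a := 2) (by norm_num) (Nat.lt_succ_self m)
      omega
    · intro _
      have h1 := out_equiv_of_model hE (bMinus (m - 1)) (bMinus_nondeg (m - 1)) e
      have h2 : (fun u => bMinus (m - 1) u u) = Cfsg.quadFormMinus (m - 1) (ZMod 2) 1 1 :=
        funext (bMinus_self (m - 1))
      rw [h2] at h1
      exact h1

end Cfsg.Agent.S5432
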