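import Cfsg.Statements.S4413
import Cfsg.Agent.S5432
import Cfsg.Agent.S0824

set_option autoImplicit false
open Cfsg

namespace Cfsg.Agent.S4413

/-- Let P be an extraspecial 2-group of order 32 with no elementary abelian subgroup of order 8 (the central product of a dihedral and a quaternion group of order 8). Then the inner automorphism group of P has order 16 and the outer automorphism group Aut(P)/Inn(P) is isomorphic to the symmetric group of degree 5; in particular Aut(P) has order 1920. -/
theorem result {P : Type*} [Group P] [Finite P]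
    (hex : Cfsg.IsExtraspecial 2 P) (h32 : Nat.card P = 32)
    (hminus : ∀ A : Subgroup P, Cfsg.IsElementaryAbelian 2 A → Nat.card ↥A ≤ 4)
    [(MulAut.conj : P →* MulAut P).range.Normal] :
    Nat.card ↥(MulAut.conj : P →* MulAut P).range = 16 ∧ Nat.card (MulAut P) = 1920 ∧
      Nonempty ((MulAut P ⧸ (MulAut.conj : P →* MulAut P).range) ≃* Equiv.Perm (Fin 5)) := by
  have hker : (MulAut.conj : P →* MulAut P).ker = Subgroup.center P := by
    ext g
    rw [MonoidHom.mem_ker, Subgroup.mem_center_iff]
    constructor
    · intro h x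
      have h1 := congrArg (fun α : MulAut P => α x) h
      simp only [MulAut.conj_apply, MulAut.one_apply] at h1
      rw [mul_inv_eq_iff_eq_mul] at h1
      exact h1.symm
    · intro h
      ext x
      rw [MulAut.conj_apply, MulAut.one_apply, mul_inv_eq_iff_eq_mul]
      exact (h x).symm
  have h16 : Nat.card ↥(MulAut.conj : P →* MulAut P).range = 16 := by
    rw [← Subgroup.index_ker, hker]
    have h1 := Subgroup.card_mul_index (Subgroup.center P)
    rw [hex.2, h32] at h1
    omega
  obtain ⟨e1⟩ := (Cfsg.Agent.S5432.result hex 2 (by norm_num) (by rw [h32]; norm_num)).2 (by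
    rintro ⟨A, hA, hAc⟩
    have := hminus A hA
    rw [hAc] at this
    norm_num at this)
  obtain ⟨e2⟩ := Cfsg.Agent.S0824.result (F := ZMod 2) (by simp)
  have e3 : (MulAut P ⧸ (MulAut.conj : P →* MulAut P).range) ≃* Equiv.Perm (Fin 5) := e1.trans e2
  refine ⟨h16, ?_, ⟨e3⟩⟩
  have h1 := Subgroup.card_mul_index (MulAut.conj : P →* MulAut P).range
  rw [h16, Subgroup.index_eq_card, Nat.card_congr e3.toEquiv, Nat.card_eq_fintype_card,
    Fintype.card_perm, Fintype.card_fin] at h1
  rw [← h1]
  rfl

end Cfsg.Agent.S4413
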