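import Cfsg.Statements.S4414
import Cfsg.Agent.Lib.H24TNDefs
import Cfsg.Agent.Lib.H24TNGrp
import Cfsg.Agent.Lib.H24TNSysD
import Cfsg.Agent.Lib.H24TNComb
import Cfsg.Agent.Lib.H24TNTransfer
import Cfsg.Agent.Lib.H24TNSec8

set_option autoImplicit false
open Cfsg

namespace Cfsg.Agent.S4414

/-- Let S be a finite solvable group whose order is divisible only by the primes 2, p, q (p, q distinct odd primes), with a Sylow system S₂, S_p, S_q (pairwise permutable Sylow subgroups) such that: S_p is a minimal normal subgroup of S of order p or p²; S_q has order q and [S_p, S_q] = S_p; and O₂(S) = 1. Let E be an irreducible module for S over the field with two elements on which S_p acts faithfully, and E₀ the subspace of fixed points of S₂. Then either E₀ has at least 8 elements, or E₀ has exactly 4 elements and S_q does not leave E₀ invariant. -/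
theorem result {S : Type*} [Group S] [Finite S]
    [Group.IsSolvable S] (p q : ℕ) (hp : p.Prime) (hq : q.Prime) (hp2 : p ≠ 2) (hq2 : q ≠ 2) (hpq : p ≠ q)
    (hπ : ∀ r : ℕ, r.Prime → r ∣ Nat.card S → r = 2 ∨ r = p ∨ r = q)
    (S₂ : Sylow 2 S) (Sp : Sylow p S) (Sq : Sylow q S)
    (h2q : Nat.card ↥((S₂ : Subgroup S) ⊔ (Sq : Subgroup S)) = Nat.card ↥S₂ * Nat.card ↥Sq)
    (h2p : Nat.card ↥((S₂ : Subgroup S) ⊔ (Sp : Subgroup S)) = Nat.card ↥S₂ * Nat.card ↥Sp)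
    (hpq' : Nat.card ↥((Sp : Subgroup S) ⊔ (Sq : Subgroup S)) = Nat.card ↥Sp * Nat.card ↥Sq)
    (hSpN : (Sp : Subgroup S).Normal) (hSpmin : ∀ N : Subgroup S, N.Normal → N ≤ (Sp : Subgroup S) → N = ⊥ ∨ N = (Sp : Subgroup S))
    (hSpcard : Nat.card ↥Sp = p ∨ Nat.card ↥Sp = p ^ 2)
    (hSq : Nat.card ↥Sq = q) (hcomm : ⁅(Sp : Subgroup S), (Sq : Subgroup S)⁆ = (Sp : Subgroup S))
    (hO2 : Cfsg.pCore 2 S = ⊥)
    {E : Type*} [AddCommGroup E] [Module (ZMod 2) E] [Finite E] (ρ : Representation (ZMod 2) S E) (hE : Nontrivial E)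
    (hirr : ∀ N : Submodule (ZMod 2) E, (∀ s : S, ∀ m ∈ N, ρ s m ∈ N) → N = ⊥ ∨ N = ⊤)
    (hfaith : ∀ x ∈ (Sp : Subgroup S), ρ x = 1 → x = 1) :
    8 ≤ Nat.card {v : E // ∀ s ∈ (S₂ : Subgroup S), ρ s v = v} ∨
      (Nat.card {v : E // ∀ s ∈ (S₂ : Subgroup S), ρ s v = v} = 4 ∧
        ∃ x ∈ (Sq : Subgroup S), ∃ v : E, (∀ s ∈ (S₂ : Subgroup S), ρ s v = v) ∧ ¬ ∀ s ∈ (S₂ : Subgroup S), ρ s (ρ x v) = ρ x v) := by
  classical
  obtain ⟨hPc, hPe⟩ := Cfsg.Agent.Lib.H24TNGrp.abelian_exp p hp (Sp : Subgroup S) hSpN hSpmin hSpcard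
  obtain ⟨y, hyq, hyS⟩ := Cfsg.Agent.Lib.H24TNGrp.exists_gen q hq (Sq : Subgroup S) hSq
  have hP1 : (Sp : Subgroup S) ≠ ⊥ := by
    intro h0
    have h1 : Nat.card ↥(Sp : Subgroup S) = 1 := by rw [h0]; exact Subgroup.card_bot
    rcases hSpcard with h | h
    · have h2 : (1 : ℕ) = p := h1.symm.trans h
      exact hp.one_lt.ne h2
    · have h2 : (1 : ℕ) = p ^ 2 := h1.symm.trans h
      have := Nat.one_lt_pow (n := 2) (by norm_num) hp.one_lt
      omega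
  have hctx : Cfsg.Agent.Lib.H24TNDefs.Ctx ρ (Sp : Subgroup S) (S₂ : Subgroup S) y p q :=
    { pp := hp
      p2 := hp2
      qp := hq
      q2 := hq2
      Pn := hSpN
      Pcomm := hPc
      Pexp := hPe
      Pcard := hSpcard
      X2 := S₂.2
      yq := hyq
      Kcard := by rw [hyS, h2q, hSq]; rfl
      fpf := Cfsg.Agent.Lib.H24TNGrp.fpf_all q hq (Sp : Subgroup S) hSpN hPc Sq hSq hcomm
      CP := Cfsg.Agent.Lib.H24TNGrp.cp_zero ρ (Sp : Subgroup S) hSpN hP1 hirr hfaith }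
  have hs := Cfsg.Agent.Lib.H24TNSysD.sysD hctx
  have hyS' : y ∈ (Sq : Subgroup S) := by rw [← hyS]; exact Subgroup.mem_zpowers y
  have hA : ∀ D : Subgroup S, Cfsg.Agent.Lib.H24TNDefs.eD ρ (Sp : Subgroup S) p D ≠ 0 →
      Cfsg.Agent.Lib.H24TNDefs.cj y D = D →
      8 ≤ Nat.card {v : E // ∀ x ∈ (S₂ : Subgroup S), ρ x v = v} := by
    intro D hD hy
    have ht := Cfsg.Agent.Lib.H24TNTransfer.transfer hs (S₂ : Subgroup S) D
    by_cases hpred : D ≤ (Sp : Subgroup S) ∧ Nat.card D * p = Nat.card (Sp : Subgroup S)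
    · have he : Cfsg.Agent.Lib.H24TNDefs.eD ρ (Sp : Subgroup S) p D
          = Cfsg.Agent.Lib.H24FMDefs.avg ρ D := by
        unfold Cfsg.Agent.Lib.H24TNDefs.eD
        rw [if_pos hpred]
      rw [he] at hD ht
      exact le_trans (Cfsg.Agent.Lib.H24TNSec8.sec8 hctx D hpred.1 hpred.2 hD hy) ht
    · exfalso
      apply hD
      unfold Cfsg.Agent.Lib.H24TNDefs.eD
      rw [if_neg hpred]
  have hyq' : y ^ q = 1 := by rw [← hyq]; exact pow_orderOf_eq_one y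
  rcases Cfsg.Agent.Lib.H24TNComb.comb ρ Cfsg.Agent.Lib.H24TNDefs.cj
      (Cfsg.Agent.Lib.H24TNDefs.eD ρ (Sp : Subgroup S) p) hs (S₂ : Subgroup S) S₂.2 y q hq hq2 hyq' hA
    with h | ⟨h4, v, hv, hnv⟩
  · exact Or.inl h
  · exact Or.inr ⟨h4, y, hyS', v, hv, hnv⟩

end Cfsg.Agent.S4414
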