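import Cfsg.Statements.S4420
-- import your own Cfsg.Agent.* helpers here

set_option autoImplicit false
open Cfsg

namespace Cfsg.Agent.S4420

variable {H : Type*} [Group H]

theorem inverts (A : Subgroup H) (hD : ∀ x : H, x ∉ A → x ^ 2 = 1) (t : H) (ht : t ∉ A) (a : H) (ha : a ∈ A) :
    t * a * t⁻¹ = a⁻¹ := by
  have hta : t * a ∉ A := fun h => ht (by simpa using A.mul_mem h (A.inv_mem ha))
  have h1 := hD _ hta
  have h2 := hD _ ht
  have h3 : t⁻¹ = t := by
    rw [inv_eq_iff_mul_eq_one, ← pow_two]; exact h2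
  rw [h3, eq_inv_iff_mul_eq_one]
  rw [pow_two] at h1
  simpa [mul_assoc] using h1

theorem eq_centralizer (A : Subgroup H) (hA : A ≠ ⊤) (hD : ∀ x : H, x ∉ A → x ^ 2 = 1) (a₀ : H) (ha₀ : a₀ ^ 2 ≠ 1) :
    ∀ x : H, x ∈ A ↔ x * a₀ = a₀ * x := by
  have ha₀A : a₀ ∈ A := by
    by_contra h
    exact ha₀ (hD _ h)
  obtain ⟨t, ht⟩ : ∃ t : H, t ∉ A := by
    by_contra h
    push Not at h
    exact hA (eq_top_iff.mpr fun x _ => h x)
  intro x
  constructor
  · intro hx
    have h1 := inverts A hD t ht x hx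
    have h2 := inverts A hD t ht a₀ ha₀A
    have h3 := inverts A hD t ht (x * a₀) (A.mul_mem hx ha₀A)
    have h4 : t * (x * a₀) * t⁻¹ = (t * x * t⁻¹) * (t * a₀ * t⁻¹) := by group
    rw [h4, h1, h2, ← mul_inv_rev] at h3
    exact (inv_injective h3).symm
  · intro hx
    by_contra hxA
    have h1 := inverts A hD x hxA a₀ ha₀A
    rw [hx, mul_inv_cancel_right] at h1
    apply ha₀
    rw [pow_two]
    calc a₀ * a₀ = a₀ * a₀⁻¹ := by rw [← h1]
      _ = 1 := mul_inv_cancel _


/-- Structure of groups in which every element outside some proper subgroup has square 1. Let H be a finite group with a proper subgroup A such that every element outside A has square 1. Then H has an abelian normal subgroup B of index 2 such that every element outside B is an involution inverting every element of B; and if H is not an elementary abelian 2-group, B is the only abelian normal subgroup of index 2 with this property. -/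
theorem result {H : Type*} [Group H] [Finite H] (A : Subgroup H) (hA : A ≠ ⊤) (hD : ∀ x : H, x ∉ A → x ^ 2 = 1) :
    ∃ B : Subgroup H, B.Normal ∧ IsMulCommutative ↥B ∧ B.index = 2 ∧
      (∀ x : H, x ∉ B → x ^ 2 = 1 ∧ ∀ b ∈ B, x * b * x⁻¹ = b⁻¹) ∧
      (¬ (IsMulCommutative H ∧ ∀ x : H, x ^ 2 = 1) →
        ∀ B' : Subgroup H, B'.Normal → IsMulCommutative ↥B' → B'.index = 2 →
          (∀ x : H, x ∉ B' → x ^ 2 = 1 ∧ ∀ b ∈ B', x * b * x⁻¹ = b⁻¹) → B' = B) := by
  by_cases hel : ∀ x : H, x ^ 2 = 1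
  · -- elementary abelian case
    have hcomm : ∀ a b : H, a * b = b * a := by
      intro a b
      have h1 := hel a
      have h2 := hel b
      have h3 := hel (a * b)
      have ha : a⁻¹ = a := by rw [inv_eq_iff_mul_eq_one, ← pow_two]; exact h1
      have hb : b⁻¹ = b := by rw [inv_eq_iff_mul_eq_one, ← pow_two]; exact h2
      have hab : (a * b)⁻¹ = a * b := by rw [inv_eq_iff_mul_eq_one, ← pow_two]; exact h3
      rw [← hab, mul_inv_rev, ha, hb]
    have hp : IsPGroup 2 H := fun g => ⟨1, by simpa using hel g⟩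
    obtain ⟨n, hn⟩ := IsPGroup.iff_card.mp hp
    have hn0 : n ≠ 0 := by
      rintro rfl
      rw [pow_zero, Nat.card_eq_one_iff_unique] at hn
      obtain ⟨hs, _⟩ := hn
      apply hA
      rw [eq_top_iff]
      intro x _
      rw [Subsingleton.elim x 1]
      exact A.one_mem
    obtain ⟨k, rfl⟩ := Nat.exists_eq_succ_of_ne_zero hn0
    have : Fact (Nat.Prime 2) := ⟨Nat.prime_two⟩
    obtain ⟨B, hB⟩ := Sylow.exists_subgroup_card_pow_prime (G := H) 2 (n := k) (by rw [hn]; exact pow_dvd_pow 2 (Nat.le_succ k))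
    have hidx : B.index = 2 := by
      have h := B.card_mul_index
      rw [hB, hn, pow_succ] at h
      exact Nat.eq_of_mul_eq_mul_left (pow_pos (by norm_num) k) h
    refine ⟨B, Subgroup.normal_of_index_eq_two hidx, ⟨⟨fun a b => Subtype.ext (hcomm _ _)⟩⟩, hidx, ?_, ?_⟩
    · intro x _
      refine ⟨hel x, fun b _ => ?_⟩
      rw [hcomm x b, mul_inv_cancel_right, eq_inv_iff_mul_eq_one, ← pow_two]
      exact hel b
    · intro hne
      exact absurd ⟨⟨⟨hcomm⟩⟩, hel⟩ hne
  · push Not at hel
    obtain ⟨a₀, ha₀⟩ := hel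
    have hcen := eq_centralizer A hA hD a₀ ha₀
    have ha₀A : a₀ ∈ A := (hcen a₀).mpr rfl
    obtain ⟨t, ht⟩ : ∃ t : H, t ∉ A := by
      by_contra h
      push Not at h
      exact hA (eq_top_iff.mpr fun x _ => h x)
    have hidx : A.index = 2 := by
      rw [Subgroup.index_eq_two_iff]
      refine ⟨t, fun b => ?_⟩
      by_cases hb : b ∈ A
      · refine Or.inr ⟨hb, fun h => ht ?_⟩
        simpa using A.mul_mem (A.inv_mem hb) h
      · refine Or.inl ⟨?_, hb⟩
        rw [hcen]
        have h1 := inverts A hD t ht a₀ ha₀A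
        have h2 := inverts A hD b hb a₀⁻¹ (A.inv_mem ha₀A)
        rw [inv_inv] at h2
        have h3 : b * t * a₀ = (b * (t * a₀ * t⁻¹) * b⁻¹) * (b * t) := by group
        rw [h3, h1, h2]
    have hAcomm : ∀ a ∈ A, ∀ b ∈ A, a * b = b * a := by
      intro a ha b hb
      have h1 := inverts A hD t ht a ha
      have h2 := inverts A hD t ht b hb
      have h3 := inverts A hD t ht (a * b) (A.mul_mem ha hb)
      have h4 : t * (a * b) * t⁻¹ = (t * a * t⁻¹) * (t * b * t⁻¹) := by group
      rw [h4, h1, h2, ← mul_inv_rev] at h3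
      exact (inv_injective h3).symm
    refine ⟨A, Subgroup.normal_of_index_eq_two hidx, ⟨⟨fun a b => Subtype.ext (hAcomm _ a.2 _ b.2)⟩⟩, hidx, ?_, ?_⟩
    · intro x hx
      exact ⟨hD x hx, fun b hb => inverts A hD x hx b hb⟩
    · intro _ B' _ _ hB'idx hB'
      have hB'top : B' ≠ ⊤ := by
        rintro rfl
        simp at hB'idx
      have hcen' := eq_centralizer B' hB'top (fun x hx => (hB' x hx).1) a₀ ha₀
      ext x
      rw [hcen, hcen']

end Cfsg.Agent.S4420
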