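import Cfsg.Statements.S4429
import Mathlib
import Cfsg.Agent.Lib.Helper77M11b

set_option autoImplicit false
open Cfsg

namespace Cfsg.Agent.S4429

/-- Let G be a simple group of order 7920. Then G has exactly ten irreducible complex characters, and their degrees, listed with multiplicity, are 1, 10, 10, 10, 11, 16, 16, 44, 45, 55: for every natural number n, the number of irreducible characters of degree n is 1 if n ∈ {1, 11, 44, 45, 55}, 3 if n = 10, 2 if n = 16, and 0 otherwise. -/
theorem result {G : Type*} [Group G] [Finite G] [IsSimpleGroup G] (hG : Nat.card G = 7920) : Nat.card (Cfsg.IrrCharacter G) = 10 ∧ ∀ n : ℕ, Nat.card {χ : Cfsg.IrrCharacter G // Cfsg.charDegree (χ : G → ℂ) = n} = (if n = 1 ∨ n = 11 ∨ n = 44 ∨ n = 45 ∨ n = 55 then 1 else if n = 10 then 3 else if n = 16 then 2 else 0) := by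
  classical
  let _ : Fintype G := Fintype.ofFinite G
  obtain ⟨hall, h1, h10, h12, h45, h5, h16, h60, h6, h72, h11, h22, h33, h44, h55, h66, h88⟩ :=
    Cfsg.Agent.Lib.Helper77M11b.degrees hG
  constructor
  · have h := Cfsg.Agent.Lib.Helper77M11a.card_filter_deg (G := G)
      ({1, 10, 12, 45, 5, 16, 60, 6, 72, 11, 22, 33, 44, 55, 66, 88} : Finset ℕ)
    rw [Finset.filter_true_of_mem (fun χ _ => hall χ)] at h
    norm_num [Finset.sum_insert, h1, h10, h12, h45, h5, h16, h60, h6, h72, h11, h22, h33, h44,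
      h55, h66, h88] at h
    rw [Nat.card_eq_fintype_card]
    exact_mod_cast h
  · intro n
    rw [Cfsg.Agent.Lib.Helper77M11a.natCard_eq_cnt]
    by_cases hn : n ∈ ({1, 10, 12, 45, 5, 16, 60, 6, 72, 11, 22, 33, 44, 55, 66, 88} : Finset ℕ)
    · simp only [Finset.mem_insert, Finset.mem_singleton] at hn
      rcases hn with rfl | rfl | rfl | rfl | rfl | rfl | rfl | rfl | rfl | rfl | rfl | rfl | rfl |
        rfl | rfl | rfl <;> simp [*]
    · rw [Cfsg.Agent.Lib.Helper77M11a.cnt_eq_zero n (fun χ h => hn (h ▸ hall χ))]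
      simp only [Finset.mem_insert, Finset.mem_singleton, not_or] at hn
      obtain ⟨a1, a10, a12, a45, a5, a16, a60, a6, a72, a11, a22, a33, a44, a55, a66, a88⟩ := hn
      simp [*]

end Cfsg.Agent.S4429
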