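import Cfsg.Statements.S4492
import Cfsg.Agent.Lib.Helper21PS
import Cfsg.Agent.Lib.Helper14PConstr
import Cfsg.Agent.Lib.Helper14HH
import Cfsg.Agent.Lib.Helper14PSolvQ

set_option autoImplicit false
open Cfsg

namespace Cfsg.Agent.S4492

/-- Let G be a finite p-solvable group, N = O_{p'}(G) its largest normal subgroup of order prime to p, and θ an irreducible character of N invariant under conjugation by G; fix a maximal ideal M of the algebraic integers containing p. Then the irreducible characters of G lying over θ (those whose restriction to N contains θ) form a single p-block of G, and the defect groups of that block are exactly the Sylow p-subgroups of G. -/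
theorem result {G : Type*} [Group G] [Fintype G] (p : ℕ) [Fact p.Prime] (M : Ideal Cfsg.AlgInt) (hM : Cfsg.IsPModular p M) (hsolv : Cfsg.IsPSolvable p G) (N : Subgroup G) [hN : N.Normal] [Fintype N] (hNdef : N = Cfsg.pPrimeCore p G) (θ : Cfsg.IrrCharacter N) (hinv : ∀ (g : G) (n : N), (θ : N → ℂ) ⟨g * n * g⁻¹, hN.conj_mem n n.2 g⟩ = (θ : N → ℂ) n) : ∃ B : Set (Cfsg.IrrCharacter G), Cfsg.IsPBlock M B ∧ (∀ χ : Cfsg.IrrCharacter G, χ ∈ B ↔ Cfsg.classInner (fun n : N => (χ : G → ℂ) n) (θ : N → ℂ) ≠ 0) ∧ (∀ P : Sylow p G, Cfsg.IsDefectGroup p M B (P : Subgroup G)) ∧ ∀ D : Subgroup G, Cfsg.IsDefectGroup p M B D → ∃ P : Sylow p G, D = (P : Subgroup G) := by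
  classical
  subst hNdef
  have hp : p.Prime := Fact.out
  have hLn : (pPrimePCore p G).Normal := by unfold pPrimePCore; infer_instance
  have hcon : IsPConstrained p G :=
    Cfsg.Agent.Lib.Helper14PConstr.isPConstrained_iff.mpr
      (Cfsg.Agent.Lib.Helper14HH.centralizer_pCore_le
        (Cfsg.Agent.Lib.Helper14PSolvQ.isPSolvable_quotient _ hsolv)
        (Cfsg.Agent.Lib.Helper14CoreB.pPrimeCore_quotient_eq_bot p))
  have hNp : ¬ p ∣ Nat.card (pPrimeCore p G) := by
    intro h
    have h1 := Cfsg.Agent.Lib.Helper14CoreB.card_pPrimeCore_coprime (G := G) p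
    exact hp.one_lt.ne' (Nat.eq_one_of_dvd_coprimes h1 h dvd_rfl)
  have hNL : pPrimeCore p G ≤ pPrimePCore p G := by
    intro x hx
    unfold pPrimePCore
    rw [Subgroup.mem_comap]
    have : QuotientGroup.mk' (pPrimeCore p G) x = 1 := (QuotientGroup.eq_one_iff x).2 hx
    rw [this]
    exact Subgroup.one_mem _
  have hreg : ∀ l ∈ pPrimePCore p G, ¬ p ∣ orderOf l → l ∈ pPrimeCore p G := by
    intro l hl hpl
    unfold pPrimePCore at hl
    rw [Subgroup.mem_comap] at hl
    obtain ⟨k, hk⟩ := (Cfsg.Agent.Lib.Helper14CoreB.pCore_isPGroup (G := G ⧸ pPrimeCore p G) p)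
      ⟨_, hl⟩
    have hk' : (QuotientGroup.mk' (pPrimeCore p G) l) ^ p ^ k = 1 := by
      have := congrArg Subtype.val hk
      simpa using this
    have h2 : (QuotientGroup.mk' (pPrimeCore p G) l) ^ orderOf l = 1 := by
      rw [← map_pow, pow_orderOf_eq_one, map_one]
    have h3 : (p ^ k).Coprime (orderOf l) :=
      Nat.Coprime.pow_left k ((Nat.Prime.coprime_iff_not_dvd hp).2 hpl)
    have h4 := Cfsg.Agent.Lib.Helper14HH.eq_one_of_pow_coprime hk' h2 h3
    exact (QuotientGroup.eq_one_iff l).1 h4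
  have hC : ∀ Q : Subgroup G, Q ≤ pPrimePCore p G →
      Nat.card Q = p ^ (Nat.card (pPrimePCore p G)).factorization p →
      Subgroup.centralizer (Q : Set G) ≤ pPrimePCore p G := by
    intro Q hQL hQc
    have h1 : Nat.card (Q.subgroupOf (pPrimePCore p G))
        = p ^ (Nat.card (pPrimePCore p G)).factorization p := by
      rw [← hQc]
      exact Nat.card_congr (Subgroup.subgroupOfEquivOfLe hQL).toEquiv
    have h2 := hcon (Sylow.ofCard _ h1)
    rw [Sylow.coe_ofCard, Subgroup.subgroupOf_map_subtype, inf_eq_left.2 hQL] at h2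
    exact h2
  have hinv' : ∀ g : G, Cfsg.Agent.Lib.Helper21Cover.cjI hN θ g = θ := by
    intro g
    apply Subtype.ext
    funext n
    exact hinv g n
  obtain ⟨B, hB, hmem, hd⟩ := Cfsg.Agent.Lib.Helper21PS.block_over_invariant hM
    (pPrimeCore p G) (pPrimePCore p G) hNp hNL hreg hC θ hinv'
  have h := Cfsg.Agent.Lib.Helper21PS.sylow_defect hM hB hd
  exact ⟨B, hB, hmem, h.1, h.2⟩

end Cfsg.Agent.S4492
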