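import Cfsg.Statements.S4439
import Mathlib
import Cfsg.Agent.S1491
import Cfsg.Agent.S0887
import Cfsg.Agent.S4492
import Cfsg.Agent.Lib.Helper21Cover
import Cfsg.Agent.Lib.Helper21FR2
import Cfsg.Agent.Lib.Helper20Conj
import Cfsg.Agent.Lib.Helper32Ind
import Cfsg.Agent.Lib.Helper81BB
import Cfsg.Agent.Lib.Helper14HH
import Cfsg.Agent.Lib.Helper14PSolvQ
import Cfsg.Agent.Lib.Helper14PSolvS
import Cfsg.Agent.Lib.Helper14CoreB
import Cfsg.Agent.Lib.Helper40Cores

set_option autoImplicit false
open Cfsg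

namespace Cfsg.Agent.S4439

open Cfsg.Agent.Lib Cfsg.Agent.Lib.Helper21Cover

theorem group_part {G : Type*} [Group G] [Finite G] (p : ℕ) [Fact p.Prime]
    (hsolv : IsPSolvable p G) (P : Sylow p G) :
    ∃ A : Subgroup G, A.Normal ∧ pPrimeCore p G ≤ A ∧
      (∃ m : ℕ, (pPrimeCore p G).relIndex A = p ^ m) ∧
      (∀ x ∈ A, ∀ y ∈ A, x * y * x⁻¹ * y⁻¹ ∈ pPrimeCore p G) ∧
      A.index.factorization p ≤ ((Subgroup.center (P : Subgroup G)).index).factorization p := by
  classical
  have hKn : (pPrimeCore p G).Normal := Helper40Cores.pPrimeCore_normal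
  set K := pPrimeCore p G with hK
  have hRn : (pCore p (G ⧸ K)).Normal := Helper40Cores.pCore_normal
  set R := pCore p (G ⧸ K) with hR
  have hCR : Subgroup.centralizer (R : Set (G ⧸ K)) ≤ R :=
    Helper14HH.centralizer_pCore_le (Helper14PSolvQ.isPSolvable_quotient _ hsolv)
      (Helper14CoreB.pPrimeCore_quotient_eq_bot p)
  set Z := R ⊓ Subgroup.centralizer (R : Set (G ⧸ K)) with hZ
  have hsurj : Function.Surjective (QuotientGroup.mk' K) := QuotientGroup.mk'_surjective K
  have hZp : IsPGroup p Z := (Helper14CoreB.pCore_isPGroup p).to_le inf_le_left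
  have hKA : K ≤ Z.comap (QuotientGroup.mk' K) := by
    intro x hx
    rw [Subgroup.mem_comap]
    have : QuotientGroup.mk' K x = 1 := (QuotientGroup.eq_one_iff x).mpr hx
    rw [this]; exact one_mem _
  refine ⟨Z.comap (QuotientGroup.mk' K), inferInstance, hKA, ?_, ?_, ?_⟩
  · obtain ⟨m, hm⟩ := hZp.exists_card_eq
    refine ⟨m, ?_⟩
    have h1 := Helper14CoreB.card_comap_of_surjective hsurj Z
    have h2 := Helper14CoreB.card_mul_relIndex hKA
    rw [QuotientGroup.ker_mk'] at h1
    rw [h1, hm] at h2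
    have hpos : 0 < Nat.card K := Nat.card_pos
    nlinarith [Nat.eq_of_mul_eq_mul_left hpos (by linarith : Nat.card K * K.relIndex (Z.comap (QuotientGroup.mk' K)) = Nat.card K * p ^ m)]
  · intro x hx y hy
    rw [Subgroup.mem_comap] at hx hy
    rw [← QuotientGroup.eq_one_iff]
    have hc : (QuotientGroup.mk' K y) * (QuotientGroup.mk' K x) = (QuotientGroup.mk' K x) * (QuotientGroup.mk' K y) :=
      (Subgroup.mem_centralizer_iff.mp hx.2) _ hy.1
    change QuotientGroup.mk' K (x * y * x⁻¹ * y⁻¹) = 1
    rw [map_mul, map_mul, map_mul, ← hc, map_inv, map_inv]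
    group
  · have hZA : (Subgroup.center (P : Subgroup G)).map (P : Subgroup G).subtype ≤ Z.comap (QuotientGroup.mk' K) := by
      rintro _ ⟨z, hz, rfl⟩
      rw [Subgroup.mem_comap]
      have hRP : R ≤ ((P.mapSurjective hsurj : Sylow p (G ⧸ K)) : Subgroup (G ⧸ K)) :=
        Helper40Cores.pCore_le_sylow _
      have hzc : QuotientGroup.mk' K ((P : Subgroup G).subtype z) ∈ Subgroup.centralizer (R : Set (G ⧸ K)) := by
        rw [Subgroup.mem_centralizer_iff]
        intro r hr
        obtain ⟨y, hy, rfl⟩ := hRP hr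
        have := Subgroup.mem_center_iff.mp hz ⟨y, hy⟩
        have h2 : y * (z : G) = (z : G) * y := congrArg Subtype.val this
        change QuotientGroup.mk' K y * QuotientGroup.mk' K (z : G) = QuotientGroup.mk' K (z : G) * QuotientGroup.mk' K y
        rw [← map_mul, ← map_mul, h2]
      exact ⟨hCR hzc, hzc⟩
    set A := Z.comap (QuotientGroup.mk' K) with hA
    have c1 : Nat.card A * A.index = Nat.card G := Subgroup.card_mul_index A
    have c2 : Nat.card (Subgroup.center (P : Subgroup G)) * (Subgroup.center (P : Subgroup G)).index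
        = Nat.card (P : Subgroup G) := Subgroup.card_mul_index _
    have c3 : Nat.card (P : Subgroup G) = p ^ (Nat.card G).factorization p := P.card_eq_multiplicity
    have c4 : Nat.card (Subgroup.center (P : Subgroup G)) ∣ Nat.card A := by
      rw [← Subgroup.card_map_of_injective (P : Subgroup G).subtype_injective]
      exact Subgroup.card_dvd_of_le hZA
    have hp : p.Prime := Fact.out
    have f1 := congrArg (fun n => n.factorization p) c1
    have f2 := congrArg (fun n => n.factorization p) c2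
    beta_reduce at f1 f2
    rw [Nat.factorization_mul Nat.card_pos.ne' Subgroup.index_ne_zero_of_finite] at f1 f2
    rw [c3, Nat.factorization_pow, hp.factorization] at f2
    simp only [Finsupp.coe_add, Pi.add_apply, Finsupp.smul_apply, Finsupp.single_eq_same, smul_eq_mul, mul_one] at f1 f2
    have f3 : (Nat.card (Subgroup.center (P : Subgroup G))).factorization p ≤ (Nat.card A).factorization p :=
      (Nat.factorization_le_iff_dvd Nat.card_pos.ne' Nat.card_pos.ne').mpr c4 p
    omega

theorem char_part {G : Type*} [Group G] [Fintype G] (p : ℕ) [Fact p.Prime]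
    (K A : Subgroup G) [Fintype K] (hK : K.Normal) (hA : A.Normal) (hKA : K ≤ A)
    (hKp : (Nat.card K).Coprime p) (hidx : ∃ m : ℕ, K.relIndex A = p ^ m)
    (hab : ∀ x ∈ A, ∀ y ∈ A, x * y * x⁻¹ * y⁻¹ ∈ K)
    (θ : IrrCharacter K) (hinv : ∀ g : G, cjI hK θ g = θ) (χ : IrrCharacter G) (ho : Over χ θ) :
    (charDegree (χ : G → ℂ)).factorization p ≤ A.index.factorization p := by
  classical
  have hp : p.Prime := Fact.out
  let e := Subgroup.subgroupOfEquivOfLe hKA
  have hθ' : IsIrrCharacter (K.subgroupOf A) ((θ : K → ℂ) ∘ e.toMonoidHom) :=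
    Helper82Quot.isIrrCharacter_comp θ.2 e.toMonoidHom e.surjective
  have hKn' : (K.subgroupOf A).Normal := inferInstance
  obtain ⟨m, hm⟩ := hidx
  obtain ⟨C, hCirr, -, hind, hdeg⟩ := S1491.result (G := A) (K.subgroupOf A) ⊤
    ((θ : K → ℂ) ∘ e.toMonoidHom) hθ'
    (by
      intro g
      simp only [Subgroup.mem_top, true_iff]
      intro h
      have := congrArg (fun t : IrrCharacter K => (t : K → ℂ) (e h)) (hinv (g : G))
      exact this)
    (by
      intro x _ y _
      exact hab x x.2 y y.2)
    (by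
      rw [Nat.card_congr e.toEquiv, Subgroup.relIndex_top_right]
      have : (K.subgroupOf A).index = p ^ m := hm
      rw [this]
      exact Nat.Coprime.pow_right m hKp)
  -- Frobenius reciprocity
  have hχA : IsClassFunction A (fun a : A => (χ : G → ℂ) a) := by
    intro a b
    exact Helper4Char.IsIrrCharacter.isClassFunction χ.2 (a : G) (b : G)
  have hfr := Helper32Ind.frobenius (K.subgroupOf A) ((θ : K → ℂ) ∘ e.toMonoidHom)
    (fun a : A => (χ : G → ℂ) a) hχA
  have htr : classInner ((θ : K → ℂ) ∘ e.toMonoidHom)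
      (fun h : K.subgroupOf A => (χ : G → ℂ) ((h : A) : G))
      = classInner (θ : K → ℂ) (fun k : K => (χ : G → ℂ) k) := by
    unfold classInner
    rw [Nat.card_congr e.toEquiv]
    congr 1
    exact Fintype.sum_equiv e.toEquiv _ _ (fun h => rfl)
  have hne : classInner (θ : K → ℂ) (fun k : K => (χ : G → ℂ) k) ≠ 0 := by
    rw [← Helper4Char.classInner_conj_symm]
    intro h0
    exact ho ((map_eq_zero _).mp h0)
  rw [htr, hind, Helper4Char.classInner_sum_left] at hfr
  obtain ⟨ψ, hψC, hψ⟩ : ∃ ψ ∈ C, classInner ψ (fun a : A => (χ : G → ℂ) a) ≠ 0 := by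
    by_contra hcon
    push Not at hcon
    exact hne (hfr ▸ Finset.sum_eq_zero hcon)
  have hψ' : classInner (fun a : A => (χ : G → ℂ) a) ψ ≠ 0 := by
    rw [← Helper4Char.classInner_conj_symm]
    intro h0
    exact hψ ((map_eq_zero _).mp h0)
  have hd : ψ 1 = ((charDegree (θ : K → ℂ) : ℕ) : ℂ) := by
    rw [hdeg ψ hψC, Subgroup.index_top, Helper81Base.charDegree_eq]
    simp
  obtain ⟨h1, h2⟩ := S0887.result A (χ : G → ℂ) χ.2 ψ (hCirr ψ hψC) hψ'
    (charDegree (χ : G → ℂ)) (charDegree (θ : K → ℂ)) (Helper81Base.charDegree_eq χ).symm hd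
  have hdK : charDegree (θ : K → ℂ) ∣ Nat.card K := Helper81BB.irr_deg_dvd θ
  have hdp : ¬ p ∣ charDegree (θ : K → ℂ) := by
    intro h
    have := Nat.Coprime.coprime_dvd_left hdK hKp
    exact hp.one_lt.ne' (Nat.Coprime.eq_one_of_dvd this.symm h)
  obtain ⟨c, hc⟩ := h1
  have hdpos := Helper81Base.charDegree_pos θ
  have hcpos : c ≠ 0 := by
    rintro rfl
    have := Helper81Base.charDegree_pos χ
    omega
  rw [hc, Nat.mul_div_cancel_left _ hdpos] at h2
  rw [hc, Nat.factorization_mul hdpos.ne' hcpos]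
  simp only [Finsupp.coe_add, Pi.add_apply]
  rw [Nat.factorization_eq_zero_of_not_dvd hdp, zero_add]
  exact (Nat.factorization_le_iff_dvd hcpos Subgroup.index_ne_zero_of_finite).mpr h2 p

theorem center_index_congr {A B : Type*} [Group A] [Group B] [Finite A] (e : A ≃* B) :
    (Subgroup.center A).index = (Subgroup.center B).index := by
  have : Finite B := Finite.of_equiv A e.toEquiv
  have h1 := Subgroup.card_mul_index (Subgroup.center A)
  have h2 := Subgroup.card_mul_index (Subgroup.center B)
  rw [Nat.card_congr e.toEquiv, Nat.card_congr (Subgroup.centerCongr e).toEquiv, ← h2] at h1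
  exact Nat.eq_of_mul_eq_mul_left Nat.card_pos h1

universe u

theorem main_aux (p : ℕ) [Fact p.Prime] (M : Ideal AlgInt) (hM : IsPModular p M) :
    ∀ (n : ℕ) (G : Type u) [Group G] [Fintype G], Nat.card G = n → IsPSolvable p G →
      ∀ (B : Set (IrrCharacter G)), IsPBlock M B → ∀ P : Subgroup G, IsDefectGroup p M B P →
      ∀ χ ∈ B, blockHeight p B (χ : G → ℂ) ≤ ((Subgroup.center P).index).factorization p := by
  intro n
  induction n using Nat.strong_induction_on with
  | _ n ih =>
  intro G _ _ hn hsolv B hB P hP χ hχ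
  classical
  have hpr := Helper81Local.IsPModular.isPrime hM
  have hKn : (pPrimeCore p G).Normal := Helper40Cores.pPrimeCore_normal
  have hKp : (Nat.card (pPrimeCore p G)).Coprime p := Helper14CoreB.card_pPrimeCore_coprime p
  obtain ⟨θ, hθ⟩ := exists_under (N := pPrimeCore p G) χ
  by_cases hinv : ∀ g : G, cjI hKn θ g = θ
  · obtain ⟨B₀, hB₀, hiff, -, hsyl⟩ := S4492.result p M hM hsolv (pPrimeCore p G) rfl θ
      (fun g n => congrArg (fun t : IrrCharacter (pPrimeCore p G) => (t : _ → ℂ) n) (hinv g))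
    have hχ₀ : χ ∈ B₀ := (hiff χ).mpr hθ
    have hBB : B₀ = B := by
      rw [Helper81Block.isPBlock_eq_blockOf hB₀ hχ₀, Helper81Block.isPBlock_eq_blockOf hB hχ]
    subst hBB
    obtain ⟨S, rfl⟩ := hsyl P hP
    obtain ⟨A, hAn, hKA, hidx, hab, hle⟩ := group_part p hsolv S
    have h1 := char_part p (pPrimeCore p G) A hKn hAn hKA hKp hidx hab θ hinv χ hθ
    exact (Nat.sub_le _ _).trans (h1.trans hle)
  · let T : Subgroup G :=
      { carrier := {g | cjI hKn θ g = θ}
        one_mem' := cjI_one hKn θ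
        mul_mem' := by
          intro a b ha hb
          change cjI hKn θ (a * b) = θ
          rw [← cjI_cjI, show cjI hKn θ a = θ from ha]
          exact hb
        inv_mem' := by
          intro a ha
          change cjI hKn θ a⁻¹ = θ
          have h1 : cjI hKn (cjI hKn θ a) a⁻¹ = θ := by
            rw [cjI_cjI, mul_inv_cancel, cjI_one]
          rwa [show cjI hKn θ a = θ from ha] at h1 }
    have hmemT : ∀ g : G, g ∈ T ↔ cjI hKn θ g = θ := fun g => Iff.rfl
    have hpK : ¬ p ∣ Nat.card (pPrimeCore p G) := by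
      intro h
      exact (Fact.out : p.Prime).one_lt.ne' (Nat.Coprime.eq_one_of_dvd hKp.symm h)
    have hbmem : ∀ θ' : IrrCharacter (pPrimeCore p G), θ' ∈ blockOf M (θ : _ → ℂ) ↔ θ' = θ := by
      intro θ'
      constructor
      · intro h
        exact eq_of_sameBlock_of_pprime hM hpK h
      · rintro rfl
        exact Helper81Block.self_mem_blockOf _
    have hb : IsPBlock M (blockOf M (θ : (pPrimeCore p G) → ℂ)) := Helper81Block.isPBlock_blockOf θ
    have hS : Helper21FR.IsStab hKn (blockOf M (θ : (pPrimeCore p G) → ℂ)) T := by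
      intro g
      rw [hmemT]
      constructor
      · intro h θ' hθ'
        rw [(hbmem θ').mp hθ', h]
        exact (hbmem θ).mpr rfl
      · intro h
        exact (hbmem _).mp (h θ ((hbmem θ).mpr rfl))
    have hKT : pPrimeCore p G ≤ T := by
      intro k hk
      rw [hmemT]
      apply Subtype.ext
      funext n
      rw [cjI_apply]
      exact Helper4Char.IsIrrCharacter.isClassFunction θ.2 n ⟨k, hk⟩
    have hTne : T ≠ ⊤ := by
      intro h
      apply hinv
      intro g
      exact (hmemT g).mp (h ▸ Subgroup.mem_top g)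
    obtain ⟨B', hB', hcov, hind⟩ := Helper21FR.fr_surjective hKT hS hb hB
      ⟨χ, hχ, θ, (hbmem θ).mpr rfl, hθ⟩
    obtain ⟨B₁, hi, _, _, hiff⟩ := Helper21FR.fr_induce hKT hS hb hB' hcov
    have hBB : B₁ = B := Helper21FR2.isInducedBlock_unique hind hi
    subst hBB
    have hne := Helper81Block.isPBlock_nonempty hB'
    have h1 : ∀ χ ∈ B₁, ∃ ψ ∈ B', (χ : G → ℂ) = Cfsg.indFun T (ψ : T → ℂ) :=
      fun χ hχ => (hiff χ).1 hχ
    have hall := Helper21FR.all_over hKT hS hb hB' hcov
    have h2 : ∀ ψ ∈ B', ∃ χ ∈ B₁, (χ : G → ℂ) = Cfsg.indFun T (ψ : T → ℂ) := by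
      intro ψ hψ
      obtain ⟨θ', hθ', h⟩ := hall ψ hψ
      exact ⟨Helper21FR.indI hKT hS hb hθ' h, (hiff _).2 ⟨ψ, hψ, rfl⟩, rfl⟩
    obtain ⟨ψ, hψ, e⟩ := h1 χ hχ
    rw [Helper21FR2.blockHeight_ind hne h1 h2 e]
    obtain ⟨D, hD⟩ := Helper20Induced.exists_defectGroup hM hB'
    have hDmap := Helper21FR2.isDefectGroup_map_of_defect_eq hM hind
      (Helper21FR2.blockDefect_ind hne h1 h2) hD
    obtain ⟨t, rfl⟩ := Helper20Conj.defectGroup_conj hM hB hDmap hP
    have hlt : Nat.card T < n := by
      rw [← hn]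
      have h3 := Subgroup.card_mul_index T
      have h4 : T.index ≠ 1 := fun h => hTne (Subgroup.index_eq_one.mp h)
      have h5 : T.index ≠ 0 := Subgroup.index_ne_zero_of_finite
      have h6 : 0 < Nat.card T := Nat.card_pos
      have h7 : 2 ≤ T.index := by omega
      nlinarith
    have hih := ih (Nat.card T) hlt T rfl (Helper14PSolvS.isPSolvable_subgroup T hsolv) B' hB' D hD
      ψ hψ
    have e1 : D ≃* (D.map T.subtype) := Subgroup.equivMapOfInjective D T.subtype T.subtype_injective
    have e2 : (D.map T.subtype) ≃* ((D.map T.subtype).map (MulAut.conj t).toMonoidHom) :=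
      Subgroup.equivMapOfInjective _ _ (MulAut.conj t).injective
    rw [← center_index_congr (e1.trans e2)]
    exact hih

/-- Let G be a finite p-solvable group and B a p-block of G with defect group P (relative to a maximal ideal M of the algebraic integers containing p). Then the height of every irreducible character in B is at most the exponent of p in the index of the centre of P in P. -/
theorem result {G : Type*} [Group G] [Finite G] (p : ℕ) [Fact p.Prime] (M : Ideal Cfsg.AlgInt) (hM : Cfsg.IsPModular p M) (hsolv : Cfsg.IsPSolvable p G) (B : Set (Cfsg.IrrCharacter G)) (hB : Cfsg.IsPBlock M B) (P : Subgroup G) (hP : Cfsg.IsDefectGroup p M B P) (χ : Cfsg.IrrCharacter G) (hχ : χ ∈ B) : Cfsg.blockHeight p B (χ : G → ℂ) ≤ ((Subgroup.center P).index).factorization p := by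
  cases nonempty_fintype G
  exact main_aux p M hM _ G rfl hsolv B hB P hP χ hχ

end Cfsg.Agent.S4439
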