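import Cfsg.Statements.S4476
import Cfsg.Agent.S4477
import Mathlib

set_option autoImplicit false
open Cfsg

namespace Cfsg.Agent.S4476

open Cfsg.Agent.Lib.Helper4Char Cfsg.Agent.Lib.Helper4Char2 Cfsg.Agent.Lib.Helper83Char

/-- Let G be a finite group of even order g with exactly t involutions, and put α = (g − 1)/t (a rational number). Then (a) some non-identity element x of G has at most α² conjugates; and (b) some non-principal real-valued irreducible character of G has degree at most α. -/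
theorem result {G : Type*} [Group G] [Fintype G] (heven : Even (Nat.card G)) (t : ℕ) (ht : Nat.card {x : G // orderOf x = 2} = t) : (∃ x : G, x ≠ 1 ∧ ((Subgroup.centralizer ({x} : Set G)).index : ℚ) ≤ (((Nat.card G : ℚ) - 1) / t) ^ 2) ∧ ∃ χ : Cfsg.IrrCharacter G, (χ : G → ℂ) ≠ (fun _ => 1) ∧ (∀ g : G, ((χ : G → ℂ) g).im = 0) ∧ (Cfsg.charDegree (χ : G → ℂ) : ℚ) ≤ ((Nat.card G : ℚ) - 1) / t := by
  classical
  have htpos : 0 < t := by
    obtain ⟨x, hx⟩ := exists_prime_orderOf_dvd_card' 2 (even_iff_two_dvd.mp heven)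
    rw [← ht]
    have : Nonempty {x : G // orderOf x = 2} := ⟨⟨x, hx⟩⟩
    exact Nat.card_pos
  have htq : (0 : ℚ) < t := by exact_mod_cast htpos
  let d : IrrCharacter G → ℕ := fun χ => charDegree (χ : G → ℂ)
  have hd : ∀ χ : IrrCharacter G, (d χ : ℂ) = (χ : G → ℂ) 1 := fun χ => charDegree_cast χ.2
  have hdpos : ∀ χ : IrrCharacter G, 0 < d χ := fun χ => charDegree_pos χ.2
  have hε : ∀ χ : IrrCharacter G, ∃ z : ℤ,
      (z : ℂ) = (Nat.card G : ℂ)⁻¹ * ∑ s : G, (χ : G → ℂ) (s * s) ∧ z ≤ 1 ∧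
        (z ≤ 0 ∨ ∀ s : G, ((χ : G → ℂ) s).im = 0) := by
    intro χ
    obtain ⟨hfs1, hfs2⟩ := Cfsg.Agent.Lib.Helper83FS.irr_fs χ.2
    rcases hfs1 with h | h | h
    · exact ⟨0, by rw [h]; simp, by norm_num, Or.inl le_rfl⟩
    · refine ⟨1, by rw [h]; simp, le_rfl, Or.inr ?_⟩
      by_contra h3
      push Not at h3
      rw [hfs2.mpr h3] at h
      exact zero_ne_one h
    · exact ⟨-1, by rw [h]; simp, by norm_num, Or.inl (by norm_num)⟩
  choose ε hε1 hε2 hε3 using hε
  have hQ1 : ∑ χ : IrrCharacter G, (d χ : ℚ) ^ 2 = (Nat.card G : ℚ) := by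
    have h1 := sum_degree_sq (G := G)
    simp only [← hd] at h1
    exact_mod_cast h1
  have hQ2 : (t : ℚ) + 1 = ∑ χ : IrrCharacter G, (ε χ : ℚ) * (d χ : ℚ) := by
    have h1 := Cfsg.Agent.S0159.result (G := G)
    rw [finsum_eq_sum_of_fintype] at h1
    simp only [← hε1, ← hd] at h1
    simp only [← pow_two] at h1
    rw [Cfsg.Agent.S4477.card_sq_eq_one, ht] at h1
    exact_mod_cast h1
  let χ₀ : IrrCharacter G := ⟨fun _ => 1, isIrr_one⟩
  have hd0 : d χ₀ = 1 := by
    have h1 : (d χ₀ : ℂ) = 1 := hd χ₀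
    exact_mod_cast h1
  have hε0 : ε χ₀ = 1 := by
    have h1 := hε1 χ₀
    have h2 : (Nat.card G : ℂ)⁻¹ * ∑ s : G, (χ₀ : G → ℂ) (s * s) = 1 := by
      show (Nat.card G : ℂ)⁻¹ * ∑ s : G, (1 : ℂ) = 1
      rw [Finset.sum_const, Finset.card_univ, nsmul_eq_mul, mul_one, ← Nat.card_eq_fintype_card]
      exact inv_mul_cancel₀ card_ne_zero
    rw [h2] at h1
    exact_mod_cast h1
  let S : Finset (IrrCharacter G) := Finset.univ.erase χ₀
  have hS1 : ∑ χ ∈ S, (d χ : ℚ) ^ 2 = (Nat.card G : ℚ) - 1 := by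
    have h1 := Finset.add_sum_erase Finset.univ (fun χ : IrrCharacter G => (d χ : ℚ) ^ 2)
      (Finset.mem_univ χ₀)
    simp only [hd0] at h1
    rw [hQ1] at h1
    push_cast at h1
    show ∑ χ ∈ Finset.univ.erase χ₀, (d χ : ℚ) ^ 2 = (Nat.card G : ℚ) - 1
    linarith
  have hS2 : ∑ χ ∈ S, (ε χ : ℚ) * (d χ : ℚ) = (t : ℚ) := by
    have h1 := Finset.add_sum_erase Finset.univ (fun χ : IrrCharacter G => (ε χ : ℚ) * (d χ : ℚ))
      (Finset.mem_univ χ₀)
    simp only [hd0, hε0] at h1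
    rw [← hQ2] at h1
    push_cast at h1
    show ∑ χ ∈ Finset.univ.erase χ₀, (ε χ : ℚ) * (d χ : ℚ) = (t : ℚ)
    linarith
  let R : Finset (IrrCharacter G) := S.filter fun χ => ∀ s : G, ((χ : G → ℂ) s).im = 0
  have hR : (t : ℚ) ≤ ∑ χ ∈ R, (d χ : ℚ) := by
    rw [← hS2, Finset.sum_filter]
    apply Finset.sum_le_sum
    intro χ _
    have hdq : (0 : ℚ) < d χ := by exact_mod_cast hdpos χ
    have h1 : (ε χ : ℚ) ≤ 1 := by exact_mod_cast hε2 χ
    split_ifs with h
    · nlinarith
    · have h2 : (ε χ : ℚ) ≤ 0 := by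
        rcases hε3 χ with h3 | h3
        · exact_mod_cast h3
        · exact absurd h3 h
      nlinarith
  have hRS : ∑ χ ∈ R, (d χ : ℚ) ≤ ∑ χ ∈ S, (d χ : ℚ) :=
    Finset.sum_le_sum_of_subset_of_nonneg (Finset.filter_subset _ _)
      (fun χ _ _ => by positivity)
  have hg1 : (0 : ℚ) < (Nat.card G : ℚ) - 1 := by
    have h1 : 2 ≤ Nat.card G := Nat.le_of_dvd Nat.card_pos (even_iff_two_dvd.mp heven)
    have h2 : (2 : ℚ) ≤ (Nat.card G : ℚ) := by exact_mod_cast h1
    linarith
  constructor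
  · -- part (a)
    have hCS : (t : ℚ) ^ 2 ≤ (S.card : ℚ) * ((Nat.card G : ℚ) - 1) := by
      rw [← hS1]
      refine le_trans ?_ sq_sum_le_card_mul_sum_sq
      exact pow_le_pow_left₀ htq.le (hR.trans hRS) 2
    let c : ConjClasses G → ℕ := fun C => (Subgroup.centralizer ({rep C} : Set G)).index
    have hsumc : ∑ C : ConjClasses G, (c C : ℚ) = (Nat.card G : ℚ) := by
      have h1 := sum_eq_sum_conjClasses (G := G) (fun _ => (1 : ℂ)) (fun _ _ => rfl)
      simp only [mul_one, card_isConj_eq_index, Finset.sum_const, Finset.card_univ, nsmul_eq_mul,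
        ← Nat.card_eq_fintype_card] at h1
      exact_mod_cast h1.symm
    let C₁ : ConjClasses G := ConjClasses.mk 1
    have hrep1 : rep C₁ = 1 := by
      have h1 := isConj_rep_mk (1 : G)
      exact isConj_one_left.mp h1
    have hc1 : c C₁ = 1 := by
      show (Subgroup.centralizer ({rep C₁} : Set G)).index = 1
      rw [hrep1, Subgroup.index_eq_one, Subgroup.centralizer_eq_top_iff_subset]
      simp
    let T : Finset (ConjClasses G) := Finset.univ.erase C₁
    have hT1 : ∑ C ∈ T, (c C : ℚ) = (Nat.card G : ℚ) - 1 := by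
      have h1 := Finset.add_sum_erase Finset.univ (fun C : ConjClasses G => (c C : ℚ))
        (Finset.mem_univ C₁)
      simp only [hc1] at h1
      rw [hsumc] at h1
      push_cast at h1
      show ∑ C ∈ Finset.univ.erase C₁, (c C : ℚ) = (Nat.card G : ℚ) - 1
      linarith
    have hTS : T.card = S.card := by
      show (Finset.univ.erase C₁).card = (Finset.univ.erase χ₀).card
      rw [Finset.card_erase_of_mem (Finset.mem_univ _), Finset.card_erase_of_mem (Finset.mem_univ _),
        Finset.card_univ, Finset.card_univ, ← Nat.card_eq_fintype_card, ← Nat.card_eq_fintype_card,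
        card_irr_eq_card_conjClasses]
    by_contra hcon
    push Not at hcon
    have hTne : T.Nonempty := by
      by_contra h
      rw [Finset.not_nonempty_iff_eq_empty] at h
      rw [← hTS, h] at hCS
      simp only [Finset.card_empty, Nat.cast_zero, zero_mul] at hCS
      have : (0 : ℚ) < (t : ℚ) ^ 2 := by positivity
      linarith
    have h1 : ∀ C ∈ T, (((Nat.card G : ℚ) - 1) / t) ^ 2 < (c C : ℚ) := by
      intro C hC
      apply hcon
      intro h2
      apply (Finset.mem_erase.mp hC).1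
      rw [← mk_rep C, h2]
    have h2 := Finset.sum_lt_sum_of_nonempty hTne h1
    rw [Finset.sum_const, nsmul_eq_mul, hT1, hTS] at h2
    have h3 : (Nat.card G : ℚ) - 1 ≤ (S.card : ℚ) * (((Nat.card G : ℚ) - 1) / t) ^ 2 := by
      rw [div_pow, ← mul_div_assoc, le_div_iff₀ (by positivity)]
      nlinarith [hCS, hg1]
    linarith
  · -- part (b)
    by_contra hcon
    push Not at hcon
    have hRne : R.Nonempty := by
      by_contra h
      rw [Finset.not_nonempty_iff_eq_empty] at h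
      rw [h, Finset.sum_empty] at hR
      linarith
    have h1 : ∀ χ ∈ R, ((Nat.card G : ℚ) - 1) / t * (d χ : ℚ) < (d χ : ℚ) ^ 2 := by
      intro χ hχ
      have h2 := Finset.mem_filter.mp hχ
      have h3 : (χ : G → ℂ) ≠ fun _ => 1 := by
        intro h4
        exact (Finset.mem_erase.mp h2.1).1 (Subtype.ext h4)
      have h5 := hcon χ h3 h2.2
      have hdq : (0 : ℚ) < d χ := by exact_mod_cast hdpos χ
      rw [pow_two]
      exact mul_lt_mul_of_pos_right h5 hdq
    have h2 := Finset.sum_lt_sum_of_nonempty hRne h1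
    rw [← Finset.mul_sum] at h2
    have h3 : ∑ χ ∈ R, (d χ : ℚ) ^ 2 ≤ (Nat.card G : ℚ) - 1 := by
      rw [← hS1]
      exact Finset.sum_le_sum_of_subset_of_nonneg (Finset.filter_subset _ _)
        (fun χ _ _ => by positivity)
    have h4 : ((Nat.card G : ℚ) - 1) / t * (t : ℚ) ≤ ((Nat.card G : ℚ) - 1) / t * ∑ χ ∈ R, (d χ : ℚ) :=
      mul_le_mul_of_nonneg_left hR (by positivity)
    rw [div_mul_cancel₀ _ htq.ne'] at h4
    linarith

end Cfsg.Agent.S4476
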