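import Cfsg.Statements.S4517
import Cfsg.Agent.Lib.Helper78Real2
import Cfsg.Agent.Lib.Helper79GalConj
import Cfsg.Agent.Lib.Helper81Defect

set_option autoImplicit false
open Cfsg

namespace Cfsg.Agent.S4517

open Cfsg.Agent.Lib Cfsg.Agent.Lib.Helper81Local Cfsg.Agent.Lib.Helper81Base
  Cfsg.Agent.Lib.Helper81BB Cfsg.Agent.Lib.Helper81Block Cfsg.Agent.Lib.Helper81Orth
  Cfsg.Agent.Lib.Helper78Real2 Cfsg.Agent.Lib.Helper81Defect
open scoped ComplexConjugate

section aux

variable {G : Type*} [Group G] [Fintype G]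

/-- the Galois conjugate `g ↦ χ (g ^ k)` -/
noncomputable def pw (k : ℕ) (hk : Nat.Coprime k (Nat.card G)) (χ : Cfsg.IrrCharacter G) :
    Cfsg.IrrCharacter G :=
  ⟨fun g => (χ : G → ℂ) (g ^ k), Helper79GalConj.isIrrCharacter_pow χ.2 k hk⟩

theorem pw_apply (k : ℕ) (hk : Nat.Coprime k (Nat.card G)) (χ : Cfsg.IrrCharacter G) (g : G) :
    (pw k hk χ : G → ℂ) g = (χ : G → ℂ) (g ^ k) := rfl

theorem pw_injective (k : ℕ) (hk : Nat.Coprime k (Nat.card G)) :
    Function.Injective (pw (G := G) k hk) := by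
  intro χ ψ h
  apply Subtype.ext
  funext g
  obtain ⟨x, rfl⟩ := (Helper79GalConj.pow_bijective (G := G) k hk).2 g
  exact congrFun (congrArg Subtype.val h) x

theorem pw_bijective (k : ℕ) (hk : Nat.Coprime k (Nat.card G)) :
    Function.Bijective (pw (G := G) k hk) :=
  Finite.injective_iff_bijective.1 (pw_injective k hk)

theorem pw_mem_iff (k : ℕ) (hk : Nat.Coprime k (Nat.card G)) {B : Set (Cfsg.IrrCharacter G)}
    (h : ∀ χ ∈ B, pw k hk χ ∈ B) (χ : Cfsg.IrrCharacter G) : pw k hk χ ∈ B ↔ χ ∈ B := by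
  refine ⟨fun hχ => ?_, h χ⟩
  let f : B → B := fun χ => ⟨pw k hk χ.1, h χ.1 χ.2⟩
  have hf : Function.Injective f := by
    intro a b hab
    apply Subtype.ext
    exact pw_injective k hk (congrArg Subtype.val hab)
  obtain ⟨⟨ψ, hψ⟩, hψ'⟩ := (Finite.injective_iff_surjective.1 hf) ⟨pw k hk χ, hχ⟩
  have : pw k hk ψ = pw k hk χ := congrArg Subtype.val hψ'
  rw [← pw_injective k hk this]
  exact hψ

theorem blockCoeff_pow (k : ℕ) (hk : Nat.Coprime k (Nat.card G)) {B : Set (Cfsg.IrrCharacter G)}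
    (h : ∀ χ ∈ B, pw k hk χ ∈ B) (g : G) : Cfsg.blockCoeff B (g ^ k) = Cfsg.blockCoeff B g := by
  classical
  rw [blockCoeff_eq, blockCoeff_eq]
  congr 1
  rw [← (Equiv.ofBijective _ (pw_bijective (G := G) k hk)).sum_comp
    (fun χ : Cfsg.IrrCharacter G => if χ ∈ B then (χ : G → ℂ) 1 * conj ((χ : G → ℂ) g) else 0)]
  apply Finset.sum_congr rfl
  intro χ _
  simp only [Equiv.ofBijective_apply]
  rw [if_congr (pw_mem_iff k hk h χ) rfl rfl, pw_apply, pw_apply, one_pow]

end aux

/-- Let G be a finite group, M a maximal ideal of the algebraic integers containing 2, and k a natural number coprime to the order of G with g ^ k = g⁻¹ for every element g of odd order (so that g ↦ g ^ k induces a field automorphism of the character values inverting the roots of unity of odd order). If B is a 2-block of full defect (its defect equals the exponent of 2 in the order of G) that is stable under χ ↦ χ ∘ (· ^ k), then B is the principal 2-block. -/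
theorem result {G : Type*} [Group G] [Finite G] (M : Ideal Cfsg.AlgInt) (hM : Cfsg.IsPModular 2 M) (k : ℕ) (hk : Nat.Coprime k (Nat.card G)) (hk₂ : ∀ g : G, Odd (orderOf g) → g ^ k = g⁻¹) (B : Set (Cfsg.IrrCharacter G)) (hB : Cfsg.IsPBlock M B) (hdef : Cfsg.blockDefect 2 B = (Nat.card G).factorization 2) (hstab : ∀ χ ∈ B, ∃ ψ ∈ B, ∀ g : G, (ψ : G → ℂ) g = (χ : G → ℂ) (g ^ k)) : B = Cfsg.principalBlock M G := by
  classical
  have := Fintype.ofFinite G
  have := hM.2.1.isPrime
  have hst : ∀ χ ∈ B, pw k hk χ ∈ B := by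
    intro χ hχ
    obtain ⟨ψ, hψ, h⟩ := hstab χ hχ
    have : ψ = pw k hk χ := Subtype.ext (funext h)
    rw [← this]; exact hψ
  have hinv : ∀ g, Cfsg.blockCoeff B g⁻¹ = Cfsg.blockCoeff B g := by
    intro g
    by_cases h2 : 2 ∣ orderOf g
    · rw [blockCoeff_eq_zero_of_singular hM hB h2,
        blockCoeff_eq_zero_of_singular hM hB (by rw [orderOf_inv]; exact h2)]
    · have hodd : Odd (orderOf g) := by
        rw [← Nat.not_even_iff_odd, even_iff_two_dvd]; exact h2
      rw [← hk₂ g hodd, blockCoeff_pow k hk hst]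
  have hne := isPBlock_nonempty hB
  obtain ⟨χ, hχ, hmin⟩ := exists_minVal (p := 2) hne
  have hmin0 : minVal 2 B = 0 := by
    have h1 := blockDefect_def (p := 2) B
    have h2 := minVal_le_card (p := 2) hne
    omega
  have hodd : Odd (Cfsg.charDegree (χ : G → ℂ)) := by
    rw [hmin0, Nat.factorization_eq_zero_iff] at hmin
    rcases hmin with h | h | h
    · exact absurd Nat.prime_two h
    · rw [← Nat.not_even_iff_odd, even_iff_two_dvd]; exact h
    · exact absurd h (charDegree_pos χ).ne'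
  apply eq_principalBlock_of_irrOne_mem hB
  apply irrOne_mem_of_stable hM hB hinv hχ hodd
  intro g hg
  have e : Cfsg.centralChar (χ : G → ℂ) g⁻¹ = Cfsg.centralChar (pw k hk χ : G → ℂ) g := by
    unfold Cfsg.centralChar
    rw [centralizer_inv, pw_apply, pw_apply, one_pow, hk₂ g hg]
  rw [e]
  exact isPBlock_sameBlock hB (hst χ hχ) hχ g

end Cfsg.Agent.S4517
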