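import Cfsg.Statements.S4518
import Mathlib
import Cfsg.Agent.Lib.Helper79GalConj
import Cfsg.Agent.Lib.Helper5Clifford
import Cfsg.Agent.S0174

set_option autoImplicit false
open Cfsg

namespace Cfsg.Agent.S4518

open Lib.Helper4Char Lib.Helper4Char2 Lib.Helper4Char4 Lib.Helper5Clifford Lib.Helper79GalConj

/-- the (left) conjugation action of `G` on functions on a normal subgroup -/
@[reducible] def act {G : Type*} [Group G] {N : Subgroup G} (hN : N.Normal) : MulAction G (N → ℂ) where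
  smul g φ := cj hN φ g⁻¹
  one_smul φ := by
    show cj hN φ 1⁻¹ = φ
    rw [inv_one, cj_one]
  mul_smul g h φ := by
    show cj hN φ (g * h)⁻¹ = cj hN (cj hN φ h⁻¹) g⁻¹
    rw [cj_cj, mul_inv_rev]

/-- the power twist of a function -/
def pw {N : Type*} [Group N] (k : ℕ) (φ : N → ℂ) : N → ℂ := fun n => φ (n ^ k)

theorem pw_cj {G : Type*} [Group G] {N : Subgroup G} (hN : N.Normal) (k : ℕ) (φ : N → ℂ) (g : G) :
    pw k (cj hN φ g) = cj hN (pw k φ) g := by
  funext n
  show φ _ = φ _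
  congr 1
  apply Subtype.ext
  simp only [Subgroup.coe_pow]
  rw [conj_pow]

theorem pw_pw {N : Type*} [Group N] (k l : ℕ) (φ : N → ℂ) : pw k (pw l φ) = pw (k * l) φ := by
  funext n
  show φ ((n ^ k) ^ l) = φ (n ^ (k * l))
  rw [pow_mul]

theorem classInner_pw {N : Type*} [Group N] [Fintype N] (k : ℕ) (hk : k.Coprime (Nat.card N))
    (φ ψ : N → ℂ) : Cfsg.classInner (pw k φ) (pw k ψ) = Cfsg.classInner φ ψ := by
  unfold Cfsg.classInner
  congr 1
  exact Fintype.sum_equiv (Equiv.ofBijective _ (pow_bijective k hk)) _ _ (fun n => rfl)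

/-- Let N be a normal subgroup of the finite group G whose index is not divisible by the prime p, and let k be coprime to the order of G with k ^ (p ^ e) ≡ 1 modulo the order of G for some e (so g ↦ g ^ k induces a field automorphism of p-power order on character values). If an irreducible character χ of G satisfies χ (g ^ k) = χ g for all g, then every irreducible constituent θ of the restriction of χ to N satisfies θ (n ^ k) = θ n for all n. -/
theorem result {G : Type*} [Group G] [Fintype G] (p : ℕ) [Fact p.Prime] (N : Subgroup G) [N.Normal] [Fintype N] (hidx : ¬ p ∣ N.index) (k e : ℕ) (hk : Nat.Coprime k (Nat.card G)) (hke : k ^ (p ^ e) ≡ 1 [MOD Nat.card G]) (χ : Cfsg.IrrCharacter G) (hχ : ∀ g : G, (χ : G → ℂ) (g ^ k) = (χ : G → ℂ) g) (θ : Cfsg.IrrCharacter N) (hθ : Cfsg.classInner (fun n : N => (χ : G → ℂ) n) (θ : N → ℂ) ≠ 0) : ∀ n : N, (θ : N → ℂ) (n ^ k) = (θ : N → ℂ) n := by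
  classical
  have hN : N.Normal := inferInstance
  letI := act hN
  have hkN : k.Coprime (Nat.card N) := hk.coprime_dvd_right (Subgroup.card_subgroup_dvd_card N)
  have hχcl := IsIrrCharacter.isClassFunction χ.2
  have hsmul : ∀ (g : G) (φ : N → ℂ), g • φ = cj hN φ g⁻¹ := fun g φ => rfl
  have hX : ∀ φ ∈ MulAction.orbit G (θ : N → ℂ), Cfsg.IsIrrCharacter N φ ∧
      Cfsg.classInner (fun n : N => (χ : G → ℂ) n) φ ≠ 0 := by
    rintro φ ⟨g, rfl⟩
    refine ⟨cj_isIrr hN θ.2 g⁻¹, ?_⟩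
    show Cfsg.classInner (fun n : N => (χ : G → ℂ) n) (cj hN θ g⁻¹) ≠ 0
    rw [← cj_res hN hχcl g⁻¹, classInner_cj_cj]
    exact hθ
  have hχpw : pw k (fun n : N => (χ : G → ℂ) n) = fun n : N => (χ : G → ℂ) n := by
    funext n
    exact hχ n
  have hpw : ∀ φ ∈ MulAction.orbit G (θ : N → ℂ), pw k φ ∈ MulAction.orbit G (θ : N → ℂ) := by
    intro φ hφ
    obtain ⟨h1, h2⟩ := hX φ hφ
    have h3 : Cfsg.IsIrrCharacter N (pw k φ) := isIrrCharacter_pow h1 k hkN
    have h4 : Cfsg.classInner (fun n : N => (χ : G → ℂ) n) (pw k φ) ≠ 0 := by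
      rw [← hχpw, classInner_pw k hkN]
      exact h2
    by_contra hcon
    apply h4
    apply S0174.inner_eq_zero_of_not_conj N hN χ χ.2 θ θ.2 hθ _ h3
    intro g hg
    apply hcon
    refine ⟨g⁻¹, ?_⟩
    show cj hN θ g⁻¹⁻¹ = pw k φ
    rw [inv_inv, hg]
  let f : Function.End (MulAction.orbit G (θ : N → ℂ)) := fun φ => ⟨pw k φ.1, hpw φ.1 φ.2⟩
  have hfpow : ∀ (j : ℕ) (φ : MulAction.orbit G (θ : N → ℂ)), ((f ^ j) φ).1 = pw (k ^ j) φ.1 := by
    intro j
    induction j with
    | zero =>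
      intro φ
      funext n
      show φ.1 n = φ.1 (n ^ (k ^ 0))
      rw [pow_zero, pow_one]
    | succ j ih =>
      intro φ
      rw [pow_succ']
      show pw k ((f ^ j) φ).1 = _
      rw [ih, pw_pw, pow_succ']
  have hf : f ^ p ^ e = 1 := by
    funext φ
    apply Subtype.ext
    rw [hfpow]
    funext n
    show φ.1 (n ^ (k ^ p ^ e)) = φ.1 n
    congr 1
    have h1 : n ^ (k ^ p ^ e) = n ^ 1 := by
      apply pow_eq_pow_iff_modEq.mpr
      exact hke.of_dvd ((orderOf_dvd_natCard n).trans (Subgroup.card_subgroup_dvd_card N))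
    rw [h1, pow_one]
  haveI : Finite (MulAction.orbit G (θ : N → ℂ)) := Set.finite_range _
  haveI : Fintype (MulAction.orbit G (θ : N → ℂ)) := Fintype.ofFinite _
  have h1 := Equiv.Perm.card_fixedPoints_modEq hf
  have h2 : Fintype.card (MulAction.orbit G (θ : N → ℂ)) ∣ N.index := by
    rw [← Nat.card_eq_fintype_card, Nat.card_coe_set_eq, ← MulAction.index_stabilizer]
    apply Subgroup.index_dvd_of_le
    intro x hx
    rw [MulAction.mem_stabilizer_iff, hsmul]
    funext n
    rw [cj_apply]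
    have := IsIrrCharacter.isClassFunction θ.2 n (⟨x, hx⟩ : N)⁻¹
    rw [← this]
    congr 1
  have h3 : ¬ p ∣ Fintype.card (MulAction.orbit G (θ : N → ℂ)) := fun h => hidx (h.trans h2)
  have h4 : Fintype.card (Function.fixedPoints f) ≠ 0 := by
    intro h0
    rw [h0] at h1
    exact h3 ((Nat.modEq_zero_iff_dvd).mp h1)
  obtain ⟨⟨φ₀, hφ₀⟩⟩ := Fintype.card_pos_iff.mp (Nat.pos_of_ne_zero h4)
  obtain ⟨φ, g, hg⟩ := φ₀
  have h5 : pw k φ = φ := congrArg Subtype.val hφ₀
  have h6 : φ = cj hN θ g⁻¹ := hg.symm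
  rw [h6, pw_cj] at h5
  have h7 := congrArg (fun ψ => cj hN ψ g) h5
  simp only [cj_cj, inv_mul_cancel, cj_one] at h7
  intro n
  exact congrFun h7 n

end Cfsg.Agent.S4518
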