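import Cfsg.Statements.S4520
import Cfsg.Agent.S4517
import Cfsg.Agent.Lib.Helper21Cover
import Cfsg.Agent.Lib.Helper21Cover2
import Cfsg.Agent.Lib.Helper21CoverQ
import Cfsg.Agent.Lib.Helper21FR

set_option autoImplicit false
open Cfsg

namespace Cfsg.Agent.S4520

open Cfsg.Agent.Lib Cfsg.Agent.Lib.Helper81Local Cfsg.Agent.Lib.Helper81Base
  Cfsg.Agent.Lib.Helper81BB Cfsg.Agent.Lib.Helper81Block Cfsg.Agent.Lib.Helper81Orth
  Cfsg.Agent.Lib.Helper78Real2 Cfsg.Agent.Lib.Helper21Cover
open scoped ComplexConjugate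

section aux

variable {G : Type*} [Group G] [Fintype G] {M : Ideal AlgInt}

/-- variant of `irrOne_mem_of_stable` with a direct hypothesis on the real classes -/
theorem irrOne_mem_of_stable' (hM : IsPModular 2 M) {B : Set (IrrCharacter G)}
    (hB : IsPBlock M B) (hinv : ∀ g, blockCoeff B g⁻¹ = blockCoeff B g)
    {χ : IrrCharacter G} (hχ : χ ∈ B)
    (hω : ∀ g, Odd (orderOf g) →
      MemLocalIdeal M (centralChar (χ : G → ℂ) g⁻¹ - centralChar (χ : G → ℂ) g))
    (hre : ∀ g, g ≠ 1 → Odd (orderOf g) → IsConj g g⁻¹ →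
      MemLocalIdeal M (centralChar (χ : G → ℂ) g)) :
    Helper82Linear.irrOne G ∈ B := by
  classical
  have := hM.2.1.isPrime
  obtain ⟨F, hFdef⟩ : ∃ F : G → ℂ, F = fun g => blockCoeff B g * centralChar (χ : G → ℂ) g :=
    ⟨_, rfl⟩
  have hFa : ∀ g, F g = blockCoeff B g * centralChar (χ : G → ℂ) g := by
    intro g; rw [hFdef]
  have hcl : IsClassFunction G F := by
    intro g h
    rw [hFa, hFa, blockCoeff_classfn B g h, centralChar_classfn χ g h]
  have hR : ∀ g, MemLocalRing M (F g) := by
    intro g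
    rw [hFa]
    exact memLocalRing_mul (osima hB g) (memLocalRing_of_isIntegral (irr_omega_integral χ g))
  have hinv' : ∀ g, MemLocalIdeal M (F g⁻¹ - F g) := by
    intro g
    rw [hFa, hFa, hinv, ← mul_sub]
    by_cases h2 : 2 ∣ orderOf g
    · rw [blockCoeff_eq_zero_of_singular hM hB h2, zero_mul]; exact memLocalIdeal_zero
    · have hodd' : Odd (orderOf g) := by
        rw [← Nat.not_even_iff_odd, even_iff_two_dvd]; exact h2
      exact memLocalIdeal_mul (osima hB g) (hω g hodd')
  have hreal : ∀ g, g ≠ 1 → IsConj g g⁻¹ → MemLocalIdeal M (F g) := by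
    intro g hg1 hreal
    rw [hFa]
    by_cases h2 : 2 ∣ orderOf g
    · rw [blockCoeff_eq_zero_of_singular hM hB h2, zero_mul]; exact memLocalIdeal_zero
    · have hodd' : Odd (orderOf g) := by
        rw [← Nat.not_even_iff_odd, even_iff_two_dvd]; exact h2
      exact memLocalIdeal_mul (osima hB g) (hre g hg1 hodd' hreal)
  have hF := class_pairing hM F hcl hR hinv' hreal
  simp only [hFa] at hF
  have hom : ∑ x : ConjClasses G, blockCoeff B (Quotient.out x)
      * centralChar (χ : G → ℂ) (Quotient.out x) = 1 := by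
    rw [← om_eq_sum_classes (blockCoeff_classfn B) χ, om_blockCoeff, if_pos hχ]
  rw [hom, centralChar_one, mul_one] at hF
  have h1 : ¬ MemLocalIdeal M (blockCoeff B 1) := by
    intro h
    have := memLocalIdeal_add hF h
    rw [sub_add_cancel] at this
    exact not_memLocalIdeal_one this
  exact irrOne_mem_of_blockCoeff_one' hM hB hinv h1

omit [Fintype G] in
/-- a real element of a group of odd order is trivial -/
theorem eq_one_of_real_of_odd [Finite G] (hodd : Odd (Nat.card G)) {g : G} (h : IsConj g g⁻¹) :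
    g = 1 := by
  obtain ⟨c, hc⟩ := isConj_iff.1 h
  have key : ∀ n : ℕ, c ^ n * g * (c ^ n)⁻¹ = if Even n then g else g⁻¹ := by
    intro n
    induction n with
    | zero => simp
    | succ n ih =>
      have e : c ^ (n + 1) * g * (c ^ (n + 1))⁻¹ = c * (c ^ n * g * (c ^ n)⁻¹) * c⁻¹ := by
        rw [pow_succ']; group
      rw [e, ih]
      by_cases hn : Even n
      · rw [if_pos hn, if_neg (by rw [Nat.even_add_one]; exact not_not.2 hn), hc]
      · rw [if_neg hn, if_pos (by rw [Nat.even_add_one]; exact hn)]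
        have : c * g⁻¹ * c⁻¹ = (c * g * c⁻¹)⁻¹ := by group
        rw [this, hc, inv_inv]
  have h1 := key (Nat.card G)
  rw [pow_card_eq_one', if_neg (Nat.not_even_iff_odd.2 hodd)] at h1
  simp only [one_mul, inv_one, mul_one] at h1
  have h2 : g ^ 2 = 1 := by
    rw [pow_two]
    calc g * g = g⁻¹ * g := by rw [← h1]
      _ = 1 := inv_mul_cancel g
  have h3 : orderOf g ∣ 2 := orderOf_dvd_of_pow_eq_one h2
  have h4 : orderOf g ∣ Nat.card G := orderOf_dvd_natCard g
  rcases (Nat.dvd_prime Nat.prime_two).1 h3 with h | h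
  · exact orderOf_eq_one_iff.1 h
  · rw [h] at h4
    exact absurd (even_iff_two_dvd.2 h4) (Nat.not_even_iff_odd.2 hodd)

omit [Fintype G] in
/-- real elements lie in every normal subgroup of odd index -/
theorem mem_of_real_of_odd_index [Finite G] (N : Subgroup G) [N.Normal] (hidx : Odd N.index)
    {g : G} (h : IsConj g g⁻¹) : g ∈ N := by
  rw [← QuotientGroup.eq_one_iff]
  apply eq_one_of_real_of_odd (G := G ⧸ N) hidx
  obtain ⟨c, hc⟩ := isConj_iff.1 h
  apply isConj_iff.2
  refine ⟨(c : G ⧸ N), ?_⟩
  rw [← QuotientGroup.mk_inv, ← QuotientGroup.mk_inv, ← QuotientGroup.mk_mul,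
    ← QuotientGroup.mk_mul, hc]

omit [Fintype G] in
theorem centralChar_irrOne (g : G) :
    centralChar (Helper82Linear.irrOne G : G → ℂ) g
      = ((Subgroup.centralizer ({g} : Set G)).index : ℂ) := by
  unfold centralChar
  simp [Helper82Linear.irrOne]

omit [Fintype G] in
theorem centralizer_pow [Finite G] (k : ℕ) (hk : Nat.Coprime k (Nat.card G)) (g : G) :
    Subgroup.centralizer ({g ^ k} : Set G) = Subgroup.centralizer ({g} : Set G) := by
  have hko : Nat.Coprime k (orderOf g) := Nat.Coprime.coprime_dvd_right (orderOf_dvd_natCard g) hk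
  obtain ⟨m, hm⟩ := exists_pow_eq_self_of_coprime hko
  ext x
  simp only [Subgroup.mem_centralizer_singleton_iff]
  constructor
  · intro h
    have h1 : Commute x (g ^ k) := h
    have h2 : Commute x ((g ^ k) ^ m) := h1.pow_right m
    rw [hm] at h2
    exact h2
  · intro h
    have h1 : Commute x g := h
    exact h1.pow_right k

theorem centralChar_pw (k : ℕ) (hk : Nat.Coprime k (Nat.card G)) (χ : IrrCharacter G) (g : G) :
    centralChar (S4517.pw k hk χ : G → ℂ) g = centralChar (χ : G → ℂ) (g ^ k) := by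
  unfold centralChar
  rw [centralizer_pow k hk, S4517.pw_apply, S4517.pw_apply, one_pow]

theorem sameBlock_pw (k : ℕ) (hk : Nat.Coprime k (Nat.card G)) {χ ψ : IrrCharacter G}
    (h : SameBlock M (χ : G → ℂ) (ψ : G → ℂ)) :
    SameBlock M (S4517.pw k hk χ : G → ℂ) (S4517.pw k hk ψ : G → ℂ) := by
  intro g
  rw [centralChar_pw, centralChar_pw]
  exact h (g ^ k)

end aux

/-- Let N be a normal subgroup of odd index in the finite group G, M a maximal ideal of the algebraic integers containing 2, and k coprime to the order of G with k ^ (2 ^ e) ≡ 1 modulo the order of G for some e and g ^ k = g⁻¹ for every element g of odd order. Let θ be an irreducible character of N and χ an irreducible character of G over θ, both unchanged by composing with g ↦ g ^ k. Then χ lies in the principal 2-block of G if and only if θ lies in the principal 2-block of N. -/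
theorem result {G : Type*} [Group G] [Fintype G] (M : Ideal Cfsg.AlgInt) (hM : Cfsg.IsPModular 2 M) (N : Subgroup G) [N.Normal] [Fintype N] (hidx : Odd N.index) (k e : ℕ) (hk : Nat.Coprime k (Nat.card G)) (hke : k ^ (2 ^ e) ≡ 1 [MOD Nat.card G]) (hk₂ : ∀ g : G, Odd (orderOf g) → g ^ k = g⁻¹) (θ : Cfsg.IrrCharacter N) (hθ : ∀ n : N, (θ : N → ℂ) (n ^ k) = (θ : N → ℂ) n) (χ : Cfsg.IrrCharacter G) (hχ : ∀ g : G, (χ : G → ℂ) (g ^ k) = (χ : G → ℂ) g) (hover : Cfsg.classInner (fun n : N => (χ : G → ℂ) n) (θ : N → ℂ) ≠ 0) : χ ∈ Cfsg.principalBlock M G ↔ θ ∈ Cfsg.principalBlock M N := by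
  classical
  have hMp := hM.2.1.isPrime
  have hN : N.Normal := inferInstance
  have hov : Over χ θ := hover
  have hov1 : Over (Helper82Linear.irrOne G) (Helper82Linear.irrOne N) :=
    Helper21Cover2.over_one_of_ker (fun n _ => rfl)
  constructor
  · intro h
    have hb : IsPBlock M (principalBlock M N) := ⟨Helper82Linear.irrOne N, rfl⟩
    have h1N : Helper82Linear.irrOne N ∈ principalBlock M N :=
      self_mem_blockOf (Helper82Linear.irrOne N)
    have hs : SameBlock M (Helper82Linear.irrOne G : G → ℂ) (χ : G → ℂ) := h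
    obtain ⟨g, θ', hθ', e⟩ := over_of_congr hN (fun n => osima hb n) h1N hov1 hov
      (fun n => hs n)
    have him := Helper21FR.isPBlock_image hN hb g
    have h1 : Helper82Linear.irrOne N ∈ (fun θ => cjI hN θ g) '' principalBlock M N :=
      ⟨Helper82Linear.irrOne N, h1N, rfl⟩
    have h2 : θ ∈ (fun θ => cjI hN θ g) '' principalBlock M N := ⟨θ', hθ', e.symm⟩
    exact isPBlock_sameBlock him h1 h2
  · intro h
    have hs : SameBlock M (Helper82Linear.irrOne N : N → ℂ) (θ : N → ℂ) := h
    obtain ⟨B, hBdef⟩ : ∃ B, B = blockOf M (χ : G → ℂ) := ⟨_, rfl⟩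
    have hB : IsPBlock M B := ⟨χ, hBdef⟩
    have hχB : χ ∈ B := by rw [hBdef]; exact self_mem_blockOf χ
    have hfix : S4517.pw k hk χ = χ := Subtype.ext (funext hχ)
    have hst : ∀ ψ ∈ B, S4517.pw k hk ψ ∈ B := by
      intro ψ hψ
      have h1 := sameBlock_pw (M := M) k hk (isPBlock_sameBlock hB hχB hψ)
      rw [hfix] at h1
      exact isPBlock_mem_of_sameBlock hB hχB h1
    have hinv : ∀ g, Cfsg.blockCoeff B g⁻¹ = Cfsg.blockCoeff B g := by
      intro g
      by_cases h2 : 2 ∣ orderOf g
      · rw [blockCoeff_eq_zero_of_singular hM hB h2,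
          blockCoeff_eq_zero_of_singular hM hB (by rw [orderOf_inv]; exact h2)]
      · have hodd : Odd (orderOf g) := by
          rw [← Nat.not_even_iff_odd, even_iff_two_dvd]; exact h2
        rw [← hk₂ g hodd, S4517.blockCoeff_pow k hk hst]
    have h1B : Helper82Linear.irrOne G ∈ B := by
      apply irrOne_mem_of_stable' hM hB hinv hχB
      · intro g hg
        rw [← hk₂ g hg, ← centralChar_pw k hk, hfix, sub_self]
        exact memLocalIdeal_zero
      · intro g hg1 hodd hreal
        have hgN : g ∈ N := mem_of_real_of_odd_index N hidx hreal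
        have e1 := centralChar_eq_induced hov ⟨g, hgN⟩
        have e2 := centralChar_eq_induced hov1 ⟨g, hgN⟩
        have e3 := induced_congr (M := M) (sameBlock_symm hs) g
        simp only at e1 e2
        rw [← e1, ← e2, centralChar_irrOne] at e3
        have e4 : MemLocalIdeal M ((Subgroup.centralizer ({g} : Set G)).index : ℂ) :=
          (memLocalIdeal_natCast_iff hM).2 (even_index_of_real hg1 hodd hreal)
        have := memLocalIdeal_add e3 e4
        rwa [sub_add_cancel] at this
    rw [← eq_principalBlock_of_irrOne_mem hB h1B]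
    exact hχB

end Cfsg.Agent.S4520
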