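import Cfsg.Statements.S4521
import Cfsg.Agent.Lib.Helper21Cover
import Cfsg.Agent.Lib.Helper21Cover2
import Cfsg.Agent.Lib.Helper20Block
import Cfsg.Agent.Lib.Helper82Linear

set_option autoImplicit false
set_option linter.unusedSectionVars false
set_option linter.unusedVariables false
open Cfsg

namespace Cfsg.Agent.S4521

open Cfsg.Agent.Lib.Helper81Local Cfsg.Agent.Lib.Helper81Base Cfsg.Agent.Lib.Helper81BB
  Cfsg.Agent.Lib.Helper81Block Cfsg.Agent.Lib.Helper81Orth
  Cfsg.Agent.Lib.Helper19Ind Cfsg.Agent.Lib.Helper21Cover Cfsg.Agent.Lib.Helper21Cover2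
open Cfsg.Agent.Lib.Helper82Linear

section

variable {G : Type*} [Group G] [Fintype G]

/-- the indicator function of a conjugacy class. -/
noncomputable def ind (g : G) : G → ℂ := by
  classical exact fun h => if IsConj g h then 1 else 0

theorem ind_classfn (g : G) : IsClassFunction G (ind g) := by
  classical
  intro h x
  unfold ind
  have : IsConj g (x * h * x⁻¹) ↔ IsConj g h := by
    have h1 : IsConj h (x * h * x⁻¹) := isConj_iff.mpr ⟨x, rfl⟩
    exact ⟨fun h2 => h2.trans h1.symm, fun h2 => h2.trans h1⟩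
  simp only [this]

theorem centralChar_eq_om_ind (χ : IrrCharacter G) (g : G) :
    centralChar (χ : G → ℂ) g = om (ind g) χ := by
  classical
  rw [centralChar_eq_om χ g]
  unfold ind
  congr 1

/-- if the `G`-classes of elements of `U` are `U`-classes, central characters restrict. -/
theorem centralChar_res (U : Subgroup G) [Fintype U]
    (hU : ∀ (u : U) (g : G), ∃ v : U, g * u * g⁻¹ = ((v * u * v⁻¹ : U) : G))
    (χ : IrrCharacter G) (ψ : IrrCharacter U) (h : Over χ ψ) (u : U) :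
    centralChar (χ : G → ℂ) (u : G) = centralChar (ψ : U → ℂ) u := by
  classical
  rw [centralChar_eq_om_ind χ, centralChar_eq_om_ind ψ]
  have e : ind (u : G) = extendByZero U (ind u) := by
    funext x
    by_cases hx : x ∈ U
    · have : x = ((⟨x, hx⟩ : U) : G) := rfl
      rw [this, extendByZero_coe]
      unfold ind
      have hiff : IsConj (u : G) ((⟨x, hx⟩ : U) : G) ↔ IsConj u (⟨x, hx⟩ : U) := by
        constructor
        · intro hc
          obtain ⟨g, hg⟩ := isConj_iff.1 hc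
          obtain ⟨v, hv⟩ := hU u g
          exact isConj_iff.2 ⟨v, Subtype.ext (hv.symm.trans hg)⟩
        · intro hc
          obtain ⟨v, hv⟩ := isConj_iff.1 hc
          exact isConj_iff.2 ⟨v, by simpa using congrArg Subtype.val hv⟩
      simp only [hiff]
      congr
    · rw [extendByZero_of_not_mem U _ hx]
      unfold ind
      rw [if_neg]
      intro hc
      obtain ⟨g, hg⟩ := isConj_iff.1 hc
      obtain ⟨v, hv⟩ := hU u g
      apply hx
      rw [← hg, hv]
      exact (v * u * v⁻¹).2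
  have hF : IsClassFunction G (extendByZero U (ind u)) := e ▸ ind_classfn (u : G)
  rw [e]
  exact om_ext hF h

theorem over_one (U : Subgroup G) [Fintype U] : Over (irrOne G) (irrOne U) := by
  unfold Over
  have : classInner (fun n : U => ((irrOne G : IrrCharacter G) : G → ℂ) n)
      ((irrOne U : IrrCharacter U) : U → ℂ) = 1 :=
    Cfsg.Agent.Lib.Helper4Char.classInner_irr_self (irrOne U).2
  rw [this]
  exact one_ne_zero

end

section product

variable {G : Type*} [Group G] [Fintype G] (p : ℕ) [Fact p.Prime] (U₁ U₂ : Subgroup G)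
  (hcomm : ∀ u ∈ U₁, ∀ v ∈ U₂, u * v = v * u) (hgen : U₁ ⊔ U₂ = ⊤)

include hcomm hgen in
theorem exists_mul (g : G) : ∃ u ∈ U₁, ∃ v ∈ U₂, g = u * v := by
  have hr := MonoidHom.noncommCoprod_range U₁.subtype U₂.subtype
    (fun m n => hcomm m m.2 n n.2)
  rw [Subgroup.range_subtype, Subgroup.range_subtype, hgen] at hr
  have : g ∈ (MonoidHom.noncommCoprod U₁.subtype U₂.subtype
    (fun m n => hcomm m m.2 n n.2)).range := by rw [hr]; exact Subgroup.mem_top g
  obtain ⟨⟨a, b⟩, hab⟩ := this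
  exact ⟨a, a.2, b, b.2, hab.symm⟩

include hcomm hgen in
theorem class₁ (u : U₁) (g : G) : ∃ v : U₁, g * u * g⁻¹ = ((v * u * v⁻¹ : U₁) : G) := by
  obtain ⟨a, ha, b, hb, rfl⟩ := exists_mul U₁ U₂ hcomm hgen g
  refine ⟨⟨a, ha⟩, ?_⟩
  have h1 : b * u = u * b := (hcomm u u.2 b hb).symm
  simp only [Subgroup.coe_mul, Subgroup.coe_inv]
  calc a * b * u * (a * b)⁻¹ = a * (b * u) * b⁻¹ * a⁻¹ := by group
    _ = a * u * a⁻¹ := by rw [h1]; group

include hcomm hgen in
theorem class₂ (u : U₂) (g : G) : ∃ v : U₂, g * u * g⁻¹ = ((v * u * v⁻¹ : U₂) : G) := by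
  obtain ⟨a, ha, b, hb, rfl⟩ := exists_mul U₁ U₂ hcomm hgen g
  refine ⟨⟨b, hb⟩, ?_⟩
  have h1 : a * (b * u * b⁻¹) = (b * u * b⁻¹) * a :=
    hcomm a ha _ (U₂.mul_mem (U₂.mul_mem hb u.2) (U₂.inv_mem hb))
  simp only [Subgroup.coe_mul, Subgroup.coe_inv]
  calc a * b * u * (a * b)⁻¹ = a * (b * u * b⁻¹) * a⁻¹ := by group
    _ = b * u * b⁻¹ := by rw [h1]; group

include hcomm hgen in
/-- product of class sums of `p`-regular elements. -/
theorem conv_ind (hZ : IsPGroup p ↥(U₁ ⊓ U₂)) {v₁ v₂ : G} (h₁ : v₁ ∈ U₁) (h₂ : v₂ ∈ U₂)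
    (hr₁ : ¬ p ∣ orderOf v₁) : conv (ind v₁) (ind v₂) = ind (v₁ * v₂) := by
  classical
  have hp : p.Prime := Fact.out
  funext x
  unfold conv
  -- description of conjugates
  have hc₁ : ∀ h : G, IsConj v₁ h → ∃ c ∈ U₁, h = c * v₁ * c⁻¹ := by
    intro h hh
    obtain ⟨g, hg⟩ := isConj_iff.1 hh
    obtain ⟨v, hv⟩ := class₁ U₁ U₂ hcomm hgen ⟨v₁, h₁⟩ g
    exact ⟨v, v.2, by rw [← hg]; simpa using hv⟩
  have hc₂ : ∀ h : G, IsConj v₂ h → ∃ c ∈ U₂, h = c * v₂ * c⁻¹ := by
    intro h hh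
    obtain ⟨g, hg⟩ := isConj_iff.1 hh
    obtain ⟨v, hv⟩ := class₂ U₁ U₂ hcomm hgen ⟨v₂, h₂⟩ g
    exact ⟨v, v.2, by rw [← hg]; simpa using hv⟩
  by_cases hx : IsConj (v₁ * v₂) x
  · obtain ⟨e, he⟩ := isConj_iff.1 hx
    have hval : ind (v₁ * v₂) x = 1 := by unfold ind; rw [if_pos hx]
    rw [hval, Finset.sum_eq_single (e * v₁ * e⁻¹)]
    · have a1 : ind v₁ (e * v₁ * e⁻¹) = 1 := by
        unfold ind; rw [if_pos (isConj_iff.2 ⟨e, rfl⟩)]
      have a2 : ind v₂ ((e * v₁ * e⁻¹)⁻¹ * x) = 1 := by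
        unfold ind
        rw [if_pos]
        refine isConj_iff.2 ⟨e, ?_⟩
        rw [← he]; group
      rw [a1, a2, mul_one]
    · intro h _ hne
      by_contra hnz
      have b1 : IsConj v₁ h := by
        by_contra hcon
        apply hnz
        unfold ind
        rw [if_neg hcon, zero_mul]
      have b2 : IsConj v₂ (h⁻¹ * x) := by
        by_contra hcon
        apply hnz
        unfold ind
        rw [if_neg hcon, mul_zero]
      apply hne
      -- uniqueness
      set h' := e * v₁ * e⁻¹ with hh'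
      have b1' : IsConj v₁ h' := isConj_iff.2 ⟨e, rfl⟩
      have b2' : IsConj v₂ (h'⁻¹ * x) := by
        refine isConj_iff.2 ⟨e, ?_⟩
        rw [← he, hh']; group
      obtain ⟨c, hc, hch⟩ := hc₁ h b1
      obtain ⟨c', hc', hch'⟩ := hc₁ h' b1'
      obtain ⟨d, hd, hdk⟩ := hc₂ _ b2
      obtain ⟨d', hd', hdk'⟩ := hc₂ _ b2'
      have hU : h ∈ U₁ := by rw [hch]; exact U₁.mul_mem (U₁.mul_mem hc h₁) (U₁.inv_mem hc)
      have hU' : h' ∈ U₁ := by
        rw [hch']; exact U₁.mul_mem (U₁.mul_mem hc' h₁) (U₁.inv_mem hc')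
      have kU : h⁻¹ * x ∈ U₂ := by
        rw [hdk]; exact U₂.mul_mem (U₂.mul_mem hd h₂) (U₂.inv_mem hd)
      have kU' : h'⁻¹ * x ∈ U₂ := by
        rw [hdk']; exact U₂.mul_mem (U₂.mul_mem hd' h₂) (U₂.inv_mem hd')
      set z := h'⁻¹ * h with hz
      have hz1 : z ∈ U₁ := U₁.mul_mem (U₁.inv_mem hU') hU
      have hz2 : z ∈ U₂ := by
        have : z = (h'⁻¹ * x) * (h⁻¹ * x)⁻¹ := by rw [hz]; group
        rw [this]
        exact U₂.mul_mem kU' (U₂.inv_mem kU)
      have hcz : Commute h' z := hcomm h' hU' z hz2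
      have hhz : h = h' * z := by rw [hz]; group
      have ho : orderOf h = orderOf v₁ := by
        rw [hch]
        exact orderOf_eq_orderOf_iff.2 (fun n => by
          rw [conj_pow]
          constructor
          · intro hh
            have : v₁ ^ n = c⁻¹ * (c * v₁ ^ n * c⁻¹) * c := by group
            rw [this, hh]; group
          · intro hh; rw [hh]; group)
      have ho' : orderOf h' = orderOf v₁ := by
        rw [hch']
        exact orderOf_eq_orderOf_iff.2 (fun n => by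
          rw [conj_pow]
          constructor
          · intro hh
            have : v₁ ^ n = c'⁻¹ * (c' * v₁ ^ n * c'⁻¹) * c' := by group
            rw [this, hh]; group
          · intro hh; rw [hh]; group)
      have hzn : z ^ orderOf v₁ = 1 := by
        have e1 : h ^ orderOf v₁ = 1 := by rw [← ho]; exact pow_orderOf_eq_one h
        have e2 : h' ^ orderOf v₁ = 1 := by rw [← ho']; exact pow_orderOf_eq_one h'
        rw [hhz, hcz.mul_pow, e2, one_mul] at e1
        exact e1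
      obtain ⟨s, hs⟩ := (IsPGroup.iff_orderOf.1 hZ) ⟨z, Subgroup.mem_inf.2 ⟨hz1, hz2⟩⟩
      rw [Subgroup.orderOf_mk] at hs
      have hdvd : orderOf z ∣ orderOf v₁ := orderOf_dvd_of_pow_eq_one hzn
      have hs0 : s = 0 := by
        by_contra hne0
        apply hr₁
        refine dvd_trans ?_ hdvd
        rw [hs]
        exact dvd_pow_self p hne0
      rw [hs0, pow_zero, orderOf_eq_one_iff] at hs
      rw [hhz, hs, mul_one]
    · intro hh
      exact absurd (Finset.mem_univ _) hh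
  · have hval : ind (v₁ * v₂) x = 0 := by unfold ind; rw [if_neg hx]
    rw [hval]
    apply Finset.sum_eq_zero
    intro h _
    by_contra hnz
    have b1 : IsConj v₁ h := by
      by_contra hcon
      apply hnz
      unfold ind
      rw [if_neg hcon, zero_mul]
    have b2 : IsConj v₂ (h⁻¹ * x) := by
      by_contra hcon
      apply hnz
      unfold ind
      rw [if_neg hcon, mul_zero]
    obtain ⟨c, hc, hch⟩ := hc₁ h b1
    obtain ⟨d, hd, hdk⟩ := hc₂ _ b2
    apply hx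
    refine isConj_iff.2 ⟨c * d, ?_⟩
    have e1 : x = h * (h⁻¹ * x) := by group
    rw [e1, hdk, hch]
    have c1 : d * v₁ = v₁ * d := (hcomm v₁ h₁ d hd).symm
    have c2 : c⁻¹ * (d * v₂ * d⁻¹) = (d * v₂ * d⁻¹) * c⁻¹ :=
      hcomm _ (U₁.inv_mem hc) _ (U₂.mul_mem (U₂.mul_mem hd h₂) (U₂.inv_mem hd))
    calc c * d * (v₁ * v₂) * (c * d)⁻¹ = c * (d * v₁) * v₂ * d⁻¹ * c⁻¹ := by group
      _ = c * v₁ * ((d * v₂ * d⁻¹) * c⁻¹) := by rw [c1]; group
      _ = c * v₁ * c⁻¹ * (d * v₂ * d⁻¹) := by rw [← c2]; group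

include hcomm hgen in
theorem centralChar_mul (hZ : IsPGroup p ↥(U₁ ⊓ U₂)) {v₁ v₂ : G} (h₁ : v₁ ∈ U₁) (h₂ : v₂ ∈ U₂)
    (hr₁ : ¬ p ∣ orderOf v₁) (χ : IrrCharacter G) :
    centralChar (χ : G → ℂ) (v₁ * v₂)
      = centralChar (χ : G → ℂ) v₁ * centralChar (χ : G → ℂ) v₂ := by
  rw [centralChar_eq_om_ind, centralChar_eq_om_ind, centralChar_eq_om_ind,
    ← conv_ind p U₁ U₂ hcomm hgen hZ h₁ h₂ hr₁, om_conv (ind_classfn v₁)]

include hcomm hgen in
/-- a `p`-regular element is a product of `p`-regular elements of the factors. -/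
theorem exists_regular_mul (g : G) (hg : ¬ p ∣ orderOf g) :
    ∃ u ∈ U₁, ∃ v ∈ U₂, g = u * v ∧ ¬ p ∣ orderOf u := by
  have hp : p.Prime := Fact.out
  obtain ⟨a, ha, b, hb, rfl⟩ := exists_mul U₁ U₂ hcomm hgen g
  set k := (Nat.card G).factorization p with hk
  have hcop : (p ^ k).Coprime (orderOf (a * b)) :=
    Nat.Coprime.pow_left k ((hp.coprime_iff_not_dvd).2 hg)
  obtain ⟨m, hm⟩ := exists_pow_eq_self_of_coprime hcop
  have hab : Commute a b := hcomm a ha b hb
  refine ⟨(a ^ p ^ k) ^ m, U₁.pow_mem (U₁.pow_mem ha _) _, (b ^ p ^ k) ^ m,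
    U₂.pow_mem (U₂.pow_mem hb _) _, ?_, ?_⟩
  · rw [← ((hab.pow_pow _ _).mul_pow m), ← hab.mul_pow, hm]
  · intro hd
    have h1 : orderOf ((a ^ p ^ k) ^ m) ∣ orderOf (a ^ p ^ k) := orderOf_pow_dvd m
    have h2 : orderOf (a ^ p ^ k) ∣ Nat.card G / p ^ k := by
      apply orderOf_dvd_of_pow_eq_one
      rw [← pow_mul, Nat.mul_div_cancel' (Nat.ordProj_dvd _ _)]
      exact pow_card_eq_one'
    have h3 : ¬ p ∣ Nat.card G / p ^ k := Nat.not_dvd_ordCompl hp Nat.card_pos.ne'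
    exact h3 (dvd_trans hd (dvd_trans h1 h2))

end product

/-- Let the finite group G be generated by subgroups U₁ and U₂ that commute elementwise and whose intersection is a p-group, and let M be a maximal ideal of the algebraic integers containing the prime p. If the irreducible character χ of G has the irreducible constituents ψ₁ on U₁ and ψ₂ on U₂, then χ lies in the principal block of G if and only if ψ₁ and ψ₂ lie in the principal blocks of U₁ and U₂. -/
theorem result {G : Type*} [Group G] [Fintype G] (p : ℕ) [Fact p.Prime] (M : Ideal Cfsg.AlgInt) (hM : Cfsg.IsPModular p M) (U₁ U₂ : Subgroup G) [Fintype U₁] [Fintype U₂] (hcomm : ∀ u ∈ U₁, ∀ v ∈ U₂, u * v = v * u) (hgen : U₁ ⊔ U₂ = ⊤) (hZ : IsPGroup p ↥(U₁ ⊓ U₂)) (χ : Cfsg.IrrCharacter G) (ψ₁ : Cfsg.IrrCharacter U₁) (ψ₂ : Cfsg.IrrCharacter U₂) (h₁ : Cfsg.classInner (fun u : U₁ => (χ : G → ℂ) u) (ψ₁ : U₁ → ℂ) ≠ 0) (h₂ : Cfsg.classInner (fun u : U₂ => (χ : G → ℂ) u) (ψ₂ : U₂ → ℂ)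 ≠ 0) : χ ∈ Cfsg.principalBlock M G ↔ (ψ₁ ∈ Cfsg.principalBlock M U₁ ∧ ψ₂ ∈ Cfsg.principalBlock M U₂) := by
  classical
  have hMp : M.IsPrime := IsPModular.isPrime hM
  have c₁ := class₁ U₁ U₂ hcomm hgen
  have c₂ := class₂ U₁ U₂ hcomm hgen
  have e₁ : ∀ u : U₁, centralChar (χ : G → ℂ) (u : G) = centralChar (ψ₁ : U₁ → ℂ) u :=
    centralChar_res U₁ c₁ χ ψ₁ h₁
  have e₂ : ∀ u : U₂, centralChar (χ : G → ℂ) (u : G) = centralChar (ψ₂ : U₂ → ℂ) u :=
    centralChar_res U₂ c₂ χ ψ₂ h₂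
  have o₁ : ∀ u : U₁, centralChar (fun _ : G => (1 : ℂ)) (u : G)
      = centralChar (fun _ : U₁ => (1 : ℂ)) u :=
    centralChar_res U₁ c₁ (irrOne G) (irrOne U₁) (over_one U₁)
  have o₂ : ∀ u : U₂, centralChar (fun _ : G => (1 : ℂ)) (u : G)
      = centralChar (fun _ : U₂ => (1 : ℂ)) u :=
    centralChar_res U₂ c₂ (irrOne G) (irrOne U₂) (over_one U₂)
  constructor
  · intro hχ
    have hχ' : SameBlock M (fun _ : G => (1 : ℂ)) (χ : G → ℂ) := hχ
    refine ⟨?_, ?_⟩
    · show SameBlock M (fun _ : U₁ => (1 : ℂ)) (ψ₁ : U₁ → ℂ)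
      intro u
      rw [← e₁, ← o₁]
      exact hχ' u
    · show SameBlock M (fun _ : U₂ => (1 : ℂ)) (ψ₂ : U₂ → ℂ)
      intro u
      rw [← e₂, ← o₂]
      exact hχ' u
  · rintro ⟨hp₁, hp₂⟩
    have hp₁' : SameBlock M (fun _ : U₁ => (1 : ℂ)) (ψ₁ : U₁ → ℂ) := hp₁
    have hp₂' : SameBlock M (fun _ : U₂ => (1 : ℂ)) (ψ₂ : U₂ → ℂ) := hp₂
    show SameBlock M ((irrOne G : IrrCharacter G) : G → ℂ) (χ : G → ℂ)
    apply sameBlock_of_regular hM
    intro g hg
    obtain ⟨u, hu, v, hv, rfl, hur⟩ := exists_regular_mul p U₁ U₂ hcomm hgen g hg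
    rw [centralChar_mul p U₁ U₂ hcomm hgen hZ hu hv hur,
      centralChar_mul p U₁ U₂ hcomm hgen hZ hu hv hur]
    have a₁ : MemLocalIdeal M (centralChar ((irrOne G : IrrCharacter G) : G → ℂ) u
        - centralChar (χ : G → ℂ) u) := by
      have := hp₁' ⟨u, hu⟩
      rw [← e₁, ← o₁] at this
      exact this
    have a₂ : MemLocalIdeal M (centralChar ((irrOne G : IrrCharacter G) : G → ℂ) v
        - centralChar (χ : G → ℂ) v) := by
      have := hp₂' ⟨v, hv⟩
      rw [← e₂, ← o₂] at this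
      exact this
    have r₁ : MemLocalRing M (centralChar ((irrOne G : IrrCharacter G) : G → ℂ) u) :=
      Cfsg.Agent.Lib.Helper20Block.centralChar_mem hMp (irrOne G).2 u
    have r₂ : MemLocalRing M (centralChar (χ : G → ℂ) v) :=
      Cfsg.Agent.Lib.Helper20Block.centralChar_mem hMp χ.2 v
    have := memLocalIdeal_add (memLocalIdeal_mul r₁ a₂) (memLocalIdeal_mul_right a₁ r₂)
    convert this using 1
    ring

end Cfsg.Agent.S4521
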