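import Cfsg.Statements.S4540
import Cfsg.Agent.Lib.Helper82Major3
-- import your own Cfsg.Agent.* helpers here

set_option autoImplicit false
open Cfsg

namespace Cfsg.Agent.S4540

/-- Let B be a 2-block of the finite group G (relative to a maximal ideal M of the algebraic integers containing 2) of defect d with defect group D. Let z be an element of D commuting with every element of D, and let b be a block of the centralizer C of z with defect group D that induces B (a major subsection (z, b)). If b has 2-regular rank at most three, then 3·k(B) ≤ 3·k₀(B) + 2·Σ 2 ^ h(χ), where k(B) is the number of members of B, k₀(B) the number of members of height zero, and the sum runs over the members χ of B of positive height h(χ); this bound is at most 3·2 ^ d, so in particular B contains at most 2 ^ d irreducible characters. -/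
theorem result {G : Type*} [Group G] [Finite G] (M : Ideal Cfsg.AlgInt) (hM : Cfsg.IsPModular 2 M) (B : Set (Cfsg.IrrCharacter G)) (hB : Cfsg.IsPBlock M B) (D : Subgroup G) (hD : Cfsg.IsDefectGroup 2 M B D) (z : G) (hzD : z ∈ D) (hzc : ∀ d ∈ D, d * z = z * d) (b : Set (Cfsg.IrrCharacter ↥(Subgroup.centralizer ({z} : Set G)))) (hb : Cfsg.IsInducedBlock M (Subgroup.centralizer ({z} : Set G)) b B) (hbD : Cfsg.IsDefectGroup 2 M b (D.subgroupOf (Subgroup.centralizer ({z} : Set G)))) (hl : Cfsg.blockRank 2 b ≤ 3) : 3 * Nat.card B ≤ 3 * Nat.card {χ : Cfsg.IrrCharacter G // χ ∈ B ∧ Cfsg.blockHeight 2 B (χ : G → ℂ) = 0} + 2 * (∑ᶠ χ ∈ {χ : Cfsg.IrrCharacter G | χ ∈ B ∧ 1 ≤ Cfsg.blockHeight 2 B (χ : G → ℂ)}, 2 ^ Cfsg.blockHeight 2 B (χ : G → ℂ)) ∧ 3 * Nat.card {χ : Cfsg.IrrCharacter G // χ ∈ B ∧ Cfsg.blockHeight 2 B (χ : G → ℂ) = 0} + 2 * (∑ᶠ χ ∈ {χ : Cfsg.IrrCharacter G | χ ∈ B ∧ 1 ≤ Cfsg.blockHeight 2 B (χ : G → ℂ)}, 2 ^ Cfsg.blockHeight 2 B (χ : G → ℂ)) ≤ 3 * 2 ^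 Cfsg.blockDefect 2 B := by
  classical
  have hp : (2 : ℕ).Prime := Nat.prime_two
  let _ : Fintype G := Fintype.ofFinite G
  let _ : Fintype (Subgroup.centralizer ({z} : Set G)) := Fintype.ofFinite _
  have hcD := Cfsg.Agent.Lib.Helper20DefCard.card_defectGroup hM hB hD
  have hcb := Cfsg.Agent.Lib.Helper20DefCard.card_defectGroup hM hb.1 hbD
  have hDle : D ≤ Subgroup.centralizer ({z} : Set G) := by
    intro d hd
    rw [Subgroup.mem_centralizer_singleton_iff]
    exact hzc d hd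
  have hcard : Nat.card (D.subgroupOf (Subgroup.centralizer ({z} : Set G))) = Nat.card D :=
    Nat.card_congr (Subgroup.subgroupOfEquivOfLe hDle).toEquiv
  have hd : Cfsg.blockDefect 2 b = Cfsg.blockDefect 2 B := by
    rw [hcard, hcD] at hcb
    exact (Nat.pow_right_injective hp.two_le hcb).symm
  obtain ⟨k, hk⟩ : ∃ k : ℕ, orderOf z = 2 ^ k := by
    have h1 : orderOf (⟨z, hzD⟩ : D) ∣ Nat.card D := orderOf_dvd_natCard _
    rw [hcD, Subgroup.orderOf_mk] at h1
    obtain ⟨k, _, hk⟩ := (Nat.dvd_prime_pow hp).1 h1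
    exact ⟨k, hk⟩
  have key := Cfsg.Agent.Lib.Helper82Major3.weighted_le hM hb hd
    (z := ⟨z, Subgroup.mem_centralizer_singleton_iff.mpr rfl⟩)
    (fun h => Subtype.ext (Subgroup.mem_centralizer_singleton_iff.mp h.2)) hk rfl hl
  set ht : Cfsg.IrrCharacter G → ℕ := fun χ => Cfsg.blockHeight 2 B (χ : G → ℂ) with hht
  set Bf := Finset.univ.filter (fun χ : Cfsg.IrrCharacter G => χ ∈ B) with hBf
  set B0 := Finset.univ.filter (fun χ : Cfsg.IrrCharacter G => χ ∈ B ∧ ht χ = 0) with hB0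
  set B1 := Finset.univ.filter (fun χ : Cfsg.IrrCharacter G => χ ∈ B ∧ 1 ≤ ht χ) with hB1
  have c1 : Nat.card B = Bf.card := by
    rw [Nat.card_eq_fintype_card, Fintype.card_subtype]
  have c2 : Nat.card {χ : Cfsg.IrrCharacter G // χ ∈ B ∧ Cfsg.blockHeight 2 B (χ : G → ℂ) = 0}
      = B0.card := by
    rw [Nat.card_eq_fintype_card, Fintype.card_subtype]
  have c3 : (∑ᶠ χ ∈ {χ : Cfsg.IrrCharacter G | χ ∈ B ∧ 1 ≤ Cfsg.blockHeight 2 B (χ : G → ℂ)},
      2 ^ Cfsg.blockHeight 2 B (χ : G → ℂ)) = ∑ χ ∈ B1, 2 ^ ht χ := by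
    have : {χ : Cfsg.IrrCharacter G | χ ∈ B ∧ 1 ≤ Cfsg.blockHeight 2 B (χ : G → ℂ)}
        = (B1 : Set (Cfsg.IrrCharacter G)) := by
      ext χ
      simp [hB1, hht]
    rw [this, finsum_mem_coe_finset]
  rw [c1, c2, c3]
  have c4 : Bf.card = B0.card + B1.card := by
    rw [← Finset.card_union_of_disjoint]
    · congr 1
      ext χ
      simp only [hBf, hB0, hB1, Finset.mem_filter, Finset.mem_univ, true_and, Finset.mem_union]
      constructor
      · intro h
        rcases Nat.eq_zero_or_pos (ht χ) with h0 | h0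
        · exact Or.inl ⟨h, h0⟩
        · exact Or.inr ⟨h, h0⟩
      · rintro (h | h) <;> exact h.1
    · rw [Finset.disjoint_left]
      intro χ h1 h2
      simp only [hB0, hB1, Finset.mem_filter, Finset.mem_univ, true_and] at h1 h2
      omega
  have c5 : 2 * B1.card ≤ ∑ χ ∈ B1, 2 ^ ht χ := by
    rw [mul_comm, ← smul_eq_mul, ← Finset.sum_const]
    apply Finset.sum_le_sum
    intro χ hχ
    simp only [hB1, Finset.mem_filter, Finset.mem_univ, true_and] at hχ
    calc 2 = 2 ^ 1 := rfl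
      _ ≤ 2 ^ ht χ := Nat.pow_le_pow_right (by norm_num) hχ.2
  constructor
  · omega
  · have e : ∑ χ : Cfsg.IrrCharacter G, (if χ ∈ B then
        (if Cfsg.blockHeight 2 B (χ : G → ℂ) = 0 then (3 : ℤ)
          else 2 ^ (Cfsg.blockHeight 2 B (χ : G → ℂ) + 1)) else 0)
        = ((3 * B0.card + 2 * ∑ χ ∈ B1, 2 ^ ht χ : ℕ) : ℤ) := by
      push_cast
      rw [mul_comm (3 : ℤ), ← nsmul_eq_mul, ← Finset.sum_const, Finset.mul_sum, hB0, hB1,
        Finset.sum_filter, Finset.sum_filter, ← Finset.sum_add_distrib]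
      apply Finset.sum_congr rfl
      intro χ _
      by_cases h1 : χ ∈ B
      · by_cases h2 : ht χ = 0
        · have h2' : Cfsg.blockHeight 2 B (χ : G → ℂ) = 0 := h2
          simp [h1, h2, h2']
        · have h2' : Cfsg.blockHeight 2 B (χ : G → ℂ) ≠ 0 := h2
          have h3 : 1 ≤ ht χ := Nat.one_le_iff_ne_zero.2 h2
          simp only [h1, h2, h2', h3, if_true, if_false, and_true, and_false, true_and, zero_add]
          rw [pow_succ, mul_comm]
      · simp [h1]
    rw [e] at key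
    exact_mod_cast key

end Cfsg.Agent.S4540
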