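import Cfsg.Statements.S4541
import Cfsg.Agent.Lib.Helper84Subsec3

set_option autoImplicit false
open Cfsg

namespace Cfsg.Agent.S4541

open Cfsg.Agent.Lib.Helper81BB Cfsg.Agent.Lib.Helper84Subsec Cfsg.Agent.Lib.Helper84Subsec2
  Cfsg.Agent.Lib.Helper84Subsec3 Cfsg.Agent.Lib.Helper84Ramanujan2


/-- Let B be a 2-block of the finite group G (relative to a maximal ideal M of the algebraic integers containing 2), u a 2-element, and b a block of the centralizer of u inducing B (a subsection (u, b)), of defect q and 2-regular rank l; write s for the integer square root of l and k₀(B) for the number of members of B of height zero. If s is odd then k₀(B) ≤ s·2 ^ q, and otherwise (s + 1)·k₀(B) ≤ l·2 ^ q; in particular k₀(B) ≤ 2 ^ q when l ≤ 3. -/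
theorem result {G : Type*} [Group G] [Finite G] (M : Ideal Cfsg.AlgInt) (hM : Cfsg.IsPModular 2 M) (B : Set (Cfsg.IrrCharacter G)) (hB : Cfsg.IsPBlock M B) (u : G) (hu : ∃ j : ℕ, orderOf u = 2 ^ j) (b : Set (Cfsg.IrrCharacter ↥(Subgroup.centralizer ({u} : Set G)))) (hb : Cfsg.IsInducedBlock M (Subgroup.centralizer ({u} : Set G)) b B) : (Odd (Nat.sqrt (Cfsg.blockRank 2 b)) → Nat.card {χ : Cfsg.IrrCharacter G // χ ∈ B ∧ Cfsg.blockHeight 2 B (χ : G → ℂ) = 0} ≤ Nat.sqrt (Cfsg.blockRank 2 b) * 2 ^ Cfsg.blockDefect 2 b) ∧ (¬ Odd (Nat.sqrt (Cfsg.blockRank 2 b)) → (Nat.sqrt (Cfsg.blockRank 2 b) + 1) * Nat.card {χ : Cfsg.IrrCharacter G // χ ∈ B ∧ Cfsg.blockHeight 2 B (χ : G → ℂ) = 0} ≤ Cfsg.blockRank 2 b * 2 ^ Cfsg.blockDefect 2 b) ∧ (Cfsg.blockRank 2 b ≤ 3 → Nat.card {χ : Cfsg.IrrCharacter G // χ ∈ B ∧ Cfsg.blockHeight 2 B (χ : G → ℂ) = 0} ≤ 2 ^ Cfsg.blockDefect 2 b) := by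
  classical
  have : Fact (Nat.Prime 2) := ⟨Nat.prime_two⟩
  have hMp := hM.2.1.isPrime
  let _ : Fintype G := Fintype.ofFinite G
  let _ : Fintype (Subgroup.centralizer ({u} : Set G)) := Fintype.ofFinite _
  obtain ⟨k, hk⟩ := hu
  set z : Subgroup.centralizer ({u} : Set G) :=
    ⟨u, Subgroup.mem_centralizer_singleton_iff.mpr rfl⟩ with hz
  have hcen : ∀ h : Subgroup.centralizer ({u} : Set G), h * z = z * h := by
    intro h
    have := h.2
    rw [Subgroup.mem_centralizer_singleton_iff] at this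
    exact Subtype.ext this
  have hzk : z ^ (2 ^ k) = 1 := by
    apply Subtype.ext
    rw [Subgroup.coe_pow, Subgroup.coe_one, ← hk]
    exact pow_orderOf_eq_one u
  set T := (Finset.range (2 ^ k)).filter (fun t => t.Coprime (2 ^ k)) with hT
  have hTcard : T.card = (2 ^ k).totient := by
    rw [hT, Nat.totient]
    congr 1
    apply Finset.filter_congr
    intro t _
    exact Nat.coprime_comm
  set φ : ℝ := ((2 ^ k).totient : ℝ) with hφ
  have hφpos : 0 < φ := by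
    have : 0 < (2 ^ k).totient := Nat.totient_pos.2 (pow_pos Nat.two_pos k)
    rw [hφ]; exact_mod_cast this
  set d := blockDefect 2 b with hd
  set D : ℝ := ((2 : ℕ) : ℝ) ^ d with hD
  have hD0 : 0 ≤ D := by rw [hD]; positivity
  have hTu : ∀ t ∈ T, (∃ k' : ℕ, orderOf (u ^ t) = 2 ^ k') ∧
      Subgroup.centralizer ({u} : Set G) = Subgroup.centralizer ({u ^ t} : Set G) := by
    intro t ht
    have htc : t.Coprime (orderOf u) := by
      rw [hk]; exact (Finset.mem_filter.1 ht).2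
    exact ⟨⟨k, by rw [← hk]; exact Nat.Coprime.orderOf_pow htc.symm⟩, centralizer_pow_eq htc⟩
  set r : ℕ → IrrCharacter G → ℝ := fun t χ => ∑ ψ : IrrCharacter G,
    (if ψ ∈ B then ‖mm 2 b ((z : G) ^ t) (χ : G → ℂ) (ψ : G → ℂ)‖ ^ 2 else 0) with hrdef
  have hr0 : ∀ t χ, 0 ≤ r t χ := by
    intro t χ
    apply Finset.sum_nonneg
    intro ψ _
    split_ifs
    · positivity
    · exact le_rfl
  have hr : ∀ t ∈ T, ∀ χ : IrrCharacter G,
      ((r t χ : ℝ) : ℂ) = mm 2 b ((z : G) ^ t) (χ : G → ℂ) (χ : G → ℂ) := by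
    intro t ht χ
    exact row_norm hM (u ^ t) (hTu t ht).1 _ (hTu t ht).2 hb χ
  have hl : ∀ t ∈ T, ∑ χ : IrrCharacter G, (if χ ∈ B then r t χ else 0) = (blockRank 2 b : ℝ) := by
    intro t ht
    exact sum_sum_norm hM (u ^ t) (hTu t ht).1 _ (hTu t ht).2 hb
  set A : IrrCharacter G → ℤ := fun χ =>
    2 * ∑ i : IrrCharacter (Subgroup.centralizer ({u} : Set G)) ×
        IrrCharacter (Subgroup.centralizer ({u} : Set G)) with eta z i = 1, cc 2 b χ χ i
      - ∑ i : IrrCharacter (Subgroup.centralizer ({u} : Set G)) ×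
        IrrCharacter (Subgroup.centralizer ({u} : Set G)) with eta z i ^ 2 = 1, cc 2 b χ χ i with hAdef
  have hA : ∀ χ : IrrCharacter G, D * ∑ t ∈ T, r t χ = φ * (A χ : ℝ) := by
    intro χ
    apply Complex.ofReal_injective
    have h1 := sum_units_two k Finset.univ (cc 2 b χ χ) (eta z)
      (fun i _ => eta_pow_eq_one hcen hzk i)
    rw [hφ, hD]
    push_cast
    push_cast at h1
    have h2 : ((A χ : ℤ) : ℂ) = 2 * ∑ i : IrrCharacter (Subgroup.centralizer ({u} : Set G)) ×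
        IrrCharacter (Subgroup.centralizer ({u} : Set G)) with eta z i = 1, (cc 2 b χ χ i : ℂ)
      - ∑ i : IrrCharacter (Subgroup.centralizer ({u} : Set G)) ×
        IrrCharacter (Subgroup.centralizer ({u} : Set G)) with eta z i ^ 2 = 1, (cc 2 b χ χ i : ℂ) := by
      simp only [hAdef]; push_cast; rfl
    rw [h2, ← h1, Finset.mul_sum]
    apply Finset.sum_congr rfl
    intro t ht
    rw [hr t ht χ, ← pow_mul_mm b χ χ hcen t]
    push_cast
    rfl
  set I0 := Finset.univ.filter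
    (fun χ : IrrCharacter G => χ ∈ B ∧ blockHeight 2 B (χ : G → ℂ) = 0) with hI0
  have hcard : Nat.card {χ : IrrCharacter G // χ ∈ B ∧ blockHeight 2 B (χ : G → ℂ) = 0}
      = I0.card := by
    rw [Nat.card_eq_fintype_card, Fintype.card_subtype]
  have hodd : ∀ χ ∈ I0, Odd (A χ) := by
    intro χ hχ
    obtain ⟨hχB, hχ0⟩ := (Finset.mem_filter.1 hχ).2
    have h1 := not_dvd_sum_cc hM hb hχB hχ0 hχB hχ0
    have h2 := even_sum_swap (cc 2 b χ χ) (eta z) (fun a c => cc_symm b χ a c)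
      (fun a c => by unfold eta; simp [mul_comm])
      (fun i => by
        rw [Complex.mul_conj', Complex.norm_eq_one_of_pow_eq_one (eta_pow_eq_one hcen hzk i)
          (pow_ne_zero _ two_ne_zero)]
        simp)
    have h3 := Finset.sum_filter_add_sum_filter_not Finset.univ
      (fun i : IrrCharacter (Subgroup.centralizer ({u} : Set G)) ×
        IrrCharacter (Subgroup.centralizer ({u} : Set G)) => eta z i ^ 2 = 1) (cc 2 b χ χ)
    rw [hAdef]
    simp only
    obtain ⟨e, he⟩ := h2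
    have h4 : ¬ (2 : ℤ) ∣ ∑ i : IrrCharacter (Subgroup.centralizer ({u} : Set G)) ×
        IrrCharacter (Subgroup.centralizer ({u} : Set G)), cc 2 b χ χ i := by exact_mod_cast h1
    rw [← h3, he] at h4
    rw [Int.odd_iff]
    omega
  have hg : ∀ χ ∈ I0, φ * ((I0.card : ℝ) - 1) + φ * (A χ : ℝ) ^ 2 ≤ D * (φ * (A χ : ℝ)) := by
    intro χ hχ
    obtain ⟨hχB, hχ0⟩ := (Finset.mem_filter.1 hχ).2
    set g : IrrCharacter G → ℝ := fun ψ => ∑ t ∈ T,
      ‖((2 : ℕ) : ℂ) ^ blockDefect 2 b * mm 2 b ((z : G) ^ t) (χ : G → ℂ) (ψ : G → ℂ)‖ ^ 2 with hgdef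
    have hg0 : ∀ ψ, 0 ≤ g ψ := fun ψ => Finset.sum_nonneg (fun t _ => by positivity)
    have e1 : D * (φ * (A χ : ℝ)) = ∑ ψ : IrrCharacter G, (if ψ ∈ B then g ψ else 0) := by
      rw [← hA χ, Finset.mul_sum, Finset.mul_sum]
      have : ∀ ψ : IrrCharacter G, (if ψ ∈ B then g ψ else 0)
          = ∑ t ∈ T, (if ψ ∈ B then
            ‖((2 : ℕ) : ℂ) ^ blockDefect 2 b * mm 2 b ((z : G) ^ t) (χ : G → ℂ) (ψ : G → ℂ)‖ ^ 2
            else 0) := by
        intro ψ
        split_ifs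
        · rfl
        · simp
      simp only [this]
      rw [Finset.sum_comm]
      apply Finset.sum_congr rfl
      intro t _
      rw [hrdef]
      simp only
      rw [Finset.mul_sum, Finset.mul_sum]
      apply Finset.sum_congr rfl
      intro ψ _
      split_ifs
      · rw [norm_mul, mul_pow, norm_pow, Complex.norm_natCast, hD]
        ring
      · simp
    have e2 : ∑ ψ ∈ I0, g ψ ≤ ∑ ψ : IrrCharacter G, (if ψ ∈ B then g ψ else 0) := by
      rw [hI0, Finset.sum_filter]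
      apply Finset.sum_le_sum
      intro ψ _
      by_cases h1 : ψ ∈ B
      · rw [if_pos h1]
        split_ifs
        · exact le_rfl
        · exact hg0 ψ
      · rw [if_neg h1, if_neg (fun h => h1 h.1)]
    have e3 : ∀ ψ ∈ I0, φ ≤ g ψ := by
      intro ψ hψ
      obtain ⟨hψB, hψ0⟩ := (Finset.mem_filter.1 hψ).2
      exact totient_le_sum_mm hM hb hχB hχ0 hψB hψ0 hcen hzk
    have e4 : φ * (A χ : ℝ) ^ 2 ≤ g χ := by
      have h1 : g χ = ∑ t ∈ T, (D * r t χ) ^ 2 := by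
        apply Finset.sum_congr rfl
        intro t ht
        rw [← hr t ht χ, norm_mul, norm_pow, Complex.norm_natCast, Complex.norm_real,
          Real.norm_of_nonneg (hr0 t χ)]
      have h2 := sq_sum_le_card_mul_sum_sq (s := T) (f := fun t => D * r t χ)
      rw [← Finset.mul_sum, hA χ, ← h1, hTcard] at h2
      have h3 : φ * (φ * (A χ : ℝ) ^ 2) ≤ φ * g χ := by
        calc φ * (φ * (A χ : ℝ) ^ 2) = (φ * (A χ : ℝ)) ^ 2 := by ring
          _ ≤ _ := h2
      exact le_of_mul_le_mul_left h3 hφpos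
    have e5 : ∑ ψ ∈ I0, g ψ = g χ + ∑ ψ ∈ I0.erase χ, g ψ := (Finset.add_sum_erase I0 g hχ).symm
    have e6 : (I0.erase χ).card • φ ≤ ∑ ψ ∈ I0.erase χ, g ψ :=
      Finset.card_nsmul_le_sum _ _ _ (fun ψ hψ => e3 ψ (Finset.mem_of_mem_erase hψ))
    rw [Finset.card_erase_of_mem hχ, nsmul_eq_mul,
      Nat.cast_sub (Finset.card_pos.2 ⟨χ, hχ⟩), Nat.cast_one] at e6
    rw [e1]
    calc φ * ((I0.card : ℝ) - 1) + φ * (A χ : ℝ) ^ 2
        ≤ ∑ ψ ∈ I0.erase χ, g ψ + g χ := by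
          have : φ * ((I0.card : ℝ) - 1) = ((I0.card : ℝ) - 1) * φ := mul_comm _ _
          rw [this]
          exact add_le_add e6 e4
      _ = ∑ ψ ∈ I0, g ψ := by rw [e5, add_comm]
      _ ≤ _ := e2
  have hI : ∀ χ ∈ I0, ((I0.card : ℕ) : ℤ) - 1 + A χ ^ 2 ≤ ((2 ^ d : ℕ) : ℤ) * A χ := by
    intro χ hχ
    have h1 := hg χ hχ
    have h2 : φ * (((I0.card : ℝ) - 1) + (A χ : ℝ) ^ 2) ≤ φ * (D * (A χ : ℝ)) := by
      calc φ * (((I0.card : ℝ) - 1) + (A χ : ℝ) ^ 2)
          = φ * ((I0.card : ℝ) - 1) + φ * (A χ : ℝ) ^ 2 := by ring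
        _ ≤ D * (φ * (A χ : ℝ)) := h1
        _ = _ := by ring
    have h3 := le_of_mul_le_mul_left h2 hφpos
    rw [hD] at h3
    exact_mod_cast h3
  have hII : ∑ χ ∈ I0, A χ ≤ ((2 ^ d : ℕ) : ℤ) * ((blockRank 2 b : ℕ) : ℤ) := by
    have h1 : ∑ χ ∈ I0, φ * (A χ : ℝ) ≤ D * (φ * (blockRank 2 b : ℝ)) := by
      have h2 : ∀ χ ∈ I0, φ * (A χ : ℝ) = D * ∑ t ∈ T, r t χ := fun χ _ => (hA χ).symm
      rw [Finset.sum_congr rfl h2, ← Finset.mul_sum]
      apply mul_le_mul_of_nonneg_left _ hD0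
      rw [Finset.sum_comm, hφ, ← hTcard, ← nsmul_eq_mul, ← Finset.sum_const]
      apply Finset.sum_le_sum
      intro t ht
      rw [← hl t ht, hI0, Finset.sum_filter]
      apply Finset.sum_le_sum
      intro χ _
      by_cases h1 : χ ∈ B
      · rw [if_pos h1]
        split_ifs
        · exact le_rfl
        · exact hr0 t χ
      · rw [if_neg h1, if_neg (fun h => h1 h.1)]
    rw [← Finset.mul_sum] at h1
    have h2 : φ * ∑ χ ∈ I0, (A χ : ℝ) ≤ φ * (D * (blockRank 2 b : ℝ)) := by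
      calc φ * ∑ χ ∈ I0, (A χ : ℝ) ≤ D * (φ * (blockRank 2 b : ℝ)) := h1
        _ = _ := by ring
    have h3 := le_of_mul_le_mul_left h2 hφpos
    rw [hD] at h3
    exact_mod_cast h3
  obtain ⟨R1, R2⟩ := arith I0.card (2 ^ d) (blockRank 2 b) I0 rfl A hodd hI hII
  rw [hcard]
  refine ⟨R1, R2, ?_⟩
  intro hl3
  generalize blockRank 2 b = l at R1 R2 hl3
  have s0 : Nat.sqrt 0 = 0 := (Nat.eq_sqrt.2 ⟨by norm_num, by norm_num⟩).symm
  have s1 : Nat.sqrt 1 = 1 := (Nat.eq_sqrt.2 ⟨by norm_num, by norm_num⟩).symm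
  have s2 : Nat.sqrt 2 = 1 := (Nat.eq_sqrt.2 ⟨by norm_num, by norm_num⟩).symm
  have s3 : Nat.sqrt 3 = 1 := (Nat.eq_sqrt.2 ⟨by norm_num, by norm_num⟩).symm
  interval_cases l
  · rw [s0] at R2
    have := R2 (by decide)
    simp at this
    simp [this]
  · rw [s1] at R1
    have := R1 (by decide)
    simpa using this
  · rw [s2] at R1
    have := R1 (by decide)
    simpa using this
  · rw [s3] at R1
    have := R1 (by decide)
    simpa using this

end Cfsg.Agent.S4541
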