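import Cfsg.Statements.S4550
import Cfsg.Agent.Lib.Helper20Block
import Cfsg.Agent.Lib.Helper79GalConj
import Cfsg.Agent.Lib.Helper82Linear
import Cfsg.Agent.Lib.Helper83Char
-- import your own Cfsg.Agent.* helpers here

set_option autoImplicit false
open Cfsg

namespace Cfsg.Agent.S4550

open Cfsg.Agent.Lib

theorem three_pow_modEq (a : ℕ) : 3 ^ (2 ^ a) ≡ 1 [MOD 2 ^ a] := by
  induction a with
  | zero => simp [Nat.modEq_one]
  | succ a ih =>
    have h1 : (2 ^ a : ℤ) ∣ (3 ^ (2 ^ a) - 1 : ℤ) := by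
      have := (Nat.modEq_iff_dvd.mp ih.symm)
      push_cast at this
      exact this
    have h2 : (2 : ℤ) ∣ (3 ^ (2 ^ a) + 1 : ℤ) := by
      have : Odd ((3 : ℤ) ^ (2 ^ a)) := Odd.pow (by decide)
      exact (this.add_odd odd_one).two_dvd
    have h3 : (2 ^ (a + 1) : ℤ) ∣ (3 ^ (2 ^ (a + 1)) - 1 : ℤ) := by
      have e : (3 ^ (2 ^ (a + 1)) - 1 : ℤ) = (3 ^ (2 ^ a) - 1) * (3 ^ (2 ^ a) + 1) := by
        rw [pow_succ 2 a, pow_mul]; ring
      rw [e, pow_succ]
      exact mul_dvd_mul h1 h2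
    apply Nat.ModEq.symm
    apply Nat.modEq_iff_dvd.mpr
    push_cast
    exact h3

theorem coprime_card {G : Type*} [Group G] [Finite G] (k : ℕ)
    (hk₁ : ∀ g : G, (∃ j : ℕ, orderOf g = 2 ^ j) → g ^ k = g ^ 3)
    (hk₂ : ∀ g : G, Odd (orderOf g) → g ^ k = g) : k.Coprime (Nat.card G) := by
  classical
  have := Fintype.ofFinite G
  rw [Nat.coprime_iff_gcd_eq_one] 
  by_contra hne
  obtain ⟨q, hq, hqd⟩ := Nat.exists_prime_and_dvd hne
  have hqk : q ∣ k := hqd.trans (Nat.gcd_dvd_left _ _)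
  have hqG : q ∣ Nat.card G := hqd.trans (Nat.gcd_dvd_right _ _)
  have := Fact.mk hq
  rw [Nat.card_eq_fintype_card] at hqG
  obtain ⟨g, hg⟩ := exists_prime_orderOf_dvd_card q hqG
  have hgk : g ^ k = 1 := by
    rw [← hg] at hqk
    exact orderOf_dvd_iff_pow_eq_one.mp hqk
  have hg1 : g ≠ 1 := by
    intro h
    rw [h, orderOf_one] at hg
    exact hq.one_lt.ne hg
  rcases hq.eq_two_or_odd' with h2 | hodd
  · have h3 := hk₁ g ⟨1, by rw [hg, h2, pow_one]⟩
    rw [hgk] at h3
    have hg2 : g ^ 2 = 1 := by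
      rw [← h2, ← hg]; exact pow_orderOf_eq_one g
    apply hg1
    have : g ^ 3 = g := by rw [pow_succ, hg2, one_mul]
    rw [← this, ← h3]
  · have h3 := hk₂ g (by rw [hg]; exact hodd)
    rw [hgk] at h3
    exact hg1 h3.symm

theorem pow_pow_eq {G : Type*} [Group G] [Finite G] (k : ℕ)
    (hk₁ : ∀ g : G, (∃ j : ℕ, orderOf g = 2 ^ j) → g ^ k = g ^ 3)
    (hk₂ : ∀ g : G, Odd (orderOf g) → g ^ k = g) (g : G) :
    g ^ (k ^ (2 ^ (Nat.card G))) = g := by
  have ho : orderOf g ≠ 0 := (orderOf_pos g).ne'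
  obtain ⟨a, m, hm, hom⟩ := Nat.exists_eq_two_pow_mul_odd ho
  have hm0 : m ≠ 0 := by rintro rfl; simp at hm
  have h2a0 : 2 ^ a ≠ 0 := by positivity
  have ho1 : orderOf (g ^ m) = 2 ^ a := by
    rw [orderOf_pow_of_dvd hm0 ⟨2 ^ a, by rw [hom, mul_comm]⟩, hom]
    exact Nat.mul_div_cancel _ (Nat.pos_of_ne_zero hm0)
  have ho2 : orderOf (g ^ (2 ^ a)) = m := by
    rw [orderOf_pow_of_dvd h2a0 ⟨m, hom⟩, hom]
    exact Nat.mul_div_cancel_left _ (Nat.pos_of_ne_zero h2a0)
  have e1 : k ≡ 3 [MOD 2 ^ a] := by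
    have := hk₁ (g ^ m) ⟨a, ho1⟩
    rw [pow_eq_pow_iff_modEq, ho1] at this
    exact this
  have e2 : k ≡ 1 [MOD m] := by
    have := hk₂ (g ^ (2 ^ a)) (by rw [ho2]; exact hm)
    nth_rewrite 2 [← pow_one (g ^ (2 ^ a))] at this
    rw [pow_eq_pow_iff_modEq, ho2] at this
    exact this
  have haA : a ≤ Nat.card G := by
    have h1 : a < 2 ^ a := Nat.lt_two_pow_self
    have h2 : 2 ^ a ≤ orderOf g := by
      rw [hom]; exact Nat.le_mul_of_pos_right _ (Nat.pos_of_ne_zero hm0)
    have h3 : orderOf g ≤ Nat.card G := orderOf_le_card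
    omega
  have f1 : k ^ (2 ^ (Nat.card G)) ≡ 1 [MOD 2 ^ a] :=
    (e1.pow _).trans ((three_pow_modEq (Nat.card G)).of_dvd (pow_dvd_pow 2 haA))
  have f2 : k ^ (2 ^ (Nat.card G)) ≡ 1 [MOD m] := by
    simpa using e2.pow (2 ^ (Nat.card G))
  have hcop : (2 ^ a).Coprime m := Nat.Coprime.pow_left _ (Nat.coprime_two_left.mpr hm)
  have f3 : k ^ (2 ^ (Nat.card G)) ≡ 1 [MOD orderOf g] := by
    rw [hom]
    exact (Nat.modEq_and_modEq_iff_modEq_mul hcop).mp ⟨f1, f2⟩
  have := (pow_eq_pow_iff_modEq (x := g)).mpr f3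
  rwa [pow_one] at this

theorem centralizer_pow {G : Type*} [Group G] [Finite G] (k : ℕ) (hk : k.Coprime (Nat.card G))
    (g : G) : Subgroup.centralizer ({g ^ k} : Set G) = Subgroup.centralizer ({g} : Set G) := by
  have hko : k.Coprime (orderOf g) := hk.coprime_dvd_right (orderOf_dvd_natCard g)
  obtain ⟨m, hm⟩ := exists_pow_eq_self_of_coprime hko
  ext x
  simp only [Subgroup.mem_centralizer_singleton_iff]
  constructor
  · intro h
    have : Commute x (g ^ k) := h
    have h2 := this.pow_right m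
    rw [hm] at h2
    exact h2
  · intro h
    have : Commute x g := h
    exact this.pow_right k

theorem mem_principal_pow {G : Type*} [Group G] [Finite G] (M : Ideal Cfsg.AlgInt) (k : ℕ)
    (hk : k.Coprime (Nat.card G)) (χ χ' : Cfsg.IrrCharacter G)
    (h' : ∀ g, (χ' : G → ℂ) g = (χ : G → ℂ) (g ^ k))
    (hχ : χ ∈ Cfsg.principalBlock M G) : χ' ∈ Cfsg.principalBlock M G := by
  intro g
  have := hχ (g ^ k)
  simp only [Cfsg.centralChar] at this ⊢
  rw [centralizer_pow k hk g] at this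
  rw [h' g, h' 1, one_pow]
  exact this

theorem even_card_odd {G : Type*} [Group G] [Fintype G] (M : Ideal Cfsg.AlgInt)
    (hM : Cfsg.IsPModular 2 M) (hev : Even (Nat.card G)) :
    Even (Nat.card {χ : Cfsg.IrrCharacter G // χ ∈ Cfsg.principalBlock M G ∧
      Odd (Cfsg.charDegree (χ : G → ℂ))}) := by
  classical
  rw [Nat.card_eq_fintype_card]
  have hP := Helper20Local.IsPModular.isPrime hM
  have hB : Cfsg.IsPBlock M (Cfsg.principalBlock M G) := ⟨Helper82Linear.irrOne G, rfl⟩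
  have hsc := (Helper20Block.isSC_blockCoeff hP hB).2 1
  have hli : Cfsg.MemLocalIdeal M ((Nat.card G : ℂ) * Cfsg.blockCoeff (Cfsg.principalBlock M G) 1) :=
    Helper20Local.liMulRight hP ((Helper20Local.memLocalIdeal_natCast_iff hM _).mpr hev.two_dvd) hsc
  have hcard : (Nat.card G : ℂ) ≠ 0 := by
    exact_mod_cast (Nat.card_pos (α := G)).ne'
  rw [Helper20Block.blockCoeff_eq_sum, mul_inv_cancel_left₀ hcard] at hli
  have e : (∑ χ : Cfsg.IrrCharacter G, if χ ∈ Cfsg.principalBlock M G then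
      (χ : G → ℂ) 1 * (starRingEnd ℂ) ((χ : G → ℂ) 1) else 0) =
      ((∑ χ : Cfsg.IrrCharacter G, if χ ∈ Cfsg.principalBlock M G then
        (Cfsg.charDegree (χ : G → ℂ)) ^ 2 else 0 : ℕ) : ℂ) := by
    push_cast
    apply Finset.sum_congr rfl
    intro χ _
    split_ifs
    · rw [← Helper83Char.charDegree_cast χ.2]
      simp [sq]
    · rfl
  rw [e, Helper20Local.memLocalIdeal_natCast_iff hM] at hli
  rw [Fintype.card_subtype, Finset.card_filter]
  rw [Nat.even_iff, ← Nat.dvd_iff_mod_eq_zero]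
  rw [← ZMod.natCast_eq_zero_iff] at hli ⊢
  rw [← hli]
  push_cast
  apply Finset.sum_congr rfl
  intro χ _
  by_cases hχ : χ ∈ Cfsg.principalBlock M G
  · by_cases ho : Odd (Cfsg.charDegree (χ : G → ℂ))
    · have : ((Cfsg.charDegree (χ : G → ℂ) : ℕ) : ZMod 2) = 1 := by
        rw [ZMod.natCast_eq_one_iff_odd]; exact ho
      simp [hχ, ho, this]
    · have : ((Cfsg.charDegree (χ : G → ℂ) : ℕ) : ZMod 2) = 0 := by
        rw [ZMod.natCast_eq_zero_iff_even]; exact Nat.not_odd_iff_even.mp ho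
      simp [hχ, ho, this]
  · simp [hχ]

/-- Let G be a finite group of even order and M a maximal ideal of the algebraic integers containing 2. Let k be a natural number with g ^ k = g ^ 3 for every 2-element g and g ^ k = g for every element g of odd order (such k exist); an irreducible character χ is unchanged by g ↦ g ^ k exactly when it is fixed by the field automorphism that cubes the 2-power roots of unity and fixes the roots of unity of odd order. Then the number of members χ of the principal 2-block of odd degree with χ (g ^ k) = χ g for all g is even. -/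
theorem result {G : Type*} [Group G] [Finite G] (M : Ideal Cfsg.AlgInt) (hM : Cfsg.IsPModular 2 M) (hev : Even (Nat.card G)) (k : ℕ) (hk₁ : ∀ g : G, (∃ j : ℕ, orderOf g = 2 ^ j) → g ^ k = g ^ 3) (hk₂ : ∀ g : G, Odd (orderOf g) → g ^ k = g) : Even (Nat.card {χ : Cfsg.IrrCharacter G // χ ∈ Cfsg.principalBlock M G ∧ Odd (Cfsg.charDegree (χ : G → ℂ)) ∧ ∀ g : G, (χ : G → ℂ) (g ^ k) = (χ : G → ℂ) g}) := by
  classical
  have := Fintype.ofFinite G
  have hcop := coprime_card k hk₁ hk₂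
  let S := {χ : Cfsg.IrrCharacter G // χ ∈ Cfsg.principalBlock M G ∧
      Odd (Cfsg.charDegree (χ : G → ℂ))}
  let τ : Function.End S := fun s =>
    ⟨⟨fun g => (s.1 : G → ℂ) (g ^ k), Helper79GalConj.isIrrCharacter_pow s.1.2 k hcop⟩,
      mem_principal_pow M k hcop s.1 _ (fun _ => rfl) s.2.1, by
        have := s.2.2
        simpa [Cfsg.charDegree] using this⟩
  have hτ : ∀ (j : ℕ) (s : S) (g : G), (((τ ^ j) s).1 : G → ℂ) g = (s.1 : G → ℂ) (g ^ (k ^ j)) := by
    intro j
    induction j with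
    | zero => intro s g; rw [pow_zero, pow_zero, pow_one]; rfl
    | succ j ih =>
      intro s g
      rw [pow_succ]
      change (((τ ^ j) (τ s)).1 : G → ℂ) g = _
      rw [ih]
      change (s.1 : G → ℂ) ((g ^ (k ^ j)) ^ k) = _
      rw [← pow_mul, ← pow_succ]
  have hf : τ ^ 2 ^ (Nat.card G) = 1 := by
    funext s
    apply Subtype.ext
    apply Subtype.ext
    funext g
    rw [hτ, pow_pow_eq k hk₁ hk₂]
    rfl
  have := Fact.mk Nat.prime_two
  have hmod := Equiv.Perm.card_fixedPoints_modEq hf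
  have hS : Even (Fintype.card S) := by
    rw [← Nat.card_eq_fintype_card]
    exact even_card_odd M hM hev
  have hfix : Even (Fintype.card (Function.fixedPoints τ)) := by
    rw [Nat.even_iff] at hS ⊢
    rw [← hS]
    exact hmod.symm
  have e : {χ : Cfsg.IrrCharacter G // χ ∈ Cfsg.principalBlock M G ∧ Odd (Cfsg.charDegree (χ : G → ℂ)) ∧ ∀ g : G, (χ : G → ℂ) (g ^ k) = (χ : G → ℂ) g} ≃ Function.fixedPoints τ :=
    { toFun := fun x => ⟨⟨x.1, x.2.1, x.2.2.1⟩, by
        apply Subtype.ext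
        apply Subtype.ext
        funext g
        exact x.2.2.2 g⟩
      invFun := fun y => ⟨y.1.1, y.1.2.1, y.1.2.2, fun g => by
        have := y.2
        have h2 := congrArg (fun s : S => (s.1 : G → ℂ) g) this
        exact h2⟩
      left_inv := fun x => rfl
      right_inv := fun y => rfl }
  rw [Nat.card_congr e, Nat.card_eq_fintype_card]
  exact hfix

end Cfsg.Agent.S4550
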