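import Cfsg.Statements.S4549
import Cfsg.Agent.Lib.Helper79PrinGal
import Cfsg.Agent.Lib.Helper19Ratio
import Cfsg.Agent.S0938
import Cfsg.Agent.S4550
-- import your own Cfsg.Agent.* helpers here

set_option autoImplicit false
open Cfsg

namespace Cfsg.Agent.S4549

open Cfsg.Agent.Lib.Helper11Frobenius Cfsg.Agent.Lib.Helper82Linear
open Cfsg.Agent.Lib.Helper20Local Cfsg.Agent.Lib.Helper20Block Cfsg.Agent.Lib.Helper83Char

/-- Let G be a finite group and M a maximal ideal of the algebraic integers containing 2. Let k be a natural number with g ^ k = g ^ 3 for every 2-element g and g ^ k = g for every element g of odd order (such k exist); an irreducible character χ is unchanged by g ↦ g ^ k exactly when it is fixed by the field automorphism that cubes the 2-power roots of unity and fixes the roots of unity of odd order. Then G has a normal 2-complement if and only if every member χ of the principal 2-block of odd degree with χ (g ^ k) = χ g for all g has degree one. -/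
theorem result {G : Type*} [Group G] [Finite G] (M : Ideal Cfsg.AlgInt) (hM : Cfsg.IsPModular 2 M) (k : ℕ) (hk₁ : ∀ g : G, (∃ j : ℕ, orderOf g = 2 ^ j) → g ^ k = g ^ 3) (hk₂ : ∀ g : G, Odd (orderOf g) → g ^ k = g) : Cfsg.HasNormalPComplement 2 G ↔ ∀ χ ∈ Cfsg.principalBlock M G, Odd (Cfsg.charDegree (χ : G → ℂ)) → (∀ g : G, (χ : G → ℂ) (g ^ k) = (χ : G → ℂ) g) → Cfsg.charDegree (χ : G → ℂ) = 1 := by
  have : Fintype G := Fintype.ofFinite G
  have hp : Nat.Prime 2 := Nat.prime_two
  have hPr := IsPModular.isPrime hM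
  have hmem : irrOne G ∈ principalBlock M G := sameBlock_refl hPr _
  rw [← hasNPC_iff]
  constructor
  · rintro ⟨N, hN, h1, j, h2⟩
    intro χ hχ hodd _
    obtain ⟨K, hK, hKB, hKp, -, hmax⟩ := Cfsg.Agent.S0938.result 2 M hM (principalBlock M G)
      ⟨irrOne G, rfl⟩ (irrOne G) hmem
    have hNK : N ≤ K := hmax N hN
      (fun hd => (Nat.Prime.coprime_iff_not_dvd hp).mp h1.symm hd) (fun g _ => rfl)
    have hval : ∀ n ∈ N, (χ : G → ℂ) n = (χ : G → ℂ) 1 := by
      intro n hn
      have hgK : n ∈ (K : Set G) := hNK hn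
      rw [hKB] at hgK
      exact hgK χ hχ
    obtain ⟨e, he, hdvd⟩ := Cfsg.Agent.Lib.Helper19Ratio.degree_dvd_index_sup N ⊥ bot_le χ.2 hval
    rw [sup_bot_eq, h2] at hdvd
    have hce : charDegree (χ : G → ℂ) = e := by
      have := charDegree_cast χ.2
      rw [he] at this
      exact_mod_cast this
    rw [hce] at hodd ⊢
    obtain ⟨i, -, hi⟩ := (Nat.dvd_prime_pow hp).mp hdvd
    rcases Nat.eq_zero_or_pos i with rfl | hi0
    · rw [hi, pow_zero]
    · exfalso
      rw [hi] at hodd
      exact (Nat.not_even_iff_odd.mpr hodd) ((even_two).pow_of_ne_zero hi0.ne')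
  · intro h
    apply Cfsg.Agent.Lib.Helper79PrinGal.hasNPC_of_fixed_linear hM k (Nat.card G)
      (Cfsg.Agent.S4550.coprime_card k hk₁ hk₂) (Cfsg.Agent.S4550.pow_pow_eq k hk₁ hk₂)
    · intro x hx
      refine ⟨1, ?_⟩
      rw [hk₁ x hx, pow_one, pow_succ' x 2]
    · intro χ hχ hdeg hfix
      have h1 := h χ hχ (Nat.odd_iff.mpr (Nat.two_dvd_ne_zero.mp hdeg)) hfix
      rw [← charDegree_cast χ.2, h1, Nat.cast_one]

end Cfsg.Agent.S4549
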