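import Cfsg.Statements.S4551
import Cfsg.Agent.Lib.Helper79AD
-- import your own Cfsg.Agent.* helpers here

set_option autoImplicit false
open Cfsg

namespace Cfsg.Agent.S4551

open Cfsg.Agent.Lib.Helper79Graded Cfsg.Agent.Lib.Helper79Graded2 Cfsg.Agent.Lib.Helper79AD

/-- every coset of `N` contains an element whose class has size prime to `p`. -/
theorem good_of_cover {G : Type*} [Group G] [Finite G] (p : ℕ) [Fact p.Prime] (N : Subgroup G)
    [hN : N.Normal] (P : Sylow p G)
    (hcov : N ⊔ Subgroup.centralizer ((P : Subgroup G) : Set G) = ⊤)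
    (g : G) : ∃ (d : G) (n : N), d = g * N.subtype n ∧
      ¬ p ∣ (Subgroup.centralizer ({d} : Set G)).index := by
  have hg : g ∈ N ⊔ Subgroup.centralizer ((P : Subgroup G) : Set G) := by
    rw [hcov]
    exact Subgroup.mem_top g
  rw [← SetLike.mem_coe, Subgroup.normal_mul] at hg
  obtain ⟨n', hn', c', hc', rfl⟩ := hg
  refine ⟨c', ⟨(n' * c')⁻¹ * n'⁻¹ * (n' * c'), ?_⟩, ?_, ?_⟩
  · have := hN.conj_mem n'⁻¹ (inv_mem hn') (n' * c')⁻¹
    rwa [inv_inv] at this
  · change c' = n' * c' * ((n' * c')⁻¹ * n'⁻¹ * (n' * c'))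
    group
  · intro hd
    have hle : (P : Subgroup G) ≤ Subgroup.centralizer ({c'} : Set G) := by
      intro x hx
      rw [Subgroup.mem_centralizer_singleton_iff]
      exact (Subgroup.mem_centralizer_iff.mp hc' _ hx)
    have h2 := Subgroup.index_dvd_of_le hle
    exact P.not_dvd_index (hd.trans h2)

theorem kk_dvd_index {G : Type*} [Group G] [Finite G] (N : Subgroup G) [hN : N.Normal] (d : G) :
    kk N.subtype d ∣ (Subgroup.centralizer ({d} : Set G)).index :=
  relIndex_dvd_index' _ N

/-- Let N be a normal subgroup of the finite group G of index prime to p, P a Sylow p-subgroup of G with G = N·C_G(P), and M a maximal ideal of the algebraic integers containing p. Then restriction to N is a bijection from the principal p-block of G onto the principal p-block of N: every member of the principal block of G restricts to a member of the principal block of N, and every member of the principal block of N is the restriction of exactly one member of the principal block of G. -/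
theorem result {G : Type*} [Group G] [Finite G] (p : ℕ) [Fact p.Prime] (M : Ideal Cfsg.AlgInt) (hM : Cfsg.IsPModular p M) (N : Subgroup G) [N.Normal] (hidx : ¬ p ∣ N.index) (P : Sylow p G) (hsup : N ⊔ Subgroup.centralizer ((P : Subgroup G) : Set G) = ⊤) : (∀ χ ∈ Cfsg.principalBlock M G, ∃ θ ∈ Cfsg.principalBlock M ↥N, ∀ n : N, (χ : G → ℂ) n = (θ : N → ℂ) n) ∧ ∀ θ ∈ Cfsg.principalBlock M ↥N, ∃! χ : Cfsg.IrrCharacter G, χ ∈ Cfsg.principalBlock M G ∧ ∀ n : N, (χ : G → ℂ) n = (θ : N → ℂ) n := by
  have hg1 := good_of_cover p N P hsup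
  have hg2 : ∀ g : G, ∃ (d : G) (n : N), d = g * N.subtype n ∧ ¬ p ∣ kk N.subtype d := by
    intro g
    obtain ⟨d, n, hd, hk⟩ := hg1 g
    exact ⟨d, n, hd, fun h => hk (h.trans (kk_dvd_index N d))⟩
  constructor
  · intro χ hχ
    obtain ⟨θ, hθ, hover⟩ := under_mem hM N hg2 χ hχ
    obtain ⟨χ₀, hχ₀, hres⟩ := exists_ext hM N hidx hg2 θ hθ
    have e := key hM N hidx hg1 χ₀ χ hχ₀ hχ θ hres hover
    exact ⟨θ, hθ, fun n => by rw [e]; exact hres n⟩
  · intro θ hθ
    obtain ⟨χ₀, hχ₀, hres⟩ := exists_ext hM N hidx hg2 θ hθ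
    refine ⟨χ₀, ⟨hχ₀, hres⟩, ?_⟩
    rintro χ ⟨hχ, hχres⟩
    apply key hM N hidx hg1 χ₀ χ hχ₀ hχ θ hres
    intro _
    have : (fun n : N => (χ : G → ℂ) n) = (θ : N → ℂ) := funext hχres
    rw [this, Cfsg.Agent.Lib.Helper4Char.classInner_irr_self θ.2]
    exact one_ne_zero

end Cfsg.Agent.S4551
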