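import Cfsg.Statements.S4553
import Cfsg.Agent.Lib.Helper77Cyc1
import Cfsg.Agent.Lib.Helper2Residual
import Cfsg.Agent.Lib.Helper21Cover4
import Cfsg.Agent.Lib.Helper19Gal2
import Cfsg.Agent.Lib.Helper72Pi
import Cfsg.Agent.Lib.Helper82Quot
import Cfsg.Agent.Lib.Helper79PExt
-- import your own Cfsg.Agent.* helpers here

set_option autoImplicit false
open Cfsg

namespace Cfsg.Agent.S4553

open Cfsg.Agent.Lib.Helper81Local Cfsg.Agent.Lib.Helper81Base Cfsg.Agent.Lib.Helper81Block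
open Cfsg.Agent.Lib.Helper21Cover Cfsg.Agent.Lib.Helper4Char

theorem coprime_k {G : Type*} [Group G] [Finite G] (p : ℕ) [Fact p.Prime] (k : ℕ)
    (hk₁ : ∀ g : G, (∃ j : ℕ, orderOf g = p ^ j) → g ^ k = g ^ (1 + p))
    (hk₂ : ∀ g : G, Nat.Coprime (orderOf g) p → g ^ k = g) : k.Coprime (Nat.card G) := by
  apply Nat.Coprime.symm
  apply Nat.coprime_of_dvd
  intro q hq hqG hqk
  haveI := Fact.mk hq
  obtain ⟨g, hg⟩ := exists_prime_orderOf_dvd_card' q hqG
  have h1 : g ^ k = 1 := by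
    obtain ⟨c, rfl⟩ := hqk
    rw [pow_mul, ← hg, pow_orderOf_eq_one, one_pow]
  have hg1 : g ≠ 1 := by
    intro h
    rw [h, orderOf_one] at hg
    exact hq.one_lt.ne hg
  by_cases hqp : q = p
  · have := hk₁ g ⟨1, by rw [hg, hqp, pow_one]⟩
    rw [h1, pow_add, pow_one, ← hqp, ← hg, pow_orderOf_eq_one, mul_one] at this
    exact hg1 this.symm
  · have := hk₂ g (by rw [hg]; exact (Nat.coprime_primes hq Fact.out).2 hqp)
    rw [h1] at this
    exact hg1 this.symm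

theorem detOrder_coprime {G : Type*} [Group G] [Finite G] (p : ℕ) [Fact p.Prime]
    {θ : ↥(pResidual p G) → ℂ} (hθ : IsCharacter ↥(pResidual p G) θ) :
    (detOrder θ).Coprime p := by
  have hp : p.Prime := Fact.out
  obtain ⟨f, hf⟩ := Cfsg.Agent.Lib.Helper19Det.exists_detHom hθ
  set c := Nat.card ↥(pResidual p G) with hc
  have hc0 : c ≠ 0 := Nat.card_pos.ne'
  set m := ordCompl[p] c with hm
  have hmp : m.Coprime p := (Nat.coprime_ordCompl hp hc0).symm
  have key : ∀ (g : G) (hg : g ∈ pResidual p G), f ⟨g, hg⟩ ^ m = 1 := by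
    intro g hg
    refine Subgroup.closure_induction (p := fun g hg => f ⟨g, hg⟩ ^ m = 1) ?_ ?_ ?_ ?_ hg
    · intro x hx
      have hx' : Nat.Coprime (orderOf x) p := hx
      have hxm : x ∈ pResidual p G := Subgroup.subset_closure hx
      have h1 : orderOf (⟨x, hxm⟩ : ↥(pResidual p G)) ∣ c := orderOf_dvd_natCard _
      rw [Subgroup.orderOf_mk] at h1
      have h2 : orderOf x ∣ m := by
        have h3 : orderOf x ∣ p ^ c.factorization p * m := by
          rw [hm, Nat.ordProj_mul_ordCompl_eq_self]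
          exact h1
        exact (Nat.Coprime.pow_right _ hx').dvd_of_dvd_mul_left h3
      obtain ⟨e, he⟩ := h2
      change f ⟨x, hxm⟩ ^ m = 1
      rw [← map_pow]
      have : (⟨x, hxm⟩ : ↥(pResidual p G)) ^ m = 1 := by
        apply Subtype.ext
        change x ^ m = 1
        rw [he, pow_mul, pow_orderOf_eq_one, one_pow]
      rw [this, map_one]
    · change f 1 ^ m = 1
      rw [map_one, one_pow]
    · intro x y hx hy h1 h2
      have : (⟨x * y, Subgroup.mul_mem _ hx hy⟩ : ↥(pResidual p G)) = ⟨x, hx⟩ * ⟨y, hy⟩ := rfl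
      change f ⟨x * y, _⟩ ^ m = 1
      rw [this, map_mul, mul_pow]
      change f ⟨x, hx⟩ ^ m = 1 at h1
      change f ⟨y, hy⟩ ^ m = 1 at h2
      rw [h1, h2, one_mul]
    · intro x hx h1
      have : (⟨x⁻¹, Subgroup.inv_mem _ hx⟩ : ↥(pResidual p G)) = (⟨x, hx⟩)⁻¹ := rfl
      change f ⟨x⁻¹, _⟩ ^ m = 1
      change f ⟨x, hx⟩ ^ m = 1 at h1
      rw [this, map_inv, inv_pow, h1, inv_one]
  have h4 : detOrder θ ∣ m := by
    unfold detOrder
    apply orderOf_dvd_of_pow_eq_one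
    rw [hf, ← map_pow]
    have : f ^ m = 1 := by
      ext x
      rw [MonoidHom.pow_apply, key x.1 x.2]
      rfl
    rw [this, map_one]
  exact hmp.coprime_dvd_left h4

theorem exists_fixed_ext {G : Type*} [Group G] [Finite G] (N : Subgroup G) [hN : N.Normal]
    (ϑ : N → ℂ) (hϑ : IsIrrCharacter N ϑ)
    (hinv : ∀ (g : G) (n : N), ϑ ⟨g * n * g⁻¹, hN.conj_mem (n : G) n.2 g⟩ = ϑ n) (d : ℕ)
    (hd : ϑ 1 = d) (hcop : Nat.Coprime N.index (detOrder ϑ * d))
    (k : ℕ) (hk : k.Coprime (Nat.card G)) (hfix : ∀ n : N, ϑ (n ^ k) = ϑ n) :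
    ∃ χ : G → ℂ, IsIrrCharacter G χ ∧ (∀ n : N, χ n = ϑ n) ∧ ∀ g, χ (g ^ k) = χ g := by
  cases nonempty_fintype G
  obtain ⟨χ, ⟨h1, h2, h3⟩, huniq⟩ := Cfsg.Agent.S0867.result N ϑ hϑ hinv d hd hcop
  refine ⟨χ, h1, h2, ?_⟩
  have h4 : IsIrrCharacter G (fun g => χ (g ^ k)) :=
    Cfsg.Agent.Lib.Helper79GalConj.isIrrCharacter_pow h1 k hk
  have h5 : detOrder (fun g => χ (g ^ k)) ∣ detOrder χ := by
    unfold detOrder
    rw [Cfsg.Agent.Lib.Helper77Cyc1.detChar_pow (IsIrrCharacter.isCharacter h1) k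
      (IsIrrCharacter.isCharacter h4)]
    exact orderOf_pow_dvd k
  have h6 := huniq _ h4 (fun n => by
    change χ ((n : G) ^ k) = ϑ n
    rw [← hfix n, ← h2]
    rfl) (by
    apply Nat.Coprime.coprime_dvd_right h5
    rw [h3]
    exact Nat.Coprime.coprime_mul_right_right hcop)
  intro g
  exact congrFun h6 g

theorem mem_iff {G : Type*} [Group G] [Finite G] {p : ℕ} {M : Ideal AlgInt}
    (hM : IsPModular p M) (N : Subgroup G) [hN : N.Normal] (hidx : ∃ k : ℕ, N.index = p ^ k)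
    (χ : IrrCharacter G) (θ : IrrCharacter N)
    (hres : ∀ n : N, (χ : G → ℂ) n = (θ : N → ℂ) n) :
    χ ∈ principalBlock M G ↔ θ ∈ principalBlock M N := by
  have := Fintype.ofFinite G
  have iN := Fintype.ofFinite N
  have := hM.2.1.isPrime
  have hB : IsPBlock M (principalBlock M G) := ⟨Cfsg.Agent.Lib.Helper82Linear.irrOne G, rfl⟩
  have hb : IsPBlock M (principalBlock M N) := ⟨Cfsg.Agent.Lib.Helper82Linear.irrOne N, rfl⟩
  have hcov : ∃ χ ∈ principalBlock M G, ∃ θ ∈ principalBlock M N,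
      classInner (fun n : N => (χ : G → ℂ) n) (θ : N → ℂ) ≠ 0 :=
    ⟨Cfsg.Agent.Lib.Helper82Linear.irrOne G, sameBlock_refl _,
      Cfsg.Agent.Lib.Helper82Linear.irrOne N, sameBlock_refl _, by
        have := Cfsg.Agent.Lib.Helper4Char.classInner_irr_self
          (Cfsg.Agent.Lib.Helper82Linear.irrOne N).2
        intro h0
        exact one_ne_zero (this.symm.trans h0)⟩
  have hover : Over χ θ := by
    unfold Over
    have e : (fun n : N => (χ : G → ℂ) n) = (θ : N → ℂ) := funext hres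
    rw [e, Cfsg.Agent.Lib.Helper4Char.classInner_irr_self θ.2]
    exact one_ne_zero
  constructor
  · intro h
    have h1 := Cfsg.Agent.Lib.Helper21Cover4.mem_orb_of_mem hN hB hb hcov h hover
    obtain ⟨g, θ', hθ', e⟩ := (mem_orb hN _ _).1 h1
    have e2 : θ' = θ := by
      have e3 : cjI hN θ g⁻¹ = θ' := by
        rw [e, cjI_cjI, mul_inv_cancel, cjI_one]
      rw [← e3]
      apply Subtype.ext
      funext n
      rw [cjI_apply, ← hres, ← hres]
      exact IsIrrCharacter.isClassFunction χ.2 _ _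
    rw [← e2]
    exact hθ'
  · intro h
    obtain ⟨B, -, huniq⟩ := unique_covering (G := G) hM hidx hb
    have h1 := huniq _ ⟨hB, hcov⟩
    have h2 := huniq _ ⟨isPBlock_blockOf χ, χ, self_mem_blockOf χ, θ, h, hover⟩
    rw [h1, ← h2]
    exact self_mem_blockOf χ

theorem card_fixed_comm {Q : Type*} [CommGroup Q] [Finite Q] [IsCyclic Q] (p : ℕ)
    (hp : p ∣ Nat.card Q) (k : ℕ) (hk : ∀ x : Q, x ^ k = x ^ (1 + p)) :
    Nat.card {β : IrrCharacter Q // ∀ x : Q, (β : Q → ℂ) (x ^ k) = (β : Q → ℂ) x} = p := by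
  have hlin : ∀ β : IrrCharacter Q, (β : Q → ℂ) 1 = 1 :=
    Cfsg.Agent.Lib.Helper79PExt.irr_one_of_comm mul_comm
  have : NeZero (Monoid.exponent Q) := ⟨Monoid.exponent_ne_zero_of_finite⟩
  obtain ⟨e2⟩ := CommGroup.monoidHom_mulEquiv_of_hasEnoughRootsOfUnity Q ℂ
  have hcyc : IsCyclic (Q →* ℂˣ) := isCyclic_of_surjective e2.symm e2.symm.surjective
  have hfin : Finite (Q →* ℂˣ) := Finite.of_equiv _ e2.symm.toEquiv
  have h1 := IsCyclic.card_powMonoidHom_ker (Q →* ℂˣ) p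
  rw [Nat.card_congr e2.toEquiv, Nat.gcd_eq_right hp] at h1
  rw [← h1]
  apply Nat.card_congr
  exact
    { toFun := fun β => ⟨Cfsg.Agent.Lib.Helper82Linear.homOfLinear β.1 (hlin β.1), by
        rw [MonoidHom.mem_ker]
        ext x
        have h2 := β.2 x
        rw [hk, pow_add, pow_one, Cfsg.Agent.Lib.Helper82Linear.irr_linear_mul β.1 (hlin β.1)] at h2
        have h3 : (β.1 : Q → ℂ) x ≠ 0 :=
          (Cfsg.Agent.Lib.Helper82Linear.homOfLinear β.1 (hlin β.1) x).ne_zero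
        have h4 : (β.1 : Q → ℂ) (x ^ p) = 1 := by
          have : (β.1 : Q → ℂ) x * (β.1 : Q → ℂ) (x ^ p) = (β.1 : Q → ℂ) x * 1 := by
            rw [h2, mul_one]
          exact mul_left_cancel₀ h3 this
        rw [powMonoidHom_apply, MonoidHom.pow_apply, ← map_pow]
        exact h4⟩
      invFun := fun f => ⟨⟨fun g => ((f.1 g : ℂˣ) : ℂ),
        Cfsg.Agent.Lib.Helper82Linear.isIrrCharacter_of_hom f.1⟩, by
          intro x
          have h2 := f.2
          rw [MonoidHom.mem_ker, powMonoidHom_apply] at h2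
          have h3 : f.1 (x ^ p) = 1 := by
            rw [map_pow, ← MonoidHom.pow_apply, h2]
            rfl
          change ((f.1 (x ^ k) : ℂˣ) : ℂ) = ((f.1 x : ℂˣ) : ℂ)
          rw [hk, pow_add, pow_one, map_mul, h3, mul_one]⟩
      left_inv := fun β => by
        apply Subtype.ext
        apply Subtype.ext
        rfl
      right_inv := fun f => by
        apply Subtype.ext
        ext g
        rfl }

theorem card_fixed {Q : Type*} [Group Q] [Finite Q] [hQ : IsCyclic Q] (p : ℕ)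
    (hp : p ∣ Nat.card Q) (k : ℕ) (hk : ∀ x : Q, x ^ k = x ^ (1 + p)) :
    Nat.card {β : IrrCharacter Q // ∀ x : Q, (β : Q → ℂ) (x ^ k) = (β : Q → ℂ) x} = p := by
  letI : CommGroup Q := IsCyclic.commGroup
  exact card_fixed_comm p hp k hk

theorem card_fiber {G : Type*} [Group G] [Finite G] (N : Subgroup G) [hN : N.Normal]
    [hcyc : IsCyclic (G ⧸ N)] (p : ℕ) (hp : p ∣ Nat.card (G ⧸ N)) (k : ℕ)
    (hkc : k.Coprime (Nat.card G))
    (hk : ∀ x : G ⧸ N, x ^ k = x ^ (1 + p)) (θ : IrrCharacter N) (χ₀ : G → ℂ)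
    (hχ₀ : IsIrrCharacter G χ₀) (hres : ∀ n : N, χ₀ n = (θ : N → ℂ) n)
    (hfix : ∀ g, χ₀ (g ^ k) = χ₀ g) :
    Nat.card {χ : IrrCharacter G // (∀ n : N, (χ : G → ℂ) n = (θ : N → ℂ) n) ∧
      ∀ g, (χ : G → ℂ) (g ^ k) = (χ : G → ℂ) g} = p := by
  have := Fintype.ofFinite G
  have iN := Fintype.ofFinite N
  have hc : ∀ (g : G) (n : N), N.subtype (MulAut.conjNormal g n) = g * N.subtype n * g⁻¹ :=
    fun g n => MulAut.conjNormal_apply g n
  have hbij := Cfsg.Agent.Lib.Helper19Gal2.gallagher N.subtype N.subtype_injective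
    MulAut.conjNormal hc θ.2 hχ₀ hres
  have hcomm : ∀ a b : G ⧸ N, a * b = b * a := by
    letI : CommGroup (G ⧸ N) := IsCyclic.commGroup
    exact mul_comm
  have hlin : ∀ β : G → ℂ, IsIrrCharacter G β → (∀ n : N, β (N.subtype n) = β 1) → β 1 = 1 := by
    intro β h1 h2
    obtain ⟨ψ, hψ⟩ := Cfsg.Agent.Lib.Helper82Quot.exists_deflate N ⟨β, h1⟩
      (fun n hn => h2 ⟨n, hn⟩)
    have h3 := congrArg (fun t : IrrCharacter G => (t : G → ℂ) 1) hψ
    have h4 := Cfsg.Agent.Lib.Helper79PExt.irr_one_of_comm hcomm ψ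
    change (ψ : G ⧸ N → ℂ) ((1 : G) : G ⧸ N) = β 1 at h3
    rw [← h3]
    exact h4
  set S₁ : Set (G → ℂ) := {β : G → ℂ | (IsIrrCharacter G β ∧ ∀ n : N, β (N.subtype n) = β 1) ∧
    ∀ g, β (g ^ k) = β g} with hS₁
  set S₂ : Set (G → ℂ) := {ψ : G → ℂ | (IsIrrCharacter G ψ ∧
    classInner (fun n => ψ (N.subtype n)) (θ : N → ℂ) ≠ 0) ∧
    (∀ n : N, ψ n = (θ : N → ℂ) n) ∧ ∀ g, ψ (g ^ k) = ψ g} with hS₂
  have hbij' : Set.BijOn (fun β : G → ℂ => β * χ₀) S₁ S₂ := by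
    refine ⟨?_, ?_, ?_⟩
    · intro β hβ
      refine ⟨hbij.mapsTo hβ.1, ?_, ?_⟩
      · intro n
        change β n * χ₀ n = _
        have := hβ.1.2 n
        change β n = β 1 at this
        rw [this, hlin β hβ.1.1 hβ.1.2, one_mul, hres]
      · intro g
        change β (g ^ k) * χ₀ (g ^ k) = β g * χ₀ g
        rw [hβ.2, hfix]
    · intro a ha b hb hab
      exact hbij.injOn ha.1 hb.1 hab
    · intro ψ hψ
      obtain ⟨β, hβ, hβψ⟩ := hbij.surjOn hψ.1
      refine ⟨β, ⟨hβ, ?_⟩, hβψ⟩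
      have h1 : IsIrrCharacter G (fun g => β (g ^ k)) :=
        Cfsg.Agent.Lib.Helper79GalConj.isIrrCharacter_pow hβ.1 k hkc
      have h2 : (fun g => β (g ^ k)) ∈ {β : G → ℂ | IsIrrCharacter G β ∧
          ∀ n : N, β (N.subtype n) = β 1} := by
        refine ⟨h1, ?_⟩
        intro n
        change β ((n : G) ^ k) = β (1 ^ k)
        rw [one_pow]
        exact hβ.2 (n ^ k)
      have h3 : (fun β : G → ℂ => β * χ₀) (fun g => β (g ^ k)) = (fun β : G → ℂ => β * χ₀) β := by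
        funext g
        change β (g ^ k) * χ₀ g = β g * χ₀ g
        have h4 := congrFun hβψ (g ^ k)
        have h5 := congrFun hβψ g
        change β (g ^ k) * χ₀ (g ^ k) = ψ (g ^ k) at h4
        change β g * χ₀ g = ψ g at h5
        rw [h5, ← hψ.2.2 g, ← h4, hfix]
      intro g
      exact congrFun (hbij.injOn h2 hβ h3) g
  have e1 : {χ : IrrCharacter G // (∀ n : N, (χ : G → ℂ) n = (θ : N → ℂ) n) ∧
      ∀ g, (χ : G → ℂ) (g ^ k) = (χ : G → ℂ) g} ≃ ↥S₂ :=
    { toFun := fun x => ⟨x.1.1, ⟨x.1.2, by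
        have e : (fun n : N => (x.1 : G → ℂ) (N.subtype n)) = (θ : N → ℂ) := funext x.2.1
        rw [e, Cfsg.Agent.Lib.Helper4Char.classInner_irr_self θ.2]
        exact one_ne_zero⟩, x.2.1, x.2.2⟩
      invFun := fun y => ⟨⟨y.1, y.2.1.1⟩, y.2.2.1, y.2.2.2⟩
      left_inv := fun x => rfl
      right_inv := fun y => rfl }
  have e2 := Set.BijOn.equiv _ hbij'
  have e3 : ↥S₁ ≃ {y : {χ : IrrCharacter G // ∀ n ∈ N, (χ : G → ℂ) n = (χ : G → ℂ) 1} //
      ∀ g, (y.1 : G → ℂ) (g ^ k) = (y.1 : G → ℂ) g} :=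
    { toFun := fun x => ⟨⟨⟨x.1, x.2.1.1⟩, fun n hn => x.2.1.2 ⟨n, hn⟩⟩, x.2.2⟩
      invFun := fun y => ⟨y.1.1.1, ⟨y.1.1.2, fun n => y.1.2 n n.2⟩, y.2⟩
      left_inv := fun x => rfl
      right_inv := fun y => rfl }
  have e4 : {β : IrrCharacter (G ⧸ N) // ∀ x : G ⧸ N, (β : G ⧸ N → ℂ) (x ^ k) = (β : G ⧸ N → ℂ) x} ≃
      {y : {χ : IrrCharacter G // ∀ n ∈ N, (χ : G → ℂ) n = (χ : G → ℂ) 1} //
      ∀ g, (y.1 : G → ℂ) (g ^ k) = (y.1 : G → ℂ) g} :=
    Equiv.subtypeEquiv (Cfsg.Agent.Lib.Helper82Quot.irrQuotEquiv N) (by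
      intro β
      constructor
      · intro h g
        exact h (g : G ⧸ N)
      · intro h x
        obtain ⟨g, rfl⟩ := QuotientGroup.mk_surjective x
        exact h g)
  rw [Nat.card_congr e1, ← Nat.card_congr e2, Nat.card_congr e3, ← Nat.card_congr e4]
  exact card_fixed p hp k hk

/-- Let G be a finite group, p a prime, P a Sylow p-subgroup, N the p-residual of G (the subgroup generated by the elements of order prime to p, the smallest normal subgroup with G/N a p-group), and M a maximal ideal of the algebraic integers containing p; suppose G/N is cyclic and nontrivial. Let k be a natural number with g ^ k = g ^ (1 + p) for every p-element g and g ^ k = g for every element g of order prime to p (so that χ (g ^ k) is the image of χ g under the field automorphism that raises p-power roots of unity to the power 1 + p and fixes the roots of unity of order prime to p). Then the number of members χ of the principal block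 of G of degree prime to p with χ (g ^ k) = χ g for all g equals p times the number of members θ of the principal block of N of degree prime to p that are invariant under conjugation by P and satisfy θ (n ^ k) = θ n for all n. -/
theorem result {G : Type*} [Group G] [Finite G] (p : ℕ) [Fact p.Prime] (M : Ideal Cfsg.AlgInt) (hM : Cfsg.IsPModular p M) (P : Sylow p G) (N : Subgroup G) [hN : N.Normal] (hNres : N = Cfsg.pResidual p G) (hcyc : IsCyclic (G ⧸ N)) (hnt : N ≠ ⊤) (k : ℕ) (hk₁ : ∀ g : G, (∃ j : ℕ, orderOf g = p ^ j) → g ^ k = g ^ (1 + p)) (hk₂ : ∀ g : G, Nat.Coprime (orderOf g) p → g ^ k = g) : Nat.card {χ : Cfsg.IrrCharacter G // χ ∈ Cfsg.principalBlock M G ∧ ¬ p ∣ Cfsg.charDegree (χ : G → ℂ) ∧ ∀ g : G, (χ : G → ℂ) (g ^ k) = (χ : G → ℂ) g} = p * Nat.card {θ : Cfsg.IrrCharacter ↥N // θ ∈ Cfsg.principalBlock M ↥N ∧ ¬ p ∣ Cfsg.charDegree (θ : ↥N → ℂ) ∧ (∀ x ∈ (P : Subgroup G), ∀ n : ↥N, (θ : ↥N → ℂ) ⟨x * n * x⁻¹, hN.conj_mem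 n n.2 x⟩ = (θ : ↥N → ℂ) n) ∧ ∀ n : ↥N, (θ : ↥N → ℂ) (n ^ k) = (θ : ↥N → ℂ) n} := by
  subst hNres
  have hp : p.Prime := Fact.out
  have := Fintype.ofFinite G
  have iN := Fintype.ofFinite ↥(pResidual p G)
  obtain ⟨a, ha⟩ := Cfsg.Agent.Lib.Helper2Residual.index_pResidual (G := G) hp
  have hidx : ∃ a : ℕ, (pResidual p G).index = p ^ a := ⟨a, ha⟩
  have hkc := coprime_k p k hk₁ hk₂
  have hsup := Cfsg.Agent.Lib.Helper2Residual.sylow_sup_pResidual_eq_top P
  have hpd : p ∣ Nat.card (G ⧸ pResidual p G) := by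
    rw [← Subgroup.index_eq_card, ha]
    apply dvd_pow_self
    rintro rfl
    rw [pow_zero, Subgroup.index_eq_one] at ha
    exact hnt ha
  have hdec : ∀ g : G, ∃ u ∈ (P : Subgroup G), ∃ n ∈ pResidual p G, u * n = g := by
    intro g
    have h1 : g ∈ (P : Subgroup G) ⊔ pResidual p G := hsup ▸ Subgroup.mem_top g
    exact Subgroup.mem_sup_of_normal_right.mp h1
  have hkQ : ∀ x : G ⧸ pResidual p G, x ^ k = x ^ (1 + p) := by
    intro x
    obtain ⟨g, rfl⟩ := QuotientGroup.mk_surjective x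
    obtain ⟨u, hu, n, hn, rfl⟩ := hdec g
    have h1 : ((u * n : G) : G ⧸ pResidual p G) = (u : G ⧸ pResidual p G) := by
      rw [QuotientGroup.mk_mul, (QuotientGroup.eq_one_iff n).mpr hn, mul_one]
    obtain ⟨j, hj⟩ := IsPGroup.iff_orderOf.mp P.2 ⟨u, hu⟩
    rw [Subgroup.orderOf_mk] at hj
    rw [h1, ← QuotientGroup.mk_pow, ← QuotientGroup.mk_pow, hk₁ u ⟨j, hj⟩]
  have hcopdeg : ∀ c : ℕ, ¬ p ∣ c → c.Coprime (pResidual p G).index := by
    intro c hc
    rw [ha]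
    exact Nat.Coprime.pow_right a ((Nat.Prime.coprime_iff_not_dvd hp).2 hc).symm
  have hirr : ∀ χ : IrrCharacter G, ¬ p ∣ charDegree (χ : G → ℂ) →
      IsIrrCharacter ↥(pResidual p G) (fun n : ↥(pResidual p G) => (χ : G → ℂ) n) := by
    intro χ hχ
    exact Cfsg.Agent.Lib.Helper77Glaub4.res_irr_of_coprime_degree _ χ.2 _
      (charDegree_eq χ).symm (hcopdeg _ hχ)
  set r : {χ : Cfsg.IrrCharacter G // χ ∈ Cfsg.principalBlock M G ∧ ¬ p ∣ Cfsg.charDegree (χ : G → ℂ) ∧ ∀ g : G, (χ : G → ℂ) (g ^ k) = (χ : G → ℂ) g} → {θ : Cfsg.IrrCharacter ↥(pResidual p G) // θ ∈ Cfsg.principalBlock M ↥(pResidual p G) ∧ ¬ p ∣ Cfsg.charDegree (θ : ↥(pResidual p G) → ℂ) ∧ (∀ x ∈ (P : Subgroup G), ∀ n : ↥(pResidual p G), (θ : ↥(pResidual p G) → ℂ) ⟨x * n * x⁻¹, hN.conj_mem n n.2 x⟩ = (θ : ↥(pResidual p G) → ℂ) n) ∧ ∀ n : ↥(pResidual p G), (θ : ↥(pResidual p G) → ℂ) (n ^ k) = (θ : ↥(pResidual p G) → ℂ) n} :=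
    fun χ => ⟨⟨_, hirr χ.1 χ.2.2.1⟩,
      (mem_iff hM _ hidx χ.1 ⟨_, hirr χ.1 χ.2.2.1⟩ (fun _ => rfl)).mp χ.2.1,
      χ.2.2.1,
      fun x _ n => IsIrrCharacter.isClassFunction χ.1.2 _ _,
      fun n => χ.2.2.2 n⟩ with hr
  rw [Cfsg.Agent.Lib.Helper72Pi.card_eq_mul_of_fiber_eq r p, mul_comm]
  rintro ⟨θ, hθ1, hθ2, hθ3, hθ4⟩
  have hinv : ∀ (g : G) (n : ↥(pResidual p G)),
      (θ : ↥(pResidual p G) → ℂ) ⟨g * n * g⁻¹, hN.conj_mem (n : G) n.2 g⟩
        = (θ : ↥(pResidual p G) → ℂ) n := by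
    intro g n
    obtain ⟨u, hu, m, hm, rfl⟩ := hdec g
    have h1 := hθ3 u hu ⟨m * n * m⁻¹, hN.conj_mem (n : G) n.2 m⟩
    have h2 : (θ : ↥(pResidual p G) → ℂ) ⟨m * n * m⁻¹, hN.conj_mem (n : G) n.2 m⟩
        = (θ : ↥(pResidual p G) → ℂ) n :=
      IsIrrCharacter.isClassFunction θ.2 n ⟨m, hm⟩
    rw [← h2, ← h1]
    apply congrArg
    apply Subtype.ext
    simp only [mul_inv_rev, mul_assoc]
  obtain ⟨χ₀, hχ₀, hres, hfix⟩ := exists_fixed_ext (pResidual p G) θ.1 θ.2 hinv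
    (charDegree (θ : ↥(pResidual p G) → ℂ)) (charDegree_eq θ).symm (by
      apply Nat.Coprime.symm
      apply Nat.Coprime.mul_left
      · rw [ha]
        exact Nat.Coprime.pow_right a (detOrder_coprime p (IsIrrCharacter.isCharacter θ.2))
      · exact hcopdeg _ hθ2) k hkc hθ4
  refine Eq.trans ?_ (card_fiber (pResidual p G) p hpd k hkc hkQ θ χ₀ hχ₀ hres hfix)
  apply Nat.card_congr
  exact
    { toFun := fun x => ⟨x.1.1, fun n => by
        have := congrArg (fun t => (t.1 : ↥(pResidual p G) → ℂ) n) x.2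
        exact this, x.1.2.2.2⟩
      invFun := fun y => ⟨⟨y.1, (mem_iff hM _ hidx y.1 θ y.2.1).mpr hθ1, by
          have e : charDegree (y.1 : G → ℂ) = charDegree (θ : ↥(pResidual p G) → ℂ) := by
            unfold charDegree
            rw [← y.2.1 1]
            rfl
          rw [e]
          exact hθ2, y.2.2⟩, by
        apply Subtype.ext
        apply Subtype.ext
        funext n
        exact y.2.1 n⟩
      left_inv := fun x => rfl
      right_inv := fun y => rfl }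

end Cfsg.Agent.S4553
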