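import Cfsg.Statements.S4564
import Cfsg.Agent.Lib.Helper19FR2

set_option autoImplicit false
open Cfsg

namespace Cfsg.Agent.S4564

open Cfsg.Agent.Lib.Helper19FR Cfsg.Agent.Lib.Helper19FR2 Cfsg.Agent.Lib.Helper19Ratio

/-- Let χ be an irreducible character of the finite group H that is fully ramified over the normal subgroup Z: the restriction of χ to Z is e times an irreducible character of Z with e ^ 2 equal to the index of Z. Let K be a normal subgroup of H containing Z and P a cyclic Sylow p-subgroup of H/K. Then P has a complement in H/K: a subgroup meeting P trivially whose product with P is the whole group. -/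
theorem result {H : Type*} [Group H] [Finite H] (Z : Subgroup H) [Z.Normal] (χ : Cfsg.IrrCharacter H) (hfr : ∃ (θ : Cfsg.IrrCharacter ↥Z) (e : ℕ), e ^ 2 = Z.index ∧ ∀ z : ↥Z, (χ : H → ℂ) z = (e : ℂ) * (θ : ↥Z → ℂ) z) (K : Subgroup H) [K.Normal] (hZK : Z ≤ K) (p : ℕ) [Fact p.Prime] (P : Sylow p (H ⧸ K)) (hcyc : IsCyclic P) : ∃ M : Subgroup (H ⧸ K), M.IsComplement' (P : Subgroup (H ⧸ K)) := by
  classical
  have hp : p.Prime := Fact.out
  obtain ⟨θ, e, he, hres⟩ := hfr
  haveI : Fintype H := Fintype.ofFinite H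
  obtain ⟨S, hZS, hfrat, ⟨n, hn⟩, hS, hKT⟩ := setup p Z K hZK
  obtain ⟨T, hTK⟩ : ∃ T, T = S ⊓ K := ⟨_, rfl⟩
  rw [← hTK] at hfrat hKT
  have hZT : Z ≤ T := hTK ▸ le_inf hZS hZK
  have hTS : T ≤ S := hTK ▸ inf_le_left
  have hFR : FR Z.subtype (χ : H → ℂ) (θ : Z → ℂ) e :=
    ⟨χ.2, θ.2, by rw [he, mul_comm, Z.card_mul_index], hres⟩
  obtain ⟨η, a, hη⟩ := exists_eta p Z S T hZT hTS n hn hS hFR
  obtain ⟨φ₀, hφ₀, hov⟩ := exists_over (Subgroup.inclusion hZT) (Subgroup.inclusion_injective hZT) θ.2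
  have hSN := le_normalizer K S T hTK
  -- the quotient `S / T` is cyclic
  have hker : ((QuotientGroup.mk' K).comp S.subtype).ker = (Subgroup.inclusion hTS).range := by
    ext x
    rw [MonoidHom.mem_ker]
    change ((x : H) : H ⧸ K) = 1 ↔ _
    rw [QuotientGroup.eq_one_iff]
    constructor
    · intro hx
      exact ⟨⟨x.1, hTK ▸ ⟨x.2, hx⟩⟩, rfl⟩
    · rintro ⟨t, rfl⟩
      have hTK' : T ≤ K := hTK ▸ inf_le_right
      exact hTK' t.2
  haveI hnorm : (Subgroup.inclusion hTS).range.Normal := by rw [← hker]; infer_instance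
  have hpg : IsPGroup p ((QuotientGroup.mk' K).comp S.subtype).range := by
    have h1 : Nat.card ((QuotientGroup.mk' K).comp S.subtype).range ∣ p ^ n := by
      rw [← Subgroup.index_ker, ← hn, Subgroup.relIndex]
      apply Subgroup.index_dvd_of_le
      intro x hx
      rw [Subgroup.mem_subgroupOf] at hx
      rw [hker]
      exact ⟨⟨x.1, hZT hx⟩, rfl⟩
    obtain ⟨j, -, hj⟩ := (Nat.dvd_prime_pow hp).1 h1
    exact IsPGroup.of_card hj
  obtain ⟨Q, hQ⟩ := hpg.exists_le_sylow
  have hQc : IsCyclic Q := isCyclic_of_surjective (Sylow.equiv P Q) (Sylow.equiv P Q).surjective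
  have hrc : IsCyclic ((QuotientGroup.mk' K).comp S.subtype).range :=
    isCyclic_of_injective (Subgroup.inclusion hQ) (Subgroup.inclusion_injective hQ)
  have hcyc' : IsCyclic (S ⧸ (Subgroup.inclusion hTS).range) := by
    have e1 := QuotientGroup.quotientMulEquivOfEq hker
    have e2 := QuotientGroup.quotientKerEquivRange ((QuotientGroup.mk' K).comp S.subtype)
    exact isCyclic_of_surjective (e2.symm.trans e1) (e2.symm.trans e1).surjective
  have hI := hη.card_inertia_of_cyclic (Subgroup.inclusion hTS) (Subgroup.inclusion_injective hTS)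
    (Subgroup.inclusion hZT) (Subgroup.inclusion_injective hZT) (cS S T hSN) (cS_spec S T hTS hSN)
    hφ₀ hov hcyc'
  obtain ⟨M, hM⟩ := exists_M p Z K S T hZT hTS hTK hfrat n hn hS hKT hSN hFR hη hφ₀ hov hI
  have hP := P.card_eq_multiplicity
  have h1 : Nat.card M * Nat.card P = Nat.card (H ⧸ K) := by
    rw [hP, ← hM, M.card_mul_index]
  refine ⟨M, Subgroup.isComplement'_of_coprime h1 ?_⟩
  rw [hP]
  apply Nat.Coprime.pow_right
  have h2 := Nat.coprime_ordCompl hp (Nat.card_pos (α := H ⧸ K)).ne'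
  have h3 : Nat.card M = Nat.card (H ⧸ K) / p ^ (Nat.card (H ⧸ K)).factorization p := by
    rw [hP] at h1
    exact Nat.eq_div_of_mul_eq_left (pow_pos hp.pos _).ne' h1
  rw [h3]
  exact h2.symm

end Cfsg.Agent.S4564
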