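import Cfsg.Statements.S4566
import Cfsg.Agent.Lib.Helper79Central
import Cfsg.Agent.Lib.Helper83Char
-- import your own Cfsg.Agent.* helpers here

set_option autoImplicit false
open Cfsg

namespace Cfsg.Agent.S4566

/-- Let N be a central subgroup of the finite group G, ψ a faithful irreducible (hence degree-one) character of N, and χ an irreducible character of G whose restriction to N contains ψ. If g ∈ G and some x ∈ G has commutator x⁻¹ g⁻¹ x g in N but different from 1, then χ g = 0. -/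
theorem result {G : Type*} [Group G] [Fintype G] (N : Subgroup G) [Fintype N] (hN : N ≤ Subgroup.center G) (ψ : Cfsg.IrrCharacter ↥N) (hfaith : ∀ n : ↥N, (ψ : ↥N → ℂ) n = (ψ : ↥N → ℂ) 1 → n = 1) (χ : Cfsg.IrrCharacter G) (hover : Cfsg.classInner (fun n : ↥N => (χ : G → ℂ) n) (ψ : ↥N → ℂ) ≠ 0) (g x : G) (hcomm : x⁻¹ * g⁻¹ * x * g ∈ N) (hne : x⁻¹ * g⁻¹ * x * g ≠ 1) : (χ : G → ℂ) g = 0 := by
  set z : G := x⁻¹ * g⁻¹ * x * g with hz
  have hcommN : IsMulCommutative N := ⟨⟨fun a b => Subtype.ext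
    ((Subgroup.mem_center_iff.mp (hN a.2) b).symm)⟩⟩
  have h1 : (ψ : ↥N → ℂ) 1 = 1 := Cfsg.Agent.Lib.Helper83Char.irr_one_of_comm ψ.2
  have h2 : (ψ : ↥N → ℂ) ⟨z, hcomm⟩ ≠ 1 := by
    intro h
    have := hfaith ⟨z, hcomm⟩ (h.trans h1.symm)
    exact hne (congrArg Subtype.val this)
  have h3 := Cfsg.Agent.Lib.Helper79Central.irr_central_mul' χ.2 N hN ψ.2 hover ⟨z, hcomm⟩
    (x⁻¹ * g * x)
  have h4 : z * (x⁻¹ * g * x) = g⁻¹ * g * g := by
    have hzc := Subgroup.mem_center_iff.mp (hN hcomm) (x⁻¹ * g * x)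
    rw [← hzc, hz]; group
  have h5 : (χ : G → ℂ) (x⁻¹ * g * x) = (χ : G → ℂ) g := by
    have := Cfsg.Agent.Lib.Helper82Schur.irr_conj χ g x⁻¹
    simpa using this
  simp only [h4, h5] at h3
  have h6 : g⁻¹ * g * g = g := by group
  rw [h6] at h3
  have h7 : (1 - (ψ : ↥N → ℂ) ⟨z, hcomm⟩) * (χ : G → ℂ) g = 0 := by
    rw [sub_mul, one_mul, ← h3, sub_self]
  rcases mul_eq_zero.mp h7 with h8 | h8
  · exact absurd (sub_eq_zero.mp h8).symm h2
  · exact h8

end Cfsg.Agent.S4566
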