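import Cfsg.Statements.S4567
import Cfsg.Agent.Lib.Helper79Central
import Cfsg.Agent.Lib.Helper83Char
import Cfsg.Agent.Lib.Helper4Char
-- import your own Cfsg.Agent.* helpers here

set_option autoImplicit false
open Cfsg

namespace Cfsg.Agent.S4567

open Cfsg.Agent.Lib

section aux

open scoped ComplexConjugate

variable {G : Type*} [Group G] [Fintype G] (N : Subgroup G) [Fintype N]

/-- class functions transforming by `ψ` under the central subgroup `N` -/
def X (ψ : N → ℂ) : Submodule ℂ (G → ℂ) where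
  carrier := {f | IsClassFunction G f ∧ ∀ (n : N) (g : G), f (n * g) = ψ n * f g}
  add_mem' := by
    rintro a b ⟨ha1, ha2⟩ ⟨hb1, hb2⟩
    refine ⟨Helper4Char.IsClassFunction.add ha1 hb1, fun n g => ?_⟩
    simp only [Pi.add_apply, ha2, hb2]; ring
  zero_mem' := ⟨Helper4Char.IsClassFunction.zero, fun n g => by simp⟩
  smul_mem' := by
    rintro c a ⟨ha1, ha2⟩
    refine ⟨Helper4Char.IsClassFunction.smul c ha1, fun n g => ?_⟩
    simp only [Pi.smul_apply, smul_eq_mul, ha2]; ring

variable {N}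

theorem mem_X {ψ : N → ℂ} {f : G → ℂ} :
    f ∈ X N ψ ↔ IsClassFunction G f ∧ ∀ (n : N) (g : G), f (n * g) = ψ n * f g := Iff.rfl

/-- inner product with an irreducible character not over `ψ` vanishes -/
theorem classInner_eq_zero (hN : N ≤ Subgroup.center G) (ψ : IrrCharacter N) {f : G → ℂ}
    (hf : f ∈ X N (ψ : N → ℂ)) (χ : IrrCharacter G)
    (hχ : classInner (fun n : N => (χ : G → ℂ) n) (ψ : N → ℂ) = 0) :
    classInner f (χ : G → ℂ) = 0 := by
  have h1 : (χ : G → ℂ) 1 ≠ 0 := Helper82Schur.irr_one_ne_zero χ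
  set lam := Helper79Central.centralHom χ.2 N hN with hlam
  have hl := Helper82Linear.isIrrCharacter_of_hom lam
  have hne : (fun n : N => ((lam n : ℂˣ) : ℂ)) ≠ (ψ : N → ℂ) := by
    intro he
    have he' : (fun n : N => (χ : G → ℂ) n) = (χ : G → ℂ) 1 • (ψ : N → ℂ) := by
      rw [← he]
      funext n
      simp only [Pi.smul_apply, smul_eq_mul, hlam, Helper79Central.centralHom_apply]
      field_simp
    rw [he', Helper4Char.classInner_smul_left, Helper4Char.classInner_irr_self ψ.2, mul_one] at hχ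
    exact h1 hχ
  obtain ⟨n, hn⟩ : ∃ n : N, ((lam n : ℂˣ) : ℂ) ≠ (ψ : N → ℂ) n := by
    by_contra hcon
    push Not at hcon
    exact hne (funext hcon)
  have hnorm : ((lam n : ℂˣ) : ℂ) * conj ((lam n : ℂˣ) : ℂ) = 1 :=
    Helper82Linear.irr_linear_mul_conj ⟨_, hl⟩ (by simp) n
  have hsum : ∑ g : G, f g * conj ((χ : G → ℂ) g) =
      ((ψ : N → ℂ) n * conj ((lam n : ℂˣ) : ℂ)) * ∑ g : G, f g * conj ((χ : G → ℂ) g) := by
    rw [Finset.mul_sum]
    rw [← Fintype.sum_equiv (Equiv.mulLeft (n : G)) (fun g => f (n * g) * conj ((χ : G → ℂ) (n * g)))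
      (fun g => f g * conj ((χ : G → ℂ) g)) (fun g => rfl)]
    refine Finset.sum_congr rfl fun g _ => ?_
    rw [hf.2 n g, Helper79Central.irr_central_mul χ.2 (hN n.2), map_mul,
      ← Helper79Central.centralHom_apply χ.2 N hN n]
    ring
  have hc : (ψ : N → ℂ) n * conj ((lam n : ℂˣ) : ℂ) ≠ 1 := by
    intro h
    apply hn
    have : (ψ : N → ℂ) n * conj ((lam n : ℂˣ) : ℂ) * ((lam n : ℂˣ) : ℂ) = ((lam n : ℂˣ) : ℂ) := by
      rw [h, one_mul]
    rw [mul_assoc, mul_comm (conj _), hnorm, mul_one] at this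
    exact this.symm
  have h0 : ∑ g : G, f g * conj ((χ : G → ℂ) g) = 0 := by
    have : (1 - (ψ : N → ℂ) n * conj ((lam n : ℂˣ) : ℂ)) * ∑ g : G, f g * conj ((χ : G → ℂ) g) = 0 := by
      rw [sub_mul, one_mul, ← hsum, sub_self]
    rcases mul_eq_zero.mp this with h | h
    · exact absurd (sub_eq_zero.mp h).symm hc
    · exact h
  unfold classInner
  rw [h0, mul_zero]

theorem finrank_X (hN : N ≤ Subgroup.center G) (ψ : IrrCharacter N) :
    Module.finrank ℂ (X N (ψ : N → ℂ)) =
      Nat.card {χ : IrrCharacter G // classInner (fun n : N => (χ : G → ℂ) n) (ψ : N → ℂ) ≠ 0} := by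
  classical
  set I := {χ : IrrCharacter G // classInner (fun n : N => (χ : G → ℂ) n) (ψ : N → ℂ) ≠ 0} with hI
  let b : I → (G → ℂ) := fun χ => (χ.1 : G → ℂ)
  have hli : LinearIndependent ℂ b :=
    (Helper4Char.linearIndependent_irr (G := G)).comp (fun χ : I => χ.1) Subtype.val_injective
  have hspan : X N (ψ : N → ℂ) = Submodule.span ℂ (Set.range b) := by
    apply le_antisymm
    · intro f hf
      rw [Helper4Char.classFunction_eq_sum f hf.1]
      refine Submodule.sum_mem _ fun χ _ => ?_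
      by_cases hχ : classInner (fun n : N => (χ : G → ℂ) n) (ψ : N → ℂ) = 0
      · rw [classInner_eq_zero hN ψ hf χ hχ, zero_smul]
        exact Submodule.zero_mem _
      · exact Submodule.smul_mem _ _ (Submodule.subset_span ⟨⟨χ, hχ⟩, rfl⟩)
    · rw [Submodule.span_le]
      rintro _ ⟨χ, rfl⟩
      exact ⟨Helper4Char.IsIrrCharacter.isClassFunction χ.1.2,
        fun n g => Helper79Central.irr_central_mul' χ.1.2 N hN ψ.2 χ.2 n g⟩
  rw [hspan, finrank_span_eq_card hli, Nat.card_eq_fintype_card]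

/-- goodness -/
def Good (N : Subgroup G) (g : G) : Prop := ∀ x : G, x⁻¹ * g⁻¹ * x * g ∈ N → x * g = g * x

omit [Fintype G] [Fintype N] in
theorem eq_zero_of_not_good (hN : N ≤ Subgroup.center G) (ψ : N → ℂ) (h1 : ψ 1 = 1)
    (hfaith : ∀ n : N, ψ n = ψ 1 → n = 1) {f : G → ℂ} (hf : f ∈ X N ψ) {g : G}
    (hg : ¬ Good N g) : f g = 0 := by
  unfold Good at hg
  push Not at hg
  obtain ⟨x, hz, hx⟩ := hg
  set z : G := x⁻¹ * g⁻¹ * x * g with hzdef
  have hz1 : z ≠ 1 := by
    intro h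
    apply hx
    have : x * g = g * x * z := by rw [hzdef]; group
    rw [this, h, mul_one]
  have h2 : ψ ⟨z, hz⟩ ≠ 1 := by
    intro h
    have := hfaith ⟨z, hz⟩ (h.trans h1.symm)
    exact hz1 (congrArg Subtype.val this)
  have h3 := hf.2 ⟨z, hz⟩ (x⁻¹ * g * x)
  have h4 : z * (x⁻¹ * g * x) = g := by
    have hzc := Subgroup.mem_center_iff.mp (hN hz) (x⁻¹ * g * x)
    rw [← hzc, hzdef]; group
  have h5 : f (x⁻¹ * g * x) = f g := by
    have := hf.1 g x⁻¹
    simpa using this
  simp only [h4, h5] at h3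
  have h7 : (1 - ψ ⟨z, hz⟩) * f g = 0 := by
    rw [sub_mul, one_mul, ← h3, sub_self]
  rcases mul_eq_zero.mp h7 with h8 | h8
  · exact absurd (sub_eq_zero.mp h8).symm h2
  · exact h8

/-- indicator -/
noncomputable def ind (g₀ y : G) : ℂ := by
  classical
  exact if y = g₀ then 1 else 0

omit [Fintype G] in
theorem ind_eq {g₀ y : G} (h : y = g₀) : ind g₀ y = 1 := by
  unfold ind; simp [h]

omit [Fintype G] in
theorem ind_ne {g₀ y : G} (h : y ≠ g₀) : ind g₀ y = 0 := by
  unfold ind; simp [h]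

/-- the projected indicator function -/
noncomputable def proj (ψ : N → ℂ) (g₀ : G) : G → ℂ :=
  fun g => ∑ x : G, ∑ n : N, conj (ψ n) * ind g₀ ((n : G) * (x * g * x⁻¹))

theorem proj_mem (hN : N ≤ Subgroup.center G) (ψ : N → ℂ)
    (hmul : ∀ a b : N, ψ (a * b) = ψ a * ψ b) (hnorm : ∀ a : N, ψ a * conj (ψ a) = 1) (g₀ : G) :
    proj ψ g₀ ∈ X N ψ := by
  constructor
  · intro g h
    unfold proj
    refine Fintype.sum_equiv (Equiv.mulRight h) _ _ fun x => ?_
    refine Finset.sum_congr rfl fun n _ => ?_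
    have : x * (h * g * h⁻¹) * x⁻¹ = (Equiv.mulRight h) x * g * ((Equiv.mulRight h) x)⁻¹ := by
      simp only [Equiv.coe_mulRight]; group
    rw [this]
  · intro m g
    unfold proj
    rw [Finset.mul_sum]
    refine Finset.sum_congr rfl fun x _ => ?_
    rw [Finset.mul_sum]
    refine Fintype.sum_equiv (Equiv.mulRight m) _ _ fun n => ?_
    have h1 : (n : G) * (x * (m * g) * x⁻¹) = (((Equiv.mulRight m) n : N) : G) * (x * g * x⁻¹) := by
      simp only [Equiv.coe_mulRight, Subgroup.coe_mul]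
      have := Subgroup.mem_center_iff.mp (hN m.2) x
      calc (n : G) * (x * (m * g) * x⁻¹) = n * ((x * m) * g * x⁻¹) := by group
        _ = n * ((m * x) * g * x⁻¹) := by rw [this]
        _ = _ := by group
    rw [h1]
    simp only [Equiv.coe_mulRight, hmul, map_mul]
    have := hnorm m
    generalize ind g₀ _ = I
    linear_combination (-(conj (ψ n) * I)) * this

/-- value of `proj` at a good element itself is nonzero -/
theorem proj_self_ne_zero (hN : N ≤ Subgroup.center G) (ψ : N → ℂ) (h1 : ψ 1 = 1) {g₀ : G}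
    (hg : Good N g₀) : proj ψ g₀ g₀ ≠ 0 := by
  classical
  unfold proj
  have hterm : ∀ (x : G) (n : N), conj (ψ n) * ind g₀ ((n : G) * (x * g₀ * x⁻¹)) =
      if (n : G) * (x * g₀ * x⁻¹) = g₀ then 1 else 0 := by
    intro x n
    split_ifs with h
    · have hn : n = 1 := by
        have hcomm : x⁻¹ * g₀ = g₀ * x⁻¹ := by
          apply hg
          have : (x⁻¹)⁻¹ * g₀⁻¹ * x⁻¹ * g₀ = (n : G) := by
            have hc := Subgroup.mem_center_iff.mp (hN n.2) (x * g₀ * x⁻¹)
            have h2 : x * g₀ * x⁻¹ = (n : G)⁻¹ * g₀ := by rw [eq_inv_mul_iff_mul_eq]; exact h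
            have h3 : x * g₀⁻¹ * x⁻¹ = g₀⁻¹ * n := by
              have : x * g₀⁻¹ * x⁻¹ = (x * g₀ * x⁻¹)⁻¹ := by group
              rw [this, h2]; group
            rw [inv_inv, h3]
            have hc' := Subgroup.mem_center_iff.mp (hN n.2) g₀
            rw [mul_assoc, ← hc']; group
          rw [this]; exact n.2
        have h2 : x * g₀ * x⁻¹ = g₀ := by
          rw [mul_assoc, ← hcomm]; group
        rw [h2] at h
        exact Subtype.ext (mul_eq_right.mp h)
      rw [ind_eq h, hn, h1]; simp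
    · rw [ind_ne h, mul_zero]
  simp only [hterm]
  rw [← Finset.sum_product']
  rw [Finset.sum_boole]
  have : (1, 1) ∈ Finset.filter (fun p : G × N => (p.2 : G) * (p.1 * g₀ * p.1⁻¹) = g₀)
      (Finset.univ ×ˢ Finset.univ) := by
    simp
  have hpos : 0 < (Finset.filter (fun p : G × N => (p.2 : G) * (p.1 * g₀ * p.1⁻¹) = g₀)
      (Finset.univ ×ˢ Finset.univ)).card := Finset.card_pos.mpr ⟨_, this⟩
  exact_mod_cast hpos.ne'

/-- value of `proj` at an element of a different class mod `N` is zero -/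
theorem proj_eq_zero [N.Normal] (ψ : N → ℂ) {g₀ g : G}
    (h : ConjClasses.mk (g₀ : G ⧸ N) ≠ ConjClasses.mk (g : G ⧸ N)) : proj ψ g₀ g = 0 := by
  unfold proj
  refine Finset.sum_eq_zero fun x _ => Finset.sum_eq_zero fun n _ => ?_
  rw [ind_ne, mul_zero]
  intro he
  apply h
  rw [ConjClasses.mk_eq_mk_iff_isConj, isConj_comm, isConj_iff]
  refine ⟨(x : G ⧸ N), ?_⟩
  rw [← he]
  have : ((n : G) : G ⧸ N) = 1 := (QuotientGroup.eq_one_iff _).mpr n.2
  simp [this]

theorem finrank_X' [N.Normal] (hN : N ≤ Subgroup.center G) (ψ : N → ℂ) (h1 : ψ 1 = 1)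
    (hmul : ∀ a b : N, ψ (a * b) = ψ a * ψ b) (hnorm : ∀ a : N, ψ a * conj (ψ a) = 1)
    (hfaith : ∀ n : N, ψ n = ψ 1 → n = 1) :
    Module.finrank ℂ (X N ψ) =
      Nat.card {C : ConjClasses (G ⧸ N) // ∃ g : G, ConjClasses.mk (g : G ⧸ N) = C ∧
        ∀ x : G, x⁻¹ * g⁻¹ * x * g ∈ N → x * g = g * x} := by
  classical
  set GC := {C : ConjClasses (G ⧸ N) // ∃ g : G, ConjClasses.mk (g : G ⧸ N) = C ∧
        ∀ x : G, x⁻¹ * g⁻¹ * x * g ∈ N → x * g = g * x} with hGC
  have : Fintype GC := Fintype.ofFinite _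
  let rep : GC → G := fun C => C.2.choose
  have hrep1 : ∀ C : GC, ConjClasses.mk ((rep C : G) : G ⧸ N) = C.1 := fun C => C.2.choose_spec.1
  have hrep2 : ∀ C : GC, Good N (rep C) := fun C => C.2.choose_spec.2
  let R : X N ψ →ₗ[ℂ] (GC → ℂ) :=
    { toFun := fun f C => f.1 (rep C)
      map_add' := fun f g => rfl
      map_smul' := fun c f => rfl }
  have hinj : Function.Injective R := by
    rw [← LinearMap.ker_eq_bot, LinearMap.ker_eq_bot']
    intro f hf
    apply Subtype.ext
    funext g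
    show f.1 g = 0
    by_cases hg : Good N g
    · let C : GC := ⟨ConjClasses.mk (g : G ⧸ N), g, rfl, hg⟩
      have h2 : f.1 (rep C) = 0 := congrFun hf C
      have h3 : ConjClasses.mk ((rep C : G) : G ⧸ N) = ConjClasses.mk (g : G ⧸ N) := hrep1 C
      rw [ConjClasses.mk_eq_mk_iff_isConj, isConj_iff] at h3
      obtain ⟨c', hc'⟩ := h3
      obtain ⟨c, rfl⟩ := QuotientGroup.mk_surjective c'
      have h4 : ((c * rep C * c⁻¹ : G) : G ⧸ N) = (g : G ⧸ N) := by
        simpa using hc'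
      rw [QuotientGroup.eq] at h4
      set n : G := (c * rep C * c⁻¹)⁻¹ * g with hn
      have h5 : g = n * (c * rep C * c⁻¹) := by
        have := Subgroup.mem_center_iff.mp (hN h4) (c * rep C * c⁻¹)
        rw [← this, hn]; group
      rw [h5, f.2.2 ⟨n, h4⟩, f.2.1, h2, mul_zero]
    · exact eq_zero_of_not_good hN ψ h1 hfaith f.2 hg
  have hsurj : Function.Surjective R := by
    intro v
    refine ⟨⟨∑ C : GC, (v C / proj ψ (rep C) (rep C)) • proj ψ (rep C),
      Submodule.sum_mem _ fun C _ => Submodule.smul_mem _ _ (proj_mem hN ψ hmul hnorm _)⟩, ?_⟩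
    funext C'
    show (∑ C : GC, (v C / proj ψ (rep C) (rep C)) • proj ψ (rep C)) (rep C') = v C'
    rw [Finset.sum_apply, Finset.sum_eq_single C']
    · have := proj_self_ne_zero hN ψ h1 (hrep2 C')
      simp only [Pi.smul_apply, smul_eq_mul]
      field_simp
    · intro C _ hne
      simp only [Pi.smul_apply, smul_eq_mul]
      have h0 : proj ψ (rep C) (rep C') = 0 := by
        apply proj_eq_zero ψ
        rw [hrep1, hrep1]
        exact fun h => hne (Subtype.ext h)
      rw [h0, mul_zero]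
    · intro h; exact absurd (Finset.mem_univ _) h
  rw [(LinearEquiv.ofBijective R ⟨hinj, hsurj⟩).finrank_eq, Module.finrank_fintype_fun_eq_card,
    Nat.card_eq_fintype_card]

end aux

/-- Let N be a central subgroup of the finite group G and ψ a faithful irreducible (hence degree-one) character of N. Call a coset g N special when every x ∈ G whose commutator x⁻¹ g⁻¹ x g lies in N actually commutes with g (this depends only on the coset). Then the number of irreducible characters of G whose restriction to N contains ψ equals the number of conjugacy classes of G/N consisting of special cosets. -/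
theorem result {G : Type*} [Group G] [Fintype G] (N : Subgroup G) [N.Normal] [Fintype N] (hN : N ≤ Subgroup.center G) (ψ : Cfsg.IrrCharacter ↥N) (hfaith : ∀ n : ↥N, (ψ : ↥N → ℂ) n = (ψ : ↥N → ℂ) 1 → n = 1) : Nat.card {χ : Cfsg.IrrCharacter G // Cfsg.classInner (fun n : ↥N => (χ : G → ℂ) n) (ψ : ↥N → ℂ) ≠ 0} = Nat.card {C : ConjClasses (G ⧸ N) // ∃ g : G, ConjClasses.mk (g : G ⧸ N) = C ∧ ∀ x : G, x⁻¹ * g⁻¹ * x * g ∈ N → x * g = g * x} := by
  have hcommN : IsMulCommutative N := ⟨⟨fun a b => Subtype.ext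
    ((Subgroup.mem_center_iff.mp (hN a.2) b).symm)⟩⟩
  have h1 : (ψ : ↥N → ℂ) 1 = 1 := Helper83Char.irr_one_of_comm ψ.2
  rw [← finrank_X hN ψ, finrank_X' hN (ψ : ↥N → ℂ) h1 (Helper82Linear.irr_linear_mul ψ h1)
    (Helper82Linear.irr_linear_mul_conj ψ h1) hfaith]

end Cfsg.Agent.S4567
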