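import Cfsg.Statements.S4571
import Cfsg.Agent.Lib.Helper21Rank
import Cfsg.Agent.Lib.Helper82Linear

set_option autoImplicit false
open Cfsg

namespace Cfsg.Agent.S4571

/-- Let Q be a normal p-subgroup of the finite group G with G = Q·C_G(Q), and M a maximal ideal of the algebraic integers containing p. Then the principal p-blocks of G and of G/Q have the same p-regular rank (the same number of irreducible Brauer characters). -/
theorem result {G : Type*} [Group G] [Finite G] (p : ℕ) [Fact p.Prime] (M : Ideal Cfsg.AlgInt) (hM : Cfsg.IsPModular p M) (Q : Subgroup G) [Q.Normal] (hQ : IsPGroup p Q) (hsup : Q ⊔ Subgroup.centralizer (Q : Set G) = ⊤) : Cfsg.blockRank p (Cfsg.principalBlock M G) = Cfsg.blockRank p (Cfsg.principalBlock M (G ⧸ Q)) := by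
  classical
  let _ := Fintype.ofFinite G
  let _ := Fintype.ofFinite (G ⧸ Q)
  exact Cfsg.Agent.Lib.Helper21Rank.blockRank_inflate Q hM hQ hsup
    (Cfsg.Agent.Lib.Helper82Linear.irrOne (G ⧸ Q))

end Cfsg.Agent.S4571
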