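import Cfsg.Statements.S4574
import Cfsg.Agent.Lib.Helper79Galois
import Cfsg.Agent.Lib.Helper4Eigen
import Cfsg.Agent.Lib.Helper4Char
-- import your own Cfsg.Agent.* helpers here

set_option autoImplicit false
open Cfsg

namespace Cfsg.Agent.S4574

open Cfsg.Agent.Lib

section aux

variable {G : Type*} [Group G] [Fintype G]

theorem norm_pow_eq {m : ℕ} (ρ : Representation ℂ G (Fin m → ℂ)) (g : G) (k : ℕ)
    (h : ‖ρ.character g‖ = (m : ℝ)) : ‖ρ.character (g ^ k)‖ = (m : ℝ) := by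
  have hm : Module.finrank ℂ (Fin m → ℂ) = m := by simp
  have h1 := (Helper4Eigen.norm_char_eq_finrank_iff ρ g).mp (by rw [hm]; exact h)
  obtain ⟨ω, hω⟩ := h1
  have h2 := (Helper4Eigen.norm_char_eq_finrank_iff ρ (g ^ k)).mpr ⟨ω ^ k, by
    rw [map_pow, hω]
    show (ω • (1 : Module.End ℂ (Fin m → ℂ))) ^ k = ω ^ k • 1
    rw [smul_pow, one_pow]⟩
  rw [hm] at h2
  exact h2

theorem norm_pow_iff {m : ℕ} (ρ : Representation ℂ G (Fin m → ℂ)) (g : G) (k : ℕ)
    (hk : k.Coprime (Nat.card G)) : ‖ρ.character (g ^ k)‖ = (m : ℝ) ↔ ‖ρ.character g‖ = (m : ℝ) := by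
  constructor
  · intro h
    have hbij := (powCoprime hk.symm).symm_apply_apply g
    rw [powCoprime_apply, powCoprime_symm_apply] at hbij
    have hmem : (g ^ k) ^ (Nat.card G).gcdB k ∈ Submonoid.powers (g ^ k) :=
      (isOfFinOrder_of_finite (g ^ k)).mem_powers_iff_mem_zpowers.mpr ⟨_, rfl⟩
    obtain ⟨l, hl⟩ := hmem
    rw [← hbij, ← hl]
    exact norm_pow_eq ρ _ _ h
  · exact norm_pow_eq ρ g k

theorem sum_normSq {χ : G → ℂ} (hχ : IsIrrCharacter G χ) :
    ∑ g : G, ‖χ g‖ ^ 2 = (Nat.card G : ℝ) := by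
  have h := Helper4Char.classInner_irr_self hχ
  unfold classInner at h
  have h0 : (Nat.card G : ℂ) ≠ 0 := Helper4Char.card_ne_zero
  have h1 : ∑ g : G, χ g * (starRingEnd ℂ) (χ g) = (Nat.card G : ℂ) := by
    field_simp at h
    exact h
  have h2 : ∑ g : G, χ g * (starRingEnd ℂ) (χ g) = ((∑ g : G, ‖χ g‖ ^ 2 : ℝ) : ℂ) := by
    push_cast
    refine Finset.sum_congr rfl fun g _ => ?_
    rw [Complex.mul_conj, Complex.normSq_eq_norm_sq]
    push_cast; rfl
  rw [h2] at h1
  exact_mod_cast h1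

/-- key inequality -/
theorem key {m : ℕ} (ρ : Representation ℂ G (Fin m → ℂ)) :
    ((Finset.univ.filter (fun g : G => ‖ρ.character g‖ ≠ (m : ℝ) ∧ ρ.character g ≠ 0)).card : ℝ) ≤
      ∑ g ∈ Finset.univ.filter (fun g : G => ‖ρ.character g‖ ≠ (m : ℝ)), ‖ρ.character g‖ ^ 2 := by
  classical
  obtain ⟨Φ, _, hne, k, hk, hΦ⟩ := Helper79Galois.galois_avg (Nat.card G) Nat.card_pos
  set Zc := Finset.univ.filter (fun g : G => ‖ρ.character g‖ ≠ (m : ℝ)) with hZc
  have hcard : (0 : ℝ) < Fintype.card Φ := by exact_mod_cast Fintype.card_pos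
  have h1 : ∀ φ : Φ, ∑ g ∈ Zc, ‖ρ.character (g ^ k φ)‖ ^ 2 = ∑ g ∈ Zc, ‖ρ.character g‖ ^ 2 := by
    intro φ
    refine Finset.sum_equiv (powCoprime (hk φ).symm) ?_ ?_
    · intro g
      simp only [hZc, Finset.mem_filter, Finset.mem_univ, true_and, powCoprime_apply, ne_eq,
        norm_pow_iff ρ g (k φ) (hk φ)]
    · intro g _
      rfl
  have h2 : ∀ g ∈ Zc, (if ρ.character g ≠ 0 then (Fintype.card Φ : ℝ) else 0) ≤
      ∑ φ : Φ, ‖ρ.character (g ^ k φ)‖ ^ 2 := by
    intro g _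
    split_ifs with h0
    · obtain ⟨μ, hμ1, -, hμ3, hμ4, -⟩ := Helper4Eigen.exists_eigenvalues ρ g
      have hμn : ∀ i, μ i ^ Nat.card G = 1 := by
        intro i
        obtain ⟨c, hc⟩ := orderOf_dvd_natCard g
        rw [hc, pow_mul, hμ1, one_pow]
      have := hΦ _ μ hμn (by rw [← hμ4]; exact h0)
      simpa only [hμ3] using this
    · positivity
  have h3 : (Fintype.card Φ : ℝ) * ∑ g ∈ Zc, ‖ρ.character g‖ ^ 2 =
      ∑ g ∈ Zc, ∑ φ : Φ, ‖ρ.character (g ^ k φ)‖ ^ 2 := by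
    rw [Finset.sum_comm, Finset.sum_congr rfl (fun φ _ => h1 φ)]
    simp
  have h4 : ∑ g ∈ Zc, (if ρ.character g ≠ 0 then (Fintype.card Φ : ℝ) else 0) =
      (Fintype.card Φ : ℝ) *
        ((Finset.univ.filter (fun g : G => ‖ρ.character g‖ ≠ (m : ℝ) ∧ ρ.character g ≠ 0)).card : ℝ) := by
    rw [← Finset.sum_filter, Finset.sum_const, hZc, Finset.filter_filter]
    simp [mul_comm]
  have h5 := Finset.sum_le_sum h2
  rw [h4, ← h3] at h5
  exact le_of_mul_le_mul_left h5 hcard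

end aux

/-- Let χ be an irreducible character of the finite group G, of degree d, and let Z(χ) be the set of elements g with |χ g| = d (the centre of χ). Then χ vanishes on at least (d ^ 2 - 1) · |Z(χ)| elements of G, with equality when every value |χ g| is 0, 1 or d. -/
theorem result {G : Type*} [Group G] [Fintype G] [DecidableEq G] (χ : G → ℂ) (hχ : Cfsg.IsIrrCharacter G χ) : (Cfsg.charDegree χ ^ 2 - 1) * (Finset.univ.filter (fun g : G => ‖χ g‖ = (Cfsg.charDegree χ : ℝ))).card ≤ (Finset.univ.filter (fun g : G => χ g = 0)).card ∧ ((∀ g : G, ‖χ g‖ = 0 ∨ ‖χ g‖ = 1 ∨ ‖χ g‖ = (Cfsg.charDegree χ : ℝ)) → (Cfsg.charDegree χ ^ 2 - 1) * (Finset.univ.filter (fun g : G => ‖χ g‖ = (Cfsg.charDegree χ : ℝ))).card = (Finset.univ.filter (fun g : G => χ g = 0)).card) := by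
  classical
  have hsum := sum_normSq hχ
  obtain ⟨m, ρ, hirr, rfl⟩ := hχ
  have := hirr
  have hd : Cfsg.charDegree ρ.character = m := by
    unfold Cfsg.charDegree
    rw [Representation.char_one]
    simp
  have hm : 0 < m := by
    have := Helper4Char.finrank_pos_of_irreducible ρ
    simpa using this
  rw [hd]
  have hkey := key ρ
  set Zs := Finset.univ.filter (fun g : G => ‖ρ.character g‖ = (m : ℝ)) with hZs
  set Vs := Finset.univ.filter (fun g : G => ρ.character g = 0) with hVs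
  set Zc := Finset.univ.filter (fun g : G => ‖ρ.character g‖ ≠ (m : ℝ)) with hZc
  set Ws := Finset.univ.filter (fun g : G => ‖ρ.character g‖ ≠ (m : ℝ) ∧ ρ.character g ≠ 0) with hWs
  have hc1 : Zs.card + Zc.card = Nat.card G := by
    rw [hZs, hZc, Finset.card_filter_add_card_filter_not, Finset.card_univ, Nat.card_eq_fintype_card]
  have hV : Zc.filter (fun g => ρ.character g = 0) = Vs := by
    ext g
    simp only [hZc, hVs, Finset.mem_filter, Finset.mem_univ, true_and]
    constructor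
    · exact fun h => h.2
    · intro h
      refine ⟨?_, h⟩
      rw [h, norm_zero]
      exact_mod_cast hm.ne
  have hW : Zc.filter (fun g => ¬ ρ.character g = 0) = Ws := by
    rw [hZc, hWs, Finset.filter_filter]
  have hc2 : Vs.card + Ws.card = Zc.card := by
    rw [← hV, ← hW, Finset.card_filter_add_card_filter_not]
  have hs1 : ∑ g ∈ Zs, ‖ρ.character g‖ ^ 2 + ∑ g ∈ Zc, ‖ρ.character g‖ ^ 2 = (Nat.card G : ℝ) := by
    rw [← hsum, hZs, hZc]
    exact Finset.sum_filter_add_sum_filter_not _ _ _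
  have hs2 : ∑ g ∈ Zs, ‖ρ.character g‖ ^ 2 = (Zs.card : ℝ) * (m : ℝ) ^ 2 := by
    rw [Finset.sum_congr rfl (fun g hg => by rw [(Finset.mem_filter.mp hg).2]), Finset.sum_const]
    simp
  have hcast : (Nat.card G : ℝ) = Zs.card + Vs.card + Ws.card := by
    rw [← hc1, ← hc2]; push_cast; ring
  have hsub : (m ^ 2 - 1) * Zs.card = m ^ 2 * Zs.card - Zs.card := by
    rw [Nat.sub_mul, one_mul]
  have hge : Zs.card ≤ m ^ 2 * Zs.card := Nat.le_mul_of_pos_left _ (by positivity)
  constructor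
  · have h1 : (Zs.card : ℝ) * (m : ℝ) ^ 2 ≤ Zs.card + Vs.card := by linarith
    have h2 : m ^ 2 * Zs.card ≤ Zs.card + Vs.card := by
      have : ((m ^ 2 * Zs.card : ℕ) : ℝ) ≤ ((Zs.card + Vs.card : ℕ) : ℝ) := by
        push_cast; linarith
      exact_mod_cast this
    omega
  · intro hall
    have h3 : ∑ g ∈ Zc, ‖ρ.character g‖ ^ 2 = (Ws.card : ℝ) := by
      have : ∀ g ∈ Zc, ‖ρ.character g‖ ^ 2 = if ¬ ρ.character g = 0 then (1 : ℝ) else 0 := by
        intro g hg
        have hg' : ‖ρ.character g‖ ≠ (m : ℝ) := (Finset.mem_filter.mp hg).2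
        rcases hall g with h | h | h
        · have h0 : ρ.character g = 0 := norm_eq_zero.mp h
          simp [h0]
        · have h0 : ρ.character g ≠ 0 := by
            intro h0; rw [h0, norm_zero] at h; exact zero_ne_one h
          simp [h0, h]
        · exact absurd h hg'
      rw [Finset.sum_congr rfl this, ← Finset.sum_filter, hW]
      simp
    have h1 : (Zs.card : ℝ) * (m : ℝ) ^ 2 = Zs.card + Vs.card := by linarith
    have h2 : m ^ 2 * Zs.card = Zs.card + Vs.card := by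
      have : ((m ^ 2 * Zs.card : ℕ) : ℝ) = ((Zs.card + Vs.card : ℕ) : ℝ) := by
        push_cast; linarith
      exact_mod_cast this
    omega

end Cfsg.Agent.S4574
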