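import Cfsg.Statements.S4575
import Cfsg.Agent.Lib.Helper82Major4
import Cfsg.Agent.Lib.Helper80Corr
-- import your own Cfsg.Agent.* helpers here

set_option autoImplicit false
open Cfsg

namespace Cfsg.Agent.S4575

/-- Let B be a 2-block of the finite group G (relative to a maximal ideal M of the algebraic integers containing 2) of defect d with defect group D. Let z be an element of D commuting with every element of D, and let b be a block of the centralizer of z with defect group D that induces B (a major subsection (z, b)). If the number of irreducible characters in B exceeds the 2-regular rank of b by at most three, then B contains at most 2 ^ d irreducible characters. -/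
theorem result {G : Type*} [Group G] [Finite G] (M : Ideal Cfsg.AlgInt) (hM : Cfsg.IsPModular 2 M) (B : Set (Cfsg.IrrCharacter G)) (hB : Cfsg.IsPBlock M B) (D : Subgroup G) (hD : Cfsg.IsDefectGroup 2 M B D) (z : G) (hzD : z ∈ D) (hzc : ∀ d ∈ D, d * z = z * d) (b : Set (Cfsg.IrrCharacter ↥(Subgroup.centralizer ({z} : Set G)))) (hb : Cfsg.IsInducedBlock M (Subgroup.centralizer ({z} : Set G)) b B) (hbD : Cfsg.IsDefectGroup 2 M b (D.subgroupOf (Subgroup.centralizer ({z} : Set G)))) (h : Nat.card B ≤ Cfsg.blockRank 2 b + 3) : Nat.card B ≤ 2 ^ Cfsg.blockDefect 2 B := by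
  classical
  have hp : (2 : ℕ).Prime := Nat.prime_two
  let _ : Fintype G := Fintype.ofFinite G
  let _ : Fintype (Subgroup.centralizer ({z} : Set G)) := Fintype.ofFinite _
  have hcD := Cfsg.Agent.Lib.Helper20DefCard.card_defectGroup hM hB hD
  have hcb := Cfsg.Agent.Lib.Helper20DefCard.card_defectGroup hM hb.1 hbD
  have hDle : D ≤ Subgroup.centralizer ({z} : Set G) := by
    intro d hd
    rw [Subgroup.mem_centralizer_singleton_iff]
    exact hzc d hd
  have hcard : Nat.card (D.subgroupOf (Subgroup.centralizer ({z} : Set G))) = Nat.card D :=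
    Nat.card_congr (Subgroup.subgroupOfEquivOfLe hDle).toEquiv
  have hd : Cfsg.blockDefect 2 b = Cfsg.blockDefect 2 B := by
    rw [hcard, hcD] at hcb
    exact (Nat.pow_right_injective hp.two_le hcb).symm
  obtain ⟨k, hk⟩ : ∃ k : ℕ, orderOf z = 2 ^ k := by
    have h1 : orderOf (⟨z, hzD⟩ : D) ∣ Nat.card D := orderOf_dvd_natCard _
    rw [hcD, Subgroup.orderOf_mk] at h1
    obtain ⟨k, _, hk⟩ := (Nat.dvd_prime_pow hp).1 h1
    exact ⟨k, hk⟩
  have fin : (∑ χ : Cfsg.IrrCharacter G, (if χ ∈ B then
      (if Cfsg.blockHeight 2 B (χ : G → ℂ) = 0 then (3 : ℤ)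
        else 2 ^ (Cfsg.blockHeight 2 B (χ : G → ℂ) + 1)) else 0) ≤ 3 * 2 ^ Cfsg.blockDefect 2 B) →
      Nat.card B ≤ 2 ^ Cfsg.blockDefect 2 B := by
    intro key
    have c1 : Nat.card B = (Finset.univ.filter (fun χ : Cfsg.IrrCharacter G => χ ∈ B)).card := by
      rw [Nat.card_eq_fintype_card, Fintype.card_subtype]
    have c2 : (3 : ℤ) * (Nat.card B : ℤ) ≤ ∑ χ : Cfsg.IrrCharacter G, (if χ ∈ B then
      (if Cfsg.blockHeight 2 B (χ : G → ℂ) = 0 then (3 : ℤ)
        else 2 ^ (Cfsg.blockHeight 2 B (χ : G → ℂ) + 1)) else 0) := by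
      rw [c1, Finset.card_filter]
      push_cast
      rw [Finset.mul_sum]
      apply Finset.sum_le_sum
      intro χ _
      by_cases h1 : χ ∈ B
      · simp only [h1, if_true, mul_one]
        split_ifs with h2
        · exact le_rfl
        · have : (2 : ℤ) ^ 2 ≤ 2 ^ (Cfsg.blockHeight 2 B (χ : G → ℂ) + 1) :=
            pow_le_pow_right₀ (by norm_num) (by omega)
          linarith
      · simp [h1]
    have c3 : (3 : ℤ) * (Nat.card B : ℤ) ≤ 3 * 2 ^ Cfsg.blockDefect 2 B := c2.trans key
    have c4 : (Nat.card B : ℤ) ≤ 2 ^ Cfsg.blockDefect 2 B := by linarith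
    exact_mod_cast c4
  by_cases hz1 : z = 1
  · by_cases hd0 : Cfsg.blockDefect 2 B = 0
    · obtain ⟨χ, rfl⟩ := (Cfsg.Agent.Lib.Helper81Defect.blockDefect_eq_zero_iff hM hB).1 hd0
      simp only [Set.mem_singleton_iff, Nat.card_unique]
      exact Nat.one_le_two_pow
    · apply fin
      exact Cfsg.Agent.Lib.Helper82Major4.weighted_le_dual hM hb hd
        (z := ⟨z, Subgroup.mem_centralizer_singleton_iff.mpr rfl⟩)
        (fun h => Subtype.ext (Subgroup.mem_centralizer_singleton_iff.mp h.2))
        (by simp [hz1]) rfl hd0 h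
  · obtain ⟨e, hmax⟩ := Cfsg.Agent.Lib.Helper80Corr.exists_maximal_of_defectGroup hM hB hD
    have hu : Cfsg.Agent.Lib.Helper78MajP.IsZ D 1 := ⟨D.one_mem, by simp⟩
    have i1 := Cfsg.Agent.Lib.Helper78MajP.fz_induced hM hmax hu
    have d1 := Cfsg.Agent.Lib.Helper78MajP.fz_defect hM hmax hu
    let _ : Fintype (Subgroup.centralizer ((Subgroup.zpowers (1 : G) : Subgroup G) : Set G)) :=
      Fintype.ofFinite _
    have hr := Cfsg.Agent.Lib.Helper82Major4.rank_add_le hM (u := 1) (u' := z) ⟨0, by simp⟩ ⟨k, hk⟩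
      (by
        intro x hx
        apply hz1
        rw [← hx]
        group)
      (Cfsg.Agent.Lib.Helper78MajP.centralizer_zpowers 1) rfl i1 hb
    have hl : Cfsg.blockRank 2
        (Cfsg.Agent.Lib.Helper78MajP.fz 2 M D e (Subgroup.zpowers (1 : G))) ≤ 3 := by omega
    apply fin
    exact Cfsg.Agent.Lib.Helper82Major3.weighted_le hM i1 d1 (z := 1) (fun h => by simp) (k := 0)
      (by simp) (by simp) hl

end Cfsg.Agent.S4575
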