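import Cfsg.Statements.S4580
import Cfsg.Agent.Lib.Helper78Real2
import Cfsg.Agent.Lib.Helper19Gal2
import Cfsg.Agent.Lib.Helper19Lin
import Cfsg.Agent.Lib.Helper83MinNormal

set_option autoImplicit false
open Cfsg

namespace Cfsg.Agent.S4580

open Cfsg.Agent.Lib Cfsg.Agent.Lib.Helper81Local Cfsg.Agent.Lib.Helper81Base
  Cfsg.Agent.Lib.Helper81BB Cfsg.Agent.Lib.Helper81Block Cfsg.Agent.Lib.Helper81Orth
  Cfsg.Agent.Lib.Helper78Real2
open scoped ComplexConjugate

/-- If `z` is a local integer with `z ^ (p ^ a) = 1` then `z ≡ 1`. -/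
theorem sub_one_of_pow_pow {p : ℕ} {M : Ideal AlgInt} (hM : IsPModular p M) {z : ℂ}
    (hz : MemLocalRing M z) (a : ℕ) (hzp : z ^ (p ^ a) = 1) : MemLocalIdeal M (z - 1) := by
  have := hM.2.1.isPrime
  have : Fact p.Prime := ⟨hM.1⟩
  set k := IsLocalRing.ResidueField (Rt M)
  have hp0 : ((p : ℕ) : k) = 0 := by
    have : IsLocalRing.residue (Rt M) ((p : ℕ) : Rt M) = 0 := by
      rw [IsLocalRing.residue_eq_zero_iff, mem_maximalIdeal_Rt_iff]
      simpa using memLocalIdeal_p hM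
    simpa using this
  have : CharP k p := (CharP.charP_iff_prime_eq_zero hM.1).2 hp0
  set x : Rt M := ⟨z, hz⟩
  have hx : x ^ (p ^ a) = 1 := Subtype.ext (by simpa using hzp)
  have h1 : (IsLocalRing.residue (Rt M) x - 1) ^ (p ^ a) = 0 := by
    rw [sub_pow_char_pow, one_pow, ← map_pow, hx, map_one, sub_self]
  have h2 : IsLocalRing.residue (Rt M) (x - 1) = 0 := by
    rw [map_sub, map_one]
    exact pow_eq_zero_iff (pow_ne_zero _ hM.1.ne_zero) |>.1 h1
  rw [IsLocalRing.residue_eq_zero_iff, mem_maximalIdeal_Rt_iff] at h2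
  simpa using h2


/-- Let N be a normal subgroup of the finite group G, M a maximal ideal of the algebraic integers containing 2, and θ a real-valued irreducible character of N of odd degree that extends to G (some irreducible character of G restricts to θ). Then θ has an extension to G lying in the principal 2-block of G. -/
theorem result {G : Type*} [Group G] [Finite G] (N : Subgroup G) [N.Normal] (M : Ideal Cfsg.AlgInt) (hM : Cfsg.IsPModular 2 M) (θ : Cfsg.IrrCharacter N) (hreal : ∀ n : N, ((θ : N → ℂ) n).im = 0) (hodd : Odd (Cfsg.charDegree (θ : N → ℂ))) (hext : ∃ η : Cfsg.IrrCharacter G, ∀ n : N, (η : G → ℂ) n = (θ : N → ℂ) n) :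
    ∃ η : Cfsg.IrrCharacter G, (∀ n : N, (η : G → ℂ) n = (θ : N → ℂ) n) ∧ η ∈ Cfsg.principalBlock M G := by
  classical
  have : Fintype G := Fintype.ofFinite G
  have hMp := hM.2.1.isPrime
  obtain ⟨η, hη⟩ := hext
  have hθr : ∀ n : N, conj ((θ : N → ℂ) n) = (θ : N → ℂ) n := fun n =>
    Complex.conj_eq_iff_im.2 (hreal n)
  have hcj : ∀ n : N, (cj η : G → ℂ) n = (θ : N → ℂ) n := by
    intro n; rw [cj_apply, hη, hθr]
  have hG := Helper19Gal2.gallagher N.subtype N.subtype_injective (MulAut.conjNormal (H := N))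
    (fun g n => by simp) θ.2 η.2 hη
  have hmem : (cj η : G → ℂ) ∈ {ψ : G → ℂ | IsIrrCharacter G ψ ∧
      classInner (fun n => ψ (N.subtype n)) (θ : N → ℂ) ≠ 0} := by
    refine ⟨(cj η).2, ?_⟩
    have : (fun n : N => (cj η : G → ℂ) (N.subtype n)) = (θ : N → ℂ) := funext hcj
    rw [this, Helper4Char.classInner_irr_self θ.2]
    exact one_ne_zero
  obtain ⟨β, ⟨hβ, hβN⟩, hβη⟩ := hG.surjOn hmem
  have hβη' : ∀ g, β g * (η : G → ℂ) g = conj ((η : G → ℂ) g) := by
    intro g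
    have := congrFun hβη g
    simpa [cj_apply] using this
  have hη1 : (η : G → ℂ) 1 ≠ 0 := irr_one_ne_zero η
  have hβ1 : β 1 = 1 := by
    have h := hβη' 1
    obtain ⟨n, _, hn⟩ := irr_one η
    rw [hn, Complex.conj_natCast] at h
    rw [hn] at hη1
    exact mul_right_cancel₀ hη1 (by rw [h, one_mul])
  obtain ⟨f, hf⟩ := Helper19Lin.exists_hom_of_linear (Helper4Char.IsIrrCharacter.isCharacter hβ) hβ1
  have hfa : ∀ g, β g = (f g : ℂ) := fun g => by rw [← hf]; rfl
  have hfN : ∀ n : N, (f (n : G) : ℂ) = 1 := by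
    intro n
    rw [← hfa, ← hβ1]; exact hβN n
  have ho : orderOf f ≠ 0 := (Helper19Lin.orderOf_hom_pos f).ne'
  obtain ⟨a, m, ⟨s, hs⟩, hom⟩ := Nat.exists_eq_two_pow_mul_odd ho
  -- the new extension
  obtain ⟨η', hη'⟩ : ∃ η' : IrrCharacter G, ∀ g, (η' : G → ℂ) g = (f g : ℂ) ^ (s + 1) * (η : G → ℂ) g := by
    refine ⟨⟨_, Helper83MinNormal.mul_linear_irr (f ^ (s + 1)) η.2⟩, ?_⟩
    intro g
    simp [Helper19Lin.homFun_apply]
  have hu : ∀ g, (f g : ℂ) ≠ 0 := fun g => Units.ne_zero _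
  have hconj : ∀ g, conj (f g : ℂ) = (f g : ℂ)⁻¹ := by
    intro g
    have := Helper83MinNormal.hom_mul_conj f g
    field_simp
    rw [mul_comm]; exact this
  -- twisted reality
  have hν : ∀ g, conj ((η' : G → ℂ) g) * (f g : ℂ) ^ m = (η' : G → ℂ) g := by
    intro g
    rw [hη', map_mul, map_pow, hconj, ← hβη', hfa, hs]
    have h0 := hu g
    have h1 : ((f g : ℂ)⁻¹) ^ (s + 1) * (f g : ℂ) ^ (s + 1) = 1 := by
      rw [← mul_pow, inv_mul_cancel₀ h0, one_pow]
    generalize ((f g : ℂ)⁻¹) = v at h1 ⊢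
    calc v ^ (s + 1) * ((f g : ℂ) * (η : G → ℂ) g) * (f g : ℂ) ^ (2 * s + 1)
        = (v ^ (s + 1) * (f g : ℂ) ^ (s + 1)) * ((f g : ℂ) ^ (s + 1) * (η : G → ℂ) g) := by ring
      _ = _ := by rw [h1, one_mul]
  have hroot : ∀ g, ((f g : ℂ) ^ m) ^ (2 ^ a) = 1 := by
    intro g
    rw [← pow_mul, mul_comm, ← hom, ← Units.val_pow_eq_pow_val, ← MonoidHom.pow_apply,
      pow_orderOf_eq_one]
    simp
  have hint : ∀ g, MemLocalRing M ((f g : ℂ) ^ m) := by
    intro g
    apply memLocalRing_of_isIntegral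
    exact IsIntegral.of_pow (n := 2 ^ a) (by positivity) (by rw [hroot]; exact isIntegral_one)
  have hcong : ∀ g, MemLocalIdeal M ((f g : ℂ) ^ m - 1) := fun g =>
    sub_one_of_pow_pow hM (hint g) a (hroot g)
  have hcc : ∀ g, centralChar (η' : G → ℂ) g - centralChar (cj η' : G → ℂ) g
      = centralChar (cj η' : G → ℂ) g * ((f g : ℂ) ^ m - 1) := by
    intro g
    unfold centralChar
    rw [cj_apply, cj_apply]
    obtain ⟨n, _, hn⟩ := irr_one η'
    rw [hn, Complex.conj_natCast]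
    have h := hν g
    linear_combination (-((Subgroup.centralizer ({g} : Set G)).index : ℂ) / n) * h
  have hsb : SameBlock M (η' : G → ℂ) (cj η' : G → ℂ) := by
    intro g
    rw [hcc]
    exact memLocalIdeal_mul (memLocalRing_of_isIntegral (irr_omega_integral (cj η') g)) (hcong g)
  obtain ⟨B, hBdef⟩ : ∃ B, B = blockOf M (η' : G → ℂ) := ⟨_, rfl⟩
  have hB : IsPBlock M B := ⟨η', hBdef⟩
  have hη'B : η' ∈ B := by rw [hBdef]; exact self_mem_blockOf η'
  have hst : ∀ ψ ∈ B, cj ψ ∈ B := by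
    intro ψ hψ
    have h1 := sameBlock_cj (M := M) (isPBlock_sameBlock hB hη'B hψ)
    rw [hBdef]
    exact sameBlock_trans hsb h1
  have hext' : ∀ n : N, (η' : G → ℂ) n = (θ : N → ℂ) n := by
    intro n
    rw [hη', hfN, one_pow, one_mul, hη]
  have hdeg : charDegree (η' : G → ℂ) = charDegree (θ : N → ℂ) := by
    unfold charDegree
    have := hext' 1
    rw [← this]; rfl
  have h1B : Helper82Linear.irrOne G ∈ B := by
    refine irrOne_mem_of_stable hM hB (blockCoeff_inv hst) hη'B (hdeg ▸ hodd) ?_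
    intro g _
    rw [← centralChar_cj]
    exact sameBlock_symm hsb g
  refine ⟨η', hext', ?_⟩
  rw [← eq_principalBlock_of_irrOne_mem hB h1B]
  exact hη'B

end Cfsg.Agent.S4580
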