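import Cfsg.Statements.S4581
import Cfsg.Agent.Lib.H79ROMain1
import Cfsg.Agent.Lib.H79ROMain2
-- import your own Cfsg.Agent.* helpers here

set_option autoImplicit false
open Cfsg

namespace Cfsg.Agent.S4581

open Cfsg.Agent.Lib.H79RODefs Cfsg.Agent.Lib.H79ROBasic
  Cfsg.Agent.Lib.H79ROMain1 Cfsg.Agent.Lib.H79ROMain2
open Cfsg.Agent.Lib.H79ROChief Cfsg.Agent.Lib.H79ROIdx Cfsg.Agent.Lib.H79RONNSup Cfsg.Agent.Lib.H79ROLeSup Cfsg.Agent.Lib.H79ROEaUp Cfsg.Agent.Lib.H79ROPartition Cfsg.Agent.Lib.H79ROEaBot Cfsg.Agent.Lib.H79ROTLin Cfsg.Agent.Lib.H79ROTInd Cfsg.Agent.Lib.H79ROTSep Cfsg.Agent.Lib.H79ROTExtOdd Cfsg.Agent.Lib.H79ROTKer Cfsg.Agent.Lib.H79ROTSylTriv Cfsg.Agent.Lib.H79ROTClf Cfsg.Agent.Lib.H79ROTHmg Cfsg.Agent.Lib.H79ROTTrans Cfsg.Agent.Lib.H79ROTExOdd Cfsg.Agent.Lib.H79ROTExInv Cfsg.Agent.Lib.H79ROTrivOdd Cfsg.Agent.Lib.H79ROOverConj Cfsg.Agent.Lib.H79ROTop Cfsg.Agent.Lib.H79ROSub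 Cfsg.Agent.Lib.H79ROSelf Cfsg.Agent.Lib.H79ROTwistCard Cfsg.Agent.Lib.H79ROTOverTw Cfsg.Agent.Lib.H79ROTFour Cfsg.Agent.Lib.H79ROTLinCons Cfsg.Agent.Lib.H79ROTCfix Cfsg.Agent.Lib.H79ROCover Cfsg.Agent.Lib.H79ROFusion Cfsg.Agent.Lib.H79ROSsOdd Cfsg.Agent.Lib.H79ROSsSup Cfsg.Agent.Lib.H79ROSsEmpty Cfsg.Agent.Lib.H79ROExt Cfsg.Agent.Lib.H79ROCliffCard Cfsg.Agent.Lib.H79ROKerOddSn Cfsg.Agent.Lib.H79RORealTwo Cfsg.Agent.Lib.H79ROStepBOdd Cfsg.Agent.Lib.H79ROEaOfEe Cfsg.Agent.Lib.H79ROEeOdd Cfsg.Agent.Lib.H79ROEeTwo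

theorem nn_top {G : Type*} [Group G] (P : Subgroup G) :
    NN (⊤ : Subgroup G) P ⊥ = Subgroup.normalizer (P : Set G) := by
  unfold NN
  rw [sup_bot_eq, top_inf_eq]

/-- Let G be a finite solvable group, P a Sylow 2-subgroup and N its normalizer. Then G and N have the same number of real-valued irreducible characters of odd degree; and every odd-degree irreducible character of G is real-valued exactly when the derived subgroup of P equals the Frattini subgroup of P and P is its own normalizer in G. -/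
theorem result {G : Type*} [Group G] [Finite G] [Group.IsSolvable G] (P : Sylow 2 G) :
    Nat.card {χ : Cfsg.IrrCharacter G // (∀ g : G, ((χ : G → ℂ) g).im = 0) ∧ Odd (Cfsg.charDegree (χ : G → ℂ))} =
      Nat.card {ψ : Cfsg.IrrCharacter (Subgroup.normalizer ((P : Subgroup G) : Set G)) // (∀ g, ((ψ : Subgroup.normalizer ((P : Subgroup G) : Set G) → ℂ) g).im = 0) ∧ Odd (Cfsg.charDegree (ψ : Subgroup.normalizer ((P : Subgroup G) : Set G) → ℂ))} ∧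
    ((∀ χ : Cfsg.IrrCharacter G, Odd (Cfsg.charDegree (χ : G → ℂ)) → ∀ g : G, ((χ : G → ℂ) g).im = 0) ↔
      (commutator (P : Subgroup G) = frattini (P : Subgroup G) ∧ Subgroup.normalizer ((P : Subgroup G) : Set G) = (P : Subgroup G))) := by
  classical
  haveI : Fintype G := Fintype.ofFinite G
  have hc := cfg_top P
  have hlin : IsLin (⊤ : Subgroup G) (fun _ => (1 : ℂ)) := ⟨rfl, fun _ _ _ _ => by simp⟩
  have h2 : TwoPow (⊤ : Subgroup G) (fun _ => (1 : ℂ)) := ⟨0, fun _ _ => by simp⟩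
  have htr : Triv (⊥ : Subgroup G) (fun _ => (1 : ℂ)) := fun _ _ => rfl
  constructor
  · rw [top_card, sub_card, ← nn_top (P : Subgroup G)]
    exact main1 _ ⊤ ⊥ (P : Subgroup G) _ rfl hc hlin h2 htr
  · rw [← realAll_top, ← ea_bot (P : Subgroup G) P.isPGroup']
    have hsn : SN (⊤ : Subgroup G) (P : Subgroup G) ⊥ ↔
        Subgroup.normalizer ((P : Subgroup G) : Set G) = (P : Subgroup G) := by
      unfold SN
      rw [nn_top, sup_bot_eq]
      exact ⟨fun h => le_antisymm h Subgroup.le_normalizer, fun h => h.le⟩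
    rw [← hsn]
    constructor
    · intro h
      exact (p2b _ ⊤ ⊥ (P : Subgroup G) rfl hc h).symm
    · rintro ⟨hea, hs⟩
      exact p2a _ ⊤ ⊥ (P : Subgroup G) rfl hc hs hea

end Cfsg.Agent.S4581
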