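import Cfsg.Statements.S4582
import Mathlib
-- import your own Cfsg.Agent.* helpers here

set_option autoImplicit false
open Cfsg

namespace Cfsg.Agent.S4582

open scoped commutatorElement
open Subgroup Subgroup.leftTransversals MonoidHom

theorem transfer_sq {G : Type*} [Group G] (P : Subgroup G) [P.FiniteIndex] (N : Subgroup G) [N.Normal]
    (hNP : ∀ g : G, ∃ n ∈ N, ∃ y ∈ P, g = n * y) {A : Type*} [CommGroup A] (ϕ : P →* A)
    (hϕ : ∀ q : P, (q : G) ∈ N → ϕ q ^ 2 = 1) (x : P) :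
    (transfer ϕ (x : G)) ^ 2 = (ϕ x ^ 2) ^ P.index := by
  classical
  have hex : ∀ q : G ⧸ P, ∃ n : G, n ∈ N ∧ (n : G ⧸ P) = q := by
    intro q
    obtain ⟨g, rfl⟩ := QuotientGroup.mk_surjective q
    obtain ⟨n, hn, y, hy, rfl⟩ := hNP g
    refine ⟨n, hn, ?_⟩
    rw [QuotientGroup.eq]
    simpa using hy
  choose f hfN hf using hex
  let T : P.LeftTransversal := ⟨Set.range f, isComplement_range_left hf⟩
  rw [transfer_def ϕ T]
  unfold diff
  simp only
  let := P.fintypeQuotientOfFiniteIndex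
  rw [← Finset.prod_pow]
  have : ∀ q : G ⧸ P, (ϕ ⟨((T.2.leftQuotientEquiv q : G))⁻¹ * (((x : G) • T).2.leftQuotientEquiv q : G),
        QuotientGroup.leftRel_apply.mp <|
          Quotient.exact' ((T.2.leftQuotientEquiv.symm_apply_apply q).trans
            ((((x : G) • T).2.leftQuotientEquiv).symm_apply_apply q).symm)⟩) ^ 2 = ϕ x ^ 2 := by
    intro q
    set y : P := ⟨((T.2.leftQuotientEquiv q : G))⁻¹ * (((x : G) • T).2.leftQuotientEquiv q : G),
        QuotientGroup.leftRel_apply.mp <|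
          Quotient.exact' ((T.2.leftQuotientEquiv.symm_apply_apply q).trans
            ((((x : G) • T).2.leftQuotientEquiv).symm_apply_apply q).symm)⟩ with hy
    have h1 : (T.2.leftQuotientEquiv q : G) = f q := IsComplement.leftQuotientEquiv_apply hf q
    have h2 : (((x : G) • T).2.leftQuotientEquiv q : G) = (x : G) * f ((x : G)⁻¹ • q) := by
      rw [smul_apply_eq_smul_apply_inv_smul, smul_eq_mul]
      congr 1
      exact IsComplement.leftQuotientEquiv_apply hf _
    have hyv : (y : G) = (f q)⁻¹ * ((x : G) * f ((x : G)⁻¹ • q)) := by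
      rw [hy]; simp only [h1, h2]
    have hz : ((y * x⁻¹ : P) : G) ∈ N := by
      rw [Subgroup.coe_mul, hyv, Subgroup.coe_inv]
      have h3 : (x : G) * f ((x : G)⁻¹ • q) * (x : G)⁻¹ ∈ N := ‹N.Normal›.conj_mem _ (hfN _) _
      have h4 := N.mul_mem (N.inv_mem (hfN q)) h3
      simpa [mul_assoc] using h4
    have h5 : ϕ y = ϕ (y * x⁻¹) * ϕ x := by rw [← map_mul]; simp
    rw [h5, mul_pow, hϕ _ hz, one_mul]
  rw [Finset.prod_congr rfl (fun q _ => this q)]
  rw [Finset.prod_const, Finset.card_univ, Subgroup.index_eq_card, Nat.card_eq_fintype_card]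

theorem eq_one_of_pow_odd {A : Type*} [Group A] (hA : IsPGroup 2 A) (a : A) (m : ℕ) (hm : Odd m)
    (h : a ^ m = 1) : a = 1 := by
  obtain ⟨k, hk⟩ := hA a
  have h1 : orderOf a ∣ m := orderOf_dvd_of_pow_eq_one h
  have h2 : orderOf a ∣ 2 ^ k := orderOf_dvd_of_pow_eq_one hk
  have hc : Nat.Coprime m (2 ^ k) := (Nat.Coprime.pow_right k (Nat.coprime_two_right.mpr hm))
  have h3 : orderOf a = 1 := Nat.eq_one_of_dvd_coprimes hc h1 h2
  exact orderOf_eq_one_iff.mp h3

/-- Let N be a normal subgroup of the finite group G, P a Sylow 2-subgroup of G and Q = P ∩ N. Suppose that P/QP' and Q/Q' are elementary abelian (every square of an element of P lies in the subgroup generated by Q and the derived subgroup of P, and every square of an element of Q lies in the derived subgroup of Q), and that the commutator factor group N/N' has odd order. Then P/P' is elementary abelian. -/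
theorem result {G : Type*} [Group G] [Finite G] (N : Subgroup G) [N.Normal] (P : Sylow 2 G)
    (hP : ∀ x ∈ (P : Subgroup G), x ^ 2 ∈ ((P : Subgroup G) ⊓ N) ⊔ ⁅(P : Subgroup G), (P : Subgroup G)⁆)
    (hQ : ∀ x ∈ (P : Subgroup G) ⊓ N, x ^ 2 ∈ ⁅(P : Subgroup G) ⊓ N, (P : Subgroup G) ⊓ N⁆)
    (hodd : Odd (Nat.card (Abelianization N))) :
    ∀ x ∈ (P : Subgroup G), x ^ 2 ∈ ⁅(P : Subgroup G), (P : Subgroup G)⁆ := by
  intro x hx
  set P' : Subgroup G := (P : Subgroup G) with hP'
  set H : Subgroup G := N ⊔ P' with hH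
  have hPH : P' ≤ H := le_sup_right
  have hNH : N ≤ H := le_sup_left
  set P₁ : Subgroup H := P'.subgroupOf H with hP₁
  set N₁ : Subgroup H := N.subgroupOf H with hN₁
  let e : P₁ ≃* P' := Subgroup.subgroupOfEquivOfLe hPH
  let ϕ : P₁ →* Abelianization P' := Abelianization.of.comp e.toMonoidHom
  have hA2 : IsPGroup 2 (Abelianization P') := P.2.to_quotient _
  have hof : ∀ y : P', (y : G) ∈ ⁅P', P'⁆ ↔ Abelianization.of y = 1 := by
    intro y
    rw [← MonoidHom.mem_ker, Abelianization.ker_of, ← Subgroup.map_subtype_commutator]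
    constructor
    · rintro ⟨z, hz, hzy⟩
      have : z = y := Subtype.ext hzy
      exact this ▸ hz
    · intro hy
      exact ⟨y, hy, rfl⟩
  have hNP : ∀ g : H, ∃ n ∈ N₁, ∃ y ∈ P₁, g = n * y := by
    intro g
    have hg : (g : G) ∈ ((N ⊔ P' : Subgroup G) : Set G) := g.2
    rw [Subgroup.normal_mul, Set.mem_mul] at hg
    obtain ⟨n, hn, y, hy, hny⟩ := hg
    exact ⟨⟨n, hNH hn⟩, hn, ⟨y, hPH hy⟩, hy, Subtype.ext hny.symm⟩
  have hϕ : ∀ q : P₁, (q : H) ∈ N₁ → ϕ q ^ 2 = 1 := by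
    intro q hq
    show Abelianization.of (e q) ^ 2 = 1
    rw [← map_pow, ← hof]
    have h1 : ((q : H) : G) ∈ P' ⊓ N := ⟨q.2, hq⟩
    have h2 := hQ _ h1
    exact Subgroup.commutator_mono inf_le_left inf_le_left h2
  let V : H →* Abelianization P' := transfer ϕ
  have hVN : ∀ n : G, ∀ hn : n ∈ N, V ⟨n, hNH hn⟩ = 1 := by
    intro n hn
    let f : N →* Abelianization P' := V.comp (Subgroup.inclusion hNH)
    have h1 : f ⟨n, hn⟩ ^ Nat.card (Abelianization N) = 1 := by
      rw [← Abelianization.lift_apply_of f, ← map_pow, pow_card_eq_one', map_one]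
    exact eq_one_of_pow_odd hA2 _ _ hodd h1
  have hK : (P' ⊓ N) ⊔ ⁅P', P'⁆ ≤ V.ker.map H.subtype := by
    rw [sup_le_iff]
    constructor
    · intro n hn
      exact ⟨⟨n, hNH hn.2⟩, hVN n hn.2, rfl⟩
    · rw [Subgroup.commutator_le]
      intro a ha b hb
      refine ⟨⁅(⟨a, hPH ha⟩ : H), (⟨b, hPH hb⟩ : H)⁆, ?_, rfl⟩
      rw [SetLike.mem_coe, MonoidHom.mem_ker, map_commutatorElement,
        commutatorElement_eq_one_iff_mul_comm, mul_comm]
  let x₁ : P₁ := ⟨⟨x, hPH hx⟩, hx⟩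
  have hV2 : V (x₁ : H) ^ 2 = 1 := by
    obtain ⟨z, hz, hzx⟩ := hK (hP x hx)
    rw [← map_pow]
    have : z = (x₁ : H) ^ 2 := Subtype.ext hzx
    rw [← this]
    exact hz
  have key := transfer_sq P₁ N₁ hNP ϕ hϕ x₁
  rw [hV2] at key
  have hidx : Odd P₁.index := by
    have h1 : P₁.index ∣ P'.index := ⟨_, (Subgroup.relIndex_mul_index hPH).symm⟩
    have h2 : ¬ 2 ∣ P'.index := P.not_dvd_index
    rw [← Nat.not_even_iff_odd, even_iff_two_dvd]
    exact fun h => h2 (h.trans h1)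
  have h3 := eq_one_of_pow_odd hA2 _ _ hidx key.symm
  have h4 : Abelianization.of ((e x₁) ^ 2) = 1 := by rw [map_pow]; exact h3
  rw [← hof] at h4
  exact h4

end Cfsg.Agent.S4582
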