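import Cfsg.Statements.S4584
import Cfsg.Agent.Lib.Helper79PGroup
-- import your own Cfsg.Agent.* helpers here

set_option autoImplicit false
open Cfsg

namespace Cfsg.Agent.S4584

open Cfsg.Agent.Lib.Helper79PGroup

theorem card_pow_of_subgroup {P : Type*} [Group P] [Finite P] (p : ℕ) [Fact p.Prime] {n : ℕ}
    (hP : Nat.card P = p ^ n) (H : Subgroup P) : ∃ k ≤ n, Nat.card H = p ^ k :=
  (Nat.dvd_prime_pow Fact.out).1 (hP ▸ Subgroup.card_subgroup_dvd_card H)

theorem backward {P : Type*} [Group P] [Finite P] (p : ℕ) [Fact p.Prime] (hP : Nat.card P = p ^ 4)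
    (hZ : (Subgroup.center P).index = p ^ 2) : Nat.card (commutator P) = p := by
  have hp : p.Prime := Fact.out
  have hp1 := hp.one_lt
  have hPG : IsPGroup p P := IsPGroup.of_card hP
  have hcZ : Nat.card (Subgroup.center P) = p ^ 2 := by
    have h := (Subgroup.center P).card_mul_index
    rw [hZ, hP] at h
    have : Nat.card (Subgroup.center P) * p ^ 2 = p ^ 2 * p ^ 2 := by rw [h]; ring
    exact Nat.eq_of_mul_eq_mul_right (by positivity) this
  have hne : Subgroup.center P ≠ ⊤ := by
    intro h
    rw [h, Subgroup.index_top] at hZ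
    have : 1 < p ^ 2 := Nat.one_lt_pow (by norm_num) hp1
    omega
  obtain ⟨a, ha⟩ : ∃ a : P, a ∉ Subgroup.center P := by
    by_contra hcon
    push Not at hcon
    exact hne (eq_top_iff.mpr fun x _ => hcon x)
  set A := Subgroup.center P ⊔ Subgroup.zpowers a with hAdef
  have hAcomm : IsMulCommutative A := by
    have h1 : A = Subgroup.closure ((Subgroup.center P : Set P) ∪ {a}) := by
      rw [Subgroup.closure_union, Subgroup.closure_eq, ← Subgroup.zpowers_eq_closure]
    rw [h1]
    apply Subgroup.isMulCommutative_closure
    intro x hx y hy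
    rcases hx with hx | hx
    · exact (Subgroup.mem_center_iff.mp hx y).symm
    · rcases hy with hy | hy
      · exact Subgroup.mem_center_iff.mp hy x
      · rw [Set.mem_singleton_iff.mp hx, Set.mem_singleton_iff.mp hy]
  have hZA : Subgroup.center P ≤ A := le_sup_left
  have haA : a ∈ A := le_sup_right (a := Subgroup.center P) (Subgroup.mem_zpowers a)
  obtain ⟨k, hk4, hk⟩ := card_pow_of_subgroup p hP A
  have hk2 : 2 < k := by
    by_contra hcon
    have h1 : Nat.card A ≤ Nat.card (Subgroup.center P) := by
      rw [hk, hcZ]; exact Nat.pow_le_pow_right hp.pos (by omega)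
    have := Subgroup.eq_of_le_of_card_ge hZA h1
    exact ha (this ▸ haA)
  have hk3 : k ≠ 4 := by
    rintro rfl
    have h1 : A = ⊤ := Subgroup.eq_top_of_card_eq A (by rw [hk, hP])
    apply ha
    rw [Subgroup.mem_center_iff]
    intro g
    exact comm_of_mem hAcomm (h1 ▸ Subgroup.mem_top g) haA
  have hk' : k = 3 := by omega
  subst hk'
  have hAidx : A.index = p := by
    have h := A.card_mul_index
    rw [hk, hP] at h
    have : p ^ 3 * A.index = p ^ 3 * p := by rw [h]; ring
    exact Nat.eq_of_mul_eq_mul_left (by positivity) this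
  have : A.Normal := normal_of_index_eq_prime hPG A hAidx
  obtain ⟨g, hg⟩ : ∃ g : P, g ∉ A := by
    by_contra hcon
    push Not at hcon
    have : A = ⊤ := eq_top_iff.mpr fun x _ => hcon x
    rw [this, Subgroup.index_top] at hAidx
    omega
  have key := card_eq_card_commutator_mul A hAcomm g (sup_zpowers_eq_top_of_index_prime hp hAidx hg)
  rw [inf_eq_right.mpr hZA, hk, hcZ] at key
  have : p * p ^ 2 = Nat.card (commutator P) * p ^ 2 := by rw [← key]; ring
  exact (Nat.eq_of_mul_eq_mul_right (by positivity) this).symm

theorem forward {P : Type*} [Group P] [Finite P] (p : ℕ) [Fact p.Prime] (hP : Nat.card P = p ^ 4)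
    (hc : Nat.card (commutator P) = p) : (Subgroup.center P).index = p ^ 2 := by
  have hp : p.Prime := Fact.out
  have hp1 := hp.one_lt
  have hPG : IsPGroup p P := IsPGroup.of_card hP
  have hcZ : commutator P ≤ Subgroup.center P :=
    le_center_of_normal_of_card_eq_prime hPG (commutator P) hc
  -- a non-central element
  obtain ⟨x, hx⟩ : ∃ x : P, x ∉ Subgroup.center P := by
    by_contra hcon
    push Not at hcon
    have h1 : commutator P = ⊥ := by
      rw [eq_bot_iff, commutator_eq_closure, Subgroup.closure_le]
      rintro _ ⟨a, b, rfl⟩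
      rw [SetLike.mem_coe, Subgroup.mem_bot, commutatorElement_eq_one_iff_mul_comm]
      exact (Subgroup.mem_center_iff.mp (hcon a) b).symm
    rw [h1, Subgroup.card_bot] at hc
    omega
  have hcen : ∀ y : P, y * x * y⁻¹ * x⁻¹ ∈ Subgroup.center P := fun y => hcZ (mem_commutator y x)
  set C := Subgroup.centralizer ({x} : Set P) with hCdef
  have hCidx : C.index = p := by
    have h1 : C.index ∣ p := by
      rw [hCdef, ← commHom_ker x hcen, Subgroup.index_ker, ← hc]
      exact Subgroup.card_dvd_of_le (commHom_range_le x hcen)
    rcases (Nat.dvd_prime hp).1 h1 with h2 | h2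
    · exfalso
      rw [Subgroup.index_eq_one] at h2
      apply hx
      rw [Subgroup.mem_center_iff]
      intro g
      have : g ∈ C := h2 ▸ Subgroup.mem_top g
      rw [hCdef, Subgroup.mem_centralizer_singleton_iff] at this
      exact this
    · exact h2
  have hCcard : Nat.card C = p ^ 3 := by
    have h := C.card_mul_index
    rw [hCidx, hP] at h
    have : Nat.card C * p = p ^ 3 * p := by rw [h]; ring
    exact Nat.eq_of_mul_eq_mul_right hp.pos this
  have hZC : Subgroup.center P ≤ C := by
    intro z hz
    rw [hCdef, Subgroup.mem_centralizer_singleton_iff]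
    exact (Subgroup.mem_center_iff.mp hz x).symm
  have hxC : x ∈ C := by
    rw [hCdef, Subgroup.mem_centralizer_singleton_iff]
  -- C is commutative
  have hCcomm : IsMulCommutative C := by
    have hle : (Subgroup.center P).subgroupOf C ≤ Subgroup.center C := by
      intro z hz
      rw [Subgroup.mem_subgroupOf] at hz
      rw [Subgroup.mem_center_iff]
      intro g
      exact Subtype.ext (Subgroup.mem_center_iff.mp hz g)
    have hxZ : (⟨x, hxC⟩ : C) ∈ Subgroup.center C := by
      rw [Subgroup.mem_center_iff]
      intro g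
      have : (g : P) ∈ Subgroup.centralizer ({x} : Set P) := g.2
      rw [Subgroup.mem_centralizer_singleton_iff] at this
      exact Subtype.ext this
    have : Nontrivial P := by
      refine ⟨⟨x, 1, ?_⟩⟩
      rintro rfl
      exact hx (Subgroup.one_mem _)
    have hZ1 : p ∣ Nat.card (Subgroup.center P) := by
      rcases (hPG.to_subgroup (Subgroup.center P)).card_eq_or_dvd with h1 | h1
      · have := hPG.bot_lt_center
        rw [Subgroup.card_eq_one.mp h1] at this
        exact absurd this (lt_irrefl _)
      · exact h1
    obtain ⟨k, hk3, hk⟩ := card_pow_of_subgroup p hCcard (Subgroup.center C)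
    have hk2 : 2 ≤ k := by
      by_contra hcon
      have h1 : Nat.card (Subgroup.center C) ≤ Nat.card ((Subgroup.center P).subgroupOf C) := by
        rw [Nat.card_congr (Subgroup.subgroupOfEquivOfLe hZC).toEquiv, hk]
        calc p ^ k ≤ p ^ 1 := Nat.pow_le_pow_right hp.pos (by omega)
          _ = p := pow_one p
          _ ≤ _ := Nat.le_of_dvd Nat.card_pos hZ1
      have h2 := Subgroup.eq_of_le_of_card_ge hle h1
      rw [← h2, Subgroup.mem_subgroupOf] at hxZ
      exact hx hxZ
    have hidx : Nat.card (C ⧸ Subgroup.center C) ∣ p := by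
      have h := (Subgroup.center C).card_mul_index
      rw [hk, hCcard] at h
      rw [← Subgroup.index_eq_card]
      have h3 : p ^ k * (Subgroup.center C).index = p ^ k * p ^ (3 - k) := by
        rw [h, ← pow_add]; congr 1; omega
      rw [Nat.eq_of_mul_eq_mul_left (by positivity) h3]
      calc p ^ (3 - k) ∣ p ^ 1 := pow_dvd_pow p (by omega)
        _ = p := pow_one p
    have := _root_.isCyclic_of_card_dvd_prime hidx
    exact isMulCommutative_of_isCyclic_quotient_center_self C
  have : C.Normal := normal_of_index_eq_prime hPG C hCidx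
  obtain ⟨g, hg⟩ : ∃ g : P, g ∉ C := by
    by_contra hcon
    push Not at hcon
    have : C = ⊤ := eq_top_iff.mpr fun x _ => hcon x
    rw [this, Subgroup.index_top] at hCidx
    omega
  have key := card_eq_card_commutator_mul C hCcomm g (sup_zpowers_eq_top_of_index_prime hp hCidx hg)
  rw [inf_eq_right.mpr hZC, hCcard, hc] at key
  have hZcard : Nat.card (Subgroup.center P) = p ^ 2 := by
    have : p * p ^ 2 = p * Nat.card (Subgroup.center P) := by rw [← key]; ring
    exact (Nat.eq_of_mul_eq_mul_left hp.pos this).symm
  have h := (Subgroup.center P).card_mul_index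
  rw [hZcard, hP] at h
  have : p ^ 2 * (Subgroup.center P).index = p ^ 2 * p ^ 2 := by rw [h]; ring
  exact Nat.eq_of_mul_eq_mul_left (by positivity) this

/-- Let p be a prime and P a group of order p^4. Then the derived subgroup P' has order p if and only if the centre Z(P) has index p^2 in P. -/
theorem result {P : Type*} [Group P] [Finite P] (p : ℕ) [Fact p.Prime] (hP : Nat.card P = p ^ 4) :
    Nat.card (commutator P) = p ↔ (Subgroup.center P).index = p ^ 2 := by
  exact ⟨forward p hP, backward p hP⟩

end Cfsg.Agent.S4584
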