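import Cfsg.Statements.S4585
import Cfsg.Agent.Lib.Helper79PGroup
import Cfsg.Agent.S4584
-- import your own Cfsg.Agent.* helpers here

set_option autoImplicit false
open Cfsg

namespace Cfsg.Agent.S4585

open Cfsg.Agent.Lib.Helper79PGroup
open scoped commutatorElement

theorem commutator_le_of_sup_zpowers {G : Type*} [Group G] (N : Subgroup G) [N.Normal]
    (A : Subgroup G) (g : G) (hg : A ⊔ Subgroup.zpowers g = ⊤)
    (hA : ∀ a ∈ A, ∀ x : G, ⁅a, x⁆ ∈ N) : commutator G ≤ N := by
  rw [← Subgroup.Normal.quotient_commutative_iff_commutator_le]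
  have hcl : Subgroup.closure ((QuotientGroup.mk' N) '' ((A : Set G) ∪ {g})) = ⊤ := by
    rw [← MonoidHom.map_closure, Subgroup.closure_union, Subgroup.closure_eq,
      ← Subgroup.zpowers_eq_closure, hg, ← MonoidHom.range_eq_map, MonoidHom.range_eq_top]
    exact QuotientGroup.mk'_surjective N
  have key : ∀ a ∈ A, ∀ x : G, (QuotientGroup.mk' N a) * (QuotientGroup.mk' N x) =
      (QuotientGroup.mk' N x) * (QuotientGroup.mk' N a) := by
    intro a ha x
    rw [← commutatorElement_eq_one_iff_mul_comm, ← map_commutatorElement, QuotientGroup.mk'_apply,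
      QuotientGroup.eq_one_iff]
    exact hA a ha x
  have hcomm : ∀ x ∈ ((QuotientGroup.mk' N) '' ((A : Set G) ∪ {g})),
      ∀ y ∈ ((QuotientGroup.mk' N) '' ((A : Set G) ∪ {g})), x * y = y * x := by
    rintro _ ⟨x, hx, rfl⟩ _ ⟨y, hy, rfl⟩
    rcases hx with hx | hx
    · exact key x hx y
    · rcases hy with hy | hy
      · exact (key y hy x).symm
      · rw [Set.mem_singleton_iff.mp hx, Set.mem_singleton_iff.mp hy]
  have := Subgroup.isMulCommutative_closure hcomm
  rw [hcl] at this
  exact ⟨⟨fun x y => by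
    have := this.is_comm.comm ⟨x, trivial⟩ ⟨y, trivial⟩
    simpa using congrArg Subtype.val this⟩⟩

theorem lcs_eq_bot_of_succ_eq {G : Type*} [Group G] [hG : Group.IsNilpotent G] (n : ℕ)
    (h : (⊤ : Subgroup G).lowerCentralSeries (n + 1) = (⊤ : Subgroup G).lowerCentralSeries n) :
    (⊤ : Subgroup G).lowerCentralSeries n = ⊥ := by
  have h1 : ∀ k, (⊤ : Subgroup G).lowerCentralSeries (n + k) = (⊤ : Subgroup G).lowerCentralSeries n := by
    intro k
    induction k with
    | zero => rfl
    | succ k ih =>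
      rw [← add_assoc, Subgroup.lowerCentralSeries_succ, ih, ← Subgroup.lowerCentralSeries_succ, h]
  obtain ⟨m, hm⟩ := Subgroup.nilpotent_iff_lowerCentralSeries.mp hG
  rw [← h1 m, eq_bot_iff, ← hm]
  exact Subgroup.lowerCentralSeries_antitone _ (Nat.le_add_left m n)

theorem lcs_card_lt {G : Type*} [Group G] [Finite G] [hG : Group.IsNilpotent G] (n : ℕ)
    (h : (⊤ : Subgroup G).lowerCentralSeries n ≠ ⊥) :
    Nat.card ((⊤ : Subgroup G).lowerCentralSeries (n + 1)) <
      Nat.card ((⊤ : Subgroup G).lowerCentralSeries n) := by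
  by_contra hcon
  push Not at hcon
  exact h (lcs_eq_bot_of_succ_eq n (Subgroup.eq_of_le_of_card_ge
    (Subgroup.lowerCentralSeries_antitone _ (Nat.le_succ n)) hcon))

theorem card_pow_of_subgroup {P : Type*} [Group P] [Finite P] (p : ℕ) [Fact p.Prime] {n : ℕ}
    (hP : Nat.card P = p ^ n) (H : Subgroup P) : ∃ k ≤ n, Nat.card H = p ^ k :=
  (Nat.dvd_prime_pow Fact.out).1 (hP ▸ Subgroup.card_subgroup_dvd_card H)

/-- Let p be a prime and P a group of order p^4. Then P' has index p^2 in P if and only if P has maximal nilpotency class, that is, nilpotency class exactly 3. -/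
theorem result {P : Type*} [Group P] [Finite P] (p : ℕ) [Fact p.Prime] (hP : Nat.card P = p ^ 4) :
    (commutator P).index = p ^ 2 ↔ Group.nilpotencyClass P = 3 := by
  have hp : p.Prime := Fact.out
  have hp1 := hp.one_lt
  have hPG : IsPGroup p P := IsPGroup.of_card hP
  have hnil : Group.IsNilpotent P := hPG.isNilpotent
  set γ := (⊤ : Subgroup P).lowerCentralSeries with hγ
  have hγ1 : γ 1 = commutator P := Subgroup.top_lowerCentralSeries_one
  have hpow : ∀ {a b : ℕ}, p ^ a < p ^ b → a < b := fun h => (Nat.pow_lt_pow_iff_right hp1).mp h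
  obtain ⟨k1, hk1, hc1⟩ := card_pow_of_subgroup p hP (γ 1)
  obtain ⟨k2, hk2, hc2⟩ := card_pow_of_subgroup p hP (γ 2)
  obtain ⟨k3, hk3, hc3⟩ := card_pow_of_subgroup p hP (γ 3)
  have hbot : ∀ (H : Subgroup P) (k : ℕ), Nat.card H = p ^ k → (H = ⊥ ↔ k = 0) := by
    intro H k hk
    rw [← Subgroup.card_eq_one, hk]
    constructor
    · intro h
      by_contra h0
      have : 1 < p ^ k := Nat.one_lt_pow h0 hp1
      omega
    · rintro rfl; rfl
  have hidx : (commutator P).index = p ^ (4 - k1) := by
    have h := (commutator P).card_mul_index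
    rw [← hγ1, hc1, hP] at h
    have h3 : p ^ k1 * (γ 1).index = p ^ k1 * p ^ (4 - k1) := by
      rw [h, ← pow_add]; congr 1; omega
    rw [← hγ1]
    exact Nat.eq_of_mul_eq_mul_left (by positivity) h3
  have hidx2 : (commutator P).index = p ^ 2 ↔ k1 = 2 := by
    rw [hidx]
    constructor
    · intro h
      have := Nat.pow_right_injective hp1 h
      omega
    · rintro rfl; rfl
  have hclass : Group.nilpotencyClass P = 3 ↔ (k3 = 0 ∧ k2 ≠ 0) := by
    rw [← hbot (γ 3) k3 hc3, Ne, ← hbot (γ 2) k2 hc2, hγ,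
      Subgroup.lowerCentralSeries_eq_bot_iff_nilpotencyClass_le,
      Subgroup.lowerCentralSeries_eq_bot_iff_nilpotencyClass_le]
    omega
  have hlt : ∀ n a b, Nat.card (γ n) = p ^ a → Nat.card (γ (n + 1)) = p ^ b → a ≠ 0 → b < a := by
    intro n a b ha hb h0
    have h1 : γ n ≠ ⊥ := fun h => h0 ((hbot _ _ ha).mp h)
    have h2 := lcs_card_lt n h1
    rw [← hγ, ha, hb] at h2
    exact hpow h2
  have h12 := hlt 1 k1 k2 hc1 hc2
  have h23 := hlt 2 k2 k3 hc2 hc3
  -- k1 is never 3, and never 4
  have hk1ne4 : k1 ≠ 4 := by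
    have hc0 : Nat.card (γ 0) = p ^ 4 := by
      rw [hγ, Subgroup.lowerCentralSeries_zero, Subgroup.card_top, hP]
    have := hlt 0 4 k1 hc0 hc1 (by norm_num)
    omega
  have hk1ne3 : k1 ≠ 3 := by
    intro h3
    have hi : (γ 1).index = p := by rw [hγ1, hidx, h3]; simp
    obtain ⟨g, hg⟩ : ∃ g : P, g ∉ γ 1 := by
      by_contra hcon
      push Not at hcon
      have : γ 1 = ⊤ := eq_top_iff.mpr fun x _ => hcon x
      rw [this, Subgroup.index_top] at hi
      omega
    have hsup := sup_zpowers_eq_top_of_index_prime hp hi hg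
    have hle : commutator P ≤ γ 2 := by
      apply commutator_le_of_sup_zpowers (γ 2) (γ 1) g hsup
      intro a ha x
      exact Subgroup.commutator_mem_commutator ha (Subgroup.mem_top x)
    have h4 := Subgroup.card_le_of_le hle
    rw [← hγ1, hc1, hc2] at h4
    have h5 := h12 (by omega)
    have := Nat.pow_lt_pow_right hp1 h5
    omega
  rw [hidx2, hclass]
  constructor
  · intro h2
    have hk2' : k2 ≠ 0 := by
      intro h0
      have hb : γ 2 = ⊥ := (hbot _ _ hc2).mpr h0
      have hcen : commutator P ≤ Subgroup.center P := by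
        rw [← Subgroup.commutator_top_right_eq_bot_iff_le_center, ← hγ1]
        exact hb
      have hdvd : (Subgroup.center P).index ∣ p ^ 2 := by
        have := Subgroup.index_dvd_of_le hcen
        rwa [hidx, h2] at this
      obtain ⟨j, hj, hj'⟩ := (Nat.dvd_prime_pow hp).1 hdvd
      have hcard1 : Nat.card (commutator P) = p ^ 2 := by rw [← hγ1, hc1, h2]
      have hj2 : j ≠ 2 := by
        rintro rfl
        have := (Cfsg.Agent.S4584.result p hP).mpr hj'
        rw [hcard1] at this
        have h6 : p ^ 1 < p ^ 2 := Nat.pow_lt_pow_right hp1 (by norm_num)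
        rw [pow_one] at h6
        omega
      have hcyc : Nat.card (P ⧸ Subgroup.center P) ∣ p := by
        rw [← Subgroup.index_eq_card, hj']
        calc p ^ j ∣ p ^ 1 := pow_dvd_pow p (by omega)
          _ = p := pow_one p
      have := _root_.isCyclic_of_card_dvd_prime hcyc
      have hcomm := isMulCommutative_of_isCyclic_quotient_center_self P
      have hbot' : commutator P = ⊥ := by
        rw [eq_bot_iff, commutator_eq_closure, Subgroup.closure_le]
        rintro _ ⟨a, b, rfl⟩
        rw [SetLike.mem_coe, Subgroup.mem_bot, commutatorElement_eq_one_iff_mul_comm]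
        exact hcomm.is_comm.comm a b
      rw [hbot', Subgroup.card_bot] at hcard1
      have : 1 < p ^ 2 := Nat.one_lt_pow (by norm_num) hp1
      omega
    have := h12 (by omega)
    have := h23 hk2'
    omega
  · rintro ⟨h3, h2⟩
    have hk1' : k1 ≠ 0 := by
      intro h0
      have hb : γ 1 = ⊥ := (hbot _ _ hc1).mpr h0
      have : γ 2 ≤ γ 1 := Subgroup.lowerCentralSeries_antitone _ (by norm_num)
      rw [hb, le_bot_iff] at this
      exact h2 ((hbot _ _ hc2).mp this)
    have := h12 hk1'
    omega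

end Cfsg.Agent.S4585
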