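import Cfsg.Statements.S4586
import Cfsg.Agent.Lib.Helper79PGroup
-- import your own Cfsg.Agent.* helpers here

set_option autoImplicit false
open Cfsg

namespace Cfsg.Agent.S4586

open Cfsg.Agent.Lib.Helper79PGroup
open scoped commutatorElement

theorem card_map_mk_mul {G : Type*} [Group G] [Finite G] (K : Subgroup G) [K.Normal] (H : Subgroup G)
    (hKH : K ≤ H) : Nat.card (H.map (QuotientGroup.mk' K)) * Nat.card K = Nat.card H := by
  have h1 := ((QuotientGroup.mk' K).domRestrict H).ker.card_mul_index
  rw [Subgroup.index_ker] at h1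
  have h2 : ((QuotientGroup.mk' K).domRestrict H).range = H.map (QuotientGroup.mk' K) := by
    ext y
    constructor
    · rintro ⟨x, rfl⟩
      exact ⟨x, x.2, rfl⟩
    · rintro ⟨x, hx, rfl⟩
      exact ⟨⟨x, hx⟩, rfl⟩
  have h3 : ((QuotientGroup.mk' K).domRestrict H).ker = K.subgroupOf H := by
    ext y
    rw [MonoidHom.mem_ker, Subgroup.mem_subgroupOf, MonoidHom.domRestrict_apply,
      QuotientGroup.mk'_apply, QuotientGroup.eq_one_iff]
  rw [h2, h3, Nat.card_congr (Subgroup.subgroupOfEquivOfLe hKH).toEquiv] at h1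
  rw [mul_comm]; exact h1

/-- key formula -/
theorem key {G : Type*} [Group G] [Finite G] (N : Subgroup G) [N.Normal] (x : G)
    (hx : N ⊔ Subgroup.zpowers x = ⊤) :
    Nat.card N * Nat.card (⁅N, N⁆ : Subgroup G) =
      Nat.card (commutator G) * Nat.card {n : N // x * n * x⁻¹ * (n : G)⁻¹ ∈ ⁅N, N⁆} := by
  set K : Subgroup G := ⁅N, N⁆ with hK
  have hKN : K ≤ N := Subgroup.commutator_le_self N
  set f := QuotientGroup.mk' K with hf
  have hfs : Function.Surjective f := QuotientGroup.mk'_surjective K
  set A := N.map f with hA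
  have hAn : A.Normal := Subgroup.Normal.map inferInstance f hfs
  have hAc : IsMulCommutative A := by
    refine ⟨⟨?_⟩⟩
    rintro ⟨_, a, ha, rfl⟩ ⟨_, b, hb, rfl⟩
    apply Subtype.ext
    show f a * f b = f b * f a
    rw [← commutatorElement_eq_one_iff_mul_comm, ← map_commutatorElement, hf,
      QuotientGroup.mk'_apply, QuotientGroup.eq_one_iff]
    exact Subgroup.commutator_mem_commutator ha hb
  have hsup : A ⊔ Subgroup.zpowers (f x) = ⊤ := by
    rw [hA, ← MonoidHom.map_zpowers, ← Subgroup.map_sup, hx, ← MonoidHom.range_eq_map,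
      MonoidHom.range_eq_top]
    exact hfs
  have h0 := card_eq_card_commutator_mul A hAc (f x) hsup
  have h1 : Nat.card A * Nat.card K = Nat.card N := card_map_mk_mul K N hKN
  have h2 : Nat.card (commutator (G ⧸ K)) * Nat.card K = Nat.card (commutator G) := by
    have : commutator (G ⧸ K) = (commutator G).map f := by
      rw [commutator_def, commutator_def, Subgroup.map_commutator, ← MonoidHom.range_eq_map,
        MonoidHom.range_eq_top.mpr hfs]
    rw [this]
    exact card_map_mk_mul K _ (Subgroup.commutator_mono le_top le_top)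
  set H := (A ⊓ Subgroup.center (G ⧸ K)).comap f with hH
  have h3 : Nat.card (A ⊓ Subgroup.center (G ⧸ K) : Subgroup (G ⧸ K)) * Nat.card K = Nat.card H := by
    have : (A ⊓ Subgroup.center (G ⧸ K)) = H.map f := by
      rw [hH, Subgroup.map_comap_eq_self_of_surjective hfs]
    rw [this]
    apply card_map_mk_mul
    intro k hk
    rw [hH, Subgroup.mem_comap]
    have : f k = 1 := by rw [hf, QuotientGroup.mk'_apply, QuotientGroup.eq_one_iff]; exact hk
    rw [this]; exact Subgroup.one_mem _
  have hmemN : ∀ g : G, f g ∈ A ↔ g ∈ N := by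
    intro g
    constructor
    · rintro ⟨n, hn, hng⟩
      rw [hf, QuotientGroup.mk'_apply, QuotientGroup.mk'_apply, QuotientGroup.eq] at hng
      have := N.mul_mem hn (hKN hng)
      simpa using this
    · intro hg; exact ⟨g, hg, rfl⟩
  have h4 : Nat.card H = Nat.card {n : N // x * n * x⁻¹ * (n : G)⁻¹ ∈ K} := by
    have hmem : ∀ g : G, g ∈ H ↔ ∃ hg : g ∈ N, x * g * x⁻¹ * g⁻¹ ∈ K := by
      intro g
      rw [hH, Subgroup.mem_comap, Subgroup.mem_inf, hmemN]
      constructor
      · rintro ⟨hg, hc⟩
        refine ⟨hg, ?_⟩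
        rw [← QuotientGroup.eq_one_iff, ← QuotientGroup.mk'_apply, ← hf]
        simp only [map_mul, map_inv]
        rw [Subgroup.mem_center_iff.mp hc (f x)]
        group
      · rintro ⟨hg, hc⟩
        refine ⟨hg, ?_⟩
        have hgA : f g ∈ A := (hmemN g).mpr hg
        have hk : (⟨f g, hgA⟩ : A) ∈ (commMap A hAc (f x)).ker := by
          rw [MonoidHom.mem_ker, commMap_apply]
          rw [← QuotientGroup.eq_one_iff, ← QuotientGroup.mk'_apply, ← hf] at hc
          simp only [map_mul, map_inv] at hc
          show f g * f x * (f g)⁻¹ * (f x)⁻¹ = 1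
          have : f g * f x * (f g)⁻¹ * (f x)⁻¹ = (f x * f g * (f x)⁻¹ * (f g)⁻¹)⁻¹ := by group
          rw [this, hc, inv_one]
        rw [commMap_ker A hAc (f x) hsup, Subgroup.mem_subgroupOf] at hk
        exact hk
    refine Nat.card_congr ⟨fun g => ⟨⟨g.1, ((hmem g.1).mp g.2).1⟩, ((hmem g.1).mp g.2).2⟩,
      fun n => ⟨n.1.1, (hmem n.1.1).mpr ⟨n.1.2, n.2⟩⟩, fun g => rfl, fun n => rfl⟩
  rw [← h4, ← h3, ← h2, ← h1, h0]
  ring

theorem main {P : Type*} [Group P] [Finite P] (p : ℕ) [Fact p.Prime] (N : Subgroup P) [N.Normal]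
    (hN : N.index = p) (x : P) (hx : x ∉ N) :
    (commutator P).index = p ^ 2 ↔
      Nat.card {n : N // x * n * x⁻¹ * (n : P)⁻¹ ∈ (commutator N).map N.subtype} =
        p * Nat.card (commutator N) := by
  have hp : p.Prime := Fact.out
  have hk := key N x (sup_zpowers_eq_top_of_index_prime hp hN hx)
  rw [← Subgroup.map_subtype_commutator] at hk
  have ha : Nat.card ((commutator N).map N.subtype) = Nat.card (commutator N) :=
    Subgroup.card_map_of_injective N.subtype_injective
  rw [ha] at hk
  set c := Nat.card {n : N // x * n * x⁻¹ * (n : P)⁻¹ ∈ (commutator N).map N.subtype} with hc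
  set a := Nat.card (commutator N) with ha'
  have h1 := N.card_mul_index
  have h2 := (commutator P).card_mul_index
  rw [hN] at h1
  have hpos : 0 < Nat.card (commutator P) := Nat.card_pos
  have hapos : 0 < a := Nat.card_pos
  have h3 : (commutator P).index * a = p * c := by
    apply Nat.eq_of_mul_eq_mul_left hpos
    calc Nat.card (commutator P) * ((commutator P).index * a)
        = (Nat.card (commutator P) * (commutator P).index) * a := by ring
      _ = (Nat.card N * p) * a := by rw [h2, h1]
      _ = p * (Nat.card N * a) := by ring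
      _ = p * (Nat.card (commutator P) * c) := by rw [hk]
      _ = _ := by ring
  constructor
  · intro h
    rw [h] at h3
    apply Nat.eq_of_mul_eq_mul_left hp.pos
    rw [← h3]; ring
  · intro h
    rw [h] at h3
    apply Nat.eq_of_mul_eq_mul_right hapos
    rw [h3]; ring

/-- Let p be a prime, P a finite p-group and N a normal subgroup of P of index p. For x ∈ P write c(x) for the number of elements n of N whose commutator x n x⁻¹ n⁻¹ lies in the derived subgroup N' (so c(x)/#N' is the order of the centralizer of x acting on N/N'). Then [P : P'] = p² if and only if c(x) = p·#N' for every x ∈ P outside N, and also if and only if c(x) = p·#N' for some x ∈ P outside N. -/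
theorem result {P : Type*} [Group P] [Finite P] (p : ℕ) [Fact p.Prime] (hP : IsPGroup p P) (N : Subgroup P) [N.Normal] (hN : N.index = p) :
    ((commutator P).index = p ^ 2 ↔ ∀ x : P, x ∉ N →
        Nat.card {n : N // x * n * x⁻¹ * (n : P)⁻¹ ∈ (commutator N).map N.subtype} = p * Nat.card (commutator N)) ∧
    ((commutator P).index = p ^ 2 ↔ ∃ x : P, x ∉ N ∧
        Nat.card {n : N // x * n * x⁻¹ * (n : P)⁻¹ ∈ (commutator N).map N.subtype} = p * Nat.card (commutator N)) := by
  have hp : p.Prime := Fact.out
  obtain ⟨x₀, hx₀⟩ : ∃ g : P, g ∉ N := by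
    by_contra hcon
    push Not at hcon
    have : N = ⊤ := eq_top_iff.mpr fun x _ => hcon x
    rw [this, Subgroup.index_top] at hN
    exact hp.one_lt.ne hN
  refine ⟨⟨fun h x hx => (main p N hN x hx).mp h, fun h => (main p N hN x₀ hx₀).mpr (h x₀ hx₀)⟩,
    ⟨fun h => ⟨x₀, hx₀, (main p N hN x₀ hx₀).mp h⟩, fun ⟨x, hx, h⟩ => (main p N hN x hx).mpr h⟩⟩

end Cfsg.Agent.S4586
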