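import Cfsg.Statements.S4601
import Mathlib
import Cfsg.Agent.Lib.Helper80PSolv

set_option autoImplicit false
open Cfsg

namespace Cfsg.Agent.S4601

open Cfsg.Agent.Lib.Helper80PSolv Cfsg.Agent.Lib.Helper60Core Cfsg.Agent.Lib.Helper60Sylow
  Cfsg.Agent.Lib.Helper40Sylow

universe u

theorem hyp_quotient {G : Type*} [Group G] [Finite G] (p q : ℕ) [Fact q.Prime] (N : Subgroup G)
    [N.Normal]
    (h : ∀ y : G, (∃ k : ℕ, orderOf y = q ^ k) → ¬ p ∣ (Subgroup.centralizer ({y} : Set G)).index) :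
    ∀ y : G ⧸ N, (∃ k : ℕ, orderOf y = q ^ k) →
      ¬ p ∣ (Subgroup.centralizer ({y} : Set (G ⧸ N))).index := by
  rintro y ⟨k, hk⟩ hd
  let f := QuotientGroup.mk' N
  have hf : Function.Surjective f := QuotientGroup.mk'_surjective N
  have hD : IsPGroup q (Subgroup.zpowers y) := IsPGroup.of_card (n := k) (by rw [Nat.card_zpowers, hk])
  obtain ⟨R, hR, hRD⟩ := exists_pgroup_lift hf _ hD
  have hy : y ∈ R.map f := by rw [hRD]; exact Subgroup.mem_zpowers y
  obtain ⟨x, hx, rfl⟩ := hy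
  obtain ⟨j, hj⟩ := IsPGroup.iff_orderOf.mp hR ⟨x, hx⟩
  have hxo : orderOf x = q ^ j := by rw [← hj]; exact (Subgroup.orderOf_mk x hx).symm
  apply h x ⟨j, hxo⟩
  have hle : (Subgroup.centralizer ({x} : Set G)).map f ≤ Subgroup.centralizer ({f x} : Set (G ⧸ N)) := by
    rintro _ ⟨c, hc, rfl⟩
    replace hc : c ∈ Subgroup.centralizer ({x} : Set G) := hc
    rw [Subgroup.mem_centralizer_singleton_iff] at hc ⊢
    rw [← map_mul, ← map_mul, hc]
  exact (hd.trans (Subgroup.index_dvd_of_le hle)).trans (Subgroup.index_map_dvd _ hf)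

theorem cj_normal {G : Type*} [Group G] (N : Subgroup G) [hN : N.Normal] (g : G) : cj g N = N :=
  mem_normalizer_iff_cj.mp (by rw [Subgroup.normalizer_eq_top]; exact Subgroup.mem_top g)

theorem exists_sylowIn_centralized {G : Type*} [Group G] [Finite G] (p q : ℕ) [Fact p.Prime]
    [Fact q.Prime] (N : Subgroup G) [N.Normal] (hN : (Nat.card N).Coprime q)
    (h : ∀ y : G, (∃ k : ℕ, orderOf y = q ^ k) → ¬ p ∣ (Subgroup.centralizer ({y} : Set G)).index)
    (Q : Sylow q G) :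
    ∃ S : Subgroup G, IsSylowIn p S N ∧ S ≤ Subgroup.centralizer ((Q : Subgroup G) : Set G) := by
  have hq : q.Prime := Fact.out
  obtain ⟨P₀⟩ : Nonempty (Sylow p N) := inferInstance
  set S₀ : Subgroup G := (P₀ : Subgroup N).map N.subtype with hS₀
  have hS₀syl : IsSylowIn p S₀ N := isSylowIn_of_sylow P₀
  have hF : Subgroup.normalizer (S₀ : Set G) ⊔ N = ⊤ := Sylow.normalizer_sup_eq_top P₀
  have hidx : ¬ q ∣ (Subgroup.normalizer (S₀ : Set G)).index := by
    rw [index_eq_relIndex_of_sup_eq_top hF]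
    intro hd
    have h1 : q ∣ Nat.card N := hd.trans (Subgroup.relIndex_dvd_card _ _)
    have h2 : q ∣ Nat.gcd (Nat.card N) q := Nat.dvd_gcd h1 dvd_rfl
    rw [hN] at h2
    exact hq.one_lt.ne' (Nat.dvd_one.mp h2)
  obtain ⟨Q₁, hQ₁⟩ := exists_sylow_le_of_not_dvd_index hidx
  obtain ⟨g, hg⟩ := MulAction.exists_smul_eq G Q₁ Q
  set S := cj g S₀ with hS
  have hSsyl : IsSylowIn p S N := by
    have := hS₀syl.cj g
    rwa [cj_normal N g] at this
  have hQS : (Q : Subgroup G) ≤ Subgroup.normalizer (S : Set G) := by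
    rw [← hg, sylow_smul_eq_cj, hS, normalizer_cj]
    exact cj_mono hQ₁
  refine ⟨S, hSsyl, ?_⟩
  rw [Subgroup.le_centralizer_iff]
  intro y hy
  -- y is a q-element
  obtain ⟨k, hk⟩ := IsPGroup.iff_orderOf.mp Q.2 ⟨y, hy⟩
  have hyo : orderOf y = q ^ k := by rw [← hk]; exact (Subgroup.orderOf_mk y hy).symm
  obtain ⟨Py, hPy⟩ := exists_sylow_le_of_not_dvd_index (h y ⟨k, hyo⟩)
  have hSy : IsSylowIn p ((Py : Subgroup G) ⊓ N) N :=
    (isSylowIn_top Py).inf_normal le_top (by rw [Subgroup.normalizer_eq_top])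
  obtain ⟨n, hn, hnS⟩ := hSsyl.exists_conj_eq hSy
  -- y' = n y n⁻¹ centralizes S
  have hy'C : n * y * n⁻¹ ∈ Subgroup.centralizer (S : Set G) := by
    rw [Subgroup.mem_centralizer_iff]
    intro s hs
    have hs' : s ∈ cj n ((Py : Subgroup G) ⊓ N) := by rw [hnS]; exact hs
    rw [mem_cj] at hs'
    have h1 := hPy hs'.1
    rw [Subgroup.mem_centralizer_singleton_iff] at h1
    -- h1 : (n⁻¹ s n) * y = y * (n⁻¹ s n)
    have e1 : s * (n * y * n⁻¹) = n * ((n⁻¹ * s * n) * y) * n⁻¹ := by group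
    have e2 : n * y * n⁻¹ * s = n * (y * (n⁻¹ * s * n)) * n⁻¹ := by group
    rw [e1, e2, h1]
  have hy'N : n * y * n⁻¹ ∈ Subgroup.normalizer (S : Set G) :=
    Subgroup.centralizer_le_normalizer _ hy'C
  have hyN : y ∈ Subgroup.normalizer (S : Set G) := hQS hy
  have hcN : n * y * n⁻¹ * y⁻¹ ∈ N := by
    have : n * y * n⁻¹ * y⁻¹ = n * (y * n⁻¹ * y⁻¹) := by group
    rw [this]
    exact N.mul_mem hn (‹N.Normal›.conj_mem _ (N.inv_mem hn) y)
  let φ := S.normalizerMonoidHom
  let y₁ : Subgroup.normalizer (S : Set G) := ⟨y, hyN⟩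
  let y₂ : Subgroup.normalizer (S : Set G) := ⟨n * y * n⁻¹, hy'N⟩
  have hφ2 : φ y₂ = 1 := by
    rw [← MonoidHom.mem_ker, Subgroup.normalizerMonoidHom_ker, Subgroup.mem_subgroupOf]
    exact hy'C
  have hφ : φ y₁ = (φ (y₂ * y₁⁻¹))⁻¹ := by
    rw [map_mul, hφ2, one_mul, map_inv, inv_inv]
  have ho1 : orderOf (φ y₁) ∣ q ^ k := by
    have := orderOf_map_dvd φ y₁
    rwa [Subgroup.orderOf_mk, hyo] at this
  have ho2 : orderOf (φ y₁) ∣ Nat.card N := by
    rw [hφ, orderOf_inv]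
    refine (orderOf_map_dvd φ _).trans ?_
    have e : orderOf (y₂ * y₁⁻¹) = orderOf (⟨n * y * n⁻¹ * y⁻¹, hcN⟩ : N) := by
      rw [← Subgroup.orderOf_coe, ← Subgroup.orderOf_coe]
      rfl
    rw [e]
    exact orderOf_dvd_natCard _
  have ho : orderOf (φ y₁) = 1 :=
    Nat.dvd_one.mp ((Nat.Coprime.pow_right k hN) ▸ Nat.dvd_gcd ho2 ho1)
  rw [orderOf_eq_one_iff, ← MonoidHom.mem_ker, Subgroup.normalizerMonoidHom_ker,
    Subgroup.mem_subgroupOf] at ho
  exact ho

theorem step {G : Type*} [Group G] [Finite G] (p q : ℕ) [Fact p.Prime] [Fact q.Prime]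
    (N : Subgroup G) [N.Normal]
    (hN : (Nat.card N).Coprime p ∨ (Nat.card N).Coprime q)
    (h : ∀ y : G, (∃ k : ℕ, orderOf y = q ^ k) → ¬ p ∣ (Subgroup.centralizer ({y} : Set G)).index)
    (hquot : ∀ Q' : Sylow q (G ⧸ N),
      ¬ p ∣ (Subgroup.normalizer ((Q' : Subgroup (G ⧸ N)) : Set (G ⧸ N))).index)
    (Q : Sylow q G) : ¬ p ∣ (Subgroup.normalizer ((Q : Subgroup G) : Set G)).index := by
  have hp : p.Prime := Fact.out
  let f := QuotientGroup.mk' N
  have hf : Function.Surjective f := QuotientGroup.mk'_surjective N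
  let Q' : Sylow q (G ⧸ N) := Q.mapSurjective hf
  have hQ' : (Q' : Subgroup (G ⧸ N)) = (Q : Subgroup G).map f := Sylow.coe_mapSurjective _ _
  set H := Subgroup.normalizer ((Q : Subgroup G) : Set G) with hH
  have hQH : (Q : Subgroup G) ≤ H := Subgroup.le_normalizer
  have hfr : (Subgroup.normalizer ((Q' : Subgroup (G ⧸ N)) : Set (G ⧸ N))).comap f ≤ H ⊔ N := by
    intro g hg
    rw [Subgroup.mem_comap] at hg
    set L : Subgroup G := (Q : Subgroup G) ⊔ N with hL
    have hLc : L = (Q' : Subgroup (G ⧸ N)).comap f := by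
      rw [hQ', Subgroup.comap_map_eq, QuotientGroup.ker_mk']
    have h1 : IsSylowIn q (Q : Subgroup G) L := isSylowIn_of_le Q le_sup_left
    have h2 : IsSylowIn q (cj g (Q : Subgroup G)) L := by
      rw [← sylow_smul_eq_cj]
      apply isSylowIn_of_le
      rw [sylow_smul_eq_cj, hLc]
      rintro _ ⟨x, hx, rfl⟩
      rw [Subgroup.mem_comap]
      have hx' : f x ∈ (Q' : Subgroup (G ⧸ N)) := by rw [hQ']; exact ⟨x, hx, rfl⟩
      have := (Subgroup.mem_normalizer_iff.mp hg (f x)).mp hx'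
      simpa [MulAut.conj_apply] using this
    obtain ⟨x, hx, hxe⟩ := h1.exists_conj_eq h2
    rw [← cj_mul] at hxe
    have h3 : x * g ∈ H := mem_normalizer_iff_cj.mpr hxe
    have h4 : L ≤ H ⊔ N := sup_le (hQH.trans le_sup_left) le_sup_right
    have : g = x⁻¹ * (x * g) := by group
    rw [this]
    exact Subgroup.mul_mem _ (Subgroup.inv_mem _ (h4 hx)) (le_sup_left (a := H) h3)
  have h1 : ¬ p ∣ (H ⊔ N).index := by
    intro hd
    apply hquot Q'
    rw [← Subgroup.index_comap_of_surjective _ hf]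
    exact hd.trans (Subgroup.index_dvd_of_le hfr)
  have h2 : ¬ p ∣ H.relIndex N := by
    rcases hN with hN | hN
    · intro hd
      have h1 : p ∣ Nat.card N := hd.trans (Subgroup.relIndex_dvd_card _ _)
      have h2 : p ∣ Nat.gcd (Nat.card N) p := Nat.dvd_gcd h1 dvd_rfl
      rw [hN] at h2
      exact hp.one_lt.ne' (Nat.dvd_one.mp h2)
    · obtain ⟨S, hS, hSC⟩ := exists_sylowIn_centralized p q N hN h Q
      intro hd
      apply hS.2.2
      exact hd.trans (Subgroup.relIndex_dvd_of_le_left _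
        (hSC.trans (Subgroup.centralizer_le_normalizer _)))
  rw [← Subgroup.relIndex_mul_index (le_sup_left : H ≤ H ⊔ N), index_eq_relIndex_mul_of_normal]
  exact Nat.Prime.not_dvd_mul hp h2 h1

theorem main (p q : ℕ) [Fact p.Prime] [Fact q.Prime] (hpq : p ≠ q) :
    ∀ (n : ℕ) (G : Type u) [Group G] [Finite G], Nat.card G = n →
    (Cfsg.IsPSolvable p G ∨ Cfsg.IsPSolvable q G) →
    (∀ y : G, (∃ k : ℕ, orderOf y = q ^ k) → ¬ p ∣ (Subgroup.centralizer ({y} : Set G)).index) →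
    ∀ Q : Sylow q G, ¬ p ∣ (Subgroup.normalizer ((Q : Subgroup G) : Set G)).index := by
  have hp : p.Prime := Fact.out
  have hq : q.Prime := Fact.out
  intro n
  induction n using Nat.strong_induction_on with
  | _ n ih =>
    intro G _ _ hn hsolv h Q
    rcases subsingleton_or_nontrivial G with hG | hG
    · have : Subgroup.normalizer ((Q : Subgroup G) : Set G) = ⊤ := Subsingleton.elim _ _
      rw [this, Subgroup.index_top]
      exact hp.one_lt.ne' ∘ Nat.dvd_one.mp
    · have hex : ∃ N : Subgroup G, N.Normal ∧ N ≠ ⊥ ∧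
          ((Nat.card N).Coprime p ∨ (Nat.card N).Coprime q) := by
        rcases hsolv with hs | hs
        · obtain ⟨N, hN, hN1, ⟨m, hm⟩ | hc⟩ := exists_normal_of_isPSolvable hs
          · refine ⟨N, hN, hN1, Or.inr ?_⟩
            rw [hm]
            exact Nat.Coprime.pow_left m ((Nat.coprime_primes hp hq).mpr hpq)
          · exact ⟨N, hN, hN1, Or.inl hc⟩
        · obtain ⟨N, hN, hN1, ⟨m, hm⟩ | hc⟩ := exists_normal_of_isPSolvable hs
          · refine ⟨N, hN, hN1, Or.inl ?_⟩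
            rw [hm]
            exact Nat.Coprime.pow_left m ((Nat.coprime_primes hq hp).mpr hpq.symm)
          · exact ⟨N, hN, hN1, Or.inr hc⟩
      obtain ⟨N, hN, hN1, hNc⟩ := hex
      have hlt : Nat.card (G ⧸ N) < n := by
        rw [← hn, ← Subgroup.index_eq_card, ← Subgroup.card_mul_index N]
        have h1 : 1 < Nat.card N := by
          have : Nontrivial N := (Subgroup.nontrivial_iff_ne_bot N).mpr hN1
          exact Finite.one_lt_card
        have h2 : 0 < N.index := Nat.pos_of_ne_zero Subgroup.FiniteIndex.index_ne_zero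
        nlinarith
      have hsolv' : Cfsg.IsPSolvable p (G ⧸ N) ∨ Cfsg.IsPSolvable q (G ⧸ N) :=
        hsolv.imp (fun hs => isPSolvable_quotient hp hs N) (fun hs => isPSolvable_quotient hq hs N)
      exact step p q N hNc h (ih _ hlt (G ⧸ N) rfl hsolv' (hyp_quotient p q N h)) Q


/-- Let p and q be primes and G a finite group that is p-solvable or q-solvable, in which no q-element has conjugacy class size divisible by p. Then some Sylow p-subgroup of G normalizes some Sylow q-subgroup of G. -/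
theorem result {G : Type*} [Group G] [Finite G] (p q : ℕ) [Fact p.Prime] [Fact q.Prime] (hsolv : Cfsg.IsPSolvable p G ∨ Cfsg.IsPSolvable q G)
    (h : ∀ y : G, (∃ k : ℕ, orderOf y = q ^ k) → ¬ p ∣ (Subgroup.centralizer ({y} : Set G)).index) :
    ∃ (P : Sylow p G) (Q : Sylow q G), (P : Subgroup G) ≤ Subgroup.normalizer ((Q : Subgroup G) : Set G) := by
  by_cases hpq : p = q
  · subst hpq
    obtain ⟨P⟩ : Nonempty (Sylow p G) := inferInstance
    exact ⟨P, P, Subgroup.le_normalizer⟩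
  · obtain ⟨Q⟩ : Nonempty (Sylow q G) := inferInstance
    obtain ⟨P, hP⟩ := exists_sylow_le_of_not_dvd_index (main p q hpq _ G rfl hsolv h Q)
    exact ⟨P, Q, hP⟩

end Cfsg.Agent.S4601
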