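import Cfsg.Statements.S4602
import Mathlib
import Cfsg.Agent.Lib.Helper80PSolv

set_option autoImplicit false
open Cfsg

namespace Cfsg.Agent.S4602

open Cfsg.Agent.Lib.Helper80PSolv Cfsg.Agent.Lib.Helper60Core


/-- Let G be a finite p-solvable group and q a prime different from p. Some Sylow p-subgroup of G normalizes some Sylow q-subgroup of G if and only if q does not divide the order of G/O_{p'}(G), the quotient by the largest normal subgroup of order prime to p. -/
theorem result {G : Type*} [Group G] [Finite G] (p q : ℕ) [Fact p.Prime] [Fact q.Prime] (hpq : p ≠ q) (hsolv : Cfsg.IsPSolvable p G) :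
    (∃ (P : Sylow p G) (Q : Sylow q G), (P : Subgroup G) ≤ Subgroup.normalizer ((Q : Subgroup G) : Set G)) ↔ ¬ q ∣ (Cfsg.pPrimeCore p G).index := by
  have hp : p.Prime := Fact.out
  have hq : q.Prime := Fact.out
  constructor
  · rintro ⟨P, Q, hPQ⟩ hdvd
    set K := Cfsg.pPrimeCore p G with hK
    let f := QuotientGroup.mk' K
    have hf : Function.Surjective f := QuotientGroup.mk'_surjective K
    have hsolv' : Cfsg.IsPSolvable p (G ⧸ K) := isPSolvable_quotient hp hsolv K
    have hbot : Cfsg.pPrimeCore p (G ⧸ K) = ⊥ := pPrimeCore_quotient_eq_bot p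
    have hHH := centralizer_pCore_le_of_isPSolvable hsolv' hbot
    let P' : Sylow p (G ⧸ K) := P.mapSurjective hf
    let Q' : Sylow q (G ⧸ K) := Q.mapSurjective hf
    have hP' : (P' : Subgroup (G ⧸ K)) = (P : Subgroup G).map f := Sylow.coe_mapSurjective _ _
    have hQ' : (Q' : Subgroup (G ⧸ K)) = (Q : Subgroup G).map f := Sylow.coe_mapSurjective _ _
    have hOn : (Cfsg.pCore p (G ⧸ K)).Normal := inferInstance
    have hOP : Cfsg.pCore p (G ⧸ K) ≤ P' := (pCore_isPGroup p).le_sylow_of_normal P'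
    have hdisj : Disjoint (Cfsg.pCore p (G ⧸ K)) (Q' : Subgroup (G ⧸ K)) :=
      IsPGroup.disjoint_of_ne p q hpq _ _ (pCore_isPGroup p) Q'.2
    have hnorm : ∀ y ∈ Cfsg.pCore p (G ⧸ K), ∀ x ∈ (Q' : Subgroup (G ⧸ K)),
        y * x * y⁻¹ ∈ (Q' : Subgroup (G ⧸ K)) := by
      intro y hy x hx
      have hy' := hOP hy
      rw [hP'] at hy'
      rw [hQ'] at hx ⊢
      obtain ⟨a, ha, rfl⟩ := hy'
      obtain ⟨b, hb, rfl⟩ := hx
      refine ⟨a * b * a⁻¹, ?_, by simp⟩
      exact (Subgroup.mem_normalizer_iff.mp (hPQ ha) b).mp hb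
    have hQC : (Q' : Subgroup (G ⧸ K)) ≤ Subgroup.centralizer (Cfsg.pCore p (G ⧸ K) : Set (G ⧸ K)) := by
      intro x hx
      rw [Subgroup.mem_centralizer_iff]
      intro y hy
      have h1 : y * x * y⁻¹ * x⁻¹ ∈ (Q' : Subgroup (G ⧸ K)) :=
        Subgroup.mul_mem _ (hnorm y hy x hx) (Subgroup.inv_mem _ hx)
      have h2 : y * x * y⁻¹ * x⁻¹ ∈ Cfsg.pCore p (G ⧸ K) := by
        have : y * x * y⁻¹ * x⁻¹ = y * (x * y⁻¹ * x⁻¹) := by group
        rw [this]
        exact Subgroup.mul_mem _ hy (hOn.conj_mem _ (Subgroup.inv_mem _ hy) x)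
      have h3 := Subgroup.disjoint_def.mp hdisj h2 h1
      have : y * x = (y * x * y⁻¹ * x⁻¹) * (x * y) := by group
      rw [this, h3, one_mul]
    have hQbot : (Q' : Subgroup (G ⧸ K)) = ⊥ := by
      rw [eq_bot_iff]
      intro x hx
      exact Subgroup.disjoint_def.mp hdisj (hHH (hQC hx)) hx
    exact Q'.ne_bot_of_dvd_card (by rw [← Subgroup.index_eq_card]; exact hdvd) hQbot
  · intro h
    obtain ⟨Q⟩ : Nonempty (Sylow q G) := inferInstance
    have hQK := sylow_le_of_not_dvd_index (Cfsg.pPrimeCore p G) h Q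
    have h1 := not_dvd_index_normalizer_of_le (Cfsg.pPrimeCore p G) (card_pPrimeCore_coprime p)
      hp.one_lt.ne' Q hQK
    obtain ⟨P, hP⟩ := exists_sylow_le_of_not_dvd_index h1
    exact ⟨P, Q, hP⟩

end Cfsg.Agent.S4602
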