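import Cfsg.Statements.S4604
import Mathlib
import Cfsg.Agent.Lib.Helper77Glaub
import Cfsg.Agent.Lib.Helper19Cliff
import Cfsg.Agent.Lib.Helper4Eigen

set_option autoImplicit false
open Cfsg

namespace Cfsg.Agent.S4604

open Lib.Helper4Char Lib.Helper4Char2 Lib.Helper4Char4 Lib.Helper77Glaub Lib.Helper19Cliff
  Lib.Helper4Eigen
open scoped ComplexConjugate

theorem frob_two (p : ℕ) (hp : p.Prime) (n : ℕ) {a b : ℂ} (ha : IsIntegral ℤ a)
    (hb : IsIntegral ℤ b) : PDvd p ((a + b) ^ (p ^ n) - (a ^ (p ^ n) + b ^ (p ^ n))) := by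
  obtain ⟨r, hr⟩ := exists_add_pow_prime_pow_eq hp (⟨a, ha⟩ : Cfsg.AlgInt) ⟨b, hb⟩ n
  have h1 := congrArg (fun z : Cfsg.AlgInt => (z : ℂ)) hr
  push_cast at h1
  refine ⟨a * b * r, (ha.mul hb).mul r.2, ?_⟩
  rw [h1]; ring

theorem frob_sum (p : ℕ) (hp : p.Prime) (n : ℕ) {ι : Type*} (s : Finset ι) (f : ι → ℂ)
    (hf : ∀ i ∈ s, IsIntegral ℤ (f i)) :
    PDvd p ((∑ i ∈ s, f i) ^ (p ^ n) - ∑ i ∈ s, f i ^ (p ^ n)) := by
  classical
  induction s using Finset.induction_on with
  | empty =>
    simp only [Finset.sum_empty, sub_zero]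
    rw [zero_pow (pow_ne_zero n hp.ne_zero)]
    exact PDvd.zero
  | insert a s ha ih =>
    rw [Finset.sum_insert ha, Finset.sum_insert ha]
    have h1 := frob_two p hp n (hf a (Finset.mem_insert_self a s))
      (IsIntegral.sum (s := s) f (fun i hi => hf i (Finset.mem_insert_of_mem hi)))
    have h2 := ih (fun i hi => hf i (Finset.mem_insert_of_mem hi))
    have h3 := h1.add h2
    have e : (f a + ∑ i ∈ s, f i) ^ p ^ n - (f a ^ p ^ n + (∑ i ∈ s, f i) ^ p ^ n) +
        ((∑ i ∈ s, f i) ^ p ^ n - ∑ i ∈ s, f i ^ p ^ n) =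
        (f a + ∑ i ∈ s, f i) ^ p ^ n - (f a ^ p ^ n + ∑ i ∈ s, f i ^ p ^ n) := by ring
    rwa [e] at h3

/-- `χ(g)^q ≡ χ(g^q)` modulo `p`, `q` a power of `p`. -/
theorem char_pow_congr {G : Type*} [Group G] [Finite G] (p : ℕ) (hp : p.Prime) (n : ℕ)
    {χ : G → ℂ} (hχ : Cfsg.IsCharacter G χ) (g : G) :
    PDvd p (χ g ^ (p ^ n) - χ (g ^ (p ^ n))) := by
  obtain ⟨d, ρ, rfl⟩ := hχ
  obtain ⟨μ, h1, -, h3, h4, -⟩ := exists_eigenvalues ρ g
  rw [h4, h3]
  apply frob_sum p hp n
  intro i _
  exact IsIntegral.of_pow (orderOf_pos g) (by rw [h1 i]; exact isIntegral_one)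

theorem pow_eq_of_parts {G : Type*} [Group G] [Finite G] (p : ℕ) [Fact p.Prime] (x x' : G)
    (hx : (∃ k : ℕ, orderOf (x * x'⁻¹) = p ^ k) ∧ Commute (x * x'⁻¹) x' ∧ ¬ p ∣ orderOf x') :
    x ^ (p ^ (Nat.card G).factorization p) = x' ^ (p ^ (Nat.card G).factorization p) := by
  obtain ⟨⟨k, hk⟩, hc, -⟩ := hx
  have h1 : x = (x * x'⁻¹) * x' := by group
  conv_lhs => rw [h1]
  rw [hc.mul_pow]
  have h2 : p ^ k ∣ Nat.card G := hk ▸ orderOf_dvd_natCard _
  have h3 : k ≤ (Nat.card G).factorization p :=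
    (Nat.Prime.pow_dvd_iff_le_factorization Fact.out Nat.card_pos.ne').mp h2
  have h4 : (x * x'⁻¹) ^ (p ^ (Nat.card G).factorization p) = 1 := by
    apply orderOf_dvd_iff_pow_eq_one.mp
    rw [hk]
    exact pow_dvd_pow p h3
  rw [h4, one_mul]

theorem pdvd_char {G : Type*} [Group G] [Fintype G] (p : ℕ) (g h : G)
    (H : ∀ χ : Cfsg.IrrCharacter G, PDvd p ((χ : G → ℂ) g - (χ : G → ℂ) h)) {Ψ : G → ℂ}
    (hΨ : Cfsg.IsCharacter G Ψ) : PDvd p (Ψ g - Ψ h) := by
  obtain ⟨m, hm, -⟩ := IsCharacter.eq_sum_nat hΨ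
  rw [hm]
  simp only [Finset.sum_apply, Pi.smul_apply, smul_eq_mul]
  rw [← Finset.sum_sub_distrib]
  apply PDvd.sum
  intro χ _
  rw [← mul_sub]
  exact (H χ).mul_left (isIntegral_natCast _)

theorem ind_sum' {G N : Type*} [Group G] [Group N] [Fintype G] [Fintype N] (ι : N →* G)
    {κ : Type*} (s : Finset κ) (θ : κ → N → ℂ) :
    ind ι (∑ i ∈ s, θ i) = ∑ i ∈ s, ind ι (θ i) := by
  classical
  induction s using Finset.induction_on with
  | empty =>
    simp only [Finset.sum_empty]
    funext g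
    simp [ind_apply]
  | insert a s ha ih => rw [Finset.sum_insert ha, Finset.sum_insert ha, ind_add, ih]

theorem eq_one_of_regular {G : Type*} [Group G] [Finite G] (p : ℕ) [Fact p.Prime] (g u : G)
    (hc : Commute g u) (hg : ¬ p ∣ orderOf g) (k : ℕ) (hu : orderOf u = p ^ k)
    (hgu : ¬ p ∣ orderOf (g * u)) : u = 1 := by
  have hp : p.Prime := Fact.out
  have hcop : (orderOf g).Coprime (orderOf u) := by
    rw [hu]
    exact Nat.Coprime.pow_right k ((Nat.Prime.coprime_iff_not_dvd hp).mpr hg).symm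
  rw [hc.orderOf_mul_eq_mul_orderOf_of_coprime hcop, hu] at hgu
  rcases k with _ | k
  · rw [pow_zero, orderOf_eq_one_iff] at hu
    exact hu
  · exfalso
    apply hgu
    exact Dvd.dvd.mul_left (dvd_pow_self p (Nat.succ_ne_zero k)) _

theorem separate {G : Type*} [Group G] [Fintype G] (p : ℕ) [Fact p.Prime] (g h : G)
    (hg : ¬ p ∣ orderOf g) (hh : ¬ p ∣ orderOf h)
    (H : ∀ χ : Cfsg.IrrCharacter G, PDvd p ((χ : G → ℂ) g - (χ : G → ℂ) h)) : IsConj g h := by
  classical
  by_contra hne
  have hp : p.Prime := Fact.out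
  obtain ⟨P⟩ : Nonempty (Sylow p (Subgroup.centralizer ({g} : Set G))) := inferInstance
  set A := Subgroup.zpowers g with hA
  set κ : (P : Subgroup (Subgroup.centralizer ({g} : Set G))) →* G :=
    (Subgroup.centralizer ({g} : Set G)).subtype.comp
      (P : Subgroup (Subgroup.centralizer ({g} : Set G))).subtype with hκ
  have hκinj : Function.Injective κ := by
    intro a b hab
    exact Subtype.ext (Subtype.ext hab)
  have hκg : ∀ u, Commute g (κ u) := by
    intro u
    have h1 : (κ u) ∈ Subgroup.centralizer ({g} : Set G) := u.1.2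
    rw [Subgroup.mem_centralizer_iff] at h1
    exact h1 g rfl
  have comm : ∀ (a : A) u, Commute (A.subtype a) (κ u) := by
    intro a u
    obtain ⟨i, hi⟩ := Subgroup.mem_zpowers_iff.mp a.2
    change Commute (a : G) (κ u)
    rw [← hi]
    exact (hκg u).zpow_left i
  set ι := MonoidHom.noncommCoprod A.subtype κ comm with hι
  set g₀ : A := ⟨g, Subgroup.mem_zpowers g⟩ with hg₀
  -- the class function on `A × P`
  set φ : A × (P : Subgroup (Subgroup.centralizer ({g} : Set G))) → ℂ :=
    fun e => if e.1 = g₀ then (Nat.card A : ℂ) else 0 with hφ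
  have hφsum : φ = ∑ lam : Cfsg.IrrCharacter A, conj ((lam : A → ℂ) g₀) •
      (fun e : A × (P : Subgroup (Subgroup.centralizer ({g} : Set G))) => (lam : A → ℂ) e.1) := by
    funext e
    simp only [Finset.sum_apply, Pi.smul_apply, smul_eq_mul]
    have h1 := col_orth e.1 g₀
    have h2 : IsConj e.1 g₀ ↔ e.1 = g₀ := by
      constructor
      · intro hc
        obtain ⟨c, hc⟩ := isConj_iff.mp hc
        have h3 : c * e.1 = e.1 * c := by
          apply Subtype.ext
          obtain ⟨i, hi⟩ := Subgroup.mem_zpowers_iff.mp c.2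
          obtain ⟨j, hj⟩ := Subgroup.mem_zpowers_iff.mp e.1.2
          simp only [Subgroup.coe_mul, ← hi, ← hj]
          exact (Commute.zpow_zpow_self g i j).eq
        rw [h3, mul_inv_cancel_right] at hc
        exact hc
      · intro hc; rw [hc]
    have h4 : Nat.card (Subgroup.centralizer ({e.1} : Set A)) = Nat.card A := by
      have : Subgroup.centralizer ({e.1} : Set A) = ⊤ := by
        rw [eq_top_iff]
        intro c _
        rw [Subgroup.mem_centralizer_iff]
        intro y hy
        apply Subtype.ext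
        obtain ⟨i, hi⟩ := Subgroup.mem_zpowers_iff.mp c.2
        obtain ⟨j, hj⟩ := Subgroup.mem_zpowers_iff.mp y.2
        simp only [Subgroup.coe_mul, ← hi, ← hj]
        exact (Commute.zpow_zpow_self g j i).eq
      rw [this, Subgroup.card_top]
    rw [h4] at h1
    have h5 : φ e = ∑ χ : Cfsg.IrrCharacter A, (χ : A → ℂ) e.1 * conj ((χ : A → ℂ) g₀) := by
      rw [h1]
      simp only [hφ]
      by_cases he : e.1 = g₀
      · rw [if_pos he, if_pos (h2.mpr he)]
      · rw [if_neg he, if_neg (fun hc => he (h2.mp hc))]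
    rw [h5]
    apply Finset.sum_congr rfl
    intro lam _
    ring
  have hΨ : ∀ lam : Cfsg.IrrCharacter A, Cfsg.IsCharacter G (ind ι
      (fun e : A × (P : Subgroup (Subgroup.centralizer ({g} : Set G))) => (lam : A → ℂ) e.1)) := by
    intro lam
    apply ind_isCharacter
    exact IsCharacter.comp (MonoidHom.fst A ↥(P : Subgroup (Subgroup.centralizer ({g} : Set G))))
      (IsIrrCharacter.isCharacter lam.2)
  have hmain : PDvd p (ind ι φ g - ind ι φ h) := by
    rw [hφsum, ind_sum']
    simp only [ind_smul, Finset.sum_apply, Pi.smul_apply, smul_eq_mul]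
    rw [← Finset.sum_sub_distrib]
    apply PDvd.sum
    intro lam _
    rw [← mul_sub]
    apply (pdvd_char p g h H (hΨ lam)).mul_left
    have := IsCharacter.isIntegral (IsCharacter.conj (IsIrrCharacter.isCharacter lam.2)) g₀
    exact this
  -- inner sums
  have hinner : ∀ w : G, ¬ p ∣ orderOf w →
      (∑ e : A × (P : Subgroup (Subgroup.centralizer ({g} : Set G))),
        if ι e = w then φ e else 0) = if g = w then (Nat.card A : ℂ) else 0 := by
    intro w hw
    rw [Finset.sum_eq_single (g₀, 1)]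
    · simp [hι, hφ, hg₀]
    · rintro ⟨a, u⟩ _ hne'
      by_cases h1 : ι (a, u) = w
      · rw [if_pos h1]
        simp only [hφ]
        by_cases h2 : a = g₀
        · exfalso
          subst h2
          apply hne'
          have h3 : g * κ u = w := h1
          obtain ⟨k, hk⟩ := (IsPGroup.iff_orderOf.mp P.2) u
          have h4 : orderOf (κ u) = p ^ k := by
            rw [← hk]
            exact orderOf_injective κ hκinj u
          have h5 := eq_one_of_regular p g (κ u) (hκg u) hg k h4 (h3 ▸ hw)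
          have h6 : u = 1 := hκinj (by rw [h5, map_one])
          rw [h6]
        · rw [if_neg h2]
      · rw [if_neg h1]
    · intro hh'; exact absurd (Finset.mem_univ _) hh'
  have hord : ∀ z x : G, orderOf (x⁻¹ * z * x) = orderOf z := by
    intro z x
    have := (MulAut.conj x⁻¹).orderOf_eq z
    simpa using this
  have hψh : ind ι φ h = 0 := by
    rw [ind_apply]
    have : ∀ x : G, (∑ e : A × (P : Subgroup (Subgroup.centralizer ({g} : Set G))),
        if ι e = x⁻¹ * h * x then φ e else 0) = 0 := by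
      intro x
      rw [hinner _ (by rw [hord]; exact hh), if_neg]
      intro hgx
      apply hne
      rw [isConj_comm, isConj_iff]
      exact ⟨x⁻¹, by rw [hgx]; group⟩
    simp only [this, Finset.sum_const_zero, mul_zero]
  have hψg : ind ι φ g = ((P : Subgroup (Subgroup.centralizer ({g} : Set G))).index : ℂ) := by
    rw [ind_apply]
    have : ∀ x : G, (∑ e : A × (P : Subgroup (Subgroup.centralizer ({g} : Set G))),
        if ι e = x⁻¹ * g * x then φ e else 0) =
        if x ∈ Subgroup.centralizer ({g} : Set G) then (Nat.card A : ℂ) else 0 := by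
      intro x
      rw [hinner _ (by rw [hord]; exact hg)]
      have hiff : g = x⁻¹ * g * x ↔ x ∈ Subgroup.centralizer ({g} : Set G) := by
        rw [Subgroup.mem_centralizer_iff]
        constructor
        · intro hgx y hy
          rw [Set.mem_singleton_iff] at hy
          subst hy
          calc y * x = x * (x⁻¹ * y * x) := by group
            _ = x * y := by rw [← hgx]
        · intro hx
          have := hx g rfl
          calc g = x⁻¹ * (x * g) := by group
            _ = x⁻¹ * (g * x) := by rw [this]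
            _ = x⁻¹ * g * x := by group
      by_cases hx : x ∈ Subgroup.centralizer ({g} : Set G)
      · rw [if_pos hx, if_pos (hiff.mpr hx)]
      · rw [if_neg hx, if_neg (fun hc => hx (hiff.mp hc))]
    simp only [this]
    rw [Finset.sum_ite, Finset.sum_const_zero, add_zero, Finset.sum_const, nsmul_eq_mul]
    have hcard : ((Finset.univ.filter (fun x : G => x ∈ Subgroup.centralizer ({g} : Set G))).card)
        = Nat.card (Subgroup.centralizer ({g} : Set G)) := by
      rw [Nat.card_eq_fintype_card, Fintype.card_subtype]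
    rw [hcard, Nat.card_prod,
      ← (P : Subgroup (Subgroup.centralizer ({g} : Set G))).card_mul_index]
    have hA0 : (Nat.card A : ℂ) ≠ 0 := Nat.cast_ne_zero.mpr Nat.card_pos.ne'
    have hP0 : (Nat.card (P : Subgroup (Subgroup.centralizer ({g} : Set G))) : ℂ) ≠ 0 :=
      Nat.cast_ne_zero.mpr Nat.card_pos.ne'
    push_cast
    field_simp
  rw [hψh, hψg, sub_zero] at hmain
  exact P.not_dvd_index (PDvd.nat_dvd hp.ne_zero hmain)

theorem eq_of_pow_eq {G : Type*} [Group G] (a b : G) (q : ℕ) (h : a ^ q = b ^ q)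
    (ha : q.Coprime (orderOf a)) (hb : q.Coprime (orderOf b)) : a = b := by
  have hM : q.Coprime (orderOf a * orderOf b) := Nat.Coprime.mul_right ha hb
  obtain ⟨u, v, huv⟩ := Nat.isCoprime_iff_coprime.mpr hM
  have key : ∀ c : G, orderOf c ∣ orderOf a * orderOf b → c = (c ^ q) ^ u := by
    intro c hc
    have h1 : c ^ ((orderOf a * orderOf b : ℕ) : ℤ) = 1 := by
      rw [zpow_natCast]; exact orderOf_dvd_iff_pow_eq_one.mp hc
    calc c = c ^ (u * (q : ℤ) + v * ((orderOf a * orderOf b : ℕ) : ℤ)) := by rw [huv, zpow_one]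
      _ = (c ^ q) ^ u := by
        rw [zpow_add, zpow_mul' c v, h1, one_zpow, mul_one, zpow_mul' c u, zpow_natCast]
  rw [key a (Dvd.intro _ rfl), key b (Dvd.intro_left _ rfl), h]

/-- Let G be a finite group, p a prime and p^a the p-part of the order of G. Let x, y ∈ G and let x′, y′ be their p-regular parts: x′ has order prime to p, commutes with x·x′⁻¹, and x·x′⁻¹ has p-power order (likewise for y). Then x′ and y′ are conjugate in G if and only if for every irreducible character χ of G the algebraic integer χ(x)^(p^a) − χ(y)^(p^a) is p times an algebraic integer. -/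
theorem result {G : Type*} [Group G] [Finite G] (p : ℕ) [Fact p.Prime] (x y x' y' : G)
    (hx : (∃ k : ℕ, orderOf (x * x'⁻¹) = p ^ k) ∧ Commute (x * x'⁻¹) x' ∧ ¬ p ∣ orderOf x')
    (hy : (∃ k : ℕ, orderOf (y * y'⁻¹) = p ^ k) ∧ Commute (y * y'⁻¹) y' ∧ ¬ p ∣ orderOf y') :
    IsConj x' y' ↔ ∀ χ : Cfsg.IrrCharacter G, ∃ γ : Cfsg.AlgInt,
      (χ : G → ℂ) x ^ (p ^ (Nat.card G).factorization p) - (χ : G → ℂ) y ^ (p ^ (Nat.card G).factorization p) = (p : ℂ) * (γ : ℂ) := by
  classical
  cases nonempty_fintype G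
  have hp : p.Prime := Fact.out
  have hxq := pow_eq_of_parts p x x' hx
  have hyq := pow_eq_of_parts p y y' hy
  set a := (Nat.card G).factorization p with ha
  have hconv : ∀ z : ℂ, (∃ γ : Cfsg.AlgInt, z = (p : ℂ) * (γ : ℂ)) ↔ PDvd p z :=
    fun z => ⟨fun ⟨γ, h⟩ => ⟨γ, γ.2, h⟩, fun ⟨r, hr, h⟩ => ⟨⟨r, hr⟩, h⟩⟩
  simp only [hconv]
  constructor
  · intro hc χ
    have hχ := IsIrrCharacter.isCharacter χ.2
    have h1 := char_pow_congr p hp a hχ x
    have h2 := char_pow_congr p hp a hχ y
    have h3 : (χ : G → ℂ) (x ^ p ^ a) = (χ : G → ℂ) (y ^ p ^ a) := by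
      rw [hxq, hyq]
      exact IsClassFunction.eq_of_isConj (IsCharacter.isClassFunction hχ) (hc.pow _)
    have h4 := h1.sub h2
    rw [h3] at h4
    have e : (χ : G → ℂ) x ^ p ^ a - (χ : G → ℂ) (y ^ p ^ a) -
        ((χ : G → ℂ) y ^ p ^ a - (χ : G → ℂ) (y ^ p ^ a)) =
        (χ : G → ℂ) x ^ p ^ a - (χ : G → ℂ) y ^ p ^ a := by ring
    rwa [e] at h4
  · intro H
    have hcopx : (p ^ a).Coprime (orderOf x') :=
      Nat.Coprime.pow_left a ((Nat.Prime.coprime_iff_not_dvd hp).mpr hx.2.2)
    have hcopy : (p ^ a).Coprime (orderOf y') :=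
      Nat.Coprime.pow_left a ((Nat.Prime.coprime_iff_not_dvd hp).mpr hy.2.2)
    have hsep : IsConj (x' ^ p ^ a) (y' ^ p ^ a) := by
      apply separate p
      · intro hd
        exact hx.2.2 (hd.trans (orderOf_pow_dvd _))
      · intro hd
        exact hy.2.2 (hd.trans (orderOf_pow_dvd _))
      · intro χ
        have hχ := IsIrrCharacter.isCharacter χ.2
        have h1 := char_pow_congr p hp a hχ x
        have h2 := char_pow_congr p hp a hχ y
        have h4 := ((H χ).sub h1).add h2
        rw [hxq, hyq] at h4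
        have e : (χ : G → ℂ) x ^ p ^ a - (χ : G → ℂ) y ^ p ^ a -
            ((χ : G → ℂ) x ^ p ^ a - (χ : G → ℂ) (x' ^ p ^ a)) +
            ((χ : G → ℂ) y ^ p ^ a - (χ : G → ℂ) (y' ^ p ^ a)) =
            (χ : G → ℂ) (x' ^ p ^ a) - (χ : G → ℂ) (y' ^ p ^ a) := by ring
        rwa [e] at h4
    obtain ⟨t, ht⟩ := isConj_iff.mp hsep
    rw [isConj_iff]
    refine ⟨t, ?_⟩
    apply eq_of_pow_eq _ _ (p ^ a)
    · rw [conj_pow]; exact ht
    · have : orderOf (t * x' * t⁻¹) = orderOf x' := by
        have := (MulAut.conj t).orderOf_eq x'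
        simpa using this
      rw [this]; exact hcopx
    · exact hcopy

end Cfsg.Agent.S4604
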