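import Cfsg.Statements.S4607
import Cfsg.Agent.Lib.H4BrRing
import Cfsg.Agent.Lib.H4BrEB
import Cfsg.Agent.Lib.H4BrH1
import Cfsg.Agent.Lib.H4BrH2
import Cfsg.Agent.Lib.H4BrTraceChar
import Cfsg.Agent.Lib.H4BrChar1
import Cfsg.Agent.Lib.H4BrChar2
import Cfsg.Agent.Lib.H4BrNum
import Cfsg.Agent.Lib.H4BrNIdeal
import Cfsg.Agent.Lib.H4BrConv
import Cfsg.Agent.Lib.Helper20DefCard
import Cfsg.Agent.Lib.Helper21StarINST
import Cfsg.Agent.Lib.Helper91StarFIN

set_option autoImplicit false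
open Cfsg

namespace Cfsg.Agent.S4607

open Cfsg.Agent.Lib Cfsg.Agent.Lib.Helper81Local Cfsg.Agent.Lib.Helper80StarDefs
  Cfsg.Agent.Lib.H4BrGDefs Cfsg.Agent.Lib.H4BrDefs

theorem fwd {G : Type*} [Group G] [Fintype G] (p : ℕ) [Fact p.Prime] (M : Ideal Cfsg.AlgInt)
    (hM : Cfsg.IsPModular p M) (B : Set (Cfsg.IrrCharacter G)) (hB : Cfsg.IsPBlock M B)
    (hc : Nat.card B = 2) : p = 2 ∧ blockDefect p B = 1 := by
  have := hM.2.1.isPrime
  have hp : p.Prime := Fact.out
  have hd : 1 ≤ blockDefect p B := by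
    by_contra h
    have h0 : blockDefect p B = 0 := by omega
    obtain ⟨χ, rfl⟩ := (Helper81Defect.blockDefect_eq_zero_iff hM hB).1 h0
    simp at hc
  have hr : blockRank p B = 1 := by
    have h1 := H4BrChar1.rank_lt_card hM hB hd
    obtain ⟨χ, hχ⟩ : B.Nonempty := by
      by_contra h
      rw [Set.not_nonempty_iff_eq_empty] at h
      rw [h] at hc
      simp at hc
    have h2 := Helper83Klein.blockRank_pos hp hχ
    omega
  obtain ⟨χ₁, χ₂, hne, hBe, hreg, hloc⟩ := H4BrChar2.two_chars hM hB hc hr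
  have : Module.Finite (Rt M) (OA M G) := Helper91StarFIN.finite_OA
  have : Module.Free (Rt M) (OA M G) := Helper91StarFIN.free_OA
  obtain ⟨ι, m, hι, hιe, hm1, hm2, htr⟩ := H4BrRing.ring (O := Rt M) (A := OA M G)
    Helper21StarINST.hs_Rt (eB M B) (H4BrEB.eB_central hB) (H4BrEB.eB_idem hB)
    (H4BrEB.eB_ne_zero hB) (H4BrH1.h1 hM hB hr) (H4BrH2.h2 hB hc)
  have hN := H4BrNIdeal.nIdeal hM hB _ hd χ₁ χ₂ hne hBe hreg hloc ι hι hιe
  rw [← H4BrTraceChar.trace_char] at hN
  rw [← mem_maximalIdeal_Rt_iff, ← IsLocalRing.residue_eq_zero_iff, htr] at hN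
  have : CharP (IsLocalRing.ResidueField (Rt M)) p := Helper40ModRed.charP_kk hM
  rw [CharP.cast_eq_zero_iff (IsLocalRing.ResidueField (Rt M)) p] at hN
  have hp2 : p = 2 := by
    have h1 := Nat.le_of_dvd (by omega) hN
    have h2 := hp.two_le
    omega
  refine ⟨hp2, ?_⟩
  subst hp2
  obtain ⟨f₁, hf₁, e₁⟩ := Helper81Base.irr_one χ₁
  obtain ⟨f₂, hf₂, e₂⟩ := Helper81Base.irr_one χ₂
  rw [e₁, e₂] at hloc
  have := H4BrNum.num hM f₁ f₂ _ hf₁ hf₂ (by exact_mod_cast hloc)
  omega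

/-- Let G be a finite group, p a prime, M a maximal ideal of the algebraic integers containing p, and B a p-block of G with defect group D. Then B contains exactly two irreducible characters if and only if D has order 2. -/
theorem result {G : Type*} [Group G] [Finite G] (p : ℕ) [Fact p.Prime] (M : Ideal Cfsg.AlgInt) (hM : Cfsg.IsPModular p M) (B : Set (Cfsg.IrrCharacter G)) (hB : Cfsg.IsPBlock M B) (D : Subgroup G) (hD : Cfsg.IsDefectGroup p M B D) : Nat.card B = 2 ↔ Nat.card D = 2 := by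
  have := Fintype.ofFinite G
  have hcard := Helper20DefCard.card_defectGroup hM hB hD
  have hp : p.Prime := Fact.out
  constructor
  · intro hc
    obtain ⟨h1, h2⟩ := fwd p M hM B hB hc
    rw [hcard, h2, h1, pow_one]
  · intro h
    rw [hcard] at h
    have h0 : blockDefect p B ≠ 0 := by
      intro h0
      rw [h0] at h
      simp at h
    have h1 : p ∣ 2 := by
      rw [← h]
      exact dvd_pow_self p h0
    have h2 : p = 2 := (Nat.prime_dvd_prime_iff_eq hp Nat.prime_two).1 h1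
    subst h2
    have h3 : blockDefect 2 B = 1 := by
      have : (2 : ℕ) ^ blockDefect 2 B = 2 ^ 1 := by simpa using h
      exact Nat.pow_right_injective (le_refl 2) this
    exact H4BrConv.conv hM hB h3

end Cfsg.Agent.S4607
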