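import Cfsg.Statements.S4611
import Cfsg.Agent.Lib.Helper79PrinQuot
import Cfsg.Agent.Lib.Helper79PSolv
import Cfsg.Agent.Lib.Helper82Cod
import Cfsg.Agent.S0133
-- import your own Cfsg.Agent.* helpers here

set_option autoImplicit false
open Cfsg

namespace Cfsg.Agent.S4611

open Cfsg.Agent.Lib.Helper82Linear Cfsg.Agent.Lib.Helper82Quot Cfsg.Agent.Lib.Helper82Cod
open Cfsg.Agent.Lib.Helper79PrinQuot Cfsg.Agent.Lib.Helper79PSolv

theorem exists_ne_irrOne (H : Type*) [Group H] [Finite H] [Nontrivial H] :
    ∃ ψ : IrrCharacter H, ψ ≠ irrOne H := by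
  have h1 : Nat.card (IrrCharacter H) = Nat.card (ConjClasses H) := Cfsg.Agent.S0133.result
  have : Finite (IrrCharacter H) := by
    apply Nat.finite_of_card_ne_zero
    rw [h1]
    exact Nat.card_pos.ne'
  have h2 : Nontrivial (ConjClasses H) := by
    obtain ⟨g, hg⟩ := exists_ne (1 : H)
    refine ⟨ConjClasses.mk g, ConjClasses.mk 1, ?_⟩
    intro h
    rw [ConjClasses.mk_eq_mk_iff_isConj] at h
    exact hg (isConj_one_left.mp h)
  have h3 : Nontrivial (IrrCharacter H) := by
    rw [← Finite.one_lt_card_iff_nontrivial, h1, Finite.one_lt_card_iff_nontrivial]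
    exact h2
  exact exists_ne _

theorem eq_one_of_const {G : Type*} [Group G] [Finite G] (χ : IrrCharacter G)
    (h : ∀ g, (χ : G → ℂ) g = (χ : G → ℂ) 1) : (χ : G → ℂ) = fun _ => 1 := by
  have := Fintype.ofFinite G
  by_contra hne
  have h0 := Cfsg.Agent.Lib.Helper4Char.classInner_irr_ne χ.2 (irrOne G).2 hne
  unfold classInner at h0
  have h1 : ∑ g : G, (χ : G → ℂ) g * (starRingEnd ℂ) (((irrOne G : IrrCharacter G) : G → ℂ) g)
      = (Nat.card G : ℂ) * (χ : G → ℂ) 1 := by
    have : ∀ g : G, (χ : G → ℂ) g * (starRingEnd ℂ) (((irrOne G : IrrCharacter G) : G → ℂ) g)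
        = (χ : G → ℂ) 1 := by
      intro g
      rw [h g]
      simp [irrOne]
    simp only [this, Finset.sum_const, Finset.card_univ, nsmul_eq_mul, Nat.card_eq_fintype_card]
  rw [h1] at h0
  have hc : (Nat.card G : ℂ) ≠ 0 := by exact_mod_cast Nat.card_pos.ne'
  rw [inv_mul_cancel_left₀ hc] at h0
  exact Cfsg.Agent.Lib.Helper83Char.irr_one_ne_zero χ.2 h0

/-- Let G be a finite solvable group and π a nonempty set of primes, each dividing the order of G; fix for each p in π a maximal ideal M p of the algebraic integers containing p. Then the only irreducible character lying in the principal p-block for every p in π is the principal character if and only if G is generated by the subgroups O_{p'}(G), p in π (the largest normal subgroups of order prime to p). -/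
theorem result {G : Type*} [Group G] [Finite G] [Group.IsSolvable G] (π : Set ℕ) (hπ : ∀ p ∈ π, p.Prime ∧ p ∣ Nat.card G) (hne : π.Nonempty) (M : ℕ → Ideal Cfsg.AlgInt) (hM : ∀ p ∈ π, Cfsg.IsPModular p (M p)) :
    (∀ χ : Cfsg.IrrCharacter G, (∀ p ∈ π, χ ∈ Cfsg.principalBlock (M p) G) → (χ : G → ℂ) = fun _ => 1) ↔
      ⨆ p ∈ π, Cfsg.pPrimeCore p G = ⊤ := by
  have hfong : ∀ p ∈ π, ∀ χ : IrrCharacter G, χ ∈ principalBlock (M p) G ↔
      pPrimeCore p G ≤ irrKer χ := by
    intro p hp χ
    have : Fact p.Prime := ⟨(hπ p hp).1⟩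
    exact mem_principal_iff_of_pSolvable (hM p hp) (isPSolvable_of_isSolvable p G) χ
  constructor
  · intro h
    by_contra hne
    set L : Subgroup G := ⨆ p ∈ π, pPrimeCore p G with hL
    have hLn : L.Normal := by
      rw [hL]
      infer_instance
    have hnt : Nontrivial (G ⧸ L) := by
      rw [← Finite.one_lt_card_iff_nontrivial, ← Subgroup.index_eq_card]
      have h1 : L.index ≠ 1 := fun h1 => hne (Subgroup.index_eq_one.mp h1)
      have h2 : L.index ≠ 0 := Subgroup.index_ne_zero_of_finite
      omega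
    obtain ⟨ψ, hψ⟩ := exists_ne_irrOne (G ⧸ L)
    apply hψ
    have h1 := h (inflate L ψ) (by
      intro p hp
      rw [hfong p hp]
      intro n hn
      have hnL : n ∈ L := by
        have : pPrimeCore p G ≤ L := le_iSup₂_of_le p hp le_rfl
        exact this hn
      exact inflate_ker L ψ hnL)
    apply inflate_injective L
    apply Subtype.ext
    rw [h1]
    rfl
  · intro h χ hχ
    apply eq_one_of_const
    have hle : (⊤ : Subgroup G) ≤ irrKer χ := by
      rw [← h]
      apply iSup₂_le
      intro p hp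
      exact (hfong p hp χ).mp (hχ p hp)
    intro g
    exact hle (Subgroup.mem_top g)

end Cfsg.Agent.S4611
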