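import Cfsg.Statements.S4620
import Mathlib
import Cfsg.Agent.Lib.Helper60Core

set_option autoImplicit false
open scoped Pointwise
open Cfsg

namespace Cfsg.Agent.S4620

/-- Distinct Sylow `p`-subgroups meet trivially. -/
def TIS (p : ℕ) (H : Type*) [Group H] : Prop :=
  ∀ P₁ P₂ : Sylow p H, ∀ x : H, x ≠ 1 → x ∈ P₁ → x ∈ P₂ → P₁ = P₂

theorem mem_smul_iff {H : Type*} [Group H] {p : ℕ} (a x : H) (P : Sylow p H) :
    x ∈ (a • P : Sylow p H) ↔ a⁻¹ * x * a ∈ P := by
  change x ∈ ((a • P : Sylow p H) : Subgroup H) ↔ a⁻¹ * x * a ∈ (P : Subgroup H)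
  rw [Sylow.coe_subgroup_smul, Subgroup.mem_pointwise_smul_iff_inv_smul_mem]
  simp [MulAut.smul_def]

theorem tis_of_ti {H : Type*} [Group H] [Finite H] (p : ℕ) [Fact p.Prime] (P : Sylow p H)
    (hTI : ∀ g : H, g ∉ Subgroup.normalizer ((P : Subgroup H) : Set H) →
      (P : Subgroup H) ⊓ (MulAut.conj g • (P : Subgroup H)) = ⊥) : TIS p H := by
  intro P₁ P₂ x hx h1 h2
  obtain ⟨a, rfl⟩ := MulAction.exists_smul_eq H P P₁
  obtain ⟨b, rfl⟩ := MulAction.exists_smul_eq H P P₂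
  by_cases hg : a⁻¹ * b ∈ Subgroup.normalizer ((P : Subgroup H) : Set H)
  · have := Sylow.smul_eq_iff_mem_normalizer.mpr hg
    rw [mul_smul, inv_smul_eq_iff] at this
    exact this.symm
  · exfalso
    have h3 := hTI _ hg
    rw [mem_smul_iff] at h1 h2
    have h4 : a⁻¹ * x * a ∈ ((a⁻¹ * b) • P : Sylow p H) := by
      rw [mem_smul_iff]
      have : (a⁻¹ * b)⁻¹ * (a⁻¹ * x * a) * (a⁻¹ * b) = b⁻¹ * x * b := by group
      rw [this]; exact h2
    replace h4 : a⁻¹ * x * a ∈ (((a⁻¹ * b) • P : Sylow p H) : Subgroup H) := h4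
    rw [Sylow.coe_subgroup_smul] at h4
    have h5 : a⁻¹ * x * a ∈ (P : Subgroup H) ⊓ (MulAut.conj (a⁻¹ * b) • (P : Subgroup H)) := ⟨h1, h4⟩
    rw [h3, Subgroup.mem_bot] at h5
    apply hx
    have : x = a * (a⁻¹ * x * a) * a⁻¹ := by group
    rw [this, h5]; group

theorem ti_of_tis {H : Type*} [Group H] (p : ℕ) (h : TIS p H) (Q : Sylow p H) (n : H)
    (hn : n ∉ Subgroup.normalizer ((Q : Subgroup H) : Set H)) :
    (Q : Subgroup H) ⊓ (MulAut.conj n • (Q : Subgroup H)) = ⊥ := by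
  rw [eq_bot_iff]
  intro x hx
  rw [Subgroup.mem_bot]
  by_contra hx1
  apply hn
  apply Sylow.smul_eq_iff_mem_normalizer.mp
  have h2 : x ∈ (n • Q : Sylow p H) := by
    change x ∈ ((n • Q : Sylow p H) : Subgroup H)
    rw [Sylow.coe_subgroup_smul]; exact hx.2
  exact (h Q (n • Q) x hx1 hx.1 h2).symm

theorem dvd_card_of_normal {H : Type*} [Group H] [Finite H] (p : ℕ) [Fact p.Prime]
    (hOp' : Cfsg.pPrimeCore p H = ⊥) (K : Subgroup H) (hK : K.Normal) (hK1 : K ≠ ⊥) :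
    p ∣ Nat.card K := by
  by_contra hd
  apply hK1
  rw [eq_bot_iff, ← hOp']
  exact le_sSup ⟨hK, ((Nat.Prime.coprime_iff_not_dvd Fact.out).mpr hd).symm⟩

/-- Two nontrivial normal subgroups never centralize each other. -/
theorem lemmaB {H : Type*} [Group H] [Finite H] (p : ℕ) [Fact p.Prime] (hOp : Cfsg.pCore p H = ⊥)
    (hOp' : Cfsg.pPrimeCore p H = ⊥) (hT : TIS p H) (K₁ K₂ : Subgroup H) (h₁ : K₁.Normal)
    (h₂ : K₂.Normal) (hK₁ : K₁ ≠ ⊥) (hK₂ : K₂ ≠ ⊥)
    (hc : ∀ a ∈ K₁, ∀ b ∈ K₂, a * b = b * a) : False := by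
  obtain ⟨x, hx⟩ := exists_prime_orderOf_dvd_card' p (dvd_card_of_normal p hOp' K₁ h₁ hK₁)
  obtain ⟨y, hy⟩ := exists_prime_orderOf_dvd_card' p (dvd_card_of_normal p hOp' K₂ h₂ hK₂)
  have hp : p.Prime := Fact.out
  have hxo : orderOf (x : H) = p := by rw [Subgroup.orderOf_coe]; exact hx
  have hyo : orderOf (y : H) = p := by rw [Subgroup.orderOf_coe]; exact hy
  have hx1 : (x : H) ≠ 1 := by
    intro h; rw [h, orderOf_one] at hxo; exact hp.one_lt.ne hxo
  have hy1 : (y : H) ≠ 1 := by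
    intro h; rw [h, orderOf_one] at hyo; exact hp.one_lt.ne hyo
  have hxp : IsPGroup p (Subgroup.zpowers (x : H)) :=
    IsPGroup.of_card (n := 1) (by rw [Nat.card_zpowers, hxo, pow_one])
  obtain ⟨P₁, hP₁⟩ := hxp.exists_le_sylow
  have hxP : (x : H) ∈ P₁ := hP₁ (Subgroup.mem_zpowers _)
  have h4 : ∀ k ∈ K₂, k • P₁ = P₁ := by
    intro k hk
    apply hT _ _ (x : H) hx1 _ hxP
    rw [mem_smul_iff]
    have : k⁻¹ * (x : H) * k = x := by
      rw [mul_assoc, hc x x.2 k hk, ← mul_assoc, inv_mul_cancel, one_mul]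
    rw [this]; exact hxP
  have h5 : ∀ P₂ : Sylow p H, (y : H) ∈ P₂ := by
    intro P₂
    obtain ⟨h, rfl⟩ := MulAction.exists_smul_eq H P₁ P₂
    rw [mem_smul_iff]
    set y' := h⁻¹ * (y : H) * h with hy'
    have hy'K : y' ∈ K₂ := by
      have := h₂.conj_mem y y.2 h⁻¹
      simpa [hy'] using this
    have hy'N : y' ∈ Subgroup.normalizer ((P₁ : Subgroup H) : Set H) :=
      Sylow.smul_eq_iff_mem_normalizer.mp (h4 y' hy'K)
    have hy'o : orderOf y' = p := by
      rw [← hyo, hy']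
      have := (MulAut.conj h⁻¹).orderOf_eq (y : H)
      simpa [MulAut.conj_apply] using this
    have hy'p : IsPGroup p (Subgroup.zpowers y') :=
      IsPGroup.of_card (n := 1) (by rw [Nat.card_zpowers, hy'o, pow_one])
    have : Subgroup.zpowers y' ⊓ Subgroup.normalizer ((P₁ : Subgroup H) : Set H)
        = Subgroup.zpowers y' ⊓ (P₁ : Subgroup H) := hy'p.inf_normalizer_sylow P₁
    have h6 : y' ∈ Subgroup.zpowers y' ⊓ Subgroup.normalizer ((P₁ : Subgroup H) : Set H) :=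
      ⟨Subgroup.mem_zpowers _, hy'N⟩
    rw [this] at h6
    exact h6.2
  have h6 : ∀ P₂ : Sylow p H, P₂ = P₁ := fun P₂ => hT _ _ (y : H) hy1 (h5 P₂) (h5 P₁)
  have h7 : (P₁ : Subgroup H).Normal := by
    have : Subsingleton (Sylow p H) := ⟨fun a b => (h6 a).trans (h6 b).symm⟩
    exact Sylow.normal_of_subsingleton P₁
  have h8 : (P₁ : Subgroup H) ≤ Cfsg.pCore p H := le_sSup ⟨h7, P₁.2⟩
  rw [hOp] at h8
  exact hx1 (Subgroup.mem_bot.mp (h8 hxP))

/-- The unique minimal normal subgroup. -/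
theorem thmU {H : Type*} [Group H] [Finite H] [Nontrivial H] (p : ℕ) [Fact p.Prime]
    (hOp : Cfsg.pCore p H = ⊥) (hOp' : Cfsg.pPrimeCore p H = ⊥) (hT : TIS p H) :
    ∃ N : Subgroup H, N.Normal ∧ N ≠ ⊥ ∧ (∀ K : Subgroup H, K.Normal → K ≠ ⊥ → N ≤ K) ∧
      ¬ IsMulCommutative N ∧ Subgroup.centralizer (N : Set H) = ⊥ := by
  classical
  let 𝒦 : Set (Subgroup H) := {K | K.Normal ∧ K ≠ ⊥}
  have hne : 𝒦.Nonempty := ⟨⊤, inferInstance, top_ne_bot⟩
  obtain ⟨N, hN, hmin⟩ := Set.exists_min_image 𝒦 (fun K => Nat.card K) (Set.toFinite _) hne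
  have hNn : N.Normal := hN.1
  have hle : ∀ K : Subgroup H, K.Normal → K ≠ ⊥ → N ≤ K := by
    intro K hK hK1
    have hinf : N ⊓ K ∈ 𝒦 := by
      refine ⟨inferInstance, ?_⟩
      intro hbot
      apply lemmaB p hOp hOp' hT N K hNn hK hN.2 hK1
      intro a ha b hb
      exact Subgroup.commute_of_normal_of_disjoint N K hNn hK (disjoint_iff.mpr hbot) a b ha hb
    have h1 := hmin _ hinf
    have h2 : N ⊓ K = N := Subgroup.eq_of_le_of_card_ge inf_le_left h1
    rw [← h2]; exact inf_le_right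
  refine ⟨N, hNn, hN.2, hle, ?_, ?_⟩
  · intro hcomm
    apply lemmaB p hOp hOp' hT N N hNn hNn hN.2 hN.2
    intro a ha b hb
    have := hcomm.is_comm.comm (⟨a, ha⟩ : N) ⟨b, hb⟩
    simpa using congrArg Subtype.val this
  · by_contra hC
    apply lemmaB p hOp hOp' hT N _ hNn inferInstance hN.2 hC
    intro a ha b hb
    exact (Subgroup.mem_centralizer_iff.mp hb a ha)

theorem pCore_char (p : ℕ) (N : Type*) [Group N] : (Cfsg.pCore p N).Characteristic := by
  rw [Subgroup.characteristic_iff_map_le]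
  intro φ
  unfold Cfsg.pCore
  rw [Subgroup.map_le_iff_le_comap]
  apply sSup_le
  rintro K ⟨hK, hKp⟩
  rw [← Subgroup.map_le_iff_le_comap]
  apply le_sSup
  exact ⟨hK.map _ φ.surjective, hKp.map _⟩

theorem pPrimeCore_char (p : ℕ) (N : Type*) [Group N] : (Cfsg.pPrimeCore p N).Characteristic := by
  rw [Subgroup.characteristic_iff_map_le]
  intro φ
  unfold Cfsg.pPrimeCore
  rw [Subgroup.map_le_iff_le_comap]
  apply sSup_le
  rintro K ⟨hK, hKp⟩
  rw [← Subgroup.map_le_iff_le_comap]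
  apply le_sSup
  refine ⟨hK.map _ φ.surjective, ?_⟩
  rw [Subgroup.card_map_of_injective φ.injective]
  exact hKp


/-- Let H be a finite group with no nontrivial normal p-subgroup and no nontrivial normal subgroup of order prime to p, whose Sylow p-subgroup P is nontrivial and a trivial-intersection set (P meets its conjugates by elements outside N_H(P) trivially). Then H has a unique minimal normal subgroup N; N is non-abelian simple with trivial centralizer in H (so H embeds in Aut(N)), and a Sylow p-subgroup of N is again a nontrivial trivial-intersection set in N. -/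
theorem result {H : Type*} [Group H] [Finite H] (p : ℕ) [Fact p.Prime] (hOp : Cfsg.pCore p H = ⊥) (hOp' : Cfsg.pPrimeCore p H = ⊥) (P : Sylow p H) (hP1 : (P : Subgroup H) ≠ ⊥)
    (hTI : ∀ g : H, g ∉ Subgroup.normalizer ((P : Subgroup H) : Set H) → (P : Subgroup H) ⊓ (MulAut.conj g • (P : Subgroup H)) = ⊥) :
    ∃ N : Subgroup H, N.Normal ∧ N ≠ ⊥ ∧ (∀ K : Subgroup H, K.Normal → K ≠ ⊥ → N ≤ K) ∧
      IsSimpleGroup N ∧ ¬ IsMulCommutative N ∧ Subgroup.centralizer (N : Set H) = ⊥ ∧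
      ∀ Q : Sylow p N, (Q : Subgroup N) ≠ ⊥ ∧
        ∀ n : N, n ∉ Subgroup.normalizer ((Q : Subgroup N) : Set N) → (Q : Subgroup N) ⊓ (MulAut.conj n • (Q : Subgroup N)) = ⊥ := by
  have hT : TIS p H := tis_of_ti p P hTI
  have hnt : Nontrivial H := by
    by_contra hcon
    rw [not_nontrivial_iff_subsingleton] at hcon
    exact hP1 (Subsingleton.elim _ _)
  obtain ⟨N, hNn, hN1, hle, hnc, hC⟩ := thmU p hOp hOp' hT
  have hOpN : Cfsg.pCore p N = ⊥ := by
    have hch := pCore_char p N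
    have hn : ((Cfsg.pCore p N).map N.subtype).Normal := ConjAct.normal_of_characteristic_of_normal
    have hpg : IsPGroup p ((Cfsg.pCore p N).map N.subtype) :=
      (Cfsg.Agent.Lib.Helper60Core.pCore_isPGroup p).map _
    have h1 : (Cfsg.pCore p N).map N.subtype ≤ Cfsg.pCore p H := le_sSup ⟨hn, hpg⟩
    rwa [hOp, le_bot_iff, Subgroup.map_eq_bot_iff_of_injective _ N.subtype_injective] at h1
  have hOp'N : Cfsg.pPrimeCore p N = ⊥ := by
    have hch := pPrimeCore_char p N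
    have hn : ((Cfsg.pPrimeCore p N).map N.subtype).Normal :=
      ConjAct.normal_of_characteristic_of_normal
    have hc : (Nat.card ((Cfsg.pPrimeCore p N).map N.subtype)).Coprime p := by
      rw [Subgroup.card_map_of_injective N.subtype_injective]
      exact Cfsg.Agent.Lib.Helper60Core.card_pPrimeCore_coprime p
    have h1 : (Cfsg.pPrimeCore p N).map N.subtype ≤ Cfsg.pPrimeCore p H := le_sSup ⟨hn, hc⟩
    rwa [hOp', le_bot_iff, Subgroup.map_eq_bot_iff_of_injective _ N.subtype_injective] at h1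
  have hTN : TIS p N := by
    intro Q₁ Q₂ x hx h1 h2
    obtain ⟨P₁, hP₁⟩ := (Q₁.2.map N.subtype).exists_le_sylow
    obtain ⟨P₂, hP₂⟩ := (Q₂.2.map N.subtype).exists_le_sylow
    have hx1 : (x : H) ≠ 1 := fun h => hx (Subtype.ext h)
    have e : P₁ = P₂ := hT P₁ P₂ (x : H) hx1 (hP₁ ⟨x, h1, rfl⟩) (hP₂ ⟨x, h2, rfl⟩)
    have e1 : (P₁ : Subgroup H).subgroupOf N = Q₁ := by
      apply Q₁.is_maximal' P₁.2.comap_subtype
      intro z hz
      exact hP₁ ⟨z, hz, rfl⟩
    have e2 : (P₂ : Subgroup H).subgroupOf N = Q₂ := by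
      apply Q₂.is_maximal' P₂.2.comap_subtype
      intro z hz
      exact hP₂ ⟨z, hz, rfl⟩
    apply Sylow.ext
    rw [← e1, ← e2, e]
  have hntN : Nontrivial N := (Subgroup.nontrivial_iff_ne_bot N).mpr hN1
  obtain ⟨N₁, hN₁n, hN₁1, hle₁, -, -⟩ := thmU p hOpN hOp'N hTN
  have hchar : N₁.Characteristic := by
    rw [Subgroup.characteristic_iff_le_map]
    intro φ
    apply hle₁ _ (hN₁n.map _ φ.surjective)
    rwa [Ne, Subgroup.map_eq_bot_iff_of_injective _ φ.injective]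
  have hnorm : (N₁.map N.subtype).Normal := ConjAct.normal_of_characteristic_of_normal
  have hN₁top : N₁ = ⊤ := by
    have h1 : N ≤ N₁.map N.subtype := by
      apply hle _ hnorm
      rwa [Ne, Subgroup.map_eq_bot_iff_of_injective _ N.subtype_injective]
    rw [eq_top_iff]
    intro z _
    obtain ⟨w, hw, hwz⟩ := h1 z.2
    have : w = z := Subtype.ext hwz
    rwa [← this]
  refine ⟨N, hNn, hN1, hle, ?_, hnc, hC, ?_⟩
  · refine { exists_pair_ne := hntN.exists_pair_ne, eq_bot_or_eq_top_of_normal := ?_ }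
    intro K hK
    by_cases hK1 : K = ⊥
    · exact Or.inl hK1
    · right
      rw [eq_top_iff, ← hN₁top]
      exact hle₁ K hK hK1
  · intro Q
    exact ⟨Q.ne_bot_of_dvd_card (dvd_card_of_normal p hOp' N hNn hN1),
      fun n hn => ti_of_tis p hTN Q n hn⟩

end Cfsg.Agent.S4620
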