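import Cfsg.Statements.S4632
import Cfsg.Agent.Lib.H58G2Defs
import Cfsg.Agent.Lib.H58G2Phi
import Cfsg.Agent.Lib.H58G2Ker
import Cfsg.Agent.Lib.H58G2Cent
import Cfsg.Agent.Lib.H58G2Hilb
import Cfsg.Agent.Lib.H58G2GAprops
import Cfsg.Agent.Lib.H58G2Squares
import Cfsg.Agent.Lib.H58G2OddIdx
import Cfsg.Agent.Lib.H58G2UGroup
import Cfsg.Agent.Lib.H58G2CentU
import Cfsg.Agent.Lib.H58G2Abs3

set_option autoImplicit false
open Cfsg

namespace Cfsg.Agent.S4632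

open Cfsg.Agent.Lib.H58G2Defs

/-- Let F be a finite field of odd order and G₂(F) the automorphism group of the split octonion algebra over F (realized on F⁸ with the Zorn vector-matrix multiplication). A Sylow 2-subgroup P of G₂(F) has P/P' elementary abelian: the square of every element of P lies in the derived subgroup of P. -/
theorem result {F : Type*} [Field F] [Fintype F] (hF : Odd (Fintype.card F)) (P : Sylow 2 (Cfsg.Lie.G2 F)) : ∀ x : (P : Subgroup (Cfsg.Lie.G2 F)), x ^ 2 ∈ commutator (P : Subgroup (Cfsg.Lie.G2 F)) := by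
  have h2 : (2 : F) ≠ 0 := by
    intro h
    have hc : ringChar F ∣ 2 := by
      have := (ringChar.spec F 2).1 (by exact_mod_cast h)
      exact this
    have hc2 : ringChar F = 2 := by
      rcases (Nat.dvd_prime Nat.prime_two).1 hc with h1 | h1
      · exact absurd h1 (CharP.ringChar_ne_one)
      · exact h1
    have := FiniteField.even_card_of_char_two hc2
    exact (Nat.not_even_iff_odd.2 hF) (Nat.even_iff.2 this)
  obtain ⟨Φ, hΦ⟩ := Cfsg.Agent.Lib.H58G2Phi.exists_phi (F := F)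
  obtain ⟨x₀, y₀, h0⟩ := Cfsg.Agent.Lib.H58G2Hilb.exists_neg_one (F := F)
  have ht : Φ tG ≠ 1 := by
    intro h
    have := Cfsg.Agent.Lib.H58G2Ker.orderOf_t h2 hΦ
    rw [h, orderOf_one] at this
    omega
  have hK : ∀ γ : ↥(Gam F), IsSc (γ : GL (Fin 2) F × GL (Fin 2) F) → γ ∈ Φ.ker := fun γ hγ =>
    (Cfsg.Agent.Lib.H58G2Ker.phi_eq_one_iff hΦ γ).2 hγ
  have main := Cfsg.Agent.Lib.H58G2Abs3.abs_main Φ (Φ tG) ht
    (Cfsg.Agent.Lib.H58G2Cent.cent_le_range h2 hΦ) (GN F) (GA F)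
    (fun γ hγ => Cfsg.Agent.Lib.H58G2GAprops.sc_mem_GN γ
      ((Cfsg.Agent.Lib.H58G2Ker.phi_eq_one_iff hΦ γ).1 hγ))
    (Cfsg.Agent.Lib.H58G2OddIdx.odd_index hF)
    Cfsg.Agent.Lib.H58G2GAprops.GA_le_GN Cfsg.Agent.Lib.H58G2GAprops.GA_comm
    (Cfsg.Agent.Lib.H58G2GAprops.GA_normal h2) (Cfsg.Agent.Lib.H58G2GAprops.sq_mem_GA h2)
    (Cfsg.Agent.Lib.H58G2Squares.sq_mem h2 Φ.ker hK)
    (UU x₀ y₀ h0) (Cfsg.Agent.Lib.H58G2UGroup.isPGroup_UU x₀ y₀ h0)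
    ⟨tG, Cfsg.Agent.Lib.H58G2UGroup.tG_mem_UU x₀ y₀ h0, rfl⟩
    (Cfsg.Agent.Lib.H58G2CentU.centU h2 hΦ x₀ y₀ h0)
  exact main P

end Cfsg.Agent.S4632
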