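import Cfsg.Statements.S4642
import Cfsg.Agent.Lib.Helper84PType
import Cfsg.Agent.S0631

set_option autoImplicit false
open Cfsg

namespace Cfsg.Agent.S4642

/-- Let G be a finite group, p a prime, M a maximal ideal of the algebraic integers containing p, K the largest normal subgroup of G of order prime to p, and L the preimage in G of the largest normal p-subgroup of G/K. Let Q be a Sylow p-subgroup of L and suppose C_G(Q) ≤ L. Let θ be an irreducible character of K invariant under conjugation by every element of G, and let B be the set of irreducible characters of G whose restriction to K contains θ. Then B is a block of G, every Sylow p-subgroup of G is a defect group of B, and B is of principal type: for every p-subgroup R of G exactly one block of C_G(R) induces B. -/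
theorem result {G : Type*} [Group G] [Fintype G] (p : ℕ) [Fact p.Prime] (M : Ideal Cfsg.AlgInt) (hM : Cfsg.IsPModular p M) (K : Subgroup G) (hK : K = Cfsg.pPrimeCore p G) [Fintype K] (L : Subgroup G) (hL : L = Cfsg.pPrimePCore p G) (Q : Subgroup G) (hQL : Q ≤ L) (hQp : IsPGroup p Q) (hQS : ¬ p ∣ Q.relIndex L) (hCQ : Subgroup.centralizer (Q : Set G) ≤ L) (θ : Cfsg.IrrCharacter K) (hθ : ∀ g : G, Cfsg.IsConjCharOf K g (θ : K → ℂ) (θ : K → ℂ)) (B : Set (Cfsg.IrrCharacter G)) (hBdef : ∀ χ : Cfsg.IrrCharacter G, χ ∈ B ↔ Cfsg.classInner (fun k : K => (χ : G → ℂ) k) (θ : K → ℂ) ≠ 0) : Cfsg.IsPBlock M B ∧ (∀ S : Sylow p G, Cfsg.IsDefectGroup p M B S) ∧ ∀ R : Subgroup G, IsPGroup p R → ∃! f : Set (Cfsg.IrrCharacter (Subgroup.centralizer (R : Set G))), Cfsg.IsInducedBlock M (Subgroup.centralizer (R : Set G)) f B := by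
  classical
  subst hK hL
  have hp : p.Prime := Fact.out
  have hcon : IsPConstrained p G :=
    Cfsg.Agent.Lib.Helper84PType.constrained_of Q hQL hQp hQS hCQ
  have hKn : (pPrimeCore p G).Normal := inferInstance
  have hKp : ¬ p ∣ Nat.card (pPrimeCore p G) := by
    intro h
    have h1 := Cfsg.Agent.Lib.Helper14CoreB.card_pPrimeCore_coprime (G := G) p
    exact hp.one_lt.ne' (Nat.eq_one_of_dvd_coprimes h1 h dvd_rfl)
  have hinv' : ∀ g : G, Cfsg.Agent.Lib.Helper21Cover.cjI hKn θ g = θ := by
    intro g
    apply Subtype.ext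
    funext n
    exact hθ g n _ rfl
  obtain ⟨B', hB', hmem, hd⟩ :=
    Cfsg.Agent.Lib.Helper84PType.block_of_constrained hM hcon _ rfl θ hinv'
  have hBB : B = B' := by
    ext χ
    rw [hBdef, hmem]
    rfl
  subst hBB
  refine ⟨hB', (Cfsg.Agent.Lib.Helper21PS.sylow_defect hM hB' hd).1, ?_⟩
  intro R hR
  have hconX : IsPConstrained p (Subgroup.centralizer (R : Set G)) :=
    (Cfsg.Agent.S0631.result hcon R hR).2
  have hcore := Cfsg.Agent.Lib.Helper84PType.core_centralizer hcon hR
  have hKX : ∀ x : Subgroup.centralizer (R : Set G),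
      x ∈ pPrimeCore p (Subgroup.centralizer (R : Set G)) ↔ (x : G) ∈ pPrimeCore p G := by
    intro x
    constructor
    · intro hx
      have h1 : (x : G) ∈ (pPrimeCore p (Subgroup.centralizer (R : Set G))).map
          (Subgroup.centralizer (R : Set G)).subtype := ⟨x, hx, rfl⟩
      rw [hcore] at h1
      exact h1.1
    · intro hx
      have h1 : (x : G) ∈ pPrimeCore p G ⊓ Subgroup.centralizer (R : Set G) := ⟨hx, x.2⟩
      rw [← hcore] at h1
      obtain ⟨y, hy, hyx⟩ := h1
      have h2 : y = x := Subtype.ext hyx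
      rwa [← h2]
  exact Cfsg.Agent.Lib.Helper84PType.principal_type hM hKn hKp hinv' hB' hmem hR rfl
    inferInstance hKX (fun η hη => by
      obtain ⟨f, hf, hfm, _⟩ :=
        Cfsg.Agent.Lib.Helper84PType.block_of_constrained hM hconX _ rfl η hη
      exact ⟨f, hf, hfm⟩)

end Cfsg.Agent.S4642
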