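import Cfsg.Statements.S4729
import Mathlib
import Cfsg.Agent.Lib.Helper5Exc3

set_option autoImplicit false
open Cfsg

namespace Cfsg.Agent.S4729

open Subgroup
open Cfsg.Agent.Lib.Helper81Base Cfsg.Agent.Lib.Helper81BB Cfsg.Agent.Lib.Helper82Linear
  Cfsg.Agent.Lib.Helper59BLDual Cfsg.Agent.Lib.Helper81Local
  Cfsg.Agent.Lib.Helper5Exc Cfsg.Agent.Lib.Helper5Exc2 Cfsg.Agent.Lib.Helper5Exc3
open scoped ComplexConjugate

/-- a finite group which is not a `p`-group has an element of prime order `l ≠ p`. -/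
theorem exists_prime_order {H : Type*} [Group H] [Finite H] (p : ℕ) [Fact p.Prime]
    (h : ¬ IsPGroup p H) : ∃ (l : ℕ) (c : H), l.Prime ∧ l ≠ p ∧ orderOf c = l := by
  have hp : p.Prime := Fact.out
  by_contra hcon
  push Not at hcon
  apply h
  have h1 : ∀ {d : ℕ}, d.Prime → d ∣ Nat.card H → d = p := by
    intro d hd hdvd
    by_contra hne
    have : Fact d.Prime := ⟨hd⟩
    obtain ⟨c, hc⟩ := exists_prime_orderOf_dvd_card' d hdvd
    exact hcon d c hd hne hc
  have h2 := Nat.eq_prime_pow_of_unique_prime_dvd Nat.card_pos.ne' h1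
  exact IsPGroup.of_card h2

theorem key {G : Type*} [Group G] [Finite G] (p : ℕ) [Fact p.Prime] (M : Ideal Cfsg.AlgInt)
    (hM : Cfsg.IsPModular p M) (hperf : commutator G = ⊤) (P : Sylow p G)
    (χ : Cfsg.IrrCharacter G) (hχ : χ ∈ Cfsg.principalBlock M G)
    (hfaith : ∀ g : G, (χ : G → ℂ) g = (χ : G → ℂ) 1 → g = 1)
    (hdeg2 : Cfsg.charDegree (χ : G → ℂ) < 2 * p)
    (q : ℕ) (hq : q.Prime) (hqp : q ≠ p) (c : G)
    (hc : c ∈ centralizer ((P : Subgroup G) : Set G)) (hcq : orderOf c = q) : False := by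
  classical
  let _ : Fintype G := Fintype.ofFinite G
  have hp : p.Prime := Fact.out
  have := hM.2.1.isPrime
  let _ : Fintype (zpowers c) := Fintype.ofFinite _
  have hc1 : c ≠ 1 := by
    intro h1
    rw [h1, orderOf_one] at hcq
    exact hq.one_lt.ne hcq
  have hcop : Nat.Coprime p q := (Nat.coprime_primes hp hq).mpr (fun h => hqp h.symm)
  obtain ⟨n, ρ, hρ, hρχ⟩ := χ.2
  have hdeg : charDegree (χ : G → ℂ) = n := by
    have h1 : ((charDegree (χ : G → ℂ) : ℕ) : ℂ) = (n : ℂ) := by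
      rw [charDegree_castC, ← hρχ, Representation.char_one, Module.finrank_fin_fun]
    exact_mod_cast h1
  have hχ1 : (χ : G → ℂ) 1 = (n : ℂ) := by rw [← charDegree_castC, hdeg]
  have hnpos : 0 < n := by
    rw [← hdeg]; exact Cfsg.Agent.Lib.Helper83Char.charDegree_pos χ.2
  have hn0 : (n : ℂ) ≠ 0 := by exact_mod_cast hnpos.ne'
  obtain ⟨Ψ, hΨ1, hΨ2⟩ := eig_homs ρ c
  have hfr : Module.finrank ℂ (Fin n → ℂ) = n := Module.finrank_fin_fun ℂ
  set γ : zpowers c := ⟨c, mem_zpowers c⟩ with hγ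
  -- the determinant is trivial
  have hdet : ∏ i, ((Ψ i γ : ℂˣ) : ℂ) = 1 := by
    have h1 : c ∈ (Cfsg.Agent.Lib.Helper19Det.detHom ρ).ker :=
      Abelianization.commutator_subset_ker _ (by rw [hperf]; exact mem_top c)
    rw [← hΨ2, ← Cfsg.Agent.Lib.Helper19Det.detHom_apply ρ c, MonoidHom.mem_ker.mp h1]
    rfl
  -- the congruences
  have hpi : ∀ a : zpowers c, MemLocalIdeal M (1 - (χ : G → ℂ) a / (n : ℂ)) := by
    intro a
    have haC : (a : G) ∈ centralizer ((P : Subgroup G) : Set G) := (zpowers_le.mpr hc) a.2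
    have hle : (P : Subgroup G) ≤ centralizer ({(a : G)} : Set G) := by
      intro y hy
      rw [mem_centralizer_singleton_iff]
      exact (mem_centralizer_iff.mp haC y hy)
    have hk : ¬ p ∣ (centralizer ({(a : G)} : Set G)).index := by
      intro hd
      exact P.not_dvd_index (hd.trans (Subgroup.index_dvd_of_le hle))
    have h1 := hχ (a : G)
    unfold centralChar at h1
    rw [hχ1] at h1
    have hk1 : ¬ MemLocalIdeal M (((centralizer ({(a : G)} : Set G)).index : ℕ) : ℂ) := by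
      rw [memLocalIdeal_natCast_iff hM]; exact hk
    have hk2 := memLocalRing_inv (memLocalRing_natCast (M := M) _) hk1
    have hk0 : (((centralizer ({(a : G)} : Set G)).index : ℕ) : ℂ) ≠ 0 := by
      intro h0
      apply hk1
      rw [h0]; exact memLocalIdeal_zero
    have h2 := memLocalIdeal_mul hk2 h1
    have e : (((centralizer ({(a : G)} : Set G)).index : ℕ) : ℂ)⁻¹ *
        ((((centralizer ({(a : G)} : Set G)).index : ℕ) : ℂ) * 1 / 1 -
          (((centralizer ({(a : G)} : Set G)).index : ℕ) : ℂ) * (χ : G → ℂ) a / (n : ℂ))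
        = 1 - (χ : G → ℂ) a / (n : ℂ) := by
      field_simp
    rwa [e] at h2
  have hint : ∀ (ψ : zpowers c →* ℂˣ) (a : zpowers c),
      MemLocalRing M (conj ((ψ a : ℂˣ) : ℂ)) := by
    intro ψ a
    have h1 : ((ψ a : ℂˣ) : ℂ) ^ orderOf a = 1 := by
      rw [← Units.val_pow_eq_pow_val, ← map_pow, pow_orderOf_eq_one, map_one, Units.val_one]
    have h2 : IsIntegral ℤ ((ψ a : ℂˣ) : ℂ) :=
      IsIntegral.of_pow (orderOf_pos a) (by rw [h1]; exact isIntegral_one)
    have h3 : IsIntegral ℤ (conj ((ψ a : ℂˣ) : ℂ)) := map_isIntegral_int (starRingEnd ℂ) h2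
    exact memLocalRing_coe (⟨_, h3⟩ : AlgInt)
  have hcardc : Nat.card (zpowers c) = q := by rw [Nat.card_zpowers, hcq]
  -- multiplicities
  have hmult0 : ∀ ψ : zpowers c →* ℂˣ, ψ ≠ 1 → ∃ z : ℂ, MemLocalIdeal M z ∧
      ((q * (Finset.univ.filter (fun i => Ψ i = ψ)).card : ℕ) : ℂ) = (n : ℂ) * z := by
    intro ψ hψ
    have e1 : ∑ a : zpowers c, (χ : G → ℂ) a * conj ((ψ a : ℂˣ) : ℂ)
        = (Nat.card (zpowers c) : ℂ) * ((Finset.univ.filter (fun i => Ψ i = ψ)).card : ℂ) := by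
      have e2 : ∀ a : zpowers c, (χ : G → ℂ) a * conj ((ψ a : ℂˣ) : ℂ)
          = ∑ i, ((Ψ i a : ℂˣ) : ℂ) * conj ((ψ a : ℂˣ) : ℂ) := by
        intro a
        rw [← hρχ, hΨ1 a, Finset.sum_mul]
      rw [Finset.sum_congr rfl (fun a _ => e2 a), Finset.sum_comm,
        Finset.sum_congr rfl (fun i _ => orth_hom (Ψ i) ψ), ← Finset.sum_filter, Finset.sum_const,
        nsmul_eq_mul, mul_comm]
    refine ⟨-∑ a : zpowers c, (1 - (χ : G → ℂ) a / (n : ℂ)) * conj ((ψ a : ℂˣ) : ℂ), ?_, ?_⟩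
    · apply memLocalIdeal_neg
      apply memLocalIdeal_sum
      intro a _
      exact memLocalIdeal_mul_right (hpi a) (hint ψ a)
    · push_cast
      rw [← hcardc, ← e1]
      have e3 : ∑ a : zpowers c, conj ((ψ a : ℂˣ) : ℂ) = 0 := by
        rw [← map_sum, sum_hom_eq_zero ψ hψ, map_zero]
      have e4 : ∀ a : zpowers c, (1 - (χ : G → ℂ) a / (n : ℂ)) * conj ((ψ a : ℂˣ) : ℂ)
          = conj ((ψ a : ℂˣ) : ℂ) - ((χ : G → ℂ) a * conj ((ψ a : ℂˣ) : ℂ)) / (n : ℂ) := by
        intro a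
        field_simp
      rw [Finset.sum_congr rfl (fun a _ => e4 a), Finset.sum_sub_distrib, e3, ← Finset.sum_div]
      field_simp
      ring
  have hmult : ∀ ψ : zpowers c →* ℂˣ, ψ ≠ 1 →
      p ∣ (Finset.univ.filter (fun i => Ψ i = ψ)).card := by
    intro ψ hψ
    obtain ⟨z, hz, he⟩ := hmult0 ψ hψ
    have h1 : MemLocalIdeal M
        ((q * (Finset.univ.filter (fun i => Ψ i = ψ)).card : ℕ) : ℂ) := by
      rw [he]; exact memLocalIdeal_mul (memLocalRing_natCast n) hz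
    rw [memLocalIdeal_natCast_iff hM] at h1
    exact (Nat.Coprime.dvd_mul_left hcop).mp h1
  have hcardle : ∀ S : Finset (Fin (Module.finrank ℂ (Fin n → ℂ))), S.card ≤ n := by
    intro S
    exact (Finset.card_le_univ S).trans (by rw [Fintype.card_fin, hfr])
  rw [hdeg] at hdeg2
  -- some `Ψ i` is nontrivial
  have hex : ∃ i, Ψ i ≠ 1 := by
    by_contra hcon
    push Not at hcon
    have h1 : (χ : G → ℂ) c = (χ : G → ℂ) 1 := by
      have h2 := hΨ1 γ
      have h3 := hΨ1 1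
      simp only [hcon, MonoidHom.one_apply, Units.val_one] at h2 h3
      rw [← hρχ]
      exact h2.trans h3.symm
    exact hc1 (hfaith c h1)
  obtain ⟨i₀, hi₀⟩ := hex
  set S₀ := Finset.univ.filter (fun i => Ψ i = Ψ i₀) with hS₀
  have hS₀pos : 0 < S₀.card := Finset.card_pos.mpr ⟨i₀, by simp [hS₀]⟩
  obtain ⟨k₀, hk₀'⟩ := hmult (Ψ i₀) hi₀
  have hk₀ : S₀.card = p * k₀ := hk₀'
  have hk₀pos : 0 < k₀ := by
    rcases Nat.eq_zero_or_pos k₀ with h0 | h0
    · rw [h0, mul_zero] at hk₀; omega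
    · exact h0
  have hk1 : k₀ = 1 := by
    have h3 := hcardle S₀
    by_contra hne
    have : 2 ≤ k₀ := by omega
    have h4 : p * 2 ≤ p * k₀ := Nat.mul_le_mul_left p this
    omega
  by_cases hex2 : ∃ i₁, Ψ i₁ ≠ 1 ∧ Ψ i₁ ≠ Ψ i₀
  · obtain ⟨i₁, hi₁, hi₁₀⟩ := hex2
    set S₁ := Finset.univ.filter (fun i => Ψ i = Ψ i₁) with hS₁
    have hS₁pos : 0 < S₁.card := Finset.card_pos.mpr ⟨i₁, by simp [hS₁]⟩
    have hd : Disjoint S₀ S₁ := by
      rw [Finset.disjoint_left]
      intro i h0 h1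
      simp only [hS₀, hS₁, Finset.mem_filter, Finset.mem_univ, true_and] at h0 h1
      exact hi₁₀ (h1.symm.trans h0)
    have h1 : p ≤ S₀.card := Nat.le_of_dvd hS₀pos (hmult (Ψ i₀) hi₀)
    have h2 : p ≤ S₁.card := Nat.le_of_dvd hS₁pos (hmult (Ψ i₁) hi₁)
    have h3 := hcardle (S₀ ∪ S₁)
    rw [Finset.card_union_of_disjoint hd] at h3
    omega
  · push Not at hex2
    have hprod : ∏ i, ((Ψ i γ : ℂˣ) : ℂ) = ((Ψ i₀ γ : ℂˣ) : ℂ) ^ S₀.card := by
      rw [← Finset.prod_filter_mul_prod_filter_not Finset.univ (fun i => Ψ i = Ψ i₀)]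
      rw [Finset.prod_congr rfl (g := fun _ => ((Ψ i₀ γ : ℂˣ) : ℂ)) (fun i hi => by
        rw [(Finset.mem_filter.mp hi).2]), Finset.prod_const,
        Finset.prod_congr rfl (g := fun _ => (1 : ℂ)) (fun i hi => by
        have h1 : Ψ i = 1 := by
          by_contra hne
          exact (Finset.mem_filter.mp hi).2 (hex2 i hne)
        rw [h1]; rfl), Finset.prod_const_one, mul_one]
    rw [hprod] at hdet
    rw [hk₀, hk1, mul_one] at hdet
    have hu1 : (Ψ i₀ γ) ^ p = 1 := by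
      apply Units.ext
      rw [Units.val_pow_eq_pow_val, hdet, Units.val_one]
    have hu2 : (Ψ i₀ γ) ^ q = 1 := by
      rw [← map_pow]
      have : γ ^ q = 1 := by
        apply Subtype.ext
        simp only [hγ, SubmonoidClass.mk_pow, OneMemClass.coe_one]
        rw [← hcq]; exact pow_orderOf_eq_one c
      rw [this, map_one]
    have hu3 : Ψ i₀ γ = 1 := by
      have h1 := Nat.dvd_gcd (orderOf_dvd_of_pow_eq_one hu1) (orderOf_dvd_of_pow_eq_one hu2)
      rw [hcop.gcd_eq_one, Nat.dvd_one, orderOf_eq_one_iff] at h1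
      exact h1
    apply hi₀
    rw [MonoidHom.eq_iff_eq_on_generator (gen_zpowers c)]
    rw [hu3]; rfl

/-- Let p be a prime, M a maximal ideal of the algebraic integers containing p, G a finite perfect group and P a Sylow p-subgroup. If the principal p-block of G contains a faithful irreducible character of degree less than 2p, then the centralizer of P is a p-group. -/
theorem result {G : Type*} [Group G] [Finite G] (p : ℕ) [Fact p.Prime] (M : Ideal Cfsg.AlgInt) (hM : Cfsg.IsPModular p M) (hperf : commutator G = ⊤) (P : Sylow p G) (χ : Cfsg.IrrCharacter G) (hχ : χ ∈ Cfsg.principalBlock M G) (hfaith : ∀ g : G, (χ : G → ℂ) g = (χ : G → ℂ) 1 → g = 1) (hdeg : Cfsg.charDegree (χ : G → ℂ) < 2 * p) : IsPGroup p ↥(Subgroup.centralizer ((P : Subgroup G) : Set G)) := by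
  by_contra hcon
  obtain ⟨l, c, hl, hlp, hc⟩ := exists_prime_order p hcon
  exact key p M hM hperf P χ hχ hfaith hdeg l hl hlp (c : G) c.2 (by rw [Subgroup.orderOf_coe, hc])

end Cfsg.Agent.S4729
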