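import Cfsg.Statements.S4735
import Cfsg.Agent.Lib.Helper79PrinQuot
import Cfsg.Agent.Lib.Helper79GalConj
import Cfsg.Agent.Lib.Helper5Galois
import Cfsg.Agent.Lib.Helper83Char
import Cfsg.Agent.Lib.Helper81Block
import Cfsg.Agent.Lib.Helper4Char3
import Cfsg.Agent.S4550
-- import your own Cfsg.Agent.* helpers here

set_option autoImplicit false
open Cfsg

namespace Cfsg.Agent.S4735

open Cfsg.Agent.Lib.Helper82Linear Cfsg.Agent.Lib.Helper82Quot
open Cfsg.Agent.Lib.Helper79PrinQuot Cfsg.Agent.Lib.Helper5Galois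
open Cfsg.Agent.Lib.Helper4Char Cfsg.Agent.Lib.Helper4Char2
open scoped ComplexConjugate

section tw

variable {G : Type*} [Group G] [Fintype G]

/-- the Galois twist of an irreducible character -/
noncomputable def tw (m : ℕ) (hm : m.Coprime (Nat.card G)) (χ : IrrCharacter G) :
    IrrCharacter G :=
  ⟨fun g => (χ : G → ℂ) (g ^ m), Cfsg.Agent.Lib.Helper79GalConj.isIrrCharacter_pow χ.2 m hm⟩

theorem tw_injective (m : ℕ) (hm : m.Coprime (Nat.card G)) :
    Function.Injective (tw (G := G) m hm) := by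
  intro χ χ' h
  ext g
  obtain ⟨y, rfl⟩ := (Cfsg.Agent.Lib.Helper79GalConj.pow_bijective (G := G) m hm).2 g
  exact congrFun (congrArg Subtype.val h) y

theorem tw_bijOn (M : Ideal Cfsg.AlgInt) (m : ℕ) (hm : m.Coprime (Nat.card G)) :
    Set.BijOn (tw (G := G) m hm) (principalBlock M G) (principalBlock M G) := by
  have hmaps : Set.MapsTo (tw (G := G) m hm) (principalBlock M G) (principalBlock M G) := by
    intro χ hχ
    exact Cfsg.Agent.S4550.mem_principal_pow M m hm χ _ (fun g => rfl) hχ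
  exact ((Set.toFinite _).injOn_iff_bijOn_of_mapsTo hmaps).mp (tw_injective m hm).injOn

/-- a character value as an algebraic number -/
noncomputable def valK (χ : IrrCharacter G) (g : G) : K :=
  ⟨(χ : G → ℂ) g, mem_algebraicClosure_iff.mpr
    (((IsCharacter.isIntegral (IsIrrCharacter.isCharacter χ.2) g).tower_top (A := ℚ)).isAlgebraic)⟩

theorem apply_valK (ψ : K →+* ℂ) (m : ℕ)
    (hψ : ∀ x : K, (x : ℂ) ^ (Nat.card G) = 1 → ψ x = (x : ℂ) ^ m) (χ : IrrCharacter G) (g : G) :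
    ψ (valK χ g) = (χ : G → ℂ) (g ^ m) := by
  obtain ⟨k, ρ, hirr, h⟩ := χ.2
  have h1 : valK χ g = charK ρ g := by
    apply Subtype.ext
    change (χ : G → ℂ) g = ρ.character g
    rw [h]
  rw [h1, apply_charK ρ (Nat.card G) Nat.card_pos (fun g => pow_card_eq_one') ψ m hψ g, h]

theorem exists_int (M : Ideal Cfsg.AlgInt) (x : G) :
    ∃ z : ℤ, ∑ᶠ χ ∈ principalBlock M G, (χ : G → ℂ) x * (χ : G → ℂ) x⁻¹ = (z : ℂ) := by
  classical
  set y : K := ∑ᶠ χ ∈ principalBlock M G, valK χ x * valK χ x⁻¹ with hy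
  have hyc : (y : ℂ) = ∑ᶠ χ ∈ principalBlock M G, (χ : G → ℂ) x * (χ : G → ℂ) x⁻¹ := by
    rw [hy, Cfsg.Agent.Lib.Helper81Block.finsum_mem_irr,
      Cfsg.Agent.Lib.Helper81Block.finsum_mem_irr]
    push_cast
    apply Finset.sum_congr rfl
    intro χ _
    split_ifs
    · rfl
    · rfl
  have hfix : ∀ ψ : K →+* ℂ, ψ y = (y : ℂ) := by
    intro ψ
    obtain ⟨m, hm, hψ⟩ := exists_pow_of_ringHom (Nat.card G) Nat.card_pos ψ
    rw [hyc, ← finsum_mem_eq_of_bijOn (tw m hm) (tw_bijOn M m hm) (fun χ _ => rfl),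
      hy, Cfsg.Agent.Lib.Helper81Block.finsum_mem_irr,
      Cfsg.Agent.Lib.Helper81Block.finsum_mem_irr, map_sum]
    apply Finset.sum_congr rfl
    intro χ _
    split_ifs
    · rw [map_mul, apply_valK ψ m hψ, apply_valK ψ m hψ]
      rfl
    · exact map_zero ψ
  obtain ⟨q, hq⟩ := exists_rat_of_fixed y hfix
  have hint : IsIntegral ℤ (y : ℂ) := by
    rw [hyc, Cfsg.Agent.Lib.Helper81Block.finsum_mem_irr]
    apply IsIntegral.sum
    intro χ _
    split_ifs
    · exact (IsCharacter.isIntegral (IsIrrCharacter.isCharacter χ.2) _).mul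
        (IsCharacter.isIntegral (IsIrrCharacter.isCharacter χ.2) _)
    · exact isIntegral_zero
  rw [hq] at hint
  obtain ⟨z, hz⟩ := Cfsg.Agent.Lib.Helper4Char3.exists_int_of_isIntegral_rat q hint
  refine ⟨z, ?_⟩
  rw [← hyc, hq, ← hz]
  push_cast
  rfl

theorem cast_sum (B : Set (IrrCharacter G)) (x : G) :
    ((∑ᶠ χ ∈ B, Complex.normSq ((χ : G → ℂ) x) : ℝ) : ℂ)
      = ∑ᶠ χ ∈ B, (χ : G → ℂ) x * (χ : G → ℂ) x⁻¹ := by
  classical
  rw [Cfsg.Agent.Lib.Helper81Block.finsum_mem_irr, Cfsg.Agent.Lib.Helper81Block.finsum_mem_irr]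
  push_cast
  apply Finset.sum_congr rfl
  intro χ _
  split_ifs
  · rw [Cfsg.Agent.Lib.Helper83Char.irr_inv χ.2, Complex.mul_conj]
  · rfl

theorem one_le_sum (M : Ideal Cfsg.AlgInt) [M.IsPrime] (x : G) :
    1 ≤ ∑ᶠ χ ∈ principalBlock M G, Complex.normSq ((χ : G → ℂ) x) := by
  classical
  rw [Cfsg.Agent.Lib.Helper81Block.finsum_mem_irr]
  have hmem : irrOne G ∈ principalBlock M G := Cfsg.Agent.Lib.Helper81Block.sameBlock_refl _
  have h1 := Finset.single_le_sum (f := fun χ : IrrCharacter G =>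
    if χ ∈ principalBlock M G then Complex.normSq ((χ : G → ℂ) x) else 0) (s := Finset.univ)
    (fun χ _ => by
      beta_reduce
      split_ifs
      · exact Complex.normSq_nonneg _
      · exact le_refl _) (Finset.mem_univ (irrOne G))
  beta_reduce at h1
  rw [if_pos hmem] at h1
  have h2 : Complex.normSq ((irrOne G : G → ℂ) x) = 1 := by
    simp [irrOne]
  rw [h2] at h1
  exact h1

theorem sum_le (B : Set (IrrCharacter G)) (x : G) :
    ∑ᶠ χ ∈ B, Complex.normSq ((χ : G → ℂ) x)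
      ≤ (Nat.card (Subgroup.centralizer ({x} : Set G)) : ℝ) := by
  classical
  rw [Cfsg.Agent.Lib.Helper81Block.finsum_mem_irr]
  have h1 := col_orth x x
  rw [if_pos (IsConj.refl x)] at h1
  have h2 : ∑ χ : IrrCharacter G, Complex.normSq ((χ : G → ℂ) x)
      = (Nat.card (Subgroup.centralizer ({x} : Set G)) : ℝ) := by
    have : ((∑ χ : IrrCharacter G, Complex.normSq ((χ : G → ℂ) x) : ℝ) : ℂ)
        = ((Nat.card (Subgroup.centralizer ({x} : Set G)) : ℝ) : ℂ) := by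
      push_cast
      rw [← h1]
      apply Finset.sum_congr rfl
      intro χ _
      rw [Complex.mul_conj]
    exact_mod_cast this
  rw [← h2]
  apply Finset.sum_le_sum
  intro χ _
  split_ifs
  · exact le_refl _
  · exact Complex.normSq_nonneg _

theorem sum_deg_eq_iff (B : Set (IrrCharacter G)) :
    ∑ᶠ χ ∈ B, charDegree (χ : G → ℂ) ^ 2 = Nat.card G ↔ ∀ χ, χ ∈ B := by
  classical
  rw [Cfsg.Agent.Lib.Helper81Block.finsum_mem_irr]
  have h2 : ∑ χ : IrrCharacter G, charDegree (χ : G → ℂ) ^ 2 = Nat.card G := by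
    have h1 := sum_degree_sq (G := G)
    have : ((∑ χ : IrrCharacter G, charDegree (χ : G → ℂ) ^ 2 : ℕ) : ℂ) = (Nat.card G : ℂ) := by
      rw [← h1]
      push_cast
      apply Finset.sum_congr rfl
      intro χ _
      rw [Cfsg.Agent.Lib.Helper83Char.charDegree_cast χ.2]
    exact_mod_cast this
  constructor
  · intro h χ
    by_contra hχ
    have h3 : ∑ χ : IrrCharacter G, (if χ ∈ B then charDegree (χ : G → ℂ) ^ 2 else 0)
        < ∑ χ : IrrCharacter G, charDegree (χ : G → ℂ) ^ 2 := by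
      apply Finset.sum_lt_sum
      · intro ψ _
        split_ifs
        · exact le_refl _
        · exact Nat.zero_le _
      · refine ⟨χ, Finset.mem_univ _, ?_⟩
        rw [if_neg hχ]
        have := Cfsg.Agent.Lib.Helper83Char.charDegree_pos χ.2
        positivity
    omega
  · intro h
    rw [← h2]
    apply Finset.sum_congr rfl
    intro χ _
    rw [if_pos (h χ)]

end tw

/-- Let p be a prime, M a maximal ideal of the algebraic integers containing p, G a finite group, H = O_p'(G) and Ḡ = G/H. For x ∈ G write λ(G, x) for the sum of |χ(x)|^2 over the irreducible characters χ in the principal p-block of G. Then λ(G, x) is a positive integer, λ(G, x) = λ(Ḡ, x̄) where x̄ is the image of x, and λ(G, x) ≤ #C_Ḡ(x̄). Moreover λ(G, 1) = [G : H] if and only if the principal block is the only p-block of Ḡ. -/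
theorem result {G : Type*} [Group G] [Finite G] (p : ℕ) [Fact p.Prime] (M : Ideal Cfsg.AlgInt) (hM : Cfsg.IsPModular p M) (x : G) : (∃ n : ℕ, 0 < n ∧ ∑ᶠ χ ∈ Cfsg.principalBlock M G, Complex.normSq ((χ : G → ℂ) x) = n) ∧ ∑ᶠ χ ∈ Cfsg.principalBlock M G, Complex.normSq ((χ : G → ℂ) x) = ∑ᶠ ψ ∈ Cfsg.principalBlock M (G ⧸ Cfsg.pPrimeCore p G), Complex.normSq ((ψ : G ⧸ Cfsg.pPrimeCore p G → ℂ) (QuotientGroup.mk x)) ∧ ∑ᶠ χ ∈ Cfsg.principalBlock M G, Complex.normSq ((χ : G → ℂ) x) ≤ (Nat.card ↥(Subgroup.centralizer ({(QuotientGroup.mk x : G ⧸ Cfsg.pPrimeCore p G)} : Set (G ⧸ Cfsg.pPrimeCore p G))) : ℝ) ∧ ((∑ᶠ χ ∈ Cfsg.principalBlock M G, Cfsg.charDegree (χ : G → ℂ) ^ 2) = (Cfsg.pPrimeCore p G).index ↔ ∀ B : Set (Cfsg.IrrCharacter (G ⧸ Cfsg.pPrimeCore p G)), Cfsg.IsPBlock M B → B = Cfsg.principalBlock M (G ⧸ Cfsg.pPrimeCore p G)) := by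
  have := Fintype.ofFinite G
  have := Fintype.ofFinite (G ⧸ pPrimeCore p G)
  have hPr := Cfsg.Agent.Lib.Helper20Local.IsPModular.isPrime hM
  have hbij : Set.BijOn (inflate (pPrimeCore p G)) (principalBlock M (G ⧸ pPrimeCore p G))
      (principalBlock M G) := by
    refine ⟨?_, (inflate_injective _).injOn, ?_⟩
    · intro ψ hψ
      exact (inflate_mem_principal_iff hM _ not_dvd_card_pPrimeCore ψ).mpr hψ
    · intro χ hχ
      obtain ⟨ψ, hψ, rfl⟩ := (mem_principal_iff hM _ not_dvd_card_pPrimeCore χ).mp hχ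
      exact ⟨ψ, hψ, rfl⟩
  have h2 : ∑ᶠ χ ∈ Cfsg.principalBlock M G, Complex.normSq ((χ : G → ℂ) x) = ∑ᶠ ψ ∈ Cfsg.principalBlock M (G ⧸ Cfsg.pPrimeCore p G), Complex.normSq ((ψ : G ⧸ Cfsg.pPrimeCore p G → ℂ) (QuotientGroup.mk x)) :=
    (finsum_mem_eq_of_bijOn _ hbij (fun ψ _ => rfl)).symm
  refine ⟨?_, h2, ?_, ?_⟩
  · obtain ⟨z, hz⟩ := exists_int M x
    rw [← cast_sum] at hz
    have h1 := one_le_sum M x
    have hz' : ∑ᶠ χ ∈ principalBlock M G, Complex.normSq ((χ : G → ℂ) x) = (z : ℝ) := by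
      exact_mod_cast hz
    rw [hz'] at h1 ⊢
    have hz1 : 1 ≤ z := by exact_mod_cast h1
    refine ⟨z.toNat, by omega, ?_⟩
    have : ((z.toNat : ℤ) : ℝ) = (z : ℝ) := by
      rw [Int.toNat_of_nonneg (by omega)]
    rw [← this]
    push_cast
    rfl
  · rw [h2]
    exact sum_le _ _
  · have h3 : ∑ᶠ χ ∈ Cfsg.principalBlock M G, Cfsg.charDegree (χ : G → ℂ) ^ 2
        = ∑ᶠ ψ ∈ Cfsg.principalBlock M (G ⧸ Cfsg.pPrimeCore p G),
          Cfsg.charDegree (ψ : G ⧸ Cfsg.pPrimeCore p G → ℂ) ^ 2 :=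
      (finsum_mem_eq_of_bijOn _ hbij (fun ψ _ => rfl)).symm
    rw [h3, Subgroup.index_eq_card, sum_deg_eq_iff]
    constructor
    · intro h B hB
      obtain ⟨χ, hχ⟩ := Cfsg.Agent.Lib.Helper81Block.isPBlock_nonempty hB
      have hB0 : IsPBlock M (principalBlock M (G ⧸ pPrimeCore p G)) := ⟨irrOne _, rfl⟩
      rw [Cfsg.Agent.Lib.Helper81Block.isPBlock_eq_blockOf hB hχ,
        Cfsg.Agent.Lib.Helper81Block.isPBlock_eq_blockOf hB0 (h χ)]
    · intro h χ
      rw [← h _ (Cfsg.Agent.Lib.Helper81Block.isPBlock_blockOf χ)]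
      exact Cfsg.Agent.Lib.Helper81Block.self_mem_blockOf χ

end Cfsg.Agent.S4735
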