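import Cfsg.Statements.S4888
import Cfsg.Agent.Lib.Helper79PrinLin
import Cfsg.Agent.Lib.Helper19Ratio
import Cfsg.Agent.S0938
-- import your own Cfsg.Agent.* helpers here

set_option autoImplicit false
open Cfsg

namespace Cfsg.Agent.S4888

open Cfsg.Agent.Lib.Helper11Frobenius Cfsg.Agent.Lib.Helper82Linear
open Cfsg.Agent.Lib.Helper20Local Cfsg.Agent.Lib.Helper20Block Cfsg.Agent.Lib.Helper83Char

theorem charDegree_irrOne (G : Type*) [Group G] :
    charDegree ((irrOne G : IrrCharacter G) : G → ℂ) = 1 := by
  have h := charDegree_cast (irrOne G).2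
  have h1 : ((irrOne G : IrrCharacter G) : G → ℂ) 1 = 1 := rfl
  rw [h1] at h
  exact_mod_cast h

theorem height_eq {G : Type*} [Group G] (p : ℕ) (M : Ideal Cfsg.AlgInt) (hM : M.IsPrime)
    (χ : G → ℂ) : blockHeight p (principalBlock M G) χ = (charDegree χ).factorization p := by
  unfold blockHeight
  have hmem : irrOne G ∈ principalBlock M G := sameBlock_refl hM _
  have h0 : sInf ((fun ψ : IrrCharacter G => (charDegree (ψ : G → ℂ)).factorization p) ''
      principalBlock M G) = 0 := by
    apply Nat.eq_zero_of_le_zero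
    apply Nat.sInf_le
    refine ⟨irrOne G, hmem, ?_⟩
    simp only [charDegree_irrOne]
    simp
  rw [h0, Nat.sub_zero]

/-- Let G be a finite group, p a prime and M a maximal ideal of the algebraic integers containing p. Then all height-zero irreducible characters of the principal p-block of G (equivalently, all its characters of degree prime to p) have the same degree if and only if G has a normal p-complement. -/
theorem result {G : Type*} [Group G] [Finite G] (p : ℕ) [Fact p.Prime] (M : Ideal Cfsg.AlgInt) (hM : Cfsg.IsPModular p M) : (∃ d : ℕ, ∀ χ : Cfsg.IrrCharacter G, χ ∈ (Cfsg.principalBlock M G) → Cfsg.blockHeight p (Cfsg.principalBlock M G) (χ : G → ℂ) = 0 → Cfsg.charDegree (χ : G → ℂ) = d) ↔ Cfsg.HasNormalPComplement p G := by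
  have : Fintype G := Fintype.ofFinite G
  have hp : p.Prime := Fact.out
  have hPr := IsPModular.isPrime hM
  have hmem : irrOne G ∈ principalBlock M G := sameBlock_refl hPr _
  rw [← hasNPC_iff]
  constructor
  · rintro ⟨d, hd⟩
    have hd1 : d = 1 := by
      rw [← hd (irrOne G) hmem (by rw [height_eq p M hPr, charDegree_irrOne]; simp),
        charDegree_irrOne]
    subst hd1
    apply Cfsg.Agent.Lib.Helper79PrinLin.hasNPC_of_linear hM
    intro χ hχ hdeg
    have h1 := hd χ hχ (by
      rw [height_eq p M hPr]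
      exact Nat.factorization_eq_zero_of_not_dvd hdeg)
    rw [← charDegree_cast χ.2, h1, Nat.cast_one]
  · rintro ⟨N, hN, h1, k, h2⟩
    refine ⟨1, ?_⟩
    intro χ hχ h0
    obtain ⟨K, hK, hKB, hKp, -, hmax⟩ := Cfsg.Agent.S0938.result p M hM (principalBlock M G)
      ⟨irrOne G, rfl⟩ (irrOne G) hmem
    have hNK : N ≤ K := hmax N hN
      (fun hd => (Nat.Prime.coprime_iff_not_dvd Fact.out).mp h1.symm hd) (fun g _ => rfl)
    have hval : ∀ n ∈ N, (χ : G → ℂ) n = (χ : G → ℂ) 1 := by
      intro n hn
      have hgK : n ∈ (K : Set G) := hNK hn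
      rw [hKB] at hgK
      exact hgK χ hχ
    obtain ⟨e, he, hdvd⟩ := Cfsg.Agent.Lib.Helper19Ratio.degree_dvd_index_sup N ⊥ bot_le χ.2 hval
    rw [sup_bot_eq, h2] at hdvd
    have hce : charDegree (χ : G → ℂ) = e := by
      have := charDegree_cast χ.2
      rw [he] at this
      exact_mod_cast this
    rw [hce]
    rw [height_eq p M hPr, hce] at h0
    obtain ⟨j, -, hj⟩ := (Nat.dvd_prime_pow hp).mp hdvd
    rw [hj, hp.factorization_pow, Finsupp.single_eq_same] at h0
    rw [hj, h0, pow_zero]

end Cfsg.Agent.S4888
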