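import Cfsg.Statements.S4736
import Cfsg.Agent.Lib.Helper79PrinQuot
import Cfsg.Agent.Lib.Helper14HH
import Cfsg.Agent.Lib.Helper1Fitting
import Cfsg.Agent.Lib.Helper83Char
import Cfsg.Agent.S4713
import Cfsg.Agent.S4888
-- import your own Cfsg.Agent.* helpers here

set_option autoImplicit false
open Cfsg

namespace Cfsg.Agent.S4736

open Cfsg.Agent.Lib.Helper82Linear Cfsg.Agent.Lib.Helper82Quot
open Cfsg.Agent.Lib.Helper79PrinQuot

theorem normal_of_comm {H : Type*} [Group H] [Finite H] (p : ℕ) [Fact p.Prime]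
    (hs : IsPSolvable p H) (hc : pPrimeCore p H = ⊥) (Q : Sylow p H)
    (hQ : IsMulCommutative Q) : (Q : Subgroup H).Normal := by
  have h1 : pCore p H ≤ Q := by
    rw [Cfsg.Agent.Lib.Helper1Fitting.pCore_eq_iInf_sylow p]
    exact iInf_le _ Q
  have h2 : (Q : Subgroup H) ≤ Subgroup.centralizer (pCore p H : Set H) := by
    intro x hx
    rw [Subgroup.mem_centralizer_iff]
    intro y hy
    have := hQ.is_comm.comm (⟨y, h1 hy⟩ : Q) ⟨x, hx⟩
    exact congrArg Subtype.val this
  have h3 := Cfsg.Agent.Lib.Helper14HH.centralizer_pCore_le hs hc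
  have h4 : (Q : Subgroup H) = pCore p H := le_antisymm (h2.trans h3) h1
  rw [h4]
  exact Cfsg.Agent.Lib.Helper1Fitting.pCore_normal p

theorem comm_iff {G : Type*} [Group G] [Finite G] (p : ℕ) [Fact p.Prime] (N : Subgroup G)
    [N.Normal] (hN : (Nat.card N).Coprime p) (P : Sylow p G) :
    IsMulCommutative P ↔
      IsMulCommutative (P.mapSurjective (QuotientGroup.mk'_surjective N)) := by
  constructor
  · intro h
    refine ⟨⟨?_⟩⟩
    rintro ⟨a, ha⟩ ⟨b, hb⟩
    rw [← SetLike.mem_coe, Sylow.coe_mapSurjective] at ha hb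
    obtain ⟨x, hx, rfl⟩ := ha
    obtain ⟨y, hy, rfl⟩ := hb
    have := h.is_comm.comm (⟨x, hx⟩ : P) ⟨y, hy⟩
    have h2 : x * y = y * x := congrArg Subtype.val this
    apply Subtype.ext
    change QuotientGroup.mk' N x * QuotientGroup.mk' N y
      = QuotientGroup.mk' N y * QuotientGroup.mk' N x
    rw [← map_mul, ← map_mul, h2]
  · intro h
    refine ⟨⟨?_⟩⟩
    rintro ⟨x, hx⟩ ⟨y, hy⟩
    have hx' : QuotientGroup.mk' N x ∈ P.mapSurjective (QuotientGroup.mk'_surjective N) := by
      change _ ∈ ((P.mapSurjective (QuotientGroup.mk'_surjective N) : Sylow p (G ⧸ N)) :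
        Subgroup (G ⧸ N))
      rw [Sylow.coe_mapSurjective]
      exact ⟨x, hx, rfl⟩
    have hy' : QuotientGroup.mk' N y ∈ P.mapSurjective (QuotientGroup.mk'_surjective N) := by
      change _ ∈ ((P.mapSurjective (QuotientGroup.mk'_surjective N) : Sylow p (G ⧸ N)) :
        Subgroup (G ⧸ N))
      rw [Sylow.coe_mapSurjective]
      exact ⟨y, hy, rfl⟩
    have := h.is_comm.comm (⟨_, hx'⟩ : P.mapSurjective (QuotientGroup.mk'_surjective N)) ⟨_, hy'⟩
    have h2 : QuotientGroup.mk' N x * QuotientGroup.mk' N y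
      = QuotientGroup.mk' N y * QuotientGroup.mk' N x := congrArg Subtype.val this
    rw [← map_mul, ← map_mul] at h2
    have h3 : (y * x)⁻¹ * (x * y) ∈ N := by
      rw [← QuotientGroup.eq]
      exact h2.symm
    have h4 : (y * x)⁻¹ * (x * y) ∈ (P : Subgroup G) :=
      mul_mem (inv_mem (mul_mem hy hx)) (mul_mem hx hy)
    have h5 : Disjoint (P : Subgroup G) N := by
      apply Subgroup.disjoint_of_coprime_natCard
      obtain ⟨k, hk⟩ := IsPGroup.iff_card.mp P.isPGroup'
      rw [hk]
      exact (Nat.Coprime.pow_left k hN.symm)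
    have h6 : (y * x)⁻¹ * (x * y) = 1 := by
      have := Subgroup.disjoint_def.mp h5 h4 h3
      exact this
    apply Subtype.ext
    change x * y = y * x
    exact (inv_mul_eq_one.mp h6).symm

/-- Let p be a prime, M a maximal ideal of the algebraic integers containing p, and G a finite p-solvable group with Sylow p-subgroup P. Then P is abelian if and only if every irreducible character in the principal p-block of G has height zero. -/
theorem result {G : Type*} [Group G] [Finite G] (p : ℕ) [Fact p.Prime] (M : Ideal Cfsg.AlgInt) (hM : Cfsg.IsPModular p M) (hsolv : Cfsg.IsPSolvable p G) (P : Sylow p G) : IsMulCommutative P ↔ ∀ χ ∈ Cfsg.principalBlock M G, Cfsg.blockHeight p (Cfsg.principalBlock M G) (χ : G → ℂ) = 0 := by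
  have hPr := Cfsg.Agent.Lib.Helper20Local.IsPModular.isPrime hM
  have hs' := Cfsg.Agent.Lib.Helper80PSolv.isPSolvable_quotient Fact.out hsolv (pPrimeCore p G)
  have hcore := Cfsg.Agent.Lib.Helper14CoreB.pPrimeCore_quotient_eq_bot (G := G) p
  have hcop := Cfsg.Agent.Lib.Helper14CoreB.card_pPrimeCore_coprime (G := G) p
  rw [comm_iff p (pPrimeCore p G) hcop P]
  set Q := P.mapSurjective (QuotientGroup.mk'_surjective (pPrimeCore p G)) with hQ
  have h1 : IsMulCommutative Q ↔ ((Q : Subgroup (G ⧸ pPrimeCore p G)).Normal ∧ IsMulCommutative Q) :=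
    ⟨fun h => ⟨normal_of_comm p hs' hcore Q h, h⟩, fun h => h.2⟩
  rw [h1, Cfsg.Agent.S4713.result p hs' Q]
  have hdeg : ∀ ψ : IrrCharacter (G ⧸ pPrimeCore p G),
      charDegree (inflate (pPrimeCore p G) ψ : G → ℂ) = charDegree (ψ : G ⧸ pPrimeCore p G → ℂ) := fun ψ => rfl
  have hfac : ∀ ψ : IrrCharacter (G ⧸ pPrimeCore p G),
      (charDegree (ψ : G ⧸ pPrimeCore p G → ℂ)).factorization p = 0 ↔ ¬ p ∣ charDegree (ψ : G ⧸ pPrimeCore p G → ℂ) := by
    intro ψ
    have hpos := Cfsg.Agent.Lib.Helper83Char.charDegree_pos ψ.2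
    rw [Nat.factorization_eq_zero_iff]
    constructor
    · rintro (h | h | h)
      · exact absurd Fact.out h
      · exact h
      · omega
    · intro h
      exact Or.inr (Or.inl h)
  constructor
  · intro h χ hχ
    obtain ⟨ψ, -, rfl⟩ := (mem_principal_iff hM _ not_dvd_card_pPrimeCore χ).mp hχ
    rw [Cfsg.Agent.S4888.height_eq p M hPr, hdeg, hfac]
    exact h ψ
  · intro h ψ
    have hmem : inflate (pPrimeCore p G) ψ ∈ principalBlock M G := by
      rw [inflate_mem_principal_iff hM _ not_dvd_card_pPrimeCore]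
      exact Cfsg.Agent.S0915.result p M hM hs' hcore (irrOne _) ψ
    have := h _ hmem
    rw [Cfsg.Agent.S4888.height_eq p M hPr, hdeg, hfac] at this
    exact this

end Cfsg.Agent.S4736
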