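import Cfsg.Statements.S4741
import Cfsg.Agent.Lib.Helper84Det
import Cfsg.Agent.Lib.Helper20Conj

set_option autoImplicit false
open Cfsg

namespace Cfsg.Agent.S4741

open Cfsg.Agent.Lib.Helper84Det Cfsg.Agent.Lib.Helper84Contrib Cfsg.Agent.Lib.Helper32Virt
open Cfsg.Agent.Lib.Helper81Local Cfsg.Agent.Lib.Helper81Base Cfsg.Agent.Lib.Helper81BB
open Cfsg.Agent.Lib.Helper81Block Cfsg.Agent.Lib.Helper81Defect Cfsg.Agent.Lib.Helper81Reg
open Cfsg.Agent.Lib.Helper87Sylow Cfsg.Agent.Lib.Helper20Defect Cfsg.Agent.Lib.Helper20Conj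
open Cfsg.Agent.Lib.Helper20Induced Cfsg.Agent.Lib.Helper20DefCard Cfsg.Agent.Lib.Helper20Height

open scoped Classical in
theorem card_centralizer_eq_sum {G : Type*} [Group G] [Fintype G] (x : G) :
    ∑ t : G, (if t * x * t⁻¹ = x then (1 : ℂ) else 0)
      = (Nat.card (Subgroup.centralizer ({x} : Set G)) : ℂ) := by
  classical
  rw [Finset.sum_boole, Nat.card_eq_fintype_card, Fintype.card_subtype]
  congr 2
  ext t
  simp only [Finset.mem_filter, Finset.mem_univ, true_and, Subgroup.mem_centralizer_singleton_iff]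
  rw [mul_inv_eq_iff_eq_mul]

theorem key_identity {G : Type*} [Group G] [Fintype G] (p : ℕ) [Fact p.Prime] {r : ℕ}
    (x : Fin r → G) (hx : ∀ i j : Fin r, IsConj (x i) (x j) → i = j)
    (hsep : ∀ i j : Fin r, ∀ g h : G, IsConj (x i) g → IsConj (x j) h → ∀ k : ℕ, 0 < k →
      orderOf (g * h⁻¹) ≠ p ^ k) :
    ∃ (U : ℕ) (n : IrrCharacter G → ℤ), ¬ p ∣ U ∧ ∀ i j : Fin r,
      (if i = j then (1 : ℂ) else 0) = ∑ χ : IrrCharacter G,
        ((n χ : ℂ) / U * (χ : G → ℂ) (x j)⁻¹) * centralChar (χ : G → ℂ) (x i) := by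
  classical
  have hp : p.Prime := Fact.out
  set S : Finset ℕ := (Nat.card G).primeFactors.erase p with hS
  have hSp : ∀ q ∈ S, q.Prime := fun q hq => Nat.prime_of_mem_primeFactors (Finset.mem_of_mem_erase hq)
  set U : ℕ := ∏ q ∈ S, q ^ (Nat.card G).factorization q with hU
  have hpU : ¬ p ∣ U := by
    intro hd
    obtain ⟨q, hq, hpq⟩ := (Nat.Prime.prime hp).dvd_finsetProd_iff _ |>.1 hd
    have := (Nat.prime_dvd_prime_iff_eq hp (hSp q hq)).1 (hp.dvd_of_dvd_pow hpq)
    exact (Finset.ne_of_mem_erase hq) this.symm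
  have hU0 : (U : ℂ) ≠ 0 := by
    intro h0
    have : U = 0 := by exact_mod_cast h0
    exact hpU (this ▸ dvd_zero p)
  have hΘ := gen_indicator (G := G) S hSp
  obtain ⟨n, hn, _⟩ := gen_coord hΘ
  refine ⟨U, n, hpU, fun i j => ?_⟩
  -- pointwise evaluation
  have hpt : ∀ t : G, (if ∃ q ∈ S, q ∣ orderOf (t * x i * t⁻¹ * (x j)⁻¹) then (0 : ℂ) else (U : ℂ))
      = if t * x i * t⁻¹ = x j then (U : ℂ) else 0 := by
    intro t
    by_cases ht : t * x i * t⁻¹ = x j
    · rw [if_pos ht, ht, mul_inv_cancel, orderOf_one, if_neg]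
      rintro ⟨q, hq, hq1⟩
      exact (hSp q hq).one_lt.ne' (Nat.dvd_one.1 hq1)
    · rw [if_neg ht, if_pos]
      by_contra hcon
      push Not at hcon
      set g := t * x i * t⁻¹ * (x j)⁻¹ with hg
      have hg1 : g ≠ 1 := by
        intro h1
        exact ht (mul_inv_eq_one.1 h1)
      have hpos : orderOf g ≠ 0 := (orderOf_pos g).ne'
      have huniq : ∀ {q : ℕ}, q.Prime → q ∣ orderOf g → q = p := by
        intro q hq hqg
        by_contra hne
        refine hcon q ?_ hqg
        rw [hS, Finset.mem_erase]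
        exact ⟨hne, Nat.mem_primeFactors.2
          ⟨hq, hqg.trans (orderOf_dvd_natCard g), Nat.card_pos.ne'⟩⟩
      have hpow := Nat.eq_prime_pow_of_unique_prime_dvd hpos huniq
      have hk : 0 < (orderOf g).primeFactorsList.length := by
        rcases Nat.eq_zero_or_pos (orderOf g).primeFactorsList.length with h0 | h0
        · rw [h0, pow_zero, orderOf_eq_one_iff] at hpow
          exact absurd hpow hg1
        · exact h0
      exact hsep i j (t * x i * t⁻¹) (x j) (isConj_iff.2 ⟨t, rfl⟩) (IsConj.refl _) _ hk hpow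
  have hL : ∑ t : G, (if ∃ q ∈ S, q ∣ orderOf (t * x i * t⁻¹ * (x j)⁻¹) then (0 : ℂ) else (U : ℂ))
      = if i = j then (U : ℂ) * (Nat.card (Subgroup.centralizer ({x i} : Set G)) : ℂ) else 0 := by
    rw [Finset.sum_congr rfl fun t _ => hpt t]
    by_cases hij : i = j
    · subst hij
      rw [if_pos rfl, ← card_centralizer_eq_sum, Finset.mul_sum]
      apply Finset.sum_congr rfl
      intro t _
      split_ifs <;> simp
    · rw [if_neg hij]
      apply Finset.sum_eq_zero
      intro t _
      rw [if_neg]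
      intro ht
      exact hij (hx i j (isConj_iff.2 ⟨t, ht⟩))
  have hR : ∑ t : G, (if ∃ q ∈ S, q ∣ orderOf (t * x i * t⁻¹ * (x j)⁻¹) then (0 : ℂ) else (U : ℂ))
      = ∑ χ : IrrCharacter G, (n χ : ℂ) * ((Nat.card G : ℂ) * (χ : G → ℂ) (x i)
          * (χ : G → ℂ) (x j)⁻¹ / (χ : G → ℂ) 1) := by
    have h1 : ∀ t : G,
        (if ∃ q ∈ S, q ∣ orderOf (t * x i * t⁻¹ * (x j)⁻¹) then (0 : ℂ) else (U : ℂ))
        = ∑ χ : IrrCharacter G, (n χ : ℂ) * (χ : G → ℂ) (t * x i * t⁻¹ * (x j)⁻¹) := by
      intro t
      have := congrFun hn (t * x i * t⁻¹ * (x j)⁻¹)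
      simpa only [Finset.sum_apply, Pi.smul_apply, smul_eq_mul] using this
    rw [Finset.sum_congr rfl fun t _ => h1 t, Finset.sum_comm]
    apply Finset.sum_congr rfl
    intro χ _
    rw [← Finset.mul_sum, Cfsg.Agent.Lib.Helper81Orth.irr_avg]
  rw [hL] at hR
  have hC0 : (Nat.card (Subgroup.centralizer ({x i} : Set G)) : ℂ) ≠ 0 := by
    exact_mod_cast Nat.card_pos.ne'
  have hGe : (Nat.card G : ℂ) = (Nat.card (Subgroup.centralizer ({x i} : Set G)) : ℂ)
      * ((Subgroup.centralizer ({x i} : Set G)).index : ℂ) := by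
    exact_mod_cast (Subgroup.card_mul_index (Subgroup.centralizer ({x i} : Set G))).symm
  have h2 : (U : ℂ) * (Nat.card (Subgroup.centralizer ({x i} : Set G)) : ℂ)
      * (if i = j then (1 : ℂ) else 0)
      = (U : ℂ) * (Nat.card (Subgroup.centralizer ({x i} : Set G)) : ℂ)
        * ∑ χ : IrrCharacter G,
        ((n χ : ℂ) / U * (χ : G → ℂ) (x j)⁻¹) * centralChar (χ : G → ℂ) (x i) := by
    rw [mul_ite, mul_one, mul_zero, hR, Finset.mul_sum]
    apply Finset.sum_congr rfl
    intro χ _
    rw [hGe, centralChar]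
    field_simp
  exact mul_left_cancel₀ (mul_ne_zero hU0 hC0) h2


theorem deg_le_index {G : Type*} [Group G] [Fintype G] {p : ℕ} {M : Ideal AlgInt}
    (hM : IsPModular p M) (χ : IrrCharacter G) {g : G}
    (h : ¬ MemLocalIdeal M ((χ : G → ℂ) g)) :
    (charDegree (χ : G → ℂ)).factorization p
      ≤ ((Subgroup.centralizer ({g} : Set G)).index).factorization p := by
  have hMp := hM.2.1.isPrime
  have hg0 : (χ : G → ℂ) g ≠ 0 := by
    intro h0
    apply h
    rw [h0]
    exact memLocalIdeal_zero
  have h1 := irr_one_ne_zero χ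
  apply factorization_le_of_eq_mul hM (Subgroup.index_ne_zero_of_finite)
    (z := centralChar (χ : G → ℂ) g * ((χ : G → ℂ) g)⁻¹)
  · exact memLocalRing_mul (memLocalRing_of_isIntegral (irr_omega_integral χ g))
      (memLocalRing_inv (memLocalRing_of_isIntegral (irr_integral χ g)) h)
  · rw [charDegree_eq, centralChar]
    field_simp

theorem centralizer_inv {G : Type*} [Group G] (g : G) :
    Subgroup.centralizer ({g⁻¹} : Set G) = Subgroup.centralizer ({g} : Set G) := by
  ext t
  simp only [Subgroup.mem_centralizer_singleton_iff]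
  constructor
  · intro h
    have : g * (t * g⁻¹) * g = g * (g⁻¹ * t) * g := by rw [h]
    simpa [mul_assoc] using this.symm
  · intro h
    have : g⁻¹ * (t * g) * g⁻¹ = g⁻¹ * (g * t) * g⁻¹ := by rw [h]
    simpa [mul_assoc] using this.symm

theorem det_block_congr {G : Type*} [Group G] [Fintype G] {M : Ideal AlgInt} [M.IsPrime] {r : ℕ}
    (x : Fin r → G) (f f' : Fin r → IrrCharacter G)
    (h : ∀ k, SameBlock M (f k : G → ℂ) (f' k : G → ℂ)) :
    MemLocalIdeal M
      (Matrix.det (Matrix.of fun j i => centralChar (f j : G → ℂ) (x i))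
        - Matrix.det (Matrix.of fun j i => centralChar (f' j : G → ℂ) (x i))) := by
  apply det_congr_mod
  · intro j i
    exact memLocalRing_of_isIntegral (irr_omega_integral _ _)
  · intro j i
    exact memLocalRing_of_isIntegral (irr_omega_integral _ _)
  · intro j i
    exact h j (x i)

/-- Let p be a prime, M a maximal ideal of the algebraic integers containing p, and D a subgroup of the finite group G. Let x₁, …, x_r be pairwise non-conjugate elements of G such that D is a Sylow p-subgroup of the centralizer of each xᵢ, and such that for any conjugates g of some xᵢ and h of some xⱼ the element g h⁻¹ is never a non-identity p-element. Then there are r distinct p-blocks B₁, …, B_r of G, each having D as a defect group, such that for every choice of characters χᵢ ∈ Bᵢ of height zero the determinant of the r × r matrix (χᵢ(xⱼ)) does not lie in the local ideal at M. -/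
theorem result {G : Type*} [Group G] [Finite G] (p : ℕ) [Fact p.Prime] (M : Ideal Cfsg.AlgInt) (hM : Cfsg.IsPModular p M) (D : Subgroup G) {r : ℕ} (x : Fin r → G) (hx : ∀ i j : Fin r, IsConj (x i) (x j) → i = j) (hD : ∀ i : Fin r, ∃ S : Sylow p ↥(Subgroup.centralizer ({x i} : Set G)), (S : Subgroup ↥(Subgroup.centralizer ({x i} : Set G))).map (Subgroup.centralizer ({x i} : Set G)).subtype = D) (hsep : ∀ i j : Fin r, ∀ g h : G, IsConj (x i) g → IsConj (x j) h → ∀ k : ℕ, 0 < k → orderOf (g * h⁻¹) ≠ p ^ k) : ∃ B : Fin r → Set (Cfsg.IrrCharacter G), Function.Injective B ∧ (∀ i : Fin r, Cfsg.IsPBlock M (B i) ∧ Cfsg.IsDefectGroup p M (B i) D) ∧ ∀ χ : Fin r → Cfsg.IrrCharacter G, (∀ i : Fin r, χ i ∈ B i ∧ Cfsg.blockHeight p (B i) (χ i : G → ℂ) = 0) → ¬ Cfsg.MemLocalIdeal M (Matrix.det (Matrix.of fun i j : Fin r => (χ i : G → ℂ) (x j))) := by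
  classical
  have := Fintype.ofFinite G
  have hMp := hM.2.1.isPrime
  have hp : p.Prime := Fact.out
  obtain ⟨U, n, hpU, hid⟩ := key_identity p x hx hsep
  set A : Fin r → IrrCharacter G → ℂ := fun j χ => (n χ : ℂ) / U * (χ : G → ℂ) (x j)⁻¹ with hAdef
  set W : IrrCharacter G → Fin r → ℂ := fun χ i => centralChar (χ : G → ℂ) (x i) with hWdef
  have hdet : (1 : ℂ) = ∑ f : Fin r → IrrCharacter G,
      (∏ j, A j (f j)) * Matrix.det (Matrix.of fun j i => W (f j) i) := by
    rw [← det_sum_smul]
    have h1 : (Matrix.of fun j i => ∑ χ, A j χ * W χ i) = (1 : Matrix (Fin r) (Fin r) ℂ) := by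
      ext j i
      rw [Matrix.of_apply, ← hid i j, Matrix.one_apply]
      by_cases hij : i = j
      · rw [if_pos hij, if_pos hij.symm]
      · rw [if_neg hij, if_neg (fun h => hij h.symm)]
    rw [h1, Matrix.det_one]
  have hW : ∀ χ i, MemLocalRing M (W χ i) := fun χ i =>
    memLocalRing_of_isIntegral (irr_omega_integral χ _)
  have hnU : ∀ χ : IrrCharacter G, MemLocalRing M ((n χ : ℂ) / U) := by
    intro χ
    rw [div_eq_mul_inv]
    exact memLocalRing_mul (memLocalRing_intCast _) (memLocalRing_inv (memLocalRing_natCast U)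
      (fun hh => hpU ((memLocalIdeal_natCast_iff hM).1 hh)))
  have hA : ∀ j χ, MemLocalRing M (A j χ) := fun j χ =>
    memLocalRing_mul (hnU χ) (memLocalRing_of_isIntegral (irr_integral χ _))
  obtain ⟨f, hf⟩ : ∃ f : Fin r → IrrCharacter G, ¬ MemLocalIdeal M
      ((∏ j, A j (f j)) * Matrix.det (Matrix.of fun j i => W (f j) i)) := by
    by_contra hcon
    push Not at hcon
    apply not_memLocalIdeal_one (M := M)
    rw [hdet]
    exact memLocalIdeal_sum _ _ (fun f _ => hcon f)
  have hdetR : MemLocalRing M (Matrix.det (Matrix.of fun j i => W (f j) i)) :=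
    det_memLocalRing _ (fun j i => hW _ _)
  have hprodR : MemLocalRing M (∏ j, A j (f j)) := memLocalRing_prod _ _ (fun j _ => hA _ _)
  have hdetU : ¬ MemLocalIdeal M (Matrix.det (Matrix.of fun j i => W (f j) i)) :=
    fun h => hf (memLocalIdeal_mul hprodR h)
  have hprodU : ¬ MemLocalIdeal M (∏ j, A j (f j)) := fun h => hf (memLocalIdeal_mul_right h hdetR)
  have hAU : ∀ j, ¬ MemLocalIdeal M (A j (f j)) := by
    intro j h
    apply hprodU
    rw [← Finset.mul_prod_erase Finset.univ _ (Finset.mem_univ j)]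
    exact memLocalIdeal_mul_right h (memLocalRing_prod _ _ fun k _ => hA _ _)
  have hchiU : ∀ j, ¬ MemLocalIdeal M ((f j : G → ℂ) (x j)⁻¹) :=
    fun j h => hAU j (memLocalIdeal_mul (hnU _) h)
  have hSyl : ∀ i, SylIn p D (Subgroup.centralizer ({x i} : Set G)) := by
    intro i
    obtain ⟨S, hS⟩ := hD i
    exact sylIn_iff_map.2 ⟨S, hS.symm⟩
  -- the defect groups
  have hdef : ∀ j, IsDefectGroup p M (blockOf M (f j : G → ℂ)) D := by
    intro j
    have hB : IsPBlock M (blockOf M (f j : G → ℂ)) := isPBlock_blockOf (f j)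
    have hχ : f j ∈ blockOf M (f j : G → ℂ) := self_mem_blockOf (f j)
    obtain ⟨i, hi⟩ : ∃ i, ¬ MemLocalIdeal M (W (f j) i) := by
      by_contra hcon
      push Not at hcon
      apply hdetU
      have h0 : Matrix.det (Matrix.of fun k i => if k = j then (0 : ℂ) else W (f k) i) = 0 := by
        apply Matrix.det_eq_zero_of_row_eq_zero j
        intro i
        simp
      have h1 := det_congr_mod (M := M) (Matrix.of fun k i => W (f k) i)
        (Matrix.of fun k i => if k = j then (0 : ℂ) else W (f k) i) (fun k i => hW _ _)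
        (fun k i => by
          simp only [Matrix.of_apply]
          split_ifs
          · exact MemLocalIdeal.memLocalRing memLocalIdeal_zero
          · exact hW _ _)
        (fun k i => by
          simp only [Matrix.of_apply]
          split_ifs with hk
          · subst hk
            simpa using hcon i
          · simpa using memLocalIdeal_zero (M := M))
      rwa [h0, sub_zero] at h1
    obtain ⟨DB, hDB⟩ := exists_defectGroup hM hB
    obtain ⟨t, ht⟩ := defectGroup_le_of_centralChar hM hB hDB hχ hi (hSyl i)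
    have h1 := deg_le_index hM (f j) (hchiU j)
    rw [centralizer_inv] at h1
    have h2 := index_factorization (p := p) (x j)
    have h3 := minVal_le (p := p) hχ
    have h4 : (Nat.card (Subgroup.centralizer ({x j} : Set G))).factorization p
        ≤ blockDefect p (blockOf M (f j : G → ℂ)) := by
      rw [blockDefect_def]
      omega
    have h5 : DB = cj t D := by
      apply Subgroup.eq_of_le_of_card_ge ht
      rw [card_cj, card_defectGroup hM hB hDB, (hSyl j).2]
      exact Nat.pow_le_pow_right hp.pos h4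
    have h6 := isDefectGroup_cj hDB t⁻¹
    rwa [h5, cj_cj, inv_mul_cancel, cj_one] at h6
  refine ⟨fun j => blockOf M (f j : G → ℂ), ?_, fun j => ⟨isPBlock_blockOf (f j), hdef j⟩, ?_⟩
  · intro j l hjl
    by_contra hne
    apply hdetU
    have hs : SameBlock M (f l : G → ℂ) (f j : G → ℂ) := by
      have h1 : f j ∈ blockOf M (f l : G → ℂ) := by
        have : blockOf M (f j : G → ℂ) = blockOf M (f l : G → ℂ) := hjl
        rw [← this]
        exact self_mem_blockOf (f j)
      exact mem_blockOf.1 h1
    have h1 := det_block_congr (M := M) x f (fun k => if k = l then f j else f k) (fun k => by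
      by_cases hk : k = l
      · subst hk
        simpa using hs
      · simpa [hk] using sameBlock_refl (M := M) (f k : G → ℂ))
    have h0 : Matrix.det (Matrix.of fun k i =>
        centralChar (((fun k => if k = l then f j else f k) k : IrrCharacter G) : G → ℂ) (x i))
        = 0 := by
      apply Matrix.det_zero_of_row_eq hne
      funext i
      simp [hne]
    rwa [h0, sub_zero] at h1
  · intro χ' hχ'
    have h1 : ¬ MemLocalIdeal M
        (Matrix.det (Matrix.of fun j i => centralChar (χ' j : G → ℂ) (x i))) := by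
      intro hcon
      apply hdetU
      have h2 := det_block_congr (M := M) x f χ' (fun k => mem_blockOf.1 (hχ' k).1)
      have := memLocalIdeal_add h2 hcon
      simpa using this
    set c : Fin r → ℂ := fun i => (χ' i : G → ℂ) 1
      * ((Subgroup.centralizer ({x i} : Set G)).index : ℂ)⁻¹ with hc
    have hidx : ∀ i, ((Subgroup.centralizer ({x i} : Set G)).index : ℂ) ≠ 0 := by
      intro i
      exact_mod_cast (Subgroup.index_ne_zero_of_finite)
    have hdetc : Matrix.det (Matrix.of fun i j : Fin r => (χ' i : G → ℂ) (x j))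
        = (∏ i, c i) * Matrix.det (Matrix.of fun j i => centralChar (χ' j : G → ℂ) (x i)) := by
      have e1 : (Matrix.of fun i j : Fin r => (χ' i : G → ℂ) (x j))
          = Matrix.of fun i j => (χ' i : G → ℂ) 1 *
            (Matrix.of fun i j => ((Subgroup.centralizer ({x j} : Set G)).index : ℂ)⁻¹ *
              (Matrix.of fun j i => centralChar (χ' j : G → ℂ) (x i)) i j) i j := by
        ext i j
        simp only [Matrix.of_apply, centralChar]
        have := irr_one_ne_zero (χ' i)
        have := hidx j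
        field_simp
      rw [e1, Matrix.det_mul_column, Matrix.det_mul_row, ← mul_assoc, ← Finset.prod_mul_distrib]
    rw [hdetc]
    intro hcon
    apply h1
    have hcinv : ∀ i, MemLocalRing M ((c i)⁻¹) := by
      intro i
      have hB : IsPBlock M (blockOf M (f i : G → ℂ)) := isPBlock_blockOf (f i)
      have e : (c i)⁻¹ = ((Subgroup.centralizer ({x i} : Set G)).index : ℂ)
          / (charDegree (χ' i : G → ℂ) : ℂ) := by
        rw [hc, charDegree_eq]
        simp only [mul_inv, inv_inv]
        rw [mul_comm, div_eq_mul_inv]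
      rw [e]
      apply memLocalRing_natDiv hM (charDegree_pos _).ne'
      have h2 := index_factorization (p := p) (x i)
      have h3 := height_zero_factorization hM (B := blockOf M (f i : G → ℂ)) (hχ' i).1 (hχ' i).2
      have h4 : p ^ blockDefect p (blockOf M (f i : G → ℂ))
          = p ^ (Nat.card (Subgroup.centralizer ({x i} : Set G))).factorization p := by
        rw [← card_defectGroup hM hB (hdef i), (hSyl i).2]
      have h5 := Nat.pow_right_injective hp.two_le h4
      omega
    have hc0 : ∀ i, c i ≠ 0 := fun i => mul_ne_zero (irr_one_ne_zero _) (inv_ne_zero (hidx i))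
    have h7 := memLocalIdeal_mul (memLocalRing_prod Finset.univ (fun i => (c i)⁻¹)
      (fun i _ => hcinv i)) hcon
    rw [← mul_assoc, ← Finset.prod_mul_distrib] at h7
    simpa [hc0] using h7

end Cfsg.Agent.S4741
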