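import Cfsg.Statements.S4743
import Cfsg.Agent.S4742
import Mathlib

set_option autoImplicit false
open Cfsg

namespace Cfsg.Agent.S4743

section

variable {G : Type*} [Group G] [Finite G]

theorem aux (p q : ℕ) [Fact p.Prime] [Fact q.Prime] (hppq : p ≠ q) (hpG : p ∣ Nat.card G)
    (hqG : q ∣ Nat.card G)
    (hC : ∀ g : G, g ≠ 1 → (∃ k : ℕ, orderOf g = p ^ k) →
      ¬ q ∣ Nat.card ↥(Subgroup.centralizer ({g} : Set G)))
    (K : Subgroup G) (hK : K.Normal) (hqK : q ∣ Nat.card K) (hpK : ¬ p ∣ Nat.card K) :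
    ∃ χ : Cfsg.IrrCharacter G,
      (Cfsg.charDegree (χ : G → ℂ)).factorization p = (Nat.card G).factorization p := by
  rcases Cfsg.Agent.S4742.result p q hppq hpG hqG hC with h | h
  · exact h
  exfalso
  obtain ⟨z, hz⟩ := exists_prime_orderOf_dvd_card' q hqK
  rw [← Subgroup.orderOf_coe] at hz
  have hz1 : (z : G) ≠ 1 := by
    intro h1
    rw [h1, orderOf_one] at hz
    exact (Fact.out : q.Prime).one_lt.ne hz
  obtain ⟨g, h', hzg, hzh, hne, k, hk⟩ := h z hz1 ⟨1, by rw [hz, pow_one]⟩
  have hgK : g ∈ K := by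
    obtain ⟨c, rfl⟩ := isConj_iff.mp hzg
    exact hK.conj_mem _ z.2 c
  have hhK : h' ∈ K := by
    obtain ⟨c, rfl⟩ := isConj_iff.mp hzh
    exact hK.conj_mem _ z.2 c
  have h1 : g * h'⁻¹ ∈ K := K.mul_mem hgK (K.inv_mem hhK)
  have h2 := Subgroup.orderOf_dvd_natCard K h1
  rw [hk] at h2
  rcases Nat.eq_zero_or_pos k with rfl | hkpos
  · rw [pow_zero, orderOf_eq_one_iff] at hk
    exact hne hk
  · exact hpK ((dvd_pow_self p hkpos.ne').trans h2)

theorem swap (p q : ℕ) [Fact p.Prime] [Fact q.Prime]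
    (hC : ∀ g : G, g ≠ 1 → (∃ k : ℕ, orderOf g = p ^ k) →
      ¬ q ∣ Nat.card ↥(Subgroup.centralizer ({g} : Set G))) :
    ∀ g : G, g ≠ 1 → (∃ k : ℕ, orderOf g = q ^ k) →
      ¬ p ∣ Nat.card ↥(Subgroup.centralizer ({g} : Set G)) := by
  rintro z hz ⟨k, hk⟩ hdvd
  obtain ⟨y, hy⟩ := exists_prime_orderOf_dvd_card' p hdvd
  rw [← Subgroup.orderOf_coe] at hy
  have hy1 : (y : G) ≠ 1 := by
    intro h1
    rw [h1, orderOf_one] at hy
    exact (Fact.out : p.Prime).one_lt.ne hy
  apply hC y hy1 ⟨1, by rw [hy, pow_one]⟩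
  have hzC : z ∈ Subgroup.centralizer ({(y : G)} : Set G) := by
    rw [Subgroup.mem_centralizer_iff]
    intro h hh
    rw [Set.mem_singleton_iff.mp hh]
    exact ((Subgroup.mem_centralizer_iff.mp y.2) z (Set.mem_singleton z)).symm
  have h2 := Subgroup.orderOf_dvd_natCard _ hzC
  rw [hk] at h2
  have hk0 : k ≠ 0 := by
    rintro rfl
    rw [pow_zero, orderOf_eq_one_iff] at hk
    exact hz hk
  exact (dvd_pow_self q hk0).trans h2

theorem solv_case (p q : ℕ) [Fact p.Prime] [Fact q.Prime] (hppq : p ≠ q) (hpG : p ∣ Nat.card G)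
    (hqG : q ∣ Nat.card G)
    (hC : ∀ g : G, g ≠ 1 → (∃ k : ℕ, orderOf g = p ^ k) →
      ¬ q ∣ Nat.card ↥(Subgroup.centralizer ({g} : Set G)))
    (hsolv : Cfsg.IsPSolvable p G) :
    (∃ χ : Cfsg.IrrCharacter G,
      (Cfsg.charDegree (χ : G → ℂ)).factorization p = (Nat.card G).factorization p) ∨
    (∃ χ : Cfsg.IrrCharacter G,
      (Cfsg.charDegree (χ : G → ℂ)).factorization q = (Nat.card G).factorization q) := by
  have hp : p.Prime := Fact.out
  have hq : q.Prime := Fact.out
  obtain ⟨n, H, h0, hlast, hmono, hnorm, hstep⟩ := hsolv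
  by_contra hcon
  have key : ∀ i : Fin (n + 1), ¬ p ∣ Nat.card (H i) := by
    intro i
    induction i using Fin.induction with
    | zero =>
      rw [h0, Subgroup.card_bot]
      exact fun h => hp.one_lt.ne' (Nat.dvd_one.mp h)
    | succ i ih =>
      intro hdvd
      apply hcon
      have hle : H i.castSucc ≤ H i.succ := hmono (Fin.castSucc_le_succ i)
      have hcard : Nat.card (H i.castSucc) * (H i.castSucc).relIndex (H i.succ)
          = Nat.card (H i.succ) := by
        have := Subgroup.relIndex_mul_relIndex ⊥ (H i.castSucc) (H i.succ) bot_le hle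
        rwa [Subgroup.relIndex_bot_left, Subgroup.relIndex_bot_left] at this
      by_cases hqK : q ∣ Nat.card (H i.castSucc)
      · left
        exact aux p q hppq hpG hqG hC _ (hnorm _) hqK ih
      · right
        refine aux q p hppq.symm hqG hpG (swap p q hC) _ (hnorm i.succ) hdvd ?_
        rcases hstep i with ⟨m, hm⟩ | hcop
        · rw [← hcard, hm]
          intro h1
          rcases (Nat.Prime.dvd_mul hq).mp h1 with h2 | h2
          · exact hqK h2
          · exact hppq ((Nat.prime_dvd_prime_iff_eq hq hp).mp (hq.dvd_of_dvd_pow h2)).symm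
        · exfalso
          rw [← hcard] at hdvd
          rcases (Nat.Prime.dvd_mul hp).mp hdvd with h2 | h2
          · exact ih h2
          · exact hp.one_lt.ne' (Nat.Coprime.eq_one_of_dvd hcop.symm h2)
  apply key (Fin.last n)
  rw [hlast, Subgroup.card_top]
  exact hpG

end

/-- Let p ≠ q be primes dividing the order of the finite group G, suppose the centralizer of every non-identity p-element has order prime to q, and suppose G is p-solvable or q-solvable. Then G has an irreducible character of p-defect zero or an irreducible character of q-defect zero. -/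
theorem result {G : Type*} [Group G] [Finite G] (p q : ℕ) [Fact p.Prime] [Fact q.Prime] (hppq : p ≠ q) (hpG : p ∣ Nat.card G) (hqG : q ∣ Nat.card G) (hC : ∀ g : G, g ≠ 1 → (∃ k : ℕ, orderOf g = p ^ k) → ¬ q ∣ Nat.card ↥(Subgroup.centralizer ({g} : Set G))) (hsolv : Cfsg.IsPSolvable p G ∨ Cfsg.IsPSolvable q G) : (∃ χ : Cfsg.IrrCharacter G, (Cfsg.charDegree (χ : G → ℂ)).factorization p = (Nat.card G).factorization p) ∨ (∃ χ : Cfsg.IrrCharacter G, (Cfsg.charDegree (χ : G → ℂ)).factorization q = (Nat.card G).factorization q) := by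
  rcases hsolv with h | h
  · exact solv_case p q hppq hpG hqG hC h
  · exact (solv_case q p hppq.symm hqG hpG (swap p q hC) h).symm

end Cfsg.Agent.S4743
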