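import Cfsg.Statements.S4744
import Cfsg.Agent.S4742
import Cfsg.Agent.S3982

set_option autoImplicit false
open Cfsg

namespace Cfsg.Agent.S4744

/-- Let p be an odd prime and G a finite group of even order divisible by p in which the centralizer of every non-identity p-element has odd order. Then either G has an irreducible character of p-defect zero, or the normalizer of every Sylow p-subgroup P of G has even order and P is abelian. -/
theorem result {G : Type*} [Group G] [Finite G] (p : ℕ) [Fact p.Prime] (hp2 : p ≠ 2) (hpG : p ∣ Nat.card G) (h2G : 2 ∣ Nat.card G) (hC : ∀ g : G, g ≠ 1 → (∃ k : ℕ, orderOf g = p ^ k) → Odd (Nat.card ↥(Subgroup.centralizer ({g} : Set G)))) : (∃ χ : Cfsg.IrrCharacter G, (Cfsg.charDegree (χ : G → ℂ)).factorization p = (Nat.card G).factorization p) ∨ ∀ P : Sylow p G, Even (Nat.card ↥(Subgroup.normalizer ((P : Subgroup G) : Set G))) ∧ IsMulCommutative ↥(P : Subgroup G) := by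
  have hC' : ∀ g : G, g ≠ 1 → (∃ k : ℕ, orderOf g = p ^ k) →
      ¬ 2 ∣ Nat.card ↥(Subgroup.centralizer ({g} : Set G)) := by
    intro g hg hk h2
    exact (Nat.not_even_iff_odd.2 (hC g hg hk)) (even_iff_two_dvd.2 h2)
  rcases Cfsg.Agent.S4742.result p 2 hp2 hpG h2G hC' with h | h
  · exact Or.inl h
  right
  obtain ⟨z, hz⟩ := exists_prime_orderOf_dvd_card' 2 h2G
  have hz1 : z ≠ 1 := by
    intro h1; rw [h1, orderOf_one] at hz; omega
  obtain ⟨g, h', hzg, hzh, hne, k, hk⟩ := h z hz1 ⟨1, by rw [hz, pow_one]⟩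
  have hsq : ∀ w : G, IsConj z w → w * w = 1 := by
    intro w hw
    obtain ⟨c, hc⟩ := isConj_iff.1 hw
    have hzz : z * z = 1 := by rw [← pow_two, ← hz]; exact pow_orderOf_eq_one z
    rw [← hc]
    calc c * z * c⁻¹ * (c * z * c⁻¹) = c * (z * z) * c⁻¹ := by group
      _ = 1 := by rw [hzz]; group
  have hgg := hsq g hzg
  have hhh := hsq h' hzh
  have hginv : g⁻¹ = g := inv_eq_of_mul_eq_one_left hgg
  have hhinv : h'⁻¹ = h' := inv_eq_of_mul_eq_one_left hhh
  have hg1 : g ≠ 1 := by
    intro h1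
    obtain ⟨c, hc⟩ := isConj_iff.1 hzg
    apply hz1
    rw [h1] at hc
    have : z = c⁻¹ * (c * z * c⁻¹) * c := by group
    rw [this, hc]; group
  have hgo : orderOf g = 2 := orderOf_eq_prime (by rw [pow_two]; exact hgg) hg1
  set x := g * h'⁻¹ with hx
  have hconj : g * x * g⁻¹ = x⁻¹ := by
    rw [hx, hhinv, hginv, mul_inv_rev, hhinv, hginv]
    calc g * (g * h') * g = (g * g) * h' * g := by group
      _ = h' * g := by rw [hgg, one_mul]
  set Q := Subgroup.zpowers x with hQ
  have hQp : IsPGroup p Q := IsPGroup.of_card (n := k) (by rw [Nat.card_zpowers, hk])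
  have hQ1 : Q ≠ ⊥ := by
    intro hb
    exact hne (Subgroup.zpowers_eq_bot.1 hb)
  have hA : ∀ y ∈ Q, g * y * g⁻¹ ∈ Q := by
    intro y hy
    obtain ⟨n, rfl⟩ := Subgroup.mem_zpowers_iff.1 hy
    have : g * x ^ n * g⁻¹ = (g * x * g⁻¹) ^ n := (conj_zpow).symm
    rw [this, hconj]
    exact Q.zpow_mem (Q.inv_mem (Subgroup.mem_zpowers x)) n
  have hgN : g ∈ Subgroup.normalizer (Q : Set G) := by
    rw [Subgroup.mem_normalizer_iff]
    intro y
    refine ⟨hA y, fun hy => ?_⟩
    have := hA _ hy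
    have e : g * (g * y * g⁻¹) * g⁻¹ = y := by
      rw [hginv]
      calc g * (g * y * g) * g = (g * g) * y * (g * g) := by group
        _ = y := by rw [hgg]; group
    rwa [e] at this
  have hev : Even (Nat.card ↥(Subgroup.normalizer (Q : Set G))) := by
    rw [even_iff_two_dvd, ← hgo]
    exact Subgroup.orderOf_dvd_natCard _ hgN
  intro P
  have hevP := Cfsg.Agent.S3982.result p hp2 hpG h2G hC Q hQp hQ1 hev P
  refine ⟨hevP, ?_⟩
  obtain ⟨t, ht⟩ := exists_prime_orderOf_dvd_card' 2 (even_iff_two_dvd.1 hevP)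
  let φ : ↥(P : Subgroup G) →* ↥(P : Subgroup G) :=
    ((P : Subgroup G).normalizerMonoidHom t).toMonoidHom
  have hφ : ∀ u : ↥(P : Subgroup G), ((φ u : ↥(P : Subgroup G)) : G) = (t : G) * u * (t : G)⁻¹ :=
    fun u => rfl
  have htt : (t : G) * (t : G) = 1 := by
    have : t ^ 2 = 1 := by rw [← ht]; exact pow_orderOf_eq_one t
    have := congrArg Subtype.val this
    simpa [pow_two] using this
  have hto : orderOf (t : G) = 2 := by rw [Subgroup.orderOf_coe, ht]
  have hfpf : MonoidHom.FixedPointFree φ := by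
    intro u hu
    by_contra hu1
    have hu1' : (u : G) ≠ 1 := fun h => hu1 (Subtype.ext h)
    have hup : ∃ k : ℕ, orderOf (u : G) = p ^ k := by
      obtain ⟨k, hk⟩ := (IsPGroup.iff_orderOf.1 P.2) u
      exact ⟨k, by rw [Subgroup.orderOf_coe, hk]⟩
    have hodd := hC u hu1' hup
    have htc : (t : G) ∈ Subgroup.centralizer ({(u : G)} : Set G) := by
      rw [Subgroup.mem_centralizer_singleton_iff]
      have := congrArg Subtype.val hu
      rw [hφ] at this
      calc (t : G) * u = ((t : G) * u * (t : G)⁻¹) * t := by group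
        _ = u * t := by rw [this]
    have h2 : 2 ∣ Nat.card ↥(Subgroup.centralizer ({(u : G)} : Set G)) := by
      rw [← hto]; exact Subgroup.orderOf_dvd_natCard _ htc
    exact (Nat.not_even_iff_odd.2 hodd) (even_iff_two_dvd.2 h2)
  have hinv : Function.Involutive φ := by
    intro u
    apply Subtype.ext
    rw [hφ, hφ]
    have htinv : (t : G)⁻¹ = t := inv_eq_of_mul_eq_one_left htt
    rw [htinv]
    calc (t : G) * ((t : G) * u * t) * t = ((t : G) * t) * u * ((t : G) * t) := by group
      _ = u := by rw [htt]; group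
  exact ⟨⟨fun a b => hfpf.commute_all_of_involutive hinv a b⟩⟩

end Cfsg.Agent.S4744
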