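import Cfsg.Statements.S4746
import Cfsg.Agent.S4742
import Cfsg.Agent.Lib.Helper83Char
import Cfsg.Agent.Lib.Helper4Char3
import Cfsg.Agent.Lib.Helper4Eigen
import Mathlib

set_option autoImplicit false
open Cfsg

namespace Cfsg.Agent.S4746

open Cfsg.Agent.Lib.Helper83Char Cfsg.Agent.Lib.Helper4Char2 Cfsg.Agent.Lib.Helper4Eigen
open scoped ComplexConjugate

/-- `z` is twice an algebraic integer. -/
def E (z : ℂ) : Prop := IsIntegral ℤ (z / 2)

theorem E_zero : E 0 := by unfold E; simpa using isIntegral_zero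

theorem E_add {a b : ℂ} (ha : E a) (hb : E b) : E (a + b) := by
  unfold E at *; rw [add_div]; exact ha.add hb

theorem E_neg {a : ℂ} (ha : E a) : E (-a) := by
  unfold E at *; rw [neg_div]; exact ha.neg

theorem E_sub {a b : ℂ} (ha : E a) (hb : E b) : E (a - b) := by
  unfold E at *; rw [sub_div]; exact ha.sub hb

theorem E_mul {a b : ℂ} (ha : E a) (hb : IsIntegral ℤ b) : E (a * b) := by
  unfold E at *
  have : a * b / 2 = a / 2 * b := by ring
  rw [this]; exact ha.mul hb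

theorem E_two_mul {a : ℂ} (ha : IsIntegral ℤ a) : E (2 * a) := by
  unfold E
  have : 2 * a / 2 = a := by ring
  rwa [this]

theorem E_sum {ι : Type*} (s : Finset ι) (f : ι → ℂ) (h : ∀ i ∈ s, E (f i)) : E (∑ i ∈ s, f i) := by
  unfold E at *
  rw [Finset.sum_div]
  exact IsIntegral.sum _ h

theorem E_sq_sum {ι : Type*} (s : Finset ι) (f : ι → ℂ) (h : ∀ i ∈ s, IsIntegral ℤ (f i)) :
    E ((∑ i ∈ s, f i) ^ 2 - ∑ i ∈ s, f i ^ 2) := by
  classical
  induction s using Finset.induction_on with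
  | empty => simpa using E_zero
  | insert a s ha ih =>
    rw [Finset.sum_insert ha, Finset.sum_insert ha]
    have h1 := ih (fun i hi => h i (Finset.mem_insert_of_mem hi))
    have h2 : IsIntegral ℤ (f a * ∑ i ∈ s, f i) :=
      (h a (Finset.mem_insert_self a s)).mul
        (IsIntegral.sum _ (fun i hi => h i (Finset.mem_insert_of_mem hi)))
    have h3 : (f a + ∑ i ∈ s, f i) ^ 2 - (f a ^ 2 + ∑ i ∈ s, f i ^ 2)
        = ((∑ i ∈ s, f i) ^ 2 - ∑ i ∈ s, f i ^ 2) + 2 * (f a * ∑ i ∈ s, f i) := by ring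
    rw [h3]
    exact E_add h1 (E_two_mul h2)

section

variable {G : Type*} [Group G] [Fintype G]

theorem irr_int (χ : IrrCharacter G) (g : G) : IsIntegral ℤ ((χ : G → ℂ) g) := by
  obtain ⟨n, ρ, _, hρ⟩ := χ.2
  rw [← hρ]
  exact char_isIntegral ρ g

theorem E_sq (χ : IrrCharacter G) (u : G) : E ((χ : G → ℂ) u ^ 2 - (χ : G → ℂ) (u ^ 2)) := by
  obtain ⟨n, ρ, _, hρ⟩ := χ.2
  rw [← hρ]
  obtain ⟨μ, h1, -, h3, h4, -⟩ := exists_eigenvalues ρ u
  rw [h3 2, h4]
  apply E_sq_sum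
  intro i _
  exact IsIntegral.of_pow (orderOf_pos u) (by rw [h1 i]; exact isIntegral_one)

theorem E_invol (χ : IrrCharacter G) (hodd : Odd (charDegree (χ : G → ℂ))) (t : G)
    (ht : orderOf t = 2) : E ((χ : G → ℂ) t - 1) := by
  have hdeg := charDegree_cast χ.2
  obtain ⟨n, ρ, _, hρ⟩ := χ.2
  have h1 : (χ : G → ℂ) 1 = (n : ℂ) := by rw [← hρ]; simp
  have hn : charDegree (χ : G → ℂ) = n := by
    rw [h1] at hdeg; exact_mod_cast hdeg
  rw [hn] at hodd
  rw [← hρ]
  obtain ⟨μ, h2, -, -, h4, -⟩ := exists_eigenvalues ρ t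
  rw [h4]
  have h5 : ∑ i, μ i - 1 = ∑ i, (μ i - 1) + ((n : ℂ) - 1) := by
    rw [Finset.sum_sub_distrib]
    simp
  rw [h5]
  apply E_add
  · apply E_sum
    intro i _
    have h6 := h2 i
    rw [ht] at h6
    have h7 : (μ i - 1) * (μ i + 1) = 0 := by linear_combination h6
    rcases mul_eq_zero.mp h7 with h | h
    · rw [h]; exact E_zero
    · have : μ i - 1 = 2 * (-1) := by linear_combination h
      rw [this]
      exact E_two_mul (isIntegral_one.neg)
  · obtain ⟨m, rfl⟩ := hodd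
    have : ((2 * m + 1 : ℕ) : ℂ) - 1 = 2 * (m : ℂ) := by push_cast; ring
    rw [this]
    exact E_two_mul (isIntegral_natCast m)

omit [Fintype G] in
theorem orderOf_conj' (a x : G) : orderOf (a * x * a⁻¹) = orderOf x :=
  (SemiconjBy.orderOf_eq a (x := x) (y := a * x * a⁻¹) (by unfold SemiconjBy; group)).symm

theorem E_sum_irr (hall : ∀ χ : IrrCharacter G, Odd (charDegree (χ : G → ℂ))) (t : G)
    (ht : orderOf t = 2) (v : G) (hv : Odd (orderOf v)) :
    E (∑ χ : IrrCharacter G, (χ : G → ℂ) v) := by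
  classical
  have h1 := col_orth v t
  have hnc : ¬ IsConj v t := by
    intro h
    obtain ⟨c, rfl⟩ := isConj_iff.mp h
    rw [orderOf_conj'] at ht
    rw [ht] at hv
    exact absurd hv (by decide)
  rw [if_neg hnc] at h1
  have htinv : t⁻¹ = t := by
    apply inv_eq_of_mul_eq_one_left
    rw [← pow_two, ← ht, pow_orderOf_eq_one]
  have h2 : ∑ χ : IrrCharacter G, (χ : G → ℂ) v
      = - ∑ χ : IrrCharacter G, ((χ : G → ℂ) t - 1) * (χ : G → ℂ) v := by
    have h3 : ∑ χ : IrrCharacter G, ((χ : G → ℂ) t - 1) * (χ : G → ℂ) v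
        = ∑ χ : IrrCharacter G, (χ : G → ℂ) v * conj ((χ : G → ℂ) t)
          - ∑ χ : IrrCharacter G, (χ : G → ℂ) v := by
      rw [← Finset.sum_sub_distrib]
      apply Finset.sum_congr rfl
      intro χ _
      rw [← irr_inv χ.2, htinv]; ring
    rw [h3, h1]; ring
  rw [h2]
  apply E_neg
  apply E_sum
  intro χ _
  exact E_mul (E_invol χ (hall χ) t ht) (irr_int χ v)

theorem exists_even_degree (t u g : G) (ht : orderOf t = 2) (hgu : g * u * g⁻¹ = u⁻¹)
    (hodd : Odd (Nat.card (Subgroup.centralizer ({u} : Set G)))) :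
    ∃ χ : IrrCharacter G, Even (charDegree (χ : G → ℂ)) := by
  classical
  by_contra hcon
  push Not at hcon
  have hall : ∀ χ : IrrCharacter G, Odd (charDegree (χ : G → ℂ)) := fun χ =>
    Nat.not_even_iff_odd.mp (hcon χ)
  have huC : u ∈ Subgroup.centralizer ({u} : Set G) := by
    rw [Subgroup.mem_centralizer_iff]
    intro h hh
    rw [Set.mem_singleton_iff.mp hh]
  have hu : Odd (orderOf u) := Odd.of_dvd_nat hodd (Subgroup.orderOf_dvd_natCard _ huC)
  have hu2 : Odd (orderOf (u ^ 2)) := Odd.of_dvd_nat hu (orderOf_pow_dvd 2)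
  have h1 := col_orth u u
  rw [if_pos (IsConj.refl u)] at h1
  have h2 : ∀ χ : IrrCharacter G, conj ((χ : G → ℂ) u) = (χ : G → ℂ) u := by
    intro χ
    rw [← irr_inv χ.2, ← hgu]
    exact irr_class χ.2 u g
  have h3 : (Nat.card (Subgroup.centralizer ({u} : Set G)) : ℂ)
      = ∑ χ : IrrCharacter G, ((χ : G → ℂ) u ^ 2 - (χ : G → ℂ) (u ^ 2))
        + ∑ χ : IrrCharacter G, (χ : G → ℂ) (u ^ 2) := by
    rw [← h1, ← Finset.sum_add_distrib]
    apply Finset.sum_congr rfl
    intro χ _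
    rw [h2]; ring
  have h4 : E (Nat.card (Subgroup.centralizer ({u} : Set G)) : ℂ) := by
    rw [h3]
    exact E_add (E_sum _ _ (fun χ _ => E_sq χ u)) (E_sum_irr hall t ht _ hu2)
  have h5 := Cfsg.Agent.Lib.Helper4Char3.dvd_of_isIntegral_div
    (Nat.card (Subgroup.centralizer ({u} : Set G))) 2 (by norm_num) h4
  exact (Nat.not_even_iff_odd.mpr hodd) (even_iff_two_dvd.mpr h5)

end

/-- Let p be an odd prime and G a finite group of even order divisible by p in which the centralizer of every non-identity p-element has odd order. Then G has an irreducible character of p-defect zero or an irreducible character of even degree. -/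
theorem result {G : Type*} [Group G] [Finite G] (p : ℕ) [Fact p.Prime] (hp2 : p ≠ 2) (hpG : p ∣ Nat.card G) (h2G : 2 ∣ Nat.card G) (hC : ∀ g : G, g ≠ 1 → (∃ k : ℕ, orderOf g = p ^ k) → Odd (Nat.card ↥(Subgroup.centralizer ({g} : Set G)))) : (∃ χ : Cfsg.IrrCharacter G, (Cfsg.charDegree (χ : G → ℂ)).factorization p = (Nat.card G).factorization p) ∨ ∃ χ : Cfsg.IrrCharacter G, Even (Cfsg.charDegree (χ : G → ℂ)) := by
  classical
  have := Fintype.ofFinite G
  have hC' : ∀ g : G, g ≠ 1 → (∃ k : ℕ, orderOf g = p ^ k) →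
      ¬ 2 ∣ Nat.card ↥(Subgroup.centralizer ({g} : Set G)) := by
    intro g hg hk h2
    exact (Nat.not_even_iff_odd.mpr (hC g hg hk)) (even_iff_two_dvd.mpr h2)
  rcases Cfsg.Agent.S4742.result p 2 hp2 hpG h2G hC' with h | h
  · left; exact h
  right
  obtain ⟨z, hz⟩ := exists_prime_orderOf_dvd_card' 2 h2G
  have hz1 : z ≠ 1 := by
    rintro rfl
    rw [orderOf_one] at hz
    norm_num at hz
  obtain ⟨g, h', hzg, hzh, hne, k, hk⟩ := h z hz1 ⟨1, by rw [hz, pow_one]⟩
  have hg2 : orderOf g = 2 := by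
    obtain ⟨c, rfl⟩ := isConj_iff.mp hzg
    rw [orderOf_conj', hz]
  have hh2 : orderOf h' = 2 := by
    obtain ⟨c, rfl⟩ := isConj_iff.mp hzh
    rw [orderOf_conj', hz]
  have hgg : g * g = 1 := by rw [← pow_two, ← hg2, pow_orderOf_eq_one]
  have hhh : h' * h' = 1 := by rw [← pow_two, ← hh2, pow_orderOf_eq_one]
  have hhinv : h'⁻¹ = h' := inv_eq_of_mul_eq_one_left hhh
  have hgu : g * (g * h'⁻¹) * g⁻¹ = (g * h'⁻¹)⁻¹ := by
    rw [mul_inv_rev, inv_inv, ← mul_assoc, hgg, one_mul, hhinv]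
  exact exists_even_degree g (g * h'⁻¹) g hg2 hgu (hC _ hne ⟨k, hk⟩)

end Cfsg.Agent.S4746
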