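import Cfsg.Statements.S4748
import Cfsg.Agent.Lib.Helper82TISolv
import Cfsg.Agent.Lib.Helper67Basic

set_option autoImplicit false
open scoped Pointwise
open Cfsg

namespace Cfsg.Agent.S4748

open Cfsg.Agent.Lib.Helper82TISolv

theorem exists_section {G : Type*} [Group G] [Finite G] (p : ℕ) [Fact p.Prime]
    (hsolv : Cfsg.IsPSolvable p G) (hdvd : p ∣ Nat.card G) :
    ∃ K L : Subgroup G, K.Normal ∧ L.Normal ∧ K ≤ L ∧ (Nat.card K).Coprime p ∧
      p ∣ Nat.card L ∧ ∃ m, K.relIndex L = p ^ m := by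
  have hp : p.Prime := Fact.out
  obtain ⟨n, H, h0, hn, hmono, hnorm, hfac⟩ := hsolv
  have key : ∀ i : Fin (n + 1), p ∣ Nat.card (H i) →
      ∃ j : Fin n, ¬ p ∣ Nat.card (H j.castSucc) ∧ p ∣ Nat.card (H j.succ) := by
    intro i
    induction i using Fin.induction with
    | zero =>
      intro h
      rw [h0, Subgroup.card_bot] at h
      exact absurd (Nat.dvd_one.mp h) hp.one_lt.ne'
    | succ i ih =>
      intro h
      by_cases h1 : p ∣ Nat.card (H i.castSucc)
      · exact ih h1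
      · exact ⟨i, h1, h⟩
  obtain ⟨j, hj1, hj2⟩ := key (Fin.last n) (by rw [hn, Subgroup.card_top]; exact hdvd)
  have hle : H j.castSucc ≤ H j.succ := hmono (Fin.castSucc_lt_succ).le
  refine ⟨H j.castSucc, H j.succ, hnorm _, hnorm _, hle,
    ((Nat.Prime.coprime_iff_not_dvd hp).mpr hj1).symm, hj2, ?_⟩
  rcases hfac j with h | h
  · exact h
  · exfalso
    have h3 := Subgroup.relIndex_mul_relIndex ⊥ _ _ bot_le hle
    rw [Subgroup.relIndex_bot_left, Subgroup.relIndex_bot_left] at h3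
    rw [← h3] at hj2
    rcases (Nat.Prime.dvd_mul hp).mp hj2 with h2 | h2
    · exact hj1 h2
    · exact (Nat.Prime.coprime_iff_not_dvd hp).mp h.symm h2

/-- Let G be a finite p-solvable group whose Sylow p-subgroup P meets each conjugate g P g⁻¹ with g outside N_G(P) trivially, and let χ be a faithful character of G (χ g = χ 1 only for g = 1) whose degree d satisfies d² ≤ |P|. Then P is normal in G. -/
theorem result {G : Type*} [Group G] [Finite G] (p : ℕ) [Fact p.Prime] (hsolv : Cfsg.IsPSolvable p G) (P : Sylow p G) (hTI : ∀ g : G, g ∉ Subgroup.normalizer ((P : Subgroup G) : Set G) → (P : Subgroup G) ⊓ (MulAut.conj g • (P : Subgroup G)) = ⊥) (χ : G → ℂ) (hχ : Cfsg.IsCharacter G χ) (hfaith : ∀ g : G, χ g = χ 1 → g = 1) (hdeg : Cfsg.charDegree χ ^ 2 ≤ Nat.card ↥(P : Subgroup G)) : (P : Subgroup G).Normal := by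
  have hp : p.Prime := Fact.out
  by_cases hP1 : (P : Subgroup G) = ⊥
  · rw [hP1]
    infer_instance
  have hdvd : p ∣ Nat.card G := by
    obtain ⟨n, hn⟩ := P.2.exists_card_eq
    have hn0 : n ≠ 0 := by
      rintro rfl
      rw [pow_zero, Subgroup.card_eq_one] at hn
      exact hP1 hn
    exact ((dvd_pow_self p hn0).trans hn.symm.dvd).trans (Subgroup.card_subgroup_dvd_card _)
  obtain ⟨K, L, hKn, hLn, hKL, hK, hL, m, hm⟩ := exists_section p hsolv hdvd
  have hel := elementwise_of_TI p P hTI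
  -- `K` centralizes `P`
  have hKP : K ≤ Subgroup.normalizer ((P : Subgroup G) : Set G) := by
    refine le_trans ?_ (Subgroup.centralizer_le_normalizer _)
    intro k hk
    rw [Subgroup.mem_centralizer_iff]
    intro x hx
    have := commute_of_faithful' p K hK P hTI hP1 hχ hfaith hdeg hk hx
    have h2 : x * k * x⁻¹ = k := mul_inv_eq_one.mp this
    exact mul_inv_eq_iff_eq_mul.mp h2
  have hnd : ¬ p ∣ ((P : Subgroup G) ⊓ L).relIndex L := by
    rw [Subgroup.inf_relIndex_right]
    exact fun h => P.not_dvd_index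
      (h.trans (Cfsg.Agent.Lib.Helper67Basic.relIndex_dvd_index_of_normal_right _ L))
  have hQ1 : (P : Subgroup G) ⊓ L ≠ ⊥ := by
    intro h
    apply hnd
    rw [h, Subgroup.relIndex_bot_left]
    exact hL
  have hLle : L ≤ K ⊔ ((P : Subgroup G) ⊓ L) := by
    rw [← Subgroup.relIndex_eq_one]
    have h1 : (K ⊔ ((P : Subgroup G) ⊓ L)).relIndex L ∣ p ^ m :=
      hm ▸ Subgroup.relIndex_dvd_of_le_left L le_sup_left
    have h2 : (K ⊔ ((P : Subgroup G) ⊓ L)).relIndex L ∣ ((P : Subgroup G) ⊓ L).relIndex L :=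
      Subgroup.relIndex_dvd_of_le_left L le_sup_right
    obtain ⟨a, -, ha⟩ := (Nat.dvd_prime_pow hp).mp h1
    rcases Nat.eq_zero_or_pos a with rfl | ha0
    · rw [ha, pow_zero]
    · exact absurd ((ha ▸ dvd_pow_self p ha0.ne').trans h2) hnd
  have hNQ : Subgroup.normalizer (((P : Subgroup G) ⊓ L : Subgroup G) : Set G) ≤
      Subgroup.normalizer ((P : Subgroup G) : Set G) := by
    intro g hg
    obtain ⟨w, hw1⟩ := Subgroup.ne_bot_iff_exists_ne_one.mp hQ1
    have hg' := (Subgroup.normalizer _).inv_mem hg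
    have h1 := (Subgroup.mem_normalizer_iff.mp hg' w).mp w.2
    rw [inv_inv] at h1
    exact hel w w.2.1 (fun h0 => hw1 (Subtype.ext h0)) g h1.1
  have htop := Cfsg.Agent.Lib.Helper67Basic.normalizer_inf_sup_eq_top P L
  rw [← Subgroup.normalizer_eq_top_iff, eq_top_iff, ← htop]
  refine sup_le hNQ (hLle.trans (sup_le hKP (inf_le_left.trans Subgroup.le_normalizer)))

end Cfsg.Agent.S4748
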