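import Cfsg.Statements.S4754
import Cfsg.Agent.S0136
import Cfsg.Agent.Lib.Helper82Schur
-- import your own Cfsg.Agent.* helpers here

set_option autoImplicit false
open Cfsg

namespace Cfsg.Agent.S4754

open Cfsg.Agent.Lib.Helper82Schur

/-- For elements x, y of a finite group G, the conjugacy class of x y equals the set of all products of a conjugate of x with a conjugate of y if and only if χ(1) χ(a x a⁻¹ b y b⁻¹) = χ(x) χ(y) for all a, b ∈ G and every irreducible character χ. -/
theorem result {G : Type*} [Group G] [Finite G] (x y : G) : (∀ z : G, IsConj (x * y) z ↔ ∃ a b : G, z = a * x * a⁻¹ * (b * y * b⁻¹)) ↔ ∀ (a b : G) (χ : Cfsg.IrrCharacter G), (χ : G → ℂ) 1 * (χ : G → ℂ) (a * x * a⁻¹ * (b * y * b⁻¹)) = (χ : G → ℂ) x * (χ : G → ℂ) y := by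
  haveI := Fintype.ofFinite G
  have hcard : (Nat.card G : ℂ) ≠ 0 := by
    exact_mod_cast Nat.card_pos.ne'
  constructor
  · intro h a b χ
    have hconst : ∀ c : G, (χ : G → ℂ) (x * (c * y * c⁻¹)) = (χ : G → ℂ) (x * y) := by
      intro c
      have : IsConj (x * y) (x * (c * y * c⁻¹)) := (h _).2 ⟨1, c, by simp⟩
      exact (irr_isConj χ this).symm
    have hab : (χ : G → ℂ) (a * x * a⁻¹ * (b * y * b⁻¹)) = (χ : G → ℂ) (x * y) :=
      (irr_isConj χ ((h _).2 ⟨a, b, rfl⟩)).symm
    have hs := irr_sum_mul_conj χ x y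
    simp only [hconst, Finset.sum_const, Finset.card_univ, nsmul_eq_mul] at hs
    rw [← Nat.card_eq_fintype_card] at hs
    rw [hab]
    have h1 := irr_one_ne_zero χ
    field_simp at hs
    linear_combination hs
  · intro h z
    have hxy : ∀ (a b : G), IsConj (x * y) (a * x * a⁻¹ * (b * y * b⁻¹)) := by
      intro a b
      rw [Cfsg.Agent.S0136.result]
      intro χ
      have h1 := irr_one_ne_zero χ
      have e1 := h a b χ
      have e2 := h 1 1 χ
      simp only [one_mul, inv_one, mul_one] at e2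
      exact mul_left_cancel₀ h1 (e2.trans e1.symm)
    constructor
    · intro hz
      obtain ⟨c, hc⟩ := isConj_iff.mp hz
      exact ⟨c, c, by rw [← hc]; group⟩
    · rintro ⟨a, b, rfl⟩
      exact hxy a b

end Cfsg.Agent.S4754
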