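import Cfsg.Statements.S4755
import Cfsg.Agent.Lib.Helper82Irr
import Cfsg.Agent.S0136
import Cfsg.Agent.S0145
import Cfsg.Agent.Lib.Helper82Schur
import Cfsg.Agent.Lib.Helper82Linear
-- import your own Cfsg.Agent.* helpers here

set_option autoImplicit false
open Cfsg

namespace Cfsg.Agent.S4755

open Cfsg.Agent.Lib.Helper82Schur Cfsg.Agent.Lib.Helper82Linear
open scoped commutatorElement

/-- Let x, y be non-identity elements of the finite group G such that χ(x' y') = χ(x') χ(y') for all conjugates x' of x, y' of y and every irreducible character χ. Then the conjugacy class of x y is the set of all products of a conjugate of x with a conjugate of y; every irreducible character of degree greater than 1 vanishes at x y; and the conjugacy class of x y is the coset of the commutator subgroup containing x y. -/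
theorem result {G : Type*} [Group G] [Finite G] (x y : G) (hx : x ≠ 1) (hy : y ≠ 1) (h : ∀ (a b : G) (χ : Cfsg.IrrCharacter G), (χ : G → ℂ) (a * x * a⁻¹ * (b * y * b⁻¹)) = (χ : G → ℂ) (a * x * a⁻¹) * (χ : G → ℂ) (b * y * b⁻¹)) : (∀ z : G, IsConj (x * y) z ↔ ∃ a b : G, z = a * x * a⁻¹ * (b * y * b⁻¹)) ∧ (∀ χ : Cfsg.IrrCharacter G, (χ : G → ℂ) 1 ≠ 1 → (χ : G → ℂ) (x * y) = 0) ∧ (∀ z : G, IsConj (x * y) z ↔ (x * y)⁻¹ * z ∈ commutator G) := by
  have := Fintype.ofFinite G
  have hcard : (Nat.card G : ℂ) ≠ 0 := by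
    exact_mod_cast Nat.card_pos.ne'
  have hval : ∀ (a b : G) (χ : Cfsg.IrrCharacter G),
      (χ : G → ℂ) (a * x * a⁻¹ * (b * y * b⁻¹)) = (χ : G → ℂ) x * (χ : G → ℂ) y := by
    intro a b χ
    rw [h a b χ, irr_conj, irr_conj]
  have hxy : ∀ χ : Cfsg.IrrCharacter G, (χ : G → ℂ) (x * y) = (χ : G → ℂ) x * (χ : G → ℂ) y := by
    intro χ
    simpa using hval 1 1 χ
  have hvan : ∀ χ : Cfsg.IrrCharacter G, (χ : G → ℂ) 1 ≠ 1 → (χ : G → ℂ) (x * y) = 0 := by
    intro χ h1
    have hs := irr_sum_mul_conj χ x y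
    have hconst : ∀ c : G, (χ : G → ℂ) (x * (c * y * c⁻¹)) = (χ : G → ℂ) x * (χ : G → ℂ) y := by
      intro c
      simpa using hval 1 c χ
    simp only [hconst, Finset.sum_const, Finset.card_univ, nsmul_eq_mul] at hs
    rw [← Nat.card_eq_fintype_card] at hs
    have h0 := irr_one_ne_zero χ
    rw [hxy]
    field_simp at hs
    have : (χ : G → ℂ) x * (χ : G → ℂ) y * ((χ : G → ℂ) 1 - 1) = 0 := by
      linear_combination hs
    rcases mul_eq_zero.mp this with h2 | h2
    · exact h2
    · exact absurd (sub_eq_zero.mp h2) h1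
  refine ⟨?_, hvan, ?_⟩
  · intro z
    constructor
    · intro hz
      obtain ⟨c, hc⟩ := isConj_iff.mp hz
      exact ⟨c, c, by rw [← hc]; group⟩
    · rintro ⟨a, b, rfl⟩
      rw [Cfsg.Agent.S0136.result]
      intro χ
      rw [hval, hxy]
  · intro z
    constructor
    · intro hz
      obtain ⟨c, hc⟩ := isConj_iff.mp hz
      rw [← hc]
      have : (x * y)⁻¹ * (c * (x * y) * c⁻¹) = ⁅(x * y)⁻¹, c⁆ := by
        rw [commutatorElement_def]; group
      rw [this]
      exact Subgroup.commutator_mem_commutator (Subgroup.mem_top _) (Subgroup.mem_top _)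
    · intro hz
      by_contra hnc
      have hsum := (Cfsg.Agent.S0145.result (x * y) z).2 hnc
      have hfin : Finite (Cfsg.IrrCharacter G) := Cfsg.Agent.Lib.Helper82Irr.finite_irr
      have := Fintype.ofFinite (Cfsg.IrrCharacter G)
      classical
      rw [finsum_eq_sum_of_fintype] at hsum
      have hterm : ∀ χ : Cfsg.IrrCharacter G,
          (χ : G → ℂ) (x * y) * (starRingEnd ℂ) ((χ : G → ℂ) z) =
            if (χ : G → ℂ) 1 = 1 then 1 else 0 := by
        intro χ
        split_ifs with h1
        · have hzz : (χ : G → ℂ) z = (χ : G → ℂ) (x * y) := by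
            have : z = (x * y) * ((x * y)⁻¹ * z) := by group
            rw [this, irr_linear_mul χ h1, irr_linear_eq_one_of_mem_commutator χ h1 hz, mul_one]
          rw [hzz]
          exact irr_linear_mul_conj χ h1 _
        · rw [hvan χ h1, zero_mul]
      simp only [hterm] at hsum
      rw [Finset.sum_boole] at hsum
      have hmem : irrOne G ∈ Finset.univ.filter
          (fun χ : Cfsg.IrrCharacter G => (χ : G → ℂ) 1 = 1) := by
        simp [irrOne]
      have hpos : 0 < (Finset.univ.filter
          (fun χ : Cfsg.IrrCharacter G => (χ : G → ℂ) 1 = 1)).card :=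
        Finset.card_pos.mpr ⟨_, hmem⟩
      exact hpos.ne' (by exact_mod_cast hsum)

end Cfsg.Agent.S4755
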