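import Cfsg.Statements.S4765
import Cfsg.Agent.Lib.Helper46PSL2Char
-- import your own Cfsg.Agent.* helpers here

set_option autoImplicit false
open Cfsg

namespace Cfsg.Agent.S4765

open Cfsg.Agent.Lib.Helper46SL2 Cfsg.Agent.Lib.Helper46Borel Cfsg.Agent.S2432
open Cfsg.Agent.Lib.Helper4Char
open Cfsg.Agent.Lib.Helper46SL2CharA Cfsg.Agent.Lib.Helper46SL2CharB Cfsg.Agent.Lib.Helper46SL2CharC
open Cfsg.Agent.Lib.Helper46SL2CharD Cfsg.Agent.Lib.Helper46SL2CharE Cfsg.Agent.Lib.Helper46SL2CharF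
open Cfsg.Agent.Lib.Helper46SL2CharJ Cfsg.Agent.Lib.Helper46SL2CharK Cfsg.Agent.Lib.Helper46SL2CharL
open Cfsg.Agent.Lib.Helper46PSL2Char Cfsg.Agent.Lib.Helper82Quot

/-- Let F be a finite field of characteristic p with at least 4 elements. Then PSL(2,F) has exactly one irreducible complex character of degree divisible by p, and its degree is the order of F. -/
theorem result (p : ℕ) [Fact p.Prime] (F : Type*) [Field F] [Fintype F] [CharP F p] (hF : 4 ≤ Fintype.card F) : Nat.card {χ : Cfsg.IrrCharacter (Matrix.ProjectiveSpecialLinearGroup (Fin 2) F) // p ∣ Cfsg.charDegree (χ : Matrix.ProjectiveSpecialLinearGroup (Fin 2) F → ℂ)} = 1 ∧ ∀ χ : Cfsg.IrrCharacter (Matrix.ProjectiveSpecialLinearGroup (Fin 2) F), p ∣ Cfsg.charDegree (χ : Matrix.ProjectiveSpecialLinearGroup (Fin 2) F → ℂ) → Cfsg.charDegree (χ : Matrix.ProjectiveSpecialLinearGroup (Fin 2) F → ℂ) = Fintype.card F := by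
  classical
  obtain ⟨k, hp, hk⟩ := FiniteField.card F p
  have hpq : p ∣ Fintype.card F := by
    rw [hk]
    exact dvd_pow_self p k.pos.ne'
  have key : ∀ χ : Cfsg.IrrCharacter (Matrix.ProjectiveSpecialLinearGroup (Fin 2) F),
      p ∣ Cfsg.charDegree (χ : Matrix.ProjectiveSpecialLinearGroup (Fin 2) F → ℂ) →
      Cfsg.charDegree (χ : Matrix.ProjectiveSpecialLinearGroup (Fin 2) F → ℂ) = Fintype.card F := by
    intro χ hχ
    have hmem : Cfsg.charDegree (χ : Matrix.ProjectiveSpecialLinearGroup (Fin 2) F → ℂ) ∈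
        Cfsg.charDegrees (Matrix.ProjectiveSpecialLinearGroup (Fin 2) F) := ⟨χ, rfl⟩
    have h2 : ¬ p ∣ Fintype.card F + 1 := by
      intro h
      have := (Nat.dvd_add_right hpq).mp h
      exact hp.one_lt.ne' (Nat.dvd_one.mp this)
    have h3 : ¬ p ∣ Fintype.card F - 1 := by
      intro h
      have h4 : p ∣ (Fintype.card F - 1) + 1 := by
        rw [Nat.sub_add_cancel (by omega)]
        exact hpq
      have := (Nat.dvd_add_right h).mp h4
      exact hp.one_lt.ne' (Nat.dvd_one.mp this)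
    rcases charDegrees_SL2 (charDegrees_PSL2_subset hmem) with h | h | h | h | ⟨⟨j, hj⟩, h⟩ | ⟨⟨j, hj⟩, h⟩
    · rw [h] at hχ
      exact absurd (Nat.dvd_one.mp hχ) hp.one_lt.ne'
    · exact h
    · rw [h] at hχ
      exact absurd hχ h2
    · rw [h] at hχ
      exact absurd hχ h3
    · rw [h] at hχ
      exact absurd (hχ.trans ⟨2, by omega⟩) h2
    · rw [h] at hχ
      exact absurd (hχ.trans ⟨2, by omega⟩) h3
  refine ⟨?_, key⟩
  obtain ⟨ψ, hψ⟩ := exists_deflate_PSL2 (F := F) St_irr St_neg_one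
  have hdeg : Cfsg.charDegree (ψ : Matrix.ProjectiveSpecialLinearGroup (Fin 2) F → ℂ) = Fintype.card F := by
    have h1 := Cfsg.Agent.Lib.Helper83Char.charDegree_cast ψ.2
    have h2 : (ψ : Matrix.ProjectiveSpecialLinearGroup (Fin 2) F → ℂ) 1 = (Fintype.card F : ℂ) := by
      rw [← St_one, ← hψ 1]
      rfl
    rw [h2] at h1
    exact_mod_cast h1
  rw [Nat.card_eq_one_iff_unique]
  refine ⟨⟨?_⟩, ⟨⟨ψ, hdeg ▸ hpq⟩⟩⟩
  have huniq : ∀ χ : Cfsg.IrrCharacter (Matrix.ProjectiveSpecialLinearGroup (Fin 2) F),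
      p ∣ Cfsg.charDegree (χ : Matrix.ProjectiveSpecialLinearGroup (Fin 2) F → ℂ) → χ = ψ := by
    intro χ hχ
    have h1 := key χ hχ
    have h2 := Cfsg.Agent.Lib.Helper83Char.charDegree_cast χ.2
    rw [h1] at h2
    have h3 := eq_St_of_deg (inflate_isIrr (Subgroup.center (Matrix.SpecialLinearGroup (Fin 2) F)) χ.2) h2.symm
    ext x
    obtain ⟨g, rfl⟩ := QuotientGroup.mk_surjective x
    rw [hψ g, ← h3]
  rintro ⟨a, ha⟩ ⟨b, hb⟩
  rw [Subtype.mk.injEq, huniq a ha, huniq b hb]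

end Cfsg.Agent.S4765
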