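import Cfsg.Statements.S4774
import Cfsg.Agent.Lib.Helper46PSL2Char
-- import your own Cfsg.Agent.* helpers here

set_option autoImplicit false
open Cfsg

namespace Cfsg.Agent.S4774

open Cfsg.Agent.Lib.Helper46SL2 Cfsg.Agent.Lib.Helper46Borel Cfsg.Agent.S2432
open Cfsg.Agent.Lib.Helper4Char
open Cfsg.Agent.Lib.Helper46SL2CharA Cfsg.Agent.Lib.Helper46SL2CharB Cfsg.Agent.Lib.Helper46SL2CharC
open Cfsg.Agent.Lib.Helper46SL2CharD Cfsg.Agent.Lib.Helper46SL2CharE Cfsg.Agent.Lib.Helper46SL2CharF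
open Cfsg.Agent.Lib.Helper46SL2CharJ Cfsg.Agent.Lib.Helper46SL2CharK Cfsg.Agent.Lib.Helper46SL2CharL
open Cfsg.Agent.Lib.Helper46PSL2Char Cfsg.Agent.Lib.Helper82Quot

/-- Let F be a finite field of odd characteristic t with q > 5 elements and let S be isomorphic to PSL(2,F) or to SL(2,F). Then the vertices of the character degree graph of S are the primes dividing q(q²−1); the prime t is adjacent to no vertex; two distinct primes dividing q² − 1 are adjacent exactly when one of them is 2, or both divide q + 1, or both divide q − 1. -/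
theorem result (F : Type*) [Field F] [Fintype F] (t : ℕ) [Fact t.Prime] [CharP F t] (ht : t ≠ 2) (q : ℕ) (hq : Fintype.card F = q) (h5 : 5 < q) {S : Type*} [Group S] [Finite S] (hS : Nonempty (S ≃* Matrix.ProjectiveSpecialLinearGroup (Fin 2) F) ∨ Nonempty (S ≃* Matrix.SpecialLinearGroup (Fin 2) F)) : Cfsg.degreePrimes S = {r : ℕ | r.Prime ∧ r ∣ q * (q ^ 2 - 1)} ∧ ∀ r s : ℕ, (Cfsg.degreeGraph S).Adj r s ↔ (r ≠ s ∧ r.Prime ∧ s.Prime ∧ r ∣ q ^ 2 - 1 ∧ s ∣ q ^ 2 - 1 ∧ (r = 2 ∨ s = 2 ∨ (r ∣ q + 1 ∧ s ∣ q + 1) ∨ (r ∣ q - 1 ∧ s ∣ q - 1))) := by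
  classical
  subst hq
  obtain ⟨k, hp, hk⟩ := FiniteField.card F t
  have hodd : Odd (Fintype.card F) := by
    rw [hk]
    exact (hp.odd_of_ne_two ht).pow
  obtain ⟨f1, f2, f3, f4⟩ := degrees_facts (F := F) (by omega) (by omega) hS
  obtain ⟨g1, g2⟩ := graph_aux (Cfsg.charDegrees S) (Fintype.card F) t k hp hk (by omega) f1 f2 f3 f4
  have hfac : Fintype.card F ^ 2 - 1 = (Fintype.card F + 1) * (Fintype.card F - 1) := by
    obtain ⟨m, hm⟩ : ∃ m, Fintype.card F = m + 1 := ⟨Fintype.card F - 1, by omega⟩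
    rw [hm]
    simp only [Nat.add_sub_cancel]
    have : (m + 1) ^ 2 = (m + 1 + 1) * m + 1 := by ring
    omega
  have h2a : 2 ∣ Fintype.card F + 1 := by
    obtain ⟨j, hj⟩ := hodd
    exact ⟨j + 1, by omega⟩
  have h2b : 2 ∣ Fintype.card F - 1 := by
    obtain ⟨j, hj⟩ := hodd
    exact ⟨j, by omega⟩
  constructor
  · ext r
    simp only [Cfsg.degreePrimes, Set.mem_setOf_eq]
    constructor
    · rintro ⟨hr, h⟩
      exact ⟨hr, (g1 r hr).mp h⟩
    · rintro ⟨hr, h⟩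
      exact ⟨hr, (g1 r hr).mpr h⟩
  · intro r s
    simp only [Cfsg.degreeGraph]
    constructor
    · rintro ⟨h1, h2, h3, h⟩
      refine ⟨h1, h2, h3, ?_⟩
      rw [hfac]
      rcases (g2 r s h1 h2 h3).mp h with ⟨a, b⟩ | ⟨a, b⟩
      · exact ⟨Dvd.dvd.mul_right a _, Dvd.dvd.mul_right b _, Or.inr (Or.inr (Or.inl ⟨a, b⟩))⟩
      · exact ⟨Dvd.dvd.mul_left a _, Dvd.dvd.mul_left b _, Or.inr (Or.inr (Or.inr ⟨a, b⟩))⟩
    · rintro ⟨h1, h2, h3, a, b, h⟩
      refine ⟨h1, h2, h3, (g2 r s h1 h2 h3).mpr ?_⟩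
      rw [hfac] at a b
      rcases h with rfl | rfl | h | h
      · rcases (Nat.Prime.dvd_mul h3).mp b with b | b
        · exact Or.inl ⟨h2a, b⟩
        · exact Or.inr ⟨h2b, b⟩
      · rcases (Nat.Prime.dvd_mul h2).mp a with a | a
        · exact Or.inl ⟨a, h2a⟩
        · exact Or.inr ⟨a, h2b⟩
      · exact Or.inl h
      · exact Or.inr h

end Cfsg.Agent.S4774
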