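import Cfsg.Statements.S4784
import Cfsg.Agent.S0146
import Cfsg.Agent.S0148
import Cfsg.Agent.S0158
import Cfsg.Agent.S0161
import Cfsg.Agent.Lib.Helper82Cod
import Cfsg.Agent.Lib.Helper82Mult
-- import your own Cfsg.Agent.* helpers here

set_option autoImplicit false
open Cfsg

namespace Cfsg.Agent.S4784

open Cfsg.Agent.Lib.Helper82Schur Cfsg.Agent.Lib.Helper82Irr
  Cfsg.Agent.Lib.Helper82Quot Cfsg.Agent.Lib.Helper82Linear Cfsg.Agent.Lib.Helper82Cod
  Cfsg.Agent.Lib.Helper82Mult Cfsg.Agent.Lib.Helper19Ind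

variable {G : Type*} [Group G] [Fintype G]

/-- the Frobenius-Schur indicator -/
noncomputable def nu (χ : G → ℂ) : ℂ := (Nat.card G : ℂ)⁻¹ * ∑ g : G, χ (g * g)

theorem nu_cases (χ : Cfsg.IrrCharacter G) :
    (nu (χ : G → ℂ) = 0 ∨ nu (χ : G → ℂ) = 1 ∨ nu (χ : G → ℂ) = -1) ∧
    (nu (χ : G → ℂ) = 0 ↔ ∃ s : G, ((χ : G → ℂ) s).im ≠ 0) := by
  obtain ⟨n, ρ, hρ, h⟩ := χ.2
  rw [← h]
  exact Cfsg.Agent.S0158.result ρ

theorem inner_perm_one (H : Subgroup G) :
    Cfsg.classInner (Cfsg.indFun H (fun _ : H => (1 : ℂ))) (fun _ : G => (1 : ℂ)) = 1 := by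
  have := Fintype.ofFinite H
  rw [Cfsg.Agent.S0146.result H _ _ (fun _ _ => rfl)]
  unfold Cfsg.classInner
  simp only [map_one, mul_one, Finset.sum_const, Finset.card_univ, nsmul_eq_mul]
  rw [← Nat.card_eq_fintype_card]
  exact inv_mul_cancel₀ (Cfsg.Agent.Lib.Helper19Ind.card_ne_zero H)

/-- constituents of the permutation character contain the core in their kernel -/
theorem core_le_ker (H : Subgroup G) (χ : Cfsg.IrrCharacter G)
    (hne : Cfsg.classInner (Cfsg.indFun H (fun _ : H => (1 : ℂ))) (χ : G → ℂ) ≠ 0) :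
    ∀ n ∈ H.normalCore, (χ : G → ℂ) n = (χ : G → ℂ) 1 := by
  classical
  have := Fintype.ofFinite H
  have := Fintype.ofFinite H.normalCore
  rcases irr_sum_normal_eq_zero_or χ H.normalCore with h | h
  · exact h
  exfalso
  apply hne
  rw [Cfsg.Agent.S0146.result H _ _
    (Cfsg.Agent.Lib.Helper4Char.IsCharacter.isClassFunction (irr_isCharacter χ))]
  unfold Cfsg.classInner
  have h1 : ∑ x : H, (χ : G → ℂ) x = 0 := by
    have h2 : ∑ n : H.normalCore, ∑ x : H, (χ : G → ℂ) (x * n) =
        ∑ n : H.normalCore, ∑ x : H, (χ : G → ℂ) x := by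
      refine Finset.sum_congr rfl fun n _ => ?_
      exact Fintype.sum_equiv (Equiv.mulRight (⟨n, H.normalCore_le n.2⟩ : H)) _ _ (fun x => rfl)
    rw [Finset.sum_comm] at h2
    simp only [h, Finset.sum_const_zero, Finset.sum_const, Finset.card_univ, nsmul_eq_mul] at h2
    rcases mul_eq_zero.mp h2.symm with h3 | h3
    · exact absurd h3 (by exact_mod_cast Fintype.card_ne_zero)
    · exact h3
  have h2 : ∑ x : H, (1 : ℂ) * (starRingEnd ℂ) ((χ : G → ℂ) x) = 0 := by
    simp only [one_mul]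
    rw [← map_sum, h1, map_zero]
  rw [h2, mul_zero]

theorem sum_perm_sq (H : Subgroup G) :
    ∑ g : G, Cfsg.indFun H (fun _ : H => (1 : ℂ)) (g * g) =
      (Nat.card H : ℂ)⁻¹ * ((Nat.card G : ℂ) * (Nat.card {g : G // g * g ∈ H} : ℂ)) := by
  classical
  simp only [indFun_apply]
  rw [← Finset.mul_sum, Finset.sum_comm]
  congr 1
  have h1 : ∀ x : G, ∑ g : G, Cfsg.extendByZero H (fun _ : H => (1 : ℂ)) (x⁻¹ * (g * g) * x) =
      (Nat.card {g : G // g * g ∈ H} : ℂ) := by
    intro x
    have h2 : ∑ g : G, Cfsg.extendByZero H (fun _ : H => (1 : ℂ)) (x⁻¹ * (g * g) * x) =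
        ∑ g : G, Cfsg.extendByZero H (fun _ : H => (1 : ℂ)) (g * g) := by
      refine Fintype.sum_equiv (MulAut.conj x⁻¹).toEquiv _ _ (fun g => ?_)
      congr 1
      simp only [MulEquiv.toEquiv_eq_coe, MulEquiv.coe_toEquiv, MulAut.conj_apply, inv_inv]
      group
    rw [h2]
    have h3 : ∀ g : G, Cfsg.extendByZero H (fun _ : H => (1 : ℂ)) (g * g) =
        if g * g ∈ H then 1 else 0 := by
      intro g
      split_ifs with h
      · exact extendByZero_of_mem H _ h
      · exact extendByZero_of_not_mem H _ h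
    simp only [h3]
    rw [Finset.sum_boole, Nat.card_eq_fintype_card, Fintype.card_subtype]
  simp only [h1, Finset.sum_const, Finset.card_univ, nsmul_eq_mul]
  rw [← Nat.card_eq_fintype_card]

/-- Let H be a subgroup of the finite group G and consider the permutation character of G on the cosets of H (the function induced from the principal character of H). Then exactly one irreducible constituent of it is real-valued with Frobenius–Schur indicator +1 (namely the principal character) if and only if the normal core of H has odd index in G. -/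
theorem result {G : Type*} [Group G] [Fintype G] (H : Subgroup G) : Nat.card {χ : Cfsg.IrrCharacter G // Cfsg.classInner (Cfsg.indFun H (fun _ : H => (1 : ℂ))) (χ : G → ℂ) ≠ 0 ∧ (∀ g : G, (starRingEnd ℂ) ((χ : G → ℂ) g) = (χ : G → ℂ) g) ∧ (Nat.card G : ℂ)⁻¹ * ∑ g : G, (χ : G → ℂ) (g * g) = 1} = 1 ↔ Odd H.normalCore.index := by
  classical
  have hcardG : (Nat.card G : ℂ) ≠ 0 := by exact_mod_cast Nat.card_pos.ne'
  have hone : Cfsg.classInner (Cfsg.indFun H (fun _ : H => (1 : ℂ)))
      ((irrOne G : Cfsg.IrrCharacter G) : G → ℂ) ≠ 0 ∧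
      (∀ g : G, (starRingEnd ℂ) (((irrOne G : Cfsg.IrrCharacter G) : G → ℂ) g) =
        ((irrOne G : Cfsg.IrrCharacter G) : G → ℂ) g) ∧
      (Nat.card G : ℂ)⁻¹ * ∑ g : G, ((irrOne G : Cfsg.IrrCharacter G) : G → ℂ) (g * g) = 1 := by
    refine ⟨?_, ?_, ?_⟩
    · have := inner_perm_one H
      simp only [irrOne]
      rw [this]
      exact one_ne_zero
    · intro g; simp [irrOne]
    · simp only [irrOne, Finset.sum_const, Finset.card_univ, nsmul_eq_mul, mul_one]
      rw [← Nat.card_eq_fintype_card]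
      exact inv_mul_cancel₀ hcardG
  constructor
  · intro hcard
    obtain ⟨hsub, -⟩ := Nat.card_eq_one_iff_unique.mp hcard
    by_contra hodd
    rw [Nat.not_odd_iff_even] at hodd
    have h2 : 2 ∣ Nat.card (G ⧸ H.normalCore) := by
      rw [← Subgroup.index_eq_card]; exact hodd.two_dvd
    obtain ⟨y, hy⟩ := exists_prime_orderOf_dvd_card' (G := G ⧸ H.normalCore) 2 h2
    obtain ⟨t, rfl⟩ := QuotientGroup.mk_surjective y
    have ht1 : t ∉ H.normalCore := by
      intro ht
      rw [(QuotientGroup.eq_one_iff t).mpr ht, orderOf_one] at hy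
      norm_num at hy
    have ht2 : t * t ∈ H.normalCore := by
      rw [← QuotientGroup.eq_one_iff]
      have := pow_orderOf_eq_one (t : G ⧸ H.normalCore)
      rw [hy, sq] at this
      exact this
    have hb : ∃ b : G, b * t * b⁻¹ ∉ H := by
      by_contra hcon
      push Not at hcon
      exact ht1 hcon
    obtain ⟨b, hb⟩ := hb
    have hbb : (b * t * b⁻¹) * (b * t * b⁻¹) ∈ H := by
      have h3 := (H.normalCore_normal).conj_mem _ ht2 b
      have e : b * (t * t) * b⁻¹ = (b * t * b⁻¹) * (b * t * b⁻¹) := by group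
      rw [e] at h3
      exact H.normalCore_le h3
    have hN : Nat.card H < Nat.card {g : G // g * g ∈ H} := by
      have h3 : (H : Set G) ⊂ {g : G | g * g ∈ H} := by
        refine ⟨fun g hg => H.mul_mem hg hg, fun hcon => hb (hcon hbb)⟩
      have := Set.ncard_lt_ncard h3 (Set.toFinite _)
      rwa [← Nat.card_coe_set_eq, ← Nat.card_coe_set_eq] at this
    have hπ : Cfsg.IsCharacter G (Cfsg.indFun H (fun _ : H => (1 : ℂ))) :=
      Cfsg.Agent.S0148.result H _ (irr_isCharacter (irrOne H))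
    obtain ⟨m, hm, hsum⟩ := exists_mult hπ
    have hs := sum_perm_sq H
    have hs2 : ∑ g : G, Cfsg.indFun H (fun _ : H => (1 : ℂ)) (g * g) =
        (Nat.card G : ℂ) * ∑ χ : Cfsg.IrrCharacter G, (m χ : ℂ) * nu (χ : G → ℂ) := by
      conv_lhs => rw [hsum]
      simp only [Finset.sum_apply, Pi.smul_apply, smul_eq_mul]
      rw [Finset.sum_comm, Finset.mul_sum]
      refine Finset.sum_congr rfl fun χ _ => ?_
      unfold nu
      rw [← Finset.mul_sum]
      field_simp
    rw [hs2] at hs
    have hH0 : (Nat.card H : ℂ) ≠ 0 := Cfsg.Agent.Lib.Helper19Ind.card_ne_zero H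
    have hs3 : (Nat.card H : ℂ) * ∑ χ : Cfsg.IrrCharacter G, (m χ : ℂ) * nu (χ : G → ℂ) =
        (Nat.card {g : G // g * g ∈ H} : ℂ) := by
      have : (Nat.card G : ℂ) * ((Nat.card H : ℂ) *
          ∑ χ : Cfsg.IrrCharacter G, (m χ : ℂ) * nu (χ : G → ℂ)) =
          (Nat.card G : ℂ) * (Nat.card {g : G // g * g ∈ H} : ℂ) := by
        calc _ = (Nat.card H : ℂ) * ((Nat.card G : ℂ) *
            ∑ χ : Cfsg.IrrCharacter G, (m χ : ℂ) * nu (χ : G → ℂ)) := by ring
          _ = _ := by rw [hs]; field_simp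
      exact mul_left_cancel₀ hcardG this
    have hle : (∑ χ : Cfsg.IrrCharacter G, (m χ : ℂ) * nu (χ : G → ℂ)).re ≤ 1 := by
      rw [← Finset.add_sum_erase _ _ (Finset.mem_univ (irrOne G)), Complex.add_re, Complex.re_sum]
      have h1 : ((m (irrOne G) : ℂ) * nu ((irrOne G : Cfsg.IrrCharacter G) : G → ℂ)).re = 1 := by
        have e1 : (m (irrOne G) : ℂ) = 1 := by
          rw [← hm]; exact inner_perm_one H
        have e2 : nu ((irrOne G : Cfsg.IrrCharacter G) : G → ℂ) = 1 := hone.2.2
        rw [e1, e2]; simp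
      rw [h1]
      have h2 : ∑ χ ∈ Finset.univ.erase (irrOne G), ((m χ : ℂ) * nu (χ : G → ℂ)).re ≤ 0 := by
        refine Finset.sum_nonpos fun χ hχ => ?_
        obtain ⟨hc, hiff⟩ := nu_cases χ
        rcases hc with h0 | h0 | h0
        · rw [h0]; simp
        · by_cases hm0 : m χ = 0
          · rw [hm0]; simp
          exfalso
          have hreal : ∀ g : G, (starRingEnd ℂ) ((χ : G → ℂ) g) = (χ : G → ℂ) g := by
            intro g
            rw [Complex.conj_eq_iff_im]
            by_contra him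
            have := hiff.mpr ⟨g, him⟩
            rw [h0] at this
            exact one_ne_zero this
          have hmem : Cfsg.classInner (Cfsg.indFun H (fun _ : H => (1 : ℂ))) (χ : G → ℂ) ≠ 0 := by
            rw [hm]; exact_mod_cast hm0
          have := hsub.elim ⟨χ, hmem, hreal, h0⟩ ⟨irrOne G, hone⟩
          exact (Finset.ne_of_mem_erase hχ) (congrArg Subtype.val this)
        · rw [h0]; simp
      linarith
    have hre := congrArg Complex.re hs3
    rw [Complex.mul_re, Complex.natCast_re, Complex.natCast_im, zero_mul, sub_zero,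
      Complex.natCast_re] at hre
    have hHpos : (0 : ℝ) < (Nat.card H : ℝ) := by exact_mod_cast Nat.card_pos
    have : (Nat.card {g : G // g * g ∈ H} : ℝ) ≤ (Nat.card H : ℝ) := by
      rw [← hre]
      nlinarith
    have : Nat.card {g : G // g * g ∈ H} ≤ Nat.card H := by exact_mod_cast this
    omega
  · intro hodd
    rw [Nat.card_eq_one_iff_unique]
    refine ⟨⟨?_⟩, ⟨⟨irrOne G, hone⟩⟩⟩
    have key : ∀ χ : Cfsg.IrrCharacter G,
        Cfsg.classInner (Cfsg.indFun H (fun _ : H => (1 : ℂ))) (χ : G → ℂ) ≠ 0 →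
        (∀ g : G, (starRingEnd ℂ) ((χ : G → ℂ) g) = (χ : G → ℂ) g) → χ = irrOne G := by
      intro χ h1 h2
      obtain ⟨ψ, hψ⟩ := exists_deflate H.normalCore χ (core_le_ker H χ h1)
      have hval : ∀ x : G, (χ : G → ℂ) x = (ψ : G ⧸ H.normalCore → ℂ) (x : G ⧸ H.normalCore) := by
        intro x
        have := congrFun (congrArg Subtype.val hψ) x
        rw [← this, inflate_apply]
      have hψ1 := Cfsg.Agent.S0161.result (G := G ⧸ H.normalCore)
        (by rw [← Subgroup.index_eq_card]; exact hodd) ψ (by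
          intro y
          obtain ⟨g, rfl⟩ := QuotientGroup.mk_surjective y
          rw [← hval, ← Complex.conj_eq_iff_im]
          exact h2 g)
      ext x
      rw [hval, hψ1]
      rfl
    rintro ⟨χ, h1, h2, -⟩ ⟨χ', h1', h2', -⟩
    apply Subtype.ext
    exact (key χ h1 h2).trans (key χ' h1' h2').symm

end Cfsg.Agent.S4784
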