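import Cfsg.Statements.S4801
import Cfsg.Agent.Lib.Helper82Cod
-- import your own Cfsg.Agent.* helpers here

set_option autoImplicit false
open Cfsg

namespace Cfsg.Agent.S4801

open Cfsg.Agent.Lib.Helper82Schur Cfsg.Agent.Lib.Helper82Irr
  Cfsg.Agent.Lib.Helper82Quot Cfsg.Agent.Lib.Helper82Linear Cfsg.Agent.Lib.Helper82Cod

/-- The codegree of an irreducible complex character χ of a finite group G is [G : ker χ] / χ(1), where ker χ is the set of elements at which χ takes the value χ(1). Let S be a finite simple group and G a finite group such that every codegree of an irreducible character of S is a codegree of an irreducible character of G. Then the order of S divides the order of G. -/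
theorem result {S : Type*} [Group S] [Finite S] (hS : IsSimpleGroup S) {G : Type*} [Group G] [Finite G] (hsub : ∀ χ : Cfsg.IrrCharacter S, ∃ ψ : Cfsg.IrrCharacter G, (Nat.card S / (Nat.card {g : S // (χ : S → ℂ) g = (χ : S → ℂ) 1} * Cfsg.charDegree (χ : S → ℂ))) = (Nat.card G / (Nat.card {g : G // (ψ : G → ℂ) g = (ψ : G → ℂ) 1} * Cfsg.charDegree (ψ : G → ℂ)))) : Nat.card S ∣ Nat.card G := by
  have hS0 : Nat.card S ≠ 0 := Nat.card_pos.ne'
  have hG0 : Nat.card G ≠ 0 := Nat.card_pos.ne'
  rw [← Nat.factorization_le_iff_dvd hS0 hG0]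
  intro p
  by_cases hp : p.Prime
  swap
  · rw [Nat.factorization_eq_zero_of_not_prime _ hp]; exact Nat.zero_le _
  by_cases hdvd : p ∣ Nat.card S
  swap
  · rw [Nat.factorization_eq_zero_of_not_dvd hdvd]; exact Nat.zero_le _
  obtain ⟨χ, hχ1, hχp⟩ := exists_nonprincipal_degree_coprime hp hdvd
  obtain ⟨ψ, hψ⟩ := hsub χ
  have hker : irrKer χ = ⊥ := by
    rcases hS.eq_bot_or_eq_top_of_normal (irrKer χ) inferInstance with h | h
    · exact h
    · exfalso
      apply hχ1
      apply irr_eq_one_of_const
      intro g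
      have : g ∈ irrKer χ := by rw [h]; exact Subgroup.mem_top g
      exact this
  have h1 := cod_mul_degree χ
  rw [hker, Subgroup.index_bot] at h1
  have hcod0 : cod χ ≠ 0 := by
    intro h0
    rw [h0, zero_mul] at h1
    exact hS0 h1.symm
  have hdeg0 : Cfsg.charDegree (χ : S → ℂ) ≠ 0 := (irr_charDegree_pos χ).ne'
  have h2 : (Nat.card S).factorization p = (cod χ).factorization p := by
    rw [← h1, Nat.factorization_mul hcod0 hdeg0, Finsupp.add_apply,
      Nat.factorization_eq_zero_of_not_dvd hχp, add_zero]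
  rw [h2]
  have h3 : cod χ = cod ψ := hψ
  rw [h3]
  exact (Nat.factorization_le_iff_dvd (by rw [← h3]; exact hcod0) hG0).mpr (cod_dvd_card ψ) p

end Cfsg.Agent.S4801
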