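import Cfsg.Statements.S4802
-- import your own Cfsg.Agent.* helpers here
import Cfsg.Agent.S0145
import Cfsg.Agent.Lib.Helper82Schur
-- import your own Cfsg.Agent.* helpers here

set_option autoImplicit false
open Cfsg

namespace Cfsg.Agent.S4802

open Cfsg.Agent.Lib.Helper82Schur

/-- Let N < M be normal subgroups of the finite group G and g ∈ M ∖ N. Then the conjugacy class of g is exactly M ∖ N if and only if every irreducible complex character of G whose kernel contains N takes the same value at all elements of M ∖ N, and every irreducible complex character of G whose kernel does not contain N vanishes at g. -/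
theorem result {G : Type*} [Group G] [Finite G] (N M : Subgroup G) [N.Normal] [M.Normal] (hNM : N < M) (g : G) (hgM : g ∈ M) (hgN : g ∉ N) : {h : G | IsConj g h} = (M : Set G) \ (N : Set G) ↔ ((∀ χ : Cfsg.IrrCharacter G, (∀ x ∈ N, (χ : G → ℂ) x = (χ : G → ℂ) 1) → ∀ x ∈ M, x ∉ N → ∀ y ∈ M, y ∉ N → (χ : G → ℂ) x = (χ : G → ℂ) y) ∧ (∀ χ : Cfsg.IrrCharacter G, (∃ x ∈ N, (χ : G → ℂ) x ≠ (χ : G → ℂ) 1) → (χ : G → ℂ) g = 0)) := by
  have := Fintype.ofFinite N
  constructor
  · intro h
    have hconj : ∀ x ∈ M, x ∉ N → IsConj g x := by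
      intro x hxM hxN
      have : x ∈ (M : Set G) \ (N : Set G) := ⟨hxM, hxN⟩
      rw [← h] at this
      exact this
    refine ⟨?_, ?_⟩
    · intro χ _ x hxM hxN y hyM hyN
      rw [← irr_isConj χ (hconj x hxM hxN), ← irr_isConj χ (hconj y hyM hyN)]
    · rintro χ ⟨x, hxN, hx⟩
      rcases irr_sum_normal_eq_zero_or χ N with h1 | h1
      · exact absurd (h1 x hxN) hx
      · have h2 := h1 g
        have h3 : ∀ n : N, (χ : G → ℂ) (g * n) = (χ : G → ℂ) g := by
          intro n
          refine (irr_isConj χ (hconj _ (M.mul_mem hgM (hNM.le n.2)) ?_)).symm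
          intro hgn
          exact hgN ((Subgroup.mul_mem_cancel_right N n.2).mp hgn)
        simp only [h3, Finset.sum_const, Finset.card_univ, nsmul_eq_mul] at h2
        rcases mul_eq_zero.mp h2 with h4 | h4
        · exact absurd h4 (by exact_mod_cast Fintype.card_ne_zero)
        · exact h4
  · rintro ⟨h1, h2⟩
    ext x
    simp only [Set.mem_setOf_eq, Set.mem_diff, SetLike.mem_coe]
    constructor
    · intro hx
      obtain ⟨c, hc⟩ := isConj_iff.mp hx
      rw [← hc]
      refine ⟨‹M.Normal›.conj_mem g hgM c, ?_⟩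
      intro hcN
      apply hgN
      have := ‹N.Normal›.conj_mem _ hcN c⁻¹
      simpa [mul_assoc] using this
    · rintro ⟨hxM, hxN⟩
      by_contra hnc
      have hsum := (Cfsg.Agent.S0145.result g x).2 hnc
      have hsum' := (Cfsg.Agent.S0145.result g g).1 (IsConj.refl g)
      have hcongr : ∀ χ : Cfsg.IrrCharacter G,
          (χ : G → ℂ) g * (starRingEnd ℂ) ((χ : G → ℂ) x) =
          (χ : G → ℂ) g * (starRingEnd ℂ) ((χ : G → ℂ) g) := by
        intro χ
        by_cases hχ : ∀ n ∈ N, (χ : G → ℂ) n = (χ : G → ℂ) 1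
        · rw [h1 χ hχ x hxM hxN g hgM hgN]
        · push Not at hχ
          rw [h2 χ hχ, zero_mul, zero_mul]
      rw [finsum_congr hcongr, hsum'] at hsum
      have : Nat.card (Subgroup.centralizer ({g} : Set G)) ≠ 0 := Nat.card_pos.ne'
      exact this (by exact_mod_cast hsum)

end Cfsg.Agent.S4802
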