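import Cfsg.Statements.S4812
import Cfsg.Agent.Lib.Helper46PSL2Char
-- import your own Cfsg.Agent.* helpers here

set_option autoImplicit false
open Cfsg

namespace Cfsg.Agent.S4812

open Cfsg.Agent.Lib.Helper46SL2 Cfsg.Agent.Lib.Helper46Borel Cfsg.Agent.S2432
open Cfsg.Agent.Lib.Helper4Char
open Cfsg.Agent.Lib.Helper46SL2CharA Cfsg.Agent.Lib.Helper46SL2CharB Cfsg.Agent.Lib.Helper46SL2CharC
open Cfsg.Agent.Lib.Helper46SL2CharD Cfsg.Agent.Lib.Helper46SL2CharE Cfsg.Agent.Lib.Helper46SL2CharF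
open Cfsg.Agent.Lib.Helper46SL2CharJ Cfsg.Agent.Lib.Helper46SL2CharK Cfsg.Agent.Lib.Helper46SL2CharL
open Cfsg.Agent.Lib.Helper46PSL2Char Cfsg.Agent.Lib.Helper82Quot

/-- Let F be a finite field of characteristic 2 with q ≥ 4 elements and let S be isomorphic to PSL(2,F) or to SL(2,F). Then the vertices of the character degree graph of S are the primes dividing q(q²−1), and two distinct primes are adjacent exactly when both divide q + 1 or both divide q − 1; so the graph has the three connected components {2}, the primes dividing q + 1 and the primes dividing q − 1, each complete. -/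
theorem result (F : Type*) [Field F] [Fintype F] [CharP F 2] (q : ℕ) (hq : Fintype.card F = q) (h4 : 4 ≤ q) {S : Type*} [Group S] [Finite S] (hS : Nonempty (S ≃* Matrix.ProjectiveSpecialLinearGroup (Fin 2) F) ∨ Nonempty (S ≃* Matrix.SpecialLinearGroup (Fin 2) F)) : Cfsg.degreePrimes S = {r : ℕ | r.Prime ∧ r ∣ q * (q ^ 2 - 1)} ∧ ∀ r s : ℕ, (Cfsg.degreeGraph S).Adj r s ↔ (r ≠ s ∧ r.Prime ∧ s.Prime ∧ ((r ∣ q + 1 ∧ s ∣ q + 1) ∨ (r ∣ q - 1 ∧ s ∣ q - 1))) := by
  classical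
  subst hq
  obtain ⟨k, hp, hk⟩ := FiniteField.card F 2
  obtain ⟨f1, f2, f3, f4⟩ := degrees_facts (F := F) h4 (by
    intro h5
    have : 2 ∣ Fintype.card F := by
      rw [hk]
      exact dvd_pow_self 2 k.pos.ne'
    omega) hS
  obtain ⟨g1, g2⟩ := graph_aux (Cfsg.charDegrees S) (Fintype.card F) 2 k hp hk h4 f1 f2 f3 f4
  constructor
  · ext r
    simp only [Cfsg.degreePrimes, Set.mem_setOf_eq]
    constructor
    · rintro ⟨hr, h⟩
      exact ⟨hr, (g1 r hr).mp h⟩
    · rintro ⟨hr, h⟩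
      exact ⟨hr, (g1 r hr).mpr h⟩
  · intro r s
    simp only [Cfsg.degreeGraph]
    constructor
    · rintro ⟨h1, h2, h3, h⟩
      exact ⟨h1, h2, h3, (g2 r s h1 h2 h3).mp h⟩
    · rintro ⟨h1, h2, h3, h⟩
      exact ⟨h1, h2, h3, (g2 r s h1 h2 h3).mpr h⟩

end Cfsg.Agent.S4812
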