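import Cfsg.Statements.S4814
import Cfsg.Agent.S0145
import Cfsg.Agent.Lib.Helper82Schur
import Cfsg.Agent.Lib.Helper82Linear
import Cfsg.Agent.Lib.Helper82Irr
-- import your own Cfsg.Agent.* helpers here

set_option autoImplicit false
open Cfsg

namespace Cfsg.Agent.S4814

open Cfsg.Agent.Lib.Helper82Schur Cfsg.Agent.Lib.Helper82Linear Cfsg.Agent.Lib.Helper82Irr

/-- Let G be a finite group such that the sum, over the irreducible complex characters χ of G, of 1/χ(1)² is less than 2. Then every element of G is a product of two commutators. -/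
theorem result {G : Type*} [Group G] [Finite G]
    (h : ∑ᶠ χ : Cfsg.IrrCharacter G, 1 / ‖(χ : G → ℂ) 1‖ ^ 2 < (2 : ℝ)) (g : G) :
    ∃ a b c d : G, (a * b * a⁻¹ * b⁻¹) * (c * d * c⁻¹ * d⁻¹) = g := by
  classical
  have := Fintype.ofFinite G
  have hfin : Finite (Cfsg.IrrCharacter G) := finite_irr
  have := Fintype.ofFinite (Cfsg.IrrCharacter G)
  have hcard : (Nat.card G : ℂ) ≠ 0 := by
    exact_mod_cast Nat.card_pos.ne'
  rw [finsum_eq_sum_of_fintype] at h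
  by_contra hno
  push Not at hno
  have hzero : ∀ a b c d : G, ∑ χ : Cfsg.IrrCharacter G,
      (χ : G → ℂ) ((a * b * a⁻¹ * b⁻¹) * (c * d * c⁻¹ * d⁻¹) * g⁻¹) * (χ : G → ℂ) 1 = 0 := by
    intro a b c d
    have hne : ¬ IsConj ((a * b * a⁻¹ * b⁻¹) * (c * d * c⁻¹ * d⁻¹) * g⁻¹) 1 := by
      rw [isConj_one_left]
      intro h1
      exact hno a b c d (mul_inv_eq_one.mp h1)
    have := (Cfsg.Agent.S0145.result _ _).2 hne
    rw [finsum_eq_sum_of_fintype] at this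
    simpa only [irr_conj_one] using this
  have htot : ∑ p : G × G × G × G, ∑ χ : Cfsg.IrrCharacter G,
      (χ : G → ℂ) ((p.1 * p.2.1 * p.1⁻¹ * p.2.1⁻¹) *
        (p.2.2.1 * p.2.2.2 * p.2.2.1⁻¹ * p.2.2.2⁻¹) * g⁻¹) * (χ : G → ℂ) 1 = 0 := by
    simp only [hzero, Finset.sum_const_zero]
  rw [Finset.sum_comm] at htot
  have hχ : ∀ χ : Cfsg.IrrCharacter G, ∑ p : G × G × G × G,
      (χ : G → ℂ) ((p.1 * p.2.1 * p.1⁻¹ * p.2.1⁻¹) *
        (p.2.2.1 * p.2.2.2 * p.2.2.1⁻¹ * p.2.2.2⁻¹) * g⁻¹) * (χ : G → ℂ) 1 =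
      (Nat.card G : ℂ) ^ 4 * ((χ : G → ℂ) g⁻¹ / (χ : G → ℂ) 1 ^ 3) := by
    intro χ
    rw [← Finset.sum_mul]
    simp only [Fintype.sum_prod_type]
    rw [irr_sum_two_commutators χ g⁻¹]
    have h0 := irr_one_ne_zero χ
    field_simp
  simp only [hχ] at htot
  rw [← Finset.mul_sum] at htot
  have hsum : ∑ χ : Cfsg.IrrCharacter G, (χ : G → ℂ) g⁻¹ / (χ : G → ℂ) 1 ^ 3 = 0 := by
    rcases mul_eq_zero.mp htot with h1 | h1
    · exact absurd h1 (pow_ne_zero _ hcard)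
    · exact h1
  rw [← Finset.add_sum_erase _ _ (Finset.mem_univ (irrOne G))] at hsum h
  have e1 : ((irrOne G : Cfsg.IrrCharacter G) : G → ℂ) g⁻¹ /
      ((irrOne G : Cfsg.IrrCharacter G) : G → ℂ) 1 ^ 3 = 1 := by
    simp [irrOne]
  have e2 : 1 / ‖((irrOne G : Cfsg.IrrCharacter G) : G → ℂ) 1‖ ^ 2 = (1 : ℝ) := by
    simp [irrOne]
  rw [e1] at hsum
  rw [e2] at h
  have hle : ‖∑ χ ∈ Finset.univ.erase (irrOne G), (χ : G → ℂ) g⁻¹ / (χ : G → ℂ) 1 ^ 3‖ ≤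
      ∑ χ ∈ Finset.univ.erase (irrOne G), 1 / ‖(χ : G → ℂ) 1‖ ^ 2 := by
    refine (norm_sum_le _ _).trans (Finset.sum_le_sum fun χ _ => ?_)
    have h0 : 0 < ‖(χ : G → ℂ) 1‖ := norm_pos_iff.mpr (irr_one_ne_zero χ)
    rw [norm_div, norm_pow, div_le_div_iff₀ (by positivity) (by positivity)]
    have := irr_norm_le χ g⁻¹
    nlinarith [sq_nonneg ‖(χ : G → ℂ) 1‖, mul_le_mul_of_nonneg_right this (sq_nonneg ‖(χ : G → ℂ) 1‖)]
  have h1 : ∑ χ ∈ Finset.univ.erase (irrOne G), (χ : G → ℂ) g⁻¹ / (χ : G → ℂ) 1 ^ 3 = -1 := by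
    linear_combination hsum
  rw [h1] at hle
  simp only [norm_neg, norm_one] at hle
  linarith

end Cfsg.Agent.S4814
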