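import Cfsg.Statements.S4825
import Cfsg.Agent.Lib.Helper81RelDeg

set_option autoImplicit false
open Cfsg

namespace Cfsg.Agent.S4825

open Cfsg.Agent.Lib.Helper81Local Cfsg.Agent.Lib.Helper81Base Cfsg.Agent.Lib.Helper81Block
  Cfsg.Agent.Lib.Helper21Cover Cfsg.Agent.Lib.Helper81RelDeg
open scoped ComplexConjugate
/-- Let p be a prime, G a finite group with Sylow p-subgroup P, M a maximal ideal of the algebraic integers containing p, and B a p-block of G with defect group P. Let N be a normal subgroup of G not containing P and θ an irreducible character of N. Then the number of irreducible characters in B of degree prime to p lying over θ (having θ as a constituent on restriction to N) is either 0 or at least 2, and when p ≤ 3 it is divisible by p. -/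
theorem result {G : Type*} [Group G] [Fintype G] (p : ℕ) [Fact p.Prime] (P : Sylow p G) (M : Ideal Cfsg.AlgInt) (hM : Cfsg.IsPModular p M) (B : Set (Cfsg.IrrCharacter G)) (hB : Cfsg.IsPBlock M B) (hBP : Cfsg.IsDefectGroup p M B P) (N : Subgroup G) [N.Normal] [Fintype N] (hPN : ¬ (P : Subgroup G) ≤ N) (θ : Cfsg.IrrCharacter N) :
    (Nat.card {χ : Cfsg.IrrCharacter G // χ ∈ B ∧ ¬ p ∣ Cfsg.charDegree (χ : G → ℂ) ∧ Cfsg.classInner (fun n : N => (χ : G → ℂ) n) (θ : N → ℂ) ≠ 0} = 0 ∨
      2 ≤ Nat.card {χ : Cfsg.IrrCharacter G // χ ∈ B ∧ ¬ p ∣ Cfsg.charDegree (χ : G → ℂ) ∧ Cfsg.classInner (fun n : N => (χ : G → ℂ) n) (θ : N → ℂ) ≠ 0}) ∧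
    (p ≤ 3 → p ∣ Nat.card {χ : Cfsg.IrrCharacter G // χ ∈ B ∧ ¬ p ∣ Cfsg.charDegree (χ : G → ℂ) ∧ Cfsg.classInner (fun n : N => (χ : G → ℂ) n) (θ : N → ℂ) ≠ 0}) := by
  classical
  have hp : p.Prime := Fact.out
  have hN : N.Normal := inferInstance
  have : M.IsPrime := hM.2.1.isPrime
  -- p divides the index
  have hidx : p ∣ N.index := by
    by_contra hnd
    apply hPN
    intro x hx
    have h1 : ((x : G) : G ⧸ N) = 1 := by
      rw [← orderOf_eq_one_iff]
      obtain ⟨k, hk⟩ := (P.2 : IsPGroup p (P : Subgroup G)) ⟨x, hx⟩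
      have hk' : x ^ p ^ k = 1 := by
        have := congrArg Subtype.val hk
        simpa using this
      have h2 : orderOf ((x : G) : G ⧸ N) ∣ p ^ k := by
        apply orderOf_dvd_of_pow_eq_one
        rw [← QuotientGroup.mk_pow, hk']
        rfl
      have h3 : orderOf ((x : G) : G ⧸ N) ∣ N.index := by
        rw [Subgroup.index_eq_card]
        exact orderOf_dvd_natCard _
      have h4 : Nat.Coprime (p ^ k) N.index :=
        Nat.Coprime.pow_left k ((Nat.Prime.coprime_iff_not_dvd hp).2 hnd)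
      exact Nat.eq_one_of_dvd_coprimes h4 h2 h3
    exact (QuotientGroup.eq_one_iff x).1 h1
  set F : Finset (IrrCharacter G) := Finset.univ.filter (fun χ => χ ∈ B ∧ Over χ θ) with hF
  set F' : Finset (IrrCharacter G) := Finset.univ.filter (fun χ => χ ∈ B ∧
    ¬ p ∣ Cfsg.charDegree (χ : G → ℂ) ∧
    Cfsg.classInner (fun n : N => (χ : G → ℂ) n) (θ : N → ℂ) ≠ 0) with hF'
  have hcard : Nat.card {χ : Cfsg.IrrCharacter G // χ ∈ B ∧ ¬ p ∣ Cfsg.charDegree (χ : G → ℂ) ∧
      Cfsg.classInner (fun n : N => (χ : G → ℂ) n) (θ : N → ℂ) ≠ 0} = F'.card := by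
    rw [Nat.card_eq_fintype_card, Fintype.card_subtype]
  rw [hcard]
  -- divisibility of the sum over F
  have h1 : p ∣ ∑ χ ∈ F, charDegree (χ : G → ℂ) ^ 2 := by
    obtain ⟨r, hr, he⟩ := sum_sq_over (M := M) hN hB θ
    rw [← memLocalIdeal_natCast_iff hM]
    have h2 : ((∑ χ ∈ F, charDegree (χ : G → ℂ) ^ 2 : ℕ) : ℂ) = (N.index : ℂ) * r := by
      rw [← he, hF, Finset.sum_filter]
      push_cast
      apply Finset.sum_congr rfl
      intro χ _
      split_ifs
      · rw [charDegree_eq]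
      · rfl
    rw [h2]
    exact memLocalIdeal_mul_right ((memLocalIdeal_natCast_iff hM).2 hidx) hr
  have h2 : p ∣ ∑ χ ∈ F', charDegree (χ : G → ℂ) ^ 2 := by
    have h3 : F' = F.filter (fun χ : IrrCharacter G => ¬ p ∣ charDegree (χ : G → ℂ)) := by
      rw [hF, hF', Finset.filter_filter]
      apply Finset.filter_congr
      intro χ _
      unfold Over
      constructor
      · rintro ⟨a, b, c⟩
        exact ⟨⟨a, c⟩, b⟩
      · rintro ⟨⟨a, c⟩, b⟩
        exact ⟨a, b, c⟩
    have h4 := Finset.sum_filter_add_sum_filter_not F (fun χ : IrrCharacter G => ¬ p ∣ charDegree (χ : G → ℂ))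
      (fun χ : IrrCharacter G => charDegree (χ : G → ℂ) ^ 2)
    rw [← h3] at h4
    have h5 : p ∣ ∑ χ ∈ F.filter (fun χ : IrrCharacter G => ¬ ¬ p ∣ charDegree (χ : G → ℂ)),
        charDegree (χ : G → ℂ) ^ 2 := by
      apply Finset.dvd_sum
      intro χ hχ
      have := (Finset.mem_filter.1 hχ).2
      push Not at this
      exact Dvd.dvd.pow this (by norm_num)
    rw [← h4] at h1
    exact (Nat.dvd_add_left h5).1 h1
  have hnd : ∀ χ ∈ F', ¬ p ∣ charDegree (χ : G → ℂ) := by
    intro χ hχ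
    exact (Finset.mem_filter.1 hχ).2.2.1
  constructor
  · by_contra hcon
    push Not at hcon
    have h3 : F'.card = 1 := by omega
    obtain ⟨χ, hχ⟩ := Finset.card_eq_one.1 h3
    rw [hχ, Finset.sum_singleton] at h2
    exact hnd χ (by rw [hχ]; exact Finset.mem_singleton_self χ) (hp.dvd_of_dvd_pow h2)
  · intro hp3
    have h3 : ∀ χ ∈ F', charDegree (χ : G → ℂ) ^ 2 % p = 1 % p := by
      intro χ hχ
      have h4 := hnd χ hχ
      have h5 : p = 2 ∨ p = 3 := by
        have := hp.two_le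
        omega
      rcases h5 with rfl | rfl
      · have h6 : charDegree (χ : G → ℂ) % 2 = 1 := by omega
        rw [Nat.pow_mod, h6]
      · have h6 : charDegree (χ : G → ℂ) % 3 = 1 ∨ charDegree (χ : G → ℂ) % 3 = 2 := by omega
        rcases h6 with h6 | h6 <;> rw [Nat.pow_mod, h6]
    have h4 : (∑ χ ∈ F', charDegree (χ : G → ℂ) ^ 2) % p = (∑ χ ∈ F', 1) % p := by
      rw [Finset.sum_nat_mod, Finset.sum_congr rfl h3, ← Finset.sum_nat_mod]
    rw [Finset.sum_const, smul_eq_mul, mul_one] at h4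
    rw [Nat.dvd_iff_mod_eq_zero, ← h4]
    exact Nat.mod_eq_zero_of_dvd h2

end Cfsg.Agent.S4825
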