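import Cfsg.Statements.S4828
import Cfsg.Agent.Lib.Helper20Pair

set_option autoImplicit false
open Cfsg

namespace Cfsg.Agent.S4828

open Cfsg.Agent.Lib.Helper20Local Cfsg.Agent.Lib.Helper20Center Cfsg.Agent.Lib.Helper20Block
open Cfsg.Agent.Lib.Helper20Ideal Cfsg.Agent.Lib.Helper20Defect
open Cfsg.Agent.Lib.Helper20First Cfsg.Agent.Lib.Helper20Induced Cfsg.Agent.Lib.Helper87Sylow
open Cfsg.Agent.Lib.Helper20DefCard Cfsg.Agent.Lib.Helper20Conj Cfsg.Agent.Lib.Helper20Brauer
open Cfsg.Agent.Lib.Helper20HK Cfsg.Agent.Lib.Helper20Pair Cfsg.Agent.Lib.Helper20Canon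
open Cfsg.Agent.Lib.Helper20Ext
open Cfsg.Agent.Lib.Helper80Brauer Cfsg.Agent.Lib.Helper80Trace Cfsg.Agent.Lib.Helper80Stab
open Cfsg.Agent.Lib.Helper80IQ Cfsg.Agent.Lib.Helper80Up Cfsg.Agent.Lib.Helper80Pairs
open Cfsg.Agent.Lib.Helper80Transport Cfsg.Agent.Lib.Helper80Cen
open Cfsg.Agent.Lib.Helper21Cover2 Cfsg.Agent.Lib.Helper21DC


/-- Let p be a prime, M a maximal ideal of the algebraic integers containing p, and (Q, e) a Brauer pair of the finite group G (Q a p-subgroup, e a block of C_G(Q)). Then (Q, e) is a maximal Brauer pair of some block of G if and only if e contains an irreducible character θ such that θ takes the value θ(1) at every element of Z(Q) = Q ∩ C_G(Q), the p-part of θ(1) times the p-part of the order of Z(Q) equals the p-part of the order of C_G(Q) (θ has defect zero as a character of C_G(Q)/Z(Q)), and every element of N_G(Q) of p-power order that stabilizes e lies in Q·C_G(Q) (the stabilizer of e in N_G(Q) has index prime to p over Q·C_G(Q)). -/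
theorem result {G : Type*} [Group G] [Finite G] (p : ℕ) [Fact p.Prime] (M : Ideal Cfsg.AlgInt) (hM : Cfsg.IsPModular p M) (Q : Subgroup G) (e : Set (Cfsg.IrrCharacter (Subgroup.centralizer (Q : Set G)))) (he : Cfsg.IsBrauerPair p M Q e) :
    (∃ B : Set (Cfsg.IrrCharacter G), Cfsg.IsMaximalBrauerPair p M B Q e) ↔
      ∃ θ ∈ e, (∀ z : Subgroup.centralizer (Q : Set G), (z : G) ∈ Q → (θ : Subgroup.centralizer (Q : Set G) → ℂ) z = (θ : Subgroup.centralizer (Q : Set G) → ℂ) 1) ∧
        (Cfsg.charDegree (θ : Subgroup.centralizer (Q : Set G) → ℂ)).factorization p + (Nat.card ↥(Q ⊓ Subgroup.centralizer (Q : Set G))).factorization p = (Nat.card (Subgroup.centralizer (Q : Set G))).factorization p ∧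
        (∀ g : G, g ∈ Subgroup.normalizer (Q : Set G) → Cfsg.StabilizesBlock (Subgroup.centralizer (Q : Set G)) e g → (∃ k : ℕ, orderOf g = p ^ k) → g ∈ Q ⊔ Subgroup.centralizer (Q : Set G)) := by
  classical
  cases nonempty_fintype G
  have hp : p.Prime := Fact.out
  have hPr := IsPModular.isPrime hM
  have hCT : Subgroup.centralizer (Q : Set G) ≤ pstab Q e := centralizer_le_pstab Q e
  have hQT : Q ≤ pstab Q e := le_pstab Q e
  have hTN : pstab Q e ≤ Subgroup.normalizer (Q : Set G) := pstab_le Q e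
  have hC' : ((Subgroup.centralizer (Q : Set G)).subgroupOf (pstab Q e)).Normal := by
    rw [Subgroup.normal_subgroupOf_iff_le_normalizer hCT]
    intro x hx
    rw [Subgroup.mem_normalizer_iff]
    exact mem_normalizer_centralizer (hTN hx)
  have hZc : (Q ⊓ Subgroup.centralizer (Q : Set G)).subgroupOf (Subgroup.centralizer (Q : Set G))
      ≤ Subgroup.center (Subgroup.centralizer (Q : Set G)) := by
    intro z hz
    rw [Subgroup.mem_center_iff]
    intro c
    apply Subtype.ext
    have := Subgroup.mem_centralizer_iff.1 c.2 (z : G) hz.1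
    exact this.symm
  have hZp : IsPGroup p ((Q ⊓ Subgroup.centralizer (Q : Set G)).subgroupOf
      (Subgroup.centralizer (Q : Set G))) :=
    (he.1.to_le inf_le_left).of_equiv (Subgroup.subgroupOfEquivOfLe inf_le_right).symm
  have hZn := normal_of_le_center hZc
  have hcardZ : Nat.card ((Q ⊓ Subgroup.centralizer (Q : Set G)).subgroupOf
      (Subgroup.centralizer (Q : Set G))) = Nat.card ↥(Q ⊓ Subgroup.centralizer (Q : Set G)) :=
    Nat.card_congr (Subgroup.subgroupOfEquivOfLe inf_le_right).toEquiv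
  have hmemT : ∀ g : G, g ∈ pstab Q e ↔ (g ∈ Subgroup.normalizer (Q : Set G) ∧
      Cfsg.StabilizesBlock (Subgroup.centralizer (Q : Set G)) e g) := by
    intro g
    rw [mem_stabFun, stabilizesBlock_iff hPr he.2]
    constructor
    · rintro ⟨h1, h2⟩
      refine ⟨h1, ?_, h2⟩
      rw [Subgroup.mem_normalizer_iff]
      exact mem_normalizer_centralizer h1
    · rintro ⟨h1, _, h2⟩
      exact ⟨h1, h2⟩
  constructor
  · rintro ⟨B, hmax⟩
    obtain ⟨F, hF, hFe, hFD⟩ := exists_block_of_maximal hM hmax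
    have hZ := isDefectGroup_of_ext hCT hC' hM he.2 hF hFe hFD
    obtain ⟨θ, hθ, hker⟩ := exists_mem_ker hM he.2 hZp
    have hdeg := deg_canonical hM he.2 hZ hθ hker
    refine ⟨θ, hθ, fun z hz => hker z ⟨hz, z.2⟩, ?_, ?_⟩
    · rw [hdeg, ← hcardZ, ← Subgroup.card_mul_index ((Q ⊓ Subgroup.centralizer (Q : Set G)).subgroupOf
        (Subgroup.centralizer (Q : Set G))),
        Nat.factorization_mul Nat.card_pos.ne' Subgroup.index_ne_zero_of_finite]
      simp only [Finsupp.coe_add, Pi.add_apply]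
      omega
    · rintro g hgN hgs ⟨k, hk⟩
      have hgT : g ∈ pstab Q e := (hmemT g).2 ⟨hgN, hgs⟩
      have hnd := not_dvd_index_of_maximal hM hmax
      have hle : Q ⊔ Subgroup.centralizer (Q : Set G) ≤ pstab Q e := sup_le hQT hCT
      have hnorm : ((Q ⊔ Subgroup.centralizer (Q : Set G)).subgroupOf (pstab Q e)).Normal := by
        rw [Subgroup.normal_subgroupOf_iff_le_normalizer hle]
        exact hTN.trans (normalizer_le_normalizer_sup Q)
      have h1 : ((⟨g, hgT⟩ : pstab Q e) : pstab Q e ⧸ ((Q ⊔ Subgroup.centralizer (Q : Set G)).subgroupOf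
          (pstab Q e))) = 1 := by
        rw [← orderOf_eq_one_iff]
        have d1 : orderOf ((⟨g, hgT⟩ : pstab Q e) : pstab Q e ⧸
            ((Q ⊔ Subgroup.centralizer (Q : Set G)).subgroupOf (pstab Q e))) ∣ p ^ k := by
          rw [← hk, ← Subgroup.orderOf_mk g hgT]
          exact orderOf_map_dvd (QuotientGroup.mk' _) _
        have d2 : orderOf ((⟨g, hgT⟩ : pstab Q e) : pstab Q e ⧸
            ((Q ⊔ Subgroup.centralizer (Q : Set G)).subgroupOf (pstab Q e))) ∣
            ((Q ⊔ Subgroup.centralizer (Q : Set G)).subgroupOf (pstab Q e)).index := by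
          rw [Subgroup.index_eq_card]
          exact orderOf_dvd_natCard _
        obtain ⟨j, _, hj⟩ := (Nat.dvd_prime_pow hp).1 d1
        rcases j with _ | j
        · simpa using hj
        · exfalso
          apply hnd
          rw [hj] at d2
          exact (dvd_pow_self p (Nat.succ_ne_zero j)).trans d2
      have h2 : (⟨g, hgT⟩ : pstab Q e) ∈
          (Q ⊔ Subgroup.centralizer (Q : Set G)).subgroupOf (pstab Q e) :=
        (QuotientGroup.eq_one_iff _).1 h1
      exact h2
  · rintro ⟨θ, hθ, hker, hdeg, hstab⟩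
    rw [← hcardZ] at hdeg
    have hZ := isDefectGroup_of_canonical hM hZp hZc (fun z hz => hker z hz.1) hdeg he.2 hθ
    obtain ⟨F, hF, hFe⟩ := exists_block_stab hM he.1 he.2 hQT hCT hTN (isInv_stabFun _ _)
    obtain ⟨B, hB, _⟩ := existsUnique_block hM he
    obtain ⟨D', hD'⟩ := exists_defectGroup hM hF
    have hs : (D'.map (pstab Q e).subtype).subgroupOf (pstab Q e) = D' :=
      Subgroup.comap_map_eq_self_of_injective (Subgroup.subtype_injective _) D'
    have hD'' := hD'
    rw [← hs] at hD''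
    have hZ2 := isDefectGroup_of_ext hCT hC' hM he.2 hF hFe hD''
    have hQn : (Q.subgroupOf (pstab Q e)).Normal :=
      (Subgroup.normal_subgroupOf_iff_le_normalizer hQT).2 hTN
    have hQp : IsPGroup p (Q.subgroupOf (pstab Q e)) :=
      he.1.of_equiv (Subgroup.subgroupOfEquivOfLe hQT).symm
    have hQD := le_defectGroup_of_normal hM _ hQp hF hD'
    have hle : (Q ⊓ Subgroup.centralizer (Q : Set G)).subgroupOf (Subgroup.centralizer (Q : Set G))
        ≤ (D'.map (pstab Q e).subtype ⊓ Subgroup.centralizer (Q : Set G)).subgroupOf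
          (Subgroup.centralizer (Q : Set G)) := by
      intro z hz
      exact ⟨⟨⟨z, hQT hz.1⟩, hQD hz.1, rfl⟩, hz.2⟩
    have heq := Subgroup.eq_of_le_of_card_ge hle
      (by rw [card_defectGroup hM he.2 hZ, card_defectGroup hM he.2 hZ2])
    have hDp := isPGroup_of_defectGroup hD'
    have hDQ : D' = Q.subgroupOf (pstab Q e) := by
      apply le_antisymm _ hQD
      intro t ht
      obtain ⟨k, hk⟩ := (IsPGroup.iff_orderOf.1 hDp) ⟨t, ht⟩
      have hk' : orderOf (t : G) = p ^ k := by
        rw [← hk, Subgroup.orderOf_mk, Subgroup.orderOf_coe]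
      have h1 := hstab t ((hmemT t).1 t.2).1 ((hmemT t).1 t.2).2 ⟨k, hk'⟩
      obtain ⟨u, hu, c, hc, huc⟩ := mem_sup_centralizer h1
      have hcD : c ∈ D'.map (pstab Q e).subtype := by
        have e1 : c = u⁻¹ * (t : G) := by rw [huc]; group
        rw [e1]
        exact Subgroup.mul_mem _ (Subgroup.inv_mem _ ⟨⟨u, hQT hu⟩, hQD hu, rfl⟩) ⟨t, ht, rfl⟩
      have hcZ : (⟨c, hc⟩ : Subgroup.centralizer (Q : Set G)) ∈
          (D'.map (pstab Q e).subtype ⊓ Subgroup.centralizer (Q : Set G)).subgroupOf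
          (Subgroup.centralizer (Q : Set G)) := ⟨hcD, hc⟩
      rw [← heq] at hcZ
      have : (t : G) ∈ Q := by
        rw [huc]
        exact Q.mul_mem hu hcZ.1
      exact this
    rw [hDQ] at hD'
    exact ⟨B, isMaximal_of_defectGroup hM hB (isDefectGroup_of_pstab hM hB hF hFe hD')⟩

end Cfsg.Agent.S4828
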