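import Cfsg.Statements.S4837
import Cfsg.Agent.Lib.Helper83Gagola

set_option autoImplicit false
open Cfsg

namespace Cfsg.Agent.S4837

/-- Let G be a finite group of order greater than 2 with an irreducible character χ nonzero on exactly two conjugacy classes, and let N be the set of elements where χ is nonzero, given as a nontrivial normal p-subgroup of G for the prime p. Then for every nonidentity x in N the centralizer C_G(x) is a Sylow p-subgroup of G, and for every irreducible character λ ≠ 1 of N the stabilizer of λ in G (its inertia group) is a Sylow p-subgroup of G. -/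
theorem result {G : Type*} [Group G] [Finite G] (hG : 2 < Nat.card G) (χ : Cfsg.IrrCharacter G) (hχ : Nat.card {C : ConjClasses G // ∃ g ∈ C.carrier, (χ : G → ℂ) g ≠ 0} = 2) (p : ℕ) [Fact p.Prime] (N : Subgroup G) [N.Normal] (hN : ∀ g : G, g ∈ N ↔ (χ : G → ℂ) g ≠ 0) (hNp : IsPGroup p N) (hN1 : N ≠ ⊥) :
    (∀ x ∈ N, x ≠ 1 → ∃ P : Sylow p G, Subgroup.centralizer ({x} : Set G) = P) ∧
      (∀ μ : Cfsg.IrrCharacter N, (μ : N → ℂ) ≠ (fun _ => (1 : ℂ)) → ∃ P : Sylow p G, ∀ g : G, g ∈ (P : Subgroup G) ↔ ∀ n n' : N, (n' : G) = g * n * g⁻¹ → (μ : N → ℂ) n' = (μ : N → ℂ) n) := by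
  have hN' : ∀ g : G, g ∈ N ↔ (χ : G → ℂ) g ≠ 0 := hN
  obtain ⟨x0, hx0N, hx01⟩ : ∃ x0 ∈ N, x0 ≠ 1 := by
    by_contra h
    push Not at h
    exact hN1 ((Subgroup.eq_bot_iff_forall N).2 h)
  have hc2 := Cfsg.Agent.Lib.Helper83Gagola.card_N_ge_two χ hχ N hN'
  constructor
  · intro x hx hx1
    exact ⟨Sylow.ofCard _
      (Cfsg.Agent.Lib.Helper83Gagola.card_centralizer_eq χ hχ N hN' hG p hNp x hx hx1), rfl⟩
  · intro μ hμ
    have h1 := Cfsg.Agent.Lib.Helper83Gagola.card_inertia_mul χ hχ N hN' μ hμ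
    have h2 := Cfsg.Agent.Lib.Helper83Gagola.card_centralizer_mul χ hχ N hN' x0 hx0N hx01
    have h3 := Cfsg.Agent.Lib.Helper83Gagola.card_centralizer_eq χ hχ N hN' hG p hNp x0 hx0N hx01
    have h4 : Nat.card (Cfsg.Agent.Lib.Helper83Gagola.inertia N (μ : N → ℂ)) =
        p ^ (Nat.card G).factorization p := by
      rw [← h3]
      exact Nat.eq_of_mul_eq_mul_left (by omega) (h1.trans h2.symm)
    refine ⟨Sylow.ofCard _ h4, fun g => ?_⟩
    exact Cfsg.Agent.Lib.Helper83Gagola.mem_inertia N (μ : N → ℂ) g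

end Cfsg.Agent.S4837
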