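import Cfsg.Statements.S4839
import Cfsg.Agent.Lib.Helper83Gagola2
import Cfsg.Agent.Lib.Helper60Core
import Cfsg.Agent.Lib.Helper72Frob
import Cfsg.Agent.S0200

set_option autoImplicit false
open Cfsg

namespace Cfsg.Agent.S4839


open Cfsg.Agent.Lib
open Cfsg.Agent.Lib.Helper83Char Cfsg.Agent.Lib.Helper83Gagola Cfsg.Agent.Lib.Helper83Gagola2
open scoped Pointwise

set_option linter.unusedSectionVars false

section aux

variable {G : Type*} [Group G] [Finite G]

variable (χ : Cfsg.IrrCharacter G)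
  (hχ : Nat.card {C : ConjClasses G // ∃ g ∈ C.carrier, (χ : G → ℂ) g ≠ 0} = 2)
  (N : Subgroup G) (hN : ∀ g : G, g ∈ N ↔ (χ : G → ℂ) g ≠ 0)

include hχ hN

theorem camina (hG : 2 < Nat.card G) (g : G) (hg : g ∉ N) (n : G) (hn : n ∈ N) :
    IsConj g (g * n) := by
  have := Fintype.ofFinite G
  rw [Helper4Char2.isConj_iff_irr]
  intro ψ
  by_cases h : ψ = χ
  · subst h
    have h1 : (ψ : G → ℂ) g = 0 := by
      by_contra h0; exact hg ((hN g).2 h0)
    have h2 : (ψ : G → ℂ) (g * n) = 0 := by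
      by_contra h0
      exact hg ((N.mul_mem_cancel_right hn).1 ((hN _).2 h0))
    rw [h1, h2]
  · exact (Helper82Quot.char_mul_of_mem_ker (isCharacter_of_irr ψ.2) g
      (ne_imp_ker χ hχ N hN hG ψ h n hn)).symm

theorem N_comm (a b : G) (ha : a ∈ N) (hb : b ∈ N) : a * b = b * a := by
  obtain ⟨p, hp, ⟨hcomm⟩, -⟩ := N_elementary χ hχ N hN
  have := hcomm.comm ⟨a, ha⟩ ⟨b, hb⟩
  exact congrArg Subtype.val this

theorem exists_ne_one : ∃ x ∈ N, x ≠ 1 := by
  by_contra h
  push Not at h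
  exact N_ne_bot χ hχ N hN ((Subgroup.eq_bot_iff_forall N).2 h)

theorem cent_isPGroup (hG : 2 < Nat.card G) (p : ℕ) [Fact p.Prime] (hNp : IsPGroup p N)
    (x : G) (hx : x ∈ N) (hx1 : x ≠ 1) : IsPGroup p (Subgroup.centralizer ({x} : Set G)) :=
  IsPGroup.of_card (card_centralizer_eq χ hχ N hN hG p hNp x hx hx1)

theorem N_exp (p : ℕ) [Fact p.Prime] (hNp : IsPGroup p N) (a : G) (ha : a ∈ N) : a ^ p = 1 := by
  obtain ⟨q, hq, -, hexp⟩ := N_elementary χ hχ N hN
  obtain ⟨x, hx, hx1⟩ := exists_ne_one χ hχ N hN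
  have h1 : x ^ q = 1 := hexp x hx
  have : Fact q.Prime := ⟨hq⟩
  have h2 : orderOf x = q := orderOf_eq_prime h1 hx1
  obtain ⟨k, hk⟩ := hNp ⟨x, hx⟩
  have hk' : x ^ (p ^ k) = 1 := congrArg Subtype.val hk
  have h3 : q ∣ p ^ k := h2 ▸ orderOf_dvd_of_pow_eq_one hk'
  have h4 : q = p := (Nat.prime_dvd_prime_iff_eq hq Fact.out).1 (hq.dvd_of_dvd_pow h3)
  subst h4
  exact hexp a ha

/-- a `p`-element commutes with a nonidentity element of `N`. -/
theorem exists_commute [N.Normal] (hG : 2 < Nat.card G) (p : ℕ) [Fact p.Prime] (hNp : IsPGroup p N)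
    (y : G) (hy : IsPGroup p (Subgroup.zpowers y)) : ∃ x ∈ N, x ≠ 1 ∧ x * y = y * x := by
  obtain ⟨x0, hx0, hx01⟩ := exists_ne_one χ hχ N hN
  let P : Sylow p G := Sylow.ofCard _ (card_centralizer_eq χ hχ N hN hG p hNp x0 hx0 hx01)
  obtain ⟨Q, hQ⟩ := hy.exists_le_sylow
  obtain ⟨g, hg⟩ := MulAction.exists_smul_eq G P Q
  have hyQ : y ∈ (Q : Subgroup G) := hQ (Subgroup.mem_zpowers y)
  rw [← hg, Sylow.coe_subgroup_smul, Subgroup.mem_pointwise_smul_iff_inv_smul_mem] at hyQ
  have hy2 : g⁻¹ * y * g ∈ Subgroup.centralizer ({x0} : Set G) := by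
    have h3 : g⁻¹ * y * g ∈ (P : Subgroup G) := by simpa [MulAut.smul_def] using hyQ
    exact h3
  rw [Subgroup.mem_centralizer_singleton_iff] at hy2
  refine ⟨g * x0 * g⁻¹, ‹N.Normal›.conj_mem _ hx0 g, ?_, ?_⟩
  · intro h
    apply hx01
    have := congrArg (fun t => g⁻¹ * t * g) h
    simpa [mul_assoc] using this
  · calc g * x0 * g⁻¹ * y = g * (x0 * (g⁻¹ * y * g)) * g⁻¹ := by group
      _ = g * (g⁻¹ * y * g * x0) * g⁻¹ := by rw [hy2]
      _ = y * (g * x0 * g⁻¹) := by group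

theorem centralizer_le [N.Normal] (hG : 2 < Nat.card G) (p : ℕ) [Fact p.Prime]
    (hNp : IsPGroup p N) (hcore : N = Cfsg.pCore p G) :
    Subgroup.centralizer (N : Set G) ≤ N := by
  obtain ⟨x0, hx0, hx01⟩ := exists_ne_one χ hχ N hN
  have h1 : Subgroup.centralizer (N : Set G) ≤ Subgroup.centralizer ({x0} : Set G) :=
    Subgroup.centralizer_le (by simpa using hx0)
  have h2 : IsPGroup p (Subgroup.centralizer (N : Set G)) :=
    (cent_isPGroup χ hχ N hN hG p hNp x0 hx0 hx01).to_le h1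
  conv_rhs => rw [hcore]
  exact Helper60Core.le_pCore inferInstance h2

/-- if `N` has a complement `L`, then `L` has no element of order `p`. -/
theorem no_complement [N.Normal] (hG : 2 < Nat.card G) (p : ℕ) [Fact p.Prime]
    (hNp : IsPGroup p N) (L : Subgroup G) (hdec : ∀ g : G, ∃ n ∈ N, ∃ l ∈ L, g = n * l)
    (hdisj : ∀ z ∈ N, z ∈ L → z = 1) (y : G) (hyL : y ∈ L) (hy : orderOf y = p) : False := by
  have hp : p.Prime := Fact.out
  have hy1 : y ≠ 1 := by
    rintro rfl
    rw [orderOf_one] at hy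
    exact hp.one_lt.ne hy
  have hyN : y ∉ N := fun h => hy1 (hdisj y h hyL)
  have hyp : IsPGroup p (Subgroup.zpowers y) := by
    apply IsPGroup.of_card (n := 1)
    rw [Nat.card_zpowers, hy, pow_one]
  obtain ⟨x, hx, hx1, hxy⟩ := exists_commute χ hχ N hN hG p hNp y hyp
  let f : N → N := fun n => ⟨(n : G) * y * (n : G)⁻¹ * y⁻¹, by
    have : (n : G) * y * (n : G)⁻¹ * y⁻¹ = (n : G) * (y * (n : G)⁻¹ * y⁻¹) := by group
    rw [this]
    exact N.mul_mem n.2 (‹N.Normal›.conj_mem _ (N.inv_mem n.2) y)⟩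
  have hsurj : Function.Surjective f := by
    rintro ⟨n0, hn0⟩
    have hn1 : y⁻¹ * n0 * y ∈ N := by
      have := ‹N.Normal›.conj_mem _ hn0 y⁻¹
      simpa using this
    obtain ⟨g, hg⟩ := isConj_iff.1 (camina χ hχ N hN hG y hyN _ hn1)
    have hg' : g * y * g⁻¹ = n0 * y := by rw [hg]; group
    obtain ⟨n, hn, l, hl, rfl⟩ := hdec g
    have hy' : l * y * l⁻¹ ∈ L := L.mul_mem (L.mul_mem hl hyL) (L.inv_mem hl)
    set y' := l * y * l⁻¹ with hy'def
    have e1 : n * y' * n⁻¹ = n0 * y := by rw [← hg', hy'def]; group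
    have hm : n * y' * n⁻¹ * y'⁻¹ ∈ N := by
      have : n * y' * n⁻¹ * y'⁻¹ = n * (y' * n⁻¹ * y'⁻¹) := by group
      rw [this]
      exact N.mul_mem hn (‹N.Normal›.conj_mem _ (N.inv_mem hn) y')
    have e2 : n0⁻¹ * (n * y' * n⁻¹ * y'⁻¹) = y * y'⁻¹ := by rw [e1]; group
    have e3 : y * y'⁻¹ = 1 := by
      apply hdisj
      · rw [← e2]; exact N.mul_mem (N.inv_mem hn0) hm
      · exact L.mul_mem hyL (L.inv_mem hy')
    have e4 : y' = y := (mul_inv_eq_one.1 e3).symm
    refine ⟨⟨n, hn⟩, Subtype.ext ?_⟩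
    change n * y * n⁻¹ * y⁻¹ = n0
    rw [e4] at e1
    rw [e1]; group
  have hinj : Function.Injective f := Finite.injective_iff_surjective.2 hsurj
  have h1 : f ⟨x, hx⟩ = f 1 := by
    apply Subtype.ext
    change x * y * x⁻¹ * y⁻¹ = (1 : G) * y * (1 : G)⁻¹ * y⁻¹
    rw [hxy]; group
  have := congrArg Subtype.val (hinj h1)
  exact hx1 this

theorem odd_case [N.Normal] (hG : 2 < Nat.card G) (p : ℕ) [Fact p.Prime]
    (hNp : IsPGroup p N) (hcore : N = Cfsg.pCore p G) (hp2 : p ≠ 2) (hdvd : p ∣ N.index) :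
    False := by
  have hp : p.Prime := Fact.out
  have hnorm := ‹N.Normal›
  obtain ⟨k, hk⟩ := IsPGroup.iff_card.1 hNp
  have hodd : Odd (Nat.card N) := by rw [hk]; exact (hp.odd_of_ne_two hp2).pow
  obtain ⟨x0, hx0, hx01⟩ := exists_ne_one χ hχ N hN
  have h2G : 2 ∣ Nat.card G := by
    rw [← card_centralizer_mul χ hχ N hN x0 hx0 hx01]
    obtain ⟨m, hm⟩ := hodd
    apply Dvd.dvd.mul_right
    rw [hm]; simp
  obtain ⟨t, ht⟩ := exists_prime_orderOf_dvd_card' 2 h2G
  have key1 : ∀ s : G, orderOf s = 2 → ∀ x ∈ N, x ≠ 1 → s * x * s⁻¹ ≠ x := by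
    intro s hs x hx hx1 hsx
    have hmem : s ∈ Subgroup.centralizer ({x} : Set G) := by
      rw [Subgroup.mem_centralizer_singleton_iff]
      rw [mul_inv_eq_iff_eq_mul] at hsx
      exact hsx
    obtain ⟨j, hj⟩ := (IsPGroup.iff_orderOf.1 (cent_isPGroup χ hχ N hN hG p hNp x hx hx1)) ⟨s, hmem⟩
    rw [Subgroup.orderOf_mk, hs] at hj
    have : p ∣ 2 := by
      rw [hj]
      apply dvd_pow_self
      rintro rfl
      simp at hj
    exact hp2 ((Nat.prime_dvd_prime_iff_eq hp Nat.prime_two).1 this)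
  have sq : ∀ s : G, orderOf s = 2 → s * s = 1 := by
    intro s hs
    have := pow_orderOf_eq_one s
    rwa [hs, pow_two] at this
  have key2 : ∀ s : G, orderOf s = 2 → ∀ n ∈ N, s * n * s⁻¹ = n⁻¹ := by
    intro s hs n hn
    have hc : s * n * s⁻¹ ∈ N := hnorm.conj_mem n hn s
    have hss := sq s hs
    have hsinv : s⁻¹ = s := inv_eq_of_mul_eq_one_left hss
    by_contra hne
    have hu : n * (s * n * s⁻¹) ∈ N := N.mul_mem hn hc
    have hu1 : n * (s * n * s⁻¹) ≠ 1 := by
      intro h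
      apply hne
      exact (inv_eq_of_mul_eq_one_right h).symm
    apply key1 s hs _ hu hu1
    calc s * (n * (s * n * s⁻¹)) * s⁻¹ = (s * n * s⁻¹) * ((s * s) * n * (s * s)⁻¹) := by group
      _ = (s * n * s⁻¹) * n := by rw [hss]; group
      _ = n * (s * n * s⁻¹) := N_comm χ hχ N hN _ _ hc hn
  have htt := sq t ht
  have htinv : t⁻¹ = t := inv_eq_of_mul_eq_one_left htt
  have hcent := centralizer_le χ hχ N hN hG p hNp hcore
  have hdec : ∀ g : G, ∃ n ∈ N, ∃ l ∈ Subgroup.centralizer ({t} : Set G), g = n * l := by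
    intro g
    have hs : orderOf (g * t * g⁻¹) = 2 := by
      rw [← ht]; exact (MulAut.conj g).orderOf_eq t
    set s := g * t * g⁻¹ with hsdef
    have hm : s * t ∈ N := by
      apply hcent
      rw [Subgroup.mem_centralizer_iff]
      intro n hn
      have e1 := key2 t ht n hn
      have e2 := key2 s hs n⁻¹ (N.inv_mem hn)
      rw [inv_inv] at e2
      have : s * t * n * (s * t)⁻¹ = n := by
        calc s * t * n * (s * t)⁻¹ = s * (t * n * t⁻¹) * s⁻¹ := by group
          _ = n := by rw [e1, e2]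
      rw [mul_inv_eq_iff_eq_mul] at this
      exact this.symm
    obtain ⟨m, hm2⟩ := hodd
    set c := (s * t) ^ (m + 1) with hcdef
    have hcN : c ∈ N := N.pow_mem hm _
    have hcc : c * c = s * t := by
      rw [hcdef, ← pow_add]
      have : m + 1 + (m + 1) = Nat.card N + 1 := by omega
      rw [this, pow_succ]
      have h1 : (s * t) ^ Nat.card N = 1 := by
        have := pow_card_eq_one' (G := N) (x := ⟨s * t, hm⟩)
        exact congrArg Subtype.val this
      rw [h1, one_mul]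
    have e3 : c * t * c⁻¹ = s := by
      have e4 := key2 t ht c⁻¹ (N.inv_mem hcN)
      rw [inv_inv] at e4
      calc c * t * c⁻¹ = c * (t * c⁻¹ * t⁻¹) * t := by group
        _ = c * c * t := by rw [e4]
        _ = s * (t * t) := by rw [hcc]; group
        _ = s := by rw [htt, mul_one]
    refine ⟨c, hcN, c⁻¹ * g, ?_, by group⟩
    rw [Subgroup.mem_centralizer_singleton_iff]
    have e5 : c⁻¹ * s * c = t := by rw [← e3]; group
    calc c⁻¹ * g * t = c⁻¹ * (g * t * g⁻¹) * c * (c⁻¹ * g) := by group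
      _ = t * (c⁻¹ * g) := by rw [← hsdef, e5]
  have hdisj : ∀ z ∈ N, z ∈ Subgroup.centralizer ({t} : Set G) → z = 1 := by
    intro z hz hzt
    by_contra hz1
    apply key1 t ht z hz hz1
    rw [Subgroup.mem_centralizer_singleton_iff] at hzt
    rw [mul_inv_eq_iff_eq_mul]
    exact hzt.symm
  -- an element of order `p` in the complement
  have hdvd' : p ∣ Nat.card (G ⧸ N) := hdvd
  obtain ⟨ybar, hybar⟩ := exists_prime_orderOf_dvd_card' p hdvd'
  obtain ⟨y0, rfl⟩ := QuotientGroup.mk_surjective ybar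
  obtain ⟨n, hn, l, hl, rfl⟩ := hdec y0
  have hl' : ((n * l : G) : G ⧸ N) = (l : G ⧸ N) := by
    rw [QuotientGroup.eq]
    have : (n * l)⁻¹ * l = l⁻¹ * n⁻¹ * l := by group
    rw [this]
    have := hnorm.conj_mem _ (N.inv_mem hn) l⁻¹
    simpa using this
  rw [hl'] at hybar
  have hlp : l ^ p = 1 := by
    apply hdisj
    · rw [← QuotientGroup.eq_one_iff, QuotientGroup.mk_pow, ← hybar, pow_orderOf_eq_one]
    · exact Subgroup.pow_mem _ hl _
  have hl1 : l ≠ 1 := by
    rintro rfl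
    rw [QuotientGroup.mk_one, orderOf_one] at hybar
    exact hp.one_lt.ne hybar
  exact no_complement χ hχ N hN hG p hNp _ hdec hdisj l hl (orderOf_eq_prime hlp hl1)

theorem two_case [N.Normal] (hG : 2 < Nat.card G)
    (hNp : IsPGroup 2 N) (hcore : N = Cfsg.pCore 2 G) (hdvd : 2 ∣ N.index) :
    False := by
  have hnorm := ‹N.Normal›
  have hcomm := N_comm χ hχ N hN
  have hexp : ∀ n ∈ N, n * n = 1 := by
    intro n hn
    have := N_exp χ hχ N hN 2 hNp n hn
    rwa [pow_two] at this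
  have hinv : ∀ n ∈ N, n⁻¹ = n := fun n hn => inv_eq_of_mul_eq_one_left (hexp n hn)
  have hcent := centralizer_le χ hχ N hN hG 2 hNp hcore
  have hdvd' : 2 ∣ Nat.card (G ⧸ N) := hdvd
  obtain ⟨abar, habar⟩ := exists_prime_orderOf_dvd_card' 2 hdvd'
  have hO : ∀ M : Subgroup (G ⧸ N), M.Normal → IsPGroup 2 M → abar ∉ M := by
    intro M hM hM2 ha
    have h1 : IsPGroup 2 (M.comap (QuotientGroup.mk' N)) := by
      apply hM2.comap_of_ker_isPGroup
      rw [QuotientGroup.ker_mk']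
      exact hNp
    have h2 : M.comap (QuotientGroup.mk' N) ≤ N := by
      conv_rhs => rw [hcore]
      exact Helper60Core.le_pCore (hM.comap _) h1
    obtain ⟨a, rfl⟩ := QuotientGroup.mk_surjective abar
    have h3 : a ∈ N := h2 ha
    rw [(QuotientGroup.eq_one_iff a).2 h3, orderOf_one] at habar
    omega
  obtain ⟨hbar, hbar1, hbarodd, hrel⟩ := Cfsg.Agent.S0200.result abar habar hO
  obtain ⟨a, rfl⟩ := QuotientGroup.mk_surjective abar
  obtain ⟨h, rfl⟩ := QuotientGroup.mk_surjective hbar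
  have haN : a ∉ N := by
    intro h3
    rw [(QuotientGroup.eq_one_iff a).2 h3, orderOf_one] at habar
    omega
  have haa : a * a ∈ N := by
    rw [← QuotientGroup.eq_one_iff, QuotientGroup.mk_mul, ← pow_two, ← habar, pow_orderOf_eq_one]
  -- `h` acts without fixed points
  have hfix : ∀ x ∈ N, h * x * h⁻¹ = x → x = 1 := by
    intro x hx hhx
    by_contra hx1
    have hmem : h ∈ Subgroup.centralizer ({x} : Set G) := by
      rw [Subgroup.mem_centralizer_singleton_iff]
      rw [mul_inv_eq_iff_eq_mul] at hhx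
      exact hhx
    obtain ⟨j, hj⟩ := (cent_isPGroup χ hχ N hN hG 2 hNp x hx hx1) ⟨h, hmem⟩
    have hj' : h ^ (2 ^ j) = 1 := congrArg Subtype.val hj
    have h4 : ((h : G) : G ⧸ N) ^ (2 ^ j) = 1 := by
      rw [← QuotientGroup.mk_pow, hj', QuotientGroup.mk_one]
    have h5 : orderOf ((h : G) : G ⧸ N) ∣ 2 ^ j := orderOf_dvd_of_pow_eq_one h4
    have h6 : Nat.Coprime (orderOf ((h : G) : G ⧸ N)) (2 ^ j) :=
      Nat.Coprime.pow_right _ (Nat.coprime_two_right.2 hbarodd)
    have h7 : orderOf ((h : G) : G ⧸ N) = 1 := Nat.Coprime.eq_one_of_dvd h6 h5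
    exact hbar1 (orderOf_eq_one_iff.1 h7)
  -- the map `u ↦ h u h⁻¹ u`
  let f : N → N := fun u => ⟨h * (u : G) * h⁻¹ * u, N.mul_mem (hnorm.conj_mem _ u.2 h) u.2⟩
  have hfinj : Function.Injective f := by
    intro u u' huu
    have e1 : h * (u : G) * h⁻¹ * u = h * (u' : G) * h⁻¹ * u' := congrArg Subtype.val huu
    have hw : (u : G) * (u' : G) ∈ N := N.mul_mem u.2 u'.2
    have e2 : h * ((u : G) * (u' : G)) * h⁻¹ = (u : G) * (u' : G) := by
      have hc1 : h * (u : G) * h⁻¹ ∈ N := hnorm.conj_mem _ u.2 h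
      have hc2 : h * (u' : G) * h⁻¹ ∈ N := hnorm.conj_mem _ u'.2 h
      have e3 : h * (u : G) * h⁻¹ = h * (u' : G) * h⁻¹ * u' * u := by
        rw [← e1, mul_assoc _ (u : G) (u : G), hexp _ u.2, mul_one]
      calc h * ((u : G) * (u' : G)) * h⁻¹ = (h * (u : G) * h⁻¹) * (h * (u' : G) * h⁻¹) := by group
        _ = (h * (u' : G) * h⁻¹ * u' * u) * (h * (u' : G) * h⁻¹) := by rw [← e3]
        _ = (h * (u' : G) * h⁻¹) * ((u' * u) * (h * (u' : G) * h⁻¹)) := by group
        _ = (h * (u' : G) * h⁻¹) * ((h * (u' : G) * h⁻¹) * (u' * u)) := by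
            rw [hcomm _ _ (N.mul_mem u'.2 u.2) hc2]
        _ = ((h * (u' : G) * h⁻¹) * (h * (u' : G) * h⁻¹)) * (u' * u) := by group
        _ = u' * u := by rw [hexp _ hc2, one_mul]
        _ = u * u' := hcomm _ _ u'.2 u.2
    have e4 := hfix _ hw e2
    apply Subtype.ext
    have : (u : G) = (u' : G)⁻¹ := eq_inv_of_mul_eq_one_left e4
    rw [this, hinv _ u'.2]
  have hfsurj : Function.Surjective f := Finite.injective_iff_surjective.1 hfinj
  obtain ⟨⟨u, hu⟩, hfu⟩ := hfsurj ⟨a * a, haa⟩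
  have e1 : h * u * h⁻¹ * u = a * a := congrArg Subtype.val hfu
  -- conjugate by `a`
  have hrel' : (a * h * a⁻¹) * h ∈ N := by
    rw [← QuotientGroup.eq_one_iff]
    simp only [QuotientGroup.mk_mul, QuotientGroup.mk_inv]
    rw [hrel, inv_mul_cancel]
  set n' := (a * h * a⁻¹) * h with hn'
  set u' := a * u * a⁻¹ with hu'
  have hu'N : u' ∈ N := hnorm.conj_mem _ hu a
  have hu''N : h⁻¹ * u' * h ∈ N := by
    have := hnorm.conj_mem _ hu'N h⁻¹
    simpa using this
  have e2 : a * (h * u * h⁻¹) * a⁻¹ = h⁻¹ * u' * h := by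
    have e3 : a * h * a⁻¹ = n' * h⁻¹ := by rw [hn']; group
    calc a * (h * u * h⁻¹) * a⁻¹ = (a * h * a⁻¹) * u' * (a * h * a⁻¹)⁻¹ := by rw [hu']; group
      _ = n' * (h⁻¹ * u' * h) * n'⁻¹ := by rw [e3]; group
      _ = (h⁻¹ * u' * h) * n' * n'⁻¹ := by rw [hcomm _ _ hrel' hu''N]
      _ = h⁻¹ * u' * h := by group
  have e4 : (h⁻¹ * u' * h) * u' = a * a := by
    calc (h⁻¹ * u' * h) * u' = a * (h * u * h⁻¹ * u) * a⁻¹ := by rw [← e2, hu']; group
      _ = a * (a * a) * a⁻¹ := by rw [e1]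
      _ = a * a := by group
  have e5 : f ⟨h⁻¹ * u' * h, hu''N⟩ = f ⟨u, hu⟩ := by
    rw [hfu]
    apply Subtype.ext
    change h * (h⁻¹ * u' * h) * h⁻¹ * (h⁻¹ * u' * h) = a * a
    rw [← e4]
    have : h * (h⁻¹ * u' * h) * h⁻¹ = u' := by group
    rw [this]
    exact hcomm _ _ hu'N hu''N
  have e6 : h⁻¹ * u' * h = u := congrArg Subtype.val (hfinj e5)
  have e7 : u * u' = a * a := by rw [← e4, e6]
  -- the involution `b = a u`
  have hbN : a * u ∉ N := fun hb => haN ((N.mul_mem_cancel_right hu).1 hb)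
  have hbb : (a * u) * (a * u) = 1 := by
    calc (a * u) * (a * u) = u' * (a * a) * u := by rw [hu']; group
      _ = u' * (u * u') * u := by rw [e7]
      _ = (u' * u) * (u' * u) := by group
      _ = 1 := hexp _ (N.mul_mem hu'N hu)
  apply hbN
  apply hcent
  rw [Subgroup.mem_centralizer_iff]
  intro n hn
  obtain ⟨g, hg⟩ := isConj_iff.1 (camina χ hχ N hN hG (a * u) hbN n hn)
  have e8 : (a * u * n) * (a * u * n) = 1 := by
    rw [← hg]
    calc g * (a * u) * g⁻¹ * (g * (a * u) * g⁻¹) = g * ((a * u) * (a * u)) * g⁻¹ := by group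
      _ = 1 := by rw [hbb]; group
  -- b n b n = 1, b b = 1, n n = 1  ⟹  n b = b n
  have e9 : n * (a * u) = (a * u) * n := by
    have h1 : (a * u)⁻¹ = a * u := inv_eq_of_mul_eq_one_left hbb
    have h2 : (a * u * n)⁻¹ = a * u * n := inv_eq_of_mul_eq_one_left e8
    calc n * (a * u) = n⁻¹ * (a * u)⁻¹ := by rw [hinv n hn, h1]
      _ = (a * u * n)⁻¹ := by group
      _ = a * u * n := h2
  exact e9

theorem main [N.Normal] (hG : 2 < Nat.card G) (p : ℕ) [Fact p.Prime]
    (hNp : IsPGroup p N) :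
    N = Cfsg.pCore p G ↔ ∃ H : Subgroup G, Cfsg.IsFrobeniusComplement H ∧
      Cfsg.frobeniusKernel H = (N : Set G) ∧ Nat.card H + 1 = Nat.card N := by
  have hp : p.Prime := Fact.out
  have hnorm := ‹N.Normal›
  obtain ⟨x0, hx0, hx01⟩ := exists_ne_one χ hχ N hN
  have hcm := card_centralizer_mul χ hχ N hN x0 hx0 hx01
  have hN2 := card_N_ge_two χ hχ N hN
  constructor
  · intro hcore
    have hnd : ¬ p ∣ N.index := by
      intro hd
      by_cases hp2 : p = 2
      · subst hp2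
        exact two_case χ hχ N hN hG hNp hcore hd
      · exact odd_case χ hχ N hN hG p hNp hcore hp2 hd
    obtain ⟨k, hk⟩ := IsPGroup.iff_card.1 hNp
    have hcop : Nat.Coprime (Nat.card N) N.index := by
      rw [hk]
      exact Nat.Coprime.pow_left k ((Nat.Prime.coprime_iff_not_dvd hp).2 hnd)
    obtain ⟨H, hH⟩ := Subgroup.exists_right_complement'_of_coprime hcop
    have hcardNH := hH.card_mul_card
    have hidx : N.index ≠ 0 := Subgroup.index_ne_zero_of_finite
    have hfac : (Nat.card G).factorization p = k := by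
      rw [← N.card_mul_index, Nat.factorization_mul Nat.card_pos.ne' hidx, hk,
        hp.factorization_pow]
      simp [Nat.factorization_eq_zero_of_not_dvd hnd]
    have hcentcard : ∀ x ∈ N, x ≠ 1 → Subgroup.centralizer ({x} : Set G) = N := by
      intro x hx hx1
      symm
      apply Subgroup.eq_of_le_of_card_ge
      · intro n hn
        rw [Subgroup.mem_centralizer_singleton_iff]
        exact N_comm χ hχ N hN _ _ hn hx
      · rw [card_centralizer_eq χ hχ N hN hG p hNp x hx hx1, hfac, hk]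
    have hcH : Nat.card H + 1 = Nat.card N := by
      rw [hcentcard x0 hx0 hx01, ← hcardNH, mul_comm] at hcm
      have := Nat.eq_of_mul_eq_mul_left (by omega) hcm
      omega
    have hdisj : ∀ z : G, z ∈ N → z ∈ H → z = 1 := by
      intro z hz hz'
      have := hH.disjoint.le_bot (show z ∈ N ⊓ H from ⟨hz, hz'⟩)
      simpa using this
    have hHbot : H ≠ ⊥ := by
      rintro rfl
      rw [Subgroup.card_bot] at hcH hcardNH
      omega
    have hdec : ∀ g : G, ∃ n ∈ N, ∃ h ∈ H, n * h = g := by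
      intro g
      obtain ⟨⟨n, h⟩, hnh⟩ := hH.2 g
      exact ⟨n, n.2, h, h.2, hnh⟩
    obtain ⟨hF, hK⟩ := Helper72Frob.frobenius_of_fixedPointFree N H (N_ne_bot χ hχ N hN) hHbot hdec
      hdisj (by
        intro h hh hh1 c hc hch
        by_contra hc1
        apply hh1
        apply hdisj h _ hh
        rw [← hcentcard c hc hc1, Subgroup.mem_centralizer_singleton_iff]
        rw [mul_inv_eq_iff_eq_mul] at hch
        exact hch.symm)
    exact ⟨H, hF, hK, hcH⟩
  · rintro ⟨H, hF, hK, hcard⟩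
    have hle : N ≤ Cfsg.pCore p G := Helper60Core.le_pCore hnorm hNp
    apply Subgroup.eq_of_le_of_card_ge hle
    have hcN : Subgroup.centralizer ({x0} : Set G) ≤ N := by
      intro g hg
      by_contra hgN
      have hgK : g ∉ Cfsg.frobeniusKernel H := by rw [hK]; exact hgN
      have hxK : x0 ∈ Cfsg.frobeniusKernel H := by rw [hK]; exact hx0
      simp only [Cfsg.frobeniusKernel, Set.mem_ofPred_eq, not_or, not_forall, not_not] at hgK hxK
      obtain ⟨hg1, u, hu⟩ := hgK
      have hx' := hxK.resolve_left hx01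
      obtain ⟨h, hh, rfl⟩ := (Helper72Frob.mem_conj_smul_iff H u _).1 hu
      have hh1 : h ≠ 1 := by
        rintro rfl
        apply hg1; group
      rw [Subgroup.mem_centralizer_singleton_iff] at hg
      have hx1H : u⁻¹ * x0 * u ∉ H := by
        intro hmem
        apply hx' u
        rw [Helper72Frob.mem_conj_smul_iff]
        exact ⟨_, hmem, by group⟩
      have hbot := hF.2.2 _ hx1H
      have hmem : h ∈ H ⊓ (MulAut.conj (u⁻¹ * x0 * u) • H) := by
        refine Subgroup.mem_inf.2 ⟨hh, ?_⟩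
        rw [Helper72Frob.mem_conj_smul_iff]
        refine ⟨h, hh, ?_⟩
        calc u⁻¹ * x0 * u * h * (u⁻¹ * x0 * u)⁻¹ = u⁻¹ * (x0 * (u * h * u⁻¹)) * x0⁻¹ * u := by group
          _ = u⁻¹ * ((u * h * u⁻¹) * x0) * x0⁻¹ * u := by rw [hg]
          _ = h := by group
      rw [hbot, Subgroup.mem_bot] at hmem
      exact hh1 hmem
    obtain ⟨j, hj⟩ := IsPGroup.iff_card.1 (Helper60Core.pCore_isPGroup (G := G) p)
    have h1 : p ^ j ∣ Nat.card G := hj ▸ Subgroup.card_subgroup_dvd_card _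
    have h2 : j ≤ (Nat.card G).factorization p :=
      (hp.pow_dvd_iff_le_factorization Nat.card_pos.ne').1 h1
    calc Nat.card (Cfsg.pCore p G) = p ^ j := hj
      _ ≤ p ^ (Nat.card G).factorization p := Nat.pow_le_pow_right hp.pos h2
      _ = Nat.card (Subgroup.centralizer ({x0} : Set G)) :=
          (card_centralizer_eq χ hχ N hN hG p hNp x0 hx0 hx01).symm
      _ ≤ Nat.card N := Subgroup.card_le_of_le hcN

end aux


/-- Let G be a finite group of order greater than 2 with an irreducible character χ nonzero on exactly two conjugacy classes, and let N be the normal p-subgroup of elements where χ is nonzero. Then N is the whole p-core O_p(G) if and only if G is a doubly transitive Frobenius group with kernel N: G has a Frobenius complement H whose Frobenius kernel is N and whose order is one less than that of N. -/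
theorem result {G : Type*} [Group G] [Finite G] (hG : 2 < Nat.card G) (χ : Cfsg.IrrCharacter G) (hχ : Nat.card {C : ConjClasses G // ∃ g ∈ C.carrier, (χ : G → ℂ) g ≠ 0} = 2) (p : ℕ) [Fact p.Prime] (N : Subgroup G) [N.Normal] (hN : ∀ g : G, g ∈ N ↔ (χ : G → ℂ) g ≠ 0) (hNp : IsPGroup p N) (hN1 : N ≠ ⊥) :
    N = Cfsg.pCore p G ↔ ∃ H : Subgroup G, Cfsg.IsFrobeniusComplement H ∧ Cfsg.frobeniusKernel H = (N : Set G) ∧ Nat.card H + 1 = Nat.card N := by
  exact main χ hχ N hN hG p hNp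

end Cfsg.Agent.S4839
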