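import Cfsg.Statements.S4856
import Cfsg.Agent.Lib.Helper4Char2
import Cfsg.Agent.Lib.Helper82Schur

set_option autoImplicit false
open Cfsg

namespace Cfsg.Agent.S4856

open Cfsg.Agent.Lib.Helper4Char Cfsg.Agent.Lib.Helper4Char2 in
theorem count {G : Type*} [Group G] [Fintype G] (w : G) :
    (Nat.card {xy : G × G // xy.1 * xy.2 * xy.1⁻¹ * xy.2⁻¹ = w⁻¹} : ℂ) =
      (Nat.card G : ℂ) * ∑ χ : Cfsg.IrrCharacter G, (χ : G → ℂ) w / (χ : G → ℂ) 1 := by
  classical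
  have hG : (Nat.card G : ℂ) ≠ 0 := by exact_mod_cast Nat.card_pos.ne'
  have h1 : (Nat.card {xy : G × G // xy.1 * xy.2 * xy.1⁻¹ * xy.2⁻¹ = w⁻¹} : ℂ) =
      ∑ a : G, ∑ b : G, if a * b * a⁻¹ * b⁻¹ * w = 1 then (1 : ℂ) else 0 := by
    rw [Nat.card_eq_fintype_card, Fintype.card_subtype, ← Finset.sum_boole, ← Finset.univ_product_univ,
      Finset.sum_product]
    refine Finset.sum_congr rfl fun a _ => Finset.sum_congr rfl fun b _ => ?_
    have : a * b * a⁻¹ * b⁻¹ = w⁻¹ ↔ a * b * a⁻¹ * b⁻¹ * w = 1 := by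
      rw [mul_eq_one_iff_eq_inv]
    simp only [this]
  have h2 : ∀ g : G, (if g = 1 then (1 : ℂ) else 0) =
      (Nat.card G : ℂ)⁻¹ * ∑ χ : Cfsg.IrrCharacter G, (χ : G → ℂ) 1 * (χ : G → ℂ) g := by
    intro g
    rw [sum_degree_mul]
    split_ifs
    · rw [inv_mul_cancel₀ hG]
    · rw [mul_zero]
  have h3 : ∀ χ : Cfsg.IrrCharacter G, ∑ a : G, ∑ b : G, (χ : G → ℂ) (a * b * a⁻¹ * b⁻¹ * w) =
      ((Nat.card G : ℂ) / (χ : G → ℂ) 1) ^ 2 * (χ : G → ℂ) w := by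
    intro χ
    obtain ⟨n, ρ, hρ, h⟩ := χ.2
    have := hρ
    rw [← h]
    have h4 := congrArg (fun T => LinearMap.trace ℂ _ (T * ρ w))
      (Cfsg.Agent.Lib.Helper82Schur.sum_commutator ρ)
    simp only [Finset.sum_mul, map_sum, ← map_mul, smul_mul_assoc, map_smul, smul_eq_mul] at h4
    have h5 : (LinearMap.id : (Fin n → ℂ) →ₗ[ℂ] (Fin n → ℂ)) * ρ w = ρ w := one_mul _
    rw [h5] at h4
    exact h4
  rw [h1]
  simp_rw [h2]
  simp_rw [← Finset.mul_sum]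
  have h6 : ∑ a : G, ∑ b : G, ∑ χ : Cfsg.IrrCharacter G,
      (χ : G → ℂ) 1 * (χ : G → ℂ) (a * b * a⁻¹ * b⁻¹ * w) =
      ∑ χ : Cfsg.IrrCharacter G, (χ : G → ℂ) 1 *
        (((Nat.card G : ℂ) / (χ : G → ℂ) 1) ^ 2 * (χ : G → ℂ) w) := by
    simp_rw [← h3, Finset.mul_sum]
    calc _ = ∑ a : G, ∑ χ : Cfsg.IrrCharacter G, ∑ b : G,
          (χ : G → ℂ) 1 * (χ : G → ℂ) (a * b * a⁻¹ * b⁻¹ * w) :=
            Finset.sum_congr rfl fun a _ => Finset.sum_comm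
      _ = _ := Finset.sum_comm
  rw [h6]
  rw [Finset.mul_sum, Finset.mul_sum]
  refine Finset.sum_congr rfl fun χ _ => ?_
  have hχ := Cfsg.Agent.Lib.Helper82Schur.irr_one_ne_zero χ
  field_simp

/-- For an element z of a finite group G, the number of pairs (x, y) of elements with x y x⁻¹ y⁻¹ = z equals the order of G times the sum over the irreducible characters χ of χ(z)/χ(1). -/
theorem result {G : Type*} [Group G] [Finite G] (z : G) : (Nat.card {xy : G × G // xy.1 * xy.2 * xy.1⁻¹ * xy.2⁻¹ = z} : ℂ) = (Nat.card G : ℂ) * ∑ᶠ χ : Cfsg.IrrCharacter G, (χ : G → ℂ) z / (χ : G → ℂ) 1 := by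
  classical
  have := Fintype.ofFinite G
  rw [finsum_eq_sum_of_fintype, ← count z]
  congr 1
  apply Nat.card_congr
  refine (Equiv.prodComm G G).subtypeEquiv fun xy => ?_
  simp only [Equiv.prodComm_apply, Prod.fst_swap, Prod.snd_swap]
  constructor
  · intro h
    rw [← h]; group
  · intro h
    rw [← inv_inj, ← h]; group

end Cfsg.Agent.S4856
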