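import Cfsg.Statements.S4862
import Cfsg.Agent.Lib.Helper83Real

set_option autoImplicit false
open Cfsg

namespace Cfsg.Agent.S4862


open Cfsg.Agent.Lib.Helper83Real


/-- Let p be an odd prime and G a finite group such that the subgroup generated by the p-elements of G is solvable and every real-valued irreducible complex character of G has degree prime to p. Let K be the subgroup generated by the 2-elements of G and P a Sylow p-subgroup of G. Then every normal subgroup M of G contained in K and in the derived subgroup of P is centralized by K. -/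
theorem result {G : Type*} [Group G] [Finite G] (p : ℕ) [Fact p.Prime] (hp : p ≠ 2) (hsolv : Group.IsSolvable ↥(Subgroup.closure {g : G | ∃ k : ℕ, orderOf g = p ^ k})) (hreal : ∀ χ : Cfsg.IrrCharacter G, (∀ g : G, ((χ : G → ℂ) g).im = 0) → ¬ p ∣ Cfsg.charDegree (χ : G → ℂ)) (P : Sylow p G) (M : Subgroup G) (hM : M.Normal) (hMK : M ≤ (Subgroup.closure {g : G | ∃ k : ℕ, orderOf g = 2 ^ k})) (hMP : M ≤ ⁅(P : Subgroup G), (P : Subgroup G)⁆) : (Subgroup.closure {g : G | ∃ k : ℕ, orderOf g = 2 ^ k}) ≤ Subgroup.centralizer (M : Set G) := by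
  classical
  rw [Subgroup.closure_le]
  rintro t ⟨k, hk⟩
  by_contra hcon
  have hnc : ∃ m ∈ M, t * m * t⁻¹ ≠ m := by
    by_contra h
    push Not at h
    apply hcon
    rw [SetLike.mem_coe, Subgroup.mem_centralizer_iff]
    intro m hm
    have h1 := h m hm
    rw [mul_inv_eq_iff_eq_mul] at h1
    exact h1.symm
  have hre := exists_real_of_two_element M t k (by rw [← hk]; exact pow_orderOf_eq_one t) hnc
  have hle : M ≤ (P : Subgroup G) := by
    have hcomm : ⁅(P : Subgroup G), (P : Subgroup G)⁆ = (commutator (P : Subgroup G)).map (P : Subgroup G).subtype :=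
      (Subgroup.map_subtype_commutator (P : Subgroup G)).symm
    rw [hcomm] at hMP
    exact hMP.trans (Subgroup.map_subtype_le _)
  have hodd : Odd (Nat.card M) := by
    obtain ⟨j, hj⟩ := (P.isPGroup'.to_le hle).exists_card_eq
    rw [hj]
    exact ((Fact.out : p.Prime).odd_of_ne_two hp).pow
  obtain ⟨χ, hχr, n, hn, hne⟩ := exists_real_irr_not_ker M
    (fun x hx => lift_real_of_odd M hodd x hx) hre
  have h1 := hreal χ hχr
  have h2 := sum_ne_zero_of_not_dvd p (P : Subgroup G) M P.isPGroup' hMP
    (Cfsg.Agent.Lib.Helper4Char.IsIrrCharacter.isCharacter χ.2) h1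
  exact hne (ker_of_sum_ne_zero M χ.2 h2 n hn)

end Cfsg.Agent.S4862
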