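import Cfsg.Statements.S4866
import Cfsg.Agent.Lib.Helper4Char4
import Cfsg.Agent.Lib.Helper4Char2
import Cfsg.Agent.Lib.Helper83Char

set_option autoImplicit false
open Cfsg

namespace Cfsg.Agent.S4866

open scoped ComplexConjugate


theorem card_quot_mul {G X : Type*} [Group G] [Fintype G] [MulAction G X] [Finite X]
    (r : X → X → Prop) (hr : ∀ a b, r a b ↔ ∃ g : G, g • a = b) :
    Nat.card (Quot r) * Nat.card G = ∑ g : G, Nat.card {x : X // g • x = x} := by
  classical
  have := Fintype.ofFinite X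
  have e : Quot r ≃ Quotient (MulAction.orbitRel G X) := Quot.congrRight (fun a b => by
    rw [hr]
    rw [MulAction.orbitRel_apply, MulAction.mem_orbit_iff]
    constructor
    · rintro ⟨g, rfl⟩; exact ⟨g⁻¹, by simp⟩
    · rintro ⟨g, rfl⟩; exact ⟨g⁻¹, by simp⟩)
  rw [Nat.card_congr e, Nat.card_eq_fintype_card, Nat.card_eq_fintype_card,
    ← MulAction.sum_card_fixedBy_eq_card_orbits_mul_card_group]
  refine Finset.sum_congr rfl fun g _ => ?_
  rw [Nat.card_eq_fintype_card]
  exact Fintype.card_congr (Equiv.refl _)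

/-- number of conjugators -/
theorem card_conjugators {K : Type*} [Group K] [Fintype K] [DecidableEq K] (u k : K)
    [Decidable (IsConj u k)] :
    (if IsConj u k then (Nat.card (Subgroup.centralizer ({u} : Set K)) : ℂ) else 0) =
      ∑ c : K, if c * u * c⁻¹ = k then (1 : ℂ) else 0 := by
  split_ifs with h
  · obtain ⟨c0, hc0⟩ := isConj_iff.1 h
    rw [Finset.sum_boole, ← Fintype.card_subtype, ← Nat.card_eq_fintype_card]
    congr 1
    apply Nat.card_congr
    exact
      { toFun := fun z => ⟨c0 * z.1, by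
          have hz := Subgroup.mem_centralizer_singleton_iff.1 z.2
          rw [← hc0]
          calc c0 * z.1 * u * (c0 * z.1)⁻¹ = c0 * (z.1 * u) * z.1⁻¹ * c0⁻¹ := by group
            _ = c0 * u * c0⁻¹ := by rw [hz]; group⟩
        invFun := fun c => ⟨c0⁻¹ * c.1, by
          rw [Subgroup.mem_centralizer_singleton_iff]
          have hc : c.1 * u * c.1⁻¹ = c0 * u * c0⁻¹ := c.2.trans hc0.symm
          have : c0⁻¹ * c.1 * u = u * (c0⁻¹ * c.1) := by
            calc c0⁻¹ * c.1 * u = c0⁻¹ * (c.1 * u * c.1⁻¹) * c.1 := by group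
              _ = u * (c0⁻¹ * c.1) := by rw [hc]; group
          exact this⟩
        left_inv := fun z => by ext; simp
        right_inv := fun c => by ext; simp }
  · symm
    refine Finset.sum_eq_zero fun c _ => ?_
    rw [if_neg]
    intro hc
    exact h (isConj_iff.2 ⟨c, hc⟩)


open Cfsg.Agent.Lib.Helper4Char Cfsg.Agent.Lib.Helper4Char2 Cfsg.Agent.Lib.Helper4Char4

section main

variable {G : Type*} [Group G] (K : Subgroup G) [K.Normal]

/-- the conjugate-twisted character -/
noncomputable def tw [Fintype K] (g : G) (θ : Cfsg.IrrCharacter K) : Cfsg.IrrCharacter K :=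
  ⟨fun k => conj ((θ : K → ℂ) (MulAut.conjNormal g⁻¹ k)),
    IsIrrCharacter.conj (Cfsg.Agent.Lib.Helper83Char.irr_comp_mulEquiv (MulAut.conjNormal g⁻¹) θ.2)⟩

theorem count_tw [Fintype K] [DecidableEq K] (g : G) :
    (Nat.card {θ : Cfsg.IrrCharacter K // tw K g θ = θ} : ℂ) =
      (Nat.card K : ℂ)⁻¹ * ∑ k : K, ∑ c : K,
        if c * (MulAut.conjNormal g⁻¹ k)⁻¹ * c⁻¹ = k then (1 : ℂ) else 0 := by
  classical
  have h1 : (Nat.card {θ : Cfsg.IrrCharacter K // tw K g θ = θ} : ℂ) =
      ∑ θ : Cfsg.IrrCharacter K, Cfsg.classInner (tw K g θ : K → ℂ) (θ : K → ℂ) := by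
    rw [Nat.card_eq_fintype_card, Fintype.card_subtype, ← Finset.sum_boole]
    refine Finset.sum_congr rfl fun θ _ => ?_
    rw [classInner_irr (tw K g θ).2 θ.2]
    by_cases h : tw K g θ = θ
    · rw [if_pos h, if_pos (congrArg Subtype.val h)]
    · rw [if_neg h, if_neg (fun h2 => h (Subtype.ext h2))]
  rw [h1]
  simp only [Cfsg.classInner]
  rw [← Finset.mul_sum, Finset.sum_comm]
  congr 1
  refine Finset.sum_congr rfl fun k _ => ?_
  have hc := col_orth ((MulAut.conjNormal g⁻¹ k)⁻¹) k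
  rw [card_conjugators] at hc
  rw [← hc]
  refine Finset.sum_congr rfl fun θ _ => ?_
  rw [Cfsg.Agent.Lib.Helper83Char.irr_inv θ.2]
  rfl


theorem sum_reindex [Fintype G] [Fintype K] [DecidableEq K] [DecidableEq G] :
    ∑ g : G, ∑ k : K, ∑ c : K,
      (if c * (MulAut.conjNormal g⁻¹ k)⁻¹ * c⁻¹ = k then (1 : ℂ) else 0) =
    (Nat.card K : ℂ) * ∑ k : K, ∑ g : G, if g * (k : G)⁻¹ * g⁻¹ = k then (1 : ℂ) else 0 := by
  have h1 : ∀ (k c : K), ∑ g : G,
      (if c * (MulAut.conjNormal g⁻¹ k)⁻¹ * c⁻¹ = k then (1 : ℂ) else 0) =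
      ∑ g : G, if g * (k : G)⁻¹ * g⁻¹ = k then (1 : ℂ) else 0 := by
    intro k c
    refine Fintype.sum_equiv ((Equiv.inv G).trans (Equiv.mulLeft (c : G))) _ _ fun g => ?_
    have e : (c * (MulAut.conjNormal g⁻¹ k)⁻¹ * c⁻¹ = k) ↔
        ((Equiv.inv G).trans (Equiv.mulLeft (c : G))) g * (k : G)⁻¹ *
          (((Equiv.inv G).trans (Equiv.mulLeft (c : G))) g)⁻¹ = k := by
      rw [← Subtype.coe_inj]
      simp only [Subgroup.coe_mul, Subgroup.coe_inv, MulAut.conjNormal_apply, Equiv.trans_apply,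
        Equiv.inv_apply, Equiv.coe_mulLeft, mul_inv_rev, inv_inv, mul_assoc]
    simp only [e]
  calc _ = ∑ k : K, ∑ g : G, ∑ c : K,
        (if c * (MulAut.conjNormal g⁻¹ k)⁻¹ * c⁻¹ = k then (1 : ℂ) else 0) := Finset.sum_comm
    _ = ∑ k : K, ∑ c : K, ∑ g : G,
        (if c * (MulAut.conjNormal g⁻¹ k)⁻¹ * c⁻¹ = k then (1 : ℂ) else 0) :=
          Finset.sum_congr rfl fun k _ => Finset.sum_comm
    _ = _ := by
      simp_rw [h1]
      simp only [Finset.sum_const, Finset.card_univ, nsmul_eq_mul]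
      rw [Finset.mul_sum, Nat.card_eq_fintype_card]

theorem conj_odd_pow (g k : G) (h : g * k⁻¹ * g⁻¹ = k) (m : ℕ) (hm : Odd m) :
    g ^ m * k * (g ^ m)⁻¹ = k⁻¹ := by
  obtain ⟨i, rfl⟩ := hm
  have h1 : g * k * g⁻¹ = k⁻¹ := by
    have := congrArg (·⁻¹) h
    simpa [mul_assoc] using this
  have h2 : Commute (g * g) k := by
    have : (g * g) * k * (g * g)⁻¹ = k := by
      calc (g * g) * k * (g * g)⁻¹ = g * (g * k * g⁻¹) * g⁻¹ := by group
        _ = k := by rw [h1, h]
    exact mul_inv_eq_iff_eq_mul.1 this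
  have h3 : Commute ((g * g) ^ i) k⁻¹ := (h2.pow_left i).inv_right
  have h4 : g ^ (2 * i + 1) = (g * g) ^ i * g := by
    rw [pow_succ, pow_mul, pow_two]
  calc g ^ (2 * i + 1) * k * (g ^ (2 * i + 1))⁻¹
      = (g * g) ^ i * (g * k * g⁻¹) * ((g * g) ^ i)⁻¹ := by
        rw [h4]; simp only [mul_inv_rev, mul_assoc]
    _ = k⁻¹ := by rw [h1, h3.eq]; simp

theorem sum_inv_conj [Fintype G] [DecidableEq G] (hodd : Odd K.index) (k : K)
    [Decidable (IsConj k k⁻¹)] :
    ∑ g : G, (if g * (k : G)⁻¹ * g⁻¹ = k then (1 : ℂ) else 0) =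
      if IsConj k k⁻¹ then ∑ g : G, (if g * (k : G) * g⁻¹ = k then (1 : ℂ) else 0) else 0 := by
  split_ifs with h
  · obtain ⟨c, hc⟩ := isConj_iff.1 h
    have hc' : (c : G) * k * (c : G)⁻¹ = (k : G)⁻¹ := by
      have := congrArg Subtype.val hc
      simpa using this
    refine Fintype.sum_equiv (Equiv.mulRight (c : G)) _ _ fun g => ?_
    have e : g * (k : G)⁻¹ * g⁻¹ = k ↔
        (Equiv.mulRight (c : G)) g * (k : G) * ((Equiv.mulRight (c : G)) g)⁻¹ = k := by
      have e1 : (Equiv.mulRight (c : G)) g * (k : G) * ((Equiv.mulRight (c : G)) g)⁻¹ =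
          g * ((c : G) * k * (c : G)⁻¹) * g⁻¹ := by
        rw [Equiv.coe_mulRight]; simp only [mul_inv_rev, mul_assoc]
      rw [e1, hc']
    simp only [e]
  · refine Finset.sum_eq_zero fun g _ => ?_
    rw [if_neg]
    intro hg
    apply h
    have h1 := conj_odd_pow g (k : G) hg K.index hodd
    rw [isConj_iff]
    refine ⟨⟨g ^ K.index, K.pow_index_mem g⟩, ?_⟩
    ext
    simpa using h1

theorem tw_eq_iff [Fintype K] (hodd : Odd K.index) (g : G) (θ : Cfsg.IrrCharacter K) :
    tw K g θ = θ ↔ (∀ k : K, ((θ : K → ℂ) k).im = 0) ∧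
      ∀ k : K, (θ : K → ℂ) (MulAut.conjNormal g⁻¹ k) = (θ : K → ℂ) k := by
  constructor
  · intro h
    have h1 : ∀ k : K, (θ : K → ℂ) (MulAut.conjNormal g⁻¹ k) = conj ((θ : K → ℂ) k) := by
      intro k
      have := congrFun (congrArg Subtype.val h) k
      rw [← this]
      simp [tw]
    have h2 : ∀ (j : ℕ) (k : K), (θ : K → ℂ) (MulAut.conjNormal (g⁻¹ ^ j) k) =
        (conj : ℂ → ℂ)^[j] ((θ : K → ℂ) k) := by
      intro j
      induction j with
      | zero => intro k; simp
      | succ j ih =>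
        intro k
        rw [pow_succ', map_mul, MulAut.mul_apply, h1, ih, Function.iterate_succ_apply']
    have hreal : ∀ k : K, ((θ : K → ℂ) k).im = 0 := by
      intro k
      have h3 := h2 K.index k
      have hinv : Function.Involutive (conj : ℂ → ℂ) := fun z => Complex.conj_conj z
      rw [hinv.iterate_odd hodd] at h3
      have h4 : MulAut.conjNormal (g⁻¹ ^ K.index) k =
          (⟨g⁻¹ ^ K.index, K.pow_index_mem g⁻¹⟩ : K) * k *
            (⟨g⁻¹ ^ K.index, K.pow_index_mem g⁻¹⟩ : K)⁻¹ := by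
        ext
        rw [MulAut.conjNormal_apply]
        rfl
      rw [h4, Cfsg.Agent.Lib.Helper83Char.irr_class θ.2] at h3
      exact Complex.conj_eq_iff_im.1 h3.symm
    refine ⟨hreal, fun k => ?_⟩
    rw [h1]
    exact Complex.conj_eq_iff_im.2 (hreal k)
  · rintro ⟨hreal, hfix⟩
    ext k
    simp only [tw]
    rw [hfix]
    exact Complex.conj_eq_iff_im.2 (hreal k)

/-- the action on real characters -/
@[instance_reducible] noncomputable def actX [Fintype K] :
    MulAction G {θ : Cfsg.IrrCharacter K // (∀ k : K, ((θ : K → ℂ) k).im = 0)} where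
  smul g θ := ⟨⟨fun k => (θ.1 : K → ℂ) (MulAut.conjNormal g⁻¹ k),
    Cfsg.Agent.Lib.Helper83Char.irr_comp_mulEquiv (MulAut.conjNormal g⁻¹) θ.1.2⟩,
    fun k => θ.2 _⟩
  one_smul θ := by
    apply Subtype.ext
    apply Subtype.ext
    funext k
    show (θ.1 : K → ℂ) (MulAut.conjNormal (1 : G)⁻¹ k) = (θ.1 : K → ℂ) k
    simp
  mul_smul g h θ := by
    apply Subtype.ext
    apply Subtype.ext
    funext k
    show (θ.1 : K → ℂ) (MulAut.conjNormal (g * h)⁻¹ k) =
      (θ.1 : K → ℂ) (MulAut.conjNormal h⁻¹ (MulAut.conjNormal g⁻¹ k))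
    rw [mul_inv_rev, map_mul, MulAut.mul_apply]

/-- the action on real elements -/
@[instance_reducible] def actY : MulAction G {x : K // IsConj x x⁻¹} where
  smul g x := ⟨MulAut.conjNormal g x.1, by
    have := MonoidHom.map_isConj (MulAut.conjNormal g).toMonoidHom x.2
    simpa using this⟩
  one_smul x := by
    apply Subtype.ext
    show MulAut.conjNormal (1 : G) x.1 = x.1
    simp
  mul_smul g h x := by
    apply Subtype.ext
    show MulAut.conjNormal (g * h) x.1 = MulAut.conjNormal g (MulAut.conjNormal h x.1)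
    rw [map_mul, MulAut.mul_apply]

theorem main [Fintype G] (hodd : Odd K.index) :
    Nat.card (Quot (fun θ η : {θ : Cfsg.IrrCharacter ↥K // (∀ k : ↥K, ((θ : ↥K → ℂ) k).im = 0)} =>
      ∃ g : G, ∀ k k' : ↥K, (k' : G) = g * (k : G) * g⁻¹ → (η.1 : ↥K → ℂ) k' = (θ.1 : ↥K → ℂ) k)) =
    Nat.card (Quot (fun x y : {x : ↥K // IsConj x x⁻¹} => ∃ g : G, (y.1 : G) = g * x.1 * g⁻¹)) := by
  classical
  have : Fintype K := Fintype.ofFinite K
  let _ := actX K
  let _ := actY K
  have hX := card_quot_mul (G := G)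
    (fun θ η : {θ : Cfsg.IrrCharacter ↥K // (∀ k : ↥K, ((θ : ↥K → ℂ) k).im = 0)} =>
      ∃ g : G, ∀ k k' : ↥K, (k' : G) = g * (k : G) * g⁻¹ → (η.1 : ↥K → ℂ) k' = (θ.1 : ↥K → ℂ) k)
    (fun θ η => by
      refine exists_congr fun g => ?_
      constructor
      · intro h
        apply Subtype.ext
        apply Subtype.ext
        funext k
        show (θ.1 : K → ℂ) (MulAut.conjNormal g⁻¹ k) = (η.1 : K → ℂ) k
        refine (h _ _ ?_).symm
        rw [MulAut.conjNormal_apply]
        group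
      · rintro rfl k k' hk
        show (θ.1 : K → ℂ) (MulAut.conjNormal g⁻¹ k') = (θ.1 : K → ℂ) k
        have : MulAut.conjNormal g⁻¹ k' = k := by
          apply Subtype.ext
          rw [MulAut.conjNormal_apply, hk]
          group
        rw [this])
  have hY := card_quot_mul (G := G)
    (fun x y : {x : ↥K // IsConj x x⁻¹} => ∃ g : G, (y.1 : G) = g * x.1 * g⁻¹)
    (fun x y => by
      refine exists_congr fun g => ?_
      constructor
      · intro h
        apply Subtype.ext
        apply Subtype.ext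
        show ((MulAut.conjNormal g x.1 : K) : G) = y.1
        rw [MulAut.conjNormal_apply, h]
      · rintro rfl
        show ((MulAut.conjNormal g x.1 : K) : G) = _
        rw [MulAut.conjNormal_apply])
  have hG : 0 < Nat.card G := Nat.card_pos
  refine Nat.eq_of_mul_eq_mul_right hG ?_
  rw [hX, hY]
  have hK : (Nat.card K : ℂ) ≠ 0 := Nat.cast_ne_zero.2 Nat.card_pos.ne'
  have e1 : ∀ g : G, Nat.card {x : {θ : Cfsg.IrrCharacter ↥K // (∀ k : ↥K, ((θ : ↥K → ℂ) k).im = 0)} //
      g • x = x} = Nat.card {θ : Cfsg.IrrCharacter K // tw K g θ = θ} := by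
    intro g
    apply Nat.card_congr
    exact
      { toFun := fun x => ⟨x.1.1, (tw_eq_iff K hodd g x.1.1).2 ⟨x.1.2, fun k =>
          congrFun (congrArg Subtype.val (congrArg Subtype.val x.2)) k⟩⟩
        invFun := fun θ => ⟨⟨θ.1, ((tw_eq_iff K hodd g θ.1).1 θ.2).1⟩, by
          apply Subtype.ext
          apply Subtype.ext
          funext k
          exact ((tw_eq_iff K hodd g θ.1).1 θ.2).2 k⟩
        left_inv := fun x => rfl
        right_inv := fun θ => rfl }
  have e2 : ∀ g : G, (Nat.card {x : {x : ↥K // IsConj x x⁻¹} // g • x = x} : ℂ) =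
      ∑ k : K, if IsConj k k⁻¹ then (if g * (k : G) * g⁻¹ = k then (1 : ℂ) else 0) else 0 := by
    intro g
    have : Nat.card {x : {x : ↥K // IsConj x x⁻¹} // g • x = x} =
        Nat.card {k : K // IsConj k k⁻¹ ∧ g * (k : G) * g⁻¹ = k} := by
      apply Nat.card_congr
      exact
        { toFun := fun x => ⟨x.1.1, x.1.2, by
            have := congrArg Subtype.val (congrArg Subtype.val x.2)
            rw [← MulAut.conjNormal_apply]
            exact this⟩
          invFun := fun k => ⟨⟨k.1, k.2.1⟩, by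
            apply Subtype.ext
            apply Subtype.ext
            show ((MulAut.conjNormal g k.1 : K) : G) = k.1
            rw [MulAut.conjNormal_apply]
            exact k.2.2⟩
          left_inv := fun x => rfl
          right_inv := fun θ => rfl }
    rw [this, Nat.card_eq_fintype_card, Fintype.card_subtype, ← Finset.sum_boole]
    refine Finset.sum_congr rfl fun k _ => ?_
    by_cases h1 : IsConj k k⁻¹
    · rw [if_pos h1]
      by_cases h2 : g * (k : G) * g⁻¹ = k
      · rw [if_pos h2, if_pos ⟨h1, h2⟩]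
      · rw [if_neg h2, if_neg (fun h => h2 h.2)]
    · rw [if_neg h1, if_neg (fun h => h1 h.1)]
  have : ((∑ g : G, Nat.card {x : {θ : Cfsg.IrrCharacter ↥K // (∀ k : ↥K, ((θ : ↥K → ℂ) k).im = 0)} //
      g • x = x} : ℕ) : ℂ) = ((∑ g : G, Nat.card {x : {x : ↥K // IsConj x x⁻¹} // g • x = x} : ℕ) : ℂ) := by
    push_cast
    simp_rw [e1, e2, count_tw]
    rw [← Finset.mul_sum, sum_reindex, ← mul_assoc, inv_mul_cancel₀ hK, one_mul, Finset.sum_comm]
    conv_rhs => rw [Finset.sum_comm]
    rw [Finset.sum_comm]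
    refine Finset.sum_congr rfl fun k _ => ?_
    rw [sum_inv_conj K hodd k]
    split_ifs with h
    · rfl
    · simp
  exact_mod_cast this

end main


/-- Let K be a normal subgroup of odd index in the finite group G. Then G has as many orbits on the real-valued irreducible complex characters of K (acting by conjugation) as it has orbits on the conjugacy classes of K that are real in K; equivalently, the number of G-orbits of real-valued irreducible characters of K equals the number of G-conjugacy classes of elements of K that are conjugate in K to their inverses. -/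
theorem result {G : Type*} [Group G] [Finite G] (K : Subgroup G) [K.Normal] (hodd : Odd K.index) : Nat.card (Quot (fun θ η : {θ : Cfsg.IrrCharacter ↥K // (∀ k : ↥K, ((θ : ↥K → ℂ) k).im = 0)} => ∃ g : G, ∀ k k' : ↥K, (k' : G) = g * (k : G) * g⁻¹ → (η.1 : ↥K → ℂ) k' = (θ.1 : ↥K → ℂ) k)) = Nat.card (Quot (fun x y : {x : ↥K // IsConj x x⁻¹} => ∃ g : G, (y.1 : G) = g * x.1 * g⁻¹)) := by
  have := Fintype.ofFinite G
  exact main K hodd

end Cfsg.Agent.S4866
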