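import Cfsg.Statements.S4871
import Cfsg.Agent.Lib.Helper83SR

set_option autoImplicit false
open Cfsg

namespace Cfsg.Agent.S4871


open Cfsg.Agent.Lib.Helper83SR Cfsg.Agent.Lib.Helper19Cliff Cfsg.Agent.Lib.Helper19Lin
  Cfsg.Agent.Lib.Helper82Linear Cfsg.Agent.Lib.Helper82Irr Cfsg.Agent.Lib.Helper4Char

/-- The combinatorial core. -/
theorem comb {ι : Type*} [DecidableEq ι] (A : Finset ι) (deg : ι → ℕ) (s : ℕ) (f : ι → ι)
    (hdeg : ∀ a ∈ A, deg a = 1 ∨ 2 ∣ deg a) (hpos : ∀ a ∈ A, 0 < deg a) (hs : 2 ∣ s)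
    (hf : ∀ a ∈ A, deg a = 1 → f a ∈ A ∧ deg (f a) = s)
    (hfib : ∀ a0 ∈ A, deg a0 = 1 → (A.filter (fun a => deg a = 1 ∧ f a = f a0)).card ≤ s) :
    4 * A.card ≤ 3 * ∑ a ∈ A, deg a := by
  set A1 := A.filter (fun a => deg a = 1) with hA1
  set A2 := A.filter (fun a => ¬ deg a = 1) with hA2
  have hcard : A.card = A1.card + A2.card := (Finset.card_filter_add_card_filter_not _).symm
  have hsum : ∑ a ∈ A, deg a = ∑ a ∈ A1, deg a + ∑ a ∈ A2, deg a :=
    (Finset.sum_filter_add_sum_filter_not _ _ _).symm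
  have h1 : ∑ a ∈ A1, deg a = A1.card := by
    rw [Finset.card_eq_sum_ones]
    refine Finset.sum_congr rfl fun a ha => ?_
    exact (Finset.mem_filter.mp ha).2
  have h2 : 2 * A2.card ≤ ∑ a ∈ A2, deg a := by
    rw [mul_comm, ← smul_eq_mul]
    refine Finset.card_nsmul_le_sum _ _ _ fun a ha => ?_
    obtain ⟨ha1, ha2⟩ := Finset.mem_filter.mp ha
    rcases hdeg a ha1 with h | h
    · exact absurd h ha2
    · exact Nat.le_of_dvd (hpos a ha1) h
  have h3 : A1.card ≤ ∑ a ∈ A2, deg a := by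
    have h4 : A1.card ≤ s * (A1.image f).card := by
      refine Finset.card_le_mul_card_image _ _ fun b hb => ?_
      obtain ⟨a0, ha0, rfl⟩ := Finset.mem_image.mp hb
      obtain ⟨ha1, ha2⟩ := Finset.mem_filter.mp ha0
      refine le_trans (le_of_eq ?_) (hfib a0 ha1 ha2)
      congr 1
      ext a
      simp only [hA1, Finset.mem_filter]
      tauto
    refine le_trans h4 ?_
    have h5 : s * (A1.image f).card = ∑ a ∈ A1.image f, deg a := by
      rw [mul_comm, ← smul_eq_mul, ← Finset.sum_const]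
      refine Finset.sum_congr rfl fun b hb => ?_
      obtain ⟨a0, ha0, rfl⟩ := Finset.mem_image.mp hb
      obtain ⟨ha1, ha2⟩ := Finset.mem_filter.mp ha0
      exact (hf a0 ha1 ha2).2.symm
    rw [h5]
    refine Finset.sum_le_sum_of_subset fun b hb => ?_
    obtain ⟨a0, ha0, rfl⟩ := Finset.mem_image.mp hb
    obtain ⟨ha1, ha2⟩ := Finset.mem_filter.mp ha0
    refine Finset.mem_filter.mpr ⟨(hf a0 ha1 ha2).1, ?_⟩
    rw [(hf a0 ha1 ha2).2]
    intro h
    rw [h] at hs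
    omega
  omega


/-- Let G be a finite group that is the semidirect product of a normal elementary abelian subgroup N of odd order by a non-trivial 2-subgroup P, with N the unique minimal normal subgroup of G. Consider the strongly real irreducible complex characters of G (Frobenius–Schur indicator +1) whose degree is 1 or even. Then their average degree is at least 4/3: four times their number is at most three times the sum of their degrees. -/
theorem result {G : Type*} [Group G] [Finite G] (N P : Subgroup G) (hN : N.Normal) (q : ℕ) [Fact q.Prime] (hq : q ≠ 2) (hNel : Cfsg.IsElementaryAbelian q N) (hP : IsPGroup 2 ↥P) (hP1 : P ≠ ⊥) (hdisj : N ⊓ P = ⊥) (hprod : N ⊔ P = ⊤) (hmin : N ≠ ⊥ ∧ ∀ M : Subgroup G, M.Normal → M ≠ ⊥ → N ≤ M) : 4 * Nat.card {χ : Cfsg.IrrCharacter G // (Cfsg.charDegree (χ : G → ℂ) = 1 ∨ 2 ∣ Cfsg.charDegree (χ : G → ℂ)) ∧ (Nat.card G : ℂ)⁻¹ * ∑ᶠ g : G, (χ : G → ℂ) (g * g) = 1} ≤ 3 * (∑ᶠ χ : {χ : Cfsg.IrrCharacter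 G // (Cfsg.charDegree (χ : G → ℂ) = 1 ∨ 2 ∣ Cfsg.charDegree (χ : G → ℂ)) ∧ (Nat.card G : ℂ)⁻¹ * ∑ᶠ g : G, (χ : G → ℂ) (g * g) = 1}, Cfsg.charDegree (χ.1 : G → ℂ)) := by
  classical
  have : Fintype G := Fintype.ofFinite G
  have : Finite (IrrCharacter G) := finite_irr
  have : Fintype (IrrCharacter G) := Fintype.ofFinite _
  have : Fact (Nat.Prime 2) := ⟨Nat.prime_two⟩
  have hcomm : ∀ a ∈ N, ∀ b ∈ N, a * b = b * a := by
    intro a ha b hb
    have := hNel.1.is_comm.comm ⟨a, ha⟩ ⟨b, hb⟩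
    exact congrArg Subtype.val this
  obtain ⟨T, hNT, lam, lt, z, hlam, hres, hT, hz2, hz, hfix⟩ :=
    exists_data N P hcomm hP hP1 hdisj hprod hmin
  set χ1 : G → ℂ := ind T.subtype (homFun lt) with hχ1
  have hirr : IsIrrCharacter G χ1 := ind_irr N T hNT lam hT lt hres
  have hker : ∃ n ∈ N, χ1 n ≠ χ1 1 := ind_not_ker N T hNT lam hT hlam lt hres
  have hs2 : 2 ∣ charDegree χ1 :=
    Cfsg.Agent.Lib.Helper83Real.dvd_degree_of_fixed_point_free 2 N P hP hfix hirr hker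
  have hν1 : (Nat.card G : ℂ)⁻¹ * ∑ g : G, χ1 (g * g) = 1 := by
    have := fs_ind_inverted N T hNT lam lt hres hT z hz2 hz
    rw [hχ1, ind_subtype]
    exact this
  have hs1 : ((charDegree χ1 : ℕ) : ℂ) = χ1 1 := charDegree_cast (IsIrrCharacter.isCharacter hirr)
  -- properties of the linear strongly real characters
  have hlin : ∀ κ : IrrCharacter G, charDegree (κ : G → ℂ) = 1 → (κ : G → ℂ) 1 = 1 := by
    intro κ h
    rw [← irr_charDegree_cast, h, Nat.cast_one]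
  have hsq : ∀ κ : IrrCharacter G, charDegree (κ : G → ℂ) = 1 →
      (Nat.card G : ℂ)⁻¹ * ∑ g : G, (κ : G → ℂ) (g * g) = 1 → ∀ g : G,
      (κ : G → ℂ) g * (κ : G → ℂ) g = 1 := by
    intro κ h hν g
    have h1 := (Cfsg.Agent.Lib.Helper83FS.irr_fs κ.2).2
    have h2 : ¬ ∃ s : G, ((κ : G → ℂ) s).im ≠ 0 := by
      rw [← h1, hν]
      exact one_ne_zero
    push Not at h2
    have h3 := irr_linear_mul_conj κ (hlin κ h) g
    rwa [Complex.conj_eq_iff_im.mpr (h2 g)] at h3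
  have hodd : Odd q := (Fact.out : q.Prime).odd_of_ne_two hq
  have hresN : ∀ κ : IrrCharacter G, charDegree (κ : G → ℂ) = 1 →
      (Nat.card G : ℂ)⁻¹ * ∑ g : G, (κ : G → ℂ) (g * g) = 1 → ∀ n ∈ N, (κ : G → ℂ) n = 1 := by
    intro κ h hν n hn
    have h1 : ((κ : G → ℂ) n) ^ q = 1 := by
      rw [← homOfLinear_apply κ (hlin κ h), ← Units.val_pow_eq_pow_val, ← map_pow, hNel.2 n hn,
        map_one]
      rfl
    obtain ⟨k, hk⟩ := hodd
    rw [hk, pow_succ, pow_mul, pow_two, hsq κ h hν n, one_pow, one_mul] at h1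
    exact h1
  have hmulirr : ∀ κ : IrrCharacter G, charDegree (κ : G → ℂ) = 1 →
      IsIrrCharacter G ((κ : G → ℂ) * χ1) := by
    intro κ h
    exact Cfsg.Agent.Lib.Helper19Det.isIrr_homFun_mul (homOfLinear κ (hlin κ h)) hirr
  set f : IrrCharacter G → IrrCharacter G := fun κ =>
    if h : IsIrrCharacter G ((κ : G → ℂ) * χ1) then ⟨(κ : G → ℂ) * χ1, h⟩ else κ with hf
  have hfval : ∀ κ : IrrCharacter G, charDegree (κ : G → ℂ) = 1 →
      ((f κ : IrrCharacter G) : G → ℂ) = (κ : G → ℂ) * χ1 := by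
    intro κ h
    simp only [hf]
    rw [dif_pos (hmulirr κ h)]
  set A : Finset (IrrCharacter G) := Finset.univ.filter (fun χ =>
    (Cfsg.charDegree (χ : G → ℂ) = 1 ∨ 2 ∣ Cfsg.charDegree (χ : G → ℂ)) ∧
      (Nat.card G : ℂ)⁻¹ * ∑ᶠ g : G, (χ : G → ℂ) (g * g) = 1) with hA
  have hAmem0 : ∀ χ : IrrCharacter G, χ ∈ A ↔
      (Cfsg.charDegree (χ : G → ℂ) = 1 ∨ 2 ∣ Cfsg.charDegree (χ : G → ℂ)) ∧
      (Nat.card G : ℂ)⁻¹ * ∑ᶠ g : G, (χ : G → ℂ) (g * g) = 1 := by
    intro χ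
    simp [hA]
  have hAmem : ∀ χ : IrrCharacter G, χ ∈ A ↔
      (Cfsg.charDegree (χ : G → ℂ) = 1 ∨ 2 ∣ Cfsg.charDegree (χ : G → ℂ)) ∧
      (Nat.card G : ℂ)⁻¹ * ∑ g : G, (χ : G → ℂ) (g * g) = 1 := by
    intro χ
    rw [hAmem0, finsum_eq_sum_of_fintype]
  have main : 4 * A.card ≤ 3 * ∑ χ ∈ A, Cfsg.charDegree (χ : G → ℂ) := ?_
  · convert main using 2
    · rw [Nat.card_eq_fintype_card, Fintype.card_subtype]
    · rw [Finset.sum_subtype A hAmem0, finsum_eq_sum_of_fintype]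
  refine comb A (fun χ => Cfsg.charDegree (χ : G → ℂ)) (charDegree χ1) f
    (fun a ha => ((hAmem a).mp ha).1) (fun a _ => irr_charDegree_pos a) hs2 ?_ ?_
  · intro κ hκ h
    have hν := ((hAmem κ).mp hκ).2
    have hd : charDegree ((f κ : IrrCharacter G) : G → ℂ) = charDegree χ1 := by
      rw [hfval κ h]
      unfold charDegree
      rw [Pi.mul_apply, hlin κ h, one_mul]
    refine ⟨(hAmem _).mpr ⟨Or.inr (hd ▸ hs2), ?_⟩, hd⟩
    rw [hfval κ h, ← hν1]
    congr 1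
    refine Finset.sum_congr rfl fun g _ => ?_
    rw [Pi.mul_apply, irr_linear_mul κ (hlin κ h), hsq κ h hν, one_mul]
  · intro κ0 hκ0 h0
    have hν0 := ((hAmem κ0).mp hκ0).2
    refine card_le_of_res T ((homOfLinear κ0 (hlin κ0 h0)).comp T.subtype) _ ?_ _ ?_
    · intro κ hκ
      obtain ⟨hκA, h, hfe⟩ := Finset.mem_filter.mp hκ
      have hν := ((hAmem κ).mp hκA).2
      refine ⟨hlin κ h, ?_⟩
      have e1 : (κ : G → ℂ) * χ1 = (κ0 : G → ℂ) * χ1 := by
        rw [← hfval κ h, ← hfval κ0 h0, hfe]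
      have key : ∀ κ' : IrrCharacter G, ∀ h' : charDegree (κ' : G → ℂ) = 1,
          ind T.subtype (homFun (lt * (homOfLinear κ' (hlin κ' h')).comp T.subtype))
            = (κ' : G → ℂ) * χ1 := by
        intro κ' h'
        rw [mul_comm (κ' : G → ℂ), hχ1,
          ← ind_mul_res T.subtype (homFun lt) _ (IsIrrCharacter.isClassFunction κ'.2), map_mul]
        rfl
      have hr : ∀ κ' : IrrCharacter G, ∀ h' : charDegree (κ' : G → ℂ) = 1,
          (Nat.card G : ℂ)⁻¹ * ∑ g : G, (κ' : G → ℂ) (g * g) = 1 → ∀ n : N,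
          (lt * (homOfLinear κ' (hlin κ' h')).comp T.subtype) (Subgroup.inclusion hNT n)
            = lam n := by
        intro κ' h' hν' n
        rw [MonoidHom.mul_apply, hres]
        have : (homOfLinear κ' (hlin κ' h')).comp T.subtype (Subgroup.inclusion hNT n) = 1 := by
          ext
          rw [MonoidHom.comp_apply, homOfLinear_apply]
          exact hresN κ' h' hν' n n.2
        rw [this, mul_one]
      have e2 := ind_injective N T hNT lam hT _ _ (hr κ h hν) (hr κ0 h0 hν0)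
        (by rw [key κ h, key κ0 h0, e1])
      have e3 := mul_left_cancel e2
      intro t
      have e4 := congrArg (fun φ : T →* ℂˣ => ((φ t : ℂˣ) : ℂ)) e3
      exact e4
    · rw [ind_one, hs1, hχ1, ind_one]

end Cfsg.Agent.S4871
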