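import Cfsg.Statements.S4873
import Cfsg.Agent.Lib.Helper4Char4
import Cfsg.Agent.Lib.Helper82Quot
import Cfsg.Agent.Lib.Helper82Mult
import Cfsg.Agent.Lib.Helper19Ind
import Cfsg.Agent.Lib.Helper5Clifford
import Cfsg.Agent.Lib.Helper83Char
import Cfsg.Agent.Lib.Helper83FS
import Cfsg.Agent.S0146
import Cfsg.Agent.S0148
import Cfsg.Agent.S0161
import Cfsg.Agent.S0174
import Cfsg.Agent.S0887

set_option autoImplicit false
open Cfsg

namespace Cfsg.Agent.S4873

open scoped ComplexConjugate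

open Cfsg.Agent.Lib.Helper4Char Cfsg.Agent.Lib.Helper4Char2 Cfsg.Agent.Lib.Helper4Char4

variable {G : Type*} [Group G] [Fintype G] (N : Subgroup G) [hN : N.Normal] [Fintype N]

omit [Fintype G] [Fintype N] in
theorem mem_of_sq_mem (hodd : Odd N.index) (h : G) (hh : h * h ∈ N) : h ∈ N := by
  obtain ⟨k, hk⟩ := hodd
  have h1 : h ^ N.index ∈ N := N.pow_index_mem h
  rw [hk, pow_succ, pow_mul, pow_two] at h1
  have h2 : (h * h) ^ k ∈ N := N.pow_mem hh k
  exact (N.mul_mem_cancel_left h2).1 h1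

/-- the Frobenius-Schur average of an induced function -/
theorem fs_ind (hodd : Odd N.index) (φ : N → ℂ) :
    (Nat.card G : ℂ)⁻¹ * ∑ g : G, Cfsg.indFun N φ (g * g) =
      (Nat.card N : ℂ)⁻¹ * ∑ n : N, φ (n * n) := by
  classical
  have hG : (Nat.card G : ℂ) ≠ 0 := by exact_mod_cast Nat.card_pos.ne'
  simp_rw [Cfsg.Agent.Lib.Helper19Ind.indFun_apply]
  rw [← Finset.mul_sum, Finset.sum_comm]
  have h1 : ∀ x : G, ∑ g : G, Cfsg.extendByZero N φ (x⁻¹ * (g * g) * x) =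
      ∑ n : N, φ (n * n) := by
    intro x
    have e1 : ∑ g : G, Cfsg.extendByZero N φ (x⁻¹ * (g * g) * x) =
        ∑ h : G, Cfsg.extendByZero N φ (h * h) := by
      refine Fintype.sum_equiv (MulAut.conj x⁻¹).toEquiv _ _ fun g => ?_
      congr 1
      simp only [MulEquiv.toEquiv_eq_coe, MulEquiv.coe_toEquiv, MulAut.conj_apply, inv_inv]
      group
    rw [e1]
    have e2 : ∑ n : N, φ (n * n) = ∑ n : N, Cfsg.extendByZero N φ ((n : G) * n) := by
      refine Finset.sum_congr rfl fun n _ => ?_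
      have : ((n : G) * n) = ((n * n : N) : G) := rfl
      rw [this, Cfsg.Agent.Lib.Helper19Ind.extendByZero_coe]
    rw [e2, Cfsg.Agent.Lib.Helper83Char.sum_subgroup N (fun g => Cfsg.extendByZero N φ (g * g))]
    refine Finset.sum_congr rfl fun h _ => ?_
    split_ifs with hh
    · rfl
    · exact Cfsg.Agent.Lib.Helper19Ind.extendByZero_of_not_mem N φ
        (fun h2 => hh (mem_of_sq_mem N hodd h h2))
  simp_rw [h1]
  rw [Finset.sum_const, Finset.card_univ, nsmul_eq_mul, ← Nat.card_eq_fintype_card]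
  field_simp

/-- the orbit of `φ` as a finset -/
noncomputable def orb (φ : N → ℂ) : Finset (N → ℂ) :=
  open scoped Classical in Finset.univ.image (fun g : G => Cfsg.Agent.Lib.Helper5Clifford.cj hN φ g)

variable {N}

theorem clifford {χ : G → ℂ} (hχ : Cfsg.IsIrrCharacter G χ) {φ : N → ℂ}
    (hφ : Cfsg.IsIrrCharacter N φ) (hcon : Cfsg.classInner (fun n : N => χ n) φ ≠ 0) :
    ∃ e : ℕ, (fun n : N => χ n) = (e : ℂ) • ∑ ψ ∈ orb N φ, ψ := by
  classical
  have h := Cfsg.Agent.S0174.result N hN χ hχ φ hφ hcon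
  obtain ⟨e, he⟩ := IsCharacter.classInner_nat
    (IsCharacter.restrict N (IsIrrCharacter.isCharacter hχ)) (IsIrrCharacter.isCharacter hφ)
  refine ⟨e, ?_⟩
  rw [he] at h
  rw [h]
  congr 1
  have hset : {ψ : N → ℂ | ∃ g : G, ψ = fun n : N => φ ⟨g * n * g⁻¹, hN.conj_mem n n.2 g⟩} =
      ↑(orb N φ) := by
    ext ψ
    simp only [orb, Set.mem_ofPred_eq, Finset.coe_image, Finset.coe_univ, Set.image_univ,
      Set.mem_range]
    constructor
    · rintro ⟨g, rfl⟩; exact ⟨g, rfl⟩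
    · rintro ⟨g, rfl⟩; exact ⟨g, rfl⟩
  rw [hset, finsum_mem_coe_finset]

theorem orb_irr {φ : N → ℂ} (hφ : Cfsg.IsIrrCharacter N φ) (ψ : N → ℂ) (hψ : ψ ∈ orb N φ) :
    Cfsg.IsIrrCharacter N ψ := by
  classical
  simp only [orb, Finset.mem_image, Finset.mem_univ, true_and] at hψ
  obtain ⟨g, rfl⟩ := hψ
  exact Cfsg.Agent.Lib.Helper5Clifford.cj_isIrr hN hφ g

theorem orb_one {φ : N → ℂ} (ψ : N → ℂ) (hψ : ψ ∈ orb N φ) : ψ 1 = φ 1 := by
  classical
  simp only [orb, Finset.mem_image, Finset.mem_univ, true_and] at hψ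
  obtain ⟨g, rfl⟩ := hψ
  rw [Cfsg.Agent.Lib.Helper5Clifford.cj_apply]
  congr 1
  ext
  simp

theorem orb_sum_one {φ : N → ℂ} : (∑ ψ ∈ orb N φ, ψ) 1 = ((orb N φ).card : ℂ) * φ 1 := by
  rw [Finset.sum_apply, Finset.sum_congr rfl (fun ψ hψ => orb_one ψ hψ), Finset.sum_const,
    nsmul_eq_mul]

theorem orb_sum_inner {φ : N → ℂ} (hφ : Cfsg.IsIrrCharacter N φ) :
    Cfsg.classInner (∑ ψ ∈ orb N φ, ψ) (∑ ψ ∈ orb N φ, ψ) = ((orb N φ).card : ℂ) := by
  classical
  rw [classInner_sum_left]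
  have : ∀ ψ ∈ orb N φ, Cfsg.classInner ψ (∑ ψ' ∈ orb N φ, ψ') = 1 := by
    intro ψ hψ
    rw [classInner_sum_right, Finset.sum_eq_single ψ]
    · exact classInner_irr_self (orb_irr hφ ψ hψ)
    · intro ψ' hψ' hne
      exact classInner_irr_ne (orb_irr hφ ψ hψ) (orb_irr hφ ψ' hψ') hne.symm
    · intro h; exact absurd hψ h
  rw [Finset.sum_congr rfl this, Finset.sum_const, nsmul_eq_mul, mul_one]

theorem sum_quot (F : G → ℂ) :
    ∑ β : Cfsg.IrrCharacter (G ⧸ N),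
      Cfsg.classInner F (fun g => (β : G ⧸ N → ℂ) (g : G ⧸ N)) * (β : G ⧸ N → ℂ) 1 =
      (Nat.card N : ℂ)⁻¹ * ∑ n : N, F n := by
  classical
  have hG : (Nat.card G : ℂ) ≠ 0 := by exact_mod_cast Nat.card_pos.ne'
  have hNc : (Nat.card N : ℂ) ≠ 0 := by exact_mod_cast Nat.card_pos.ne'
  have h1 : ∀ x : G ⧸ N, ∑ β : Cfsg.IrrCharacter (G ⧸ N),
      conj ((β : G ⧸ N → ℂ) x) * (β : G ⧸ N → ℂ) 1 =
      if x = 1 then (Nat.card (G ⧸ N) : ℂ) else 0 := by
    intro x
    have h2 := congrArg conj (sum_degree_mul x)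
    rw [map_sum] at h2
    have e : ∑ β : Cfsg.IrrCharacter (G ⧸ N), conj ((β : G ⧸ N → ℂ) x) * (β : G ⧸ N → ℂ) 1 =
        ∑ β : Cfsg.IrrCharacter (G ⧸ N), conj ((β : G ⧸ N → ℂ) 1 * (β : G ⧸ N → ℂ) x) := by
      refine Finset.sum_congr rfl fun β _ => ?_
      rw [map_mul, IsCharacter.conj_degree (IsIrrCharacter.isCharacter β.2), mul_comm]
    rw [e, h2]
    split_ifs <;> simp
  calc _ = (Nat.card G : ℂ)⁻¹ * ∑ g : G, F g * ∑ β : Cfsg.IrrCharacter (G ⧸ N),
        conj ((β : G ⧸ N → ℂ) (g : G ⧸ N)) * (β : G ⧸ N → ℂ) 1 := by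
        simp only [Cfsg.classInner, Finset.mul_sum, Finset.sum_mul]
        rw [Finset.sum_comm]
        refine Finset.sum_congr rfl fun g _ => Finset.sum_congr rfl fun β _ => ?_
        ring
    _ = (Nat.card G : ℂ)⁻¹ * ∑ g : G, (if g ∈ N then F g * (N.index : ℂ) else 0) := by
        congr 1
        refine Finset.sum_congr rfl fun g _ => ?_
        rw [h1, ← Subgroup.index_eq_card]
        simp only [QuotientGroup.eq_one_iff]
        split_ifs <;> simp
    _ = _ := by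
        rw [← Cfsg.Agent.Lib.Helper83Char.sum_subgroup N (fun g => F g * (N.index : ℂ)),
          ← Finset.sum_mul]
        have : (Nat.card N : ℂ) * (N.index : ℂ) = (Nat.card G : ℂ) := by
          exact_mod_cast N.card_mul_index
        rw [← this]
        have hi : (N.index : ℂ) ≠ 0 := by
          intro h0; rw [h0, mul_zero] at this; exact hG this.symm
        field_simp

/-- complex conjugation on irreducible characters -/
noncomputable def cc {H : Type*} [Group H] [Fintype H] (β : Cfsg.IrrCharacter H) :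
    Cfsg.IrrCharacter H := ⟨fun x => conj ((β : H → ℂ) x), IsIrrCharacter.conj β.2⟩

theorem parity (hodd : Odd N.index) (F : G → ℂ) (hF : Cfsg.IsCharacter G F)
    (hreal : ∀ g, conj (F g) = F g) (a m₁ : ℕ)
    (ha : (Nat.card N : ℂ)⁻¹ * ∑ n : N, F n = a)
    (hm : Cfsg.classInner F (fun _ => 1) = m₁) : (a : ZMod 2) = m₁ := by
  classical
  have : Fintype (G ⧸ N) := Fintype.ofFinite _
  choose m hmβ using fun β : Cfsg.IrrCharacter (G ⧸ N) => IsCharacter.classInner_nat hF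
    (Cfsg.Agent.Lib.Helper82Quot.inflate_isChar N (IsIrrCharacter.isCharacter β.2))
  have hsum : ∑ β : Cfsg.IrrCharacter (G ⧸ N), m β * Cfsg.charDegree (β : G ⧸ N → ℂ) = a := by
    have : ((∑ β : Cfsg.IrrCharacter (G ⧸ N), m β * Cfsg.charDegree (β : G ⧸ N → ℂ) : ℕ) : ℂ) =
        (a : ℂ) := by
      rw [← ha, ← sum_quot]
      push_cast
      refine Finset.sum_congr rfl fun β _ => ?_
      rw [hmβ, Cfsg.Agent.Lib.Helper83Char.charDegree_cast β.2]
    exact_mod_cast this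
  set triv : Cfsg.IrrCharacter (G ⧸ N) := ⟨fun _ => 1, Cfsg.Agent.Lib.Helper83Char.isIrr_one⟩
    with htriv
  have hmt : m triv = m₁ := by
    have h1 := hmβ triv
    have h2 : (fun g : G => (triv : G ⧸ N → ℂ) (g : G ⧸ N)) = fun _ => 1 := rfl
    rw [h2, hm] at h1
    exact_mod_cast h1.symm
  have hdt : Cfsg.charDegree (triv : G ⧸ N → ℂ) = 1 := by
    have := Cfsg.Agent.Lib.Helper83Char.charDegree_cast triv.2
    have h2 : (triv : G ⧸ N → ℂ) 1 = 1 := rfl
    rw [h2] at this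
    exact_mod_cast this
  have hmcc : ∀ β, m (cc β) = m β := by
    intro β
    have h1 := hmβ (cc β)
    have h2 := congrArg conj (hmβ β)
    rw [Complex.conj_natCast] at h2
    have h3 : Cfsg.classInner F (fun g : G => (cc β : G ⧸ N → ℂ) (g : G ⧸ N)) =
        conj (Cfsg.classInner F (fun g : G => (β : G ⧸ N → ℂ) (g : G ⧸ N))) := by
      simp only [Cfsg.classInner, map_mul, map_inv₀, Complex.conj_natCast, map_sum, hreal]
      rfl
    rw [h3, h2] at h1
    exact_mod_cast h1.symm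
  have hdcc : ∀ β : Cfsg.IrrCharacter (G ⧸ N),
      Cfsg.charDegree (cc β : G ⧸ N → ℂ) = Cfsg.charDegree (β : G ⧸ N → ℂ) := by
    intro β
    have h1 := Cfsg.Agent.Lib.Helper83Char.charDegree_cast (cc β).2
    have h2 := Cfsg.Agent.Lib.Helper83Char.charDegree_cast β.2
    have h3 : (cc β : G ⧸ N → ℂ) 1 = (β : G ⧸ N → ℂ) 1 :=
      IsCharacter.conj_degree (IsIrrCharacter.isCharacter β.2)
    rw [h3, ← h2] at h1
    exact_mod_cast h1
  have hoddq : Odd (Nat.card (G ⧸ N)) := by rwa [← Subgroup.index_eq_card]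
  rw [← hsum, ← Finset.add_sum_erase _ _ (Finset.mem_univ triv), hmt, hdt, mul_one]
  push_cast
  have hz : ∑ β ∈ Finset.univ.erase triv,
      ((m β : ZMod 2) * (Cfsg.charDegree (β : G ⧸ N → ℂ) : ZMod 2)) = 0 := by
    refine Finset.sum_involution (fun β _ => cc β) ?_ ?_ ?_ ?_
    · intro β _
      rw [hmcc, hdcc]
      exact CharTwo.add_self_eq_zero _
    · intro β hβ _ hfix
      apply (Finset.mem_erase.1 hβ).1
      apply Subtype.ext
      apply Cfsg.Agent.S0161.result hoddq β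
      intro x
      have := congrFun (congrArg Subtype.val hfix) x
      exact Complex.conj_eq_iff_im.1 this
    · intro β hβ
      refine Finset.mem_erase.2 ⟨?_, Finset.mem_univ _⟩
      intro h
      apply (Finset.mem_erase.1 hβ).1
      apply Subtype.ext
      funext x
      have := congrFun (congrArg Subtype.val h) x
      have h2 : conj ((β : G ⧸ N → ℂ) x) = 1 := this
      have h3 := congrArg conj h2
      rw [Complex.conj_conj, map_one] at h3
      exact h3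
    · intro β _
      apply Subtype.ext
      funext x
      exact Complex.conj_conj _
  rw [hz, add_zero]

theorem real_unique (hodd : Odd N.index) {φ : N → ℂ} (hφ : Cfsg.IsIrrCharacter N φ)
    {χ₁ χ₂ : G → ℂ} (h1 : Cfsg.IsIrrCharacter G χ₁) (h2 : Cfsg.IsIrrCharacter G χ₂)
    (r1 : ∀ g, (χ₁ g).im = 0) (r2 : ∀ g, (χ₂ g).im = 0)
    (c1 : Cfsg.classInner (fun n : N => χ₁ n) φ ≠ 0)
    (c2 : Cfsg.classInner (fun n : N => χ₂ n) φ ≠ 0) : χ₁ = χ₂ := by
  classical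
  obtain ⟨e₁, he₁⟩ := clifford h1 hφ c1
  obtain ⟨e₂, he₂⟩ := clifford h2 hφ c2
  obtain ⟨d, hd0, hd⟩ := Cfsg.Agent.Lib.Helper83Char.irr_one hφ
  set t := (orb N φ).card with ht
  have deg : ∀ (χ : G → ℂ) (e : ℕ), (fun n : N => χ n) = (e : ℂ) • ∑ ψ ∈ orb N φ, ψ →
      χ 1 = ((e * t * d : ℕ) : ℂ) := by
    intro χ e he
    have := congrFun he 1
    rw [Pi.smul_apply, orb_sum_one, hd] at this
    have h3 : χ ((1 : N) : G) = χ 1 := rfl
    rw [← h3, this]
    push_cast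
    rw [smul_eq_mul]
    ring
  have oddet : ∀ (χ : G → ℂ) (e : ℕ), Cfsg.IsIrrCharacter G χ →
      Cfsg.classInner (fun n : N => χ n) φ ≠ 0 →
      (fun n : N => χ n) = (e : ℂ) • ∑ ψ ∈ orb N φ, ψ → Odd (e * t) := by
    intro χ e hχ hc he
    have := (Cfsg.Agent.S0887.result N χ hχ φ hφ hc (e * t * d) d (deg χ e he) hd).2
    rw [Nat.mul_div_cancel _ hd0] at this
    exact Odd.of_dvd_nat hodd this
  have o1 := oddet χ₁ e₁ h1 c1 he₁
  have o2 := oddet χ₂ e₂ h2 c2 he₂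
  have hodd3 : Odd (e₁ * e₂ * t) := by
    rw [Nat.odd_mul] at o1 o2 ⊢
    rw [Nat.odd_mul]
    exact ⟨⟨o1.1, o2.1⟩, o1.2⟩
  have hF : Cfsg.IsCharacter G (χ₁ * χ₂) :=
    IsCharacter.mul (IsIrrCharacter.isCharacter h1) (IsIrrCharacter.isCharacter h2)
  have k1 : ∀ g, conj (χ₁ g) = χ₁ g := fun g => Complex.conj_eq_iff_im.2 (r1 g)
  have k2 : ∀ g, conj (χ₂ g) = χ₂ g := fun g => Complex.conj_eq_iff_im.2 (r2 g)
  have hreal : ∀ g, conj ((χ₁ * χ₂) g) = (χ₁ * χ₂) g := by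
    intro g
    rw [Pi.mul_apply, map_mul, k1, k2]
  have ha : (Nat.card N : ℂ)⁻¹ * ∑ n : N, (χ₁ * χ₂) n = ((e₁ * e₂ * t : ℕ) : ℂ) := by
    have h3 : (Nat.card N : ℂ)⁻¹ * ∑ n : N, (χ₁ * χ₂) n =
        Cfsg.classInner (fun n : N => χ₁ n) (fun n : N => χ₂ n) := by
      rw [Cfsg.classInner]
      congr 1
      refine Finset.sum_congr rfl fun n _ => ?_
      rw [Pi.mul_apply, k2]
    rw [h3, he₁, he₂, classInner_smul_left, classInner_smul_right, orb_sum_inner hφ,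
      Complex.conj_natCast]
    push_cast
    ring
  have hm : Cfsg.classInner (χ₁ * χ₂) (fun _ => 1) = ((if χ₁ = χ₂ then 1 else 0 : ℕ) : ℂ) := by
    have h3 : Cfsg.classInner (χ₁ * χ₂) (fun _ => 1) = Cfsg.classInner χ₁ χ₂ := by
      rw [Cfsg.classInner, Cfsg.classInner]
      congr 1
      refine Finset.sum_congr rfl fun g _ => ?_
      rw [Pi.mul_apply, k2, map_one, mul_one]
    rw [h3, classInner_irr h1 h2]
    split_ifs <;> simp
  have hp := parity hodd (χ₁ * χ₂) hF hreal _ _ ha hm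
  by_contra hne
  rw [if_neg hne, Nat.cast_zero] at hp
  rw [ZMod.natCast_eq_zero_iff] at hp
  exact (Nat.not_even_iff_odd.2 hodd3) (even_iff_two_dvd.2 hp)

theorem main (hodd : Odd N.index) (φ : Cfsg.IrrCharacter N)
    (hφ : (Nat.card N : ℂ)⁻¹ * ∑ g : N, (φ : N → ℂ) (g * g) = 1) :
    ∃! χ : Cfsg.IrrCharacter G, (Nat.card G : ℂ)⁻¹ * ∑ g : G, (χ : G → ℂ) (g * g) = 1 ∧
      (∑ n : N, (χ : G → ℂ) n * conj ((φ : N → ℂ) n)) ≠ 0 := by
  classical
  have hNc : (Nat.card N : ℂ) ≠ 0 := by exact_mod_cast Nat.card_pos.ne'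
  obtain ⟨m, hm, hsum⟩ := Cfsg.Agent.Lib.Helper82Mult.exists_mult
    (Cfsg.Agent.S0148.result N φ (IsIrrCharacter.isCharacter φ.2))
  have star : ∑ χ : Cfsg.IrrCharacter G,
      (m χ : ℂ) * ((Nat.card G : ℂ)⁻¹ * ∑ g : G, (χ : G → ℂ) (g * g)) = 1 := by
    rw [← hφ, ← fs_ind N hodd, hsum]
    simp only [Finset.sum_apply, Pi.smul_apply, smul_eq_mul]
    rw [Finset.sum_comm, Finset.mul_sum]
    refine Finset.sum_congr rfl fun χ _ => ?_
    rw [← Finset.mul_sum]
    ring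
  have hov : ∀ χ : Cfsg.IrrCharacter G, m χ ≠ 0 ↔
      Cfsg.classInner (fun n : N => (χ : G → ℂ) n) (φ : N → ℂ) ≠ 0 := by
    intro χ
    have h1 := hm χ
    rw [Cfsg.Agent.S0146.result N φ _ (IsIrrCharacter.isClassFunction χ.2),
      ← classInner_conj_symm] at h1
    constructor
    · intro h h0
      rw [h0, map_zero] at h1
      exact h (by exact_mod_cast h1.symm)
    · intro h h0
      rw [h0, Nat.cast_zero] at h1
      exact h ((map_eq_zero _).1 h1)
  have hov' : ∀ χ : Cfsg.IrrCharacter G,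
      Cfsg.classInner (fun n : N => (χ : G → ℂ) n) (φ : N → ℂ) ≠ 0 ↔
      (∑ n : N, (χ : G → ℂ) n * conj ((φ : N → ℂ) n)) ≠ 0 := by
    intro χ
    rw [Cfsg.classInner]
    constructor
    · intro h h0; rw [h0, mul_zero] at h; exact h rfl
    · intro h; exact mul_ne_zero (inv_ne_zero hNc) h
  have realOf : ∀ χ : Cfsg.IrrCharacter G,
      (Nat.card G : ℂ)⁻¹ * ∑ g : G, (χ : G → ℂ) (g * g) ≠ 0 → ∀ g, ((χ : G → ℂ) g).im = 0 := by
    intro χ h
    have := (Cfsg.Agent.Lib.Helper83FS.irr_fs χ.2).2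
    by_contra hne
    push Not at hne
    exact h (this.2 hne)
  have hex : ∃ χ₀ : Cfsg.IrrCharacter G,
      (m χ₀ : ℂ) * ((Nat.card G : ℂ)⁻¹ * ∑ g : G, (χ₀ : G → ℂ) (g * g)) ≠ 0 := by
    by_contra hno
    push Not at hno
    rw [Finset.sum_congr rfl (fun χ _ => hno χ), Finset.sum_const_zero] at star
    exact zero_ne_one star
  obtain ⟨χ₀, hχ₀⟩ := hex
  have hm0 : m χ₀ ≠ 0 := by
    intro h; rw [h, Nat.cast_zero, zero_mul] at hχ₀; exact hχ₀ rfl
  have hν0 := right_ne_zero_of_mul hχ₀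
  have uniq : ∀ χ : Cfsg.IrrCharacter G,
      (Nat.card G : ℂ)⁻¹ * ∑ g : G, (χ : G → ℂ) (g * g) ≠ 0 → m χ ≠ 0 → χ = χ₀ := by
    intro χ h1 h2
    apply Subtype.ext
    exact real_unique hodd φ.2 χ.2 χ₀.2 (realOf χ h1) (realOf χ₀ hν0) ((hov χ).1 h2)
      ((hov χ₀).1 hm0)
  rw [Finset.sum_eq_single χ₀] at star
  · have hν1 : (Nat.card G : ℂ)⁻¹ * ∑ g : G, (χ₀ : G → ℂ) (g * g) = 1 := by
      rcases (Cfsg.Agent.Lib.Helper83FS.irr_fs χ₀.2).1 with h | h | h
      · exact absurd h hν0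
      · exact h
      · exfalso
        rw [h] at star
        have : ((m χ₀ + 1 : ℕ) : ℂ) = 0 := by push_cast; linear_combination -star
        exact absurd (by exact_mod_cast this) (Nat.succ_ne_zero (m χ₀))
    refine ⟨χ₀, ⟨hν1, (hov' χ₀).1 ((hov χ₀).1 hm0)⟩, ?_⟩
    rintro χ ⟨h1, h2⟩
    exact uniq χ (by rw [h1]; exact one_ne_zero) ((hov χ).2 ((hov' χ).2 h2))
  · intro χ _ hne
    by_contra h
    exact hne (uniq χ (right_ne_zero_of_mul h) (by
      intro h0; rw [h0, Nat.cast_zero, zero_mul] at h; exact h rfl))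
  · intro h; exact absurd (Finset.mem_univ _) h


/-- Let N be a normal subgroup of odd index in the finite group G. Then every irreducible complex character of N with Frobenius–Schur indicator +1 lies under exactly one irreducible character of G with Frobenius–Schur indicator +1. -/
theorem result {G : Type*} [Group G] [Finite G] (N : Subgroup G) [N.Normal] (hodd : Odd N.index) (φ : Cfsg.IrrCharacter ↥N) (hφ : (Nat.card ↥N : ℂ)⁻¹ * ∑ᶠ g : ↥N, (φ : ↥N → ℂ) (g * g) = 1) : ∃! χ : Cfsg.IrrCharacter G, (Nat.card G : ℂ)⁻¹ * ∑ᶠ g : G, (χ : G → ℂ) (g * g) = 1 ∧ (∑ᶠ n : ↥N, (χ : G → ℂ) n * (starRingEnd ℂ) ((φ : ↥N → ℂ) n)) ≠ 0 := by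
  have := Fintype.ofFinite G
  have : Fintype N := Fintype.ofFinite _
  simp only [finsum_eq_sum_of_fintype] at hφ ⊢
  exact main hodd φ hφ

end Cfsg.Agent.S4873
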