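import Cfsg.Statements.S4885
import Cfsg.Agent.Lib.Helper82PQGroup
import Cfsg.Agent.Lib.Helper82PQChar
import Cfsg.Agent.Lib.Helper79PrinQuot
-- import your own Cfsg.Agent.* helpers here

set_option autoImplicit false
open Cfsg

namespace Cfsg.Agent.S4885

/-- Let p and q be primes dividing the order of the finite group G, and suppose G is p-solvable and q-solvable. Fix maximal ideals of the algebraic integers containing p and q, defining the principal p-block and the principal q-block. If the irreducible characters of degree prime to p in the principal p-block are exactly the irreducible characters of degree prime to q in the principal q-block, then p = q. -/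
theorem result {G : Type*} [Group G] [Finite G] (p q : ℕ) [Fact p.Prime] [Fact q.Prime] (hp : p ∣ Nat.card G) (hq : q ∣ Nat.card G) (hps : Cfsg.IsPSolvable p G) (hqs : Cfsg.IsPSolvable q G) (Mp Mq : Ideal Cfsg.AlgInt) (hMp : Cfsg.IsPModular p Mp) (hMq : Cfsg.IsPModular q Mq) (h : ∀ χ : Cfsg.IrrCharacter G, (χ ∈ Cfsg.principalBlock Mp G ∧ ¬ p ∣ Cfsg.charDegree (χ : G → ℂ)) ↔ (χ ∈ Cfsg.principalBlock Mq G ∧ ¬ q ∣ Cfsg.charDegree (χ : G → ℂ))) : p = q := by
  classical
  by_contra hpq
  have hpp : p.Prime := Fact.out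
  have hqp : q.Prime := Fact.out
  have := Fintype.ofFinite G
  have hNn : (pPrimeCore p G).Normal := inferInstance
  have hMn : (pPrimeCore q G).Normal := inferInstance
  set N := pPrimeCore p G with hN
  set M := pPrimeCore q G with hM
  set K := N ⊔ M with hK
  have hKn : K.Normal := inferInstance
  obtain ⟨P⟩ : Nonempty (Sylow p G) := inferInstance
  obtain ⟨Q⟩ : Nonempty (Sylow q G) := inferInstance
  have hA : ∀ χ : IrrCharacter G, (∀ n ∈ N, (χ : G → ℂ) n = (χ : G → ℂ) 1) →
      ¬ p ∣ charDegree (χ : G → ℂ) → ∀ r ∈ K, (χ : G → ℂ) r = (χ : G → ℂ) 1 := by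
    intro χ h1 h2
    have h3 : χ ∈ principalBlock Mp G :=
      (Cfsg.Agent.Lib.Helper79PrinQuot.mem_principal_iff_of_pSolvable hMp hps χ).2 h1
    have h4 := (h χ).1 ⟨h3, h2⟩
    have h5 := (Cfsg.Agent.Lib.Helper79PrinQuot.mem_principal_iff_of_pSolvable hMq hqs χ).1 h4.1
    have hχc := Cfsg.Agent.Lib.Helper4Char.IsIrrCharacter.isCharacter χ.2
    have h6 : K ≤ Cfsg.Agent.Lib.Helper82Quot.charKer hχc :=
      sup_le (fun n hn => h1 n hn) (fun n hn => h5 n hn)
    exact fun r hr => h6 hr
  have hB : ∀ χ : IrrCharacter G, (∀ n ∈ M, (χ : G → ℂ) n = (χ : G → ℂ) 1) →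
      ¬ q ∣ charDegree (χ : G → ℂ) → ∀ r ∈ K, (χ : G → ℂ) r = (χ : G → ℂ) 1 := by
    intro χ h1 h2
    have h3 : χ ∈ principalBlock Mq G :=
      (Cfsg.Agent.Lib.Helper79PrinQuot.mem_principal_iff_of_pSolvable hMq hqs χ).2 h1
    have h4 := (h χ).2 ⟨h3, h2⟩
    have h5 := (Cfsg.Agent.Lib.Helper79PrinQuot.mem_principal_iff_of_pSolvable hMp hps χ).1 h4.1
    have hχc := Cfsg.Agent.Lib.Helper4Char.IsIrrCharacter.isCharacter χ.2
    have h6 : K ≤ Cfsg.Agent.Lib.Helper82Quot.charKer hχc :=
      sup_le (fun n hn => h5 n hn) (fun n hn => h1 n hn)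
    exact fun r hr => h6 hr
  have hKP := Cfsg.Agent.Lib.Helper82PQChar.inf_sylow_le_frattini P N K
    Cfsg.Agent.Lib.Helper79PrinQuot.not_dvd_card_pPrimeCore hA
  have hKQ := Cfsg.Agent.Lib.Helper82PQChar.inf_sylow_le_frattini Q M K
    Cfsg.Agent.Lib.Helper79PrinQuot.not_dvd_card_pPrimeCore hB
  obtain ⟨n, H, h0, hlast, hmono, hnorm, hfac⟩ := hps
  have hle : ∀ i : Fin (n + 1), H i ≤ K := by
    intro i
    induction i using Fin.induction with
    | zero => rw [h0]; exact bot_le
    | succ i ih =>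
      have hn1 : (H i.succ).Normal := hnorm _
      have hTn : (K ⊔ H i.succ).Normal := inferInstance
      have e1 : K.relIndex (K ⊔ H i.succ) = K.relIndex (H i.succ) := Subgroup.relIndex_sup_left _ _
      have e2 : K.relIndex (H i.succ) ∣ (H i.castSucc).relIndex (H i.succ) :=
        Subgroup.relIndex_dvd_of_le_left _ ih
      have hT : K ⊔ H i.succ ≤ K := by
        rcases hfac i with ⟨m, hm⟩ | hc
        · apply Cfsg.Agent.Lib.Helper82PQGroup.le_of_coprime_relIndex Q K _ le_sup_right hKQ
          rw [e1]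
          rw [hm] at e2
          apply Nat.Coprime.coprime_dvd_left e2
          exact Nat.Coprime.pow_left m ((Nat.coprime_primes hpp hqp).2 hpq)
        · apply Cfsg.Agent.Lib.Helper82PQGroup.le_of_coprime_relIndex P K _ le_sup_left hKP
          rw [e1]
          exact Nat.Coprime.coprime_dvd_left e2 hc
      exact le_sup_right.trans hT
  have htop : K = ⊤ := by
    rw [eq_top_iff, ← hlast]
    exact hle _
  rw [htop, top_inf_eq] at hKP
  have hfr : frattini ↥(P : Subgroup G) = ⊤ := by
    rw [eq_top_iff]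
    intro y _
    obtain ⟨y', hy', e⟩ := hKP y.2
    have : y' = y := Subtype.ext e
    rw [← this]
    exact hy'
  have hPne : Nontrivial ↥(P : Subgroup G) := by
    rw [← Finite.one_lt_card_iff_nontrivial, P.card_eq_multiplicity]
    apply Nat.one_lt_pow _ hpp.one_lt
    have := Nat.Prime.factorization_pos_of_dvd hpp Nat.card_pos.ne' hp
    omega
  rcases IsCoatomic.eq_top_or_exists_le_coatom (⊥ : Subgroup ↥(P : Subgroup G)) with h1 | ⟨a, ha, -⟩
  · exact bot_ne_top h1
  · have h2 : frattini ↥(P : Subgroup G) ≤ a := Order.radical_le_coatom ha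
    rw [hfr, top_le_iff] at h2
    exact ha.1 h2

end Cfsg.Agent.S4885
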