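import Cfsg.Statements.S4911
import Cfsg.Agent.Lib.Helper77Glaub3

set_option autoImplicit false
open Cfsg

namespace Cfsg.Agent.S4911


open scoped ComplexConjugate
open Cfsg.Agent.Lib.Helper4Char Cfsg.Agent.Lib.Helper4Char2
  Cfsg.Agent.Lib.Helper4Char3 Cfsg.Agent.Lib.Helper4Char4 Cfsg.Agent.Lib.Helper4Perm
  Cfsg.Agent.Lib.Helper77Glaub Cfsg.Agent.Lib.Helper77Glaub2 Cfsg.Agent.Lib.Helper77Glaub3

theorem mlt_conj {G C : Type*} [Group G] [Group C] [Fintype C] (ι : C →* G) (χ : G → ℂ)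
    (γ : C → ℂ) : mlt ι (fun g => conj (χ g)) (fun c => conj (γ c)) = mlt ι χ γ := by
  unfold mlt
  have : Cfsg.classInner (fun c => conj (χ (ι c))) (fun c => conj (γ c))
      = conj (Cfsg.classInner (fun c => χ (ι c)) γ) := by
    simp [Cfsg.classInner, map_sum, map_mul]
  rw [this, Complex.conj_re]

section

variable {G C S : Type*} [Group G] [Group C] [Group S] [Fintype G] [Fintype C]
  (p : ℕ) [Fact p.Prime] (hS : IsPGroup p S) {φ : S →* MulAut G} {ι : C →* G}
  (h : IsFix φ ι) (hp : ¬ p ∣ Nat.card G)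

include hS h hp

theorem card_real_inv_irr :
    Nat.card {θ : Cfsg.IrrCharacter G // (∀ g, (θ.1 g).im = 0) ∧ Inv φ θ.1}
      = Nat.card {β : Cfsg.IrrCharacter C // ∀ c, (β.1 c).im = 0} := by
  have hex : ∀ χ : {θ : Cfsg.IrrCharacter G // (∀ g, (θ.1 g).im = 0) ∧ Inv φ θ.1},
      ∃ β : Cfsg.IrrCharacter C, ¬ p ∣ mlt ι χ.1.1 β.1 := fun χ =>
    exists_corr p hS h hp χ.1.2 χ.2.2
  choose f hf using hex
  have hreal : ∀ χ c, ((f χ).1 c).im = 0 := by
    intro χ c
    have h1 : (⟨fun c => conj ((f χ).1 c), IsIrrCharacter.conj (f χ).2⟩ : Cfsg.IrrCharacter C)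
        = f χ := by
      refine corr_unique p hS h hp χ.1.2 χ.2.2 _ _ ?_ (hf χ)
      have h2 := mlt_conj ι χ.1.1 (f χ).1
      have h3 : (fun g => conj (χ.1.1 g)) = χ.1.1 :=
        funext (fun g => Complex.conj_eq_iff_im.mpr (χ.2.1 g))
      rw [h3] at h2
      change ¬ p ∣ mlt ι χ.1.1 (fun c => conj ((f χ).1 c))
      rw [h2]
      exact hf χ
    exact Complex.conj_eq_iff_im.mp (congrFun (congrArg Subtype.val h1) c)
  refine Nat.card_eq_of_bijective (fun χ => ⟨f χ, hreal χ⟩) ⟨?_, ?_⟩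
  · intro χ χ' he
    have he' : f χ = f χ' := congrArg Subtype.val he
    apply Subtype.ext
    apply Subtype.ext
    refine corr_inj p hS h hp χ.1.2 χ.2.2 χ'.1.2 χ'.2.2 (f χ).2 (hf χ) ?_
    rw [he']
    exact hf χ'
  · rintro ⟨β, hβ⟩
    obtain ⟨χ, hχi, hχ⟩ := corr_surj p hS h hp β
    have hχr : ∀ g, (χ.1 g).im = 0 := by
      intro g
      have h1 : (fun g => conj (χ.1 g)) = χ.1 := by
        refine corr_inj p hS h hp (IsIrrCharacter.conj χ.2)
          (fun s g => by simp only [hχi s g]) χ.2 hχi β.2 ?_ hχ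
        have h2 := mlt_conj ι χ.1 β.1
        have h3 : (fun c => conj (β.1 c)) = β.1 :=
          funext (fun c => Complex.conj_eq_iff_im.mpr (hβ c))
        rw [h3] at h2
        rw [h2]
        exact hχ
      exact Complex.conj_eq_iff_im.mp (congrFun h1 g)
    refine ⟨⟨χ, hχr, hχi⟩, ?_⟩
    apply Subtype.ext
    exact corr_unique p hS h hp χ.2 hχi _ _ (hf ⟨χ, hχr, hχi⟩) hχ

theorem card_real_inv_classes :
    Nat.card {L : ConjClasses C // ∀ c, ConjClasses.mk c = L → IsConj c c⁻¹}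
      = Nat.card {K : ConjClasses G // (∀ g, ConjClasses.mk g = K → IsConj g g⁻¹) ∧ InvC φ K} := by
  have hwd : ∀ L : {L : ConjClasses C // ∀ c, ConjClasses.mk c = L → IsConj c c⁻¹},
      (∀ g, ConjClasses.mk g = ConjClasses.map ι L.1 → IsConj g g⁻¹)
        ∧ InvC φ (ConjClasses.map ι L.1) := by
    rintro ⟨L, hL⟩
    obtain ⟨b, rfl⟩ := ConjClasses.exists_rep L
    constructor
    · intro g hg
      have h1 : IsConj g (ι b) := ConjClasses.mk_eq_mk_iff_isConj.mp hg
      have h2 : IsConj (ι b) (ι b)⁻¹ := by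
        rw [← map_inv]
        exact ι.map_isConj (hL b rfl)
      have h3 : IsConj (ι b)⁻¹ g⁻¹ := by
        obtain ⟨x, hx⟩ := isConj_iff.mp h1.symm
        exact isConj_iff.mpr ⟨x, by rw [← hx]; group⟩
      exact h1.trans (h2.trans h3)
    · intro s g hg
      have h1 : IsConj g (ι b) := ConjClasses.mk_eq_mk_iff_isConj.mp hg
      have h2 : IsConj (φ s g) (φ s (ι b)) := (φ s).toMonoidHom.map_isConj h1
      rw [h.apply] at h2
      exact ConjClasses.mk_eq_mk_iff_isConj.mpr h2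
  refine Nat.card_eq_of_bijective (fun L => ⟨ConjClasses.map ι L.1, hwd L⟩) ⟨?_, ?_⟩
  · rintro ⟨L, hL⟩ ⟨L', hL'⟩ he
    have he' : ConjClasses.map ι L = ConjClasses.map ι L' := congrArg Subtype.val he
    apply Subtype.ext
    obtain ⟨b, rfl⟩ := ConjClasses.exists_rep L
    obtain ⟨b', rfl⟩ := ConjClasses.exists_rep L'
    exact ConjClasses.mk_eq_mk_iff_isConj.mpr
      (conj_of_conj p hS h hp (ConjClasses.mk_eq_mk_iff_isConj.mp he'))
  · rintro ⟨K, hKr, hK⟩
    obtain ⟨b, hb⟩ := exists_fixed_in_class p hS h hp hK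
    refine ⟨⟨ConjClasses.mk b, ?_⟩, Subtype.ext hb⟩
    intro c hc
    have h1 : ConjClasses.mk (ι c) = K := by
      rw [← hb]
      exact ConjClasses.mk_eq_mk_iff_isConj.mpr (ι.map_isConj (ConjClasses.mk_eq_mk_iff_isConj.mp hc))
    have h2 := hKr _ h1
    rw [← map_inv] at h2
    exact conj_of_conj p hS h hp h2

theorem card_real_inv :
    Nat.card {θ : Cfsg.IrrCharacter G // (∀ g, (θ.1 g).im = 0) ∧ Inv φ θ.1}
      = Nat.card {K : ConjClasses G // (∀ g, ConjClasses.mk g = K → IsConj g g⁻¹) ∧ InvC φ K} := by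
  rw [card_real_inv_irr p hS h hp, ← card_real_inv_classes p hS h hp]
  exact card_real_irr_eq_card_real_classes

theorem real_fixed (hall : ∀ θ : Cfsg.IrrCharacter G, (∀ g, (θ.1 g).im = 0) → Inv φ θ.1)
    (g : G) (hg : IsConj g g⁻¹) : ∃ c : C, IsConj g (ι c) := by
  have h1 := card_real_inv p hS h hp
  have h2 : Nat.card {θ : Cfsg.IrrCharacter G // (∀ g, (θ.1 g).im = 0) ∧ Inv φ θ.1}
      = Nat.card {θ : Cfsg.IrrCharacter G // ∀ g, (θ.1 g).im = 0} :=
    Nat.card_congr (Equiv.subtypeEquivRight (fun θ => ⟨fun hh => hh.1, fun hh => ⟨hh, hall θ hh⟩⟩))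
  rw [h2, card_real_irr_eq_card_real_classes] at h1
  -- the inclusion of real invariant classes into real classes is a bijection
  let incl : {K : ConjClasses G // (∀ g, ConjClasses.mk g = K → IsConj g g⁻¹) ∧ InvC φ K} →
      {K : ConjClasses G // ∀ g, ConjClasses.mk g = K → IsConj g g⁻¹} := fun K => ⟨K.1, K.2.1⟩
  have hinj : Function.Injective incl := fun K K' he =>
    Subtype.ext (congrArg (fun x : {K : ConjClasses G // ∀ g, ConjClasses.mk g = K → IsConj g g⁻¹} =>
      x.1) he)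
  have hsurj : Function.Surjective incl :=
    ((Nat.bijective_iff_injective_and_card incl).mpr ⟨hinj, h1.symm⟩).2
  have hreal : ∀ x, ConjClasses.mk x = ConjClasses.mk g → IsConj x x⁻¹ := by
    intro x hx
    have a1 : IsConj x g := ConjClasses.mk_eq_mk_iff_isConj.mp hx
    have a3 : IsConj g⁻¹ x⁻¹ := by
      obtain ⟨y, hy⟩ := isConj_iff.mp a1.symm
      exact isConj_iff.mpr ⟨y, by rw [← hy]; group⟩
    exact a1.trans (hg.trans a3)
  obtain ⟨K, hK⟩ := hsurj ⟨ConjClasses.mk g, hreal⟩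
  have hK' : K.1 = ConjClasses.mk g := congrArg Subtype.val hK
  obtain ⟨c, hc⟩ := exists_fixed_in_class p hS h hp K.2.2
  rw [hK'] at hc
  exact ⟨c, (ConjClasses.mk_eq_mk_iff_isConj.mp hc).symm⟩

end


/-- Let P and K be subgroups of a finite group with P a p-group normalizing K and K of order prime to p. Then the number of P-invariant real-valued irreducible complex characters of K equals the number of conjugacy classes of K that are real (closed under inversion) and P-invariant. Moreover, if every real-valued irreducible character of K is P-invariant, then every real element of K (one conjugate in K to its inverse) is conjugate in K to an element centralized by P. -/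
theorem result {G : Type*} [Group G] [Finite G] (p : ℕ) [Fact p.Prime] (P K : Subgroup G) (hP : IsPGroup p ↥P) (hK : ¬ p ∣ Nat.card ↥K) (hPK : P ≤ Subgroup.normalizer (K : Set G)) : Nat.card {θ : Cfsg.IrrCharacter ↥K // (∀ k : ↥K, ((θ : ↥K → ℂ) k).im = 0) ∧ (∀ x ∈ P, ∀ k k' : ↥K, (k' : G) = x * (k : G) * x⁻¹ → (θ : ↥K → ℂ) k' = (θ : ↥K → ℂ) k)} = Nat.card {c : ConjClasses ↥K // (∀ k : ↥K, ConjClasses.mk k = c → IsConj k k⁻¹) ∧ ∀ k : ↥K, ConjClasses.mk k = c → ∀ x ∈ P, ∀ k' : ↥K, (k' : G) = x * (k : G) * x⁻¹ → ConjClasses.mk k' = c} ∧ ((∀ θ : Cfsg.IrrCharacter ↥K, (∀ k : ↥K, ((θ : ↥K → ℂ) k).im = 0) → (∀ x ∈ P, ∀ k k' : ↥K, (k' : G) = x * (k : G) * x⁻¹ → (θ : ↥K → ℂ) k' = (θ : ↥K → ℂ) k)) → ∀ k : ↥K, IsConj k k⁻¹ → ∃ k' : ↥K, IsConj k k' ∧ ∀ x ∈ P, x * (k' : G) * x⁻¹ = (k' : G)) := by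
  classical
  cases nonempty_fintype G
  have hnorm : ∀ s ∈ P, ∀ g ∈ K, s * g * s⁻¹ ∈ K := fun s hs g hg =>
    ((Subgroup.mem_normalizer_iff.mp (hPK hs)) g).mp hg
  set φ := conjAct K P hnorm with hφ
  have hfix := isFix_fixSub φ
  have : Fintype (fixSub φ) := Fintype.ofFinite _
  have hI := inv_conjAct_iff K P hnorm
  constructor
  · have h1 := card_real_inv p hP hfix hK
    rw [← Nat.card_congr (Equiv.subtypeEquivRight (fun θ : Cfsg.IrrCharacter K =>
      and_congr_right (fun _ => hI θ.1))), h1]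
    refine Nat.card_congr (Equiv.subtypeEquivRight (fun c => and_congr_right (fun _ => ?_)))
    constructor
    · intro hi k hk x hx k' hk'
      have : k' = φ ⟨x, hx⟩ k := Subtype.ext hk'
      rw [this]
      exact hi _ _ hk
    · intro hi s k hk
      exact hi k hk s s.2 _ rfl
  · intro hall k hk
    obtain ⟨c, hc⟩ := real_fixed p hP hfix hK (fun θ hθ => (hI θ.1).mpr (hall θ hθ)) k hk
    refine ⟨c.1, hc, fun x hx => ?_⟩
    exact congrArg Subtype.val (c.2 ⟨x, hx⟩)

end Cfsg.Agent.S4911
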