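import Cfsg.Statements.S4912
import Cfsg.Agent.Lib.Helper83MinNormal
import Cfsg.Agent.Lib.Helper83FS2

set_option autoImplicit false
open Cfsg

namespace Cfsg.Agent.S4912

open scoped ComplexConjugate

open Cfsg.Agent.Lib.Helper4Char Cfsg.Agent.Lib.Helper4Char2 Cfsg.Agent.Lib.Helper4Char4
open Cfsg.Agent.Lib.Helper19Lin Cfsg.Agent.Lib.Helper83MinNormal

theorem real_of_fs {G : Type*} [Group G] [Fintype G] {χ : G → ℂ} (hχ : Cfsg.IsIrrCharacter G χ)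
    (h : (Nat.card G : ℂ)⁻¹ * ∑ g : G, χ (g * g) = 1) (g : G) : conj (χ g) = χ g := by
  have h1 := (Cfsg.Agent.Lib.Helper83FS.irr_fs hχ).2
  apply Complex.conj_eq_iff_im.2
  by_contra hne
  have := h1.2 ⟨g, hne⟩
  rw [h] at this
  exact one_ne_zero this

theorem main {G : Type*} [Group G] [Fintype G] (N : Subgroup G) (hN : N.Normal)
    (hmin : ∀ M : Subgroup G, M.Normal → M ≤ N → M = ⊥ ∨ M = N) (hna : ¬ IsMulCommutative ↥N)
    (φ : Cfsg.IrrCharacter ↥N) (I : Subgroup G)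
    (hI : ∀ g : G, g ∈ I ↔ ∀ n n' : ↥N, (n' : G) = g * (n : G) * g⁻¹ →
      (φ : ↥N → ℂ) n' = (φ : ↥N → ℂ) n) (hNI : N ≤ I) [Fintype N] [Fintype I]
    (ψ : Cfsg.IrrCharacter ↥I)
    (hν : (Nat.card ↥I : ℂ)⁻¹ * ∑ g : ↥I, (ψ : ↥I → ℂ) (g * g) = 1)
    (hψ : ∀ n : ↥N, (ψ : ↥I → ℂ) (Subgroup.inclusion hNI n) = (φ : ↥N → ℂ) n) :
    Nat.card {χ : Cfsg.IrrCharacter G // Cfsg.charDegree (χ : G → ℂ) = 1 ∧
      (Nat.card G : ℂ)⁻¹ * ∑ g : G, (χ : G → ℂ) (g * g) = 1} ≤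
    I.index * Nat.card {χ : Cfsg.IrrCharacter G //
      Cfsg.charDegree (χ : G → ℂ) = Cfsg.charDegree (φ : ↥N → ℂ) * I.index ∧
      (Nat.card G : ℂ)⁻¹ * ∑ g : G, (χ : G → ℂ) (g * g) = 1} := by
  classical
  haveI := hN
  obtain ⟨hirr, hkey⟩ := key N (le_commutator N hN hmin hna) φ I hI hNI ψ hψ
  have hd := degree_ind N I hNI φ ψ hψ
  have hψreal := real_of_fs ψ.2 hν
  have hφreal : ∀ n, conj ((φ : ↥N → ℂ) n) = (φ : ↥N → ℂ) n := by
    intro n; rw [← hψ, hψreal]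
  have hI' : ∀ h : G, h ∉ I →
      (fun n : N => (φ : ↥N → ℂ) (MulAut.conjNormal h⁻¹ n)) ≠ (φ : ↥N → ℂ) := by
    intro h hh heq
    apply hh
    have : h⁻¹ ∈ I := by
      rw [hI]
      intro n n' hn
      have e : n' = MulAut.conjNormal h⁻¹ n := by
        apply Subtype.ext
        rw [hn, MulAut.conjNormal_apply]
      rw [e]
      exact congrFun heq n
    simpa using I.inv_mem this
  have hν0 := Cfsg.Agent.Lib.Helper83FS2.fs_ind_inertia N I hNI φ φ.2 hφreal ψ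
    (IsIrrCharacter.isCharacter ψ.2) hψ hI'
  rw [hν] at hν0
  refine count I (Cfsg.indFun I ψ) hirr _ hd hkey
    (fun χ => (Nat.card G : ℂ)⁻¹ * ∑ g : G, (χ : G → ℂ) (g * g) = 1)
    (fun χ => (Nat.card G : ℂ)⁻¹ * ∑ g : G, (χ : G → ℂ) (g * g) = 1) ?_
  intro lam hlam1 hlamν h
  show (Nat.card G : ℂ)⁻¹ * ∑ g : G, ((lam : G → ℂ) * Cfsg.indFun I ψ) (g * g) = 1
  rw [← hν0]
  congr 1
  refine Finset.sum_congr rfl fun g _ => ?_
  have hl1 : (lam : G → ℂ) 1 = 1 := by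
    rw [← Cfsg.Agent.Lib.Helper83Char.charDegree_cast lam.2, hlam1, Nat.cast_one]
  obtain ⟨f, hf⟩ := exists_hom_of_linear (IsIrrCharacter.isCharacter lam.2) hl1
  have hr := real_of_fs lam.2 hlamν g
  have h1 := hom_mul_conj f g
  rw [Pi.mul_apply]
  rw [← hf, homFun_apply] at hr ⊢
  rw [hr] at h1
  rw [map_mul, Units.val_mul, h1, one_mul]


/-- Let G be a finite group with a non-abelian minimal normal subgroup N, and let φ be an irreducible complex character of N with stabilizer I in G such that φ extends to an irreducible character of I with Frobenius–Schur indicator +1. Put d = φ(1)·[G : I]. Then the number of linear characters of G with Frobenius–Schur indicator +1 is at most [G : I] times the number of irreducible characters of G of degree d with Frobenius–Schur indicator +1. -/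
theorem result {G : Type*} [Group G] [Finite G] (N : Subgroup G) (hN : N.Normal) (hN1 : N ≠ ⊥) (hmin : ∀ M : Subgroup G, M.Normal → M ≤ N → M = ⊥ ∨ M = N) (hna : ¬ IsMulCommutative ↥N) (φ : Cfsg.IrrCharacter ↥N) (I : Subgroup G) (hI : ∀ g : G, g ∈ I ↔ ∀ n n' : ↥N, (n' : G) = g * (n : G) * g⁻¹ → (φ : ↥N → ℂ) n' = (φ : ↥N → ℂ) n) (hNI : N ≤ I) (hext : ∃ ψ : Cfsg.IrrCharacter ↥I, (Nat.card ↥I : ℂ)⁻¹ * ∑ᶠ g : ↥I, (ψ : ↥I → ℂ) (g * g) = 1 ∧ ∀ n : ↥N, (ψ : ↥I → ℂ) (Subgroup.inclusion hNI n) = (φ : ↥N → ℂ) n) : Nat.card {χ : Cfsg.IrrCharacter G // Cfsg.charDegree (χ : G → ℂ) = 1 ∧ (Nat.card G : ℂ)⁻¹ * ∑ᶠ g : G, (χ : G → ℂ) (g * g) = 1} ≤ I.index * Nat.card {χ : Cfsg.IrrCharacter G // Cfsg.charDegree (χ : G → ℂ) = Cfsg.charDegree (φ : ↥N → ℂ) * I.index ∧ (Nat.card G : ℂ)⁻¹ * ∑ᶠ g : G, (χ : G → ℂ) (g * g) = 1} := by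
  classical
  have := Fintype.ofFinite G
  have : Fintype N := Fintype.ofFinite _
  have : Fintype I := Fintype.ofFinite _
  obtain ⟨ψ, hν, hψ⟩ := hext
  simp only [finsum_eq_sum_of_fintype] at hν ⊢
  exact main N hN hmin hna φ I hI hNI ψ hν hψ

end Cfsg.Agent.S4912
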