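import Cfsg.Statements.S4914
import Cfsg.Agent.Lib.Helper77Rel3

set_option autoImplicit false
open Cfsg

namespace Cfsg.Agent.S4914

open Cfsg.Agent.Lib.Helper4Char Cfsg.Agent.Lib.Helper4Char4 Cfsg.Agent.Lib.Helper77Glaub
  Cfsg.Agent.Lib.Helper77Rel1 Cfsg.Agent.Lib.Helper77Rel3

/-- a `p`-element of `K` lies in the normal Sylow subgroup `Q` -/
theorem mem_of_pow {G : Type*} [Group G] [Finite G] (p : ℕ) [Fact p.Prime] (K Q : Subgroup G)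
    (hQn : ∀ k ∈ K, ∀ q ∈ Q, k * q * k⁻¹ ∈ Q) (hQsyl : ¬ p ∣ Q.relIndex K)
    (g : G) (hg : g ∈ K) (a : ℕ) (hga : g ^ p ^ a = 1) : g ∈ Q := by
  have hn : (Q.subgroupOf K).Normal := by
    constructor
    intro n hn k
    exact hQn k k.2 n hn
  have h1 : (⟨g, hg⟩ : K) ^ (Q.subgroupOf K).index ∈ Q.subgroupOf K :=
    Subgroup.pow_index_mem _ _
  have h2 : (Q.relIndex K).Coprime (orderOf g) := by
    have h3 : orderOf g ∣ p ^ a := orderOf_dvd_of_pow_eq_one hga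
    refine Nat.Coprime.coprime_dvd_right h3 (Nat.Coprime.pow_right a ?_)
    exact ((Nat.Prime.coprime_iff_not_dvd Fact.out).mpr hQsyl).symm
  obtain ⟨m, hm⟩ := exists_pow_eq_self_of_coprime h2
  rw [← hm]
  exact Q.pow_mem h1 m

theorem conj_mem_Q {G : Type*} [Group G] [Finite G] (p : ℕ) [Fact p.Prime] (P K Q : Subgroup G)
    (hPK : P ≤ Subgroup.normalizer (K : Set G)) (hQK : Q ≤ K)
    (hQn : ∀ k ∈ K, ∀ q ∈ Q, k * q * k⁻¹ ∈ Q) (hQp : ∃ a : ℕ, Nat.card ↥Q = p ^ a)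
    (hQsyl : ¬ p ∣ Q.relIndex K) : ∀ s ∈ P, ∀ g ∈ Q, s * g * s⁻¹ ∈ Q := by
  intro s hs g hg
  obtain ⟨a, ha⟩ := hQp
  refine mem_of_pow p K Q hQn hQsyl _ ((Subgroup.mem_normalizer_iff.mp (hPK hs) g).mp (hQK hg))
    a ?_
  rw [conj_pow]
  have : g ^ p ^ a = 1 := by
    have h1 : (⟨g, hg⟩ : Q) ^ Nat.card Q = 1 := pow_card_eq_one'
    rw [ha] at h1
    exact congrArg Subtype.val h1
  rw [this]
  group


/-- Let P and K be subgroups of a finite group G with P a p-group normalizing K, and suppose K has a normal Sylow p-subgroup Q. Let C be the subgroup of those k ∈ K whose commutator with every element of P lies in Q (so that C/Q is the fixed-point subgroup of P on K/Q). Then there is a bijection f from the P-invariant irreducible complex characters of K onto the P-invariant irreducible complex characters of C such that, for every P-invariant irreducible character χ of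 K, the multiplicity of f(χ) in the restriction of χ to C is a natural number congruent to 1 or to −1 modulo p, every other P-invariant irreducible character of C occurs in that restriction with multiplicity divisible by p, and the degrees of χ and f(χ) are congruent modulo p up to sign. -/
theorem result {G : Type*} [Group G] [Finite G] (p : ℕ) [Fact p.Prime] (P K Q C : Subgroup G) (hP : IsPGroup p ↥P) (hPK : P ≤ Subgroup.normalizer (K : Set G)) (hQK : Q ≤ K) (hQn : ∀ k ∈ K, ∀ q ∈ Q, k * q * k⁻¹ ∈ Q) (hQp : ∃ a : ℕ, Nat.card ↥Q = p ^ a) (hQsyl : ¬ p ∣ Q.relIndex K) (hCK : C ≤ K) (hC : ∀ k : G, k ∈ C ↔ (k ∈ K ∧ ∀ x ∈ P, x * k * x⁻¹ * k⁻¹ ∈ Q)) : ∃ f : {χ : Cfsg.IrrCharacter ↥K // (∀ x ∈ P, ∀ k k' : ↥K, (k' : G) = x * (k : G) * x⁻¹ → (χ : ↥K → ℂ) k' = (χ : ↥K → ℂ) k)} → {ξ : Cfsg.IrrCharacter ↥C // (∀ x ∈ P, ∀ k k' : ↥C, (k' : G) = x * (k : G) * x⁻¹ → (ξ : ↥C → ℂ) k'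 = (ξ : ↥C → ℂ) k)}, Function.Bijective f ∧ ∀ χ, (∀ ξ : {ξ : Cfsg.IrrCharacter ↥C // (∀ x ∈ P, ∀ k k' : ↥C, (k' : G) = x * (k : G) * x⁻¹ → (ξ : ↥C → ℂ) k' = (ξ : ↥C → ℂ) k)}, ∃ m : ℕ, (Nat.card ↥C : ℂ)⁻¹ * ∑ᶠ c : ↥C, (χ.1 : ↥K → ℂ) (Subgroup.inclusion hCK c) * (starRingEnd ℂ) ((ξ.1 : ↥C → ℂ) c) = (m : ℂ) ∧ (ξ = f χ → ((m : ZMod p) = 1 ∨ (m : ZMod p) = -1)) ∧ (ξ ≠ f χ → p ∣ m)) ∧ ((Cfsg.charDegree ((f χ).1 : ↥C → ℂ) : ZMod p) = (Cfsg.charDegree (χ.1 : ↥K → ℂ) : ZMod p) ∨ (Cfsg.charDegree ((f χ).1 : ↥C → ℂ) : ZMod p) = -(Cfsg.charDegree (χ.1 : ↥K → ℂ) : ZMod p)) := by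
  classical
  have hPKn : ∀ s ∈ P, ∀ g ∈ K, s * g * s⁻¹ ∈ K := fun s hs g hg =>
    (Subgroup.mem_normalizer_iff.mp (hPK hs) g).mp hg
  have hPQ := conj_mem_Q p P K Q hPK hQK hQn hQp hQsyl
  have hQC : Q ≤ C := by
    intro q hq
    rw [hC]
    exact ⟨hQK hq, fun x hx => Q.mul_mem (hPQ x hx q hq) (Q.inv_mem hq)⟩
  have hPC : ∀ s ∈ P, ∀ g ∈ C, s * g * s⁻¹ ∈ C := by
    intro x hx c hc
    have hc' := (hC c).mp hc
    rw [hC]
    refine ⟨hPKn x hx c hc'.1, fun y hy => ?_⟩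
    have h1 := hc'.2 (y * x) (P.mul_mem hy hx)
    have h2 := hc'.2 x hx
    have h3 : y * (x * c * x⁻¹) * y⁻¹ * (x * c * x⁻¹)⁻¹
        = (y * x * c * (y * x)⁻¹ * c⁻¹) * (x * c * x⁻¹ * c⁻¹)⁻¹ := by group
    rw [h3]
    exact Q.mul_mem h1 (Q.inv_mem h2)
  have : Fintype K := Fintype.ofFinite _
  have : Fintype C := Fintype.ofFinite _
  have : Fintype Q := Fintype.ofFinite _
  let d : Dat p K C Q P :=
    { ι := Subgroup.inclusion hCK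
      j := Subgroup.inclusion hQC
      cK := conjAct Q K hQn
      φK := conjAct K P hPKn
      φC := conjAct C P hPC
      φQ := conjAct Q P hPQ
      hι := Subgroup.inclusion_injective hCK
      hj := Subgroup.inclusion_injective hQC
      hcK := fun k q => Subtype.ext rfl
      hφC := fun s c => Subtype.ext rfl
      hφQ := fun s q => Subtype.ext rfl
      hC := fun k => by
        constructor
        · rintro ⟨c, rfl⟩ s
          exact ⟨⟨_, ((hC c.1).mp c.2).2 s.1 s.2⟩, Subtype.ext rfl⟩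
        · intro h
          refine ⟨⟨k.1, (hC k.1).mpr ⟨k.2, fun x hx => ?_⟩⟩, Subtype.ext rfl⟩
          obtain ⟨q, hq⟩ := h ⟨x, hx⟩
          have := congrArg Subtype.val hq
          change x * k.1 * x⁻¹ * k.1⁻¹ = q.1 at this
          rw [this]
          exact q.2
      hS := hP
      hQ := hQp
      hKQ := by
        intro h
        have h1 := Subgroup.relIndex_mul_relIndex ⊥ Q K bot_le hQK
        rw [Subgroup.relIndex_bot_left, Subgroup.relIndex_bot_left] at h1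
        rw [← h1, mul_comm p] at h
        exact hQsyl (Nat.dvd_of_mul_dvd_mul_left Nat.card_pos h) }
  obtain ⟨M1, M2, M3, M4, M5⟩ := main d
  have iK : ∀ χ : Cfsg.IrrCharacter K, Inv d.φK χ.1 ↔ (∀ x ∈ P, ∀ k k' : ↥K,
      (k' : G) = x * (k : G) * x⁻¹ → (χ : ↥K → ℂ) k' = (χ : ↥K → ℂ) k) :=
    fun χ => inv_conjAct_iff K P hPKn χ.1
  have iC : ∀ ξ : Cfsg.IrrCharacter C, Inv d.φC ξ.1 ↔ (∀ x ∈ P, ∀ k k' : ↥C,
      (k' : G) = x * (k : G) * x⁻¹ → (ξ : ↥C → ℂ) k' = (ξ : ↥C → ℂ) k) :=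
    fun ξ => inv_conjAct_iff C P hPC ξ.1
  let f : {χ : Cfsg.IrrCharacter ↥K // (∀ x ∈ P, ∀ k k' : ↥K, (k' : G) = x * (k : G) * x⁻¹ →
      (χ : ↥K → ℂ) k' = (χ : ↥K → ℂ) k)} → {ξ : Cfsg.IrrCharacter ↥C // (∀ x ∈ P, ∀ k k' : ↥C,
      (k' : G) = x * (k : G) * x⁻¹ → (ξ : ↥C → ℂ) k' = (ξ : ↥C → ℂ) k)} :=
    fun χ => ⟨(M1 χ.1 ((iK χ.1).mpr χ.2)).choose,
      (iC _).mp (M1 χ.1 ((iK χ.1).mpr χ.2)).choose_spec.1⟩
  have hf : ∀ χ, ¬ p ∣ mlt d.ι χ.1.1 (f χ).1.1 := fun χ =>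
    (M1 χ.1 ((iK χ.1).mpr χ.2)).choose_spec.2
  have hpm : ∀ χ, ((mlt d.ι χ.1.1 (f χ).1.1 : ℕ) : ZMod p) = 1 ∨
      ((mlt d.ι χ.1.1 (f χ).1.1 : ℕ) : ZMod p) = -1 := by
    intro χ
    rcases M3 χ.1 ((iK χ.1).mpr χ.2) (f χ).1 ((iC _).mpr (f χ).2) (hf χ) with h | h
    · left
      have := (ZMod.intCast_eq_intCast_iff _ _ p).mpr h
      simpa using this
    · right
      have := (ZMod.intCast_eq_intCast_iff _ _ p).mpr h
      simpa using this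
  have hoth : ∀ χ ξ, ξ ≠ f χ → p ∣ mlt d.ι χ.1.1 ξ.1.1 := by
    intro χ ξ hne
    by_contra hnd
    exact hne (Subtype.ext (M2 χ.1 ((iK χ.1).mpr χ.2) ξ.1 (f χ).1 ((iC _).mpr ξ.2)
      ((iC _).mpr (f χ).2) hnd (hf χ)))
  refine ⟨f, ⟨?_, ?_⟩, fun χ => ⟨fun ξ => ⟨mlt d.ι χ.1.1 ξ.1.1, ?_, ?_, hoth χ ξ⟩, ?_⟩⟩
  · intro χ χ' h
    have h1 := hf χ'
    rw [← h] at h1
    exact Subtype.ext (M4 χ.1 χ'.1 ((iK χ.1).mpr χ.2) ((iK χ'.1).mpr χ'.2) (f χ).1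
      ((iC _).mpr (f χ).2) (hf χ) h1)
  · intro ξ
    obtain ⟨χ, h1, h2⟩ := M5 ξ.1 ((iC _).mpr ξ.2)
    refine ⟨⟨χ, (iK χ).mp h1⟩, ?_⟩
    by_contra hne
    exact h2 (hoth ⟨χ, (iK χ).mp h1⟩ ξ (fun e => hne e.symm))
  · rw [finsum_eq_sum_of_fintype]
    exact mlt_spec d.ι (IsIrrCharacter.isCharacter χ.1.2) (IsIrrCharacter.isCharacter ξ.1.2)
  · intro h
    rw [h]
    exact hpm χ
  · have h1 := degree_congr hP d.ι d.φK d.φC d.hφC (IsIrrCharacter.isCharacter χ.1.2)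
      ((iK χ.1).mpr χ.2) (f χ).1 ((iC _).mpr (f χ).2)
      (fun ξ hi hne => hoth χ ⟨ξ, (iC ξ).mp hi⟩ (fun e => hne (congrArg Subtype.val e)))
    rw [← Cfsg.Agent.Lib.Helper83Char.charDegree_cast χ.1.2,
      ← Cfsg.Agent.Lib.Helper83Char.charDegree_cast (f χ).1.2] at h1
    have h2 : ((Cfsg.charDegree χ.1.1 : ℂ) - (mlt d.ι χ.1.1 (f χ).1.1 : ℂ) *
        (Cfsg.charDegree (f χ).1.1 : ℂ)) = (((Cfsg.charDegree χ.1.1 : ℤ) -
          (mlt d.ι χ.1.1 (f χ).1.1 : ℤ) * (Cfsg.charDegree (f χ).1.1 : ℤ) : ℤ) : ℂ) := by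
      push_cast; ring
    rw [h2] at h1
    have h3 := PDvd.int_dvd (Fact.out : p.Prime).ne_zero h1
    have h4 := (ZMod.intCast_zmod_eq_zero_iff_dvd _ p).mpr h3
    push_cast at h4
    rcases hpm χ with h | h
    · left
      rw [h] at h4
      linear_combination -h4
    · right
      rw [h] at h4
      linear_combination h4

end Cfsg.Agent.S4914
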