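import Cfsg.Statements.S4916
import Cfsg.Agent.Lib.Helper21Cover
import Cfsg.Agent.Lib.Helper83Char
import Cfsg.Agent.Lib.Helper4Char3
import Mathlib

set_option autoImplicit false
open Cfsg

namespace Cfsg.Agent.S4916

open Cfsg.Agent.Lib.Helper81Orth Cfsg.Agent.Lib.Helper81Block Cfsg.Agent.Lib.Helper81BB
  Cfsg.Agent.Lib.Helper83Char
open scoped ComplexConjugate

/-- Let G be a finite group, p a prime and M a maximal ideal of the algebraic integers containing p. Then the principal character is the only irreducible character of degree prime to p in the principal p-block of G if and only if p does not divide the order of G. -/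
theorem result {G : Type*} [Group G] [Finite G] (p : ℕ) [Fact p.Prime] (M : Ideal Cfsg.AlgInt) (hM : Cfsg.IsPModular p M) : (∀ χ : Cfsg.IrrCharacter G, χ ∈ Cfsg.principalBlock M G → ¬ p ∣ Cfsg.charDegree (χ : G → ℂ) → (χ : G → ℂ) = fun _ => (1 : ℂ)) ↔ ¬ p ∣ Nat.card G := by
  classical
  have := Fintype.ofFinite G
  have hp := hM.1
  have hMp := hM.2.1.isPrime
  let χ₀ : IrrCharacter G := ⟨fun _ => 1, isIrr_one⟩
  have hB : IsPBlock M (principalBlock M G) := ⟨χ₀, rfl⟩
  have hχ₀ : χ₀ ∈ principalBlock M G := sameBlock_refl (M := M) _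
  constructor
  · intro h hdvd
    obtain ⟨y, hy⟩ := exists_prime_orderOf_dvd_card' p hdvd
    have h1 : ¬ p ∣ orderOf (1 : G) := by
      rw [orderOf_one]; exact hp.one_lt.ne' ∘ Nat.dvd_one.mp
    have h2 := weak_block_orth hM hB h1 (by rw [hy] : p ∣ orderOf y)
    rw [← Finset.add_sum_erase _ _ (Finset.mem_univ χ₀)] at h2
    simp only [hχ₀, if_true] at h2
    have h3 : ∀ χ ∈ Finset.univ.erase χ₀, ∃ z : ℂ, IsIntegral ℤ z ∧
        (if χ ∈ principalBlock M G then (χ : G → ℂ) 1 * conj ((χ : G → ℂ) y) else 0)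
          = (p : ℂ) * z := by
      intro χ hχ
      by_cases hχB : χ ∈ principalBlock M G
      · simp only [hχB, if_true]
        have h4 : p ∣ charDegree (χ : G → ℂ) := by
          by_contra h5
          exact (Finset.mem_erase.mp hχ).1 (Subtype.ext (h χ hχB h5))
        obtain ⟨c, hc⟩ := h4
        refine ⟨(c : ℂ) * conj ((χ : G → ℂ) y), ?_, ?_⟩
        · apply IsIntegral.mul (isIntegral_natCast c)
          rw [← irr_inv χ.2]
          exact irr_integral χ _
        · rw [← charDegree_cast χ.2, hc]; push_cast; ring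
      · exact ⟨0, isIntegral_zero, by simp [hχB]⟩
    choose! z hz1 hz2 using h3
    rw [Finset.sum_congr rfl hz2, ← Finset.mul_sum] at h2
    have h5 : IsIntegral ℤ (∑ χ ∈ Finset.univ.erase χ₀, z χ) := IsIntegral.sum _ hz1
    have h6 : ((1 : ℕ) : ℂ) / (p : ℂ) = - ∑ χ ∈ Finset.univ.erase χ₀, z χ := by
      have hp0 : (p : ℂ) ≠ 0 := Nat.cast_ne_zero.mpr hp.ne_zero
      have h7 : (χ₀ : G → ℂ) 1 * conj ((χ₀ : G → ℂ) y) = 1 := by
        show (1 : ℂ) * conj (1 : ℂ) = 1
        simp
      rw [h7] at h2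
      field_simp
      push_cast
      linear_combination h2
    have h8 := Cfsg.Agent.Lib.Helper4Char3.dvd_of_isIntegral_div 1 p hp.ne_zero
      (by rw [h6]; exact h5.neg)
    exact hp.one_lt.ne' (Nat.dvd_one.mp h8)
  · intro h χ hχ _
    have h1 := Cfsg.Agent.Lib.Helper21Cover.eq_of_sameBlock_of_pprime hM h (θ := χ₀) (θ' := χ) hχ
    rw [h1]

end Cfsg.Agent.S4916
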