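import Cfsg.Statements.S4937
import Cfsg.Agent.Lib.Helper79Graded2
import Cfsg.Agent.Lib.Helper80Transport
-- import your own Cfsg.Agent.* helpers here

set_option autoImplicit false
open Cfsg

namespace Cfsg.Agent.S4937

open Cfsg.Agent.Lib.Helper79Graded Cfsg.Agent.Lib.Helper79Graded2

/-- every coset of `N` contains an element whose `N`-orbit has size prime to `p`. -/
theorem good_of_cover {G : Type*} [Group G] [Finite G] (p : ℕ) [Fact p.Prime] (N : Subgroup G)
    [hN : N.Normal] (P : Sylow p ↥N)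
    (hcov : N ⊔ Subgroup.centralizer (((P : Subgroup ↥N).map N.subtype : Subgroup G) : Set G) = ⊤)
    (g : G) : ∃ (d : G) (n : N), d = g * N.subtype n ∧ ¬ p ∣ kk N.subtype d := by
  have hg : g ∈ N ⊔ Subgroup.centralizer (((P : Subgroup ↥N).map N.subtype : Subgroup G) : Set G) := by
    rw [hcov]
    exact Subgroup.mem_top g
  rw [← SetLike.mem_coe, Subgroup.normal_mul] at hg
  obtain ⟨n', hn', c', hc', rfl⟩ := hg
  refine ⟨c', ⟨(n' * c')⁻¹ * n'⁻¹ * (n' * c'), ?_⟩, ?_, ?_⟩
  · have := hN.conj_mem n'⁻¹ (inv_mem hn') (n' * c')⁻¹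
    rwa [inv_inv] at this
  · change c' = n' * c' * ((n' * c')⁻¹ * n'⁻¹ * (n' * c'))
    group
  · intro hd
    have hle : (P : Subgroup ↥N) ≤ (Subgroup.centralizer ({c'} : Set G)).comap N.subtype := by
      intro x hx
      rw [Subgroup.mem_comap, Subgroup.mem_centralizer_singleton_iff]
      have h1 : N.subtype x ∈ (P : Subgroup ↥N).map N.subtype := ⟨x, hx, rfl⟩
      exact (Subgroup.mem_centralizer_iff.mp hc' _ h1)
    have h2 := Subgroup.index_dvd_of_le hle
    exact P.not_dvd_index (hd.trans h2)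

/-- Let G be a finite group, p a prime, M a maximal ideal of the algebraic integers containing p, N a normal subgroup of G and P a Sylow p-subgroup of N such that G = N·C_G(P). Let θ be an irreducible character in the principal p-block of N that is the restriction of some irreducible character of G. Then θ is the restriction of an irreducible character χ of G lying in the principal p-block of G such that, for every subgroup J of G containing N, the restriction of χ to J is an irreducible character of J lying in the principal p-block of J. -/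
theorem result {G : Type*} [Group G] [Finite G] (p : ℕ) [Fact p.Prime] (M : Ideal Cfsg.AlgInt) (hM : Cfsg.IsPModular p M) (N : Subgroup G) [N.Normal] (P : Sylow p ↥N)
    (hcov : N ⊔ Subgroup.centralizer (((P : Subgroup ↥N).map N.subtype : Subgroup G) : Set G) = ⊤)
    (θ : Cfsg.IrrCharacter ↥N) (hθ : θ ∈ Cfsg.principalBlock M ↥N)
    (hext : ∃ ψ : Cfsg.IrrCharacter G, ∀ x : ↥N, (ψ : G → ℂ) x = (θ : ↥N → ℂ) x) :
    ∃ χ : Cfsg.IrrCharacter G, χ ∈ Cfsg.principalBlock M G ∧ (∀ x : ↥N, (χ : G → ℂ) x = (θ : ↥N → ℂ) x) ∧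
      ∀ J : Subgroup G, N ≤ J → ∃ ξ : Cfsg.IrrCharacter ↥J, ξ ∈ Cfsg.principalBlock M ↥J ∧ ∀ y : ↥J, (ξ : ↥J → ℂ) y = (χ : G → ℂ) y := by
  have := Fintype.ofFinite G
  have := Fintype.ofFinite N
  obtain ⟨ψ, hψ⟩ := hext
  have hc : ∀ (g : G) (n : N), N.subtype (MulAut.conjNormal g n) = g * N.subtype n * g⁻¹ :=
    fun g n => MulAut.conjNormal_apply g n
  obtain ⟨χ, h1, h2⟩ := exists_twist N.subtype hM N.subtype_injective MulAut.conjNormal hc ψ θ hθ hψ
    (good_of_cover p N P hcov)
  have hres : IsIrrCharacter N (fun n => (χ : G → ℂ) (N.subtype n)) := by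
    have : (fun n => (χ : G → ℂ) (N.subtype n)) = (θ : N → ℂ) := funext h1
    rw [this]
    exact θ.2
  refine ⟨χ, ?_, h1, ?_⟩
  · obtain ⟨ξ, hξ1, hξ2⟩ := restrict_mem_principal N.subtype hM MulAut.conjNormal hc χ hres h2 ⊤
      (fun n => Subgroup.mem_top _)
    intro g
    have h3 := hξ1 ⟨g, Subgroup.mem_top g⟩
    have e := Cfsg.Agent.Lib.Helper80Transport.centralChar_comp (Subgroup.topEquiv (G := G))
    have e1 := e (ξ : (⊤ : Subgroup G) → ℂ) ⟨g, Subgroup.mem_top g⟩
    have e2 := e (fun _ => (1 : ℂ)) ⟨g, Subgroup.mem_top g⟩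
    rw [← e1, ← e2] at h3
    have e3 : ((ξ : (⊤ : Subgroup G) → ℂ) ∘ (Subgroup.topEquiv (G := G)).symm) = (χ : G → ℂ) := by
      funext x
      exact hξ2 _
    rw [e3] at h3
    exact h3
  · intro J hJ
    exact restrict_mem_principal N.subtype hM MulAut.conjNormal hc χ hres h2 J (fun n => hJ n.2)

end Cfsg.Agent.S4937
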