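import Cfsg.Statements.S4955
import Cfsg.Agent.Lib.Helper79KGV
import Cfsg.Agent.Lib.Helper82Quot
import Cfsg.Agent.S0133
-- import your own Cfsg.Agent.* helpers here

set_option autoImplicit false
open Cfsg

namespace Cfsg.Agent.S4955

open Cfsg.Agent.Lib

theorem card_centralizer {X : Type*} [Group X] [Finite X] (V : Subgroup X)
    (hab : ∀ a ∈ V, ∀ b ∈ V, a * b = b * a) (G : Subgroup X) (hGV : Subgroup.IsComplement' V G)
    (v : X) (hv : v ∈ V) :
    Nat.card (Subgroup.centralizer ({v} : Set X)) =
      Nat.card ↥(G ⊓ Subgroup.centralizer ({v} : Set X)) * Nat.card V := by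
  have hVC : V ≤ Subgroup.centralizer ({v} : Set X) := by
    intro u hu
    rw [Subgroup.mem_centralizer_singleton_iff]
    exact hab u hu v hv
  let f : V × ↥(G ⊓ Subgroup.centralizer ({v} : Set X)) → Subgroup.centralizer ({v} : Set X) :=
    fun x => ⟨(x.1 : X) * (x.2 : X), Subgroup.mul_mem _ (hVC x.1.2) x.2.2.2⟩
  have hbij : Function.Bijective f := by
    constructor
    · rintro ⟨u₁, g₁⟩ ⟨u₂, g₂⟩ h
      have h1 : (u₁ : X) * (g₁ : X) = (u₂ : X) * (g₂ : X) := congrArg Subtype.val h
      have h2 := hGV.1 (a₁ := (u₁, ⟨(g₁ : X), g₁.2.1⟩)) (a₂ := (u₂, ⟨(g₂ : X), g₂.2.1⟩)) h1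
      have h3 := congrArg Prod.fst h2
      have h4 := congrArg (fun z => ((Prod.snd z : G) : X)) h2
      simp only at h3 h4
      exact Prod.ext h3 (Subtype.ext h4)
    · rintro ⟨c, hc⟩
      obtain ⟨⟨u, g⟩, hug⟩ := hGV.2 c
      simp only at hug
      have hg : (g : X) ∈ Subgroup.centralizer ({v} : Set X) := by
        have : (g : X) = (u : X)⁻¹ * c := by rw [← hug]; group
        rw [this]
        exact Subgroup.mul_mem _ (Subgroup.inv_mem _ (hVC u.2)) hc
      exact ⟨(u, ⟨(g : X), g.2, hg⟩), Subtype.ext hug⟩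
  rw [← Nat.card_congr (Equiv.ofBijective f hbij), Nat.card_prod, mul_comm]

/-- Let X be a finite group with an abelian normal Sylow p-subgroup V (a normal p-subgroup of index prime to p in which any two elements commute), and let G be a complement to V in X. Then for every v in V, writing C for the centralizer of v in G, the number k(X) of conjugacy classes of X satisfies k(X) ≤ (order of C)·(order of V) − ((order of G) − k(G)); the statement is written with the subtracted term moved to the left. In particular, if some v in V is centralized by no nonidentity element of G, then k(X) is at most the order of V. -/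
theorem result {X : Type*} [Group X] [Finite X] (p : ℕ) [Fact p.Prime] (V : Subgroup X) [V.Normal] (hVp : IsPGroup p V) (hidx : ¬ p ∣ V.index) (hab : ∀ a ∈ V, ∀ b ∈ V, a * b = b * a) (G : Subgroup X) (hGV : Subgroup.IsComplement' V G) (v : X) (hv : v ∈ V) : Nat.card (ConjClasses X) + Nat.card G ≤ Nat.card ↥(G ⊓ Subgroup.centralizer ({v} : Set X)) * Nat.card V + Nat.card (ConjClasses G) := by
  classical
  have := Fintype.ofFinite X
  have hkey := Helper79KGV.key p V hVp hidx hab v hv
  rw [card_centralizer V hab G hGV v hv, hGV.symm.index_eq_card] at hkey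
  have hsplit := Finset.card_filter_add_card_filter_not (s := (Finset.univ : Finset (Cfsg.IrrCharacter X)))
    (fun χ : Cfsg.IrrCharacter X => ∀ n ∈ V, (χ : X → ℂ) n = (χ : X → ℂ) 1)
  rw [Finset.card_univ, ← Nat.card_eq_fintype_card, Cfsg.Agent.S0133.result] at hsplit
  have hS : (Finset.univ.filter (fun χ : Cfsg.IrrCharacter X =>
      ∀ n ∈ V, (χ : X → ℂ) n = (χ : X → ℂ) 1)).card = Nat.card (ConjClasses G) := by
    rw [← Cfsg.Agent.S0133.result, ← Fintype.card_subtype, ← Nat.card_eq_fintype_card,
      ← Nat.card_congr (Helper82Quot.irrQuotEquiv V)]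
    exact Nat.card_congr (Helper82Quot.irrCongr hGV.symm.QuotientMulEquiv)
  omega

end Cfsg.Agent.S4955
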