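import Cfsg.Statements.S4969
import Cfsg.Agent.S0133
import Cfsg.Agent.S0145
import Mathlib

set_option autoImplicit false
open Cfsg

namespace Cfsg.Agent.S4969

/-- Let G be a finite group with k conjugacy classes, g ∈ G, and N > 0. Then the sum over the irreducible complex characters χ of G with χ(1) ≥ N of |χ(g)|/χ(1) is at most √(k · #C_G(g)) / N. -/
theorem result {G : Type*} [Group G] [Finite G] (g : G) (N : ℝ) (hN : 0 < N) :
    ∑ᶠ χ : Cfsg.IrrCharacter G, (if N ≤ ‖(χ : G → ℂ) 1‖ then ‖(χ : G → ℂ) g‖ / ‖(χ : G → ℂ) 1‖ else 0) ≤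
      Real.sqrt ((Nat.card (ConjClasses G) : ℝ) * (Nat.card ↥(Subgroup.centralizer ({g} : Set G)) : ℝ)) / N := by
  classical
  have hcard : Nat.card (Cfsg.IrrCharacter G) = Nat.card (ConjClasses G) := Cfsg.Agent.S0133.result
  have hfin : Finite (Cfsg.IrrCharacter G) := by
    apply Nat.finite_of_card_ne_zero
    rw [hcard]
    exact Nat.card_pos.ne'
  let _ : Fintype (Cfsg.IrrCharacter G) := Fintype.ofFinite _
  have hcol : ∑ᶠ χ : Cfsg.IrrCharacter G, (χ : G → ℂ) g * (starRingEnd ℂ) ((χ : G → ℂ) g)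
      = (Nat.card (Subgroup.centralizer ({g} : Set G)) : ℂ) :=
    (Cfsg.Agent.S0145.result g g).1 (IsConj.refl g)
  rw [finsum_eq_sum_of_fintype] at hcol ⊢
  have hsq : ∑ χ : Cfsg.IrrCharacter G, ‖(χ : G → ℂ) g‖ ^ 2
      = (Nat.card (Subgroup.centralizer ({g} : Set G)) : ℝ) := by
    have h1 : ((∑ χ : Cfsg.IrrCharacter G, ‖(χ : G → ℂ) g‖ ^ 2 : ℝ) : ℂ)
        = (Nat.card (Subgroup.centralizer ({g} : Set G)) : ℂ) := by
      rw [← hcol]
      push_cast
      refine Finset.sum_congr rfl fun χ _ => ?_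
      rw [Complex.mul_conj, Complex.normSq_eq_norm_sq]
      push_cast
      rfl
    exact_mod_cast h1
  have hterm : ∀ χ : Cfsg.IrrCharacter G,
      (if N ≤ ‖(χ : G → ℂ) 1‖ then ‖(χ : G → ℂ) g‖ / ‖(χ : G → ℂ) 1‖ else 0) ≤ ‖(χ : G → ℂ) g‖ / N := by
    intro χ
    split_ifs with h
    · exact div_le_div_of_nonneg_left (norm_nonneg _) hN h
    · exact div_nonneg (norm_nonneg _) hN.le
  calc ∑ χ : Cfsg.IrrCharacter G, (if N ≤ ‖(χ : G → ℂ) 1‖ then ‖(χ : G → ℂ) g‖ / ‖(χ : G → ℂ) 1‖ else 0)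
      ≤ ∑ χ : Cfsg.IrrCharacter G, ‖(χ : G → ℂ) g‖ / N := Finset.sum_le_sum fun χ _ => hterm χ
    _ = (∑ χ : Cfsg.IrrCharacter G, ‖(χ : G → ℂ) g‖) / N := by rw [Finset.sum_div]
    _ ≤ _ := by
      apply div_le_div_of_nonneg_right _ hN.le
      apply Real.le_sqrt_of_sq_le
      have := sq_sum_le_card_mul_sum_sq (s := (Finset.univ : Finset (Cfsg.IrrCharacter G)))
        (f := fun χ => ‖(χ : G → ℂ) g‖)
      rw [hsq, Finset.card_univ, ← Nat.card_eq_fintype_card, hcard] at this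
      exact this

end Cfsg.Agent.S4969
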