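import Cfsg.Statements.S4989
import Cfsg.Agent.Lib.Helper79Zeros
import Cfsg.Agent.Lib.Helper4Char4
-- import your own Cfsg.Agent.* helpers here

set_option autoImplicit false
open Cfsg

namespace Cfsg.Agent.S4989

/-- Let H be a subgroup of the finite group G and χ an irreducible complex character of G. Then the inner product of the restriction of χ to H with itself, (1/#H)·Σ_{h ∈ H} |χ(h)|², is at most 1 + #(Z ∖ H)/#H, where Z is the set of zeros of χ in G. -/
theorem result {G : Type*} [Group G] [Finite G] (H : Subgroup G) (χ : Cfsg.IrrCharacter G) : (Nat.card ↥H : ℝ)⁻¹ * ∑ᶠ h : ↥H, ‖(χ : G → ℂ) h‖ ^ 2 ≤ 1 + (Set.ncard ({x : G | (χ : G → ℂ) x = 0} \ (H : Set G)) : ℝ) / (Nat.card ↥H : ℝ) := by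
  classical
  have := Fintype.ofFinite G
  have hsum := Cfsg.Agent.Lib.Helper79Zeros.sum_normSq χ.2
  set S : Finset G := Finset.univ.filter (fun g => g ∉ H) with hS
  set T : Finset G := Finset.univ.filter (fun g => g ∈ H) with hT
  have hkey := Cfsg.Agent.Lib.Helper79Zeros.card_nonzero_le_sum
    (Cfsg.Agent.Lib.Helper4Char.IsIrrCharacter.isCharacter χ.2) S (by
      intro k hk g
      simp only [hS, Finset.mem_filter, Finset.mem_univ, true_and,
        Cfsg.Agent.Lib.Helper79Zeros.pow_mem_iff H k hk g]) 2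
  have hsplit : ∑ g ∈ T, ‖(χ : G → ℂ) g‖ ^ 2 + ∑ g ∈ S, ‖(χ : G → ℂ) g‖ ^ 2 = (Nat.card G : ℝ) := by
    rw [← hsum, hS, hT]
    exact Finset.sum_filter_add_sum_filter_not _ _ _
  have hTsum : ∑ᶠ h : ↥H, ‖(χ : G → ℂ) h‖ ^ 2 = ∑ g ∈ T, ‖(χ : G → ℂ) g‖ ^ 2 := by
    rw [finsum_eq_sum_of_fintype]
    rw [hT]
    exact (Finset.sum_subtype (Finset.univ.filter (fun g => g ∈ H)) (by simp)
      (fun g => ‖(χ : G → ℂ) g‖ ^ 2)).symm
  have hTcard : T.card = Nat.card H := by
    rw [hT, Nat.card_eq_fintype_card, Fintype.card_subtype]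
  have hc1 : T.card + S.card = Nat.card G := by
    rw [hS, hT, Finset.card_filter_add_card_filter_not, Finset.card_univ, Nat.card_eq_fintype_card]
  have hZ : Set.ncard ({x : G | (χ : G → ℂ) x = 0} \ (H : Set G)) =
      (S.filter (fun g => (χ : G → ℂ) g = 0)).card := by
    rw [← Set.ncard_coe_finset]
    congr 1
    ext g
    simp [hS, and_comm]
  have hc2 : (S.filter (fun g => (χ : G → ℂ) g = 0)).card +
      (S.filter (fun g => (χ : G → ℂ) g ≠ 0)).card = S.card :=
    Finset.card_filter_add_card_filter_not _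
  have hHpos : (0 : ℝ) < (Nat.card H : ℝ) := by exact_mod_cast Nat.card_pos
  rw [hTsum, hZ, inv_mul_le_iff₀ hHpos, mul_add, mul_one, mul_div_cancel₀ _ hHpos.ne']
  have e1 : (Nat.card G : ℝ) = (Nat.card H : ℝ) + (S.card : ℝ) := by
    rw [← hc1, hTcard]; push_cast; ring
  have e2 : (S.card : ℝ) = ((S.filter (fun g => (χ : G → ℂ) g = 0)).card : ℝ) +
      ((S.filter (fun g => (χ : G → ℂ) g ≠ 0)).card : ℝ) := by
    rw [← hc2]; push_cast; ring
  linarith

end Cfsg.Agent.S4989
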