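import Cfsg.Statements.S5001
import Cfsg.Agent.Lib.Helper20Height
import Cfsg.Agent.Lib.Helper82Irr
import Cfsg.Agent.Lib.Helper19Lin
import Cfsg.Agent.Lib.Helper83Char
import Cfsg.Agent.Lib.Helper4Char4
import Cfsg.Agent.Lib.Helper82Cod

set_option autoImplicit false
open Cfsg

namespace Cfsg.Agent.S5001


open Cfsg.Agent.Lib.Helper4Char Cfsg.Agent.Lib.Helper4Char2 Cfsg.Agent.Lib.Helper4Char4
open Cfsg.Agent.Lib.Helper20Local Cfsg.Agent.Lib.Helper20Center Cfsg.Agent.Lib.Helper20Block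
open Cfsg.Agent.Lib.Helper20Defect Cfsg.Agent.Lib.Helper87Sylow Cfsg.Agent.Lib.Helper20Height
open Cfsg.Agent.Lib.Helper83Char
open scoped ComplexConjugate

/-- a character that is a unit at a central element has a constituent of degree prime to `p`. -/
theorem exists_constituent_not_dvd {K : Type*} [Group K] [Fintype K] {p : ℕ} {M : Ideal AlgInt}
    (hM : IsPModular p M) {θ : K → ℂ} (hθ : IsCharacter K θ) (y : K)
    (hy : y ∈ Subgroup.center K) (hu : ¬ MemLocalIdeal M (θ y)) :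
    ∃ ψ : IrrCharacter K, classInner θ (ψ : K → ℂ) ≠ 0 ∧ ¬ p ∣ charDegree (ψ : K → ℂ) := by
  have hPr := IsPModular.isPrime hM
  obtain ⟨m, hm, hm'⟩ := IsCharacter.eq_sum_nat hθ
  by_contra hcon
  push Not at hcon
  apply hu
  rw [hm, Finset.sum_apply]
  apply liSum hPr
  intro ψ _
  simp only [Pi.smul_apply, smul_eq_mul]
  by_cases h0 : m ψ = 0
  · rw [h0]; simpa using memLocalIdeal_zero hPr
  · have hd := hcon ψ (by rw [hm' ψ]; exact_mod_cast h0)
    have hidx : (Subgroup.centralizer ({y} : Set K)).index = 1 := by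
      rw [Subgroup.index_eq_one, eq_top_iff]
      intro g _
      rw [Subgroup.mem_centralizer_singleton_iff]
      exact (Subgroup.mem_center_iff.mp hy g)
    have h1 : (ψ : K → ℂ) y = (charDegree (ψ : K → ℂ) : ℂ) * centralChar (ψ : K → ℂ) y := by
      rw [centralChar, hidx, charDegree_cast ψ.2]
      have := irr_one_ne_zero ψ.2
      field_simp
      simp
    rw [h1]
    apply liMulLeft hPr (memLocalRing_natCast hPr _)
    exact liMulRight hPr ((memLocalIdeal_natCast_iff hM _).mpr hd)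
      (memLocalRing_of_isIntegral hPr (centralChar_isIntegral ψ.2 y))

/-- an element acting as a scalar of norm one in a character acts by the same scalar in every
constituent. -/
theorem constituent_scalar {K : Type*} [Group K] [Fintype K] {θ : K → ℂ} (hθ : IsCharacter K θ)
    (z : K) (c : ℂ) (hc : ‖c‖ = 1) (hz : θ z = θ 1 * c) (ψ : IrrCharacter K)
    (hψ : classInner θ (ψ : K → ℂ) ≠ 0) : (ψ : K → ℂ) z = (ψ : K → ℂ) 1 * c := by
  obtain ⟨m, hm, hm'⟩ := IsCharacter.eq_sum_nat hθ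
  have hcc : conj c * c = 1 := by
    rw [mul_comm, Complex.mul_conj, Complex.normSq_eq_norm_sq, hc]; simp
  have e1 : ∑ φ : IrrCharacter K, (m φ : ℂ) * (conj c * (φ : K → ℂ) z)
      = ∑ φ : IrrCharacter K, (m φ : ℂ) * (charDegree (φ : K → ℂ) : ℂ) := by
    have h1 : θ z = ∑ φ : IrrCharacter K, (m φ : ℂ) * (φ : K → ℂ) z := by
      conv_lhs => rw [hm]
      simp [Finset.sum_apply]
    have h2 : θ 1 = ∑ φ : IrrCharacter K, (m φ : ℂ) * (charDegree (φ : K → ℂ) : ℂ) := by
      conv_lhs => rw [hm]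
      simp only [Finset.sum_apply, Pi.smul_apply, smul_eq_mul]
      apply Finset.sum_congr rfl
      intro φ _
      rw [charDegree_cast φ.2]
    rw [← h2]
    have : ∑ φ : IrrCharacter K, (m φ : ℂ) * (conj c * (φ : K → ℂ) z) = conj c * θ z := by
      rw [h1, Finset.mul_sum]
      apply Finset.sum_congr rfl
      intro φ _; ring
    rw [this, hz]
    calc conj c * (θ 1 * c) = θ 1 * (conj c * c) := by ring
      _ = θ 1 := by rw [hcc, mul_one]
  have hle : ∀ φ : IrrCharacter K, (conj c * (φ : K → ℂ) z).re ≤ (charDegree (φ : K → ℂ) : ℝ) := by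
    intro φ
    calc (conj c * (φ : K → ℂ) z).re ≤ ‖conj c * (φ : K → ℂ) z‖ := Complex.re_le_norm _
      _ = ‖(φ : K → ℂ) z‖ := by rw [norm_mul, Complex.norm_conj, hc, one_mul]
      _ ≤ ‖(φ : K → ℂ) 1‖ := Cfsg.Agent.Lib.Helper82Irr.irr_norm_le φ z
      _ = (charDegree (φ : K → ℂ) : ℝ) := Cfsg.Agent.Lib.Helper82Irr.irr_norm_one φ
  have e2 := congrArg Complex.re e1
  simp only [Complex.re_sum, Complex.mul_re, Complex.natCast_re, Complex.natCast_im, zero_mul,
    sub_zero, mul_zero] at e2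
  have e3 : ∑ φ : IrrCharacter K, (m φ : ℝ) *
      ((charDegree (φ : K → ℂ) : ℝ) - (conj c * (φ : K → ℂ) z).re) = 0 := by
    have : ∀ φ : IrrCharacter K, (m φ : ℝ) *
      ((charDegree (φ : K → ℂ) : ℝ) - (conj c * (φ : K → ℂ) z).re) = (m φ : ℝ) *
      (charDegree (φ : K → ℂ) : ℝ) - (m φ : ℝ) * (conj c * (φ : K → ℂ) z).re := fun φ => by ring
    simp only [this, Finset.sum_sub_distrib]
    rw [sub_eq_zero]
    simp only [Complex.mul_re]
    exact e2.symm
  have e4 := (Finset.sum_eq_zero_iff_of_nonneg (fun φ _ =>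
    mul_nonneg (Nat.cast_nonneg _) (sub_nonneg.mpr (hle φ)))).mp e3 ψ (Finset.mem_univ _)
  have hmψ : (m ψ : ℝ) ≠ 0 := by
    intro h
    apply hψ
    rw [hm' ψ]
    exact_mod_cast h
  have e5 : (conj c * (ψ : K → ℂ) z).re = (charDegree (ψ : K → ℂ) : ℝ) := by
    rcases mul_eq_zero.mp e4 with h | h
    · exact absurd h hmψ
    · linarith
  have e6 : ‖conj c * (ψ : K → ℂ) z‖ ≤ (charDegree (ψ : K → ℂ) : ℝ) := by
    calc ‖conj c * (ψ : K → ℂ) z‖ = ‖(ψ : K → ℂ) z‖ := by
          rw [norm_mul, Complex.norm_conj, hc, one_mul]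
      _ ≤ ‖(ψ : K → ℂ) 1‖ := Cfsg.Agent.Lib.Helper82Irr.irr_norm_le ψ z
      _ = (charDegree (ψ : K → ℂ) : ℝ) := Cfsg.Agent.Lib.Helper82Irr.irr_norm_one ψ
  have e7 : conj c * (ψ : K → ℂ) z = (charDegree (ψ : K → ℂ) : ℂ) := by
    have him : (conj c * (ψ : K → ℂ) z).im = 0 := by
      have h1 := Complex.sq_norm (conj c * (ψ : K → ℂ) z)
      rw [Complex.normSq_apply, e5] at h1
      have h2 : ‖conj c * (ψ : K → ℂ) z‖ ^ 2 ≤ (charDegree (ψ : K → ℂ) : ℝ) ^ 2 :=
        pow_le_pow_left₀ (norm_nonneg _) e6 2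
      nlinarith [mul_self_nonneg (conj c * (ψ : K → ℂ) z).im]
    apply Complex.ext
    · rw [e5]; simp
    · rw [him]; simp
  calc (ψ : K → ℂ) z = (c * conj c) * (ψ : K → ℂ) z := by rw [mul_comm c, hcc, one_mul]
    _ = c * (conj c * (ψ : K → ℂ) z) := by ring
    _ = (ψ : K → ℂ) 1 * c := by rw [e7, charDegree_cast ψ.2]; ring

theorem main {G : Type*} [Group G] [Finite G] (p : ℕ) [Fact p.Prime] (M : Ideal Cfsg.AlgInt)
    (hM : Cfsg.IsPModular p M) (B : Set (Cfsg.IrrCharacter G)) (hB : Cfsg.IsPBlock M B)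
    (D : Subgroup G) (hD : Cfsg.IsDefectGroup p M B D) (Z : Subgroup G)
    (hZD : Z ≤ D) (lam : ↥Z →* ℂˣ) (χ : Cfsg.IrrCharacter G) (hχ : χ ∈ B)
    (hover : (∀ z : ↥Z, (χ : G → ℂ) z = (χ : G → ℂ) 1 * (lam z : ℂ)))
    (h0 : Cfsg.blockHeight p B (χ : G → ℂ) = 0) :
    (∃ μ : ↥D →* ℂˣ, ∀ z : ↥Z, μ ⟨(z : G), hZD z.2⟩ = lam z) := by
  classical
  have := Fintype.ofFinite G
  have hp : p.Prime := Fact.out
  have hPr := IsPModular.isPrime hM
  obtain ⟨y, hy, hS⟩ := isDefectGroup_iff.mp hD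
  have hu := height_zero_not_mem hM hB hy hS (x := 1) D.one_mem hχ h0
  rw [one_mul] at hu
  have hnorm : ∀ z : Z, ‖(lam z : ℂ)‖ = 1 := by
    intro z
    have h1 : (lam z : ℂ) ^ (orderOf z) = 1 := by
      have : (lam z) ^ (orderOf z) = 1 := by rw [← map_pow, pow_orderOf_eq_one, map_one]
      have h2 := congrArg (fun w : ℂˣ => (w : ℂ)) this
      simpa using h2
    exact Complex.norm_eq_one_of_pow_eq_one h1 (orderOf_pos z).ne'
  set C := Subgroup.centralizer ({y} : Set G) with hC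
  have hDC : D ≤ C := hS.1
  have hyC : y ∈ C := Subgroup.mem_centralizer_singleton_iff.mpr rfl
  have hθ1 : IsCharacter C (fun c : C => (χ : G → ℂ) c) :=
    IsCharacter.restrict C (IsIrrCharacter.isCharacter χ.2)
  obtain ⟨ψ, hψ, hψp⟩ := exists_constituent_not_dvd hM hθ1 (⟨y, hyC⟩ : C) (by
    rw [Subgroup.mem_center_iff]
    intro g
    apply Subtype.ext
    exact (Subgroup.mem_centralizer_singleton_iff.mp g.2)) hu
  have hψz : ∀ z : Z, (ψ : C → ℂ) ⟨z, hDC (hZD z.2)⟩ = (ψ : C → ℂ) 1 * (lam z : ℂ) := by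
    intro z
    exact constituent_scalar hθ1 _ _ (hnorm z) (hover z) ψ hψ
  have hθ2 : IsCharacter D (fun d : D => (ψ : C → ℂ) (Subgroup.inclusion hDC d)) :=
    IsCharacter.comp (Subgroup.inclusion hDC) (IsIrrCharacter.isCharacter ψ.2)
  obtain ⟨η, hη, hηp⟩ := exists_constituent_not_dvd hM hθ2 (1 : D) (Subgroup.one_mem _) (by
    simp only [map_one]
    rw [← charDegree_cast ψ.2, memLocalIdeal_natCast_iff hM]
    exact hψp)
  have hη1 : (η : D → ℂ) 1 = 1 := by
    have h1 := Cfsg.Agent.Lib.Helper82Cod.irr_degree_dvd_card η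
    rw [hS.2] at h1
    obtain ⟨k, _, hk⟩ := (Nat.dvd_prime_pow hp).mp h1
    have : k = 0 := by
      by_contra hk0
      apply hηp
      rw [hk]
      exact dvd_pow_self p hk0
    rw [← charDegree_cast η.2, hk, this]
    simp
  have hηz : ∀ z : Z, (η : D → ℂ) ⟨z, hZD z.2⟩ = (lam z : ℂ) := by
    intro z
    have := constituent_scalar hθ2 (⟨z, hZD z.2⟩ : D) _ (hnorm z) (by
      simp only [map_one]
      exact hψz z) η hη
    rw [this, hη1, one_mul]
  obtain ⟨f, hf⟩ := Cfsg.Agent.Lib.Helper19Lin.exists_hom_of_linear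
    (IsIrrCharacter.isCharacter η.2) hη1
  refine ⟨f, fun z => ?_⟩
  apply Units.ext
  rw [← hηz z, ← hf]
  rfl


/-- Let p be a prime, G a finite group and B a p-block of G (relative to a maximal ideal M of the algebraic integers containing p) with defect group D. Let Z be a central p-subgroup of G contained in D and λ a linear character of Z (a homomorphism to the nonzero complex numbers). Say an irreducible character χ of G lies over λ when χ(z) = χ(1)λ(z) for all z ∈ Z. If some irreducible character in B lying over λ has height zero, then λ extends to a linear character of D. -/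
theorem result {G : Type*} [Group G] [Finite G] (p : ℕ) [Fact p.Prime] (M : Ideal Cfsg.AlgInt) (hM : Cfsg.IsPModular p M) (B : Set (Cfsg.IrrCharacter G)) (hB : Cfsg.IsPBlock M B) (D : Subgroup G) (hD : Cfsg.IsDefectGroup p M B D) (Z : Subgroup G) (hZc : Z ≤ Subgroup.center G) (hZp : IsPGroup p ↥Z) (hZD : Z ≤ D) (lam : ↥Z →* ℂˣ) (χ : Cfsg.IrrCharacter G) (hχ : χ ∈ B) (hover : (∀ z : ↥Z, (χ : G → ℂ) z = (χ : G → ℂ) 1 * (lam z : ℂ))) (h0 : Cfsg.blockHeight p B (χ : G → ℂ) = 0) : (∃ μ : ↥D →* ℂˣ, ∀ z : ↥Z, μ ⟨(z : G), hZD z.2⟩ = lam z) := by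
  exact main p M hM B hB D hD Z hZD lam χ hχ hover h0

end Cfsg.Agent.S5001
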