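import Cfsg.Statements.S5011
-- import your own Cfsg.Agent.* helpers here

set_option autoImplicit false
open Cfsg

namespace Cfsg.Agent.S5011

/-- The elements acting by scalars. -/
def scalarSubgroup {G : Type*} [Group G] {V : Type*} [AddCommGroup V] [Module ℂ V]
    (ρ : Representation ℂ G V) : Subgroup G where
  carrier := {x | ∃ c : ℂ, ∀ v, ρ x v = c • v}
  one_mem' := ⟨1, fun v => by simp⟩
  mul_mem' := by
    rintro x y ⟨c, hc⟩ ⟨d, hd⟩
    refine ⟨c * d, fun v => ?_⟩
    rw [map_mul, Module.End.mul_apply, hd, map_smul, hc, smul_smul, mul_comm]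
  inv_mem' := by
    rintro x ⟨c, hc⟩
    refine ⟨c⁻¹, fun v => ?_⟩
    have h1 : v = c • ρ x⁻¹ v := by
      have : ρ x (ρ x⁻¹ v) = v := by
        rw [← Module.End.mul_apply, ← map_mul]; simp
      rw [← hc, this]
    by_cases h0 : c = 0
    · have hv : ∀ w : V, w = 0 := by
        intro w
        have : ρ x (ρ x⁻¹ w) = w := by
          rw [← Module.End.mul_apply, ← map_mul]; simp
        rw [← this, hc, h0, zero_smul]
      rw [hv (ρ x⁻¹ v), hv v, smul_zero]
    · conv_rhs => rw [h1]
      rw [smul_smul, inv_mul_cancel₀ h0, one_smul]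

theorem scalarSubgroup_normal {G : Type*} [Group G] {V : Type*} [AddCommGroup V] [Module ℂ V]
    (ρ : Representation ℂ G V) : (scalarSubgroup ρ).Normal := by
  constructor
  rintro x ⟨c, hc⟩ y
  refine ⟨c, fun v => ?_⟩
  rw [map_mul, map_mul, Module.End.mul_apply, Module.End.mul_apply, hc, map_smul,
    ← Module.End.mul_apply, ← map_mul]
  simp

/-- Let G be a finite non-abelian simple group and ρ an irreducible complex representation of G on a space of dimension greater than one (irreducible in the sense that the only subspaces invariant under every ρ(x) are 0 and the whole space). Then for every non-identity element g of G, the centralizer of g does not act irreducibly: there is a non-zero proper subspace invariant under ρ(c) for every c commuting with g. -/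
theorem result {G : Type*} [Group G] [Finite G] [IsSimpleGroup G]
    (hG : ¬ IsMulCommutative G) {V : Type*} [AddCommGroup V] [Module ℂ V] [FiniteDimensional ℂ V]
    (ρ : Representation ℂ G V)
    (hirr : ∀ W : Submodule ℂ V, (∀ x : G, ∀ v ∈ W, ρ x v ∈ W) → W = ⊥ ∨ W = ⊤)
    (hdim : 1 < Module.finrank ℂ V) (g : G) (hg : g ≠ 1) :
    ∃ W : Submodule ℂ V, W ≠ ⊥ ∧ W ≠ ⊤ ∧ ∀ c ∈ Subgroup.centralizer ({g} : Set G), ∀ v ∈ W, ρ c v ∈ W := by
  have : Nontrivial V := Module.nontrivial_of_finrank_pos (R := ℂ) (by omega)
  obtain ⟨μ, hμ⟩ := Module.End.exists_eigenvalue (ρ g)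
  refine ⟨Module.End.eigenspace (ρ g) μ, hμ, ?_, ?_⟩
  · intro htop
    have hgs : g ∈ scalarSubgroup ρ := by
      refine ⟨μ, fun v => ?_⟩
      have : v ∈ Module.End.eigenspace (ρ g) μ := by rw [htop]; trivial
      exact Module.End.mem_eigenspace_iff.mp this
    have := scalarSubgroup_normal ρ
    have hN : scalarSubgroup ρ = ⊤ := by
      rcases IsSimpleGroup.eq_bot_or_eq_top_of_normal (scalarSubgroup ρ) inferInstance with h | h
      · rw [h, Subgroup.mem_bot] at hgs
        exact absurd hgs hg
      · exact h
    obtain ⟨v, hv⟩ := exists_ne (0 : V)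
    rcases hirr (Submodule.span ℂ {v}) (by
      intro x w hw
      have hx : x ∈ scalarSubgroup ρ := by rw [hN]; trivial
      obtain ⟨c, hc⟩ := hx
      rw [hc]
      exact Submodule.smul_mem _ _ hw) with h | h
    · rw [Submodule.span_singleton_eq_bot] at h
      exact hv h
    · have h1 : Module.finrank ℂ (Submodule.span ℂ {v}) = 1 := finrank_span_singleton hv
      rw [h, finrank_top] at h1
      omega
  · intro c hc v hv
    rw [Module.End.mem_eigenspace_iff] at hv ⊢
    have hcg : c * g = g * c := by
      rw [Subgroup.mem_centralizer_iff] at hc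
      exact (hc g rfl).symm
    rw [← Module.End.mul_apply, ← map_mul, ← hcg, map_mul, Module.End.mul_apply, hv, map_smul]

end Cfsg.Agent.S5011
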