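import Cfsg.Statements.S5075
import Cfsg.Agent.Lib.H57McLD3
import Cfsg.Agent.Lib.H57McLD4
import Cfsg.Agent.Lib.H57McLE1
import Cfsg.Agent.Lib.H57McLE6
import Cfsg.Agent.Lib.H57McLL2
import Cfsg.Agent.Lib.H57McLL3
import Cfsg.Agent.Lib.H57McLL5
import Cfsg.Agent.Lib.H57McLL6
import Cfsg.Agent.Lib.H57McLG1
import Cfsg.Agent.Lib.H57McLG1b
import Cfsg.Agent.Lib.H57McLG2
import Cfsg.Agent.Lib.H57McLG3
import Cfsg.Agent.Lib.H57McLG6
import Cfsg.Agent.Lib.H57McLG8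
import Cfsg.Agent.Lib.H57McLG9

set_option autoImplicit false
open Cfsg

namespace Cfsg.Agent.S5075

open Cfsg.Agent.Lib.H57McL

theorem result {p : ℕ} [Fact p.Prime] (hp : Odd p) {V : Type*} [AddCommGroup V] [Module (ZMod p) V] [Finite V]
    (H : Subgroup (V ≃ₗ[ZMod p] V)) (T : Set (V ≃ₗ[ZMod p] V)) (hHT : H = Subgroup.closure T)
    (hT : ∀ t ∈ T, orderOf t = p ∧
      Module.finrank (ZMod p) ↥(LinearMap.ker ((t : V →ₗ[ZMod p] V) - LinearMap.id)) + 1 =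
        Module.finrank (ZMod p) V)
    (hOp : Cfsg.pCore p ↥H = ⊥) :
    ∃ (n : ℕ) (W : Fin (n + 1) → Submodule (ZMod p) V) (K : Fin n → Subgroup (V ≃ₗ[ZMod p] V)),
      1 ≤ n ∧ DirectSum.IsInternal W ∧
      (∀ h ∈ H, ∀ i, (W i).map (h : V →ₗ[ZMod p] V) = W i) ∧
      (∀ j, K j ≤ H ∧ ((K j).subgroupOf H).Normal) ∧ ⨆ j, K j = H ∧
      (∀ j, K j ⊓ (⨆ j' ∈ {j' : Fin n | j' ≠ j}, K j') = ⊥) ∧
      (∀ j j', j ≠ j' → ∀ a ∈ K j, ∀ b ∈ K j', a * b = b * a) ∧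
      (∀ j, ∀ h ∈ K j, ∀ i : Fin (n + 1), i ≠ j.succ → ∀ v ∈ W i, h v = v) ∧
      (∀ j, ∃ ρ : ↥(K j) →* (↥(W j.succ) ≃ₗ[ZMod p] ↥(W j.succ)),
        (∀ (h : ↥(K j)) (v : ↥(W j.succ)), ((ρ h v : ↥(W j.succ)) : V) = (h : V ≃ₗ[ZMod p] V) (v : V)) ∧
        ((ρ.range : Set (↥(W j.succ) ≃ₗ[ZMod p] ↥(W j.succ))) =
            {f : ↥(W j.succ) ≃ₗ[ZMod p] ↥(W j.succ) | LinearMap.det (f : ↥(W j.succ) →ₗ[ZMod p] ↥(W j.succ)) = 1} ∨
          ∃ B : LinearMap.BilinForm (ZMod p) ↥(W j.succ), B.IsAlt ∧ B.Nondegenerate ∧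
            (ρ.range : Set (↥(W j.succ) ≃ₗ[ZMod p] ↥(W j.succ))) = {f : ↥(W j.succ) ≃ₗ[ZMod p] ↥(W j.succ) | ∀ x y, B (f x) (f y) = B x y})) := by
  classical
  have : Finite (Module.Dual (ZMod p) V) := Module.finite_of_finite (ZMod p)
  have h2 : (2 : ZMod p) ≠ 0 := by
    intro h
    have h' : ((2 : ℕ) : ZMod p) = 0 := by exact_mod_cast h
    rw [ZMod.natCast_eq_zero_iff] at h'
    have hp2 : p = 2 := ((Nat.prime_dvd_prime_iff_eq (Fact.out : p.Prime) Nat.prime_two).1 h')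
    subst hp2
    exact absurd hp (by decide)
  have hT' : ∀ t ∈ T, ∃ (u : V) (φ : Module.Dual (ZMod p) V) (h : φ u = 0),
      u ≠ 0 ∧ φ ≠ 0 ∧ t = LinearEquiv.transvection h :=
    fun t ht => exists_tv_of_order t (hT t ht).1 (hT t ht).2
  obtain ⟨TS, hC, hN⟩ := exists_tsys hp H T hHT (fun t ht => by
    obtain ⟨u, φ, h, -, -, e⟩ := hT' t ht
    exact ⟨u, φ, h, e⟩) hOp
  obtain ⟨n, r, hr1, hr2, hr3⟩ := TS.exists_reps
  rcases Nat.eq_zero_or_pos n with hn | hn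
  · subst hn
    have hH : H = ⊥ := by
      rw [hHT, Subgroup.closure_eq_bot_iff]
      intro t ht
      obtain ⟨u, φ, h, hu, hφ, e⟩ := hT' t ht
      have hc : TS.IsCentre u := by
        refine TSys.isCentre_iff.2 ⟨hu, φ, hφ, (hC.S_iff u φ).2 ⟨h, ?_⟩⟩
        rw [← e, hHT]
        exact Subgroup.subset_closure ht
      obtain ⟨j, -⟩ := hr3 u hc
      exact j.elim0
    exact triv_case H hH
  · -- the data
    set W' : Fin n → Submodule (ZMod p) V := fun j => TS.W (r j) with hW'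
    set Φ : Fin n → Submodule (ZMod p) (Module.Dual (ZMod p) V) := fun j => TS.Phi (r j) with hΦ
    set W₀ : Submodule (ZMod p) V := ⨅ j, (Φ j).dualCoannihilator with hW₀
    have ha : ∀ i j, i ≠ j → ∀ φ ∈ Φ i, ∀ x ∈ W' j, φ x = 0 := by
      intro i j hij φ hφ x hx
      rw [← hC.e_eq]
      exact TS.Phi_W_perp h2 hN (hr1 i) (hr1 j) (fun h => hij (hr2 i j h)) hφ hx
    have hb : ∀ j, ∀ x ∈ W' j, (∀ φ ∈ Φ j, φ x = 0) → x = 0 := by
      intro j x hx h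
      exact TS.W_nondeg h2 hN (hr1 j) hx (fun φ hφ => by rw [hC.e_eq]; exact h φ hφ)
    have hc : ∀ j, ∀ φ ∈ Φ j, (∀ x ∈ W' j, φ x = 0) → φ = 0 := by
      intro j φ hφ h
      exact TS.Phi_nondeg h2 hN (hr1 j) hφ (fun x hx => by rw [hC.e_eq]; exact h x hx)
    have htop := iSup_cons_eq_top W' Φ ha hc
    have hind := iSupIndep_cons W' Φ ha hb
    have hsup : ⨆ j, Kgrp H TS (r j) = H := iSup_Kgrp hC r hr3
    have hmem0 : ∀ v ∈ W₀, ∀ j, ∀ φ ∈ Φ j, φ v = 0 := by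
      intro v hv j φ hφ
      rw [hW₀, Submodule.mem_iInf] at hv
      exact (Submodule.mem_dualCoannihilator _).1 (hv j) φ hφ
    have hfix : ∀ j, ∀ h ∈ Kgrp H TS (r j), ∀ i : Fin (n + 1), i ≠ j.succ →
        ∀ v ∈ (Fin.cons W₀ W' : Fin (n + 1) → Submodule (ZMod p) V) i, h v = v := by
      intro j h hh i
      refine Fin.cases ?_ ?_ i
      · intro _ v hv
        exact Kgrp_fix hC hh (hmem0 v hv j)
      · intro k hk v hv
        have hkj : j ≠ k := fun e => hk (by rw [e])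
        exact Kgrp_fix hC hh (fun φ hφ => ha j k hkj φ hφ v hv)
    have hfix0 : ∀ h ∈ H, ∀ v ∈ W₀, h v = v := by
      intro h hh v hv
      rw [← hsup] at hh
      induction hh using Subgroup.iSup_induction' with
      | hp j x hx => exact Kgrp_fix hC hx (hmem0 v hv j)
      | h1 => rfl
      | hmul x y _ _ hx hy => rw [LinearEquiv.mul_apply, hy, hx]
    refine ⟨n, Fin.cons W₀ W', fun j => Kgrp H TS (r j), hn, ?_, ?_, ?_, hsup, ?_, ?_, hfix, ?_⟩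
    · exact (DirectSum.isInternal_submodule_iff_iSupIndep_and_iSup_eq_top _).2 ⟨hind, htop⟩
    · intro h hh i
      refine Fin.cases ?_ ?_ i
      · show W₀.map (h : V →ₗ[ZMod p] V) = W₀
        ext x
        constructor
        · rintro ⟨y, hy, rfl⟩
          have : (h : V →ₗ[ZMod p] V) y = y := hfix0 h hh y hy
          rw [this]; exact hy
        · intro hx
          exact ⟨x, hx, hfix0 h hh x hx⟩
      · intro j
        exact W_map hC (r j) hh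
    · intro j
      exact ⟨Kgrp_le (r j), Kgrp_normal hC (r j)⟩
    · intro j
      exact indep_of_fix _ htop _ hfix j
    · intro j j' hjj' a ha' b hb'
      exact Kgrp_commute hC h2 hN (hr1 j) (hr1 j') (fun h => hjj' (hr2 j j' h)) ha' hb'
    · intro j
      have hinv : ∀ g ∈ Kgrp H TS (r j), ∀ x ∈ TS.W (r j), g x ∈ TS.W (r j) := by
        intro g hg x hx
        rw [← W_map hC (r j) (Kgrp_le (r j) hg)]
        exact ⟨x, hx, rfl⟩
      obtain ⟨ρ, hρ⟩ := exists_restrict (Kgrp H TS (r j)) (TS.W (r j)) hinv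
      refine ⟨ρ, hρ, ?_⟩
      by_cases ht : TS.Thin (r j)
      · exact Or.inr (range_Sp hC h2 hN (hr1 j) ht ρ hρ)
      · exact Or.inl (range_SL hC h2 hN (hr1 j) ht ρ hρ)

end Cfsg.Agent.S5075
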