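import Cfsg.Statements.S5106
import Cfsg.Agent.Lib.Helper86Series
import Cfsg.Agent.Lib.Helper87Fusion3

set_option autoImplicit false
open Cfsg

namespace Cfsg.Agent.S5106

open Cfsg.FusionSystem Cfsg.Agent.Lib.Helper87Fusion Cfsg.Agent.Lib.Helper87Fusion2 Cfsg.Agent.Lib.Helper87Fusion3
open scoped commutatorElement


/-- In a saturated fusion system over a finite p-group S, a subgroup R ≤ S is normal in the system if and only if every map of the system whose source is a subgroup of R is the restriction of an element of Aut_F(R). -/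
theorem result {Ω : Type*} [Group Ω] {S : Subgroup Ω} [Finite S] (p : ℕ) [Fact p.Prime] (hS : IsPGroup p S) (F : Cfsg.FusionSystem S) (hF : F.IsSaturated p) (R : Subgroup Ω) (hRS : R ≤ S) : F.IsNormal R ↔ ∀ (P : Subgroup Ω) (hPR : P ≤ R) (φ : P →* Ω), φ ∈ F.Hom P → ∃ α ∈ F.autGroup R, ∀ x : P, ((α (Subgroup.inclusion hPR x) : R) : Ω) = φ x := by
  constructor
  · intro hR P hPR φ hφ
    obtain ⟨f', hf', hf'P, hf'R⟩ := (isNormal_iff.1 hR).2 P (tot φ) (isMap_tot hφ)
    obtain ⟨α, hα, hαf⟩ := (hf'.restrict (le_sup_right : R ≤ P ⊔ R)).exists_aut hf'R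
    refine ⟨α, hα, fun x => ?_⟩
    rw [hαf]
    show f' (x : Ω) = _
    rw [hf'P x x.2, tot_apply]
  · intro H
    have hfin : Finite R := Cfsg.Agent.Lib.Helper86Fusion.finite_of_le hRS
    have hnil : Group.IsNilpotent R := (hS.to_le hRS).isNilpotent
    refine Cfsg.Agent.Lib.Helper86Series.normal_of_series hS F hF R (Group.nilpotencyClass R)
      (fun i => (Subgroup.upperCentralSeries R i).map R.subtype) ?_ ?_ ?_
    · show (Subgroup.upperCentralSeries R 0).map R.subtype = ⊥
      rw [Subgroup.upperCentralSeries_zero, Subgroup.map_bot]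
    · show (Subgroup.upperCentralSeries R (Group.nilpotencyClass R)).map R.subtype = R
      rw [Subgroup.upperCentralSeries_nilpotencyClass, ← MonoidHom.range_eq_map, Subgroup.range_subtype]
    · intro i
      constructor
      · refine ⟨(Subgroup.map_subtype_le _).trans hRS, ?_⟩
        intro P₀ hP₀ φ hφ x
        have hP₀R : P₀ ≤ R := hP₀.trans (Subgroup.map_subtype_le _)
        obtain ⟨α, hα, hαφ⟩ := H P₀ hP₀R φ hφ
        obtain ⟨u, hu, hux⟩ := hP₀ x.2
        rw [← hαφ x]
        have e : Subgroup.inclusion hP₀R x = u := Subtype.ext hux.symm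
        rw [e]
        refine ⟨α u, ?_, rfl⟩
        have hchar : (Subgroup.upperCentralSeries R ((i.succ : Fin _) : ℕ)).Characteristic := inferInstance
        have := Subgroup.characteristic_iff_le_comap.1 hchar α
        exact this hu
      · rw [Subgroup.commutator_le]
        rintro g hg _ ⟨u, hu, rfl⟩
        have hu' : u ∈ Subgroup.upperCentralSeries R ((i : ℕ) + 1) := by
          simpa using hu
        have h1 := (Subgroup.mem_upperCentralSeries_succ_iff.1 hu') ⟨g, hg⟩
        have h2 := Subgroup.inv_mem _ h1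
        refine ⟨_, h2, ?_⟩
        show ((⁅u, (⟨g, hg⟩ : R)⁆⁻¹ : R) : Ω) = ⁅g, (u : Ω)⁆
        rw [commutatorElement_inv]
        rfl

end Cfsg.Agent.S5106
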