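import Cfsg.Statements.S5125
import Cfsg.Agent.Lib.Helper87NormalCrit

set_option autoImplicit false
open Cfsg

namespace Cfsg.Agent.S5125

open Cfsg.FusionSystem Cfsg.Agent.Lib.Helper87Fusion Cfsg.Agent.Lib.Helper87Fusion2 Cfsg.Agent.Lib.Helper87Fusion3 Cfsg.Agent.Lib.Helper87NormalCrit Cfsg.Agent.Lib.Helper86Series Cfsg.Agent.Lib.Helper86Sub Cfsg.Agent.Lib.Helper86Fusion
open scoped commutatorElement


/-- Let F be a saturated fusion system over a finite p-group S and Q a subgroup strongly closed in F. If Q has a subgroup Q₁ that is normal in F, with Q/Q₁ abelian and Aut_F(Q₁) a p-group, then Q is normal in F. -/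
theorem result {Ω : Type*} [Group Ω] {S : Subgroup Ω} [Finite S] (p : ℕ) [Fact p.Prime] (hS : IsPGroup p S) (F : Cfsg.FusionSystem S) (hF : F.IsSaturated p) (Q Q₁ : Subgroup Ω) (hQ : F.StronglyClosed Q) (hQ₁Q : Q₁ ≤ Q) (hQ₁ : F.IsNormal Q₁) (hab : ⁅Q, Q⁆ ≤ Q₁) (hAut : IsPGroup p ↥(F.autGroup Q₁)) : F.IsNormal Q := by
  apply normal_of_autQ_le hS F hF Q hQ
  intro P hc hr
  have hPS := hc.1
  have hfinP : Finite P := finite_of_le hPS
  have hQ₁P : Q₁ ≤ P := normal_le_centric_radical hS F hQ₁ hc hr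
  have hQ₁sc : F.StronglyClosed Q₁ := normal_stronglyClosed hQ₁
  let C : ℕ → Subgroup P := fun i => match i with
    | 0 => Q₁.subgroupOf P
    | 1 => Q.subgroupOf P
    | _ => ⊤
  let C' : ℕ → Subgroup P := fun i => match i with
    | 0 => ⊥
    | (j + 1) => C j
  have hA : ∀ γ ∈ F.autGroup P, ∀ i, ∀ x ∈ C i, γ x ∈ C i := by
    intro γ hγ i x hx
    have hg : IsMap F P (totA γ) := (mem_autGroup_iff_totA F hPS γ).1 hγ
    match i, hx with
    | 0, hx =>
      have := StronglyClosed_mem hQ₁sc hg x.2 (Subgroup.mem_subgroupOf.1 hx)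
      rw [totA_apply] at this
      exact Subgroup.mem_subgroupOf.2 this
    | 1, hx =>
      have := StronglyClosed_mem hQ hg x.2 (Subgroup.mem_subgroupOf.1 hx)
      rw [totA_apply] at this
      exact Subgroup.mem_subgroupOf.2 this
    | (j + 2), _ => exact Subgroup.mem_top _
  refine ⟨stabChain C, stabChain_normal C (F.autGroup P) hA, ?_, ?_⟩
  · rintro ⟨⟨α, hα⟩, hαK⟩
    have hαK' : α ∈ stabChain C := Subgroup.mem_subgroupOf.1 hαK
    obtain ⟨α₁, hα₁, hα₁α⟩ := exists_restrict_aut hPS hQ₁P hα (fun x hx =>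
      ⟨Subgroup.mem_subgroupOf.1 (hA α hα 0 x (Subgroup.mem_subgroupOf.2 hx)),
        Subgroup.mem_subgroupOf.1 (hA α⁻¹ (Subgroup.inv_mem _ hα) 0 x (Subgroup.mem_subgroupOf.2 hx))⟩)
    obtain ⟨a, ha⟩ := hAut ⟨α₁, hα₁⟩
    have ha' : α₁ ^ p ^ a = 1 := congrArg Subtype.val ha
    have hβ : α ^ p ^ a ∈ stabChain C := Subgroup.pow_mem _ hαK' _
    have hβfix : ∀ x : P, (x : Ω) ∈ Q₁ → (α ^ p ^ a) x = x := by
      intro x hx
      apply Subtype.ext
      have := hα₁α (p ^ a) ⟨x, hx⟩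
      rw [ha'] at this
      exact this.symm
    have hβ' : α ^ p ^ a ∈ stabChain C' := by
      refine ⟨fun i x hx => ?_, fun i x hx => ?_⟩
      · rcases i with _ | j
        · have hx1 : x = 1 := by simpa [C'] using hx
          subst hx1
          simp [C']
        · exact hβ.1 j x hx
      · rcases i with _ | j
        · have hx' : (x : Ω) ∈ Q₁ := Subgroup.mem_subgroupOf.1 hx
          rw [hβfix x hx']
          simp [C']
        · exact hβ.2 j x hx
    obtain ⟨b, hb⟩ := stabChain_isPGroup (hS.to_le hPS) C' rfl 3 rfl ⟨_, hβ'⟩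
    have hb' : (α ^ p ^ a) ^ p ^ b = 1 := congrArg Subtype.val hb
    refine ⟨a + b, ?_⟩
    apply Subtype.ext
    apply Subtype.ext
    show α ^ p ^ (a + b) = 1
    rw [pow_add, pow_mul, hb']
  · intro r g hrA hgQ hgr
    refine ⟨fun i x hx => ⟨hA r hrA i x hx, hA r⁻¹ (Subgroup.inv_mem _ hrA) i x hx⟩, fun i x hx => ?_⟩
    match i, hx with
    | 0, hx =>
      have hx' : (x : Ω) ∈ Q := Subgroup.mem_subgroupOf.1 hx
      apply Subgroup.mem_subgroupOf.2
      show (x : Ω)⁻¹ * ((r x : P) : Ω) ∈ Q₁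
      rw [hgr]
      have h2 : ⁅(x : Ω)⁻¹, g⁆ ∈ ⁅Q, Q⁆ :=
        Subgroup.commutator_mem_commutator (Q.inv_mem hx') hgQ
      have e : ⁅(x : Ω)⁻¹, g⁆ = (x : Ω)⁻¹ * (g * x * g⁻¹) := by
        rw [commutatorElement_def]; group
      rw [← e]
      exact hab h2
    | 1, _ =>
      apply Subgroup.mem_subgroupOf.2
      show (x : Ω)⁻¹ * ((r x : P) : Ω) ∈ Q
      rw [hgr]
      have h2 := StronglyClosed_conj_mem hQ (S.inv_mem (hPS x.2)) hgQ
      rw [inv_inv] at h2
      have := Q.mul_mem h2 (Q.inv_mem hgQ)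
      simpa [mul_assoc] using this
    | (j + 2), _ => exact Subgroup.mem_top _

end Cfsg.Agent.S5125
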