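import Cfsg.Statements.S5196
import Cfsg.Agent.Lib.Helper40FusWC2

set_option autoImplicit false
universe u
open Cfsg

namespace Cfsg.Agent.S5196

open Cfsg.Agent.Lib.Helper40FusWC Cfsg.Agent.Lib.Helper40FusWC2


/-- Let p be an odd prime and W a positive characteristic p-functor: W assigns to every finite p-group Q (in a fixed universe) a subgroup W(Q), nontrivial when Q is, carried to W(R) by every isomorphism Q ≅ R; assume also Z(Q) ≤ W(Q) for every finite p-group Q. Suppose W satisfies the local condition: for every finite group G with Sylow p-subgroup P, O_p(G) ∩ Z(G) = O_p(G) ∩ Z(N_G(W(P))). Then W controls weak closure of elements in every saturated fusion system F over a finite p-group S: the centre of the normalizer fusion system of W(S) in F equals the centre of F. (For p = 2 no functor satisfies the local condition, so p is taken odd.) -/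
theorem result {p : ℕ} [Fact p.Prime] (hp : p ≠ 2) (W : ∀ (Q : Type u) [Group Q], Subgroup Q) (hW1 : ∀ (Q : Type u) [Group Q] [Finite Q], IsPGroup p Q → Nontrivial Q → W Q ≠ ⊥) (hW2 : ∀ (Q R : Type u) [Group Q] [Group R] [Finite Q], IsPGroup p Q → ∀ φ : Q ≃* R, (W Q).map φ.toMonoidHom = W R) (hWZ : ∀ (Q : Type u) [Group Q] [Finite Q], IsPGroup p Q → Subgroup.center Q ≤ W Q) (hC : ∀ (G : Type u) [Group G] [Finite G] (P : Sylow p G), Cfsg.pCore p G ⊓ Subgroup.center G = Cfsg.pCore p G ⊓ (Subgroup.center ↥(Subgroup.normalizer (((W ↥(P : Subgroup G)).map (P : Subgroup G).subtype : Subgroup G) : Set G))).map (Subgroup.normalizer (((W ↥(P : Subgroup G)).map (P : Subgroup G).subtype : Subgroup G) : Set G)).subtype) {Ω : Type u} [Group Ω] {S : Subgroup Ω} [Finite S] (hS : IsPGroup p S) (F : Cfsg.FusionSystem S) (hF : F.IsSaturated p) (N : Cfsg.FusionSystem (Cfsg.FusionSystem.normalizerIn S ((W ↥S).map S.subtype))) (hN : F.IsNormalizerSystem ((W ↥S).map S.subtype) N) : N.center = F.center := by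

  have D : WData p (Wf (Ω := Ω) W) (fun T z => z ∈ T ⊓ Subgroup.centralizer (T : Set Ω)) := by
    refine wdata W hW2 hWZ _ (fun T z h => h) ?_ ?_
    · intro S T z hTS hZ hz
      exact ⟨hZ hz, Subgroup.centralizer_le hTS hz.2⟩
    · intro S _ hS z hz hAdm G _ _ P ι hι hP h1 h2 h3 g
      have h4 : ι ⟨z, hz⟩ ∈ Cfsg.pCore p G ⊓ Subgroup.center G := by
        rw [hC G P]
        refine ⟨h1, ⟨⟨ι ⟨z, hz⟩, Subgroup.le_normalizer h2⟩, ?_, rfl⟩⟩
        rw [SetLike.mem_coe, Subgroup.mem_center_iff]
        intro y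
        exact Subtype.ext (h3 y y.2)
      exact Subgroup.mem_center_iff.1 h4.2 g
  apply le_antisymm
  · have h := inf_center_le D hS F hF N hN (S ⊓ Subgroup.centralizer (S : Set Ω)) (fun z hz => hz)
    exact le_trans (le_inf (center_le_center_S D hS F N) le_rfl) h
  · exact center_le_center D hS F hF N hN


end Cfsg.Agent.S5196
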