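import Cfsg.Statements.S5218
import Cfsg.Agent.Lib.Helper89Fusion

set_option autoImplicit false
open Cfsg

namespace Cfsg.Agent.S5218


/-- ring lemma: `(1+I)^p = 1`, `I^(n(p-1)+1)=0` implies `p^n I = 0`. -/
theorem ring_key {A : Type*} [CommRing A] (p : ℕ) (hp : p.Prime) (I : A)
    (h1 : (1 + I) ^ p = 1) : ∃ s : A, (p : A) * I = - ((p : A) * I ^ 2 * s) - I ^ p := by
  -- (1+I)^p = sum choose
  have h2 : (I + 1) ^ p = ∑ m ∈ Finset.range (p + 1), I ^ m * (p.choose m : A) := by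
    rw [add_pow]; simp
  obtain ⟨q, rfl⟩ : ∃ q, p = q + 2 := ⟨p - 2, by have := hp.two_le; omega⟩
  rw [add_comm] at h1
  rw [h1, Finset.sum_range_succ, Finset.sum_range_succ', Finset.sum_range_succ'] at h2
  have h3 : ∀ m ∈ Finset.range q, ∃ c : ℕ, (q + 2).choose (m + 1 + 1) = (q + 2) * c := by
    intro m hm
    have : (q + 2) ∣ (q + 2).choose (m + 1 + 1) :=
      hp.dvd_choose_self (by omega) (by have := Finset.mem_range.1 hm; omega)
    exact this
  choose! c hc using h3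
  refine ⟨∑ m ∈ Finset.range q, I ^ m * (c m : A), ?_⟩
  have h4 : ∑ m ∈ Finset.range q, I ^ (m + 1 + 1) * (((q + 2).choose (m + 1 + 1) : ℕ) : A)
      = ((q + 2 : ℕ) : A) * I ^ 2 * ∑ m ∈ Finset.range q, I ^ m * (c m : A) := by
    rw [Finset.mul_sum]
    apply Finset.sum_congr rfl
    intro m hm
    rw [hc m hm]
    push_cast
    ring
  rw [h4] at h2
  simp only [Nat.choose_self, Nat.choose_zero_right, Nat.choose_one_right, pow_zero, zero_add, pow_one,
    Nat.cast_one, mul_one] at h2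
  linear_combination (-1 : A) * h2

theorem ring_key2 {A : Type*} [CommRing A] (p : ℕ) (hp : p.Prime) (n : ℕ) (I : A)
    (h1 : (1 + I) ^ p = 1) (h0 : I ^ (n * (p - 1) + 1) = 0) : (p : A) ^ n * I = 0 := by
  obtain ⟨s, hs⟩ := ring_key p hp I h1
  -- claim: for j ≤ n, for all k ≥ (n-j)(p-1)+1, p^j I^k = 0
  have key : ∀ j, j ≤ n → ∀ k, (n - j) * (p - 1) + 1 ≤ k → (p : A) ^ j * I ^ k = 0 := by
    intro j
    induction j with
    | zero =>
      intro _ k hk
      obtain ⟨d, rfl⟩ := Nat.exists_eq_add_of_le hk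
      simp only [Nat.sub_zero] at *
      rw [pow_add, h0]; simp
    | succ j ih =>
      intro hj
      have ih' := ih (by omega)
      -- downward induction on k : for large k it vanishes
      have big : ∀ d k, (n - (j+1)) * (p - 1) + 1 ≤ k → n * (p - 1) + 1 ≤ k + d →
          (p : A) ^ (j + 1) * I ^ k = 0 := by
        intro d
        induction d with
        | zero =>
          intro k _ hk
          obtain ⟨e, rfl⟩ := Nat.exists_eq_add_of_le (show n * (p-1) + 1 ≤ k by omega)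
          rw [pow_add I, h0]; simp
        | succ d ihd =>
          intro k hk1 hk2
          obtain ⟨k', rfl⟩ : ∃ k', k = k' + 1 := ⟨k - 1, by omega⟩
          have e1 : (p : A) ^ (j + 1) * I ^ (k' + 1) = (p : A) ^ j * I ^ k' * ((p : A) * I) := by ring
          rw [e1, hs]
          have e2 : (p : A) ^ j * I ^ k' * (-((p : A) * I ^ 2 * s) - I ^ p)
              = - ((p : A) ^ (j + 1) * I ^ (k' + 1 + 1) * s) - (p : A) ^ j * I ^ (k' + p) := by ring
          rw [e2, ihd (k' + 1 + 1) (by omega) (by omega), ih' (k' + p) ?_]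
          · simp
          · have hp2 := hp.two_le
            have : (n - j) = (n - (j + 1)) + 1 := by omega
            rw [this, add_mul]
            omega
      intro k hk
      exact big (n * (p - 1) + 1) k hk (by omega)
  have := key n le_rfl 1 (by simp)
  simpa using this

open Polynomial in
theorem poly_key (p : ℕ) (hp : p.Prime) (n : ℕ) : ∃ a b : ℤ[X],
    (p : ℤ[X]) ^ n * X = a * ((1 + X) ^ p - 1) + b * X ^ (n * (p - 1) + 1) := by
  set J : Ideal ℤ[X] := Ideal.span {(1 + X) ^ p - 1, X ^ (n * (p - 1) + 1)} with hJ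
  have h := ring_key2 (A := ℤ[X] ⧸ J) p hp n (Ideal.Quotient.mk J X) (by
    rw [← map_one (Ideal.Quotient.mk J), ← map_add, ← map_pow, Ideal.Quotient.eq]
    exact Ideal.subset_span (by simp)) (by
    rw [← map_pow, Ideal.Quotient.eq_zero_iff_mem]
    exact Ideal.subset_span (by simp))
  have h2 : (p : ℤ[X]) ^ n * X ∈ J := by
    rw [← Ideal.Quotient.eq_zero_iff_mem, map_mul, map_pow, map_natCast]
    exact h
  rw [hJ, Ideal.mem_span_pair] at h2
  obtain ⟨a, b, hab⟩ := h2
  exact ⟨a, b, hab.symm⟩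

theorem end_key {A : Type*} [Ring A] (p : ℕ) (hp : p.Prime) (n : ℕ) (x : A)
    (h1 : x ^ p = 1) (h0 : (x - 1) ^ (n * (p - 1) + 1) = 0) : (p : A) ^ n * (x - 1) = 0 := by
  obtain ⟨a, b, hab⟩ := poly_key p hp n
  have := congrArg (Polynomial.aeval (R := ℤ) (x - 1)) hab
  simp only [map_mul, map_pow, map_natCast, Polynomial.aeval_X, map_add, map_sub, map_one] at this
  rw [this, h0]
  simp [h1]


theorem group_key {Ω : Type*} [Group Ω] (p : ℕ) (hp : p.Prime) (n : ℕ) (V : Subgroup Ω)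
    (hV : ∀ a ∈ V, ∀ b ∈ V, a * b = b * a) (s : Ω) (hs : ∀ v ∈ V, s * v * s⁻¹ ∈ V)
    (hsp : ∀ v ∈ V, s ^ p * v * (s ^ p)⁻¹ = v) (L : ℕ → Subgroup Ω) (hL0 : V ≤ L 0)
    (hLs : ∀ k, ∀ v ∈ L k, s * v * s⁻¹ * v⁻¹ ∈ L (k + 1)) (hLc : L (n * (p - 1) + 1) = ⊥) :
    ∀ v ∈ V, s * v ^ (p ^ n) * s⁻¹ = v ^ (p ^ n) := by
  let _ : CommGroup V := { (inferInstance : Group V) with
    mul_comm := fun a b => Subtype.ext (hV a a.2 b b.2) }
  let σ : V →* V :=
    { toFun := fun v => ⟨s * v * s⁻¹, hs v v.2⟩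
      map_one' := Subtype.ext (by simp)
      map_mul' := fun a b => Subtype.ext (by simp [mul_assoc]) }
  let x : AddMonoid.End (Additive V) := MonoidHom.toAdditive σ
  let val : Additive V → Ω := fun a => ((Additive.toMul a : V) : Ω)
  have hval : Function.Injective val := fun a b h => Additive.toMul.injective (Subtype.ext h)
  have hvx : ∀ a, val (x a) = s * val a * s⁻¹ := fun a => rfl
  have hvsub : ∀ a b, val (a - b) = val a * (val b)⁻¹ := fun a b => by
    show (((Additive.toMul a / Additive.toMul b : V)) : Ω) = _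
    rw [div_eq_mul_inv]; rfl
  have hvmem : ∀ a, val a ∈ V := fun a => (Additive.toMul a).2
  have hxpow : ∀ k : ℕ, ∀ a, val ((x ^ k) a) = s ^ k * val a * (s ^ k)⁻¹ := by
    intro k
    induction k with
    | zero => intro v; simp
    | succ k ih =>
      intro v
      rw [pow_succ']
      show val (x ((x ^ k) v)) = _
      rw [hvx, ih, pow_succ']
      group
  have h1 : x ^ p = 1 := by
    refine AddMonoidHom.ext fun v => hval ?_
    exact (hxpow p v).trans (hsp _ (hvmem v))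
  have hI : ∀ k : ℕ, ∀ a, val (((x - 1) ^ k) a) ∈ L k := by
    intro k
    induction k with
    | zero => intro v; exact hL0 (hvmem v)
    | succ k ih =>
      intro v
      rw [pow_succ']
      show val (x (((x - 1) ^ k) v) - ((x - 1) ^ k) v) ∈ _
      rw [hvsub, hvx]
      exact hLs k _ (ih v)
  have h0 : (x - 1) ^ (n * (p - 1) + 1) = 0 := by
    refine AddMonoidHom.ext fun v => hval ?_
    have := hI (n * (p - 1) + 1) v
    rw [hLc, Subgroup.mem_bot] at this
    exact this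
  have hk := end_key p hp n x h1 h0
  intro v hv
  have h3 : ((p : AddMonoid.End (Additive V)) ^ n * (x - 1)) (Additive.ofMul ⟨v, hv⟩) = 0 := by
    rw [hk]; rfl
  have h4 : ∀ a : Additive V, ((p : AddMonoid.End (Additive V)) ^ n) a = (p ^ n) • a := by
    intro a
    rw [← Nat.cast_pow]
    exact AddMonoid.End.natCast_apply _ _
  have h5 : ((p : AddMonoid.End (Additive V)) ^ n * (x - 1)) (Additive.ofMul ⟨v, hv⟩)
      = (p ^ n) • (x (Additive.ofMul ⟨v, hv⟩) - Additive.ofMul ⟨v, hv⟩) := by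
    show ((p : AddMonoid.End (Additive V)) ^ n) ((x - 1) (Additive.ofMul ⟨v, hv⟩)) = _
    rw [h4]; rfl
  rw [h5, smul_sub, sub_eq_zero] at h3
  have h6 := congrArg val h3
  have hvs : ∀ (k : ℕ) a, val (k • a) = val a ^ k := fun k a => rfl
  rw [hvs, hvs, hvx] at h6
  have h7 : val (Additive.ofMul ⟨v, hv⟩) = v := rfl
  rw [h7, conj_pow] at h6
  exact h6

open scoped commutatorElement
open Cfsg.FusionSystem Cfsg.Agent.Lib.Helper87Fusion Cfsg.Agent.Lib.Helper86Fusion
  Cfsg.Agent.Lib.Helper86Fusion2 Cfsg.Agent.Lib.Helper87Fusion2 Cfsg.Agent.Lib.Helper89Fusion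

variable {Ω : Type*} [Group Ω] {S : Subgroup Ω}

theorem mem_powerClosure_center (p n : ℕ) {x : Ω} :
    x ∈ Cfsg.powerClosure p n (S ⊓ Subgroup.centralizer (S : Set Ω)) ↔
      ∃ z ∈ S ⊓ Subgroup.centralizer (S : Set Ω), x = z ^ (p ^ n) := by
  have hcomm : ∀ a ∈ S ⊓ Subgroup.centralizer (S : Set Ω), ∀ b ∈ S ⊓ Subgroup.centralizer (S : Set Ω),
      Commute a b := fun a ha b hb => (Subgroup.mem_centralizer_iff.1 hb.2) a ha.1
  constructor
  · intro hx
    unfold Cfsg.powerClosure at hx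
    induction hx using Subgroup.closure_induction with
    | mem x hx => exact hx
    | one => exact ⟨1, Subgroup.one_mem _, by simp⟩
    | mul x y _ _ hx hy =>
      obtain ⟨a, ha, rfl⟩ := hx
      obtain ⟨b, hb, rfl⟩ := hy
      exact ⟨a * b, Subgroup.mul_mem _ ha hb, ((hcomm a ha b hb).mul_pow _).symm⟩
    | inv x _ hx =>
      obtain ⟨a, ha, rfl⟩ := hx
      exact ⟨a⁻¹, Subgroup.inv_mem _ ha, by simp⟩
  · intro h
    exact Subgroup.subset_closure h

/-- step D' -/
theorem exists_root [Finite S] {p : ℕ} [Fact p.Prime] (hS : IsPGroup p S) {F : Cfsg.FusionSystem S}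
    (hF : F.IsSaturated p) {z : Ω} (hz : z ∈ S ⊓ Subgroup.centralizer (S : Set Ω)) (m : ℕ)
    {y : Ω} (hy : y ∈ S) {f : Ω → Ω} (hf : IsMap F (Subgroup.zpowers y) f) (hfy : f y = z ^ m)
    (hC : F.IsReceptive (centralizerIn S (Subgroup.zpowers y))) :
    ∃ z₁ ∈ centralizerIn S (Subgroup.zpowers y),
      (∀ c ∈ centralizerIn S (Subgroup.zpowers y), c * z₁ = z₁ * c) ∧ z₁ ^ m = y := by
  set C := centralizerIn S (Subgroup.zpowers y) with hCdef
  set w := z ^ m with hw
  have hzc : ∀ a ∈ S, a * z = z * a := fun a ha => (Subgroup.mem_centralizer_iff.1 hz.2) a ha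
  have hwS : w ∈ S := S.pow_mem hz.1 m
  have hwc : ∀ a ∈ S, a * w = w * a := fun a ha => ((show Commute a z from hzc a ha).pow_right m)
  have hyC : y ∈ C := mem_centralizerIn_zpowers.2 ⟨hy, rfl⟩
  have hrecw : F.IsReceptive (Subgroup.zpowers w) := by
    apply isReceptive_of_fullyCentralized hS hF
    apply isFullyCentralized_of_centralizerIn_eq F (by rwa [Subgroup.zpowers_le])
    apply le_antisymm (centralizerIn_le _ _)
    intro a ha
    exact mem_centralizerIn_zpowers.2 ⟨ha, (hwc a ha).symm⟩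
  have himg : f '' (Subgroup.zpowers y : Set Ω) = (Subgroup.zpowers w : Set Ω) := by
    rw [IsMap.image_zpowers hf (Subgroup.mem_zpowers y), hfy]
  obtain ⟨f₁, hf₁, hff₁⟩ := extend_centralizing (C := C) hrecw hf himg le_rfl
  have hf₂ : IsMap F C f₁ := hf₁.restrict le_sup_right
  obtain ⟨C', hC'⟩ := hf₂.exists_image
  obtain ⟨θ, hθ, hθf, hfθ, hθC⟩ := hf₂.inv hC'
  obtain ⟨N, θ', hN, hθ', hθθ'⟩ := receptive_extend hC hθ hθC
  have hC'S : C' ≤ S := hf₂.image_le hC'
  have hC'N : C' ≤ N := by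
    intro g hg
    rw [hN]
    exact ⟨hC'S hg, Subgroup.le_normalizer hg, θ g, hθ.mem hg, fun x hx => hθ.map_conj hg hx⟩
  have hzN : z ∈ N := by
    rw [hN]
    refine ⟨hz.1, ?_, 1, S.one_mem, fun x hx => ?_⟩
    · rw [Subgroup.mem_normalizer_iff]
      intro x
      constructor
      · intro hx
        rw [← hzc x (hC'S hx)]; simpa using hx
      · intro hx
        have h2 : x ∈ S := by
          have h3 : x = z⁻¹ * (z * x * z⁻¹) * z := by group
          rw [h3]
          exact S.mul_mem (S.mul_mem (S.inv_mem hz.1) (hC'S hx)) hz.1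
        rw [← hzc x h2] at hx; simpa using hx
    · rw [← hzc x (hC'S hx)]; simp
  have hwC' : w ∈ C' := by
    have := IsMap.mem_image hC' hyC
    rwa [hff₁ y (Subgroup.mem_zpowers y), hfy] at this
  have hθw : θ' w = y := by
    rw [hθθ' w hwC']
    have := hθf y hyC
    rwa [hff₁ y (Subgroup.mem_zpowers y), hfy] at this
  refine ⟨θ' z, ?_, ?_, ?_⟩
  · rw [mem_centralizerIn_zpowers]
    refine ⟨hθ'.mem hzN, ?_⟩
    rw [← hθw, ← hθ'.map_mul (hC'N hwC') hzN, ← hθ'.map_mul hzN (hC'N hwC'), hzc w hwS]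
  · intro c hc
    obtain ⟨c', hc', rfl⟩ := IsMap.exists_of_mem_image hθC hc
    rw [← hθθ' c' hc', ← hθ'.map_mul (hC'N hc') hzN, ← hθ'.map_mul hzN (hC'N hc'), hzc c' (hC'S hc')]
  · rw [← IsMap.map_pow' hθ' hzN, hθw]

/-- step D'' -/
theorem centralizer_eq_top [Finite S] {p : ℕ} [Fact p.Prime] (hS : IsPGroup p S)
    {F : Cfsg.FusionSystem S} (hF : F.IsSaturated p) (n : ℕ)
    (hcl : Subgroup.lowerCentralSeries S (n * (p - 1) + 1) = ⊥)
    {z : Ω} (hz : z ∈ S ⊓ Subgroup.centralizer (S : Set Ω))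
    {y : Ω} (hy : y ∈ S) {f : Ω → Ω} (hf : IsMap F (Subgroup.zpowers y) f)
    (hfy : f y = z ^ (p ^ n))
    (hC : F.IsReceptive (centralizerIn S (Subgroup.zpowers y))) :
    centralizerIn S (Subgroup.zpowers y) = S := by
  obtain ⟨z₁, hz₁C, hz₁c, hz₁y⟩ := exists_root hS hF hz (p ^ n) hy hf hfy hC
  set C := centralizerIn S (Subgroup.zpowers y) with hCdef
  by_contra hne
  have hlt : C < S := lt_of_le_of_ne (centralizerIn_le _ _) hne
  obtain ⟨s₀, hs₀S, hs₀C, hs₀N⟩ := exists_normalizer_gt hS hlt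
  -- a power s of s₀ outside C with s^p in C
  have hex : ∃ k, s₀ ^ (p ^ k) ∈ C := by
    obtain ⟨k, hk⟩ := hS ⟨s₀, hs₀S⟩
    refine ⟨k, ?_⟩
    have : s₀ ^ p ^ k = 1 := by simpa using congrArg Subtype.val hk
    rw [this]; exact C.one_mem
  classical
  set k₀ := Nat.find hex with hk₀
  have hk₀C : s₀ ^ (p ^ k₀) ∈ C := Nat.find_spec hex
  have hk₀pos : k₀ ≠ 0 := by
    intro h0
    rw [h0] at hk₀C
    simp at hk₀C
    exact hs₀C hk₀C
  obtain ⟨k₁, hk₁⟩ : ∃ k₁, k₀ = k₁ + 1 := ⟨k₀ - 1, by omega⟩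
  set s := s₀ ^ (p ^ k₁) with hs
  have hsC : s ∉ C := Nat.find_min hex (show k₁ < k₀ by omega)
  have hspC : s ^ p ∈ C := by
    rw [hs, ← pow_mul, ← pow_succ, ← hk₁]; exact hk₀C
  have hsS : s ∈ S := S.pow_mem hs₀S _
  have hsN : s ∈ Subgroup.normalizer (C : Set Ω) := Subgroup.pow_mem _ hs₀N _
  have hkey := group_key p Fact.out n (C ⊓ Subgroup.centralizer (C : Set Ω))
    (fun a ha b hb => (Subgroup.mem_centralizer_iff.1 hb.2) a ha.1) s
    (by
      intro v hv
      refine Subgroup.mem_inf.2 ⟨(Subgroup.mem_normalizer_iff.1 hsN v).1 hv.1, ?_⟩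
      rw [Subgroup.mem_centralizer_iff]
      intro c hc
      have h1 : s⁻¹ * c * s ∈ C := by
        have := (Subgroup.mem_normalizer_iff.1 (Subgroup.inv_mem _ hsN) c).1 hc
        simpa using this
      have h2 := (Subgroup.mem_centralizer_iff.1 hv.2) _ h1
      calc c * (s * v * s⁻¹) = s * ((s⁻¹ * c * s) * v) * s⁻¹ := by group
        _ = s * (v * (s⁻¹ * c * s)) * s⁻¹ := by rw [h2]
        _ = s * v * s⁻¹ * c := by group)
    (by
      intro v hv
      have h2 := (Subgroup.mem_centralizer_iff.1 hv.2) _ hspC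
      rw [h2]; group)
    (fun k => Subgroup.lowerCentralSeries S k)
    (by
      intro v hv
      exact centralizerIn_le _ _ hv.1)
    (by
      intro k v hv
      have h1 : ⁅v, s⁆ ∈ Subgroup.lowerCentralSeries S (k + 1) :=
        Subgroup.commutator_mem_commutator hv hsS
      have h2 := Subgroup.inv_mem _ h1
      have h3 : ⁅v, s⁆⁻¹ = s * v * s⁻¹ * v⁻¹ := by
        rw [commutatorElement_def]; group
      rwa [h3] at h2)
    hcl z₁ ⟨hz₁C, Subgroup.mem_centralizer_iff.2 hz₁c⟩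
  rw [hz₁y] at hkey
  apply hsC
  rw [hCdef, mem_centralizerIn_zpowers]
  refine ⟨hsS, ?_⟩
  calc y * s = (s * y * s⁻¹) * s := by rw [hkey]
    _ = s * y := by group

/-- every conjugate of `z ^ (p ^ n)` is central in `S` -/
theorem conj_central [Finite S] {p : ℕ} [Fact p.Prime] (hS : IsPGroup p S)
    {F : Cfsg.FusionSystem S} (hF : F.IsSaturated p) (n : ℕ)
    (hcl : Subgroup.lowerCentralSeries S (n * (p - 1) + 1) = ⊥)
    {z : Ω} (hz : z ∈ S ⊓ Subgroup.centralizer (S : Set Ω)) :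
    ∀ y ∈ S, ∀ f : Ω → Ω, IsMap F (Subgroup.zpowers y) f → f y = z ^ (p ^ n) →
      centralizerIn S (Subgroup.zpowers y) = S := by
  by_contra hcon
  push Not at hcon
  let Y : Set Ω := {y | y ∈ S ∧ (∃ f : Ω → Ω, IsMap F (Subgroup.zpowers y) f ∧ f y = z ^ (p ^ n)) ∧
    centralizerIn S (Subgroup.zpowers y) ≠ S}
  have hYfin : Y.Finite := (Set.toFinite (S : Set Ω)).subset (fun y hy => hy.1)
  have hYne : Y.Nonempty := by
    obtain ⟨y, hy, f, hf, hfy, hne⟩ := hcon
    exact ⟨y, hy, ⟨f, hf, hfy⟩, hne⟩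
  obtain ⟨y, ⟨hy, ⟨f, hf, hfy⟩, hne⟩, hmax⟩ := Set.exists_max_image Y
    (fun y => Nat.card (centralizerIn S (Subgroup.zpowers y))) hYfin hYne
  set C := centralizerIn S (Subgroup.zpowers y) with hCdef
  have hCS : C ≤ S := centralizerIn_le _ _
  have hyC : y ∈ C := mem_centralizerIn_zpowers.2 ⟨hy, rfl⟩
  have hlt : C < S := lt_of_le_of_ne hCS hne
  obtain ⟨C', hCC', hC'n⟩ := exists_fullyNormalized_conj F hCS
  obtain ⟨-, hC'a, hC'r⟩ := saturated_fullyNormalized hS hF hC'n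
  obtain ⟨κ, hκ, hκC, -⟩ := exists_normalizer_map hS F C' C hC'a hC'r hCC'
  have hCN : C ≤ normalizerIn S C := le_normalizerIn hCS
  have hyN : y ∈ normalizerIn S C := hCN hyC
  have hzN : Subgroup.zpowers y ≤ normalizerIn S C := by rwa [Subgroup.zpowers_le]
  obtain ⟨g, hg, hgy⟩ := conjElt_symm (hκ.restrict hzN)
  have hf' : IsMap F (Subgroup.zpowers (κ y)) (fun x => f (g x)) := by
    refine hg.comp hf ?_
    rintro _ ⟨k, rfl⟩
    show g (κ y ^ k) ∈ _
    rw [IsMap.map_zpow' hg (Subgroup.mem_zpowers _), hgy]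
    exact ⟨k, rfl⟩
  have hf'y : (fun x => f (g x)) (κ y) = z ^ (p ^ n) := by
    show f (g (κ y)) = _
    rw [hgy, hfy]
  have hκyS : κ y ∈ S := hκ.mem hyN
  -- κ y is not central
  have hne' : centralizerIn S (Subgroup.zpowers (κ y)) ≠ S := by
    intro heq
    obtain ⟨s, hsS, hsC, hsN⟩ := exists_normalizer_gt hS hlt
    have hsN' : s ∈ normalizerIn S C := ⟨hsS, hsN⟩
    have h1 : κ s ∈ centralizerIn S (Subgroup.zpowers (κ y)) := by rw [heq]; exact hκ.mem hsN'
    have h2 := (mem_centralizerIn_zpowers.1 h1).2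
    have h3 : κ (s * y * s⁻¹) = κ y := by
      rw [hκ.map_conj hsN' hyN, ← h2]; group
    have h4 := hκ.inj ((normalizerIn S C).mul_mem ((normalizerIn S C).mul_mem hsN' hyN)
      ((normalizerIn S C).inv_mem hsN')) hyN h3
    apply hsC
    rw [hCdef, mem_centralizerIn_zpowers]
    refine ⟨hsS, ?_⟩
    calc y * s = (s * y * s⁻¹) * s := by rw [h4]
      _ = s * y := by group
  have hle : C' ≤ centralizerIn S (Subgroup.zpowers (κ y)) := by
    intro c' hc'
    obtain ⟨c, hc, rfl⟩ := IsMap.exists_of_mem_image hκC hc'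
    rw [mem_centralizerIn_zpowers]
    refine ⟨hκ.mem (hCN hc), ?_⟩
    rw [← hκ.map_mul hyN (hCN hc), ← hκ.map_mul (hCN hc) hyN, (mem_centralizerIn_zpowers.1 hc).2]
  have hcard : Nat.card C' = Nat.card C := (hκ.restrict hCN).card_image hκC
  have hmax' := hmax (κ y) ⟨hκyS, ⟨_, hf', hf'y⟩, hne'⟩
  have : Finite (centralizerIn S (Subgroup.zpowers (κ y))) := finite_of_le (centralizerIn_le _ _)
  have heq : C' = centralizerIn S (Subgroup.zpowers (κ y)) :=
    Subgroup.eq_of_le_of_card_ge hle (by rw [hcard]; exact hmax')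
  rw [heq] at hC'r
  exact hne' (centralizer_eq_top hS hF n hcl hz hκyS hf' hf'y hC'r)

/-- Let p be a prime, n a natural number, S a nontrivial finite p-group of nilpotence class at most n(p−1)+1, and F a saturated fusion system over S. Then the subgroup generated by the pⁿ-th powers of the elements of Z(S) is normal in F. -/
theorem result {Ω : Type*} [Group Ω] {S : Subgroup Ω} [Finite S] (p : ℕ) [Fact p.Prime] (hS : IsPGroup p S) (F : Cfsg.FusionSystem S) (hF : F.IsSaturated p) (n : ℕ) (hS1 : S ≠ ⊥) (hcl : Subgroup.lowerCentralSeries S (n * (p - 1) + 1) = ⊥) : F.IsNormal (Cfsg.powerClosure p n (S ⊓ Subgroup.centralizer (S : Set Ω))) := by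
  have hQZ : Cfsg.powerClosure p n (S ⊓ Subgroup.centralizer (S : Set Ω)) ≤
      S ⊓ Subgroup.centralizer (S : Set Ω) := by
    intro x hx
    obtain ⟨z, hz, rfl⟩ := (mem_powerClosure_center p n).1 hx
    exact Subgroup.pow_mem _ hz _
  apply isNormal_of_central_stronglyClosed hF _ (hQZ.trans inf_le_right)
  rw [stronglyClosed_iff_elt]
  refine ⟨hQZ.trans inf_le_left, fun w hw f hf => ?_⟩
  obtain ⟨z, hz, rfl⟩ := (mem_powerClosure_center p n).1 hw
  obtain ⟨g, hg, hgy⟩ := conjElt_symm hf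
  set y := f (z ^ p ^ n) with hy
  have hyS : y ∈ S := hf.mem (Subgroup.mem_zpowers _)
  have hC := conj_central hS hF n hcl hz y hyS g hg hgy
  have hrec : F.IsReceptive (centralizerIn S (Subgroup.zpowers y)) := by
    rw [hC]
    exact (saturated_fullyNormalized hS hF (isFullyNormalized_self F)).2.2
  obtain ⟨z₁, hz₁C, hz₁c, hz₁y⟩ := exists_root hS hF hz (p ^ n) hyS hg hgy hrec
  rw [hC] at hz₁C hz₁c
  rw [mem_powerClosure_center]
  exact ⟨z₁, ⟨hz₁C, Subgroup.mem_centralizer_iff.2 hz₁c⟩, hz₁y.symm⟩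

end Cfsg.Agent.S5218
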