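import Cfsg.Statements.S5219
import Cfsg.Agent.S5218

set_option autoImplicit false
open Cfsg

namespace Cfsg.Agent.S5219


open scoped commutatorElement

theorem comm_pow {H : Type*} [Group H] (X G : H) (h : Commute (X * G * X⁻¹ * G⁻¹) X) (k : ℕ) :
    X ^ k * G * (X ^ k)⁻¹ * G⁻¹ = (X * G * X⁻¹ * G⁻¹) ^ k := by
  induction k with
  | zero => simp
  | succ k ih =>
    have h1 : X ^ (k + 1) * G * (X ^ (k + 1))⁻¹ * G⁻¹
        = X * (X ^ k * G * (X ^ k)⁻¹ * G⁻¹) * (G * X⁻¹ * G⁻¹) := by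
      rw [pow_succ']; group
    rw [h1, ih, ← (h.pow_left k).eq, pow_succ]
    group

theorem pow_mem_upper {G : Type*} [Group G] (m : ℕ) (hm : ∀ z ∈ Subgroup.center G, z ^ m = 1) :
    ∀ i : ℕ, ∀ x ∈ Subgroup.upperCentralSeries G (i + 1), x ^ m ∈ Subgroup.upperCentralSeries G i := by
  intro i
  induction i with
  | zero =>
    intro x hx
    rw [Subgroup.upperCentralSeries_one] at hx
    rw [Subgroup.upperCentralSeries_zero, Subgroup.mem_bot]
    exact hm x hx
  | succ i ih =>
    intro x hx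
    rw [Subgroup.mem_upperCentralSeries_succ_iff] at hx ⊢
    intro g
    have hc := hx g
    have hcm := ih _ hc
    let π := QuotientGroup.mk' (Subgroup.upperCentralSeries G i)
    have hπ : ∀ a, π a = 1 ↔ a ∈ Subgroup.upperCentralSeries G i := fun a =>
      QuotientGroup.eq_one_iff a
    have hcomm : Commute (π x * π g * (π x)⁻¹ * (π g)⁻¹) (π x) := by
      have h1 := (Subgroup.mem_upperCentralSeries_succ_iff.1 hc) x
      rw [← hπ] at h1
      have h2 : π ⁅⁅x, g⁆, x⁆ = (π x * π g * (π x)⁻¹ * (π g)⁻¹) * π x *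
          (π x * π g * (π x)⁻¹ * (π g)⁻¹)⁻¹ * (π x)⁻¹ := by
        simp only [commutatorElement_def, map_mul, map_inv]
      rw [h2] at h1
      have h3 := mul_inv_eq_one.1 h1
      exact mul_inv_eq_iff_eq_mul.1 h3
    have h4 := comm_pow (π x) (π g) hcomm m
    rw [← hπ]
    have h5 : π ⁅x ^ m, g⁆ = π x ^ m * π g * (π x ^ m)⁻¹ * (π g)⁻¹ := by
      simp only [commutatorElement_def, map_mul, map_inv, map_pow]
    rw [h5, h4]
    rw [← hπ] at hcm
    have h6 : π (⁅x, g⁆ ^ m) = (π x * π g * (π x)⁻¹ * (π g)⁻¹) ^ m := by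
      simp only [commutatorElement_def, map_mul, map_inv, map_pow]
    rw [← h6]; exact hcm

theorem pow_eq_one_of_mem_upper {G : Type*} [Group G] (m : ℕ)
    (hm : ∀ z ∈ Subgroup.center G, z ^ m = 1) :
    ∀ i : ℕ, ∀ x ∈ Subgroup.upperCentralSeries G i, x ^ (m ^ i) = 1 := by
  intro i
  induction i with
  | zero =>
    intro x hx
    rw [Subgroup.upperCentralSeries_zero, Subgroup.mem_bot] at hx
    simp [hx]
  | succ i ih =>
    intro x hx
    rw [pow_succ', pow_mul]
    exact ih _ (pow_mem_upper m hm i x hx)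

/-- Let p be a prime, n a natural number, S a nontrivial finite p-group of nilpotence class at most n(p−1)+1, and F a saturated fusion system over S with no nontrivial normal subgroup (O_p(F) = 1). Then S has exponent dividing p^(n²(p−1)+n). -/
theorem result {Ω : Type*} [Group Ω] {S : Subgroup Ω} [Finite S] (p : ℕ) [Fact p.Prime] (hS : IsPGroup p S) (F : Cfsg.FusionSystem S) (hF : F.IsSaturated p) (n : ℕ) (hS1 : S ≠ ⊥) (hcl : Subgroup.lowerCentralSeries S (n * (p - 1) + 1) = ⊥) (hcore : F.core = ⊥) : Monoid.exponent ↥S ∣ p ^ (n ^ 2 * (p - 1) + n) := by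
  have hN := Cfsg.Agent.S5218.result p hS F hF n hS1 hcl
  have hbot : Cfsg.powerClosure p n (S ⊓ Subgroup.centralizer (S : Set Ω)) = ⊥ := by
    rw [eq_bot_iff, ← hcore]
    exact le_sSup hN
  have hm : ∀ z ∈ Subgroup.center ↥S, z ^ (p ^ n) = 1 := by
    intro z hz
    have h1 : (z : Ω) ^ (p ^ n) ∈ Cfsg.powerClosure p n (S ⊓ Subgroup.centralizer (S : Set Ω)) := by
      apply Subgroup.subset_closure
      refine ⟨z, Subgroup.mem_inf.2 ⟨z.2, ?_⟩, rfl⟩
      rw [Subgroup.mem_centralizer_iff]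
      intro a ha
      have := Subgroup.mem_center_iff.1 hz ⟨a, ha⟩
      exact congrArg Subtype.val this
    rw [hbot, Subgroup.mem_bot] at h1
    exact Subtype.ext h1
  have htop : Subgroup.upperCentralSeries ↥S (n * (p - 1) + 1) = ⊤ := by
    rw [← Subgroup.lowerCentralSeries_eq_bot_iff_upperCentralSeries_eq_top]
    have h2 := Subgroup.top_subtype_lowerCentralSeries S (n * (p - 1) + 1)
    rw [hcl] at h2
    exact (Subgroup.map_eq_bot_iff_of_injective _ S.subtype_injective).1 h2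
  apply Monoid.exponent_dvd_of_forall_pow_eq_one
  intro x
  have h3 := pow_eq_one_of_mem_upper (p ^ n) hm (n * (p - 1) + 1) x (by rw [htop]; trivial)
  have h4 : (p ^ n) ^ (n * (p - 1) + 1) = p ^ (n ^ 2 * (p - 1) + n) := by
    rw [← pow_mul]; congr 1; ring
  rwa [h4] at h3

end Cfsg.Agent.S5219
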