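import Cfsg.Statements.S5222
import Cfsg.Agent.Lib.Helper86Tate3
import Cfsg.Agent.Lib.Helper87NormSys
import Cfsg.Agent.Lib.Helper86Fusion4

set_option autoImplicit false
open Cfsg

namespace Cfsg.Agent.S5222

/-- Let F be a saturated fusion system over a finite p-group S whose normalizer fusion system of S is the inner fusion system of S (Aut_F(S) is a p-group). Then for every subgroup Q of S with [S, S] ≤ Q ≤ Φ(S), the normalizer fusion system of Q in F is the inner fusion system of N_S(Q) = S. -/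
theorem result {Ω : Type*} [Group Ω] {S : Subgroup Ω} [Finite S] (p : ℕ) [Fact p.Prime] (hS : IsPGroup p S) (F : Cfsg.FusionSystem S) (hF : F.IsSaturated p) (hN : ∀ N : Cfsg.FusionSystem (Cfsg.FusionSystem.normalizerIn S S), F.IsNormalizerSystem S N → ∀ P : Subgroup Ω, N.Hom P = (Cfsg.innerFusionSystem (Cfsg.FusionSystem.normalizerIn S S)).Hom P) (Q : Subgroup Ω) (h1 : (commutator ↥S).map S.subtype ≤ Q) (h2 : Q ≤ (frattini ↥S).map S.subtype) : ∀ N : Cfsg.FusionSystem (Cfsg.FusionSystem.normalizerIn S Q), F.IsNormalizerSystem Q N → ∀ P : Subgroup Ω, N.Hom P = (Cfsg.innerFusionSystem (Cfsg.FusionSystem.normalizerIn S Q)).Hom P := by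
  open Cfsg.FusionSystem Cfsg.Agent.Lib.Helper87Fusion Cfsg.Agent.Lib.Helper87Fusion3
    Cfsg.Agent.Lib.Helper86Fusion2 Cfsg.Agent.Lib.Helper86Fusion4 Cfsg.Agent.Lib.Helper86Tate3 in
  open scoped commutatorElement in
  have hInn : ∀ f, IsMap F S f → ∃ s ∈ S, ∀ x ∈ S, f x = s * x * s⁻¹ := by
    intro f hf
    have hNs := Cfsg.Agent.Lib.Helper87NormSys.normData_isNormalizerSystem F S le_rfl
    have hle : S ≤ normalizerIn S S := le_normalizerIn le_rfl
    have h1 : IsMap _ S f := (isMap_normalizer_iff hNs).2 ⟨hf, hle, fun x hx => hle (hf.mem hx), f,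
      by rw [sup_idem]; exact hf, fun _ _ => rfl,
      image_eq_of_card_le hf le_rfl (fun x hx => hf.mem hx) le_rfl⟩
    obtain ⟨φ, hφ, hφf⟩ := h1
    rw [hN _ hNs S] at hφ
    obtain ⟨-, g, hg, hgx⟩ := hφ
    exact ⟨g, normalizerIn_le _ _ hg, fun x hx => by rw [← hφf ⟨x, hx⟩, hgx]⟩
  have hQ1 : ∀ x ∈ S, ∀ y ∈ S, x * y * x⁻¹ * y⁻¹ ∈ Q := by
    intro x hx y hy
    apply h1
    refine ⟨⁅(⟨x, hx⟩ : S), ⟨y, hy⟩⁆, ?_, rfl⟩
    rw [commutator_def]
    exact Subgroup.commutator_mem_commutator (Subgroup.mem_top _) (Subgroup.mem_top _)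
  have hQ2 : ∀ x ∈ Q, ∃ h : x ∈ S, (⟨x, h⟩ : S) ∈ frattini S := by
    intro x hx
    obtain ⟨y, hy, rfl⟩ := h2 hx
    exact ⟨y.2, hy⟩
  have hQn : ∀ s ∈ S, ∀ x ∈ Q, s * x * s⁻¹ ∈ Q := by
    intro s hs x hx
    have h3 := hQ1 s hs x (hQ2 x hx).1
    have h4 : s * x * s⁻¹ = (s * x * s⁻¹ * x⁻¹) * x := by group
    rw [h4]; exact mul_mem h3 hx
  intro N hNs P
  apply Set.Subset.antisymm
  · intro φ hφ
    have h3 := (isMap_normalizer_iff hNs).1 (isMap_tot hφ)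
    obtain ⟨-, hPN, -, f', hf', hagree, hf'Q⟩ := h3
    obtain ⟨s, hs, hsx⟩ := conj_of_normalizes hS F hF hInn Q hQ1 hQ2 _ (P ⊔ Q) le_sup_right hf'.le rfl
      f' hf' hf'Q
    refine ⟨hPN, s, mem_normalizerIn.2 ⟨hs, fun x => ⟨fun hx => hQn s hs x hx, fun hx => ?_⟩⟩, fun x => ?_⟩
    · have := hQn s⁻¹ (inv_mem hs) _ hx
      simpa [mul_assoc] using this
    · rw [← tot_apply φ x, ← hagree x x.2, hsx x (le_sup_left (a := P) x.2)]
  · exact inner_le N P

end Cfsg.Agent.S5222
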