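import Cfsg.Statements.S5223
import Cfsg.Agent.Lib.Helper89Fusion
import Cfsg.Agent.Lib.Helper86Group
import Cfsg.Agent.S5083

set_option autoImplicit false
open Cfsg

namespace Cfsg.Agent.S5223

open Cfsg.FusionSystem Cfsg.Agent.Lib.Helper87Fusion Cfsg.Agent.Lib.Helper87Fusion2
  Cfsg.Agent.Lib.Helper86Fusion Cfsg.Agent.Lib.Helper86Group

/-- focal subgroup of a subgroup -/
def foc {Ω : Type*} [Group Ω] {S : Subgroup Ω} (F : Cfsg.FusionSystem S) (R : Subgroup Ω) :
    Subgroup Ω :=
  Subgroup.closure {y : Ω | ∃ x ∈ R, ∃ φ ∈ F.Hom (Subgroup.zpowers x),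
    y = x⁻¹ * φ ⟨x, Subgroup.mem_zpowers x⟩}

theorem foc_mono {Ω : Type*} [Group Ω] {S : Subgroup Ω} (F : Cfsg.FusionSystem S)
    {R R' : Subgroup Ω} (h : R ≤ R') : foc F R ≤ foc F R' := by
  apply Subgroup.closure_mono
  rintro _ ⟨x, hx, φ, hφ, rfl⟩
  exact ⟨x, h hx, φ, hφ, rfl⟩

/-- the iterated focal chain -/
def chain {Ω : Type*} [Group Ω] {S : Subgroup Ω} (F : Cfsg.FusionSystem S) : ℕ → Subgroup Ω
  | 0 => S
  | (i + 1) => foc F (chain F i)

theorem chain_anti {Ω : Type*} [Group Ω] {S : Subgroup Ω} (F : Cfsg.FusionSystem S) (i : ℕ) :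
    chain F (i + 1) ≤ chain F i := by
  induction i with
  | zero =>
    show foc F S ≤ S
    unfold foc
    rw [Subgroup.closure_le]
    rintro _ ⟨x, hx, φ, hφ, rfl⟩
    exact S.mul_mem (S.inv_mem hx) ((F.le_of_mem hφ).2 _)
  | succ i ih => exact foc_mono F ih

/-- Let F be a saturated fusion system over a finite p-group S. Suppose there are subgroups Q₀ = S, Q₁, …, Qₙ = 1 (not required to be nested) such that for each i < n the focal subgroup of Qᵢ (generated by the elements x⁻¹φ(x), x ∈ Qᵢ, φ a map of F defined on the cyclic group generated by x) lies in Qᵢ₊₁. Then F is the inner fusion system of S. -/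
theorem result {Ω : Type*} [Group Ω] {S : Subgroup Ω} [Finite S] (p : ℕ) [Fact p.Prime] (hS : IsPGroup p S) (F : Cfsg.FusionSystem S) (hF : F.IsSaturated p) (n : ℕ) (Q : Fin (n + 1) → Subgroup Ω) (hQ0 : Q 0 = S) (hQn : Q (Fin.last n) = ⊥) (hstep : ∀ i : Fin n, Subgroup.closure {y : Ω | ∃ x ∈ Q i.castSucc, ∃ φ ∈ F.Hom (Subgroup.zpowers x), y = x⁻¹ * φ ⟨x, Subgroup.mem_zpowers x⟩} ≤ Q i.succ) : ∀ P : Subgroup Ω, F.Hom P = (Cfsg.innerFusionSystem S).Hom P := by
  have hRQ : ∀ i (hi : i < n + 1), chain F i ≤ Q ⟨i, hi⟩ := by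
    intro i
    induction i with
    | zero => intro hi; exact hQ0.ge
    | succ i ih =>
      intro hi
      have h1 := ih (by omega)
      exact (foc_mono F h1).trans (hstep ⟨i, by omega⟩)
  have hRn : chain F n = ⊥ := by
    have := hRQ n (by omega)
    rw [show (⟨n, by omega⟩ : Fin (n + 1)) = Fin.last n from rfl, hQn] at this
    exact le_bot_iff.1 this
  have key : ∀ P : Subgroup Ω, P ≤ S → IsPGroup p (F.autGroup P) := by
    intro P hP α
    have : Finite P := finite_of_le hP
    have hPp : IsPGroup p P := hS.of_injective (Subgroup.inclusion hP) (Subgroup.inclusion_injective hP)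
    have hα := (mem_autGroup_iff_totA F hP α).1 α.2
    have hfoc : ∀ j, ∀ x : P, (x : Ω) ∈ chain F j →
        (x : Ω)⁻¹ * (((α : MulAut P) x : P) : Ω) ∈ chain F (j + 1) := by
      intro j x hx
      have hle : Subgroup.zpowers (x : Ω) ≤ P := by
        rw [Subgroup.zpowers_le]; exact x.2
      obtain ⟨φ, hφ, hφf⟩ := hα.restrict hle
      refine Subgroup.subset_closure ⟨x, hx, φ, hφ, ?_⟩
      rw [hφf, totA_apply]
    obtain ⟨k, hk⟩ := stability_pow hPp (α : MulAut P) (fun i => (chain F (n - i)).subgroupOf P)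
      (by simp [hRn]) (fun i x hx => by
        rw [Subgroup.mem_subgroupOf] at hx ⊢
        have h1 := chain_anti F _ (hfoc _ x hx)
        have h2 := Subgroup.mul_mem _ hx h1
        rwa [mul_inv_cancel_left] at h2) (fun i x hx => by
        rw [Subgroup.mem_subgroupOf] at hx ⊢
        by_cases hi : i + 1 ≤ n
        · have h1 := hfoc _ x hx
          rw [show n - (i + 1) + 1 = n - i by omega] at h1
          exact h1
        · rw [show n - i = 0 by omega]
          exact hP (x⁻¹ * (α : MulAut P) x).2) n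
    refine ⟨k, Subtype.ext ?_⟩
    show (α : MulAut P) ^ p ^ k = 1
    ext x
    exact congrArg Subtype.val (hk x (by
      rw [Subgroup.mem_subgroupOf, Nat.sub_self]
      exact hP x.2))
  intro P
  rw [Cfsg.Agent.S5083.result p hS F hF key]

end Cfsg.Agent.S5223
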