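import Cfsg.Statements.S5224
import Cfsg.Agent.Lib.Helper86TateF
import Cfsg.Agent.Lib.Helper87Hyperfocal

set_option autoImplicit false
open Cfsg

namespace Cfsg.Agent.S5224

/-- Tate's Theorem for fusion systems. Let F be a saturated fusion system over a finite p-group S and H a saturated fusion system over S contained in F. Then the following are equivalent: the elementary focal subgroups Φ(S)·foc agree for F and H; the focal subgroups of F and H agree; the hyperfocal subgroups of F and H agree. -/
theorem result {Ω : Type*} [Group Ω] {S : Subgroup Ω} [Finite S] (p : ℕ) [Fact p.Prime] (hS : IsPGroup p S) (F : Cfsg.FusionSystem S) (hF : F.IsSaturated p) (H : Cfsg.FusionSystem S) (hH : H.IsSaturated p) (hHF : H.IsSubsystemOf F) : (((frattini ↥S).map S.subtype ⊔ F.focalSubgroup) = ((frattini ↥S).map S.subtype ⊔ H.focalSubgroup) ↔ F.focalSubgroup = H.focalSubgroup) ∧ (F.focalSubgroup = H.focalSubgroup ↔ F.hyperfocalSubgroup p = H.hyperfocalSubgroup p) := by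
  open Cfsg.FusionSystem Cfsg.Agent.Lib.Helper86TateF Cfsg.Agent.Lib.Helper87Closed in
  have hfF := Cfsg.Agent.Lib.Helper86Focal.focal_eq hS F hF
  have hfH := Cfsg.Agent.Lib.Helper86Focal.focal_eq hS H hH
  have hcomm : ⁅(S : Subgroup Ω), (S : Subgroup Ω)⁆ ≤ (frattini ↥S).map S.subtype := by
    rw [← Subgroup.map_subtype_commutator]
    exact Subgroup.map_mono (Cfsg.Agent.Lib.Helper3PGroup.commutator_le_frattini hS)
  have hA : F.hyperfocalSubgroup p = H.hyperfocalSubgroup p → F.focalSubgroup = H.focalSubgroup := by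
    intro h
    rw [hfF, hfH, h]
  have hC : ((frattini ↥S).map S.subtype ⊔ F.focalSubgroup) =
      ((frattini ↥S).map S.subtype ⊔ H.focalSubgroup) →
      F.hyperfocalSubgroup p = H.hyperfocalSubgroup p := by
    intro h
    apply le_antisymm _ (Cfsg.Agent.Lib.Helper87Hyperfocal.hyperfocal_mono hHF p)
    apply tate_hyp hS F hF _ (Cfsg.Agent.Lib.Helper87Hyperfocal.hyperfocal_mono hHF p)
      (fun s hs w hw => hyperfocal_conj_mem H p hs hw)
    calc F.hyperfocalSubgroup p ≤ F.focalSubgroup := by rw [hfF]; exact le_sup_left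
      _ ≤ (frattini ↥S).map S.subtype ⊔ F.focalSubgroup := le_sup_right
      _ = (frattini ↥S).map S.subtype ⊔ H.focalSubgroup := h
      _ ≤ (frattini ↥S).map S.subtype ⊔ H.hyperfocalSubgroup p := by
        rw [hfH]
        exact sup_le le_sup_left (sup_le le_sup_right (hcomm.trans le_sup_left))
  exact ⟨⟨fun h => hA (hC h), fun h => by rw [h]⟩, ⟨fun h => hC (by rw [h]), hA⟩⟩

end Cfsg.Agent.S5224
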