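import Cfsg.Statements.S5225
import Cfsg.Agent.Lib.Helper86Yoshida
import Cfsg.Agent.Lib.Helper87NormSys
import Cfsg.Agent.Lib.Helper71Frattini
import Cfsg.Agent.S5224
import Cfsg.Agent.S5098

set_option autoImplicit false
open Cfsg

namespace Cfsg.Agent.S5225

open Cfsg.FusionSystem Cfsg.Agent.Lib.Helper87Fusion Cfsg.Agent.Lib.Helper86Graph
  Cfsg.Agent.Lib.Helper86Yoshida Cfsg.Agent.Lib.Helper87NormSys

/-- separation of points modulo the Frattini subgroup by characters of order `p`. -/
theorem exists_char {G : Type*} [Group G] [Finite G] {p : ℕ} [Fact p.Prime] (hG : IsPGroup p G)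
    (U : Subgroup G) (hU : frattini G ≤ U) (y : G) (hy : y ∉ U) :
    ∃ lam : G →* Multiplicative (ZMod p), (∀ u ∈ U, lam u = 1) ∧ lam y ≠ 1 := by
  have hp : p.Prime := Fact.out
  haveI hUn : U.Normal := Cfsg.Agent.Lib.Helper3PGroup.normal_of_commutator_le
    ((Cfsg.Agent.Lib.Helper3PGroup.commutator_le_frattini hG).trans hU)
  have hfr : frattini (G ⧸ U) ≤ ⊥ := by
    apply Cfsg.Agent.Lib.Helper71Frattini.frattini_le_of_elem_quot p hp
    · intro a b
      induction a using QuotientGroup.induction_on with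
      | H a =>
        induction b using QuotientGroup.induction_on with
        | H b =>
          rw [Subgroup.mem_bot]
          have h1 : a * b * a⁻¹ * b⁻¹ ∈ U := hU (Cfsg.Agent.Lib.Helper3PGroup.commutator_le_frattini hG
            (Subgroup.commutator_mem_commutator (Subgroup.mem_top a) (Subgroup.mem_top b)))
          exact (QuotientGroup.eq_one_iff _).2 h1
    · intro a
      induction a using QuotientGroup.induction_on with
      | H a =>
        rw [Subgroup.mem_bot]
        exact (QuotientGroup.eq_one_iff _).2 (hU (Cfsg.Agent.Lib.Helper3PGroup.pow_mem_frattini hG a))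
  have hy1 : (y : G ⧸ U) ∉ frattini (G ⧸ U) := by
    intro h
    have h1 := hfr h
    rw [Subgroup.mem_bot] at h1
    exact hy ((QuotientGroup.eq_one_iff _).1 h1)
  rw [Cfsg.Agent.Lib.Helper3PGroup.mem_frattini_iff] at hy1
  push Not at hy1
  obtain ⟨M, hM, hyM⟩ := hy1
  have hQ : IsPGroup p (G ⧸ U) := hG.to_quotient U
  haveI hMn : M.Normal := Cfsg.Agent.Lib.Helper3PGroup.coatom_normal hQ hM
  have hMi : Nat.card ((G ⧸ U) ⧸ M) = p := Cfsg.Agent.Lib.Helper3PGroup.coatom_index hQ hM
  have hZ : Nat.card (Multiplicative (ZMod p)) = p := by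
    rw [Nat.card_congr Multiplicative.toAdd, Nat.card_zmod]
  let iso : ((G ⧸ U) ⧸ M) ≃* Multiplicative (ZMod p) := mulEquivOfPrimeCardEq hMi hZ
  refine ⟨iso.toMonoidHom.comp ((QuotientGroup.mk' M).comp (QuotientGroup.mk' U)), fun u hu => ?_, ?_⟩
  · show iso (QuotientGroup.mk' M (QuotientGroup.mk' U u)) = 1
    have h1 : QuotientGroup.mk' U u = 1 := (QuotientGroup.eq_one_iff _).2 hu
    rw [h1, map_one, map_one]
  · intro h
    have h1 : iso (QuotientGroup.mk' M (QuotientGroup.mk' U y)) = 1 := h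
    rw [map_eq_one_iff iso iso.injective] at h1
    exact hyM ((QuotientGroup.eq_one_iff _).1 h1)

theorem core {Ω : Type*} [Group Ω] {S : Subgroup Ω} [Finite S] (p : ℕ) [Fact p.Prime]
    (hS : IsPGroup p S) (F : Cfsg.FusionSystem S) (hF : F.IsSaturated p) {T : Subgroup Ω}
    (hT : T = S) (N : Cfsg.FusionSystem T) (hNsat : N.IsSaturated p)
    (hN : ∀ P : Subgroup Ω, N.Hom P = F.normalizerHom S P)
    (hne : N.focalSubgroup ≠ F.focalSubgroup) :
    ∃ (W : Sylow p (Equiv.Perm (Fin (p ^ 2))))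
      (f : ↥S →* ↥(W : Subgroup (Equiv.Perm (Fin (p ^ 2))))), Function.Surjective f := by
  subst hT
  by_contra hnw
  apply hne
  have hsub : N.IsSubsystemOf F := by
    intro P φ hφ
    rw [hN] at hφ
    exact hφ.1
  have hmono : N.focalSubgroup ≤ F.focalSubgroup := by
    apply Subgroup.closure_mono
    rintro y ⟨P, φ, x, hφ, rfl⟩
    exact ⟨P, φ, x, hsub P hφ, rfl⟩
  symm
  apply (Cfsg.Agent.S5224.result p hS F hF N hNsat hsub).1.1
  apply le_antisymm _ (sup_le_sup_left hmono _)
  apply sup_le le_sup_left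
  unfold focalSubgroup
  rw [Subgroup.closure_le]
  rintro y ⟨P, φ, x, hφ, rfl⟩
  by_contra hy
  have hf := isMap_tot hφ
  have hxS : (x : Ω) ∈ T := hf.le x.2
  have hφS : φ x ∈ T := by rw [← tot_apply]; exact hf.mem x.2
  set U : Subgroup Ω := (frattini ↥T).map T.subtype ⊔ N.focalSubgroup with hUdef
  obtain ⟨lam, hlamU, hlamy⟩ := exists_char hS (U.subgroupOf T) (by
    intro z hz
    exact (le_sup_left : (frattini ↥T).map T.subtype ≤ U) ⟨z, hz, rfl⟩)
    ((⟨x, hxS⟩ : T)⁻¹ * ⟨φ x, hφS⟩) hy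
  have hZ : Nat.card (Multiplicative (ZMod p)) = p := by
    rw [Nat.card_congr Multiplicative.toAdd, Nat.card_zmod]
  have hinv : ∀ f : Ω → Ω, IsMap F T f → ∀ u : T, lam (lift f u) = lam u := by
    intro f hf u
    obtain ⟨ψ, hψ, hψf⟩ := hf
    have hfψ := isMap_tot hψ
    have hψN : ψ ∈ N.Hom T := by
      rw [hN, mem_normalizerHom_iff]
      refine ⟨hfψ, le_normalizerIn le_rfl, fun z hz => le_normalizerIn le_rfl (hfψ.mem hz), tot ψ,
        by rw [sup_idem]; exact hfψ, fun _ _ => rfl, ?_⟩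
      obtain ⟨Q, hQ⟩ := hfψ.exists_image
      rw [hQ]
      have h1 : Q ≤ T := hfψ.image_le hQ
      have h2 : Nat.card Q = Nat.card T := hfψ.card_image hQ
      rw [Subgroup.eq_of_le_of_card_ge h1 h2.ge]
    have h3 : (u : Ω)⁻¹ * ψ u ∈ N.focalSubgroup := Subgroup.subset_closure ⟨T, ψ, u, hψN, rfl⟩
    have h4 : u⁻¹ * lift f u ∈ U.subgroupOf T := by
      show (u : Ω)⁻¹ * ((lift f u : T) : Ω) ∈ U
      rw [lift_coe (by rw [← hψf]; rw [← tot_apply]; exact hfψ.mem u.2), ← hψf]
      exact (le_sup_right : N.focalSubgroup ≤ U) h3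
    have h5 := hlamU _ h4
    rw [map_mul, map_inv, inv_mul_eq_one] at h5
    exact h5.symm
  have hstab := stable_of_no_wreath hS F hF hZ lam hinv hnw P (tot φ) hf ⟨x, hxS⟩ x.2
  apply hlamy
  rw [map_mul, map_inv, inv_mul_eq_one, ← hstab]
  congr 1
  apply Subtype.ext
  rw [lift_coe (hf.mem x.2)]
  exact tot_apply φ x

/-- Yoshida's Theorem for fusion systems. Let F be a saturated fusion system over a finite p-group S and N the normalizer fusion system of S in F. If the focal subgroups of F and N differ (N does not control transfer in F), then S has a quotient isomorphic to the wreath product C_p ≀ C_p (realised as a Sylow p-subgroup of the symmetric group of degree p²). -/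
theorem result {Ω : Type*} [Group Ω] {S : Subgroup Ω} [Finite S] (p : ℕ) [Fact p.Prime] (hS : IsPGroup p S) (F : Cfsg.FusionSystem S) (hF : F.IsSaturated p) (N : Cfsg.FusionSystem (Cfsg.FusionSystem.normalizerIn S S)) (hN : F.IsNormalizerSystem S N) (hne : N.focalSubgroup ≠ F.focalSubgroup) : ∃ (W : Sylow p (Equiv.Perm (Fin (p ^ 2)))) (f : ↥S →* ↥(W : Subgroup (Equiv.Perm (Fin (p ^ 2))))), Function.Surjective f := by
  have hT : normalizerIn S S = S := le_antisymm (normalizerIn_le S S) (le_normalizerIn le_rfl)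
  have hfn : F.IsFullyNormalized S := by
    refine ⟨le_rfl, fun Q _ => ?_⟩
    rw [hT]
    exact Subgroup.card_le_of_le (normalizerIn_le S Q)
  exact core p hS F hF hT N (Cfsg.Agent.S5098.result p hS F hF S hfn N hN) hN hne

end Cfsg.Agent.S5225
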