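import Cfsg.Statements.S5245
import Cfsg.Agent.Lib.Helper89AutSys
import Cfsg.Agent.Lib.Helper90Inner
import Cfsg.Agent.Lib.Helper87Closed
import Cfsg.Agent.Lib.Helper86Fusion3
import Cfsg.Agent.S5083

set_option autoImplicit false
open Cfsg

namespace Cfsg.Agent.S5245

open Cfsg Cfsg.FusionSystem Cfsg.Agent.Lib.Helper87Fusion Cfsg.Agent.Lib.Helper87Fusion2
  Cfsg.Agent.Lib.Helper86Group Cfsg.Agent.Lib.Helper86Fusion Cfsg.Agent.Lib.Helper86Fusion2
  Cfsg.Agent.Lib.Helper86Fusion3 Cfsg.Agent.Lib.Helper89AutSys Cfsg.Agent.Lib.Helper90Inner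
  Cfsg.Agent.Lib.Helper87Closed Cfsg.Agent.Lib.Helper89Fusion

theorem eq_one_of_pows {G : Type*} [Group G] {a : G} {p q k : ℕ} (hp : p.Prime) (hq : q.Prime)
    (hqp : q ≠ p) (h1 : a ^ q = 1) (h2 : a ^ p ^ k = 1) : a = 1 := by
  have h3 : orderOf a ∣ Nat.gcd q (p ^ k) :=
    Nat.dvd_gcd (orderOf_dvd_of_pow_eq_one h1) (orderOf_dvd_of_pow_eq_one h2)
  have h4 : Nat.gcd q (p ^ k) = 1 := Nat.Coprime.pow_right k ((Nat.coprime_primes hq hp).2 hqp)
  rwa [h4, Nat.dvd_one, orderOf_eq_one_iff] at h3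

theorem sparse_step {Ω : Type*} [Group Ω] {S : Subgroup Ω} [Finite S] {p : ℕ} [hp : Fact p.Prime]
    (hS : IsPGroup p S) (F : Cfsg.FusionSystem S)
    (hsparse : ∀ (T : Subgroup Ω) (E : Cfsg.FusionSystem T), E.IsSaturated p → E.IsSubsystemOf F →
      (T = S ∧ ∀ P : Subgroup Ω, E.Hom P = F.Hom P) ∨
        (∀ P : Subgroup Ω, E.Hom P = (Cfsg.innerFusionSystem T).Hom P))
    {P : Subgroup Ω} (hPS : P ≤ S) {a : MulAut P} (ha : a ∈ F.autGroup P) {q : ℕ} (hq : q.Prime)
    (hqp : q ≠ p) (haq : a ^ q = 1) (ha1 : a ≠ 1) :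
    P = S ∧ ∀ (R : Subgroup Ω) (f : Ω → Ω), IsMap F R f →
      ∃ b ∈ Inn P ⊔ Subgroup.zpowers a, ∀ x ∈ R, f x = totA b x := by
  have : Finite P := finite_of_le hPS
  have hPp : IsPGroup p P := hS.to_le hPS
  have hA : Inn P ≤ Inn P ⊔ Subgroup.zpowers a := le_sup_left
  have hAF : Inn P ⊔ Subgroup.zpowers a ≤ F.autGroup P :=
    sup_le (inn_le_autGroup F hPS) (by rw [Subgroup.zpowers_le]; exact ha)
  have hsat : (autSystem P _ hA).IsSaturated p :=
    autSystem_saturated hPp (pElement_mem_inn hp.out hq hqp haq)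
  have hsub : (autSystem P _ hA).IsSubsystemOf F := by
    intro R φ hφ
    obtain ⟨hR, b, hb, hbf⟩ := isMap_autSystem_iff.1 (isMap_tot hφ)
    have h1 : IsMap F P (totA b) := (mem_autGroup_iff_totA F hPS b).1 (hAF hb)
    exact ((h1.restrict hR).congr (fun x hx => (hbf x hx).symm)).hom_mem
      (fun x => (tot_apply φ x).symm)
  rcases hsparse P _ hsat hsub with ⟨h1, h2⟩ | h2
  · refine ⟨h1, fun R f hf => ?_⟩
    obtain ⟨φ, hφ, hφf⟩ := hf
    rw [← h2] at hφ
    exact (isMap_autSystem_iff.1 ⟨φ, hφ, hφf⟩).2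
  · exfalso
    have h3 : IsMap (autSystem P _ hA) P (totA a) :=
      isMap_autSystem_iff.2 ⟨le_rfl, a, Subgroup.mem_sup_right (Subgroup.mem_zpowers a),
        fun _ _ => rfl⟩
    obtain ⟨φ, hφ, hφf⟩ := h3
    rw [h2] at hφ
    obtain ⟨-, g, hg, hga⟩ := isMap_inner_iff.1 ⟨φ, hφ, hφf⟩
    obtain ⟨k, hk⟩ := hPp ⟨g, hg⟩
    have h4 : a = MulAut.conj (⟨g, hg⟩ : P) := by
      apply MulEquiv.ext
      intro x
      apply Subtype.ext
      rw [← totA_apply, hga x x.2]
      rfl
    have h5 : a ^ p ^ k = 1 := by rw [h4, ← map_pow, hk, map_one]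
    exact ha1 (eq_one_of_pows hp.out hq hqp haq h5)

/-- Let F be an extremely sparse fusion system over a finite p-group S (saturated, not the inner system, and every saturated fusion system over any subgroup T of S contained in F is F itself or the inner system of T). Then S is normal in F, the focal and hyperfocal subgroups of F are both S, and Aut_F(S) is generated by the inner automorphisms of S together with a single automorphism of prime order q ≠ p (F is the fusion system of the semidirect product of S by a cyclic group of prime order). -/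
theorem result {Ω : Type*} [Group Ω] {S : Subgroup Ω} [Finite S] (p : ℕ) [Fact p.Prime] (hS : IsPGroup p S) (F : Cfsg.FusionSystem S) (hF : F.IsSaturated p) (hxs : ¬ (∀ P : Subgroup Ω, F.Hom P = (Cfsg.innerFusionSystem S).Hom P) ∧ ∀ (T : Subgroup Ω) (E : Cfsg.FusionSystem T), E.IsSaturated p → E.IsSubsystemOf F → (T = S ∧ ∀ P : Subgroup Ω, E.Hom P = F.Hom P) ∨ (∀ P : Subgroup Ω, E.Hom P = (Cfsg.innerFusionSystem T).Hom P)) : F.IsNormal S ∧ F.focalSubgroup = S ∧ F.hyperfocalSubgroup p = S ∧ ∃ (q : ℕ) (β : MulAut ↥S), q.Prime ∧ q ≠ p ∧ β ∈ F.autGroup S ∧ orderOf β = q ∧ (F.autGroup S : Subgroup (MulAut ↥S)) = Cfsg.Inn ↥S ⊔ Subgroup.zpowers β := by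
  obtain ⟨hninner, hsparse⟩ := hxs
  have hp : p.Prime := Fact.out
  obtain ⟨P, hPS, hPnp⟩ : ∃ P : Subgroup Ω, P ≤ S ∧ ¬ IsPGroup p (F.autGroup P) := by
    by_contra hcon
    push Not at hcon
    exact hninner (fun P => by rw [Cfsg.Agent.S5083.result p hS F hF hcon])
  have : Finite P := finite_of_le hPS
  obtain ⟨q, hq, hqp, hqd⟩ : ∃ q : ℕ, q.Prime ∧ q ≠ p ∧ q ∣ Nat.card (F.autGroup P) := by
    by_contra hcon
    push Not at hcon
    apply hPnp
    rw [IsPGroup.iff_card]
    exact ⟨_, Nat.eq_prime_pow_of_unique_prime_dvd Nat.card_pos.ne'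
      (fun {d} hd hdvd => by
        by_contra hdp
        exact hcon d hd hdp hdvd)⟩
  have : Fact q.Prime := ⟨hq⟩
  obtain ⟨⟨a, ha⟩, hao⟩ := exists_prime_orderOf_dvd_card' q hqd
  have hao' : orderOf a = q := by
    rw [← hao]; exact (Subgroup.orderOf_mk a ha).symm
  have haq : a ^ q = 1 := by rw [← hao']; exact pow_orderOf_eq_one a
  have ha1 : a ≠ 1 := by
    intro h
    rw [h, orderOf_one] at hao'
    exact hq.one_lt.ne hao'
  obtain ⟨rfl, hmaps⟩ := sparse_step hS F hsparse hPS ha hq hqp haq ha1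
  have hAF : Inn P ⊔ Subgroup.zpowers a ≤ F.autGroup P :=
    sup_le (inn_le_autGroup F hPS) (by rw [Subgroup.zpowers_le]; exact ha)
  have haM : IsMap F P (totA a) := (mem_autGroup_iff_totA F le_rfl a).1 ha
  -- the commutator subgroup [S, a]
  obtain ⟨T, hTdef⟩ : ∃ T : Subgroup Ω,
      T = Subgroup.closure {y : Ω | ∃ x : P, y = (x : Ω)⁻¹ * ((a x : P) : Ω)} := ⟨_, rfl⟩
  have hTgen : ∀ x : P, (x : Ω)⁻¹ * ((a x : P) : Ω) ∈ T := by
    intro x
    rw [hTdef]
    exact Subgroup.subset_closure ⟨x, rfl⟩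
  have hTS : T ≤ P := by
    rw [hTdef, Subgroup.closure_le]
    rintro _ ⟨x, rfl⟩
    exact P.mul_mem (P.inv_mem x.2) (a x).2
  have hTinv : ∀ y ∈ T, totA a y ∈ T := by
    intro y hy
    have h1 := hTgen ⟨y, hTS hy⟩
    have h2 := T.mul_mem hy h1
    rw [mul_inv_cancel_left] at h2
    rwa [totA_of_mem a (hTS hy)]
  have hTeq : T = P := by
    have him : totA a '' (T : Set Ω) = (T : Set Ω) :=
      image_eq_of_card_le (haM.restrict hTS) hTS hTinv le_rfl
    obtain ⟨a', ha', ha'a⟩ := (haM.restrict hTS).exists_aut him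
    have hcomp : ∀ x ∈ T, totA a' x = totA a x := by
      intro x hx
      rw [totA_of_mem a' hx, ha'a]
    have ha'q : a' ^ q = 1 := by
      apply MulEquiv.ext
      intro x
      apply Subtype.ext
      rw [← totA_apply, totA_pow_eq hTS hcomp q x x.2, haq, totA_one (hTS x.2)]
      rfl
    by_cases ha'1 : a' = 1
    · exfalso
      have hfix : ∀ x ∈ T, totA a x = x := by
        intro x hx
        rw [← hcomp x hx, ha'1, totA_one hx]
      obtain ⟨k, hk⟩ := stability_pow hS a
        (fun j => if j = 0 then ⊥ else if j = 1 then T.subgroupOf P else ⊤) (by simp)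
        (fun j x hx => by
          by_cases h0 : j = 0
          · subst h0
            simp only [if_true, Subgroup.mem_bot] at hx ⊢
            rw [hx, map_one]
          · by_cases h1 : j = 1
            · subst h1
              simp only [one_ne_zero, if_false, if_true, Subgroup.mem_subgroupOf] at hx ⊢
              rw [← totA_apply]
              exact hTinv _ hx
            · simp only [if_neg h0, if_neg h1]; trivial)
        (fun j x hx => by
          by_cases h0 : j = 0
          · subst h0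
            simp only [zero_add, one_ne_zero, if_false, if_true, Subgroup.mem_subgroupOf,
              Subgroup.mem_bot] at hx ⊢
            apply Subtype.ext
            show (x : Ω)⁻¹ * ((a x : P) : Ω) = 1
            rw [← totA_apply, hfix _ hx, inv_mul_cancel]
          · by_cases h1 : j = 1
            · subst h1
              simp only [one_ne_zero, if_false, if_true, Subgroup.mem_subgroupOf]
              exact hTgen x
            · simp only [if_neg h0, if_neg h1]; trivial) 2
      have h5 : a ^ p ^ k = 1 := by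
        apply MulEquiv.ext
        intro x
        exact hk x (by simp)
      exact ha1 (eq_one_of_pows hp hq hqp haq h5)
    · exact (sparse_step hS F hsparse hTS ha' hq hqp ha'q ha'1).1
  refine ⟨?_, ?_, ?_, q, a, hq, hqp, ha, hao', ?_⟩
  · rw [isNormal_iff]
    refine ⟨le_rfl, fun R f hf => ?_⟩
    obtain ⟨b, hb, hbf⟩ := hmaps R f hf
    have h1 : IsMap F P (totA b) := (mem_autGroup_iff_totA F le_rfl b).1 (hAF hb)
    exact ⟨totA b, h1.restrict (sup_le hf.le le_rfl), fun x hx => (hbf x hx).symm, totA_image b⟩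
  · apply le_antisymm
    · unfold focalSubgroup
      rw [Subgroup.closure_le]
      rintro _ ⟨R, φ, x, hφ, rfl⟩
      exact P.mul_mem (P.inv_mem ((F.le_of_mem hφ).1 x.2)) ((F.le_of_mem hφ).2 x)
    · refine hTeq.ge.trans ?_
      rw [hTdef]
      apply Subgroup.closure_mono
      rintro _ ⟨x, rfl⟩
      exact ⟨P, P.subtype.comp a.toMonoidHom, x, (mem_autGroup_iff F le_rfl a).1 ha, rfl⟩
  · apply le_antisymm (hyperfocal_le F p)
    refine hTeq.ge.trans ?_
    rw [hTdef, Subgroup.closure_le]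
    rintro _ ⟨x, rfl⟩
    refine mem_hyperfocal_of (α := ⟨a, ha⟩) le_rfl (Subgroup.subset_closure ?_) x
    show Nat.Coprime (orderOf (⟨a, ha⟩ : F.autGroup P)) p
    rw [hao]
    exact (Nat.coprime_primes hq hp).2 hqp
  · apply le_antisymm _ hAF
    intro γ hγ
    obtain ⟨b, hb, hbf⟩ := hmaps P _ ((mem_autGroup_iff_totA F le_rfl γ).1 hγ)
    have : γ = b := by
      apply MulEquiv.ext
      intro x
      apply Subtype.ext
      rw [← totA_apply, ← totA_apply, hbf x x.2]
    exact this ▸ hb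

end Cfsg.Agent.S5245
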