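import Cfsg.Statements.S5247
import Cfsg.Agent.Lib.Helper86PStab

set_option autoImplicit false
open Cfsg

namespace Cfsg.Agent.S5247

open Cfsg.Agent.Lib.Helper86PStab Cfsg.FusionSystem Cfsg.Agent.Lib.Helper87Fusion
  Cfsg.Agent.Lib.Helper86Fusion Cfsg.Agent.Lib.Helper89Fusion Cfsg.Agent.Lib.Helper87NormSys

theorem cyclic_case {Q : Type*} [Group Q] [Finite Q] [IsCyclic Q] {p : ℕ} [Fact p.Prime]
    (hQ : IsPGroup p Q) (A : Subgroup (MulAut Q)) {χ : MulAut Q} (hχ : χ ∈ A) (hq : Quad χ) :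
    χ ∈ coreIn p A := by
  have hcomm : ∀ a b : MulAut Q, a * b = b * a := by
    intro a b
    apply (IsCyclic.mulAutMulEquiv Q).injective
    rw [map_mul, map_mul, mul_comm]
  have hQc : ∀ x y : Q, x * y = y * x := fun x y => IsCyclic.commGroup.mul_comm x y
  have hτ : ∀ a, χ (a⁻¹ * χ a) = a⁻¹ * χ a := by
    intro a
    have h := hq a
    rw [map_mul]
    have h1 : χ a⁻¹ * a * χ a⁻¹ * χ (χ a) = (a * χ a⁻¹) * (χ a⁻¹ * χ (χ a)) := by
      rw [hQc (χ a⁻¹) a]; group
    rw [h1] at h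
    have h2 := eq_inv_of_mul_eq_one_right h
    rw [h2, mul_inv_rev, map_inv, inv_inv, hQc]
  have hpow : ∀ (n : ℕ) (a : Q), (χ ^ n) a = a * (a⁻¹ * χ a) ^ n := by
    intro n
    induction n with
    | zero => intro a; simp
    | succ n ih =>
      intro a
      rw [pow_succ', MulAut.mul_apply, ih, map_mul, map_pow, hτ, pow_succ', ← mul_assoc,
        mul_inv_cancel_left]
  have hone : χ ^ Nat.card Q = 1 := by
    ext a
    rw [hpow, pow_card_eq_one', mul_one]
    rfl
  obtain ⟨k, hk⟩ := hQ.exists_card_eq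
  refine le_coreIn (B := Subgroup.zpowers χ) ?_ ?_ ?_ (Subgroup.mem_zpowers χ)
  · rw [Subgroup.zpowers_le]; exact hχ
  · rintro ⟨g, hg⟩
    obtain ⟨z, rfl⟩ := Subgroup.mem_zpowers_iff.1 hg
    refine ⟨k, Subtype.ext ?_⟩
    show (χ ^ z) ^ (p ^ k) = 1
    rw [← zpow_natCast, ← zpow_mul, mul_comm, zpow_mul, zpow_natCast, ← hk, hone, one_zpow]
  · intro a _ b hb
    rw [hcomm a b, mul_inv_cancel_right]
    exact hb

/-- Let p be an odd prime and F a saturated fusion system over a finite p-group S. Call a fusion system E (over any subgroup) p-stable when, for every fully E-normalized subgroup Q and every χ ∈ Aut_E(Q) with χ(a⁻¹)·a·χ(a⁻¹)·χ(χ(a)) = 1 for all a ∈ Q (χ acts quadratically), χ lies in O_p(Aut_E(Q)). Then F is p-stable if and only if every normalizer fusion system N_F(R) of every non-cyclic fully F-normalized subgroup R of S is p-stable. -/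
theorem result {Ω : Type*} [Group Ω] {S : Subgroup Ω} [Finite S] (p : ℕ) [Fact p.Prime] (hS : IsPGroup p S) (F : Cfsg.FusionSystem S) (hF : F.IsSaturated p) (hp : p ≠ 2) : (∀ Q : Subgroup Ω, F.IsFullyNormalized Q → ∀ χ : MulAut ↥Q, χ ∈ F.autGroup Q → (∀ a : ↥Q, (χ a⁻¹) * a * (χ a⁻¹) * (χ (χ a)) = 1) → χ ∈ ((Cfsg.pCore p ↥(F.autGroup Q)).map (F.autGroup Q).subtype : Subgroup (MulAut ↥Q))) ↔ ∀ R : Subgroup Ω, F.IsFullyNormalized R → ¬ IsCyclic ↥R → ∀ N : Cfsg.FusionSystem (Cfsg.FusionSystem.normalizerIn S R), F.IsNormalizerSystem R N → (∀ Q : Subgroup Ω, N.IsFullyNormalized Q → ∀ χ : MulAut ↥Q, χ ∈ N.autGroup Q → (∀ a : ↥Q, (χ a⁻¹) * a * (χ a⁻¹) * (χ (χ a)) = 1) → χ ∈ ((Cfsg.pCore p ↥(N.autGroup Q)).map (N.autGroup Q).subtype : Subgroup (MulAut ↥Q))) := by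
  constructor
  · intro H R _ _ N hN Q hQ χ hχ hq
    exact forward F H hN hQ.1 hχ hq
  · intro H Q hQ χ hχ hq
    have hfin : Finite Q := finite_of_le hQ.1
    by_cases hc : IsCyclic Q
    · exact cyclic_case (hS.to_le hQ.1) _ hχ hq
    · have hN := normData_isNormalizerSystem F Q hQ.1
      have : Finite (normalizerIn S Q) := finite_of_le (normalizerIn_le S Q)
      have hQN : Q ≤ normalizerIn S Q := le_normalizerIn hQ.1
      have hfn : ((normData F Q hQ.1).toFusion).IsFullyNormalized Q := by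
        apply isFullyNormalized_of_normalizerIn_eq _ hQN
        apply le_antisymm (normalizerIn_le _ _)
        intro x hx
        exact ⟨hx, hx.2⟩
      have he : ((normData F Q hQ.1).toFusion).autGroup Q = F.autGroup Q := by
        rw [autGroup_normalizerSystem hQ.1 le_rfl hN, resAut_self]
      have := H Q hQ hc _ hN Q hfn χ (by rw [he]; exact hχ) hq
      rw [he] at this
      exact this

end Cfsg.Agent.S5247
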