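import Cfsg.Statements.S5290
import Cfsg.Agent.Lib.Helper90Inner
import Cfsg.Agent.Lib.Helper86Sub
import Cfsg.Agent.S5106
-- import your own Cfsg.Agent.* helpers here

set_option autoImplicit false
open Cfsg

namespace Cfsg.Agent.S5290

open Cfsg.FusionSystem Cfsg.Agent.Lib.Helper87Fusion Cfsg.Agent.Lib.Helper90Fusion
  Cfsg.Agent.Lib.Helper90Inner

/-- Let F be a saturated fusion system over a finite p-group S and Q a subgroup of S. Then Q is normal in F (F = N_F(Q)) if and only if the inner fusion system of Q, consisting of the conjugations by elements of Q on subgroups of Q, is a weakly normal subsystem of F (both saturated, Q strongly closed, invariant under F-conjugation, with the Frattini property). -/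
theorem result {Ω : Type*} [Group Ω] {S : Subgroup Ω} [Finite S] (p : ℕ) [Fact p.Prime] (hS : IsPGroup p S)
    (F : Cfsg.FusionSystem S) (hF : F.IsSaturated p)
    (Q : Subgroup Ω) (hQ : Q ≤ S) :
    F.IsNormal Q ↔ (Cfsg.innerFusionSystem Q).IsWeaklyNormalIn F p := by
  constructor
  · intro hN
    apply inner_isWeaklyNormalIn hS F hF (Cfsg.Agent.Lib.Helper86Sub.normal_stronglyClosed hN)
    intro P hP φ hφ
    obtain ⟨α, hα, h⟩ := (Cfsg.Agent.S5106.result p hS F hF Q hQ).1 hN P hP φ hφ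
    exact ⟨α, hα, fun x => (h x).symm⟩
  · rintro ⟨-, -, -, -, -, hfrat⟩
    rw [Cfsg.Agent.S5106.result p hS F hF Q hQ]
    intro P hP φ hφ
    obtain ⟨α, hα, φ₀, ⟨-, g, hg, hφ₀⟩, h⟩ := hfrat P hP φ hφ
    have hc : MulAut.conj (⟨g, hg⟩ : Q) ∈ F.autGroup Q :=
      Cfsg.Agent.Lib.Helper86Fusion3.inn_le_autGroup F hQ ⟨_, rfl⟩
    refine ⟨α * MulAut.conj (⟨g, hg⟩ : Q), Subgroup.mul_mem _ hα hc, fun x => ?_⟩
    have hx : φ₀ x ∈ Q := by
      rw [hφ₀]; exact Q.mul_mem (Q.mul_mem hg (hP x.2)) (Q.inv_mem hg)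
    rw [h x hx]
    show ((α (MulAut.conj (⟨g, hg⟩ : Q) (Subgroup.inclusion hP x)) : Q) : Ω) = _
    congr 2
    exact Subtype.ext (hφ₀ x).symm

end Cfsg.Agent.S5290
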