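import Cfsg.Statements.S5291
import Cfsg.Agent.Lib.Helper90Inner
import Cfsg.Agent.Lib.Helper86Sub
import Cfsg.Agent.Lib.Helper88Normal
import Cfsg.Agent.S5106
import Cfsg.Agent.S5145
-- import your own Cfsg.Agent.* helpers here

set_option autoImplicit false
open Cfsg

namespace Cfsg.Agent.S5291

open Cfsg.FusionSystem Cfsg.Agent.Lib.Helper87Fusion Cfsg.Agent.Lib.Helper87Fusion3
  Cfsg.Agent.Lib.Helper90Fusion Cfsg.Agent.Lib.Helper90Inner

variable {Ω : Type*} [Group Ω] {S T : Subgroup Ω}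

/-- the image of a subgroup normal in `E` under an element of `Aut_F(T)` is normal in `E` -/
theorem normal_image {E : FusionSystem T} {F : FusionSystem S} (h : E.IsInvariantIn F)
    {R R' : Subgroup Ω} (hR : E.IsNormal R) {a : Ω → Ω} (ha : IsMap F T a)
    (haT : a '' (T : Set Ω) = (T : Set Ω)) (hR' : a '' (R : Set Ω) = (R' : Set Ω)) :
    E.IsNormal R' := by
  obtain ⟨hRT, hext⟩ := isNormal_iff.1 hR
  obtain ⟨b, hb, hba, hab, hbT⟩ := ha.inv haT
  have hR'T : R' ≤ T := by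
    intro y hy
    obtain ⟨x, hx, rfl⟩ := IsMap.exists_of_mem_image hR' hy
    exact IsMap.mem_image haT (hRT hx)
  rw [isNormal_iff]
  refine ⟨hR'T, fun P f hf => ?_⟩
  have hPT : P ≤ T := hf.le
  obtain ⟨P0, hP0⟩ := hb.exists_image_of_le hPT
  have hP0T : P0 ≤ T := by
    intro y hy
    obtain ⟨x, hx, rfl⟩ := IsMap.exists_of_mem_image hP0 hy
    exact IsMap.mem_image hbT (hPT hx)
  have hf0 : IsMap E P0 (fun y => b (f (a y))) :=
    Cfsg.Agent.Lib.Helper88Normal.conj_aut h hPT hf hb hbT hP0 (fun x hx => by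
      show b (f (a (b x))) = b (f x)
      rw [hab x (hPT hx)])
  obtain ⟨f0', hf0', hf0f, hf0R⟩ := hext P0 _ hf0
  have hsupT : P0 ⊔ R ≤ T := sup_le hP0T hRT
  obtain ⟨X, hX⟩ := ha.exists_image_of_le hsupT
  have hf' : IsMap E X (fun y => a (f0' (b y))) :=
    Cfsg.Agent.Lib.Helper88Normal.conj_aut h hsupT hf0' ha haT hX (fun x hx => by
      show a (f0' (b (a x))) = a (f0' x)
      rw [hba x (hsupT hx)])
  have hle : P ⊔ R' ≤ X := by
    apply sup_le
    · intro y hy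
      have h1 : b y ∈ P0 ⊔ R := Subgroup.mem_sup_left (IsMap.mem_image hP0 hy)
      have h2 := IsMap.mem_image hX h1
      rwa [hab y (hPT hy)] at h2
    · intro y hy
      obtain ⟨x, hx, rfl⟩ := IsMap.exists_of_mem_image hR' hy
      exact IsMap.mem_image hX (Subgroup.mem_sup_right hx)
  refine ⟨_, hf'.restrict hle, fun x hx => ?_, ?_⟩
  · show a (f0' (b x)) = f x
    rw [hf0f _ (IsMap.mem_image hP0 hx)]
    show a (b (f (a (b x)))) = f x
    rw [hab x (hPT hx), hab _ (hf.mem hx)]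
  · ext y
    constructor
    · rintro ⟨x, hx, rfl⟩
      obtain ⟨r, hr, rfl⟩ := IsMap.exists_of_mem_image hR' hx
      show a (f0' (b (a r))) ∈ R'
      rw [hba r (hRT hr)]
      exact IsMap.mem_image hR' (IsMap.mem_image hf0R hr)
    · intro hy
      obtain ⟨r, hr, rfl⟩ := IsMap.exists_of_mem_image hR' hy
      obtain ⟨r0, hr0, rfl⟩ := IsMap.exists_of_mem_image hf0R hr
      refine ⟨a r0, IsMap.mem_image hR' hr0, ?_⟩
      show a (f0' (b (a r0))) = _
      rw [hba r0 (hRT hr0)]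

/-- Let F be a saturated fusion system over a finite p-group S and E a weakly normal subsystem of F over a subgroup T. Suppose a subgroup R of T is normal in E (E = N_E(R)), and let R* be the subgroup of T generated by the images of R under all maps of F with source R. Then R* is normal in F (F = N_F(R*)). -/
theorem result {Ω : Type*} [Group Ω] {S : Subgroup Ω} [Finite S] (p : ℕ) [Fact p.Prime] (hS : IsPGroup p S)
    (F : Cfsg.FusionSystem S) (hF : F.IsSaturated p)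
    {T : Subgroup Ω} (E : Cfsg.FusionSystem T) (hE : E.IsWeaklyNormalIn F p)
    (R : Subgroup Ω) (hR : E.IsNormal R) :
    F.IsNormal (Subgroup.closure {x : Ω | ∃ φ ∈ F.Hom R, ∃ r : R, x = φ r}) := by
  obtain ⟨-, -, hinv⟩ := hE
  have hsub : E.IsSubsystemOf F := hinv.1
  have hT : F.StronglyClosed T := hinv.2.1
  have hTS : T ≤ S := hT.1
  have hfinT : Finite T := finite_of_le hTS
  have hRT : R ≤ T := hR.1
  set Rs := Subgroup.closure {x : Ω | ∃ φ ∈ F.Hom R, ∃ r : R, x = φ r} with hRs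
  have hRsT : Rs ≤ T := by
    rw [hRs, Subgroup.closure_le]
    rintro _ ⟨φ, hφ, r, rfl⟩
    exact hT.2 R hRT φ hφ r
  have hmemRs : ∀ f, IsMap F R f → ∀ r ∈ R, f r ∈ Rs := by
    rintro f ⟨φ, hφ, hφf⟩ r hr
    rw [← hφf ⟨r, hr⟩]
    exact Subgroup.subset_closure ⟨φ, hφ, ⟨r, hr⟩, rfl⟩
  -- `Rs` is normal in `E`
  have hRsE : E.IsNormal Rs := by
    have hC := Cfsg.Agent.Lib.Helper88Fusion.sSup_of_sup_closed T
      (fun Q => E.IsNormal Q ∧ Q ≤ Rs) (fun Q h => h.1.1)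
      ⟨Cfsg.Agent.S5145.normal_bot E, bot_le⟩
      (fun Q₁ Q₂ h₁ h₂ => ⟨Cfsg.Agent.S5145.normal_sup E Q₁ Q₂ h₁.1 h₂.1, sup_le h₁.2 h₂.2⟩)
    have hle : Rs ≤ sSup {Q | E.IsNormal Q ∧ Q ≤ Rs} := by
      rw [hRs, Subgroup.closure_le]
      rintro _ ⟨φ, hφ, r, rfl⟩
      obtain ⟨a, c, ha, haT, hc, hac⟩ :=
        Cfsg.Agent.Lib.Helper88Normal.frattini hinv hRT (isMap_tot hφ)
      have hcR : c '' (R : Set Ω) = (R : Set Ω) :=
        image_eq_of_stronglyClosed (Cfsg.Agent.Lib.Helper86Sub.normal_stronglyClosed hR) hc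
      obtain ⟨R', hR'⟩ := ha.exists_image_of_le hRT
      have hR'n : E.IsNormal R' := normal_image hinv hR ha haT hR'
      have hR'le : R' ≤ Rs := by
        intro y hy
        obtain ⟨x, hx, rfl⟩ := IsMap.exists_of_mem_image hR' hy
        exact hmemRs a (ha.restrict hRT) x hx
      apply (le_sSup (show R' ∈ {Q | E.IsNormal Q ∧ Q ≤ Rs} from ⟨hR'n, hR'le⟩))
      rw [← tot_apply, hac r r.2]
      exact IsMap.mem_image hR' (IsMap.mem_image hcR r.2)
    have : sSup {Q | E.IsNormal Q ∧ Q ≤ Rs} = Rs := le_antisymm hC.2 hle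
    rw [← this]
    exact hC.1
  -- `Rs` is invariant under `Aut_F(T)`
  have hRsinv : ∀ a, IsMap F T a → ∀ x ∈ Rs, a x ∈ Rs := by
    intro a ha x hx
    have key : x ∈ T ∧ a x ∈ Rs := by
      rw [hRs] at hx
      induction hx using Subgroup.closure_induction with
      | mem x hx =>
        obtain ⟨φ, hφ, r, rfl⟩ := hx
        refine ⟨hT.2 R hRT φ hφ r, ?_⟩
        have h1 : IsMap F R (fun y => a (tot φ y)) :=
          (isMap_tot hφ).comp ha (fun y hy => by
            rw [tot_of_mem φ hy]; exact hT.2 R hRT φ hφ _)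
        have h2 := hmemRs _ h1 r r.2
        rwa [tot_apply] at h2
      | one => exact ⟨T.one_mem, by rw [ha.map_one]; exact Rs.one_mem⟩
      | mul x y _ _ hx hy =>
        exact ⟨T.mul_mem hx.1 hy.1, by rw [ha.map_mul hx.1 hy.1]; exact Rs.mul_mem hx.2 hy.2⟩
      | inv x _ hx => exact ⟨T.inv_mem hx.1, by rw [ha.map_inv hx.1]; exact Rs.inv_mem hx.2⟩
    exact key.2
  rw [Cfsg.Agent.S5106.result p hS F hF Rs (hRsT.trans hTS)]
  intro P hP φ hφ
  obtain ⟨a, c, ha, haT, hc, hac⟩ :=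
    Cfsg.Agent.Lib.Helper88Normal.frattini hinv (hP.trans hRsT) (isMap_tot hφ)
  obtain ⟨c', hc', hc'c, hc'R⟩ := (isNormal_iff.1 hRsE).2 P c hc
  have h1 : IsMap F Rs (fun x => a (c' x)) :=
    (isMap_of_subsystem hsub (hc'.restrict le_sup_right)).comp ha
      (fun x hx => hRsT (IsMap.mem_image hc'R hx))
  have h2 : (fun x => a (c' x)) '' (Rs : Set Ω) = (Rs : Set Ω) :=
    Cfsg.Agent.Lib.Helper88Normal.image_eq_of_maps_to h1
      (fun x hx => hRsinv a ha _ (IsMap.mem_image hc'R hx))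
  obtain ⟨β, hβ, hβf⟩ := h1.exists_aut h2
  refine ⟨β, hβ, fun x => ?_⟩
  rw [hβf]
  show a (c' (x : Ω)) = _
  rw [hc'c x x.2, ← hac x x.2, tot_apply]

end Cfsg.Agent.S5291
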