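import Cfsg.Statements.S5292
import Cfsg.Agent.Lib.Helper87ModelAut

set_option autoImplicit false
universe u
open Cfsg

namespace Cfsg.Agent.S5292

open Cfsg.Agent.Lib.Helper87ModelAut

/-- Let F be a saturated fusion system over a finite p-group S. Then F is the fusion system of some finite p-solvable group on a Sylow p-subgroup if and only if F is constrained (some subgroup normal in F is centric in F) and the group of automorphisms that F induces on its largest normal subgroup O_p(F) is p-solvable. -/
theorem result {Ω : Type u} [Group Ω] {S : Subgroup Ω} [Finite S] (p : ℕ) [Fact p.Prime] (hS : IsPGroup p S)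
    (F : Cfsg.FusionSystem S) (hF : F.IsSaturated p) :
    (∃ (G : Type u) (_ : Group G) (_ : Finite G) (ι : S →* G), Cfsg.IsPSolvable p G ∧ F.IsRealizedBy ι ∧
        ∃ T : Sylow p G, (T : Subgroup G) = ι.range) ↔
      (F.IsConstrained p ∧ Cfsg.IsPSolvable p ↥(F.autGroup F.core)) := by
  constructor
  · rintro ⟨G, _, _, ι, hps, hι, T, hT⟩
    have hM := model_of_pSolvable hι T hT hps
    exact ⟨constrained_of_model hM, (pSolvable_model_iff hS hM).1
      (Cfsg.Agent.Lib.Helper38PSolv.isPSolvable_quotient _ hps)⟩
  · rintro ⟨hc, hps⟩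
    obtain ⟨G, _, ι, hM⟩ := Cfsg.Agent.S5090.result p hS F hc
    exact ⟨G, inferInstance, hM.1, ι, (pSolvable_model_iff hS hM).2 hps, hM.2.1, hM.2.2.1⟩
end Cfsg.Agent.S5292
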