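import Cfsg.Statements.S5294
import Cfsg.Statements.S5294
import Cfsg.Agent.Lib.Helper90Trace
import Cfsg.Agent.Lib.Helper86Sub
import Cfsg.Agent.S5085
import Cfsg.Agent.S5145
import Cfsg.Agent.S5144
-- import your own Cfsg.Agent.* helpers here

set_option autoImplicit false
universe u
open Cfsg

namespace Cfsg.Agent.S5294

open Cfsg.FusionSystem Cfsg.Agent.Lib.Helper87Fusion Cfsg.Agent.Lib.Helper87Fusion2
  Cfsg.Agent.Lib.Helper87Fusion3
  Cfsg.Agent.Lib.Helper86Fusion2
  Cfsg.Agent.Lib.Helper86Sub Cfsg.Agent.Lib.Helper90Abelian Cfsg.Agent.Lib.Helper90Trace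

theorem center_subgroupOf {Ω : Type*} [Group Ω] (R : Subgroup Ω) :
    (R ⊓ Subgroup.centralizer (R : Set Ω)).subgroupOf R = Subgroup.center R := by
  ext x
  rw [Subgroup.mem_subgroupOf, Subgroup.mem_center_iff]
  constructor
  · rintro ⟨-, h⟩ g
    exact Subtype.ext (Subgroup.mem_centralizer_iff.1 h g g.2)
  · intro h
    refine ⟨x.2, Subgroup.mem_centralizer_iff.2 (fun g hg => ?_)⟩
    exact congrArg Subtype.val (h ⟨g, hg⟩)

/-- Let F be a saturated fusion system over a finite p-group S whose centre Z(S) lies in the largest subgroup O_p(F) normal in F. Then the centre Z(F) of F is a direct factor of Z(S): there is a subgroup K of Z(S) with Z(F) ∩ K = 1 and Z(F)K = Z(S). -/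
theorem result {Ω : Type u} [Group Ω] {S : Subgroup Ω} [Finite S] (p : ℕ) [Fact p.Prime] (hS : IsPGroup p S)
    (F : Cfsg.FusionSystem S) (hF : F.IsSaturated p) (hZ : (S ⊓ Subgroup.centralizer (S : Set Ω)) ≤ F.core) :
    ∃ K : Subgroup Ω, K ≤ (S ⊓ Subgroup.centralizer (S : Set Ω)) ∧ F.center ⊓ K = ⊥ ∧ F.center ⊔ K = (S ⊓ Subgroup.centralizer (S : Set Ω)) := by
  classical
  have hR : F.IsNormal F.core := Cfsg.Agent.S5145.result F
  set R := F.core with hRdef
  set V := R ⊓ Subgroup.centralizer (R : Set Ω) with hVdef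
  have hVR : V ≤ R := inf_le_left
  have hchar : (V.subgroupOf R).Characteristic := by
    rw [hVdef, center_subgroupOf]
    infer_instance
  have hV : F.IsNormal V := Cfsg.Agent.S5085.result F R V hR hVR hchar
  have hVS : V ≤ S := hV.1
  have hRS : R ≤ S := hR.1
  have hZV : S ⊓ Subgroup.centralizer (S : Set Ω) ≤ V := by
    intro z hz
    exact ⟨hZ hz, Subgroup.centralizer_le hRS hz.2⟩
  have hcomm : ∀ a b : V, a * b = b * a := by
    intro a b
    exact Subtype.ext (Subgroup.mem_centralizer_iff.1 b.2.2 a a.2.1)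
  have hfinV : Finite V := Cfsg.Agent.Lib.Helper90Fusion.finite_of_le hVS
  have hsc : F.StronglyClosed V := normal_stronglyClosed hV
  have hconjV : ∀ s ∈ S, ∀ v ∈ V, s * v * s⁻¹ ∈ V := fun s hs v hv =>
    StronglyClosed_mem hsc (isMap_conj F hVS hs) hv hv
  have hfn : F.IsFullyNormalized V := by
    refine ⟨hVS, fun Q hQ => ?_⟩
    obtain ⟨f, hf, hfQ⟩ := isConj_iff.1 hQ
    have hQV : Q = V := by
      apply Subgroup.eq_of_le_of_card_ge
      · intro y hy
        obtain ⟨x, hx, rfl⟩ := IsMap.exists_of_mem_image hfQ hy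
        exact StronglyClosed_mem hsc hf hx hx
      · exact (isConj_card_eq hQ).ge
    rw [hQV]
  obtain ⟨-, ⟨-, T, hT⟩, -⟩ := saturated_fullyNormalized hS hF hfn
  have hidx : ¬ p ∣ ((autInducedBy S V).subgroupOf (F.autGroup V)).index := by
    rw [← hT]; exact T.not_dvd_index
  obtain ⟨K, hK1, hK2, hK3⟩ := trace_split hcomm p (hS.to_le hVS) (F.autGroup V) (autInducedBy S V)
    (autInducedBy_le_autGroup F hVS) hidx
  have hfixT : (fixedSub (autInducedBy S V)).map V.subtype = S ⊓ Subgroup.centralizer (S : Set Ω) := by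
    apply le_antisymm
    · rintro _ ⟨v, hv, rfl⟩
      refine ⟨hVS v.2, Subgroup.mem_centralizer_iff.2 (fun s hs => ?_)⟩
      obtain ⟨α, -, hα⟩ := (isMap_conj F hVS hs).exists_aut (by
        ext y
        constructor
        · rintro ⟨x, hx, rfl⟩
          exact hconjV s hs x hx
        · intro hy
          refine ⟨s⁻¹ * y * s, ?_, ?_⟩
          · have := hconjV s⁻¹ (S.inv_mem hs) y hy
            rwa [inv_inv] at this
          · show s * (s⁻¹ * y * s) * s⁻¹ = y
            group)
      have h1 := hv α ((mem_autInducedBy_iff S V α).2 ⟨s, hs, hα⟩)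
      have h2 := hα v
      rw [h1] at h2
      show s * (v : Ω) = v * s
      conv_rhs => rw [h2]
      group
    · intro z hz
      refine ⟨⟨z, hZV hz⟩, fun α hα => ?_, rfl⟩
      obtain ⟨s, hs, hαs⟩ := (mem_autInducedBy_iff S V α).1 hα
      apply Subtype.ext
      rw [hαs]
      show s * z * s⁻¹ = z
      rw [Subgroup.mem_centralizer_iff.1 hz.2 s hs]
      group
  have hcen := isCentral_iff.1 (Cfsg.Agent.S5144.result F)
  have hfixG : (fixedSub (F.autGroup V)).map V.subtype = F.center := by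
    apply le_antisymm
    · apply le_sSup
      show F.IsCentral _
      rw [isCentral_iff]
      refine ⟨(Subgroup.map_subtype_le _).trans hVS, fun P f hf => ?_⟩
      obtain ⟨f', hf', hf'P, hf'V⟩ := (isNormal_iff.1 hV).2 P f hf
      refine ⟨f', hf'.restrict (sup_le_sup_left (Subgroup.map_subtype_le _) P), hf'P, ?_⟩
      rintro _ ⟨v, hv, rfl⟩
      obtain ⟨α, hα, hαf⟩ := (hf'.restrict le_sup_right).exists_aut hf'V
      show f' (v : Ω) = v
      rw [← hαf, hv α hα]
    · intro z hz
      have hzS : z ∈ S := hcen.1 hz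
      have hzZ : z ∈ S ⊓ Subgroup.centralizer (S : Set Ω) := by
        refine ⟨hzS, Subgroup.mem_centralizer_iff.2 (fun s hs => ?_)⟩
        obtain ⟨f', -, h1, h2⟩ := hcen.2 S _ (isMap_conj F le_rfl hs)
        have h3 := h1 z hzS
        rw [h2 z hz] at h3
        conv_rhs => rw [h3]
        group
      refine ⟨⟨z, hZV hzZ⟩, fun α hα => ?_, rfl⟩
      obtain ⟨f', -, h1, h2⟩ := hcen.2 V _ ((mem_autGroup_iff_totA F hVS α).1 hα)
      have h3 := h1 z (hZV hzZ)
      rw [h2 z hz, totA_of_mem _ (hZV hzZ)] at h3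
      exact Subtype.ext h3.symm
  refine ⟨K.map V.subtype, ?_, ?_, ?_⟩
  · rw [← hfixT]
    exact Subgroup.map_mono hK1
  · rw [← hfixG, ← Subgroup.map_inf _ _ _ V.subtype_injective, hK2, Subgroup.map_bot]
  · rw [← hfixG, ← Subgroup.map_sup, hK3, hfixT]

end Cfsg.Agent.S5294
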