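import Cfsg.Statements.S5301
import Cfsg.Agent.Lib.Helper90Fusion
import Cfsg.Agent.S5080
import Cfsg.Agent.S5087
-- import your own Cfsg.Agent.* helpers here

set_option autoImplicit false
universe u
open Cfsg

namespace Cfsg.Agent.S5301

open Cfsg.FusionSystem Cfsg.Agent.Lib.Helper87Fusion Cfsg.Agent.Lib.Helper90Fusion

/-- Let F be a saturated fusion system over a finite p-group S. If for every subgroup P of S that is fully normalized, centric and radical in F the automorphism group that F induces on P has a normal Sylow p-subgroup, then S is normal in F. -/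
theorem result {Ω : Type u} [Group Ω] {S : Subgroup Ω} [Finite S] (p : ℕ) [Fact p.Prime] (hS : IsPGroup p S)
    (F : Cfsg.FusionSystem S) (hF : F.IsSaturated p)
    (hcl : ∀ P : Subgroup Ω, F.IsFullyNormalized P → F.IsCentric P → F.IsRadical p P →
      ∃ R : Sylow p ↥(F.autGroup P), (R : Subgroup ↥(F.autGroup P)).Normal) :
    F.IsNormal S := by
  rw [Cfsg.Agent.S5087.result p hS F hF S]
  rintro P (rfl | hP)
  · refine ⟨le_rfl, fun α _ => ?_⟩
    rw [Subgroup.subgroupOf_self]
    exact Subgroup.map_top_of_surjective _ α.surjective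
  · exfalso
    have hrad := Cfsg.Agent.S5080.result p hS F hF P hP
    obtain ⟨hc, hn, hnorm, E, hdvd, -, -⟩ := hP
    obtain ⟨R, hR⟩ := hcl P hn hc hrad
    have hPfin : Finite P := finite_of_le hn.1
    have hle : (R : Subgroup (F.autGroup P)) ≤ (Inn P).subgroupOf (F.autGroup P) := by
      have h1 : (R : Subgroup (F.autGroup P)) ≤ pCore p (F.autGroup P) :=
        le_sSup ⟨hR, R.2⟩
      intro x hx
      rw [Subgroup.mem_subgroupOf, ← hrad.2]
      exact ⟨x, h1 hx, rfl⟩
    rw [← Subgroup.index_eq_card] at hdvd
    exact R.not_dvd_index (hdvd.trans (Subgroup.index_dvd_of_le hle))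

end Cfsg.Agent.S5301
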