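import Cfsg.Statements.S5317
import Mathlib
import Cfsg.Agent.Lib.Helper41PSL2Syl
import Cfsg.Agent.Lib.Helper41Fus

set_option autoImplicit false
open Cfsg
open Cfsg.Agent.Lib.Helper41SL2 Cfsg.Agent.Lib.Helper46SL2

namespace Cfsg.Agent.S5317

/-- Let F be a finite field of odd order q with q² ≡ 1 mod 16 (so that a Sylow 2-subgroup of PSL(2,q), dihedral of order the 2-part of (q²−1)/2, has order at least 8). Then the 2-fusion system of PSL(2,F) on a Sylow 2-subgroup is simple: saturated, over a nontrivial 2-group, with no normal subsystem other than the trivial one and itself. -/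
theorem result {F : Type*} [Field F] [Fintype F] (hodd : Fintype.card F % 2 = 1) (h16 : 16 ∣ Fintype.card F ^ 2 - 1)
    (S : Sylow 2 (Matrix.ProjectiveSpecialLinearGroup (Fin 2) F)) :
    (Cfsg.groupFusionSystem (S : Subgroup (Matrix.ProjectiveSpecialLinearGroup (Fin 2) F))).IsSimple 2 := by
  have hodd' : Odd (Fintype.card F) := Nat.odd_iff.mpr hodd
  have h2 : (2 : F) ≠ 0 := two_ne_zero_of_odd hodd'
  have hne : (S : Subgroup (Matrix.ProjectiveSpecialLinearGroup (Fin 2) F)) ≠ ⊥ := by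
    intro h
    have h1 : 2 ∣ Nat.card (Matrix.ProjectiveSpecialLinearGroup (Fin 2) F) := by
      have h3 := Cfsg.Agent.Lib.Helper7SL.card_PSL_two_mul_two hodd'
      obtain ⟨j, hj⟩ := h16
      rw [hj] at h3
      have : Nat.card (Matrix.ProjectiveSpecialLinearGroup (Fin 2) F) = 2 * (Fintype.card F * 4 * j) := by
        have h4 : Fintype.card F * (16 * j) = 2 * (Fintype.card F * 4 * j) * 2 := by ring
        omega
      exact ⟨_, this⟩
    have h4 := S.dvd_card_of_dvd_card h1
    have h5 : Nat.card (S : Subgroup (Matrix.ProjectiveSpecialLinearGroup (Fin 2) F)) = 1 := by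
      rw [h]; exact Subgroup.card_bot
    rw [h5] at h4
    omega
  apply Cfsg.Agent.Lib.Helper41Fus.isSimple_of 2 S hne (normalizer_sylow_two_PSL2 hodd' h16 S)
  intro T hT
  by_cases hTb : T = ⊥
  · exact Or.inl hTb
  right
  obtain ⟨hTS, hcl⟩ := hT
  apply le_antisymm hTS
  -- T contains an involution
  have hTp : IsPGroup 2 T := S.isPGroup'.to_le hTS
  have hTnt : Nontrivial T := (Subgroup.nontrivial_iff_ne_bot T).mpr hTb
  obtain ⟨n, hn0, hn⟩ := hTp.nontrivial_iff_card.mp hTnt
  obtain ⟨t, ht⟩ := exists_prime_orderOf_dvd_card' (G := T) 2 (by rw [hn]; exact dvd_pow_self 2 (by omega))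
  have ht' : orderOf (t : Matrix.ProjectiveSpecialLinearGroup (Fin 2) F) = 2 := by
    rw [Subgroup.orderOf_coe]; exact ht
  apply sylow_le_of_involutions hodd' S T
  intro x hxS hx
  obtain ⟨g, hg⟩ := isConj_iff.mp (isConj_of_orderOf_two h2 ht' hx)
  have hR : Subgroup.zpowers (t : Matrix.ProjectiveSpecialLinearGroup (Fin 2) F) ≤ T :=
    Subgroup.zpowers_le.mpr t.2
  have hmem : Cfsg.conjHom (Subgroup.zpowers (t : Matrix.ProjectiveSpecialLinearGroup (Fin 2) F)) g ∈
      (Cfsg.groupFusionSystem (S : Subgroup (Matrix.ProjectiveSpecialLinearGroup (Fin 2) F))).Hom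
        (Subgroup.zpowers (t : Matrix.ProjectiveSpecialLinearGroup (Fin 2) F)) := by
    refine ⟨hR.trans hTS, ?_, g, fun y => rfl⟩
    rintro ⟨y, hy⟩
    obtain ⟨j, rfl⟩ := Subgroup.mem_zpowers_iff.mp hy
    change g * (t : Matrix.ProjectiveSpecialLinearGroup (Fin 2) F) ^ j * g⁻¹ ∈ S
    rw [← conj_zpow, hg]
    exact S.zpow_mem hxS j
  have := hcl _ hR _ hmem ⟨t, Subgroup.mem_zpowers _⟩
  change g * (t : Matrix.ProjectiveSpecialLinearGroup (Fin 2) F) * g⁻¹ ∈ T at this
  rwa [hg] at this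

end Cfsg.Agent.S5317
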