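import Cfsg.Statements.S5328
import Cfsg.Agent.Lib.Helper86Stable

set_option autoImplicit false
universe u
open Cfsg

namespace Cfsg.Agent.S5328

open Subgroup MulAction Cfsg.FusionSystem Cfsg.Agent.Lib.Helper87Fusion Cfsg.Agent.Lib.Helper86Graph
  Cfsg.Agent.Lib.Helper86Biset Cfsg.Agent.Lib.Helper86Stable Cfsg.Agent.Lib.Helper86Marks
  Cfsg.Agent.Lib.Helper86Char Cfsg.Agent.Lib.Helper86Burnside

/-- a stable biset containing the regular one, for an arbitrary fusion system. -/
theorem exists_good_gen {Ω : Type u} [Group Ω] {S : Subgroup Ω} [Finite S] (F : FusionSystem S) :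
    ∃ c : Subgroup (S × S) → ℕ, Good F 0 c ∧ c (diag S) ≠ 0 := by
  classical
  haveI := Fintype.ofFinite (Subgroup (S × S))
  have hcd : Nat.card (diag S : Subgroup (S × S)) = Nat.card S := by
    rw [(isGraph_diag F (le_refl S)).card_eq, pr₂_diag (le_refl S)]
  have main : ∀ d : ℕ, ∃ c : Subgroup (S × S) → ℕ, Good F (Nat.card S + 1 - d) c ∧
      c (diag S) ≠ 0 := by
    intro d
    induction d with
    | zero =>
      refine ⟨fun D => if D = diag S then 1 else 0, ⟨fun D hD => ?_, fun L L' h hL => ?_⟩, by simp⟩
      · by_cases h : D = diag S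
        · rw [h]; exact isGraph_diag F le_rfl
        · simp [h] at hD
      · have h0 : ∀ L'' : Subgroup (S × S), Nat.card S + 1 ≤ Nat.card L'' →
            mark (fun D => if D = diag S then 1 else 0) L'' = 0 := by
          intro L'' hL''
          apply mark_eq_zero
          intro D hD
          by_cases h : D = diag S
          · by_contra hne
            have h1 := card_le_of_mk_ne_zero hne
            rw [h, hcd] at h1
            omega
          · simp [h] at hD
        rw [h0 L (by simpa using hL), h0 L' (by rw [h.card_eq]; simpa using hL)]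
    | succ d ih =>
      obtain ⟨c, hc, hcd'⟩ := ih
      by_cases hd : Nat.card S + 1 ≤ d
      · refine ⟨c, ?_, hcd'⟩
        have h1 : Nat.card S + 1 - (d + 1) = Nat.card S + 1 - d := by omega
        rw [h1]; exact hc
      · have h1 : Nat.card S + 1 - d = (Nat.card S + 1 - (d + 1)) + 1 := by omega
        rw [h1] at hc
        set t := Nat.card S + 1 - (d + 1) with ht
        set N := Nat.card (S × S) with hN
        have hN0 : N ≠ 0 := Nat.card_pos.ne'
        have hc' : Good F (t + 1) (fun D => N * c D) := by
          refine ⟨fun D hD => hc.1 D (fun h0 => hD (by simp [h0])), fun L L' h hL => ?_⟩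
          rw [mark_smul, mark_smul, hc.2 L L' h hL]
        set k := ∑ E, mark c E with hk
        have hle : ∀ E, mark c E ≤ k := fun E =>
          Finset.single_le_sum (f := fun E => mark c E) (fun _ _ => Nat.zero_le _) (Finset.mem_univ E)
        obtain ⟨n, hn, hv⟩ := step (IsGraph F) (fun g E E' h hE => hE.cj h) t (fun D => N * c D)
          (fun _ => N * k) (fun _ _ _ _ => rfl)
          (fun E _ _ => by rw [mark_smul]; exact Nat.mul_le_mul_left _ (hle E))
          (fun E _ _ => by
            rw [mark_smul, ← Nat.mul_sub]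
            apply Dvd.dvd.mul_right
            have h2 := mk_self_mul_card E
            have h3 : Nat.card (normalizer (E : Set (S × S))) ∣ N := Subgroup.card_subgroup_dvd_card _
            rw [← h2] at h3
            exact (Dvd.intro _ rfl).trans h3)
        refine ⟨_, good_add F t _ n (fun _ => N * k) hc' hn (fun _ _ _ => rfl) hv, ?_⟩
        have h4 : N * c (diag S) ≠ 0 := Nat.mul_ne_zero hN0 hcd'
        show N * c (diag S) + n (diag S) ≠ 0
        omega
  obtain ⟨c, hc, hcd'⟩ := main (Nat.card S + 1)
  rw [Nat.sub_self] at hc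
  exact ⟨c, hc, hcd'⟩

/-- Every fusion system over a finite p-group S, saturated or not, is realized inside some finite group: there is a finite group G and an injective homomorphism ι of S into G such that the maps of the system are exactly the homomorphisms between subgroups of S that become conjugations by elements of G (the image of S need not be a Sylow p-subgroup of G). -/
theorem result {Ω : Type u} [Group Ω] {S : Subgroup Ω} [Finite S] (p : ℕ) [Fact p.Prime] (hS : IsPGroup p S) (F : Cfsg.FusionSystem S) : ∃ (G : Type u) (_ : Group G) (_ : Finite G) (ι : ↥S →* G), F.IsRealizedBy ι := by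
  obtain ⟨c, hc, hcd⟩ := exists_good_gen F
  have hg : ∀ x : XC c, IsGraph F (stabilizer (S × S) x) := by
    intro x
    obtain ⟨D, g, hD, hg⟩ := stabilizer_XC c x
    exact (hc.1 D hD).cj hg
  -- the base point
  let x₀ : XC c := ⟨⟨diag S, ⟨0, Nat.pos_of_ne_zero hcd⟩⟩, ((1 : S × S) : (S × S) ⧸ (diag S : Subgroup (S × S)))⟩
  have hx₀ : ∀ u : S, (u, u) • x₀ = x₀ := by
    intro u
    rw [XC_smul_eq_iff, smul_coe_eq_iff]
    simp only [inv_one, one_mul, mul_one]
    exact mem_diag.2 ⟨u.2, rfl⟩
  let Gs : Subgroup (Equiv.Perm (XC c)) :=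
    { carrier := {g | ∀ (b : S) (x : XC c), g (((1 : S), b) • x) = ((1 : S), b) • g x}
      mul_mem' := fun {g g'} hg hg' b x => by
        rw [Equiv.Perm.mul_apply, hg', hg, Equiv.Perm.mul_apply]
      one_mem' := fun b x => rfl
      inv_mem' := fun {g} hg b x => by
        apply g.injective
        rw [hg]
        show g (g.symm _) = _ • g (g.symm x)
        rw [Equiv.apply_symm_apply, Equiv.apply_symm_apply] }
  let ι : S →* Gs := ((MulAction.toPermHom (S × S) (XC c)).comp (MonoidHom.inl S S)).codRestrict Gs
    (fun a b x => by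
      show (a, (1 : S)) • ((1 : S), b) • x = ((1 : S), b) • (a, (1 : S)) • x
      rw [smul_smul, smul_smul]
      simp)
  have hι : ∀ (a : S) (x : XC c), (ι a).1 x = (a, (1 : S)) • x := fun _ _ => rfl
  refine ⟨Gs, inferInstance, inferInstance, ι, ?_, ?_⟩
  · intro a a' haa
    have h1 : (a, (1 : S)) • x₀ = (a', (1 : S)) • x₀ := by
      rw [← hι, ← hι, haa]
    have h2 : (a'⁻¹ * a, (1 : S)) • x₀ = x₀ := by
      have : ((a'⁻¹ * a, (1 : S)) : S × S) = (a', (1 : S))⁻¹ * (a, (1 : S)) := by
        ext <;> simp
      rw [this, mul_smul, h1, inv_smul_smul]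
    have h3 := free_of_graph hg h2
    exact (inv_mul_eq_one.1 h3).symm
  · intro P hP φ hφ
    constructor
    · intro hφF
      have hf := isMap_tot hφF
      obtain ⟨e, he⟩ := stable_of_good F c hc hf (isMap_id' F (le_refl S))
      have h1 : lift (tot φ) (1 : S) = 1 := Subtype.ext (by
        rw [lift_coe (by rw [S.coe_one, hf.map_one]; exact S.one_mem)]
        exact hf.map_one)
      refine ⟨⟨e, fun b x => ?_⟩, fun x => ?_⟩
      · rw [he 1 b P.one_mem b.2, h1, lift_id]
      · rw [eq_mul_inv_iff_mul_eq]
        apply Subtype.ext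
        apply Equiv.ext
        intro y
        show ((⟨φ x, hφ x⟩ : S), (1 : S)) • e y = e (((⟨x, hP x.2⟩ : S), (1 : S)) • y)
        rw [he ⟨x, hP x.2⟩ 1 x.2 S.one_mem, lift_id]
        congr 2
        apply Subtype.ext
        rw [lift_coe (hf.mem x.2)]
        exact (tot_apply φ x).symm
    · rintro ⟨g, hg'⟩
      obtain ⟨P', f', hf', hE⟩ := hg (g.1 x₀)
      have key : ∀ x : P, ((⟨φ x, hφ x⟩ : S), (⟨x, hP x.2⟩ : S)) • g.1 x₀ = g.1 x₀ := by
        intro x
        set u : S := ⟨x, hP x.2⟩ with hu
        set v : S := ⟨φ x, hφ x⟩ with hv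
        have h1 : (ι v).1 (g.1 x₀) = g.1 ((ι u).1 x₀) := by
          rw [hg' x]
          show g.1 ((ι u).1 (g.1.symm (g.1 x₀))) = _
          rw [Equiv.symm_apply_apply]
        rw [hι, hι] at h1
        have h2 : (u, (1 : S)) • x₀ = ((1 : S), u⁻¹) • x₀ := by
          conv_rhs => rw [← hx₀ u]
          rw [smul_smul]
          simp
        rw [h2, g.2] at h1
        have h3 : ((v, u) : S × S) = ((1 : S), u) * (v, (1 : S)) := by
          ext <;> simp
        rw [h3, mul_smul, h1, smul_smul]
        have h4 : (((1 : S), u) : S × S) * ((1 : S), u⁻¹) = 1 := by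
          ext <;> simp
        rw [h4, one_smul]
      have hle : P ≤ P' := fun x hx => ((hE _).1 (key ⟨x, hx⟩)).1
      exact (hf'.restrict hle).hom_mem (fun x => ((hE _).1 (key x)).2)

end Cfsg.Agent.S5328
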