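import Cfsg.Statements.S5329
import Cfsg.Agent.Lib.Helper86Stable
import Cfsg.Agent.Lib.Helper86Focal

set_option autoImplicit false
open Cfsg

namespace Cfsg.Agent.S5329

/-- For a saturated fusion system F over a finite p-group S, the focal subgroup and the derived subgroup of S meet the centre Z(F) of the system in the same subgroup: foc(F) ∩ Z(F) = S′ ∩ Z(F). -/
theorem result {Ω : Type*} [Group Ω] {S : Subgroup Ω} [Finite S] (p : ℕ) [Fact p.Prime] (hS : IsPGroup p S) (F : Cfsg.FusionSystem S) (hF : F.IsSaturated p) : F.focalSubgroup ⊓ F.center = ⁅(S : Subgroup Ω), (S : Subgroup Ω)⁆ ⊓ F.center := by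
  open Cfsg.FusionSystem Cfsg.Agent.Lib.Helper87Fusion Cfsg.Agent.Lib.Helper86Graph
    Cfsg.Agent.Lib.Helper86Biset Cfsg.Agent.Lib.Helper86Mono Cfsg.Agent.Lib.Helper86Stable
    Cfsg.Agent.Lib.Helper86Burnside MulAction in
  apply le_antisymm
  swap
  · apply inf_le_inf_right
    rw [Cfsg.Agent.Lib.Helper86Focal.focal_eq hS F hF]
    exact le_sup_right
  rintro z ⟨hzf', hzc'⟩
  have hzf : z ∈ F.focalSubgroup := hzf'
  have hzc : z ∈ F.center := hzc'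
  refine ⟨?_, hzc⟩
  obtain ⟨X, _, _, hg, hst, hp⟩ := exists_charBiset hS F hF
  obtain ⟨hzS, -⟩ := center_fixed hzc
  have hzcen : ∀ s : S, (⟨z, hzS⟩ : S) * s * (⟨z, hzS⟩ : S)⁻¹ = s := by
    intro s
    have h1 := (center_fixed hzc).2 S (fun x => (s : Ω)⁻¹ * x * ((s : Ω)⁻¹)⁻¹)
      (isMap_conj F le_rfl (S.inv_mem s.2)) hzS
    apply Subtype.ext
    show z * s * z⁻¹ = s
    have h2 : (s : Ω)⁻¹ * z * s = z := by simpa using h1
    calc z * s * z⁻¹ = ((s : Ω) * ((s : Ω)⁻¹ * z * s)) * z⁻¹ := by group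
      _ = s := by rw [h2]; group
  -- the adapted trivialization
  let H : Subgroup (S × S) := (⊤ : Subgroup S).prod (Subgroup.zpowers (⟨z, hzS⟩ : S))
  obtain ⟨γ', hγ'⟩ := exists_equivariant (H := H) (X := X) (Y := Bi S) (fun x => ⟨Bi.inn 1, by
    intro g hfix
    obtain ⟨⟨a, b⟩, hab⟩ := g
    have hb : b ∈ Subgroup.zpowers (⟨z, hzS⟩ : S) := hab.2
    obtain ⟨P, f, hf, hE⟩ := hg x
    obtain ⟨h1, h2⟩ := (hE (a, b)).1 hfix
    have hbc : (b : Ω) ∈ F.center := by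
      obtain ⟨i, rfl⟩ := hb
      rw [Subgroup.coe_zpow]
      exact zpow_mem hzc i
    have h3 : (a : Ω) = b := by rw [h2]; exact (center_fixed hbc).2 P f hf h1
    have h4 : a = b := Subtype.ext h3
    show (a * 1 * b⁻¹ : S) = 1
    rw [h4]; simp⟩)
  let γ : X → S := fun x => (γ' x).out
  have hγ : Triv γ := by
    intro a x
    have := hγ' ⟨(a, 1), Subgroup.mem_top _, one_mem _⟩ x
    have h2 := congrArg Bi.out this
    have h3 : γ ((a, (1 : S)) • x) = a * γ x * 1⁻¹ := h2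
    simpa using h3
  have hγz : ∀ x, γ (((⟨z, hzS⟩ : S), (⟨z, hzS⟩ : S)) • x) = γ x := by
    intro x
    have := hγ' ⟨(⟨z, hzS⟩, ⟨z, hzS⟩), Subgroup.mem_top _, Subgroup.mem_zpowers _⟩ x
    have h2 := congrArg Bi.out this
    have h3 : γ (((⟨z, hzS⟩ : S), (⟨z, hzS⟩ : S)) • x) = (⟨z, hzS⟩ : S) * γ x * (⟨z, hzS⟩ : S)⁻¹ := h2
    rw [h3, hzcen]
  -- the transfer
  let μ : S →* Abelianization S := Abelianization.of
  let V : S →* Abelianization S := MonoidHom.mk' (fun b => T μ γ (fun x : X => ((1 : S), b) • x))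
    (fun b b' => T_rgt_mul μ ⊤ (fun d _ s => map_mul μ d s) hγ b b' (fun _ => Subgroup.mem_top _))
  have hVst : ∀ (P : Subgroup Ω) (f : Ω → Ω), IsMap F P f → ∀ u : S, (u : Ω) ∈ P →
      V (lift f u) = V u := by
    intro P f hf u hu
    obtain ⟨e, he, heu⟩ := right_stable hst hf
    exact (T_eq_of_intertwine μ ⊤ (fun d _ s => map_mul μ d s) (fun d _ s => map_mul μ s d) hγ e he
      u (lift f u) (heu u hu) (fun _ => Subgroup.mem_top _) (fun _ => Subgroup.mem_top _)).symm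
  have hVfoc : F.focalSubgroup ≤ V.ker.map S.subtype := by
    unfold focalSubgroup
    rw [Subgroup.closure_le]
    rintro y ⟨P, φ, x, hφ, rfl⟩
    have hf := isMap_tot hφ
    have hxS : (x : Ω) ∈ S := hf.le x.2
    have h1 := hVst P _ hf ⟨x, hxS⟩ x.2
    refine ⟨(⟨x, hxS⟩ : S)⁻¹ * lift (tot φ) ⟨x, hxS⟩, ?_, ?_⟩
    · show V _ = 1
      rw [map_mul, map_inv, h1, inv_mul_cancel]
    · show (x : Ω)⁻¹ * ((lift (tot φ) ⟨x, hxS⟩ : S) : Ω) = _
      rw [lift_coe (hf.mem x.2)]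
      show _ * tot φ (x : Ω) = _
      rw [tot_apply]
  have hVz : V ⟨z, hzS⟩ = 1 := by
    obtain ⟨y, hy, hyz⟩ := hVfoc hzf
    have : y = ⟨z, hzS⟩ := Subtype.ext hyz
    rw [← this]; exact hy
  have hVz' : V ⟨z, hzS⟩ = (μ (⟨z, hzS⟩ : S)⁻¹) ^ Nat.card (X0 γ) := by
    rw [← finprod_const_X0]
    apply finprod_congr
    intro x
    have h1 : ((1 : S), (⟨z, hzS⟩ : S)) • x.1 =
        ((⟨z, hzS⟩ : S)⁻¹, (1 : S)) • ((⟨z, hzS⟩ : S), (⟨z, hzS⟩ : S)) • x.1 := by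
      rw [smul_smul]; simp
    show μ (γ (((1 : S), (⟨z, hzS⟩ : S)) • x.1)) = _
    rw [h1, hγ, hγz, x.2, mul_one]
  have hm : ¬ p ∣ Nat.card (X0 γ) := by
    intro hdvd
    apply hp
    rw [← card_X0 hγ, mul_comm]
    exact Nat.mul_dvd_mul_left _ hdvd
  have hμz : μ (⟨z, hzS⟩ : S)⁻¹ = 1 := by
    obtain ⟨k, hk⟩ := hS (⟨z, hzS⟩ : S)⁻¹
    have h1 : orderOf (μ (⟨z, hzS⟩ : S)⁻¹) ∣ p ^ k := by
      apply orderOf_dvd_of_pow_eq_one
      rw [← map_pow, hk, map_one]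
    have h2 : orderOf (μ (⟨z, hzS⟩ : S)⁻¹) ∣ Nat.card (X0 γ) := by
      apply orderOf_dvd_of_pow_eq_one
      rw [← hVz', hVz]
    have h3 : Nat.Coprime (p ^ k) (Nat.card (X0 γ)) :=
      Nat.Coprime.pow_left _ ((Nat.Prime.coprime_iff_not_dvd Fact.out).2 hm)
    exact orderOf_eq_one_iff.1 (Nat.eq_one_of_dvd_coprimes h3 h1 h2)
  have h5 : (⟨z, hzS⟩ : S)⁻¹ ∈ commutator S := by
    rw [← Abelianization.ker_of]; exact hμz
  rw [← Subgroup.map_subtype_commutator]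
  exact ⟨⟨z, hzS⟩, by simpa using h5, rfl⟩

end Cfsg.Agent.S5329
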