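import Cfsg.Statements.S5331
import Cfsg.Statements.S5331
import Cfsg.Agent.Lib.Helper90Abelian
import Cfsg.Agent.Lib.Helper90Inner
-- import your own Cfsg.Agent.* helpers here

set_option autoImplicit false
open Cfsg

namespace Cfsg.Agent.S5331

open Cfsg.FusionSystem Cfsg.Agent.Lib.Helper87Fusion Cfsg.Agent.Lib.Helper90Abelian
  Cfsg.Agent.Lib.Helper90Inner

/-- `Ω₁(A) ∩ A^(2^k)` as a predicate. -/
def VV {A : Type*} [Group A] (k : ℕ) (x : A) : Prop := x ^ 2 = 1 ∧ ∃ y : A, x = y ^ (2 ^ k)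

theorem VV_map {A B : Type*} [Group A] [Group B] (f : A ≃* B) {k : ℕ} {x : A} :
    VV k (f x) ↔ VV k x := by
  constructor
  · rintro ⟨h1, y, hy⟩
    refine ⟨f.injective (by rw [map_pow, h1, map_one]), f.symm y, f.injective ?_⟩
    rw [hy, map_pow, MulEquiv.apply_symm_apply]
  · rintro ⟨h1, y, hy⟩
    exact ⟨by rw [← map_pow, h1, map_one], f y, by rw [hy, map_pow]⟩

theorem odd_aut_trivial {A : Type*} [CommGroup A] [Finite A] (h2 : IsPGroup 2 A)
    (hK : ∀ (k : ℕ) (x y : A), VV k x → VV k y → VV (k + 1) (x⁻¹ * y) ∨ VV (k + 1) x ∨ VV (k + 1) y)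
    (H : Subgroup (MulAut A)) (hodd : (Nat.card A).Coprime (Nat.card H)) : H = ⊥ := by
  obtain ⟨hinf, hsup⟩ := coprime_split_comm H hodd
  obtain ⟨K, hKc⟩ := IsPGroup.iff_card.1 h2
  have step : ∀ d k : ℕ, k + d = K → ∀ x : A, VV k x → x ∈ fixedSub H := by
    intro d
    induction d with
    | zero =>
      rintro k rfl x ⟨-, y, rfl⟩
      rw [add_zero] at hKc
      rw [← hKc, pow_card_eq_one']
      exact Subgroup.one_mem _
    | succ d ih =>
      intro k hk x hx α hα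
      have ih' := ih (k + 1) (by omega)
      have hαx : VV k (α x) := (VV_map α).2 hx
      rcases hK k x (α x) hx hαx with h | h | h
      · have h3 : x⁻¹ * α x ∈ fixedSub H ⊓ commSub H :=
          ⟨ih' _ h, Subgroup.subset_closure ⟨α, hα, x, rfl⟩⟩
        rw [hinf, Subgroup.mem_bot] at h3
        exact (inv_mul_eq_one.1 h3).symm
      · exact ih' x h α hα
      · have h3 := ih' _ h α⁻¹ (H.inv_mem hα)
        rw [MulAut.inv_apply_self] at h3
        exact h3.symm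
  have hcomm : commSub H = ⊥ := by
    by_contra hne
    obtain ⟨⟨y, hy⟩, hy1'⟩ := (Subgroup.ne_bot_iff_exists_ne_one).1 hne
    have hy1 : y ≠ 1 := fun h' => hy1' (Subtype.ext h')
    obtain ⟨j, hj⟩ := (IsPGroup.iff_orderOf.1 h2) y
    have hj0 : j ≠ 0 := by
      rintro rfl
      rw [pow_zero, orderOf_eq_one_iff] at hj
      exact hy1 hj
    obtain ⟨i, rfl⟩ := Nat.exists_eq_succ_of_ne_zero hj0
    have hz1 : y ^ (2 ^ i) ≠ 1 := by
      apply pow_ne_one_of_lt_orderOf (by positivity)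
      rw [hj]
      exact Nat.pow_lt_pow_right (by norm_num) (Nat.lt_succ_self i)
    have hz2 : (y ^ (2 ^ i)) ^ 2 = 1 := by
      rw [← pow_mul, ← pow_succ, ← hj, pow_orderOf_eq_one]
    have hz3 : y ^ (2 ^ i) ∈ fixedSub H ⊓ commSub H :=
      ⟨step K 0 (by omega) _ ⟨hz2, y ^ (2 ^ i), by simp⟩, Subgroup.pow_mem _ hy _⟩
    rw [hinf, Subgroup.mem_bot] at hz3
    exact hz1 hz3
  rw [eq_bot_iff]
  intro α hα
  rw [Subgroup.mem_bot]
  ext x
  have h3 : x⁻¹ * α x ∈ commSub H := Subgroup.subset_closure ⟨α, hα, x, rfl⟩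
  rw [hcomm, Subgroup.mem_bot] at h3
  exact (inv_mul_eq_one.1 h3).symm

theorem pow_nsmul_zmod (a : ℕ) (x : ZMod (2 ^ a)) : (2 ^ a) • x = 0 := by
  rw [nsmul_eq_mul, ZMod.natCast_self, zero_mul]

theorem lemA (a k : ℕ) (z w : ZMod (2 ^ a)) (h2 : 2 • z = 0) (hz : z = (2 ^ k) • w)
    (hne : a ≠ k + 1) : ∃ w' : ZMod (2 ^ a), z = (2 ^ (k + 1)) • w' := by
  rcases lt_or_ge k a with h | h
  · have : NeZero (2 ^ a) := ⟨by positivity⟩
    obtain ⟨v, rfl⟩ : ∃ v : ℕ, w = (v : ZMod (2 ^ a)) := ⟨w.val, (ZMod.natCast_zmod_val w).symm⟩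
    subst hz
    have h3 : ((2 ^ (k + 1) * v : ℕ) : ZMod (2 ^ a)) = 0 := by
      rw [← h2]
      simp only [nsmul_eq_mul]
      push_cast
      ring
    rw [ZMod.natCast_eq_zero_iff] at h3
    obtain ⟨c, rfl⟩ : ∃ c, a = k + 1 + (c + 1) := ⟨a - k - 2, by omega⟩
    rw [pow_add] at h3
    have h4 : 2 ^ (c + 1) ∣ v := Nat.dvd_of_mul_dvd_mul_left (by positivity) h3
    obtain ⟨u, rfl⟩ : 2 ∣ v := dvd_trans (dvd_pow_self 2 (by omega)) h4
    refine ⟨(u : ZMod _), ?_⟩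
    simp only [nsmul_eq_mul]
    push_cast
    ring
  · refine ⟨0, ?_⟩
    obtain ⟨c, rfl⟩ := Nat.exists_eq_add_of_le h
    rw [hz, smul_zero, pow_add, mul_comm, mul_smul, pow_nsmul_zmod, smul_zero]

theorem lemB (a : ℕ) (z : ZMod (2 ^ a)) (h2 : 2 • z = 0) (hz : z ≠ 0) :
    z = ((2 ^ (a - 1) : ℕ) : ZMod (2 ^ a)) := by
  have : NeZero (2 ^ a) := ⟨by positivity⟩
  have hv := ZMod.val_lt z
  have hzv : z = (z.val : ZMod (2 ^ a)) := (ZMod.natCast_zmod_val z).symm
  set v := z.val with hvdef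
  have hv0 : v ≠ 0 := by
    intro h
    rw [h] at hzv
    exact hz (by rw [hzv]; simp)
  have h3 : ((2 * v : ℕ) : ZMod (2 ^ a)) = 0 := by
    rw [← h2, hzv]
    simp only [nsmul_eq_mul]
    push_cast
    ring
  rw [ZMod.natCast_eq_zero_iff] at h3
  rcases Nat.eq_zero_or_pos a with rfl | ha
  · simp at hv
    omega
  obtain ⟨b, rfl⟩ : ∃ b, a = b + 1 := ⟨a - 1, by omega⟩
  rw [pow_succ, mul_comm] at h3
  obtain ⟨c, hc⟩ := Nat.dvd_of_mul_dvd_mul_left (by norm_num) h3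
  have hc1 : c = 1 := by
    rw [hc, pow_succ] at hv
    have hc2 : c < 2 := Nat.lt_of_mul_lt_mul_left hv
    have hc0 : c ≠ 0 := by
      rintro rfl
      exact hv0 (by rw [hc]; simp)
    omega
  rw [hzv, hc, hc1]
  simp

/-- additive version of `VV`. -/
def VA {M : Type*} [AddGroup M] (k : ℕ) (x : M) : Prop := 2 • x = 0 ∧ ∃ y : M, x = (2 ^ k) • y

theorem VA_succ_of {n : ℕ} (a : Fin n → ℕ) (k : ℕ) (u : (i : Fin n) → ZMod (2 ^ a i))
    (hu : VA k u) (h0 : ∀ i, a i = k + 1 → u i = 0) : VA (k + 1) u := by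
  obtain ⟨h2, w, hw⟩ := hu
  refine ⟨h2, ?_⟩
  have : ∀ i, ∃ w' : ZMod (2 ^ a i), u i = (2 ^ (k + 1)) • w' := by
    intro i
    by_cases hi : a i = k + 1
    · exact ⟨0, by rw [h0 i hi, smul_zero]⟩
    · exact lemA (a i) k (u i) (w i) (congrFun h2 i) (congrFun hw i) hi
  choose w' hw' using this
  exact ⟨w', funext hw'⟩

theorem hK_add {n : ℕ} (a : Fin n → ℕ) (ha : StrictMono a) (k : ℕ)
    (x y : (i : Fin n) → ZMod (2 ^ a i)) (hx : VA k x) (hy : VA k y) :
    VA (k + 1) (-x + y) ∨ VA (k + 1) x ∨ VA (k + 1) y := by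
  by_contra hcon
  rw [not_or, not_or] at hcon
  obtain ⟨h1, h2, h3⟩ := hcon
  have hxi : ∃ i, a i = k + 1 ∧ x i ≠ 0 := by
    by_contra h
    apply h2
    apply VA_succ_of a k x hx
    intro i hi
    by_contra h'
    exact h ⟨i, hi, h'⟩
  have hyi : ∃ i, a i = k + 1 ∧ y i ≠ 0 := by
    by_contra h
    apply h3
    apply VA_succ_of a k y hy
    intro i hi
    by_contra h'
    exact h ⟨i, hi, h'⟩
  obtain ⟨i, hi, hxi⟩ := hxi
  obtain ⟨j, hj, hyj⟩ := hyi
  obtain rfl : i = j := ha.injective (hi.trans hj.symm)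
  apply h1
  apply VA_succ_of a k
  · obtain ⟨hx2, w, hw⟩ := hx
    obtain ⟨hy2, w', hw'⟩ := hy
    refine ⟨?_, -w + w', ?_⟩
    · rw [smul_add, smul_neg, hx2, hy2]; simp
    · rw [smul_add, smul_neg, ← hw, ← hw']
  · intro l hl
    obtain rfl : l = i := ha.injective (hl.trans hi.symm)
    show -x l + y l = 0
    rw [lemB _ (x l) (congrFun hx.1 l) hxi, lemB _ (y l) (congrFun hy.1 l) hyj]
    simp

theorem VV_iff_VA {M : Type*} [AddGroup M] (k : ℕ) (x : Multiplicative M) :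
    VV k x ↔ VA k (Multiplicative.toAdd x) := Iff.rfl

theorem odd_aut_trivial' {A : Type*} [Group A] [Finite A] (hcomm : ∀ a b : A, a * b = b * a)
    (h2 : IsPGroup 2 A)
    (hK : ∀ (k : ℕ) (x y : A), VV k x → VV k y → VV (k + 1) (x⁻¹ * y) ∨ VV (k + 1) x ∨ VV (k + 1) y)
    (H : Subgroup (MulAut A)) (hodd : (Nat.card A).Coprime (Nat.card H)) : H = ⊥ := by
  let _ : CommGroup A := { (inferInstance : Group A) with mul_comm := hcomm }
  exact odd_aut_trivial h2 hK H hodd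

/-- Let S be a finite abelian 2-group that is a direct product of cyclic groups of pairwise distinct orders 2^{a_1} < 2^{a_2} < ⋯ < 2^{a_n} (all a_i ≥ 1). Then every saturated fusion system over S is the inner one: its maps are exactly the conjugations by elements of S. -/
theorem result {Ω : Type*} [Group Ω] {S : Subgroup Ω} [Finite S] (n : ℕ) (a : Fin n → ℕ) (ha : StrictMono a) (ha1 : ∀ i, 1 ≤ a i) (e : ↥S ≃* Multiplicative ((i : Fin n) → ZMod (2 ^ a i))) (F : Cfsg.FusionSystem S) (hF : F.IsSaturated 2) (P : Subgroup Ω) : F.Hom P = (Cfsg.innerFusionSystem S).Hom P := by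
  have hcomm : ∀ x y : S, x * y = y * x := by
    intro x y
    apply e.injective
    rw [map_mul, map_mul, mul_comm]
  have hab : ∀ x ∈ S, ∀ y ∈ S, x * y = y * x := fun x hx y hy =>
    congrArg Subtype.val (hcomm ⟨x, hx⟩ ⟨y, hy⟩)
  have hS : IsPGroup 2 S := by
    intro g
    refine ⟨∑ i, a i, e.injective ?_⟩
    rw [map_pow, map_one]
    apply Multiplicative.toAdd.injective
    show (2 ^ (∑ i, a i)) • Multiplicative.toAdd (e g) = 0
    funext i
    show (2 ^ (∑ i, a i)) • (Multiplicative.toAdd (e g) i) = 0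
    obtain ⟨c, hc⟩ := Nat.exists_eq_add_of_le
      (Finset.single_le_sum (f := a) (fun _ _ => Nat.zero_le _) (Finset.mem_univ i))
    rw [hc, pow_add, mul_comm, mul_smul, pow_nsmul_zmod, smul_zero]
  have hK : ∀ (k : ℕ) (x y : S), VV k x → VV k y →
      VV (k + 1) (x⁻¹ * y) ∨ VV (k + 1) x ∨ VV (k + 1) y := by
    intro k x y hx hy
    rw [← VV_map e, ← VV_map e (x := x), ← VV_map e (x := y)]
    rw [← VV_map e] at hx hy
    rw [map_mul, map_inv]
    exact hK_add a ha k _ _ hx hy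
  have hbot : F.autGroup S = ⊥ := odd_aut_trivial' hcomm hS hK _
    (coprime_autGroup_top_of_abelian 2 hS F hF hab)
  apply Set.Subset.antisymm
  · intro φ hφ
    obtain ⟨α, hα, h⟩ := extend_of_abelian 2 hS F hF hab (isMap_tot hφ)
    rw [hbot, Subgroup.mem_bot] at hα
    subst hα
    refine ⟨(F.le_of_mem hφ).1, 1, S.one_mem, fun x => ?_⟩
    have := h x x.2
    rw [tot_apply] at this
    rw [← this]
    simp
  · exact inner_le F P

end Cfsg.Agent.S5331
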