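import Cfsg.Statements.S5521
import Cfsg.Agent.Lib.Helper9M24Order

set_option autoImplicit false
open Cfsg

namespace Cfsg.Agent.S5521

open Cfsg.Agent.Lib.Helper9Golay Cfsg.Agent.Lib.Helper9Chain Cfsg.Agent.Lib.Helper9M24Data
  Cfsg.Agent.Lib.Helper9M24Order

theorem part1 (B : Finset Cfsg.GolayPt) (hB : B.card ≤ 6) :
    ∃ g ∈ Cfsg.M24, g ≠ 1 ∧ ∀ b ∈ B, g b = b := by
  by_contra hcon
  push Not at hcon
  let f : Cfsg.M24 → (B ↪ Cfsg.GolayPt) := fun g =>
    ⟨fun b => (g : Equiv.Perm Cfsg.GolayPt) b, fun b c h => Subtype.ext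
      ((g : Equiv.Perm Cfsg.GolayPt).injective h)⟩
  have hf : Function.Injective f := by
    intro g h hgh
    have h1 : ∀ b ∈ B, ((h⁻¹ * g : Cfsg.M24) : Equiv.Perm Cfsg.GolayPt) b = b := by
      intro b hb
      have := congrArg (fun e : B ↪ Cfsg.GolayPt => e ⟨b, hb⟩) hgh
      have h' : (g : Equiv.Perm Cfsg.GolayPt) b = (h : Equiv.Perm Cfsg.GolayPt) b := this
      simp only [Subgroup.coe_mul, Subgroup.coe_inv, Equiv.Perm.mul_apply, h']
      simp
    have h2 : ((h⁻¹ * g : Cfsg.M24) : Equiv.Perm Cfsg.GolayPt) = 1 := by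
      by_contra hne
      obtain ⟨b, hb, hb'⟩ := hcon _ (h⁻¹ * g : Cfsg.M24).2 hne
      exact hb' (h1 b hb)
    have h3 : h⁻¹ * g = 1 := Subtype.ext h2
    exact (inv_mul_eq_one.mp h3).symm
  have hcard := Nat.card_le_card_of_injective f hf
  rw [card_M24, Nat.card_eq_fintype_card, Fintype.card_embedding_eq] at hcard
  have h24 : Fintype.card Cfsg.GolayPt = 24 := by decide
  rw [h24, Fintype.card_coe] at hcard
  have : Nat.descFactorial 24 B.card ≤ 96909120 := by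
    generalize B.card = k at hB
    interval_cases k <;> decide
  omega

theorem result :
    (∀ B : Finset Cfsg.GolayPt, B.card ≤ 6 → ∃ g ∈ Cfsg.M24, g ≠ 1 ∧ ∀ b ∈ B, g b = b) ∧
    (∃ B : Finset Cfsg.GolayPt, B.card = 7 ∧ ∀ g ∈ Cfsg.M24, (∀ b ∈ B, g b = b) → g = 1) := by
  refine ⟨part1, ([4, 5, 3, 2, 1, 0, 23].map pt).toFinset, by decide, ?_⟩
  intro g hg hfix
  have : g ∈ Cfsg.M24 ⊓ Fx [4, 5, 3, 2, 1, 0, 23] := by
    refine ⟨hg, ?_⟩
    intro f hf
    apply hfix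
    rw [List.mem_toFinset]
    exact List.mem_map_of_mem hf
  rw [trivial_stab] at this
  exact Subgroup.mem_bot.mp this

end Cfsg.Agent.S5521
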