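import Cfsg.Statements.S5562
import Mathlib

set_option autoImplicit false
open Cfsg

namespace Cfsg.Agent.S5562

variable {G : Type*} [Group G]

theorem sq_one {x : G} (hx : orderOf x = 2) : x * x = 1 := by
  have := pow_orderOf_eq_one x
  rwa [hx, pow_two] at this

theorem inv_self {x : G} (hx : x * x = 1) : x⁻¹ = x := inv_eq_of_mul_eq_one_left hx

theorem e_pow {e r : G} (h : e * r = r⁻¹ * e) (j : ℕ) : e * r ^ j = (r ^ j)⁻¹ * e := by
  induction j with
  | zero => simp
  | succ n ih =>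
    calc e * r ^ (n+1) = e * r ^ n * r := by rw [pow_succ, mul_assoc]
      _ = (r ^ n)⁻¹ * (e * r) := by rw [ih, mul_assoc]
      _ = (r ^ n)⁻¹ * (r⁻¹ * e) := by rw [h]
      _ = (r ^ (n+1))⁻¹ * e := by rw [pow_succ', mul_inv_rev, mul_assoc]

theorem e_pow_inv {e r : G} (h : e * r = r⁻¹ * e) (j : ℕ) : e * (r ^ j)⁻¹ = r ^ j * e := by
  have h1 := e_pow h j
  have : r ^ j * (e * r ^ j) = e := by rw [h1]; group
  calc e * (r ^ j)⁻¹ = (r ^ j * (e * r ^ j)) * (r ^ j)⁻¹ := by rw [this]
    _ = r ^ j * e := by group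

theorem conj_pow {e r : G} (h : e * r = r⁻¹ * e) (j : ℕ) :
    r ^ j * e * (r ^ j)⁻¹ = r ^ (2 * j) * e := by
  rw [mul_assoc, e_pow_inv h j, ← mul_assoc, ← pow_add, two_mul]

theorem mem_conj {d e : G} (he : e ∈ conjugatesOf d) (g : G) : g * e * g⁻¹ ∈ conjugatesOf d := by
  have he' : IsConj d e := he
  exact (he'.trans (isConj_iff.mpr ⟨g, rfl⟩) : IsConj d (g * e * g⁻¹))

theorem orderOf_mem_conj {d e : G} (he : e ∈ conjugatesOf d) : orderOf e = orderOf d := by
  have he' : IsConj d e := he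
  rw [isConj_iff] at he'
  obtain ⟨c, rfl⟩ := he'
  have := orderOf_injective (MulAut.conj c).toMonoidHom (MulAut.conj c).injective d
  simpa using this

theorem inverts_pow {r w : G} (h : r * w * r⁻¹ = w⁻¹) (j : ℕ) :
    r ^ (2 * j + 1) * w * (r ^ (2 * j + 1))⁻¹ = w⁻¹ := by
  induction j with
  | zero => simpa using h
  | succ n ih =>
    have e1 : r ^ (2 * (n + 1) + 1) = r * r * r ^ (2 * n + 1) := by
      rw [show 2 * (n + 1) + 1 = 1 + 1 + (2 * n + 1) by ring, pow_add, pow_add, pow_one]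
    rw [e1]
    calc r * r * r ^ (2 * n + 1) * w * (r * r * r ^ (2 * n + 1))⁻¹
        = r * (r * (r ^ (2 * n + 1) * w * (r ^ (2 * n + 1))⁻¹) * r⁻¹) * r⁻¹ := by group
      _ = r * (r * w⁻¹ * r⁻¹) * r⁻¹ := by rw [ih]
      _ = r * (r * w * r⁻¹)⁻¹ * r⁻¹ := by group
      _ = w⁻¹ := by rw [h, inv_inv, h]

theorem eq_one_of_odd_of_sq {w : G} (hodd : Odd (orderOf w)) (h : w * w = 1) : w = 1 := by
  have h2 : orderOf w ∣ 2 := orderOf_dvd_of_pow_eq_one (by rw [pow_two, h])
  have : orderOf w = 1 := by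
    rcases (Nat.dvd_prime Nat.prime_two).mp h2 with h1 | h1
    · exact h1
    · rw [h1] at hodd; exact absurd hodd (by decide)
  exact orderOf_eq_one_iff.mp this

theorem result {G : Type*} [Group G] [Finite G] (d : G) (hd : orderOf d = 2)
    (hodd : ∀ a ∈ conjugatesOf d, ∀ b ∈ conjugatesOf d, Odd (orderOf (a * b)))
    (x : G) (hx : orderOf x = 2) :
    ∀ e ∈ conjugatesOf d,
      ∃! a : G, a ∈ conjugatesOf d ∧ Commute a x ∧ Commute e (a * x) := by
  intro e he
  have hxx : x * x = 1 := sq_one hx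
  have hsq : ∀ a ∈ conjugatesOf d, a * a = 1 := fun a ha =>
    sq_one ((orderOf_mem_conj ha).trans hd)
  have hee : e * e = 1 := hsq e he
  have hexist : ∃ a : G, a ∈ conjugatesOf d ∧ Commute a x ∧ Commute e (a * x) := by
    set r := e * x with hr
    have hrinv : r⁻¹ = x * e := by
      rw [hr, mul_inv_rev, inv_self hxx, inv_self hee]
    have her : e * r = r⁻¹ * e := by
      rw [hrinv, hr, ← mul_assoc, hee, one_mul, mul_assoc, hee, mul_one]
    have hxe : x = r⁻¹ * e := by rw [hrinv, mul_assoc, hee, mul_one]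
    have hN : 0 < orderOf r := orderOf_pos r
    rcases Nat.even_or_odd' (orderOf r) with ⟨n, hn | hn⟩
    · -- even order 2n
      have hz2 : r ^ n * r ^ n = 1 := by
        rw [← pow_add, ← two_mul, ← hn, pow_orderOf_eq_one]
      have hz1 : r ^ n ≠ 1 := by
        intro h
        have := orderOf_dvd_of_pow_eq_one h
        have := Nat.le_of_dvd (by omega) this
        omega
      have hzinv : (r ^ n)⁻¹ = r ^ n := inv_self hz2
      rcases Nat.even_or_odd' n with ⟨m, hm | hm⟩
      · exfalso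
        have h1 := conj_pow her m
        have h2 : r ^ m * e * (r ^ m)⁻¹ ∈ conjugatesOf d := mem_conj he _
        have h3 := hodd _ h2 e he
        rw [h1, ← hm, mul_assoc, hee, mul_one] at h3
        exact hz1 (eq_one_of_odd_of_sq h3 hz2)
      · refine ⟨r ^ m * e * (r ^ m)⁻¹, mem_conj he _, ?_, ?_⟩
        · rw [conj_pow her m]
          have h1 : r ^ (2 * m) * e * x = r ^ n := by
            rw [mul_assoc, ← hr, ← pow_succ, ← hm]
          have h2 : x * (r ^ (2 * m) * e) = r ^ n := by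
            have : x * (r ^ (2 * m) * e) = (r ^ (2 * m) * e * x)⁻¹ := by
              rw [mul_inv_rev, mul_inv_rev, inv_self hxx, inv_self hee]
              rw [e_pow_inv her (2 * m)]
            rw [this, h1, hzinv]
          show r ^ (2 * m) * e * x = x * (r ^ (2 * m) * e)
          rw [h1, h2]
        · rw [conj_pow her m]
          have h1 : r ^ (2 * m) * e * x = r ^ n := by
            rw [mul_assoc, ← hr, ← pow_succ, ← hm]
          rw [h1]
          show e * r ^ n = r ^ n * e
          rw [e_pow her n, hzinv]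
    · -- odd order 2n+1
      have h1 := conj_pow her n
      have h2 : r ^ (2 * n) = r⁻¹ := by
        apply eq_inv_of_mul_eq_one_left
        rw [← pow_succ, ← hn, pow_orderOf_eq_one]
      rw [h2, ← hxe] at h1
      have hxD : x ∈ conjugatesOf d := by rw [← h1]; exact mem_conj he _
      refine ⟨x, hxD, Commute.refl x, ?_⟩
      rw [hxx]
      exact Commute.one_right e
  obtain ⟨a, ha⟩ := hexist
  refine ⟨a, ha, ?_⟩
  rintro a' ⟨ha'D, ha'x, ha'e⟩
  obtain ⟨haD, hax, hae⟩ := ha
  have haa := hsq a haD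
  have ha'a' := hsq a' ha'D
  set w := a' * a with hw
  have hwodd : Odd (orderOf w) := hodd a' ha'D a haD
  have hwt : w = (a' * x) * (a * x) := by
    have : a * x = x * a := hax
    rw [this, mul_assoc, ← mul_assoc x x a, hxx, one_mul]
  have hew : Commute e w := by rw [hwt]; exact ha'e.mul_right hae
  have hwinv : w⁻¹ = a * a' := by rw [hw, mul_inv_rev, inv_self haa, inv_self ha'a']
  have haw : a * w * a⁻¹ = w⁻¹ := by
    rw [hwinv, inv_self haa, hw, mul_assoc, mul_assoc, haa, mul_one]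
  have hrw : (e * a) * w * (e * a)⁻¹ = w⁻¹ := by
    have : (e * a) * w * (e * a)⁻¹ = e * (a * w * a⁻¹) * e⁻¹ := by group
    rw [this, haw]
    have h2 : e * w⁻¹ = w⁻¹ * e := (hew.inv_right).eq
    rw [h2, mul_assoc, mul_inv_cancel, mul_one]
  obtain ⟨k, hk⟩ := hodd e he a haD
  have h3 := inverts_pow hrw k
  rw [← hk, pow_orderOf_eq_one] at h3
  simp only [one_mul, inv_one, mul_one] at h3
  have hww : w * w = 1 := by
    nth_rewrite 1 [h3]
    exact inv_mul_cancel w
  have hw1 := eq_one_of_odd_of_sq hwodd hww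
  have : a' = a⁻¹ := eq_inv_of_mul_eq_one_left hw1
  rw [this, inv_self haa]

end Cfsg.Agent.S5562
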