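import Cfsg.Statements.S5729
-- import your own Cfsg.Agent.* helpers here

set_option autoImplicit false
open Cfsg

namespace Cfsg.Agent.S5729


open MulAction

section aux

variable {G Ω : Type*} [Group G] [Fintype G] [MulAction G Ω] [Fintype Ω] [DecidableEq Ω]

theorem sum_fix (htr : IsPretransitive G Ω) [Nonempty Ω] :
    ∑ g : G, Fintype.card (fixedBy Ω g) = Fintype.card G := by
  classical
  have h := sum_card_fixedBy_eq_card_orbits_mul_card_group G Ω
  have hu : Nonempty (Unique (Quotient (orbitRel G Ω))) :=
    (pretransitive_iff_unique_quotient_of_nonempty G Ω).mp htr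
  obtain ⟨u⟩ := hu
  have h1 : Fintype.card (Quotient (orbitRel G Ω)) = 1 := Fintype.card_eq_one_iff_nonempty_unique.mpr ⟨u⟩
  rw [h, h1, one_mul]

omit [Fintype G] in
theorem card_fix_prod (g : G) :
    Fintype.card (fixedBy (Ω × Ω) g) = Fintype.card (fixedBy Ω g) ^ 2 := by
  classical
  rw [sq, ← Fintype.card_prod]
  refine Fintype.card_congr ⟨fun x => (⟨x.1.1, ?_⟩, ⟨x.1.2, ?_⟩), fun y => ⟨(y.1.1, y.2.1), ?_⟩, ?_, ?_⟩
  · have := x.2
    simp only [mem_fixedBy, Prod.ext_iff, Prod.smul_fst] at this ⊢
    exact this.1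
  · have := x.2
    simp only [mem_fixedBy, Prod.ext_iff, Prod.smul_snd] at this ⊢
    exact this.2
  · have h1 := y.1.2
    have h2 := y.2.2
    simp only [mem_fixedBy] at h1 h2 ⊢
    exact Prod.ext h1 h2
  · intro x; rfl
  · intro y; rfl

theorem sum_fix_sq (hn : 2 ≤ Fintype.card Ω) :
    2 * Fintype.card G ≤ ∑ g : G, Fintype.card (fixedBy Ω g) ^ 2 := by
  classical
  have h := sum_card_fixedBy_eq_card_orbits_mul_card_group G (Ω × Ω)
  simp only [card_fix_prod] at h
  rw [h]
  refine Nat.mul_le_mul_right _ ?_
  obtain ⟨a, b, hab⟩ := Fintype.exists_pair_of_one_lt_card (α := Ω) (by omega)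
  have : 1 < Fintype.card (Quotient (orbitRel G (Ω × Ω))) := by
    rw [Fintype.one_lt_card_iff]
    refine ⟨Quotient.mk'' (a, a), Quotient.mk'' (a, b), ?_⟩
    intro heq
    have h2 : (orbitRel G (Ω × Ω)) (a, a) (a, b) := Quotient.exact heq
    rw [orbitRel_apply] at h2
    obtain ⟨g, hg⟩ := h2
    simp only [Prod.smul_mk, Prod.mk.injEq] at hg
    exact hab (smul_left_cancel g (hg.1.trans hg.2.symm))
  exact this

end aux

/-- Let a finite group G act faithfully and transitively on a set with n ≥ 3 points. Then either G is a Frobenius permutation group (Frobenius as a permutation group: transitive, some non-identity element fixes a point, and no non-identity element fixes two points) of order n(n − 1) and exactly |G|/n of its elements are derangements (fix no point), or the number of derangements is greater than |G|/n. -/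
theorem result {G Ω : Type*} [Group G] [Finite G] [MulAction G Ω] [FaithfulSMul G Ω] [Fintype Ω] (htr : MulAction.IsPretransitive G Ω) (hn : 3 ≤ Fintype.card Ω) :
    ((MulAction.IsPretransitive G Ω ∧ (∃ g : G, g ≠ 1 ∧ ∃ ω : Ω, g • ω = ω) ∧ ∀ g : G, g ≠ 1 → Nat.card (MulAction.fixedBy Ω g) ≤ 1) ∧ Nat.card G = Fintype.card Ω * (Fintype.card Ω - 1) ∧ Fintype.card Ω * Nat.card {g : G // ∀ ω : Ω, g • ω ≠ ω} = Nat.card G) ∨
    Nat.card G < Fintype.card Ω * Nat.card {g : G // ∀ ω : Ω, g • ω ≠ ω} := by
  classical
  have : Fintype G := Fintype.ofFinite G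
  have : Nonempty Ω := Fintype.card_pos_iff.mp (by omega)
  set n := Fintype.card Ω with hndef
  set χ : G → ℕ := fun g => Fintype.card (fixedBy Ω g) with hχ
  have hcardχ : ∀ g : G, Nat.card (fixedBy Ω g) = χ g := fun g => Nat.card_eq_fintype_card
  have hχle : ∀ g, χ g ≤ n := fun g => Fintype.card_subtype_le _
  have hχ0 : ∀ g : G, χ g = 0 ↔ ∀ ω : Ω, g • ω ≠ ω := by
    intro g
    rw [hχ]
    simp only [Fintype.card_eq_zero_iff, isEmpty_subtype, mem_fixedBy]
  have hχn : ∀ g : G, χ g = n → g = 1 := by
    intro g hg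
    apply FaithfulSMul.eq_of_smul_eq_smul (α := Ω)
    intro ω
    rw [one_smul]
    have h1 : (fixedBy Ω g) = Set.univ := by
      rw [← Set.toFinset_inj, Set.toFinset_univ]
      apply Finset.eq_univ_of_card
      rw [Set.toFinset_card]
      exact hg
    have : ω ∈ fixedBy Ω g := by rw [h1]; trivial
    exact this
  have hχ1 : χ 1 = n := by
    show Fintype.card (fixedBy Ω (1 : G)) = Fintype.card Ω
    exact Fintype.card_congr ⟨fun x => x.1, fun ω => ⟨ω, one_smul G ω⟩, fun x => rfl, fun ω => rfl⟩
  set D : Finset G := Finset.univ.filter (fun g => χ g = 0) with hD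
  have hDcard : Nat.card {g : G // ∀ ω : Ω, g • ω ≠ ω} = D.card := by
    rw [Nat.card_eq_fintype_card, Fintype.card_subtype, hD]
    congr 1
    ext g
    simp only [Finset.mem_filter, Finset.mem_univ, true_and, hχ0]
  rw [hDcard, Nat.card_eq_fintype_card]
  have s1 : ∑ g : G, χ g = Fintype.card G := sum_fix htr
  have s2 : 2 * Fintype.card G ≤ ∑ g : G, χ g ^ 2 := sum_fix_sq (by omega)
  have s1' : ∑ g : G, (χ g : ℤ) = Fintype.card G := by exact_mod_cast s1
  have s2' : 2 * (Fintype.card G : ℤ) ≤ ∑ g : G, (χ g : ℤ) ^ 2 := by exact_mod_cast s2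
  set f : G → ℤ := fun g => ((χ g : ℤ) - 1) * ((χ g : ℤ) - n) with hf
  set h : G → ℤ := fun g => if χ g = 0 then (n : ℤ) else 0 with hh
  have hfh : ∀ g ∈ (Finset.univ : Finset G), f g ≤ h g := by
    intro g _
    simp only [hf, hh]
    split_ifs with h0
    · rw [h0]; simp
    · have h1 : (1 : ℤ) ≤ χ g := by exact_mod_cast Nat.one_le_iff_ne_zero.mpr h0
      have h2 : (χ g : ℤ) ≤ n := by exact_mod_cast hχle g
      nlinarith
  have sf : ∑ g : G, f g = ∑ g : G, (χ g : ℤ) ^ 2 - (n + 1) * ∑ g : G, (χ g : ℤ) + n * Fintype.card G := by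
    simp only [hf]
    rw [Finset.mul_sum, ← Finset.sum_sub_distrib]
    have : (n : ℤ) * Fintype.card G = ∑ _g : G, (n : ℤ) := by
      simp [Finset.sum_const, mul_comm]
    rw [this, ← Finset.sum_add_distrib]
    refine Finset.sum_congr rfl fun g _ => ?_
    ring
  have sh : ∑ g : G, h g = n * D.card := by
    simp only [hh]
    rw [← Finset.sum_filter, Finset.sum_const, nsmul_eq_mul, mul_comm]
  have hle : ∑ g : G, f g ≤ ∑ g : G, h g := Finset.sum_le_sum hfh
  have hfge : (Fintype.card G : ℤ) ≤ ∑ g : G, f g := by
    rw [sf, s1']; nlinarith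
  by_cases hlt : Fintype.card G < n * D.card
  · exact Or.inr hlt
  · left
    have hlt' : (n : ℤ) * D.card ≤ Fintype.card G := by
      have := not_lt.mp hlt
      exact_mod_cast this
    have heq : ∑ g : G, f g = ∑ g : G, h g := le_antisymm hle (by rw [sh]; linarith)
    have hnD : n * D.card = Fintype.card G := by
      have : (n : ℤ) * D.card = Fintype.card G := by rw [sh] at hle; linarith
      exact_mod_cast this
    have hpt := (Finset.sum_eq_sum_iff_of_le hfh).mp heq
    have hfrob : ∀ g : G, g ≠ 1 → χ g ≤ 1 := by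
      intro g hg
      by_contra hcon
      have h0 : χ g ≠ 0 := by omega
      have := hpt g (Finset.mem_univ g)
      simp only [hf, hh, if_neg h0] at this
      rcases mul_eq_zero.mp this with h1 | h1
      · have : (χ g : ℤ) = 1 := by linarith
        have : χ g = 1 := by exact_mod_cast this
        omega
      · have : (χ g : ℤ) = n := by linarith
        have : χ g = n := by exact_mod_cast this
        exact hg (hχn g this)
    have hDn : D.card + 1 = n := by
      have e : ∑ g : G, (χ g + (if χ g = 0 then 1 else 0)) = ∑ g : G, (1 + (if g = 1 then (n - 1) else 0)) := by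
        refine Finset.sum_congr rfl fun g _ => ?_
        by_cases hg : g = 1
        · subst hg
          rw [hχ1]
          have : n ≠ 0 := by omega
          simp [this]
          omega
        · have := hfrob g hg
          simp only [if_neg hg]
          split_ifs with h0 <;> omega
      rw [Finset.sum_add_distrib, Finset.sum_add_distrib, s1, ← Finset.sum_filter, Finset.sum_ite_eq' ] at e
      simp only [Finset.sum_const, smul_eq_mul, mul_one, Finset.mem_univ, if_true, Finset.card_univ] at e
      have : D.card = n - 1 := by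
        have := Nat.add_left_cancel e
        exact this
      omega
    have hG : Fintype.card G = n * (n - 1) := by
      rw [← hnD]; congr 1; omega
    refine ⟨⟨htr, ?_, ?_⟩, hG, hnD⟩
    · by_contra hcon
      push Not at hcon
      have hsub : Finset.univ.erase (1 : G) ⊆ D := by
        intro g hg
        rw [Finset.mem_erase] at hg
        rw [hD, Finset.mem_filter]
        exact ⟨Finset.mem_univ g, (hχ0 g).mpr (hcon g hg.1)⟩
      have hc := Finset.card_le_card hsub
      rw [Finset.card_erase_of_mem (Finset.mem_univ _), Finset.card_univ, hG] at hc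
      have key : ∀ k d : ℕ, 3 ≤ k → d + 1 = k → k * (k - 1) - 1 ≤ d → False := by
        intro k d h3 hd hc
        obtain ⟨m, rfl⟩ := Nat.exists_eq_add_of_le h3
        have e1 : 3 + m - 1 = m + 2 := by omega
        rw [e1] at hc
        have e2 : (3 + m) * (m + 2) = m * m + 5 * m + 6 := by ring
        rw [e2] at hc
        have : d = m + 2 := by omega
        subst this
        have : m * m + 5 * m + 6 - 1 = m * m + 5 * m + 5 := by omega
        rw [this] at hc
        nlinarith
      exact key n D.card hn hDn hc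
    · intro g hg
      rw [hcardχ]
      exact hfrob g hg

end Cfsg.Agent.S5729
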