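import Cfsg.Statements.S5738
-- import your own Cfsg.Agent.* helpers here

set_option autoImplicit false
open Cfsg

namespace Cfsg.Agent.S5738

/-- Let F ⊆ K be finite fields with |F| = q and [K : F] = n ≥ 2, so |K| = q^n. Regard K as an n-dimensional F-vector space; the multiplications by non-zero elements of K form a cyclic subgroup of GL_F(K) of order q^n − 1 acting regularly on the non-zero vectors (a Singer group). Its normaliser in GL_F(K) has order n·(q^n − 1). -/
theorem result {F K : Type*} [Field F] [Fintype F] [Field K] [Fintype K] [Algebra F K] (n : ℕ) (hn : 2 ≤ n) (hdim : Module.finrank F K = n) :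
    Nat.card (Subgroup.normalizer (((Units.map ((Algebra.lmul F K : K →ₐ[F] Module.End F K) : K →* Module.End F K)).range : Subgroup (Module.End F K)ˣ) : Set (Module.End F K)ˣ)) = n * (Fintype.card K - 1) := by
  classical
  set φ : Kˣ →* (Module.End F K)ˣ := Units.map ((Algebra.lmul F K : K →ₐ[F] Module.End F K) : K →* Module.End F K) with hφ
  have hφval : ∀ a : Kˣ, ((φ a : (Module.End F K)ˣ) : Module.End F K) = Algebra.lmul F K (a : K) := fun a => rfl
  have hfd : FiniteDimensional F K := Module.Finite.of_finite
  have hlinj : Function.Injective (Algebra.lmul F K : K → Module.End F K) := by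
    intro a b hab
    have := congrArg (fun f : Module.End F K => f 1) hab
    simpa using this
  let s : (K ≃ₐ[F] K) → (Module.End F K)ˣ := fun σ => LinearMap.GeneralLinearGroup.ofLinearEquiv σ.toLinearEquiv
  let f : Kˣ × (K ≃ₐ[F] K) → (Module.End F K)ˣ := fun bσ => φ bσ.1 * s bσ.2
  have hf_apply : ∀ (b : Kˣ) (σ : K ≃ₐ[F] K) (x : K),
      ((f (b, σ) : (Module.End F K)ˣ) : Module.End F K) x = b * σ x := fun _ _ _ => rfl
  have hinj : Function.Injective f := by
    rintro ⟨b, σ⟩ ⟨c, τ⟩ h
    have h1 : ∀ x, (b : K) * σ x = c * τ x := fun x => by rw [← hf_apply, ← hf_apply, h]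
    have hbc : b = c := Units.ext (by simpa using h1 1)
    subst hbc
    have : σ = τ := AlgEquiv.ext fun x => mul_left_cancel₀ b.ne_zero (h1 x)
    rw [this]
  have hrange : Set.range f = (Subgroup.normalizer (φ.range : Set (Module.End F K)ˣ) : Set (Module.End F K)ˣ) := by
    ext g
    constructor
    · rintro ⟨⟨b, σ⟩, rfl⟩
      apply Subgroup.mul_mem
      · exact Subgroup.le_normalizer ⟨b, rfl⟩
      · rw [Subgroup.mem_normalizer_iff]
        intro h
        constructor
        · rintro ⟨a, rfl⟩
          refine ⟨Units.map (σ : K →* K) a, ?_⟩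
          apply Units.ext
          apply LinearMap.ext
          intro x
          show σ a * x = σ (a * σ.symm x)
          simp
        · rintro ⟨c, hc⟩
          refine ⟨Units.map (σ.symm : K →* K) c, ?_⟩
          have : h = (s σ)⁻¹ * φ c * s σ := by rw [hc]; group
          rw [this]
          apply Units.ext
          apply LinearMap.ext
          intro x
          show σ.symm c * x = σ.symm (c * σ x)
          simp
    · intro hg
      have hg' := Subgroup.mem_normalizer_iff.mp hg
      let gi : Module.End F K := ((g⁻¹ : (Module.End F K)ˣ) : Module.End F K)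
      have hgi1 : ∀ x, (g : Module.End F K) (gi x) = x := fun x => by
        have : ((g : Module.End F K) * gi) x = x := by rw [Units.mul_inv]; rfl
        exact this
      have hgi2 : ∀ x, gi ((g : Module.End F K) x) = x := fun x => by
        have : (gi * (g : Module.End F K)) x = x := by rw [Units.inv_mul]; rfl
        exact this
      let ρ : K →ₗ[F] K := (g : Module.End F K) ∘ₗ (LinearMap.mulRight F (gi 1))
      have hρ : ∀ x, ρ x = (g : Module.End F K) (x * gi 1) := fun x => rfl
      have key : ∀ x : K, (g : Module.End F K) * Algebra.lmul F K x * gi = Algebra.lmul F K (ρ x) := by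
        intro x
        by_cases hx : x = 0
        · subst hx; simp
        · obtain ⟨c, hc⟩ := (hg' (φ (Units.mk0 x hx))).mp ⟨_, rfl⟩
          have hc' : Algebra.lmul F K (c : K) = (g : Module.End F K) * Algebra.lmul F K x * gi := by
            have := congrArg Units.val hc
            simpa only [Units.val_mul, hφval, Units.val_mk0] using this
          have h1 := congrArg (fun e : Module.End F K => e 1) hc'
          have h2 : (c : K) = ρ x := by simpa [hρ] using h1
          rw [← hc', h2]
      have hρ1 : ρ 1 = 1 := by rw [hρ, one_mul, hgi1]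
      have hρmul : ∀ x y, ρ (x * y) = ρ x * ρ y := by
        intro x y
        apply hlinj
        calc Algebra.lmul F K (ρ (x * y)) = (g : Module.End F K) * Algebra.lmul F K (x * y) * gi := (key _).symm
          _ = ((g : Module.End F K) * Algebra.lmul F K x * gi) * ((g : Module.End F K) * Algebra.lmul F K y * gi) := by
              rw [map_mul (Algebra.lmul F K)]
              simp only [mul_assoc]
              congr 2
              rw [← mul_assoc gi, Units.inv_mul, one_mul]
          _ = Algebra.lmul F K (ρ x) * Algebra.lmul F K (ρ y) := by rw [key, key]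
          _ = Algebra.lmul F K (ρ x * ρ y) := (map_mul _ _ _).symm
      let σ : K ≃ₐ[F] K := AlgEquiv.ofBijective (AlgHom.ofLinearMap ρ hρ1 hρmul) (AlgHom.bijective _)
      have hσ : ∀ x, σ x = ρ x := fun x => rfl
      have hb : (g : Module.End F K) 1 ≠ 0 := by
        intro h0
        have := hgi2 1
        rw [h0, map_zero] at this
        exact zero_ne_one this
      refine ⟨(Units.mk0 _ hb, σ), ?_⟩
      apply Units.ext
      apply LinearMap.ext
      intro x
      rw [hf_apply, Units.val_mk0, hσ]
      have h1 := congrArg (fun e : Module.End F K => e ((g : Module.End F K) 1)) (key x)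
      simp only [Module.End.mul_apply, hgi2] at h1
      have h2 : (g : Module.End F K) (x * 1) = ρ x * (g : Module.End F K) 1 := h1
      rw [mul_one] at h2
      rw [h2, mul_comm]
  have hcard : Nat.card (Subgroup.normalizer (φ.range : Set (Module.End F K)ˣ)) = Nat.card (Kˣ × (K ≃ₐ[F] K)) := by
    have e1 := Nat.card_congr (Equiv.ofInjective f hinj)
    rw [e1, hrange]
    rfl
  rw [hcard, Nat.card_prod, Nat.card_units, IsGalois.card_aut_eq_finrank, hdim, Nat.card_eq_fintype_card, mul_comm]

end Cfsg.Agent.S5738
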