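import Cfsg.Statements.S5739
-- import your own Cfsg.Agent.* helpers here

set_option autoImplicit false
open Cfsg

namespace Cfsg.Agent.S5739


section aux

variable {F K : Type*} [Field F] [Field K] [Algebra F K]

/-- The elements of `K` whose multiplication map lies in the conjugate by `g` of the multiplication maps. -/
def subalg (g : (Module.End F K)ˣ) : Subalgebra F K where
  carrier := {x | ∃ y : K, Algebra.lmul F K x =
    (g : Module.End F K) * Algebra.lmul F K y * ((g⁻¹ : (Module.End F K)ˣ) : Module.End F K)}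
  mul_mem' := by
    rintro a b ⟨y, hy⟩ ⟨z, hz⟩
    refine ⟨y * z, ?_⟩
    rw [map_mul, map_mul, hy, hz]
    simp only [mul_assoc]
    rw [← mul_assoc (((g⁻¹ : (Module.End F K)ˣ) : Module.End F K)) (g : Module.End F K), Units.inv_mul, one_mul]
  add_mem' := by
    rintro a b ⟨y, hy⟩ ⟨z, hz⟩
    exact ⟨y + z, by rw [map_add, map_add, hy, hz, mul_add, add_mul]⟩
  algebraMap_mem' := fun c => ⟨algebraMap F K c, by
    rw [AlgHom.commutes, ← Algebra.commutes, mul_assoc, Units.mul_inv, mul_one]⟩

theorem mem_subalg (g : (Module.End F K)ˣ) (x : K) : x ∈ subalg g ↔ ∃ y : K, Algebra.lmul F K x =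
    (g : Module.End F K) * Algebra.lmul F K y * ((g⁻¹ : (Module.End F K)ˣ) : Module.End F K) := Iff.rfl

end aux

/-- Let F ⊆ K be finite fields with |F| = q and [K : F] = n ≥ 2, and let M ≤ GL_F(K) be the Singer group of multiplications by non-zero elements of K. If g ∈ GL_F(K) does not normalise M, then the order of M ∩ gMg⁻¹ divides q^r − 1 for some proper divisor r of n. In particular, when n is prime, that order divides q − 1. -/
theorem result {F K : Type*} [Field F] [Fintype F] [Field K] [Fintype K] [Algebra F K] (n : ℕ) (hn : 2 ≤ n) (hdim : Module.finrank F K = n)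
    (g : (Module.End F K)ˣ) (hg : ((Units.map ((Algebra.lmul F K : K →ₐ[F] Module.End F K) : K →* Module.End F K)).range).map (MulAut.conj g).toMonoidHom ≠ (Units.map ((Algebra.lmul F K : K →ₐ[F] Module.End F K) : K →* Module.End F K)).range) :
    ∃ r : ℕ, 1 ≤ r ∧ r ∣ n ∧ r < n ∧ Nat.card ↥(((Units.map ((Algebra.lmul F K : K →ₐ[F] Module.End F K) : K →* Module.End F K)).range).map (MulAut.conj g).toMonoidHom ⊓ (Units.map ((Algebra.lmul F K : K →ₐ[F] Module.End F K) : K →* Module.End F K)).range) ∣ Fintype.card F ^ r - 1 := by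
  classical
  set φ : Kˣ →* (Module.End F K)ˣ := Units.map ((Algebra.lmul F K : K →ₐ[F] Module.End F K) : K →* Module.End F K) with hφ
  have hφval : ∀ a : Kˣ, ((φ a : (Module.End F K)ˣ) : Module.End F K) = Algebra.lmul F K (a : K) := fun a => rfl
  have hfd : FiniteDimensional F K := Module.Finite.of_finite
  let L : IntermediateField F K := (subalg g).toIntermediateField' (Subalgebra.isField_of_algebraic _)
  have hmemL : ∀ x : K, x ∈ L ↔ x ∈ subalg g := fun x => Iff.rfl
  have hinj : Function.Injective (Algebra.lmul F K : K → Module.End F K) := by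
    intro a b hab
    have := congrArg (fun f : Module.End F K => f 1) hab
    simpa using this
  refine ⟨Module.finrank F L, Module.finrank_pos, ?_, ?_, ?_⟩
  · rw [← hdim, ← Module.finrank_mul_finrank F L K]
    exact Dvd.intro _ rfl
  · rw [← hdim]
    refine lt_of_le_of_ne (Submodule.finrank_le L.toSubalgebra.toSubmodule) ?_
    intro heq
    have htop : L = ⊤ := IntermediateField.eq_of_le_of_finrank_eq le_top (by rw [IntermediateField.finrank_top']; exact heq)
    apply hg
    symm
    have hfin : Finite φ.range := inferInstance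
    have hfin2 : Finite (φ.range.map (MulAut.conj g).toMonoidHom) := by
      apply Nat.finite_of_card_ne_zero
      rw [Subgroup.card_map_of_injective (MulAut.conj g).injective]
      exact Nat.card_pos.ne'
    apply Subgroup.eq_of_le_of_card_ge
    · rintro _ ⟨a, rfl⟩
      have ha : (a : K) ∈ L := by rw [htop]; trivial
      have ha' : ((a⁻¹ : Kˣ) : K) ∈ L := by rw [htop]; trivial
      obtain ⟨y, hy⟩ := (mem_subalg g _).mp ((hmemL _).mp ha)
      have hy0 : y ≠ 0 := by
        rintro rfl
        rw [map_zero, mul_zero, zero_mul, ← map_zero (Algebra.lmul F K)] at hy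
        exact a.ne_zero (hinj hy)
      refine ⟨φ (Units.mk0 y hy0), ⟨_, rfl⟩, ?_⟩
      apply Units.ext
      simp only [MulEquiv.coe_toMonoidHom, MulAut.conj_apply, Units.val_mul, hφval, Units.val_mk0]
      exact hy.symm
    · rw [Subgroup.card_map_of_injective (MulAut.conj g).injective]
  · let ψ : Lˣ →* (Module.End F K)ˣ :=
      Units.map (((Algebra.lmul F K : K →ₐ[F] Module.End F K) : K →* Module.End F K).comp (L.val : L →* K))
    have h1 : (φ.range.map (MulAut.conj g).toMonoidHom ⊓ φ.range) ≤ ψ.range := by
      rintro u ⟨⟨_, ⟨b, rfl⟩, hb⟩, ⟨a, rfl⟩⟩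
      have hb' : (g : Module.End F K) * Algebra.lmul F K (b : K) * ((g⁻¹ : (Module.End F K)ˣ) : Module.End F K)
          = Algebra.lmul F K (a : K) := by
        have := congrArg Units.val hb
        simpa only [MulEquiv.coe_toMonoidHom, MulAut.conj_apply, Units.val_mul, hφval] using this
      have haL : (a : K) ∈ L := (hmemL _).mpr ((mem_subalg g _).mpr ⟨b, hb'.symm⟩)
      have ha0 : (⟨(a : K), haL⟩ : L) ≠ 0 := by
        intro h
        exact a.ne_zero (congrArg Subtype.val h)
      refine ⟨Units.mk0 ⟨(a : K), haL⟩ ha0, ?_⟩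
      apply Units.ext
      rfl
    have h2 : Nat.card ψ.range ∣ Nat.card Lˣ := Subgroup.card_range_dvd ψ
    have h3 : Nat.card Lˣ = Fintype.card F ^ Module.finrank F L - 1 := by
      have : Fintype L := Fintype.ofFinite L
      rw [Nat.card_units, Nat.card_eq_fintype_card, Module.card_eq_pow_finrank (K := F) (V := L)]
    rw [← h3]
    exact (Subgroup.card_dvd_of_le h1).trans h2

end Cfsg.Agent.S5739
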