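import Cfsg.Statements.S5747
-- import your own Cfsg.Agent.* helpers here

set_option autoImplicit false
open Cfsg

namespace Cfsg.Agent.S5747


open MulAction

section aux

variable {G Ω : Type*} [Group G] [MulAction G Ω]

/-- pointwise stabiliser in `H` of the entries of a list -/
def stab : Subgroup G → List Ω → Subgroup G
  | H, [] => H
  | H, a :: l => stab (H ⊓ stabilizer G a) l

/-- every entry of the list is moved by an element of `H` fixing the earlier entries -/
def Irr : Subgroup G → List Ω → Prop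
  | _, [] => True
  | H, a :: l => (∃ g ∈ H, g • a ≠ a) ∧ Irr (H ⊓ stabilizer G a) l

theorem mem_stab (H : Subgroup G) (l : List Ω) (g : G) :
    g ∈ stab H l ↔ g ∈ H ∧ ∀ z ∈ l, g • z = z := by
  induction l generalizing H with
  | nil => simp [stab]
  | cons a l ih =>
    simp only [stab, ih, Subgroup.mem_inf, mem_stabilizer_iff, List.mem_cons, forall_eq_or_imp, and_assoc]

theorem stab_append (H : Subgroup G) (l₁ l₂ : List Ω) :
    stab H (l₁ ++ l₂) = stab (stab H l₁) l₂ := by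
  induction l₁ generalizing H with
  | nil => rfl
  | cons a l ih => simp only [List.cons_append, stab, ih]

theorem irr_append (H : Subgroup G) (l₁ l₂ : List Ω) :
    Irr H (l₁ ++ l₂) ↔ Irr H l₁ ∧ Irr (stab H l₁) l₂ := by
  induction l₁ generalizing H with
  | nil => simp [Irr, stab]
  | cons a l ih => simp only [List.cons_append, Irr, stab, ih, and_assoc]

theorem extract (H : Subgroup G) (l : List Ω) (h : stab H l = ⊥) :
    ∃ l' : List Ω, l'.Sublist l ∧ Irr H l' ∧ stab H l' = ⊥ := by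
  induction l generalizing H with
  | nil => exact ⟨[], List.Sublist.refl _, trivial, h⟩
  | cons a l ih =>
    by_cases hm : ∃ g ∈ H, g • a ≠ a
    · obtain ⟨l', h1, h2, h3⟩ := ih (H ⊓ stabilizer G a) h
      exact ⟨a :: l', h1.cons_cons a, ⟨hm, h2⟩, h3⟩
    · push Not at hm
      have hH : H ⊓ stabilizer G a = H := inf_eq_left.mpr fun g hg => hm g hg
      have h' : stab H l = ⊥ := by
        have := h
        simp only [stab, hH] at this
        exact this
      obtain ⟨l', h1, h2, h3⟩ := ih H h'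
      exact ⟨l', h1.cons a, h2, h3⟩

theorem irr_ofFn (H : Subgroup G) (t : ℕ) (f : Fin t → Ω) :
    (∀ i : Fin t, ∃ g ∈ H, (∀ j : Fin t, j < i → g • f j = f j) ∧ g • f i ≠ f i) ↔ Irr H (List.ofFn f) := by
  induction t generalizing H with
  | zero => simp [Irr]
  | succ t ih =>
    rw [List.ofFn_succ, Irr, ← ih (H ⊓ stabilizer G (f 0)) (fun i => f i.succ), Fin.forall_fin_succ]
    refine and_congr ?_ (forall_congr' fun i => exists_congr fun g => ?_)
    · simp
    · rw [Fin.forall_fin_succ]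
      simp only [Fin.succ_pos, forall_const, Fin.succ_lt_succ_iff, Subgroup.mem_inf, mem_stabilizer_iff, and_assoc]

theorem base_ofFn (H : Subgroup G) (t : ℕ) (f : Fin t → Ω) :
    (∀ g ∈ H, (∀ i : Fin t, g • f i = f i) → g = 1) ↔ stab H (List.ofFn f) = ⊥ := by
  rw [Subgroup.eq_bot_iff_forall]
  simp only [mem_stab, List.forall_mem_ofFn_iff, and_imp]

/-- the statement's notion of irredundant base -/
def IsIB (G : Type*) {Ω : Type*} [Group G] [MulAction G Ω] (t : ℕ) (f : Fin t → Ω) : Prop :=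
  (∀ g : G, (∀ i : Fin t, g • f i = f i) → g = 1) ∧
    ∀ i : Fin t, ∃ g : G, (∀ j : Fin t, j < i → g • f j = f j) ∧ g • f i ≠ f i

theorem isIB_iff (t : ℕ) (f : Fin t → Ω) :
    IsIB G t f ↔ Irr (⊤ : Subgroup G) (List.ofFn f) ∧ stab (⊤ : Subgroup G) (List.ofFn f) = ⊥ := by
  rw [← irr_ofFn, ← base_ofFn, IsIB, and_comm]
  simp

theorem isIB_get (l : List Ω) :
    IsIB G l.length l.get ↔ Irr (⊤ : Subgroup G) l ∧ stab (⊤ : Subgroup G) l = ⊥ := by
  rw [isIB_iff, List.ofFn_get]

theorem a_imp_b (ha : ∀ (t t' : ℕ) (f : Fin t → Ω) (f' : Fin t' → Ω), IsIB G t f → IsIB G t' f' → t = t')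
    (t : ℕ) (f : Fin t → Ω) (σ : Equiv.Perm (Fin t)) (hf : IsIB G t f) : IsIB G t (f ∘ σ) := by
  rw [isIB_iff]
  have hbase : stab (⊤ : Subgroup G) (List.ofFn (f ∘ σ)) = ⊥ := by
    rw [← base_ofFn]
    intro g _ hg
    apply hf.1 g
    intro i
    have := hg (σ.symm i)
    simpa using this
  obtain ⟨l', h1, h2, h3⟩ := extract ⊤ _ hbase
  have h4 : IsIB G l'.length l'.get := (isIB_get l').mpr ⟨h2, h3⟩
  have h5 : t = l'.length := ha _ _ _ _ hf h4
  have h6 : l' = List.ofFn (f ∘ σ) := h1.eq_of_length (by rw [List.length_ofFn, h5])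
  rw [← h6]
  exact ⟨h2, h3⟩

theorem minimal_of_b (hb : ∀ (t : ℕ) (f : Fin t → Ω) (σ : Equiv.Perm (Fin t)), IsIB G t f → IsIB G t (f ∘ σ))
    (t : ℕ) (f : Fin t → Ω) (hf : IsIB G t f) (k : Fin t) :
    ∃ g : G, (∀ i, i ≠ k → g • f i = f i) ∧ g • f k ≠ f k := by
  obtain ⟨n, rfl⟩ : ∃ n, t = n + 1 := ⟨t - 1, by have := k.2; omega⟩
  obtain ⟨g, hg1, hg2⟩ := (hb _ f (Equiv.swap k (Fin.last n)) hf).2 (Fin.last n)
  refine ⟨g, fun i hi => ?_, by simpa using hg2⟩
  have hne : Equiv.swap k (Fin.last n) i ≠ Fin.last n := by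
    intro h
    apply hi
    have := congrArg (Equiv.swap k (Fin.last n)) h
    simpa using this
  have := hg1 (Equiv.swap k (Fin.last n) i) (Fin.lt_last_iff_ne_last.mpr hne)
  simpa using this

theorem minimal_list (hb : ∀ (t : ℕ) (f : Fin t → Ω) (σ : Equiv.Perm (Fin t)), IsIB G t f → IsIB G t (f ∘ σ))
    (pre : List Ω) (x : Ω) (Y : List Ω)
    (h : Irr (⊤ : Subgroup G) (pre ++ x :: Y) ∧ stab (⊤ : Subgroup G) (pre ++ x :: Y) = ⊥) :
    ∃ g : G, (∀ z ∈ pre, g • z = z) ∧ (∀ z ∈ Y, g • z = z) ∧ g • x ≠ x := by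
  have hIB := (isIB_get (pre ++ x :: Y)).mpr h
  have hk : pre.length < (pre ++ x :: Y).length := by simp
  obtain ⟨g, hg1, hg2⟩ := minimal_of_b hb _ _ hIB ⟨pre.length, hk⟩
  refine ⟨g, ?_, ?_, ?_⟩
  · intro z hz
    obtain ⟨n, hn, rfl⟩ := List.mem_iff_getElem.mp hz
    have := hg1 ⟨n, by omega⟩ (by simp only [ne_eq, Fin.mk.injEq]; omega)
    simpa [List.getElem_append_left hn] using this
  · intro z hz
    obtain ⟨n, hn, rfl⟩ := List.mem_iff_getElem.mp hz
    have := hg1 ⟨pre.length + 1 + n, by simp; omega⟩ (by simp only [ne_eq, Fin.mk.injEq]; omega)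
    have e : (pre ++ x :: Y)[pre.length + 1 + n]'(by simp; omega) = Y[n] := by
      rw [List.getElem_append_right (by omega)]
      simp [Nat.add_assoc, Nat.add_comm 1 n]
    simpa [e] using this
  · simpa using hg2

theorem len_le (hb : ∀ (t : ℕ) (f : Fin t → Ω) (σ : Equiv.Perm (Fin t)), IsIB G t f → IsIB G t (f ∘ σ))
    (X : List Ω) : ∀ (pre Y : List Ω),
    (Irr (⊤ : Subgroup G) (pre ++ X) ∧ stab (⊤ : Subgroup G) (pre ++ X) = ⊥) →
    (Irr (⊤ : Subgroup G) (pre ++ Y) ∧ stab (⊤ : Subgroup G) (pre ++ Y) = ⊥) → X.length ≤ Y.length := by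
  induction X with
  | nil => intros; simp
  | cons x X ih =>
    intro pre Y hX hY
    have hX' : Irr (⊤ : Subgroup G) ((pre ++ [x]) ++ X) ∧ stab (⊤ : Subgroup G) ((pre ++ [x]) ++ X) = ⊥ := by
      simpa using hX
    have hirr : Irr (⊤ : Subgroup G) (pre ++ [x]) := ((irr_append _ _ _).mp hX'.1).1
    have hbase : stab (stab (⊤ : Subgroup G) (pre ++ [x])) Y = ⊥ := by
      rw [Subgroup.eq_bot_iff_forall]
      intro g hg
      rw [mem_stab, mem_stab] at hg
      have : g ∈ stab (⊤ : Subgroup G) (pre ++ Y) := by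
        rw [mem_stab]
        refine ⟨trivial, fun z hz => ?_⟩
        rcases List.mem_append.mp hz with h | h
        · exact hg.1.2 z (List.mem_append_left _ h)
        · exact hg.2 z h
      rw [hY.2] at this
      exact Subgroup.mem_bot.mp this
    obtain ⟨Y', h1, h2, h3⟩ := extract _ _ hbase
    have hY' : Irr (⊤ : Subgroup G) ((pre ++ [x]) ++ Y') ∧ stab (⊤ : Subgroup G) ((pre ++ [x]) ++ Y') = ⊥ :=
      ⟨(irr_append _ _ _).mpr ⟨hirr, h2⟩, by rw [stab_append]; exact h3⟩
    have h4 := ih (pre ++ [x]) Y' hX' hY'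
    have h5 := h1.length_le
    have h6 : Y'.length ≠ Y.length := by
      intro heq
      have : Y' = Y := h1.eq_of_length heq
      subst this
      obtain ⟨g, hg1, hg2, hg3⟩ := minimal_list hb pre x Y' (by simpa using hY')
      have : g ∈ stab (⊤ : Subgroup G) (pre ++ Y') := by
        rw [mem_stab]
        refine ⟨trivial, fun z hz => ?_⟩
        rcases List.mem_append.mp hz with h | h
        · exact hg1 z h
        · exact hg2 z h
      rw [hY.2] at this
      apply hg3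
      rw [Subgroup.mem_bot.mp this, one_smul]
    simp only [List.length_cons]
    omega

theorem b_imp_a (hb : ∀ (t : ℕ) (f : Fin t → Ω) (σ : Equiv.Perm (Fin t)), IsIB G t f → IsIB G t (f ∘ σ))
    (t t' : ℕ) (f : Fin t → Ω) (f' : Fin t' → Ω) (hf : IsIB G t f) (hf' : IsIB G t' f') : t = t' := by
  have h1 := len_le hb (List.ofFn f) [] (List.ofFn f') ((isIB_iff t f).mp hf) ((isIB_iff t' f').mp hf')
  have h2 := len_le hb (List.ofFn f') [] (List.ofFn f) ((isIB_iff t' f').mp hf') ((isIB_iff t f).mp hf)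
  simp only [List.length_ofFn] at h1 h2
  omega

end aux

/-- Let a finite group G act on a finite set Ω. An irredundant base is a sequence of points ω₁, …, ω_t whose pointwise stabiliser is trivial and in which each ω_i is moved by some element fixing ω₁, …, ω_{i−1}. Then all irredundant bases have the same length if and only if every reordering of an irredundant base is again an irredundant base. -/
theorem result {G Ω : Type*} [Group G] [Finite G] [MulAction G Ω] [Fintype Ω] :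
    (∀ (t t' : ℕ) (f : Fin t → Ω) (f' : Fin t' → Ω), ((∀ g : G, (∀ i : Fin t, g • f i = f i) → g = 1) ∧ ∀ i : Fin t, ∃ g : G, (∀ j : Fin t, j < i → g • f j = f j) ∧ g • f i ≠ f i) → ((∀ g : G, (∀ i : Fin t', g • f' i = f' i) → g = 1) ∧ ∀ i : Fin t', ∃ g : G, (∀ j : Fin t', j < i → g • f' j = f' j) ∧ g • f' i ≠ f' i) → t = t') ↔
    (∀ (t : ℕ) (f : Fin t → Ω) (σ : Equiv.Perm (Fin t)), ((∀ g : G, (∀ i : Fin t, g • f i = f i) → g = 1) ∧ ∀ i : Fin t, ∃ g : G, (∀ j : Fin t, j < i → g • f j = f j) ∧ g • f i ≠ f i) → ((∀ g : G, (∀ i : Fin t, g • (f ∘ σ) i = (f ∘ σ) i) → g = 1) ∧ ∀ i : Fin t, ∃ g : G, (∀ j : Fin t, j < i → g • (f ∘ σ) j = (f ∘ σ) j) ∧ g • (f ∘ σ) i ≠ (f ∘ σ) i)) := by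
  exact ⟨fun ha t f σ hf => a_imp_b ha t f σ hf, fun hb t t' f f' hf hf' => b_imp_a hb t t' f f' hf hf'⟩

end Cfsg.Agent.S5747
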