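import Cfsg.Statements.S5752
import Cfsg.Agent.Lib.Helper60TW
-- import your own Cfsg.Agent.* helpers here

set_option autoImplicit false
open Cfsg

namespace Cfsg.Agent.S5752

/-- A form of the Thompson–Wielandt Theorem on primitive permutation groups. Let G be a finite group and M₁, M₂ two distinct conjugate maximal subgroups of G with trivial core in G; define two descending sequences of subgroups by A₀ = M₁, B₀ = M₂ and, for every i, A_{i+1} = the core in M₁ of A_i ∩ B_i and B_{i+1} = the core in M₂ of A_i ∩ B_i (the core in M of a subgroup Y ≤ M is the largest normal subgroup of M contained in Y). If A₂ and B₂ are both non-trivial, then for some prime p the subgroup generated by A₂ and B₂ is a p-group, and for each j the generalized Fitting subgroups of M_j and of its first core (A₁, resp. B₁) are their largest normal p-subgroups. -/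
theorem result {G : Type*} [Group G] [Finite G] (M₁ M₂ : Subgroup G) (hmax : IsCoatom M₁) (g : G)
    (hconj : M₂ = M₁.map (MulAut.conj g).toMonoidHom) (hne : M₁ ≠ M₂) (hcore : M₁.normalCore = ⊥)
    (A B : ℕ → Subgroup G) (hA0 : A 0 = M₁) (hB0 : B 0 = M₂)
    (hA : ∀ i, A (i + 1) = ((A i ⊓ B i).subgroupOf M₁).normalCore.map M₁.subtype)
    (hB : ∀ i, B (i + 1) = ((A i ⊓ B i).subgroupOf M₂).normalCore.map M₂.subtype) (hA2 : A 2 ≠ ⊥) (hB2 : B 2 ≠ ⊥) :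
    ∃ p : ℕ, p.Prime ∧ IsPGroup p ↥(A 2 ⊔ B 2) ∧
      Cfsg.generalizedFittingSubgroup ↥M₁ = Cfsg.pCore p ↥M₁ ∧ Cfsg.generalizedFittingSubgroup ↥(A 1) = Cfsg.pCore p ↥(A 1) ∧
      Cfsg.generalizedFittingSubgroup ↥M₂ = Cfsg.pCore p ↥M₂ ∧ Cfsg.generalizedFittingSubgroup ↥(B 1) = Cfsg.pCore p ↥(B 1) := by
  classical
  have hcfg := Cfsg.Agent.Lib.Helper60TW.cfg_of hmax g hconj hne hcore
  have eA1 : A 1 = Cfsg.Agent.Lib.Helper60TW.cor M₁ (M₁ ⊓ M₂) := by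
    rw [hA 0, hA0, hB0]; rfl
  have eB1 : B 1 = Cfsg.Agent.Lib.Helper60TW.cor M₂ (M₁ ⊓ M₂) := by
    rw [hB 0, hA0, hB0]; rfl
  have eA2 : A 2 = Cfsg.Agent.Lib.Helper60TW.cor M₁ (Cfsg.Agent.Lib.Helper60TW.cor M₁ (M₁ ⊓ M₂) ⊓
      Cfsg.Agent.Lib.Helper60TW.cor M₂ (M₁ ⊓ M₂)) := by
    rw [hA 1, eA1, eB1]; rfl
  have eB2 : B 2 = Cfsg.Agent.Lib.Helper60TW.cor M₂ (Cfsg.Agent.Lib.Helper60TW.cor M₁ (M₁ ⊓ M₂) ⊓
      Cfsg.Agent.Lib.Helper60TW.cor M₂ (M₁ ⊓ M₂)) := by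
    rw [hB 1, eA1, eB1]; rfl
  rw [← eA2, ← eB2, ← eA1, ← eB1] at hcfg
  obtain ⟨p, hp, hpA, hpB, h1, h2⟩ := hcfg.main hA2 hB2
  have : Fact p.Prime := ⟨hp⟩
  refine ⟨p, hp, ?_, ?_, ?_, ?_, ?_⟩
  · apply (Cfsg.Agent.Lib.Helper27Rel.pcoreIn_isPGroup (p := p) M₁).to_le
    exact sup_le (Cfsg.Agent.Lib.Helper27Rel.le_pcoreIn hcfg.a2.normIn hpA)
      (Cfsg.Agent.Lib.Helper27Rel.sn_le_pcoreIn hcfg.sn_b2 hpB)
  · exact (Cfsg.Agent.Lib.Helper27Rel.CP_iff M₁).mp h1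
  · exact (Cfsg.Agent.Lib.Helper27Rel.CP_iff (A 1)).mp
      (Cfsg.Agent.Lib.Helper27CP.CP_of_sn h1 hcfg.a1.normIn.sn)
  · exact (Cfsg.Agent.Lib.Helper27Rel.CP_iff M₂).mp h2
  · exact (Cfsg.Agent.Lib.Helper27Rel.CP_iff (B 1)).mp
      (Cfsg.Agent.Lib.Helper27CP.CP_of_sn h2 hcfg.b1.normIn.sn)

end Cfsg.Agent.S5752
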