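import Cfsg.Statements.S5754
-- import your own Cfsg.Agent.* helpers here

set_option autoImplicit false
open Cfsg

namespace Cfsg.Agent.S5754

open QuadraticMap

section aux

variable {F V : Type*} [Field F] [AddCommGroup V] [Module F V]

/-- The underlying linear map of the reflection in `v`. -/
noncomputable def reflLin (Q : QuadraticForm F V) (v : V) : V →ₗ[F] V :=
  LinearMap.id - (QuadraticMap.polarBilin Q v).smulRight ((Q v)⁻¹ • v)

theorem reflLin_apply (Q : QuadraticForm F V) (v x : V) :
    reflLin Q v x = x - (polar Q v x * (Q v)⁻¹) • v := by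
  simp [reflLin, smul_smul]

theorem map_sub_eq (Q : QuadraticForm F V) (x y : V) :
    Q (x - y) = Q x + Q y - polar Q x y := by
  have h := QuadraticMap.map_add Q x (-y)
  rw [QuadraticMap.map_neg, polar_neg_right] at h
  rw [sub_eq_add_neg, h]; ring

theorem reflLin_invol (Q : QuadraticForm F V) (v : V) (hv : Q v ≠ 0) :
    Function.Involutive (reflLin Q v) := by
  intro x
  rw [reflLin_apply, reflLin_apply]
  have h1 : polar Q v (x - (polar Q v x * (Q v)⁻¹) • v) = - polar Q v x := by
    rw [polar_sub_right, polar_smul_right, polar_self]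
    simp only [smul_eq_mul, nsmul_eq_mul]
    field_simp
    ring
  rw [h1]
  simp [neg_mul, neg_smul]

theorem reflLin_isom (Q : QuadraticForm F V) (v : V) (hv : Q v ≠ 0) (x : V) :
    Q (reflLin Q v x) = Q x := by
  rw [reflLin_apply, map_sub_eq, QuadraticMap.map_smul, polar_smul_right, polar_comm Q x v]
  simp only [smul_eq_mul]
  field_simp
  ring

/-- The reflection in an anisotropic vector, as an isometry. -/
noncomputable def refl (Q : QuadraticForm F V) (v : V) (hv : Q v ≠ 0) : Q.IsometryEquiv Q where
  toLinearEquiv := LinearEquiv.ofInvolutive (reflLin Q v) (reflLin_invol Q v hv)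
  map_app' := fun x => reflLin_isom Q v hv x

theorem refl_apply (Q : QuadraticForm F V) (v : V) (hv : Q v ≠ 0) (x : V) :
    refl Q v hv x = x - (polar Q v x * (Q v)⁻¹) • v :=
  reflLin_apply Q v x

theorem polar_isom (Q : QuadraticForm F V) (τ : Q.IsometryEquiv Q) (x y : V) :
    polar Q (τ x) (τ y) = polar Q x y := by
  simp only [polar, ← map_add, QuadraticMap.IsometryEquiv.map_app]

theorem extend {ι : Type*} [DecidableEq ι] (Q : QuadraticForm F V) (hQ : Q.Anisotropic) (a a' : ι → V)
    (h1 : ∀ i, Q (a i) = Q (a' i)) (h2 : ∀ i j, polar Q (a i) (a j) = polar Q (a' i) (a' j))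
    (s : Finset ι) : ∃ φ : Q.IsometryEquiv Q, ∀ i ∈ s, φ (a i) = a' i := by
  induction s using Finset.induction_on with
  | empty => exact ⟨QuadraticMap.IsometryEquiv.refl Q, by simp⟩
  | insert k s hk ih =>
    obtain ⟨τ, hτ⟩ := ih
    by_cases hb : τ (a k) = a' k
    · refine ⟨τ, fun i hi => ?_⟩
      rcases Finset.mem_insert.mp hi with rfl | hi
      · exact hb
      · exact hτ i hi
    · set b := τ (a k) with hbdef
      have hv0 : a' k - b ≠ 0 := fun h => hb (sub_eq_zero.mp h).symm
      have hv : Q (a' k - b) ≠ 0 := fun h => hv0 (hQ _ h)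
      have hQb : Q b = Q (a' k) := by rw [hbdef, QuadraticMap.IsometryEquiv.map_app, h1]
      refine ⟨τ.trans (refl Q (a' k - b) hv), fun i hi => ?_⟩
      have hcomp : ∀ x, (τ.trans (refl Q (a' k - b) hv)) x = refl Q (a' k - b) hv (τ x) := fun x => rfl
      rw [hcomp]
      rcases Finset.mem_insert.mp hi with rfl | hi
      · rw [← hbdef, refl_apply]
        have h3 : polar Q (a' i - b) b = - Q (a' i - b) := by
          rw [polar_sub_left, polar_self, map_sub_eq, hQb]
          simp only [nsmul_eq_mul]
          push_cast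
          ring
        rw [h3, neg_mul, mul_inv_cancel₀ hv]
        simp
      · rw [hτ i hi, refl_apply]
        have h3 : polar Q (a' k - b) (a' i) = 0 := by
          rw [polar_sub_left, ← hτ i hi, hbdef, polar_isom, hτ i hi, h2, sub_self]
        rw [h3]
        simp

end aux

/-- Let V be a finite-dimensional vector space over a finite field F carrying an anisotropic quadratic form Q (Q(v) = 0 only for v = 0). Then the group of all maps v ↦ φ(v) + c, with φ an isometry of Q and c ∈ V, acts on V as a binary permutation group: given n ≥ 2 and two n-tuples u, u' of vectors such that every pair of corresponding entries of u is carried to that of u' by such a map, one such map carries u to u'. -/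
theorem result {F V : Type*} [Field F] [Finite F] [AddCommGroup V] [Module F V] [Module.Finite F V]
    (Q : QuadraticForm F V) (hQ : Q.Anisotropic) (n : ℕ) (hn : 2 ≤ n) (u u' : Fin n → V)
    (h2 : ∀ i j : Fin n, i ≠ j → ∃ (φ : Q.IsometryEquiv Q) (c : V), φ (u i) + c = u' i ∧ φ (u j) + c = u' j) :
    ∃ (φ : Q.IsometryEquiv Q) (c : V), ∀ i, φ (u i) + c = u' i := by
  have hd : ∀ i j : Fin n, Q (u i - u j) = Q (u' i - u' j) := by
    intro i j
    by_cases hij : i = j
    · subst hij; simp
    · obtain ⟨φ, c, h1, h2⟩ := h2 i j hij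
      rw [← h1, ← h2, add_sub_add_right_eq_sub, ← map_sub, QuadraticMap.IsometryEquiv.map_app]
  let i₀ : Fin n := ⟨0, by omega⟩
  have hp : ∀ i j : Fin n, polar Q (u i - u i₀) (u j - u i₀) = polar Q (u' i - u' i₀) (u' j - u' i₀) := by
    intro i j
    have e1 := map_sub_eq Q (u i - u i₀) (u j - u i₀)
    have e2 := map_sub_eq Q (u' i - u' i₀) (u' j - u' i₀)
    rw [sub_sub_sub_cancel_right] at e1 e2
    rw [hd i j, hd i i₀, hd j i₀, e2] at e1
    linear_combination e1
  obtain ⟨φ, hφ⟩ := extend Q hQ (fun i => u i - u i₀) (fun i => u' i - u' i₀) (fun i => hd i i₀) hp Finset.univ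
  refine ⟨φ, u' i₀ - φ (u i₀), fun i => ?_⟩
  have h := hφ i (Finset.mem_univ i)
  simp only [map_sub] at h
  rw [← add_sub_assoc, add_comm, add_sub_assoc, h]
  abel

end Cfsg.Agent.S5754
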