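import Cfsg.Statements.S5763
-- import your own Cfsg.Agent.* helpers here

set_option autoImplicit false
open Cfsg

namespace Cfsg.Agent.S5763


open Equiv

/-- the fixed-point-free involution `i ↦ i xor 1` -/
def av : Fin 8 → Fin 8 := ![1, 0, 3, 2, 5, 4, 7, 6]

def blk (i : Fin 8) : Bool := decide (i.val < 4)

def mk (v0 v2 v4 v6 : Fin 8) : Fin 8 → Fin 8 := ![v0, av v0, v2, av v2, v4, av v4, v6, av v6]

theorem av_av : ∀ i, av (av i) = i := by decide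

theorem av_ne : ∀ i, av i ≠ i := by decide

def a : Perm (Fin 8) := ⟨av, av, av_av, av_av⟩

theorem a_apply (i : Fin 8) : a i = av i := rfl

theorem apply_inv (σ : Perm (Fin 8)) (i : Fin 8) : σ (σ⁻¹ i) = i := by simp

theorem inv_apply (σ : Perm (Fin 8)) (i : Fin 8) : σ⁻¹ (σ i) = i := by simp

theorem a_inv_apply (i : Fin 8) : a⁻¹ i = av i := rfl

/-- the stabiliser of the pairs `{2k, 2k+1}` and of the two halves -/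
def P0 : Subgroup (Perm (Fin 8)) where
  carrier := {σ | (∀ i, σ (av i) = av (σ i)) ∧ ∀ i j, blk i = blk j ↔ blk (σ i) = blk (σ j)}
  mul_mem' := by
    rintro σ τ ⟨h1, h2⟩ ⟨h3, h4⟩
    refine ⟨fun i => ?_, fun i j => ?_⟩
    · rw [Perm.mul_apply, Perm.mul_apply, h3, h1]
    · rw [Perm.mul_apply, Perm.mul_apply, h4, h2]
  one_mem' := ⟨fun i => rfl, fun i j => Iff.rfl⟩
  inv_mem' := by
    rintro σ ⟨h1, h2⟩
    refine ⟨fun i => ?_, fun i j => ?_⟩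
    · apply σ.injective
      rw [h1, apply_inv, apply_inv]
    · rw [h2 (σ⁻¹ i) (σ⁻¹ j), apply_inv, apply_inv]

theorem mem_P0 (σ : Perm (Fin 8)) :
    σ ∈ P0 ↔ (∀ i, σ (av i) = av (σ i)) ∧ ∀ i j, blk i = blk j ↔ blk (σ i) = blk (σ j) := Iff.rfl

theorem eq_mk (τ : Fin 8 → Fin 8) (h : ∀ i, τ (av i) = av (τ i)) : τ = mk (τ 0) (τ 2) (τ 4) (τ 6) := by
  funext i
  fin_cases i
  · rfl
  · exact h 0
  · rfl
  · exact h 2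
  · rfl
  · exact h 4
  · rfl
  · exact h 6

set_option maxRecDepth 100000 in
theorem L1dec : ∀ v0 v2 v4 v6 : Fin 8,
    (∀ i j, blk i = blk j ↔ blk (mk v0 v2 v4 v6 i) = blk (mk v0 v2 v4 v6 j)) →
    (∀ i j, mk v0 v2 v4 v6 i = mk v0 v2 v4 v6 j → i = j) →
    ∀ i, (mk v0 v2 v4 v6)^[8] i = i := by decide +kernel

set_option maxRecDepth 100000 in
theorem L2dec : ∀ v0 v2 v4 v6 : Fin 8,
    (∀ i, mk v0 v2 v4 v6 i ≠ i ∧ mk v0 v2 v4 v6 i ≠ av i) →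
    (∀ i, mk v0 v2 v4 v6 (mk v0 v2 v4 v6 i) = i) →
    (∀ i j, blk i = blk j ↔ blk (mk v0 v2 v4 v6 i) = blk (mk v0 v2 v4 v6 j)) := by decide +kernel

set_option maxRecDepth 100000 in
theorem L3dec : ∀ i : Fin 8, (∀ k, swap i (av i) (av k) = av (swap i (av i) k)) ∧
    ∀ k l, blk k = blk l ↔ blk (swap i (av i) k) = blk (swap i (av i) l) := by decide +kernel

def Good (f s : Fin 8 → Fin 8) : Prop :=
  (∀ i, s (av i) = av (s i)) ∧ (∀ i, s (f i) = f (s i)) ∧ (∀ i, s (s i) = i) ∧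
    ∀ i, s i ≠ i ∧ s i ≠ av i ∧ s i ≠ f i

instance (f s : Fin 8 → Fin 8) : Decidable (Good f s) := by unfold Good; infer_instance

def R (f : Fin 8 → Fin 8) : Prop :=
  (∃ i, av i = f i) ∨ Good f (fun i => av (f i)) ∨ Good f (fun i => av (f (av (f i))))

instance (f : Fin 8 → Fin 8) : Decidable (R f) := by unfold R; infer_instance

set_option maxRecDepth 100000 in
set_option synthInstance.maxSize 100000 in
set_option synthInstance.maxHeartbeats 4000000 in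
theorem L4dec :
  ∀ v0 : Fin 8, (v0 ≠ 0) →
  ∀ v1 : Fin 8, (v1 ≠ 1 ∧ v1 ≠ v0 ∧ (v0 = 1 ↔ v1 = 0)) →
  ∀ v2 : Fin 8, (v2 ≠ 2 ∧ v2 ≠ v0 ∧ v2 ≠ v1 ∧ (v0 = 2 ↔ v2 = 0) ∧ (v1 = 2 ↔ v2 = 1)) →
  ∀ v3 : Fin 8, (v3 ≠ 3 ∧ v3 ≠ v0 ∧ v3 ≠ v1 ∧ v3 ≠ v2 ∧ (v0 = 3 ↔ v3 = 0) ∧ (v1 = 3 ↔ v3 = 1) ∧ (v2 = 3 ↔ v3 = 2)) →
  ∀ v4 : Fin 8, (v4 ≠ 4 ∧ v4 ≠ v0 ∧ v4 ≠ v1 ∧ v4 ≠ v2 ∧ v4 ≠ v3 ∧ (v0 = 4 ↔ v4 = 0) ∧ (v1 = 4 ↔ v4 = 1) ∧ (v2 = 4 ↔ v4 = 2) ∧ (v3 = 4 ↔ v4 = 3)) →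
  ∀ v5 : Fin 8, (v5 ≠ 5 ∧ v5 ≠ v0 ∧ v5 ≠ v1 ∧ v5 ≠ v2 ∧ v5 ≠ v3 ∧ v5 ≠ v4 ∧ (v0 = 5 ↔ v5 = 0) ∧ (v1 = 5 ↔ v5 = 1) ∧ (v2 = 5 ↔ v5 = 2) ∧ (v3 = 5 ↔ v5 = 3) ∧ (v4 = 5 ↔ v5 = 4)) →
  ∀ v6 : Fin 8, (v6 ≠ 6 ∧ v6 ≠ v0 ∧ v6 ≠ v1 ∧ v6 ≠ v2 ∧ v6 ≠ v3 ∧ v6 ≠ v4 ∧ v6 ≠ v5 ∧ (v0 = 6 ↔ v6 = 0) ∧ (v1 = 6 ↔ v6 = 1) ∧ (v2 = 6 ↔ v6 = 2) ∧ (v3 = 6 ↔ v6 = 3) ∧ (v4 = 6 ↔ v6 = 4) ∧ (v5 = 6 ↔ v6 = 5)) →
  ∀ v7 : Fin 8, (v7 ≠ 7 ∧ v7 ≠ v0 ∧ v7 ≠ v1 ∧ v7 ≠ v2 ∧ v7 ≠ v3 ∧ v7 ≠ v4 ∧ v7 ≠ v5 ∧ v7 ≠ v6 ∧ (v0 = 7 ↔ v7 = 0) ∧ (v1 = 7 ↔ v7 = 1) ∧ (v2 = 7 ↔ v7 = 2) ∧ (v3 = 7 ↔ v7 = 3) ∧ (v4 = 7 ↔ v7 = 4) ∧ (v5 = 7 ↔ v7 = 5) ∧ (v6 = 7 ↔ v7 = 6)) →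
  R ![v0, v1, v2, v3, v4, v5, v6, v7] := by decide +kernel

theorem isPGroup_P0 : IsPGroup 2 P0 := by
  rintro ⟨σ, h1, h2⟩
  refine ⟨3, Subtype.ext (Equiv.ext fun i => ?_)⟩
  have hf := eq_mk (σ : Fin 8 → Fin 8) h1
  have key := L1dec (σ 0) (σ 2) (σ 4) (σ 6)
  rw [← hf] at key
  have := key h2 (fun i j h => σ.injective h) i
  rw [Perm.iterate_eq_pow] at this
  exact this

theorem good_mem (τ : Perm (Fin 8)) (h1 : ∀ i, τ (av i) = av (τ i)) (h2 : ∀ i, τ (τ i) = i)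
    (h3 : ∀ i, τ i ≠ i ∧ τ i ≠ av i) : τ ∈ P0 := by
  refine ⟨h1, ?_⟩
  have hf := eq_mk (τ : Fin 8 → Fin 8) h1
  have key := L2dec (τ 0) (τ 2) (τ 4) (τ 6)
  rw [← hf] at key
  exact key h3 h2

theorem swap_mem (i : Fin 8) : swap i (av i) ∈ P0 := L3dec i

theorem R_of_invol (b : Perm (Fin 8)) (hb2 : ∀ i, b (b i) = i) (hne : ∀ i, b i ≠ i) : R b := by
  have hiff : ∀ j k, b j = k ↔ b k = j := by
    intro j k
    constructor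
    · rintro rfl; exact hb2 j
    · rintro rfl; exact hb2 k
  have hfun : (b : Fin 8 → Fin 8) = ![b 0, b 1, b 2, b 3, b 4, b 5, b 6, b 7] := by
    funext i
    fin_cases i <;> rfl
  rw [hfun]
  apply L4dec <;>
  · and_intros <;>
    first
      | exact hne _
      | exact hiff _ _
      | exact b.injective.ne (by decide)

theorem main (y : Perm (Fin 8)) : ∃ σ ∈ P0, σ ≠ 1 ∧ y⁻¹ * σ * y ∈ P0 := by
  set b : Perm (Fin 8) := y * a * y⁻¹ with hb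
  have hby : ∀ j, b (y j) = y (av j) := by
    intro j
    simp [hb, a_apply]
  have hyb : ∀ k, y⁻¹ (b k) = av (y⁻¹ k) := by
    intro k
    simp [hb, a_apply]
  have hb2 : ∀ i, b (b i) = i := by
    intro i
    simp [hb, a_apply, av_av]
  have hne : ∀ i, b i ≠ i := by
    intro i h
    have := hyb i
    rw [h] at this
    exact av_ne _ this.symm
  have gen : ∀ σ : Perm (Fin 8), Good b σ → ∃ σ ∈ P0, σ ≠ 1 ∧ y⁻¹ * σ * y ∈ P0 := by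
    rintro σ ⟨g1, g2, g3, g4⟩
    refine ⟨σ, good_mem σ g1 g3 (fun i => ⟨(g4 i).1, (g4 i).2.1⟩), ?_, ?_⟩
    · rintro rfl
      exact (g4 0).1 rfl
    · apply good_mem
      · intro j
        simp only [Perm.mul_apply]
        rw [← hby, g2, hyb]
      · intro j
        simp only [Perm.mul_apply, apply_inv, g3, inv_apply]
      · intro j
        simp only [Perm.mul_apply]
        refine ⟨fun h => ?_, fun h => ?_⟩
        · apply (g4 (y j)).1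
          conv_rhs => rw [← h]
          rw [apply_inv]
        · apply (g4 (y j)).2.2
          rw [hby, ← h, apply_inv]
  rcases R_of_invol b hb2 hne with ⟨i, hi⟩ | h | h
  · refine ⟨swap i (av i), swap_mem i, ?_, ?_⟩
    · intro h
      have := congrArg (fun e : Perm (Fin 8) => e i) h
      simp only [swap_apply_left, Perm.one_apply] at this
      exact av_ne i this
    · have e : y⁻¹ * swap i (av i) * y = swap (y⁻¹ i) (av (y⁻¹ i)) := by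
        rw [← hyb, ← hi, swap_apply_apply, inv_inv]
      rw [e]
      exact swap_mem _
  · exact gen (a * b) h
  · exact gen (a * b * a * b) h

/-- In the symmetric group on 8 letters any two Sylow 2-subgroups have non-trivial intersection: for a Sylow 2-subgroup H and every element x, H ∩ xHx⁻¹ ≠ 1. -/
theorem result (H : Sylow 2 (Equiv.Perm (Fin 8))) (x : Equiv.Perm (Fin 8)) :
    (H : Subgroup (Equiv.Perm (Fin 8))) ⊓ (H : Subgroup (Equiv.Perm (Fin 8))).map (MulAut.conj x).toMonoidHom ≠ ⊥ := by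
  obtain ⟨Q, hQ⟩ := isPGroup_P0.exists_le_sylow
  obtain ⟨g, hg⟩ := MulAction.exists_smul_eq (Equiv.Perm (Fin 8)) Q H
  have hmem : ∀ σ ∈ P0, g * σ * g⁻¹ ∈ (H : Subgroup (Equiv.Perm (Fin 8))) := by
    intro σ hσ
    rw [← hg, Sylow.coe_subgroup_smul]
    exact Subgroup.smul_mem_pointwise_smul σ (MulAut.conj g) _ (hQ hσ)
  obtain ⟨σ, hσ, hσ1, hσ'⟩ := main (g⁻¹ * x * g)
  intro hbot
  have hw : g * σ * g⁻¹ ∈ (H : Subgroup (Equiv.Perm (Fin 8))) ⊓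
      (H : Subgroup (Equiv.Perm (Fin 8))).map (MulAut.conj x).toMonoidHom := by
    refine ⟨hmem σ hσ, ⟨g * ((g⁻¹ * x * g)⁻¹ * σ * (g⁻¹ * x * g)) * g⁻¹, hmem _ hσ', ?_⟩⟩
    simp only [MulEquiv.coe_toMonoidHom, MulAut.conj_apply]
    group
  rw [hbot, Subgroup.mem_bot] at hw
  apply hσ1
  have : σ = g⁻¹ * (g * σ * g⁻¹) * g := by group
  rw [this, hw]
  group

end Cfsg.Agent.S5763
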