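import Cfsg.Statements.S5886
import Cfsg.Agent.Lib.Helper96ExtMat

set_option autoImplicit false
open Cfsg

namespace Cfsg.Agent.S5886

open Cfsg.Geo Cfsg.Agent.Lib.Helper96ExtMat Cfsg.Agent.Lib.Helper95Basic

/-- Let F be a finite field, n a positive integer and r a prime that divides n with r < n. Let K be a subalgebra of the algebra of n × n matrices over F which is a field of degree r over F (commutative, every non-zero element invertible, of dimension r over F; it contains the scalars). Then the normaliser N of K in GL_n(F) — the invertible F-linear maps that are semilinear over the field K, a group of type ΓL_{n/r}(F_{q^r}) for |F| = q — is a maximal subgroup of GL_n(F), and N ∩ SL_n(F) is a maximal subgroup of SL_n(F). No lower bound on n is assumed. -/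
theorem result {F : Type*} [Field F]
    [Fintype F] (n r : ℕ) (hr : r.Prime) (hrn : r ∣ n) (hlt : r < n) (K : Subalgebra F (Matrix (Fin n) (Fin n) F))
    (hK : Cfsg.Geo.IsFieldSubalgebra r K) :
    IsCoatom (Cfsg.Geo.subalgebraNormalizer K) ∧
      Cfsg.Geo.IsMaximalIn (Cfsg.Geo.specialLinear (Fin n) F)
        (Cfsg.Geo.subalgebraNormalizer K ⊓ Cfsg.Geo.specialLinear (Fin n) F) := by
  obtain ⟨t, htS, htN⟩ := exists_not_mem hr hlt hK
  refine ⟨⟨?_, ?_⟩, ⟨?_, ?_⟩⟩
  · intro htop
    exact htN (htop ▸ Subgroup.mem_top t)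
  · intro G hG
    obtain ⟨g₀, hg₀, hn⟩ := SetLike.exists_of_lt hG
    have hSL := sl_le hr hlt hK G (inf_le_left.trans hG.le) hg₀ hn
    rw [eq_top_iff]
    intro x _
    obtain ⟨h, hh, hdet⟩ := det_surj hr hlt hK x
    have h1 : x * h⁻¹ ∈ specialLinear (Fin n) F := by
      rw [mem_specialLinear_iff, Units.val_mul, Matrix.det_mul, ← hdet, ← Matrix.det_mul, Units.mul_inv,
        Matrix.det_one]
    have h2 := G.mul_mem (hSL h1) (hG.le hh)
    simpa using h2
  · refine lt_of_le_of_ne inf_le_right ?_
    intro heq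
    have h1 : t ∈ subalgebraNormalizer K ⊓ specialLinear (Fin n) F := by
      rw [heq]
      exact htS
    exact htN h1.1
  · intro M hM1 hM2
    by_cases hMN : M ≤ subalgebraNormalizer K
    · exact Or.inl (le_antisymm (le_inf hMN hM2) hM1)
    · obtain ⟨g₀, hg₀, hn⟩ := SetLike.not_le_iff_exists.mp hMN
      exact Or.inr (le_antisymm hM2 (sl_le hr hlt hK M hM1 hg₀ hn))

end Cfsg.Agent.S5886
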