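import Cfsg.Statements.S5885
-- import your own Cfsg.Agent.* helpers here

set_option autoImplicit false
open Cfsg

namespace Cfsg.Agent.S5885

open MulAction
open scoped Pointwise

lemma isCoatom_subgroupOf {G : Type*} [Group G] {H K : Subgroup G} (hHK : H ≤ K) :
    IsCoatom (H.subgroupOf K) ↔ H ≠ K ∧ ∀ L : Subgroup G, H ≤ L → L ≤ K → L = H ∨ L = K := by
  constructor
  · intro h
    refine ⟨?_, ?_⟩
    · rintro rfl
      exact h.1 (Subgroup.subgroupOf_self _)
    · intro L hHL hLK
      have h1 : H.subgroupOf K ≤ L.subgroupOf K := Subgroup.subgroupOf_mono K hHL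
      rcases h.le_iff.mp h1 with h2 | h2
      · right
        exact le_antisymm hLK (Subgroup.subgroupOf_eq_top.mp h2)
      · left
        rw [Subgroup.subgroupOf_inj, inf_eq_left.mpr hLK, inf_eq_left.mpr hHK] at h2
        exact h2
  · rintro ⟨hne, h⟩
    refine ⟨?_, ?_⟩
    · intro h1
      exact hne (le_antisymm hHK (Subgroup.subgroupOf_eq_top.mp h1))
    · intro b hb
      have hbK : b.map K.subtype ≤ K := Subgroup.map_subtype_le b
      have hHb : H ≤ b.map K.subtype := by
        intro x hx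
        exact ⟨⟨x, hHK hx⟩, hb.le (Subgroup.mem_subgroupOf.mpr hx), rfl⟩
      have hb' : (b.map K.subtype).subgroupOf K = b :=
        Subgroup.comap_map_eq_self_of_injective K.subtype_injective b
      rcases h _ hHb hbK with h2 | h2
      · exfalso
        rw [h2] at hb'
        exact hb.ne hb'
      · rw [← hb', h2]
        exact Subgroup.subgroupOf_self _

lemma exists_three_cycle {G : Type*} [Group G] [Finite G] (n : ℕ)
    (hA : ∀ P : Subgroup (Equiv.Perm (Fin n)), MulAction.IsPreprimitive P (Fin n) →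
      alternatingGroup (Fin n) ≤ P)
    (M : Subgroup G) (hM : IsCoatom M) (hn : M.index = n) (x y z : G ⧸ M)
    (hxy : x ≠ y) (hyz : y ≠ z) (hxz : x ≠ z) :
    ∃ g : G, g • x = y ∧ g • y = z ∧ g • z = x ∧ ∀ w, w ≠ x → w ≠ y → w ≠ z → g • w = w := by
  classical
  have e : (G ⧸ M) ≃ Fin n := Finite.equivFinOfCardEq (by rw [← hn]; rfl)
  let ψ : G →* Equiv.Perm (Fin n) :=
    (e.permCongrHom).toMonoidHom.comp (MulAction.toPermHom G (G ⧸ M))
  have hψ : ∀ (g : G) (w : G ⧸ M), ψ g (e w) = e (g • w) := by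
    intro g w
    simp [ψ, Equiv.permCongrHom]
  have hnt : Nontrivial (G ⧸ M) := ⟨x, y, hxy⟩
  have hprimG : IsPreprimitive G (G ⧸ M) := by
    rw [← isCoatom_stabilizer_iff_preprimitive G ((1 : G) : G ⧸ M), MulAction.stabilizer_quotient]
    exact hM
  let f : (G ⧸ M) →ₑ[ψ.rangeRestrict] Fin n :=
    { toFun := e
      map_smul' := by
        intro g w
        exact (hψ g w).symm }
  have hprimP : IsPreprimitive ψ.range (Fin n) :=
    IsPreprimitive.of_surjective (f := f) e.surjective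
  have hle := hA ψ.range hprimP
  have hc : Equiv.swap (e x) (e y) * Equiv.swap (e y) (e z) ∈ alternatingGroup (Fin n) := by
    rw [Equiv.Perm.mem_alternatingGroup, Equiv.Perm.sign_mul,
      Equiv.Perm.sign_swap (e.injective.ne hxy), Equiv.Perm.sign_swap (e.injective.ne hyz)]
    simp
  obtain ⟨g, hg⟩ := hle hc
  refine ⟨g, ?_, ?_, ?_, ?_⟩
  · apply e.injective
    rw [← hψ, hg, Equiv.Perm.mul_apply,
      Equiv.swap_apply_of_ne_of_ne (e.injective.ne hxy) (e.injective.ne hxz), Equiv.swap_apply_left]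
  · apply e.injective
    rw [← hψ, hg, Equiv.Perm.mul_apply, Equiv.swap_apply_left,
      Equiv.swap_apply_of_ne_of_ne (e.injective.ne hxz.symm) (e.injective.ne hyz.symm)]
  · apply e.injective
    rw [← hψ, hg, Equiv.Perm.mul_apply, Equiv.swap_apply_right, Equiv.swap_apply_right]
  · intro w h1 h2 h3
    apply e.injective
    rw [← hψ, hg, Equiv.Perm.mul_apply,
      Equiv.swap_apply_of_ne_of_ne (e.injective.ne h2) (e.injective.ne h3),
      Equiv.swap_apply_of_ne_of_ne (e.injective.ne h1) (e.injective.ne h2)]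

/-- Let n be an odd positive integer such that every primitive permutation group of degree n contains the alternating group (so the symmetric and alternating groups are the only primitive groups of degree n). Let G be a finite group, M a maximal subgroup of G of index n, and H a maximal subgroup of M. Then H is a second maximal subgroup of G: H is maximal in every maximal subgroup K of G containing H. -/
theorem result {G : Type*} [Group G]
    [Finite G] (n : ℕ) (hodd : Odd n)
    (hA : ∀ P : Subgroup (Equiv.Perm (Fin n)), MulAction.IsPreprimitive P (Fin n) → alternatingGroup (Fin n) ≤ P)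
    (M : Subgroup G) (hM : IsCoatom M) (hn : M.index = n) (H : Subgroup G) (hHM : H ≤ M)
    (hmax : IsCoatom (H.subgroupOf M)) (K : Subgroup G) (hK : IsCoatom K) (hHK : H ≤ K) :
    IsCoatom (H.subgroupOf K) := by
  classical
  by_cases hKM : K = M
  · subst hKM; exact hmax
  rw [isCoatom_subgroupOf hHM] at hmax
  obtain ⟨hHneM, hmax⟩ := hmax
  have hKM' : K ⊓ M = H := by
    rcases hmax (K ⊓ M) (le_inf hHK hHM) inf_le_right with h | h
    · exact h
    · exfalso
      have h0 : M ≤ K := inf_eq_right.mp h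
      rcases hM.le_iff.mp h0 with h1 | h1
      · exact hK.1 h1
      · exact hKM h1
  rw [isCoatom_subgroupOf hHK]
  refine ⟨?_, ?_⟩
  · rintro rfl
    rcases hK.le_iff.mp hHM with h1 | h1
    · exact hM.1 h1
    · exact hKM h1.symm
  intro L hHL hLK
  by_contra hcon
  push Not at hcon
  obtain ⟨hLH, hLK'⟩ := hcon
  set α : G ⧸ M := ((1 : G) : G ⧸ M) with hα
  have hstab : ∀ g : G, g • α = α ↔ g ∈ M := by
    intro g
    rw [← MulAction.mem_stabilizer_iff, MulAction.stabilizer_quotient]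
  obtain ⟨l₀, hl₀L, hl₀H⟩ : ∃ l, l ∈ L ∧ l ∉ H := by
    by_contra h; push Not at h; exact hLH (le_antisymm h hHL)
  obtain ⟨k, hkK, hkL⟩ : ∃ k, k ∈ K ∧ k ∉ L := by
    by_contra h; push Not at h; exact hLK' (le_antisymm hLK h)
  let B : Set (G ⧸ M) := {w | ∃ l ∈ L, l • α = w}
  let kB : Set (G ⧸ M) := (fun w => k • w) '' B
  have hB1 : ∀ g ∈ K, ∀ l ∈ L, ∀ l' ∈ L, g • l • α = l' • α → g ∈ L := by
    intro g hg l hl l' hl' h
    have h1 : (l'⁻¹ * g * l) • α = α := by
      rw [mul_smul, mul_smul, h, inv_smul_smul]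
    have h2 : l'⁻¹ * g * l ∈ H := by
      rw [← hKM']
      exact ⟨K.mul_mem (K.mul_mem (K.inv_mem (hLK hl')) hg) (hLK hl), (hstab _).mp h1⟩
    have h3 : g = l' * (l'⁻¹ * g * l) * l⁻¹ := by group
    rw [h3]
    exact L.mul_mem (L.mul_mem hl' (hHL h2)) (L.inv_mem hl)
  have hdisj : ∀ w, w ∈ B → w ∉ kB := by
    rintro w ⟨l', hl', rfl⟩ ⟨_, ⟨l, hl, rfl⟩, h⟩
    exact hkL (hB1 k hkK l hl l' hl' h)
  have hαB : α ∈ B := ⟨1, L.one_mem, one_smul _ _⟩
  have hβB : l₀ • α ∈ B := ⟨l₀, hl₀L, rfl⟩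
  have hβα : l₀ • α ≠ α := by
    intro h
    apply hl₀H
    rw [← hKM']
    exact ⟨hLK hl₀L, (hstab _).mp h⟩
  have hxkB : k • α ∈ kB := ⟨α, hαB, rfl⟩
  have hzkB : k • l₀ • α ∈ kB := ⟨l₀ • α, hβB, rfl⟩
  have hxz : k • α ≠ k • l₀ • α := by
    intro h
    exact hβα (MulAction.injective k h).symm
  obtain ⟨y, hyB, hykB⟩ : ∃ y, y ∉ B ∧ y ∉ kB := by
    by_contra h
    push Not at h
    have huniv : B ∪ kB = Set.univ := by
      ext w
      simp only [Set.mem_union, Set.mem_univ, iff_true]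
      by_cases hw : w ∈ B
      · exact Or.inl hw
      · exact Or.inr (h w hw)
    have hd : Disjoint B kB := Set.disjoint_left.mpr hdisj
    have hcard : (B ∪ kB).ncard = B.ncard + kB.ncard :=
      Set.ncard_union_eq hd (Set.toFinite _) (Set.toFinite _)
    have hk : kB.ncard = B.ncard := Set.ncard_image_of_injective B (MulAction.injective k)
    rw [huniv, Set.ncard_univ, hk] at hcard
    have hn' : Nat.card (G ⧸ M) = n := hn
    rw [hn'] at hcard
    rw [hcard] at hodd
    exact (Nat.not_odd_iff_even.mpr ⟨_, rfl⟩) hodd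
  have hxB : k • α ∉ B := fun h => hdisj _ h hxkB
  have hzB : k • l₀ • α ∉ B := fun h => hdisj _ h hzkB
  have hne : ∀ {a b : G ⧸ M} {S : Set (G ⧸ M)}, a ∈ S → b ∉ S → a ≠ b := by
    intro a b S ha hb h
    exact hb (h ▸ ha)
  have hHX : H ≤ M ⊓ MulAction.stabilizer G B := by
    intro h hh
    refine Subgroup.mem_inf.mpr ⟨hHM hh, ?_⟩
    rw [MulAction.mem_stabilizer_set]
    intro b
    constructor
    · rintro ⟨l, hl, hlb⟩
      refine ⟨h⁻¹ * l, L.mul_mem (L.inv_mem (hHL hh)) hl, ?_⟩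
      rw [mul_smul, hlb, inv_smul_smul]
    · rintro ⟨l, hl, rfl⟩
      exact ⟨h * l, L.mul_mem (hHL hh) hl, mul_smul _ _ _⟩
  rcases hmax _ hHX inf_le_left with hX | hX
  · -- the three-cycle (x y z)
    obtain ⟨g, hg1, hg2, hg3, hg4⟩ := exists_three_cycle n hA M hM hn (k • α) y (k • l₀ • α)
      (hne hxkB hykB) (hne hzkB hykB).symm hxz
    have hfix : ∀ w ∈ B, g • w = w := fun w hw =>
      hg4 w (hne hw hxB) (hne hw hyB) (hne hw hzB)
    have hgX : g ∈ M ⊓ MulAction.stabilizer G B := by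
      refine Subgroup.mem_inf.mpr ⟨(hstab g).mp (hfix α hαB), ?_⟩
      rw [MulAction.mem_stabilizer_set]
      intro b
      constructor
      · intro hb
        by_cases h1 : b = k • α
        · rw [h1, hg1] at hb; exact absurd hb hyB
        by_cases h2 : b = y
        · rw [h2, hg2] at hb; exact absurd hb hzB
        by_cases h3 : b = k • l₀ • α
        · rw [h3, hg3] at hb; exact absurd hb hxB
        rwa [hg4 b h1 h2 h3] at hb
      · intro hb
        rwa [hfix b hb]
    rw [hX] at hgX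
    have hconj : k⁻¹ * g * k ∈ L := by
      apply hB1 _ (K.mul_mem (K.mul_mem (K.inv_mem hkK) (hHK hgX)) hkK) l₀ hl₀L 1 L.one_mem
      rw [mul_smul, mul_smul, hg3, inv_smul_smul, one_smul]
    apply hykB
    refine ⟨(k⁻¹ * g * k) • α, ⟨_, hconj, rfl⟩, ?_⟩
    show k • (k⁻¹ * g * k) • α = y
    rw [mul_smul, mul_smul, smul_inv_smul, hg1]
  · -- the three-cycle (β x z)
    obtain ⟨g, hg1, hg2, hg3, hg4⟩ := exists_three_cycle n hA M hM hn (l₀ • α) (k • α) (k • l₀ • α)
      (hne hβB hxB) hxz (hne hβB hzB)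
    have hgM : g ∈ M := (hstab g).mp (hg4 α hβα.symm (hne hαB hxB) (hne hαB hzB))
    rw [← hX] at hgM
    have h1 := (MulAction.mem_stabilizer_set.mp (Subgroup.mem_inf.mp hgM).2 (l₀ • α)).mpr hβB
    rw [hg1] at h1
    exact hxB h1

end Cfsg.Agent.S5885
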