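import Cfsg.Statements.S5887
import Cfsg.Agent.Lib.Helper57FieldTv

set_option autoImplicit false
open Cfsg

namespace Cfsg.Agent.S5887

/-- Let F be a finite field, n a positive integer and r a composite number (r > 1, not prime) that divides n with r < n. Let K be a subalgebra of the algebra of n × n matrices over F which is a field of degree r over F (commutative, every non-zero element invertible, of dimension r over F). Then the normaliser N of K in GL_n(F) (a group of type ΓL_{n/r}(F_{q^r})) is not a maximal subgroup of GL_n(F), and N ∩ SL_n(F) is not a maximal subgroup of SL_n(F): both lie properly inside the normaliser of an intermediate subfield of prime degree over F. -/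
theorem result {F : Type*} [Field F]
    [Fintype F] (n r : ℕ) (hr1 : 1 < r) (hrp : ¬ r.Prime) (hrn : r ∣ n) (hlt : r < n)
    (K : Subalgebra F (Matrix (Fin n) (Fin n) F)) (hK : Cfsg.Geo.IsFieldSubalgebra r K) :
    ¬ IsCoatom (Cfsg.Geo.subalgebraNormalizer K) ∧
      ¬ Cfsg.Geo.IsMaximalIn (Cfsg.Geo.specialLinear (Fin n) F)
        (Cfsg.Geo.subalgebraNormalizer K ⊓ Cfsg.Geo.specialLinear (Fin n) F) := by
  classical
  have hn0 : 0 < n := by omega
  have : NeZero n := ⟨by omega⟩
  obtain ⟨s, hs⟩ : ∃ s, s = r.minFac := ⟨_, rfl⟩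
  have hsp : s.Prime := hs ▸ Nat.minFac_prime (by omega)
  have hs1 : 1 < s := hsp.one_lt
  have hsdvd : s ∣ r := hs ▸ Nat.minFac_dvd r
  have hslt : s < r := hs ▸ (Nat.not_prime_iff_minFac_lt (by omega)).mp hrp
  obtain ⟨K₀, hK₀, hmem⟩ := Cfsg.Agent.Lib.Helper60UField.field_sub hK.comm hK.inv (r := s) (by omega)
    (by rw [hK.finrank_eq]; exact hsdvd)
  have hle : K₀ ≤ K := fun x hx => ((hmem x).mp hx).1
  have h4 : 4 * s ≤ n := by
    obtain ⟨m, rfl⟩ := hrn
    obtain ⟨k, rfl⟩ := hsdvd
    have hm : 2 ≤ m := by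
      by_contra hcon
      have : m = 0 ∨ m = 1 := by omega
      rcases this with rfl | rfl <;> omega
    have hk : 2 ≤ k := by
      by_contra hcon
      have : k = 0 ∨ k = 1 := by omega
      rcases this with rfl | rfl <;> omega
    nlinarith [Nat.mul_le_mul hk hm]
  obtain ⟨t, ht1, ht2, ht3⟩ := Cfsg.Agent.Lib.Helper57FieldTv.exists_tv K₀ K hK₀ hK hle hslt (by omega)
    (by omega)
  have hNle : Cfsg.Geo.subalgebraNormalizer K ≤ Cfsg.Geo.subalgebraNormalizer K₀ := by
    intro g hg k
    rw [hmem, hmem, Units.conj_pow, ← hg k]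
    constructor
    · rintro ⟨h1, h2⟩
      exact ⟨h1, by rw [h2]⟩
    · rintro ⟨h1, h2⟩
      refine ⟨h1, ?_⟩
      have h3 := congrArg (fun M => ((g⁻¹ : Matrix.GeneralLinearGroup (Fin n) F) : Matrix (Fin n) (Fin n) F) * M *
        (g : Matrix (Fin n) (Fin n) F)) h2
      simpa [mul_assoc] using h3
  have hnot := Cfsg.Agent.Lib.Helper67AschD.notSL_subalg (by omega) hs1 K₀ hK₀
  constructor
  · intro hco
    have hlt : Cfsg.Geo.subalgebraNormalizer K < Cfsg.Geo.subalgebraNormalizer K₀ :=
      lt_of_le_of_ne hNle (fun h => ht3 (h ▸ ht2))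
    have htop := hco.2 _ hlt
    exact hnot (htop ▸ le_top)
  · intro hmax
    rcases hmax.2 (Cfsg.Geo.subalgebraNormalizer K₀ ⊓ Cfsg.Geo.specialLinear (Fin n) F)
      (inf_le_inf_right _ hNle) inf_le_right with h | h
    · have : t ∈ Cfsg.Geo.subalgebraNormalizer K ⊓ Cfsg.Geo.specialLinear (Fin n) F := h ▸ ⟨ht2, ht1⟩
      exact ht3 this.1
    · exact hnot (inf_eq_right.mp h)

end Cfsg.Agent.S5887
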