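import Cfsg.Statements.S5893
import Mathlib
import Cfsg.Agent.Lib.Helper41Dk18

set_option autoImplicit false
open Cfsg

namespace Cfsg.Agent.S5893

open Cfsg.Agent.Lib.Helper41Dk

/-- Let F be a finite field of even order q ≥ 4 and let M be a maximal subgroup of PSL₂(F) (= SL₂(F) = PGL₂(F)). Then one of the following holds: |M| = q(q − 1) (the stabiliser of a point of the projective line, elementary abelian of order q extended by a cyclic group of order q − 1); M is dihedral of order 2(q − 1); M is dihedral of order 2(q + 1); or q = q₀^r for a prime r with q₀ ≠ 2 and M ≅ PSL₂(F₀) with |F₀| = q₀. -/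
theorem result {F : Type*} [Field F] [Fintype F]
    (heven : Even (Fintype.card F)) (h4 : 4 ≤ Fintype.card F) (M : Subgroup (Matrix.ProjectiveSpecialLinearGroup (Fin 2) F)) (hM : IsCoatom M) :
    Nat.card M = Fintype.card F * (Fintype.card F - 1) ∨
    Nonempty (M ≃* DihedralGroup (Fintype.card F - 1)) ∨
    Nonempty (M ≃* DihedralGroup (Fintype.card F + 1)) ∨
    (∃ (F₀ : Type) (_ : Field F₀) (_ : Fintype F₀) (r : ℕ), r.Prime ∧ Fintype.card F₀ ≠ 2 ∧
        Fintype.card F = Fintype.card F₀ ^ r ∧ Nonempty (M ≃* Matrix.ProjectiveSpecialLinearGroup (Fin 2) F₀)) := by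
  obtain ⟨φ, -, hout⟩ := dickson_PSL2' M
  have e0 : M ≃* M.map (barEquiv φ).toMonoidHom := M.equivMapOfInjective _ (barEquiv φ).injective
  have hM' := isCoatom_map_equiv (barEquiv φ) hM
  set M' := M.map (barEquiv φ).toMonoidHom with hM'def
  have hcard : Nat.card M = Nat.card M' := Nat.card_congr e0.toEquiv
  have hG := isCoatom_pre hM'
  have hpre := card_pre M'
  rw [ee_eq_one heven, one_mul] at hpre
  have hno2 : ¬ (2 : F) ≠ 0 := fun h2 =>
    (Nat.not_even_iff_odd.mpr (odd_card_of_two_ne_zero h2)) heven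
  rcases coatom_cases h4 hG hout with h | ⟨x, hx, ht, h, ⟨y, hy, hyx⟩, hc⟩ | ⟨h2, -⟩ | ⟨h2, -⟩ |
    ⟨h2, -⟩ | ⟨K, h3, hr, h⟩
  · left
    rw [hcard, ← hpre, h, card_Bor]
  · obtain ⟨a, -, -, ha, ⟨e1⟩⟩ := dihedral_of_NN ht hx h hy hyx
    rw [hpre, ha] at hc
    have ha' : a = Nat.card (Subgroup.centralizer {x} : Subgroup (Matrix.SpecialLinearGroup (Fin 2) F)) := by
      omega
    rcases card_cent_cases ht with h5 | h5
    · right; right; left
      rw [← h5, ← ha']
      exact ⟨e0.trans e1⟩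
    · right; left
      rw [← h5, ← ha']
      exact ⟨e0.trans e1⟩
  · exact absurd h2 hno2
  · exact absurd h2 hno2
  · exact absurd h2 hno2
  · right; right; right
    obtain ⟨K', i1, i2, ⟨ε⟩⟩ := exists_small_field K
    have hcK : Fintype.card K' = Nat.card K := by
      rw [← Nat.card_eq_fintype_card]; exact Nat.card_congr ε.toEquiv
    have hMK : M' = PKbar K := by
      apply pre_injective
      rw [h, pre_PKbar]
    obtain ⟨e1⟩ := PKbar_equiv_PSL (PK_eq_SLK_of_even heven K) ε
    refine ⟨K', i1, i2, Module.finrank K F, hr, by omega, ?_, ⟨e0.trans ((MulEquiv.subgroupCongr hMK).trans e1)⟩⟩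
    rw [hcK, card_pow_finrank]

end Cfsg.Agent.S5893
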