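import Cfsg.Statements.S5894
import Cfsg.Agent.Lib.Helper98Part

set_option autoImplicit false
open Cfsg

namespace Cfsg.Agent.S5894

open Cfsg.Agent.Lib.Helper98Part MulAction Equiv Equiv.Perm
open scoped Pointwise

section aux
variable {Ω : Type*}

open Classical in
/-- The two-valued labelling attached to a subset. -/
noncomputable def indic (O : Set Ω) : Ω → Fin 2 := fun x => if x ∈ O then 0 else 1

theorem indic_eq_zero (O : Set Ω) (x : Ω) : indic O x = 0 ↔ x ∈ O := by
  unfold indic
  split_ifs with h <;> simp [h]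

theorem indic_eq_one (O : Set Ω) (x : Ω) : indic O x = 1 ↔ x ∈ Oᶜ := by
  unfold indic
  split_ifs with h <;> simp [h]

variable [Fintype Ω] [DecidableEq Ω]

omit [Fintype Ω] [DecidableEq Ω] in
theorem card_fibre (O : Set Ω) (hO : Nat.card O = Nat.card ↥Oᶜ) (i : Fin 2) :
    Nat.card {x : Ω // indic O x = i} = Nat.card O := by
  fin_cases i
  · exact Nat.card_congr (Equiv.subtypeEquivRight (indic_eq_zero O))
  · rw [hO]
    exact Nat.card_congr (Equiv.subtypeEquivRight (indic_eq_one O))

theorem stabilizer_lt (O : Set Ω) (hO : Nat.card O = Nat.card ↥Oᶜ) (h1 : 1 ≤ Nat.card O) :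
    stabilizer (Perm Ω) O < partStab (indic O) := by
  constructor
  · intro g hg
    have hg' : ∀ x, g x ∈ O ↔ x ∈ O := by
      intro x
      rw [MulAction.mem_stabilizer_iff] at hg
      conv_lhs => rw [← hg]
      exact Set.smul_mem_smul_set_iff
    refine mem_partStab_of_forall 1 ?_
    intro x
    show indic O (g x) = indic O x
    by_cases hx : x ∈ O
    · rw [(indic_eq_zero O x).mpr hx, (indic_eq_zero O _).mpr ((hg' x).mpr hx)]
    · rw [(indic_eq_one O x).mpr hx, (indic_eq_one O _).mpr (fun h => hx ((hg' x).mp h))]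
  · intro hle
    obtain ⟨h, hh⟩ := exists_lift (indic O) (card_fibre O hO) (Equiv.swap 0 1)
    have hmem := hle (mem_partStab_of_forall _ hh)
    obtain ⟨x, hx⟩ := exists_fibre h1 (indic O) (card_fibre O hO) 0
    have h1 : h x ∈ O := by
      have hmem' : h • O = O := hmem
      rw [← hmem']
      exact Set.smul_mem_smul_set ((indic_eq_zero O x).mp hx)
    have h2 := hh x
    rw [hx, (indic_eq_zero O _).mpr h1] at h2
    simp at h2

theorem main (O : Set Ω) (hO : Nat.card O = Nat.card ↥Oᶜ) (a₀ c : Ω) (ha : a₀ ∉ O) (hc : c ∉ O)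
    (hac : a₀ ≠ c) :
    ∃ M H K : Subgroup (Perm Ω), IsCoatom M ∧ M.index = Fintype.card Ω ∧ H ≤ M ∧
      IsCoatom (H.subgroupOf M) ∧ IsCoatom K ∧ H ≤ K ∧ ¬ IsCoatom (H.subgroupOf K) := by
  have hcard : Nat.card O + Nat.card ↥Oᶜ = Nat.card Ω := by
    rw [← Set.ncard_add_ncard_compl O]
    rfl
  have hc2 : 2 ≤ Nat.card ↥Oᶜ := by
    have : (1 : ℕ) < (Oᶜ).ncard := by
      rw [Set.one_lt_ncard]
      exact ⟨a₀, ha, c, hc, hac⟩
    exact this
  have hO2 : 2 ≤ Nat.card O := by omega
  obtain ⟨o, ho⟩ : O.Nonempty := by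
    rw [← Set.ncard_pos]
    exact (by omega : 0 < Nat.card O)
  set s : Set Ω := {a₀}ᶜ with hs
  have hMeq : stabilizer (Perm Ω) s = stabilizer (Perm Ω) a₀ := by
    rw [hs, stabilizer_compl, stabilizer_singleton]
  have hscard : Nat.card s + 1 = Nat.card Ω := by
    have := Set.ncard_add_ncard_compl ({a₀} : Set Ω)
    rw [Set.ncard_singleton] at this
    have h2 : Nat.card s = ({a₀}ᶜ : Set Ω).ncard := rfl
    omega
  let ρ : stabilizer (Perm Ω) s →* Perm s := MulAction.toPermHom (stabilizer (Perm Ω) s) s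
  have hρ : Function.Surjective ρ := Equiv.Perm.stabilizer.surjective_toPerm s
  set t : Set s := Subtype.val ⁻¹' O with ht
  have hos : o ∈ s := by
    intro h
    rw [Set.mem_singleton_iff] at h
    exact ha (h ▸ ho)
  have hcs : c ∈ s := fun h => hac (Set.mem_singleton_iff.mp h).symm
  have htco : IsCoatom (stabilizer (Perm s) t) := by
    apply Equiv.Perm.isCoatom_stabilizer
    · exact ⟨⟨o, hos⟩, ho⟩
    · exact ⟨⟨c, hcs⟩, hc⟩
    · omega
  have hH' : IsCoatom ((stabilizer (Perm s) t).comap ρ) :=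
    Subgroup.isCoatom_comap_of_surjective hρ htco
  have hHle : ((stabilizer (Perm s) t).comap ρ).map (stabilizer (Perm Ω) s).subtype
      ≤ stabilizer (Perm Ω) O := by
    rintro _ ⟨g, hg, rfl⟩
    rw [Subgroup.subtype_apply, mem_stabilizer_set_iff_smul_set_subset (Set.toFinite O)]
    rintro _ ⟨x, hx, rfl⟩
    have hxs : x ∈ s := by
      intro h
      rw [Set.mem_singleton_iff] at h
      exact ha (h ▸ hx)
    have hg' : ρ g • t = t := hg
    have h3 : ρ g • (⟨x, hxs⟩ : s) ∈ t := by
      rw [← hg']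
      exact Set.smul_mem_smul_set hx
    exact h3
  have hlt := stabilizer_lt O hO (by omega)
  refine ⟨stabilizer (Perm Ω) s,
    ((stabilizer (Perm s) t).comap ρ).map (stabilizer (Perm Ω) s).subtype,
    partStab (indic O), ?_, ?_, Subgroup.map_subtype_le _, ?_, ?_, hHle.trans hlt.le, ?_⟩
  · rw [hs, stabilizer_compl]
    apply Equiv.Perm.isCoatom_stabilizer (Set.singleton_nonempty _) ⟨c, hcs⟩
    rw [Set.ncard_singleton]
    omega
  · rw [hMeq, index_stabilizer_of_transitive, Nat.card_eq_fintype_card]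
  · rw [Subgroup.subgroupOf,
      Subgroup.comap_map_eq_self_of_injective (Subgroup.subtype_injective _)]
    exact hH'
  · exact isCoatom_partStab hO2 le_rfl (indic O) (card_fibre O hO)
  · intro hco
    have hlt2 : (((stabilizer (Perm s) t).comap ρ).map
        (stabilizer (Perm Ω) s).subtype).subgroupOf (partStab (indic O)) <
        (stabilizer (Perm Ω) O).subgroupOf (partStab (indic O)) := by
      constructor
      · exact Subgroup.comap_mono hHle
      · intro hle
        have hsw : swap a₀ c ∈ stabilizer (Perm Ω) O := by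
          rw [← stabilizer_compl]
          exact swap_mem_stabilizer ha hc
        have h4 := @hle ⟨swap a₀ c, hlt.le hsw⟩ hsw
        have h5 : swap a₀ c ∈ stabilizer (Perm Ω) s := Subgroup.map_subtype_le _ h4
        rw [hMeq, mem_stabilizer_iff, Perm.smul_def, swap_apply_left] at h5
        exact hac h5.symm
    have := hco.2 _ hlt2
    rw [Subgroup.subgroupOf_eq_top] at this
    exact hlt.not_ge this

end aux

/-- For every m ≥ 2 the symmetric group on 2m letters has a maximal subgroup M of index 2m together with a maximal subgroup H of M that is not second maximal: some maximal subgroup K of the symmetric group contains H without H being maximal in K. (One may take M the stabiliser of a letter, H ≅ S_m × S_{m−1} inside it, and K ≅ S_m ≀ S₂ the stabiliser of a partition into two m-sets, with H < S_m × S_m < K.) So the prime-index hypothesis in the second-maximality criterion cannot be relaxed to any even index ≥ 4. -/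
theorem result (m : ℕ) (hm : 2 ≤ m) :
    ∃ M H K : Subgroup (Equiv.Perm (Fin (2 * m))), IsCoatom M ∧ M.index = 2 * m ∧ H ≤ M ∧ IsCoatom (H.subgroupOf M) ∧
      IsCoatom K ∧ H ≤ K ∧ ¬ IsCoatom (H.subgroupOf K) := by
  have h2m : 0 < 2 * m := by omega
  have key := main (Ω := Fin (2 * m)) (Set.Ici ⟨m, by omega⟩) ?_ ⟨0, by omega⟩ ⟨1, by omega⟩ ?_ ?_ ?_
  · simpa using key
  · have h1 : Nat.card (Set.Ici (⟨m, by omega⟩ : Fin (2 * m))) = m := by
      rw [Nat.card_eq_fintype_card, ← Set.toFinset_card, Set.toFinset_Ici, Fin.card_Ici]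
      simp only []
      omega
    have h2 := Set.ncard_add_ncard_compl (Set.Ici (⟨m, by omega⟩ : Fin (2 * m)))
    have h3 : (Set.Ici (⟨m, by omega⟩ : Fin (2 * m))).ncard = m := h1
    rw [h3] at h2
    rw [h1]
    have h4 : Nat.card ↥(Set.Ici (⟨m, by omega⟩ : Fin (2 * m)))ᶜ
      = ((Set.Ici (⟨m, by omega⟩ : Fin (2 * m)))ᶜ).ncard := rfl
    rw [h4]
    rw [Nat.card_eq_fintype_card, Fintype.card_fin] at h2
    omega
  · simp [Fin.le_def]; omega
  · simp [Fin.le_def]; omega
  · simp [Fin.ext_iff]

end Cfsg.Agent.S5894
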