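import Cfsg.Statements.S5895
-- import your own Cfsg.Agent.* helpers here

set_option autoImplicit false
open Cfsg

namespace Cfsg.Agent.S5895

open SemidirectProduct

section aux

variable {N : Type*} [Group N]

/-- `L` leaves no proper nontrivial subgroup of `N` invariant. -/
def Irr (L : Subgroup (MulAut N)) : Prop :=
  ∀ W : Subgroup N, (∀ l ∈ L, ∀ n ∈ W, l n ∈ W) → W = ⊥ ∨ W = ⊤

theorem isCoatom_range_inr [Nontrivial N] (L : Subgroup (MulAut N)) (hL : Irr L) :
    IsCoatom (inr : L →* N ⋊[L.subtype] L).range := by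
  constructor
  · intro htop
    obtain ⟨n, hn⟩ := exists_ne (1 : N)
    have : (inl n : N ⋊[L.subtype] L) ∈ (inr : L →* N ⋊[L.subtype] L).range := by
      rw [htop]; trivial
    obtain ⟨l, hl⟩ := this
    have := congrArg SemidirectProduct.left hl
    simp at this
    exact hn this.symm
  · intro X hX
    obtain ⟨hle, hnle⟩ := hX
    obtain ⟨g, hgX, hgM⟩ := Set.not_subset.mp hnle
    have hinr : ∀ l : L, (inr l : N ⋊[L.subtype] L) ∈ X := fun l => hle ⟨l, rfl⟩
    have hW := hL (X.comap (inl : N →* N ⋊[L.subtype] L)) (by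
      intro l hl n hn
      have := inl_aut (φ := L.subtype) ⟨l, hl⟩ n
      rw [Subgroup.mem_comap]
      have h2 : (inl (l n) : N ⋊[L.subtype] L) = inr ⟨l, hl⟩ * inl n * inr (⟨l, hl⟩ : L)⁻¹ := this
      rw [h2]
      exact X.mul_mem (X.mul_mem (hinr _) hn) (hinr _))
    have hgl : (inl g.left : N ⋊[L.subtype] L) ∈ X := by
      have h1 := inl_left_mul_inr_right g
      have h2 : (inl g.left : N ⋊[L.subtype] L) = g * (inr g.right)⁻¹ := by
        rw [eq_mul_inv_iff_mul_eq, h1]
      rw [h2]
      exact X.mul_mem hgX (X.inv_mem (hinr _))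
    rcases hW with h | h
    · exfalso
      have : g.left ∈ X.comap (inl : N →* N ⋊[L.subtype] L) := hgl
      rw [h, Subgroup.mem_bot] at this
      apply hgM
      refine ⟨g.right, ?_⟩
      rw [← inl_left_mul_inr_right g, this]
      simp
    · rw [eq_top_iff]
      intro x _
      rw [← inl_left_mul_inr_right x]
      refine X.mul_mem ?_ (hinr _)
      have : x.left ∈ X.comap (inl : N →* N ⋊[L.subtype] L) := by rw [h]; trivial
      exact this

theorem index_range_inr [Finite N] (L : Subgroup (MulAut N)) :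
    (inr : L →* N ⋊[L.subtype] L).range.index = Nat.card N := by
  have h1 := Subgroup.card_mul_index (inr : L →* N ⋊[L.subtype] L).range
  rw [SemidirectProduct.card] at h1
  have h2 : Nat.card (inr : L →* N ⋊[L.subtype] L).range = Nat.card L :=
    (Nat.card_congr (MonoidHom.ofInjective (inr_injective (φ := L.subtype))).toEquiv).symm
  rw [h2, mul_comm] at h1
  exact Nat.eq_of_mul_eq_mul_right Nat.card_pos h1

theorem isCoatom_map_subgroupOf_range {A B : Type*} [Group A] [Group B] (φ : A →* B)
    (hφ : Function.Injective φ) {S : Subgroup A} (hS : IsCoatom S) :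
    IsCoatom ((S.map φ).subgroupOf φ.range) := by
  have h : (S.map φ).subgroupOf φ.range
      = S.map ((MonoidHom.ofInjective hφ : A ≃* φ.range) : A →* φ.range) := by
    ext ⟨b, hb⟩
    rw [Subgroup.mem_subgroupOf, Subgroup.mem_map, Subgroup.mem_map]
    constructor
    · rintro ⟨a, ha, rfl⟩
      exact ⟨a, ha, rfl⟩
    · rintro ⟨a, ha, h⟩
      exact ⟨a, ha, congrArg Subtype.val h⟩
  rw [h]
  exact (OrderIso.isCoatom_iff (MonoidHom.ofInjective hφ : A ≃* φ.range).mapSubgroup S).mpr hS

/-- The subgroup `W ⋊ H₀`. -/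
def midSubgroup (L : Subgroup (MulAut N)) (H₀ : Subgroup L) (W : Subgroup N)
    (hW : ∀ l ∈ H₀, ∀ n ∈ W, (l : MulAut N) n ∈ W) : Subgroup (N ⋊[L.subtype] L) where
  carrier := {g | g.left ∈ W ∧ g.right ∈ H₀}
  one_mem' := ⟨W.one_mem, H₀.one_mem⟩
  mul_mem' := by
    rintro a b ⟨ha1, ha2⟩ ⟨hb1, hb2⟩
    refine ⟨?_, ?_⟩
    · rw [mul_left]
      exact W.mul_mem ha1 (hW _ ha2 _ hb1)
    · rw [mul_right]
      exact H₀.mul_mem ha2 hb2
  inv_mem' := by
    rintro a ⟨ha1, ha2⟩
    refine ⟨?_, ?_⟩
    · rw [inv_left]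
      exact hW _ (H₀.inv_mem ha2) _ (W.inv_mem ha1)
    · rw [inv_right]
      exact H₀.inv_mem ha2

theorem main (N : Type) [Group N] [Finite N] (hIrr : Irr (⊤ : Subgroup (MulAut N)))
    (W₀ : Subgroup N) (h1 : W₀ ≠ ⊥) (h2 : W₀ ≠ ⊤) :
    ∃ (G : Type) (_ : Group G) (_ : Finite G) (M H K : Subgroup G), IsCoatom M ∧
      M.index = Nat.card N ∧ H ≤ M ∧
      IsCoatom (H.subgroupOf M) ∧ IsCoatom K ∧ H ≤ K ∧ ¬ IsCoatom (H.subgroupOf K) := by
  have hnt : Nontrivial N := by
    by_contra hcon
    rw [not_nontrivial_iff_subsingleton] at hcon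
    exact h1 (Subsingleton.elim _ _)
  obtain ⟨L, hL, hmin⟩ := WellFounded.has_min
    (wellFounded_lt : WellFounded ((· < ·) : Subgroup (MulAut N) → Subgroup (MulAut N) → Prop))
    {L | Irr L} ⟨⊤, hIrr⟩
  have hLbot : (⊥ : Subgroup L) ≠ ⊤ := by
    intro hbt
    have : W₀ = ⊥ ∨ W₀ = ⊤ := by
      apply hL
      intro l hl n hn
      have h3 : (⟨l, hl⟩ : L) ∈ (⊥ : Subgroup L) := by rw [hbt]; trivial
      rw [Subgroup.mem_bot] at h3
      have h4 : l = 1 := congrArg Subtype.val h3
      rw [h4]
      exact hn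
    rcases this with h | h
    · exact h1 h
    · exact h2 h
  obtain ⟨H₀, hH₀, -⟩ := (eq_top_or_exists_le_coatom (⊥ : Subgroup L)).resolve_left hLbot
  have hlt : H₀.map L.subtype < L := by
    refine lt_of_le_of_ne (Subgroup.map_subtype_le _) ?_
    intro heq
    apply hH₀.1
    rw [eq_top_iff]
    intro x _
    have : (x : MulAut N) ∈ H₀.map L.subtype := by rw [heq]; exact x.2
    obtain ⟨y, hy, hyx⟩ := this
    have : y = x := Subtype.ext hyx
    exact this ▸ hy
  have hnirr : ¬ Irr (H₀.map L.subtype) := fun h => hmin _ h hlt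
  unfold Irr at hnirr
  push Not at hnirr
  obtain ⟨W, hWinv, hWbot, hWtop⟩ := hnirr
  have hW : ∀ l ∈ H₀, ∀ n ∈ W, (l : MulAut N) n ∈ W := fun l hl n hn =>
    hWinv _ ⟨l, hl, rfl⟩ n hn
  have hfin : Finite (N ⋊[L.subtype] L) := Finite.of_equiv _ SemidirectProduct.equivProd.symm
  have hHK : H₀.map (inr : L →* N ⋊[L.subtype] L) ≤ midSubgroup L H₀ W hW := by
    rintro _ ⟨l, hl, rfl⟩
    exact ⟨by simp, by simpa using hl⟩
  have hmidK : midSubgroup L H₀ W hW ≤ H₀.comap (rightHom : N ⋊[L.subtype] L →* L) :=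
    fun g hg => hg.2
  refine ⟨N ⋊[L.subtype] L, inferInstance, hfin, (inr : L →* N ⋊[L.subtype] L).range,
    H₀.map inr, H₀.comap rightHom, isCoatom_range_inr L hL, index_range_inr L, ?_,
    isCoatom_map_subgroupOf_range _ inr_injective hH₀,
    Subgroup.isCoatom_comap_of_surjective rightHom_surjective hH₀, hHK.trans hmidK, ?_⟩
  · rintro _ ⟨l, -, rfl⟩
    exact ⟨l, rfl⟩
  · intro hco
    have hlt2 : (H₀.map (inr : L →* N ⋊[L.subtype] L)).subgroupOf (H₀.comap rightHom) <
        (midSubgroup L H₀ W hW).subgroupOf (H₀.comap rightHom) := by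
      constructor
      · exact Subgroup.comap_mono hHK
      · intro hle
        obtain ⟨⟨n, hn⟩, hn1'⟩ := Subgroup.ne_bot_iff_exists_ne_one.mp hWbot
        have hn1 : n ≠ 1 := fun h => hn1' (Subtype.ext h)
        have hmid : (inl n : N ⋊[L.subtype] L) ∈ midSubgroup L H₀ W hW :=
          ⟨by simpa using hn, by simp⟩
        have h4 := @hle ⟨inl n, hmidK hmid⟩ hmid
        obtain ⟨l, -, hl⟩ := h4
        have := congrArg SemidirectProduct.left hl
        simp at this
        exact hn1 this.symm
    have := hco.2 _ hlt2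
    rw [Subgroup.subgroupOf_eq_top] at this
    apply hWtop
    rw [eq_top_iff]
    intro n _
    have h5 : (inl n : N ⋊[L.subtype] L) ∈ H₀.comap rightHom := by
      rw [Subgroup.mem_comap]
      simp
    simpa using (this h5).1

/-- Multiplication by a nonzero scalar as an additive automorphism. -/
def mulEq {F : Type*} [Field F] (u : F) (hu : u ≠ 0) : F ≃+ F where
  toFun x := u * x
  invFun x := u⁻¹ * x
  left_inv x := by simp [hu]
  right_inv x := by simp [hu]
  map_add' := mul_add u

end aux

/-- For every prime p and every d ≥ 2 there is a finite group G with a maximal subgroup M of index p^d and a maximal subgroup H of M that is not second maximal in G: some maximal subgroup K of G contains H without H being maximal in K. (One may take G the affine group V ⋊ GL(V) of V = 𝔽_p^d, M = GL(V), H the stabiliser in M of a line W of V, and K = V ⋊ H, with H < W ⋊ H < K.) So the prime-index hypothesis in the second-maximality criterion cannot be relaxed to prime-power index. -/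
theorem result (p d : ℕ) (hp : p.Prime)
    (hd : 2 ≤ d) :
    ∃ (G : Type) (_ : Group G) (_ : Finite G) (M H K : Subgroup G), IsCoatom M ∧ M.index = p ^ d ∧ H ≤ M ∧
      IsCoatom (H.subgroupOf M) ∧ IsCoatom K ∧ H ≤ K ∧ ¬ IsCoatom (H.subgroupOf K) := by
  have : Fact p.Prime := ⟨hp⟩
  have hcard : Nat.card (Multiplicative (GaloisField p d)) = p ^ d := by
    rw [Nat.card_congr Multiplicative.toAdd]
    exact GaloisField.card p d (by omega)
  have : Finite (Multiplicative (GaloisField p d)) :=
    Nat.finite_of_card_ne_zero (by rw [hcard]; exact pow_ne_zero _ hp.ne_zero)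
  obtain ⟨W₀, hW₀⟩ := Sylow.exists_subgroup_card_pow_prime (G := Multiplicative (GaloisField p d))
    p (n := 1) (by rw [hcard]; exact pow_dvd_pow p (by omega))
  rw [← hcard]
  apply main _ ?_ W₀
  · intro h
    rw [h] at hW₀
    simp at hW₀
    exact hp.one_lt.ne hW₀
  · intro h
    rw [h, Subgroup.card_top, hcard] at hW₀
    have := Nat.pow_right_injective hp.two_le hW₀
    omega
  · intro W hW
    by_cases hbot : W = ⊥
    · exact Or.inl hbot
    · right
      obtain ⟨⟨n, hn⟩, hn1⟩ := Subgroup.ne_bot_iff_exists_ne_one.mp hbot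
      have hn1' : n ≠ 1 := fun h => hn1 (Subtype.ext h)
      have ha : Multiplicative.toAdd n ≠ 0 := fun h => hn1' (by
        rw [← ofAdd_toAdd n, h]; rfl)
      rw [eq_top_iff]
      intro m _
      by_cases hm : Multiplicative.toAdd m = 0
      · have : m = 1 := by rw [← ofAdd_toAdd m, hm]; rfl
        rw [this]; exact W.one_mem
      · have hu : Multiplicative.toAdd m / Multiplicative.toAdd n ≠ 0 := div_ne_zero hm ha
        have := hW (AddEquiv.toMultiplicative (mulEq _ hu)) trivial n hn
        have h2 : (AddEquiv.toMultiplicative (mulEq _ hu)) n = m := by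
          show Multiplicative.ofAdd (Multiplicative.toAdd m / Multiplicative.toAdd n
            * Multiplicative.toAdd n) = m
          rw [div_mul_cancel₀ _ ha]
          rfl
        rw [h2] at this
        exact this

end Cfsg.Agent.S5895
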