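import Cfsg.Statements.S5902
import Cfsg.Agent.S5901

set_option autoImplicit false
open Cfsg

namespace Cfsg.Agent.S5902

theorem exists_compl_of_orderIso {α : Type*} [Lattice α] [BoundedOrder α] (f : α ≃o α) {H : α}
    (h : ∃ C', f H ⊔ C' = ⊤ ∧ f H ⊓ C' = ⊥) : ∃ C, H ⊔ C = ⊤ ∧ H ⊓ C = ⊥ := by
  obtain ⟨C', h1, h2⟩ := h
  refine ⟨f.symm C', ?_, ?_⟩
  · apply f.injective
    rw [f.map_sup, f.apply_symm_apply, h1, f.map_top]
  · apply f.injective
    rw [f.map_inf, f.apply_symm_apply, h2, f.map_bot]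

theorem interval_compl {G : Type*} [Group G] (X : Subgroup G)
    (hK : ComplementedLattice (Subgroup X)) (Y : Subgroup G) (hY : Y ≤ X) :
    ∃ C : Subgroup G, ⊥ ≤ C ∧ C ≤ X ∧ Y ⊔ C = X ∧ Y ⊓ C = ⊥ := by
  obtain ⟨C', hC'⟩ := hK.exists_isCompl (Y.subgroupOf X)
  refine ⟨C'.map X.subtype, bot_le, Subgroup.map_subtype_le _, ?_, ?_⟩
  · have h1 : (Y.subgroupOf X).map X.subtype = Y := by
      rw [Subgroup.subgroupOf_map_subtype, inf_eq_left.mpr hY]
    have h2 := congrArg (Subgroup.map X.subtype) hC'.sup_eq_top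
    rw [Subgroup.map_sup, h1, ← MonoidHom.range_eq_map, Subgroup.range_subtype] at h2
    exact h2
  · have h1 : (Y.subgroupOf X).map X.subtype = Y := by
      rw [Subgroup.subgroupOf_map_subtype, inf_eq_left.mpr hY]
    have h2 := congrArg (Subgroup.map X.subtype) hC'.inf_eq_bot
    rw [Subgroup.map_inf _ _ _ (Subgroup.subtype_injective X), h1, Subgroup.map_bot] at h2
    exact h2

theorem part_one {G : Type*} [Group G] [Finite G] (X M : Subgroup G)
    (hK : ComplementedLattice (Subgroup X))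
    (hM : IsCoatom M) (hXM : X ≤ M) (huniq : ∀ M' : Subgroup G, IsCoatom M' → X ≤ M' → M' = M)
    (H : Subgroup G) (hH : ¬ H ≤ M.normalCore) : ∃ C : Subgroup G, H ⊔ C = ⊤ ∧ H ⊓ C = ⊥ := by
  obtain ⟨h, hhH, hhN⟩ := Set.not_subset.mp hH
  have : ¬ ∀ b : G, b * h * b⁻¹ ∈ M := hhN
  push Not at this
  obtain ⟨b, hb⟩ := this
  apply exists_compl_of_orderIso (MulAut.conj b).mapSubgroup
  apply Cfsg.Agent.S5901.result ⊥ X M bot_le (fun h => hM.1 (top_le_iff.mp (h ▸ hXM)))
    (fun Y _ hY => interval_compl X hK Y hY) hM hXM huniq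
  · intro hle
    apply hb
    apply hle
    exact ⟨h, hhH, rfl⟩
  · simp

/-- Let G be a finite group, X a subgroup whose own subgroup lattice is complemented, and suppose X lies in exactly one maximal subgroup M of G. Then every subgroup H of G not contained in the normal core of M has a complement in the subgroup lattice of G (some C with H ⊔ C = G and H ⊓ C = 1); in particular the subgroup lattice of G modulo the normal core of M is complemented. -/
theorem result {G : Type*} [Group G] [Finite G] (X M : Subgroup G)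
    (hK : ComplementedLattice (Subgroup X))
    (hM : IsCoatom M) (hXM : X ≤ M) (huniq : ∀ M' : Subgroup G, IsCoatom M' → X ≤ M' → M' = M) :
    (∀ H : Subgroup G, ¬ H ≤ M.normalCore → ∃ C : Subgroup G, H ⊔ C = ⊤ ∧ H ⊓ C = ⊥) ∧
    ComplementedLattice (Subgroup (G ⧸ M.normalCore)) := by
  refine ⟨part_one X M hK hM hXM huniq, ⟨fun Hb => ?_⟩⟩
  by_cases hbot : Hb = ⊥
  · rw [hbot]
    exact ⟨⊤, isCompl_bot_top⟩
  · have hsurj := QuotientGroup.mk'_surjective M.normalCore
    have hH : ¬ Hb.comap (QuotientGroup.mk' M.normalCore) ≤ M.normalCore := by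
      intro hle
      apply hbot
      rw [eq_bot_iff]
      intro x hx
      obtain ⟨g, rfl⟩ := hsurj x
      have := hle (show g ∈ Hb.comap (QuotientGroup.mk' M.normalCore) from hx)
      rw [Subgroup.mem_bot]
      exact (QuotientGroup.eq_one_iff g).mpr this
    obtain ⟨C, h1, h2⟩ := part_one X M hK hM hXM huniq _ hH
    refine ⟨C.map (QuotientGroup.mk' M.normalCore), IsCompl.of_eq ?_ ?_⟩
    · rw [eq_bot_iff]
      rintro x ⟨hx1, c, hc, rfl⟩
      have : c ∈ Hb.comap (QuotientGroup.mk' M.normalCore) ⊓ C := ⟨hx1, hc⟩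
      rw [h2, Subgroup.mem_bot] at this
      rw [this, map_one]
      exact Subgroup.one_mem _
    · have h3 := congrArg (Subgroup.map (QuotientGroup.mk' M.normalCore)) h1
      rw [Subgroup.map_sup, Subgroup.map_comap_eq_self_of_surjective hsurj,
        Subgroup.map_top_of_surjective _ hsurj] at h3
      exact h3

end Cfsg.Agent.S5902
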