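import Cfsg.Statements.S5903
import Cfsg.Agent.S5901
import Cfsg.Agent.S5902

set_option autoImplicit false
open Cfsg

namespace Cfsg.Agent.S5903

theorem interval_compl {G : Type*} [Group G] (X N : Subgroup G) (hNX : N ≤ X)
    [(N.subgroupOf X).Normal] (hK : ComplementedLattice (Subgroup (X ⧸ N.subgroupOf X)))
    (Y : Subgroup G) (hNY : N ≤ Y) (hY : Y ≤ X) :
    ∃ C : Subgroup G, N ≤ C ∧ C ≤ X ∧ Y ⊔ C = X ∧ Y ⊓ C = N := by
  set π := QuotientGroup.mk' (N.subgroupOf X) with hπ
  have hsurj : Function.Surjective π := QuotientGroup.mk'_surjective _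
  have hker : π.ker = N.subgroupOf X := QuotientGroup.ker_mk' _
  obtain ⟨C', hC'⟩ := hK.exists_isCompl ((Y.subgroupOf X).map π)
  have hYc : ((Y.subgroupOf X).map π).comap π = Y.subgroupOf X := by
    apply Subgroup.comap_map_eq_self
    rw [hker]
    exact Subgroup.comap_mono hNY
  have h1 : (Y.subgroupOf X).map X.subtype = Y := by
    rw [Subgroup.subgroupOf_map_subtype, inf_eq_left.mpr hY]
  have hN1 : (N.subgroupOf X).map X.subtype = N := by
    rw [Subgroup.subgroupOf_map_subtype, inf_eq_left.mpr hNX]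
  refine ⟨(C'.comap π).map X.subtype, ?_, Subgroup.map_subtype_le _, ?_, ?_⟩
  · refine le_trans hN1.ge ?_
    apply Subgroup.map_mono
    exact le_trans hker.ge (Subgroup.ker_le_comap _ _)
  · have h2 := congrArg (Subgroup.comap π) hC'.sup_eq_top
    rw [← Subgroup.comap_sup_eq _ _ _ hsurj, hYc, Subgroup.comap_top] at h2
    have h3 := congrArg (Subgroup.map X.subtype) h2
    rw [Subgroup.map_sup, h1, ← MonoidHom.range_eq_map, Subgroup.range_subtype] at h3
    exact h3
  · have h2 := congrArg (Subgroup.comap π) hC'.inf_eq_bot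
    rw [Subgroup.comap_inf, hYc, MonoidHom.comap_bot, hker] at h2
    have h3 := congrArg (Subgroup.map X.subtype) h2
    rw [Subgroup.map_inf _ _ _ (Subgroup.subtype_injective X), h1, hN1] at h3
    exact h3

theorem exists_conj {G : Type*} [Group G] [IsSimpleGroup G] (M N : Subgroup G)
    (hN : N ≠ ⊥) (hcen : ∀ n ∈ N, ∀ m ∈ M, m * n = n * m) (H : Subgroup G) (hb : H ≠ ⊥)
    (ht : H ≠ ⊤) :
    ∃ b : G, ¬ (MulAut.conj b).mapSubgroup H ≤ M ∧ ¬ N ≤ (MulAut.conj b).mapSubgroup H := by
  by_contra hcon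
  push Not at hcon
  have hncl : Subgroup.normalClosure (N : Set G) = ⊤ := by
    rcases (Subgroup.normalClosure_normal (s := (N : Set G))).eq_bot_or_eq_top with h | h
    · exfalso
      apply hN
      rw [eq_bot_iff, ← h]
      exact Subgroup.subset_normalClosure
    · exact h
  have hle : Subgroup.normalClosure (N : Set G) ≤ Subgroup.normalizer (H : Set G) := by
    rw [Subgroup.normalClosure, Subgroup.closure_le]
    intro x hx
    obtain ⟨n, hn, hconj⟩ := Group.mem_conjugatesOfSet_iff.mp hx
    obtain ⟨c, rfl⟩ := isConj_iff.mp hconj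
    by_cases hcase : (MulAut.conj c⁻¹).mapSubgroup H ≤ M
    · rw [SetLike.mem_coe, Subgroup.mem_normalizer_iff]
      have key : ∀ k ∈ H, (c * n * c⁻¹) * k = k * (c * n * c⁻¹) := by
        intro k hk
        have h1 : c⁻¹ * k * c ∈ M := hcase ⟨k, hk, by simp⟩
        have h2 := hcen n hn _ h1
        calc c * n * c⁻¹ * k = c * (n * (c⁻¹ * k * c)) * c⁻¹ := by group
          _ = c * (c⁻¹ * k * c * n) * c⁻¹ := by rw [h2]
          _ = k * (c * n * c⁻¹) := by group
      intro h
      constructor
      · intro hh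
        rw [key h hh, mul_inv_cancel_right]; exact hh
      · intro hh
        have := key _ hh
        have h5 : h = c * n * c⁻¹ * h * (c * n * c⁻¹)⁻¹ := by
          have h6 : c * n * c⁻¹ * h * (c * n * c⁻¹)⁻¹ * (c * n * c⁻¹) = c * n * c⁻¹ * h := by
            group
          rw [h6] at this
          exact (mul_left_cancel this).symm
        rw [h5]; exact hh
    · have h1 := hcon c⁻¹ hcase hn
      obtain ⟨h₀, hh₀, hh⟩ := h1
      apply Subgroup.le_normalizer
      have : c * n * c⁻¹ = h₀ := by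
        rw [← hh]
        simp
        group
      rw [this]
      exact hh₀
  rw [hncl, top_le_iff, Subgroup.normalizer_eq_top_iff] at hle
  rcases hle.eq_bot_or_eq_top with h | h
  · exact hb h
  · exact ht h

/-- Let G be a finite simple group, X a subgroup lying in exactly one maximal subgroup M of G, and N a subgroup of prime order with N ≤ X that is central in M. If the subgroup lattice of X/N is complemented, then the subgroup lattice of G is complemented. -/
theorem result {G : Type*} [Group G] [Finite G] [IsSimpleGroup G] (X M N : Subgroup G)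
    (hM : IsCoatom M) (hXM : X ≤ M) (huniq : ∀ M' : Subgroup G, IsCoatom M' → X ≤ M' → M' = M)
    (hNX : N ≤ X) (hN : (Nat.card N).Prime) (hcen : ∀ n ∈ N, ∀ m ∈ M, m * n = n * m)
    [(N.subgroupOf X).Normal] (hK : ComplementedLattice (Subgroup (X ⧸ N.subgroupOf X))) :
    ComplementedLattice (Subgroup G) := by
  refine ⟨fun H => ?_⟩
  by_cases hb : H = ⊥
  · rw [hb]; exact ⟨⊤, isCompl_bot_top⟩
  by_cases ht : H = ⊤
  · rw [ht]; exact ⟨⊥, isCompl_top_bot⟩
  have hNbot : N ≠ ⊥ := by
    intro h
    rw [h] at hN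
    simp at hN
    exact Nat.not_prime_one hN
  obtain ⟨b, hb1, hb2⟩ := exists_conj M N hNbot hcen H hb ht
  have hex : ∃ C : Subgroup G, H ⊔ C = ⊤ ∧ H ⊓ C = ⊥ := by
    apply Cfsg.Agent.S5902.exists_compl_of_orderIso (MulAut.conj b).mapSubgroup
    apply Cfsg.Agent.S5901.result N X M hNX (fun h => hM.1 (top_le_iff.mp (h ▸ hXM)))
      (fun Y hNY hY => interval_compl X N hNX hK Y hNY hY) hM hXM huniq _ hb1
    have hdvd : Nat.card ↥((MulAut.conj b).mapSubgroup H ⊓ N) ∣ Nat.card N :=
      Subgroup.card_dvd_of_le inf_le_right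
    rcases (Nat.dvd_prime hN).mp hdvd with h1 | h1
    · exact Subgroup.eq_bot_of_card_eq _ h1
    · exfalso
      apply hb2
      have := Subgroup.eq_of_le_of_card_ge (inf_le_right : (MulAut.conj b).mapSubgroup H ⊓ N ≤ N)
        h1.ge
      rw [← this]
      exact inf_le_left
  obtain ⟨C, h1, h2⟩ := hex
  exact ⟨C, IsCompl.of_eq h2 h1⟩

end Cfsg.Agent.S5903
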