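import Cfsg.Statements.S5904
import Cfsg.Agent.Lib.Helper98Part

set_option autoImplicit false
open scoped Pointwise
open Cfsg

namespace Cfsg.Agent.S5904

/-- Let Ω be a finite set with more than two elements and O ⊆ Ω a subset with exactly as many elements as its complement. Then the setwise stabilizer of O in the symmetric group on Ω is not a maximal subgroup (it is properly contained in the stabilizer of the partition {O, Ω ∖ O}, which is proper). -/
theorem result {Ω : Type*} [Fintype Ω] [DecidableEq Ω] (hΩ : 2 < Fintype.card Ω)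
    (O : Set Ω) (hO : Nat.card O = Nat.card ↥Oᶜ) :
    ¬ IsCoatom (MulAction.stabilizer (Equiv.Perm Ω) O) := by
  classical
  intro hco
  set f : Ω → Fin 2 := fun x => if x ∈ O then 0 else 1 with hfdef
  have hf0 : ∀ x, f x = 0 ↔ x ∈ O := by
    intro x
    simp only [hfdef]
    split_ifs with h <;> simp [h]
  have hf1 : ∀ x, f x = 1 ↔ x ∈ Oᶜ := by
    intro x
    simp only [hfdef]
    split_ifs with h <;> simp [h]
  have hcard : Nat.card O + Nat.card ↥Oᶜ = Fintype.card Ω := by
    rw [← Nat.card_eq_fintype_card, ← Set.ncard_add_ncard_compl O]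
    rfl
  have hm : 2 ≤ Nat.card O := by omega
  have hf : ∀ i : Fin 2, Nat.card {x : Ω // f x = i} = Nat.card O := by
    intro i
    fin_cases i
    · exact Nat.card_congr (Equiv.subtypeEquivRight hf0)
    · rw [hO]
      exact Nat.card_congr (Equiv.subtypeEquivRight hf1)
  have hne := Cfsg.Agent.Lib.Helper98Part.partStab_ne_top hm le_rfl f hf
  apply hne
  apply hco.2
  constructor
  · intro g hg
    have hg' : ∀ x, g x ∈ O ↔ x ∈ O := by
      intro x
      rw [MulAction.mem_stabilizer_iff] at hg
      conv_lhs => rw [← hg]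
      exact Set.smul_mem_smul_set_iff
    refine Cfsg.Agent.Lib.Helper98Part.mem_partStab_of_forall 1 ?_
    intro x
    simp only [hfdef, hg' x, Equiv.Perm.coe_one, id_eq]
  · intro hle
    obtain ⟨h, hh⟩ := Cfsg.Agent.Lib.Helper98Part.exists_lift f hf (Equiv.swap 0 1)
    have hmem := hle (Cfsg.Agent.Lib.Helper98Part.mem_partStab_of_forall _ hh)
    obtain ⟨x, hx⟩ := Cfsg.Agent.Lib.Helper98Part.exists_fibre (by omega) f hf 0
    have h1 : h x ∈ O := by
      have hmem' : h • O = O := hmem
      rw [← hmem']
      exact Set.smul_mem_smul_set ((hf0 x).mp hx)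
    have h2 := hh x
    rw [hx, (hf0 _).mpr h1] at h2
    simp at h2

end Cfsg.Agent.S5904
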