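import Cfsg.Statements.S5908
import Mathlib
import Cfsg.Prelude
import Cfsg.Agent.Lib.Helper62SU32

set_option autoImplicit false
open Cfsg

namespace Cfsg.Agent.S5908

open Cfsg.Agent.Lib.Helper62F4 Cfsg.Agent.Lib.Helper62SU32

/-- abstract criterion -/
theorem not_complemented {G : Type*} [Group G] [Finite G] (M : Subgroup G)
    (hM : ∀ g : G, g ^ 2 = 1 → g ∈ M) (a : G) (ha : a ^ 4 = 1) (haM : a ∉ M) :
    ¬ ComplementedLattice (Subgroup G) := by
  intro hc
  set H : Subgroup G := Subgroup.normalClosure {g : G | g ^ 2 = 1} with hH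
  have hHM : H ≤ M := by
    rw [hH]
    unfold Subgroup.normalClosure
    rw [Subgroup.closure_le]
    intro x hx
    rw [Group.mem_conjugatesOfSet_iff] at hx
    obtain ⟨b, hb, hbx⟩ := hx
    obtain ⟨c, hc⟩ := isConj_iff.1 hbx
    apply hM
    have hb' : b ^ 2 = 1 := hb
    rw [← hc, conj_pow, hb']; simp
  have hn : H.Normal := Subgroup.normalClosure_normal
  obtain ⟨X, hX⟩ := hc.exists_isCompl H
  have hsup : H ⊔ X = ⊤ := hX.sup_eq_top
  have hinf : H ⊓ X = ⊥ := hX.inf_eq_bot
  have haS : a ∈ ((H ⊔ X : Subgroup G) : Set G) := by rw [hsup]; trivial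
  rw [Subgroup.normal_mul] at haS
  obtain ⟨h, hh, x, hx, rfl⟩ := Set.mem_mul.1 haS
  have hodd : ¬ 2 ∣ orderOf x := by
    intro h2
    obtain ⟨k, hk⟩ := h2
    have hpos : 0 < orderOf x := orderOf_pos x
    have hy2 : (x ^ k) ^ 2 = 1 := by
      rw [← pow_mul, mul_comm, ← hk, pow_orderOf_eq_one]
    have hyH : x ^ k ∈ H := Subgroup.subset_normalClosure hy2
    have hyX : x ^ k ∈ X := X.pow_mem hx k
    have : x ^ k ∈ H ⊓ X := ⟨hyH, hyX⟩
    rw [hinf, Subgroup.mem_bot] at this
    have := orderOf_dvd_of_pow_eq_one this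
    have := Nat.le_of_dvd (by omega) this
    omega
  have h1 : (QuotientGroup.mk (h * x) : G ⧸ H) = QuotientGroup.mk x := by
    rw [QuotientGroup.mk_mul, (QuotientGroup.eq_one_iff h).2 hh, one_mul]
  have h4 : (QuotientGroup.mk x : G ⧸ H) ^ 4 = 1 := by
    rw [← h1, ← QuotientGroup.mk_pow, ha]; rfl
  have hm : (QuotientGroup.mk x : G ⧸ H) ^ orderOf x = 1 := by
    rw [← QuotientGroup.mk_pow, pow_orderOf_eq_one]; rfl
  have hcop : Nat.Coprime 4 (orderOf x) := by
    have : Nat.Coprime 2 (orderOf x) := (Nat.Prime.coprime_iff_not_dvd Nat.prime_two).2 hodd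
    exact Nat.Coprime.pow_left 2 this
  have hone : (QuotientGroup.mk x : G ⧸ H) = 1 := by
    have := pow_gcd_eq_one.2 ⟨h4, hm⟩
    rwa [hcop.gcd_eq_one, pow_one] at this
  have hxH : x ∈ H := (QuotientGroup.eq_one_iff x).1 hone
  exact haM (hHM (H.mul_mem hh hxH))

/-- each row has at most one nonzero entry -/
def IsMonRow (r : Fin 3 → F4) : Prop := ∀ j k, r j ≠ 0 → r k ≠ 0 → j = k

instance (r : Fin 3 → F4) : Decidable (IsMonRow r) := by unfold IsMonRow; infer_instance

/-- each row has at most one nonzero entry -/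
def IsMon (M : Fin 3 → Fin 3 → F4) : Prop := ∀ i, IsMonRow (M i)

instance decFn (M : Fin 3 → Fin 3 → F4) : Decidable (IsMon M) := by unfold IsMon; infer_instance

instance decM (M : M3) : Decidable (IsMon M) := decFn M

theorem IsMon.mul {M N : M3} (hM : IsMon M) (hN : IsMon N) : IsMon (M * N) := by
  intro i j k hj hk
  rw [Matrix.mul_apply] at hj hk
  obtain ⟨l, -, hl⟩ := Finset.exists_ne_zero_of_sum_ne_zero hj
  obtain ⟨l', -, hl'⟩ := Finset.exists_ne_zero_of_sum_ne_zero hk
  have h1 := hM i l l' (left_ne_zero_of_mul hl) (left_ne_zero_of_mul hl')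
  subst h1
  exact hN l j k (right_ne_zero_of_mul hl) (right_ne_zero_of_mul hl')

theorem IsMon.one : IsMon (1 : M3) := by decide +kernel

/-- the monomial subgroup -/
def Mon : Subgroup (Cfsg.SU 3 F4 2) where
  carrier := {g | IsMon g.1.1}
  one_mem' := IsMon.one
  mul_mem' := by
    intro a b ha hb
    exact IsMon.mul ha hb
  inv_mem' := by
    intro a ha
    have hp : ∀ n : ℕ, IsMon (a ^ n).1.1 := by
      intro n
      induction n with
      | zero => simpa using IsMon.one
      | succ n ih => rw [pow_succ]; exact IsMon.mul ih ha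
    have : a⁻¹ = a ^ (orderOf a - 1) := by
      have hpos : 0 < orderOf a := orderOf_pos a
      rw [inv_eq_iff_mul_eq_one, ← pow_succ', Nat.sub_add_cancel hpos, pow_orderOf_eq_one]
    show IsMon (a⁻¹).1.1
    rw [this]
    exact hp _

def S1 : M3 := !![w, 0, 0; 0, w ^ 2, 0; 0, 0, 1]
def S2 : M3 := !![0, 1, 0; 0, 0, 1; 1, 0, 0]
def A0 : M3 := !![1, 1, 1; 1, w, w ^ 2; 1, w ^ 2, w]

def s1 : Cfsg.SU 3 F4 2 := mkSU S1 (by rw [Matrix.det_fin_three]; decide +kernel) (by decide +kernel)
def s2 : Cfsg.SU 3 F4 2 := mkSU S2 (by rw [Matrix.det_fin_three]; decide +kernel) (by decide +kernel)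
def a0 : Cfsg.SU 3 F4 2 := mkSU A0 (by rw [Matrix.det_fin_three]; decide +kernel) (by decide +kernel)

set_option maxRecDepth 100000 in
set_option synthInstance.maxSize 100000 in
set_option synthInstance.maxHeartbeats 1000000 in
theorem brute : ∀ a b c : F4, nrm a b c = 1 → ∀ d e f : F4, nrm d e f = 1 → ip a b c d e f = 0 →
      ∀ g h i : F4, nrm g h i = 1 → ip a b c g h i = 0 → ip d e f g h i = 0 →
      ((!![a, d, g; b, e, h; c, f, i] * !![a, d, g; b, e, h; c, f, i] * S1 =
        S1 * (!![a, d, g; b, e, h; c, f, i] * !![a, d, g; b, e, h; c, f, i])) →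
      (!![a, d, g; b, e, h; c, f, i] * !![a, d, g; b, e, h; c, f, i] * S2 =
        S2 * (!![a, d, g; b, e, h; c, f, i] * !![a, d, g; b, e, h; c, f, i])) →
      IsMon !![a, d, g; b, e, h; c, f, i]) := by
  decide +kernel

theorem mon_of_sq (x : Cfsg.SU 3 F4 2) (hx : x ^ 2 ∈ Subgroup.center (Cfsg.SU 3 F4 2)) :
    x ∈ Mon := by
  have h := forall_SU (fun M => M * M * S1 = S1 * (M * M) → M * M * S2 = S2 * (M * M) → IsMon M)
    brute x
  rw [Subgroup.mem_center_iff] at hx
  apply h
  · have := hx s1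
    have := congrArg (fun y : Cfsg.SU 3 F4 2 => y.1.1) this
    rw [pow_two] at this
    exact this.symm
  · have := hx s2
    have := congrArg (fun y : Cfsg.SU 3 F4 2 => y.1.1) this
    rw [pow_two] at this
    exact this.symm

theorem model : ¬ ComplementedLattice (Subgroup (Cfsg.PSU 3 F4 2)) := by
  have hcen : Subgroup.center (Cfsg.SU 3 F4 2) ≤ Mon := by
    intro c hc
    exact mon_of_sq c (Subgroup.pow_mem _ hc 2)
  apply not_complemented (Mon.map (QuotientGroup.mk' _)) _ (QuotientGroup.mk a0)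
  · rw [← QuotientGroup.mk_pow]
    have : a0 ^ 4 = 1 := by
      apply Subtype.ext
      apply Subtype.ext
      show A0 ^ 4 = 1
      decide +kernel
    rw [this]; rfl
  · intro h
    obtain ⟨m, hm, hma⟩ := Subgroup.mem_map.1 h
    have h1 : m⁻¹ * a0 ∈ Subgroup.center (Cfsg.SU 3 F4 2) := QuotientGroup.eq.1 hma
    have h2 : a0 ∈ Mon := by
      have := Mon.mul_mem hm (hcen h1)
      simpa using this
    have h3 : IsMon A0 := h2
    revert h3
    decide +kernel
  · intro g
    induction g using QuotientGroup.induction_on with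
    | H x =>
      intro hx
      rw [← QuotientGroup.mk_pow, QuotientGroup.eq_one_iff] at hx
      exact Subgroup.mem_map.2 ⟨x, mon_of_sq x hx, rfl⟩

/-- The subgroup lattice of PSU₃(2) (the solvable group of order 72, realised over the field with 4 elements) is not complemented: some subgroup H has no subgroup X with H ⊔ X = ⊤ and H ⊓ X = ⊥. -/
theorem result {F : Type*} [Field F] [Fintype F] (hF : Fintype.card F = 4) :
    ¬ ComplementedLattice (Subgroup (Cfsg.PSU 3 F 2)) := by
  have : CharP F 2 := charP_of_card hF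
  intro h
  apply model
  exact ((psuEquiv (equivF4 hF)).mapSubgroup).complementedLattice

end Cfsg.Agent.S5908
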