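import Cfsg.Statements.S5909
import Cfsg.Agent.Lib.Helper90PartAlt

set_option autoImplicit false
open Cfsg

namespace Cfsg.Agent.S5909

/-- Let Ω be a finite set whose size is not 8, and f : Ω → Fin b a labelling with b ≥ 2 whose fibres all have the same size a ≥ 2 (a partition into b blocks of size a). Then the even permutations preserving the partition — the intersection of the imprimitive wreath product S_a ≀ S_b with the alternating group — form a maximal subgroup of the alternating group on Ω. -/
theorem result {Ω : Type*} [Fintype Ω] [DecidableEq Ω] (h8 : Fintype.card Ω ≠ 8) (a b : ℕ) (ha : 2 ≤ a) (hb : 2 ≤ b)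
    (f : Ω → Fin b) (hf : ∀ i : Fin b, Nat.card {x : Ω // f x = i} = a) :
    IsCoatom ((Subgroup.closure {g : Equiv.Perm Ω | ∀ x y : Ω, f x = f y ↔ f (g x) = f (g y)} ⊓ alternatingGroup Ω).subgroupOf (alternatingGroup Ω)) := by
  classical
  rw [Cfsg.Agent.Lib.Helper98Part.closure_eq_partStab]
  have hb1 : 1 ≤ b := by omega
  constructor
  · -- properness
    intro htop
    obtain ⟨x, hx⟩ := Cfsg.Agent.Lib.Helper98Part.exists_fibre (by omega) f hf ⟨0, by omega⟩
    obtain ⟨z, hz⟩ := Cfsg.Agent.Lib.Helper98Part.exists_fibre (by omega) f hf ⟨1, by omega⟩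
    obtain ⟨y, hy, hyx⟩ := Cfsg.Agent.Lib.Helper98Part.exists_fibre_ne ha f hf x
    have hxz : f x ≠ f z := by rw [hx, hz]; simp [Fin.ext_iff]
    have hxz' : x ≠ z := fun h => hxz (h ▸ rfl)
    have hyz' : y ≠ z := fun h => hxz (by rw [← hy, h])
    have h3 : Equiv.Perm.IsThreeCycle (Equiv.swap y x * Equiv.swap y z) :=
      Equiv.Perm.isThreeCycle_swap_mul_swap_same hyx hyz' hxz'
    have hmem : (⟨_, h3.mem_alternatingGroup⟩ : alternatingGroup Ω) ∈
        (Cfsg.Agent.Lib.Helper98Part.partStab f ⊓ alternatingGroup Ω).subgroupOf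
          (alternatingGroup Ω) := by
      rw [htop]; trivial
    rw [Subgroup.mem_subgroupOf] at hmem
    have h4 := (hmem.1 x z)
    simp only [Equiv.Perm.mul_apply] at h4
    rw [Equiv.swap_apply_of_ne_of_ne hyx.symm hxz', Equiv.swap_apply_right,
      Equiv.swap_apply_right, Equiv.swap_apply_left] at h4
    exact hxz (h4.2 hy)
  · intro G hlt
    -- small cases
    by_cases hsmall : a = 2 ∧ b ≤ 4
    · obtain ⟨rfl, hb4⟩ := hsmall
      have hcard := Cfsg.Agent.Lib.Helper90PartAlt.card_eq f hf
      have hb' : b = 2 ∨ b = 3 := by omega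
      rcases hb' with rfl | rfl
      · exact Cfsg.Agent.Lib.Helper90PartAlt.eq_top_four f hf G hlt
      · exact Cfsg.Agent.Lib.Helper90PartAlt.eq_top_six f hf G hlt
    · have hab : b + 4 ≤ b * a := by
        by_cases ha3 : 3 ≤ a
        · nlinarith
        · have : a = 2 := by omega
          subst this
          omega
      set G' : Subgroup (Equiv.Perm Ω) := G.map (alternatingGroup Ω).subtype with hG'
      have hH : Cfsg.Agent.Lib.Helper98Part.partStab f ⊓ alternatingGroup Ω ≤ G' := by
        intro g hg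
        refine ⟨⟨g, hg.2⟩, hlt.le ?_, rfl⟩
        rw [Subgroup.mem_subgroupOf]
        exact hg
      have hnot : ¬ G' ≤ Cfsg.Agent.Lib.Helper98Part.partStab f := by
        intro hle
        apply hlt.not_ge
        intro g hg
        rw [Subgroup.mem_subgroupOf]
        exact ⟨hle ⟨g, hg, rfl⟩, g.2⟩
      have h3 : ∃ c : Equiv.Perm Ω, Equiv.Perm.IsThreeCycle c ∧ c ∈ G' := by
        by_cases ha3 : 3 ≤ a
        · obtain ⟨c, hc, hcH⟩ :=
            Cfsg.Agent.Lib.Helper90PartAlt.exists_threeCycle_of_three_le ha3 hb1 f hf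
          exact ⟨c, hc, hH hcH⟩
        · exact Cfsg.Agent.Lib.Helper90PartAlt.exists_threeCycle_of_five_le ha (by omega) f hf
            G' hH hnot
      obtain ⟨c, hc, hcG⟩ := h3
      have hle := Cfsg.Agent.Lib.Helper90PartAlt.alt_le_of_threeCycle f hf hab G' hH hnot hc hcG
      rw [eq_top_iff]
      intro g _
      obtain ⟨g', hg', hgg'⟩ := hle g.2
      have : g' = g := Subtype.ext hgg'
      exact this ▸ hg'

end Cfsg.Agent.S5909
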