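import Cfsg.Statements.S5910
import Mathlib
import Cfsg.Prelude

set_option autoImplicit false
open Cfsg

namespace Cfsg.Agent.S5910

/-- label of the pair containing a point of `Fin 8` -/
def f0 (x : Fin 8) : Fin 4 := (finProdFinEquiv (m := 4) (n := 2)).symm x |>.1

/-- partition preserving permutations of `Fin 8` -/
def St0 : Subgroup (Equiv.Perm (Fin 8)) where
  carrier := {g | ∀ x y, f0 x = f0 y ↔ f0 (g x) = f0 (g y)}
  one_mem' := by intro x y; simp
  mul_mem' := by
    intro a b ha hb x y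
    rw [hb x y, ha (b x) (b y)]; simp
  inv_mem' := by
    intro a ha x y
    have := ha (a⁻¹ x) (a⁻¹ y)
    simp only [Equiv.Perm.coe_inv, Equiv.apply_symm_apply] at this
    exact this.symm

/-- affine permutations of `Fin 8 = F_2^3` -/
def Aff0 : Subgroup (Equiv.Perm (Fin 8)) where
  carrier := {g | ∀ x y z, g (x ^^^ y ^^^ z) = g x ^^^ g y ^^^ g z}
  one_mem' := by intro x y z; simp
  mul_mem' := by
    intro a b ha hb x y z
    simp only [Equiv.Perm.mul_apply]
    rw [hb x y z, ha]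
  inv_mem' := by
    intro a ha x y z
    have := ha (a⁻¹ x) (a⁻¹ y) (a⁻¹ z)
    simp only [Equiv.Perm.coe_inv, Equiv.apply_symm_apply] at this
    rw [← this]; simp

def vv (a b c d : Fin 8) : Fin 8 → Fin 8 := ![a, a^^^1, b, b^^^1, c, c^^^1, d, d^^^1]

def sg (v : Fin 8 → Fin 8) : ℤˣ := ∏ j, ∏ i ∈ Finset.Iio j, (if v i < v j then 1 else -1)

set_option maxRecDepth 100000 in
set_option synthInstance.maxSize 100000 in
set_option synthInstance.maxHeartbeats 1000000 in
theorem c1' : ∀ a b c d : Fin 8, f0 a ≠ f0 b → f0 a ≠ f0 c → f0 a ≠ f0 d → f0 b ≠ f0 c →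
    f0 b ≠ f0 d → f0 c ≠ f0 d → sg (vv a b c d) = 1 →
    ∀ x y, vv a b c d (x ^^^ y) = vv a b c d x ^^^ vv a b c d y ^^^ vv a b c d 0 := by
  decide +kernel

theorem partner : ∀ y z : Fin 8, f0 y = f0 z → y ≠ z → z = y ^^^ 1 := by decide

theorem f0_partner : ∀ y : Fin 8, f0 (y ^^^ 1) = f0 y := by decide

theorem ne_partner : ∀ y : Fin 8, y ^^^ 1 ≠ y := by decide

theorem xor_aux : ∀ p q r s : Fin 8, p ^^^ q ^^^ s ^^^ r ^^^ s = p ^^^ q ^^^ r := by
  decide +kernel

theorem map_partner {g : Equiv.Perm (Fin 8)} (hg : g ∈ St0) (x : Fin 8) :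
    g (x ^^^ 1) = g x ^^^ 1 := by
  apply partner
  · exact ((hg (x ^^^ 1) x).1 (f0_partner x)).symm
  · intro h
    exact ne_partner x (g.injective h).symm

theorem eq_vv {g : Equiv.Perm (Fin 8)} (hg : g ∈ St0) :
    (g : Fin 8 → Fin 8) = vv (g 0) (g 2) (g 4) (g 6) := by
  have h0 := map_partner hg 0
  have h2 := map_partner hg 2
  have h4 := map_partner hg 4
  have h6 := map_partner hg 6
  funext x
  fin_cases x
  · rfl
  · exact h0
  · rfl
  · exact h2
  · rfl
  · exact h4
  · rfl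
  · exact h6

theorem c1 (g : Equiv.Perm (Fin 8)) (hg : g ∈ St0) (hs : Equiv.Perm.sign g = 1) : g ∈ Aff0 := by
  have hv := eq_vv hg
  have hne : ∀ x y : Fin 8, f0 x ≠ f0 y → f0 (g x) ≠ f0 (g y) := fun x y h h' => h ((hg x y).2 h')
  have hsg : sg (vv (g 0) (g 2) (g 4) (g 6)) = 1 := by
    rw [← hv, ← hs, Equiv.Perm.sign_eq_prod_prod_Iio]; rfl
  have key := c1' (g 0) (g 2) (g 4) (g 6) (hne _ _ (by decide)) (hne _ _ (by decide))
    (hne _ _ (by decide)) (hne _ _ (by decide)) (hne _ _ (by decide)) (hne _ _ (by decide)) hsg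
  rw [← hv] at key
  intro x y z
  rw [key, key, xor_aux]

/-- an affine even permutation not preserving the partition -/
def k0 : Equiv.Perm (Fin 8) := Equiv.swap 1 2 * Equiv.swap 5 6

/-- an even permutation that is not affine -/
def t0 : Equiv.Perm (Fin 8) := Equiv.swap 0 1 * Equiv.swap 1 2

theorem k0_aff : k0 ∈ Aff0 := by
  show ∀ x y z, k0 (x ^^^ y ^^^ z) = k0 x ^^^ k0 y ^^^ k0 z
  decide +kernel

theorem k0_sign : Equiv.Perm.sign k0 = 1 := by decide +kernel

theorem k0_not : k0 ∉ St0 := by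
  intro h
  have := (h 0 1).1 (by decide)
  revert this
  decide +kernel

theorem t0_sign : Equiv.Perm.sign t0 = 1 := by decide +kernel

theorem t0_not : t0 ∉ Aff0 := by
  intro h
  have := h 0 1 4
  revert this
  decide +kernel

theorem exists_equiv {Ω : Type*} [Fintype Ω] (f : Ω → Fin 4)
    (hf : ∀ i : Fin 4, Nat.card {x : Ω // f x = i} = 2) :
    ∃ e : Ω ≃ Fin 8, ∀ x, f0 (e x) = f x := by
  have ε : ∀ i : Fin 4, ({x : Ω // f x = i} ≃ Fin 2) := fun i =>
    Finite.equivFinOfCardEq (hf i)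
  refine ⟨(Equiv.sigmaFiberEquiv f).symm.trans ((Equiv.sigmaCongrRight ε).trans
    ((Equiv.sigmaEquivProd _ _).trans (finProdFinEquiv (m := 4) (n := 2)))), ?_⟩
  intro x
  simp [f0]

/-- Let Ω be a set with 8 elements and f : Ω → Fin 4 a labelling whose four fibres all have size 2 (a partition of the 8 points into 4 pairs). Then the group of even permutations preserving this partition, (S₂ ≀ S₄) ∩ A₈, is not a maximal subgroup of the alternating group A₈ (it lies in a subgroup isomorphic to the affine group AGL₃(2)). -/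
theorem result {Ω : Type*} [Fintype Ω] [DecidableEq Ω] (h8 : Fintype.card Ω = 8)
    (f : Ω → Fin 4) (hf : ∀ i : Fin 4, Nat.card {x : Ω // f x = i} = 2) :
    ¬ IsCoatom ((Subgroup.closure {g : Equiv.Perm Ω | ∀ x y : Ω, f x = f y ↔ f (g x) = f (g y)} ⊓ alternatingGroup Ω).subgroupOf (alternatingGroup Ω)) := by
  obtain ⟨e, he⟩ := exists_equiv f hf
  intro hco
  set φ : Equiv.Perm Ω ≃* Equiv.Perm (Fin 8) := e.permCongrHom with hφ
  have hφa : ∀ g x, φ g x = e (g (e.symm x)) := fun g x => rfl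
  have hsign : ∀ g, Equiv.Perm.sign (φ g) = Equiv.Perm.sign g := fun g =>
    Equiv.Perm.sign_permCongr e g
  have hcl : Subgroup.closure {g : Equiv.Perm Ω | ∀ x y : Ω, f x = f y ↔ f (g x) = f (g y)} ≤
      St0.comap φ.toMonoidHom := by
    rw [Subgroup.closure_le]
    intro g hg
    show ∀ x y, f0 x = f0 y ↔ f0 (φ g x) = f0 (φ g y)
    intro x y
    rw [hφa, hφa, he, he, ← hg, ← he, ← he]
    simp
  set K : Subgroup (alternatingGroup Ω) :=
    (Aff0.comap φ.toMonoidHom).subgroupOf (alternatingGroup Ω) with hK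
  have hle : (Subgroup.closure {g : Equiv.Perm Ω | ∀ x y : Ω, f x = f y ↔ f (g x) = f (g y)} ⊓
      alternatingGroup Ω).subgroupOf (alternatingGroup Ω) ≤ K := by
    intro g hg
    rw [Subgroup.mem_subgroupOf] at hg
    rw [hK, Subgroup.mem_subgroupOf]
    have h1 := hcl hg.1
    have h2 : Equiv.Perm.sign (g : Equiv.Perm Ω) = 1 := hg.2
    exact c1 _ h1 (by rw [← h2]; exact hsign _)
  have hk : φ.symm k0 ∈ alternatingGroup Ω := by
    rw [Equiv.Perm.mem_alternatingGroup, ← hsign, MulEquiv.apply_symm_apply, k0_sign]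
  have ht : φ.symm t0 ∈ alternatingGroup Ω := by
    rw [Equiv.Perm.mem_alternatingGroup, ← hsign, MulEquiv.apply_symm_apply, t0_sign]
  have hlt : (Subgroup.closure {g : Equiv.Perm Ω | ∀ x y : Ω, f x = f y ↔ f (g x) = f (g y)} ⊓
      alternatingGroup Ω).subgroupOf (alternatingGroup Ω) < K := by
    refine lt_of_le_of_ne hle ?_
    intro heq
    have h1 : (⟨φ.symm k0, hk⟩ : alternatingGroup Ω) ∈ K := by
      rw [hK, Subgroup.mem_subgroupOf]
      show φ (φ.symm k0) ∈ Aff0
      rw [MulEquiv.apply_symm_apply]; exact k0_aff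
    rw [← heq, Subgroup.mem_subgroupOf] at h1
    have h2 := hcl h1.1
    have h3 : φ (φ.symm k0) ∈ St0 := h2
    rw [MulEquiv.apply_symm_apply] at h3
    exact k0_not h3
  have htop := hco.2 K hlt
  have h1 : (⟨φ.symm t0, ht⟩ : alternatingGroup Ω) ∈ K := by rw [htop]; trivial
  rw [hK, Subgroup.mem_subgroupOf] at h1
  have h3 : φ (φ.symm t0) ∈ Aff0 := h1
  rw [MulEquiv.apply_symm_apply] at h3
  exact t0_not h3

end Cfsg.Agent.S5910
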