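import Cfsg.Statements.S5913
-- import your own Cfsg.Agent.* helpers here

set_option autoImplicit false
open Cfsg

namespace Cfsg.Agent.S5913

theorem exists_not_commute {S : Type*} [Group S] [IsSimpleGroup S] (hS : ¬ IsMulCommutative S)
    {a : S} (ha : a ≠ 1) : ∃ s : S, a * s * a⁻¹ * s⁻¹ ≠ 1 := by
  by_contra hcon
  push Not at hcon
  have hac : a ∈ Subgroup.center S := by
    rw [Subgroup.mem_center_iff]
    intro s
    have := hcon s
    rw [mul_inv_eq_one, mul_inv_eq_iff_eq_mul] at this
    exact this.symm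
  rcases (Subgroup.center S).normal_of_characteristic.eq_bot_or_eq_top with h | h
  · rw [h, Subgroup.mem_bot] at hac
    exact ha hac
  · apply hS
    refine ⟨⟨fun x y => ?_⟩⟩
    have hx : x ∈ Subgroup.center S := by rw [h]; trivial
    exact ((Subgroup.mem_center_iff.mp hx) y).symm

theorem mulSingle_mem {S : Type*} [Group S] [IsSimpleGroup S] (hS : ¬ IsMulCommutative S) {n : ℕ}
    (N : Subgroup (Fin n → S)) [hN : N.Normal] {i : Fin n} {x : Fin n → S} (hx : x ∈ N)
    (hxi : x i ≠ 1) (s : S) : Pi.mulSingle i s ∈ N := by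
  have hK : (N.comap (MonoidHom.mulSingle (fun _ : Fin n => S) i)).Normal := hN.comap _
  obtain ⟨t, ht⟩ := exists_not_commute hS hxi
  have hmem : x * Pi.mulSingle i t * x⁻¹ * (Pi.mulSingle i t)⁻¹ ∈ N := by
    rw [mul_assoc x, mul_assoc x]
    refine N.mul_mem hx ?_
    exact hN.conj_mem _ (N.inv_mem hx) _
  have heq : x * Pi.mulSingle i t * x⁻¹ * (Pi.mulSingle i t)⁻¹
      = Pi.mulSingle i (x i * t * (x i)⁻¹ * t⁻¹) := by
    funext j
    by_cases hj : j = i
    · subst hj; simp
    · simp [Pi.mulSingle_eq_of_ne hj]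
  rw [heq] at hmem
  rcases hK.eq_bot_or_eq_top with h | h
  · have : x i * t * (x i)⁻¹ * t⁻¹ ∈ N.comap (MonoidHom.mulSingle (fun _ : Fin n => S) i) := hmem
    rw [h, Subgroup.mem_bot] at this
    exact absurd this ht
  · have : s ∈ N.comap (MonoidHom.mulSingle (fun _ : Fin n => S) i) := by rw [h]; trivial
    exact this

/-- Let S be a non-abelian simple group and n a natural number. Every normal subgroup N of the direct power S^n (functions Fin n → S) is a subproduct: there is a set T of coordinates such that N consists exactly of the elements whose coordinates outside T are trivial. In particular the minimal normal subgroups of S^n are its n factors. -/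
theorem result {S : Type*} [Group S] [IsSimpleGroup S] (hS : ¬ IsMulCommutative S) (n : ℕ)
    (N : Subgroup (Fin n → S)) [N.Normal] :
    ∃ T : Finset (Fin n), ∀ x : Fin n → S, x ∈ N ↔ ∀ i, i ∉ T → x i = 1 := by
  classical
  refine ⟨Finset.univ.filter (fun i => ∃ x ∈ N, x i ≠ 1), fun x => ⟨?_, ?_⟩⟩
  · intro hx i hi
    by_contra hne
    exact hi (Finset.mem_filter.mpr ⟨Finset.mem_univ _, x, hx, hne⟩)
  · intro hx
    have hle : Subgroup.pi Set.univ (fun i : Fin n =>
        if i ∈ Finset.univ.filter (fun i => ∃ x ∈ N, x i ≠ 1) then (⊤ : Subgroup S) else ⊥) ≤ N := by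
      rw [Subgroup.pi_le_iff]
      intro i
      split_ifs with hi
      · obtain ⟨-, y, hy, hyi⟩ := Finset.mem_filter.mp hi
        rintro _ ⟨s, -, rfl⟩
        exact mulSingle_mem hS N hy hyi s
      · simp
    apply hle
    rw [Subgroup.mem_pi]
    intro i _
    split_ifs with hi
    · trivial
    · rw [Subgroup.mem_bot]
      exact hx i hi

end Cfsg.Agent.S5913
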