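import Cfsg.Statements.S5914
import Cfsg.Agent.S5913

set_option autoImplicit false
open Cfsg

namespace Cfsg.Agent.S5914

section power

variable {S : Type*} [Group S] {n : ℕ}

/-- Permuting the coordinates of a direct power. -/
def permAut (σ : Equiv.Perm (Fin n)) : (Fin n → S) ≃* (Fin n → S) where
  toFun x := x ∘ σ
  invFun x := x ∘ σ.symm
  left_inv x := by funext i; simp
  right_inv x := by funext i; simp
  map_mul' _ _ := rfl

theorem permAut_mulSingle (i j : Fin n) (s : S) :
    permAut (Equiv.swap i j) (Pi.mulSingle i s) = Pi.mulSingle j s := by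
  funext k
  show (Pi.mulSingle i s : Fin n → S) (Equiv.swap i j k) = _
  by_cases hk : k = j
  · subst hk; simp
  · rw [Pi.mulSingle_eq_of_ne hk]
    apply Pi.mulSingle_eq_of_ne
    intro h
    apply hk
    have := congrArg (Equiv.swap i j) h
    simpa using this

theorem eq_top_of_mulSingle (K : Subgroup (Fin n → S)) (hK : K.Characteristic) (i : Fin n)
    (h : ∀ s, Pi.mulSingle i s ∈ K) : K = ⊤ := by
  have hall : ∀ j s, (Pi.mulSingle j s : Fin n → S) ∈ K := by
    intro j s
    rw [← permAut_mulSingle i j s]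
    exact Subgroup.characteristic_iff_map_le.mp hK (permAut (Equiv.swap i j)) ⟨_, h s, rfl⟩
  rw [eq_top_iff, ← Subgroup.pi_top (Set.univ : Set (Fin n)), Subgroup.pi_le_iff]
  rintro j _ ⟨s, -, rfl⟩
  exact hall j s

theorem four (hc : ∀ a b : S, a * b = b * a) (a b c d : S) : a * b * (c * d) = a * c * (b * d) := by
  rw [mul_assoc, ← mul_assoc b, hc b c, mul_assoc c, ← mul_assoc]

/-- A transvection of a direct power of a commutative group. -/
def transv (hc : ∀ a b : S, a * b = b * a) (i j : Fin n) (hij : i ≠ j) :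
    (Fin n → S) ≃* (Fin n → S) where
  toFun y := y * Pi.mulSingle j (y i)
  invFun y := y * Pi.mulSingle j (y i)⁻¹
  left_inv y := by
    have h1 : (y * Pi.mulSingle j (y i) : Fin n → S) i = y i := by
      simp [Pi.mulSingle_eq_of_ne hij]
    simp only [h1]
    rw [mul_assoc, ← Pi.mulSingle_mul, mul_inv_cancel, Pi.mulSingle_one, mul_one]
  right_inv y := by
    have h1 : (y * Pi.mulSingle j (y i)⁻¹ : Fin n → S) i = y i := by
      simp [Pi.mulSingle_eq_of_ne hij]
    simp only [h1]
    rw [mul_assoc, ← Pi.mulSingle_mul, inv_mul_cancel, Pi.mulSingle_one, mul_one]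
  map_mul' y z := by
    funext k
    by_cases hk : k = j
    · subst hk
      simp only [Pi.mul_apply, Pi.mulSingle_eq_same]
      exact four hc _ _ _ _
    · simp [Pi.mulSingle_eq_of_ne hk]

theorem charSimple_power [IsSimpleGroup S] (K : Subgroup (Fin n → S)) (hK : K.Characteristic) :
    K = ⊥ ∨ K = ⊤ := by
  by_cases hbot : K = ⊥
  · exact Or.inl hbot
  right
  obtain ⟨⟨x, hx⟩, hx1⟩ := Subgroup.ne_bot_iff_exists_ne_one.mp hbot
  have hx1' : x ≠ 1 := fun h => hx1 (Subtype.ext h)
  obtain ⟨i, hi⟩ := Function.ne_iff.mp hx1'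
  have hi : x i ≠ 1 := hi
  by_cases hS : IsMulCommutative S
  · have hc : ∀ a b : S, a * b = b * a := fun a b => hS.is_comm.comm a b
    obtain ⟨j, s, hs1, hs⟩ : ∃ j s, s ≠ 1 ∧ (Pi.mulSingle j s : Fin n → S) ∈ K := by
      by_cases hj : ∃ j, i ≠ j
      · obtain ⟨j, hij⟩ := hj
        refine ⟨j, x i, hi, ?_⟩
        have h1 : transv hc i j hij x ∈ K :=
          Subgroup.characteristic_iff_map_le.mp hK (transv hc i j hij) ⟨_, hx, rfl⟩
        have h2 : x⁻¹ * transv hc i j hij x = Pi.mulSingle j (x i) := by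
          show x⁻¹ * (x * Pi.mulSingle j (x i)) = _
          rw [inv_mul_cancel_left]
        rw [← h2]
        exact K.mul_mem (K.inv_mem hx) h1
      · push Not at hj
        refine ⟨i, x i, hi, ?_⟩
        have : Pi.mulSingle i (x i) = x := by
          funext k
          rw [← hj k]; simp
        rw [this]; exact hx
    have hnorm : (K.comap (MonoidHom.mulSingle (fun _ : Fin n => S) j)).Normal :=
      ⟨fun a ha g => by rw [hc g a, mul_assoc, mul_inv_cancel, mul_one]; exact ha⟩
    rcases hnorm.eq_bot_or_eq_top with h | h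
    · exfalso
      have : s ∈ K.comap (MonoidHom.mulSingle (fun _ : Fin n => S) j) := hs
      rw [h, Subgroup.mem_bot] at this
      exact hs1 this
    · apply eq_top_of_mulSingle K hK j
      intro t
      have : t ∈ K.comap (MonoidHom.mulSingle (fun _ : Fin n => S) j) := by rw [h]; trivial
      exact this
  · have : K.Normal := Subgroup.normal_of_characteristic K
    exact eq_top_of_mulSingle K hK i (fun s => Cfsg.Agent.S5913.mulSingle_mem hS K hx hi s)

end power

theorem charSimple_of_equiv {G P : Type*} [Group G] [Group P] (e : G ≃* P)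
    (hP : ∀ K : Subgroup P, K.Characteristic → K = ⊥ ∨ K = ⊤) (H : Subgroup G)
    (hH : H.Characteristic) : H = ⊥ ∨ H = ⊤ := by
  have hchar : (H.map e.toMonoidHom).Characteristic := by
    rw [Subgroup.characteristic_iff_map_le]
    rintro φ _ ⟨_, ⟨h, hh, rfl⟩, rfl⟩
    refine ⟨e.symm (φ (e h)), ?_, by simp⟩
    exact Subgroup.characteristic_iff_map_le.mp hH (e.trans (φ.trans e.symm)) ⟨h, hh, rfl⟩
  rcases hP _ hchar with h | h
  · left
    exact (Subgroup.map_eq_bot_iff_of_injective H e.injective).mp h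
  · right
    rw [eq_top_iff]
    intro g _
    have : e g ∈ H.map e.toMonoidHom := by rw [h]; trivial
    obtain ⟨g', hg', hgg⟩ := this
    have : g' = g := e.injective hgg
    exact this ▸ hg'

section forward

variable {G : Type*} [Group G]

/-- Minimal normal subgroups. -/
def MinNormal (N : Subgroup G) : Prop :=
  N.Normal ∧ N ≠ ⊥ ∧ ∀ R : Subgroup G, R.Normal → R ≤ N → R = ⊥ ∨ R = N

theorem exists_minNormal [Finite G] [Nontrivial G] : ∃ N : Subgroup G, MinNormal N := by
  obtain ⟨N, hN, hmin⟩ := WellFounded.has_min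
    (wellFounded_lt : WellFounded ((· < ·) : Subgroup G → Subgroup G → Prop))
    {N | N.Normal ∧ N ≠ ⊥} ⟨⊤, inferInstance, top_ne_bot⟩
  refine ⟨N, hN.1, hN.2, fun R hR hle => ?_⟩
  by_cases hb : R = ⊥
  · exact Or.inl hb
  · right
    exact eq_of_le_of_not_lt hle (hmin R ⟨hR, hb⟩)

theorem MinNormal.map {N : Subgroup G} (h : MinNormal N) (α : G ≃* G) :
    MinNormal (N.map α.toMonoidHom) := by
  obtain ⟨h1, h2, h3⟩ := h
  refine ⟨h1.map _ α.surjective, ?_, ?_⟩
  · intro hb
    exact h2 ((Subgroup.map_eq_bot_iff_of_injective N α.injective).mp hb)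
  · intro R hR hle
    have hc : R.comap α.toMonoidHom ≤ N := by
      have := Subgroup.comap_mono (f := α.toMonoidHom) hle
      rwa [Subgroup.comap_map_eq_self_of_injective α.injective] at this
    have hR' : (R.comap α.toMonoidHom).map α.toMonoidHom = R :=
      Subgroup.map_comap_eq_self_of_surjective α.surjective R
    rcases h3 _ (hR.comap _) hc with h | h
    · left
      rw [← hR', h, Subgroup.map_bot]
    · right
      rw [← hR', h]

/-- An injective homomorphism from a power of `N` with normal image, extending the inclusion. -/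
def Good (N : Subgroup G) (n : ℕ) (f : (Fin (n + 1) → N) →* G) : Prop :=
  Function.Injective f ∧ f.range.Normal ∧ ∀ x : N, f (Pi.mulSingle 0 x) = x

theorem good_zero {N : Subgroup G} (hN : N.Normal) : ∃ f, Good N 0 f := by
  refine ⟨N.subtype.comp (Pi.evalMonoidHom (fun _ : Fin 1 => N) 0), ?_, ?_, ?_⟩
  · intro x y hxy
    funext i
    have : i = 0 := Fin.ext (by have := i.2; simp only [Fin.val_zero]; omega)
    rw [this]
    exact Subtype.ext hxy
  · have : (N.subtype.comp (Pi.evalMonoidHom (fun _ : Fin 1 => N) 0)).range = N := by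
      ext g
      constructor
      · rintro ⟨x, rfl⟩
        exact (x 0).2
      · intro hg
        exact ⟨fun _ => ⟨g, hg⟩, rfl⟩
    rw [this]; exact hN
  · intro x
    simp

theorem exists_not_le (hchar : ∀ H : Subgroup G, H.Characteristic → H = ⊥ ∨ H = ⊤)
    {N : Subgroup G} (hN : N ≠ ⊥) {M : Subgroup G} (hM : M ≠ ⊤) :
    ∃ α : G ≃* G, ¬ N.map α.toMonoidHom ≤ M := by
  by_contra hcon
  push Not at hcon
  have hC : (⨆ α : G ≃* G, N.map α.toMonoidHom).Characteristic := by
    rw [Subgroup.characteristic_iff_map_le]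
    intro β
    rw [Subgroup.map_iSup]
    apply iSup_le
    intro α
    rw [Subgroup.map_map]
    exact le_iSup (fun α : G ≃* G => N.map α.toMonoidHom) (α.trans β)
  have hNle : N ≤ ⨆ α : G ≃* G, N.map α.toMonoidHom := by
    refine le_trans ?_ (le_iSup (fun α : G ≃* G => N.map α.toMonoidHom) (MulEquiv.refl G))
    intro x hx
    exact ⟨x, hx, rfl⟩
  rcases hchar _ hC with h | h
  · apply hN
    rw [eq_bot_iff, ← h]; exact hNle
  · apply hM
    rw [eq_top_iff, ← h]
    exact iSup_le hcon

theorem good_succ (hchar : ∀ H : Subgroup G, H.Characteristic → H = ⊥ ∨ H = ⊤)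
    {N : Subgroup G} (hN : MinNormal N) {n : ℕ} {f : (Fin (n + 1) → N) →* G} (hf : Good N n f)
    (hne : f.range ≠ ⊤) : ∃ f', Good N (n + 1) f' := by
  obtain ⟨hinj, hnorm, h0⟩ := hf
  obtain ⟨α, hα⟩ := exists_not_le hchar hN.2.1 hne
  have hN' := hN.map α
  have hdisj : Disjoint f.range (N.map α.toMonoidHom) := by
    rw [disjoint_iff]
    have hn : (f.range ⊓ N.map α.toMonoidHom).Normal := by
      have := hN'.1
      infer_instance
    rcases hN'.2.2 _ hn inf_le_right with h | h
    · exact h
    · exfalso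
      apply hα
      rw [← h]; exact inf_le_left
  have hcomm : ∀ (y : Fin (n + 1) → N) (z : N), Commute (f y) (α z) := fun y z =>
    Subgroup.commute_of_normal_of_disjoint _ _ hnorm hN'.1 hdisj _ _ ⟨y, rfl⟩ ⟨z, z.2, rfl⟩
  let f' : (Fin (n + 1 + 1) → N) →* G := MonoidHom.mk'
    (fun x => f (fun i => x i.castSucc) * α (x (Fin.last _))) (by
      intro x y
      have h1 : (fun i : Fin (n + 1) => (x * y) i.castSucc)
          = (fun i => x i.castSucc) * (fun i => y i.castSucc) := rfl
      have h2 : (((x * y) (Fin.last (n + 1)) : N) : G)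
          = (x (Fin.last (n + 1)) : G) * (y (Fin.last (n + 1)) : G) := rfl
      simp only [h1, h2, map_mul]
      have h3 := (hcomm (fun i => y i.castSucc) (x (Fin.last _))).eq
      rw [mul_assoc, ← mul_assoc (f fun i => y i.castSucc), h3]
      simp only [mul_assoc])
  have hf' : ∀ x, f' x = f (fun i => x i.castSucc) * α (x (Fin.last _)) := fun _ => rfl
  refine ⟨f', ?_, ?_, ?_⟩
  · rw [injective_iff_map_eq_one]
    intro x hx
    rw [hf'] at hx
    have h1 : f (fun i => x i.castSucc) ∈ f.range ⊓ N.map α.toMonoidHom := by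
      refine ⟨⟨_, rfl⟩, ?_⟩
      rw [eq_inv_of_mul_eq_one_left hx]
      exact Subgroup.inv_mem _ ⟨_, (x (Fin.last _)).2, rfl⟩
    rw [disjoint_iff.mp hdisj, Subgroup.mem_bot] at h1
    rw [h1, one_mul] at hx
    have h2 : (fun i : Fin (n + 1) => x i.castSucc) = 1 := by
      apply hinj
      rw [h1, map_one]
    have h3 : x (Fin.last _) = 1 := by
      apply Subtype.ext
      apply α.injective
      rw [hx]; simp
    funext k
    induction k using Fin.lastCases with
    | last => exact h3
    | cast i => exact congrFun h2 i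
  · refine ⟨?_⟩
    rintro _ ⟨x, rfl⟩ c
    obtain ⟨y, hy⟩ := hnorm.conj_mem _ ⟨fun i => x i.castSucc, rfl⟩ c
    obtain ⟨z, hz, hz'⟩ := hN'.1.conj_mem _ ⟨_, (x (Fin.last _)).2, rfl⟩ c
    refine ⟨Fin.snoc (α := fun _ => N) y ⟨z, hz⟩, ?_⟩
    rw [hf', hf']
    simp only [Fin.snoc_castSucc, Fin.snoc_last]
    rw [hy]
    have hz'' : α z = c * α (x (Fin.last (n + 1))) * c⁻¹ := hz'
    rw [hz'']
    group
  · intro x
    rw [hf']
    have h1 : (fun i : Fin (n + 1) => (Pi.mulSingle 0 x : Fin (n + 1 + 1) → N) i.castSucc)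
        = Pi.mulSingle 0 x := by
      funext i
      by_cases hi : i = 0
      · subst hi; simp
      · rw [Pi.mulSingle_eq_of_ne hi]
        apply Pi.mulSingle_eq_of_ne
        intro h
        apply hi
        exact Fin.castSucc_injective _ (by simpa using h)
    have h2 : (Pi.mulSingle 0 x : Fin (n + 1 + 1) → N) (Fin.last (n + 1)) = 1 :=
      Pi.mulSingle_eq_of_ne (Fin.last_pos).ne' _
    rw [h1, h2, h0]
    simp

theorem exists_good_top [Finite G] (hchar : ∀ H : Subgroup G, H.Characteristic → H = ⊥ ∨ H = ⊤)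
    {N : Subgroup G} (hN : MinNormal N) : ∃ n f, Good N n f ∧ f.range = ⊤ := by
  by_contra hcon
  push Not at hcon
  have hall : ∀ n, ∃ f, Good N n f := by
    intro n
    induction n with
    | zero => exact good_zero hN.1
    | succ n ih =>
      obtain ⟨f, hf⟩ := ih
      exact good_succ hchar hN hf (hcon n f hf)
  obtain ⟨f, hf⟩ := hall (Nat.card G)
  have h1 := Nat.card_le_card_of_injective f hf.1
  rw [Nat.card_fun, Nat.card_eq_fintype_card (α := Fin _), Fintype.card_fin] at h1
  have h2 : 2 ≤ Nat.card N := by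
    have : Nontrivial N := (Subgroup.nontrivial_iff_ne_bot N).mpr hN.2.1
    exact Finite.one_lt_card
  have h3 : 2 ^ (Nat.card G + 1) ≤ Nat.card N ^ (Nat.card G + 1) := Nat.pow_le_pow_left h2 _
  have h4 : Nat.card G + 1 < 2 ^ (Nat.card G + 1) := Nat.lt_two_pow_self
  omega

theorem simple_of_good {N : Subgroup G} (hN : MinNormal N) {n : ℕ}
    {f : (Fin (n + 1) → N) →* G} (hf : Good N n f) (htop : f.range = ⊤) : IsSimpleGroup N := by
  have : Nontrivial N := (Subgroup.nontrivial_iff_ne_bot N).mpr hN.2.1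
  refine ⟨fun R hR => ?_⟩
  have hnorm : (R.map N.subtype).Normal := by
    refine ⟨?_⟩
    rintro _ ⟨r, hr, rfl⟩ g
    obtain ⟨y, rfl⟩ : g ∈ f.range := by rw [htop]; trivial
    refine ⟨y 0 * r * (y 0)⁻¹, hR.conj_mem r hr _, ?_⟩
    rw [Subgroup.subtype_apply, Subgroup.subtype_apply, ← hf.2.2 r, ← hf.2.2 (y 0 * r * (y 0)⁻¹),
      ← map_inv, ← map_mul, ← map_mul]
    congr 1
    funext k
    by_cases hk : k = 0
    · subst hk; simp
    · simp [Pi.mulSingle_eq_of_ne hk]
  rcases hN.2.2 _ hnorm (Subgroup.map_subtype_le R) with h | h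
  · left
    exact (Subgroup.map_eq_bot_iff_of_injective R (Subgroup.subtype_injective N)).mp h
  · right
    rw [eq_top_iff]
    intro x _
    have : (x : G) ∈ R.map N.subtype := by rw [h]; exact x.2
    obtain ⟨x', hx', hxx⟩ := this
    have : x' = x := Subtype.ext hxx
    exact this ▸ hx'

end forward

/-- A non-trivial finite group G is characteristically simple (its only characteristic subgroups are 1 and G) if and only if G is isomorphic to a direct power S^n (n ≥ 1) of some simple group S (possibly cyclic of prime order). -/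
theorem result {G : Type*} [Group G] [Finite G] [Nontrivial G] :
    (∀ H : Subgroup G, H.Characteristic → H = ⊥ ∨ H = ⊤) ↔
    ∃ (S : Type) (_ : Group S) (_ : IsSimpleGroup S) (n : ℕ), 1 ≤ n ∧ Nonempty (G ≃* (Fin n → S)) := by
  constructor
  · intro hchar
    obtain ⟨N, hN⟩ := exists_minNormal (G := G)
    obtain ⟨n, f, hf, htop⟩ := exists_good_top hchar hN
    have hsimple := simple_of_good hN hf htop
    have e₁ : (Fin (n + 1) → N) ≃* G := MulEquiv.ofBijective f
      ⟨hf.1, MonoidHom.range_eq_top.mp htop⟩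
    let e₀ : {_x : Fin (Nat.card N) // True} ≃ N :=
      (Equiv.subtypeUnivEquiv (fun _ => trivial)).trans (Finite.equivFin N).symm
    let inst : Group {_x : Fin (Nat.card N) // True} := e₀.group
    let e₂ : {_x : Fin (Nat.card N) // True} ≃* N := e₀.mulEquiv
    refine ⟨{_x : Fin (Nat.card N) // True}, inst, e₂.isSimpleGroup,
      n + 1, by omega, ⟨?_⟩⟩
    exact e₁.symm.trans (MulEquiv.piCongrRight (fun _ => e₂.symm))
  · rintro ⟨S, _, _, n, -, ⟨e⟩⟩ H hH
    exact charSimple_of_equiv e (fun K hK => charSimple_power K hK) H hH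

end Cfsg.Agent.S5914
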