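import Cfsg.Statements.S5983
import Mathlib
import Cfsg.Agent.Lib.H45SqInv
import Cfsg.Agent.Lib.H45SqIdx
import Cfsg.Agent.Lib.H45SqTor
import Cfsg.Agent.Lib.H45SqPlus
import Cfsg.Agent.Lib.H45SqSing
import Cfsg.Agent.Lib.H45SqFpLag
import Cfsg.Agent.Lib.H45SqDiag
import Cfsg.Agent.Lib.H45SqSigma
import Cfsg.Agent.Lib.H45SqUni
import Cfsg.Agent.Lib.H45SqBridgeA
import Cfsg.Agent.Lib.H45SqBridgeB
import Cfsg.Agent.Lib.H45SqScal
import Cfsg.Agent.Lib.Helper96OrthStd

set_option autoImplicit false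
open scoped MatrixGroups
open Cfsg

namespace Cfsg.Agent.S5983

open Cfsg.Agent.Lib Cfsg.Agent.Lib.H45SqDefs Cfsg.Agent.Lib.Helper45OspDefs in
theorem core {F : Type*} [Field F] [Fintype F] [CharP F 2] (d : ℕ) (hd : 1 ≤ d)
    (Q₀ : QuadraticForm F (Fin d ⊕ Fin d → F))
    (hnd : (QuadraticMap.polarBilin Q₀).Nondegenerate)
    (hpol : ∀ u v, QuadraticMap.polar Q₀ u v = Cfsg.sympForm d F u v)
    (r : ℕ) (hr : r.Prime)
    (hΩ : r ∣ (Cfsg.Geo.quadSimilarityGroup (⇑Q₀)).relIndex (Cfsg.spGL d F)) :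
    (∀ X : Module.End F (Fin d ⊕ Fin d → F), PIso Q₀ X → X ^ r = 1 → X ≠ 1 → Fx Q₀ X) ↔
    (r = 2 ∧ (Cfsg.Geo.IsPlusTypeOn (⇑Q₀) ⊤ ∨ Odd d)) := by
  have hW : Module.finrank F (Fin d ⊕ Fin d → F) = 2 * d := by
    rw [Module.finrank_fintype_fun_eq_card, Fintype.card_sum, Fintype.card_fin]; ring
  have hplus := H45SqPlus.plus_iff d hd Q₀ hnd
  have hdich := H45SqCls.dich d hd hW Q₀ hnd
  obtain ⟨k, -, hk⟩ := FiniteField.card F 2
  have hk' : Fintype.card F = 2 ^ (k : ℕ) := hk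
  constructor
  · intro H
    by_cases hr2 : r = 2
    · refine ⟨hr2, ?_⟩
      by_contra hcon
      push Not at hcon
      obtain ⟨hc1, hc2⟩ := hcon
      have hTm : Typ (-1) d Q₀ := by
        rcases hdich with h | h
        · exact absurd (hplus.2 h) hc1
        · exact h
      obtain ⟨σ, h1, h2⟩ := H45SqSigma.exists_sigma d (Nat.not_odd_iff_even.1 hc2)
      obtain ⟨N, n1, n2, n3, n4, n5⟩ := H45SqUni.uni d hd Q₀ hpol σ h1 h2
      exact H45SqInv.not_fx d Q₀ hTm _ (H45SqFpLag.fp_of_nil Q₀ d N n4 n5)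
        (H _ n1 (by rw [hr2]; exact n2) n3)
    · exfalso
      rcases hdich with hT | hT
      · have hidx := H45SqIdx.idx_plus d hd Q₀ hpol hT
        have hdvd := H45SqAr.dvd_plus _ d r _ k hk' hr hr2 hΩ hidx
        obtain ⟨X, x1, x2, x3⟩ := H45SqTor.exists_semireg d hd Q₀ hnd hW r hr hdvd
        have hX1 : X ≠ 1 := by
          rintro rfl
          have hne : (Pi.single (Sum.inl ⟨0, hd⟩) 1 : Fin d ⊕ Fin d → F) ≠ 0 := by
            intro h
            have := congrFun h (Sum.inl ⟨0, hd⟩)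
            simp at this
          exact hne (x3 _ rfl)
        obtain ⟨Q', hS, hI, hiso⟩ := H X x1 x2 hX1
        have hT' := Helper45OspStd.typ_of_isom Q₀ Q' hiso _ _ hT
        have hz := H45SqZeros.dvd_zeros Q' X r hr hI x2 x3
        rw [hT'.2.2.2] at hz
        exact H45SqAr.no_plus (Fintype.card F : ℤ) d r hd hr hr2 (by exact_mod_cast hdvd) hz
      · have hidx := H45SqIdx.idx_minus d hd Q₀ hpol hT
        have hdvd := H45SqAr.dvd_minus _ d r _ k hk' hr hr2 hΩ hidx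
        obtain ⟨A, a1, a2⟩ := H45SqSing.exists_mat (F := F) d hd r hr hdvd
        obtain ⟨X, U, x1, x2, x3, x4, x5, x6⟩ := H45SqDiag.diag d Q₀ hpol r hr.one_lt.le A a1 a2
        have hX1 : X ≠ 1 := by
          rintro rfl
          have hU0 : U = ⊥ := by
            rw [eq_bot_iff]
            intro u hu
            exact (Submodule.mem_bot F).2 (x6 u hu rfl)
          rw [hU0, finrank_bot] at x3
          omega
        exact H45SqInv.not_fx d Q₀ hT X (H45SqFpLag.fp_of_lag Q₀ d X U x3 x4 x5 x6) (H X x1 x2 hX1)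
  · rintro ⟨rfl, h⟩ X hP hX -
    rcases hdich with hT | hT
    · exact H45SqInv.inv d Q₀ 1 (Or.inl rfl) hT X (by rw [← sq]; exact hX) hP (Or.inl rfl)
    · refine H45SqInv.inv d Q₀ (-1) (Or.inr rfl) hT X (by rw [← sq]; exact hX) hP (Or.inr ?_)
      rcases h with h | h
      · exact (H45SqCls.typ_unique d Q₀ (hplus.1 h) hT).elim
      · exact h

/-- Elements of prime order of PSp_n(q), q even, and the subgroups of orthogonal type. Here `T = Sp_{2d}(F)` for a field `F` of characteristic 2 with `q` elements (`d ≥ 2`, `(d, q) ≠ (2, 2)`), realised as the invertible matrices preserving the standard alternating form; `Q` is a non-degenerate quadratic form on `F^{2d}` whose polar form is that alternating form, and `H` is the subgroup of `T` preserving `Q` up to a scalar (equivalently preserving `Q`) — a subgroup of type O^±_{2d}(q) (maximality is not assumed); `Q` is of plus type when `F^{2d}` contains a `d`-dimensional subspace on which `Q`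 vanishes, of minus type otherwise. Ω is the set of cosets of `H` in `T`, so an element of `T` of prime order `r` (`x ∈ T` with `x^r` scalar, `x` not scalar) fixes a point of Ω exactly when some `T`-conjugate of `x` preserves `Q`. Let `r` be a prime dividing the index of `H`. Then every element of `T` of order `r` fixes a point of Ω if and only if `r = 2` and either `Q` is of plus type or `d` is odd. -/
theorem result {F : Type*} [Field F] [Fintype F] {p : ℕ} [Fact p.Prime] [CharP F p] {q : ℕ} (hq : Fintype.card F = q)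
    (hp : p = 2) (d : ℕ) (hd : 2 ≤ d) (hT : (d, q) ≠ (2, 2)) (Q : (Fin d ⊕ Fin d → F) → F) (hQ : Cfsg.Geo.IsNondegenerateQuadraticForm Q)
    (hQf : ∀ u v, QuadraticMap.polar Q u v = Cfsg.sympForm d F u v)
    (r : ℕ) [Fact r.Prime]
    (hΩ : r ∣ (Cfsg.Geo.quadSimilarityGroup Q).relIndex (Cfsg.spGL d F)) :
    (∀ x ∈ Cfsg.spGL d F, (∃ z : F, ((x ^ r : GL (Fin d ⊕ Fin d) F) : Matrix (Fin d ⊕ Fin d) (Fin d ⊕ Fin d) F) = z • (1 : Matrix (Fin d ⊕ Fin d) (Fin d ⊕ Fin d) F)) →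
      (∀ z : F, (x : Matrix (Fin d ⊕ Fin d) (Fin d ⊕ Fin d) F) ≠ z • (1 : Matrix (Fin d ⊕ Fin d) (Fin d ⊕ Fin d) F)) →
      ∃ g ∈ Cfsg.spGL d F, g⁻¹ * x * g ∈ Cfsg.Geo.quadSimilarityGroup Q) ↔
    (r = 2 ∧ (Cfsg.Geo.IsPlusTypeOn Q ⊤ ∨ Odd d)) := by
  classical
  subst hp
  have hr : r.Prime := Fact.out
  have hd1 : 1 ≤ d := by omega
  obtain ⟨Q₀, rfl⟩ := Cfsg.Agent.Lib.Helper96OrthStd.exists_quad hQ
  have hnd : (QuadraticMap.polarBilin Q₀).Nondegenerate := by
    rw [Cfsg.Agent.Lib.Helper96OrthStd.polarBilin_eq Q₀ hQ]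
    exact Cfsg.Agent.Lib.Helper96OrthStd.stdB_nondegenerate hQ
  rw [← core d hd1 Q₀ hnd hQf r hr hΩ]
  constructor
  · intro H X hP hX hX1
    obtain ⟨x, rfl, hxr⟩ := Cfsg.Agent.Lib.H45SqScal.exists_gl d X r hr.one_lt.le hX
    have hx : x ∈ Cfsg.spGL d F := (Cfsg.Agent.Lib.H45SqScal.piso_iff d Q₀ hQf x).2 hP
    refine Cfsg.Agent.Lib.H45SqBridgeA.fx_of_conj d hd1 Q₀ hQf x hx (H x hx ⟨1, ?_⟩ ?_)
    · rw [hxr, one_smul]; rfl
    · intro z hz
      apply hX1
      rw [Cfsg.Agent.Lib.H45SqScal.scalar_eq_one d hd1 x hx z hz]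
      simp
      rfl
  · intro H x hx ⟨z, hz⟩ hns
    apply Cfsg.Agent.Lib.H45SqBridgeB.conj_of_fx d Q₀ hQf x
    have hxr : x ^ r = 1 :=
      Cfsg.Agent.Lib.H45SqScal.scalar_eq_one d hd1 (x ^ r) (Subgroup.pow_mem _ hx r) z hz
    refine H _ ((Cfsg.Agent.Lib.H45SqScal.piso_iff d Q₀ hQf x).1 hx) ?_ ?_
    · rw [← Matrix.toLin'_pow, ← Units.val_pow_eq_pow_val, hxr]
      simp
      rfl
    · intro h1
      apply hns 1
      rw [one_smul]
      apply Matrix.toLin'.injective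
      rw [h1, Matrix.toLin'_one]
      rfl

end Cfsg.Agent.S5983
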